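import Cfsg.Statements.S0247
import Mathlib
import Cfsg.Agent.Lib.Classical.EvenSymp
import Cfsg.Agent.Lib.Classical.SpOrder

set_option autoImplicit false
open Cfsg

namespace Cfsg.Agent.S0247

/-- Sp_4(2) is isomorphic to the symmetric group S_6. -/
theorem result {F : Type*} [Field F] [Fintype F] (hF : Fintype.card F = 2) : Nonempty (Matrix.symplecticGroup (Fin 2) F ≃* Equiv.Perm (Fin 6)) := by
  have h2 : (2 : F) = 0 := by
    have := FiniteField.cast_card_eq_zero F
    rw [hF] at this
    exact_mod_cast this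
  obtain ⟨f, hf⟩ := Cfsg.Agent.Lib.Classical.exists_sp_perm_hom (F := F) (Ω := Fin 6) h2 2 (le_refl _)
    (by simp)
  have hc : Nat.card (Matrix.symplecticGroup (Fin 2) F) = Nat.factorial 6 := by
    rw [Cfsg.Agent.Lib.Classical.card_sp hF 2]
    decide
  have : Finite (Matrix.symplecticGroup (Fin 2) F) := inferInstance
  exact Cfsg.Agent.Lib.Classical.nonempty_mulEquiv_of_injective_perm 6 f hf hc

end Cfsg.Agent.S0247
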