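import Cfsg.Statements.S0040
import Cfsg.Agent.Lib.OddLocal.FrobComp

set_option autoImplicit false
open Cfsg

namespace Cfsg.Agent.S0040

/-- Sylow subgroups of Frobenius complements: if H complements a nontrivial normal subgroup K and every nonidentity element of H has trivial centraliser in K, then each Sylow subgroup of H is cyclic or isomorphic to a generalized quaternion group. -/
theorem result {G : Type*} [Group G] [Finite G] (K H : Subgroup G) [K.Normal]
    (hc : Subgroup.IsComplement' K H) (hK : K ≠ ⊥) (hfpf : ∀ h ∈ H, h ≠ 1 → K ⊓ Subgroup.centralizer {h} = ⊥)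
    (p : ℕ) [Fact p.Prime] (P : Sylow p H) :
    IsCyclic P ∨ ∃ n : ℕ, Nonempty (P ≃* QuaternionGroup (2 ^ n)) := by
  let e := Subgroup.equivMapOfInjective (P : Subgroup H) H.subtype H.subtype_injective
  have hT : IsPGroup p ((P : Subgroup H).map H.subtype) :=
    P.isPGroup'.of_equiv e
  have hmem : ∀ h ∈ (P : Subgroup H).map H.subtype, h ∈ H := by
    rintro _ ⟨x, _, rfl⟩
    exact x.2
  rcases Cfsg.Agent.Lib.OddLocal.cyclic_or_quaternion_of_fpf hK hT (fun h hh => hfpf h (hmem h hh)) with h1 | ⟨n, ⟨f⟩⟩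
  · exact Or.inl (isCyclic_of_surjective e.symm e.symm.surjective)
  · exact Or.inr ⟨n, ⟨e.trans f⟩⟩

end Cfsg.Agent.S0040
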