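import Cfsg.Statements.S0184
import Cfsg.Agent.Lib.Char.Degree
import Cfsg.Agent.Lib.Char.Values
import Cfsg.Agent.Lib.Basic.Nilpotent
-- import your own Cfsg.Agent.* helpers here

set_option autoImplicit false
open Cfsg

namespace Cfsg.Agent.S0184

/-- A finite p-group admits a faithful irreducible complex representation if and only if its centre is cyclic. -/
theorem result {G : Type*} [Group G] [Finite G] (p : ℕ) [Fact p.Prime] (hG : IsPGroup p G) : (∃ (n : ℕ) (ρ : Representation ℂ G (Fin n → ℂ)), ρ.IsIrreducible ∧ Function.Injective ρ) ↔ IsCyclic (Subgroup.center G) := by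
  classical
  let _ : Fintype G := Fintype.ofFinite G
  constructor
  · rintro ⟨n, ρ, hirr, hinj⟩
    have hχ : Cfsg.IsIrrCharacter G ρ.character := ⟨n, ρ, hirr, rfl⟩
    have hχ1 := Cfsg.Agent.Lib.Char.IsIrrCharacter.apply_one_ne_zero hχ
    have hmul : ∀ (h : G) (z : G), z ∈ Subgroup.center G → ρ.character (h * z) = ρ.character h * (ρ.character z / ρ.character 1) := by
      intro h z hz
      have h1 := Cfsg.Agent.Lib.Char.apply_mul_of_mem_center hχ hz h
      field_simp
      linear_combination h1
    let f : Subgroup.center G →* ℂ :=
      { toFun := fun z => ρ.character (z : G) / ρ.character 1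
        map_one' := by
          simp only [OneMemClass.coe_one]
          exact div_self hχ1
        map_mul' := by
          intro x y
          simp only [Subgroup.coe_mul]
          rw [hmul x y y.2]
          ring }
    have hf : Function.Injective f := by
      intro x y hxy
      have h1 : ρ.character (x : G) / ρ.character 1 = ρ.character (y : G) / ρ.character 1 := hxy
      have h2 : ρ.character ((x : G) * (y : G)⁻¹) = ρ.character 1 := by
        have hyinv : (y : G)⁻¹ ∈ Subgroup.center G := Subgroup.inv_mem _ y.2
        have h3 : ρ.character (((x : G) * (y : G)⁻¹) * y) = ρ.character ((x : G) * (y : G)⁻¹) * (ρ.character y / ρ.character 1) :=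
          hmul _ y y.2
        rw [inv_mul_cancel_right] at h3
        have h4 : ρ.character (y : G) / ρ.character 1 ≠ 0 := by
          rw [← h1]
          intro h5
          have h6 := (div_eq_zero_iff.mp h5).resolve_right hχ1
          -- an element of the centre acts with nonzero trace
          have h7 : ρ.character ((x : G)⁻¹ * (x : G)) = ρ.character (x : G)⁻¹ * (ρ.character x / ρ.character 1) :=
            hmul _ x x.2
          rw [inv_mul_cancel, h6] at h7
          simp only [zero_div, mul_zero] at h7
          exact hχ1 h7
        have h8 : ρ.character (x : G) / ρ.character 1 = (ρ.character ((x : G) * (y : G)⁻¹) / ρ.character 1) * (ρ.character y / ρ.character 1) := by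
          rw [h3]
          ring
        rw [h1] at h8
        have h9 : ρ.character ((x : G) * (y : G)⁻¹) / ρ.character 1 = 1 := by
          have := mul_right_cancel₀ h4 (by rw [one_mul]; exact h8.symm : (ρ.character ((x : G) * (y : G)⁻¹) / ρ.character 1) * (ρ.character y / ρ.character 1) = 1 * (ρ.character y / ρ.character 1))
          exact this
        field_simp at h9
        exact h9
      rw [Representation.char_one] at h2
      have h10 := (Cfsg.Agent.Lib.Char.character_eq_finrank_iff ρ _).mp h2
      have h11 : (x : G) * (y : G)⁻¹ = 1 := hinj (by rw [h10, map_one]; rfl)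
      exact Subtype.ext (mul_inv_eq_one.mp h11)
    exact isCyclic_of_subgroup_isDomain f hf
  · intro hcyc
    by_cases htriv : Subsingleton G
    · -- trivial group
      refine ⟨1, (1 : G →* _), ?_, fun a b _ => Subsingleton.elim a b⟩
      exact Cfsg.Agent.Lib.Char.isIrreducible_of_finrank_eq_one _ (by simp)
    rw [not_subsingleton_iff_nontrivial] at htriv
    have hP : IsPGroup p (Subgroup.center G) := hG.to_subgroup _
    haveI := hG.center_nontrivial
    have hpZ : p ∣ Nat.card (Subgroup.center G) := by
      rcases hP.card_eq_or_dvd with h | h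
      · exfalso
        have := Finite.one_lt_card (α := Subgroup.center G)
        omega
      · exact h
    obtain ⟨z₀, hz₀⟩ := exists_prime_orderOf_dvd_card' p hpZ
    have hz₀1 : z₀ ≠ 1 := by
      rintro rfl
      rw [orderOf_one] at hz₀
      exact (Fact.out : p.Prime).one_lt.ne hz₀
    -- some irreducible character does not contain `z₀` in its kernel
    have hex : ∃ χ : Cfsg.IrrCharacter G, (χ : G → ℂ) (z₀ : G) ≠ (χ : G → ℂ) 1 := by
      by_contra hcon
      push Not at hcon
      have h1 := Cfsg.Agent.Lib.Char.sum_irr_degree_mul_apply (z₀ : G)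
      have hz1 : (z₀ : G) ≠ 1 := fun h => hz₀1 (Subtype.ext h)
      rw [if_neg hz1] at h1
      simp only [hcon] at h1
      have h2 := Cfsg.Agent.Lib.Char.sum_irr_degree_sq (G := G)
      simp only [pow_two] at h2
      rw [h1] at h2
      have h3 : Nat.card G ≠ 0 := Nat.card_pos.ne'
      exact h3 (by exact_mod_cast h2.symm)
    obtain ⟨χ, hχ⟩ := hex
    have hχc := Cfsg.Agent.Lib.Char.IsIrrCharacter.isCharacter χ.2
    have hkerN := Cfsg.Agent.Lib.Char.charKer_normal hχc
    have hker : Cfsg.Agent.Lib.Char.charKer (χ : G → ℂ) = ⊥ := by
      by_contra hne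
      haveI := hG.isNilpotent
      have h1 := Cfsg.Agent.Lib.Basic.normal_inf_center_ne_bot (Cfsg.Agent.Lib.Char.charKer (χ : G → ℂ)) hne
      -- an element of order `p` in the kernel and the centre
      let W : Subgroup (Subgroup.center G) := (Cfsg.Agent.Lib.Char.charKer (χ : G → ℂ)).subgroupOf (Subgroup.center G)
      have hWne : W ≠ ⊥ := by
        intro hW
        apply h1
        rw [eq_bot_iff]
        rintro x ⟨hx1, hx2⟩
        have : (⟨x, hx2⟩ : Subgroup.center G) ∈ W := hx1
        rw [hW] at this
        have h5 : (⟨x, hx2⟩ : Subgroup.center G) = 1 := this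
        have h6 : x = 1 := congrArg Subtype.val h5
        rw [h6]
        exact Subgroup.one_mem _
      haveI : Nontrivial W := (Subgroup.nontrivial_iff_ne_bot W).mpr hWne
      have hWp : IsPGroup p W := hP.to_subgroup W
      have hpW : p ∣ Nat.card W := by
        rcases hWp.card_eq_or_dvd with h | h
        · exfalso
          have := Finite.one_lt_card (α := W)
          omega
        · exact h
      obtain ⟨w, hw⟩ := exists_prime_orderOf_dvd_card' p hpW
      -- counting in the cyclic centre
      have hpos : 0 < p := (Fact.out : p.Prime).pos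
      have hcount := IsCyclic.card_pow_eq_one_le (α := Subgroup.center G) hpos
      let T : Finset (Subgroup.center G) := Finset.univ.filter (· ∈ Subgroup.zpowers (w : Subgroup.center G))
      have hTcard : T.card = p := by
        have h2 : orderOf (w : Subgroup.center G) = p := by
          rw [← hw]
          exact (Subgroup.orderOf_coe w)
        rw [← h2, ← Nat.card_zpowers, Nat.card_eq_fintype_card, Fintype.card_subtype]
      have hsub : T ⊆ Finset.univ.filter (fun a : Subgroup.center G => a ^ p = 1) := by
        intro a ha
        obtain ⟨k, rfl⟩ := Subgroup.mem_zpowers_iff.mp (Finset.mem_filter.mp ha).2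
        simp only [Finset.mem_filter, Finset.mem_univ, true_and]
        have h3 : (w : Subgroup.center G) ^ p = 1 := by
          have : w ^ p = 1 := by rw [← hw]; exact pow_orderOf_eq_one w
          exact_mod_cast congrArg Subtype.val this
        rw [← zpow_natCast, zpow_comm, zpow_natCast, h3, one_zpow]
      have heq := Finset.eq_of_subset_of_card_le hsub (by rw [hTcard]; exact hcount)
      have hz₀T : z₀ ∈ T := by
        rw [heq]
        simp only [Finset.mem_filter, Finset.mem_univ, true_and]
        rw [← hz₀]
        exact pow_orderOf_eq_one z₀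
      have hzmem := (Finset.mem_filter.mp hz₀T).2
      have hWz : z₀ ∈ W := by
        have h4 : Subgroup.zpowers (w : Subgroup.center G) ≤ W := by
          rw [Subgroup.zpowers_le]
          exact w.2
        exact h4 hzmem
      apply hχ
      exact (Cfsg.Agent.Lib.Char.mem_charKer hχc).mp hWz
    obtain ⟨n, ρ, hirr, hρ⟩ := χ.2
    refine ⟨n, ρ, hirr, ?_⟩
    intro a b hab
    have h1 : a * b⁻¹ ∈ Cfsg.Agent.Lib.Char.charKer (χ : G → ℂ) := by
      rw [Cfsg.Agent.Lib.Char.mem_charKer hχc, ← hρ, Representation.char_one]
      apply (Cfsg.Agent.Lib.Char.character_eq_finrank_iff ρ _).mpr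
      rw [map_mul, hab, ← map_mul, mul_inv_cancel, map_one]
      rfl
    rw [hker] at h1
    exact mul_inv_eq_one.mp (by simpa using h1)

end Cfsg.Agent.S0184
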