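import Cfsg.Statements.S0042
import Cfsg.Agent.S0033
import Cfsg.Agent.S0035

set_option autoImplicit false
open Cfsg

namespace Cfsg.Agent.S0042

open scoped Pointwise

/-- In a finite Frobenius group, the Frobenius kernel is (the carrier of) a normal subgroup which is nilpotent. -/
theorem result {G : Type*} [Group G] [Finite G] (H : Subgroup G) (hH : Cfsg.IsFrobeniusComplement H) :
    ∃ N : Subgroup G, (N : Set G) = Cfsg.frobeniusKernel H ∧ N.Normal ∧ Group.IsNilpotent N := by
  classical
  obtain ⟨N, hN, hNn, hc⟩ := Cfsg.Agent.S0035.result H hH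
  refine ⟨N, hN, hNn, ?_⟩
  by_cases hnt : Nontrivial N
  swap
  · haveI : Subsingleton N := not_nontrivial_iff_subsingleton.mp hnt
    infer_instance
  obtain ⟨hH1, -, hH3⟩ := id hH
  haveI : Nontrivial H := (Subgroup.nontrivial_iff_ne_bot H).mpr hH1
  have hcard : Nat.card H ≠ 1 := Finite.one_lt_card_iff_nontrivial.mpr inferInstance |>.ne'
  obtain ⟨q, hq, hqd⟩ := Nat.exists_prime_and_dvd hcard
  haveI : Fact q.Prime := ⟨hq⟩
  obtain ⟨y, hy⟩ := exists_prime_orderOf_dvd_card' (G := H) q hqd
  have hy1 : (y : G) ≠ 1 := by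
    intro h
    have : y = 1 := Subtype.ext h
    rw [this, orderOf_one] at hy
    exact hq.one_lt.ne hy
  let c : MulAut N := MulAut.conjNormal (y : G)
  have hcap : ∀ x : N, (c x : G) = (y : G) * x * (y : G)⁻¹ := fun x => MulAut.conjNormal_apply _ _
  have hfpf : MonoidHom.FixedPointFree ((c : N ≃* N) : N →* N) := by
    intro x hx
    have h1 : (y : G) * x * (y : G)⁻¹ = x := by
      rw [← hcap]
      exact congrArg Subtype.val hx
    have hxH : (x : G) ∈ H := by
      by_contra hxH
      have h2 := hH3 x hxH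
      have h3 : (y : G) ∈ H ⊓ (MulAut.conj (x : G) • H) := by
        refine ⟨y.2, ?_⟩
        refine Subgroup.mem_pointwise_smul_iff_inv_smul_mem.mpr ?_
        have h4 : (MulAut.conj (x : G))⁻¹ • (y : G) = (x : G)⁻¹ * y * x := by
          rw [MulAut.smul_def, MulAut.conj_inv_apply]
        rw [h4]
        have h5 : (x : G)⁻¹ * y * x = y := by
          rw [mul_inv_eq_iff_eq_mul] at h1
          rw [mul_assoc, h1]
          group
        rw [h5]
        exact y.2
      rw [h2, Subgroup.mem_bot] at h3
      exact hy1 h3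
    have hdisj := hc.disjoint
    exact Subtype.ext (Subgroup.disjoint_def.mp hdisj x.2 hxH)
  have hcq : c ^ q = 1 := by
    have h1 : (y : G) ^ q = 1 := by
      have := pow_orderOf_eq_one y
      rw [hy] at this
      exact congrArg Subtype.val this
    show (MulAut.conjNormal (y : G) : MulAut N) ^ q = 1
    rw [← map_pow, h1, map_one]
  have hc1 : c ≠ 1 := by
    intro h
    obtain ⟨x, hx⟩ := exists_ne (1 : N)
    apply hx
    apply hfpf
    rw [h]
    rfl
  exact Cfsg.Agent.S0033.result c hfpf q hq (orderOf_eq_prime hcq hc1)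

end Cfsg.Agent.S0042
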