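import Cfsg.Statements.S0347
import Cfsg.Agent.Lib.ZT.ZT7

set_option autoImplicit false
open Cfsg

namespace Cfsg.Agent.S0347

/-- If in a finite simple Zassenhaus group the stabiliser of a point `x` has a normal `2`-subgroup `U` which is
non-abelian and acts regularly on the points other than `x`, then the group is simple of Suzuki order (order-level
predicate `IsSuzuki`). -/
theorem result {G Ω : Type*} [Group G] [Finite G] [MulAction G Ω] [Finite Ω]
    (hZ : Cfsg.IsZassenhausGroup G Ω) [IsSimpleGroup G]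
    (x : Ω) (U : Subgroup G) (hUle : U ≤ MulAction.stabilizer G x) (hUn : (U.subgroupOf (MulAction.stabilizer G x)).Normal)
    (hU2 : IsPGroup 2 U) (hUna : ∃ u v : U, u * v ≠ v * u)
    (hreg : ∀ y z : Ω, y ≠ x → z ≠ x → ∃! u : U, (u : G) • y = z) :
    Cfsg.IsSuzuki G := by
  classical
  have hZ' := hZ
  obtain ⟨hfaith, h2T, h3, ⟨g₀, hg₀1, a₀, b₀, hab₀, hg₀a, hg₀b⟩, hnoreg⟩ := hZ'
  obtain ⟨b, hb⟩ : ∃ b : Ω, x ≠ b := by
    by_contra hcon
    push Not at hcon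
    exact hab₀ ((hcon a₀).symm.trans (hcon b₀))
  have hUn' : ∀ h ∈ MulAction.stabilizer G x, ∀ u ∈ U, h * u * h⁻¹ ∈ U := by
    intro h hh u hu
    have h1 := hUn.conj_mem ⟨u, hUle hu⟩ (Subgroup.mem_subgroupOf.mpr hu) ⟨h, hh⟩
    exact Subgroup.mem_subgroupOf.mp h1
  have hUna' : ∃ u ∈ U, ∃ v ∈ U, u * v ≠ v * u := by
    obtain ⟨u, v, huv⟩ := hUna
    exact ⟨u, u.2, v, v.2, fun h => huv (Subtype.ext h)⟩
  obtain ⟨n, hn1, hn2, -, -, -, -, hcard⟩ :=
    Cfsg.Agent.Lib.ZT.suzuki_main_aux hZ hb U hUle hUn' hreg hU2 hUna'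
  obtain ⟨m, rfl⟩ := hn1
  refine ⟨inferInstance, m, by omega, hcard⟩

end Cfsg.Agent.S0347
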