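import Cfsg.Statements.S0731
import Cfsg.Agent.Lib.Perm.ZNFinal
import Mathlib

set_option autoImplicit false
open Cfsg

namespace Cfsg.Agent.S0731

/-- A finite Zassenhaus group whose point stabiliser has an abelian regular normal subgroup on the remaining points is sharply triply transitive or isomorphic to `PSL(2, F)` for a finite field `F` of odd characteristic. -/
theorem result {G Ω : Type*} [Group G] [Finite G] [MulAction G Ω] [Finite Ω] (hZ : Cfsg.IsZassenhausGroup G Ω) (x : Ω) (F : Subgroup G) (hFle : F ≤ MulAction.stabilizer G x) (hFn : (F.subgroupOf (MulAction.stabilizer G x)).Normal) (hFab : IsMulCommutative F) (hreg : ∀ y z : Ω, y ≠ x → z ≠ x → ∃! u : F, (u : G) • y = z) : (MulAction.IsMultiplyPretransitive G Ω 3 ∧ ∀ t : Fin 3 ↪ Ω, MulAction.stabilizer G t = ⊥) ∨ ∃ (K : Type) (_ : Field K) (_ : Fintype K), ringChar K ≠ 2 ∧ Nonempty (G ≃* Matrix.ProjectiveSpecialLinearGroup (Fin 2) K) := by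
  classical
  letI := Fintype.ofFinite Ω
  obtain ⟨g₀, -, a₀, b₀, hab₀, -, -⟩ := hZ.2.2.2.1
  obtain ⟨b, hb⟩ : ∃ b : Ω, b ≠ x := by
    by_cases h : a₀ = x
    · exact ⟨b₀, fun h2 => hab₀ (h.trans h2.symm)⟩
    · exact ⟨a₀, h⟩
  have hcard : Nat.card F + 1 = Fintype.card Ω := by
    let φ : F → {y : Ω // y ≠ x} := fun u => ⟨(u : G) • b, by
      intro h
      have h1 : (u : G) • x = x := hFle u.2
      exact hb (MulAction.injective (u : G) (h.trans h1.symm))⟩
    have hφ : Function.Bijective φ := by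
      constructor
      · intro u v huv
        have h1 : (u : G) • b = (v : G) • b := congrArg Subtype.val huv
        obtain ⟨w, -, hw⟩ := hreg b ((u : G) • b) hb (φ u).2
        exact (hw u rfl).trans (hw v h1.symm).symm
      · rintro ⟨y, hy⟩
        obtain ⟨u, hu, -⟩ := hreg b y hb hy
        exact ⟨u, Subtype.ext hu⟩
    rw [Nat.card_congr (Equiv.ofBijective φ hφ), Nat.card_eq_fintype_card, Fintype.card_subtype_compl,
      Fintype.card_subtype_eq]
    have : 0 < Fintype.card Ω := Fintype.card_pos_iff.mpr ⟨x⟩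
    omega
  have hFfix : ∀ u ∈ F, u ≠ 1 → ∀ c : Ω, u • c = c → c = x := by
    intro u hu hu1 c hc
    by_contra hcx
    obtain ⟨w, -, hw⟩ := hreg c c hcx hcx
    have h1 := hw ⟨u, hu⟩ hc
    have h2 := hw 1 (by simp)
    apply hu1
    exact congrArg Subtype.val (h1.trans h2.symm)
  have hFc : ∀ u ∈ F, ∀ v ∈ F, u * v = v * u := by
    intro u hu v hv
    have := hFab.is_comm.comm (⟨u, hu⟩ : F) ⟨v, hv⟩
    exact congrArg Subtype.val this
  exact Cfsg.Agent.Lib.Perm.zt_structure hZ hb.symm hcard hFle hFfix hFc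

end Cfsg.Agent.S0731
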