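import Cfsg.Statements.S3789
-- import your own Cfsg.Agent.* helpers here
import Mathlib
import Cfsg.Agent.Lib.Coprime.HHB5
import Cfsg.Agent.Lib.Coprime.CycCore
import Cfsg.Agent.Lib.Transfer.Frattini

set_option autoImplicit false
open Cfsg

namespace Cfsg.Agent.S3789

open Subgroup Cfsg Cfsg.Agent.Lib.Coprime Cfsg.Agent.Lib.Coprime.HHB Cfsg.Agent.Lib.Coprime.CycCore Cfsg.Agent.Lib.Coprime.PLen Module
open scoped commutatorElement

universe u₀

section Aut

variable {F : Type*} [Group F] [Finite F] {p q : ℕ} [hpf : Fact p.Prime] [hqf : Fact q.Prime]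
  {A : Type*} [Group A] [Finite A]

/-- The iterated commutator operator. -/
def bd (α : F →* MulAut A) (x : ℕ → F) : ℕ → ℕ → A → A
  | 0, _, v => v
  | n + 1, i, v => bd α x n (i + 1) (α (x i) v * v⁻¹)

theorem thmD_aut_aux {A : Type*} [CommGroup A] [Finite A] [Module (ZMod p) (Additive A)] (α : F →* MulAut A)
    (hα : Function.Injective α) (hp2 : p ≠ 2) (hqp : q ≠ p) (Y : Subgroup F)
    (hY : IsPGroup p Y) (a : F) (haY : a ∈ Y) (hac : ∀ g ∈ Y, g * a = a * g) (hap : a ^ p = 1) (j : ℕ)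
    (haj : a ∈ D Y (j + 1)) (hN2 : ∀ v : A, α a (α a v * v⁻¹) * (α a v * v⁻¹)⁻¹ = 1)
    (hvan : ∀ x : ℕ → F, (∀ i, x i ∈ D Y i) → ∀ v : A, α a (bd α x (j + 1) 0 v) * (bd α x (j + 1) 0 v)⁻¹ = 1)
    (R : Subgroup F) (hqR : IsPGroup q R) (hYR : Y ≤ normalizer (R : Set F)) (hne : ∃ r ∈ R, a * r ≠ r * a) : False := by
  classical
  haveI hFinA : Finite (Additive A) := inferInstanceAs (Finite A)
  haveI hFD : FiniteDimensional (ZMod p) (Additive A) := Module.Finite.of_finite
  let f : F → End (ZMod p) (Additive A) := fun g => linOf p (α g).toMonoidHom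
  have hf : ∀ (g : F) (a : Additive A), f g a = Additive.ofMul (α g (Additive.toMul a)) := fun _ _ => rfl
  let ρ : F →* End (ZMod p) (Additive A) :=
    { toFun := f
      map_one' := LinearMap.ext fun x => by
        rw [hf, Module.End.one_apply]
        simp
      map_mul' := fun a b => LinearMap.ext fun x => by
        rw [Module.End.mul_apply, hf, hf, hf]
        simp }
  have hρ : ∀ (g : F) (a : A), ρ g (Additive.ofMul a) = Additive.ofMul (α g a) := fun _ _ => rfl
  have hρ1 : ∀ (g : F) (v : A), (ρ g - 1) (Additive.ofMul v) = Additive.ofMul (α g v * v⁻¹) :=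
    fun g v => linOf_sub_one (p := p) (α g).toMonoidHom v
  have hρinj : Function.Injective ρ := by
    intro g g' h
    apply hα
    ext c
    have h3 : ρ g (Additive.ofMul c) = ρ g' (Additive.ofMul c) := by rw [h]
    rw [hρ, hρ] at h3
    exact Additive.ofMul.injective h3
  have hb : ∀ (x : ℕ → F) (n i : ℕ) (v : A), bOp ρ x n i (Additive.ofMul v) = Additive.ofMul (bd α x n i v) := by
    intro x n
    induction n with
    | zero => intro i v; rfl
    | succ n ih =>
      intro i v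
      change bOp ρ x n (i + 1) ((ρ (x i) - 1) (Additive.ofMul v)) = _
      rw [hρ1, ih]
      rfl
  refine thmD hp2 ρ hρinj hqp Y hY a haY hac hap j haj ?_ ?_ R hqR hYR hne
  · rw [pow_two]
    apply LinearMap.ext
    intro v
    change (ρ a - 1) ((ρ a - 1) (Additive.ofMul (Additive.toMul v))) = 0
    rw [hρ1, hρ1, hN2]
    rfl
  · intro x hx
    apply LinearMap.ext
    intro v
    change (ρ a - 1) (bOp ρ x (j + 1) 0 (Additive.ofMul (Additive.toMul v))) = 0
    rw [hb, hρ1, hvan x hx]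
    rfl

theorem thmD_aut (hAc : ∀ a b : A, a * b = b * a) (hAe : ∀ a : A, a ^ p = 1) (α : F →* MulAut A)
    (hα : Function.Injective α) (hp2 : p ≠ 2) (hqp : q ≠ p) (Y : Subgroup F)
    (hY : IsPGroup p Y) (a : F) (haY : a ∈ Y) (hac : ∀ g ∈ Y, g * a = a * g) (hap : a ^ p = 1) (j : ℕ)
    (haj : a ∈ D Y (j + 1)) (hN2 : ∀ v : A, α a (α a v * v⁻¹) * (α a v * v⁻¹)⁻¹ = 1)
    (hvan : ∀ x : ℕ → F, (∀ i, x i ∈ D Y i) → ∀ v : A, α a (bd α x (j + 1) 0 v) * (bd α x (j + 1) 0 v)⁻¹ = 1)
    (R : Subgroup F) (hqR : IsPGroup q R) (hYR : Y ≤ normalizer (R : Set F)) (hne : ∃ r ∈ R, a * r ≠ r * a) : False := by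
  letI : CommGroup A := { (inferInstance : Group A) with mul_comm := hAc }
  letI : Module (ZMod p) (Additive A) := AddCommGroup.zmodModule (n := p) (fun x => by
    change Additive.ofMul ((Additive.toMul x) ^ p) = 0
    rw [hAe]
    rfl)
  exact thmD_aut_aux α hα hp2 hqp Y hY a haY hac hap j haj hN2 hvan R hqR hYR hne

end Aut

section Group

variable {G : Type*} [Group G] [Finite G] {p : ℕ} [hpf : Fact p.Prime]

theorem D_conj (Y : Subgroup G) (n : ℕ) : ∀ g ∈ Y, ∀ u ∈ D Y n, g * u * g⁻¹ ∈ D Y n := by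
  induction n with
  | zero =>
    intro g hg u hu
    exact mul_mem (mul_mem hg hu) (inv_mem hg)
  | succ n ih =>
    intro g hg u hu
    have h1 : (⁅D Y n, D Y n⁆).map (MulAut.conj g).toMonoidHom ≤ ⁅D Y n, D Y n⁆ := by
      rw [Subgroup.map_commutator]
      apply Subgroup.commutator_mono <;>
      · rintro _ ⟨x, hx, rfl⟩
        exact ih g hg x hx
    exact h1 ⟨u, hu, rfl⟩

/-- A Sylow subgroup of `O_{p'}` which is invariant and not centralized. -/
theorem exists_sylow_moved {H : Type*} [Group H] [Finite H] (L Y : Subgroup H) [hLn : L.Normal] (hYp : IsPGroup p Y)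
    (hL : (Nat.card L).Coprime p) {b : H} (hbY : b ∈ Y) (hnc : b ∉ centralizer (L : Set H)) :
    ∃ (q : ℕ) (_ : Fact q.Prime) (R : Subgroup H), q ≠ p ∧ IsPGroup q R ∧ Y ≤ normalizer (R : Set H) ∧ ∃ r ∈ R, b * r ≠ r * b := by
  classical
  have hAK : Y ≤ normalizer (L : Set H) := by
    rw [Subgroup.normalizer_eq_top_iff.mpr hLn]
    exact le_top
  have hcop : (Nat.card Y).Coprime (Nat.card L) := by
    obtain ⟨k, hk⟩ := IsPGroup.iff_card.mp hYp
    rw [hk]
    exact (hL.symm).pow_left k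
  have hAs : Group.IsSolvable Y := by
    haveI := hYp.isNilpotent
    infer_instance
  obtain ⟨q, hqf, P, hPn, r₀, hr₀, hr₀ne⟩ : ∃ (q : ℕ) (_ : Fact q.Prime) (P : Sylow q L),
      Y ≤ normalizer (((P : Subgroup L).map L.subtype : Subgroup H) : Set H) ∧
      ∃ r ∈ (P : Subgroup L).map L.subtype, b * r ≠ r * b := by
    by_contra hcon
    push Not at hcon
    apply hnc
    let L₀ : Subgroup L := (centralizer ({b} : Set H)).subgroupOf L
    have hL₀ : L₀ = ⊤ := by
      rw [← Subgroup.index_eq_one]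
      by_contra hne
      obtain ⟨q, hq, hdvd⟩ := Nat.exists_prime_and_dvd hne
      haveI hqf : Fact q.Prime := ⟨hq⟩
      obtain ⟨P, hPn⟩ := Cfsg.Agent.Lib.Basic.exists_invariant_sylow hAK hcop (Or.inl hAs) q
      have hPL : (P : Subgroup L) ≤ L₀ := by
        intro y hy
        refine Subgroup.mem_subgroupOf.mpr ?_
        rw [Subgroup.mem_centralizer_singleton_iff]
        have h1 := hcon q hqf P hPn (y : H) ⟨y, hy, rfl⟩
        exact h1.symm
      have h2 := Subgroup.relIndex_mul_index hPL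
      apply P.not_dvd_index
      rw [← h2]
      exact Dvd.dvd.mul_left hdvd _
    rw [Subgroup.mem_centralizer_iff]
    intro y hy
    have h1 : (⟨y, hy⟩ : L) ∈ L₀ := by rw [hL₀]; exact mem_top _
    have h2 := Subgroup.mem_centralizer_singleton_iff.mp (Subgroup.mem_subgroupOf.mp h1)
    exact h2
  set Rb : Subgroup H := (P : Subgroup L).map L.subtype with hRb
  have hRbq : IsPGroup q Rb := P.isPGroup'.map _
  have hRbK : Rb ≤ L := Subgroup.map_subtype_le _
  have hqp : q ≠ p := by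
    rintro rfl
    apply hr₀ne
    have h1 : r₀ = 1 := by
      obtain ⟨j, hj⟩ := hRbq ⟨r₀, hr₀⟩
      have h2 : r₀ ^ q ^ j = 1 := congrArg Subtype.val hj
      have h3 : orderOf (⟨r₀, hRbK hr₀⟩ : L) ∣ q ^ j := by
        apply orderOf_dvd_of_pow_eq_one
        exact Subtype.ext h2
      have h4 : orderOf (⟨r₀, hRbK hr₀⟩ : L) ∣ Nat.card L := orderOf_dvd_natCard _
      have h5 := Nat.eq_one_of_dvd_coprimes (hL.pow_right j) h4 h3
      rw [orderOf_eq_one_iff] at h5
      exact congrArg Subtype.val h5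
    rw [h1]
    group
  exact ⟨q, hqf, Rb, hqp, hRbq, hPn, r₀, hr₀, hr₀ne⟩

/-- **The main step**, when `O_{p'}(G) = 1`. -/
theorem core_deriv (hp2 : p ≠ 2) (hG : IsPSolvable p G) (hO : pPrimeCore p G = ⊥) (P : Sylow p G) (j : ℕ)
    (hd : D (P : Subgroup G) (j + 2) = ⊥) : D (P : Subgroup G) (j + 1) ≤ pCore p G := by
  classical
  have hp := hpf.out
  by_contra hcon
  set O : Subgroup G := pCore p G with hOdef
  haveI hOn : O.Normal := Cfsg.Agent.Lib.Basic.pCore_normal p
  have hOp : IsPGroup p ↥O := Cfsg.Agent.Lib.Basic.pCore_isPGroup p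
  have hOP : O ≤ (P : Subgroup G) := Cfsg.Agent.Lib.Basic.pCore_le_sylow P
  let π : G →* G ⧸ O := QuotientGroup.mk' O
  have hπ : Function.Surjective π := QuotientGroup.mk'_surjective O
  have hπ1 : ∀ g, π g = 1 ↔ g ∈ O := fun g => QuotientGroup.eq_one_iff g
  set Y : Subgroup (G ⧸ O) := (P : Subgroup G).map π with hY
  have hYp : IsPGroup p Y := P.isPGroup'.map π
  have hDY : ∀ i, D Y i = (D (P : Subgroup G) i).map π := fun i => (D_map π (P : Subgroup G) i).symm
  -- a central element of order `p`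
  obtain ⟨a, haj, ha1, hac, hap⟩ : ∃ a ∈ D Y (j + 1), a ≠ 1 ∧ (∀ g ∈ Y, g * a = a * g) ∧ a ^ p = 1 := by
    let N : Subgroup ↥Y := (D Y (j + 1)).subgroupOf Y
    haveI hNn : N.Normal := by
      constructor
      intro n hn g
      rw [Subgroup.mem_subgroupOf] at hn ⊢
      exact D_conj Y (j + 1) g g.2 n hn
    have hNne : N ≠ ⊥ := by
      intro h0
      apply hcon
      intro x hx
      have h1 : π x ∈ D Y (j + 1) := by
        rw [hDY]
        exact ⟨x, hx, rfl⟩
      have h2 : π x ∈ Y := D_le Y (j + 1) h1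
      have h3 : (⟨π x, h2⟩ : ↥Y) ∈ N := Subgroup.mem_subgroupOf.mpr h1
      rw [h0, Subgroup.mem_bot] at h3
      exact (hπ1 x).mp (congrArg Subtype.val h3)
    obtain ⟨z, hzN, hz1, hzc, hzp⟩ := Cfsg.Agent.Lib.Transfer.exists_central_of_normal hYp hNne
    refine ⟨z, Subgroup.mem_subgroupOf.mp hzN, fun h => hz1 (Subtype.ext h), ?_, congrArg Subtype.val hzp⟩
    intro g hg
    exact congrArg Subtype.val (hzc ⟨g, hg⟩)
  have haY : a ∈ Y := D_le Y (j + 1) haj
  obtain ⟨a₀, ha₀, rfl⟩ : ∃ a₀ ∈ D (P : Subgroup G) (j + 1), π a₀ = a := by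
    rw [hDY] at haj
    exact haj
  have ha₀P : a₀ ∈ (P : Subgroup G) := D_le _ _ ha₀
  -- `a` acts nontrivially on `O_{p'}`
  have hcore : pCore p (G ⧸ O) = ⊥ := pCore_quot_self'
  have hGb : IsPSolvable p (G ⧸ O) := isPSolvable_map π hπ hG
  have hC := Cfsg.Agent.Lib.PLocal.centralizer_pPrimeCore_le_of_isPSolvable hGb hcore
  set L : Subgroup (G ⧸ O) := pPrimeCore p (G ⧸ O) with hL
  haveI hLn : L.Normal := Cfsg.Agent.Lib.Basic.pPrimeCore_normal p
  have hLcop : (Nat.card L).Coprime p := Cfsg.Agent.Lib.Basic.pPrimeCore_coprime p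
  have haL : π a₀ ∉ L := by
    intro h
    apply ha1
    have h1 : orderOf (⟨π a₀, h⟩ : L) ∣ Nat.card L := orderOf_dvd_natCard _
    have h2 : orderOf (⟨π a₀, h⟩ : L) ∣ p := by
      apply orderOf_dvd_of_pow_eq_one
      exact Subtype.ext hap
    have h4 := Nat.eq_one_of_dvd_coprimes hLcop h1 h2
    rw [orderOf_eq_one_iff] at h4
    exact congrArg Subtype.val h4
  have hnc : π a₀ ∉ centralizer (L : Set (G ⧸ O)) := fun h => haL (hC h)
  obtain ⟨q, hqf, R, hqp, hRq, hYR, hne⟩ := exists_sylow_moved L Y hYp hLcop haY hnc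
  -- the Frattini quotient
  set Φ : Subgroup G := Phi p G with hΦ
  haveI hΦn : Φ.Normal := phi_normal
  let π₁ : G →* G ⧸ Φ := QuotientGroup.mk' Φ
  have hπ₁ : Function.Surjective π₁ := QuotientGroup.mk'_surjective Φ
  have hπ₁1 : ∀ g, π₁ g = 1 ↔ g ∈ Φ := fun g => QuotientGroup.eq_one_iff g
  set V : Subgroup (G ⧸ Φ) := O.map π₁ with hV
  haveI hVn : V.Normal := hOn.map π₁ hπ₁
  have hVc : ∀ a ∈ V, ∀ b ∈ V, a * b = b * a := by
    rintro _ ⟨a, ha, rfl⟩ _ ⟨b, hb, rfl⟩
    have h1 : π₁ ⁅a, b⁆ = 1 := (hπ₁1 _).mpr (comm_mem_phi ha hb)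
    rw [map_commutatorElement, commutatorElement_eq_one_iff_mul_comm] at h1
    exact h1
  have hVp : ∀ a ∈ V, a ^ p = 1 := by
    rintro _ ⟨a, ha, rfl⟩
    rw [← map_pow, hπ₁1]
    exact pow_mem_phi ha
  let α₀ : G →* MulAut ↥V := (MulAut.conjNormal (H := V)).comp π₁
  have hα₀ : ∀ (g : G) (a : ↥V), ((α₀ g a : ↥V) : G ⧸ Φ) = π₁ g * a * (π₁ g)⁻¹ := fun g a => by
    simp [α₀]
  -- the kernel of the action is `O`
  have hOker : O ≤ α₀.ker := by
    intro g hg
    rw [MonoidHom.mem_ker]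
    ext a
    rw [hα₀]
    have h2 := hVc (π₁ g) ⟨g, hg, rfl⟩ _ a.2
    rw [h2]
    simp
  have hkerO : α₀.ker ≤ O := by
    have hKp : IsPGroup p α₀.ker := by
      rw [IsPGroup.iff_card]
      refine ⟨(Nat.card α₀.ker).primeFactorsList.length, Nat.eq_prime_pow_of_unique_prime_dvd Nat.card_pos.ne' ?_⟩
      intro s hs hsd
      by_contra hsp
      haveI hsf : Fact s.Prime := ⟨hs⟩
      obtain ⟨g, hg⟩ := exists_prime_orderOf_dvd_card' (G := α₀.ker) s hsd
      have hg' : ((g : G)) ^ s = 1 := by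
        have := pow_orderOf_eq_one g
        rw [hg] at this
        exact congrArg Subtype.val this
      have hg1 : (g : G) ≠ 1 := by
        intro h0
        have h1 : g = 1 := Subtype.ext h0
        rw [h1, orderOf_one] at hg
        exact hs.one_lt.ne hg
      have hQp : IsPGroup s (zpowers (g : G)) := by
        apply IsPGroup.of_card (n := 1)
        rw [Nat.card_zpowers, pow_one]
        exact orderOf_eq_prime hg' hg1
      have hT := eq_bot_of_frat (q := s) hG hO hsp (zpowers (g : G)) hQp (by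
        intro g' hg' x hx
        have h2 : α₀ g' = 1 := by
          have h3 : zpowers (g : G) ≤ α₀.ker := Subgroup.zpowers_le.mpr g.2
          exact h3 hg'
        have h3 : α₀ g' ⟨π₁ x, x, hx, rfl⟩ = ⟨π₁ x, x, hx, rfl⟩ := by rw [h2]; rfl
        have h4 := congrArg Subtype.val h3
        rw [hα₀] at h4
        rw [← hπ₁1, map_mul, map_mul, map_mul, map_inv, map_inv]
        change π₁ g' * π₁ x * (π₁ g')⁻¹ = π₁ x at h4
        rw [h4]
        group)
      have h5 : (g : G) ∈ zpowers (g : G) := mem_zpowers _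
      rw [hT, Subgroup.mem_bot] at h5
      exact hg1 h5
    exact Cfsg.Agent.Lib.Basic.le_pCore inferInstance hKp
  let α : (G ⧸ O) →* MulAut ↥V := QuotientGroup.lift O α₀ (fun g hg => hOker hg)
  have hαπ : ∀ g, α (π g) = α₀ g := fun _ => rfl
  have hαinj : Function.Injective α := by
    intro u v
    induction u using QuotientGroup.induction_on with
    | H u =>
      induction v using QuotientGroup.induction_on with
      | H v =>
        intro h
        have h1 : α₀ u = α₀ v := h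
        refine QuotientGroup.eq.mpr (hkerO ?_)
        rw [MonoidHom.mem_ker, map_mul, map_inv, h1, inv_mul_cancel]
  -- the filtration
  let Vi : ℕ → Subgroup (G ⧸ Φ) := fun i => (O ⊓ D (P : Subgroup G) i).map π₁
  have hstep : ∀ (i : ℕ) (x : G), x ∈ D (P : Subgroup G) i → ∀ v : ↥V, (v : G ⧸ Φ) ∈ Vi i →
      ((α₀ x v * v⁻¹ : ↥V) : G ⧸ Φ) ∈ Vi (i + 1) := by
    rintro i x hx ⟨_, _⟩ ⟨u, ⟨hu1, hu2⟩, rfl⟩
    refine ⟨⁅x, u⁆, Subgroup.mem_inf.mpr ⟨?_, Subgroup.commutator_mem_commutator hx hu2⟩, ?_⟩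
    · rw [commutatorElement_def]
      exact mul_mem (hOn.conj_mem u hu1 x) (inv_mem hu1)
    · rw [commutatorElement_def]
      change π₁ (x * u * x⁻¹ * u⁻¹) = ((α₀ x _ * _ : ↥V) : G ⧸ Φ)
      rw [Subgroup.coe_mul, hα₀]
      simp only [map_mul, map_inv, Subgroup.coe_inv]
  have hbd : ∀ (x : ℕ → G ⧸ O), (∀ i, x i ∈ D Y i) → ∀ (n i : ℕ) (v : ↥V), (v : G ⧸ Φ) ∈ Vi i →
      ((bd α x n i v : ↥V) : G ⧸ Φ) ∈ Vi (i + n) := by
    intro x hx n
    induction n with
    | zero =>
      intro i v hv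
      exact hv
    | succ n ih =>
      intro i v hv
      have h1 := hx i
      rw [hDY] at h1
      obtain ⟨x₀, hx₀, hx₀e⟩ := h1
      have h2 : α (x i) = α₀ x₀ := by rw [← hx₀e]; rfl
      change ((bd α x n (i + 1) (α (x i) v * v⁻¹) : ↥V) : G ⧸ Φ) ∈ Vi (i + (n + 1))
      rw [h2]
      have h3 := ih (i + 1) _ (hstep i x₀ hx₀ v hv)
      rwa [show i + 1 + n = i + (n + 1) by ring] at h3
  have hlast : ∀ v : ↥V, (v : G ⧸ Φ) ∈ Vi (j + 1) → α (π a₀) v * v⁻¹ = 1 := by
    intro v hv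
    have h1 := hstep (j + 1) a₀ ha₀ v hv
    have h2 : Vi (j + 1 + 1) = ⊥ := by
      change (O ⊓ D (P : Subgroup G) (j + 2)).map π₁ = ⊥
      rw [hd, inf_bot_eq, Subgroup.map_bot]
    rw [h2, Subgroup.mem_bot] at h1
    exact Subtype.ext h1
  have hV0 : ∀ v : ↥V, (v : G ⧸ Φ) ∈ Vi 0 := by
    rintro ⟨_, u, hu, rfl⟩
    exact ⟨u, Subgroup.mem_inf.mpr ⟨hu, hOP hu⟩, rfl⟩
  refine thmD_aut (q := q) (fun a b => Subtype.ext (hVc a a.2 b b.2)) (fun a => Subtype.ext (hVp a a.2)) α hαinj hp2 hqp Y hYp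
    (π a₀) haY hac hap j haj ?_ ?_ R hRq hYR hne
  · -- the square
    intro v
    apply hlast
    -- `[v, a] ∈ O ∩ D P (j + 1)`
    obtain ⟨_, u, hu, rfl⟩ := v
    refine ⟨⁅a₀, u⁆, Subgroup.mem_inf.mpr ⟨?_, ?_⟩, ?_⟩
    · rw [commutatorElement_def]
      exact mul_mem (hOn.conj_mem u hu a₀) (inv_mem hu)
    · rw [commutatorElement_def]
      have h1 := D_conj (P : Subgroup G) (j + 1) u (hOP hu) a₀⁻¹ (inv_mem ha₀)
      have h2 : a₀ * u * a₀⁻¹ * u⁻¹ = a₀ * (u * a₀⁻¹ * u⁻¹) := by group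
      rw [h2]
      exact mul_mem ha₀ h1
    · rw [commutatorElement_def]
      change π₁ (a₀ * u * a₀⁻¹ * u⁻¹) = ((α₀ a₀ _ * _ : ↥V) : G ⧸ Φ)
      rw [Subgroup.coe_mul, hα₀]
      simp only [map_mul, map_inv, Subgroup.coe_inv]
  · intro x hx v
    apply hlast
    have h1 := hbd x hx (j + 1) 0 v (hV0 v)
    rwa [zero_add] at h1

/-- From `G / O_{p',p}(G)` to `G`. -/
theorem pLength_succ_of_quotient {d : ℕ} (T : Subgroup G) [hT : T.Normal] (hTe : T = pPrimePCore p G)
    (h : PLengthLE p d (G ⧸ T)) : PLengthLE p (d + 1) G := by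
  have hT2 : (upperPSeries p G 2).1 = pPrimePCore p G := Cfsg.Agent.Lib.OddLocal.upperPSeries_two p
  have hT3 : T ≤ (upperPSeries p G (2 * 1 + 1)).1 := by
    apply step_even (k := 2) (Y := (upperPSeries p G 2).1) (by decide) le_rfl
    intro x hx
    exact ⟨1, Nat.coprime_one_left p, by rw [pow_one, hT2, ← hTe]; exact hx⟩
  let f : (G ⧸ T) →* ↥((⊤ : Subgroup G).map (QuotientGroup.mk' T)) :=
    { toFun := fun y => ⟨y, by
        obtain ⟨x, rfl⟩ := QuotientGroup.mk'_surjective T y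
        exact ⟨x, mem_top x, rfl⟩⟩
      map_one' := rfl
      map_mul' := fun _ _ => rfl }
  have hf : Function.Surjective f := by
    rintro ⟨y, hy⟩
    exact ⟨y, rfl⟩
  have h1 := section_le (p := p) (U := T) (V := ⊤) le_top hT3 (L := d) (pLength_map f hf h)
  have h2 : (⊤ : Subgroup G) ≤ (upperPSeries p G (2 * (d + 1) + 1)).1 := by
    rw [add_comm d 1]
    exact h1
  exact top_le_iff.mp h2

end Group

section Induct

variable {p : ℕ} [hpf : Fact p.Prime]

theorem main (hp2 : p ≠ 2) (d : ℕ) : ∀ (G : Type u₀) [Group G] [Finite G], IsPSolvable p G →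
    (∀ P : Sylow p G, D (P : Subgroup G) d = ⊥) → PLengthLE p d G := by
  induction d with
  | zero =>
    intro G _ _ hG hd
    have hp := hpf.out
    obtain ⟨P⟩ : Nonempty (Sylow p G) := inferInstance
    have hP : (P : Subgroup G) = ⊥ := hd P
    have hnd : ¬ p ∣ Nat.card G := by
      have h1 := P.not_dvd_index
      rw [hP, Subgroup.index_bot] at h1
      exact h1
    have h1 : (⊤ : Subgroup G) ≤ (upperPSeries p G 1).1 := by
      apply step_even (k := 0) (Y := ⊥) (by decide) bot_le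
      intro x _
      refine ⟨Nat.card G, ((Nat.Prime.coprime_iff_not_dvd hp).mpr hnd).symm, ?_⟩
      rw [pow_card_eq_one']
      exact one_mem _
    exact top_le_iff.mp h1
  | succ d ih =>
    intro G _ _ hG hd
    have hp := hpf.out
    set T : Subgroup G := pPrimePCore p G with hT
    haveI hTn : T.Normal := Cfsg.Agent.Lib.OddLocal.pPrimePCore_normal p
    apply pLength_succ_of_quotient T hT
    let πT : G →* G ⧸ T := QuotientGroup.mk' T
    have hπT : Function.Surjective πT := QuotientGroup.mk'_surjective T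
    apply ih (G ⧸ T) (isPSolvable_map πT hπT hG)
    intro Pb
    obtain ⟨P, rfl⟩ := Sylow.mapSurjective_surjective hπT p Pb
    rw [Sylow.coe_mapSurjective, ← D_map, Subgroup.map_eq_bot_iff, QuotientGroup.ker_mk']
    -- pass to `G / O_{p'}(G)`
    set K : Subgroup G := pPrimeCore p G with hK
    haveI hKn : K.Normal := Cfsg.Agent.Lib.Basic.pPrimeCore_normal p
    let π : G →* G ⧸ K := QuotientGroup.mk' K
    have hπ : Function.Surjective π := QuotientGroup.mk'_surjective K
    have hcore : pPrimeCore p (G ⧸ K) = ⊥ := Cfsg.Agent.Lib.Basic.pPrimeCore_quotient_eq_bot p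
    have hGb : IsPSolvable p (G ⧸ K) := isPSolvable_map π hπ hG
    set Pb : Sylow p (G ⧸ K) := P.mapSurjective hπ with hPb
    have hPbc : (Pb : Subgroup (G ⧸ K)) = (P : Subgroup G).map π := Sylow.coe_mapSurjective _ _
    have hDb : ∀ i, D (Pb : Subgroup (G ⧸ K)) i = (D (P : Subgroup G) i).map π := by
      intro i
      rw [hPbc, D_map]
    have hdb : D (Pb : Subgroup (G ⧸ K)) (d + 1) = ⊥ := by
      rw [hDb, hd P, Subgroup.map_bot]
    have hle : D (Pb : Subgroup (G ⧸ K)) d ≤ pCore p (G ⧸ K) := by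
      cases d with
      | zero =>
        -- `Pb` abelian
        apply Cfsg.Agent.Lib.Char.centralizer_pCore_le_of_isPSolvable hGb hcore |>.trans' ?_
        intro y hy
        rw [Subgroup.mem_centralizer_iff]
        intro z hz
        have hzP : z ∈ (Pb : Subgroup (G ⧸ K)) := Cfsg.Agent.Lib.Basic.pCore_le_sylow Pb hz
        have h1 : ⁅z, y⁆ ∈ D (Pb : Subgroup (G ⧸ K)) 1 := Subgroup.commutator_mem_commutator hzP hy
        rw [hdb, Subgroup.mem_bot] at h1
        exact commutatorElement_eq_one_iff_mul_comm.mp h1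
      | succ j => exact core_deriv hp2 hGb hcore Pb j hdb
    intro x hx
    have h1 : π x ∈ pCore p (G ⧸ K) := by
      apply hle
      rw [hDb]
      exact ⟨x, hx, rfl⟩
    exact h1

end Induct

/-- Let p be an odd prime and G a finite p-soluble group whose Sylow p-subgroups have derived length at most d. Then G has p-length at most d. -/
theorem result {G : Type*} [Group G] [Finite G] {p : ℕ} [Fact p.Prime] (hp : p ≠ 2) (hG : Cfsg.IsPSolvable p G) (d : ℕ) (hd : ∀ P : Sylow p G, derivedSeries ↥(P : Subgroup G) d = ⊥) : Cfsg.PLengthLE p d G := by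
  exact main hp d G hG (fun P => (D_eq_bot_iff _ d).mpr (hd P))

end Cfsg.Agent.S3789
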