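import Cfsg.Statements.S1403
import Cfsg.Agent.S1402
import Cfsg.Agent.S1452
import Cfsg.Agent.Lib.FT.BG9U4

set_option autoImplicit false
open Cfsg

namespace Cfsg.Agent.S1403

open Subgroup Cfsg.Agent.Lib.FT Cfsg.Agent.Lib.OddLocal in
/-- An elementary abelian subgroup of order `q³` lies in a unique maximal subgroup. -/
theorem uniq_of_E3 {G : Type*} [Group G] [Finite G] (hG : Cfsg.IsMinSimpleOddOrder G) {q : ℕ} [hq : Fact q.Prime]
    {X : Subgroup G} (hXe : Cfsg.IsElementaryAbelian q X) (hXc : Nat.card X = q ^ 3) : Cfsg.InUniqueMaximal X := by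
  have hqp : q.Prime := hq.out
  have hq2 : q ≠ 2 := by
    rintro rfl
    have h1 : 2 ∣ Nat.card X := by
      rw [hXc]
      exact dvd_pow_self 2 (by norm_num)
    exact (Nat.not_even_iff_odd.2 (odd_card_subgroup hG X)) (even_iff_two_dvd.2 h1)
  have hlt3 : q < q ^ 3 := by
    calc q = q ^ 1 := (pow_one q).symm
      _ < q ^ 3 := Nat.pow_lt_pow_right hqp.one_lt (by norm_num)
  have hlt23 : q ^ 2 < q ^ 3 := Nat.pow_lt_pow_right hqp.one_lt (by norm_num)
  obtain ⟨S, hS⟩ := (isPGroup_of_ea hXe).exists_le_sylow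
  have hSnc : ¬ IsCyclic (S : Subgroup G) := fun h => not_cyclic_of_ea hXe (by omega) (isCyclic_of_le hS h)
  have hSr : ¬ Cfsg.PRankLE q 2 ↥(S : Subgroup G) :=
    Cfsg.Agent.Lib.Components.not_rank_of_le hS hXe (by rw [hXc]; exact hlt23)
  obtain ⟨N₀, hN₀n, hN₀e, hN₀c⟩ := Cfsg.Agent.Lib.Transfer.exists_normal_elementary_sq hq2 S.isPGroup' hSnc
  haveI := hN₀n
  obtain ⟨A₀, -, hA₀n, hA₀c, hA₀r⟩ := Cfsg.Agent.S1452.result q hq2 S.isPGroup' hSr N₀ hN₀e hN₀c
  set A := A₀.map (S : Subgroup G).subtype with hA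
  have hAs : Cfsg.IsSCN (S : Subgroup G) A := by
    refine ⟨Subgroup.map_subtype_le _, ?_, ?_⟩
    · intro t ht
      apply Cfsg.Agent.Lib.Coprime.mem_normalizer_of_conj_le
      rintro _ ⟨a, ha, rfl⟩
      exact ⟨⟨t, ht⟩ * a * ⟨t, ht⟩⁻¹, hA₀n.conj_mem a ha _, by simp⟩
    · apply le_antisymm
      · rintro x ⟨hxS, hxC⟩
        have h1 : (⟨x, hxS⟩ : (S : Subgroup G)) ∈ centralizer (A₀ : Set (S : Subgroup G)) := by
          rw [Subgroup.mem_centralizer_iff]
          intro a ha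
          apply Subtype.ext
          exact Subgroup.mem_centralizer_iff.1 hxC _ ⟨a, ha, rfl⟩
        rw [hA₀c] at h1
        exact ⟨_, h1, rfl⟩
      · rintro _ ⟨a, ha, rfl⟩
        refine ⟨a.2, Subgroup.mem_centralizer_iff.2 ?_⟩
        rintro _ ⟨b, hb, rfl⟩
        have h1 : a ∈ centralizer (A₀ : Set (S : Subgroup G)) := by rw [hA₀c]; exact ha
        exact congrArg Subtype.val (Subgroup.mem_centralizer_iff.1 h1 b hb)
  have hA3 : ¬ Cfsg.PRankLE q 2 ↥A := not_prank_map_subtype A₀ hA₀r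
  have hAU := Cfsg.Agent.S1402.result hG q S A hAs hA3
  have hXnc : ¬ IsCyclic X := not_cyclic_of_ea hXe (by omega)
  have hXC : ¬ Cfsg.PRankLE q 2 ↥(centralizer (X : Set G)) :=
    Cfsg.Agent.Lib.Components.not_rank_of_le (le_centralizer_of_comm hXe.1) hXe (by rw [hXc]; exact hlt23)
  exact s1400_core hG (scn_comm hAs) hA3 hAU (isPGroup_of_ea hXe) hXnc hXC


/-- Let G be a minimal simple group of odd order and K a proper subgroup having an elementary abelian subgroup of order p ^ 2 for some prime p. If K, or its centralizer C_G(K), has an elementary abelian subgroup of order q ^ 3 for some prime q, then K lies in exactly one maximal subgroup of G. -/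
theorem result {G : Type*} [Group G] [Finite G] (hG : Cfsg.IsMinSimpleOddOrder G)
    (K : Subgroup G) (hK : K ≠ ⊤) (hK2 : ¬ Cfsg.RankLE 1 K)
    (hK3 : ¬ Cfsg.RankLE 2 K ∨ ¬ Cfsg.RankLE 2 (Subgroup.centralizer (K : Set G))) :
    Cfsg.InUniqueMaximal K := by
  rcases hK3 with h | h
  · simp only [Cfsg.RankLE] at h
    push Not at h
    obtain ⟨q, hq, hr⟩ := h
    haveI : Fact q.Prime := ⟨hq⟩
    obtain ⟨X, hXK, hXe, hXc⟩ := Cfsg.Agent.Lib.FT.exists_E3 hr
    exact Cfsg.Agent.Lib.FT.uniq_of_le (uniq_of_E3 hG hXe hXc) hXK hK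
  · simp only [Cfsg.RankLE] at h
    push Not at h
    obtain ⟨q, hq, hr⟩ := h
    haveI : Fact q.Prime := ⟨hq⟩
    obtain ⟨X, hXK, hXe, hXc⟩ := Cfsg.Agent.Lib.FT.exists_E3 hr
    exact Cfsg.Agent.Lib.FT.uniq_of_centralizer hG (uniq_of_E3 hG hXe hXc)
      (Cfsg.Agent.Lib.FT.le_centralizer_symm hXK) hK2

end Cfsg.Agent.S1403
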