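import Cfsg.Statements.S1458
import Cfsg.Agent.Lib.OddLocal.ZJ2

set_option autoImplicit false
open Cfsg

namespace Cfsg.Agent.S1458

open Cfsg.Agent.Lib.OddLocal

/-- Let G be a solvable group of odd order, p a prime and S a Sylow p-subgroup of G. Then the subgroup generated by the centre of the Thompson subgroup of S and O_{p'}(G) is normal in G. -/
theorem result {G : Type*} [Group G] [Finite G] [Group.IsSolvable G] (hodd : Odd (Nat.card G)) (p : ℕ) [Fact p.Prime] (S : Sylow p G) :
    (Cfsg.centerThompsonOf p (S : Subgroup G) ⊔ Cfsg.pPrimeCore p G).Normal := by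
  classical
  by_cases hp : p = 2
  · subst hp
    have hZ : Cfsg.centerThompsonOf 2 (S : Subgroup G) = ⊥ := by
      rw [eq_bot_iff]
      intro z hz
      have hzS : z ∈ (S : Subgroup G) := by
        rw [← Zf_cJ] at hz
        exact Zf_le _ _ hz
      obtain ⟨k, hk⟩ := S.isPGroup' ⟨z, hzS⟩
      have h4 : z ^ (2 ^ k) = 1 := congrArg Subtype.val hk
      have h5 := orderOf_dvd_of_pow_eq_one h4
      have h3 : orderOf z ∣ Nat.card G := orderOf_dvd_natCard z
      have h6 : Nat.Coprime (orderOf z) (2 ^ k) := by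
        apply Nat.Coprime.coprime_dvd_left h3
        exact Nat.Coprime.pow_right k (Nat.coprime_two_right.mpr hodd)
      rw [Subgroup.mem_bot]
      exact orderOf_eq_one_iff.mp (h6.eq_one_of_dvd h5)
    rw [hZ, bot_sup_eq]
    exact Cfsg.Agent.Lib.Basic.pPrimeCore_normal 2
  · rw [← Zf_cJ]
    exact (reduce_mod_core (cJ_isoInv p)
      (fun G _ _ _ hodd hO S => zj_core hp _ G rfl hodd hO S) hodd S).1

end Cfsg.Agent.S1458
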