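import Cfsg.Statements.S4637
import Cfsg.Agent.Lib.H8Group.KleinColumn
import Cfsg.Agent.Lib.H8Group.AbelianNil
import Cfsg.Agent.Lib.Char.MaxPair
import Cfsg.Agent.S4650
import Cfsg.Agent.Lib.Blocks.AbelianFree

set_option autoImplicit false
open Cfsg

namespace Cfsg.Agent.S4637

open Cfsg.Agent.Lib.Char Cfsg.Agent.Lib.H8Group Cfsg.Agent.Lib.Blocks

/-- Let B be a block of the finite group G relative to a maximal ideal M of the algebraic integers containing 2, with a Klein four defect group P. Let c be a block of C_G(P) inducing B, T the stabilizer of c in N_G(P) and e the index of C_G(P) in T (the inertial index). Then e is 1 or 3, B contains exactly four irreducible characters, and the 2-regular rank of B (its number of irreducible Brauer characters) equals e. -/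
theorem result {G : Type*} [Group G] [Finite G] (M : Ideal Cfsg.AlgInt) (hM : Cfsg.IsPModular 2 M) (B : Set (Cfsg.IrrCharacter G)) (hB : Cfsg.IsPBlock M B) (P : Subgroup G) (hPD : Cfsg.IsDefectGroup 2 M B P) (hV : IsKleinFour P) (c : Set (Cfsg.IrrCharacter (Subgroup.centralizer (P : Set G)))) (hc : Cfsg.IsInducedBlock M (Subgroup.centralizer (P : Set G)) c B) (T : Subgroup G) (hT : ∀ g : G, g ∈ T ↔ (g ∈ Subgroup.normalizer (P : Set G) ∧ Cfsg.StabilizesBlock (Subgroup.centralizer (P : Set G)) c g)) (e : ℕ) (he : (Subgroup.centralizer (P : Set G)).relIndex T = e) : (e = 1 ∨ e = 3) ∧ Nat.card B = 4 ∧ Cfsg.blockRank 2 B = e := by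
  classical
  cases nonempty_fintype G
  have := isPrime_of_modular hM
  have hPp : IsPGroup 2 P := IsDefectGroup.isPGroup hPD
  letI : Fintype (Subgroup.centralizer (P : Set G)) := Fintype.ofFinite _
  have hcb : IsBrauerPairOf 2 M B P c := (isBrauerPairOf_iff hM hPp hc.1).mpr hc
  have hmax := isMaximalBrauerPair_of_defect hM hcb hPD
  have hcardP : Nat.card P = 4 := hV.card_four
  have hexp : ∀ x ∈ P, x * x = 1 := fun x hx => congrArg Subtype.val (IsKleinFour.mul_self (⟨x, hx⟩ : P))
  have hab : ∀ x ∈ P, ∀ y ∈ P, x * y = y * x := by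
    intro x hx y hy
    have := mul_comm_of_exponent_two hV.exponent_two (⟨x, hx⟩ : P) ⟨y, hy⟩
    exact congrArg Subtype.val this
  have hTN : T ≤ Subgroup.normalizer (P : Set G) := fun t ht => ((hT t).mp ht).1
  have hreg : ∀ t ∈ T, (∃ k : ℕ, orderOf t = 2 ^ k) → t ∈ Subgroup.centralizer (P : Set G) := by
    intro t ht hk
    obtain ⟨h1, h2⟩ := (hT t).mp ht
    have h3 := Cfsg.Agent.Lib.Char.MP.mem_sup_of_maximal hM hmax h1 h2 hk
    have h4 : P ≤ Subgroup.centralizer (P : Set G) := fun x hx =>
      Subgroup.mem_centralizer_iff.mpr (fun y hy => hab y hy x hx)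
    rwa [sup_eq_right.mpr h4] at h3
  have hfree : ∀ g ∈ T, ∀ x ∈ P, x ≠ 1 → g * x * g⁻¹ = x → g ∈ Subgroup.centralizer (P : Set G) :=
    fun g hg x hx hx1 hgx => klein_free hcardP hexp hTN hreg hg hx hx1 hgx
  have hdef : blockDefect 2 B = 2 := by
    have h1 := card_defectGroup hM hB hPD
    rw [hcardP] at h1
    have h2 : (2 : ℕ) ^ 2 = 2 ^ blockDefect 2 B := h1
    exact (Nat.pow_right_injective le_rfl h2).symm
  subst he
  rcases klein_index hcardP hexp hTN hreg with h1 | ⟨h3, htrans⟩
  · -- the nilpotent case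
    have hTle : T ≤ Subgroup.centralizer (P : Set G) := Subgroup.relIndex_eq_one.mp h1
    have hnil : IsNilpotentBlock 2 M B :=
      (isNilpotentBlock_iff_of_abelian hM hmax hab).mpr (fun t hN hs => hTle ((hT t).mpr ⟨hN, hs⟩))
    obtain ⟨hl, hk⟩ := nilpotent_abelian_aux hM _ G rfl B P hnil hPD hab
    exact ⟨Or.inl h1, by rw [hk, hcardP], by rw [hl, h1]⟩
  · -- the transitive case
    refine ⟨Or.inr h3, ?_⟩
    obtain ⟨u₀, hu₀, hu₀1⟩ : ∃ u ∈ P, u ≠ 1 := by
      by_contra h
      push Not at h
      have h1 : P = ⊥ := (Subgroup.eq_bot_iff_forall P).mpr h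
      rw [h1] at hcardP
      simp at hcardP
    have hP1 : P ≠ ⊥ := by
      intro h
      rw [h] at hu₀
      exact hu₀1 (Subgroup.mem_bot.mp hu₀)
    have hPe := hmax.1.1
    have hzP : ∀ u ∈ P, Subgroup.zpowers u ≤ P := fun u hu => by
      rw [Subgroup.zpowers_le]
      exact hu
    have hexf : ∀ u : G, ∃ f : Set (IrrCharacter (Subgroup.centralizer ((Subgroup.zpowers u : Subgroup G) : Set G))),
        u ∈ P → SubpairLE 2 M (Subgroup.zpowers u) f P c := by
      intro u
      by_cases hu : u ∈ P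
      · obtain ⟨f, -, hf⟩ := exists_subpairLE hM hPe _ (hzP u hu)
        exact ⟨f, fun _ => hf⟩
      · exact ⟨∅, fun h => absurd h hu⟩
    choose f hf using hexf
    letI : ∀ u : G, Fintype (Subgroup.centralizer ((Subgroup.zpowers u : Subgroup G) : Set G)) := fun _ => Fintype.ofFinite _
    let U : Finset G := {1, u₀}
    have hU : ∀ v ∈ P, ∃! u, u ∈ U ∧ ∃ t ∈ T, t * v * t⁻¹ = u := by
      intro v hv
      by_cases hv1 : v = 1
      · subst hv1
        refine ⟨1, ⟨by simp [U], 1, T.one_mem, by simp⟩, ?_⟩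
        rintro w ⟨-, t, ht, rfl⟩
        simp
      · obtain ⟨t, ht, htv⟩ := htrans u₀ hu₀ hu₀1 v hv hv1
        refine ⟨u₀, ⟨by simp [U], t, ht, htv⟩, ?_⟩
        rintro w ⟨hw, s, hs, rfl⟩
        simp only [U, Finset.mem_insert, Finset.mem_singleton] at hw
        rcases hw with hw | hw
        · exfalso
          apply hv1
          have h2 : s * v = s := by
            have := congrArg (· * s) hw
            simpa using this
          exact mul_eq_left.mp h2
        · exact hw
    have hUP : ∀ u ∈ U, u ∈ P := by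
      intro u hu
      simp only [U, Finset.mem_insert, Finset.mem_singleton] at hu
      rcases hu with rfl | rfl
      · exact P.one_mem
      · exact hu₀
    have hcount := card_block_eq_sum_orbits f hM hmax hab hT hf U hUP hU
    have hpair : ∀ u ∈ P, IsBrauerPairOf 2 M B (Subgroup.zpowers u) (f u) := fun u hu =>
      (isBrauerPairOf_iff_of_chain hM (hf u hu) hB).mp hmax.1
    have hfB : ∀ u ∈ P, IsPBlock M (f u) := fun u hu => isPBlock_of_subpairLE hM hPe (hf u hu)
    have hone : blockRank 2 (f 1) = blockRank 2 B := by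
      have h1 : Subgroup.centralizer ((Subgroup.zpowers (1 : G) : Subgroup G) : Set G) = ⊤ := by
        rw [centralizer_zpowers_eq, eq_top_iff]
        intro z _
        rw [Subgroup.mem_centralizer_singleton_iff]
        simp
      exact blockRank_of_eq_top hM h1 ((isBrauerPairOf_iff hM (hpair 1 P.one_mem).1.1 (hfB 1 P.one_mem)).mp (hpair 1 P.one_mem))
    rw [show U = {1, u₀} from rfl, Finset.sum_pair hu₀1.symm, hone] at hcount
    -- the block at `u₀`
    have hQP := hzP u₀ hu₀
    have hQ1 : Subgroup.zpowers u₀ ≠ ⊥ := fun h => hu₀1 (Subgroup.zpowers_eq_bot.mp h)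
    letI : Fintype (Subgroup.centralizer ((P.subgroupOf (Subgroup.centralizer ((Subgroup.zpowers u₀ : Subgroup G) : Set G)) : Subgroup _) : Set (Subgroup.centralizer ((Subgroup.zpowers u₀ : Subgroup G) : Set G)))) := Fintype.ofFinite _
    have hPW := cenData_of_abelian hQP hab
    have hcd0 : CenData (P.subgroupOf (Subgroup.centralizer ((Subgroup.zpowers u₀ : Subgroup G) : Set G))) P :=
      cenData_of_le le_rfl hPW hQP
    obtain ⟨f', hf'⟩ := exists_isInducedBlock_cent hM (isPGroup_subgroupOf hPp _)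
      (isPBlock_transBlock (cenTrans hcd0) hc.1)
    have hfIn := in_of_isInducedBlock hcd0 hc.1 hf'
    obtain ⟨hcd, hle, hmax'⟩ := isMaximalBrauerPair_in_centralizer hM hmax hab hQP hfIn
    have hff' : f u₀ = f' := subpairLE_unique hM hPe _ hQP _ _ (hf u₀ hu₀) hle
    have hnil : IsNilpotentBlock 2 M f' :=
      (Cfsg.Agent.S4650.result 2 M hM B hB P hPD hab hP1 c hc T hT).mp hfree _ hQP hQ1 f' hfIn
    have hDf' : IsDefectGroup 2 M f' (P.subgroupOf (Subgroup.centralizer ((Subgroup.zpowers u₀ : Subgroup G) : Set G))) :=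
      isDefectGroup_of_isMaximalBrauerPair hM hmax'
    have hab' : ∀ x ∈ P.subgroupOf (Subgroup.centralizer ((Subgroup.zpowers u₀ : Subgroup G) : Set G)),
        ∀ y ∈ P.subgroupOf (Subgroup.centralizer ((Subgroup.zpowers u₀ : Subgroup G) : Set G)), x * y = y * x := by
      intro x hx y hy
      apply Subtype.ext
      exact hab _ (Subgroup.mem_subgroupOf.mp hx) _ (Subgroup.mem_subgroupOf.mp hy)
    obtain ⟨hl1, -⟩ := nilpotent_abelian_aux hM _ (Subgroup.centralizer ((Subgroup.zpowers u₀ : Subgroup G) : Set G)) rfl f' _ hnil hDf' hab'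
    have hpair' : IsBrauerPairOf 2 M B (Subgroup.zpowers u₀) f' := (isBrauerPairOf_iff_of_chain hM hle hB).mp hmax.1
    have hfB' : IsPBlock M f' := isPBlock_of_subpairLE hM hPe hle
    have hind : IsInducedBlock M (Subgroup.centralizer ((Subgroup.zpowers u₀ : Subgroup G) : Set G)) f' B :=
      (isBrauerPairOf_iff hM hpair'.1.1 hfB').mp hpair'
    have hdef' : blockDefect 2 f' = 2 := by
      have h1 := card_defectGroup hM hfB' hDf'
      rw [Nat.card_congr (Subgroup.subgroupOfEquivOfLe hPW).toEquiv, hcardP] at h1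
      have h2 : (2 : ℕ) ^ 2 = 2 ^ blockDefect 2 f' := h1
      exact (Nat.pow_right_injective le_rfl h2).symm
    have hu₀W : u₀ ∈ Subgroup.centralizer ((Subgroup.zpowers u₀ : Subgroup G) : Set G) := by
      rw [centralizer_zpowers_eq, Subgroup.mem_centralizer_singleton_iff]
    have hH : ∀ w : G, w ∈ Subgroup.centralizer ((Subgroup.zpowers u₀ : Subgroup G) : Set G) ↔
        Commute w ((⟨u₀, hu₀W⟩ : Subgroup.centralizer ((Subgroup.zpowers u₀ : Subgroup G) : Set G)) : G) := by
      intro w
      have h1 : w ∈ Subgroup.centralizer ((Subgroup.zpowers u₀ : Subgroup G) : Set G) ↔ w * u₀ = u₀ * w := by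
        rw [centralizer_zpowers_eq, Subgroup.mem_centralizer_singleton_iff]
      exact h1
    have hx2 : (⟨u₀, hu₀W⟩ : Subgroup.centralizer ((Subgroup.zpowers u₀ : Subgroup G) : Set G)) ^ 2 = 1 := by
      apply Subtype.ext
      simp only [Subgroup.coe_pow, Subgroup.coe_one]
      rw [pow_two]
      exact hexp u₀ hu₀
    have hge := four_le_card_of_rank_one hM hH hx2 hind hl1 hdef'
    have hbound := major_bound_of_zpowers hM hB hPD hu₀ (fun d hd => hab d hd u₀ hu₀) _ (centralizer_zpowers_eq u₀) f'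
      hind hDf' (by omega)
    rw [hdef] at hbound
    have hk4 : Nat.card B = 4 := le_antisymm hbound hge
    rw [hff', hl1] at hcount
    refine ⟨hk4, ?_⟩
    omega

end Cfsg.Agent.S4637
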