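import Cfsg.Statements.S2761
import Cfsg.Agent.Lib.LocalEven.QdNat

set_option autoImplicit false
open Cfsg

namespace Cfsg.Agent.S2761

/-- The group Qd(2), the natural semidirect product of an elementary abelian group of order 4 by SL₂(2) (realised as the affine subgroup of SL₃(2)), is isomorphic to the symmetric group of degree 4. -/
theorem result : Nonempty (↥(Cfsg.qd 2) ≃* Equiv.Perm (Fin 4)) := by
  classical
  let act : ↥(Cfsg.qd 2) → (Fin 2 → ZMod 2) → (Fin 2 → ZMod 2) := fun M v =>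
    ![M.1.1 0 0 * v 0 + M.1.1 0 1 * v 1 + M.1.1 0 2, M.1.1 1 0 * v 0 + M.1.1 1 1 * v 1 + M.1.1 1 2]
  have hact : ∀ (A : Cfsg.Agent.Lib.Known.SL2 (ZMod 2)) (u v : Fin 2 → ZMod 2),
      act (Cfsg.Agent.Lib.LocalEven.qdEl A u) v = A.1.mulVec v + u := by
    intro A u v
    funext i
    have hM : (((Cfsg.Agent.Lib.LocalEven.qdEl A u : Cfsg.qd 2) : Matrix.SpecialLinearGroup (Fin 3) (ZMod 2)) : Matrix (Fin 3) (Fin 3) (ZMod 2)) = Cfsg.Agent.Lib.LocalEven.qdMat A.1 u := rfl
    simp only [act, hM]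
    fin_cases i <;> simp [Cfsg.Agent.Lib.LocalEven.qdMat, Matrix.mulVec, dotProduct, Fin.sum_univ_two]
  have hmul : ∀ M N v, act (M * N) v = act M (act N v) := by
    intro M N v
    obtain ⟨A, u, rfl⟩ := Cfsg.Agent.Lib.LocalEven.qdEl_surj M
    obtain ⟨B, w, rfl⟩ := Cfsg.Agent.Lib.LocalEven.qdEl_surj N
    rw [Cfsg.Agent.Lib.LocalEven.qdEl_mul, hact, hact, hact, Matrix.SpecialLinearGroup.coe_mul, ← Matrix.mulVec_mulVec, Matrix.mulVec_add, add_assoc]
  have hone : ∀ v, act 1 v = v := by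
    intro v
    rw [← Cfsg.Agent.Lib.LocalEven.qdEl_one, hact]
    simp
  let φ : ↥(Cfsg.qd 2) →* Equiv.Perm (Fin 2 → ZMod 2) :=
    { toFun := fun M =>
        { toFun := act M, invFun := act M⁻¹,
          left_inv := fun v => by rw [← hmul, inv_mul_cancel, hone],
          right_inv := fun v => by rw [← hmul, mul_inv_cancel, hone] }
      map_one' := by
        ext v i
        simp only [Equiv.coe_fn_mk, Equiv.Perm.coe_one, id, hone]
      map_mul' := fun M N => by
        ext v i
        simp only [Equiv.coe_fn_mk, Equiv.Perm.coe_mul, Function.comp, hmul] }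
  have hinj : Function.Injective φ := by
    rw [injective_iff_map_eq_one]
    intro M hM
    obtain ⟨A, u, rfl⟩ := Cfsg.Agent.Lib.LocalEven.qdEl_surj M
    have h : ∀ v, act (Cfsg.Agent.Lib.LocalEven.qdEl A u) v = v := fun v => congrArg (fun f : Equiv.Perm _ => f v) hM
    have hu : u = 0 := by
      have := h 0
      rw [hact] at this
      simpa using this
    subst hu
    have hA : A = 1 := by
      apply Subtype.ext
      ext i j
      have := congrFun (h (Pi.single j 1)) i
      rw [hact] at this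
      simpa [Matrix.mulVec_single, Matrix.one_apply, Pi.single_apply, eq_comm] using this
    subst hA
    exact Cfsg.Agent.Lib.LocalEven.qdEl_one
  have hcard : Nat.card ↥(Cfsg.qd 2) = 24 := by
    have h1 : Function.Bijective (fun x : Cfsg.Agent.Lib.Known.SL2 (ZMod 2) × (Fin 2 → ZMod 2) => Cfsg.Agent.Lib.LocalEven.qdEl x.1 x.2) := by
      constructor
      · rintro ⟨A, u⟩ ⟨B, v⟩ h
        obtain ⟨h1, h2⟩ := Cfsg.Agent.Lib.LocalEven.qdEl_inj h
        exact Prod.ext h1 h2
      · intro M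
        obtain ⟨A, u, rfl⟩ := Cfsg.Agent.Lib.LocalEven.qdEl_surj M
        exact ⟨(A, u), rfl⟩
    rw [← Nat.card_congr (Equiv.ofBijective _ h1), Nat.card_prod, Cfsg.Agent.Lib.Known.card_sl2, Nat.card_eq_fintype_card (α := Fin 2 → ZMod 2)]
    simp [ZMod.card]
  have hcard2 : Nat.card (Equiv.Perm (Fin 2 → ZMod 2)) = 24 := by
    rw [Nat.card_eq_fintype_card, Fintype.card_perm]
    simp [ZMod.card]
    rfl
  have hbij : Function.Bijective φ := by
    refine (Nat.bijective_iff_injective_and_card φ).2 ⟨hinj, by rw [hcard, hcard2]⟩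
  have e : (Fin 2 → ZMod 2) ≃ Fin 4 := Fintype.equivFinOfCardEq (by simp [ZMod.card])
  exact ⟨(MulEquiv.ofBijective φ hbij).trans (Equiv.permCongrHom e)⟩

end Cfsg.Agent.S2761
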