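import Cfsg.Statements.S2949
import Cfsg.Agent.Lib.LocalEven2.JC11
-- import your own Cfsg.Agent.* helpers here

set_option autoImplicit false
open Cfsg

namespace Cfsg.Agent.S2949

/-- Let G be a finite group of characteristic 2 type in which every 2-local subgroup is solvable and the centralizer of Ω₁(Z(S)) lies in N_G(S) for every Sylow 2-subgroup S; suppose O₂(G) = 1, fix a Sylow 2-subgroup S and a 2-local subgroup M containing N_G(J(S)) (J the Thompson subgroup generated by the elementary abelian 2-subgroups of largest order). For every T maximal (for the order of a largest elementary abelian subgroup, then the order of J(T), then the order of T) among the nontrivial 2-subgroups of M lying in a 2-local subgroup not inside M, there is a J(T)-component K not contained in M with J(T) the Thompson subgroup of every Sylow 2-subgroup of N_G(W_K) containing J(T), and O₂(⟨K, T⟩) ≠ 1. -/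
theorem result {G : Type*} [Group G] [Finite G] (hL : Cfsg.IsCharacteristicTwoType G) (hN : ∀ N : Subgroup G, Cfsg.IsTwoLocal N → Group.IsSolvable ↥N)
    (hZ : ∀ S : Sylow 2 G, Subgroup.centralizer (Cfsg.omegaCenterOf (S : Subgroup G) : Set G) ≤ Subgroup.normalizer ((S : Subgroup G) : Set G)) (hO : Cfsg.pCore 2 G = ⊥) (S : Sylow 2 G) (M : Subgroup G) (hM : Cfsg.IsTwoLocal M)
    (hMJ : Subgroup.normalizer (Cfsg.thompsonSubgroupOf 2 (S : Subgroup G) : Set G) ≤ M) (T : Subgroup G) (hT : T ∈ Cfsg.maxStraddlingTwoSubgroups M) :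
    (Cfsg.jComponentsOutside M T).Nonempty := by
  open Cfsg.Agent.Lib.LocalEven2.JC in
  obtain ⟨⟨hTp, hT1, hTM, L, hL2, hTL, hLM⟩, hmax⟩ := id hT
  obtain ⟨T₁, hT₁, hTT₁⟩ := Cfsg.Agent.Lib.LocalEven2.JC.Data.exists_sylowIn hTL hTp
  obtain ⟨h4, h5, h6⟩ := Cfsg.Agent.Lib.LocalEven2.JC.main_straddle hL S hMJ hT hL2 hLM hT₁
    ((Cfsg.Agent.Lib.LocalEven2.JC.thompson_le T).trans hTT₁)
  have h7 : T₁ = T := Cfsg.Agent.Lib.LocalEven2.JC.straddle_eq hT h5 hTT₁
  subst h7
  have hLS := Cfsg.Agent.Lib.LocalEven2.JC.LS_of_two_local hL hN hZ hL2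
  have hNM := Cfsg.Agent.Lib.LocalEven2.JC.normalizer_J_le S hMJ hT
  obtain ⟨K, hK, hKL, hKM⟩ : ∃ K, Cfsg.IsJComponent T₁ K ∧ K ≤ L ∧ ¬ K ≤ M := by
    by_contra hcon
    push Not at hcon
    exact hLM (Cfsg.Agent.Lib.LocalEven2.JC.le_of_comps hLS hT₁ hNM hTM (fun K hK hKL => hcon K hK hKL))
  refine ⟨K, ⟨hK, ?_⟩, hKM, ?_⟩
  · intro S' hJS' hS'
    have D := Cfsg.Agent.Lib.LocalEven2.JC.Data.of hTp hK
    have hW2 : Cfsg.IsTwoLocal (Subgroup.normalizer ((Cfsg.wOf K : Subgroup G) : Set G)) :=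
      (Cfsg.Agent.Lib.LocalEven2.JC.LS_normalizer hL hN hZ D).1 |> fun _ => ⟨Cfsg.wOf K,
        (Cfsg.Agent.Lib.LocalEven2.JC.Data.O_p (K := K)).to_le Cfsg.Agent.Lib.LocalEven2.JC.Data.W_le_O, by
          intro he
          have h8 := D.hW4
          rw [he, Subgroup.card_bot] at h8
          omega, rfl⟩
    have hNWM : ¬ Subgroup.normalizer ((Cfsg.wOf K : Subgroup G) : Set G) ≤ M := fun hle =>
      hKM ((Subgroup.le_normalizer.trans Cfsg.Agent.Lib.LocalEven2.JC.Data.W_norm).trans hle)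
    exact (Cfsg.Agent.Lib.LocalEven2.JC.main_straddle hL S hMJ hT hW2 hNWM hS' hJS').1.symm
  · intro he
    have hle : K ⊔ T₁ ≤ L := sup_le hKL hT₁.1
    have hQT := Cfsg.Agent.Lib.LocalEven2.JC.Q_le_T hT₁
    have hQn : K ⊔ T₁ ≤ Subgroup.normalizer ((Cfsg.pCoreOf 2 L : Subgroup G) : Set G) :=
      hle.trans (Cfsg.Agent.Lib.LocalEven.le_normalizer_pCoreOf L)
    have hQp : IsPGroup 2 (Cfsg.pCoreOf 2 L) := Cfsg.Agent.Lib.LocalEven.pCoreOf_isPGroup L
    have hQle : Cfsg.pCoreOf 2 L ≤ Cfsg.pCoreOf 2 (K ⊔ T₁) := by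
      intro q hq
      exact ⟨⟨q, Subgroup.mem_sup_right (hQT hq)⟩,
        Cfsg.Agent.Lib.LocalEven2.mem_pCore_subgroup (hQT.trans le_sup_right) hQn hQp hq, rfl⟩
    rw [he, le_bot_iff] at hQle
    exact hLS.Q_ne_bot hQle

end Cfsg.Agent.S2949
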