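import Cfsg.Statements.S0727
import Cfsg.Agent.Lib.Perm.ZFSharp
import Cfsg.Agent.Lib.Perm.ZassInv
import Mathlib

set_option autoImplicit false
open Cfsg

namespace Cfsg.Agent.S0727

/-- A sharply triply transitive permutation group of degree `2^f + 1` is isomorphic to the projective general linear group of degree 2 over the field with `2^f` elements. -/
theorem result {α : Type*} [Fintype α] [DecidableEq α] {f : ℕ} (hf : 1 ≤ f) (hα : Fintype.card α = 2 ^ f + 1) (G : Subgroup (Equiv.Perm α)) (h3 : MulAction.IsMultiplyPretransitive G α 3) (hsharp : ∀ x : Fin 3 ↪ α, MulAction.stabilizer G x = ⊥) : ∃ (F : Type) (_ : Field F) (_ : Fintype F), Fintype.card F = 2 ^ f ∧ Nonempty (G ≃* Matrix.ProjGenLinGroup (Fin 2) F) := by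
  classical
  have hS := Cfsg.Agent.Lib.Perm.sh3_of_subgroup h3 hsharp
  have hfaith : ∀ g : G, (∀ x : α, g • x = x) → g = 1 := by
    intro g hg
    apply Subtype.ext
    apply Equiv.ext
    intro x
    exact hg x
  have h2f : 2 ≤ 2 ^ f := by
    calc 2 = 2 ^ 1 := rfl
      _ ≤ 2 ^ f := Nat.pow_le_pow_right (by norm_num) hf
  have hc3 : 2 < Fintype.card α := by omega
  obtain ⟨a, b, c, hab, hac, hbc⟩ := Fintype.two_lt_card_iff.mp hc3
  obtain ⟨Fk, p, j, hp, hj, hcardj, hFa, hFn, hFc, hFp, hFreg⟩ :=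
    Cfsg.Agent.Lib.Perm.sh3_kernel hS a hc3
  obtain ⟨J, hJa, hJb, hJc⟩ := hS.trans a b c b a c hab hac hbc hab.symm hbc hac
  have hJJ : J * J = 1 := by
    apply hS.fix _ a b c hab hac hbc
    · rw [mul_smul, hJa, hJb]
    · rw [mul_smul, hJb, hJa]
    · rw [mul_smul, hJc, hJc]
  have hJ1 : J ≠ 1 := by
    intro h
    rw [h, one_smul] at hJa
    exact hab hJa
  have hJfix : ∀ y : α, J • y = y → y = c := by
    intro y hy
    by_contra hne
    have hpar := Cfsg.Agent.Lib.Perm.zi_parity (Ω := α) J (by rw [pow_two]; exact hJJ)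
    have hfix : MulAction.fixedBy α J = {c, y} := by
      ext z
      simp only [Set.mem_insert_iff, Set.mem_singleton_iff, MulAction.mem_fixedBy]
      constructor
      · intro hz
        by_contra hz'
        push Not at hz'
        exact hJ1 (hS.fix J c y z (Ne.symm hne) (Ne.symm hz'.1) (Ne.symm hz'.2) hJc hy hz)
      · rintro (rfl | rfl)
        · exact hJc
        · exact hy
    have hcard2 : Nat.card (MulAction.fixedBy α J) = 2 := by
      rw [hfix, Nat.card_coe_set_eq, Set.ncard_pair (Ne.symm hne)]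
    rw [hcard2, Nat.card_eq_fintype_card, hα] at hpar
    unfold Nat.ModEq at hpar
    obtain ⟨m, hm⟩ : ∃ m, f = m + 1 := ⟨f - 1, by omega⟩
    rw [hm, pow_succ] at hpar
    omega
  -- conjugation by `J` on the two-point stabiliser
  let H : Subgroup G := MulAction.stabilizer G a ⊓ MulAction.stabilizer G b
  have hJH : ∀ h ∈ H, J * h * J⁻¹ ∈ H := by
    intro h hh
    have hJi : J⁻¹ = J := inv_eq_of_mul_eq_one_left hJJ
    constructor
    · change (J * h * J⁻¹) • a = a
      rw [hJi, mul_smul, mul_smul, hJa, (hh.2 : h • b = b), hJb]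
    · change (J * h * J⁻¹) • b = b
      rw [hJi, mul_smul, mul_smul, hJb, (hh.1 : h • a = a), hJa]
  let φ : H →* H :=
    { toFun := fun u => ⟨J * u * J⁻¹, hJH u u.2⟩
      map_one' := by
        apply Subtype.ext
        simp
      map_mul' := fun u v => by
        apply Subtype.ext
        simp only [Subgroup.coe_mul]
        group }
  have hφ : ∀ u : H, ((φ u : H) : G) = J * u * J⁻¹ := fun u => rfl
  have hfpf : MonoidHom.FixedPointFree φ := by
    intro u hu
    have hcomm : J * (u : G) * J⁻¹ = u := congrArg Subtype.val hu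
    have hJu : J • ((u : G) • c) = (u : G) • c := by
      have : J * (u : G) = u * J := by
        calc J * (u : G) = (J * u * J⁻¹) * J := by group
          _ = u * J := by rw [hcomm]
      rw [← mul_smul, this, mul_smul, hJc]
    have huc := hJfix _ hJu
    apply Subtype.ext
    exact hS.fix _ a b c hab hac hbc u.2.1 u.2.2 huc
  have hinvol : Function.Involutive φ := by
    intro u
    apply Subtype.ext
    rw [hφ, hφ]
    calc J * (J * (u : G) * J⁻¹) * J⁻¹ = (J * J) * u * (J * J)⁻¹ := by group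
      _ = u := by rw [hJJ]; group
  have hinv := hfpf.coe_eq_inv_of_involutive hinvol
  obtain ⟨K, iF, iT, hK, hiso⟩ := Cfsg.Agent.Lib.Perm.sh3_pgl_of_inverts hS hfaith
    (Cfsg.Agent.Lib.Perm.sh3_card h3 hsharp (Cfsg.Agent.Lib.Perm.mk3 a b c hab hac hbc))
    hab hac hbc hFa hFn hFc hFreg
    (fun h k h1 h2 k1 k2 => by
      have := hfpf.commute_all_of_involutive hinvol ⟨h, h1, h2⟩ ⟨k, k1, k2⟩
      exact congrArg Subtype.val this.eq)
    J hJa hJb hJc
    (fun h h1 h2 => congrArg Subtype.val (congrFun hinv ⟨h, h1, h2⟩))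
  refine ⟨K, iF, iT, ?_, hiso⟩
  rw [Nat.card_eq_fintype_card, Nat.card_eq_fintype_card, hα] at hK
  omega

end Cfsg.Agent.S0727
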