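import Cfsg.Statements.S4702
import Cfsg.Agent.S0727
import Cfsg.Agent.Lib.Perm.ZFSharp
import Cfsg.Agent.Lib.Classical.Card2

set_option autoImplicit false
open Cfsg

namespace Cfsg.Agent.S4702



/-- Let G be a triply transitive permutation group on a finite set of odd size m ≥ 3 in which only the identity fixes three or more points. Then m = 2^a + 1 for some a ≥ 1 and G is isomorphic to SL(2, 2^a). -/
theorem result {α : Type*} [Fintype α] [DecidableEq α] (hm : 3 ≤ Fintype.card α) (hodd : Odd (Fintype.card α)) (G : Subgroup (Equiv.Perm α)) (h3 : MulAction.IsMultiplyPretransitive G α 3) (hfix : ∀ g : G, 3 ≤ Nat.card (MulAction.fixedBy α g) → g = 1) : ∃ a : ℕ, 1 ≤ a ∧ Fintype.card α = 2 ^ a + 1 ∧ ∃ (F : Type) (_ : Field F) (_ : Fintype F), Fintype.card F = 2 ^ a ∧ Nonempty (G ≃* Matrix.SpecialLinearGroup (Fin 2) F) := by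

  classical
  have hsharp : ∀ x : Fin 3 ↪ α, MulAction.stabilizer G x = ⊥ := by
    intro x
    rw [eq_bot_iff]
    intro g hg
    rw [Subgroup.mem_bot]
    apply hfix
    have hg' : ∀ i, g • x i = x i := fun i => DFunLike.congr_fun (show g • x = x from hg) i
    let e : Fin 3 → MulAction.fixedBy α g := fun i => ⟨x i, hg' i⟩
    have he : Function.Injective e := fun i j hij => x.injective (congrArg Subtype.val hij)
    have h4 := Nat.card_le_card_of_injective e he
    simpa using h4
  have hS := Cfsg.Agent.Lib.Perm.sh3_of_subgroup h3 hsharp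
  obtain ⟨a⟩ : Nonempty α := by
    rw [← Fintype.card_pos_iff]; omega
  obtain ⟨-, p, j, hp, hj, hcard, -⟩ := Cfsg.Agent.Lib.Perm.sh3_kernel hS a hm
  have hp2 : p = 2 := by
    obtain ⟨c, hc⟩ := hodd
    have h2 : 2 ∣ p ^ j := ⟨c, by omega⟩
    have := (Nat.prime_dvd_prime_iff_eq Nat.prime_two hp).1 (Nat.prime_two.dvd_of_dvd_pow h2)
    exact this.symm
  subst hp2
  obtain ⟨F, hF, hFt, hFc, ⟨e⟩⟩ := Cfsg.Agent.S0727.result hj hcard G h3 hsharp
  refine ⟨j, hj, hcard, F, hF, hFt, hFc, ?_⟩
  have h20 : (2 : F) = 0 := by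
    have := FiniteField.cast_card_eq_zero F
    rw [hFc] at this
    push_cast at this
    exact pow_eq_zero_iff (by omega) |>.1 this
  let φ := Matrix.SpecialLinearGroup.toPGL (n := Fin 2) (R := F)
  have hinj : Function.Injective φ := by
    rw [injective_iff_map_eq_one]
    intro A hA
    have h1 : A ∈ φ.ker := hA
    rw [Matrix.SpecialLinearGroup.toPGL_ker, Matrix.SpecialLinearGroup.mem_center_iff] at h1
    obtain ⟨r, hr, hrA⟩ := h1
    have hr2 : r ^ 2 = 1 := by simpa using hr
    have hr1 : r = 1 := by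
      have h3 : (r + 1) ^ 2 = 0 := by
        have : (r + 1) ^ 2 = r ^ 2 + 2 * r + 1 := by ring
        rw [this, hr2, h20]
        have h5 : (1 : F) + 1 = 0 := by
          rw [← h20]; norm_num
        simpa using h5
      have h4 : r + 1 = 0 := pow_eq_zero_iff (by norm_num) |>.1 h3
      have h5 : (1 : F) + 1 = 0 := by
        rw [← h20]; norm_num
      calc r = (r + 1) - 1 := by ring
        _ = 1 := by rw [h4]; linear_combination -h5
    ext i j
    rw [← hrA, hr1]
    simp [Matrix.one_apply]
  have hfin : Finite (Matrix.ProjGenLinGroup (Fin 2) F) := Finite.of_equiv G e.toEquiv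
  have hbij : Function.Bijective φ := by
    rw [Nat.bijective_iff_injective_and_card]
    exact ⟨hinj, (Cfsg.Agent.Lib.Classical.card_PGL_eq_card_SL 2).symm⟩
  exact ⟨e.trans (MulEquiv.ofBijective φ hbij).symm⟩

end Cfsg.Agent.S4702
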