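import Cfsg.Statements.S0118
import Mathlib
import Cfsg.Agent.Lib.PLocal.ZJSL2

set_option autoImplicit false
open Cfsg

namespace Cfsg.Agent.S0118

/-- Glauberman's ZJ-Theorem, in the case of groups with no section isomorphic to SL(2,p), p odd: conjugation of subsets of a Sylow p-subgroup P inside P is always induced from the normalizer of Z(J(P)). -/
theorem result {G : Type*} [Group G] [Finite G] {p : ℕ} [Fact p.Prime] (hp : p ≠ 2) (hfree : ¬ ∃ (H K : Subgroup G) (hK : (K.subgroupOf H).Normal), Nonempty ((H ⧸ K.subgroupOf H) ≃* Matrix.SpecialLinearGroup (Fin 2) (ZMod p))) (P : Sylow p G) (A : Set G) (hA : A ⊆ (P : Set G)) (g : G) (hAg : (fun a => g⁻¹ * a * g) '' A ⊆ (P : Set G)) : ∃ n ∈ Subgroup.normalizer (Cfsg.centerThompsonOf p (P : Subgroup G) : Set G), ∀ a ∈ A, n⁻¹ * a * n = g⁻¹ * a * g := by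
  classical
  have hinv : ¬ Cfsg.Involves (Matrix.SpecialLinearGroup (Fin 2) (ZMod p)) G := hfree
  have hW := Cfsg.Agent.Lib.PLocal.wJe_functorial (p := p) hp
  have hfr := Cfsg.Agent.Lib.Fusion.Qd.free_of_not_involves P hinv
  have h := Cfsg.Agent.Lib.Fusion.ZJ.isNormal_wOn hW _ G (P : Subgroup G) rfl
    (Cfsg.Agent.Lib.Fusion.isPGroup_sylow P) _ (Cfsg.Agent.Lib.Fusion.isSaturated_gfs P) hfr
  have hQ : Cfsg.Agent.Lib.Fusion.wOn (Cfsg.Agent.Lib.PLocal.wJe p) (P : Subgroup G) = Cfsg.centerThompsonOf p (P : Subgroup G) :=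
    Cfsg.Agent.Lib.PLocal.wJe_map_subtype _
  rw [hQ] at h
  set Y : Subgroup G := Subgroup.closure A with hY
  have hYP : Y ≤ (P : Subgroup G) := (Subgroup.closure_le _).mpr hA
  have hYg : ∀ x ∈ Y, g⁻¹ * x * g ∈ (P : Subgroup G) := by
    have hle : Y ≤ (P : Subgroup G).comap (MulAut.conj g⁻¹).toMonoidHom := by
      refine (Subgroup.closure_le _).mpr fun a ha => ?_
      have := hAg ⟨a, ha, rfl⟩
      simpa using this
    intro x hx
    have := hle hx
    simpa using this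
  let φ : Y →* G := (MulAut.conj g⁻¹).toMonoidHom.comp Y.subtype
  have hφ : φ ∈ (Cfsg.groupFusionSystem (P : Subgroup G)).Hom Y :=
    ⟨hYP, fun x => by simpa [φ] using hYg x x.2, g⁻¹, fun x => rfl⟩
  obtain ⟨ψ, hψ, hag, hmap⟩ := h.2 Y φ hφ
  obtain ⟨-, -, n', hn'⟩ := hψ
  refine ⟨n'⁻¹, Subgroup.inv_mem _ ?_, fun a ha => ?_⟩
  · apply Cfsg.Agent.Lib.PGroups.mem_normalizer_of_conj_le'
    intro q hq
    have hq' : q ∈ Y ⊔ Cfsg.centerThompsonOf p (P : Subgroup G) := Subgroup.mem_sup_right hq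
    have h1 : ψ ⟨q, hq'⟩ ∈ ((Cfsg.centerThompsonOf p (P : Subgroup G)).subgroupOf (Y ⊔ Cfsg.centerThompsonOf p (P : Subgroup G))).map ψ :=
      ⟨⟨q, hq'⟩, hq, rfl⟩
    rw [hmap] at h1
    rw [hn' ⟨q, hq'⟩] at h1
    exact h1
  · have h1 := hag ⟨a, Subgroup.subset_closure ha⟩
    have h2 := hn' (Subgroup.inclusion le_sup_left ⟨a, Subgroup.subset_closure ha⟩)
    rw [h1] at h2
    have h3 : φ ⟨a, Subgroup.subset_closure ha⟩ = g⁻¹ * a * g := by
      simp [φ]
    rw [h3] at h2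
    rw [inv_inv, h2]
    rfl

end Cfsg.Agent.S0118
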