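import Cfsg.Statements.S0199
import Mathlib
import Cfsg.Agent.Lib.Invol.BaerSuzuki

set_option autoImplicit false
open Cfsg

namespace Cfsg.Agent.S0199

/-- Baer–Suzuki Theorem: a p-subgroup X of a finite group such that X and any of its conjugates generate a p-group is contained in a normal p-subgroup. -/
theorem result {G : Type*} [Group G] [Finite G] {p : ℕ} [Fact p.Prime] (X : Subgroup G) (hX : IsPGroup p X) (h : ∀ g : G, IsPGroup p ↥(X ⊔ X.map (MulAut.conj g).toMonoidHom)) : ∃ N : Subgroup G, N.Normal ∧ IsPGroup p N ∧ X ≤ N := by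
  classical
  let Δ : Set G := Group.conjugatesOfSet (X : Set G)
  have hΔ : Cfsg.Agent.Lib.Invol.ConjClosed Δ := by
    intro a ha g
    rw [Group.mem_conjugatesOfSet_iff] at ha ⊢
    obtain ⟨x, hx, hxa⟩ := ha
    refine ⟨x, hx, hxa.trans ?_⟩
    rw [isConj_iff]
    exact ⟨g, rfl⟩
  have hpair : ∀ a ∈ Δ, ∀ b ∈ Δ, IsPGroup p (Subgroup.closure ({a, b} : Set G)) := by
    intro a ha b hb
    rw [Group.mem_conjugatesOfSet_iff] at ha hb
    obtain ⟨x, hx, hxa⟩ := ha
    obtain ⟨y, hy, hyb⟩ := hb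
    rw [isConj_iff] at hxa hyb
    obtain ⟨g, rfl⟩ := hxa
    obtain ⟨k, rfl⟩ := hyb
    have h1 := (h (g⁻¹ * k)).map (MulAut.conj g).toMonoidHom
    refine h1.to_le ?_
    rw [Subgroup.closure_le]
    intro w hw
    rcases hw with rfl | rfl
    · exact ⟨x, Subgroup.mem_sup_left hx, by simp⟩
    · refine ⟨(g⁻¹ * k) * y * (g⁻¹ * k)⁻¹, Subgroup.mem_sup_right ⟨y, hy, by simp only [MulEquiv.coe_toMonoidHom, MulAut.conj_apply]⟩, ?_⟩
      simp only [MulEquiv.coe_toMonoidHom, MulAut.conj_apply]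
      group
  have hmain := Cfsg.Agent.Lib.Invol.isPGroup_closure_of_pairs p _ rfl Δ hΔ hpair
  refine ⟨Subgroup.normalClosure (X : Set G), inferInstance, hmain, ?_⟩
  exact Subgroup.subset_normalClosure

end Cfsg.Agent.S0199
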