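import Cfsg.Statements.S0200
import Mathlib
import Cfsg.Agent.Lib.Invol.BaerSuzuki
import Cfsg.Agent.Lib.Invol.Count

set_option autoImplicit false
open Cfsg

namespace Cfsg.Agent.S0200

/-- An involution lying in no normal 2-subgroup of a finite group inverts a nontrivial element of odd order (a consequence of the Baer–Suzuki Theorem). -/
theorem result {G : Type*} [Group G] [Finite G] (t : G) (ht : orderOf t = 2) (hO : ∀ N : Subgroup G, N.Normal → IsPGroup 2 N → t ∉ N) : ∃ h : G, h ≠ 1 ∧ Odd (orderOf h) ∧ t * h * t⁻¹ = h⁻¹ := by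
  classical
  by_contra hcon
  push Not at hcon
  haveI : Fact (Nat.Prime 2) := ⟨Nat.prime_two⟩
  let Δ : Set G := Group.conjugatesOfSet ({t} : Set G)
  have hΔ : Cfsg.Agent.Lib.Invol.ConjClosed Δ := by
    intro a ha g
    rw [Group.mem_conjugatesOfSet_iff] at ha ⊢
    obtain ⟨x, hx, hxa⟩ := ha
    refine ⟨x, hx, hxa.trans ?_⟩
    rw [isConj_iff]
    exact ⟨g, rfl⟩
  have hpair : ∀ a ∈ Δ, ∀ b ∈ Δ, IsPGroup 2 (Subgroup.closure ({a, b} : Set G)) := by
    intro a ha b hb
    rw [Group.mem_conjugatesOfSet_iff] at ha hb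
    obtain ⟨x, hx, hxa⟩ := ha
    obtain ⟨y, hy, hyb⟩ := hb
    rw [Set.mem_singleton_iff] at hx hy
    rw [hx] at hxa
    rw [hy] at hyb
    rw [isConj_iff] at hxa hyb
    obtain ⟨g, rfl⟩ := hxa
    obtain ⟨k, rfl⟩ := hyb
    set u := g * t * g⁻¹ with hu
    set v := k * t * k⁻¹ with hv
    clear_value u v
    have hu2 : orderOf u = 2 := by
      rw [← ht]
      exact (SemiconjBy.orderOf_eq g (by
        unfold SemiconjBy
        rw [hu]
        group)).symm
    have hv2 : orderOf v = 2 := by
      rw [← ht]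
      exact (SemiconjBy.orderOf_eq k (by
        unfold SemiconjBy
        rw [hv]
        group)).symm
    have huu : u * u = 1 := Cfsg.Agent.Lib.Invol.mul_self_of_orderOf_eq_two hu2
    have hvv : v * v = 1 := Cfsg.Agent.Lib.Invol.mul_self_of_orderOf_eq_two hv2
    -- `c = u v` has `2`-power order
    set c := u * v with hc
    clear_value c
    have hc0 : orderOf c ≠ 0 := (orderOf_pos c).ne'
    obtain ⟨e, m, hm, hord⟩ := Nat.exists_eq_two_pow_mul_odd hc0
    have hinv : u * c * u⁻¹ = c⁻¹ := by
      have huinv : u⁻¹ = u := inv_eq_of_mul_eq_one_left huu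
      have hvinv : v⁻¹ = v := inv_eq_of_mul_eq_one_left hvv
      rw [hc, mul_inv_rev, huinv, hvinv, ← mul_assoc, huu, one_mul]
    let h₀ : G := g⁻¹ * c ^ (2 ^ e) * g
    have hm1 : m = 1 := by
      by_contra hne
      have hh₀ : orderOf (c ^ (2 ^ e)) = m := by
        rw [orderOf_pow' c (by positivity), hord]
        have : Nat.gcd (2 ^ e * m) (2 ^ e) = 2 ^ e := Nat.gcd_eq_right (Dvd.intro _ rfl)
        rw [this]
        rw [Nat.mul_div_cancel_left _ (by positivity)]
      have hordh : orderOf h₀ = m := by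
        rw [← hh₀]
        exact (SemiconjBy.orderOf_eq g (by
          unfold SemiconjBy
          simp only [h₀]
          group))
      have hinvx : t * h₀ * t⁻¹ = h₀⁻¹ := by
        have hx' : t = g⁻¹ * u * g := by rw [hu]; group
        have h5 : u * c ^ (2 ^ e) * u⁻¹ = (c ^ (2 ^ e))⁻¹ := by
          have : (MulAut.conj u) (c ^ (2 ^ e)) = ((MulAut.conj u) c) ^ (2 ^ e) := map_pow _ _ _
          simp only [MulAut.conj_apply] at this
          rw [this, hinv, inv_pow]
        calc t * h₀ * t⁻¹ = g⁻¹ * (u * c ^ (2 ^ e) * u⁻¹) * g := by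
              simp only [h₀]
              nth_rewrite 1 [hx']
              rw [show t⁻¹ = (g⁻¹ * u * g)⁻¹ by rw [← hx']]
              group
          _ = h₀⁻¹ := by
              rw [h5]
              simp only [h₀]
              group
      apply hcon h₀ _ _ hinvx
      · intro h1
        rw [h1, orderOf_one] at hordh
        exact hne hordh.symm
      · rw [hordh]
        exact hm
    subst hm1
    rw [mul_one] at hord
    have hce : c ^ (2 ^ e) = 1 := by
      rw [← hord]
      exact pow_orderOf_eq_one c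
    rw [hc] at hce
    exact Cfsg.Agent.Lib.Invol.isPGroup_closure_pair huu hvv hce
  have hmain := Cfsg.Agent.Lib.Invol.isPGroup_closure_of_pairs 2 _ rfl Δ hΔ hpair
  apply hO (Subgroup.normalClosure ({t} : Set G)) inferInstance hmain
  exact Subgroup.subset_normalClosure rfl

end Cfsg.Agent.S0200
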