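import Cfsg.Statements.S0220
import Mathlib
import Cfsg.Agent.S0219

set_option autoImplicit false
open Cfsg

namespace Cfsg.Agent.S0220

private theorem aux {G : Type*} [Group G] [Finite G] (x : G) (hx : orderOf x = 2)
    (C : Subgroup G) (hC : ∀ g, g ∈ C ↔ g * x = x * g) (S : Sylow 2 C)
    (hS : IsCyclic (S : Subgroup C)) : ∃ H : Subgroup G, H.index = 2 := by

  have hxC : x ∈ C := by
    rw [hC]
  let x' : C := ⟨x, hxC⟩
  have hx'central : ∀ c : C, c * x' = x' * c := by
    rintro ⟨c, hc⟩
    apply Subtype.ext
    rw [hC] at hc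
    exact hc
  -- x' ∈ S
  have hx'S : x' ∈ (S : Subgroup C) := by
    have hP : IsPGroup 2 (Subgroup.zpowers x') := by
      rw [IsPGroup.iff_card, Nat.card_zpowers]
      refine ⟨1, ?_⟩
      rw [pow_one, Subgroup.orderOf_mk, hx]
    have h3 := hP.inf_normalizer_sylow S
    have h4 : x' ∈ Subgroup.zpowers x' ⊓ (S : Subgroup C) := by
      rw [← h3]
      have hN : x' ∈ Subgroup.normalizer (((S : Subgroup C)) : Set C) := by
        rw [Subgroup.mem_normalizer_iff]
        intro s
        have : x' * s * x'⁻¹ = s := by
          rw [← hx'central s]; group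
        rw [this]
      exact Subgroup.mem_inf.mpr ⟨Subgroup.mem_zpowers x', hN⟩
    exact h4.2
  -- map to G
  let S' : Subgroup G := (S : Subgroup C).map C.subtype
  have hS'2 : IsPGroup 2 S' := S.isPGroup'.map C.subtype
  obtain ⟨T, hT⟩ := hS'2.exists_le_sylow
  have hxT : x ∈ (T : Subgroup G) := hT ⟨x', hx'S, rfl⟩
  -- T ∩ C(x) = S'
  have hTC : ∀ w ∈ (T : Subgroup G), w ∈ C → w ∈ S' := by
    intro w hwT hwC
    have hA : IsPGroup 2 ((T : Subgroup G).subgroupOf C) := T.isPGroup'.comap_subtype
    have hle : (S : Subgroup C) ≤ (T : Subgroup G).subgroupOf C := by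
      intro s hs
      rw [Subgroup.mem_subgroupOf]
      exact hT ⟨s, hs, rfl⟩
    have heq := S.is_maximal' hA hle
    have : (⟨w, hwC⟩ : C) ∈ (S : Subgroup C) := by
      rw [← heq, Subgroup.mem_subgroupOf]
      exact hwT
    exact ⟨_, this, rfl⟩
  -- S' cyclic
  have hS'c : IsCyclic S' := by
    have e : (S : Subgroup C) ≃* S' := (S : Subgroup C).equivMapOfInjective C.subtype C.subtype_injective
    exact isCyclic_of_surjective e e.surjective
  -- x is the unique involution in S'
  have hxS' : x ∈ S' := ⟨x', hx'S, rfl⟩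
  have huniq : ∀ w ∈ S', orderOf w = 2 → w = x := by
    intro w hw hww
    -- in a cyclic group two elements of order 2 coincide
    classical
    let _ := Fintype.ofFinite S'
    let a : S' := ⟨w, hw⟩
    let b : S' := ⟨x, hxS'⟩
    have hoa : orderOf a = 2 := by rw [Subgroup.orderOf_mk]; exact hww
    have hob : orderOf b = 2 := by rw [Subgroup.orderOf_mk]; exact hx
    have hdvd : 2 ∣ Fintype.card S' := by
      rw [← hob, ← Nat.card_eq_fintype_card]; exact orderOf_dvd_natCard b
    have hcard := IsCyclic.card_orderOf_eq_totient (α := S') (d := 2) hdvd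
    simp only [Nat.totient_two] at hcard
    rw [Finset.card_eq_one] at hcard
    obtain ⟨c, hc⟩ := hcard
    have ha : a ∈ ({c} : Finset S') := by
      rw [← hc]; simp [hoa]
    have hb : b ∈ ({c} : Finset S') := by
      rw [← hc]; simp [hob]
    rw [Finset.mem_singleton] at ha hb
    have : a = b := ha.trans hb.symm
    exact congrArg Subtype.val this
  have hST : S' = T := by
    by_contra hne
    have hlt : S' < T := lt_of_le_of_ne hT hne
    -- normalizer growth in the 2-group T
    have hnil : Group.IsNilpotent (T : Subgroup G) := T.isPGroup'.isNilpotent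
    let S'' : Subgroup (T : Subgroup G) := S'.subgroupOf (T : Subgroup G)
    have hS''ne : S'' ≠ ⊤ := by
      intro h
      apply hne
      apply le_antisymm hT
      intro w hw
      have : (⟨w, hw⟩ : (T : Subgroup G)) ∈ S'' := by rw [h]; trivial
      exact this
    have hgrow := Group.normalizerCondition_of_isNilpotent (G := (T : Subgroup G))
    have h1 := hgrow S'' (lt_top_iff_ne_top.mpr hS''ne)
    obtain ⟨w, hw1, hw2⟩ := SetLike.exists_of_lt h1
    -- w normalises S'
    have hwnorm : ∀ s ∈ S', (w : G) * s * (w : G)⁻¹ ∈ S' := by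
      intro s hs
      have hsT := hT hs
      have h2 := (Subgroup.mem_normalizer_iff.mp hw1 ⟨s, hsT⟩).mp (by exact hs)
      exact h2
    have hwx : (w : G) * x * (w : G)⁻¹ = x := by
      apply huniq _ (hwnorm x hxS')
      exact (MulEquiv.orderOf_eq (MulAut.conj (w : G)) x).trans hx
    have hwC : (w : G) ∈ C := by
      rw [hC]
      exact mul_inv_eq_iff_eq_mul.mp hwx
    apply hw2
    exact hTC w w.2 hwC
  have hTc : IsCyclic (T : Subgroup G) := by
    rw [← hST]; exact hS'c
  have heven : Even (Nat.card G) := by
    have := orderOf_dvd_natCard x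
    rw [hx] at this
    exact even_iff_two_dvd.mpr this
  exact Cfsg.Agent.S0219.result heven T hTc

/-- If x is an involution of a finite group G and a Sylow 2-subgroup of the centralizer of x is cyclic, then G has a subgroup of index 2; in particular G is not simple unless it has order 2. -/
theorem result {G : Type*} [Group G] [Finite G] (x : G) (hx : orderOf x = 2) (S : Sylow 2 ↥(Subgroup.centralizer ({x} : Set G))) (hS : IsCyclic (S : Subgroup ↥(Subgroup.centralizer ({x} : Set G)))) : ∃ H : Subgroup G, H.index = 2 := by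
  exact aux x hx _ (fun g => by
    rw [Subgroup.mem_centralizer_singleton_iff]) S hS

end Cfsg.Agent.S0220
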