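import Mathlib
import Cfsg.Prelude.Def_SporadicB

set_option autoImplicit false
open Cfsg

namespace Cfsg.Agent.S0436

theorem key {G : Type*} [Group G] {a b e : G} (ha : a * a = 1) (hb : b * b = 1)
    (hab : a ≠ b) (hcomm : Commute a b) (h1 : (e * a) ^ 3 = 1) (h2 : (e * b) ^ 3 = 1)
    (hc : Commute e (a * b)) : False := by
  apply hab
  have hca : Commute (a * b) a := ((Commute.refl a).mul_left hcomm.symm)
  have hb2 : b = a * (a * b) := by rw [← mul_assoc, ha, one_mul]
  have hcc : (a * b) * (a * b) = 1 := by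
    calc a * b * (a * b) = a * (b * a) * b := by group
      _ = a * (a * b) * b := by rw [hcomm.eq]
      _ = (a * a) * (b * b) := by group
      _ = 1 := by rw [ha, hb, one_mul]
  have hcomm2 : Commute (e * a) (a * b) := (Commute.mul_left hc hca.symm)
  have h3 : (e * b) ^ 3 = (e * a) ^ 3 * (a * b) ^ 3 := by
    have : e * b = (e * a) * (a * b) := by
      rw [mul_assoc, ← hb2]
    rw [this, hcomm2.mul_pow]
  rw [h2, h1, one_mul] at h3
  have h4 : (a * b) ^ 3 = a * b := by
    rw [pow_succ, pow_two, hcc, one_mul]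
  rw [h4] at h3
  have h5 : a * b = 1 := h3.symm
  have h6 : a = b⁻¹ := eq_inv_of_mul_eq_one_left h5
  have h7 : b⁻¹ = b := inv_eq_of_mul_eq_one_left hb
  rw [h6, h7]

theorem inv2 {G : Type*} [Group G] {d : G} (h : orderOf d = 2) : d * d = 1 := by
  have := pow_orderOf_eq_one d
  rwa [h, pow_two] at this

theorem comm_of_sq {G : Type*} [Group G] {d e : G} (hd : d * d = 1) (he : e * e = 1)
    (h : (d * e) ^ 2 = 1) : Commute d e := by
  rw [pow_two] at h
  have h1 : d * e * (d * e) * (e * d) = e * d := by rw [h, one_mul]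
  have h2 : d * e * (d * e) * (e * d) = d * e := by
    calc d * e * (d * e) * (e * d) = d * e * d * (e * e) * d := by group
      _ = d * e * (d * d) := by rw [he]; group
      _ = d * e := by rw [hd, mul_one]
  exact h2.symm.trans h1

theorem braid {G : Type*} [Group G] {d e : G} (hd : d * d = 1) (he : e * e = 1)
    (h : (d * e) ^ 3 = 1) : d * e * d = e * d * e := by
  have h1 : (d * e * d) * (e * d * e) = 1 := by
    rw [← h, pow_succ, pow_two]
    simp only [mul_assoc]
  have h2 := eq_inv_of_mul_eq_one_left h1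
  rw [h2]
  have hd' : d⁻¹ = d := inv_eq_of_mul_eq_one_left hd
  have he' : e⁻¹ = e := inv_eq_of_mul_eq_one_left he
  rw [mul_inv_rev, mul_inv_rev, hd', he', mul_assoc]

theorem comm_left {G : Type*} [Group G] {E : Set G} (hE : Cfsg.IsThreeTranspositionSet E) {a b e : G}
    (ha : a ∈ E) (hb : b ∈ E) (he : e ∈ E) (hab : a ≠ b) (hcomm : Commute a b)
    (h : Commute e (a * b)) : Commute e a := by
  have ha2 := inv2 (hE.1 a ha)
  have hb2 := inv2 (hE.1 b hb)
  have he2 := inv2 (hE.1 e he)
  rcases hE.2 e he a ha with h1 | h1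
  · exact comm_of_sq he2 ha2 h1
  · rcases hE.2 e he b hb with h2 | h2
    · have hc := comm_of_sq he2 hb2 h2
      have h3 : a = (a * b) * b := by rw [mul_assoc, hb2, mul_one]
      rw [h3]
      exact h.mul_right hc
    · exact (key ha2 hb2 hab hcomm h1 h2 h).elim

/-- For distinct commuting members a, b of a set of 3-transpositions E, a member e of E centralises the product a * b if and only if it centralises both a and b. -/
theorem result {G : Type*} [Group G] {E : Set G} (hE : Cfsg.IsThreeTranspositionSet E) {a b e : G} (ha : a ∈ E) (hb : b ∈ E) (he : e ∈ E) (hab : a ≠ b) (hcomm : Commute a b) : Commute e (a * b) ↔ (Commute e a ∧ Commute e b) := by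
  constructor
  · intro h
    have h1 := comm_left hE ha hb he hab hcomm h
    refine ⟨h1, ?_⟩
    apply comm_left hE hb ha he hab.symm hcomm.symm
    rw [hcomm.symm.eq]
    exact h
  · rintro ⟨h1, h2⟩
    exact h1.mul_right h2

end Cfsg.Agent.S0436
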