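import Mathlib
import Cfsg.Prelude.Def_SporadicB
import Cfsg.Agent.S0436

set_option autoImplicit false
open Cfsg

namespace Cfsg.Agent.S0437

open Cfsg.Agent.S0436 in
theorem cox {G : Type*} [Group G] {a b e : G} (ha : a * a = 1) (hb : b * b = 1) (he : e * e = 1)
    (hcomm : Commute a b) (h1 : (e * a) ^ 3 = 1) (h2 : (e * b) ^ 3 = 1) : (e * a * b) ^ 4 = 1 := by
  have hea : e * a * e = a * e * a := braid he ha h1
  have heb : e * b * e = b * e * b := braid he hb h2
  have hw : (e * a * b) * (e * a * b) = a * e * (a * b) * e * a := by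
    calc (e * a * b) * (e * a * b) = e * a * (b * e * (a * b)) := by group
      _ = e * a * (b * e * (b * a)) := by rw [hcomm.eq]
      _ = e * a * ((b * e * b) * a) := by group
      _ = e * a * ((e * b * e) * a) := by rw [heb]
      _ = (e * a * e) * b * e * a := by group
      _ = (a * e * a) * b * e * a := by rw [hea]
      _ = a * e * (a * b) * e * a := by group
  have hcc : (a * b) * (a * b) = 1 := by
    calc a * b * (a * b) = a * (b * a) * b := by group
      _ = a * (a * b) * b := by rw [hcomm.eq]
      _ = (a * a) * (b * b) := by group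
      _ = 1 := by rw [ha, hb, one_mul]
  have h4 : (e * a * b) ^ 4 = ((e * a * b) * (e * a * b)) * ((e * a * b) * (e * a * b)) := by
    rw [show (4 : ℕ) = 2 + 2 from rfl, pow_add, pow_two]
  rw [h4, hw]
  calc a * e * (a * b) * e * a * (a * e * (a * b) * e * a)
      = a * e * (a * b) * e * (a * a) * e * (a * b) * e * a := by group
    _ = a * e * (a * b) * (e * e) * (a * b) * e * a := by rw [ha]; group
    _ = a * e * ((a * b) * (a * b)) * e * a := by rw [he]; group
    _ = a * (e * e) * a := by rw [hcc]; group
    _ = 1 := by rw [he, mul_one, ha]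

open Cfsg.Agent.S0436 in
theorem main {G : Type*} [Group G] {a b c e : G} (ha : a * a = 1) (hb : b * b = 1) (hc : c * c = 1)
    (he : e * e = 1) (h₁ : Commute a b) (h₂ : Commute a c) (h₃ : Commute b c)
    (h1 : (e * a) ^ 3 = 1) (h2 : (e * b) ^ 3 = 1) (h3 : (e * c) ^ 3 = 1)
    (hz : Commute e (a * b * c)) : e = c := by
  have hc4 := cox ha hb he h₁ h1 h2
  -- `z = a * b * c`
  have hzz : (a * b * c) * (a * b * c) = 1 := by
    calc (a * b * c) * (a * b * c) = a * b * (c * (a * b)) * c := by group
      _ = a * b * ((a * b) * c) * c := by rw [(h₂.mul_left h₃).eq]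
      _ = (a * b) * (a * b) * (c * c) := by group
      _ = (a * (b * a) * b) * (c * c) := by group
      _ = (a * (a * b) * b) * (c * c) := by rw [h₁.eq]
      _ = (a * a) * (b * b) * (c * c) := by group
      _ = 1 := by rw [ha, hb, hc, one_mul, one_mul]
  have hab : (a * b) * (a * b) = 1 := by
    calc a * b * (a * b) = a * (b * a) * b := by group
      _ = a * (a * b) * b := by rw [h₁.eq]
      _ = (a * a) * (b * b) := by group
      _ = 1 := by rw [ha, hb, one_mul]
  have hcz : c = (a * b) * (a * b * c) := by
    rw [← mul_assoc, hab, one_mul]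
  have hzab : Commute (a * b) (a * b * c) := by
    apply Commute.mul_right (Commute.refl _)
    exact h₂.mul_left h₃
  have hzz2 : Commute (e * a * b) (a * b * c) := by
    rw [mul_assoc]
    exact hz.mul_left hzab
  have h5 : (e * c) ^ 3 = (e * a * b) ^ 3 * (a * b * c) ^ 3 := by
    have : e * c = (e * a * b) * (a * b * c) := by
      conv_lhs => rw [hcz]
      group
    rw [this, hzz2.mul_pow]
  have h6 : (a * b * c) ^ 3 = a * b * c := by
    rw [pow_succ, pow_two, hzz, one_mul]
  rw [h3, h6] at h5
  have h7 : (e * a * b) ^ 4 = (e * a * b) ^ 3 * (e * a * b) := by rw [pow_succ]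
  rw [hc4] at h7
  have h8 : (e * a * b) ^ 3 = (a * b * c)⁻¹ := eq_inv_of_mul_eq_one_left h5.symm
  have hz' : (a * b * c)⁻¹ = a * b * c := inv_eq_of_mul_eq_one_left hzz
  rw [h8, hz'] at h7
  -- `1 = z * (e a b)`
  have h9 : e * a * b = a * b * c := by
    have := eq_inv_of_mul_eq_one_right h7.symm
    rw [this, hz']
  have h10 : e * (a * b) = c * (a * b) := by
    calc e * (a * b) = e * a * b := by group
      _ = a * b * c := h9
      _ = c * (a * b) := (h₂.mul_left h₃).eq
  exact mul_right_cancel h10

/-- For three distinct, pairwise commuting members a, b, c of a set of 3-transpositions E, a member e of E centralises a * b * c if and only if it centralises each of a, b and c. -/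
theorem result {G : Type*} [Group G] {E : Set G} (hE : Cfsg.IsThreeTranspositionSet E) {a b c e : G} (ha : a ∈ E) (hb : b ∈ E) (hc : c ∈ E) (he : e ∈ E) (hab : a ≠ b) (hac : a ≠ c) (hbc : b ≠ c) (h₁ : Commute a b) (h₂ : Commute a c) (h₃ : Commute b c) : Commute e (a * b * c) ↔ (Commute e a ∧ Commute e b ∧ Commute e c) := by
  constructor
  · intro h
    have ha2 := Cfsg.Agent.S0436.inv2 (hE.1 a ha)
    have hb2 := Cfsg.Agent.S0436.inv2 (hE.1 b hb)
    have hc2 := Cfsg.Agent.S0436.inv2 (hE.1 c hc)
    have he2 := Cfsg.Agent.S0436.inv2 (hE.1 e he)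
    have hec : Commute e c := by
      rcases hE.2 e he c hc with h1 | h1
      · exact Cfsg.Agent.S0436.comm_of_sq he2 hc2 h1
      rcases hE.2 e he a ha with h2 | h2
      · have hca := Cfsg.Agent.S0436.comm_of_sq he2 ha2 h2
        have h3 : Commute e (c * b) := by
          have h4 : c * b = a * (a * b * c) := by
            calc c * b = b * c := h₃.symm.eq
              _ = (a * a) * b * c := by rw [ha2, one_mul]
              _ = a * (a * b * c) := by group
          rw [h4]
          exact hca.mul_right h
        exact (Cfsg.Agent.S0436.result hE hc hb he hbc.symm h₃.symm).mp h3 |>.1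
      rcases hE.2 e he b hb with h3 | h3
      · have hcb := Cfsg.Agent.S0436.comm_of_sq he2 hb2 h3
        have h4 : Commute e (c * a) := by
          have h5 : c * a = (a * b * c) * b := by
            calc c * a = a * c := h₂.symm.eq
              _ = a * (b * b) * c := by rw [hb2, mul_one]
              _ = a * b * (b * c) := by group
              _ = a * b * (c * b) := by rw [h₃.eq]
              _ = (a * b * c) * b := by group
          rw [h5]
          exact h.mul_right hcb
        exact (Cfsg.Agent.S0436.result hE hc ha he hac.symm h₂.symm).mp h4 |>.1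
      · rw [main ha2 hb2 hc2 he2 h₁ h₂ h₃ h2 h3 h1 h]
    have hab' : Commute e (a * b) := by
      have h5 : a * b = (a * b * c) * c := by rw [mul_assoc, hc2, mul_one]
      rw [h5]
      exact h.mul_right hec
    obtain ⟨h6, h7⟩ := (Cfsg.Agent.S0436.result hE ha hb he hab h₁).mp hab'
    exact ⟨h6, h7, hec⟩
  · rintro ⟨h1, h2, h3⟩
    exact (h1.mul_right h2).mul_right h3

end Cfsg.Agent.S0437
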