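import Mathlib
import Cfsg.Prelude.Def_SporadicB
import Cfsg.Agent.S0436

set_option autoImplicit false
open Cfsg

namespace Cfsg.Agent.S0444

section
variable {G : Type*} [Group G]

theorem pow_val_add {x : G} (h3 : x ^ 3 = 1) (i j : ZMod 3) :
    x ^ (i + j).val = x ^ i.val * x ^ j.val := by
  rw [ZMod.val_add, ← pow_add]
  have : ∀ n : ℕ, x ^ (n % 3) = x ^ n := by
    intro n
    conv_rhs => rw [← Nat.mod_add_div n 3, pow_add, pow_mul, h3, one_pow, mul_one]
  exact this _

theorem pow_val_sub {x : G} (h3 : x ^ 3 = 1) (i j : ZMod 3) :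
    x ^ (j - i).val = x ^ j.val * (x ^ i.val)⁻¹ := by
  have := pow_val_add h3 (j - i) i
  rw [sub_add_cancel] at this
  rw [this, mul_inv_cancel_right]

theorem conj_pow_inv {d e : G} (hd : d * d = 1) (he : e * e = 1) (n : ℕ) :
    (d * e) ^ n * d = d * ((d * e) ^ n)⁻¹ := by
  have hdi : d⁻¹ = d := inv_eq_of_mul_eq_one_left hd
  have hei : e⁻¹ = e := inv_eq_of_mul_eq_one_left he
  have hx : d * (d * e) * d⁻¹ = (d * e)⁻¹ := by
    rw [mul_inv_rev, hei, hdi, ← mul_assoc, hd, one_mul]
  have h1 : d * (d * e) ^ n * d⁻¹ = ((d * e) ^ n)⁻¹ := by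
    rw [← conj_pow, hx, inv_pow]
  rw [← h1, hdi]
  simp only [← mul_assoc]
  rw [hd, one_mul]

/-- The homomorphism from the dihedral group of order 6. -/
def dihHom (d e : G) (hd : d * d = 1) (he : e * e = 1) (h3 : (d * e) ^ 3 = 1) :
    DihedralGroup 3 →* G :=
  MonoidHom.mk' (fun g => match g with
    | DihedralGroup.r i => (d * e) ^ i.val
    | DihedralGroup.sr i => d * (d * e) ^ i.val) (by
    rintro (i | i) (j | j)
    · exact pow_val_add h3 i j
    · show d * (d * e) ^ (j - i).val = (d * e) ^ i.val * (d * (d * e) ^ j.val)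
      rw [pow_val_sub h3, ← mul_assoc ((d * e) ^ i.val), conj_pow_inv hd he, mul_assoc d]
      congr 1
      have : Commute ((d * e) ^ j.val) (((d * e) ^ i.val)⁻¹) :=
        ((Commute.refl (d * e)).pow_pow _ _).inv_right
      exact this.eq
    · show d * (d * e) ^ (i + j).val = d * (d * e) ^ i.val * (d * e) ^ j.val
      rw [pow_val_add h3, mul_assoc]
    · show (d * e) ^ (j - i).val = d * (d * e) ^ i.val * (d * (d * e) ^ j.val)
      rw [pow_val_sub h3, mul_assoc d, ← mul_assoc ((d * e) ^ i.val), conj_pow_inv hd he]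
      have : Commute ((d * e) ^ j.val) (((d * e) ^ i.val)⁻¹) :=
        ((Commute.refl (d * e)).pow_pow _ _).inv_right
      calc (d * e) ^ j.val * ((d * e) ^ i.val)⁻¹ = ((d * e) ^ i.val)⁻¹ * (d * e) ^ j.val := this.eq
        _ = (d * d) * (((d * e) ^ i.val)⁻¹ * (d * e) ^ j.val) := by rw [hd, one_mul]
        _ = _ := by group)

theorem dihHom_inj (d e : G) (hd : d * d = 1) (he : e * e = 1) (h3 : (d * e) ^ 3 = 1)
    (hne : d * e ≠ 1) : Function.Injective (dihHom d e hd he h3) := by
  rw [injective_iff_map_eq_one]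
  have hord : orderOf (d * e) = 3 := orderOf_eq_prime h3 hne
  have hval : ∀ i : ZMod 3, (d * e) ^ i.val = 1 → i = 0 := by
    intro i hi
    have h1 := orderOf_dvd_of_pow_eq_one hi
    rw [hord] at h1
    have h2 : i.val < 3 := ZMod.val_lt i
    have h4 : i.val = 0 := by omega
    exact (ZMod.val_eq_zero i).mp h4
  rintro (i | i) h
  · have : (d * e) ^ i.val = 1 := h
    rw [hval i this]
    rfl
  · exfalso
    have h1 : d * (d * e) ^ i.val = 1 := h
    have hdi : d⁻¹ = d := inv_eq_of_mul_eq_one_left hd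
    have h2 : (d * e) ^ i.val = d := by
      have := eq_inv_of_mul_eq_one_right h1
      rw [this, hdi]
    have h5 : (d * e) ^ (i + i).val = 1 := by
      rw [pow_val_add h3, h2, hd]
    have h6 := hval _ h5
    have h0 : ∀ i : ZMod 3, i + i = 0 → i = 0 := by decide
    have h7 : i = 0 := h0 i h6
    rw [h7] at h2
    have h8 : d = 1 := by
      have h11 : ZMod.val (0 : ZMod 3) = 0 := rfl
      rw [h11, pow_zero] at h2
      exact h2.symm
    subst h8
    have h9 : e = 1 := by
      rw [one_mul] at h3 hne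
      have h10 : e ^ 3 = e := by
        rw [pow_succ, pow_two, he, one_mul]
      rw [← h10, h3]
    apply hne
    rw [h9, mul_one]

theorem dihHom_range (d e : G) (hd : d * d = 1) (he : e * e = 1) (h3 : (d * e) ^ 3 = 1) :
    (dihHom d e hd he h3).range = Subgroup.closure ({d, e} : Set G) := by
  apply le_antisymm
  · rintro _ ⟨(i | i), rfl⟩
    · have hde : d * e ∈ Subgroup.closure ({d, e} : Set G) :=
        Subgroup.mul_mem _ (Subgroup.subset_closure (by simp)) (Subgroup.subset_closure (by simp))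
      exact Subgroup.pow_mem _ hde _
    · have hde : d * e ∈ Subgroup.closure ({d, e} : Set G) :=
        Subgroup.mul_mem _ (Subgroup.subset_closure (by simp)) (Subgroup.subset_closure (by simp))
      exact Subgroup.mul_mem _ (Subgroup.subset_closure (by simp)) (Subgroup.pow_mem _ hde _)
  · rw [Subgroup.closure_le]
    rintro x (rfl | hx)
    · refine ⟨DihedralGroup.sr 0, ?_⟩
      show x * (x * e) ^ (0 : ZMod 3).val = x
      simp
    · rw [Set.mem_singleton_iff] at hx
      subst hx
      refine ⟨DihedralGroup.sr 1, ?_⟩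
      show d * (d * x) ^ (1 : ZMod 3).val = x
      have : (1 : ZMod 3).val = 1 := rfl
      rw [this, pow_one, ← mul_assoc, hd, one_mul]

end

theorem dih_perm : Nonempty (DihedralGroup 3 ≃* Equiv.Perm (Fin 3)) := by
  have h := dihHom_inj (Equiv.swap (0 : Fin 3) 1) (Equiv.swap (1 : Fin 3) 2) (by decide) (by decide)
    (by decide) (by decide)
  refine ⟨MulEquiv.ofBijective _ ⟨h, ?_⟩⟩
  have hc : Nat.card (DihedralGroup 3) = Nat.card (Equiv.Perm (Fin 3)) := by
    rw [DihedralGroup.nat_card, Nat.card_eq_fintype_card, Fintype.card_perm, Fintype.card_fin]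
    rfl
  exact ((Nat.bijective_iff_injective_and_card _).mpr ⟨h, hc⟩).2

/-- Two members of a set of 3-transpositions which do not commute generate a subgroup isomorphic to the symmetric group on three letters. -/
theorem result {G : Type*} [Group G] {E : Set G} (hE : Cfsg.IsThreeTranspositionSet E) {d e : G} (hd : d ∈ E) (he : e ∈ E) (h : ¬ Commute d e) : Nonempty (Subgroup.closure ({d, e} : Set G) ≃* Equiv.Perm (Fin 3)) := by
  have hd2 := Cfsg.Agent.S0436.inv2 (hE.1 d hd)
  have he2 := Cfsg.Agent.S0436.inv2 (hE.1 e he)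
  rcases hE.2 d hd e he with h1 | h1
  · exact (h (Cfsg.Agent.S0436.comm_of_sq hd2 he2 h1)).elim
  · have hne : d * e ≠ 1 := by
      intro h2
      apply h
      rw [Commute, SemiconjBy]
      have h3 : d = e⁻¹ := eq_inv_of_mul_eq_one_left h2
      have h4 : e⁻¹ = e := inv_eq_of_mul_eq_one_left he2
      rw [h3, h4]
    obtain ⟨e1⟩ := dih_perm
    have h5 := dihHom_inj d e hd2 he2 h1 hne
    have e2 : DihedralGroup 3 ≃* (dihHom d e hd2 he2 h1).range := MonoidHom.ofInjective h5
    have e3 : (dihHom d e hd2 he2 h1).range ≃* Subgroup.closure ({d, e} : Set G) :=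
      MulEquiv.subgroupCongr (dihHom_range d e hd2 he2 h1)
    exact ⟨(e2.trans e3).symm.trans e1⟩

end Cfsg.Agent.S0444
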