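import Cfsg.Agent.Lib.ToddCox.AnCov.A4
import Cfsg.Agent.Lib.ToddCox.AnCov.A5
import Cfsg.Agent.Lib.ToddCox.AnCov.A6
import Cfsg.Agent.Lib.ToddCox.AnCov.A7
import Cfsg.Agent.Lib.ToddCox.AnCov.A8
import Cfsg.Statements.S0447
-- import your own Cfsg.Agent.* helpers here

set_option autoImplicit false
open Cfsg

namespace Cfsg.Agent.S0447

/-- Involutions in double covers of alternating groups: for n ≤ 7, a finite non-split double cover of the alternating group of degree n has exactly one element of order 2 (the central one); for degree 8 there is a non-split double cover with two distinct involutions. -/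
theorem result : (∀ (n : ℕ) (H : Type) (_ : Group H) (_ : Finite H), n ≤ 7 → Cfsg.IsNonsplitDoubleCover H (alternatingGroup (Fin n)) → ∀ x y : H, orderOf x = 2 → orderOf y = 2 → x = y) ∧ ∃ (H : Type) (_ : Group H) (_ : Finite H), Cfsg.IsNonsplitDoubleCover H (alternatingGroup (Fin 8)) ∧ ∃ x y : H, x ≠ y ∧ orderOf x = 2 ∧ orderOf y = 2 := by
  refine ⟨?_, Cfsg.Agent.Lib.ToddCox.AnCov.A8.Q, inferInstance, Cfsg.Agent.Lib.ToddCox.AnCov.A8.finQ, Cfsg.Agent.Lib.ToddCox.AnCov.A8.cover, Cfsg.Agent.Lib.ToddCox.AnCov.A8.two_inv⟩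
  intro n H _ _ hn hcov x y hx hy
  by_cases h : n ≤ 3
  · exact (Cfsg.Agent.Lib.ToddCox.AnCov.small_degree h hcov).elim
  have h4 : n = 4 ∨ n = 5 ∨ n = 6 ∨ n = 7 := by omega
  rcases h4 with rfl | rfl | rfl | rfl
  · exact Cfsg.Agent.Lib.ToddCox.AnCov.A4.main hcov hx hy
  · exact Cfsg.Agent.Lib.ToddCox.AnCov.A5.main hcov hx hy
  · exact Cfsg.Agent.Lib.ToddCox.AnCov.A6.main hcov hx hy
  · exact Cfsg.Agent.Lib.ToddCox.AnCov.A7.main hcov hx hy

end Cfsg.Agent.S0447
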