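import Cfsg.Statements.S0612
import Mathlib
import Cfsg.Agent.Lib.PLocal.Offender2

set_option autoImplicit false
open Cfsg

namespace Cfsg.Agent.S0612

/-- In such a faithful group every nontrivial best offender decomposes as a direct product of minimal nontrivially-acting best offenders. -/
theorem result {G : Type*} [Group G] [Finite G] {p : ℕ} [Fact p.Prime] (V H : Subgroup G) (hV : Cfsg.IsElementaryAbelian p V) (hHV : H ≤ Subgroup.normalizer (V : Set G)) (hf : H ⊓ Subgroup.centralizer (V : Set G) = ⊥) (hS1 : Subgroup.centralizer (Cfsg.pPrimeCore p ↥H : Set ↥H) ≤ Cfsg.pPrimeCore p ↥H) (hS3 : H = ⨆ A : {A : Subgroup G // A ≤ H ∧ Cfsg.IsBestOffenderOn p V A}, (A : Subgroup G)) (hH1 : H ≠ ⊥) (A : Subgroup G) (hAH : A ≤ H) (hA : Cfsg.IsBestOffenderOn p V A) (hA1 : A ≠ ⊥) : ∃ (k : ℕ) (B : Fin k → Subgroup G), (∀ i, B i ≤ A ∧ Cfsg.IsBestOffenderOn p V (B i) ∧ ⁅V, B i⁆ ≠ ⊥ ∧ ∀ C : Subgroup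 G, C ≤ B i → Cfsg.IsBestOffenderOn p V C → ⁅V, C⁆ ≠ ⊥ → C = B i) ∧ iSupIndep B ∧ ⨆ i, B i = A := by
  have S : Cfsg.Agent.Lib.PLocal.OffSetup p V H := ⟨hV, hHV, hf, hS1⟩
  let P : Subgroup G → Prop := fun B => B ≤ A ∧ Cfsg.IsBestOffenderOn p V B ∧ Nat.card B = p
  obtain ⟨k, B, hB, hind, hsup⟩ := Cfsg.Agent.Lib.PLocal.exists_indep_of_generating (S.isEA_of_bo hAH hA) P
    (fun B hB => ⟨hB.1, hB.2.2⟩)
    (fun T hT => by
      obtain ⟨B, hBA, hB, hc, hBT⟩ := S.exists_min_not_le _ A T rfl hAH hA hT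
      exact ⟨B, ⟨hBA, hB, hc⟩, hBT⟩)
  refine ⟨k, B, fun i => ?_, hind, hsup⟩
  obtain ⟨hBA, hBo, hc⟩ := hB i
  have hVB : ⁅V, B i⁆ ≠ ⊥ := by
    intro h
    have h1 := S.le_bot_of_commutator (hBA.trans hAH) h
    rw [h1, Subgroup.card_bot] at hc
    exact (Fact.out : p.Prime).one_lt.ne hc
  refine ⟨hBA, hBo, hVB, fun C hC _ hVC => ?_⟩
  have h1 : Nat.card C ∣ p := hc ▸ Subgroup.card_dvd_of_le hC
  rcases (Nat.dvd_prime (Fact.out : p.Prime)).mp h1 with h2 | h2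
  · have h3 := Subgroup.card_eq_one.mp h2
    rw [h3] at hVC
    exact absurd (Subgroup.commutator_bot_right _) hVC
  · exact Subgroup.eq_of_le_of_card_ge hC (by rw [h2, hc])

end Cfsg.Agent.S0612
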