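import Cfsg.Statements.S0613
import Mathlib
import Cfsg.Agent.Lib.PLocal.Offender7

set_option autoImplicit false
open Cfsg

namespace Cfsg.Agent.S0613

open Cfsg.Agent.Lib.PLocal in
lemma sup_map_conj_zpowers {G : Type*} [Group G] [Finite G] (a x : G) :
    Subgroup.zpowers a ⊔ (Subgroup.zpowers a).map (MulAut.conj x).toMonoidHom =
      Subgroup.closure ({a, x * a * x⁻¹} : Set G) := by
  apply le_antisymm
  · refine sup_le (Subgroup.zpowers_le.mpr (Subgroup.subset_closure (by simp))) ?_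
    rw [MonoidHom.map_zpowers, Subgroup.zpowers_le]
    exact Subgroup.subset_closure (by simp)
  · apply closure_pair_le
    · exact Subgroup.mem_sup_left (Subgroup.mem_zpowers a)
    · refine Subgroup.mem_sup_right ?_
      rw [MonoidHom.map_zpowers]
      exact Subgroup.mem_zpowers _

/-- A minimal nontrivially-acting best offender and a conjugate of it under a non-centralizing element of the p'-core generate SL(2, p) acting naturally on a plane, and p is 2 or 3. -/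
theorem result {G : Type*} [Group G] [Finite G] {p : ℕ} [Fact p.Prime] (V H : Subgroup G) (hV : Cfsg.IsElementaryAbelian p V) (hHV : H ≤ Subgroup.normalizer (V : Set G)) (hf : H ⊓ Subgroup.centralizer (V : Set G) = ⊥) (hS1 : Subgroup.centralizer (Cfsg.pPrimeCore p ↥H : Set ↥H) ≤ Cfsg.pPrimeCore p ↥H) (hS3 : H = ⨆ A : {A : Subgroup G // A ≤ H ∧ Cfsg.IsBestOffenderOn p V A}, (A : Subgroup G)) (hH1 : H ≠ ⊥) (A : Subgroup G) (hAH : A ≤ H) (hA : Cfsg.IsBestOffenderOn p V A) (hAV : ⁅V, A⁆ ≠ ⊥) (hmin : ∀ B : Subgroup G, B ≤ A → Cfsg.IsBestOffenderOn p V B → ⁅V, B⁆ ≠ ⊥ → B = A) (x : G) (hx : x ∈ ((Cfsg.pPrimeCore p ↥H).map H.subtype)) (hxA : x ∉ Subgroup.centralizer (A : Set G)) : (p = 2 ∨ p = 3) ∧ Nat.card ↥(⁅V, A ⊔ A.map (MulAut.conj x).toMonoidHom⁆) = p ^ 2 ∧ (A ⊔ A.map (MulAut.conj x).toMonoidHom) ⊓ Subgroup.centralizer ((⁅V, A ⊔ A.map (MulAut.conj x).toMonoidHom⁆ : Subgroup G) : Set G) = ⊥ ∧ Nonempty (↥(A ⊔ A.map (MulAut.conj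 x).toMonoidHom) ≃* Matrix.SpecialLinearGroup (Fin 2) (ZMod p)) := by
  have S : Cfsg.Agent.Lib.PLocal.OffSetup p V H := ⟨hV, hHV, hf, hS1⟩
  obtain ⟨a, rfl, ha1, hap, hcA, hcl, hcf⟩ := S.min_props hAH hA hAV hmin
  have ha : Cfsg.Agent.Lib.PLocal.Trv p V H a := ⟨hAH (Subgroup.mem_zpowers a), ha1, hap, hcf⟩
  have hxa : x * a ≠ a * x := by
    intro h
    apply hxA
    rw [Subgroup.mem_centralizer_iff]
    intro g hg
    obtain ⟨k, rfl⟩ := Subgroup.mem_zpowers_iff.mp hg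
    exact ((Commute.zpow_left (show Commute a x from h.symm) k)).eq
  have hpack := S.exists_pack ha hx hxa
  rw [sup_map_conj_zpowers]
  have hbT := S.trv_conj ha (Cfsg.Agent.Lib.PLocal.coreOf_le H hx)
  have hne := S.conj_not_comm ha hx hxa
  obtain ⟨h23, -⟩ := S.pack_sl2 ha
  exact ⟨h23, hpack.card, hpack.faith, hpack.sl2_of_gens S rfl hbT.pow hne⟩

end Cfsg.Agent.S0613
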