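import Cfsg.Statements.S0614
import Mathlib
import Cfsg.Agent.Lib.PLocal.Offender7

set_option autoImplicit false
open Cfsg

namespace Cfsg.Agent.S0614

lemma not_comm_of_index_three {X : Type*} [Group X] [Finite X] (e : X ≃* Matrix.SpecialLinearGroup (Fin 2) (ZMod 3))
    (K : Subgroup X) [hK : K.Normal] (hidx : K.index = 3) : ¬ ∀ x ∈ K, ∀ y ∈ K, x * y = y * x := by
  intro hc
  let i : Matrix.SpecialLinearGroup (Fin 2) (ZMod 3) := ⟨!![0, 1; -1, 0], by decide⟩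
  let j : Matrix.SpecialLinearGroup (Fin 2) (ZMod 3) := ⟨!![1, 1; 1, -1], by decide⟩
  have hi : i ^ 4 = 1 := by decide
  have hj : j ^ 4 = 1 := by decide
  have hij : i * j ≠ j * i := by decide
  have key : ∀ g : Matrix.SpecialLinearGroup (Fin 2) (ZMod 3), g ^ 4 = 1 → e.symm g ∈ K := by
    intro g hg
    have h1 : (e.symm g) ^ 4 = 1 := by rw [← map_pow, hg, map_one]
    have h2 : (e.symm g) ^ K.index ∈ K := Subgroup.pow_index_mem K _
    rw [hidx] at h2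
    have h3 : e.symm g = (e.symm g) ^ 4 * ((e.symm g) ^ 3)⁻¹ := by
      rw [pow_succ (e.symm g) 3]
      group
    rw [h3, h1, one_mul]
    exact inv_mem h2
  have h := hc _ (key i hi) _ (key j hj)
  apply hij
  apply e.symm.injective
  rw [map_mul, map_mul]
  exact h

/-- The commutator of the p'-core with a minimal nontrivially-acting best offender is a 3-group (when p = 2) or a non-abelian 2-group (when p = 3). -/
theorem result {G : Type*} [Group G] [Finite G] {p : ℕ} [Fact p.Prime] (V H : Subgroup G) (hV : Cfsg.IsElementaryAbelian p V) (hHV : H ≤ Subgroup.normalizer (V : Set G)) (hf : H ⊓ Subgroup.centralizer (V : Set G) = ⊥) (hS1 : Subgroup.centralizer (Cfsg.pPrimeCore p ↥H : Set ↥H) ≤ Cfsg.pPrimeCore p ↥H) (hS3 : H = ⨆ A : {A : Subgroup G // A ≤ H ∧ Cfsg.IsBestOffenderOn p V A}, (A : Subgroup G)) (hH1 : H ≠ ⊥) (A : Subgroup G) (hAH : A ≤ H) (hA : Cfsg.IsBestOffenderOn p V A) (hAV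 : ⁅V, A⁆ ≠ ⊥) (hmin : ∀ B : Subgroup G, B ≤ A → Cfsg.IsBestOffenderOn p V B → ⁅V, B⁆ ≠ ⊥ → B = A) : (p = 2 ∧ IsPGroup 3 ↥(⁅((Cfsg.pPrimeCore p ↥H).map H.subtype), A⁆)) ∨ (p = 3 ∧ IsPGroup 2 ↥(⁅((Cfsg.pPrimeCore p ↥H).map H.subtype), A⁆) ∧ ¬ IsMulCommutative ↥(⁅((Cfsg.pPrimeCore p ↥H).map H.subtype), A⁆)) := by
  have S : Cfsg.Agent.Lib.PLocal.OffSetup p V H := ⟨hV, hHV, hf, hS1⟩
  obtain ⟨a, rfl, ha1, hap, hcA, hcl, hcf⟩ := S.min_props hAH hA hAV hmin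
  have ha : Cfsg.Agent.Lib.PLocal.Trv p V H a := ⟨hAH (Subgroup.mem_zpowers a), ha1, hap, hcf⟩
  have hE := S.pack_of_trv ha
  obtain ⟨h23, ⟨e⟩⟩ := S.pack_sl2 ha
  have hcE := hE.card_eq S
  have hcSL := Nat.card_congr e.toEquiv
  change Nat.card ↥(⁅Cfsg.Agent.Lib.PLocal.coreOf p H, Subgroup.zpowers a⁆ ⊔ Subgroup.zpowers a) = _ at hcSL
  rw [hcE] at hcSL
  change (p = 2 ∧ IsPGroup 3 ↥(⁅Cfsg.Agent.Lib.PLocal.coreOf p H, Subgroup.zpowers a⁆)) ∨
    (p = 3 ∧ IsPGroup 2 ↥(⁅Cfsg.Agent.Lib.PLocal.coreOf p H, Subgroup.zpowers a⁆) ∧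
      ¬ IsMulCommutative ↥(⁅Cfsg.Agent.Lib.PLocal.coreOf p H, Subgroup.zpowers a⁆))
  rcases h23 with rfl | rfl
  · left
    refine ⟨rfl, ?_⟩
    have h6 : Nat.card (Matrix.SpecialLinearGroup (Fin 2) (ZMod 2)) = 6 := by
      rw [Nat.card_eq_fintype_card]
      decide
    rw [h6] at hcSL
    have h3 : Nat.card ↥(⁅Cfsg.Agent.Lib.PLocal.coreOf 2 H, Subgroup.zpowers a⁆) = 3 ^ 1 := by omega
    exact IsPGroup.of_card h3
  · right
    refine ⟨rfl, ?_, ?_⟩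
    · have h6 : Nat.card (Matrix.SpecialLinearGroup (Fin 2) (ZMod 3)) = 24 := by
        rw [Nat.card_eq_fintype_card]
        decide
      rw [h6] at hcSL
      have h3 : Nat.card ↥(⁅Cfsg.Agent.Lib.PLocal.coreOf 3 H, Subgroup.zpowers a⁆) = 2 ^ 3 := by omega
      exact IsPGroup.of_card h3
    · intro hcomm
      haveI := hE.normal_comm S
      refine not_comm_of_index_three e _ (hE.index_comm S) ?_
      intro x hx y hy
      apply Subtype.ext
      have hx' : (x : G) ∈ ⁅Cfsg.Agent.Lib.PLocal.coreOf 3 H, Subgroup.zpowers a⁆ := hx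
      have hy' : (y : G) ∈ ⁅Cfsg.Agent.Lib.PLocal.coreOf 3 H, Subgroup.zpowers a⁆ := hy
      have h1 := hcomm.is_comm.comm ⟨(x : G), hx'⟩ ⟨(y : G), hy'⟩
      have h2 := congrArg Subtype.val h1
      exact h2

end Cfsg.Agent.S0614
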