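import Cfsg.Statements.S0615
import Mathlib
import Cfsg.Agent.Lib.PLocal.Subn
import Cfsg.Agent.Lib.PLocal.Thompson

set_option autoImplicit false
open Cfsg

namespace Cfsg.Agent.S0615

/-- Two subnormal subgroups acting irreducibly on their incomparable commutator modules, in a faithful group with trivial largest normal p-subgroup, generate their direct product, and the commutator module splits accordingly. -/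
theorem result {G : Type*} [Group G] [Finite G] {p : ℕ} [Fact p.Prime] (V E E₁ E₂ : Subgroup G) (hV : Cfsg.IsElementaryAbelian p V) (hEV : E ≤ Subgroup.normalizer (V : Set G)) (hf : E ⊓ Subgroup.centralizer (V : Set G) = ⊥) (hgen : E = E₁ ⊔ E₂) (hs₁ : (E₁.subgroupOf E).IsSubnormal) (hs₂ : (E₂.subgroupOf E).IsSubnormal) (hOp : Cfsg.pCore p ↥E = ⊥) (hirr₁ : (∀ U : Subgroup G, U ≤ ⁅V, E₁⁆ → E₁ ≤ Subgroup.normalizer (U : Set G) → U = ⊥ ∨ U = ⁅V, E₁⁆)) (hirr₂ : (∀ U : Subgroup G, U ≤ ⁅V, E₂⁆ → E₂ ≤ Subgroup.normalizer (U : Set G) → U = ⊥ ∨ U = ⁅V, E₂⁆)) (h12 : ¬ ⁅V, E₁⁆ ≤ ⁅V, E₂⁆) (h21 : ¬ ⁅V, E₂⁆ ≤ ⁅V, E₁⁆) (hc₁ : 2 < Nat.card E₁) (hc₂ : 2 < Nat.card E₂) : ⁅E₁, E₂⁆ = ⊥ ∧ E₁ ⊓ E₂ = ⊥ ∧ ⁅V, E₁⁆ ⊓ ⁅V, E₂⁆ = ⊥ ∧ ⁅V, E⁆ = ⁅V, E₁⁆ ⊔ ⁅V, E₂⁆ := by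
  open Cfsg.Agent.Lib.PLocal Cfsg.Agent.Lib.Coprime.Wielandt in
  obtain ⟨hab, hexp⟩ := isEA_iff.mp hV
  subst hgen
  have hs₁' : SnIn (E₁ ⊔ E₂) E₁ := (snIn_iff le_sup_left).mpr hs₁
  have hs₂' : SnIn (E₁ ⊔ E₂) E₂ := (snIn_iff le_sup_right).mpr hs₂
  have hA : IrrOn p V E₁ := irrOn_of_subnormal hexp hEV hf hOp hs₁' hirr₁ hc₁
  have hB : IrrOn p V E₂ := irrOn_of_subnormal hexp hEV hf hOp hs₂' hirr₂ hc₂
  have h1 := centralizes_plane hab hexp _ E₁ E₂ rfl hA hB hs₁' hs₂' hf h12 h21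
  have h2 := centralizes_plane hab hexp _ E₂ E₁ rfl hB hA (by rwa [sup_comm]) (by rwa [sup_comm])
    (by rwa [sup_comm]) h21 h12
  exact two_irr_of_centralizes hab hA hB hf h12 h1 h2

end Cfsg.Agent.S0615
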