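import Cfsg.Statements.S0618
import Mathlib
import Cfsg.Agent.Lib.PLocal.Bridge2

set_option autoImplicit false
open Cfsg

namespace Cfsg.Agent.S0618

open scoped commutatorElement

/-- A p-separable group with trivial p'-core in which the Thompson factorization fails has p = 2 or 3, and J(G) induces on the normal closure of Ω₁(Z(S)) a group containing a normal SL(2, p). -/
theorem result {G : Type*} [Group G] [Finite G] {p : ℕ} [Fact p.Prime] (hsep : Cfsg.IsPSolvable p G) (hO : Cfsg.pPrimeCore p G = ⊥) (hnf : ¬ Cfsg.IsThompsonFactorizable p G) : (p = 2 ∨ p = 3) ∧ ∃ E : Subgroup G, Subgroup.centralizer ((⨆ S : Sylow p G, Cfsg.omegaOne p ((S : Subgroup G) ⊓ Subgroup.centralizer ((S : Subgroup G) : Set G))) : Set G) ≤ E ∧ E ≤ Cfsg.thompsonSubgroup p G ⊔ Subgroup.centralizer ((⨆ S : Sylow p G, Cfsg.omegaOne p ((S : Subgroup G) ⊓ Subgroup.centralizer ((S : Subgroup G) : Set G))) : Set G) ∧ Cfsg.thompsonSubgroup p G ⊔ Subgroup.centralizer ((⨆ S : Sylow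 p G, Cfsg.omegaOne p ((S : Subgroup G) ⊓ Subgroup.centralizer ((S : Subgroup G) : Set G))) : Set G) ≤ Subgroup.normalizer (E : Set G) ∧ ∃ hn : ((Subgroup.centralizer ((⨆ S : Sylow p G, Cfsg.omegaOne p ((S : Subgroup G) ⊓ Subgroup.centralizer ((S : Subgroup G) : Set G))) : Set G)).subgroupOf E).Normal, Nonempty ((↥E ⧸ (Subgroup.centralizer ((⨆ S : Sylow p G, Cfsg.omegaOne p ((S : Subgroup G) ⊓ Subgroup.centralizer ((S : Subgroup G) : Set G))) : Set G)).subgroupOf E) ≃* Matrix.SpecialLinearGroup (Fin 2) (ZMod p)) := by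
  classical
  have hc := Cfsg.Agent.Lib.Char.centralizer_pCore_le_of_isPSolvable hsep hO
  haveI hVn : (Cfsg.Agent.Lib.PLocal.omegaSylow p G).Normal := Cfsg.Agent.Lib.PLocal.omegaSylow_normal
  have hVe := Cfsg.Agent.Lib.PLocal.omegaSylow_isEA (p := p) (G := G) hc
  rw [Cfsg.Agent.Lib.PLocal.centralizer_iSup_set]
  set V := Cfsg.Agent.Lib.PLocal.omegaSylow p G with hV
  have hOq := Cfsg.Agent.Lib.PLocal.pCore_quot_omegaSylow (p := p) (G := G)
  haveI hJn := Cfsg.Agent.Lib.PLocal.thompson_normal (p := p) (G := G)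
  set J := Cfsg.thompsonSubgroup p G with hJ
  have hS1 := Cfsg.Agent.Lib.PLocal.holS1 (p := p) (V := V) hsep J hOq
  have S := Cfsg.Agent.Lib.PLocal.holSetup hVe J hS1
  have hS3 := Cfsg.Agent.Lib.PLocal.thompson_hS3 hVe
  have hgen := S.le_closure_trv hS3
  have hJC : ¬ J ≤ Subgroup.centralizer (V : Set G) := by
    intro h
    exact hnf ((Cfsg.Agent.Lib.PLocal.thompsonFactorizable_iff_centralizes hO).mpr h)
  have hne : J.map (Cfsg.Agent.Lib.PLocal.holAct V) ≠ ⊥ := fun h =>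
    hJC (Cfsg.Agent.Lib.PLocal.map_eq_bot_iff_le_centralizer.mp h)
  obtain ⟨c, hcT⟩ := Cfsg.Agent.Lib.PLocal.exists_trv_of_ne_bot hgen hne
  have hE := S.pack_of_trv hcT
  obtain ⟨h23, ⟨e⟩⟩ := S.pack_sl2 hcT
  refine ⟨h23, ?_⟩
  set E₁ := ⁅Cfsg.Agent.Lib.PLocal.coreOf p (J.map (Cfsg.Agent.Lib.PLocal.holAct V)), Subgroup.zpowers c⁆ ⊔ Subgroup.zpowers c with hE₁
  obtain ⟨h1, h2, h3, h4⟩ := hE.direct S hgen
  set φ := Cfsg.Agent.Lib.PLocal.holAct V with hφ
  have hE₁H : E₁ ≤ J.map φ := hE.le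
  have hHnorm : J.map φ ≤ Subgroup.normalizer (E₁ : Set _) := by
    refine h3.ge.trans ?_
    refine sup_le Subgroup.le_normalizer ?_
    intro f hf
    apply Cfsg.Agent.Lib.Coprime.mem_normalizer_of_conj_le
    intro e' he'
    have h5 : ⁅e', f⁆ ∈ ⁅E₁, J.map φ ⊓ Subgroup.centralizer ((⁅Cfsg.Agent.Lib.PLocal.holV V, E₁⁆ : Subgroup _) : Set _)⁆ :=
      Subgroup.commutator_mem_commutator he' hf
    rw [h1, Subgroup.mem_bot] at h5
    have h6 := commutatorElement_eq_one_iff_mul_comm.mp h5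
    rw [← h6, mul_inv_cancel_right]
    exact he'
  have hker : ∀ g, φ g = 1 ↔ g ∈ Subgroup.centralizer (V : Set G) := fun g => Cfsg.Agent.Lib.PLocal.holAct_eq_one_iff
  refine ⟨E₁.comap φ, ?_, ?_, ?_, ?_⟩
  · intro g hg
    rw [Subgroup.mem_comap, (hker g).mpr hg]
    exact one_mem _
  · intro g hg
    obtain ⟨j, hj, hjg⟩ := hE₁H hg
    have h5 : j⁻¹ * g ∈ Subgroup.centralizer (V : Set G) := by
      rw [← hker, map_mul, map_inv, hjg, inv_mul_cancel]
    have h6 : g = j * (j⁻¹ * g) := by group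
    rw [h6]
    exact mul_mem (Subgroup.mem_sup_left hj) (Subgroup.mem_sup_right h5)
  · have hle : J ⊔ Subgroup.centralizer (V : Set G) ≤ (Subgroup.normalizer (E₁ : Set _)).comap φ := by
      refine sup_le ?_ ?_
      · intro j hj
        exact hHnorm ⟨j, hj, rfl⟩
      · intro g hg
        rw [Subgroup.mem_comap, (hker g).mpr hg]
        exact one_mem _
    intro g hg
    apply Cfsg.Agent.Lib.Coprime.mem_normalizer_of_conj_le
    intro x hx
    have h5 := hle hg
    rw [Subgroup.mem_comap, Subgroup.mem_normalizer_iff] at h5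
    change φ (g * x * g⁻¹) ∈ E₁
    rw [map_mul, map_mul, map_inv]
    exact (h5 _).mp hx
  · have hCn : (Subgroup.centralizer (V : Set G)).Normal := Subgroup.normal_centralizer
    refine ⟨Subgroup.normal_subgroupOf, ?_⟩
    let f : ↥(E₁.comap φ) →* ↥E₁ := (φ.comp (E₁.comap φ).subtype).codRestrict E₁ (fun x => x.2)
    have hfs : Function.Surjective f := by
      rintro ⟨y, hy⟩
      obtain ⟨j, hj, rfl⟩ := hE₁H hy
      exact ⟨⟨j, hy⟩, rfl⟩
    have hfk : (Subgroup.centralizer (V : Set G)).subgroupOf (E₁.comap φ) = f.ker := by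
      ext x
      rw [Subgroup.mem_subgroupOf, MonoidHom.mem_ker, ← hker]
      constructor
      · intro h
        exact Subtype.ext h
      · intro h
        exact congrArg Subtype.val h
    exact ⟨(QuotientGroup.quotientMulEquivOfEq hfk).trans
      ((QuotientGroup.quotientKerEquivOfSurjective f hfs).trans e)⟩

end Cfsg.Agent.S0618
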