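import Cfsg.Statements.S0619
import Mathlib
import Cfsg.Agent.Lib.PLocal.Bridge
import Cfsg.Agent.Lib.OddLocal.Thompson

set_option autoImplicit false
open Cfsg

namespace Cfsg.Agent.S0619

open Subgroup Cfsg Cfsg.Agent.Lib.PLocal
open scoped commutatorElement

variable {G : Type*} [Group G] [Finite G] {p : ℕ} [hp : Fact p.Prime]

/-- The subgroup of elements moving `Z` into `V`. -/
def moveSub (Z V : Subgroup G) [hV : V.Normal] : Subgroup G where
  carrier := {g | ∀ z ∈ Z, ⁅z, g⁆ ∈ V}
  one_mem' := by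
    intro z _
    simp
  mul_mem' := by
    intro g h hg hh z hz
    have h1 : ⁅z, g * h⁆ = ⁅z, g⁆ * (g * ⁅z, h⁆ * g⁻¹) := by
      simp only [commutatorElement_def]
      group
    rw [h1]
    exact mul_mem (hg z hz) (hV.conj_mem _ (hh z hz) g)
  inv_mem' := by
    intro g hg z hz
    have h1 : ⁅z, g⁻¹⁆ = g⁻¹ * ⁅z, g⁆⁻¹ * g := by
      simp only [commutatorElement_def]
      group
    rw [h1]
    have := hV.conj_mem _ (inv_mem (hg z hz)) g⁻¹
    simpa using this

/-- `V` extended by the part of `A` acting trivially is again a largest elementary abelian subgroup. -/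
theorem sup_mem_maxEA {V : Subgroup G} [hVn : V.Normal] (hV : IsElementaryAbelian p V)
    (S : OffSetup p (holV V) ((⊤ : Subgroup G).map (holAct V))) {A : Subgroup G}
    (hA : A ∈ maxElementaryAbelianSubgroups p G) :
    V ⊔ (A ⊓ centralizer (V : Set G)) ∈ maxElementaryAbelianSubgroups p G := by
  have hbo := bo_map hV hA
  have hAle : A.map (holAct V) ≤ (⊤ : Subgroup G).map (holAct V) := Subgroup.map_mono le_top
  have hj := S.jfun_eq _ _ rfl hAle hbo
  unfold jfun at hj
  rw [card_fix_hol, card_holV] at hj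
  have hV' := isEA_iff.mp hV
  have hVC : V ≤ centralizer (V : Set G) := by
    intro v hv
    rw [mem_centralizer_iff]
    intro w hw
    exact hV'.1 w hw v hv
  have hinf1 : V ⊓ centralizer (A : Set G) = V ⊓ A := by
    apply le_antisymm
    · intro x hx
      obtain ⟨h1, h2⟩ := Subgroup.mem_inf.mp hx
      refine Subgroup.mem_inf.mpr ⟨h1, mem_of_commute_maxEA hA (hV'.2 x h1) fun a ha => ?_⟩
      exact mem_centralizer_iff.mp h2 a ha
    · intro x hx
      obtain ⟨h1, h2⟩ := Subgroup.mem_inf.mp hx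
      refine Subgroup.mem_inf.mpr ⟨h1, ?_⟩
      rw [mem_centralizer_iff]
      intro a ha
      exact (isEA_iff.mp hA.1).1 a ha x h2
  have hinf2 : V ⊓ (A ⊓ centralizer (V : Set G)) = V ⊓ A := by
    apply le_antisymm
    · exact inf_le_inf_left _ inf_le_left
    · intro x hx
      obtain ⟨h1, h2⟩ := Subgroup.mem_inf.mp hx
      exact Subgroup.mem_inf.mpr ⟨h1, Subgroup.mem_inf.mpr ⟨h2, hVC h1⟩⟩
  have hEA : IsElementaryAbelian p (V ⊔ (A ⊓ centralizer (V : Set G)) : Subgroup G) := by
    refine isEA_sup hV (isEA_mono inf_le_left hA.1) ?_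
    intro v hv c hc
    exact (mem_centralizer_iff.mp (Subgroup.mem_inf.mp hc).2 v hv)
  have hN : A ⊓ centralizer (V : Set G) ≤ normalizer (V : Set G) := by
    rw [Subgroup.normalizer_eq_top_iff.mpr hVn]
    exact le_top
  have hc1 := Cfsg.Agent.Lib.OddLocal.card_sup_mul_card_inf hN
  rw [hinf2] at hc1
  have hc2 := card_map_holAct_mul (V := V) A
  rw [hinf1] at hj
  have hcard : Nat.card ↥(V ⊔ (A ⊓ centralizer (V : Set G))) = Nat.card A := by
    have hpos : 0 < Nat.card ↥(V ⊓ A) := Nat.card_pos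
    apply Nat.eq_of_mul_eq_mul_right hpos
    rw [hc1, ← hj, ← hc2]
    ring
  exact ⟨hEA, fun B hB => (hA.2 B hB).trans hcard.ge⟩

/-- For a p-separable group and a normal elementary abelian p-subgroup V with no nontrivial normal p-subgroup modulo its centralizer C, the Thompson subgroup J(G) moves Ω₁(Z(J(C))) only inside V. -/
theorem result {G : Type*} [Group G] [Finite G] {p : ℕ} [Fact p.Prime] (hsep : Cfsg.IsPSolvable p G) (V : Subgroup G) [V.Normal] (hV : Cfsg.IsElementaryAbelian p V) (hO : Cfsg.pCore p (G ⧸ Subgroup.centralizer (V : Set G)) = ⊥) : ⁅Cfsg.omegaOne p (Cfsg.centerThompsonOf p (Subgroup.centralizer (V : Set G))), Cfsg.thompsonSubgroup p G⁆ ≤ V := by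
  set C := centralizer (V : Set G) with hC
  have hS1 := holS1 (p := p) (V := V) hsep (⊤ : Subgroup G) hO
  have S : OffSetup p (holV V) ((⊤ : Subgroup G).map (holAct V)) := holSetup hV _ hS1
  set Z := omegaOne p (centerThompsonOf p C) with hZ
  have hV' := isEA_iff.mp hV
  have hVC : V ≤ C := by
    intro v hv
    rw [hC, mem_centralizer_iff]
    intro w hw
    exact hV'.1 w hw v hv
  have key : ∀ A ∈ maxElementaryAbelianSubgroups p G, A ≤ moveSub Z V := by
    intro A hA a ha z hz
    have hA₂ := sup_mem_maxEA hV S hA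
    set A₂ := V ⊔ (A ⊓ C) with hA₂def
    have hA₂C : A₂ ≤ C := sup_le hVC inf_le_right
    have hA₂J : A₂ ≤ thompsonSubgroupOf p C := by
      apply Cfsg.Agent.Lib.OddLocal.le_thompsonSubgroupOf
      exact ⟨hA₂C, hA₂.1, fun B _ hB => hA₂.2 B hB⟩
    have hZA : Z ≤ A₂ := by
      rw [hZ, omegaOne, Subgroup.closure_le]
      rintro x ⟨hx1, hx2⟩
      refine mem_of_commute_maxEA hA₂ hx2 fun b hb => ?_
      exact mem_centralizer_iff.mp (Subgroup.mem_inf.mp hx1).2 b (hA₂J hb)
    have hN : A ⊓ C ≤ normalizer (V : Set G) := by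
      rw [Subgroup.normalizer_eq_top_iff.mpr ‹V.Normal›]
      exact le_top
    obtain ⟨v, hv, c, hc, rfl⟩ := Cfsg.Agent.Lib.OddLocal.mem_sup_of_le_normalizer hN (hZA hz)
    have hca : c * a = a * c := (isEA_iff.mp hA.1).1 c (Subgroup.mem_inf.mp hc).1 a ha
    have h1 : ⁅v * c, a⁆ = v * (a * v⁻¹ * a⁻¹) := by
      rw [commutatorElement_def]
      calc v * c * a * (v * c)⁻¹ * a⁻¹ = v * (c * a) * c⁻¹ * v⁻¹ * a⁻¹ := by group
        _ = v * (a * c) * c⁻¹ * v⁻¹ * a⁻¹ := by rw [hca]
        _ = _ := by group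
    rw [h1]
    exact mul_mem hv (‹V.Normal›.conj_mem _ (inv_mem hv) a)
  have hJ : thompsonSubgroup p G ≤ moveSub Z V := sSup_le key
  rw [Subgroup.commutator_le]
  intro z hz g hg
  exact hJ hg z hz

end Cfsg.Agent.S0619
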