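import Cfsg.Statements.S0620
import Mathlib
import Cfsg.Agent.Lib.PLocal.Bridge4

set_option autoImplicit false
open Cfsg

namespace Cfsg.Agent.S0620

open Cfsg.Agent.Lib.PLocal

/-- Under coprime action of an elementary abelian q-group X on a p-separable group K with trivial p'-core, K is generated by the normalizer of J(S), the centralizer of Ω₁(Z(S)) and the fixed points of X. -/
theorem result {G : Type*} [Group G] [Finite G] {p : ℕ} [Fact p.Prime] {q : ℕ} [Fact q.Prime] (K X : Subgroup G) (hXK : X ≤ Subgroup.normalizer (K : Set G)) (hX : Cfsg.IsElementaryAbelian q X) (hq : ¬ q ∣ Nat.card K) (hsep : Cfsg.IsPSolvable p ↥K) (hO : Cfsg.pPrimeCore p ↥K = ⊥) (S : Sylow p ↥K) : (Subgroup.normalizer (Cfsg.thompsonSubgroupOf p (S : Subgroup ↥K) : Set ↥K) ⊔ Subgroup.centralizer (Cfsg.omegaOne p ((S : Subgroup ↥K) ⊓ Subgroup.centralizer ((S : Subgroup ↥K) : Set ↥K)) : Set ↥K) ⊔ (Subgroup.centralizer (X : Set G)).subgroupOf K) = ⊤ := by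
  classical
  have hc := Cfsg.Agent.Lib.Char.centralizer_pCore_le_of_isPSolvable hsep hO
  haveI hVn : (omegaSylow p ↥K).Normal := omegaSylow_normal
  have hVe := omegaSylow_isEA (p := p) (G := ↥K) hc
  have hVc : (omegaSylow p ↥K).Characteristic := omegaSylow_characteristic
  have hOq := pCore_quot_omegaSylow (p := p) (G := ↥K)
  haveI hJn := thompson_normal (p := p) (G := ↥K)
  have hJc := (thompson_characteristic (p := p) (G := ↥K)).1
  have hS1 := holS1 (p := p) (V := omegaSylow p ↥K) hsep (thompsonSubgroup p ↥K) hOq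
  have Sm := holSetup hVe (thompsonSubgroup p ↥K) hS1
  have hgen := Sm.le_closure_trv (thompson_hS3 hVe)
  set L : Subgroup ↥K := (Subgroup.normalizer (Cfsg.thompsonSubgroupOf p (S : Subgroup ↥K) : Set ↥K) ⊔ Subgroup.centralizer (Cfsg.omegaOne p ((S : Subgroup ↥K) ⊓ Subgroup.centralizer ((S : Subgroup ↥K) : Set ↥K)) : Set ↥K) ⊔ (Subgroup.centralizer (X : Set G)).subgroupOf K) with hL
  have hLN : Subgroup.normalizer (((S : Subgroup ↥K) ⊓ thompsonSubgroup p ↥K : Subgroup ↥K) : Set ↥K) ≤ L :=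
    (normalizer_inf_le S).trans (le_sup_left.trans le_sup_left)
  have hLS : (S : Subgroup ↥K) ≤ L := by
    refine le_trans ?_ hLN
    intro s hs
    apply Cfsg.Agent.Lib.Coprime.mem_normalizer_of_conj_le
    intro x hx
    obtain ⟨h1, h2⟩ := Subgroup.mem_inf.mp hx
    exact Subgroup.mem_inf.mpr ⟨mul_mem (mul_mem hs h1) (inv_mem hs), hJn.conj_mem x h2 s⟩
  have hCL : Subgroup.centralizer ((omegaSylow p ↥K : Subgroup ↥K) : Set ↥K) ≤ L := by
    refine le_trans ?_ (le_sup_right.trans (le_sup_left : _ ≤ L))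
    apply Subgroup.centralizer_le
    exact le_iSup (fun S : Sylow p ↥K =>
      omegaOne p (((S : Subgroup ↥K)) ⊓ Subgroup.centralizer ((S : Subgroup ↥K) : Set ↥K))) S
  have hLf : (thompsonSubgroup p ↥K).map (holAct (omegaSylow p ↥K)) ⊓
      Subgroup.centralizer (((holX (omegaSylow p ↥K) hVc hXK).range : Subgroup _) : Set (Hol (omegaSylow p ↥K))) ≤
      L.map (holAct (omegaSylow p ↥K)) := by
    intro d hd
    obtain ⟨⟨j, _, rfl⟩, h2⟩ := Subgroup.mem_inf.mp hd
    obtain ⟨c, hc1, hc2⟩ := lift_fixed hVc hXK hX hq h2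
    refine ⟨c, ?_, hc2⟩
    refine (le_sup_right : _ ≤ L) ?_
    rw [Subgroup.mem_subgroupOf]
    exact hc1
  have hle : (thompsonSubgroup p ↥K).map (holAct (omegaSylow p ↥K)) ≤ L.map (holAct (omegaSylow p ↥K)) := by
    refine hgen.trans (Subgroup.closure_le _ |>.mpr ?_)
    intro c hcT
    obtain ⟨hq2, hq3⟩ := q_ne_of_trv hq (thompsonSubgroup p ↥K) Sm hcT
    have A := tact_of_K (p := p) hVc hXK hX (thompsonSubgroup p ↥K) hJc hq2 hq3
    exact trv_mem_map A Sm hgen S hLS hLN hLf hcT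
  have hJL := le_of_map_le hCL hle
  rw [eq_top_iff, ← Cfsg.Agent.Lib.Coprime.frattini_inf_normal S (thompsonSubgroup p ↥K)]
  exact sup_le hLN hJL

end Cfsg.Agent.S0620
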