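import Cfsg.Statements.S0621
import Mathlib
import Cfsg.Agent.Lib.PLocal.Bridge5

set_option autoImplicit false
open Cfsg

namespace Cfsg.Agent.S0621

open Cfsg.Agent.Lib.PLocal Subgroup


open Cfsg in
theorem result_aux {G : Type*} [Group G] [Finite G] {p : ℕ} [Fact p.Prime] {q : ℕ} [Fact q.Prime] (K X : Subgroup G)
    (hXK : X ≤ Subgroup.normalizer (K : Set G)) (hX : Cfsg.IsElementaryAbelian q X) (hq : ¬ q ∣ Nat.card K)
    (V J : Subgroup ↥K) [hVn : V.Normal] (hVc : V.Characteristic) (hJc : J.Characteristic)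
    (Sm : OffSetup p (holV V) (J.map (holAct V)))
    (hgen : J.map (holAct V) ≤ closure {c : Hol V | Trv p (holV V) (J.map (holAct V)) c})
    (hVe : Cfsg.IsElementaryAbelian p V) {a : Hol V} (ha : Trv p (holV V) (J.map (holAct V)) a) :
    (p = 2 ∨ p = 3) ∧ ∃ W D : Subgroup G, W ≤ K ⊓ Subgroup.centralizer (X : Set G) ∧ D ≤ K ⊓ Subgroup.centralizer (X : Set G) ∧ Cfsg.IsElementaryAbelian p W ∧ Nat.card W = p ^ 2 ∧ D ≤ Subgroup.normalizer (W : Set G) ∧ ∃ hn : ((Subgroup.centralizer (W : Set G)).subgroupOf D).Normal, Nonempty ((↥D ⧸ (Subgroup.centralizer (W : Set G)).subgroupOf D) ≃* Matrix.SpecialLinearGroup (Fin 2) (ZMod p)) := by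
  classical
  obtain ⟨hq2, hq3⟩ := q_ne_of_trv hq J Sm ha
  have A := tact_of_K (p := p) hVc hXK hX J hJc hq2 hq3
  have hP := Sm.pack_of_trv ha
  obtain ⟨h23, ⟨e⟩⟩ := Sm.pack_sl2 ha
  have hN := hP.le_norm_of_gen Sm hgen
  obtain ⟨Wb, hWV, hWT, hWc, hWn, hWcen⟩ := A.exists_plane Sm ha hN
  obtain ⟨pr, hpr1, hpr2⟩ := hP.exists_pr Sm hgen
  refine ⟨h23, ?_⟩
  let φ := holAct V
  let ι : ↥V →* G := K.subtype.comp V.subtype
  have hι : Function.Injective ι := K.subtype_injective.comp V.subtype_injective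
  let inlV : ↥V →* Hol V := SemidirectProduct.inl
  have hinl : Function.Injective inlV := SemidirectProduct.inl_injective
  let W₀ : Subgroup ↥V := Wb.comap inlV
  have hW₀ : W₀.map inlV = Wb := Subgroup.map_comap_eq_self hWV
  let D' : Subgroup ↥K := (centralizer (X : Set G)).subgroupOf K ⊓ (J.map φ).comap φ
  have hconj : ∀ (d : ↥K) (v : ↥V), φ d * inlV v * (φ d)⁻¹ = inlV (MulAut.conjNormal (H := V) d v) :=
    fun d v => holAct_conj d v
  have hcoe : ∀ (d : ↥K) (v : ↥V), ι (MulAut.conjNormal (H := V) d v) = (d : G) * ι v * (d : G)⁻¹ := by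
    intro d v
    change (((MulAut.conjNormal (H := V) d v : ↥V) : ↥K) : G) = _
    rw [conjNormal_coe]
    rfl
  have hcomm_iff : ∀ (d : ↥K) (v : ↥V), φ d * inlV v = inlV v * φ d ↔ (d : G) * ι v = ι v * d := by
    intro d v
    constructor
    · intro h
      have h1 : φ d * inlV v * (φ d)⁻¹ = inlV v := by rw [h, mul_inv_cancel_right]
      rw [hconj] at h1
      have h2 := hinl h1
      have h3 := hcoe d v
      rw [h2] at h3
      calc (d : G) * ι v = ((d : G) * ι v * (d : G)⁻¹) * d := by group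
        _ = ι v * d := by rw [← h3]
    · intro h
      have h1 : ι (MulAut.conjNormal (H := V) d v) = ι v := by
        rw [hcoe, h, mul_inv_cancel_right]
      have h2 := hι h1
      have h3 := hconj d v
      rw [h2] at h3
      calc φ d * inlV v = (φ d * inlV v * (φ d)⁻¹) * φ d := by group
        _ = inlV v * φ d := by rw [h3]
  have hcenW : ∀ d' : ↥K, (d' : G) ∈ centralizer ((W₀.map ι : Subgroup G) : Set G) ↔ φ d' ∈ centralizer (Wb : Set (Hol V)) := by
    intro d'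
    constructor
    · intro h
      rw [mem_centralizer_iff]
      intro x hx
      obtain ⟨v, rfl⟩ := hWV hx
      have hv : v ∈ W₀ := hx
      have h1 := mem_centralizer_iff.mp h (ι v) ⟨v, hv, rfl⟩
      exact ((hcomm_iff d' v).mpr h1.symm).symm
    · intro h
      rw [mem_centralizer_iff]
      rintro _ ⟨v, hv, rfl⟩
      have h1 := mem_centralizer_iff.mp h (inlV v) hv
      exact ((hcomm_iff d' v).mp h1.symm).symm
  have hφD : ∀ d' ∈ D', φ d' ∈ J.map φ ⊓ centralizer (((holX V hVc hXK).range : Subgroup _) : Set (Hol V)) := by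
    intro d' hd'
    obtain ⟨h1, h2⟩ := Subgroup.mem_inf.mp hd'
    refine Subgroup.mem_inf.mpr ⟨h2, ?_⟩
    rw [mem_centralizer_iff]
    rintro _ ⟨x, rfl⟩
    have h3 := holX_conj_act hVc hXK x d'
    have h4 : xAct hXK x d' = d' := by
      apply Subtype.ext
      rw [xAct_coe]
      have h5 : (d' : G) ∈ centralizer (X : Set G) := Subgroup.mem_subgroupOf.mp h1
      rw [mem_centralizer_iff.mp h5 x x.2, mul_inv_cancel_right]
    rw [h4] at h3
    calc holX V hVc hXK x * φ d' = (holX V hVc hXK x * φ d' * (holX V hVc hXK x)⁻¹) * holX V hVc hXK x := by group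
      _ = _ := by rw [h3]
  have hDN : D'.map K.subtype ≤ normalizer ((W₀.map ι : Subgroup G) : Set G) := by
    rintro _ ⟨d', hd', rfl⟩
    apply Cfsg.Agent.Lib.Coprime.mem_normalizer_of_conj_le
    rintro _ ⟨v, hv, rfl⟩
    refine ⟨MulAut.conjNormal (H := V) d' v, ?_, hcoe d' v⟩
    have h1 : φ d' ∈ normalizer (Wb : Set (Hol V)) := hWn _ (hφD d' hd')
    have h2 : φ d' * inlV v * (φ d')⁻¹ ∈ Wb := (mem_normalizer_iff.mp h1 _).mp hv
    rw [hconj] at h2
    exact h2
  let e₁ : ↥D' ≃* ↥(D'.map K.subtype) := D'.equivMapOfInjective K.subtype K.subtype_injective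
  let ρ₀ : ↥D' →* ↥(J.map φ) := (φ.comp D'.subtype).codRestrict _ (fun d => (Subgroup.mem_inf.mp d.2).2)
  let f : ↥(D'.map K.subtype) →* ↥(⁅coreOf p (J.map φ), zpowers a⁆ ⊔ zpowers a) :=
    pr.comp (ρ₀.comp e₁.symm.toMonoidHom)
  have hfe : ∀ d : ↥D', f (e₁ d) = pr (ρ₀ d) := by
    intro d
    change pr (ρ₀ (e₁.symm (e₁ d))) = _
    rw [MulEquiv.symm_apply_apply]
  have hfs : Function.Surjective f := by
    intro y
    obtain ⟨db, hdb, f₀, hf₀, hdb2⟩ := A.exists_fixed Sm ha y.2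
    obtain ⟨⟨j, _, hj⟩, h2⟩ := Subgroup.mem_inf.mp hdb
    rw [← hj] at h2
    obtain ⟨c, hc1, hc2⟩ := lift_fixed hVc hXK hX hq h2
    have hcD : c ∈ D' := by
      refine Subgroup.mem_inf.mpr ⟨Subgroup.mem_subgroupOf.mpr hc1, ?_⟩
      rw [Subgroup.mem_comap]
      have h3 : φ c = db := by rw [← hj]; exact hc2
      rw [h3]
      exact (Subgroup.mem_inf.mp hdb).1
    refine ⟨e₁ ⟨c, hcD⟩, ?_⟩
    rw [hfe]
    have hm : (y : Hol V) * f₀ ∈ J.map φ := hdb2 ▸ (Subgroup.mem_inf.mp hdb).1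
    have h4 : ρ₀ ⟨c, hcD⟩ = ⟨(y : Hol V) * f₀, hm⟩ := by
      apply Subtype.ext
      change φ c = (y : Hol V) * f₀
      rw [← hdb2, ← hj]
      exact hc2
    rw [h4]
    exact hpr1 y f₀ hf₀ hm
  have hker : (centralizer ((W₀.map ι : Subgroup G) : Set G)).subgroupOf (D'.map K.subtype) = f.ker := by
    ext d
    obtain ⟨d', rfl⟩ := e₁.surjective d
    rw [Subgroup.mem_subgroupOf, MonoidHom.mem_ker, hfe, hpr2]
    change (d'.1 : G) ∈ _ ↔ φ d'.1 ∈ _
    rw [hcenW, hWcen _ (hφD d'.1 d'.2)]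
  have hD1 : D'.map K.subtype ≤ K ⊓ centralizer (X : Set G) := by
    rintro _ ⟨d', hd', rfl⟩
    exact Subgroup.mem_inf.mpr ⟨d'.2, Subgroup.mem_subgroupOf.mp (Subgroup.mem_inf.mp hd').1⟩
  haveI hn : ((centralizer ((W₀.map ι : Subgroup G) : Set G)).subgroupOf (D'.map K.subtype)).Normal :=
    hker ▸ f.normal_ker
  refine ⟨W₀.map ι, D'.map K.subtype, ?_, hD1, ?_, ?_, hDN, hn, ?_⟩
  · rintro _ ⟨v, hv, rfl⟩
    refine Subgroup.mem_inf.mpr ⟨(v : ↥K).2, ?_⟩
    rw [mem_centralizer_iff]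
    intro x hx
    have h1 := mem_centralizer_iff.mp (hWT hv) (holX V hVc hXK ⟨x, hx⟩) ⟨⟨x, hx⟩, rfl⟩
    have h2 : holX V hVc hXK ⟨x, hx⟩ * inlV v * (holX V hVc hXK ⟨x, hx⟩)⁻¹ = inlV v := by
      rw [h1, mul_inv_cancel_right]
    have h3 := inr_conj_inl (resAut V hVc (xAct hXK ⟨x, hx⟩)) v
    have h4 : inlV v = inlV (resAut V hVc (xAct hXK ⟨x, hx⟩) v) := h2.symm.trans h3
    have h5 := hinl h4
    have h6 : ι v = x * ι v * x⁻¹ := by
      conv_lhs => rw [h5]
      rfl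
    calc x * ι v = (x * ι v * x⁻¹) * x := by group
      _ = ι v * x := by rw [← h6]
  · have hle : W₀.map ι ≤ V.map K.subtype := by
      rintro _ ⟨v, _, rfl⟩
      exact ⟨v, v.2, rfl⟩
    exact isEA_mono hle (isEA_map K.subtype hVe)
  · rw [Subgroup.card_map_of_injective hι, ← hWc, ← hW₀, Subgroup.card_map_of_injective hinl]
  · exact ⟨(QuotientGroup.quotientMulEquivOfEq hker).trans
      ((QuotientGroup.quotientKerEquivOfSurjective f hfs).trans e)⟩

/-- Let K be p-separable with O_p'(K) = 1, normalized by an elementary abelian q-group X for a prime q not dividing the order of K. If the Thompson factorization fails in K, then p is 2 or 3 and the fixed points of X contain a plane W of order p² and a subgroup inducing SL(2, p) on it. -/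
theorem result {G : Type*} [Group G] [Finite G] {p : ℕ} [Fact p.Prime] {q : ℕ} [Fact q.Prime] (K X : Subgroup G) (hXK : X ≤ Subgroup.normalizer (K : Set G)) (hX : Cfsg.IsElementaryAbelian q X) (hq : ¬ q ∣ Nat.card K) (hsep : Cfsg.IsPSolvable p ↥K) (hO : Cfsg.pPrimeCore p ↥K = ⊥) (hnf : ¬ Cfsg.IsThompsonFactorizable p ↥K) : (p = 2 ∨ p = 3) ∧ ∃ W D : Subgroup G, W ≤ K ⊓ Subgroup.centralizer (X : Set G) ∧ D ≤ K ⊓ Subgroup.centralizer (X : Set G) ∧ Cfsg.IsElementaryAbelian p W ∧ Nat.card W = p ^ 2 ∧ D ≤ Subgroup.normalizer (W : Set G) ∧ ∃ hn : ((Subgroup.centralizer (W : Set G)).subgroupOf D).Normal, Nonempty ((↥D ⧸ (Subgroup.centralizer (W : Set G)).subgroupOf D) ≃* Matrix.SpecialLinearGroup (Fin 2) (ZMod p)) := by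
  classical
  have hc := Cfsg.Agent.Lib.Char.centralizer_pCore_le_of_isPSolvable hsep hO
  haveI hVn : (omegaSylow p ↥K).Normal := omegaSylow_normal
  have hVe := omegaSylow_isEA (p := p) (G := ↥K) hc
  have hVc : (omegaSylow p ↥K).Characteristic := omegaSylow_characteristic
  have hOq := pCore_quot_omegaSylow (p := p) (G := ↥K)
  haveI hJn := thompson_normal (p := p) (G := ↥K)
  have hJc := (thompson_characteristic (p := p) (G := ↥K)).1
  have hS1 := holS1 (p := p) (V := omegaSylow p ↥K) hsep (thompsonSubgroup p ↥K) hOq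
  have Sm := holSetup hVe (thompsonSubgroup p ↥K) hS1
  have hgen := Sm.le_closure_trv (thompson_hS3 hVe)
  have hJC : ¬ thompsonSubgroup p ↥K ≤ centralizer ((omegaSylow p ↥K : Subgroup ↥K) : Set ↥K) := by
    intro h
    exact hnf ((thompsonFactorizable_iff_centralizes hO).mpr h)
  have hne : (thompsonSubgroup p ↥K).map (holAct (omegaSylow p ↥K)) ≠ ⊥ := fun h =>
    hJC (map_eq_bot_iff_le_centralizer.mp h)
  obtain ⟨a, ha⟩ := exists_trv_of_ne_bot hgen hne
  exact result_aux K X hXK hX hq _ _ hVc hJc Sm hgen hVe ha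

end Cfsg.Agent.S0621
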