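import Cfsg.Statements.S0633
-- import your own Cfsg.Agent.* helpers here
import Mathlib
import Cfsg.Agent.Lib.Coprime.HHG5
import Cfsg.Agent.S3789

set_option autoImplicit false
open Cfsg

namespace Cfsg.Agent.S0633

open Subgroup Module Cfsg.Agent.Lib.Coprime.HHG Cfsg.Agent.Lib.FT TensorProduct

/-- Theorem B of Hall and Higman on the minimal polynomial of a p-element of order p^n in a p-solvable linear group on a nonzero vector space in characteristic p with no nontrivial normal p-subgroup: its degree is p^n, except when some p^n₀ - 1 (n₀ ≤ n) is a power of a prime q for which the Sylow q-subgroups are non-abelian, in which case the degree is at least p^(n-n₀)(p^n₀ - 1). -/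
theorem result {F : Type*} [Field F] {p : ℕ} [Fact p.Prime] [CharP F p] {V : Type*} [AddCommGroup V] [Module F V] [FiniteDimensional F V] [Nontrivial V] (H : Subgroup (V ≃ₗ[F] V)) [Finite H] (hsol : Cfsg.IsPSolvable p H) (hOp : Cfsg.pCore p H = ⊥) (x : V ≃ₗ[F] V) (hx : x ∈ H) (n : ℕ) (hn : orderOf x = p ^ n) (r : ℕ) (hr : minpoly F (x : Module.End F V) = (Polynomial.X - 1) ^ r) : r = p ^ n ∨ ∃ n₀ q m : ℕ, 1 ≤ n₀ ∧ n₀ ≤ n ∧ q.Prime ∧ 1 ≤ m ∧ p ^ n₀ - 1 = q ^ m ∧ (∀ Q : Sylow q H, ¬ IsMulCommutative Q) ∧ p ^ (n - n₀) * (p ^ n₀ - 1) ≤ r := by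
  classical
  have hpp : p.Prime := Fact.out
  let ι : (V ≃ₗ[F] V) →* End F V := LinearEquiv.automorphismGroup.toLinearMapMonoidHom
  have hιinj : Function.Injective ι := by
    intro a b h
    apply LinearEquiv.ext
    intro v
    exact congrArg (fun f : End F V => f v) h
  have hTe : (x : End F V) = ι x := rfl
  set T : End F V := ι x with hT
  rw [hTe] at hr
  -- the polynomial information
  have hTr : (T - 1) ^ r = 0 := by
    have h1 := minpoly.aeval F T
    rw [hr] at h1
    simpa [map_pow] using h1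
  have hone : x ^ (p ^ n) = 1 := by
    rw [← hn]
    exact pow_orderOf_eq_one x
  have hTP : T ^ (p ^ n) = 1 := by
    rw [hT, ← map_pow, hone, map_one]
  have hTP0 : (T - 1) ^ (p ^ n) = 0 := by
    rw [sub_one_ppow (K := F) (p := p), hTP, sub_self]
  have hrle : r ≤ p ^ n := by
    have hdvd : minpoly F T ∣ (Polynomial.X - 1) ^ (p ^ n) := by
      apply minpoly.dvd
      simp only [map_pow, map_sub, Polynomial.aeval_X, map_one]
      exact hTP0
    rw [hr] at hdvd
    have h1 : (Polynomial.X - 1 : Polynomial F) ≠ 0 := by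
      have := Polynomial.X_sub_C_ne_zero (1 : F)
      simpa using this
    have h2 : ¬ IsUnit (Polynomial.X - 1 : Polynomial F) := by
      have := Polynomial.not_isUnit_X_sub_C (1 : F)
      simpa using this
    exact (pow_dvd_pow_iff h1 h2).mp hdvd
  rcases n with _ | m
  · left
    have hr0 : r ≠ 0 := by
      rintro rfl
      rw [pow_zero] at hTr
      exact one_ne_zero hTr
    simp only [pow_zero] at hrle ⊢
    omega
  let x' : ↥H := ⟨x, hx⟩
  have hx'o : orderOf x' = p ^ (m + 1) := by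
    rw [Subgroup.orderOf_mk]
    exact hn
  have hx'1 : x' ^ (p ^ (m + 1)) = 1 := by
    rw [← hx'o]
    exact pow_orderOf_eq_one x'
  have hy1 : x' ^ (p ^ m) ≠ 1 := by
    intro h0
    have h1 := orderOf_dvd_of_pow_eq_one h0
    rw [hx'o] at h1
    have h2 := (Nat.pow_dvd_pow_iff_le_right hpp.one_lt).mp h1
    omega
  let ρ₀ : ↥H →* End F V := ι.comp H.subtype
  have hρ₀ : Function.Injective ρ₀ := hιinj.comp Subtype.val_injective
  let L := AlgebraicClosure F
  haveI hLc : CharP L p := charP_of_injective_algebraMap (algebraMap F L).injective p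
  let ρ : ↥H →* End L (L ⊗[F] V) := rhoK L ρ₀
  haveI : Nontrivial (L ⊗[F] V) := by
    apply Module.nontrivial_of_finrank_pos (R := L)
    rw [Module.finrank_baseChange]
    exact Module.finrank_pos
  have hρ : Function.Injective ρ := by
    intro g g' h
    have h1 : ρ (g * g'⁻¹) = 1 := by
      rw [map_mul, h]
      exact rho_mul_inv ρ g'
    have h2 : ρ₀ (g * g'⁻¹) = 1 := eq_one_of_baseChange L _ h1
    have h3 := hρ₀ (h2.trans (map_one ρ₀).symm)
    exact mul_inv_eq_one.mp h3
  have hrr : (ρ x' - 1) ^ r = 0 := by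
    have h1 : ρ x' - 1 = Module.End.baseChangeHom F L V (T - 1) := by
      rw [map_sub, map_one]
      rfl
    rw [h1, ← map_pow, hTr, map_zero]
  -- the `q`-group
  set L₀ : Subgroup ↥H := pPrimeCore p ↥H with hL₀
  haveI hL₀n : L₀.Normal := Cfsg.Agent.Lib.Basic.pPrimeCore_normal p
  have hL₀cop : (Nat.card L₀).Coprime p := Cfsg.Agent.Lib.Basic.pPrimeCore_coprime p
  have hC := Cfsg.Agent.Lib.PLocal.centralizer_pPrimeCore_le_of_isPSolvable hsol hOp
  have hyp : (x' ^ (p ^ m)) ^ p = 1 := by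
    rw [← pow_mul, ← pow_succ]
    exact hx'1
  have hyL₀ : x' ^ (p ^ m) ∉ L₀ := by
    intro h
    apply hy1
    have h1 : orderOf (⟨_, h⟩ : L₀) ∣ Nat.card L₀ := orderOf_dvd_natCard _
    have h2 : orderOf (⟨_, h⟩ : L₀) ∣ p := by
      apply orderOf_dvd_of_pow_eq_one
      exact Subtype.ext hyp
    have h4 := Nat.eq_one_of_dvd_coprimes hL₀cop h1 h2
    rw [orderOf_eq_one_iff] at h4
    exact congrArg Subtype.val h4
  have hnc : x' ^ (p ^ m) ∉ centralizer (L₀ : Set ↥H) := fun h => hyL₀ (hC h)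
  have hYp : IsPGroup p (zpowers x') := by
    apply IsPGroup.of_card (n := m + 1)
    rw [Nat.card_zpowers, hx'o]
  obtain ⟨q, hqf, R, hqp, hRq, hYR, hne⟩ := Cfsg.Agent.S3789.exists_sylow_moved L₀ (zpowers x') hYp hL₀cop
    (pow_mem (mem_zpowers x') _) hnc
  haveI := hqf
  have hres := thmB_core (K := L) (p := p) (q := q) ρ hρ hqp x' m hx'1 R hRq (hYR (mem_zpowers x')) hne hrr
  rcases hres with h | ⟨s, m', hs, hm1, hm2, hm3, ⟨a, ha, b, hb, hab⟩, -⟩
  · left
    exact le_antisymm hrle h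
  · right
    refine ⟨m + 1 - s, q, m', by omega, by omega, hqf.out, hm1, hm2, ?_, ?_⟩
    · intro Q hQc
      obtain ⟨Q₁, hQ₁⟩ := hRq.exists_le_sylow
      obtain ⟨g, hg⟩ := MulAction.exists_smul_eq ↥H Q₁ Q
      have hamem : g * a * g⁻¹ ∈ (Q : Subgroup ↥H) := by
        rw [← hg]
        exact ⟨a, hQ₁ ha, rfl⟩
      have hbmem : g * b * g⁻¹ ∈ (Q : Subgroup ↥H) := by
        rw [← hg]
        exact ⟨b, hQ₁ hb, rfl⟩
      have h1 := hQc.is_comm.comm (⟨_, hamem⟩ : ↥(Q : Subgroup ↥H)) ⟨_, hbmem⟩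
      have h2 : (g * a * g⁻¹) * (g * b * g⁻¹) = (g * b * g⁻¹) * (g * a * g⁻¹) := congrArg Subtype.val h1
      apply hab
      have h3 : g * (a * b) * g⁻¹ = g * (b * a) * g⁻¹ := by
        calc g * (a * b) * g⁻¹ = (g * a * g⁻¹) * (g * b * g⁻¹) := by group
          _ = (g * b * g⁻¹) * (g * a * g⁻¹) := h2
          _ = g * (b * a) * g⁻¹ := by group
      exact mul_left_cancel (mul_right_cancel h3)
    · rwa [show m + 1 - (m + 1 - s) = s by omega]

end Cfsg.Agent.S0633
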