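import Cfsg.Statements.S0640
import Cfsg.Agent.Lib.Basic.Rank2Aut

set_option autoImplicit false
open Cfsg

namespace Cfsg.Agent.S0640

/-- For odd p, a prime q ≠ p dividing the order of the automorphism group of a p-group of rank at most 2 divides p² - 1 and is less than p. -/
theorem result {R : Type*} [Group R] [Finite R] {p : ℕ} [Fact p.Prime] (hp : p ≠ 2) (hR : IsPGroup p R) (hrk : Cfsg.PRankLE p 2 R) (q : ℕ) (hq : q.Prime) (hqp : q ≠ p) (hdvd : q ∣ Nat.card (MulAut R)) : q ∣ p ^ 2 - 1 ∧ q < p := by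
  classical
  have hpp : p.Prime := Fact.out
  haveI : Fact q.Prime := ⟨hq⟩
  haveI hfin : Finite (MulAut R) := Finite.of_injective (fun a : MulAut R => (a : R → R)) (fun a b h => MulEquiv.ext (congrFun h))
  obtain ⟨a, ha⟩ := exists_prime_orderOf_dvd_card' q hdvd
  let φ : MulAut R →* MulAut R := MonoidHom.id _
  haveI hX : Finite (R ⋊[φ] MulAut R) := Finite.of_equiv _ (SemidirectProduct.equivProd (N := R) (G := MulAut R) (φ := φ)).symm
  let i : R →* R ⋊[φ] MulAut R := SemidirectProduct.inl
  have hi : Function.Injective i := SemidirectProduct.inl_injective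
  let α : R ⋊[φ] MulAut R := SemidirectProduct.inr a
  have hconj : ∀ x : R, α * i x * α⁻¹ = i (a x) := by
    intro x
    have h1 := SemidirectProduct.inl_aut (φ := φ) a x
    have h2 : (φ a) x = a x := rfl
    rw [h2] at h1
    show α * i x * α⁻¹ = SemidirectProduct.inl (a x)
    rw [h1, map_inv]
  have hdiv : q ∣ p ^ 2 - 1 := by
    refine Cfsg.Agent.Lib.Basic.rank2_aut_core (X := R ⋊[φ] MulAut R) hp hqp i.range ?_ ?_ α ?_ ?_ ?_
    · rw [MonoidHom.range_eq_map]
      exact (hR.to_subgroup ⊤).map i
    · intro E hE hc he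
      have hEm : (E.comap i).map i = E := Subgroup.map_comap_eq_self hE
      rw [← hEm, Subgroup.card_map_of_injective hi]
      apply hrk
      · refine ⟨⟨fun a b => Subtype.ext (hi ?_)⟩⟩
        have e1 : i ((a * b : E.comap i) : R) = i (a : R) * i (b : R) := by
          rw [Subgroup.coe_mul, map_mul]
        have e2 : i ((b * a : E.comap i) : R) = i (b : R) * i (a : R) := by
          rw [Subgroup.coe_mul, map_mul]
        rw [e1, e2]
        exact hc _ a.2 _ b.2
      · intro a ha
        apply hi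
        rw [map_pow, map_one]
        exact he _ ha
    · have h1 := orderOf_injective (SemidirectProduct.inr : MulAut R →* R ⋊[φ] MulAut R) SemidirectProduct.inr_injective a
      rw [← ha, ← h1]
    · apply Cfsg.Agent.Lib.PGroups.mem_normalizer_of_conj_le'
      rintro _ ⟨x, rfl⟩
      rw [hconj]
      exact ⟨_, rfl⟩
    · have hane : a ≠ 1 := by
        intro h1
        rw [h1, orderOf_one] at ha
        exact hq.one_lt.ne ha
      obtain ⟨x, hx⟩ : ∃ x, a x ≠ x := by
        by_contra hcon
        push Not at hcon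
        exact hane (MulEquiv.ext hcon)
      refine ⟨i x, ⟨x, rfl⟩, fun h1 => hx (hi ?_)⟩
      rw [← hconj, h1]
      group
  refine ⟨hdiv, ?_⟩
  have hp3 : 3 ≤ p := by
    have := hpp.two_le
    omega
  have e1 : p ^ 2 - 1 = (p - 1) * (p + 1) := by
    obtain ⟨r, rfl⟩ : ∃ r, p = r + 1 := ⟨p - 1, by omega⟩
    simp only [Nat.add_sub_cancel]
    have : (r + 1) ^ 2 = r * (r + 1 + 1) + 1 := by ring
    omega
  rw [e1] at hdiv
  rcases (Nat.Prime.dvd_mul hq).1 hdiv with h | h
  · have := Nat.le_of_dvd (by omega) h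
    omega
  · rcases hpp.eq_two_or_odd with h2 | h2
    · exact absurd h2 hp
    · obtain ⟨t, ht⟩ : ∃ t, p + 1 = 2 * t := ⟨(p + 1) / 2, by omega⟩
      by_cases hq2 : q = 2
      · omega
      · have hc : Nat.Coprime q 2 := (Nat.coprime_primes hq Nat.prime_two).2 hq2
        rw [ht] at h
        have h3 : q ∣ t := hc.dvd_of_dvd_mul_left h
        have := Nat.le_of_dvd (by omega) h3
        omega

end Cfsg.Agent.S0640
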