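import Cfsg.Statements.S0645
import Cfsg.Agent.Lib.Transfer.Rank
import Cfsg.Agent.Lib.PLocal.Basic

set_option autoImplicit false
open Cfsg

namespace Cfsg.Agent.S0645


/-- Classification of p-groups with a cyclic maximal subgroup, odd p: a non-abelian one of order p^n has generators a of order p^(n-1) and b of order p, b outside the cyclic subgroup generated by a, with b a b⁻¹ = a^(1 + p^(n-2)). -/
theorem result {G : Type*} [Group G] [Finite G] {p : ℕ} [Fact p.Prime] (hp : p ≠ 2) (n : ℕ) (hn : 3 ≤ n) (hG : Nat.card G = p ^ n) (C : Subgroup G) (hC : IsCyclic C) (hCi : C.index = p) (hna : ∃ x y : G, x * y ≠ y * x) : ∃ a b : G, orderOf a = p ^ (n - 1) ∧ orderOf b = p ∧ b ∉ Subgroup.zpowers a ∧ b * a * b⁻¹ = a ^ (1 + p ^ (n - 2)) := by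
  classical
  have hpp : p.Prime := Fact.out
  have hP : IsPGroup p G := IsPGroup.of_card hG
  have hco : IsCoatom C := Cfsg.Agent.Lib.Transfer.isCoatom_of_index_prime (by rw [hCi]; exact hpp)
  obtain ⟨hCn, -⟩ := Cfsg.Agent.Lib.Transfer.normal_and_index_of_isCoatom hP hco
  haveI := hCn
  have hCcard : Nat.card C = p ^ (n - 1) := by
    have h1 := C.card_mul_index
    rw [hCi, hG] at h1
    have h2 : p ^ (n - 1) * p = p ^ n := by
      rw [← pow_succ]; congr 1; omega
    exact Nat.eq_of_mul_eq_mul_right hpp.pos (h1.trans h2.symm)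
  obtain ⟨g, hg⟩ := hC.exists_generator
  let a : G := g
  have hordA : orderOf a = p ^ (n - 1) := by
    have h1 : orderOf g = Nat.card C := orderOf_eq_card_of_forall_mem_zpowers hg
    rw [hCcard] at h1
    rw [← h1]
    exact Subgroup.orderOf_coe g
  have hmemC : ∀ x ∈ C, ∃ k : ℕ, a ^ k = x := by
    intro x hx
    have h1 : (⟨x, hx⟩ : C) ∈ Submonoid.powers g := by
      rw [mem_powers_iff_mem_zpowers]
      exact hg _
    obtain ⟨k, hk⟩ := h1
    exact ⟨k, by simpa [a] using congrArg Subtype.val hk⟩
  have haC : a ∈ C := g.2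
  have hnc : ¬ IsCyclic G := by
    intro h
    obtain ⟨x, y, hxy⟩ := hna
    haveI := h
    exact hxy (IsCyclic.isMulCommutative.is_comm.comm x y)
  obtain ⟨hφ, hΩc, hΩe⟩ := Cfsg.Agent.Lib.Transfer.pow_hom_of_cyclic_index_prime hp hP hnc C hC hCi
  -- an element of order `p` outside `C`
  obtain ⟨b, hbC, hbp⟩ : ∃ b : G, b ∉ C ∧ b ^ p = 1 := by
    by_contra hcon
    push Not at hcon
    have hle : Subgroup.closure {x : G | x ^ p = 1} ≤ C := by
      rw [Subgroup.closure_le]
      intro x hx
      by_contra hxC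
      exact hcon x hxC hx
    let f : Subgroup.closure {x : G | x ^ p = 1} →* C := Subgroup.inclusion hle
    have hcyc : IsCyclic (Subgroup.closure {x : G | x ^ p = 1}) :=
      isCyclic_of_injective f (Subgroup.inclusion_injective hle)
    obtain ⟨w, hw⟩ := isCyclic_iff_exists_orderOf_eq_natCard.1 hcyc
    rw [hΩc] at hw
    have h1 : (w : G) ^ p = 1 := hΩe w w.2
    have h2 : orderOf w ∣ p := orderOf_dvd_of_pow_eq_one (Subtype.ext h1)
    rw [hw] at h2
    have h3 := Nat.le_of_dvd hpp.pos h2
    have h4 : p < p ^ 2 := by nlinarith [hpp.two_le]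
    omega
  have hbne : b ≠ 1 := fun h => hbC (h ▸ one_mem _)
  -- the commutator
  let c : G := b * a * b⁻¹ * a⁻¹
  have hcC : c ∈ C := by
    refine mul_mem (hCn.conj_mem a haC b) (inv_mem haC)
  have hcp : c ^ p = 1 := by
    have h1 : c ^ p = (b * a * b⁻¹) ^ p * (a⁻¹) ^ p := hφ _ _
    have h2 : (b * a * b⁻¹) ^ p = (b * a) ^ p * (b⁻¹) ^ p := hφ _ _
    have h3 : (b * a) ^ p = b ^ p * a ^ p := hφ _ _
    rw [h1, h2, h3, hbp, one_mul, inv_pow, hbp, inv_one, mul_one, inv_pow, mul_inv_cancel]
  have hccentral : ∀ x : G, x * c * x⁻¹ = c := fun x =>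
    Cfsg.Agent.Lib.Transfer.central_of_pow_eq_one_of_cyclic hP C hC hcC hcp x
  have hca : b * a * b⁻¹ = c * a := by simp [c]
  -- `c ≠ 1`, otherwise `G` is abelian
  have hc1 : c ≠ 1 := by
    intro h1
    have hab : b * a * b⁻¹ = a := by rw [hca, h1, one_mul]
    have hsup : C ⊔ Subgroup.zpowers b = ⊤ := by
      apply hco.2
      refine lt_of_le_of_ne le_sup_left ?_
      intro heq
      apply hbC
      have : b ∈ C ⊔ Subgroup.zpowers b := Subgroup.mem_sup_right (Subgroup.mem_zpowers b)
      rwa [← heq] at this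
    have hcomm : ∀ x ∈ C, x * b = b * x := by
      intro x hx
      obtain ⟨k, rfl⟩ := hmemC x hx
      have h2 : a * b = b * a := by
        calc a * b = (b * a * b⁻¹) * b := by rw [hab]
          _ = b * a := by group
      exact (Commute.pow_left h2 k)
    have hCcomm : ∀ x ∈ C, ∀ y ∈ C, x * y = y * x := by
      intro x hx y hy
      obtain ⟨k, rfl⟩ := hmemC x hx
      obtain ⟨m, rfl⟩ := hmemC y hy
      exact (Commute.refl a).pow_pow k m
    have htop : ∀ x y : G, x * y = y * x := by
      have hZ : (⊤ : Subgroup G) ≤ Subgroup.center G := by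
        have hC1 : ∀ x ∈ C, ∀ y : G, y * x = x * y := by
          intro x hx y
          have hle : (⊤ : Subgroup G) ≤ Subgroup.centralizer ({x} : Set G) := by
            rw [← hsup]
            apply sup_le
            · intro w hw
              rw [Subgroup.mem_centralizer_singleton_iff]
              exact hCcomm w hw x hx
            · rw [Subgroup.zpowers_le, Subgroup.mem_centralizer_singleton_iff]
              exact (hcomm x hx).symm
          have := hle (Subgroup.mem_top y)
          rw [Subgroup.mem_centralizer_singleton_iff] at this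
          exact this
        rw [← hsup]
        apply sup_le
        · intro x hx
          rw [Subgroup.mem_center_iff]
          exact fun y => hC1 x hx y
        · rw [Subgroup.zpowers_le, Subgroup.mem_center_iff]
          intro y
          have hle : (⊤ : Subgroup G) ≤ Subgroup.centralizer ({b} : Set G) := by
            rw [← hsup]
            apply sup_le
            · intro w hw
              rw [Subgroup.mem_centralizer_singleton_iff]
              exact hcomm w hw
            · rw [Subgroup.zpowers_le, Subgroup.mem_centralizer_singleton_iff]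
          have := hle (Subgroup.mem_top y)
          rw [Subgroup.mem_centralizer_singleton_iff] at this
          exact this
      intro x y
      have := hZ (Subgroup.mem_top x)
      rw [Subgroup.mem_center_iff] at this
      exact (this y).symm
    obtain ⟨x, y, hxy⟩ := hna
    exact hxy (htop x y)
  -- the element of order `p` of `⟨a⟩`
  let z : G := a ^ p ^ (n - 2)
  have hzord : orderOf z = p := by
    have h1 : p ^ (n - 2) ∣ orderOf a := by
      rw [hordA]; exact pow_dvd_pow p (by omega)
    have h2 := orderOf_pow_of_dvd (x := a) (n := p ^ (n - 2)) (pow_ne_zero _ hpp.ne_zero) h1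
    rw [h2, hordA]
    have h3 : p ^ (n - 1) = p * p ^ (n - 2) := by
      rw [← pow_succ']; congr 1; omega
    rw [h3]
    exact Nat.mul_div_cancel _ (pow_pos hpp.pos _)
  have hzC : z ∈ C := pow_mem haC _
  have hcord : orderOf c = p := orderOf_eq_prime hcp hc1
  -- in the cyclic group `C` the elements of order `p` generate the same subgroup
  have hz_in : z ∈ Subgroup.zpowers c := by
    have h1 : (⟨z, hzC⟩ : C) ∈ Subgroup.zpowers (⟨c, hcC⟩ : C) := by
      apply Cfsg.Agent.Lib.PLocal.mem_zpowers_of_cyclic hpp.pos (z := (⟨c, hcC⟩ : C))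
      · rw [Subgroup.orderOf_mk]; exact hcord
      · apply Subtype.ext
        have : z ^ p = 1 := by rw [← hzord]; exact pow_orderOf_eq_one z
        simpa using this
    obtain ⟨k, hk⟩ := h1
    exact ⟨k, by simpa using congrArg Subtype.val hk⟩
  obtain ⟨i, hi⟩ : ∃ i : ℕ, c ^ i = z := by
    have := mem_powers_iff_mem_zpowers.2 hz_in
    obtain ⟨i, hi⟩ := this
    exact ⟨i, hi⟩
  have hconj : ∀ k : ℕ, b ^ k * a * (b ^ k)⁻¹ = c ^ k * a := by
    intro k
    induction k with
    | zero => simp
    | succ k ih =>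
      have h1 : b * c ^ k * b⁻¹ = c ^ k := by
        have := hccentral b
        rw [← conj_pow, this]
      calc b ^ (k + 1) * a * (b ^ (k + 1))⁻¹ = b * (b ^ k * a * (b ^ k)⁻¹) * b⁻¹ := by
            rw [pow_succ']; group
        _ = b * (c ^ k * a) * b⁻¹ := by rw [ih]
        _ = (b * c ^ k * b⁻¹) * (b * a * b⁻¹) := by group
        _ = c ^ k * (c * a) := by rw [h1, hca]
        _ = c ^ (k + 1) * a := by rw [pow_succ]; group
  have hz1 : z ≠ 1 := by
    intro h
    rw [h, orderOf_one] at hzord
    exact hpp.one_lt.ne hzord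
  have hpi : ¬ p ∣ i := by
    rintro ⟨m, rfl⟩
    apply hz1
    rw [← hi, pow_mul, hcp, one_pow]
  have hcopr : i.Coprime p := ((Nat.Prime.coprime_iff_not_dvd hpp).2 hpi).symm
  have hbi : b ^ i ∉ C := by
    intro hmem
    apply hbC
    obtain ⟨m, hm⟩ := Nat.exists_mul_mod_eq_one_of_coprime hcopr hpp.one_lt
    have h1 : b ^ (i * m) = b := by
      rw [← pow_mod_orderOf b (i * m), orderOf_eq_prime hbp hbne, hm.2, pow_one]
    rw [← h1, pow_mul]
    exact pow_mem hmem m
  have hbi1 : b ^ i ≠ 1 := fun h => hbi (h ▸ one_mem _)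
  refine ⟨a, b ^ i, hordA, orderOf_eq_prime (by rw [← pow_mul, mul_comm, pow_mul, hbp, one_pow]) hbi1, ?_, ?_⟩
  · intro h
    apply hbi
    have hzp : Subgroup.zpowers a ≤ C := by rw [Subgroup.zpowers_le]; exact haC
    exact hzp h
  · rw [hconj i, hi, pow_add, pow_one]
    show a ^ p ^ (n - 2) * a = a * a ^ p ^ (n - 2)
    exact ((Commute.refl a).pow_left _)

end Cfsg.Agent.S0645
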