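import Cfsg.Statements.S0663
import Mathlib
import Cfsg.Agent.Lib.PLocal.Uniserial

set_option autoImplicit false
open Cfsg

namespace Cfsg.Agent.S0663

/-- A p-group acts uniserially on a p-group N of order p^n exactly when the iterated commutator chain from N has length n; in that case the chain terms are all the invariant subgroups of N and they are normal in N. -/
theorem result {L : Type*} [Group L] [Finite L] {p : ℕ} [Fact p.Prime] (N G : Subgroup L) (hN : IsPGroup p N) (hG : IsPGroup p G) (hGN : G ≤ Subgroup.normalizer (N : Set L)) (n : ℕ) (hn : Nat.card N = p ^ n) : ((∀ H : Subgroup L, H ≤ N → G ≤ Subgroup.normalizer (H : Set L) → H ≠ ⊥ → (⁅H, G⁆).relIndex H = p) ↔ Cfsg.iterCommutator N G (n - 1) ≠ ⊥ ∨ n = 0) ∧ ((∀ H : Subgroup L, H ≤ N → G ≤ Subgroup.normalizer (H : Set L) → H ≠ ⊥ → (⁅H, G⁆).relIndex H = p) → ∀ H : Subgroup L, H ≤ N → G ≤ Subgroup.normalizer (H : Set L) → (∃ i ≤ n, H = Cfsg.iterCommutator N G i) ∧ N ≤ Subgroup.normalizer (H : Set L)) := by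
  have hp1 := (Fact.out : p.Prime).one_lt
  have hpos := (Fact.out : p.Prime).pos
  refine ⟨⟨fun hU => ?_, fun h H hHN hGH hH => ?_⟩, fun hU H hHN hGH => ?_⟩
  · rcases Nat.eq_zero_or_pos n with rfl | hn0
    · right; rfl
    · left
      intro hb
      have h1 := Cfsg.Agent.Lib.PLocal.chain_of_uni hGN hn hU (n - 1) (by omega)
      rw [hb, Subgroup.card_bot, show n - (n - 1) = 1 by omega, pow_one] at h1
      omega
  · have hch := Cfsg.Agent.Lib.PLocal.chain_of_ne hN hG hGN hn h
    obtain ⟨j, hjn, rfl⟩ := Cfsg.Agent.Lib.PLocal.eq_iter_of_invariant hN hG hGN hch H hHN hGH hH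
    have h3 := Cfsg.Agent.Lib.OddLocal.card_mul_relIndex (Cfsg.Agent.Lib.PLocal.iter_succ_le hGN j)
    rw [Cfsg.Agent.Lib.PLocal.iter_succ, hch j hjn.le] at h3
    have h4 := hch (j + 1) (by omega)
    rw [Cfsg.Agent.Lib.PLocal.iter_succ] at h4
    rw [h4, show n - j = n - (j + 1) + 1 by omega, pow_succ] at h3
    exact Nat.eq_of_mul_eq_mul_left (pow_pos hpos _) h3
  · have hch := Cfsg.Agent.Lib.PLocal.chain_of_uni hGN hn hU
    by_cases hH : H = ⊥
    · subst hH
      refine ⟨⟨n, le_rfl, ?_⟩, ?_⟩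
      · have h1 := hch n le_rfl
        rw [Nat.sub_self, pow_zero] at h1
        exact (Subgroup.card_eq_one.mp h1).symm
      · intro g _
        rw [Subgroup.mem_normalizer_iff]
        intro x
        simp only [Subgroup.mem_bot]
        constructor
        · rintro rfl
          simp
        · intro h
          have : x = g⁻¹ * (g * x * g⁻¹) * g := by group
          rw [this, h]
          group
    · obtain ⟨j, hjn, rfl⟩ := Cfsg.Agent.Lib.PLocal.eq_iter_of_invariant hN hG hGN hch H hHN hGH hH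
      exact ⟨⟨j, hjn.le, rfl⟩, le_sup_right.trans (Cfsg.Agent.Lib.PLocal.chain_normal hN hG hGN hch j)⟩

end Cfsg.Agent.S0663
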