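import Cfsg.Statements.S0666
import Cfsg.Agent.S0042
import Cfsg.Agent.Lib.Basic.FrobFix

set_option autoImplicit false
open Cfsg

namespace Cfsg.Agent.S0666

open scoped Pointwise

/-- A Frobenius group acting on a nontrivial abelian group of order prime to that of its kernel, with the kernel acting without nontrivial fixed points, has a complement with a nontrivial fixed point. -/
theorem result {G : Type*} [Group G] [Finite G] (V F : Subgroup G) (hVab : IsMulCommutative V) (hV1 : V ≠ ⊥) (hFV : F ≤ Subgroup.normalizer (V : Set G)) (H : Subgroup ↥F) (hH : Cfsg.IsFrobeniusComplement H) (hcop : (Nat.card V).Coprime (Nat.card (Cfsg.frobeniusKernel H))) (hCK : V ⊓ Subgroup.centralizer (Subtype.val '' Cfsg.frobeniusKernel H : Set G) = ⊥) : V ⊓ Subgroup.centralizer ((H.map F.subtype : Subgroup G) : Set G) ≠ ⊥ := by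
  classical
  intro hC
  obtain ⟨K, hKs, hKn, hKnil⟩ := Cfsg.Agent.S0042.result H hH
  letI : CommGroup V := { (inferInstance : Group V) with mul_comm := fun a b => hVab.is_comm.comm a b }
  have hconj : ∀ (g : F) (v : V), (g : G) * v * (g : G)⁻¹ ∈ V := fun g v =>
    (Subgroup.mem_normalizer_iff.1 (hFV g.2) v).1 v.2
  let ρ : F →* AddMonoid.End (Additive V) :=
    { toFun := fun g =>
        { toFun := fun a => Additive.ofMul ⟨(g : G) * ((Additive.toMul a : V) : G) * (g : G)⁻¹, hconj g (Additive.toMul a)⟩
          map_zero' := by
            apply Additive.toMul.injective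
            apply Subtype.ext
            show (g : G) * 1 * (g : G)⁻¹ = 1
            group
          map_add' := by
            intro a b
            apply Additive.toMul.injective
            apply Subtype.ext
            show (g : G) * (((Additive.toMul a : V) : G) * ((Additive.toMul b : V) : G)) * (g : G)⁻¹ =
              ((g : G) * ((Additive.toMul a : V) : G) * (g : G)⁻¹) * ((g : G) * ((Additive.toMul b : V) : G) * (g : G)⁻¹)
            group }
      map_one' := by
        refine AddMonoidHom.ext fun a => ?_
        apply Additive.toMul.injective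
        apply Subtype.ext
        show (1 : G) * ((Additive.toMul a : V) : G) * (1 : G)⁻¹ = _
        simp
        rfl
      map_mul' := by
        intro g₁ g₂
        refine AddMonoidHom.ext fun a => ?_
        apply Additive.toMul.injective
        apply Subtype.ext
        show ((g₁ : G) * (g₂ : G)) * ((Additive.toMul a : V) : G) * ((g₁ : G) * (g₂ : G))⁻¹ =
          (g₁ : G) * ((g₂ : G) * ((Additive.toMul a : V) : G) * (g₂ : G)⁻¹) * (g₁ : G)⁻¹
        group }
  have hρ : ∀ (g : F) (a : Additive V), ((Additive.toMul (ρ g a) : V) : G) =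
      (g : G) * ((Additive.toMul a : V) : G) * (g : G)⁻¹ := fun _ _ => rfl
  have hfix : ∀ (g : F) (a : Additive V), ρ g a = a → (g : G) * ((Additive.toMul a : V) : G) = ((Additive.toMul a : V) : G) * (g : G) := by
    intro g a h
    have h1 := hρ g a
    rw [h] at h1
    calc (g : G) * ((Additive.toMul a : V) : G) =
        ((g : G) * ((Additive.toMul a : V) : G) * (g : G)⁻¹) * (g : G) := by group
      _ = _ := by rw [← h1]
  have hzero : ∀ a : Additive V, ((Additive.toMul a : V) : G) = 1 → a = 0 := by
    intro a h
    apply Additive.toMul.injective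
    exact Subtype.ext h
  have hcard : Nat.card (Cfsg.frobeniusKernel H) = Nat.card K := by
    rw [← hKs]; rfl
  have hcopA : Nat.Coprime (Nat.card (Additive V)) (Nat.card K) := by
    rw [← hcard, Nat.card_congr (Additive.toMul : Additive V ≃ V)]
    exact hcop
  have hall : ∀ a : Additive V, a = 0 := by
    intro a
    refine Cfsg.Agent.Lib.Basic.frob_fix_core ρ K H hKnil ?_ ?_ hcopA ?_ ?_ a
    · intro h _ k hk
      exact hKn.conj_mem k hk h
    · intro h hh hne k hk he
      -- `k` normalizes `H ∩ H^k`
      by_contra hk1
      have hkK : (k : F) ∈ (K : Set F) := hk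
      rw [hKs] at hkK
      rcases hkK with hk2 | hk2
      · exact hk1 hk2
      have hkH : k ∉ H := by
        intro hkH
        apply hk2 1
        rw [Subgroup.mem_smul_pointwise_iff_exists]
        exact ⟨k, hkH, by simp⟩
      have h2 := hH.2.2 k hkH
      have h3 : h ∈ H ⊓ (MulAut.conj k • H) := by
        refine ⟨hh, (Subgroup.mem_smul_pointwise_iff_exists _ _ _).2 ⟨h, hh, ?_⟩⟩
        show k * h * k⁻¹ = h
        have h4 : h * k = k * h := by
          calc h * k = (h * k * h⁻¹) * h := by group
            _ = k * h := by rw [he]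
        rw [← h4]; group
      rw [h2] at h3
      exact hne (Subgroup.mem_bot.1 h3)
    · intro b hb
      apply hzero
      have hb' : ((Additive.toMul b : V) : G) ∈ V ⊓ Subgroup.centralizer (Subtype.val '' Cfsg.frobeniusKernel H : Set G) := by
        refine ⟨(Additive.toMul b : V).2, Subgroup.mem_centralizer_iff.2 ?_⟩
        rintro _ ⟨k, hk, rfl⟩
        have hk' : k ∈ K := by
          show k ∈ (K : Set F)
          rw [hKs]; exact hk
        exact hfix k b (hb k hk')
      rw [hCK] at hb'
      exact Subgroup.mem_bot.1 hb'
    · intro b hb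
      apply hzero
      have hb' : ((Additive.toMul b : V) : G) ∈ V ⊓ Subgroup.centralizer ((H.map F.subtype : Subgroup G) : Set G) := by
        refine ⟨(Additive.toMul b : V).2, Subgroup.mem_centralizer_iff.2 ?_⟩
        rintro _ ⟨h, hh, rfl⟩
        exact hfix h b (hb h hh)
      rw [hC] at hb'
      exact Subgroup.mem_bot.1 hb'
  apply hV1
  rw [eq_bot_iff]
  intro v hv
  have h1 := hall (Additive.ofMul ⟨v, hv⟩)
  have h2 : (⟨v, hv⟩ : V) = 1 := congrArg Additive.toMul h1
  exact Subgroup.mem_bot.2 (congrArg Subtype.val h2)

end Cfsg.Agent.S0666
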