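import Cfsg.Statements.S3681
import Mathlib

set_option autoImplicit false
open Cfsg

namespace Cfsg.Agent.S3681

open Equiv in
theorem threeCycle_commutator {Ω : Type*} [Fintype Ω] [DecidableEq Ω] (x y : Perm Ω) (a : Ω)
    (hx : x a ≠ a) (hy : y a ≠ a) (hxy : ∀ p, p ≠ a → x p ≠ p → y p = p) :
    (x * y * x⁻¹ * y⁻¹).IsThreeCycle := by
  have hbx : x (y a) = y a := by
    by_contra h
    have h2 := hxy _ hy h
    exact hy (y.injective h2)
  have hc1 : x a ≠ a := hx
  have hcy : y (x a) = x a := by
    refine hxy _ hc1 ?_
    intro h4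
    exact hc1 (x.injective h4)
  have hbc : y a ≠ x a := by
    intro h
    rw [h] at hbx
    exact hx (x.injective hbx)
  have key : x * y * x⁻¹ * y⁻¹ = swap a (y a) * swap a (x a) := by
    ext p
    simp only [Perm.mul_apply]
    by_cases hpa : p = a
    · subst hpa
      rw [swap_apply_left, swap_apply_of_ne_of_ne hc1 hbc.symm]
      have hf : y⁻¹ p ≠ p := by
        intro h
        have : y (y⁻¹ p) = p := by simp
        rw [h] at this
        exact hy this
      have hxf : x (y⁻¹ p) = y⁻¹ p := by
        by_contra h
        have := hxy _ hf h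
        have h3 : y (y⁻¹ p) = p := by simp
        rw [this] at h3
        exact hf h3
      have hxf' : x⁻¹ (y⁻¹ p) = y⁻¹ p := by
        rw [Perm.inv_eq_iff_eq]; exact hxf.symm
      rw [hxf']
      simp
    by_cases hpb : p = y a
    · subst hpb
      rw [swap_apply_of_ne_of_ne hy hbc, swap_apply_right]
      have h1 : y⁻¹ (y a) = a := by simp
      rw [h1]
      have he : x⁻¹ a ≠ a := by
        intro h
        have : x (x⁻¹ a) = a := by simp
        rw [h] at this
        exact hx this
      have hxe : x (x⁻¹ a) ≠ x⁻¹ a := by
        have h3 : x (x⁻¹ a) = a := by simp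
        rw [h3]
        exact he.symm
      have hye := hxy _ he hxe
      rw [hye]
      simp
    by_cases hpc : p = x a
    · subst hpc
      rw [swap_apply_right, swap_apply_left]
      have h1 : y⁻¹ (x a) = x a := by
        rw [Perm.inv_eq_iff_eq]; exact hcy.symm
      rw [h1]
      simp [hbx]
    · rw [swap_apply_of_ne_of_ne hpa hpc, swap_apply_of_ne_of_ne hpa hpb]
      by_cases hyp : y p = p
      · have h1 : y⁻¹ p = p := by rw [Perm.inv_eq_iff_eq]; exact hyp.symm
        rw [h1]
        by_cases hxp : x p = p
        · have h2 : x⁻¹ p = p := by rw [Perm.inv_eq_iff_eq]; exact hxp.symm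
          rw [h2, hyp, hxp]
        · have hq : x⁻¹ p ≠ a := by
            intro h
            have : x (x⁻¹ p) = p := by simp
            rw [h] at this
            exact hpc this.symm
          have hq2 : x (x⁻¹ p) ≠ x⁻¹ p := by
            have hi : x (x⁻¹ p) = p := by simp
            intro h
            apply hxp
            have h7 : x⁻¹ p = p := h.symm.trans hi
            calc x p = x (x⁻¹ p) := by rw [h7]
              _ = p := hi
          rw [hxy _ hq hq2]
          simp
      · have hxp : x p = p := by
          by_contra h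
          exact hyp (hxy p hpa h)
        have hr : y⁻¹ p ≠ a := by
          intro h
          have : y (y⁻¹ p) = p := by simp
          rw [h] at this
          exact hpb this.symm
        have hxr : x (y⁻¹ p) = y⁻¹ p := by
          by_contra h
          have h3 := hxy _ hr h
          have hi : y (y⁻¹ p) = p := by simp
          have h7 : y⁻¹ p = p := h3.symm.trans hi
          apply hyp
          calc y p = y (y⁻¹ p) := by rw [h7]
            _ = p := hi
        have h5 : x⁻¹ (y⁻¹ p) = y⁻¹ p := by rw [Perm.inv_eq_iff_eq]; exact hxr.symm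
        rw [h5]
        simp [hxp]
  rw [key]
  exact Perm.isThreeCycle_swap_mul_swap_same (Ne.symm hy) (Ne.symm hc1) hbc

/-- Bochert's bound for primitive groups. Let a finite group G act faithfully and primitively on a finite set Ω with n elements, and suppose the image of G in the symmetric group of Ω does not contain the alternating group of Ω. Then |G| · ⌊(n + 1)/2⌋! ≤ n!, that is, the index of G in the symmetric group is at least ⌊(n + 1)/2⌋!. -/
theorem result {G Ω : Type*} [Group G] [Finite G] [MulAction G Ω] [FaithfulSMul G Ω] [Fintype Ω] [DecidableEq Ω]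
    (hprim : MulAction.IsPreprimitive G Ω) (hA : ¬ alternatingGroup Ω ≤ (MulAction.toPermHom G Ω).range) :
    Nat.card G * Nat.factorial ((Fintype.card Ω + 1) / 2) ≤ Nat.factorial (Fintype.card Ω) := by

  classical
  -- independent sets
  let P : Finset Ω → Prop := fun Γ => ∀ g : G, (∀ p, p ∉ Γ → g • p = p) → g = 1
  have hP0 : P ∅ := by
    intro g hg
    apply FaithfulSMul.eq_of_smul_eq_smul (α := Ω)
    intro p
    rw [hg p (by simp), one_smul]
  obtain ⟨Γ, hΓ, hmax⟩ : ∃ Γ : Finset Ω, P Γ ∧ ∀ Γ' : Finset Ω, P Γ' → Γ'.card ≤ Γ.card := by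
    have hne : (Finset.univ.filter P).Nonempty := ⟨∅, by simp [hP0]⟩
    obtain ⟨Γ, hΓ, hm⟩ := Finset.exists_max_image (Finset.univ.filter P) Finset.card hne
    exact ⟨Γ, by simpa using hΓ, fun Γ' h => hm Γ' (by simp [h])⟩
  set n := Fintype.card Ω with hn
  have hcard : n ≤ 2 * Γ.card := by
    by_contra hlt
    push Not at hlt
    have hc : Γᶜ.card = n - Γ.card := by rw [Finset.card_compl]
    have hle : Γ.card ≤ n := Finset.card_le_univ _
    have h1 : ¬ P Γᶜ := by
      intro h
      have := hmax _ h
      omega
    unfold P at h1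
    push Not at h1
    obtain ⟨x, hx, hx1⟩ := h1
    obtain ⟨a, ha⟩ : ∃ a : Ω, x • a ≠ a := by
      by_contra h
      push Not at h
      apply hx1
      apply FaithfulSMul.eq_of_smul_eq_smul (α := Ω)
      intro p
      rw [h p, one_smul]
    have haΓ : a ∉ Γ := by
      intro h
      exact ha (hx a (by simpa using h))
    have h2 : ¬ P (insert a Γ) := by
      intro h
      have := hmax _ h
      rw [Finset.card_insert_of_notMem haΓ] at this
      omega
    unfold P at h2
    push Not at h2
    obtain ⟨y, hy, hy1⟩ := h2
    have hya : y • a ≠ a := by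
      intro h
      apply hy1
      apply hΓ
      intro p hp
      by_cases hpa : p = a
      · rw [hpa]; exact h
      · exact hy p (by simp [hpa, hp])
    have h3 := threeCycle_commutator (MulAction.toPerm x) (MulAction.toPerm y) a ha hya (by
      intro p hpa hxp
      apply hy
      simp only [Finset.mem_insert, not_or]
      refine ⟨hpa, ?_⟩
      intro hpΓ
      exact hxp (hx p (by simpa using hpΓ)))
    apply hA
    have hprim' : MulAction.IsPreprimitive (MulAction.toPermHom G Ω).range Ω := by
      let φ : G → (MulAction.toPermHom G Ω).range := fun g => ⟨MulAction.toPerm g, ⟨g, rfl⟩⟩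
      let f' : Ω →ₑ[φ] Ω := { toFun := id, map_smul' := fun g p => rfl }
      exact MulAction.IsPreprimitive.of_surjective (f := f') Function.surjective_id
    refine Equiv.Perm.alternatingGroup_le_of_isPreprimitive_of_isThreeCycle_mem hprim' h3 ?_
    refine ⟨x * y * x⁻¹ * y⁻¹, ?_⟩
    simp only [map_mul, map_inv]
    rfl
  -- counting
  let Δ : Finset Ω := Γᶜ
  have hΔ : Δ.card = n - Γ.card := Finset.card_compl Γ
  have hle : Γ.card ≤ n := Finset.card_le_univ _
  let f : G → (Δ ↪ Ω) := fun g => ⟨fun p => g • (p : Ω), fun p q h => by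
    exact Subtype.ext (MulAction.injective g h)⟩
  have hf : Function.Injective f := by
    intro g h hgh
    have : h⁻¹ * g = 1 := by
      apply hΓ
      intro p hp
      have hpΔ : p ∈ Δ := by simpa [Δ] using hp
      have h7 : g • p = h • p := congrArg (fun e : (Δ ↪ Ω) => e ⟨p, hpΔ⟩) hgh
      rw [mul_smul, h7, inv_smul_smul]
    calc g = h * (h⁻¹ * g) := by group
      _ = h := by rw [this, mul_one]
  have hG : Nat.card G ≤ n.descFactorial (n - Γ.card) := by
    have h1 := Nat.card_le_card_of_injective f hf
    rw [Nat.card_eq_fintype_card (α := Δ ↪ Ω), Fintype.card_embedding_eq] at h1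
    simpa [hΔ, ← hn] using h1
  have h2 := Nat.factorial_mul_descFactorial (Nat.sub_le n Γ.card)
  rw [Nat.sub_sub_self hle] at h2
  calc Nat.card G * Nat.factorial ((n + 1) / 2) ≤ n.descFactorial (n - Γ.card) * Nat.factorial Γ.card := by
        apply Nat.mul_le_mul hG
        apply Nat.factorial_le
        omega
    _ = Nat.factorial n := by rw [mul_comm]; exact h2

end Cfsg.Agent.S3681
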