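import Cfsg.Statements.S0678
import Cfsg.Agent.S3681
import Cfsg.Agent.S0144
import Cfsg.Agent.Lib.Misc19.Sharp

set_option autoImplicit false
open Cfsg

namespace Cfsg.Agent.S0678

private theorem sqf_le210 (k : ℕ) (hk : k ≠ 0) (hk2 : k ≤ 210)
    (h : ∀ x : ℕ, x ≤ 14 → x ≠ 0 → x ≠ 1 → ¬ (x * x ∣ k) ∨ ¬ x.Prime) : Squarefree k := by
  rw [Nat.squarefree_iff_prime_squarefree]
  intro x hx hd
  have h1 : x * x ≤ 210 := (Nat.le_of_dvd (Nat.pos_of_ne_zero hk) hd).trans hk2
  have h2 : x ≤ 14 := by nlinarith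
  rcases h x h2 hx.ne_zero hx.ne_one with h3 | h3
  · exact h3 hd
  · exact h3 hx

/-- A non-solvable transitive permutation group on 7 points that does not contain the alternating group is a simple group of order 168. -/
theorem result {α : Type*} [Fintype α] [DecidableEq α] (hα : Fintype.card α = 7) (G : Subgroup (Equiv.Perm α)) [MulAction.IsPretransitive G α] (hG : ¬ Group.IsSolvable G) (hA : ¬ alternatingGroup α ≤ G) : Nat.card G = 168 ∧ IsSimpleGroup G := by

  classical
  have hp7 : Fact (Nat.Prime 7) := ⟨by norm_num⟩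
  have hprim : MulAction.IsPreprimitive G α :=
    MulAction.IsPreprimitive.of_prime_card (by rw [Nat.card_eq_fintype_card, hα]; norm_num)
  have hrange : (MulAction.toPermHom G α).range = G := by
    ext σ
    constructor
    · rintro ⟨g, rfl⟩
      exact g.2
    · intro hσ
      exact ⟨⟨σ, hσ⟩, by ext p; rfl⟩
  have hB := Cfsg.Agent.S3681.result (G := G) (Ω := α) hprim (by rw [hrange]; exact hA)
  rw [hα] at hB
  have hB' : Nat.card G * 24 ≤ 5040 := by simpa [Nat.factorial] using hB
  have hdvd : Nat.card G ∣ 5040 := by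
    have h1 := Subgroup.card_subgroup_dvd_card G
    rw [Nat.card_eq_fintype_card (α := Equiv.Perm α), Fintype.card_perm, hα] at h1
    simpa [Nat.factorial] using h1
  obtain ⟨a⟩ : Nonempty α := by
    rw [← Fintype.card_pos_iff, hα]; norm_num
  have h7 : 7 ∣ Nat.card G := by
    have h3 := MulAction.index_stabilizer_of_transitive (G := G) (X := α) a
    rw [Nat.card_eq_fintype_card, hα] at h3
    rw [← h3]
    exact Subgroup.index_dvd_card _
  obtain ⟨r, hr⟩ := h7
  have hr30 : r ≤ 30 := by omega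
  have hr7 : ¬ 7 ∣ r := by
    rintro ⟨s, rfl⟩
    rw [hr] at hdvd
    have h4 : 49 ∣ 5040 := Dvd.intro s (by rw [show 49 * s = 7 * (7 * s) by ring]) |>.trans hdvd
    norm_num at h4
  have hr720 : r ∣ 720 := by
    rw [hr] at hdvd
    exact Nat.dvd_of_mul_dvd_mul_left (show 0 < 7 by norm_num) (by simpa using hdvd)
  obtain ⟨Q, hQ⟩ := Sylow.exists_subgroup_card_pow_prime (G := G) 7 (n := 1) (by rw [hr]; norm_num)
  rw [pow_one] at hQ
  obtain ⟨m, n, hm, -, hn, hmn⟩ := Cfsg.Agent.Lib.Misc19.Sharp.exists_sylow_count (Γ := G) (β := α) (p := 7) hα Q hQ hr hr7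
  have hsq : ∀ k, Nat.card G = k → Squarefree k → False := by
    intro k hk hs
    apply hG
    rw [← hk] at hs
    have := IsZGroup.of_squarefree hs
    infer_instance
  have hbu : ∀ b, Nat.card G = 2 ^ b * 7 ^ 1 → False := by
    intro b hb
    exact hG (Cfsg.Agent.S0144.result 2 7 b 1 (by norm_num) (by norm_num) hb)
  have hm6 : m ≤ 6 := Nat.le_of_dvd (by norm_num) hm
  have hm6' : m ∣ 6 := hm
  have hmpos : 0 < m := Nat.pos_of_dvd_of_pos hm6' (by norm_num)
  have hnr : n ≤ 30 := by
    have : n ≤ m * n := Nat.le_mul_of_pos_left _ hmpos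
    omega
  have hn' : n = 1 ∨ n = 8 ∨ n = 15 ∨ n = 22 ∨ n = 29 := by omega
  have hm' : m = 1 ∨ m = 2 ∨ m = 3 ∨ m = 6 := by
    interval_cases m <;> first | omega | (exfalso; revert hm6'; decide)
  have hr24 : r = 24 := by
    have hsqs : ∀ k, k ≤ 210 → k ≠ 0 → (∀ x : ℕ, x ≤ 14 → x ≠ 0 → x ≠ 1 → ¬ (x * x ∣ k) ∨ ¬ x.Prime) → Nat.card G = k → False := by
      intro k h1 h2 h3 h4
      exact hsq k h4 (sqf_le210 k h2 h1 h3)
    have h8 : r ≠ 8 := by rintro rfl; exact hbu 3 (by rw [hr]; norm_num)
    have h16 : r ≠ 16 := by rintro rfl; exact hbu 4 (by rw [hr]; norm_num)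
    have h22 : r ≠ 22 := by rintro rfl; norm_num at hr720
    have h29 : r ≠ 29 := by rintro rfl; norm_num at hr720
    have hsr : ∀ k, r = k → k ≤ 30 → k ≠ 0 → (∀ x : ℕ, x ≤ 14 → x ≠ 0 → x ≠ 1 → ¬ (x * x ∣ 7 * k) ∨ ¬ x.Prime) → False := by
      rintro k rfl h2 h3 h4
      exact hsqs (7 * r) (by omega) (by omega) h4 hr
    have h1 : r ≠ 1 := fun e => hsr 1 e (by norm_num) (by norm_num) (by
      intro x hx h0 h1
      interval_cases x <;> norm_num)
    have h2 : r ≠ 2 := fun e => hsr 2 e (by norm_num) (by norm_num) (by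
      intro x hx h0 h1
      interval_cases x <;> norm_num)
    have h3 : r ≠ 3 := fun e => hsr 3 e (by norm_num) (by norm_num) (by
      intro x hx h0 h1
      interval_cases x <;> norm_num)
    have h6 : r ≠ 6 := fun e => hsr 6 e (by norm_num) (by norm_num) (by
      intro x hx h0 h1
      interval_cases x <;> norm_num)
    have h15 : r ≠ 15 := fun e => hsr 15 e (by norm_num) (by norm_num) (by
      intro x hx h0 h1
      interval_cases x <;> norm_num)
    have h30 : r ≠ 30 := fun e => hsr 30 e (by norm_num) (by norm_num) (by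
      intro x hx h0 h1
      interval_cases x <;> norm_num)
    rcases hm' with rfl | rfl | rfl | rfl <;> rcases hn' with rfl | rfl | rfl | rfl | rfl <;> omega
  subst hr24
  refine ⟨by rw [hr], ?_⟩
  have hnt : Nontrivial G := by
    rw [← Finite.one_lt_card_iff_nontrivial, hr]; norm_num
  refine ⟨?_⟩
  intro N hNn
  by_cases hbot : N = ⊥
  · exact Or.inl hbot
  right
  have hfix : MulAction.fixedPoints N α ≠ Set.univ := by
    intro hf
    apply hbot
    rw [eq_bot_iff]
    intro g hg
    rw [Subgroup.mem_bot]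
    apply FaithfulSMul.eq_of_smul_eq_smul (α := α)
    intro p
    have : p ∈ MulAction.fixedPoints N α := by rw [hf]; trivial
    have := this ⟨g, hg⟩
    rw [one_smul]
    exact this
  have htr : MulAction.IsPretransitive N α := MulAction.IsQuasiPreprimitive.isPretransitive_of_normal hfix
  have h7N : 7 ∣ Nat.card N := by
    have h3 := MulAction.index_stabilizer_of_transitive (G := N) (X := α) a
    rw [Nat.card_eq_fintype_card, hα] at h3
    rw [← h3]
    exact Subgroup.index_dvd_card _
  let P : Sylow 7 N := default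
  have hP11 : 7 ∣ Nat.card P := P.dvd_card_of_dvd_card h7N
  have hPd : Nat.card P ∣ 7 * 24 := by
    rw [← hr]
    exact (Subgroup.card_subgroup_dvd_card _).trans (Subgroup.card_subgroup_dvd_card N)
  have hP : Nat.card P = 7 := by
    obtain ⟨j, hj⟩ := (IsPGroup.iff_card).1 P.isPGroup'
    have hj1 : j = 1 := by
      rcases j with _ | _ | j
      · rw [hj] at hP11; norm_num at hP11
      · rfl
      · exfalso
        rw [hj] at hPd
        have h4 : 7 ^ 2 ∣ 7 * 24 := (pow_dvd_pow 7 (by omega)).trans hPd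
        norm_num at h4
    rw [hj, hj1, pow_one]
  let Q' : Subgroup G := (P : Subgroup N).map N.subtype
  have hQ' : Nat.card Q' = 7 := by
    rw [Subgroup.card_map_of_injective N.subtype_injective]
    exact hP
  obtain ⟨m', n', hm1, hN1, hn1, hr1⟩ := Cfsg.Agent.Lib.Misc19.Sharp.exists_sylow_count (Γ := G) (β := α) (p := 7) hα Q' hQ' hr hr7
  have hm3 : m' = 3 := by
    have hm10 : m' ≤ 6 := Nat.le_of_dvd (by norm_num) hm1
    have hm'' : m' ∣ 6 := hm1
    interval_cases m' <;> first | rfl | omega | (exfalso; revert hm''; decide)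
  rw [hm3] at hN1
  have hF : Subgroup.normalizer (Q' : Set G) ⊔ N = ⊤ := Sylow.normalizer_sup_eq_top P
  have hidx : N.index ∣ 21 := by
    have h5 : N.relIndex (N ⊔ Subgroup.normalizer (Q' : Set G)) = N.relIndex (Subgroup.normalizer (Q' : Set G)) :=
      Subgroup.relIndex_sup_left _ _
    rw [sup_comm, hF, Subgroup.relIndex_top_right] at h5
    rw [h5]
    have := Subgroup.relIndex_dvd_card N (Subgroup.normalizer (Q' : Set G))
    rwa [hN1] at this
  have hmul := Subgroup.card_mul_index N
  rw [hr] at hmul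
  have hi21 : N.index ≤ 21 := Nat.le_of_dvd (by norm_num) hidx
  obtain ⟨c, hc⟩ := h7N
  have hi : N.index = 1 ∨ N.index = 3 := by
    interval_cases hh : N.index <;> first | omega | (exfalso; revert hidx; decide)
  rcases hi with hi | hi
  · exact Subgroup.index_eq_one.mp hi
  · exfalso
    rw [hi] at hmul
    have hc8 : c = 8 := by omega
    have hNs : Group.IsSolvable N := Cfsg.Agent.S0144.result 2 7 3 1 (by norm_num) (by norm_num) (by
      rw [hc, hc8]; norm_num)
    have hQs : Group.IsSolvable (G ⧸ N) := by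
      have h3 : Nat.card (G ⧸ N) = 3 := hi
      have : IsZGroup (G ⧸ N) := IsZGroup.of_squarefree (by
        rw [h3]
        exact (Nat.prime_iff.mp (by norm_num)).squarefree)
      infer_instance
    apply hG
    exact Group.isSolvable_of_ker_le_range N.subtype (QuotientGroup.mk' N) (by
      intro x hx
      rw [MonoidHom.mem_ker, QuotientGroup.mk'_apply, QuotientGroup.eq_one_iff] at hx
      exact ⟨⟨x, hx⟩, rfl⟩)

end Cfsg.Agent.S0678
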