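import Cfsg.Statements.S0974
import Mathlib
import Cfsg.Agent.Lib.Small.BrauerKill

set_option autoImplicit false
open Cfsg

namespace Cfsg.Agent.S0974

/-- No finite simple group has order 3648 = 2^6 * 3 * 19. -/
theorem result {G : Type*} [Group G] [Finite G] [IsSimpleGroup G] : Nat.card G ≠ 3648 := by
  intro h
  haveI := Fintype.ofFinite G
  haveI hp : Fact (Nat.Prime 19) := ⟨by norm_num⟩
  have hcard : Nat.card G = 19 * 192 := by rw [h]
  obtain ⟨P, m, hP, hnc, hCN, hmd, hm1, n, hn, hmn, hnp, hn1⟩ :=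
    Cfsg.Agent.Lib.Small.BD.exists_setup hcard (by norm_num) (by norm_num)
  have key : ∀ m ∈ Nat.divisors 18, ∀ n ∈ Nat.divisors 192, 1 < m → 1 < n → n % 19 = 1 → m * n ∣ 192 → m = 2 := by
    decide +kernel
  have hm2 : m = 2 := key m hmd n hn hm1 hn1 hnp hmn
  subst hm2
  refine Cfsg.Agent.Lib.Small.BD.false_of_check_two hnc P hP hcard (r := 9) (by norm_num) (by norm_num) hCN ?_
  decide +kernel

end Cfsg.Agent.S0974
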