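import Cfsg.Statements.S0976
import Mathlib
import Cfsg.Agent.Lib.Small.BrauerKill2

set_option autoImplicit false
open Cfsg

namespace Cfsg.Agent.S0976

/-- No finite simple group has order 4032 = 2^6 * 3^2 * 7. -/
theorem result {G : Type*} [Group G] [Finite G] [IsSimpleGroup G] : Nat.card G ≠ 4032 := by
  intro h
  haveI := Fintype.ofFinite G
  haveI hp : Fact (Nat.Prime 7) := ⟨by norm_num⟩
  have hcard : Nat.card G = 7 * 576 := by rw [h]
  obtain ⟨P, m, c, n, hP, hnc, hCN, hCc, hn, hmd, hm1, hcd, hnd, hcmn, hnp, hn1, hfac, hsm⟩ :=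
    Cfsg.Agent.Lib.Small.BD.exists_setup2 hcard (by norm_num) (by norm_num) (by norm_num)
  have hsm' : n ≠ 8 ∨ 2 * (7 * c * m) ∣ 42 := by
    by_cases hh : n = 8
    · exact Or.inr (hsm hh)
    · exact Or.inl hh
  have key : ∀ m ∈ Nat.divisors 6, ∀ n ∈ Nat.divisors 576, ∀ c ∈ Nat.divisors 576, 1 < m → 1 < n → n % 7 = 1 →
      c * m * n = 576 → (n ≠ 8 ∨ 2 * (7 * c * m) ∣ 42) → (m = 2 ∧ 1 < c) ∨ (m = 3 ∧ 1 < c) ∨ (m = 2 ∧ c = 1) := by
    decide +kernel
  have hpc : ∀ c ∈ Nat.divisors 576, ¬ 7 ∣ c := by decide +kernel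
  have hC : 1 < c → ¬ IsPGroup 7 (Subgroup.centralizer ((P : Subgroup G) : Set G)) :=
    fun hc1 => Cfsg.Agent.Lib.Small.BD.not_isPGroup_of_card hCc hc1 (hpc c hcd)
  rcases key m hmd n hnd c hcd hm1 hn1 hnp hcmn hsm' with ⟨rfl, hc1⟩ | ⟨rfl, hc1⟩ | ⟨rfl, rfl⟩
  · exact Cfsg.Agent.Lib.Small.BD.false_two hnc P hP hcard (by norm_num) (by norm_num) (r := 3) (by norm_num) (by norm_num) hCN (hC hc1)
      (by decide +kernel)
  · exact Cfsg.Agent.Lib.Small.BD.false_three hnc P hP hcard (by norm_num) (r := 2) (by norm_num) (by norm_num) hCN (hC hc1)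
      (by decide +kernel)
  · -- the self-centralizing case
    obtain ⟨M, χ, η, a, c', hM, hχ, hη, hχ1, hη1, ha, hd, hy, -, hCc', hcount⟩ :=
      Cfsg.Agent.Lib.Small.BD.two_data hnc P hP (by norm_num) (r := 3) (by norm_num) (by norm_num) hCN
    have hc' : c' = 1 := by
      rw [hCc] at hCc'
      omega
    subst hc'
    have hx1 := Cfsg.Agent.Lib.Small.BD.one_lt_degree hnc hχ1
    have hy1 := Cfsg.Agent.Lib.Small.BD.one_lt_degree hnc hη1
    have hmem := Cfsg.Agent.Lib.Small.BD.degree_coprime ha hd hcard (by norm_num)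
    have hyd := Cfsg.Agent.Lib.Char.charDegree_dvd_card η.2
    rw [hcard] at hyd
    have hnum : ∀ x ∈ Nat.divisors 576, (x % 7 = 1 → (x + 1) ∣ 7 * 576 → 1 < x → x = 8) ∧
        (x % 7 = 7 - 1 → (x - 1) ∣ 7 * 576 → 1 < x - 1 → False) := by decide +kernel
    obtain ⟨hn1, hn2⟩ := hnum _ hmem
    have hx8 : Cfsg.charDegree (χ : G → ℂ) = 8 ∧ Cfsg.charDegree (η : G → ℂ) = 9 := by
      rcases ha with rfl | rfl
      · have h5 : Cfsg.charDegree (η : G → ℂ) = Cfsg.charDegree (χ : G → ℂ) + 1 := by exact_mod_cast hy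
        rw [h5] at hyd
        have h6 := hn1 (by rw [Cfsg.Agent.Lib.Small.BD.mod_of_dvd_one hd]) hyd hx1
        omega
      · have h5 : Cfsg.charDegree (η : G → ℂ) = Cfsg.charDegree (χ : G → ℂ) - 1 := by
          have : (Cfsg.charDegree (η : G → ℂ) : ℤ) + 1 = Cfsg.charDegree (χ : G → ℂ) := by linarith
          omega
        rw [h5] at hyd hy1
        exact (hn2 (Cfsg.Agent.Lib.Small.BD.mod_of_dvd_neg_one hd) hyd hy1).elim
    obtain ⟨t, ht⟩ := Cfsg.Agent.Lib.Small.BD.exists_involution (G := G) (by rw [h]; norm_num)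
    obtain ⟨L, u, hu, hL, hL2⟩ := hcount t ht
    have ht1 : t ≠ 1 := by
      rintro rfl
      simp at ht
    have hu8 : u ≠ 8 := by
      rintro rfl
      apply ht1
      apply Cfsg.Agent.Lib.Small.BD.faithful_irr hχ1
      rw [hu, Cfsg.Agent.Lib.Char.apply_one_eq_charDegree (Cfsg.Agent.Lib.Char.IsIrrCharacter.isCharacter χ.2), hx8.1]
      norm_num
    rw [hx8.1, hx8.2, h] at hL
    have hL3 : L ≤ 7 := hL2 rfl
    set C := Nat.card (Subgroup.centralizer ({t} : Set G)) with hCdef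
    have hCpos : C ≠ 0 := Nat.card_pos.ne'
    set k := (u - 8).natAbs with hk
    have hk0 : k ≠ 0 := by
      rw [hk]
      intro h0
      exact hu8 (by have := Int.natAbs_eq_zero.mp h0; omega)
    have hksq : ((k : ℤ)) ^ 2 = (u - 8) ^ 2 := by
      rw [hk]
      exact Int.natAbs_sq _
    have hN : L * C ^ 2 * 8 * 9 = 4032 * 1 * k ^ 2 := by
      have : ((L * C ^ 2 * 8 * 9 : ℕ) : ℤ) = ((4032 * 1 * k ^ 2 : ℕ) : ℤ) := by
        push_cast at hL ⊢
        rw [hksq]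
        exact hL
      exact_mod_cast this
    have hN2 : (56 * L) * C ^ 2 = (56 * k) ^ 2 := by nlinarith
    obtain ⟨q, hq⟩ := Cfsg.Agent.Lib.Small.BD.isSquare_of_mul_sq hCpos hN2
    have hL0 : L ≠ 0 := by
      rintro rfl
      have : k ^ 2 = 0 := by omega
      exact hk0 (by simpa using this)
    have hnum2 : ∀ L ∈ Finset.Icc 1 7, ∀ q ∈ Finset.range 20, 56 * L ≠ q * q := by decide +kernel
    have hq20 : q < 20 := by nlinarith
    exact hnum2 L (Finset.mem_Icc.mpr ⟨by omega, hL3⟩) q (Finset.mem_range.mpr hq20) hq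

end Cfsg.Agent.S0976
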