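import Cfsg.Statements.S0977
import Mathlib
import Cfsg.Agent.Lib.Small.BrauerFour

set_option autoImplicit false
open Cfsg

namespace Cfsg.Agent.S0977

/-- No finite simple group has order 4320 = 2^5 * 3^3 * 5. -/
theorem result {G : Type*} [Group G] [Finite G] [IsSimpleGroup G] : Nat.card G ≠ 4320 := by
  intro h
  haveI := Fintype.ofFinite G
  haveI hp : Fact (Nat.Prime 5) := ⟨by norm_num⟩
  have hcard : Nat.card G = 5 * 864 := by rw [h]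
  obtain ⟨P, m, c, n, hP, hnc, hCN, hCc, hn, hmd, hm1, hcd, hnd, hcmn, hnp, hn1, hfac, hsm⟩ :=
    Cfsg.Agent.Lib.Small.BD.exists_setup2 hcard (by norm_num) (by norm_num) (by norm_num)
  have hn6 : n ≠ 6 := by
    rintro rfl
    revert hfac
    decide +kernel
  have key : ∀ m ∈ Nat.divisors 4, ∀ n ∈ Nat.divisors 864, ∀ c ∈ Nat.divisors 864, 1 < m → 1 < n → n % 5 = 1 →
      c * m * n = 864 → n ≠ 6 → (m = 2 ∧ 1 < c) ∨ (m = 4 ∧ 1 < c) ∨ (m = 4 ∧ c = 1) := by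
    decide +kernel
  have hpc : ∀ c ∈ Nat.divisors 864, ¬ 5 ∣ c := by decide +kernel
  have hC : 1 < c → ¬ IsPGroup 5 (Subgroup.centralizer ((P : Subgroup G) : Set G)) :=
    fun hc1 => Cfsg.Agent.Lib.Small.BD.not_isPGroup_of_card hCc hc1 (hpc c hcd)
  rcases key m hmd n hnd c hcd hm1 hn1 hnp hcmn hn6 with ⟨rfl, hc1⟩ | ⟨rfl, hc1⟩ | ⟨rfl, rfl⟩
  · exact Cfsg.Agent.Lib.Small.BD.false_two hnc P hP hcard (by norm_num) (by norm_num) (r := 2) (by norm_num) (by norm_num) hCN (hC hc1)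
      (by decide +kernel)
  · exact Cfsg.Agent.Lib.Small.BD.false_four hnc P hP hcard (by norm_num) hCN (hC hc1) (by decide +kernel)
  · -- the self-centralizing case
    obtain ⟨M, χ₁, χ₂, χ₃, χ₄, a₁, a₂, a₃, a₄, c', hM, hB, ⟨hne₁, hne₂, hne₃, hne₄⟩, ⟨ha₁, ha₂, ha₃, ha₄⟩, ⟨hd₁, hd₂, hd₃, hd₄⟩,
      hrel, ⟨hs₁, hs₂, hs₃⟩, hsq, hsec, hCc', hcount⟩ := Cfsg.Agent.Lib.Small.BD.four_data hnc P hP hCN
    have hc' : c' = 1 := by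
      rw [hCc] at hCc'
      omega
    subst hc'
    have hx₁ := Cfsg.Agent.Lib.Small.BD.one_lt_degree hnc hne₁
    have hx₂ := Cfsg.Agent.Lib.Small.BD.one_lt_degree hnc hne₂
    have hx₃ := Cfsg.Agent.Lib.Small.BD.one_lt_degree hnc hne₃
    have hx₄ := Cfsg.Agent.Lib.Small.BD.one_lt_degree hnc hne₄
    have hm₁ := Cfsg.Agent.Lib.Small.BD.degree_coprime ha₁ hd₁ hcard (by norm_num)
    have hm₂ := Cfsg.Agent.Lib.Small.BD.degree_coprime ha₂ hd₂ hcard (by norm_num)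
    have hm₃ := Cfsg.Agent.Lib.Small.BD.degree_coprime ha₃ hd₃ hcard (by norm_num)
    have hm₄ := Cfsg.Agent.Lib.Small.BD.degree_coprime ha₄ hd₄ hcard (by norm_num)
    generalize Cfsg.charDegree (χ₁ : G → ℂ) = x₁ at *
    generalize Cfsg.charDegree (χ₂ : G → ℂ) = x₂ at *
    generalize Cfsg.charDegree (χ₃ : G → ℂ) = x₃ at *
    generalize Cfsg.charDegree (χ₄ : G → ℂ) = x₄ at *
    obtain ⟨he₁, hr₁⟩ := Cfsg.Agent.Lib.Small.BD.eq_sgnFive ha₁ hd₁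
    obtain ⟨he₂, hr₂⟩ := Cfsg.Agent.Lib.Small.BD.eq_sgnFive ha₂ hd₂
    obtain ⟨he₃, hr₃⟩ := Cfsg.Agent.Lib.Small.BD.eq_sgnFive ha₃ hd₃
    obtain ⟨he₄, hr₄⟩ := Cfsg.Agent.Lib.Small.BD.eq_sgnFive ha₄ hd₄
    subst he₁ he₂ he₃ he₄
    rw [h] at hsq
    have hsq' : (1 : ℤ) + (x₁ : ℤ) ^ 2 + (x₂ : ℤ) ^ 2 + (x₃ : ℤ) ^ 2 + (x₄ : ℤ) ^ 2 ≤ ((4320 : ℕ) : ℤ) := hsq
    have hb₁ : x₁ ≤ 65 := Cfsg.Agent.Lib.Small.BD.le_of_sq_le (S := 1 + (x₂ : ℤ) ^ 2 + (x₃ : ℤ) ^ 2 + (x₄ : ℤ) ^ 2) (by linarith) (by positivity) (by norm_num)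
    have hb₂ : x₂ ≤ 65 := Cfsg.Agent.Lib.Small.BD.le_of_sq_le (S := 1 + (x₁ : ℤ) ^ 2 + (x₃ : ℤ) ^ 2 + (x₄ : ℤ) ^ 2) (by linarith) (by positivity) (by norm_num)
    have hb₃ : x₃ ≤ 65 := Cfsg.Agent.Lib.Small.BD.le_of_sq_le (S := 1 + (x₁ : ℤ) ^ 2 + (x₂ : ℤ) ^ 2 + (x₄ : ℤ) ^ 2) (by linarith) (by positivity) (by norm_num)
    have hb₄ : x₄ ≤ 65 := Cfsg.Agent.Lib.Small.BD.le_of_sq_le (S := 1 + (x₁ : ℤ) ^ 2 + (x₂ : ℤ) ^ 2 + (x₃ : ℤ) ^ 2) (by linarith) (by positivity) (by norm_num)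
    have hD : ∀ x ∈ Nat.divisors 864, 1 < x → x ≤ 65 → (x % 5 = 1 ∨ x % 5 = 4) → x ∈ [4, 6, 9, 16, 24, 36, 54] := by
      decide +kernel
    have htup : ∀ x₁ ∈ [4, 6, 9, 16, 24, 36, 54], ∀ x₂ ∈ [4, 6, 9, 16, 24, 36, 54], ∀ x₃ ∈ [4, 6, 9, 16, 24, 36, 54],
        ∀ x₄ ∈ [4, 6, 9, 16, 24, 36, 54], x₁ ≤ x₂ → x₂ ≤ x₃ → x₃ ≤ x₄ →
        1 + Cfsg.Agent.Lib.Small.BD.sgnFive x₁ * (x₁ : ℤ) + Cfsg.Agent.Lib.Small.BD.sgnFive x₂ * (x₂ : ℤ) +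
          Cfsg.Agent.Lib.Small.BD.sgnFive x₃ * (x₃ : ℤ) + Cfsg.Agent.Lib.Small.BD.sgnFive x₄ * (x₄ : ℤ) = 0 →
        (x₁ = 4 ∧ x₂ = 4 ∧ x₃ = 9 ∧ x₄ = 16) ∨ (x₁ = 4 ∧ x₂ = 6 ∧ x₃ = 6 ∧ x₄ = 9) ∨ (x₁ = 4 ∧ x₂ = 9 ∧ x₃ = 24 ∧ x₄ = 36) ∨
          (x₁ = 9 ∧ x₂ = 16 ∧ x₃ = 16 ∧ x₄ = 24) := by
      decide +kernel
    haveI hp2 : Fact (Nat.Prime 2) := ⟨by norm_num⟩
    obtain ⟨S⟩ : Nonempty (Sylow 2 G) := inferInstance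
    have hS : Nat.card (S : Subgroup G) = 2 ^ 5 :=
      Cfsg.Agent.Lib.SmallSimple.sylow_card_of_eq (a := 5) (m := 135) S (by rw [h]; norm_num) (by norm_num)
    obtain ⟨z, hz, hSC⟩ := Cfsg.Agent.Lib.Small.BD.exists_central_involution S (by rw [hS]; norm_num)
    rw [hS] at hSC
    have hN2 : 2 ∣ Nat.card (Subgroup.normalizer ((P : Subgroup G) : Set G)) :=
      Dvd.dvd.trans (by norm_num) (hCN ▸ Subgroup.relIndex_dvd_card _ _)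
    have hC5 : Nat.card (Subgroup.centralizer ((P : Subgroup G) : Set G)) = 5 := by rw [hCc]
    obtain ⟨t, ht, hinv⟩ := Cfsg.Agent.Lib.Small.BD.exists_inverting (p := 5) (by norm_num) (P : Subgroup G) hP hC5 hN2
    have hndvd := Cfsg.Agent.Lib.Small.BD.not_dvd_card_centralizer (p := 5) (by norm_num) P hP hC5 ht
    have hevs : ∀ C ∈ Nat.divisors 4320, 2 ∣ C → ¬ 5 ∣ C → C ∈ [2, 4, 6, 8, 12, 16, 18, 24, 32, 36, 48, 54, 72, 96, 108, 144, 216, 288, 432, 864] := by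
      decide +kernel
    have h32s : ∀ C ∈ Nat.divisors 4320, 2 ^ 5 ∣ C → C ∈ [32, 96, 160, 288, 480, 864, 1440, 4320] := by
      decide +kernel
    have hCt : Nat.card (Subgroup.centralizer ({t} : Set G)) ∈ Nat.divisors 4320 :=
      Nat.mem_divisors.mpr ⟨by rw [← h]; exact Subgroup.card_subgroup_dvd_card _, by norm_num⟩
    have hCz : Nat.card (Subgroup.centralizer ({z} : Set G)) ∈ Nat.divisors 4320 :=
      Nat.mem_divisors.mpr ⟨by rw [← h]; exact Subgroup.card_subgroup_dvd_card _, by norm_num⟩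
    have h2t : 2 ∣ Nat.card (Subgroup.centralizer ({t} : Set G)) := by
      have h3 := orderOf_dvd_natCard (⟨t, Subgroup.mem_centralizer_singleton_iff.mpr rfl⟩ : Subgroup.centralizer ({t} : Set G))
      rwa [Subgroup.orderOf_mk, ht] at h3
    obtain ⟨Lt, m₁, m₂, m₃, m₄, hm'₁, hm'₂, hm'₃, hm'₄, -, -, -, -, hrelt, hSt, heqt, hLt, hLt'⟩ := hcount t ht
    obtain ⟨Lz, k₁, k₂, k₃, k₄, hk'₁, hk'₂, hk'₃, hk'₄, -, -, -, -, hrelz, hSz, heqz, hLz, -⟩ := hcount z hz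
    have hLt5 : Lt ∈ [1, 2, 3, 4, 5] := by
      have h1 := hLt rfl
      have h2 := hLt' rfl hinv
      simp only [List.mem_cons, List.not_mem_nil, or_false]
      omega
    have hLz5 : Lz ∈ [0, 1, 2, 3, 4, 5] := by
      have h1 := hLz rfl
      simp only [List.mem_cons, List.not_mem_nil, or_false]
      omega
    rw [h] at heqt heqz
    rcases htup x₁ (hD _ hm₁ hx₁ hb₁ hr₁) x₂ (hD _ hm₂ hx₂ hb₂ hr₂) x₃ (hD _ hm₃ hx₃ hb₃ hr₃) x₄ (hD _ hm₄ hx₄ hb₄ hr₄) hs₁ hs₂ hs₃ hrel with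
      ⟨rfl, rfl, rfl, rfl⟩ | ⟨rfl, rfl, rfl, rfl⟩ | ⟨rfl, rfl, rfl, rfl⟩ | ⟨rfl, rfl, rfl, rfl⟩
    · exact Cfsg.Agent.Lib.Small.BD.chkFour_sound (by decide +kernel) ha₄ hm'₁ hm'₂ hm'₃ (hevs _ hCt h2t hndvd) hLt5 hrelt hSt heqt
    · exact Cfsg.Agent.Lib.Small.BD.chkFour_sound (by decide +kernel) ha₄ hk'₁ hk'₂ hk'₃ (h32s _ hCz hSC) hLz5 hrelz hSz heqz
    · exact Cfsg.Agent.Lib.Small.BD.chkFour_sound (by decide +kernel) ha₄ hm'₁ hm'₂ hm'₃ (hevs _ hCt h2t hndvd) hLt5 hrelt hSt heqt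
    · exact Cfsg.Agent.Lib.Small.BD.chkFour_sound (by decide +kernel) ha₄ hk'₁ hk'₂ hk'₃ (h32s _ hCz hSC) hLz5 hrelz hSz heqz

end Cfsg.Agent.S0977
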