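import Cfsg.Statements.S0978
import Mathlib
import Cfsg.Agent.Lib.Small.BrauerOrbit
import Cfsg.Agent.S1010

set_option autoImplicit false
open Cfsg

namespace Cfsg.Agent.S0978

open Cfsg.Agent.Lib.Small.BD in
theorem five_part {G : Type*} [Group G] [Fintype G] [IsSimpleGroup G] (h : Nat.card G = 5040) :
    ∃ χ : Cfsg.IrrCharacter G, Cfsg.charDegree (χ : G → ℂ) = 24 ∧ ∃ z : G, orderOf z = 2 ∧
      40 ∣ Nat.card (Subgroup.centralizer ({z} : Set G)) := by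
  haveI hp : Fact (Nat.Prime 5) := ⟨by norm_num⟩
  have hcard : Nat.card G = 5 * 1008 := by rw [h]
  obtain ⟨P, m, c, n, hP, hnc, hCN, hCc, hn, hmd, hm1, hcd, hnd, hcmn, hnp, hn1, hfac, hsm⟩ :=
    exists_setup2 hcard (by norm_num) (by norm_num) (by norm_num)
  have hn6 : n ≠ 6 := by
    rintro rfl
    revert hfac
    decide +kernel
  have hn21 : n ≠ 21 := by
    rw [← hn]
    exact Cfsg.Agent.S1010.result
  have key : ∀ m ∈ Nat.divisors 4, ∀ n ∈ Nat.divisors 1008, ∀ c ∈ Nat.divisors 1008, 1 < m → 1 < n → n % 5 = 1 →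
      c * m * n = 1008 → n ≠ 6 → n ≠ 21 → (m = 2 ∧ 1 < c) ∨ (m = 4 ∧ (c = 7 ∨ c = 2)) := by
    decide +kernel
  have hpc : ∀ c ∈ Nat.divisors 1008, ¬ 5 ∣ c := by decide +kernel
  have hC : 1 < c → ¬ IsPGroup 5 (Subgroup.centralizer ((P : Subgroup G) : Set G)) :=
    fun hc1 => not_isPGroup_of_card hCc hc1 (hpc c hcd)
  rcases key m hmd n hnd c hcd hm1 hn1 hnp hcmn hn6 hn21 with ⟨rfl, hc1⟩ | ⟨rfl, hc72⟩
  · exact (false_two hnc P hP hcard (by norm_num) (by norm_num) (r := 2) (by norm_num) (by norm_num) hCN (hC hc1)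
      (by decide +kernel)).elim
  · have hc1 : 1 < c := by omega
    obtain ⟨M, χ₁, χ₂, χ₃, χ₄, a₁, a₂, a₃, a₄, c', hM, ⟨hB₁, hB₂, hB₃, hB₄⟩, ⟨hne₁, hne₂, hne₃, hne₄⟩, ⟨ha₁, ha₂, ha₃, ha₄⟩, ⟨hd₁, hd₂, hd₃, hd₄⟩,
      hrel, ⟨hs₁, hs₂, hs₃⟩, hsq, hsec, hCc', -⟩ := four_data hnc P hP hCN
    have hx₁ := le_degree_of_not_isPGroup hnc hM P (hC hc1) hB₁ hne₁
    have hx₂ := le_degree_of_not_isPGroup hnc hM P (hC hc1) hB₂ hne₂
    have hx₃ := le_degree_of_not_isPGroup hnc hM P (hC hc1) hB₃ hne₃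
    have hx₄ := le_degree_of_not_isPGroup hnc hM P (hC hc1) hB₄ hne₄
    have hm₁ := degree_coprime ha₁ hd₁ hcard (by norm_num)
    have hm₂ := degree_coprime ha₂ hd₂ hcard (by norm_num)
    have hm₃ := degree_coprime ha₃ hd₃ hcard (by norm_num)
    have hm₄ := degree_coprime ha₄ hd₄ hcard (by norm_num)
    obtain ⟨x₁, hxe₁⟩ : ∃ x, x = Cfsg.charDegree (χ₁ : G → ℂ) := ⟨_, rfl⟩
    obtain ⟨x₂, hxe₂⟩ : ∃ x, x = Cfsg.charDegree (χ₂ : G → ℂ) := ⟨_, rfl⟩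
    obtain ⟨x₃, hxe₃⟩ : ∃ x, x = Cfsg.charDegree (χ₃ : G → ℂ) := ⟨_, rfl⟩
    obtain ⟨x₄, hxe₄⟩ : ∃ x, x = Cfsg.charDegree (χ₄ : G → ℂ) := ⟨_, rfl⟩
    rw [← hxe₁] at hx₁ hm₁ hd₁ hrel hs₁ hsq
    rw [← hxe₂] at hx₂ hm₂ hd₂ hrel hs₁ hs₂ hsq
    rw [← hxe₃] at hx₃ hm₃ hd₃ hrel hs₂ hs₃ hsq
    rw [← hxe₄] at hx₄ hm₄ hd₄ hrel hs₃ hsq
    obtain ⟨he₁, hr₁⟩ := eq_sgnFive ha₁ hd₁
    obtain ⟨he₂, hr₂⟩ := eq_sgnFive ha₂ hd₂
    obtain ⟨he₃, hr₃⟩ := eq_sgnFive ha₃ hd₃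
    obtain ⟨he₄, hr₄⟩ := eq_sgnFive ha₄ hd₄
    rw [h] at hsq
    have hsq' : (1 : ℤ) + (x₁ : ℤ) ^ 2 + (x₂ : ℤ) ^ 2 + (x₃ : ℤ) ^ 2 + (x₄ : ℤ) ^ 2 ≤ ((5040 : ℕ) : ℤ) := hsq
    have hb₁ : x₁ ≤ 70 := le_of_sq_le (N := 5040) (S := 1 + (x₂ : ℤ) ^ 2 + (x₃ : ℤ) ^ 2 + (x₄ : ℤ) ^ 2) (by linarith) (by positivity) (by norm_num)
    have hb₂ : x₂ ≤ 70 := le_of_sq_le (N := 5040) (S := 1 + (x₁ : ℤ) ^ 2 + (x₃ : ℤ) ^ 2 + (x₄ : ℤ) ^ 2) (by linarith) (by positivity) (by norm_num)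
    have hb₃ : x₃ ≤ 70 := le_of_sq_le (N := 5040) (S := 1 + (x₁ : ℤ) ^ 2 + (x₂ : ℤ) ^ 2 + (x₄ : ℤ) ^ 2) (by linarith) (by positivity) (by norm_num)
    have hb₄ : x₄ ≤ 70 := le_of_sq_le (N := 5040) (S := 1 + (x₁ : ℤ) ^ 2 + (x₂ : ℤ) ^ 2 + (x₃ : ℤ) ^ 2) (by linarith) (by positivity) (by norm_num)
    have hD : ∀ x ∈ Nat.divisors 1008, 2 * 5 ≤ x → x ≤ 70 → (x % 5 = 1 ∨ x % 5 = 4) → x ∈ [14, 16, 21, 24, 36, 56] := by
      decide +kernel
    have htup : ∀ x₁ ∈ [14, 16, 21, 24, 36, 56], ∀ x₂ ∈ [14, 16, 21, 24, 36, 56], ∀ x₃ ∈ [14, 16, 21, 24, 36, 56],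
        ∀ x₄ ∈ [14, 16, 21, 24, 36, 56], x₁ ≤ x₂ → x₂ ≤ x₃ → x₃ ≤ x₄ →
        1 + sgnFive x₁ * (x₁ : ℤ) + sgnFive x₂ * (x₂ : ℤ) + sgnFive x₃ * (x₃ : ℤ) + sgnFive x₄ * (x₄ : ℤ) = 0 →
        (x₁ = 14 ∧ x₂ = 16 ∧ x₃ = 21 ∧ x₄ = 24) := by
      set_option synthInstance.maxSize 2048 in
      set_option synthInstance.maxHeartbeats 200000 in
      decide +kernel
    rw [he₁, he₂, he₃, he₄] at hrel
    obtain ⟨rfl, rfl, rfl, rfl⟩ := htup x₁ (hD _ hm₁ hx₁ hb₁ hr₁) x₂ (hD _ hm₂ hx₂ hb₂ hr₂) x₃ (hD _ hm₃ hx₃ hb₃ hr₃) x₄ (hD _ hm₄ hx₄ hb₄ hr₄) hs₁ hs₂ hs₃ hrel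
    rcases hc72 with rfl | rfl
    · exfalso
      haveI hq : Fact (Nat.Prime 7) := ⟨by norm_num⟩
      refine false_of_section_defect (p := 5) (q := 7) (by norm_num) (P : Subgroup G) hP χ₁ (a := a₁) ?_ (fun z y hz hy hy1 => (hsec z y hz hy hy1).1)
        (by rw [hCc]; norm_num) (pow_factorization_dvd_of_sq (by norm_num) (by rw [h]; norm_num) (by rw [h]; norm_num) (by rw [← hxe₁]; norm_num))
      rcases ha₁ with rfl | rfl <;> norm_num
    · refine ⟨χ₄, hxe₄.symm, ?_⟩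
      obtain ⟨z, hz, hzd⟩ := normalizer_dvd_centralizer (P := (P : Subgroup G)) (by rw [hP]; norm_num) (comm_of_prime (P : Subgroup G) hP) (by rw [hP, hCc])
      refine ⟨z, hz, ?_⟩
      rw [card_normalizer_eq (P : Subgroup G) hCN, hCc] at hzd
      exact hzd

open Cfsg.Agent.Lib.Small.BD in
theorem seven_part {G : Type*} [Group G] [Fintype G] [IsSimpleGroup G] (h : Nat.card G = 5040)
    (χ₀ : Cfsg.IrrCharacter G) (hχ₀ : Cfsg.charDegree (χ₀ : G → ℂ) = 24) (z : G) (hz : orderOf z = 2)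
    (hzC : 40 ∣ Nat.card (Subgroup.centralizer ({z} : Set G))) : False := by
  haveI hp : Fact (Nat.Prime 7) := ⟨by norm_num⟩
  have hcard : Nat.card G = 7 * 720 := by rw [h]
  obtain ⟨P, m, c, n, hP, hnc, hCN, hCc, hn, hmd, hm1, hcd, hnd, hcmn, hnp, hn1, hfac, hsm⟩ :=
    exists_setup2 hcard (by norm_num) (by norm_num) (by norm_num)
  have hsm' : n ≠ 8 ∨ 2 * (7 * c * m) ∣ 42 := by
    by_cases hh : n = 8
    · exact Or.inr (hsm hh)
    · exact Or.inl hh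
  have key : ∀ m ∈ Nat.divisors 6, ∀ n ∈ Nat.divisors 720, ∀ c ∈ Nat.divisors 720, 1 < m → 1 < n → n % 7 = 1 →
      c * m * n = 720 → (n ≠ 8 ∨ 2 * (7 * c * m) ∣ 42) →
      (n = 15 ∧ 4 ∣ c) ∨ (m = 2 ∧ c = 10) ∨ (m = 3 ∧ c = 2) ∨ (m = 2 ∧ c = 3) ∨ (m = 6 ∧ c = 1) := by
    decide +kernel
  have hpc : ∀ c ∈ Nat.divisors 720, ¬ 7 ∣ c := by decide +kernel
  have hC : 1 < c → ¬ IsPGroup 7 (Subgroup.centralizer ((P : Subgroup G) : Set G)) :=
    fun hc1 => not_isPGroup_of_card hCc hc1 (hpc c hcd)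
  -- the data for `N/C` of order two
  have htwo : m = 2 → 1 < c → ∃ (χ : Cfsg.IrrCharacter G) (c' : ℕ), Cfsg.charDegree (χ : G → ℂ) = 15 ∧ χ ≠ one' G ∧
      (∀ z y : G, IsPPart 7 z y → y ∈ (P : Subgroup G) → y ≠ 1 → (χ : G → ℂ) z = 1) ∧
      Nat.card (Subgroup.centralizer ((P : Subgroup G) : Set G)) = 7 * c' ∧
      ∀ t : G, orderOf t = 2 → ∃ (L : ℕ) (u : ℤ), (χ : G → ℂ) t = u ∧
        (L : ℤ) * (Nat.card (Subgroup.centralizer ({t} : Set G)) : ℤ) ^ 2 * 15 * 16 =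
          (Nat.card G : ℤ) * c' * (u - 15) ^ 2 := by
    rintro rfl hc1
    obtain ⟨M, χ, η, a, c', hM, hχ, hη, hχ1, hη1, ha, hd, hy, hsec, hCc', hcount⟩ :=
      two_data hnc P hP (by norm_num) (r := 3) (by norm_num) (by norm_num) hCN
    have hx := le_degree_of_not_isPGroup hnc hM P (hC hc1) hχ hχ1
    have hy' := le_degree_of_not_isPGroup hnc hM P (hC hc1) hη hη1
    have hmem := degree_coprime ha hd hcard (by norm_num)
    have hyd := Cfsg.Agent.Lib.Char.charDegree_dvd_card η.2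
    rw [hcard] at hyd
    have hnum : ∀ x ∈ Nat.divisors 720, (x % 7 = 1 → (x + 1) ∣ 7 * 720 → 2 * 7 ≤ x → x = 15) ∧
        (x % 7 = 7 - 1 → (x - 1) ∣ 7 * 720 → 2 * 7 ≤ x - 1 → False) := by decide +kernel
    obtain ⟨hn1, hn2⟩ := hnum _ hmem
    have hfin : a = 1 ∧ Cfsg.charDegree (χ : G → ℂ) = 15 ∧ Cfsg.charDegree (η : G → ℂ) = 16 := by
      rcases ha with rfl | rfl
      · have h5 : Cfsg.charDegree (η : G → ℂ) = Cfsg.charDegree (χ : G → ℂ) + 1 := by exact_mod_cast hy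
        rw [h5] at hyd
        have h6 := hn1 (by rw [mod_of_dvd_one hd]) hyd hx
        omega
      · have h5 : Cfsg.charDegree (η : G → ℂ) = Cfsg.charDegree (χ : G → ℂ) - 1 := by
          have : (Cfsg.charDegree (η : G → ℂ) : ℤ) + 1 = Cfsg.charDegree (χ : G → ℂ) := by linarith
          omega
        rw [h5] at hyd hy'
        exact (hn2 (mod_of_dvd_neg_one hd) hyd hy').elim
    obtain ⟨rfl, h15, h16⟩ := hfin
    refine ⟨χ, c', h15, hχ1, ?_, hCc', ?_⟩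
    · intro z y hz hy hy1
      have := hsec z y hz hy hy1
      simpa using this
    · intro t ht
      obtain ⟨L, u, hu, hL, -⟩ := hcount t ht
      refine ⟨L, u, hu, ?_⟩
      rw [h15, h16] at hL
      push_cast at hL ⊢
      linarith
  rcases key m hmd n hnd c hcd hm1 hn1 hnp hcmn hsm' with ⟨rfl, hc4⟩ | ⟨rfl, rfl⟩ | ⟨rfl, rfl⟩ | ⟨rfl, rfl⟩ | ⟨rfl, rfl⟩
  · -- `n = 15`
    have hd4 : 2 ^ 2 ∣ Nat.card (Subgroup.centralizer ((P : Subgroup G) : Set G)) := by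
      rw [hCc]
      exact Dvd.dvd.mul_left hc4 7
    haveI hp2 : Fact (Nat.Prime 2) := ⟨by norm_num⟩
    obtain ⟨K', hK'⟩ := Sylow.exists_subgroup_card_pow_prime (p := 2) (n := 2) (G := Subgroup.centralizer ((P : Subgroup G) : Set G)) hd4
    have hK1 : Nat.card (K'.map (Subgroup.subtype _)) = 4 := by
      rw [Subgroup.card_map_of_injective (Subgroup.subtype_injective _), hK']
      norm_num
    have hKle : K'.map (Subgroup.subtype _) ≤ Subgroup.centralizer ((P : Subgroup G) : Set G) := Subgroup.map_subtype_le _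
    have := card_le_two_of_two_orbits (p := 7) (by rw [hn]) P hP _ hKle (by rw [hK1]; norm_num)
    omega
  · -- `m = 2`, `c = 10`
    obtain ⟨χ, c', h15, -, hsec, -, -⟩ := htwo rfl (by norm_num)
    haveI hq : Fact (Nat.Prime 5) := ⟨by norm_num⟩
    refine false_of_section_defect (p := 7) (q := 5) (by norm_num) (P : Subgroup G) hP χ (a := 1) (by norm_num)
      (fun z y hz hy hy1 => by simpa using hsec z y hz hy hy1)
      (by rw [hCc]; norm_num) (pow_factorization_dvd_of_sq (by norm_num) (by rw [h]; norm_num) (by rw [h]; norm_num) (by rw [h15]; norm_num))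
  · exact false_three hnc P hP hcard (by norm_num) (r := 2) (by norm_num) (by norm_num) hCN (hC (by norm_num)) (by decide +kernel)
  · -- `m = 2`, `c = 3`
    obtain ⟨χ, c', h15, hχ1, -, hCc', hcount⟩ := htwo rfl (by norm_num)
    have hc' : c' = 3 := by
      rw [hCc] at hCc'
      omega
    subst hc'
    obtain ⟨L, u, hu, hL⟩ := hcount z hz
    obtain ⟨u', hu', hub, -⟩ := involution_value χ hz
    have huu : u' = u := by
      rw [hu] at hu'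
      exact (Int.cast_injective hu').symm
    subst huu
    rw [h15] at hub
    have hz1 : z ≠ 1 := by
      rintro rfl
      simp at hz
    have hune : u' ≠ 15 := by
      rintro rfl
      apply hz1
      apply faithful_irr hχ1
      rw [hu, Cfsg.Agent.Lib.Char.apply_one_eq_charDegree (Cfsg.Agent.Lib.Char.IsIrrCharacter.isCharacter χ.2), h15]
      norm_num
    rw [h] at hL
    set C := Nat.card (Subgroup.centralizer ({z} : Set G)) with hCdef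
    set k := (u' - 15).natAbs with hk
    have hk0 : k ≠ 0 := by
      rw [hk]
      intro h0
      exact hune (by have := Int.natAbs_eq_zero.mp h0; omega)
    have hk30 : k ≤ 30 := by
      rw [hk]
      have := abs_le.mp hub
      push_cast at this
      omega
    have hksq : ((k : ℤ)) ^ 2 = (u' - 15) ^ 2 := by
      rw [hk]
      exact Int.natAbs_sq _
    have hN : L * C ^ 2 * 15 * 16 = 5040 * 3 * k ^ 2 := by
      have : ((L * C ^ 2 * 15 * 16 : ℕ) : ℤ) = ((5040 * 3 * k ^ 2 : ℕ) : ℤ) := by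
        push_cast at hL ⊢
        rw [hksq]
        exact hL
      exact_mod_cast this
    obtain ⟨C', hC'⟩ := hzC
    have hN2 : 40 ^ 2 * (L * C' ^ 2) = 63 * k ^ 2 := by
      have h3 : 240 * (40 ^ 2 * (L * C' ^ 2)) = 240 * (63 * k ^ 2) := by
        calc 240 * (40 ^ 2 * (L * C' ^ 2)) = L * (40 * C') ^ 2 * 15 * 16 := by ring
          _ = 5040 * 3 * k ^ 2 := by rw [← hC', hN]
          _ = 240 * (63 * k ^ 2) := by ring
      exact Nat.eq_of_mul_eq_mul_left (by norm_num) h3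
    have h40 : 40 ^ 2 ∣ k ^ 2 := by
      have h4 : 40 ^ 2 ∣ 63 * k ^ 2 := ⟨_, hN2.symm⟩
      exact (Nat.Coprime.dvd_of_dvd_mul_left (by norm_num) h4)
    have h41 : 40 ∣ k := (Nat.pow_dvd_pow_iff (by norm_num)).mp h40
    have := Nat.le_of_dvd (by omega) h41
    omega
  · -- `m = 6`, `c = 1`
    obtain ⟨a, had, hale⟩ := sq_le_of_full P hP (by simpa using hCN) χ₀
    rw [hχ₀, hCc] at *
    norm_num at hale
    have h3 : a ≤ 2 ∧ -2 ≤ a := by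
      constructor <;> nlinarith
    push_cast at had
    omega

/-- No finite simple group has order 5040 = 2^4 * 3^2 * 5 * 7. -/
theorem result {G : Type*} [Group G] [Finite G] [IsSimpleGroup G] : Nat.card G ≠ 5040 := by
  intro h
  haveI := Fintype.ofFinite G
  obtain ⟨χ, hχ, z, hz, hzC⟩ := five_part h
  exact seven_part h χ hχ z hz hzC

end Cfsg.Agent.S0978
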