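import Cfsg.Statements.S0980
import Mathlib
import Cfsg.Agent.Lib.Small.BrauerKill2

set_option autoImplicit false
open Cfsg

namespace Cfsg.Agent.S0980

/-- No finite simple group has order 5760 = 2^7 * 3^2 * 5. -/
theorem result {G : Type*} [Group G] [Finite G] [IsSimpleGroup G] : Nat.card G ≠ 5760 := by
  intro h
  haveI := Fintype.ofFinite G
  haveI hp : Fact (Nat.Prime 5) := ⟨by norm_num⟩
  have hcard : Nat.card G = 5 * 1152 := by rw [h]
  obtain ⟨P, m, c, n, hP, hnc, hCN, hCc, hn, hmd, hm1, hcd, hnd, hcmn, hnp, hn1, hfac, hsm⟩ :=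
    Cfsg.Agent.Lib.Small.BD.exists_setup2 hcard (by norm_num) (by norm_num) (by norm_num)
  have key : ∀ m ∈ Nat.divisors 4, ∀ n ∈ Nat.divisors 1152, ∀ c ∈ Nat.divisors 1152, 1 < m → 1 < n → n % 5 = 1 →
      c * m * n = 1152 → 2 * (5 * 1152) ∣ n.factorial → (m = 2 ∧ 1 < c) ∨ (m = 4 ∧ 1 < c) ∨ (m = 2 ∧ c = 1) := by
    decide +kernel
  have hpc : ∀ c ∈ Nat.divisors 1152, ¬ 5 ∣ c := by decide +kernel
  have hC : 1 < c → ¬ IsPGroup 5 (Subgroup.centralizer ((P : Subgroup G) : Set G)) :=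
    fun hc1 => Cfsg.Agent.Lib.Small.BD.not_isPGroup_of_card hCc hc1 (hpc c hcd)
  rcases key m hmd n hnd c hcd hm1 hn1 hnp hcmn hfac with ⟨rfl, hc1⟩ | ⟨rfl, hc1⟩ | ⟨rfl, rfl⟩
  · exact Cfsg.Agent.Lib.Small.BD.false_two hnc P hP hcard (by norm_num) (by norm_num) (r := 2) (by norm_num) (by norm_num) hCN (hC hc1)
      (by decide +kernel)
  · exact Cfsg.Agent.Lib.Small.BD.false_four hnc P hP hcard (by norm_num) hCN (hC hc1) (by decide +kernel)
  · -- the self-centralizing case
    obtain ⟨M, χ, η, a, c', hM, hχ, hη, hχ1, hη1, ha, hd, hy, -, hCc', hcount⟩ :=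
      Cfsg.Agent.Lib.Small.BD.two_data hnc P hP (by norm_num) (r := 2) (by norm_num) (by norm_num) hCN
    have hc' : c' = 1 := by
      rw [hCc] at hCc'
      omega
    subst hc'
    have hx1 := Cfsg.Agent.Lib.Small.BD.one_lt_degree hnc hχ1
    have hy1 := Cfsg.Agent.Lib.Small.BD.one_lt_degree hnc hη1
    have hmem := Cfsg.Agent.Lib.Small.BD.degree_coprime ha hd hcard (by norm_num)
    have hyd := Cfsg.Agent.Lib.Char.charDegree_dvd_card η.2
    rw [hcard] at hyd
    have hnum : ∀ x ∈ Nat.divisors 1152, (x % 5 = 1 → (x + 1) ∣ 5 * 1152 → 1 < x → False) ∧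
        (x % 5 = 5 - 1 → (x - 1) ∣ 5 * 1152 → 1 < x - 1 → x = 4 ∨ x = 9) := by decide +kernel
    obtain ⟨hn1, hn2⟩ := hnum _ hmem
    have hx8 : Cfsg.charDegree (χ : G → ℂ) = 4 ∧ Cfsg.charDegree (η : G → ℂ) = 3 ∨
        Cfsg.charDegree (χ : G → ℂ) = 9 ∧ Cfsg.charDegree (η : G → ℂ) = 8 := by
      rcases ha with rfl | rfl
      · have h5 : Cfsg.charDegree (η : G → ℂ) = Cfsg.charDegree (χ : G → ℂ) + 1 := by exact_mod_cast hy
        rw [h5] at hyd
        exact (hn1 (by rw [Cfsg.Agent.Lib.Small.BD.mod_of_dvd_one hd]) hyd hx1).elim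
      · have h5 : Cfsg.charDegree (η : G → ℂ) = Cfsg.charDegree (χ : G → ℂ) - 1 := by
          have : (Cfsg.charDegree (η : G → ℂ) : ℤ) + 1 = Cfsg.charDegree (χ : G → ℂ) := by linarith
          omega
        rw [h5] at hyd hy1
        rcases hn2 (Cfsg.Agent.Lib.Small.BD.mod_of_dvd_neg_one hd) hyd hy1 with h6 | h6
        · left; omega
        · right; omega
    haveI hp2 : Fact (Nat.Prime 2) := ⟨by norm_num⟩
    obtain ⟨S⟩ : Nonempty (Sylow 2 G) := inferInstance
    have hS : Nat.card (S : Subgroup G) = 2 ^ 7 :=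
      Cfsg.Agent.Lib.SmallSimple.sylow_card_of_eq (a := 7) (m := 45) S (by rw [h]; norm_num) (by norm_num)
    obtain ⟨t, ht, hSC⟩ := Cfsg.Agent.Lib.Small.BD.exists_central_involution S (by rw [hS]; norm_num)
    rw [hS] at hSC
    obtain ⟨L, u, hu, hL, hL2⟩ := hcount t ht
    obtain ⟨u', hu', hub, -⟩ := Cfsg.Agent.Lib.Small.BD.involution_value χ ht
    have huu : u' = u := by
      rw [hu] at hu'
      exact (Int.cast_injective hu').symm
    subst huu
    have ht1 : t ≠ 1 := by
      rintro rfl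
      simp at ht
    have hune : u' ≠ (Cfsg.charDegree (χ : G → ℂ) : ℤ) := by
      intro he
      apply ht1
      apply Cfsg.Agent.Lib.Small.BD.faithful_irr hχ1
      rw [hu, Cfsg.Agent.Lib.Char.apply_one_eq_charDegree (Cfsg.Agent.Lib.Char.IsIrrCharacter.isCharacter χ.2), he]
      norm_num
    have hL3 : L ≤ 5 := hL2 rfl
    rw [h] at hL
    set C := Nat.card (Subgroup.centralizer ({t} : Set G)) with hCdef
    have hCpos : C ≠ 0 := Nat.card_pos.ne'
    set k := (u' - (Cfsg.charDegree (χ : G → ℂ) : ℤ)).natAbs with hk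
    have hk0 : k ≠ 0 := by
      rw [hk]
      intro h0
      exact hune (by have := Int.natAbs_eq_zero.mp h0; omega)
    have hksq : ((k : ℤ)) ^ 2 = (u' - (Cfsg.charDegree (χ : G → ℂ) : ℤ)) ^ 2 := by
      rw [hk]
      exact Int.natAbs_sq _
    have hL0 : L ≠ 0 := by
      rintro rfl
      have h7 : (k : ℤ) ^ 2 = 0 := by
        rw [hksq]
        push_cast at hL
        nlinarith
      have h8 : k = 0 := by
        have := pow_eq_zero_iff (n := 2) (by norm_num) |>.mp h7
        exact_mod_cast this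
      exact hk0 h8
    rcases hx8 with ⟨h41, h42⟩ | ⟨h91, h92⟩
    · rw [h41, h42] at hL
      have hN : L * C ^ 2 * 4 * 3 = 5760 * 1 * k ^ 2 := by
        have : ((L * C ^ 2 * 4 * 3 : ℕ) : ℤ) = ((5760 * 1 * k ^ 2 : ℕ) : ℤ) := by
          push_cast at hL ⊢
          rw [hksq, h41]
          exact hL
        exact_mod_cast this
      have hN2 : (480 * L) * C ^ 2 = (480 * k) ^ 2 := by
        calc (480 * L) * C ^ 2 = 40 * (L * C ^ 2 * 4 * 3) := by ring
          _ = 40 * (5760 * 1 * k ^ 2) := by rw [hN]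
          _ = (480 * k) ^ 2 := by ring
      obtain ⟨q, hq⟩ := Cfsg.Agent.Lib.Small.BD.isSquare_of_mul_sq hCpos hN2
      have hnum2 : ∀ L ∈ Finset.Icc 1 5, ∀ q ∈ Finset.range 60, 480 * L ≠ q * q := by decide +kernel
      have hq60 : q < 60 := by
        by_contra hc
        have h9 : 60 * 60 ≤ q * q := Nat.mul_le_mul (by omega) (by omega)
        omega
      exact hnum2 L (Finset.mem_Icc.mpr ⟨by omega, hL3⟩) q (Finset.mem_range.mpr hq60) hq
    · rw [h91, h92] at hL
      have hN : L * C ^ 2 * 9 * 8 = 5760 * 1 * k ^ 2 := by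
        have : ((L * C ^ 2 * 9 * 8 : ℕ) : ℤ) = ((5760 * 1 * k ^ 2 : ℕ) : ℤ) := by
          push_cast at hL ⊢
          rw [hksq, h91]
          exact hL
        exact_mod_cast this
      have hN2 : (80 * L) * C ^ 2 = (80 * k) ^ 2 := by
        have h3 : 72 * ((80 * L) * C ^ 2) = 72 * (80 * k) ^ 2 := by
          calc 72 * ((80 * L) * C ^ 2) = 80 * (L * C ^ 2 * 9 * 8) := by ring
            _ = 80 * (5760 * 1 * k ^ 2) := by rw [hN]
            _ = 72 * (80 * k) ^ 2 := by ring
        exact Nat.eq_of_mul_eq_mul_left (by norm_num) h3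
      obtain ⟨q, hq⟩ := Cfsg.Agent.Lib.Small.BD.isSquare_of_mul_sq hCpos hN2
      have hnum2 : ∀ L ∈ Finset.Icc 1 5, ∀ q ∈ Finset.range 21, 80 * L = q * q → L = 5 := by decide +kernel
      have hq21 : q < 21 := by
        by_contra hc
        have h9 : 21 * 21 ≤ q * q := Nat.mul_le_mul (by omega) (by omega)
        omega
      have hL5 := hnum2 L (Finset.mem_Icc.mpr ⟨by omega, hL3⟩) q (Finset.mem_range.mpr hq21) hq
      subst hL5
      have hC4 : C = 4 * k := by
        have h1 : C ^ 2 = (4 * k) ^ 2 := by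
          have h3 : 400 * C ^ 2 = 400 * (4 * k) ^ 2 := by
            calc 400 * C ^ 2 = (80 * 5) * C ^ 2 := by ring
              _ = (80 * k) ^ 2 := hN2
              _ = 400 * (4 * k) ^ 2 := by ring
          exact Nat.eq_of_mul_eq_mul_left (by norm_num) h3
        exact (Nat.pow_left_injective (n := 2) (by norm_num)) h1
      rw [hC4] at hSC
      have hk32 : 32 ∣ k := by
        have h128 : 2 ^ 7 = 4 * 32 := by norm_num
        rw [h128] at hSC
        exact Nat.dvd_of_mul_dvd_mul_left (by norm_num) hSC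
      have hk18 : k ≤ 18 := by
        rw [h91] at hub
        rw [hk, h91]
        have := abs_le.mp hub
        push_cast at this
        omega
      have := Nat.le_of_dvd (by omega) hk32
      omega

end Cfsg.Agent.S0980
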