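import Cfsg.Statements.S0981
import Mathlib
import Cfsg.Agent.Lib.Small.BrauerGenC
import Cfsg.Agent.Lib.Classical.Transfer

set_option autoImplicit false
open Cfsg

namespace Cfsg.Agent.S0981

/-- A simple group of order 4080 is isomorphic to the projective special linear group of dimension 2 over the field with 16 elements. -/
theorem result {G : Type*} [Group G] [Finite G] [IsSimpleGroup G] (h : Nat.card G = 4080) {F : Type*} [Field F] [Fintype F] (hF : Fintype.card F = 16) : Nonempty (G ≃* Matrix.ProjectiveSpecialLinearGroup (Fin 2) F) := by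
  classical
  letI : Fintype G := Fintype.ofFinite _
  haveI : Fact (Nat.Prime 17) := ⟨by norm_num⟩
  obtain ⟨P, m, c, v, hP, hnc, hCN, hCc, hv, hmd, hm1, hcd, hvd, hcmv, hvp, hv1, -, -⟩ :=
    Cfsg.Agent.Lib.Small.BD.exists_setup2 (p := 17) (N := 240) (by rw [h]) (by norm_num) (by norm_num) (by norm_num)
  have hv120 : v = 120 := by
    have hvd' : v ∣ 240 := Nat.dvd_of_mem_divisors hvd
    have hle := Nat.le_of_dvd (by norm_num) hvd'
    interval_cases v <;> first | rfl | omega | (exfalso; revert hvd'; decide)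
  subst hv120
  have hm2 : m = 2 ∧ c = 1 := by
    have h1 : c * m = 2 := by omega
    have hc0 : 0 < c := Nat.pos_of_mem_divisors hcd
    have hc2 : c ≤ 2 := by nlinarith
    interval_cases c <;> omega
  obtain ⟨rfl, rfl⟩ := hm2
  have hC : Nat.card (Subgroup.centralizer (((P : Subgroup G)) : Set G)) = 17 := by
    rw [hCc]
  have hnd : Cfsg.Agent.Lib.Small.BD.NoDivisor 17 7 := by
    intro u hu hu7
    interval_cases u <;> decide
  rcases Cfsg.Agent.Lib.Small.BD.brauer_core_noDivisor hnc P hP (by norm_num) hC (n := 7) (by norm_num) hnd (by rw [hv]) with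
    ⟨F₀, i1, i2, hF₀, -, ⟨e⟩⟩ | ⟨k, F₀, i1, i2, hF₀, hk, -, ⟨e⟩⟩
  · exfalso
    have h1 := Cfsg.Agent.Lib.Classical.card_psl2_odd (F := F₀) hF₀ (by decide)
    have h2 : Nat.card (Matrix.ProjectiveSpecialLinearGroup (Fin 2) F₀) = 4080 := by
      rw [← h]
      exact (Nat.card_congr e.toEquiv).symm
    rw [h2] at h1
    norm_num at h1
  · have h16 : Fintype.card F₀ = Fintype.card F := by
      rw [hF₀, hF]
      omega
    exact ⟨e.trans (Cfsg.Agent.Lib.Classical.pslCongr (FiniteField.ringEquivOfCardEq h16))⟩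

end Cfsg.Agent.S0981
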