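import Cfsg.Statements.S0982
import Cfsg.Agent.Lib.PslRec.Instances

set_option autoImplicit false
open Cfsg

namespace Cfsg.Agent.S0982


/-- A simple group of order 6072 is isomorphic to the projective special linear group of dimension 2 over the field with 23 elements. -/
theorem result {G : Type*} [Group G] [Finite G] [IsSimpleGroup G] (h : Nat.card G = 6072) {F : Type*} [Field F] [Fintype F] (hF : Fintype.card F = 23) : Nonempty (G ≃* Matrix.ProjectiveSpecialLinearGroup (Fin 2) F) := by
  open Cfsg.Agent.Lib.PslRec in
  obtain ⟨e⟩ := psl_rec_23 h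
  obtain ⟨e2⟩ := psl_field_change (q := 23) (by norm_num) hF
  exact ⟨e.trans e2⟩

end Cfsg.Agent.S0982
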