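import Cfsg.Statements.S1011
import Mathlib
import Cfsg.Agent.Lib.Misc19.Order504

set_option autoImplicit false
open Cfsg

namespace Cfsg.Agent.S1011



/-- A simple group of order 504 is isomorphic to the projective special linear group of dimension 2 over the field with 8 elements. -/
theorem result {G : Type*} [Group G] [Finite G] [IsSimpleGroup G] (h : Nat.card G = 504) {F : Type*} [Field F] [Fintype F] (hF : Fintype.card F = 8) : Nonempty (G ≃* Matrix.ProjectiveSpecialLinearGroup (Fin 2) F) := by

  obtain ⟨F', _, _, hF', ⟨e⟩⟩ := Cfsg.Agent.Lib.Misc19.O504.exists_iso_SL h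
  have hcard : Fintype.card F' = Fintype.card F := by rw [hF', hF]
  let e2 : Matrix.SpecialLinearGroup (Fin 2) F' ≃* Matrix.SpecialLinearGroup (Fin 2) F :=
    Cfsg.Agent.Lib.Classical.slCongr (FiniteField.ringEquivOfCardEq hcard)
  -- the centre is trivial in characteristic 2
  have h20 : (2 : F) = 0 := by
    have := FiniteField.cast_card_eq_zero F
    rw [hF] at this
    have h8 : ((8 : ℕ) : F) = 2 ^ 3 := by norm_num
    rw [h8] at this
    exact pow_eq_zero_iff (by norm_num) |>.1 this
  have hcenter : Subgroup.center (Matrix.SpecialLinearGroup (Fin 2) F) = ⊥ := by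
    rw [eq_bot_iff]
    intro A hA
    rw [Matrix.SpecialLinearGroup.mem_center_iff] at hA
    obtain ⟨r, hr, hrA⟩ := hA
    have hr2 : r ^ 2 = 1 := by simpa using hr
    have hr1 : r = 1 := by
      have h3 : (r + 1) ^ 2 = 0 := by
        have : (r + 1) ^ 2 = r ^ 2 + 1 + 2 * r := by ring
        rw [this, hr2, h20]
        have : (1 : F) + 1 = 2 := by norm_num
        rw [this, h20]
        simp
      have h4 : r + 1 = 0 := pow_eq_zero_iff (by norm_num) |>.1 h3
      have h5 : r = -1 := eq_neg_of_add_eq_zero_left h4
      have h6 : (-1 : F) = 1 := by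
        rw [eq_comm, ← sub_eq_zero]
        have : (1 : F) - -1 = 2 := by norm_num
        rw [this, h20]
      rw [h5, h6]
    rw [Subgroup.mem_bot]
    apply Subtype.ext
    rw [Matrix.SpecialLinearGroup.coe_one, ← hrA, hr1]
    simp
  let π := QuotientGroup.mk' (Subgroup.center (Matrix.SpecialLinearGroup (Fin 2) F))
  have hπ : Function.Bijective π := by
    refine ⟨?_, QuotientGroup.mk'_surjective _⟩
    rw [← MonoidHom.ker_eq_bot_iff, QuotientGroup.ker_mk', hcenter]
  exact ⟨(e.trans e2).trans (MulEquiv.ofBijective π hπ)⟩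

end Cfsg.Agent.S1011
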