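import Cfsg.Statements.S1313
import Mathlib
import Cfsg.Agent.Lib.Components.Layer2

set_option autoImplicit false
open Cfsg

namespace Cfsg.Agent.S1313

noncomputable def permHom {H : Type*} [Group H] (N : Subgroup H) [N.Normal] :
    H →* Equiv.Perm {x : N // x ≠ 1} where
  toFun h := Equiv.Perm.subtypePerm (MulAut.conjNormal h : N ≃* N).toEquiv (by
    intro x
    simp)
  map_one' := by ext; simp
  map_mul' a b := by
    ext x
    change ((a * b) * ((x : N) : H) * (a * b)⁻¹ : H) = a * (b * ((x : N) : H) * b⁻¹) * a⁻¹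
    group


/-- For a finite group H, |H| ≤ |F*(H)|!. -/
theorem result {H : Type*} [Group H] [Finite H] : Nat.card H ≤ Nat.factorial (Nat.card ↥(Cfsg.generalizedFittingSubgroup H)) := by
  classical
  set N := Cfsg.generalizedFittingSubgroup H with hN
  haveI : N.Normal := Cfsg.Agent.Lib.Components.gfit_normal
  let φ : H →* Equiv.Perm {x : N // x ≠ 1} := permHom N
  have hker : φ.ker ≤ N := by
    refine le_trans ?_ (Cfsg.Agent.Lib.Components.centralizer_gfit_le (G := H))
    intro h hh
    rw [Subgroup.mem_centralizer_iff]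
    intro n hn
    by_cases hn1 : (⟨n, hn⟩ : N) = 1
    · have : n = 1 := congrArg Subtype.val hn1
      rw [this]; group
    · have h1 : φ h = 1 := hh
      have h2 := congrArg (fun σ : Equiv.Perm {x : N // x ≠ 1} => ((σ ⟨⟨n, hn⟩, hn1⟩ : {x : N // x ≠ 1}) : N)) h1
      have h3 : ((φ h ⟨⟨n, hn⟩, hn1⟩ : {x : N // x ≠ 1}) : N) = MulAut.conjNormal h ⟨n, hn⟩ := rfl
      simp only [h3] at h2
      have h4 : h * n * h⁻¹ = n := by
        have := congrArg Subtype.val h2
        simpa using this
      calc n * h = (h * n * h⁻¹) * h := by rw [h4]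
        _ = h * n := by group
  have h1 : Nat.card H = Nat.card φ.ker * Nat.card φ.range := by
    rw [← Nat.card_congr (QuotientGroup.quotientKerEquivRange φ).toEquiv, mul_comm]
    exact Subgroup.card_eq_card_quotient_mul_card_subgroup _
  have h2 : Nat.card φ.ker ≤ Nat.card N := Subgroup.card_le_of_le hker
  have h3 : Nat.card φ.range ≤ (Nat.card N - 1).factorial := by
    haveI := Fintype.ofFinite N
    have h4 : Nat.card φ.range ≤ Nat.card (Equiv.Perm {x : N // x ≠ 1}) :=
      Nat.card_le_card_of_injective _ (Subgroup.subtype_injective _)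
    refine h4.trans (le_of_eq ?_)
    classical
    rw [Nat.card_eq_fintype_card, Fintype.card_perm, Nat.card_eq_fintype_card]
    simp [Fintype.card_subtype_compl]
  have hpos : Nat.card N ≠ 0 := Nat.card_pos.ne'
  rw [h1, ← Nat.mul_factorial_pred hpos]
  exact Nat.mul_le_mul h2 h3

end Cfsg.Agent.S1313
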