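import Cfsg.Statements.S3178
import Mathlib
import Cfsg.Agent.Lib.Transfer.Frobenius
import Cfsg.Agent.Lib.TwoGroups.AutChain
import Cfsg.Agent.Lib.Coprime.Sylow
import Cfsg.Agent.Lib.OddLocal.Sup
import Cfsg.Agent.Lib.Basic.Factor
import Cfsg.Agent.Lib.Components.Basic

set_option autoImplicit false
open Cfsg

namespace Cfsg.Agent.S3178

open Cfsg.Agent.Lib.Coprime

section aux

variable {G : Type*} [Group G] 

/-- odd-order automorphisms trivial on `N` with cyclic quotient are trivial -/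
theorem fix_of_cyclic_quot {X : Type*} [Group X] [Finite X] (hX : IsPGroup 2 X) (N : Subgroup X) [N.Normal]
    (hc : IsCyclic (X ⧸ N)) (β : MulAut X) {k : ℕ} (hk : β ^ k = 1) (hodd : Odd k)
    (hfix : ∀ n ∈ N, β n = n) : β = 1 := by
  have hmap : N.map β.toMonoidHom = N := by
    ext x
    constructor
    · rintro ⟨y, hy, rfl⟩
      change β y ∈ N
      rw [hfix y hy]; exact hy
    · intro hx
      exact ⟨x, hx, hfix x hx⟩
  let bar : MulAut (X ⧸ N) := QuotientGroup.congr N N β hmap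
  have hbar : ∀ s : X, bar (s : X ⧸ N) = ((β s : X) : X ⧸ N) := fun _ => rfl
  have hbarpow : ∀ (j : ℕ) (s : X), (bar ^ j) (s : X ⧸ N) = (((β ^ j) s : X) : X ⧸ N) := by
    intro j
    induction j with
    | zero => intro s; rfl
    | succ j ih =>
      intro s
      rw [pow_succ, pow_succ, MulAut.mul_apply, MulAut.mul_apply, hbar, ih]
  have hQ2 : IsPGroup 2 (X ⧸ N) := hX.to_quotient N
  have hA := Cfsg.Agent.Lib.TwoGroups.isPGroup_mulAut_of_cyclic hc hQ2
  have h1 : bar ^ k = 1 := by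
    ext q
    induction q using QuotientGroup.induction_on with
    | H s =>
      rw [hbarpow, hk]
      rfl
  have h3 := Cfsg.Agent.Lib.TwoGroups.eq_one_of_odd hA hodd h1
  haveI : Fact (Nat.Prime 2) := ⟨Nat.prime_two⟩
  ext x
  change β x = x
  refine Cfsg.Agent.Lib.Fusion2.fixed_of_coprime hX β hk ?_ x ?_
  · exact Nat.coprime_two_right.mpr hodd
  · apply hfix
    have h4 : bar (x : X ⧸ N) = (x : X ⧸ N) := by rw [h3]; rfl
    rw [hbar] at h4
    exact QuotientGroup.eq.mp h4.symm

/-- the conjugation automorphism on `Q`, with power property -/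
theorem exists_conj_aut {Q : Subgroup G} {g : G} (hg : g ∈ Subgroup.normalizer (Q : Set G)) :
    ∃ β : MulAut Q, (∀ x : Q, ((β x : Q) : G) = g * x * g⁻¹) ∧ β ^ orderOf g = 1 := by
  refine ⟨Q.normalizerMonoidHom ⟨g, hg⟩, ?_, ?_⟩
  · intro x
    rfl
  · rw [← map_pow]
    have : (⟨g, hg⟩ : Subgroup.normalizer (Q : Set G)) ^ orderOf g = 1 := by
      apply Subtype.ext
      simp [pow_orderOf_eq_one]
    rw [this, map_one]

/-- an element in a cyclic group satisfying the order of `H` lies in `H` -/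
theorem mem_of_pow_card_eq_one {X : Type*} [Group X] [Finite X] [IsCyclic X] (H : Subgroup X) {y : X}
    (hy : y ^ Nat.card H = 1) : y ∈ H := by
  classical
  letI := Fintype.ofFinite X
  letI := Fintype.ofFinite H
  have h1 := IsCyclic.card_pow_eq_one_le (α := X) (n := Nat.card H) Nat.card_pos
  let A : Finset X := Finset.univ.filter (fun a : X => a ^ Nat.card H = 1)
  let B : Finset X := Finset.univ.filter (fun a : X => a ∈ H)
  have hBA : B ⊆ A := by
    intro c hc
    simp only [B, A, Finset.mem_filter, Finset.mem_univ, true_and] at hc ⊢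
    have := pow_card_eq_one' (x := (⟨c, hc⟩ : H))
    have h2 : ((⟨c, hc⟩ : H) ^ Nat.card H : H).1 = (1 : H).1 := congrArg Subtype.val this
    exact h2
  have hB : B.card = Nat.card H := by
    rw [Nat.card_eq_fintype_card, Fintype.card_subtype]
  have hAB : B = A := Finset.eq_of_subset_of_card_le hBA (by rw [hB]; exact h1)
  have hyA : y ∈ A := Finset.mem_filter.mpr ⟨Finset.mem_univ _, hy⟩
  rw [← hAB] at hyA
  exact (Finset.mem_filter.mp hyA).2

section mod

variable {G : Type*} [Group G] [Finite G] {m : ℕ} {a b : G}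

theorem conj_zpow_mod (hrel : b * a * b⁻¹ = a ^ (2 ^ (m + 2) + 1)) (i : ℤ) :
    b * a ^ i * b⁻¹ = a ^ (i * ((2 : ℤ) ^ (m + 2) + 1)) := by
  have h1 := conj_zpow (a := b) (b := a) (i := i)
  rw [hrel] at h1
  rw [← h1, ← zpow_natCast, ← zpow_mul, mul_comm]
  push_cast
  rfl

theorem a_pow_top (hao : orderOf a = 2 ^ (m + 3)) : a ^ ((2 : ℤ) ^ (m + 3)) = 1 := by
  have := pow_orderOf_eq_one a
  rw [hao] at this
  exact_mod_cast this

/-- the involution of `⟨a⟩`. -/
theorem mem_zpowers_sq (hao : orderOf a = 2 ^ (m + 3)) {i : ℤ} (h : a ^ (2 * i) = 1) :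
    a ^ i = 1 ∨ a ^ i = a ^ ((2 : ℤ) ^ (m + 2)) := by
  have h1 : (orderOf a : ℤ) ∣ 2 * i := orderOf_dvd_iff_zpow_eq_one.mpr h
  rw [hao] at h1
  push_cast at h1
  have h2 : ((2 : ℤ) ^ (m + 2)) ∣ i := by
    rw [pow_succ, mul_comm] at h1
    exact (mul_dvd_mul_iff_left (by norm_num)).mp h1
  obtain ⟨t, rfl⟩ := h2
  rcases Int.even_or_odd' t with ⟨s, rfl | rfl⟩
  · left
    have : (2 : ℤ) ^ (m + 2) * (2 * s) = 2 ^ (m + 3) * s := by ring
    rw [this, zpow_mul, a_pow_top hao, one_zpow]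
  · right
    have : (2 : ℤ) ^ (m + 2) * (2 * s + 1) = 2 ^ (m + 3) * s + 2 ^ (m + 2) := by ring
    rw [this, zpow_add, zpow_mul, a_pow_top hao, one_zpow, one_mul]

theorem sq_mul_b (hrel : b * a * b⁻¹ = a ^ (2 ^ (m + 2) + 1)) (hb2 : b * b = 1) (i : ℤ) :
    (a ^ i * b) * (a ^ i * b) = a ^ (2 * (i * ((2 : ℤ) ^ (m + 1) + 1))) := by
  have h1 := conj_zpow_mod hrel i
  have hbi : b⁻¹ = b := inv_eq_of_mul_eq_one_left hb2
  rw [hbi] at h1
  calc (a ^ i * b) * (a ^ i * b) = a ^ i * (b * a ^ i * b) := by group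
    _ = a ^ i * a ^ (i * ((2 : ℤ) ^ (m + 2) + 1)) := by rw [h1]
    _ = _ := by
      rw [← zpow_add]
      congr 1
      ring

/-- The structure of the modular group `S`. -/
structure ModData (S : Subgroup G) (m : ℕ) (a b z : G) : Prop where
  ha : a ∈ S
  hb : b ∈ S
  hao : orderOf a = 2 ^ (m + 3)
  hb2 : b * b = 1
  hb1 : b ≠ 1
  hrel : b * a * b⁻¹ = a ^ (2 ^ (m + 2) + 1)
  hz : z = a ^ ((2 : ℤ) ^ (m + 2))
  hS : Nat.card S = 2 ^ (m + 4)

variable {S : Subgroup G} {z : G}

theorem ModData.z_ne (h : ModData S m a b z) : z ≠ 1 := by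
  rw [h.hz]
  intro h0
  have h1 : (orderOf a : ℤ) ∣ (2 : ℤ) ^ (m + 2) := orderOf_dvd_iff_zpow_eq_one.mpr h0
  rw [h.hao] at h1
  push_cast at h1
  have h2 : (2 : ℤ) ^ (m + 3) ≤ 2 ^ (m + 2) := Int.le_of_dvd (by positivity) h1
  have h3 : (2 : ℤ) ^ (m + 3) = 2 * 2 ^ (m + 2) := by ring
  have h4 : (0 : ℤ) < 2 ^ (m + 2) := by positivity
  omega

theorem ModData.z_mem (h : ModData S m a b z) : z ∈ Subgroup.zpowers a := by
  rw [h.hz]; exact Subgroup.zpow_mem_zpowers _ _

theorem ModData.zz (h : ModData S m a b z) : z * z = 1 := by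
  rw [h.hz, ← zpow_add]
  have : (2 : ℤ) ^ (m + 2) + 2 ^ (m + 2) = 2 ^ (m + 3) := by ring
  rw [this, a_pow_top h.hao]

theorem ModData.bz (h : ModData S m a b z) : b * z = z * b := by
  have h1 := conj_zpow_mod h.hrel ((2 : ℤ) ^ (m + 2))
  rw [← h.hz] at h1
  have h2 : (2 : ℤ) ^ (m + 2) * (2 ^ (m + 2) + 1) = 2 ^ (m + 3) * 2 ^ (m + 1) + 2 ^ (m + 2) := by ring
  rw [h2, zpow_add, zpow_mul, a_pow_top h.hao, one_zpow, one_mul, ← h.hz] at h1
  calc b * z = (b * z * b⁻¹) * b := by group
    _ = z * b := by rw [h1]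

/-- `b` commutes with `a ^ (2 i)`. -/
theorem ModData.b_comm_even (h : ModData S m a b z) (i : ℤ) : b * a ^ (2 * i) = a ^ (2 * i) * b := by
  have h1 := conj_zpow_mod h.hrel (2 * i)
  have h2 : 2 * i * (2 ^ (m + 2) + 1) = 2 ^ (m + 3) * i + 2 * i := by ring
  have h3 : a ^ ((2 : ℤ) ^ (m + 3) * i) = 1 := by rw [zpow_mul, a_pow_top h.hao, one_zpow]
  rw [h2, zpow_add, h3, one_mul] at h1
  calc b * a ^ (2 * i) = (b * a ^ (2 * i) * b⁻¹) * b := by group
    _ = _ := by rw [h1]

theorem ModData.b_not_mem (h : ModData S m a b z) : b ∉ Subgroup.zpowers a := by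
  intro hm
  obtain ⟨k, hk⟩ := Subgroup.mem_zpowers_iff.mp hm
  have h1 : b * a * b⁻¹ = a := by
    rw [← hk]
    have := (Commute.refl a).zpow_left k
    rw [this.eq]; group
  have h2 := h.hrel
  rw [h1, pow_succ] at h2
  have h3 : a ^ 2 ^ (m + 2) = 1 := by
    have h4 : 1 * a = a ^ 2 ^ (m + 2) * a := by rw [one_mul]; exact h2
    exact (mul_right_cancel h4).symm
  apply h.z_ne
  rw [h.hz]
  exact_mod_cast h3

theorem ModData.cases (h : ModData S m a b z) {x : G} (hx : x ∈ S) :
    (∃ i : ℤ, x = a ^ i) ∨ ∃ i : ℤ, x = a ^ i * b := by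
  classical
  have hnorm : Subgroup.zpowers b ≤ Subgroup.normalizer (Subgroup.zpowers a : Set G) := by
    rw [Subgroup.zpowers_le]
    refine Cfsg.Agent.Lib.Basic.mem_normalizer_of_forall_conj_mem ?_
    intro y hy
    obtain ⟨k, rfl⟩ := Subgroup.mem_zpowers_iff.mp hy
    rw [conj_zpow_mod h.hrel]
    exact Subgroup.zpow_mem_zpowers _ _
  have haS : Subgroup.zpowers a ≤ S := Subgroup.zpowers_le.mpr h.ha
  have hbS : Subgroup.zpowers b ≤ S := Subgroup.zpowers_le.mpr h.hb
  have hT : Subgroup.zpowers a ⊔ Subgroup.zpowers b = S := by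
    apply Subgroup.eq_of_le_of_card_ge (sup_le haS hbS)
    have h1 := Cfsg.Agent.Lib.Coprime.card_mul_relIndex (le_sup_left : Subgroup.zpowers a ≤ Subgroup.zpowers a ⊔ Subgroup.zpowers b)
    rw [← h1, Nat.card_zpowers, h.hao, h.hS]
    have h2 : (Subgroup.zpowers a).relIndex (Subgroup.zpowers a ⊔ Subgroup.zpowers b) ≠ 1 := by
      intro h3
      rw [Subgroup.relIndex_eq_one] at h3
      exact h.b_not_mem (h3 ((le_sup_right : Subgroup.zpowers b ≤ _) (Subgroup.mem_zpowers b)))
    have h4 : (Subgroup.zpowers a).relIndex (Subgroup.zpowers a ⊔ Subgroup.zpowers b) ≠ 0 :=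
      Subgroup.index_ne_zero_of_finite
    have h5 : 2 ≤ (Subgroup.zpowers a).relIndex (Subgroup.zpowers a ⊔ Subgroup.zpowers b) := by omega
    calc 2 ^ (m + 4) = 2 ^ (m + 3) * 2 := by ring
      _ ≤ _ := Nat.mul_le_mul_left _ h5
  rw [← hT] at hx
  obtain ⟨u, hu, v, hv, rfl⟩ := Cfsg.Agent.Lib.Components.exists_mul_of_mem_sup_of_le_normalizer hnorm hx
  obtain ⟨i, rfl⟩ := Subgroup.mem_zpowers_iff.mp hu
  obtain ⟨j, rfl⟩ := Subgroup.mem_zpowers_iff.mp hv
  rcases Int.even_or_odd' j with ⟨s, rfl | rfl⟩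
  · left
    refine ⟨i, ?_⟩
    rw [zpow_mul, zpow_two, h.hb2, one_zpow, mul_one]
  · right
    refine ⟨i, ?_⟩
    rw [zpow_add, zpow_mul, zpow_two, h.hb2, one_zpow, one_mul, zpow_one]

theorem ModData.sq_in_a (h : ModData S m a b z) {x : G} (hx : x ∈ S) : ∃ i : ℤ, x * x = a ^ (2 * i) := by
  rcases h.cases hx with ⟨i, rfl⟩ | ⟨i, rfl⟩
  · exact ⟨i, by rw [two_mul, zpow_add]⟩
  · exact ⟨_, sq_mul_b h.hrel h.hb2 i⟩

theorem ModData.sq_eq_z (h : ModData S m a b z) {x : G} (hx : x ∈ S) (h1 : (x * x) * (x * x) = 1) (h2 : x * x ≠ 1) :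
    x * x = z := by
  obtain ⟨i, hi⟩ := h.sq_in_a hx
  rw [hi] at h1 h2 ⊢
  have h3 : a ^ (2 * (2 * i)) = 1 := by
    rw [two_mul (2 * i), zpow_add]; exact h1
  rcases mem_zpowers_sq h.hao h3 with h4 | h4
  · exact absurd h4 h2
  · rw [h4, h.hz]

theorem ModData.invol (h : ModData S m a b z) {x : G} (hx : x ∈ S) (h1 : x * x = 1) :
    x = 1 ∨ x = z ∨ x = b ∨ x = z * b := by
  rcases h.cases hx with ⟨i, rfl⟩ | ⟨i, rfl⟩
  · have h2 : a ^ (2 * i) = 1 := by rw [two_mul, zpow_add]; exact h1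
    rcases mem_zpowers_sq h.hao h2 with h4 | h4
    · exact Or.inl h4
    · right; left; rw [h4, h.hz]
  · right; right
    rw [sq_mul_b h.hrel h.hb2 i] at h1
    have h2 : (orderOf a : ℤ) ∣ 2 * (i * ((2 : ℤ) ^ (m + 1) + 1)) := orderOf_dvd_iff_zpow_eq_one.mpr h1
    rw [h.hao] at h2
    push_cast at h2
    have h3 : (2 : ℤ) ^ (m + 2) ∣ i * ((2 : ℤ) ^ (m + 1) + 1) := by
      rw [pow_succ, mul_comm] at h2
      exact (mul_dvd_mul_iff_left (by norm_num)).mp h2
    have hcop : IsCoprime ((2 : ℤ) ^ (m + 2)) ((2 : ℤ) ^ (m + 1) + 1) := by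
      apply IsCoprime.pow_left
      have : ((2 : ℤ) ^ (m + 1) + 1) = 2 * 2 ^ m + 1 := by ring
      rw [this]
      exact ⟨-(2 ^ m), 1, by ring⟩
    have h4 : (2 : ℤ) ^ (m + 2) ∣ i := hcop.dvd_of_dvd_mul_right h3
    obtain ⟨t, rfl⟩ := h4
    have h5 : a ^ (2 * ((2 : ℤ) ^ (m + 2) * t)) = 1 := by
      have : 2 * ((2 : ℤ) ^ (m + 2) * t) = 2 ^ (m + 3) * t := by ring
      rw [this, zpow_mul, a_pow_top h.hao, one_zpow]
    rcases mem_zpowers_sq h.hao h5 with h6 | h6
    · left; rw [h6, one_mul]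
    · right; rw [h6, h.hz]

/-- a nontrivial power of `a` has `z` as a power -/
theorem ModData.z_mem_of (h : ModData S m a b z) {j : ℤ} (hj : a ^ j ≠ 1) : z ∈ Subgroup.zpowers (a ^ j) := by
  have hp : IsPGroup 2 (Subgroup.zpowers a) := by
    rw [IsPGroup.iff_card, Nat.card_zpowers, h.hao]
    exact ⟨_, rfl⟩
  haveI : Fact (Nat.Prime 2) := ⟨Nat.prime_two⟩
  obtain ⟨t, ht⟩ := hp ⟨a ^ j, Subgroup.zpow_mem_zpowers a j⟩
  have ht' : (a ^ j) ^ 2 ^ t = 1 := by
    have := congrArg Subtype.val ht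
    simpa using this
  have hord : orderOf (a ^ j) ∣ 2 ^ t := orderOf_dvd_of_pow_eq_one ht'
  obtain ⟨r, _, hr⟩ := (Nat.dvd_prime_pow Nat.prime_two).mp hord
  rcases r with _ | r
  · rw [pow_zero] at hr
    exact absurd (orderOf_eq_one_iff.mp hr) hj
  · have h1 : (a ^ j) ^ 2 ^ (r + 1) = 1 := by
      rw [← hr]; exact pow_orderOf_eq_one _
    have h2 : (a ^ j) ^ 2 ^ r ≠ 1 := by
      intro h0
      have := orderOf_dvd_of_pow_eq_one h0
      rw [hr] at this
      have h3 := Nat.le_of_dvd (by positivity) this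
      rw [pow_succ] at h3
      have h4 : 0 < 2 ^ r := by positivity
      omega
    have h3 : a ^ (j * 2 ^ r) = (a ^ j) ^ 2 ^ r := by
      rw [zpow_mul]; norm_cast
    have h4 : a ^ (2 * (j * 2 ^ r)) = 1 := by
      have h7 : (a ^ j) ^ 2 ^ (r + 1) = a ^ (2 * (j * 2 ^ r)) := by
        rw [← zpow_natCast, ← zpow_mul]
        congr 1
        push_cast
        ring
      rw [← h7, h1]
    rcases mem_zpowers_sq h.hao h4 with h5 | h5
    · exact absurd (h3 ▸ h5) h2
    · have h6 : z = (a ^ j) ^ 2 ^ r := by rw [h.hz, ← h5, h3]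
      rw [h6]
      exact Subgroup.npow_mem_zpowers _ _

section VV

/-- the four-group -/
def VV (z b : G) : Subgroup G := Subgroup.closure ({z, b} : Set G)

theorem ModData.V_cases (h : ModData S m a b z) {v : G} (hv : v ∈ VV z b) :
    v = 1 ∨ v = z ∨ v = b ∨ v = z * b := by
  have hzz := h.zz
  have hbb := h.hb2
  have hbz := h.bz
  have hzz' : ∀ x : G, z * (z * x) = x := fun x => by rw [← mul_assoc, hzz, one_mul]
  have hbb' : ∀ x : G, b * (b * x) = x := fun x => by rw [← mul_assoc, hbb, one_mul]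
  have hbz' : ∀ x : G, b * (z * x) = z * (b * x) := fun x => by rw [← mul_assoc, hbz, mul_assoc]
  induction hv using Subgroup.closure_induction with
  | mem x hx =>
    rcases hx with rfl | rfl
    · simp
    · simp
  | one => simp
  | mul x y _ _ hx hy =>
    rcases hx with rfl | rfl | rfl | rfl <;> rcases hy with rfl | rfl | rfl | rfl <;>
      simp [mul_assoc, hzz, hbb, hbz, hzz', hbz']
  | inv x _ hx =>
    rcases hx with rfl | rfl | rfl | rfl
    · simp
    · right; left; exact inv_eq_of_mul_eq_one_left hzz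
    · right; right; left; exact inv_eq_of_mul_eq_one_left hbb
    · right; right; right
      apply inv_eq_of_mul_eq_one_left
      calc z * b * (z * b) = z * (b * z) * b := by group
        _ = z * (z * b) * b := by rw [hbz]
        _ = 1 := by rw [hzz', hbb]

theorem ModData.z_mem_S (h : ModData S m a b z) : z ∈ S := by
  rw [h.hz]; exact zpow_mem h.ha _

theorem ModData.V_le (h : ModData S m a b z) : VV z b ≤ S := by
  rw [VV, Subgroup.closure_le]
  intro x hx
  rcases hx with rfl | rfl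
  · exact h.z_mem_S
  · exact h.hb

theorem z_mem_VV : z ∈ VV z b := Subgroup.subset_closure (Or.inl rfl)
theorem b_mem_VV : b ∈ VV z b := Subgroup.subset_closure (Or.inr rfl)

theorem ModData.V_of_invol (h : ModData S m a b z) {x : G} (hx : x ∈ S) (h1 : x * x = 1) : x ∈ VV z b := by
  rcases h.invol hx h1 with rfl | rfl | rfl | rfl
  · exact one_mem _
  · exact z_mem_VV
  · exact b_mem_VV
  · exact mul_mem z_mem_VV b_mem_VV

theorem ModData.V_sq (h : ModData S m a b z) {v : G} (hv : v ∈ VV z b) : v * v = 1 := by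
  rcases h.V_cases hv with rfl | rfl | rfl | rfl
  · simp
  · exact h.zz
  · exact h.hb2
  · calc z * b * (z * b) = z * (b * z) * b := by group
      _ = z * (z * b) * b := by rw [h.bz]
      _ = (z * z) * (b * b) := by group
      _ = 1 := by rw [h.zz, h.hb2, one_mul]

theorem ModData.S_le_normalizer (h : ModData S m a b z) : S ≤ Subgroup.normalizer (VV z b : Set G) := by
  intro s hs
  apply Cfsg.Agent.Lib.Basic.mem_normalizer_of_forall_conj_mem
  intro v hv
  apply h.V_of_invol (mul_mem (mul_mem hs (h.V_le hv)) (inv_mem hs))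
  calc s * v * s⁻¹ * (s * v * s⁻¹) = s * (v * v) * s⁻¹ := by group
    _ = 1 := by rw [h.V_sq hv]; group

end VV

/-- Sylow intersect a normalized subgroup is Sylow -/
theorem isSylowOf_inf {p : ℕ} [Fact p.Prime] (P : Sylow p G) (C : Subgroup G)
    (hPC : (P : Subgroup G) ≤ Subgroup.normalizer (C : Set G)) : IsSylowOf p ((P : Subgroup G) ⊓ C) C := by
  refine ⟨inf_le_right, P.isPGroup'.to_le inf_le_left, ?_⟩
  have h1 := Cfsg.Agent.Lib.OddLocal.card_sup_mul_card_inf hPC
  have h2 := card_mul_relIndex (le_sup_right : (P : Subgroup G) ≤ C ⊔ P)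
  have h3 := card_mul_relIndex (inf_le_right : (P : Subgroup G) ⊓ C ≤ C)
  have h4 : ((P : Subgroup G) ⊓ C).relIndex C = (P : Subgroup G).relIndex (C ⊔ P) := by
    rw [← h2, inf_comm C, ← h3] at h1
    have hpos1 : 0 < Nat.card (P : Subgroup G) := Nat.card_pos
    have hpos2 : 0 < Nat.card ↥((P : Subgroup G) ⊓ C) := Nat.card_pos
    apply Nat.eq_of_mul_eq_mul_left (Nat.mul_pos hpos1 hpos2)
    calc _ = Nat.card ↥((P : Subgroup G) ⊓ C) * ((P : Subgroup G) ⊓ C).relIndex C * Nat.card (P : Subgroup G) := by ring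
      _ = Nat.card (P : Subgroup G) * (P : Subgroup G).relIndex (C ⊔ P) * Nat.card ↥((P : Subgroup G) ⊓ C) := h1.symm
      _ = _ := by ring
  rw [h4]
  intro hd
  apply P.not_dvd_index
  rw [← Subgroup.relIndex_mul_index (le_sup_right : (P : Subgroup G) ≤ C ⊔ P)]
  exact Dvd.dvd.mul_right hd _

theorem normalizer_centralizer_of {V : Subgroup G} {g : G} (hg : g ∈ Subgroup.normalizer (V : Set G)) :
    g ∈ Subgroup.normalizer (Subgroup.centralizer (V : Set G) : Set G) := by
  apply Cfsg.Agent.Lib.Basic.mem_normalizer_of_forall_conj_mem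
  intro c hc
  rw [Subgroup.mem_centralizer_iff] at hc ⊢
  intro v hv
  have h1 : g⁻¹ * v * g ∈ V := by
    have := (Subgroup.mem_normalizer_iff.mp (inv_mem hg) v).mp hv
    simpa using this
  have h2 := hc _ h1
  calc v * (g * c * g⁻¹) = g * ((g⁻¹ * v * g) * c) * g⁻¹ := by group
    _ = g * (c * (g⁻¹ * v * g)) * g⁻¹ := by rw [h2]
    _ = _ := by group

/-- Claim 1: `z` is fixed by `N(V)`. -/
theorem ModData.fix_z (h : ModData S m a b z) (P : Sylow 2 G) (hP : (P : Subgroup G) = S) {g : G}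
    (hg : g ∈ Subgroup.normalizer (VV z b : Set G)) : g * z * g⁻¹ = z := by
  haveI : Fact (Nat.Prime 2) := ⟨Nat.prime_two⟩
  set V := VV z b with hV
  set C := Subgroup.centralizer (V : Set G) with hC
  have hgC := normalizer_centralizer_of hg
  have hSN : (P : Subgroup G) ≤ Subgroup.normalizer (C : Set G) := by
    intro s hs
    rw [hP] at hs
    exact normalizer_centralizer_of (h.S_le_normalizer hs)
  have hS'N : ((g • P : Sylow 2 G) : Subgroup G) ≤ Subgroup.normalizer (C : Set G) := by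
    intro s hs
    have hs' := (Cfsg.Agent.Lib.Transfer.mem_smul_sylow (g := g) (x := s) (P := P)).mp hs
    have h1 := mul_mem (mul_mem hgC (hSN hs')) (inv_mem hgC)
    have h2 : g * (g⁻¹ * s * g) * g⁻¹ = s := by group
    rwa [h2] at h1
  have hs1 := isSylowOf_inf P C hSN
  have hs2 := isSylowOf_inf (g • P) C hS'N
  obtain ⟨c, hc, hce⟩ := hs1.exists_conj hs2
  -- the element `e`
  obtain ⟨e, he⟩ : ∃ e, e = a ^ ((2 : ℤ) ^ (m + 1)) := ⟨_, rfl⟩
  have heP : e ∈ (P : Subgroup G) := by
    rw [hP, he]; exact zpow_mem h.ha _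
  have hee : e * e = z := by
    rw [he, h.hz, ← zpow_add]
    congr 1
    ring
  have heC : e ∈ C := by
    rw [hC, Subgroup.mem_centralizer_iff]
    intro v hv
    have hcz : z * e = e * z := by
      rw [he, h.hz]; exact ((Commute.refl a).zpow_zpow _ _).eq
    have hcb : b * e = e * b := by
      have := h.b_comm_even ((2 : ℤ) ^ m)
      have h2 : 2 * (2 : ℤ) ^ m = 2 ^ (m + 1) := by ring
      rw [h2, ← he] at this
      exact this
    rcases h.V_cases hv with rfl | rfl | rfl | rfl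
    · simp
    · exact hcz
    · exact hcb
    · rw [mul_assoc, hcb, ← mul_assoc, hcz, mul_assoc]
  have hge : g * e * g⁻¹ ∈ ((g • P : Sylow 2 G) : Subgroup G) ⊓ C := by
    refine ⟨?_, (Subgroup.mem_normalizer_iff.mp hgC e).mp heC⟩
    refine (Cfsg.Agent.Lib.Transfer.mem_smul_sylow (g := g) (x := g * e * g⁻¹) (P := P)).mpr ?_
    have : g⁻¹ * (g * e * g⁻¹) * g = e := by group
    rw [this]; exact heP
  rw [hce] at hge
  obtain ⟨y, hy, hye⟩ := hge
  have hye' : c * y * c⁻¹ = g * e * g⁻¹ := hye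
  have hyP : y ∈ S := by rw [← hP]; exact hy.1
  have hgz : g * z * g⁻¹ ∈ V := (Subgroup.mem_normalizer_iff.mp hg z).mp z_mem_VV
  have hyy : y * y = g * z * g⁻¹ := by
    have h1 : (c * y * c⁻¹) * (c * y * c⁻¹) = g * z * g⁻¹ := by
      rw [hye', ← hee]; group
    have h2 : (c * y * c⁻¹) * (c * y * c⁻¹) = c * (y * y) * c⁻¹ := by group
    rw [h2] at h1
    have h3 : y * y = c⁻¹ * (g * z * g⁻¹) * c := by
      rw [← h1]; group
    rw [h3]
    have h4 := (Subgroup.mem_centralizer_iff.mp hc) _ hgz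
    calc c⁻¹ * (g * z * g⁻¹) * c = c⁻¹ * ((g * z * g⁻¹) * c) := by group
      _ = c⁻¹ * (c * (g * z * g⁻¹)) := by rw [h4]
      _ = _ := by group
  have hz1 : g * z * g⁻¹ ≠ 1 := by
    intro h0
    apply h.z_ne
    have : z = g⁻¹ * (g * z * g⁻¹) * g := by group
    rw [this, h0]; group
  have hzz : (g * z * g⁻¹) * (g * z * g⁻¹) = 1 := h.V_sq hgz
  rw [← hyy] at hzz hz1
  have := h.sq_eq_z hyP hzz hz1
  rw [← hyy, this]

/-- Claim 2: odd elements of `N(V)` centralize `V`. -/
theorem ModData.fix_V (h : ModData S m a b z) (P : Sylow 2 G) (hP : (P : Subgroup G) = S) {g : G}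
    (hg : g ∈ Subgroup.normalizer (VV z b : Set G)) (hodd : Odd (orderOf g)) :
    ∀ v ∈ VV z b, g * v * g⁻¹ = v := by
  have hgz := h.fix_z P hP hg
  have hgb : g * b * g⁻¹ = b := by
    have hbm : g * b * g⁻¹ ∈ VV z b := (Subgroup.mem_normalizer_iff.mp hg b).mp b_mem_VV
    rcases h.V_cases hbm with h1 | h1 | h1 | h1
    · exfalso
      apply h.hb1
      have : b = g⁻¹ * (g * b * g⁻¹) * g := by group
      rw [this, h1]; group
    · exfalso
      have h2 : g * b * g⁻¹ = g * z * g⁻¹ := by rw [h1, hgz]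
      have h3 : b = z := by
        have h4 : g * b = g * z := mul_right_cancel h2
        exact mul_left_cancel h4
      apply h.b_not_mem
      rw [h3]; exact h.z_mem
    · exact h1
    · -- the square fixes `b`
      have h2 : (g * g) * b * (g * g)⁻¹ = b := by
        calc (g * g) * b * (g * g)⁻¹ = g * (g * b * g⁻¹) * g⁻¹ := by group
          _ = g * (z * b) * g⁻¹ := by rw [h1]
          _ = (g * z * g⁻¹) * (g * b * g⁻¹) := by group
          _ = z * (z * b) := by rw [hgz, h1]
          _ = (z * z) * b := by group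
          _ = b := by rw [h.zz, one_mul]
      have hC : g * g ∈ Subgroup.centralizer ({b} : Set G) := by
        rw [Subgroup.mem_centralizer_singleton_iff]
        calc g * g * b = ((g * g) * b * (g * g)⁻¹) * (g * g) := by group
          _ = b * (g * g) := by rw [h2]
      obtain ⟨t, ht⟩ := hodd
      have h3 : g = (g * g) ^ (t + 1) := by
        have h4 : (g * g) ^ (t + 1) = g ^ orderOf g * g := by
          rw [ht, ← pow_two, ← pow_mul, ← pow_succ]
          congr 1
        rw [h4, pow_orderOf_eq_one, one_mul]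
      have h5 : g ∈ Subgroup.centralizer ({b} : Set G) := by
        rw [h3]; exact pow_mem hC _
      rw [Subgroup.mem_centralizer_singleton_iff] at h5
      rw [h5]; group
  have hle : VV z b ≤ Subgroup.centralizer ({g} : Set G) := by
    rw [VV, Subgroup.closure_le]
    intro x hx
    rw [SetLike.mem_coe, Subgroup.mem_centralizer_singleton_iff]
    rcases hx with rfl | rfl
    · calc x * g = (g * x * g⁻¹) * g := by rw [hgz]
        _ = g * x := by group
    · calc x * g = (g * x * g⁻¹) * g := by rw [hgb]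
        _ = g * x := by group
  intro v hv
  have := hle hv
  rw [Subgroup.mem_centralizer_singleton_iff] at this
  rw [← this]; group

/-- subgroups of `S` are cyclic or contain `V` -/
theorem ModData.cyclic_or (h : ModData S m a b z) {Q : Subgroup G} (hQ : Q ≤ S) :
    IsCyclic Q ∨ (z ∈ Q ∧ b ∈ Q) := by
  classical
  by_cases hQa : Q ≤ Subgroup.zpowers a
  · left; exact Subgroup.isCyclic_of_le hQa
  obtain ⟨u, huQ, hua⟩ := SetLike.not_le_iff_exists.mp hQa
  rcases h.cases (hQ huQ) with ⟨i, rfl⟩ | ⟨i, rfl⟩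
  · exact absurd (Subgroup.zpow_mem_zpowers a i) hua
  by_cases hc : a ^ i ∈ Q
  · have hbQ : b ∈ Q := by
      have := mul_mem (inv_mem hc) huQ
      simpa using this
    by_cases hQb : Q ≤ Subgroup.zpowers b
    · left; exact Subgroup.isCyclic_of_le hQb
    · right
      refine ⟨?_, hbQ⟩
      obtain ⟨x, hxQ, hxb⟩ := SetLike.not_le_iff_exists.mp hQb
      obtain ⟨j, hj, hj1⟩ : ∃ j : ℤ, a ^ j ∈ Q ∧ a ^ j ≠ 1 := by
        rcases h.cases (hQ hxQ) with ⟨j, rfl⟩ | ⟨j, rfl⟩
        · exact ⟨j, hxQ, fun h0 => hxb (by rw [h0]; exact one_mem _)⟩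
        · refine ⟨j, ?_, ?_⟩
          · have := mul_mem hxQ (inv_mem hbQ)
            simpa using this
          · intro h0
            apply hxb
            rw [h0, one_mul]
            exact Subgroup.mem_zpowers b
      exact (Subgroup.zpowers_le.mpr hj) (h.z_mem_of hj1)
  · left
    -- `Q = ⟨u⟩`
    obtain ⟨c, hcdef⟩ : ∃ c, c = a ^ i := ⟨_, rfl⟩
    obtain ⟨u', hu'⟩ : ∃ u', u' = a ^ i * b := ⟨_, rfl⟩
    rw [← hu'] at huQ
    have hu'Sq : u' * u' = a ^ (2 * (i * ((2 : ℤ) ^ (m + 1) + 1))) := by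
      rw [hu']; exact sq_mul_b h.hrel h.hb2 i
    -- orders
    have h2p : IsPGroup 2 S := by
      rw [IsPGroup.iff_card, h.hS]; exact ⟨_, rfl⟩
    haveI : Fact (Nat.Prime 2) := ⟨Nat.prime_two⟩
    have horder : orderOf (a ^ i) ≤ orderOf u' := by
      obtain ⟨k, hk⟩ := h2p ⟨u', hQ huQ⟩
      have hk' : u' ^ 2 ^ k = 1 := by
        have := congrArg Subtype.val hk
        simpa using this
      obtain ⟨r, _, hr⟩ := (Nat.dvd_prime_pow Nat.prime_two).mp (orderOf_dvd_of_pow_eq_one hk')
      have hu1 : u' ≠ 1 := by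
        intro h0
        apply h.b_not_mem
        have h1 : b = (a ^ i)⁻¹ := by
          rw [hu'] at h0
          exact eq_inv_of_mul_eq_one_right h0
        rw [h1]
        exact inv_mem (Subgroup.zpow_mem_zpowers a i)
      rcases r with _ | r
      · rw [pow_zero] at hr
        exact absurd (orderOf_eq_one_iff.mp hr) hu1
      · have h3 : u' ^ 2 ^ (r + 1) = 1 := by rw [← hr]; exact pow_orderOf_eq_one _
        have h4 : u' ^ 2 ^ (r + 1) = a ^ (i * ((2 : ℤ) ^ (m + 1) + 1) * 2 ^ (r + 1)) := by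
          rw [pow_succ', pow_mul, pow_two, hu'Sq, ← zpow_natCast, ← zpow_mul]
          congr 1
          push_cast
          ring
        rw [h3] at h4
        have h6 : (a ^ i) ^ ((2 ^ (m + 1) + 1) * 2 ^ (r + 1)) = 1 := by
          rw [← zpow_natCast, ← zpow_mul]
          rw [h4]
          congr 1
          push_cast
          ring
        have h7 := orderOf_dvd_of_pow_eq_one h6
        have h8 : orderOf (a ^ i) ∣ 2 ^ (m + 3) := by
          apply orderOf_dvd_of_pow_eq_one
          rw [← zpow_natCast, ← zpow_mul, mul_comm, zpow_mul]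
          have := a_pow_top h.hao
          push_cast
          rw [this, one_zpow]
        have h9 : Nat.Coprime (orderOf (a ^ i)) (2 ^ (m + 1) + 1) := by
          refine Nat.Coprime.coprime_dvd_left h8 (Nat.Coprime.pow_left _ ?_)
          rw [Nat.coprime_two_left]
          exact Even.add_one ((Nat.even_pow' (by omega)).mpr even_two)
        have h10 : orderOf (a ^ i) ∣ 2 ^ (r + 1) := h9.dvd_of_dvd_mul_left h7
        rw [hr]
        exact Nat.le_of_dvd (by positivity) h10
    -- the index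
    have hS2 : (Subgroup.zpowers a).relIndex S = 2 := by
      have h1 := card_mul_relIndex (Subgroup.zpowers_le.mpr h.ha : Subgroup.zpowers a ≤ S)
      rw [Nat.card_zpowers, h.hao, h.hS, show 2 ^ (m + 4) = 2 ^ (m + 3) * 2 by ring] at h1
      exact Nat.eq_of_mul_eq_mul_left (by positivity) h1
    have hQ2 : (Subgroup.zpowers a).relIndex Q ≤ 2 := by
      rw [← hS2]
      exact Subgroup.relIndex_le_of_le_right hQ (by rw [hS2]; norm_num)
    obtain ⟨H, hH⟩ : ∃ H : Subgroup (Subgroup.zpowers a), H = Q.subgroupOf (Subgroup.zpowers a) := ⟨_, rfl⟩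
    have hHcard : Nat.card H = Nat.card ↥(Subgroup.zpowers a ⊓ Q) := by
      rw [hH, ← Subgroup.card_map_of_injective (Subgroup.zpowers a).subtype_injective, Subgroup.subgroupOf_map_subtype, inf_comm]
    have hQcard : Nat.card Q ≤ 2 * Nat.card H := by
      have h1 := card_mul_relIndex (inf_le_right : Subgroup.zpowers a ⊓ Q ≤ Q)
      rw [Subgroup.inf_relIndex_right, ← hHcard] at h1
      rw [← h1, mul_comm]
      exact Nat.mul_le_mul_right _ hQ2
    have hHo : 2 * Nat.card H ≤ orderOf (a ^ i) := by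
      have hHp : IsPGroup 2 H := by
        have h2z : IsPGroup 2 (Subgroup.zpowers a) := by
          rw [IsPGroup.iff_card, Nat.card_zpowers, h.hao]; exact ⟨_, rfl⟩
        exact h2z.to_subgroup H
      obtain ⟨s, hs⟩ := IsPGroup.iff_card.mp hHp
      have h8 : orderOf (a ^ i) ∣ 2 ^ (m + 3) := by
        apply orderOf_dvd_of_pow_eq_one
        rw [← zpow_natCast, ← zpow_mul, mul_comm, zpow_mul]
        have := a_pow_top h.hao
        push_cast
        rw [this, one_zpow]
      obtain ⟨t, _, ht⟩ := (Nat.dvd_prime_pow Nat.prime_two).mp h8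
      rw [hs, ht]
      by_contra hlt
      have hts : t ≤ s := by
        by_contra hts
        apply hlt
        have : s + 1 ≤ t := by omega
        calc 2 * 2 ^ s = 2 ^ (s + 1) := by ring
          _ ≤ 2 ^ t := Nat.pow_le_pow_right (by norm_num) this
      apply hc
      have h1 : ((⟨a ^ i, Subgroup.zpow_mem_zpowers a i⟩ : Subgroup.zpowers a)) ^ Nat.card H = 1 := by
        apply Subtype.ext
        rw [hs]
        change (a ^ i) ^ 2 ^ s = 1
        have h2 : orderOf (a ^ i) ∣ 2 ^ s := by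
          rw [ht]; exact pow_dvd_pow 2 hts
        exact orderOf_dvd_iff_pow_eq_one.mp h2
      have h3 := mem_of_pow_card_eq_one H h1
      rw [hH, Subgroup.mem_subgroupOf] at h3
      exact h3
    have hEq : Subgroup.zpowers u' = Q := by
      apply Subgroup.eq_of_le_of_card_ge (Subgroup.zpowers_le.mpr huQ)
      rw [Nat.card_zpowers]
      omega
    rw [← hEq]
    infer_instance

end mod

end aux


/-- Groups with a modular Sylow 2-subgroup have a normal 2-complement. Let S, of order 2^(n+1) with n ≥ 3, be a Sylow 2-subgroup of a finite group G, and suppose S contains an element a of order 2^n and an involution b with b a b⁻¹ = a^(2^(n-1) + 1); so S is the non-abelian 2-group with a cyclic subgroup of index 2 that is neither dihedral, semidihedral nor generalized quaternion. Then G has a normal 2-complement. -/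
theorem result {G : Type*} [Group G] [Finite G]
    (S : Sylow 2 G) (n : ℕ) (hn : 3 ≤ n) (hS : Nat.card ↥(S : Subgroup G) = 2 ^ (n + 1))
    (a b : G) (ha : a ∈ (S : Subgroup G)) (hb : b ∈ (S : Subgroup G))
    (hao : orderOf a = 2 ^ n) (hbo : orderOf b = 2) (hrel : b * a * b⁻¹ = a ^ (2 ^ (n - 1) + 1)) :
    Cfsg.HasNormalPComplement 2 G := by
  classical
  haveI : Fact (Nat.Prime 2) := ⟨Nat.prime_two⟩
  obtain ⟨m, rfl⟩ : ∃ m, n = m + 3 := ⟨n - 3, by omega⟩
  have hb2 : b * b = 1 := by rw [← pow_two, ← hbo]; exact pow_orderOf_eq_one b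
  have hb1 : b ≠ 1 := by
    intro h0
    rw [h0, orderOf_one] at hbo
    omega
  have hrel' : b * a * b⁻¹ = a ^ (2 ^ (m + 2) + 1) := hrel
  have h : ModData (S : Subgroup G) m a b (a ^ ((2 : ℤ) ^ (m + 2))) :=
    ⟨ha, hb, hao, hb2, hb1, hrel', rfl, hS⟩
  obtain ⟨z, hz⟩ : ∃ z, z = a ^ ((2 : ℤ) ^ (m + 2)) := ⟨_, rfl⟩
  rw [← hz] at h
  apply Cfsg.Agent.Lib.Transfer.hasNormalPComplement_of_stable
  apply Cfsg.Agent.Lib.Transfer.frobeniusStable_of_sylow S
  intro Q hQ g hg hco
  have hodd : Odd (orderOf g) := Nat.Coprime.odd_of_right hco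
  have hQp : IsPGroup 2 Q := S.isPGroup'.to_le hQ
  obtain ⟨β, hβ, hβp⟩ := exists_conj_aut hg
  have hβ1 : β = 1 := by
    rcases h.cyclic_or hQ with hcyc | ⟨hzQ, hbQ⟩
    · exact Cfsg.Agent.Lib.TwoGroups.eq_one_of_odd
        (Cfsg.Agent.Lib.TwoGroups.isPGroup_mulAut_of_cyclic hcyc hQp) hodd hβp
    · have hVQ : VV z b ≤ Q := by
        rw [VV, Subgroup.closure_le]
        intro x hx
        rcases hx with rfl | rfl
        · exact hzQ
        · exact hbQ
      have hgV : g ∈ Subgroup.normalizer (VV z b : Set G) := by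
        apply Cfsg.Agent.Lib.Basic.mem_normalizer_of_forall_conj_mem
        intro v hv
        have h1 : g * v * g⁻¹ ∈ Q := (Subgroup.mem_normalizer_iff.mp hg v).mp (hVQ hv)
        apply h.V_of_invol (hQ h1)
        calc g * v * g⁻¹ * (g * v * g⁻¹) = g * (v * v) * g⁻¹ := by group
          _ = 1 := by rw [h.V_sq hv]; group
      have hfix := h.fix_V S rfl hgV hodd
      have hnormal : ((VV z b).subgroupOf Q).Normal := by
        rw [Subgroup.normal_subgroupOf_iff_le_normalizer hVQ]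
        exact hQ.trans h.S_le_normalizer
      refine fix_of_cyclic_quot hQp ((VV z b).subgroupOf Q) ?_ β hβp hodd ?_
      · obtain ⟨H₀, hH₀⟩ : ∃ H₀ : Subgroup Q, H₀ = (Subgroup.zpowers a).subgroupOf Q := ⟨_, rfl⟩
        have hcyc0 : IsCyclic H₀ := by
          let e : H₀ ≃* ↥(H₀.map Q.subtype) := H₀.equivMapOfInjective _ Q.subtype_injective
          haveI : IsCyclic ↥(H₀.map Q.subtype) := by
            have hle : H₀.map Q.subtype ≤ Subgroup.zpowers a := by
              rintro _ ⟨x, hx, rfl⟩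
              have hx' : x ∈ H₀ := hx
              rw [hH₀, Subgroup.mem_subgroupOf] at hx'
              exact hx'
            exact Subgroup.isCyclic_of_le hle
          exact isCyclic_of_surjective e.symm e.symm.surjective
        let f : H₀ →* Q ⧸ ((VV z b).subgroupOf Q) := (QuotientGroup.mk' _).comp H₀.subtype
        apply isCyclic_of_surjective f
        intro q
        induction q using QuotientGroup.induction_on with
        | H x =>
          rcases h.cases (hQ x.2) with ⟨i, hi⟩ | ⟨i, hi⟩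
          · refine ⟨⟨x, ?_⟩, rfl⟩
            rw [hH₀, Subgroup.mem_subgroupOf, hi]
            exact Subgroup.zpow_mem_zpowers a i
          · have hy : (x : G) * b⁻¹ ∈ Q := mul_mem x.2 (inv_mem hbQ)
            refine ⟨⟨⟨(x : G) * b⁻¹, hy⟩, ?_⟩, ?_⟩
            · rw [hH₀, Subgroup.mem_subgroupOf]
              change (x : G) * b⁻¹ ∈ _
              rw [hi]
              have : a ^ i * b * b⁻¹ = a ^ i := by group
              rw [this]
              exact Subgroup.zpow_mem_zpowers a i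
            · change ((⟨(x : G) * b⁻¹, hy⟩ : Q) : Q ⧸ ((VV z b).subgroupOf Q)) = (x : Q ⧸ ((VV z b).subgroupOf Q))
              rw [QuotientGroup.eq, Subgroup.mem_subgroupOf]
              have : ((⟨(x : G) * b⁻¹, hy⟩ : Q)⁻¹ * x : Q).1 = b := by
                change ((x : G) * b⁻¹)⁻¹ * (x : G) = b
                group
              rw [this]
              exact b_mem_VV
      · intro v hv
        apply Subtype.ext
        rw [hβ]
        exact hfix _ hv
  rw [Subgroup.mem_centralizer_iff]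
  intro x hx
  have h1 := hβ ⟨x, hx⟩
  rw [hβ1] at h1
  have h2 : x = g * x * g⁻¹ := h1
  calc x * g = (g * x * g⁻¹) * g := by rw [← h2]
    _ = g * x := by group

end Cfsg.Agent.S3178
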