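import Cfsg.Statements.S1337
import Mathlib
import Cfsg.Agent.Lib.Components.RankTwo
import Cfsg.Agent.Lib.Transfer.Rank
import Cfsg.Agent.Lib.OddLocal.UniqueP2
import Cfsg.Agent.S3178

set_option autoImplicit false
open Cfsg

namespace Cfsg.Agent.S1337

open Cfsg.Agent.Lib.Components Cfsg.Agent.S3178

section aux

variable {P : Type*} [Group P] [Finite P]

/-- acting by inversion -/
theorem card_le_two_mul (E : Subgroup P) (w : P) (h : ∀ e ∈ E, e * w * e⁻¹ = w ∨ e * w * e⁻¹ = w⁻¹) :
    Nat.card E ≤ 2 * Nat.card ↥(E ⊓ Subgroup.centralizer ({w} : Set P)) := by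
  classical
  have hidx : ((Subgroup.centralizer ({w} : Set P)).subgroupOf E).index ≤ 2 := by
    have := Cfsg.Agent.Lib.Transfer.index_le_card_of_fibers ((Subgroup.centralizer ({w} : Set P)).subgroupOf E)
      (fun e : E => decide ((e : P) * w * (e : P)⁻¹ = w)) (by
        intro a b hab
        rw [Subgroup.mem_subgroupOf, Subgroup.mem_centralizer_singleton_iff]
        have hab' : ((a : P) * w * (a : P)⁻¹ = w) ↔ ((b : P) * w * (b : P)⁻¹ = w) := by
          simpa using hab
        have h1 : (a : P) * w * (a : P)⁻¹ = (b : P) * w * (b : P)⁻¹ := by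
          by_cases ha : (a : P) * w * (a : P)⁻¹ = w
          · rw [ha, hab'.mp ha]
          · have hb : (b : P) * w * (b : P)⁻¹ ≠ w := fun hb => ha (hab'.mpr hb)
            rw [(h a a.2).resolve_left ha, (h b b.2).resolve_left hb]
        change (a : P)⁻¹ * b * w = w * ((a : P)⁻¹ * b)
        calc (a : P)⁻¹ * b * w = (a : P)⁻¹ * ((b : P) * w * (b : P)⁻¹) * b := by group
          _ = (a : P)⁻¹ * ((a : P) * w * (a : P)⁻¹) * b := by rw [h1]
          _ = _ := by group)
    simpa using this
  have h1 := ((Subgroup.centralizer ({w} : Set P)).subgroupOf E).card_mul_index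
  have h2 : Nat.card ((Subgroup.centralizer ({w} : Set P)).subgroupOf E) = Nat.card ↥(E ⊓ Subgroup.centralizer ({w} : Set P)) := by
    rw [← Subgroup.card_map_of_injective E.subtype_injective, Subgroup.subgroupOf_map_subtype, inf_comm]
  rw [← h1, h2, mul_comm]
  exact Nat.mul_le_mul_right _ hidx

/-- number theory: square roots of one mod a power of two -/
theorem sq_roots_aux (m : ℕ) (k : ℤ) (h : (2 : ℤ) ^ (m + 2) ∣ k ^ 2 - 1) :
    (2 : ℤ) ^ (m + 1) ∣ k - 1 ∨ (2 : ℤ) ^ (m + 1) ∣ k + 1 := by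
  have hodd : Odd k := by
    by_contra hne
    rw [Int.not_odd_iff_even] at hne
    have h1 : (2 : ℤ) ∣ k ^ 2 - 1 := Dvd.dvd.trans (dvd_pow_self 2 (by omega)) h
    have h2 : (2 : ℤ) ∣ k ^ 2 := Dvd.dvd.trans hne.two_dvd (dvd_pow_self k (by norm_num))
    have h3 : (2 : ℤ) ∣ 1 := by
      have := dvd_sub h2 h1
      simpa using this
    omega
  obtain ⟨t, rfl⟩ := hodd
  have h1 : (2 * t + 1) ^ 2 - 1 = 2 ^ 2 * (t * (t + 1)) := by ring
  rw [h1, pow_add, mul_comm ((2 : ℤ) ^ m)] at h
  have h2 : (2 : ℤ) ^ m ∣ t * (t + 1) := (mul_dvd_mul_iff_left (by norm_num)).mp h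
  have hp : Prime (2 : ℤ) := Int.prime_two
  by_cases ht : (2 : ℤ) ∣ t
  · have h3 : ¬ (2 : ℤ) ∣ t + 1 := by omega
    have h4 := hp.pow_dvd_of_dvd_mul_right m h3 h2
    left
    have : 2 * t + 1 - 1 = 2 * t := by ring
    rw [this, pow_succ']
    exact mul_dvd_mul_left 2 h4
  · have h4 := hp.pow_dvd_of_dvd_mul_left m ht h2
    right
    have : 2 * t + 1 + 1 = 2 * (t + 1) := by ring
    rw [this, pow_succ']
    exact mul_dvd_mul_left 2 h4

omit [Finite P] in
theorem conj_sq_root {c e : P} {j : ℤ} (he : e * e = 1) (hj : e * c * e⁻¹ = c ^ j) : c ^ (j ^ 2 - 1) = 1 := by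
  have hei : e⁻¹ = e := inv_eq_of_mul_eq_one_left he
  have h1 := conj_zpow (a := e) (b := c) (i := j)
  rw [hj] at h1
  rw [hei] at h1 hj
  rw [zpow_sub, zpow_one, pow_two, zpow_mul, h1, ← hj]
  have : e * (e * c * e) * e = c := by
    calc e * (e * c * e) * e = (e * e) * c * (e * e) := by group
      _ = c := by rw [he]; group
  rw [this]; group

/-- A 2-group of rank at least three has a normal four-group. -/
theorem exists_normal_E4 (hP : IsPGroup 2 P) {E : Subgroup P} (hE : Cfsg.IsElementaryAbelian 2 E) (hEc : 2 ^ 2 < Nat.card E) :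
    ∃ U : Subgroup P, U.Normal ∧ Cfsg.IsElementaryAbelian 2 U ∧ Nat.card U = 2 ^ 2 := by
  classical
  haveI : Fact (Nat.Prime 2) := ⟨Nat.prime_two⟩
  by_contra hno
  haveI hnil : Group.IsNilpotent P := hP.isNilpotent
  obtain ⟨A, hA⟩ := (Set.toFinite {M : Subgroup P | M.Normal ∧ IsMulCommutative M}).exists_maximal
    ⟨⊥, inferInstance, inferInstance⟩
  obtain ⟨hAn, hAcomm⟩ := hA.prop
  haveI := hAn
  haveI := hAcomm
  have hmax : ∀ M : Subgroup P, M.Normal → IsMulCommutative M → A ≤ M → M = A :=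
    fun M h1 h2 h3 => hA.eq_of_ge ⟨h1, h2⟩ h3
  have hCA : Subgroup.centralizer (A : Set P) = A :=
    Cfsg.Agent.Lib.Basic.centralizer_eq_of_maximal_abelian_normal A hmax
  have hAc := comm_iff_forall.mp hAcomm
  have hEe : ∀ e ∈ E, e * e = 1 := fun e he => by rw [← pow_two]; exact hE.2 e he
  -- Ω₁(A)
  let Ω : Subgroup P :=
    { carrier := {y | y ∈ A ∧ y * y = 1}
      mul_mem' := by
        rintro x y ⟨hx, hx2⟩ ⟨hy, hy2⟩
        refine ⟨mul_mem hx hy, ?_⟩
        calc x * y * (x * y) = x * (y * x) * y := by group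
          _ = x * (x * y) * y := by rw [hAc y hy x hx]
          _ = (x * x) * (y * y) := by group
          _ = 1 := by rw [hx2, hy2, one_mul]
      one_mem' := ⟨one_mem _, by simp⟩
      inv_mem' := by
        rintro x ⟨hx, hx2⟩
        refine ⟨inv_mem hx, ?_⟩
        have : x⁻¹ = x := inv_eq_of_mul_eq_one_left hx2
        rw [this]; exact hx2 }
  have hΩmem : ∀ y, y ∈ Ω ↔ y ∈ A ∧ y * y = 1 := fun y => Iff.rfl
  haveI hΩn : Ω.Normal := by
    constructor
    rintro y ⟨hy, hy2⟩ g
    refine ⟨hAn.conj_mem y hy g, ?_⟩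
    calc g * y * g⁻¹ * (g * y * g⁻¹) = g * (y * y) * g⁻¹ := by group
      _ = 1 := by rw [hy2]; group
  obtain ⟨a, ha⟩ := IsPGroup.iff_card.mp (hP.to_subgroup Ω)
  have ha1 : a ≤ 1 := by
    by_contra hlt
    obtain ⟨U, hUn, hUle, hUc⟩ := Cfsg.Agent.Lib.Transfer.exists_normal_le_of_card hP a Ω ha 2 (by omega)
    exact hno ⟨U, hUn, ⟨IsPGroup.isMulCommutative_of_card_eq_prime_sq hUc, fun b hb => by
      rw [pow_two]; exact (hUle hb).2⟩, hUc⟩
  have hΩ2 : Nat.card Ω ≤ 2 := by
    rw [ha]
    interval_cases a <;> norm_num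
  have hAcyc : IsCyclic A := by
    refine Cfsg.Agent.Lib.OddLocal.isCyclic_of_comm_uniqueP (hP.to_subgroup A)
      (fun a b => hAcomm.is_comm.comm a b) ?_
    have key : ∀ H : Subgroup A, Nat.card H = 2 → H.map A.subtype = Ω := by
      intro H hH
      apply Subgroup.eq_of_le_of_card_ge
      · rintro _ ⟨x, hx, rfl⟩
        refine ⟨x.2, ?_⟩
        have h1 := pow_card_eq_one' (x := (⟨x, hx⟩ : H))
        rw [hH, pow_two] at h1
        have h2 : (x * x : A) = 1 := congrArg Subtype.val h1
        exact congrArg Subtype.val h2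
      · rw [Subgroup.card_map_of_injective A.subtype_injective, hH]
        exact hΩ2
    intro H K hH hK
    have h1 := key H hH
    rw [← key K hK] at h1
    exact Subgroup.map_injective A.subtype_injective h1
  obtain ⟨⟨c, hcA⟩, hc⟩ := IsCyclic.exists_generator (α := A)
  have hAz : A = Subgroup.zpowers c := by
    apply le_antisymm
    · intro y hy
      obtain ⟨k, hk⟩ := Subgroup.mem_zpowers_iff.mp (hc ⟨y, hy⟩)
      refine Subgroup.mem_zpowers_iff.mpr ⟨k, ?_⟩
      have := congrArg Subtype.val hk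
      simpa using this
    · rw [Subgroup.zpowers_le]
      exact hcA
  have hCc : ∀ y : P, y * c = c * y → y ∈ A := by
    intro y hy
    rw [← hCA, Subgroup.mem_centralizer_iff]
    intro b hb
    rw [SetLike.mem_coe, hAz] at hb
    obtain ⟨i, rfl⟩ := Subgroup.mem_zpowers_iff.mp hb
    exact ((show Commute c y from hy.symm).zpow_left i).eq
  have hact : ∀ g : P, ∃ j : ℤ, g * c * g⁻¹ = c ^ j := by
    intro g
    have h1 := hAn.conj_mem c hcA g
    rw [hAz] at h1
    obtain ⟨j, hj⟩ := Subgroup.mem_zpowers_iff.mp h1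
    exact ⟨j, hj.symm⟩
  obtain ⟨k, hk⟩ := IsPGroup.iff_card.mp (hP.to_subgroup A)
  have hco : orderOf c = 2 ^ k := by
    rw [← Nat.card_zpowers, ← hAz, hk]
  have hdvd : ∀ i : ℤ, c ^ i = 1 ↔ (2 : ℤ) ^ k ∣ i := by
    intro i
    rw [← orderOf_dvd_iff_zpow_eq_one, hco]
    push_cast
    rfl
  have hinfΩ : ∀ T : Subgroup P, T ≤ E → T ≤ A → Nat.card T ≤ 2 := by
    intro T hTE hTA
    have hle : T ≤ Ω := fun y hy => ⟨hTA hy, hEe y (hTE hy)⟩
    exact (Subgroup.card_le_of_le hle).trans hΩ2
  rcases Nat.lt_or_ge k 3 with hk3 | hk3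
  · -- small case
    have h4 : c ^ 4 = 1 := by
      have : orderOf c ∣ 4 := by
        rw [hco]
        exact pow_dvd_pow 2 (by omega : k ≤ 2)
      exact orderOf_dvd_iff_pow_eq_one.mp this
    have h4z : c ^ (4 : ℤ) = 1 := by exact_mod_cast h4
    have hinv : ∀ e ∈ E, e * c * e⁻¹ = c ∨ e * c * e⁻¹ = c⁻¹ := by
      intro e he
      obtain ⟨j, hj⟩ := hact e
      have h1 := conj_sq_root (hEe e he) hj
      rw [hj]
      obtain ⟨s, hs⟩ : ∃ s : ℤ, j = 4 * s ∨ j = 4 * s + 1 ∨ j = 4 * s + 2 ∨ j = 4 * s + 3 := by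
        refine ⟨j / 4, ?_⟩
        omega
      rcases hs with rfl | rfl | rfl | rfl
      · left
        have h2 : c ^ (4 * s) = 1 := by rw [zpow_mul, h4z, one_zpow]
        rw [h2] at hj ⊢
        have h3 : c = 1 := by
          have : c = e⁻¹ * (e * c * e⁻¹) * e := by group
          rw [this, hj]; group
        exact h3.symm
      · left
        rw [zpow_add, zpow_mul, h4z, one_zpow, one_mul, zpow_one]
      · left
        have h5 : (4 * s + 2) ^ 2 - 1 = 4 * (4 * s ^ 2 + 4 * s) + 3 := by ring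
        rw [h5, zpow_add, zpow_mul, h4z, one_zpow, one_mul] at h1
        have h3 : c = 1 := by
          have h6 : c ^ (4 : ℤ) = c ^ (3 : ℤ) * c := by
            rw [← zpow_add_one]; norm_num
          rw [h6, h1, one_mul] at h4z
          exact h4z
        rw [h3]; simp
      · right
        have h6 : 4 * s + 3 = 4 * (s + 1) + (-1) := by ring
        rw [h6, zpow_add, zpow_mul, h4z, one_zpow, one_mul, zpow_neg_one]
    have h3 := card_le_two_mul E c hinv
    have h5 : Nat.card ↥(E ⊓ Subgroup.centralizer ({c} : Set P)) ≤ 2 := by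
      apply hinfΩ _ inf_le_left
      rintro y ⟨_, hy⟩
      have hy' : y ∈ Subgroup.centralizer ({c} : Set P) := hy
      rw [Subgroup.mem_centralizer_singleton_iff] at hy'
      exact hCc y hy'
    omega
  · obtain ⟨m, rfl⟩ : ∃ m, k = m + 3 := ⟨k - 3, by omega⟩
    have hctop : c ^ ((2 : ℤ) ^ (m + 3)) = 1 := (hdvd _).mpr (dvd_refl _)
    have hw : ∀ e ∈ E, e * (c * c) * e⁻¹ = c * c ∨ e * (c * c) * e⁻¹ = (c * c)⁻¹ := by
      intro e he
      obtain ⟨j, hj⟩ := hact e
      have h1 := conj_sq_root (hEe e he) hj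
      rw [hdvd] at h1
      have h2 : e * (c * c) * e⁻¹ = c ^ (j + j) := by
        rw [zpow_add, ← hj]; group
      rcases sq_roots_aux (m + 1) j h1 with ⟨t, ht⟩ | ⟨t, ht⟩
      · left
        have h3 : j + j = 2 ^ (m + 3) * t + 2 := by
          have : (2 : ℤ) ^ (m + 3) = 2 * 2 ^ (m + 1 + 1) := by ring
          rw [this]; linarith
        rw [h2, h3, zpow_add, zpow_mul, hctop, one_zpow, one_mul, zpow_two]
      · right
        have h3 : j + j = 2 ^ (m + 3) * t + (-2) := by
          have : (2 : ℤ) ^ (m + 3) = 2 * 2 ^ (m + 1 + 1) := by ring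
          rw [this]; linarith
        rw [h2, h3, zpow_add, zpow_mul, hctop, one_zpow, one_mul, zpow_neg, zpow_two]
    have h3 := card_le_two_mul E (c * c) hw
    have hnle : ¬ (E ⊓ Subgroup.centralizer ({c * c} : Set P) ≤ A) := by
      intro hle
      have := hinfΩ _ inf_le_left hle
      omega
    obtain ⟨e₁, ⟨he₁E, he₁C⟩, he₁A⟩ := SetLike.not_le_iff_exists.mp hnle
    replace he₁C : e₁ ∈ Subgroup.centralizer ({c * c} : Set P) := he₁C
    rw [Subgroup.mem_centralizer_singleton_iff] at he₁C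
    have he₁2 := hEe e₁ he₁E
    have hfix2 : ∀ g : P, g * (c * c) = (c * c) * g → ∃ t : ℤ, g * c * g⁻¹ = c ^ ((2 : ℤ) ^ (m + 2) * t + 1) := by
      intro g hg
      obtain ⟨j, hj⟩ := hact g
      have h1 : c ^ (j + j) = c * c := by
        rw [zpow_add, ← hj]
        calc g * c * g⁻¹ * (g * c * g⁻¹) = g * (c * c) * g⁻¹ := by group
          _ = (c * c) * g * g⁻¹ := by rw [hg]
          _ = c * c := by group
      have h2 : c ^ (j + j - 2) = 1 := by
        rw [zpow_sub, h1, zpow_two]; group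
      rw [hdvd] at h2
      obtain ⟨t, ht⟩ := h2
      refine ⟨t, ?_⟩
      rw [hj]
      congr 1
      have : (2 : ℤ) ^ (m + 3) = 2 * 2 ^ (m + 2) := by ring
      rw [this] at ht
      linarith
    have heven : ∀ s : ℤ, c ^ ((2 : ℤ) ^ (m + 2) * (2 * s) + 1) = c := by
      intro s
      have : (2 : ℤ) ^ (m + 2) * (2 * s) + 1 = 2 ^ (m + 3) * s + 1 := by ring
      rw [this, zpow_add, zpow_mul, hctop, one_zpow, one_mul, zpow_one]
    have hodd : ∀ s : ℤ, c ^ ((2 : ℤ) ^ (m + 2) * (2 * s + 1) + 1) = c ^ ((2 : ℤ) ^ (m + 2)) * c := by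
      intro s
      have : (2 : ℤ) ^ (m + 2) * (2 * s + 1) + 1 = 2 ^ (m + 3) * s + (2 ^ (m + 2) + 1) := by ring
      rw [this, zpow_add, zpow_mul, hctop, one_zpow, one_mul, zpow_add, zpow_one]
    obtain ⟨z, hz⟩ : ∃ z, z = c ^ ((2 : ℤ) ^ (m + 2)) := ⟨_, rfl⟩
    have hzA : z ∈ A := by rw [hz]; exact zpow_mem hcA _
    have hsucc : ∀ g : P, g * (c * c) = (c * c) * g → g * c * g⁻¹ = c ∨ g * c * g⁻¹ = z * c := by
      intro g hg
      obtain ⟨t, ht⟩ := hfix2 g hg
      rw [ht]
      rcases Int.even_or_odd' t with ⟨s, rfl | rfl⟩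
      · left; exact heven s
      · right; rw [hodd s, hz]
    have hzc : z * c = c * z := hAc z hzA c hcA
    -- the relation for `e₁`
    have he₁rel : e₁ * c * e₁⁻¹ = z * c := by
      rcases hsucc e₁ he₁C with h1 | h1
      · exfalso
        apply he₁A
        apply hCc
        calc e₁ * c = (e₁ * c * e₁⁻¹) * e₁ := by group
          _ = c * e₁ := by rw [h1]
      · exact h1
    -- `z` is a power of `c * c`
    have hzw : z = (c * c) ^ ((2 : ℤ) ^ (m + 1)) := by
      rw [hz, ← zpow_two, ← zpow_mul]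
      congr 1
      ring
    have hBz : ∀ g : P, g * (c * c) = (c * c) * g → g * z = z * g := by
      intro g hg
      rw [hzw]
      exact ((show Commute g (c * c) from hg).zpow_right _).eq
    -- the subgroup `B`
    set B := Subgroup.centralizer ({c * c} : Set P) with hB
    have hBmem : ∀ g : P, g ∈ B ↔ g * (c * c) = (c * c) * g := fun g => Subgroup.mem_centralizer_singleton_iff
    have hAB : A ≤ B := by
      intro y hy
      rw [hBmem]
      have h1 := hAc y hy c hcA
      rw [← mul_assoc, h1, mul_assoc, h1, mul_assoc]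
    have he₁B : e₁ ∈ B := (hBmem e₁).mpr he₁C
    have hcases : ∀ g ∈ B, g ∈ A ∨ g * e₁ ∈ A := by
      intro g hg
      rcases hsucc g ((hBmem g).mp hg) with h1 | h1
      · left
        apply hCc
        calc g * c = (g * c * g⁻¹) * g := by group
          _ = c * g := by rw [h1]
      · right
        apply hCc
        have h2 : g * z * g⁻¹ = z := by
          rw [hBz g ((hBmem g).mp hg)]; group
        have h3 : (g * e₁) * c * (g * e₁)⁻¹ = c := by
          calc (g * e₁) * c * (g * e₁)⁻¹ = g * (e₁ * c * e₁⁻¹) * g⁻¹ := by group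
            _ = (g * z * g⁻¹) * (g * c * g⁻¹) := by rw [he₁rel]; group
            _ = z * (z * c) := by rw [h1, h2]
            _ = (z * z) * c := by group
            _ = c := by
              have : z * z = 1 := by
                rw [hz, ← zpow_add]
                have h5 : (2 : ℤ) ^ (m + 2) + 2 ^ (m + 2) = 2 ^ (m + 3) := by ring
                rw [h5, hctop]
              rw [this, one_mul]
        calc g * e₁ * c = ((g * e₁) * c * (g * e₁)⁻¹) * (g * e₁) := by group
          _ = c * (g * e₁) := by rw [h3]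
    have he₁inv : e₁⁻¹ = e₁ := inv_eq_of_mul_eq_one_left he₁2
    have hBcard : Nat.card B = 2 ^ (m + 4) := by
      have h1 : (A.subgroupOf B).index = 2 := by
        rw [Subgroup.index_eq_two_iff]
        refine ⟨⟨e₁, he₁B⟩, ?_⟩
        rintro ⟨b, hb⟩
        simp only [Subgroup.mem_subgroupOf, MulMemClass.mk_mul_mk]
        rcases hcases b hb with h2 | h2
        · refine Or.inr ⟨h2, ?_⟩
          intro h3
          apply he₁A
          have := mul_mem (inv_mem h2) h3
          simpa using this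
        · refine Or.inl ⟨h2, ?_⟩
          intro h3
          apply he₁A
          have := mul_mem (inv_mem h3) h2
          simpa using this
      have h2 := Cfsg.Agent.Lib.Coprime.card_mul_relIndex hAB
      have h3 : A.relIndex B = 2 := h1
      rw [h3, hk, ← pow_succ] at h2
      exact h2.symm
    have h : ModData B m c e₁ z := by
      refine ⟨hAB hcA, he₁B, hco, he₁2, ?_, ?_, hz, hBcard⟩
      · rintro rfl
        exact he₁A (one_mem _)
      · have h5 : c ^ ((2 : ℤ) ^ (m + 2)) = c ^ (2 ^ (m + 2)) := by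
          rw [← zpow_natCast]
          norm_cast
        rw [he₁rel, hz, h5]
        exact (pow_succ c _).symm
    -- the normal subgroup
    have hBnormal : ∀ g : P, ∀ b ∈ B, g * b * g⁻¹ ∈ B := by
      intro g b hb
      rw [hBmem] at hb ⊢
      obtain ⟨j, hj⟩ := hact g⁻¹
      rw [inv_inv] at hj
      have h1 : g⁻¹ * (c * c) * g = (c ^ j) * (c ^ j) := by
        rw [← hj]; group
      have h2 : c ^ j * c ^ j = (c * c) ^ j := by
        rw [← zpow_two, ← zpow_mul, mul_comm, zpow_mul, zpow_two]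
      have h3 : b * (g⁻¹ * (c * c) * g) = (g⁻¹ * (c * c) * g) * b := by
        rw [h1, h2]
        exact ((show Commute b (c * c) from hb).zpow_right j).eq
      calc g * b * g⁻¹ * (c * c) = g * (b * (g⁻¹ * (c * c) * g)) * g⁻¹ := by group
        _ = g * ((g⁻¹ * (c * c) * g) * b) * g⁻¹ := by rw [h3]
        _ = _ := by group
    have hUn : (VV z e₁).Normal := by
      constructor
      intro v hv g
      apply h.V_of_invol (hBnormal g v (h.V_le hv))
      calc g * v * g⁻¹ * (g * v * g⁻¹) = g * (v * v) * g⁻¹ := by group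
        _ = 1 := by rw [h.V_sq hv]; group
    have hUea : Cfsg.IsElementaryAbelian 2 (VV z e₁) := by
      constructor
      · rw [comm_iff_forall]
        intro x hx y hy
        have h1 := h.V_sq (mul_mem hx hy)
        have h2 := h.V_sq hx
        have h3 := h.V_sq hy
        have hxi : x⁻¹ = x := inv_eq_of_mul_eq_one_left h2
        have hyi : y⁻¹ = y := inv_eq_of_mul_eq_one_left h3
        have h4 : (x * y)⁻¹ = x * y := inv_eq_of_mul_eq_one_left h1
        rw [mul_inv_rev, hxi, hyi] at h4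
        exact h4.symm
      · intro x hx
        rw [pow_two]
        exact h.V_sq hx
    obtain ⟨u, hu⟩ := IsPGroup.iff_card.mp (hP.to_subgroup (VV z e₁))
    have hle4 : Nat.card (VV z e₁) ≤ 4 := by
      let F : Finset P := {1, z, e₁, z * e₁}
      have hsub : ((VV z e₁ : Subgroup P) : Set P) ⊆ (F : Set P) := by
        intro v hv
        rcases h.V_cases hv with rfl | rfl | rfl | rfl <;> simp [F]
      have h1 := Set.ncard_le_ncard hsub (Set.toFinite _)
      rw [Set.ncard_coe_finset] at h1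
      have h2 : F.card ≤ 4 := Finset.card_le_four
      have h3 : Nat.card (VV z e₁) = ((VV z e₁ : Subgroup P) : Set P).ncard := Nat.card_coe_set_eq _
      omega
    have hgt2 : 2 < Nat.card (VV z e₁) := by
      by_contra hle
      push Not at hle
      have hzord : orderOf z = 2 := orderOf_eq_prime (by rw [pow_two]; exact h.zz) h.z_ne
      have h1 : Subgroup.zpowers z ≤ VV z e₁ := Subgroup.zpowers_le.mpr z_mem_VV
      have h2 : Subgroup.zpowers z = VV z e₁ := Subgroup.eq_of_le_of_card_ge h1 (by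
        rw [Nat.card_zpowers, hzord]; exact hle)
      have h3 : e₁ ∈ Subgroup.zpowers z := by rw [h2]; exact b_mem_VV
      apply he₁A
      exact (Subgroup.zpowers_le.mpr hzA) h3
    have hu2 : u = 2 := by
      rw [hu] at hle4 hgt2
      have h1 : u < 3 := by
        by_contra hge
        push Not at hge
        have : 2 ^ 3 ≤ 2 ^ u := Nat.pow_le_pow_right (by norm_num) hge
        omega
      interval_cases u <;> omega
    exact hno ⟨_, hUn, hUea, by rw [hu, hu2]⟩

end aux


/-- Let P be a finite p-group of p-rank greater than 2. Then P has a normal elementary abelian subgroup U of order p², and for every elementary abelian X ≤ P with |X| ≥ p²: X is joined to U by a chain of pairwise commuting elementary abelian subgroups of order ≥ p² if and only if C_P(X) has p-rank greater than 2. -/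
theorem result {P : Type*} [Group P] [Finite P] (p : ℕ) [Fact p.Prime] (hP : IsPGroup p P) (hrk : ¬ Cfsg.PRankLE p 2 P) : ∃ U : Subgroup P, U.Normal ∧ Cfsg.IsElementaryAbelian p U ∧ Nat.card ↥U = p ^ 2 ∧ ∀ X : Subgroup P, Cfsg.IsElementaryAbelian p X → p ^ 2 ≤ Nat.card ↥X → (Relation.ReflTransGen (fun A B : Subgroup P => Cfsg.IsElementaryAbelian p A ∧ p ^ 2 ≤ Nat.card ↥A ∧ Cfsg.IsElementaryAbelian p B ∧ p ^ 2 ≤ Nat.card ↥B ∧ ∀ a ∈ A, ∀ b ∈ B, a * b = b * a) X U ↔ ¬ Cfsg.PRankLE p 2 ↥(Subgroup.centralizer (X : Set P))) := by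
  classical
  obtain ⟨E, hE, hEc⟩ := exists_EA_of_not_rank hrk
  have hpp : p.Prime := Fact.out
  obtain ⟨U, hUn, hUe, hUc⟩ : ∃ U : Subgroup P, U.Normal ∧ Cfsg.IsElementaryAbelian p U ∧ Nat.card U = p ^ 2 := by
    by_cases hp2 : p = 2
    · subst hp2
      exact exists_normal_E4 hP hE hEc
    · apply Cfsg.Agent.Lib.Transfer.exists_normal_elementary_sq hp2 hP
      intro hcyc
      apply hrk
      intro A hAc hAe
      obtain ⟨g, hg⟩ := IsCyclic.exists_generator (α := A)
      have h1 : orderOf g = Nat.card A := orderOf_eq_card_of_forall_mem_zpowers hg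
      have h2 : g ^ p = 1 := by
        apply Subtype.ext
        exact hAe _ g.2
      have h3 : orderOf g ∣ p := orderOf_dvd_of_pow_eq_one h2
      rw [h1] at h3
      exact (Nat.le_of_dvd hpp.pos h3).trans (by nlinarith [hpp.two_le])
  haveI := hUn
  refine ⟨U, hUn, hUe, hUc, ?_⟩
  intro X hXe hXc
  exact connected_iff hP hUe hUc hE hEc hXe hXc

end Cfsg.Agent.S1337
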