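import Cfsg.Statements.S1338
import Mathlib
import Cfsg.Agent.Lib.Basic.Nilpotent
import Cfsg.Agent.S1337

set_option autoImplicit false
open Cfsg

namespace Cfsg.Agent.S1338

open Subgroup
open scoped commutatorElement

section identities
variable {P : Type*} [Group P]

/-- the cube of `r * d` when `d` acts on `r` through a commuting `s`, `t` -/
theorem cube2 (r d s t : P) (h1 : d * r * d⁻¹ = s * r) (h2 : d * s * d⁻¹ = t * s)
    (hsr : s * r = r * s) (htr : t * r = r * t) (hts : t * s = s * t) (hs : s ^ 3 = 1) :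
    (r * d) ^ 3 = r ^ 3 * t * d ^ 3 := by
  have h1' : d * r = s * r * d := by rw [← h1]; group
  have h2' : d * s = t * s * d := by rw [← h2]; group
  have e : (r * d) ^ 3 = r * s * r * t * s * s * r * (d * d * d) := by
    calc (r * d) ^ 3 = r * (d * r) * (d * r) * d := by simp only [pow_succ, pow_zero, one_mul, mul_assoc]
      _ = r * (s * r * d) * (s * r * d) * d := by rw [h1']
      _ = r * s * r * (d * s) * r * d * d := by group
      _ = r * s * r * (t * s * d) * r * d * d := by rw [h2']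
      _ = r * s * r * t * s * (d * r) * d * d := by group
      _ = r * s * r * t * s * (s * r * d) * d * d := by rw [h1']
      _ = r * s * r * t * s * s * r * (d * d * d) := by group
  have hc1 : Commute s r := hsr
  have hc2 : Commute t r := htr
  have hc3 : Commute t s := hts
  have e2 : r * s * r * t * s * s * r = r ^ 3 * t * s ^ 3 := by
    have a1 : r * s * r = r * r * s := by rw [mul_assoc, hsr, mul_assoc]
    have a2 : Commute (s * t * s * s) r :=
      (((hc1.mul_left hc2).mul_left hc1).mul_left hc1)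
    have a3 : s * t * s * s = t * s * s * s := by rw [← hts]
    calc r * s * r * t * s * s * r = r * r * s * t * s * s * r := by rw [a1]
      _ = r * r * ((s * t * s * s) * r) := by group
      _ = r * r * (r * (s * t * s * s)) := by rw [a2.eq]
      _ = r * r * (r * (t * s * s * s)) := by rw [a3]
      _ = r ^ 3 * t * s ^ 3 := by simp only [pow_succ, pow_zero, one_mul, mul_assoc]
  rw [e, e2, hs]
  simp [pow_succ, mul_assoc]

end identities

section ac
variable {P : Type*} [Group P] [Finite P]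

theorem exists_second_center {Q : Type*} [Group Q] [Finite Q] (hQ : IsPGroup 3 Q)
    (hne : center Q ≠ ⊤) : ∃ e : Q, e ∉ center Q ∧ ∀ g, ⁅e, g⁆ ∈ center Q := by
  haveI : Fact (Nat.Prime 3) := ⟨Nat.prime_three⟩
  have hQ' : IsPGroup 3 (Q ⧸ center Q) := hQ.to_quotient _
  haveI : Nontrivial (Q ⧸ center Q) := QuotientGroup.nontrivial_iff.mpr ?_
  · haveI := hQ'.center_nontrivial
    obtain ⟨q, hq⟩ := exists_ne (1 : center (Q ⧸ center Q))
    obtain ⟨e, he⟩ := QuotientGroup.mk_surjective (q : Q ⧸ center Q)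
    refine ⟨e, ?_, fun g => ?_⟩
    · intro hec
      apply hq
      apply Subtype.ext
      rw [← he]
      exact (QuotientGroup.eq_one_iff e).2 hec
    · have h1 := q.2
      rw [Subgroup.mem_center_iff] at h1
      have h2 := h1 (QuotientGroup.mk g)
      rw [← he] at h2
      rw [← QuotientGroup.eq_one_iff]
      change ((QuotientGroup.mk' (center Q)) ⁅e, g⁆) = 1
      rw [map_commutatorElement, commutatorElement_eq_one_iff_mul_comm]
      exact h2.symm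
  · exact hne

/-- the abelian criterion relative to a subgroup -/
theorem ac_rel (hP : IsPGroup 3 P) (B N : Subgroup P) [N.Normal] (S : Set P)
    (hS : B = closure S)
    (h : ∀ e ∈ B, ∀ d ∈ S, (∀ g ∈ B, ⁅⁅e, d⁆, g⁆ ∈ N) → ⁅e, d⁆ ∈ N) :
    ∀ e ∈ B, ∀ f ∈ B, ⁅e, f⁆ ∈ N := by
  haveI : Fact (Nat.Prime 3) := ⟨Nat.prime_three⟩
  by_contra hcon
  push Not at hcon
  obtain ⟨e₁, he₁, f₁, hf₁, hbad⟩ := hcon
  let N' : Subgroup B := N.subgroupOf B
  have hmem1 : ∀ x : B, (QuotientGroup.mk x : B ⧸ N') = 1 ↔ (x : P) ∈ N := by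
    intro x
    rw [QuotientGroup.eq_one_iff]
    exact Subgroup.mem_subgroupOf
  have hmem2 : ∀ x : B, (QuotientGroup.mk x : B ⧸ N') ∈ center (B ⧸ N') ↔
      ∀ g ∈ B, ⁅(x : P), g⁆ ∈ N := by
    intro x
    rw [Subgroup.mem_center_iff]
    constructor
    · intro hx g hg
      have h2 := hx (QuotientGroup.mk ⟨g, hg⟩)
      have h3 : (QuotientGroup.mk ⁅x, (⟨g, hg⟩ : B)⁆ : B ⧸ N') = 1 := by
        change (QuotientGroup.mk' N') ⁅x, (⟨g, hg⟩ : B)⁆ = 1
        rw [map_commutatorElement, commutatorElement_eq_one_iff_mul_comm]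
        exact h2.symm
      exact (hmem1 _).1 h3
    · intro hx q
      obtain ⟨g, rfl⟩ := QuotientGroup.mk_surjective q
      have h3 := (hmem1 ⁅x, g⁆).2 (hx g g.2)
      change (QuotientGroup.mk' N') ⁅x, g⁆ = 1 at h3
      rw [map_commutatorElement, commutatorElement_eq_one_iff_mul_comm] at h3
      exact h3.symm
  have hQ : IsPGroup 3 (B ⧸ N') :=
    (hP.to_subgroup B).to_quotient N'
  have hne : center (B ⧸ N') ≠ ⊤ := by
    intro htop
    apply hbad
    have := (hmem2 ⟨e₁, he₁⟩).1 (by rw [htop]; trivial)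
    exact this f₁ hf₁
  obtain ⟨q, hq, hq2⟩ := exists_second_center hQ hne
  obtain ⟨e, rfl⟩ := QuotientGroup.mk_surjective q
  apply hq
  rw [hmem2]
  have hSB : ∀ d ∈ S, d ∈ B := fun d hd => hS ▸ subset_closure hd
  have hd : ∀ d ∈ S, ⁅(e : P), d⁆ ∈ N := by
    intro d hdS
    apply h (e : P) e.2 d hdS
    intro g hg
    have h4 := hq2 (QuotientGroup.mk ⟨d, hSB d hdS⟩)
    have h5 : (⁅(QuotientGroup.mk e : B ⧸ N'), (QuotientGroup.mk ⟨d, hSB d hdS⟩ : B ⧸ N')⁆) =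
        (QuotientGroup.mk ⁅e, (⟨d, hSB d hdS⟩ : B)⁆ : B ⧸ N') := rfl
    rw [h5, hmem2] at h4
    exact h4 g hg
  intro g hg
  rw [hS] at hg
  induction hg using Subgroup.closure_induction with
  | mem x hx => exact hd x hx
  | one => simp
  | mul x y _ _ hx hy =>
    have : ⁅(e : P), x * y⁆ = ⁅(e : P), x⁆ * (x * ⁅(e : P), y⁆ * x⁻¹) := by
      simp only [commutatorElement_def]; group
    rw [this]
    exact mul_mem hx (‹N.Normal›.conj_mem _ hy x)
  | inv x _ hx =>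
    have : ⁅(e : P), x⁻¹⁆ = x⁻¹ * ⁅(e : P), x⁆⁻¹ * x⁻¹⁻¹ := by
      simp only [commutatorElement_def]; group
    rw [this]
    exact ‹N.Normal›.conj_mem _ (inv_mem hx) x⁻¹

end ac

section setup
variable {P : Type*} [Group P]

theorem closure_normal_of_conj (S : Set P) (hS : ∀ s ∈ S, ∀ g : P, g * s * g⁻¹ ∈ S) :
    (closure S).Normal := by
  refine ⟨fun b hb g => ?_⟩
  induction hb using Subgroup.closure_induction with
  | mem x hx => exact subset_closure (hS x hx g)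
  | one => simp
  | mul x y _ _ hx hy =>
    have : g * (x * y) * g⁻¹ = (g * x * g⁻¹) * (g * y * g⁻¹) := by group
    rw [this]; exact mul_mem hx hy
  | inv x _ hx =>
    have : g * x⁻¹ * g⁻¹ = (g * x * g⁻¹)⁻¹ := by group
    rw [this]; exact inv_mem hx

theorem ea_closure (T : Set P) (hc : ∀ a ∈ T, ∀ b ∈ T, a * b = b * a) (he : ∀ a ∈ T, a ^ 3 = 1) :
    (∀ a ∈ closure T, ∀ b ∈ closure T, a * b = b * a) ∧ ∀ a ∈ closure T, a ^ 3 = 1 := by
  have h1 : ∀ a ∈ closure T, ∀ b ∈ closure T, a * b = b * a := by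
    intro a ha b hb
    have h2 : closure T ≤ centralizer T := by
      rw [closure_le]
      intro x hx
      rw [SetLike.mem_coe, Subgroup.mem_centralizer_iff]
      exact fun y hy => hc y hy x hx
    have h3 : closure T ≤ centralizer ({a} : Set P) := by
      rw [closure_le]
      intro x hx
      rw [SetLike.mem_coe, Subgroup.mem_centralizer_iff]
      rintro y rfl
      have := h2 ha
      rw [Subgroup.mem_centralizer_iff] at this
      exact (this x hx).symm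
    have := h3 hb
    rw [Subgroup.mem_centralizer_iff] at this
    exact this a rfl
  refine ⟨h1, fun a ha => ?_⟩
  have key : a ∈ closure T ∧ a ^ 3 = 1 := by
    induction ha using Subgroup.closure_induction with
    | mem x hx => exact ⟨subset_closure hx, he x hx⟩
    | one => exact ⟨one_mem _, one_pow _⟩
    | mul x y _ _ hx hy =>
      refine ⟨mul_mem hx.1 hy.1, ?_⟩
      have : Commute x y := h1 x hx.1 y hy.1
      rw [this.mul_pow, hx.2, hy.2, one_mul]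
    | inv x _ hx =>
      exact ⟨inv_mem hx.1, by rw [inv_pow, hx.2, inv_one]⟩
  exact key.2

variable (N : Subgroup P) [hN : N.Normal]

theorem conj_mem_M {m : P} (hm : m ∈ centralizer (N : Set P)) (g : P) :
    g * m * g⁻¹ ∈ centralizer (N : Set P) := by
  rw [Subgroup.mem_centralizer_iff] at hm ⊢
  intro n hn
  have h1 := hm (g⁻¹ * n * g⁻¹⁻¹) (hN.conj_mem n hn g⁻¹)
  have h2 : n * (g * m * g⁻¹) = g * ((g⁻¹ * n * g⁻¹⁻¹) * m) * g⁻¹ := by group
  have h3 : g * m * g⁻¹ * n = g * (m * (g⁻¹ * n * g⁻¹⁻¹)) * g⁻¹ := by group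
  rw [h2, h3, h1]

variable {N}

/-- cube of a product of two elements of the centralizer -/
theorem cube_M (hexp : ∀ a ∈ N, a ^ 3 = 1) {r d : P} (hr : r ∈ centralizer (N : Set P))
    (hd : d ∈ centralizer (N : Set P)) (hs : ⁅d, r⁆ ∈ N) : (r * d) ^ 3 = r ^ 3 * d ^ 3 := by
  rw [Subgroup.mem_centralizer_iff] at hr hd
  have := cube2 r d ⁅d, r⁆ 1 (by rw [commutatorElement_def]; group)
    (by have := hd _ hs; rw [one_mul, mul_inv_eq_iff_eq_mul]; exact this.symm)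
    (hr _ hs) (by simp) (by simp) (hexp _ hs)
  rw [this, mul_one]

end setup

section omega
variable {P : Type*} [Group P] [Finite P] {N : Subgroup P} [hN : N.Normal]

theorem omega_le (hP : IsPGroup 3 P) (hab : ∀ a ∈ N, ∀ b ∈ N, a * b = b * a)
    (hexp : ∀ a ∈ N, a ^ 3 = 1)
    (hmax : ∀ E : Subgroup P, E.Normal → N ≤ E → (∀ a ∈ E, ∀ b ∈ E, a * b = b * a) →
      (∀ a ∈ E, a ^ 3 = 1) → E = N)
    (m : P) (hm : m ∈ centralizer (N : Set P)) (h3 : m ^ 3 = 1) : m ∈ N := by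
  haveI : Fact (Nat.Prime 3) := ⟨Nat.prime_three⟩
  by_contra hmN
  set S : Set P := {x | x ∈ centralizer (N : Set P) ∧ x ^ 3 = 1} with hSdef
  set B : Subgroup P := closure S with hBdef
  have hBM : B ≤ centralizer (N : Set P) := (closure_le _).2 (fun x hx => hx.1)
  have hSconj : ∀ s ∈ S, ∀ g : P, g * s * g⁻¹ ∈ S := fun s hs g =>
    ⟨conj_mem_M N hs.1 g, by rw [conj_pow, hs.2]; group⟩
  haveI hBn : B.Normal := closure_normal_of_conj S hSconj
  have hNM : ∀ n ∈ N, n ∈ centralizer (N : Set P) := by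
    intro n hn
    rw [Subgroup.mem_centralizer_iff]
    exact fun y hy => hab y hy n hn
  have hNB : N ≤ B := fun n hn => subset_closure ⟨hNM n hn, hexp n hn⟩
  -- the subgroup V
  let V : Subgroup P :=
    { carrier := {v | v ∈ B ∧ v ^ 3 = 1 ∧ ∀ f ∈ B, ⁅v, f⁆ ∈ N}
      one_mem' := ⟨one_mem _, one_pow _, fun f _ => by simp⟩
      mul_mem' := by
        rintro v v' ⟨h1, h2, h3⟩ ⟨h1', h2', h3'⟩
        refine ⟨mul_mem h1 h1', ?_, fun f hf => ?_⟩
        · rw [cube_M hexp (hBM h1) (hBM h1') (h3' v h1), h2, h2', one_mul]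
        · have : ⁅v * v', f⁆ = v * ⁅v', f⁆ * v⁻¹ * ⁅v, f⁆ := by
            simp only [commutatorElement_def]; group
          rw [this]
          exact mul_mem (hN.conj_mem _ (h3' f hf) v) (h3 f hf)
      inv_mem' := by
        rintro v ⟨h1, h2, h3⟩
        refine ⟨inv_mem h1, by rw [inv_pow, h2, inv_one], fun f hf => ?_⟩
        have : ⁅v⁻¹, f⁆ = v⁻¹ * ⁅v, f⁆⁻¹ * v⁻¹⁻¹ := by
          simp only [commutatorElement_def]; group
        rw [this]
        exact hN.conj_mem _ (inv_mem (h3 f hf)) v⁻¹ }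
  have hVmem : ∀ v, v ∈ V ↔ (v ∈ B ∧ v ^ 3 = 1 ∧ ∀ f ∈ B, ⁅v, f⁆ ∈ N) := fun v => Iff.rfl
  haveI hVn : V.Normal := by
    refine ⟨fun v hv g => ?_⟩
    rw [hVmem] at hv ⊢
    obtain ⟨h1, h2, h3⟩ := hv
    refine ⟨hBn.conj_mem v h1 g, by rw [conj_pow, h2]; group, fun f hf => ?_⟩
    have : ⁅g * v * g⁻¹, f⁆ = g * ⁅v, g⁻¹ * f * g⁻¹⁻¹⁆ * g⁻¹ := by
      simp only [commutatorElement_def]; group
    rw [this]
    exact hN.conj_mem _ (h3 _ (hBn.conj_mem f hf g⁻¹)) g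
  have hNV : N ≤ V := by
    intro n hn
    rw [hVmem]
    refine ⟨hNB hn, hexp n hn, fun f _ => ?_⟩
    exact Cfsg.Agent.Lib.Basic.commutator_mem_left hn f
  obtain ⟨v₀, hv₀, hv₀N⟩ : ∃ v₀ ∈ V, v₀ ∉ N := by
    by_cases hAC : ∀ e ∈ B, ∀ d ∈ S, (∀ g ∈ B, ⁅⁅e, d⁆, g⁆ ∈ N) → ⁅e, d⁆ ∈ N
    · have hall := ac_rel hP B N S rfl hAC
      have hmB : m ∈ B := subset_closure ⟨hm, h3⟩
      exact ⟨m, (hVmem m).2 ⟨hmB, h3, fun f hf => hall m hmB f hf⟩, hmN⟩
    · push Not at hAC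
      obtain ⟨e, he, d, hd, hg, hnot⟩ := hAC
      have hdB : d ∈ B := subset_closure hd
      have hrB : ⁅e, d⁆ ∈ B := by
        rw [commutatorElement_def]
        exact mul_mem (mul_mem (mul_mem he hdB) (inv_mem he)) (inv_mem hdB)
      refine ⟨⁅e, d⁆, (hVmem _).2 ⟨hrB, ?_, hg⟩, hnot⟩
      have h4 : ⁅d, ⁅e, d⁆⁆ ∈ N := by
        rw [← commutatorElement_inv]
        exact inv_mem (hg d hdB)
      have h5 := cube_M hexp (hBM hrB) hd.1 h4
      have h6 : ⁅e, d⁆ * d = e * d * e⁻¹ := by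
        rw [commutatorElement_def]; group
      rw [h6, conj_pow, hd.2] at h5
      simp only [mul_one, mul_inv_cancel] at h5
      exact h5.symm
  -- a central element modulo N
  have hQ : IsPGroup 3 (P ⧸ N) := hP.to_quotient N
  haveI : Group.IsNilpotent (P ⧸ N) := hQ.isNilpotent
  let V' : Subgroup (P ⧸ N) := V.map (QuotientGroup.mk' N)
  haveI : V'.Normal := hVn.map _ (QuotientGroup.mk'_surjective N)
  have hV'ne : V' ≠ ⊥ := by
    intro h
    have : (QuotientGroup.mk' N) v₀ ∈ V' := Subgroup.mem_map_of_mem _ hv₀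
    rw [h, Subgroup.mem_bot] at this
    exact hv₀N ((QuotientGroup.eq_one_iff v₀).1 this)
  obtain ⟨⟨q, hq⟩, hq1⟩ := Subgroup.ne_bot_iff_exists_ne_one.1
    (Cfsg.Agent.Lib.Basic.normal_inf_center_ne_bot V' hV'ne)
  obtain ⟨⟨t, htV, rfl⟩, hqc⟩ := hq
  have htN : t ∉ N := by
    intro ht
    apply hq1
    apply Subtype.ext
    exact (QuotientGroup.eq_one_iff t).2 ht
  have htc : ∀ g : P, ⁅g, t⁆ ∈ N := by
    intro g
    have hqc' : (QuotientGroup.mk' N) t ∈ center (P ⧸ N) := hqc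
    rw [Subgroup.mem_center_iff] at hqc'
    have h2 := hqc' (QuotientGroup.mk' N g)
    have h3 : (QuotientGroup.mk' N) ⁅g, t⁆ = 1 := by
      rw [map_commutatorElement, commutatorElement_eq_one_iff_mul_comm]
      exact h2
    exact (QuotientGroup.eq_one_iff _).1 h3
  obtain ⟨htB, ht3, -⟩ := (hVmem t).1 htV
  have htM := hBM htB
  rw [Subgroup.mem_centralizer_iff] at htM
  let T : Set P := (N : Set P) ∪ {t}
  have hTea := ea_closure T (by
      rintro a (ha | rfl) b (hb | rfl)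
      · exact hab a ha b hb
      · exact (htM a ha).symm ▸ rfl
      · exact (htM b hb).symm ▸ rfl
      · rfl) (by
      rintro a (ha | rfl)
      · exact hexp a ha
      · exact ht3)
  have hNE : N ≤ closure T := fun n hn => subset_closure (Or.inl hn)
  have htE : t ∈ closure T := subset_closure (Or.inr rfl)
  have hEn : (closure T).Normal := by
    refine ⟨fun b hb g => ?_⟩
    induction hb using Subgroup.closure_induction with
    | mem x hx =>
      rcases hx with hx | rfl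
      · exact hNE (hN.conj_mem x hx g)
      · have : g * x * g⁻¹ = ⁅g, x⁆ * x := by
          rw [commutatorElement_def]; group
        rw [this]
        exact mul_mem (hNE (htc g)) htE
    | one => simp
    | mul x y _ _ hx hy =>
      have : g * (x * y) * g⁻¹ = (g * x * g⁻¹) * (g * y * g⁻¹) := by group
      rw [this]; exact mul_mem hx hy
    | inv x _ hx =>
      have : g * x⁻¹ * g⁻¹ = (g * x * g⁻¹)⁻¹ := by group
      rw [this]; exact inv_mem hx
  have := hmax (closure T) hEn hNE hTea.1 hTea.2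
  exact htN (this ▸ htE)

/-- elements of the centralizer with cube in `N` commute modulo `N` -/
theorem cube_in_N_comm (hP : IsPGroup 3 P) (hexp : ∀ a ∈ N, a ^ 3 = 1)
    (hL1 : ∀ m ∈ centralizer (N : Set P), m ^ 3 = 1 → m ∈ N)
    {d d' : P} (hd : d ∈ centralizer (N : Set P)) (hd' : d' ∈ centralizer (N : Set P))
    (h3 : d ^ 3 ∈ N) (h3' : d' ^ 3 ∈ N) : ⁅d, d'⁆ ∈ N := by
  set S : Set P := {x | x ∈ centralizer (N : Set P) ∧ x ^ 3 ∈ N} with hSdef
  have hBM : closure S ≤ centralizer (N : Set P) := (closure_le _).2 (fun x hx => hx.1)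
  refine ac_rel hP (closure S) N S rfl ?_ d (subset_closure ⟨hd, h3⟩) d' (subset_closure ⟨hd', h3'⟩)
  intro e he x hx hg
  have hxB : x ∈ closure S := subset_closure hx
  have hrM : ⁅e, x⁆ ∈ centralizer (N : Set P) := by
    rw [commutatorElement_def]
    exact mul_mem (mul_mem (mul_mem (hBM he) hx.1) (inv_mem (hBM he))) (inv_mem hx.1)
  have h4 : ⁅x, ⁅e, x⁆⁆ ∈ N := by
    rw [← commutatorElement_inv]
    exact inv_mem (hg x hxB)
  have h5 := cube_M hexp hrM hx.1 h4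
  have h6 : ⁅e, x⁆ * x = e * x * e⁻¹ := by
    rw [commutatorElement_def]; group
  have h7 : e * x ^ 3 * e⁻¹ = x ^ 3 := by
    have := hBM he
    rw [Subgroup.mem_centralizer_iff] at this
    rw [(this _ hx.2).symm]; group
  rw [h6, conj_pow, h7] at h5
  apply hL1 _ hrM
  have : (⁅e, x⁆ ^ 3) * x ^ 3 = 1 * x ^ 3 := by rw [one_mul]; exact h5.symm
  exact mul_right_cancel this

/-- an element of the centralizer with central cube in `N` is central modulo `N` -/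
theorem comm_of_cube_central (hP : IsPGroup 3 P) (hexp : ∀ a ∈ N, a ^ 3 = 1)
    (hL1 : ∀ m ∈ centralizer (N : Set P), m ^ 3 = 1 → m ∈ N)
    {y : P} (hy : y ∈ centralizer (N : Set P)) (h3 : y ^ 3 ∈ N)
    (hc : ∀ h : P, h * y ^ 3 * h⁻¹ = y ^ 3) (h : P) : ⁅h, y⁆ ∈ N := by
  have hdM : h * y * h⁻¹ ∈ centralizer (N : Set P) := conj_mem_M N hy h
  have hdc : (h * y * h⁻¹) ^ 3 = y ^ 3 := by rw [conj_pow, hc]
  have hyi : y⁻¹ ∈ centralizer (N : Set P) := inv_mem hy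
  have hyi3 : y⁻¹ ^ 3 ∈ N := by rw [inv_pow]; exact inv_mem h3
  have h1 := cube_in_N_comm hP hexp hL1 hyi hdM hyi3 (by rw [hdc]; exact h3)
  have h2 := cube_M hexp hdM hyi h1
  have h4 : h * y * h⁻¹ * y⁻¹ = ⁅h, y⁆ := by rw [commutatorElement_def]
  rw [h4, hdc, inv_pow, mul_inv_cancel] at h2
  apply hL1 _ _ h2
  rw [← h4]
  exact mul_mem hdM hyi

end omega

section core
variable {P : Type*} [Group P] {N U Zg L : Subgroup P} [hN : N.Normal] [hU : U.Normal] {a b : P}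

theorem nonactive (hab : ∀ a ∈ N, ∀ b ∈ N, a * b = b * a)
    (haZ : ∀ n ∈ N, ⁅a, n⁆ ∈ Zg) (hbL : ∀ n ∈ N, ⁅b, n⁆ ∈ L) (hLZ : ∀ v ∈ L, v ∈ Zg → v = 1)
    (hbker : ∀ n ∈ N, ⁅b, n⁆ = 1 → n ∈ U) (hcomm : a * b = b * a)
    {y : P} (hy : ∀ h : P, ⁅h, y⁆ ∈ N) : ⁅a, y⁆ ∈ U := by
  have hra := hy a
  have hrb := hy b
  set ρa := ⁅a, y⁆ with hρa
  set ρb := ⁅b, y⁆ with hρb
  have ea : a * y * a⁻¹ = ρa * y := by rw [hρa, commutatorElement_def]; group
  have eb : b * y * b⁻¹ = ρb * y := by rw [hρb, commutatorElement_def]; group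
  have e1 : (a * ρb * a⁻¹) * ρa = (b * ρa * b⁻¹) * ρb := by
    have h1 : (a * b) * y * (a * b)⁻¹ = (a * ρb * a⁻¹) * (ρa * y) := by
      rw [← ea, show (a * ρb * a⁻¹) * (a * y * a⁻¹) = a * (ρb * y) * a⁻¹ by group, ← eb]; group
    have h2 : (b * a) * y * (b * a)⁻¹ = (b * ρa * b⁻¹) * (ρb * y) := by
      rw [← eb, show (b * ρa * b⁻¹) * (b * y * b⁻¹) = b * (ρa * y) * b⁻¹ by group, ← ea]; group
    have h7 : (b * ρa * b⁻¹) * (ρb * y) = (a * ρb * a⁻¹) * (ρa * y) := by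
      rw [← h2, ← h1, hcomm]
    have h8 : ((a * ρb * a⁻¹) * ρa) * y = ((b * ρa * b⁻¹) * ρb) * y := by
      rw [mul_assoc (a * ρb * a⁻¹), mul_assoc (b * ρa * b⁻¹)]; exact h7.symm
    exact mul_right_cancel h8
  have e2 : ⁅a, ρb⁆ = ⁅b, ρa⁆ := by
    have hcm : ρa * ρb = ρb * ρa := hab _ hra _ hrb
    rw [commutatorElement_def, commutatorElement_def]
    have h4 : a * ρb * a⁻¹ = (b * ρa * b⁻¹) * ρb * ρa⁻¹ := by rw [← e1]; group
    rw [h4]
    have h5 : ρb * ρa⁻¹ * ρb⁻¹ = ρa⁻¹ := by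
      have c1 : Commute ρb ρa := hcm.symm
      have c2 := c1.inv_right
      rw [c2.eq]; group
    calc b * ρa * b⁻¹ * ρb * ρa⁻¹ * ρb⁻¹ = b * ρa * b⁻¹ * (ρb * ρa⁻¹ * ρb⁻¹) := by group
      _ = b * ρa * b⁻¹ * ρa⁻¹ := by rw [h5]
  apply hbker _ hra
  apply hLZ _ (hbL _ hra)
  rw [← e2]
  exact haZ _ hrb

theorem comm_conj_eq (g x y : P) : ⁅g * x * g⁻¹, y⁆ = g * ⁅x, g⁻¹ * y * g⁻¹⁻¹⁆ * g⁻¹ := by
  simp only [commutatorElement_def]; group

theorem nonactive_conj (hab : ∀ a ∈ N, ∀ b ∈ N, a * b = b * a)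
    (haZ : ∀ n ∈ N, ⁅a, n⁆ ∈ Zg) (hbL : ∀ n ∈ N, ⁅b, n⁆ ∈ L) (hLZ : ∀ v ∈ L, v ∈ Zg → v = 1)
    (hbker : ∀ n ∈ N, ⁅b, n⁆ = 1 → n ∈ U) (hcomm : a * b = b * a)
    {y : P} (hy : ∀ h : P, ⁅h, y⁆ ∈ N) (g : P) : ⁅g * a * g⁻¹, y⁆ ∈ U := by
  rw [comm_conj_eq]
  apply hU.conj_mem
  apply nonactive hab haZ hbL hLZ hbker hcomm
  intro h
  have : ⁅h, g⁻¹ * y * g⁻¹⁻¹⁆ = g⁻¹ * ⁅g * h * g⁻¹, y⁆ * g⁻¹⁻¹ := by
    simp only [commutatorElement_def]; group
  rw [this]
  exact hN.conj_mem _ (hy _) g⁻¹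

theorem conj_act_U (haU : ∀ n ∈ U, ⁅a, n⁆ = 1) (g : P) {s : P} (hs : s ∈ U) :
    ⁅g * a * g⁻¹, s⁆ = 1 := by
  rw [comm_conj_eq, haU _ (hU.conj_mem s hs g⁻¹)]; group

theorem conj_act_N (hZc : ∀ v ∈ Zg, ∀ g : P, g * v = v * g) (haZ : ∀ n ∈ N, ⁅a, n⁆ ∈ Zg)
    (g : P) {n : P} (hn : n ∈ N) :
    ⁅g * a * g⁻¹, n⁆ = ⁅a, g⁻¹ * n * g⁻¹⁻¹⁆ := by
  rw [comm_conj_eq, hZc _ (haZ _ (hN.conj_mem n hn g⁻¹)) g]; group

theorem conj_act_same (hZc : ∀ v ∈ Zg, ∀ g : P, g * v = v * g) (haZ : ∀ n ∈ N, ⁅a, n⁆ ∈ Zg)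
    (haU : ∀ n ∈ U, ⁅a, n⁆ = 1) (hNU : ∀ (g : P), ∀ n ∈ N, ⁅g, n⁆ ∈ U)
    (g : P) {n : P} (hn : n ∈ N) : ⁅g * a * g⁻¹, n⁆ = ⁅a, n⁆ := by
  rw [conj_act_N hZc haZ g hn]
  set u₁ := ⁅g⁻¹, n⁆ with hu₁
  have h1 : g⁻¹ * n * g⁻¹⁻¹ = u₁ * n := by rw [hu₁, commutatorElement_def]; group
  rw [h1]
  have hu₁U : u₁ ∈ U := hNU _ n hn
  have h2 : a * u₁ * a⁻¹ = u₁ := by
    have := haU _ hu₁U
    rw [commutatorElement_eq_one_iff_mul_comm] at this
    rw [this]; group
  have h3 : ⁅a, u₁ * n⁆ = u₁ * ⁅a, n⁆ * u₁⁻¹ := by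
    simp only [commutatorElement_def]
    calc a * (u₁ * n) * a⁻¹ * (u₁ * n)⁻¹ = (a * u₁ * a⁻¹) * (a * n * a⁻¹) * n⁻¹ * u₁⁻¹ := by group
      _ = u₁ * (a * n * a⁻¹ * n⁻¹) * u₁⁻¹ := by rw [h2]; group
  rw [h3, hZc _ (haZ n hn) u₁]; group

/-- the group of elements acting on `N` through `Zg` -/
def K0 (N Zg : Subgroup P) (hZc : ∀ v ∈ Zg, ∀ g : P, g * v = v * g) : Subgroup P where
  carrier := {g | ∀ n ∈ N, ⁅g, n⁆ ∈ Zg}
  one_mem' := fun n _ => by simp
  mul_mem' := by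
    intro x y hx hy n hn
    have : ⁅x * y, n⁆ = x * ⁅y, n⁆ * x⁻¹ * ⁅x, n⁆ := by
      simp only [commutatorElement_def]; group
    rw [this, hZc _ (hy n hn) x]
    simpa using mul_mem (hy n hn) (hx n hn)
  inv_mem' := by
    intro x hx n hn
    have h1 : x⁻¹ * n * x = ⁅x⁻¹, n⁆ * n := by
      simp only [commutatorElement_def]; group
    have : ⁅x⁻¹, n⁆ = x⁻¹ * ⁅x, n⁆⁻¹ * x := by
      simp only [commutatorElement_def]; group
    rw [this, mul_assoc, ← hZc _ (inv_mem (hx n hn)) x]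
    simpa using inv_mem (hx n hn)

theorem comm_mem_M (hZc : ∀ v ∈ Zg, ∀ g : P, g * v = v * g) {e f : P}
    (he : e ∈ K0 N Zg hZc) (hf : f ∈ K0 N Zg hZc) : ⁅e, f⁆ ∈ centralizer (N : Set P) := by
  have key : ∀ n ∈ N, (e * f) * n * (e * f)⁻¹ = (f * e) * n * (f * e)⁻¹ := by
    intro n hn
    have h1 : e * n * e⁻¹ = ⁅e, n⁆ * n := by rw [commutatorElement_def]; group
    have h2 : f * n * f⁻¹ = ⁅f, n⁆ * n := by rw [commutatorElement_def]; group
    have hze : ⁅e, n⁆ ∈ Zg := he n hn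
    have hzf : ⁅f, n⁆ ∈ Zg := hf n hn
    calc (e * f) * n * (e * f)⁻¹ = e * (f * n * f⁻¹) * e⁻¹ := by group
      _ = e * (⁅f, n⁆ * n) * e⁻¹ := by rw [h2]
      _ = ⁅f, n⁆ * (e * n * e⁻¹) := by
        rw [show e * (⁅f, n⁆ * n) * e⁻¹ = (e * ⁅f, n⁆) * n * e⁻¹ by group, hZc _ hzf e]; group
      _ = ⁅f, n⁆ * (⁅e, n⁆ * n) := by rw [h1]
      _ = ⁅e, n⁆ * (⁅f, n⁆ * n) := by
        rw [← mul_assoc, ← mul_assoc, ← hZc _ hze ⁅f, n⁆]
      _ = ⁅e, n⁆ * (f * n * f⁻¹) := by rw [h2]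
      _ = f * (⁅e, n⁆ * n) * f⁻¹ := by
        rw [show f * (⁅e, n⁆ * n) * f⁻¹ = (f * ⁅e, n⁆) * n * f⁻¹ by group, hZc _ hze f]; group
      _ = f * (e * n * e⁻¹) * f⁻¹ := by rw [h1]
      _ = (f * e) * n * (f * e)⁻¹ := by group
  rw [Subgroup.mem_centralizer_iff]
  intro n hn
  have hn' : (f * e)⁻¹ * n * (f * e)⁻¹⁻¹ ∈ N := hN.conj_mem n hn _
  have h3 := key _ hn'
  have h4 : (f * e) * ((f * e)⁻¹ * n * (f * e)⁻¹⁻¹) * (f * e)⁻¹ = n := by group
  rw [h4] at h3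
  have h5 : ⁅e, f⁆ = (e * f) * (f * e)⁻¹ := by rw [commutatorElement_def]; group
  rw [h5]
  calc n * ((e * f) * (f * e)⁻¹) = ((e * f) * ((f * e)⁻¹ * n * (f * e)⁻¹⁻¹) * (e * f)⁻¹) * ((e * f) * (f * e)⁻¹) := by rw [h3]
    _ = (e * f) * (f * e)⁻¹ * n := by group

end core

section core2
variable {P : Type*} [Group P] [Finite P] {N U Zg L : Subgroup P} [hN : N.Normal] [hU : U.Normal]
  {a b : P}

theorem B_comm (hP : IsPGroup 3 P) (hab : ∀ a ∈ N, ∀ b ∈ N, a * b = b * a)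
    (hexp : ∀ a ∈ N, a ^ 3 = 1)
    (hL1 : ∀ m ∈ centralizer (N : Set P), m ^ 3 = 1 → m ∈ N)
    (hZc : ∀ v ∈ Zg, ∀ g : P, g * v = v * g) (hZN : Zg ≤ N)
    (haZ : ∀ n ∈ N, ⁅a, n⁆ ∈ Zg) (haU : ∀ n ∈ U, ⁅a, n⁆ = 1)
    (hbL : ∀ n ∈ N, ⁅b, n⁆ ∈ L) (hLZ : ∀ v ∈ L, v ∈ Zg → v = 1)
    (hbker : ∀ n ∈ N, ⁅b, n⁆ = 1 → n ∈ U) (hcomm : a * b = b * a) (ha3 : a ^ 3 = 1)
    (g g' : P) : ⁅g * a * g⁻¹, g' * a * g'⁻¹⁆ ∈ N := by
  set S : Set P := {x | ∃ g : P, x = g * a * g⁻¹} ∪ (N : Set P) with hSdef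
  have hSK : closure S ≤ K0 N Zg hZc := by
    rw [closure_le]
    rintro x (⟨g, rfl⟩ | hx)
    · intro n hn
      rw [conj_act_N hZc haZ g hn]
      exact haZ _ (hN.conj_mem n hn g⁻¹)
    · intro n hn
      have : ⁅x, n⁆ = 1 := by
        rw [commutatorElement_eq_one_iff_mul_comm]; exact hab x hx n hn
      rw [this]; exact one_mem _
  refine ac_rel hP (closure S) N S rfl ?_ _ (subset_closure (Or.inl ⟨g, rfl⟩)) _
    (subset_closure (Or.inl ⟨g', rfl⟩))
  intro e he d hd hyp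
  rcases hd with ⟨g₀, rfl⟩ | hd
  · set d := g₀ * a * g₀⁻¹ with hd
    have hdB : d ∈ closure S := subset_closure (Or.inl ⟨g₀, rfl⟩)
    have hrM := comm_mem_M (N := N) hZc (hSK he) (hSK hdB)
    set r := ⁅e, d⁆ with hr
    have hs : ⁅d, r⁆ ∈ N := by
      rw [← commutatorElement_inv]
      exact inv_mem (hyp d hdB)
    set s := ⁅d, r⁆ with hsdef
    have ht : ⁅d, s⁆ ∈ Zg := hSK hdB s hs
    set t := ⁅d, s⁆ with htdef
    have hM := hrM
    rw [Subgroup.mem_centralizer_iff] at hM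
    have h3 := cube2 r d s t (by rw [hsdef, commutatorElement_def]; group)
      (by rw [htdef, commutatorElement_def]; group) (hM s hs)
      ((hZc t ht r).symm) ((hZc t ht s).symm) (hexp s hs)
    have hd3 : d ^ 3 = 1 := by rw [hd, conj_pow, ha3]; group
    have h6 : r * d = e * d * e⁻¹ := by
      rw [hr, commutatorElement_def]; group
    rw [h6, conj_pow, hd3, mul_one, mul_one, mul_inv_cancel] at h3
    have hr3 : r ^ 3 = t⁻¹ := by
      rw [eq_inv_iff_mul_eq_one]; exact h3.symm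
    have hr3Z : r ^ 3 ∈ Zg := by rw [hr3]; exact inv_mem ht
    have hall := comm_of_cube_central hP hexp hL1 hrM (hZN hr3Z)
      (fun h => by rw [hZc _ hr3Z h]; group)
    have hsU : s ∈ U := nonactive_conj hab haZ hbL hLZ hbker hcomm hall g₀
    have ht1 : t = 1 := conj_act_U haU g₀ hsU
    rw [ht1, inv_one] at hr3
    exact hL1 r hrM hr3
  · exact Cfsg.Agent.Lib.Basic.commutator_mem_right hd e

theorem conj_in_aN (hP : IsPGroup 3 P) (hab : ∀ a ∈ N, ∀ b ∈ N, a * b = b * a)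
    (hexp : ∀ a ∈ N, a ^ 3 = 1)
    (hL1 : ∀ m ∈ centralizer (N : Set P), m ^ 3 = 1 → m ∈ N)
    (hZc : ∀ v ∈ Zg, ∀ g : P, g * v = v * g) (hZN : Zg ≤ N)
    (haZ : ∀ n ∈ N, ⁅a, n⁆ ∈ Zg) (haU : ∀ n ∈ U, ⁅a, n⁆ = 1)
    (hbL : ∀ n ∈ N, ⁅b, n⁆ ∈ L) (hLZ : ∀ v ∈ L, v ∈ Zg → v = 1)
    (hbker : ∀ n ∈ N, ⁅b, n⁆ = 1 → n ∈ U) (hcomm : a * b = b * a) (ha3 : a ^ 3 = 1)
    (hNU : ∀ (g : P), ∀ n ∈ N, ⁅g, n⁆ ∈ U)
    (g : P) : g * a * g⁻¹ * a⁻¹ ∈ N := by
  set d := g * a * g⁻¹ with hd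
  set m := d * a⁻¹ with hm
  have hact : ∀ n ∈ N, d * n * d⁻¹ = a * n * a⁻¹ := by
    intro n hn
    have h1 := conj_act_same (g := g) hZc haZ haU hNU hn
    rw [← hd, commutatorElement_def, commutatorElement_def] at h1
    exact mul_right_cancel h1
  have hmM : m ∈ centralizer (N : Set P) := by
    rw [Subgroup.mem_centralizer_iff]
    intro n hn
    have h2 := hact (a⁻¹ * n * a⁻¹⁻¹) (hN.conj_mem n hn a⁻¹)
    have h3 : a * (a⁻¹ * n * a⁻¹⁻¹) * a⁻¹ = n := by group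
    rw [h3] at h2
    rw [hm]
    calc n * (d * a⁻¹) = (d * (a⁻¹ * n * a⁻¹⁻¹) * d⁻¹) * (d * a⁻¹) := by rw [h2]
      _ = d * a⁻¹ * n := by group
  have hcN : ⁅a, d⁆ ∈ N := by
    have := B_comm (g := 1) (g' := g) hP hab hexp hL1 hZc hZN haZ haU hbL hLZ hbker hcomm ha3
    simpa using this
  have hsd : ⁅a, m⁆ = ⁅a, d⁆ := by
    rw [hm]; simp only [commutatorElement_def]; group
  have hs : ⁅a, m⁆ ∈ N := by rw [hsd]; exact hcN
  set s := ⁅a, m⁆ with hsdef
  have ht : ⁅a, s⁆ ∈ Zg := haZ s hs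
  set t := ⁅a, s⁆ with htdef
  have hM := hmM
  rw [Subgroup.mem_centralizer_iff] at hM
  have h3 := cube2 m a s t (by rw [hsdef, commutatorElement_def]; group)
    (by rw [htdef, commutatorElement_def]; group) (hM s hs)
    ((hZc t ht m).symm) ((hZc t ht s).symm) (hexp s hs)
  have h6 : m * a = d := by rw [hm]; group
  have hd3 : d ^ 3 = 1 := by rw [hd, conj_pow, ha3]; group
  rw [h6, hd3, ha3, mul_one] at h3
  have hr3 : m ^ 3 = t⁻¹ := by
    rw [eq_inv_iff_mul_eq_one]; exact h3.symm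
  have hr3Z : m ^ 3 ∈ Zg := by rw [hr3]; exact inv_mem ht
  have hall := comm_of_cube_central hP hexp hL1 hmM (hZN hr3Z)
    (fun h => by rw [hZc _ hr3Z h]; group)
  have hsU : s ∈ U := nonactive hab haZ hbL hLZ hbker hcomm hall
  have ht1 : t = 1 := haU s hsU
  rw [ht1, inv_one] at hr3
  exact hL1 m hmM hr3

end core2

section linear

theorem h1_lemma {A : Type*} [Group A] [Finite A] (hc : ∀ a b : A, a * b = b * a)
    (σ : A →* A) (h3 : ∀ a, σ (σ (σ a)) = a) (hexp : ∀ a : A, a ^ 3 = 1)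
    (hfix : ∀ F : Subgroup A, (∀ a ∈ F, σ a = a) → Nat.card F ≤ 3) :
    Nat.card A ≤ 27 ∧ (Nat.card A = 27 →
      ∀ n : A, n * σ n * σ (σ n) = 1 → ∃ n' : A, n = n' * (σ n')⁻¹) := by
  letI inst : CommGroup A := { (inferInstance : Group A) with mul_comm := hc }
  let φ : A →* A := MonoidHom.mk' (fun a => a * (σ a)⁻¹) (fun a b => by
    simp only [map_mul, mul_inv_rev]
    rw [mul_comm (σ b)⁻¹ (σ a)⁻¹, mul_mul_mul_comm])
  have hφ : ∀ a, φ a = a * (σ a)⁻¹ := fun a => rfl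
  have hinv : ∀ a : A, a⁻¹ * a⁻¹ = a := by
    intro a
    have := hexp a
    rw [pow_succ, pow_succ, pow_one] at this
    have h2 : a⁻¹ * a⁻¹ * (a * a) = 1 := by simp [mul_comm, mul_left_comm]
    calc a⁻¹ * a⁻¹ = a⁻¹ * a⁻¹ * (a * a * a) := by rw [this, mul_one]
      _ = (a⁻¹ * a⁻¹ * (a * a)) * a := by simp only [mul_assoc]
      _ = a := by rw [h2, one_mul]
  have hψ : ∀ a, φ (φ a) = a * σ a * σ (σ a) := by
    intro a
    rw [hφ, hφ, map_mul, map_inv, mul_inv_rev, inv_inv]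
    calc a * (σ a)⁻¹ * (σ (σ a) * (σ a)⁻¹) = a * ((σ a)⁻¹ * (σ a)⁻¹) * σ (σ a) := by
          simp [mul_comm, mul_left_comm]
      _ = a * σ a * σ (σ a) := by rw [hinv]
  have hψfix : ∀ a, σ (φ (φ a)) = φ (φ a) := by
    intro a
    rw [hψ, map_mul, map_mul, h3]
    simp [mul_comm, mul_left_comm]
  have hker : Nat.card φ.ker ≤ 3 := by
    apply hfix
    intro a ha
    rw [MonoidHom.mem_ker, hφ, mul_inv_eq_one] at ha
    exact ha.symm
  have hcard : Nat.card φ.ker * Nat.card φ.range = Nat.card A := by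
    rw [← Subgroup.index_ker]; exact Subgroup.card_mul_index _
  -- second step
  let f : φ.range →* A := φ.comp φ.range.subtype
  have hfcard : Nat.card f.ker * Nat.card f.range = Nat.card φ.range := by
    rw [← Subgroup.index_ker]; exact Subgroup.card_mul_index _
  have hfker : Nat.card f.ker ≤ 3 := by
    have h1 := hfix (f.ker.map φ.range.subtype) (by
      rintro _ ⟨r, hr, rfl⟩
      have hr' : f r = 1 := hr
      have : φ (r : A) = 1 := hr'
      rw [hφ, mul_inv_eq_one] at this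
      exact this.symm)
    have h2 : Nat.card ↥(f.ker.map φ.range.subtype) = Nat.card f.ker :=
      Nat.card_congr (f.ker.equivMapOfInjective _ (Subtype.val_injective)).symm.toEquiv
    rwa [h2] at h1
  have hfrange : Nat.card f.range ≤ 3 := by
    apply hfix
    rintro _ ⟨⟨_, a, rfl⟩, rfl⟩
    exact hψfix a
  have hrange : Nat.card φ.range ≤ 9 := by
    rw [← hfcard]; exact Nat.mul_le_mul hfker hfrange
  have h27 : Nat.card A ≤ 27 := by
    rw [← hcard]; exact Nat.mul_le_mul hker hrange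
  refine ⟨h27, fun hA n hn => ?_⟩
  have hr9 : 9 ≤ Nat.card φ.range := by
    have : 27 ≤ 3 * Nat.card φ.range := by
      rw [← hA, ← hcard]; exact Nat.mul_le_mul_right _ hker
    omega
  let ψ : A →* A := φ.comp φ
  have hrψ : φ.range ≤ ψ.ker := by
    rintro _ ⟨a, rfl⟩
    rw [MonoidHom.mem_ker]
    change φ (φ (φ a)) = 1
    rw [hφ (φ (φ a)), hψfix a, mul_inv_cancel]
  have hψker : Nat.card ψ.ker ≤ 9 := by
    have hne : ψ.ker ≠ ⊤ := by
      intro htop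
      have : φ.range ≤ φ.ker := by
        rintro _ ⟨a, rfl⟩
        have : a ∈ ψ.ker := by rw [htop]; trivial
        exact this
      have := Subgroup.card_le_of_le this
      omega
    have hdvd : Nat.card ψ.ker ∣ 27 := by rw [← hA]; exact Subgroup.card_subgroup_dvd_card _
    have hle : Nat.card ψ.ker ≠ 27 := by
      intro h
      apply hne
      apply Subgroup.eq_top_of_card_eq
      rw [h, hA]
    have h27' : (27 : ℕ) = 3 ^ 3 := by norm_num
    rw [h27', Nat.dvd_prime_pow Nat.prime_three] at hdvd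
    obtain ⟨k, hk, hk2⟩ := hdvd
    interval_cases k
    · rw [hk2]; norm_num
    · rw [hk2]; norm_num
    · rw [hk2]; norm_num
    · exact absurd (by rw [hk2]; norm_num) hle
  have heq : φ.range = ψ.ker := Subgroup.eq_of_le_of_card_ge hrψ (by omega)
  have hnψ : n ∈ ψ.ker := by
    rw [MonoidHom.mem_ker]
    change φ (φ n) = 1
    rw [hψ, hn]
  rw [← heq] at hnψ
  obtain ⟨n', hn'⟩ := hnψ
  exact ⟨n', hn'.symm⟩

end linear

section counting
variable {P : Type*} [Group P] [Finite P]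

/-- commutator hom -/
def commHom (H T : Subgroup P) (v : P) (h1 : ∀ h ∈ H, ⁅h, v⁆ ∈ T)
    (h2 : ∀ h ∈ H, ∀ τ ∈ T, h * τ = τ * h) (h3 : ∀ τ ∈ T, ∀ τ' ∈ T, τ * τ' = τ' * τ) : H →* T :=
  MonoidHom.mk' (fun h => ⟨⁅(h : P), v⁆, h1 h h.2⟩) (fun a b => by
    apply Subtype.ext
    change ⁅(a : P) * b, v⁆ = ⁅(a : P), v⁆ * ⁅(b : P), v⁆
    have e : ⁅(a : P) * b, v⁆ = a * ⁅(b : P), v⁆ * (a : P)⁻¹ * ⁅(a : P), v⁆ := by
      simp only [commutatorElement_def]; group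
    rw [e, h2 a a.2 _ (h1 b b.2), mul_inv_cancel_right, h3 _ (h1 b b.2) _ (h1 a a.2)])

theorem commHom_apply (H T : Subgroup P) (v : P) (h1 : ∀ h ∈ H, ⁅h, v⁆ ∈ T)
    (h2 : ∀ h ∈ H, ∀ τ ∈ T, h * τ = τ * h) (h3 : ∀ τ ∈ T, ∀ τ' ∈ T, τ * τ' = τ' * τ) (h : H) :
    ((commHom H T v h1 h2 h3 h : T) : P) = ⁅(h : P), v⁆ := rfl

theorem card_lt_mul (hP : IsPGroup 3 P) {H K : Subgroup P} (hHK : H ≤ K) (hne : H ≠ K) :
    3 * Nat.card H ≤ Nat.card K := by
  haveI : Fact (Nat.Prime 3) := ⟨Nat.prime_three⟩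
  obtain ⟨i, hi⟩ := IsPGroup.iff_card.1 (hP.to_subgroup H)
  obtain ⟨j, hj⟩ := IsPGroup.iff_card.1 (hP.to_subgroup K)
  have hdvd : Nat.card H ∣ Nat.card K := Subgroup.card_dvd_of_le hHK
  rw [hi, hj, Nat.pow_dvd_pow_iff_le_right (by norm_num)] at hdvd
  have hne' : i ≠ j := by
    intro h
    apply hne
    apply Subgroup.eq_of_le_of_card_ge hHK
    rw [hi, hj, h]
  have hlt : i + 1 ≤ j := by omega
  rw [hi, hj]
  calc 3 * 3 ^ i = 3 ^ (i + 1) := by ring
    _ ≤ 3 ^ j := Nat.pow_le_pow_right (by norm_num) hlt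

/-- a subgroup strictly between in index 3 is everything -/
theorem eq_of_card_three_mul (hP : IsPGroup 3 P) {V H W : Subgroup P} (hVH : V ≤ H) (hHW : H ≤ W)
    (hc : Nat.card W = 3 * Nat.card V) (hne : V ≠ H) : H = W := by
  have h1 := card_lt_mul hP hVH hne
  apply Subgroup.eq_of_le_of_card_ge hHW
  rw [hc]; exact h1

theorem comm_of_index3 (hP : IsPGroup 3 P) {V W : Subgroup P} [hV : V.Normal] [hW : W.Normal]
    (hVW : V ≤ W) (hc : Nat.card W = 3 * Nat.card V) (g : P) {n : P} (hn : n ∈ W) :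
    ⁅g, n⁆ ∈ V := by
  haveI : Fact (Nat.Prime 3) := ⟨Nat.prime_three⟩
  have hQ : IsPGroup 3 (P ⧸ V) := hP.to_quotient V
  haveI : Group.IsNilpotent (P ⧸ V) := hQ.isNilpotent
  let W' : Subgroup (P ⧸ V) := W.map (QuotientGroup.mk' V)
  haveI : W'.Normal := hW.map _ (QuotientGroup.mk'_surjective V)
  have hpos : 0 < Nat.card V := Nat.card_pos
  have hne : V ≠ W := by
    intro h
    rw [← h] at hc
    omega
  obtain ⟨w₀, hw₀, hw₀V⟩ : ∃ w₀ ∈ W, w₀ ∉ V := by
    by_contra hcon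
    push Not at hcon
    exact hne (le_antisymm hVW hcon)
  have hW'ne : W' ≠ ⊥ := by
    intro h
    have : (QuotientGroup.mk' V) w₀ ∈ W' := Subgroup.mem_map_of_mem _ hw₀
    rw [h, Subgroup.mem_bot] at this
    exact hw₀V ((QuotientGroup.eq_one_iff w₀).1 this)
  obtain ⟨⟨q, hq⟩, hq1⟩ := Subgroup.ne_bot_iff_exists_ne_one.1
    (Cfsg.Agent.Lib.Basic.normal_inf_center_ne_bot W' hW'ne)
  obtain ⟨⟨t, htW, rfl⟩, hqc⟩ := hq
  have htV : t ∉ V := by
    intro ht
    apply hq1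
    apply Subtype.ext
    exact (QuotientGroup.eq_one_iff t).2 ht
  let H : Subgroup P := W ⊓ (center (P ⧸ V)).comap (QuotientGroup.mk' V)
  have hVH : V ≤ H := by
    intro v hv
    refine ⟨hVW hv, ?_⟩
    change (QuotientGroup.mk' V) v ∈ center (P ⧸ V)
    have : (QuotientGroup.mk' V) v = 1 := (QuotientGroup.eq_one_iff v).2 hv
    rw [this]
    exact one_mem _
  have htH : t ∈ H := ⟨htW, hqc⟩
  have hHW : H ≤ W := inf_le_left
  have hVHne : V ≠ H := fun h => htV (h ▸ htH)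
  have hHeq := eq_of_card_three_mul hP hVH hHW hc hVHne
  have hnH : n ∈ H := hHeq ▸ hn
  have hnc : (QuotientGroup.mk' V) n ∈ center (P ⧸ V) := hnH.2
  rw [Subgroup.mem_center_iff] at hnc
  have h2 := hnc (QuotientGroup.mk' V g)
  have h3 : (QuotientGroup.mk' V) ⁅g, n⁆ = 1 := by
    rw [map_commutatorElement, commutatorElement_eq_one_iff_mul_comm]
    exact h2
  exact (QuotientGroup.eq_one_iff _).1 h3

/-- in a group of order 9 with a subgroup of order 3, one more element generates -/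
theorem comm_all {X Zg : Subgroup P} (hP : IsPGroup 3 P) (hZX : Zg ≤ X) (hcX : Nat.card X = 9)
    (hcZ : Nat.card Zg = 3) {c t : P} (hc : c ∈ X) (hcZ' : c ∉ Zg) (hct : c * t = t * c)
    (hZt : ∀ v ∈ Zg, v * t = t * v) : ∀ ξ ∈ X, ξ * t = t * ξ := by
  let H : Subgroup P := X ⊓ centralizer ({t} : Set P)
  have hZH : Zg ≤ H := by
    intro v hv
    refine Subgroup.mem_inf.2 ⟨hZX hv, Subgroup.mem_centralizer_iff.2 ?_⟩
    rintro _ rfl
    exact (hZt v hv).symm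
  have hcH : c ∈ H := by
    refine Subgroup.mem_inf.2 ⟨hc, Subgroup.mem_centralizer_iff.2 ?_⟩
    rintro _ rfl
    exact hct.symm
  have hH := eq_of_card_three_mul hP hZH (inf_le_left : H ≤ X) (by rw [hcX, hcZ])
    (fun h => hcZ' (h ▸ hcH))
  intro ξ hξ
  have : ξ ∈ H := hH ▸ hξ
  have h2 := (Subgroup.mem_inf.1 this).2
  rw [Subgroup.mem_centralizer_iff] at h2
  exact (h2 t rfl).symm

end counting

section main
variable {P : Type*} [Group P] [Finite P]

theorem comm_of_ea {E : Subgroup P} (h : Cfsg.IsElementaryAbelian 3 E) :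
    ∀ a ∈ E, ∀ b ∈ E, a * b = b * a := fun a ha b hb =>
  congrArg Subtype.val (h.1.is_comm.comm ⟨a, ha⟩ ⟨b, hb⟩)

open scoped Pointwise in
theorem centralizer_rank (hP : IsPGroup 3 P) (U : Subgroup P) [hUn : U.Normal]
    (hUe : Cfsg.IsElementaryAbelian 3 U) (hUc : Nat.card U = 3 ^ 2)
    (hA : ¬ Cfsg.PRankLE 3 3 P) (X : Subgroup P) (hXe : Cfsg.IsElementaryAbelian 3 X)
    (hXc : 3 ^ 2 ≤ Nat.card X) : ¬ Cfsg.PRankLE 3 2 ↥(centralizer (X : Set P)) := by
  classical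
  haveI : Fact (Nat.Prime 3) := ⟨Nat.prime_three⟩
  intro hrank
  have hUab : ∀ a ∈ U, ∀ b ∈ U, a * b = b * a := comm_of_ea hUe
  have hU3 := hUe.2
  have hXab := comm_of_ea hXe
  have hX3 := hXe.2
  have hUc9 : Nat.card U = 9 := by rw [hUc]; norm_num
  have hbound : ∀ E : Subgroup P, (∀ a ∈ E, ∀ b ∈ E, a * b = b * a) → (∀ a ∈ E, a ^ 3 = 1) →
      (∀ a ∈ E, ∀ ξ ∈ X, ξ * a = a * ξ) → Nat.card E ≤ 9 := by
    intro E h1 h2 h3
    have hle : E ≤ centralizer (X : Set P) := fun a ha =>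
      Subgroup.mem_centralizer_iff.2 (fun ξ hξ => h3 a ha ξ hξ)
    have h4 := hrank (E.subgroupOf (centralizer (X : Set P)))
      ⟨⟨fun a b => Subtype.ext (Subtype.ext (h1 _ a.2 _ b.2))⟩⟩
      (fun a ha => Subtype.ext (h2 _ ha))
    have h5 : Nat.card ↥(E.subgroupOf (centralizer (X : Set P))) = Nat.card E :=
      Nat.card_congr (Subgroup.subgroupOfEquivOfLe hle).toEquiv
    rw [h5] at h4
    simpa using h4
  have hXc9 : Nat.card X = 9 := by
    have := hbound X hXab hX3 (fun a ha ξ hξ => hXab ξ hξ a ha)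
    have h9 : 9 ≤ Nat.card X := by simpa using hXc
    omega
  have maxX : ∀ t : P, (∀ ξ ∈ X, ξ * t = t * ξ) → t ^ 3 = 1 → t ∈ X := by
    intro t h1 h2
    let T : Set P := (X : Set P) ∪ {t}
    have hT := ea_closure T (by
      rintro a (ha | rfl) b (hb | rfl)
      · exact hXab a ha b hb
      · exact h1 a ha
      · exact (h1 b hb).symm
      · rfl) (by
      rintro a (ha | rfl)
      · exact hX3 a ha
      · exact h2)
    have hXT : X ≤ closure T := fun ξ hξ => subset_closure (Or.inl hξ)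
    have htT : t ∈ closure T := subset_closure (Or.inr rfl)
    have hc := hbound (closure T) hT.1 hT.2 (fun a ha ξ hξ => hT.1 ξ (hXT hξ) a ha)
    have heq := Subgroup.eq_of_le_of_card_ge hXT (by omega)
    rw [heq]; exact htT
  -- a central element
  haveI hnil : Group.IsNilpotent P := hP.isNilpotent
  have hUne : U ≠ ⊥ := by
    intro h
    rw [h] at hUc9
    simp at hUc9
  obtain ⟨⟨z, hz⟩, hz1⟩ := Subgroup.ne_bot_iff_exists_ne_one.1
    (Cfsg.Agent.Lib.Basic.normal_inf_center_ne_bot U hUne)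
  obtain ⟨hzU, hzc'⟩ := Subgroup.mem_inf.1 hz
  have hzne : z ≠ 1 := fun h => hz1 (Subtype.ext h)
  have hzc : ∀ g : P, g * z = z * g := Subgroup.mem_center_iff.1 hzc'
  have hz3 : z ^ 3 = 1 := hU3 z hzU
  set Zg : Subgroup P := zpowers z with hZg
  have hZcard : Nat.card Zg = 3 := by
    rw [hZg, Nat.card_zpowers]
    exact orderOf_eq_prime hz3 hzne
  have hZc : ∀ v ∈ Zg, ∀ g : P, g * v = v * g := by
    rintro v ⟨k, rfl⟩ g
    have : Commute g z := hzc g
    exact (this.zpow_right k).eq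
  haveI hZn : Zg.Normal := ⟨fun v hv g => by rw [hZc v hv g]; simpa using hv⟩
  have hZU : Zg ≤ U := by
    rw [hZg, Subgroup.zpowers_le]; exact hzU
  have hzX : z ∈ X := maxX z (fun ξ _ => hzc ξ) hz3
  have hZX : Zg ≤ X := by
    rw [hZg, Subgroup.zpowers_le]; exact hzX
  -- maximal normal elementary abelian over U
  let 𝒮 : Set (Subgroup P) := {E | E.Normal ∧ U ≤ E ∧ (∀ a ∈ E, ∀ b ∈ E, a * b = b * a) ∧
    ∀ a ∈ E, a ^ 3 = 1}
  have hU𝒮 : U ∈ 𝒮 := ⟨hUn, le_rfl, hUab, hU3⟩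
  obtain ⟨N, hUN, hNmax⟩ := (Set.toFinite 𝒮).exists_le_maximal hU𝒮
  obtain ⟨hNn, -, hNab, hNe⟩ := hNmax.prop
  haveI := hNn
  have hmax : ∀ E : Subgroup P, E.Normal → N ≤ E → (∀ a ∈ E, ∀ b ∈ E, a * b = b * a) →
      (∀ a ∈ E, a ^ 3 = 1) → E = N := by
    intro E h1 h2 h3 h4
    exact le_antisymm (hNmax.le_of_ge ⟨h1, hUN.trans h2, h3, h4⟩ h2) h2
  have hL1 : ∀ m ∈ centralizer (N : Set P), m ^ 3 = 1 → m ∈ N := omega_le hP hNab hNe hmax
  -- the big subgroup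
  unfold Cfsg.PRankLE at hA
  push Not at hA
  obtain ⟨A, hAc, hA3, hAcard⟩ := hA
  have hAab : ∀ a ∈ A, ∀ b ∈ A, a * b = b * a := fun a ha b hb =>
    congrArg Subtype.val (hAc.is_comm.comm ⟨a, ha⟩ ⟨b, hb⟩)
  have hAcard' : 27 < Nat.card A := by simpa using hAcard
  -- an element of U outside Zg
  obtain ⟨u₀, hu₀U, hu₀Z⟩ : ∃ u₀ ∈ U, u₀ ∉ Zg := by
    by_contra hcon
    push Not at hcon
    have := Subgroup.card_le_of_le hcon
    omega
  have hUgen : ∀ t : P, u₀ * t = t * u₀ → ∀ v ∈ U, v * t = t * v := fun t ht =>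
    comm_all hP hZU hUc9 hZcard hu₀U hu₀Z ht (fun v hv => hZc v hv t |>.symm)
  have hUZ : ∀ (g : P), ∀ v ∈ U, ⁅g, v⁆ ∈ Zg := fun g v hv =>
    comm_of_index3 hP hZU (by rw [hUc9, hZcard]) g hv
  -- first reduction
  let A₁ : Subgroup P := A ⊓ centralizer (U : Set P)
  have hA₁ : Nat.card A ≤ Nat.card A₁ * 3 := by
    let f := commHom A Zg u₀ (fun a _ => hUZ a u₀ hu₀U) (fun a _ τ hτ => hZc τ hτ a)
      (fun τ hτ τ' _ => (hZc τ hτ τ').symm)
    have h1 : Nat.card f.ker * Nat.card f.range = Nat.card A := by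
      rw [← Subgroup.index_ker]; exact Subgroup.card_mul_index _
    have h2 : Nat.card f.range ≤ 3 := by
      have := Subgroup.card_le_card_group f.range
      omega
    have h3 : Nat.card f.ker ≤ Nat.card A₁ := by
      have h4 : f.ker.map A.subtype ≤ A₁ := by
        rintro _ ⟨a, ha, rfl⟩
        have h5 : f a = 1 := ha
        have h6 : ⁅(a : P), u₀⁆ = 1 := congrArg Subtype.val h5
        rw [commutatorElement_eq_one_iff_mul_comm] at h6
        refine Subgroup.mem_inf.2 ⟨a.2, Subgroup.mem_centralizer_iff.2 ?_⟩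
        intro v hv
        exact (hUgen a h6.symm v hv)
      have h7 := Subgroup.card_le_of_le h4
      have h8 : Nat.card ↥(f.ker.map A.subtype) = Nat.card f.ker :=
        Nat.card_congr (f.ker.equivMapOfInjective _ Subtype.val_injective).symm.toEquiv
      rwa [h8] at h7
    rw [← h1]
    exact Nat.mul_le_mul h3 h2
  have hA₁M : ∀ a ∈ A₁, ∀ v ∈ U, v * a = a * v := fun a ha v hv =>
    Subgroup.mem_centralizer_iff.1 (Subgroup.mem_inf.1 ha).2 v hv
  have hA₁3 : ∀ a ∈ A₁, a ^ 3 = 1 := fun a ha => hA3 a (Subgroup.mem_inf.1 ha).1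
  by_cases hN9 : Nat.card N = 9
  · have hUNeq : U = N := Subgroup.eq_of_le_of_card_ge hUN (by rw [hN9, hUc9])
    have h1 : A₁ ≤ N := by
      intro a ha
      apply hL1 a _ (hA₁3 a ha)
      rw [Subgroup.mem_centralizer_iff]
      intro v hv
      exact hA₁M a ha v (hUNeq ▸ hv)
    have h2 := Subgroup.card_le_of_le h1
    omega
  have hXnotN : ¬ X ≤ N := by
    intro h
    have hNX : N ≤ X := fun n hn => maxX n (fun ξ hξ => hNab ξ (h hξ) n hn) (hNe n hn)
    have h1 := Subgroup.card_le_of_le hNX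
    have h2 := Subgroup.card_le_of_le hUN
    omega
  obtain ⟨x, hxX, hxN⟩ := Set.not_subset.1 hXnotN
  have hx3 := hX3 x hxX
  have hZN : Zg ≤ N := hZU.trans hUN
  have hxZ : x ∉ Zg := fun h => hxN (hZN h)
  have hXN : X ⊓ N = Zg := by
    have h1 : Zg ≤ X ⊓ N := le_inf hZX hZN
    by_contra hne
    have h2 := eq_of_card_three_mul hP h1 inf_le_left (by rw [hXc9, hZcard]) (Ne.symm hne)
    exact hXnotN (inf_eq_left.1 h2)
  have hCN : ∀ n ∈ N, x * n = n * x → n ∈ Zg := by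
    intro n hn hnx
    have h1 := comm_all hP hZX hXc9 hZcard hxX hxZ hnx (fun v hv => (hZc v hv n).symm)
    have h2 := maxX n h1 (hNe n hn)
    rw [← hXN]
    exact Subgroup.mem_inf.2 ⟨h2, hn⟩
  let σ : N →* N := (MulAut.conjNormal x).toMonoidHom
  have hσ : ∀ n : N, ((σ n : N) : P) = x * n * x⁻¹ := fun n => MulAut.conjNormal_apply x n
  have hxxx : x * x * x = 1 := by
    have : x ^ 3 = x * x * x := by simp only [pow_succ, pow_zero, one_mul]
    rw [← this, hx3]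
  have hh1 := h1_lemma (A := N) (fun a b => Subtype.ext (hNab _ a.2 _ b.2)) σ
    (fun a => Subtype.ext (by
      rw [hσ, hσ, hσ]
      have : x * (x * (x * (a : P) * x⁻¹) * x⁻¹) * x⁻¹ = (x * x * x) * a * (x * x * x)⁻¹ := by group
      rw [this, hxxx]; group))
    (fun a => Subtype.ext (by
      rw [Subgroup.coe_pow]; exact hNe a a.2))
    (fun F hF => by
      have h1 : F.map N.subtype ≤ Zg := by
        rintro _ ⟨n, hn, rfl⟩
        have h2 := congrArg Subtype.val (hF n hn)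
        rw [hσ] at h2
        apply hCN n n.2
        rw [mul_inv_eq_iff_eq_mul] at h2
        exact h2
      have h3 := Subgroup.card_le_of_le h1
      have h4 : Nat.card ↥(F.map N.subtype) = Nat.card F :=
        Nat.card_congr (F.equivMapOfInjective _ Subtype.val_injective).symm.toEquiv
      rw [h4, hZcard] at h3
      exact h3)
  obtain ⟨hle27, hH1⟩ := hh1
  have hN27 : Nat.card N = 27 := by
    obtain ⟨k, hk⟩ := IsPGroup.iff_card.1 (hP.to_subgroup N)
    have h9 : 9 ≤ Nat.card N := by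
      have := Subgroup.card_le_of_le hUN
      omega
    have hk3 : k ≤ 3 := by
      by_contra hcon
      have : 3 ^ 4 ≤ 3 ^ k := Nat.pow_le_pow_right (by norm_num) (by omega)
      rw [← hk] at this
      omega
    interval_cases k <;> omega
  have hNUidx : ∀ (g : P), ∀ n ∈ N, ⁅g, n⁆ ∈ U := fun g n hn =>
    comm_of_index3 hP hUN (by rw [hN27, hUc9]) g hn
  obtain ⟨w, hwN, hwU⟩ : ∃ w ∈ N, w ∉ U := by
    by_contra hcon
    push Not at hcon
    have := Subgroup.card_le_of_le hcon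
    omega
  have hNgen : ∀ t : P, (∀ v ∈ U, v * t = t * v) → w * t = t * w → ∀ n ∈ N, n * t = t * n := by
    intro t h1 h2 n hn
    let H : Subgroup P := N ⊓ centralizer ({t} : Set P)
    have hUH : U ≤ H := fun v hv => Subgroup.mem_inf.2 ⟨hUN hv, Subgroup.mem_centralizer_iff.2 (by
      rintro _ rfl
      exact (h1 v hv).symm)⟩
    have hwH : w ∈ H := Subgroup.mem_inf.2 ⟨hwN, Subgroup.mem_centralizer_iff.2 (by
      rintro _ rfl
      exact h2.symm)⟩
    have hH := eq_of_card_three_mul hP hUH (inf_le_left : H ≤ N) (by rw [hN27, hUc9])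
      (fun h => hwU (h ▸ hwH))
    have h3 : n ∈ H := hH ▸ hn
    have h4 := Subgroup.mem_centralizer_iff.1 (Subgroup.mem_inf.1 h3).2 t rfl
    exact h4.symm
  -- the subgroup A'
  let T : Set P := (A₁ : Set P) ∪ U
  have hT := ea_closure T (by
      rintro p (hp | hp) q (hq | hq)
      · exact hAab p (Subgroup.mem_inf.1 hp).1 q (Subgroup.mem_inf.1 hq).1
      · exact (hA₁M p hp q hq).symm
      · exact hA₁M q hq p hp
      · exact hUab p hp q hq) (by
      rintro p (hp | hp)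
      · exact hA₁3 p hp
      · exact hU3 p hp)
  let A' : Subgroup P := closure T
  have hUA' : U ≤ A' := fun v hv => subset_closure (Or.inr hv)
  have hA₁A' : A₁ ≤ A' := fun v hv => subset_closure (Or.inl hv)
  have hA'U : ∀ a ∈ A', ∀ v ∈ U, v * a = a * v := fun a ha v hv => hT.1 v (hUA' hv) a ha
  have hA'3 : ∀ a ∈ A', a ^ 3 = 1 := hT.2
  have hA'card : 27 < Nat.card A' := by
    by_cases hUA₁ : U ≤ A₁
    · have h1 : A ≤ A₁ := fun a ha => Subgroup.mem_inf.2 ⟨ha,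
        Subgroup.mem_centralizer_iff.2 (fun v hv =>
          hAab v (Subgroup.mem_inf.1 (hUA₁ hv)).1 a ha)⟩
      have h2 := Subgroup.card_le_of_le (h1.trans hA₁A')
      omega
    · have hne : A₁ ≠ A' := fun h => hUA₁ (h ▸ hUA')
      have h2 := card_lt_mul hP hA₁A' hne
      omega
  have hA'N : ∀ a ∈ A', a ∈ N → a ∈ U := by
    intro a ha haN
    by_contra haU
    let H : Subgroup P := N ⊓ A'
    have hUH : U ≤ H := le_inf hUN hUA'
    have hH := eq_of_card_three_mul hP hUH (inf_le_left : H ≤ N) (by rw [hN27, hUc9])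
      (fun h => haU (h ▸ Subgroup.mem_inf.2 ⟨haN, ha⟩))
    have hNA' : N ≤ A' := inf_eq_left.1 hH
    have hA'le : A' ≤ N := by
      intro y hy
      apply hL1 y _ (hA'3 y hy)
      rw [Subgroup.mem_centralizer_iff]
      intro n hn
      exact hT.1 n (hNA' hn) y hy
    have := Subgroup.card_le_of_le hA'le
    omega
  -- the commutator hom
  let η := commHom A' U w (fun a _ => hNUidx a w hwN) (fun a ha τ hτ => (hA'U a ha τ hτ).symm) hUab
  have hηcard : Nat.card η.ker * Nat.card η.range = Nat.card A' := by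
    rw [← Subgroup.index_ker]; exact Subgroup.card_mul_index _
  have hηker : Nat.card η.ker ≤ 9 := by
    have h4 : η.ker.map A'.subtype ≤ U := by
      rintro _ ⟨a, ha, rfl⟩
      have h5 : η a = 1 := ha
      have h6 : ⁅(a : P), w⁆ = 1 := congrArg Subtype.val h5
      rw [commutatorElement_eq_one_iff_mul_comm] at h6
      apply hA'N a a.2
      apply hL1 a _ (hA'3 a a.2)
      rw [Subgroup.mem_centralizer_iff]
      exact hNgen a (fun v hv => hA'U a a.2 v hv) h6.symm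
    have h7 := Subgroup.card_le_of_le h4
    have h8 : Nat.card ↥(η.ker.map A'.subtype) = Nat.card η.ker :=
      Nat.card_congr (η.ker.equivMapOfInjective _ Subtype.val_injective).symm.toEquiv
    rw [h8, hUc9] at h7
    exact h7
  have hηtop : η.range = ⊤ := by
    by_contra hne
    have hdvd : Nat.card η.range ∣ 3 ^ 2 := by
      have := Subgroup.card_subgroup_dvd_card η.range
      rwa [hUc] at this
    obtain ⟨k, hk, hk2⟩ := (Nat.dvd_prime_pow Nat.prime_three).1 hdvd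
    have hle3 : Nat.card η.range ≤ 3 := by
      interval_cases k
      · rw [hk2]; norm_num
      · rw [hk2]; norm_num
      · exfalso
        apply hne
        apply Subgroup.eq_top_of_card_eq
        rw [hk2, hUc]
    have := Nat.mul_le_mul hηker hle3
    rw [hηcard] at this
    omega
  have hηsurj : ∀ τ ∈ U, ∃ a ∈ A', ⁅a, w⁆ = τ := by
    intro τ hτ
    have h1 : (⟨τ, hτ⟩ : U) ∈ η.range := by rw [hηtop]; trivial
    obtain ⟨a, ha⟩ := h1
    exact ⟨a, a.2, congrArg Subtype.val ha⟩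
  obtain ⟨a, haA', haw⟩ := hηsurj z hzU
  obtain ⟨b, hbA', hbw⟩ := hηsurj u₀ hu₀U
  have ha3 := hA'3 a haA'
  have hcomm : a * b = b * a := hT.1 a haA' b hbA'
  have haU : ∀ n ∈ U, ⁅a, n⁆ = 1 := fun n hn => by
    rw [commutatorElement_eq_one_iff_mul_comm]
    exact (hA'U a haA' n hn).symm
  have hdecomp : ∀ n ∈ N, ∃ v ∈ U, ∃ k : ℤ, n = v * w ^ k := by
    intro n hn
    have hle : U ⊔ zpowers w ≤ N := sup_le hUN (by rw [Subgroup.zpowers_le]; exact hwN)
    have hH := eq_of_card_three_mul hP (le_sup_left : U ≤ U ⊔ zpowers w) hle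
      (by rw [hN27, hUc9]) (fun h => hwU (h ▸ (Subgroup.mem_sup_right (mem_zpowers w))))
    have h1 : n ∈ U ⊔ zpowers w := hH ▸ hn
    have h2 : n ∈ ((U : Set P) * (zpowers w : Set P)) := by
      rw [← Subgroup.normal_mul]; exact h1
    obtain ⟨v, hv, q, ⟨k, rfl⟩, rfl⟩ := Set.mem_mul.1 h2
    exact ⟨v, hv, k, rfl⟩
  have hformula : ∀ c ∈ A', ⁅c, w⁆ ∈ U → ∀ v ∈ U, ∀ k : ℤ, ⁅c, v * w ^ k⁆ = ⁅c, w⁆ ^ k := by
    intro c hc hτ v hv k
    set τ := ⁅c, w⁆ with hτdef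
    have h1 : c * w * c⁻¹ = τ * w := by rw [hτdef, commutatorElement_def]; group
    have h2 : c * v * c⁻¹ = v := by
      rw [← hA'U c hc v hv]; group
    have hτw : Commute τ w := hNab τ (hUN hτ) w hwN
    have h3 : c * (v * w ^ k) * c⁻¹ = v * (τ ^ k * w ^ k) := by
      calc c * (v * w ^ k) * c⁻¹ = (c * v * c⁻¹) * (c * w ^ k * c⁻¹) := by group
        _ = v * (c * w * c⁻¹) ^ k := by rw [h2, conj_zpow]
        _ = v * (τ * w) ^ k := by rw [h1]
        _ = v * (τ ^ k * w ^ k) := by rw [hτw.mul_zpow]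
    have hτkU : τ ^ k ∈ U := zpow_mem hτ k
    rw [commutatorElement_def, h3]
    have e : v * (τ ^ k * w ^ k) * (v * w ^ k)⁻¹ = v * τ ^ k * v⁻¹ := by group
    rw [e, hUab v hv _ hτkU]
    group
  have haZ : ∀ n ∈ N, ⁅a, n⁆ ∈ Zg := by
    intro n hn
    obtain ⟨v, hv, k, rfl⟩ := hdecomp n hn
    rw [hformula a haA' (by rw [haw]; exact hzU) v hv k, haw]
    exact zpow_mem (mem_zpowers z) k
  have hu₀1 : u₀ ≠ 1 := fun h => hu₀Z (h ▸ one_mem _)
  have hu₀3 : u₀ ^ 3 = 1 := hU3 u₀ hu₀U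
  have hordu : orderOf u₀ = 3 := orderOf_eq_prime hu₀3 hu₀1
  have hw1 : w ≠ 1 := fun h => hwU (h ▸ one_mem _)
  have hw3 : w ^ 3 = 1 := hNe w hwN
  have hordw : orderOf w = 3 := orderOf_eq_prime hw3 hw1
  have hbL : ∀ n ∈ N, ⁅b, n⁆ ∈ zpowers u₀ := by
    intro n hn
    obtain ⟨v, hv, k, rfl⟩ := hdecomp n hn
    rw [hformula b hbA' (by rw [hbw]; exact hu₀U) v hv k, hbw]
    exact zpow_mem (mem_zpowers u₀) k
  have hLZ : ∀ v ∈ zpowers u₀, v ∈ Zg → v = 1 := by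
    intro v hv hvZ
    have hcL : Nat.card (zpowers u₀) = 3 := by rw [Nat.card_zpowers, hordu]
    let I : Subgroup P := zpowers u₀ ⊓ Zg
    have hdvd : Nat.card I ∣ 3 := by
      rw [← hcL]; exact Subgroup.card_dvd_of_le inf_le_left
    rcases (Nat.dvd_prime Nat.prime_three).1 hdvd with h1 | h1
    · have hbot : I = ⊥ := (Subgroup.eq_bot_iff_card I).2 h1
      have : v ∈ I := Subgroup.mem_inf.2 ⟨hv, hvZ⟩
      rw [hbot, Subgroup.mem_bot] at this
      exact this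
    · exfalso
      have hI : I = zpowers u₀ := Subgroup.eq_of_le_of_card_ge inf_le_left (by rw [h1, hcL])
      have : u₀ ∈ I := hI ▸ mem_zpowers u₀
      exact hu₀Z (Subgroup.mem_inf.1 this).2
  have hbker : ∀ n ∈ N, ⁅b, n⁆ = 1 → n ∈ U := by
    intro n hn h1
    obtain ⟨v, hv, k, rfl⟩ := hdecomp n hn
    rw [hformula b hbA' (by rw [hbw]; exact hu₀U) v hv k, hbw] at h1
    have h2 : ((orderOf u₀ : ℕ) : ℤ) ∣ k := orderOf_dvd_iff_zpow_eq_one.2 h1
    have h3 : w ^ k = 1 := by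
      apply orderOf_dvd_iff_zpow_eq_one.1
      rw [hordw]
      rwa [hordu] at h2
    rw [h3, mul_one]
    exact hv
  have hn₀ := conj_in_aN (U := U) (L := zpowers u₀) (g := x) hP hNab hNe hL1 hZc hZN haZ haU hbL hLZ
    hbker hcomm ha3 hNUidx
  set n₀ := x * a * x⁻¹ * a⁻¹ with hn₀def
  -- the cocycle
  set n₀ := x * a * x⁻¹ * a⁻¹ with hn₀def
  let n₀' : N := ⟨n₀, hn₀⟩
  have hcoc : n₀' * σ n₀' * σ (σ n₀') = 1 := by
    apply Subtype.ext
    have hn₁ : ((σ n₀' : N) : P) ∈ N := (σ n₀').2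
    have hn₂ : ((σ (σ n₀') : N) : P) ∈ N := (σ (σ n₀')).2
    change n₀ * ((σ n₀' : N) : P) * ((σ (σ n₀') : N) : P) = 1
    set n₁ : P := ((σ n₀' : N) : P) with hn₁def
    set n₂ : P := ((σ (σ n₀') : N) : P) with hn₂def
    have e₁ : x * n₀ * x⁻¹ = n₁ := (hσ n₀').symm
    have e₂ : x * n₁ * x⁻¹ = n₂ := (hσ (σ n₀')).symm
    have e0 : x * a * x⁻¹ = n₀ * a := by rw [hn₀def]; group
    have e1 : x * (n₀ * a) * x⁻¹ = n₁ * (n₀ * a) := by
      have : x * (n₀ * a) * x⁻¹ = (x * n₀ * x⁻¹) * (x * a * x⁻¹) := by group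
      rw [this, e₁, e0]
    have e2 : x * (n₁ * (n₀ * a)) * x⁻¹ = n₂ * (n₁ * (n₀ * a)) := by
      have : x * (n₁ * (n₀ * a)) * x⁻¹ = (x * n₁ * x⁻¹) * (x * (n₀ * a) * x⁻¹) := by group
      rw [this, e₂, e1]
    have e3 : x * (x * (x * a * x⁻¹) * x⁻¹) * x⁻¹ = a := by
      have : x * (x * (x * a * x⁻¹) * x⁻¹) * x⁻¹ = (x * x * x) * a * (x * x * x)⁻¹ := by group
      rw [this, hxxx]; group
    rw [e0, e1, e2] at e3
    have e4 : n₂ * (n₁ * n₀) = 1 := by
      have : n₂ * (n₁ * n₀) * a = 1 * a := by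
        rw [one_mul]
        calc n₂ * (n₁ * n₀) * a = n₂ * (n₁ * (n₀ * a)) := by group
          _ = a := e3
      exact mul_right_cancel this
    calc n₀ * n₁ * n₂ = n₂ * (n₀ * n₁) := hNab _ (mul_mem hn₀ hn₁) _ hn₂
      _ = n₂ * (n₁ * n₀) := by rw [hNab n₀ hn₀ n₁ hn₁]
      _ = 1 := e4
  obtain ⟨n', hn'⟩ := hH1 hN27 n₀' hcoc
  have hmN : (n' : P) ∈ N := n'.2
  set m : P := (n' : P) with hm
  have hσmN : x * m * x⁻¹ ∈ N := hNn.conj_mem m hmN x
  have hn₀m : n₀ = m * (x * m * x⁻¹)⁻¹ := by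
    have := congrArg Subtype.val hn'
    rw [Subgroup.coe_mul, Subgroup.coe_inv, hσ] at this
    exact this
  set c := m * a with hc
  have hxc : x * c * x⁻¹ = c := by
    have e0 : x * a * x⁻¹ = n₀ * a := by rw [hn₀def]; group
    have hcm : (x * m * x⁻¹) * m = m * (x * m * x⁻¹) := hNab _ hσmN _ hmN
    calc x * c * x⁻¹ = (x * m * x⁻¹) * (x * a * x⁻¹) := by rw [hc]; group
      _ = (x * m * x⁻¹) * (m * (x * m * x⁻¹)⁻¹ * a) := by rw [e0, hn₀m]
      _ = ((x * m * x⁻¹) * m) * ((x * m * x⁻¹)⁻¹ * a) := by group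
      _ = (m * (x * m * x⁻¹)) * ((x * m * x⁻¹)⁻¹ * a) := by rw [hcm]
      _ = c := by rw [hc]; group
  have hxcc : x * c = c * x := by
    rwa [mul_inv_eq_iff_eq_mul] at hxc
  have hc3 : c ^ 3 = 1 := by
    have hsZ : ⁅a, m⁆ ∈ Zg := haZ m hmN
    have h3 := cube2 m a ⁅a, m⁆ 1 (by rw [commutatorElement_def]; group)
      (by
        have := hZc _ hsZ a
        rw [one_mul, mul_inv_eq_iff_eq_mul]; exact this)
      (hZc _ hsZ m).symm (by simp) (by simp) (hNe _ (hZN hsZ))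
    rw [hc, h3, ha3, hNe m hmN]; simp
  have hcX : c ∈ X := maxX c (comm_all hP hZX hXc9 hZcard hxX hxZ hxcc
    (fun v hv => (hZc v hv c).symm)) hc3
  have hcN : c ∉ N := by
    intro hcN
    have haN : a ∈ N := by
      have : a = m⁻¹ * c := by rw [hc]; group
      rw [this]
      exact mul_mem (inv_mem hmN) hcN
    have h1 : ⁅a, w⁆ = 1 := by
      rw [commutatorElement_eq_one_iff_mul_comm]
      exact hNab a haN w hwN
    rw [haw] at h1
    exact hzne h1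
  have hu₀c : c * u₀ = u₀ * c := by
    have h1 : m * u₀ = u₀ * m := hNab m hmN u₀ (hUN hu₀U)
    have h2 : a * u₀ = u₀ * a := (hA'U a haA' u₀ hu₀U).symm
    calc c * u₀ = m * (a * u₀) := by rw [hc]; group
      _ = m * (u₀ * a) := by rw [h2]
      _ = (m * u₀) * a := by group
      _ = (u₀ * m) * a := by rw [h1]
      _ = u₀ * c := by rw [hc]; group
  have hall := comm_all hP hZX hXc9 hZcard hcX (fun h => hcN (hZN h)) hu₀c
    (fun v hv => (hZc v hv u₀).symm)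
  have hu₀X := maxX u₀ hall hu₀3
  exact hu₀Z (hXN ▸ Subgroup.mem_inf.2 ⟨hu₀X, hUN hu₀U⟩)

end main

theorem conn_symm' {P : Type*} [Group P] {A B : Subgroup P}
    (h : Relation.ReflTransGen (fun A B : Subgroup P => Cfsg.IsElementaryAbelian 3 A ∧ 3 ^ 2 ≤ Nat.card ↥A ∧
      Cfsg.IsElementaryAbelian 3 B ∧ 3 ^ 2 ≤ Nat.card ↥B ∧ ∀ a ∈ A, ∀ b ∈ B, a * b = b * a) A B) :
    Relation.ReflTransGen (fun A B : Subgroup P => Cfsg.IsElementaryAbelian 3 A ∧ 3 ^ 2 ≤ Nat.card ↥A ∧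
      Cfsg.IsElementaryAbelian 3 B ∧ 3 ^ 2 ≤ Nat.card ↥B ∧ ∀ a ∈ A, ∀ b ∈ B, a * b = b * a) B A := by
  induction h with
  | refl => exact .refl
  | tail _ hr ih =>
    obtain ⟨h5, h6, h7, h8, h9⟩ := hr
    exact Relation.ReflTransGen.head ⟨h7, h8, h5, h6, fun b hb a ha => (h9 a ha b hb).symm⟩ ih

/-- A finite 3-group of 3-rank at least 4 is 2-connected for the prime 3: its commuting graph on elementary abelian subgroups of order ≥ 9 is connected. -/
theorem result {P : Type*} [Group P] [Finite P] (hP : IsPGroup 3 P) (hrk : ¬ Cfsg.PRankLE 3 3 P) : Cfsg.IsKConnected 3 2 P := by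
  haveI : Fact (Nat.Prime 3) := ⟨Nat.prime_three⟩
  have h2 : ¬ Cfsg.PRankLE 3 2 P := fun h => hrk (fun A h1 h3 => (h A h1 h3).trans (by norm_num))
  obtain ⟨U, hUn, hUe, hUc, hU⟩ := Cfsg.Agent.S1337.result 3 hP h2
  haveI := hUn
  intro E E' hE hEc hE' hE'c
  have h3 := (hU E hE hEc).2 (centralizer_rank hP U hUe hUc hrk E hE hEc)
  have h4 := (hU E' hE' hE'c).2 (centralizer_rank hP U hUe hUc hrk E' hE' hE'c)
  exact h3.trans (conn_symm' h4)

end Cfsg.Agent.S1338
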