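import Cfsg.Statements.S1361
import Cfsg.Agent.Lib.FT.BG14a
import Cfsg.Agent.S1403
import Cfsg.Agent.S1410
import Cfsg.Agent.S1412

set_option autoImplicit false
open Cfsg

namespace Cfsg.Agent.S1361

/-- Let G be a minimal simple group of odd order and M a maximal subgroup with standard factorisation M = K U M_σ. If X is a nontrivial subgroup of U centralizing some non-identity element of M_σ, then C_G(X) ≤ M and M is the unique maximal subgroup of G containing C_G(X). -/
theorem result {G : Type*} [Group G] [Finite G] (hG : Cfsg.IsMinSimpleOddOrder G)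
    (M : Subgroup G) (hM : IsCoatom M) (K U : Subgroup G) (hKU : Cfsg.IsSigmaDecomposition M K U) (X : Subgroup G) (hXU : X ≤ U) (hX : X ≠ ⊥)
    (hXc : Cfsg.sigmaCore M ⊓ Subgroup.centralizer (X : Set G) ≠ ⊥) :
    Subgroup.centralizer (X : Set G) ≤ M ∧ ∀ L : Subgroup G, IsCoatom L → Subgroup.centralizer (X : Set G) ≤ L → L = M := by
  exact Cfsg.Agent.Lib.FT.s1361_core hG (fun K hK h2 h3 => Cfsg.Agent.S1403.result hG K hK h2 h3) (fun r _ H hH => Cfsg.Agent.S1410.result hG r H hH) (fun p _ P hr => Cfsg.Agent.S1412.result hG p P hr) hM hKU X hXU hX hXc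

end Cfsg.Agent.S1361
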