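import Cfsg.Statements.S1363
import Cfsg.Agent.Lib.FT.BG19h
import Cfsg.Agent.Lib.FT.BG16f

set_option autoImplicit false
open Cfsg

namespace Cfsg.Agent.S1363

/-- Let G be a minimal simple group of odd order and M a maximal subgroup with standard factorisation M = K U M_σ and K ≠ 1. Then U is abelian and the normalizer of U in G is not contained in M. -/
theorem result {G : Type*} [Group G] [Finite G] (hG : Cfsg.IsMinSimpleOddOrder G)
    (M : Subgroup G) (hM : IsCoatom M) (K U : Subgroup G) (hKU : Cfsg.IsSigmaDecomposition M K U) (hK1 : K ≠ ⊥) :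
    IsMulCommutative U ∧ ¬ Subgroup.normalizer (U : Set G) ≤ M := by
  classical
  have hB := Cfsg.Agent.Lib.FT.thmB hG
  refine ⟨Cfsg.Agent.Lib.FT.U_isMulCommutative hB hG hM hKU hK1, ?_⟩
  obtain ⟨p, hp, X, hXK, hX⟩ := Cfsg.Agent.Lib.FT.exists_prime_subgroup hK1
  haveI := Fact.mk hp
  have hC := Cfsg.Agent.Lib.FT.config_of_kappa hG hM (Cfsg.Agent.Lib.FT.prime_mem_kappa hKU.hall hp hXK hX) hX (hXK.trans hKU.hall.1)
  obtain ⟨Mst, PX⟩ := Cfsg.Agent.Lib.FT.exists_partner hB hG hC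
  exact Cfsg.Agent.Lib.FT.normalizer_U_not_le hB hG hM hKU hK1 PX hXK

end Cfsg.Agent.S1363
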