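import Cfsg.Statements.S1378
import Cfsg.Agent.Lib.FT.BG16f

set_option autoImplicit false
open Cfsg

namespace Cfsg.Agent.S1378


/-- Let G be a minimal simple group of odd order. Then every prime dividing the order of G belongs to σ(M) for some maximal subgroup M, and if σ(M) and σ(N) have a prime in common for maximal subgroups M, N then N is conjugate to M; so the sets σ(M_i) over representatives of the conjugacy classes of maximal subgroups partition the prime divisors of #G. -/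
theorem result {G : Type*} [Group G] [Finite G] (hG : Cfsg.IsMinSimpleOddOrder G) :
    (∀ p : ℕ, p.Prime → p ∣ Nat.card G → ∃ M : Subgroup G, IsCoatom M ∧ p ∈ Cfsg.sigma M) ∧
      ∀ M N : Subgroup G, IsCoatom M → IsCoatom N → (Cfsg.sigma M ∩ Cfsg.sigma N).Nonempty → ∃ g : G, N = M.map (MulAut.conj g).toMonoidHom := by
  classical
  refine ⟨fun p hp hd => ?_, fun M N hM hN ⟨p, hpM, hpN⟩ => ?_⟩
  · haveI := Fact.mk hp
    obtain ⟨P, hP, -⟩ := Cfsg.Agent.Lib.FT.exists_isMaxP_ge (T := (⊥ : Subgroup G)) (N := ⊤) (p := p) bot_le IsPGroup.of_bot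
    have hP1 : P ≠ ⊥ := by
      rintro rfl
      obtain ⟨x, hx⟩ := exists_prime_orderOf_dvd_card' (G := G) p hd
      have hz : IsPGroup p (Subgroup.zpowers x) := by
        apply Cfsg.Agent.Lib.FT.isPGroup_of_card_prime
        rw [Nat.card_zpowers, hx]
      have h1 := hP.max _ le_top hz bot_le
      rw [Subgroup.zpowers_eq_bot] at h1
      rw [h1, orderOf_one] at hx
      exact hp.one_lt.ne hx
    have hPt : P ≠ ⊤ := Cfsg.Agent.Lib.OddLocal.IsMinSimpleOddOrder.ne_top_of_isPGroup hG hp hP.isP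
    obtain ⟨M, hM, hNM⟩ := (eq_top_or_exists_le_coatom (Subgroup.normalizer (P : Set G))).resolve_left
      (Cfsg.Agent.Lib.OddLocal.IsMinSimpleOddOrder.normalizer_ne_top hG hP1 hPt)
    have hPM : P ≤ M := Subgroup.le_normalizer.trans hNM
    have hmax : Cfsg.Agent.Lib.FT.IsMaxP p P M := ⟨hPM, hP.isP, fun D' _ h2 h3 => hP.max D' le_top h2 h3⟩
    refine ⟨M, hM, Cfsg.Agent.Lib.FT.mem_sigma_of_normalizer_le hmax ?_ hNM⟩
    have hne : Nat.card P ≠ 1 := fun h => hP1 (Subgroup.card_eq_one.mp h)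
    obtain ⟨u, hu, hdu⟩ := Nat.exists_prime_and_dvd hne
    obtain ⟨k, hk⟩ := IsPGroup.iff_card.mp hP.isP
    have e : u = p := by
      rw [hk] at hdu
      exact (Nat.prime_dvd_prime_iff_eq hu hp).mp (hu.dvd_of_dvd_pow hdu)
    rw [e] at hdu
    exact hdu.trans (Subgroup.card_dvd_of_le hPM)
  · haveI := Fact.mk hpM.1
    obtain ⟨c, e⟩ := Cfsg.Agent.Lib.FT.conj_of_sigma_sigma (Cfsg.Agent.Lib.FT.thmB hG) hN hM hpN hpM
    exact ⟨c, e.symm⟩

end Cfsg.Agent.S1378
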