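import Cfsg.Statements.S1427
import Cfsg.Agent.Lib.FT.BG13d

set_option autoImplicit false
open Cfsg

namespace Cfsg.Agent.S1427


/-- Let G be a minimal simple group of odd order, M a maximal subgroup, E a complement to M_σ in M, and S a nontrivial cyclic Sylow subgroup of E (for some prime). Then M_σ ∩ C_G(x) = M_σ ∩ C_G(S) for every non-identity x ∈ S. -/
theorem result {G : Type*} [Group G] [Finite G] (hG : Cfsg.IsMinSimpleOddOrder G)
    (M : Subgroup G) (hM : IsCoatom M) (E : Subgroup G) (hE : Cfsg.IsComplIn E (Cfsg.sigmaCore M) M) (p : ℕ) [Fact p.Prime] (S : Sylow p E) (hS1 : (S : Subgroup E) ≠ ⊥) (hSc : IsCyclic (S : Subgroup E)) :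
    ∀ x ∈ (S : Subgroup E).map E.subtype, x ≠ 1 →
        Cfsg.sigmaCore M ⊓ Subgroup.centralizer ({x} : Set G) = Cfsg.sigmaCore M ⊓ Subgroup.centralizer (((S : Subgroup E).map E.subtype : Subgroup G) : Set G) := by
  classical
  have hpp : p.Prime := Fact.out
  obtain ⟨hpσ, hmax⟩ := Cfsg.Agent.Lib.FT.isMaxP_of_compl hG hM hE S hS1
  have hcyc : IsCyclic ↥((S : Subgroup E).map E.subtype) :=
    isCyclic_of_surjective (E.subtype.subgroupMap (S : Subgroup E)) (E.subtype.subgroupMap_surjective _)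
  intro x hx hx1
  apply le_antisymm
  · obtain ⟨q, hq, hqd⟩ := Nat.exists_prime_and_dvd (fun h => hx1 (orderOf_eq_one_iff.mp h) : orderOf x ≠ 1)
    have hy := orderOf_pow_orderOf_div (orderOf_pos x).ne' hqd
    have hqp : q = p := by
      obtain ⟨k, hk⟩ := hmax.isP ⟨x, hx⟩
      have h1 : x ^ p ^ k = 1 := by simpa using congrArg Subtype.val hk
      have h2 : orderOf x ∣ p ^ k := orderOf_dvd_of_pow_eq_one h1
      exact (Nat.prime_dvd_prime_iff_eq hq hpp).mp (hq.dvd_of_dvd_pow (hqd.trans h2))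
    subst hqp
    set y := x ^ (orderOf x / q) with hydef
    have hyS : y ∈ (S : Subgroup E).map E.subtype := Subgroup.pow_mem _ hx _
    have hXc : Nat.card (Subgroup.zpowers y) = q := by
      rw [Nat.card_zpowers, hy]
    rintro d ⟨hd, hdx⟩
    refine ⟨hd, ?_⟩
    have hdC : d ∈ Subgroup.centralizer ((Subgroup.zpowers y : Subgroup G) : Set G) := by
      rw [Subgroup.mem_centralizer_iff]
      intro t ht
      obtain ⟨n, rfl⟩ := Subgroup.mem_zpowers_iff.mp ht
      have h1 : Commute x d := (Subgroup.mem_centralizer_iff.mp hdx) x rfl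
      exact ((h1.pow_left _).zpow_left n).eq
    exact Cfsg.Agent.Lib.FT.s1427_main hG hM hpσ hmax hcyc (Subgroup.zpowers_le.mpr hyS) hXc ⟨hd, hdC⟩
  · apply inf_le_inf_left
    apply Subgroup.centralizer_le
    exact Set.singleton_subset_iff.mpr hx

end Cfsg.Agent.S1427
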