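import Cfsg.Statements.S1428
import Cfsg.Agent.Lib.FT.BG14g
import Cfsg.Agent.S1412

set_option autoImplicit false
open Cfsg

namespace Cfsg.Agent.S1428

/-- Let G be a minimal simple group of odd order, M a maximal subgroup, E a complement to M_σ in M, p ∈ τ₁(M), P ≤ E a subgroup of order p, and R a subgroup of prime order of E ∩ C_G(P). Then M_σ ∩ C_G(P) ≤ M_σ ∩ C_G(R). -/
theorem result {G : Type*} [Group G] [Finite G] (hG : Cfsg.IsMinSimpleOddOrder G)
    (M : Subgroup G) (hM : IsCoatom M) (E : Subgroup G) (hE : Cfsg.IsComplIn E (Cfsg.sigmaCore M) M) (p : ℕ) (hp : p ∈ Cfsg.tau1 M) (P : Subgroup G) (hPE : P ≤ E) (hP : Nat.card P = p)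
    (R : Subgroup G) (hRE : R ≤ E ⊓ Subgroup.centralizer (P : Set G)) (hR : (Nat.card R).Prime) :
    Cfsg.sigmaCore M ⊓ Subgroup.centralizer (P : Set G) ≤ Cfsg.sigmaCore M ⊓ Subgroup.centralizer (R : Set G) := by
  classical
  intro d hd
  refine ⟨hd.1, ?_⟩
  haveI : Fact (Nat.card R).Prime := ⟨hR⟩
  haveI : Fact p.Prime := ⟨hp.1⟩
  have h1412 : Cfsg.Agent.Lib.FT.Sylow2Struct G := fun p _ P hr => Cfsg.Agent.S1412.result hG p P hr
  haveI : IsCyclic R := isCyclic_of_prime_card rfl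
  obtain ⟨b₀, hb₀⟩ := IsCyclic.exists_generator (α := R)
  have hbo : orderOf (b₀ : G) = Nat.card R := by
    rw [Subgroup.orderOf_coe]
    exact orderOf_eq_card_of_forall_mem_zpowers hb₀
  have hbE := (hRE b₀.2).1
  have hbC := (hRE b₀.2).2
  have h := Cfsg.Agent.Lib.FT.s1428_core h1412 hG hM hE hp hPE hP hbE hbC hbo hd
  rw [Subgroup.mem_centralizer_singleton_iff] at h
  have hc : Commute d (b₀ : G) := h
  show d ∈ Subgroup.centralizer (R : Set G)
  rw [Subgroup.mem_centralizer_iff]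
  intro y hy
  obtain ⟨k, hk⟩ := Subgroup.mem_zpowers_iff.1 (hb₀ ⟨y, hy⟩)
  have hyk : (b₀ : G) ^ k = y := congrArg Subtype.val hk
  rw [← hyk]
  exact (hc.zpow_right k).eq.symm

end Cfsg.Agent.S1428
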