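import Cfsg.Statements.S1446
import Cfsg.Agent.Lib.FT.FrobAbel

set_option autoImplicit false
open Cfsg

namespace Cfsg.Agent.S1446

/-- Let X be a finite group with subgroups K, R, M such that: K and R are nontrivial, K ∩ R = 1, R normalizes K, no non-identity element of R centralizes a non-identity element of K, K ⊔ R is solvable of odd order; M is nilpotent and nontrivial, normalized by K and by R, with order coprime to that of K ⊔ R, M ∩ C(K) = 1, and M ∩ C(x) = M ∩ C(R) for all non-identity x ∈ R. Then R has prime order p, #M = #(M ∩ C(R)) ^ p, and if M ∩ C(R) is cyclic then [K, K] centralizes M. -/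
theorem result {X : Type*} [Group X] [Finite X] (K R M : Subgroup X) (hK1 : K ≠ ⊥) (hR1 : R ≠ ⊥) (hKR : K ⊓ R = ⊥)
    (hRK : R ≤ Subgroup.normalizer (K : Set X)) (hfrob : ∀ r ∈ R, r ≠ 1 → K ⊓ Subgroup.centralizer ({r} : Set X) = ⊥)
    (hsolv : Group.IsSolvable ↥(K ⊔ R)) (hodd : Odd (Nat.card ↥(K ⊔ R)))
    (hM1 : M ≠ ⊥) (hMn : Group.IsNilpotent M) (hKM : K ≤ Subgroup.normalizer (M : Set X)) (hRM : R ≤ Subgroup.normalizer (M : Set X))
    (hcop : (Nat.card ↥(K ⊔ R)).Coprime (Nat.card M)) (hCK : M ⊓ Subgroup.centralizer (K : Set X) = ⊥)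
    (hpr : ∀ x ∈ R, x ≠ 1 → M ⊓ Subgroup.centralizer ({x} : Set X) = M ⊓ Subgroup.centralizer (R : Set X)) :
    (Nat.card R).Prime ∧ Nat.card M = Nat.card ↥(M ⊓ Subgroup.centralizer (R : Set X)) ^ Nat.card R ∧
      (IsCyclic ↥(M ⊓ Subgroup.centralizer (R : Set X)) → ⁅K, K⁆ ≤ Subgroup.centralizer (M : Set X)) := by
  classical
  have hUn : ∀ e ∈ R, ∀ u ∈ K, e * u * e⁻¹ ∈ K := fun e he u hu =>
    (Subgroup.mem_normalizer_iff.mp (hRK he) u).mp hu
  have hfpf : ∀ e ∈ R, e ≠ 1 → ∀ u ∈ K, e * u = u * e → u = 1 := by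
    intro e he hne u hu hc
    have h1 : u ∈ K ⊓ Subgroup.centralizer ({e} : Set X) :=
      ⟨hu, Subgroup.mem_centralizer_singleton_iff.mpr hc.symm⟩
    rw [hfrob e he hne] at h1
    simpa using h1
  have hHn : K ⊔ R ≤ Subgroup.normalizer (M : Set X) := sup_le hKM hRM
  have hHn' : ∀ x ∈ K ⊔ R, ∀ h ∈ M, x * h * x⁻¹ ∈ M := fun x hx h hh =>
    (Subgroup.mem_normalizer_iff.mp (hHn hx) h).mp hh
  haveI := hMn
  have hMs : Group.IsSolvable M := inferInstance
  -- the formula for any nontrivial subgroup of `R`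
  have hform : ∀ E : Subgroup X, E ≠ ⊥ → E ≤ R →
      Nat.card M = Nat.card ↥(M ⊓ Subgroup.centralizer (E : Set X)) ^ Nat.card E := by
    intro E hE hER
    have hle : K ⊔ E ≤ K ⊔ R := sup_le_sup_left hER K
    have h1 := Cfsg.Agent.Lib.FT.frobenius_fix_formula K E M hE (fun e he => hUn e (hER he))
      (fun e he => hfpf e (hER he)) (fun x hx => hHn' x (hle hx)) hMs
      (Nat.Coprime.coprime_dvd_right (Subgroup.card_dvd_of_le hle) hcop.symm)
    have h2 : M ⊓ Subgroup.centralizer ((K ⊔ E : Subgroup X) : Set X) = ⊥ := by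
      rw [eq_bot_iff, ← hCK]
      exact inf_le_inf_left _ (Subgroup.centralizer_le (fun x hx => (le_sup_left : K ≤ K ⊔ E) hx))
    rw [h2, hCK] at h1
    simpa using h1
  have hM2 : 1 < Nat.card M := by
    rw [Finite.one_lt_card_iff_nontrivial]
    exact (Subgroup.nontrivial_iff_ne_bot M).mpr hM1
  have hb := hform R hR1 le_rfl
  set b := Nat.card ↥(M ⊓ Subgroup.centralizer (R : Set X)) with hbdef
  have hb2 : 1 < b := by
    by_contra hcon
    have hb0 : 0 < b := Nat.card_pos
    have : b = 1 := by omega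
    rw [this, one_pow] at hb
    omega
  have hord : ∀ x ∈ R, x ≠ 1 → orderOf x = Nat.card R := by
    intro x hx hne
    have hz : Subgroup.zpowers x ≠ ⊥ := by
      simpa using hne
    have h1 := hform (Subgroup.zpowers x) hz ((Subgroup.zpowers_le).mpr hx)
    have h2 : M ⊓ Subgroup.centralizer ((Subgroup.zpowers x : Subgroup X) : Set X) =
        M ⊓ Subgroup.centralizer (R : Set X) := by
      have hcent : Subgroup.centralizer ((Subgroup.zpowers x : Subgroup X) : Set X) =
          Subgroup.centralizer ({x} : Set X) := by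
        ext y
        rw [Subgroup.mem_centralizer_iff, Subgroup.mem_centralizer_singleton_iff]
        constructor
        · intro h
          exact (h x (Subgroup.mem_zpowers x)).symm
        · rintro h _ ⟨k, rfl⟩
          have h2 : Commute x y := (show Commute y x from h).symm
          exact (h2.zpow_left k)
      rw [← hpr x hx hne, hcent]
    rw [h2, Nat.card_zpowers, ← hbdef, hb] at h1
    exact (Nat.pow_right_injective hb2 h1).symm
  refine ⟨?_, hb, fun hc => ?_⟩
  · haveI : Nontrivial ↥R := (Subgroup.nontrivial_iff_ne_bot R).mpr hR1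
    obtain ⟨r, hr, hrd⟩ := Nat.exists_prime_and_dvd (Finite.one_lt_card (α := ↥R)).ne'
    haveI := Fact.mk hr
    obtain ⟨e₀, he₀⟩ := exists_prime_orderOf_dvd_card' r hrd
    have hne : (e₀ : X) ≠ 1 := by
      intro h
      have h2 : e₀ = 1 := Subtype.ext h
      rw [h2, orderOf_one] at he₀
      exact hr.one_lt.ne he₀
    have h1 := hord e₀ e₀.2 hne
    rw [Subgroup.orderOf_coe, he₀] at h1
    rw [← h1]
    exact hr
  · have hp : (Nat.card R).Prime := by
      haveI : Nontrivial ↥R := (Subgroup.nontrivial_iff_ne_bot R).mpr hR1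
      obtain ⟨r, hr, hrd⟩ := Nat.exists_prime_and_dvd (Finite.one_lt_card (α := ↥R)).ne'
      haveI := Fact.mk hr
      obtain ⟨e₀, he₀⟩ := exists_prime_orderOf_dvd_card' r hrd
      have hne : (e₀ : X) ≠ 1 := by
        intro h
        have h2 : e₀ = 1 := Subtype.ext h
        rw [h2, orderOf_one] at he₀
        exact hr.one_lt.ne he₀
      have h1 := hord e₀ e₀.2 hne
      rw [Subgroup.orderOf_coe, he₀] at h1
      rw [← h1]
      exact hr
    exact Cfsg.Agent.Lib.FT.comm_le_centralizer K R M hR1 hUn hfpf hHn' hMs hcop.symm hp hc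

end Cfsg.Agent.S1446
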