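import Cfsg.Statements.S1535
import Cfsg.Agent.Lib.OddChar.ThompsonFpf
import Cfsg.Agent.Lib.OddChar.FrobEnd

set_option autoImplicit false
open Cfsg

namespace Cfsg.Agent.S1535

open Cfsg.Agent.Lib.Char Cfsg.Agent.Lib.OddChar

/-- Let N be a finite group with a proper nontrivial normal subgroup H such that every element commuting with a non-identity element of H lies in H (N is a Frobenius group with kernel H); let e be the index of H and suppose Nat.card H ≠ e + 1. Let S be the set of irreducible characters χ of N with χ h ≠ χ 1 for some h ∈ H, and τ a linear isometry on the integer combinations of S vanishing at 1, with values virtual characters of a finite group G vanishing at 1. Then (S, N minus 1, τ) is coherent, or there is a prime p with Nat.card H a power of p, H non-abelian and [H : [H,H]] ≤ 4e² + 1. -/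
theorem result {N : Type*} [Group N] [Fintype N] {G : Type*} [Group G] [Fintype G] (H : Subgroup N) [H.Normal] (hH1 : H ≠ ⊥) (hH2 : H ≠ ⊤) (hC : ∀ h ∈ H, h ≠ 1 → Subgroup.centralizer ({h} : Set N) ≤ H) (he : Nat.card H ≠ H.index + 1) (τ : (N → ℂ) → (G → ℂ)) (hτ : Cfsg.IsLinearIsometryOn (Cfsg.zspanOn {χ : N → ℂ | Cfsg.IsIrrCharacter N χ ∧ ∃ h ∈ H, χ h ≠ χ 1} {1}ᶜ) τ) (hτ1 : ∀ α ∈ Cfsg.zspanOn {χ : N → ℂ | Cfsg.IsIrrCharacter N χ ∧ ∃ h ∈ H, χ h ≠ χ 1} {1}ᶜ, τ α 1 = 0) : Cfsg.IsCoherent {χ : N → ℂ | Cfsg.IsIrrCharacter N χ ∧ ∃ h ∈ H, χ h ≠ χ 1} {1}ᶜ τ ∨ ∃ p : ℕ, p.Prime ∧ (∃ m : ℕ, Nat.card H = p ^ m) ∧ ¬ IsMulCommutative H ∧ (⁅H, H⁆.subgroupOf H).index ≤ 4 * H.index ^ 2 + 1 := by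
  classical
  have hfpf : ∀ x : N, x ∉ H → ∀ k ∈ H, x * k = k * x → k = 1 := by
    intro x hx k hk hcomm
    by_contra hk1
    apply hx
    apply hC k hk hk1
    rw [Subgroup.mem_centralizer_iff]
    intro y hy
    have hy' : y = k := by simpa using hy
    rw [hy']
    exact hcomm.symm
  have hidx : H.index ≠ 1 := fun h => hH2 (Subgroup.index_eq_one.mp h)
  let q := H.index.minFac
  have hq : q.Prime := Nat.minFac_prime hidx
  have hqd : q ∣ H.relIndex ⊤ := by
    rw [Subgroup.relIndex_top_right]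
    exact Nat.minFac_dvd _
  obtain ⟨k, -, hkH, hkq, -⟩ := exists_cauchy_rel hq hqd
  have hkq1 : k ^ q = 1 := hfpf k hkH _ hkq (by rw [← pow_succ', ← pow_succ])
  have hnil : Group.IsNilpotent H := nilpotent_of_fpf_element H hq hkq1 (hfpf k hkH)
  have hset : {χ : N → ℂ | Cfsg.IsIrrCharacter N χ ∧ ∃ h ∈ H, χ h ≠ χ 1} = Cfsg.inducedIrrAbove H ⊥ :=
    relevant_eq_above H hfpf
  rw [hset] at hτ hτ1 ⊢
  exact frob_main H hH1 hnil hfpf he τ hτ hτ1

end Cfsg.Agent.S1535
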