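import Cfsg.Statements.S1538
import Cfsg.Agent.Lib.FT.BG20l
import Cfsg.Agent.Lib.Misc7.TypeIIKit

set_option autoImplicit false
open Cfsg

namespace Cfsg.Agent.S1538

/-- Let G be a minimal simple group of odd order and M a maximal subgroup of Type II. Then each of A₀(M), A(M), A₁(M) is a TI-subset of G whose set normaliser is M. -/
theorem result {G : Type*} [Group G] [Finite G] (hG : Cfsg.IsMinSimpleOddOrder G) (M : Subgroup G) (hM : IsCoatom M) (hII : Cfsg.IsOfTypeII M) : (Cfsg.IsTISubset (Cfsg.typeA0 M) ∧ Subgroup.normalizer (Cfsg.typeA0 M) = M) ∧ (Cfsg.IsTISubset (Cfsg.typeA M) ∧ Subgroup.normalizer (Cfsg.typeA M) = M) ∧ (Cfsg.IsTISubset (Cfsg.typeA1 M) ∧ Subgroup.normalizer (Cfsg.typeA1 M) = M) := by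
  have hB := Cfsg.Agent.Lib.FT.thmB hG
  obtain ⟨K, U₀, hKU⟩ := Cfsg.Agent.Lib.FT.exists_decomp hB hG hM
  obtain ⟨hK1, hU1⟩ := (Cfsg.Agent.Lib.FT.s1381_core hB hG hM hKU).1 hII
  have hnotI : ¬ Cfsg.IsOfTypeI M := fun hI => hK1 (Cfsg.Agent.Lib.FT.kappa_eq_bot_of_typeI hB hG hM hKU.hall hI)
  have hnot34 : ¬ (Cfsg.IsOfTypeIII M ∨ Cfsg.IsOfTypeIV M) := fun h =>
    hU1 ((Cfsg.Agent.Lib.FT.s1382_core hB hG hM hKU).1 h).2.1
  have hTI : Cfsg.IsTISubset (Cfsg.typeA M \ Cfsg.typeA1 M) := by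
    obtain ⟨W₁, U, W₂, hP, -⟩ := id hII
    exact (Cfsg.Agent.Lib.FT.s1390_core hB hG hM (U := U) (Or.inr ⟨hII, hP.U_compl⟩)).2.2
  haveI : IsSimpleGroup G := hG.2.1
  exact Cfsg.Agent.Lib.Misc7.TypeIIKit.typeII_core hM hII hnotI hnot34 hTI

end Cfsg.Agent.S1538
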