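import Cfsg.Statements.S1892
import Cfsg.Agent.Lib.Char.PBlock
import Cfsg.Agent.Lib.Coprime.Abelian
import Cfsg.Agent.Lib.Coprime.Comm
import Cfsg.Agent.Lib.Basic.Core
-- import your own Cfsg.Agent.* helpers here

set_option autoImplicit false
open Cfsg

namespace Cfsg.Agent.S1892

/-- Let S be a finite p-solvable group with no nontrivial normal subgroup of order prime to p, A a p-subgroup of S, and Q a nontrivial A-invariant subgroup of order prime to p with [A, Q] = Q. Then the commutator [O_p(S), A, Q] is nontrivial. -/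
theorem result {S : Type*} [Group S] [Finite S] {p : ℕ} [Fact p.Prime]
    (hS : Cfsg.IsPSolvable p S) (hred : Cfsg.pPrimeCore p S = ⊥)
    (A Q : Subgroup S) (hA : IsPGroup p A) (hQ : ¬ p ∣ Nat.card Q) (hQ1 : Q ≠ ⊥)
    (hinv : ∀ a ∈ A, ∀ x ∈ Q, a * x * a⁻¹ ∈ Q) (hAQ : ⁅A, Q⁆ = Q) :
    ⁅⁅Cfsg.pCore p S, A⁆, Q⁆ ≠ ⊥ := by
  classical
  intro h
  set V := Cfsg.pCore p S with hVdef
  haveI hVn : V.Normal := Cfsg.Agent.Lib.Basic.pCore_normal p
  have hVp : IsPGroup p V := Cfsg.Agent.Lib.Basic.pCore_isPGroup p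
  set D : Subgroup S := ⁅V, A⁆ with hD
  have hDV : D ≤ V := Subgroup.commutator_le_left V A
  have hQD : ∀ d ∈ D, ∀ q ∈ Q, q * d = d * q := by
    intro d hd q hq
    have h1 := Subgroup.commutator_mem_commutator hd hq
    rw [h, Subgroup.mem_bot, commutatorElement_eq_one_iff_mul_comm] at h1
    exact h1.symm
  -- the elements acting trivially on `V / D`
  have hNmul : ∀ x ∈ Q, ∀ d ∈ D, x * d * x⁻¹ ∈ D := by
    intro x hx d hd
    rw [hQD d hd x hx]
    simpa using hd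
  let T : Subgroup S :=
    { carrier := {x | x ∈ Subgroup.normalizer (D : Set S) ∧ ∀ v ∈ V, x * v * x⁻¹ * v⁻¹ ∈ D}
      mul_mem' := by
        rintro x y ⟨hx, hx2⟩ ⟨hy, hy2⟩
        refine ⟨mul_mem hx hy, fun v hv => ?_⟩
        have e : x * y * v * (x * y)⁻¹ * v⁻¹ = x * (y * v * y⁻¹ * v⁻¹) * x⁻¹ * (x * v * x⁻¹ * v⁻¹) := by
          group
        rw [e]
        exact D.mul_mem ((Subgroup.mem_normalizer_iff.mp hx _).mp (hy2 v hv)) (hx2 v hv)
      one_mem' := ⟨one_mem _, fun v _ => by simp⟩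
      inv_mem' := by
        rintro x ⟨hx, hx2⟩
        refine ⟨inv_mem hx, fun v hv => ?_⟩
        have hu : x⁻¹ * v * x ∈ V := by
          have := hVn.conj_mem v hv x⁻¹
          simpa using this
        have h1 := hx2 _ hu
        have e : x⁻¹ * v * x⁻¹⁻¹ * v⁻¹ = (x * (x⁻¹ * v * x) * x⁻¹ * (x⁻¹ * v * x)⁻¹)⁻¹ := by group
        rw [e]
        exact D.inv_mem h1 }
  have hTmem : ∀ x, x ∈ T ↔ x ∈ Subgroup.normalizer (D : Set S) ∧ ∀ v ∈ V, x * v * x⁻¹ * v⁻¹ ∈ D :=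
    fun x => Iff.rfl
  have hAN : ∀ a ∈ A, a ∈ Subgroup.normalizer (D : Set S) := by
    intro a ha
    apply Cfsg.Agent.Lib.Coprime.mem_normalizer_commutator
    · rw [Subgroup.normalizer_eq_top_iff.mpr hVn]
      exact Subgroup.mem_top a
    · exact Subgroup.le_normalizer ha
  have hAT : ∀ a ∈ A, a ∈ T := by
    intro a ha
    refine (hTmem a).mpr ⟨hAN a ha, fun v hv => ?_⟩
    have h1 := Subgroup.commutator_mem_commutator hv ha
    rw [commutatorElement_def] at h1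
    have e : a * v * a⁻¹ * v⁻¹ = (v * a * v⁻¹ * a⁻¹)⁻¹ := by
      group
    rw [e]
    exact D.inv_mem h1
  have hQN : ∀ q ∈ Q, q ∈ Subgroup.normalizer (D : Set S) := by
    intro q hq
    rw [Subgroup.mem_normalizer_iff]
    intro d
    constructor
    · intro hd
      exact hNmul q hq d hd
    · intro hd
      have h2 := hNmul q⁻¹ (Q.inv_mem hq) _ hd
      have e : q⁻¹ * (q * d * q⁻¹) * q⁻¹⁻¹ = d := by group
      rwa [e] at h2
  have hqaT : ∀ a ∈ A, ∀ q ∈ Q, q * a * q⁻¹ ∈ T := by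
    intro a ha q hq
    refine (hTmem _).mpr ⟨mul_mem (mul_mem (hQN q hq) (hAN a ha)) (inv_mem (hQN q hq)), fun v hv => ?_⟩
    have hu : q⁻¹ * v * q ∈ V := by
      have := hVn.conj_mem v hv q⁻¹
      simpa using this
    have h1 := ((hTmem a).mp (hAT a ha)).2 _ hu
    have e : q * a * q⁻¹ * v * (q * a * q⁻¹)⁻¹ * v⁻¹ =
        q * (a * (q⁻¹ * v * q) * a⁻¹ * (q⁻¹ * v * q)⁻¹) * q⁻¹ := by group
    rw [e]
    exact hNmul q hq _ h1
  have hQT : Q ≤ T := by
    calc Q = ⁅A, Q⁆ := hAQ.symm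
      _ ≤ T := by
        rw [Subgroup.commutator_le]
        intro a ha q hq
        have e : a * q * a⁻¹ * q⁻¹ = a * (q * a * q⁻¹)⁻¹ := by
          group
        rw [commutatorElement_def, e]
        exact T.mul_mem (hAT a ha) (T.inv_mem (hqaT a ha q hq))
  have hc : ⁅V, Q⁆ ≤ D := by
    rw [Subgroup.commutator_le]
    intro v hv q hq
    have h1 := ((hTmem q).mp (hQT hq)).2 v hv
    have e : v * q * v⁻¹ * q⁻¹ = (q * v * q⁻¹ * v⁻¹)⁻¹ := by
      group
    rw [commutatorElement_def, e]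
    exact D.inv_mem h1
  have hcop : Nat.Coprime (Nat.card Q) (Nat.card V) := by
    obtain ⟨k, hk⟩ := IsPGroup.iff_card.mp hVp
    rw [hk]
    exact Nat.Coprime.pow_right k
      ((Nat.coprime_comm.mp ((Nat.Prime.coprime_iff_not_dvd Fact.out).mpr hQ)))
  haveI : Group.IsNilpotent V := hVp.isNilpotent
  have hCA : Cfsg.Agent.Lib.Coprime.CoprimeAction Q V := by
    refine ⟨?_, hcop, Or.inr inferInstance⟩
    rw [Subgroup.normalizer_eq_top_iff.mpr hVn]
    exact le_top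
  have hVQ : ⁅V, Q⁆ = ⊥ := hCA.commutator_eq_bot_of_chain hc h
  apply hQ1
  rw [eq_bot_iff]
  intro x hx
  have hxC : x ∈ Subgroup.centralizer (V : Set S) := by
    rw [Subgroup.mem_centralizer_iff]
    intro v hv
    have h1 := Subgroup.commutator_mem_commutator hv hx
    rw [hVQ, Subgroup.mem_bot, commutatorElement_eq_one_iff_mul_comm] at h1
    exact h1
  have hxV := Cfsg.Agent.Lib.Char.centralizer_pCore_le_of_isPSolvable hS hred hxC
  have h2 : x ∈ V ⊓ Q := ⟨hxV, hx⟩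
  rwa [hCA.inf_eq_bot] at h2

end Cfsg.Agent.S1892
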