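import Cfsg.Statements.S1894
import Cfsg.Agent.Lib.OddLocal.PGroup
import Cfsg.Agent.Lib.Coprime.Conj
-- import your own Cfsg.Agent.* helpers here

set_option autoImplicit false
open Cfsg

namespace Cfsg.Agent.S1894

/-- Let P be a finite p-group, A a normal subgroup of P and B an abelian subgroup of A that is normal in P. Then some subgroup C of A containing B is normal in P and is self-centralizing and normal in A (C ∈ SCN(A)). -/
theorem result {P : Type*} [Group P] [Finite P] {p : ℕ} [Fact p.Prime] (hP : IsPGroup p P)
    (A : Subgroup P) [A.Normal] (B : Subgroup P) [B.Normal] (hBA : B ≤ A) (hB : IsMulCommutative B) :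
    ∃ C : Subgroup P, C.Normal ∧ B ≤ C ∧ Cfsg.IsSCN A C := by
  classical
  let F : Set (Subgroup P) := {C | C.Normal ∧ B ≤ C ∧ C ≤ A ∧ IsMulCommutative C}
  have hBF : B ∈ F := ⟨inferInstance, le_rfl, hBA, hB⟩
  obtain ⟨C, hBC, hC⟩ := (Set.toFinite F).exists_le_maximal hBF
  have hCn : C.Normal := hC.1.1
  have hCA : C ≤ A := hC.1.2.2.1
  have hCab : IsMulCommutative C := hC.1.2.2.2
  have hcomm : ∀ a ∈ C, ∀ b ∈ C, a * b = b * a := by
    intro a ha b hb
    have := hCab.is_comm.comm ⟨a, ha⟩ ⟨b, hb⟩
    exact congrArg Subtype.val this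
  have hAn : (A : Subgroup P).Normal := inferInstance
  refine ⟨C, hCn, hBC, hCA, ?_, ?_⟩
  · intro a _
    rw [Subgroup.mem_normalizer_iff]
    intro y
    refine ⟨fun hy => hCn.conj_mem y hy a, fun hy => ?_⟩
    have := hCn.conj_mem _ hy a⁻¹
    simpa [mul_assoc] using this
  apply le_antisymm
  · by_contra hcon
    have hnorm : (A ⊓ Subgroup.centralizer (C : Set P)).Normal := by
      refine ⟨fun x hx g => Subgroup.mem_inf.2 ⟨hAn.conj_mem x (Subgroup.mem_inf.1 hx).1 g, ?_⟩⟩
      have hx2 := (Subgroup.mem_inf.1 hx).2
      rw [Subgroup.mem_centralizer_iff] at hx2 ⊢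
      intro c hc
      have h1 : g⁻¹ * c * g ∈ C := by
        have := hCn.conj_mem c hc g⁻¹
        simpa using this
      have h2 := hx2 _ h1
      calc c * (g * x * g⁻¹) = g * ((g⁻¹ * c * g) * x) * g⁻¹ := by group
        _ = g * (x * (g⁻¹ * c * g)) * g⁻¹ := by rw [h2]
        _ = g * x * g⁻¹ * c := by group
    have : Group.IsNilpotent P := hP.isNilpotent
    obtain ⟨x, hx, hxC, hfix⟩ := Cfsg.Agent.Lib.OddLocal.exists_central_mod_of_nilpotent C _ hnorm hcon
    have hxA := (Subgroup.mem_inf.1 hx).1
    have hxc := (Subgroup.mem_inf.1 hx).2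
    set D : Subgroup P := Subgroup.closure ((C : Set P) ∪ {x}) with hD
    have hCD : C ≤ D := fun y hy => Subgroup.subset_closure (Or.inl hy)
    have hxD : x ∈ D := Subgroup.subset_closure (Or.inr rfl)
    have hDF : D ∈ F := by
      refine ⟨?_, hBC.trans hCD, ?_, ?_⟩
      · refine ⟨fun y hy g => ?_⟩
        have hmap : D.map (MulAut.conj g).toMonoidHom ≤ D := by
          rw [hD, MonoidHom.map_closure, Subgroup.closure_le]
          rintro _ ⟨y, hy | hy, rfl⟩
          · exact hCD (hCn.conj_mem y hy g)
          · rw [Set.mem_singleton_iff] at hy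
            subst hy
            have h1 : g * y * g⁻¹ * y⁻¹ ∈ C := by
              have := C.inv_mem (hfix g)
              rw [commutatorElement_inv] at this
              rw [commutatorElement_def] at this
              exact this
            have h2 : (MulAut.conj g).toMonoidHom y = (g * y * g⁻¹ * y⁻¹) * y := by
              simp
            rw [SetLike.mem_coe, h2]
            exact D.mul_mem (hCD h1) hxD
        exact hmap ⟨y, hy, by simp⟩
      · rw [hD, Subgroup.closure_le]
        rintro y (hy | hy)
        · exact hCA hy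
        · rw [Set.mem_singleton_iff] at hy
          subst hy
          exact hxA
      · have hc : ∀ a ∈ (C : Set P) ∪ {x}, ∀ b ∈ (C : Set P) ∪ {x}, a * b = b * a := by
          rw [Subgroup.mem_centralizer_iff] at hxc
          rintro a (ha | ha) b (hb | hb)
          · exact hcomm a ha b hb
          · rw [Set.mem_singleton_iff] at hb
            subst hb
            exact hxc a ha
          · rw [Set.mem_singleton_iff] at ha
            subst ha
            exact (hxc b hb).symm
          · rw [Set.mem_singleton_iff] at ha hb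
            rw [ha, hb]
        exact Subgroup.isMulCommutative_closure hc
    have := hC.2 hDF hCD
    exact hxC (this hxD)
  · refine le_inf hCA ?_
    intro a ha
    rw [Subgroup.mem_centralizer_iff]
    intro b hb
    exact hcomm b hb a ha

end Cfsg.Agent.S1894
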