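import Cfsg.Statements.S1898
import Cfsg.Agent.Lib.Tech.SmallAut
import Cfsg.Agent.Lib.OddLocal.PGroup
-- import your own Cfsg.Agent.* helpers here

set_option autoImplicit false
open Cfsg
open scoped commutatorElement

namespace Cfsg.Agent.S1898

/-- Let X be a finite 2-group whose derived subgroup is elementary abelian and central. Then the subgroup generated by the elements of order dividing 4 has exponent dividing 4, and every automorphism of X fixing each element of order dividing 4 has 2-power order. -/
theorem result {X : Type*} [Group X] [Finite X] (hX : IsPGroup 2 X)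
    (hel : Cfsg.IsElementaryAbelian 2 (commutator X)) (hcen : commutator X ≤ Subgroup.center X) :
    (∀ x ∈ Subgroup.closure {g : X | g ^ 4 = 1}, x ^ 4 = 1) ∧
      ∀ φ : MulAut X, (∀ g : X, g ^ 4 = 1 → φ g = g) → ∃ k : ℕ, φ ^ (2 ^ k) = 1 := by

  classical
  constructor
  · -- the fourth power map is a homomorphism
    have hcomcen : ∀ a b : X, ⁅a, b⁆ ∈ Subgroup.center X := fun a b => hcen (Subgroup.commutator_mem_commutator (Subgroup.mem_top a) (Subgroup.mem_top b))
    have hcom2 : ∀ a b : X, ⁅a, b⁆ ^ 2 = 1 := by
      intro a b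
      have h1 : ⁅a, b⁆ ∈ commutator X := Subgroup.commutator_mem_commutator (Subgroup.mem_top a) (Subgroup.mem_top b)
      exact hel.2 _ h1
    have hmul : ∀ a b : X, a ^ 4 = 1 → b ^ 4 = 1 → (a * b) ^ 4 = 1 := by
      intro a b ha hb
      have h1 := Cfsg.Agent.Lib.OddLocal.mul_pow_of_central_commutator b a ⁅b, a⁆ (by
          rw [commutatorElement_def]
          group) ((Subgroup.mem_center_iff.1 (hcomcen b a) b).symm) ((Subgroup.mem_center_iff.1 (hcomcen b a) a).symm) 4
      have h2 : (4 : ℕ).choose 2 = 2 * 3 := by decide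
      rw [h2, pow_mul, hcom2 b a, one_pow, mul_one, ha, hb, one_mul] at h1
      exact h1
    intro x hx
    induction hx using Subgroup.closure_induction with
    | mem x hx => exact hx
    | one => exact one_pow _
    | mul a b _ _ iha ihb => exact hmul a b iha ihb
    | inv a _ iha => rw [inv_pow, iha, inv_one]
  · intro φ hφ
    have hpos : orderOf φ ≠ 0 := (orderOf_pos φ).ne'
    obtain ⟨k, m, hm, hk⟩ := Nat.exists_eq_two_pow_mul_odd hpos
    refine ⟨k, ?_⟩
    have hψ : φ ^ 2 ^ k = 1 := by
      apply Cfsg.Agent.Lib.Tech.aut_eq_one_of_fixes_small (p := 2) hX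
      · have h1 : (φ ^ 2 ^ k) ^ m = 1 := by
          rw [← pow_mul, ← hk]
          exact pow_orderOf_eq_one φ
        have h2 : orderOf (φ ^ 2 ^ k) ∣ m := orderOf_dvd_of_pow_eq_one h1
        have h3 : (orderOf (φ ^ 2 ^ k)).Coprime 2 := Nat.Coprime.coprime_dvd_left h2 (Nat.coprime_two_right.2 hm)
        exact h3
      · intro a ha
        have ha4 : a ^ 4 = 1 := by
          rcases ha with h | ⟨-, h⟩
          · calc a ^ 4 = (a ^ 2) ^ 2 := by rw [← pow_mul]
              _ = 1 := by rw [h, one_pow]
          · exact h
        have h1 := hφ a ha4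
        have h2 : ∀ n : ℕ, (φ ^ n) a = a := by
          intro n
          induction n with
          | zero => simp
          | succ n ih => rw [pow_succ, MulAut.mul_apply, h1, ih]
        exact h2 _
    exact hψ

end Cfsg.Agent.S1898
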