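import Cfsg.Statements.S1899
-- import your own Cfsg.Agent.* helpers here

set_option autoImplicit false
open Cfsg

namespace Cfsg.Agent.S1899

/-- Let a dihedral group of order 2n, n odd and n > 1, act on a finite abelian 2-group A through automorphisms d and t with d^n = 1, t² = 1 and t d t⁻¹ = d⁻¹, and suppose that d fixes only the identity. Then A is the internal direct product of C_A(t) and its image under d. -/
theorem result {A : Type*} [CommGroup A] [Finite A] (hA : IsPGroup 2 A)
    {n : ℕ} (hn : Odd n) (hn1 : 1 < n) (d t : MulAut A) (hd : d ^ n = 1) (ht : t ^ 2 = 1) (hdt : t * d * t⁻¹ = d⁻¹)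
    (hfix : ∀ a : A, d a = a → a = 1) :
    (MulEquiv.toMonoidHom t).eqLocus (MonoidHom.id A) ⊓ ((MulEquiv.toMonoidHom t).eqLocus (MonoidHom.id A)).map d.toMonoidHom = ⊥ ∧
      (MulEquiv.toMonoidHom t).eqLocus (MonoidHom.id A) ⊔ ((MulEquiv.toMonoidHom t).eqLocus (MonoidHom.id A)).map d.toMonoidHom = ⊤ := by

  classical
  obtain ⟨k, hk⟩ := hn
  have hdt' : ∀ x : A, t (d x) = d⁻¹ (t x) := by
    intro x
    have h1 : t * d = d⁻¹ * t := by
      rw [← hdt]
      group
    exact congrArg (fun f : MulAut A => f x) h1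
  have hdt'' : ∀ x : A, t (d⁻¹ x) = d (t x) := by
    intro x
    have h1 := hdt' (d⁻¹ x)
    have h2 : d (d⁻¹ x) = x := by simp
    rw [h2] at h1
    rw [h1]
    simp
  have htt : ∀ x : A, t (t x) = x := by
    intro x
    have h1 : t * t = 1 := by
      rw [← pow_two, ht]
    exact congrArg (fun f : MulAut A => f x) h1
  have hd2 : ∀ x : A, d (d x) = x → x = 1 := by
    intro x hx
    have h1 : ∀ j : ℕ, (d ^ (2 * j)) x = x := by
      intro j
      induction j with
      | zero => simp
      | succ j ih =>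
        have h2 : d ^ (2 * (j + 1)) = d ^ (2 * j) * (d * d) := by
          rw [mul_add, mul_one, pow_add, pow_two]
        rw [h2, MulAut.mul_apply, MulAut.mul_apply, hx, ih]
    apply hfix
    have h3 := h1 (k + 1)
    have h4 : d ^ (2 * (k + 1)) = d ^ n * d := by
      rw [hk, ← pow_succ]
      congr 1
    rw [h4, hd, one_mul] at h3
    exact h3
  have hdinv : ∀ x : A, d (d⁻¹ x) = x := fun x => by simp
  have hinvd : ∀ x : A, d⁻¹ (d x) = x := fun x => by simp
  constructor
  · rw [eq_bot_iff]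
    intro a ha
    obtain ⟨h1, b, hb, rfl⟩ := ha
    have h1' : t (d b) = d b := h1
    have hb' : t b = b := hb
    rw [Subgroup.mem_bot]
    have h2 : d b = 1 := by
      apply hd2
      -- `d b` is fixed by `d²`
      have h3 := hdt' b
      rw [hb'] at h3
      have h4 : d⁻¹ b = d b := by
        rw [← h3]
        exact h1'
      have h5 : d (d⁻¹ b) = d (d b) := by rw [h4]
      rw [hdinv] at h5
      have h6 : d (d (d b)) = d b := by rw [← h5]
      exact h6
    exact h2
  · -- the map `y ↦ (d y) (d⁻¹ y)⁻¹` is bijective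
    let ψ : A →* A :=
      { toFun := fun y => d y * (d⁻¹ y)⁻¹
        map_one' := by simp
        map_mul' := by
          intro x y
          simp only [map_mul, mul_inv_rev]
          rw [mul_comm ((d⁻¹ y)⁻¹), mul_assoc, mul_assoc, mul_left_comm (d y)] }
    have hψinj : Function.Injective ψ := by
      rw [injective_iff_map_eq_one]
      intro y hy
      have h1 : d y * (d⁻¹ y)⁻¹ = 1 := hy
      have h2 : d y = d⁻¹ y := mul_inv_eq_one.1 h1
      apply hd2
      have h3 := congrArg d h2
      rw [hdinv] at h3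
      exact h3
    have hψsurj : Function.Surjective ψ := Finite.surjective_of_injective hψinj
    rw [eq_top_iff]
    intro a _
    obtain ⟨y, rfl⟩ := hψsurj a
    rw [Subgroup.mem_sup]
    refine ⟨(d⁻¹ y)⁻¹ * (t (d⁻¹ y))⁻¹, ?_, d (y * t y), ⟨y * t y, ?_, rfl⟩, ?_⟩
    · change t ((d⁻¹ y)⁻¹ * (t (d⁻¹ y))⁻¹) = (d⁻¹ y)⁻¹ * (t (d⁻¹ y))⁻¹
      rw [map_mul, map_inv, map_inv, htt, mul_comm]
    · change t (y * t y) = y * t y
      rw [map_mul, htt, mul_comm]
    · change (d⁻¹ y)⁻¹ * (t (d⁻¹ y))⁻¹ * d (y * t y) = d y * (d⁻¹ y)⁻¹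
      rw [hdt'', map_mul]
      have hgen : ∀ a b c : A, a⁻¹ * b⁻¹ * (c * b) = c * a⁻¹ := by
        intro a b c
        rw [mul_comm c b, mul_assoc, ← mul_assoc b⁻¹, inv_mul_cancel, one_mul, mul_comm]
      exact hgen _ _ _

end Cfsg.Agent.S1899
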