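import Cfsg.Statements.S1900
import Cfsg.Agent.Lib.Components.Signal
import Cfsg.Agent.Lib.Coprime.Abelian
import Cfsg.Agent.Lib.PGroups.Parts
import Cfsg.Agent.Lib.PLocal.Thompson
import Cfsg.Agent.Lib.OddLocal.Basic
-- import your own Cfsg.Agent.* helpers here

set_option autoImplicit false
open Cfsg

namespace Cfsg.Agent.S1900

section helpers

variable {S : Type*} [Group S]

private lemma core_comm {M : Subgroup S} [hM : M.Normal] {x y a : S} (hxa : a * x = x * a)
    (hz : a * (x * y⁻¹ * x⁻¹ * y) * a⁻¹ * (x * y⁻¹ * x⁻¹ * y)⁻¹ ∈ M) :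
    x * (y * a * y⁻¹ * a⁻¹) * x⁻¹ * (y * a * y⁻¹ * a⁻¹)⁻¹ ∈ M := by
  have hax : a * x * a⁻¹ = x := by rw [hxa]; group
  have hax' : a * x⁻¹ * a⁻¹ = x⁻¹ := by
    have : a * x⁻¹ * a⁻¹ = (a * x * a⁻¹)⁻¹ := by group
    rw [this, hax]
  have e1 : a * (x * y⁻¹ * x⁻¹ * y) * a⁻¹ =
      x * (a * y⁻¹ * a⁻¹) * x⁻¹ * (a * y⁻¹ * a⁻¹)⁻¹ := by
    calc a * (x * y⁻¹ * x⁻¹ * y) * a⁻¹
        = (a * x * a⁻¹) * (a * y⁻¹ * a⁻¹) * (a * x⁻¹ * a⁻¹) * (a * y⁻¹ * a⁻¹)⁻¹ := by group
      _ = _ := by rw [hax, hax']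
  rw [e1] at hz
  have h2 := hM.conj_mem _ hz (x * y * x⁻¹)
  have e2 : x * (y * a * y⁻¹ * a⁻¹) * x⁻¹ * (y * a * y⁻¹ * a⁻¹)⁻¹ =
      x * y * x⁻¹ * (x * (a * y⁻¹ * a⁻¹) * x⁻¹ * (a * y⁻¹ * a⁻¹)⁻¹ * (x * y⁻¹ * x⁻¹ * y)⁻¹) *
        (x * y * x⁻¹)⁻¹ := by group
  rw [e2]
  exact h2

private lemma comm_le_of_trivial {A B X N M : Subgroup S} [hM : M.Normal] (hB : ⁅B, X⁆ = B)
    (hAX : ∀ x ∈ A, ∀ a ∈ X, a * x = x * a) (hAB : ⁅A, B⁆ ≤ N)
    (hN : ∀ n ∈ N, ∀ a ∈ X, a * n * a⁻¹ * n⁻¹ ∈ M) : ⁅A, B⁆ ≤ M := by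
  rw [Subgroup.commutator_le]
  intro x hx y hy
  let π : S →* S ⧸ M := QuotientGroup.mk' M
  have hπ : ∀ g, π g = 1 ↔ g ∈ M := fun g => QuotientGroup.eq_one_iff g
  have hT : B ≤ (Subgroup.centralizer ({π x} : Set (S ⧸ M))).comap π := by
    calc B = ⁅B, X⁆ := hB.symm
      _ ≤ _ := by
        rw [Subgroup.commutator_le]
        intro y hy a ha
        rw [Subgroup.mem_comap, Subgroup.mem_centralizer_iff]
        rintro _ rfl
        have hz : a * (x * y⁻¹ * x⁻¹ * y) * a⁻¹ * (x * y⁻¹ * x⁻¹ * y)⁻¹ ∈ M := by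
          apply hN _ _ a ha
          have h1 := Subgroup.commutator_mem_commutator hx (B.inv_mem hy)
          have h2 := hAB h1
          rw [commutatorElement_def, inv_inv] at h2
          exact h2
        have h3 := core_comm (hAX x hx a ha) hz
        rw [commutatorElement_def]
        generalize y * a * y⁻¹ * a⁻¹ = c at h3
        rw [← hπ, map_mul, map_mul, map_mul, map_inv, map_inv] at h3
        have h4 := mul_inv_eq_one.mp h3
        exact mul_inv_eq_iff_eq_mul.mp h4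
  have h1 := hT hy
  rw [Subgroup.mem_comap, Subgroup.mem_centralizer_iff] at h1
  have h2 := h1 (π x) rfl
  rw [← hπ, commutatorElement_def, map_mul, map_mul, map_mul, map_inv, map_inv, h2]
  group

private lemma commutator_ne_self {P N : Subgroup S} (hP : Group.IsNilpotent P) (hNP : N ≤ P)
    (hN : N ≠ ⊥) : ⁅N, P⁆ ≠ N := by
  intro h
  obtain ⟨n, hn⟩ := (Subgroup.isNilpotent_iff_lowerCentralSeries P).mp hP
  have hall : ∀ k, N ≤ P.lowerCentralSeries k := by
    intro k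
    induction k with
    | zero => exact hNP
    | succ k ih =>
      rw [Subgroup.lowerCentralSeries_succ, ← h]
      exact Subgroup.commutator_mono ih le_rfl
  apply hN
  rw [eq_bot_iff, ← hn]
  exact hall n

end helpers

/-- Let S = PQ be a finite group with P a normal Sylow p-subgroup and Q elementary abelian of order q², q a prime different from p. If exactly two subgroups X₁, X₂ of order q in Q have a nontrivial centralizer in P, then P is the internal direct product of C_P(X₁) and C_P(X₂): they commute elementwise, meet trivially and generate P. -/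
theorem result {S : Type*} [Group S] [Finite S] {p q : ℕ} [Fact p.Prime] [Fact q.Prime] (hpq : p ≠ q)
    (P : Sylow p S) [(P : Subgroup S).Normal] (Q : Subgroup S) (hQ : Cfsg.IsElementaryAbelian q Q) (hQc : Nat.card Q = q ^ 2)
    (hS : (P : Subgroup S) ⊔ Q = ⊤)
    (X₁ X₂ : Subgroup S) (h₁ : X₁ ≤ Q) (h₂ : X₂ ≤ Q) (h₁₂ : X₁ ≠ X₂) (hc₁ : Nat.card X₁ = q) (hc₂ : Nat.card X₂ = q)
    (hf₁ : (P : Subgroup S) ⊓ Subgroup.centralizer (X₁ : Set S) ≠ ⊥)
    (hf₂ : (P : Subgroup S) ⊓ Subgroup.centralizer (X₂ : Set S) ≠ ⊥)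
    (honly : ∀ X : Subgroup S, X ≤ Q → Nat.card X = q →
      (P : Subgroup S) ⊓ Subgroup.centralizer (X : Set S) ≠ ⊥ → X = X₁ ∨ X = X₂) :
    ⁅(P : Subgroup S) ⊓ Subgroup.centralizer (X₁ : Set S), (P : Subgroup S) ⊓ Subgroup.centralizer (X₂ : Set S)⁆ = ⊥ ∧
      ((P : Subgroup S) ⊓ Subgroup.centralizer (X₁ : Set S)) ⊓ ((P : Subgroup S) ⊓ Subgroup.centralizer (X₂ : Set S)) = ⊥ ∧
      ((P : Subgroup S) ⊓ Subgroup.centralizer (X₁ : Set S)) ⊔ ((P : Subgroup S) ⊓ Subgroup.centralizer (X₂ : Set S)) = P := by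
  classical
  have hqp : q.Prime := Fact.out
  set Pp : Subgroup S := (P : Subgroup S) with hPp
  haveI hPn : Pp.Normal := inferInstance
  have hPg : IsPGroup p Pp := P.isPGroup'
  haveI hPnil : Group.IsNilpotent Pp := hPg.isNilpotent
  have hQc' := (Cfsg.Agent.Lib.PLocal.isEA_iff.mp hQ).1
  have hQpow : ∀ x ∈ Q, x ^ q = 1 := hQ.2
  have hcop : ∀ W : Subgroup S, W ≤ Pp → ¬ q ∣ Nat.card W := by
    intro W hW hd
    obtain ⟨k, hk⟩ := IsPGroup.iff_card.mp (hPg.to_le hW)
    rw [hk] at hd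
    have h1 := (Nat.prime_dvd_prime_iff_eq hqp Fact.out).mp (hqp.dvd_of_dvd_pow hd)
    exact hpq h1.symm
  have hnormQ : ∀ W : Subgroup S, W.Normal → Q ≤ Subgroup.normalizer (W : Set S) := by
    intro W hW
    rw [Subgroup.normalizer_eq_top_iff.mpr hW]
    exact le_top
  -- `X₁`, `X₂` meet trivially
  have hinf : X₁ ⊓ X₂ = ⊥ := by
    by_contra hne
    have hle : X₁ ⊓ X₂ ≤ X₁ := inf_le_left
    have hle2 : X₁ ⊓ X₂ ≤ X₂ := inf_le_right
    have hdvd : Nat.card ↥(X₁ ⊓ X₂) ∣ q := by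
      rw [← hc₁]
      exact Subgroup.card_dvd_of_le hle
    have hcases := (Nat.dvd_prime hqp).mp hdvd
    rcases hcases with h | h
    · exact hne (Subgroup.card_eq_one.mp h)
    · apply h₁₂
      have e1 : X₁ ⊓ X₂ = X₁ := Subgroup.eq_of_le_of_card_ge hle (by rw [hc₁, h])
      have e2 : X₁ ⊓ X₂ = X₂ := Subgroup.eq_of_le_of_card_ge hle2 (by rw [hc₂, h])
      rw [← e1, e2]
  obtain ⟨a, ha, ha1⟩ : ∃ a ∈ X₁, a ≠ 1 := by
    apply (Subgroup.ne_bot_iff_exists_ne_one.mp ?_ |>.elim fun x hx => ⟨x.1, x.2, fun e => hx (Subtype.ext e)⟩)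
    intro h
    rw [h, Subgroup.card_bot] at hc₁
    exact hqp.one_lt.ne hc₁
  obtain ⟨b, hb, hb1⟩ : ∃ b ∈ X₂, b ≠ 1 := by
    apply (Subgroup.ne_bot_iff_exists_ne_one.mp ?_ |>.elim fun x hx => ⟨x.1, x.2, fun e => hx (Subtype.ext e)⟩)
    intro h
    rw [h, Subgroup.card_bot] at hc₂
    exact hqp.one_lt.ne hc₂
  have hab : ∀ u, u ∈ X₁ → u ∈ X₂ → u = 1 := by
    intro u h1 h2
    have h3 : u ∈ X₁ ⊓ X₂ := ⟨h1, h2⟩
    rwa [hinf, Subgroup.mem_bot] at h3
  have ht1 : a * b ≠ 1 := by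
    intro e
    have e1 : a = b⁻¹ := eq_inv_of_mul_eq_one_left e
    exact ha1 (hab a ha (e1 ▸ X₂.inv_mem hb))
  have htQ : a * b ∈ Q := Q.mul_mem (h₁ ha) (h₂ hb)
  have hX₃ : (Pp ⊓ Subgroup.centralizer (Subgroup.zpowers (a * b) : Set S)) = ⊥ := by
    by_contra hne
    have hcard : Nat.card (Subgroup.zpowers (a * b)) = q := by
      rw [Nat.card_zpowers]
      exact orderOf_eq_prime (hQpow _ htQ) ht1
    rcases honly _ ((Subgroup.zpowers_le).mpr htQ) hcard hne with h | h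
    · have h1 : a * b ∈ X₁ := h ▸ Subgroup.mem_zpowers _
      have h2 : b ∈ X₁ := by
        have := X₁.mul_mem (X₁.inv_mem ha) h1
        simpa using this
      exact hb1 (hab b h2 hb)
    · have h1 : a * b ∈ X₂ := h ▸ Subgroup.mem_zpowers _
      have h2 : a ∈ X₂ := by
        have := X₂.mul_mem h1 (X₂.inv_mem hb)
        simpa using this
      exact ha1 (hab a ha h2)
  have hAB0 : (Pp ⊓ Subgroup.centralizer (X₁ : Set S)) ⊓ (Pp ⊓ Subgroup.centralizer (X₂ : Set S)) = ⊥ := by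
    rw [eq_bot_iff, ← hX₃]
    rintro u ⟨⟨huP, hu1⟩, ⟨-, hu2⟩⟩
    refine ⟨huP, Subgroup.mem_centralizer_iff.mpr ?_⟩
    intro t ht
    obtain ⟨n, rfl⟩ := Subgroup.mem_zpowers_iff.mp ht
    have h1 : a * u = u * a := Subgroup.mem_centralizer_iff.mp hu1 a ha
    have h2 : b * u = u * b := Subgroup.mem_centralizer_iff.mp hu2 b hb
    have h3 : Commute (a * b) u := Commute.mul_left h1 h2
    exact (h3.zpow_left n).eq
  set A := Pp ⊓ Subgroup.centralizer (X₁ : Set S) with hA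
  set B := Pp ⊓ Subgroup.centralizer (X₂ : Set S) with hB
  -- generation
  have hgen : ∀ N : Subgroup S, N.Normal → N ≤ Pp →
      N ≤ (N ⊓ Subgroup.centralizer (X₁ : Set S)) ⊔ (N ⊓ Subgroup.centralizer (X₂ : Set S)) := by
    intro N hN hNP
    refine (Cfsg.Agent.Lib.Components.le_iSup_centralizer_hyperplane hQ (hcop N hNP) (hnormQ N hN)).trans ?_
    refine iSup_le fun B' => ?_
    obtain ⟨B', hB'Q, hB'i⟩ := B'
    show N ⊓ Subgroup.centralizer (B' : Set S) ≤ _
    have hm := Cfsg.Agent.Lib.OddLocal.card_mul_relIndex hB'Q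
    rw [hQc] at hm
    by_cases hcq : Nat.card B' = q
    · by_cases hbot : Pp ⊓ Subgroup.centralizer (B' : Set S) = ⊥
      · have : N ⊓ Subgroup.centralizer (B' : Set S) ≤ ⊥ := by
          rw [← hbot]
          exact inf_le_inf_right _ hNP
        exact this.trans bot_le
      · rcases honly B' hB'Q hcq hbot with h | h
        · rw [h]
          exact le_sup_left
        · rw [h]
          exact le_sup_right
    · have hdvd : Nat.card B' ∣ q ^ 2 := ⟨_, hm.symm⟩
      obtain ⟨j, hj, hj2⟩ := (Nat.dvd_prime_pow hqp).mp hdvd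
      have hj0 : j ≠ 1 := by
        intro e
        rw [e, pow_one] at hj2
        exact hcq hj2
      have hj1 : j = 2 := by
        by_contra hne
        have hj3 : j = 0 := by omega
        rw [hj3, pow_zero] at hj2
        rw [hj2, one_mul] at hm
        have : q ^ 2 ≤ q := hm ▸ hB'i
        have h5 : q * q ≤ q * 1 := by nlinarith
        have h6 := Nat.le_of_mul_le_mul_left h5 hqp.pos
        exact absurd h6 (by have := hqp.two_le; omega)
      have hB'top : B' = Q := Subgroup.eq_of_le_of_card_ge hB'Q (by rw [hj2, hj1, hQc])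
      rw [hB'top]
      refine le_trans (inf_le_inf_left _ (Subgroup.centralizer_le h₁)) le_sup_left
  have hcomm₁ : ∀ x ∈ Q, ∀ y ∈ Q, x * y = y * x := hQc'
  -- the commutator subgroups
  have hAeq : ⁅A, X₂⁆ = A := by
    have hCA : Cfsg.Agent.Lib.Coprime.CoprimeAction X₂ A := by
      refine ⟨?_, ?_, Or.inl ?_⟩
      · intro x hx
        apply Cfsg.Agent.Lib.PGroups.mem_normalizer_of_conj_le'
        rintro w ⟨hwP, hwC⟩
        refine ⟨hPn.conj_mem w hwP x, Subgroup.mem_centralizer_iff.mpr fun y hy => ?_⟩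
        have h1 : y * w = w * y := Subgroup.mem_centralizer_iff.mp hwC y hy
        have h2 : y * x = x * y := hcomm₁ y (h₁ hy) x (h₂ hx)
        have h3 : y * x⁻¹ = x⁻¹ * y := (Commute.inv_right (show Commute y x from h2)).eq
        calc y * (x * w * x⁻¹) = x * (y * w) * x⁻¹ := by
              rw [← mul_assoc y, ← mul_assoc y, h2]; group
          _ = x * w * (y * x⁻¹) := by rw [h1]; group
          _ = x * w * x⁻¹ * y := by rw [h3]; group
      · rw [hc₂]
        have := hcop A inf_le_left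
        exact (Nat.Prime.coprime_iff_not_dvd hqp).mpr this
      · refine Group.isSolvable_of_comm fun x y => Subtype.ext (hcomm₁ _ (h₂ x.2) _ (h₂ y.2))
    have h1 := hCA.commutator_sup_centralizer
    have h2 : A ⊓ Subgroup.centralizer (X₂ : Set S) = ⊥ := by
      rw [eq_bot_iff, ← hAB0]
      rintro u ⟨hu1, hu2⟩
      exact ⟨hu1, hu1.1, hu2⟩
    rw [h2, sup_bot_eq] at h1
    exact h1
  have hBeq : ⁅B, X₁⁆ = B := by
    have hCA : Cfsg.Agent.Lib.Coprime.CoprimeAction X₁ B := by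
      refine ⟨?_, ?_, Or.inl ?_⟩
      · intro x hx
        apply Cfsg.Agent.Lib.PGroups.mem_normalizer_of_conj_le'
        rintro w ⟨hwP, hwC⟩
        refine ⟨hPn.conj_mem w hwP x, Subgroup.mem_centralizer_iff.mpr fun y hy => ?_⟩
        have h1 : y * w = w * y := Subgroup.mem_centralizer_iff.mp hwC y hy
        have h2 : y * x = x * y := hcomm₁ y (h₂ hy) x (h₁ hx)
        have h3 : y * x⁻¹ = x⁻¹ * y := (Commute.inv_right (show Commute y x from h2)).eq
        calc y * (x * w * x⁻¹) = x * (y * w) * x⁻¹ := by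
              rw [← mul_assoc y, ← mul_assoc y, h2]; group
          _ = x * w * (y * x⁻¹) := by rw [h1]; group
          _ = x * w * x⁻¹ * y := by rw [h3]; group
      · rw [hc₁]
        have := hcop B inf_le_left
        exact (Nat.Prime.coprime_iff_not_dvd hqp).mpr this
      · refine Group.isSolvable_of_comm fun x y => Subtype.ext (hcomm₁ _ (h₁ x.2) _ (h₁ y.2))
    have h1 := hCA.commutator_sup_centralizer
    have h2 : B ⊓ Subgroup.centralizer (X₁ : Set S) = ⊥ := by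
      rw [eq_bot_iff, ← hAB0]
      rintro u ⟨hu1, hu2⟩
      exact ⟨⟨hu1.1, hu2⟩, hu1⟩
    rw [h2, sup_bot_eq] at h1
    exact h1
  -- normality of `C_N(X) M`
  have hLn : ∀ {X' N M : Subgroup S}, X' ≤ Q → N.Normal → M.Normal → ⁅N, Pp⁆ ≤ M →
      ((N ⊓ Subgroup.centralizer (X' : Set S)) ⊔ M).Normal := by
    intro X' N M hX' hN hM hNM
    rw [← Subgroup.normalizer_eq_top_iff, eq_top_iff, ← hS, sup_le_iff]
    haveI := hM
    constructor
    · intro g hg
      apply Cfsg.Agent.Lib.PGroups.mem_normalizer_of_conj_le'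
      intro w hw
      obtain ⟨c, hc, m, hm, rfl⟩ := Subgroup.mem_sup_of_normal_right.mp hw
      have e : g * (c * m) * g⁻¹ = (g * c * g⁻¹ * c⁻¹) * c * (g * m * g⁻¹) := by group
      rw [e]
      refine Subgroup.mul_mem _ (Subgroup.mul_mem _ (Subgroup.mem_sup_right ?_) (Subgroup.mem_sup_left hc))
        (Subgroup.mem_sup_right (hM.conj_mem m hm g))
      have h1 := hNM (Subgroup.commutator_mem_commutator hc.1 hg)
      rw [commutatorElement_def] at h1
      have e2 : g * c * g⁻¹ * c⁻¹ = (c * g * c⁻¹ * g⁻¹)⁻¹ := by group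
      rw [e2]
      exact M.inv_mem h1
    · intro g hg
      apply Cfsg.Agent.Lib.PGroups.mem_normalizer_of_conj_le'
      intro w hw
      obtain ⟨c, hc, m, hm, rfl⟩ := Subgroup.mem_sup_of_normal_right.mp hw
      have e : g * (c * m) * g⁻¹ = (g * c * g⁻¹) * (g * m * g⁻¹) := by group
      rw [e]
      refine Subgroup.mul_mem _ (Subgroup.mem_sup_left ⟨hN.conj_mem c hc.1 g, ?_⟩)
        (Subgroup.mem_sup_right (hM.conj_mem m hm g))
      refine Subgroup.mem_centralizer_iff.mpr fun y hy => ?_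
      have h1 : y * c = c * y := Subgroup.mem_centralizer_iff.mp hc.2 y hy
      have h2 : y * g = g * y := hcomm₁ y (hX' hy) g hg
      have h3 : y * g⁻¹ = g⁻¹ * y := (Commute.inv_right (show Commute y g from h2)).eq
      calc y * (g * c * g⁻¹) = g * (y * c) * g⁻¹ := by
            rw [← mul_assoc y, ← mul_assoc y, h2]; group
        _ = g * c * (y * g⁻¹) := by rw [h1]; group
        _ = g * c * g⁻¹ * y := by rw [h3]; group
  -- trivial action from `N = C_N(X) M`
  have htriv : ∀ {X' N M : Subgroup S}, M.Normal → (N ⊓ Subgroup.centralizer (X' : Set S)) ⊔ M = N →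
      ∀ n ∈ N, ∀ a ∈ X', a * n * a⁻¹ * n⁻¹ ∈ M := by
    intro X' N M hM hL n hn a ha
    haveI := hM
    rw [← hL] at hn
    obtain ⟨c, hc, m, hm, rfl⟩ := Subgroup.mem_sup_of_normal_right.mp hn
    have h1 : a * c = c * a := Subgroup.mem_centralizer_iff.mp hc.2 a ha
    have e : a * (c * m) * a⁻¹ * (c * m)⁻¹ = c * (a * m * a⁻¹ * m⁻¹) * c⁻¹ := by
      rw [← mul_assoc a, h1]
      group
    rw [e]
    exact hM.conj_mem _ (M.mul_mem (hM.conj_mem m hm a) (M.inv_mem hm)) c
  have hAX₁ : ∀ x ∈ A, ∀ a ∈ X₁, a * x = x * a := fun x hx a ha =>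
    Subgroup.mem_centralizer_iff.mp hx.2 a ha
  have hBX₂ : ∀ x ∈ B, ∀ a ∈ X₂, a * x = x * a := fun x hx a ha =>
    Subgroup.mem_centralizer_iff.mp hx.2 a ha
  -- the descent
  have hind : ∀ n : ℕ, ∀ N : Subgroup S, Nat.card N = n → N.Normal → N ≤ Pp → ⁅A, B⁆ ≤ N → ⁅A, B⁆ = ⊥ := by
    intro n
    induction n using Nat.strong_induction_on with
    | _ n ih =>
      intro N hNc hN hNP hABN
      by_cases hbot : N = ⊥
      · rw [eq_bot_iff, ← hbot]
        exact hABN
      haveI := hN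
      have hM₀n : (⁅N, Pp⁆ : Subgroup S).Normal := inferInstance
      have hM₀le : ⁅N, Pp⁆ ≤ N := Subgroup.commutator_le_left N Pp
      have hM₀ne : ⁅N, Pp⁆ ≠ N := commutator_ne_self hPnil hNP hbot
      let 𝓜 : Set (Subgroup S) := {L | L.Normal ∧ ⁅N, Pp⁆ ≤ L ∧ L < N}
      have hmem : ⁅N, Pp⁆ ∈ 𝓜 := ⟨hM₀n, le_rfl, lt_of_le_of_ne hM₀le hM₀ne⟩
      obtain ⟨M, -, hMmax⟩ := (Set.toFinite 𝓜).exists_le_maximal hmem
      obtain ⟨hMn, hMc, hMlt⟩ := hMmax.prop
      haveI := hMn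
      have hdich : ∀ L : Subgroup S, L.Normal → M ≤ L → L ≤ N → L = M ∨ L = N := by
        intro L hL hML hLN
        by_cases hLe : L = N
        · exact Or.inr hLe
        · left
          have hmemL : L ∈ 𝓜 := ⟨hL, hMc.trans hML, lt_of_le_of_ne hLN hLe⟩
          exact le_antisymm (hMmax.le_of_ge hmemL hML) hML
      have hL₁ := hLn h₁ hN hMn hMc
      have hL₂ := hLn h₂ hN hMn hMc
      have hgenN := hgen N hN hNP
      have hABM : ⁅A, B⁆ ≤ M := by
        rcases hdich _ hL₁ le_sup_right (sup_le inf_le_left hMlt.le) with h1 | h1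
        · rcases hdich _ hL₂ le_sup_right (sup_le inf_le_left hMlt.le) with h2 | h2
          · exfalso
            have h3 : N ⊓ Subgroup.centralizer (X₁ : Set S) ≤ M := by
              rw [← h1]
              exact le_sup_left
            have h4 : N ⊓ Subgroup.centralizer (X₂ : Set S) ≤ M := by
              rw [← h2]
              exact le_sup_left
            exact hMlt.not_ge (hgenN.trans (sup_le h3 h4))
          · have h5 := comm_le_of_trivial (A := B) (B := A) (X := X₂) (N := N) (M := M) hAeq hBX₂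
              (by rwa [Subgroup.commutator_comm]) (htriv hMn h2)
            rwa [Subgroup.commutator_comm] at h5
        · exact comm_le_of_trivial (X := X₁) (N := N) (M := M) hBeq hAX₁ hABN (htriv hMn h1)
      have hcardlt : Nat.card M < n := by
        rw [← hNc]
        exact lt_of_le_of_ne (Nat.le_of_dvd Nat.card_pos (Subgroup.card_dvd_of_le hMlt.le))
          (fun e => hMlt.ne (Subgroup.eq_of_le_of_card_ge hMlt.le e.ge))
      exact ih _ hcardlt M rfl hMn (hMlt.le.trans hNP) hABM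
  have hcomm : ⁅A, B⁆ = ⊥ := by
    refine hind _ Pp rfl hPn le_rfl ?_
    exact (Subgroup.commutator_mono inf_le_left inf_le_left).trans (Subgroup.commutator_le_left Pp Pp)
  refine ⟨hcomm, hAB0, ?_⟩
  apply le_antisymm
  · exact sup_le inf_le_left inf_le_left
  · exact hgen Pp hPn le_rfl

end Cfsg.Agent.S1900
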