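import Cfsg.Statements.S1901
import Cfsg.Agent.Lib.Tech.PSolvFix
-- import your own Cfsg.Agent.* helpers here

set_option autoImplicit false
open Cfsg

namespace Cfsg.Agent.S1901

/-- Let G be a finite p-solvable group and Q a subgroup of order prime to p such that p divides the index of C_G(Q) in N_G(Q). Then Q normalizes no Sylow p-subgroup of G. -/
theorem result {G : Type*} [Group G] [Finite G] {p : ℕ} [Fact p.Prime]
    (hG : Cfsg.IsPSolvable p G) (Q : Subgroup G) (hQ : ¬ p ∣ Nat.card Q)
    (hA : p ∣ (Subgroup.centralizer (Q : Set G)).relIndex (Subgroup.normalizer (Q : Set G)))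
    (P : Sylow p G) : ¬ Q ≤ Subgroup.normalizer ((P : Subgroup G) : Set G) := by

  classical
  intro hQP
  -- a `p`-element of `N(Q)` outside `C(Q)`
  have hcop : (Nat.card Q).Coprime p := ((Fact.out : p.Prime).coprime_iff_not_dvd.2 hQ).symm
  obtain ⟨R⟩ : Nonempty (Sylow p ↥(Subgroup.normalizer (Q : Set G))) := inferInstance
  have hle : (R : Subgroup ↥(Subgroup.normalizer (Q : Set G))) ≤
      (Subgroup.centralizer (Q : Set G)).subgroupOf (Subgroup.normalizer (Q : Set G)) := by
    intro r hr
    rw [Subgroup.mem_subgroupOf]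
    obtain ⟨k, hk⟩ := R.2 ⟨r, hr⟩
    have hk' : (r : G) ^ p ^ k = 1 := by
      have := congrArg (fun w : ↥(R : Subgroup ↥(Subgroup.normalizer (Q : Set G))) => ((w : ↥(Subgroup.normalizer (Q : Set G))) : G)) hk
      simpa using this
    exact Cfsg.Agent.Lib.Tech.centralizes_of_normalizes_sylow _ rfl hG Q hcop P hQP (r : G) k hk' r.2
  have hd : (Subgroup.centralizer (Q : Set G)).relIndex (Subgroup.normalizer (Q : Set G)) ∣
      (R : Subgroup ↥(Subgroup.normalizer (Q : Set G))).index := Subgroup.index_dvd_of_le hle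
  exact R.not_dvd_index (hA.trans hd)

end Cfsg.Agent.S1901
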