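import Cfsg.Statements.S1905
import Cfsg.Agent.Lib.Tech.DihInv
import Cfsg.Agent.Lib.Transfer.Frobenius
-- import your own Cfsg.Agent.* helpers here

set_option autoImplicit false
open Cfsg

namespace Cfsg.Agent.S1905

/-- Let M be a subgroup of even order of a finite group S such that M contains the centralizer in S of each of its involutions and the normal core of M in S has odd order. Then all involutions of S are conjugate. If moreover N_S(X) ≤ M for a Sylow 2-subgroup X of M and I is an involution in the centre of X, then all involutions of M are conjugate in M and M = M₀ C_M(I) for some subgroup M₀ of M of odd order. -/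
theorem result {S : Type*} [Group S] [Finite S] (M : Subgroup S) (hM : Even (Nat.card M))
    (hC : ∀ i ∈ M, orderOf i = 2 → Subgroup.centralizer ({i} : Set S) ≤ M) (hcore : Odd (Nat.card M.normalCore)) :
    (∀ x y : S, orderOf x = 2 → orderOf y = 2 → IsConj x y) ∧
      ∀ (X : Sylow 2 M) (I : M), I ∈ (Subgroup.center ↥(X : Subgroup ↥M)).map (X : Subgroup ↥M).subtype → orderOf I = 2 →
        Subgroup.normalizer (((X : Subgroup M).map M.subtype : Subgroup S) : Set S) ≤ M →
        (∀ x y : M, orderOf x = 2 → orderOf y = 2 → IsConj x y) ∧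
          ∃ M₀ : Subgroup M, Odd (Nat.card M₀) ∧
            ∀ m : M, ∃ a ∈ M₀, ∃ c ∈ Subgroup.centralizer ({I} : Set M), m = a * c := by

  classical
  have hinv : ∀ {x : S}, orderOf x = 2 → x * x = 1 := fun h => Cfsg.Agent.Lib.TwoFusion.involution_sq h
  have hinvi : ∀ {x : S}, orderOf x = 2 → x⁻¹ = x := fun h => Cfsg.Agent.Lib.TwoFusion.involution_inv h
  have hconj2 : ∀ {x : S} (g : S), orderOf x = 2 → orderOf (g * x * g⁻¹) = 2 :=
    fun g h => Cfsg.Agent.Lib.TwoFusion.orderOf_conj_two h g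
  -- an involution of `M`
  have hcard2 : 2 ∣ Nat.card M := even_iff_two_dvd.1 hM
  haveI : Fact (Nat.Prime 2) := ⟨Nat.prime_two⟩
  obtain ⟨i₀', hi₀'⟩ := exists_prime_orderOf_dvd_card' 2 hcard2
  have hi₀ : orderOf (i₀' : S) = 2 := by rw [Subgroup.orderOf_coe]; exact hi₀'
  have hi₀M : (i₀' : S) ∈ M := i₀'.2
  -- an involution of `M` and an involution outside `M` are conjugate
  have hmix : ∀ i j : S, i ∈ M → orderOf i = 2 → j ∉ M → orderOf j = 2 → IsConj i j := by
    intro i j hiM hi hjM hj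
    by_cases hodd : Odd (orderOf (i * j))
    · obtain ⟨k, hk2, hk⟩ := Cfsg.Agent.Lib.TwoFusion.exists_mid_of_odd hi hj hodd
      rw [isConj_iff]
      refine ⟨k, ?_⟩
      rw [hinvi hk2]
      exact hk
    · exfalso
      obtain ⟨m, -, -, hu, h1, h2⟩ := Cfsg.Agent.Lib.Tech.exists_central_of_not_odd (hinv hi) (hinv hj) hodd
      have huM : (i * j) ^ m ∈ M := hC i hiM hi (by
        rw [Subgroup.mem_centralizer_singleton_iff]
        exact h1.symm)
      apply hjM
      apply hC _ huM hu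
      rw [Subgroup.mem_centralizer_singleton_iff]
      exact h2
  -- an involution outside `M`
  have hout : ∃ j : S, j ∉ M ∧ orderOf j = 2 := by
    by_contra hno
    push Not at hno
    have h1 : (i₀' : S) ∈ M.normalCore := by
      intro b
      by_contra hb
      exact hno _ hb (hconj2 b hi₀)
    have h2 : 2 ∣ Nat.card M.normalCore := by
      have h3 : orderOf (⟨(i₀' : S), h1⟩ : M.normalCore) = 2 := by
        rw [← Subgroup.orderOf_coe]
        exact hi₀
      rw [← h3]
      exact orderOf_dvd_natCard _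
    rw [← even_iff_two_dvd] at h2
    exact (Nat.not_even_iff_odd.2 hcore) h2
  obtain ⟨j₀, hj₀M, hj₀⟩ := hout
  have hall : ∀ x y : S, orderOf x = 2 → orderOf y = 2 → IsConj x y := by
    have hone : ∀ x : S, orderOf x = 2 → IsConj x j₀ := by
      intro x hx
      by_cases hxM : x ∈ M
      · exact hmix x j₀ hxM hx hj₀M hj₀
      · exact (hmix i₀' x hi₀M hi₀ hxM hx).symm.trans (hmix i₀' j₀ hi₀M hi₀ hj₀M hj₀)
    intro x y hx hy
    exact (hone x hx).trans (hone y hy).symm
  refine ⟨hall, ?_⟩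
  intro X I hI hI2 hN
  have hI2' : orderOf (I : S) = 2 := by rw [Subgroup.orderOf_coe]; exact hI2
  -- `X` centralizes `I`
  have hXC : ∀ x ∈ (X : Subgroup M), (x : S) * I = I * x := by
    intro x hx
    obtain ⟨c, hc, rfl⟩ := hI
    have h1 := (Subgroup.mem_center_iff.1 hc) ⟨x, hx⟩
    have h2 := congrArg (fun w : ↥(X : Subgroup M) => ((w : M) : S)) h1
    simpa using h2
  -- conjugates of `I` by elements with conjugate in `M` come from `M`
  have hconjM : ∀ g : S, g * I * g⁻¹ ∈ M → g ∈ M := by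
    intro g hg
    have hCI : Subgroup.centralizer ({(I : S)} : Set S) ≤ M := hC I I.2 hI2'
    have hCi : Subgroup.centralizer ({g * I * g⁻¹} : Set S) ≤ M := hC _ hg (hconj2 g hI2')
    -- `X^g` is a Sylow 2-subgroup of `M`
    let Xs : Subgroup S := (X : Subgroup M).map M.subtype
    let Y : Subgroup S := Xs.map (MulAut.conj g).toMonoidHom
    have hYM : Y ≤ M := by
      rintro _ ⟨_, ⟨x, hx, rfl⟩, rfl⟩
      apply hCi
      rw [Subgroup.mem_centralizer_singleton_iff]
      have h1 := hXC x hx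
      change g * (x : S) * g⁻¹ * (g * I * g⁻¹) = g * I * g⁻¹ * (g * (x : S) * g⁻¹)
      calc g * (x : S) * g⁻¹ * (g * I * g⁻¹) = g * ((x : S) * I) * g⁻¹ := by group
        _ = g * (I * x) * g⁻¹ := by rw [h1]
        _ = _ := by group
    let Y' : Subgroup M := Y.subgroupOf M
    have hcardY : Nat.card Y' = Nat.card (X : Subgroup M) := by
      have h1 : Nat.card Y' = Nat.card Y := by
        have : Y'.map M.subtype = Y := by
          rw [Subgroup.map_subgroupOf_eq_of_le hYM]
        rw [← this]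
        exact (Subgroup.card_map_of_injective M.subtype_injective).symm
      have h2 : Nat.card Y = Nat.card Xs := Subgroup.card_map_of_injective (MulEquiv.injective _)
      have h3 : Nat.card Xs = Nat.card (X : Subgroup M) := Subgroup.card_map_of_injective M.subtype_injective
      rw [h1, h2, h3]
    let Ys : Sylow 2 M := Sylow.ofCard Y' (by rw [hcardY, Sylow.card_eq_multiplicity])
    obtain ⟨m, hm⟩ := MulAction.exists_smul_eq M X Ys
    have hmY : ∀ x : M, x ∈ (X : Subgroup M) → ((m * x * m⁻¹ : M) : S) ∈ Y := by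
      intro x hx
      have h1 : m * x * m⁻¹ ∈ (m • X : Sylow 2 M) := Cfsg.Agent.Lib.Transfer.conj_mem_smul_sylow hx
      rw [hm] at h1
      exact h1
    -- `g⁻¹ m` normalizes `Xs`
    have hnorm : g⁻¹ * (m : S) ∈ Subgroup.normalizer (Xs : Set S) := by
      rw [Subgroup.mem_normalizer_iff]
      intro x
      constructor
      · rintro ⟨x', hx', rfl⟩
        obtain ⟨y, hy, hy2⟩ := hmY x' hx'
        have h3 : g⁻¹ * (m : S) * (x' : S) * (g⁻¹ * (m : S))⁻¹ = y := by
          have h4 : g * y * g⁻¹ = (m : S) * (x' : S) * (m : S)⁻¹ := by simpa using hy2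
          calc g⁻¹ * (m : S) * (x' : S) * (g⁻¹ * (m : S))⁻¹
              = g⁻¹ * ((m : S) * (x' : S) * (m : S)⁻¹) * g := by group
            _ = g⁻¹ * (g * y * g⁻¹) * g := by rw [h4]
            _ = y := by group
        change g⁻¹ * (m : S) * (x' : S) * (g⁻¹ * (m : S))⁻¹ ∈ Xs
        rw [h3]
        exact hy
      · intro hx
        have hw : g * (g⁻¹ * (m : S) * x * (g⁻¹ * (m : S))⁻¹) * g⁻¹ ∈ Y := ⟨_, hx, rfl⟩
        have hw2 : g * (g⁻¹ * (m : S) * x * (g⁻¹ * (m : S))⁻¹) * g⁻¹ = (m : S) * x * (m : S)⁻¹ := by group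
        rw [hw2] at hw
        have hwM : (m : S) * x * (m : S)⁻¹ ∈ M := hYM hw
        let w : M := ⟨_, hwM⟩
        have hwY : w ∈ Ys := hw
        rw [← hm] at hwY
        have h5 := Cfsg.Agent.Lib.Transfer.mem_smul_sylow.1 hwY
        refine ⟨_, h5, ?_⟩
        change (m : S)⁻¹ * ((m : S) * x * (m : S)⁻¹) * (m : S) = x
        group
    have h1 : g⁻¹ * (m : S) ∈ M := hN hnorm
    have h2 : g⁻¹ ∈ M := by
      have : g⁻¹ = (g⁻¹ * (m : S)) * (m : S)⁻¹ := by group
      rw [this]
      exact M.mul_mem h1 (M.inv_mem m.2)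
    simpa using M.inv_mem h2
  have hconjI : ∀ i : S, i ∈ M → orderOf i = 2 → ∃ m ∈ M, m * I * m⁻¹ = i := by
    intro i hi hi2
    obtain ⟨c, hc⟩ := isConj_iff.1 (hall (I : S) i hI2' hi2)
    exact ⟨c, hconjM c (by rw [hc]; exact hi), hc⟩
  have hcl : ∀ x y : M, orderOf x = 2 → orderOf y = 2 → IsConj x y := by
    intro x y hx hy
    have hx' : orderOf (x : S) = 2 := by rw [Subgroup.orderOf_coe]; exact hx
    have hy' : orderOf (y : S) = 2 := by rw [Subgroup.orderOf_coe]; exact hy
    obtain ⟨a, ha, hax⟩ := hconjI x x.2 hx'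
    obtain ⟨b, hb, hby⟩ := hconjI y y.2 hy'
    rw [isConj_iff]
    refine ⟨⟨b, hb⟩ * ⟨a, ha⟩⁻¹, ?_⟩
    apply Subtype.ext
    change b * a⁻¹ * (x : S) * (b * a⁻¹)⁻¹ = y
    rw [← hax, ← hby]
    group
  refine ⟨hcl, ?_⟩
  -- the second conjugate
  obtain ⟨g, hgM⟩ : ∃ g : S, g ∉ M := ⟨j₀, hj₀M⟩
  let M' : Subgroup S := M.map (MulAut.conj g).toMonoidHom
  have hmem' : ∀ x : S, x ∈ M' → g⁻¹ * x * g ∈ M := by
    rintro _ ⟨y, hy, rfl⟩
    have : g⁻¹ * ((MulAut.conj g).toMonoidHom y) * g = y := by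
      simp [mul_assoc]
    rw [this]
    exact hy
  have hmem'' : ∀ x : S, g⁻¹ * x * g ∈ M → x ∈ M' := by
    intro x hx
    refine ⟨_, hx, ?_⟩
    simp [mul_assoc]
  -- no involution in `M ∩ M'`
  have hnoinv : ∀ t : S, orderOf t = 2 → t ∈ M → t ∉ M' := by
    intro t ht htM htM'
    obtain ⟨m, hm, hmt⟩ := hconjI t htM ht
    have h1 := hmem' t htM'
    have h2 : (g⁻¹ * m) * I * (g⁻¹ * m)⁻¹ = g⁻¹ * t * g := by
      rw [← hmt]
      group
    have h3 : g⁻¹ * m ∈ M := hconjM _ (by rw [h2]; exact h1)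
    apply hgM
    have h4 : g = m * (g⁻¹ * m)⁻¹ := by group
    rw [h4]
    exact M.mul_mem hm (M.inv_mem h3)
  refine ⟨(M ⊓ M').subgroupOf M, ?_, ?_⟩
  · by_contra hodd
    rw [Nat.not_odd_iff_even, even_iff_two_dvd] at hodd
    obtain ⟨t, ht⟩ := exists_prime_orderOf_dvd_card' 2 hodd
    have ht' : orderOf ((t : M) : S) = 2 := by
      rw [Subgroup.orderOf_coe, Subgroup.orderOf_coe]
      exact ht
    have h1 : ((t : M) : S) ∈ M ⊓ M' := t.2
    exact hnoinv _ ht' (Subgroup.mem_inf.1 h1).1 (Subgroup.mem_inf.1 h1).2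
  · intro m
    set i : S := g * I * g⁻¹ with hi
    have hi2 : orderOf i = 2 := hconj2 g hI2'
    have hmid : ∀ j : S, j ∈ M → orderOf j = 2 → ∃ k : S, k⁻¹ = k ∧ k * j * k = i ∧ g⁻¹ * k ∈ M := by
      intro j hjM hj
      have hodd : Odd (orderOf (j * i)) := by
        by_contra hodd
        obtain ⟨n, -, -, hu, h1, h2⟩ := Cfsg.Agent.Lib.Tech.exists_central_of_not_odd (hinv hj) (hinv hi2) hodd
        have huM : (j * i) ^ n ∈ M := hC j hjM hj (by
          rw [Subgroup.mem_centralizer_singleton_iff]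
          exact h1.symm)
        apply hnoinv _ hu huM
        apply hmem''
        apply hC I I.2 hI2'
        rw [Subgroup.mem_centralizer_singleton_iff]
        have h3 : i * (j * i) ^ n = (j * i) ^ n * i := h2
        calc g⁻¹ * (j * i) ^ n * g * I = g⁻¹ * ((j * i) ^ n * (g * I * g⁻¹)) * g := by group
          _ = g⁻¹ * ((g * I * g⁻¹) * (j * i) ^ n) * g := by rw [← hi, h3]
          _ = I * (g⁻¹ * (j * i) ^ n * g) := by group
      obtain ⟨k, hk2, hk⟩ := Cfsg.Agent.Lib.TwoFusion.exists_mid_of_odd hj hi2 hodd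
      refine ⟨k, hinvi hk2, hk, ?_⟩
      have h1 : (k⁻¹ * g) * I * (k⁻¹ * g)⁻¹ = j := by
        rw [hinvi hk2]
        calc k * g * I * (k * g)⁻¹ = k * (g * I * g⁻¹) * k⁻¹ := by group
          _ = k * i * k := by rw [← hi, hinvi hk2]
          _ = k * (k * j * k) * k := by rw [hk]
          _ = (k * k) * j * (k * k) := by group
          _ = j := by rw [hinv hk2]; group
      have h2 : k⁻¹ * g ∈ M := hconjM _ (by rw [h1]; exact hjM)
      have h3 : g⁻¹ * k = (k⁻¹ * g)⁻¹ := by group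
      rw [h3]
      exact M.inv_mem h2
    obtain ⟨k, hki, hk, hkM⟩ := hmid I I.2 hI2'
    have hj'M : (m : S) * I * (m : S)⁻¹ ∈ M := M.mul_mem (M.mul_mem m.2 I.2) (M.inv_mem m.2)
    obtain ⟨k', hki', hk', hkM'⟩ := hmid _ hj'M (hconj2 _ hI2')
    have hdM : k' * k ∈ M := by
      have h1 : k' * k = (g⁻¹ * k')⁻¹ * (g⁻¹ * k) := by
        calc k' * k = k'⁻¹ * k := by rw [hki']
          _ = _ := by group
      rw [h1]
      exact M.mul_mem (M.inv_mem hkM') hkM
    have hdM' : k' * k ∈ M' := by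
      apply hmem''
      have h1 : g⁻¹ * (k' * k) * g = (g⁻¹ * k') * (g⁻¹ * k)⁻¹ := by
        calc g⁻¹ * (k' * k) * g = g⁻¹ * k' * (k⁻¹ * g) := by rw [hki]; group
          _ = _ := by group
      rw [h1]
      exact M.mul_mem hkM' (M.inv_mem hkM)
    have hdconj : (k' * k) * I * (k' * k)⁻¹ = (m : S) * I * (m : S)⁻¹ := by
      have h1 : (k' * k)⁻¹ = k * k' := by
        rw [mul_inv_rev, hki, hki']
      rw [h1]
      have h2 : k' * (k * I * k) * k' = (m : S) * I * (m : S)⁻¹ := by
        rw [hk, ← hk']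
        have hkk : k' * k' = 1 := by
          have := mul_inv_cancel k'
          rwa [hki'] at this
        calc k' * (k' * ((m : S) * I * (m : S)⁻¹) * k') * k' = (k' * k') * ((m : S) * I * (m : S)⁻¹) * (k' * k') := by group
          _ = _ := by rw [hkk]; group
      rw [← h2]
      group
    let d : M := ⟨k' * k, hdM⟩
    refine ⟨d, ?_, d⁻¹ * m, ?_, by group⟩
    · rw [Subgroup.mem_subgroupOf]
      exact Subgroup.mem_inf.2 ⟨hdM, hdM'⟩
    · rw [Subgroup.mem_centralizer_singleton_iff]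
      apply Subtype.ext
      change (k' * k)⁻¹ * (m : S) * I = I * ((k' * k)⁻¹ * (m : S))
      have h3 : (m : S) * I = (k' * k) * I * (k' * k)⁻¹ * (m : S) := by
        rw [hdconj]
        group
      calc (k' * k)⁻¹ * (m : S) * I = (k' * k)⁻¹ * ((m : S) * I) := by group
        _ = (k' * k)⁻¹ * ((k' * k) * I * (k' * k)⁻¹ * (m : S)) := by rw [← h3]
        _ = _ := by group

end Cfsg.Agent.S1905
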