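import Cfsg.Statements.S1906
import Cfsg.Agent.Lib.Tech.GL3Sylow
-- import your own Cfsg.Agent.* helpers here

set_option autoImplicit false
open Cfsg

namespace Cfsg.Agent.S1906

/-- Let G be a finite group with no subgroup of index 2 whose Sylow 2-subgroup X embeds in GL₃(F) for a finite field F of odd order. If X contains an elementary abelian subgroup of order 8, then X is abelian. -/
theorem result {G : Type*} [Group G] [Finite G] (hG : ∀ H : Subgroup G, H.index ≠ 2) (X : Sylow 2 G)
    {F : Type*} [Field F] [Fintype F] (hF : Odd (Fintype.card F))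
    (f : ↥(X : Subgroup G) →* GL (Fin 3) F) (hf : Function.Injective f)
    (E : Subgroup G) (hE : E ≤ (X : Subgroup G)) (hEa : Cfsg.IsElementaryAbelian 2 E) (hE8 : Nat.card E = 8) :
    IsMulCommutative (X : Subgroup G) := by
  classical
  have h2 : (2 : F) ≠ 0 := by
    intro h
    have h1 : ((2 : ℕ) : F) = 0 := by exact_mod_cast h
    have h3 : ringChar F ∣ 2 := (CharP.cast_eq_zero_iff F (ringChar F) 2).1 h1
    have h4 : ringChar F = 2 := by
      rcases (Nat.dvd_prime Nat.prime_two).1 h3 with h5 | h5
      · exact absurd h5 (CharP.ringChar_ne_one)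
      · exact h5
    have h5 := (FiniteField.even_card_iff_char_two (F := F)).1 h4
    rw [Nat.odd_iff] at hF
    omega
  let ρ : ↥(X : Subgroup G) →* Module.End F (Fin 3 → F) :=
    ((Matrix.toLinAlgEquiv' : Matrix (Fin 3) (Fin 3) F ≃ₐ[F] _).toAlgHom.toMonoidHom).comp ((Units.coeHom _).comp f)
  have hρ : Function.Injective ρ := by
    intro a b hab
    apply hf
    apply Units.ext
    exact (Matrix.toLinAlgEquiv' : Matrix (Fin 3) (Fin 3) F ≃ₐ[F] _).injective hab
  exact Cfsg.Agent.Lib.Tech.sylow_abelian_of_gl3 hG X X.isPGroup' X.not_dvd_index h2 (by simp) ρ hρ E hE hEa hE8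

end Cfsg.Agent.S1906
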