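import Cfsg.Statements.S1907
import Cfsg.Agent.Lib.Tech.Constrained
import Cfsg.Agent.Lib.Tech.CentricCtl
import Cfsg.Agent.Lib.TwoFusion.StrongEmb
-- import your own Cfsg.Agent.* helpers here

set_option autoImplicit false
open Cfsg

namespace Cfsg.Agent.S1907

/-- Let P be a Sylow p-subgroup of a finite group G, H = P ∩ O_{p',p}(G), N = N_G(H) and D = O_{p'}(G). (a) If y is an element of p-power order of N and d ∈ D with d⁻¹ y d ∈ N, then d = d₁ d₂ with d₁ ∈ C_D(y) and d₂ ∈ C_D(H). (b) Two elements of P that are conjugate in G are conjugate in N. -/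
theorem result {G : Type*} [Group G] [Finite G] {p : ℕ} [Fact p.Prime] (P : Sylow p G) :
    (∀ y ∈ Subgroup.normalizer (((P : Subgroup G) ⊓ Cfsg.pPrimePCore p G : Subgroup G) : Set G), (∃ k : ℕ, orderOf y = p ^ k) →
      ∀ d ∈ Cfsg.pPrimeCore p G, d⁻¹ * y * d ∈ Subgroup.normalizer (((P : Subgroup G) ⊓ Cfsg.pPrimePCore p G : Subgroup G) : Set G) →
        ∃ d₁ ∈ Cfsg.pPrimeCore p G ⊓ Subgroup.centralizer ({y} : Set G),
          ∃ d₂ ∈ Cfsg.pPrimeCore p G ⊓ Subgroup.centralizer (((P : Subgroup G) ⊓ Cfsg.pPrimePCore p G : Subgroup G) : Set G), d = d₁ * d₂) ∧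
    ∀ x y : G, x ∈ (P : Subgroup G) → y ∈ (P : Subgroup G) → IsConj x y →
      ∃ n ∈ Subgroup.normalizer (((P : Subgroup G) ⊓ Cfsg.pPrimePCore p G : Subgroup G) : Set G), n * x * n⁻¹ = y := by

  classical
  set L := Cfsg.pPrimePCore p G with hL
  set D := Cfsg.pPrimeCore p G with hD
  set H : Subgroup G := (P : Subgroup G) ⊓ L with hH
  set N := Subgroup.normalizer (H : Set G) with hN
  haveI hDn : D.Normal := Cfsg.Agent.Lib.Basic.pPrimeCore_normal p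
  haveI hLn : L.Normal := Cfsg.Agent.Lib.Components.pPrimePCore_normal
  have hHp : IsPGroup p H := P.isPGroup'.to_le inf_le_left
  have hDc : (Nat.card D).Coprime p := Cfsg.Agent.Lib.Components.coprime_card_pPrimeCore p
  -- the centralizer of `H` in `D`
  have hDN : ∀ w ∈ D, w ∈ N → w ∈ Subgroup.centralizer (H : Set G) := by
    intro w hwD hwN
    rw [Subgroup.mem_centralizer_iff]
    intro h hh
    have h1 : w * h * w⁻¹ * h⁻¹ ∈ H := H.mul_mem ((Subgroup.mem_normalizer_iff.1 hwN h).1 hh) (H.inv_mem hh)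
    have h2 : w * h * w⁻¹ * h⁻¹ ∈ D := by
      have h3 : w * h * w⁻¹ * h⁻¹ = w * (h * w⁻¹ * h⁻¹) := by group
      rw [h3]
      exact D.mul_mem hwD (hDn.conj_mem _ (D.inv_mem hwD) h)
    have h4 := Cfsg.Agent.Lib.Tech.inf_pPrimeCore_eq_one hHp h1 h2
    rw [mul_inv_eq_one, mul_inv_eq_iff_eq_mul] at h4
    exact h4.symm
  let C₀ : Subgroup ↥N := (D ⊓ Subgroup.centralizer (H : Set G)).subgroupOf N
  haveI hC₀n : C₀.Normal := by
    constructor
    intro c hc n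
    rw [Subgroup.mem_subgroupOf] at hc ⊢
    obtain ⟨hc1, hc2⟩ := Subgroup.mem_inf.1 hc
    refine Subgroup.mem_inf.2 ⟨hDn.conj_mem _ hc1 _, ?_⟩
    have h1 := Subgroup.mem_normalizer_iff.1 n.2
    rw [Subgroup.mem_centralizer_iff] at hc2 ⊢
    intro h hh
    have h2 : (n : G)⁻¹ * h * n ∈ H := by
      have := (h1 ((n : G)⁻¹ * h * n)).2 (by simpa [mul_assoc] using hh)
      exact this
    have h3 := hc2 _ h2
    simp only [Subgroup.coe_mul, Subgroup.coe_inv, MulMemClass.coe_mul, InvMemClass.coe_inv]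
    calc h * ((n : G) * c * (n : G)⁻¹) = (n : G) * (((n : G)⁻¹ * h * n) * c) * (n : G)⁻¹ := by group
      _ = (n : G) * (c * ((n : G)⁻¹ * h * n)) * (n : G)⁻¹ := by rw [h3]
      _ = _ := by group
  have hC₀c : (Nat.card C₀).Coprime p := by
    have h1 : Nat.card C₀ ∣ Nat.card D := by
      have h2 : C₀.map N.subtype ≤ D := by
        rintro _ ⟨x, hx, rfl⟩
        exact (Subgroup.mem_inf.1 (Subgroup.mem_subgroupOf.1 hx)).1
      have h3 : Nat.card (C₀.map N.subtype) = Nat.card C₀ :=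
        Subgroup.card_map_of_injective N.subtype_injective
      rw [← h3]
      exact Subgroup.card_dvd_of_le h2
    exact Nat.Coprime.coprime_dvd_left h1 hDc
  have hA : ∀ y ∈ N, (∃ k : ℕ, orderOf y = p ^ k) → ∀ d ∈ D, d⁻¹ * y * d ∈ N →
      ∃ d₁ ∈ D ⊓ Subgroup.centralizer ({y} : Set G), ∃ d₂ ∈ D ⊓ Subgroup.centralizer (H : Set G), d = d₁ * d₂ := by
    intro y hy hord d hd hdy
    have hu : (⟨y, hy⟩ : ↥N)⁻¹ * ⟨d⁻¹ * y * d, hdy⟩ ∈ C₀ := by
      rw [Subgroup.mem_subgroupOf]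
      change y⁻¹ * (d⁻¹ * y * d) ∈ _
      have h1 : y⁻¹ * (d⁻¹ * y * d) ∈ D := by
        have h2 : y⁻¹ * (d⁻¹ * y * d) = (y⁻¹ * d⁻¹ * y) * d := by group
        rw [h2]
        refine D.mul_mem ?_ hd
        have := hDn.conj_mem _ (D.inv_mem hd) y⁻¹
        simpa using this
      have h3 : y⁻¹ * (d⁻¹ * y * d) ∈ N := N.mul_mem (N.inv_mem hy) hdy
      exact Subgroup.mem_inf.2 ⟨h1, hDN _ h1 h3⟩
    have hord1 : ∃ k : ℕ, orderOf (⟨y, hy⟩ : ↥N) = p ^ k := by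
      rw [Subgroup.orderOf_mk]
      exact hord
    have hord2 : ∃ k : ℕ, orderOf (⟨d⁻¹ * y * d, hdy⟩ : ↥N) = p ^ k := by
      rw [Subgroup.orderOf_mk]
      obtain ⟨k, hk⟩ := hord
      refine ⟨k, ?_⟩
      have := Cfsg.Agent.Lib.TwoFusion.orderOf_conj_eq d⁻¹ y
      rw [inv_inv] at this
      rw [this, hk]
    obtain ⟨c, hc, hcy⟩ := Cfsg.Agent.Lib.Tech.exists_conj_of_same_image C₀ hC₀c hord1 hord2 hu
    have hcy' : (c : G) * (d⁻¹ * y * d) * (c : G)⁻¹ = y := congrArg Subtype.val hcy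
    obtain ⟨hc1, hc2⟩ := Subgroup.mem_inf.1 (Subgroup.mem_subgroupOf.1 hc)
    refine ⟨d * (c : G)⁻¹, Subgroup.mem_inf.2 ⟨D.mul_mem hd (D.inv_mem hc1), ?_⟩, c, Subgroup.mem_inf.2 ⟨hc1, hc2⟩, by group⟩
    rw [Subgroup.mem_centralizer_singleton_iff]
    have h4 : y * (d * (c : G)⁻¹) = d * (c : G)⁻¹ * ((c : G) * d⁻¹ * y * d * (c : G)⁻¹) := by group
    have h5 : (c : G) * d⁻¹ * y * d * (c : G)⁻¹ = y := by
      calc (c : G) * d⁻¹ * y * d * (c : G)⁻¹ = (c : G) * (d⁻¹ * y * d) * (c : G)⁻¹ := by group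
        _ = y := hcy'
    rw [h4, h5]
  refine ⟨hA, ?_⟩
  intro x y hx hy hxy
  obtain ⟨g, hg⟩ := isConj_iff.1 hxy
  have hPN : (P : Subgroup G) ≤ N := by
    intro s hs
    rw [Subgroup.mem_normalizer_iff]
    intro h
    constructor
    · intro hh
      exact Subgroup.mem_inf.2 ⟨(P : Subgroup G).mul_mem ((P : Subgroup G).mul_mem hs (Subgroup.mem_inf.1 hh).1) ((P : Subgroup G).inv_mem hs),
        hLn.conj_mem _ (Subgroup.mem_inf.1 hh).2 s⟩
    · intro hh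
      have h1 := Subgroup.mem_inf.1 hh
      refine Subgroup.mem_inf.2 ⟨?_, ?_⟩
      · have h2 : h = s⁻¹ * (s * h * s⁻¹) * s := by group
        rw [h2]
        exact (P : Subgroup G).mul_mem ((P : Subgroup G).mul_mem ((P : Subgroup G).inv_mem hs) h1.1) hs
      · have h2 := hLn.conj_mem _ h1.2 s⁻¹
        simpa [mul_assoc] using h2
  -- `g = d n`
  have hfr := Cfsg.Agent.Lib.Tech.normalizer_sup_pPrimeCore P
  have hgtop : g⁻¹ ∈ N ⊔ D := by
    rw [hfr]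
    trivial
  obtain ⟨n₂, hn₂, o₂, ho₂, hgeq⟩ := Cfsg.Agent.Lib.Components.exists_mul_of_mem_sup_normal hgtop
  have hg' : g = o₂⁻¹ * n₂⁻¹ := by
    have := congrArg (fun w => w⁻¹) hgeq
    simpa using this
  set n := n₂⁻¹ with hn
  have hnN : n ∈ N := N.inv_mem hn₂
  set d := o₂⁻¹ with hd'
  have hdD : d ∈ D := D.inv_mem ho₂
  have hx' : n * x * n⁻¹ ∈ N := N.mul_mem (N.mul_mem hnN (hPN hx)) (N.inv_mem hnN)
  have hyconj : d⁻¹ * y * d = n * x * n⁻¹ := by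
    rw [← hg, hg']
    group
  have hordy : ∃ k : ℕ, orderOf y = p ^ k := by
    obtain ⟨k, hk⟩ := IsPGroup.iff_orderOf.1 P.isPGroup' ⟨y, hy⟩
    exact ⟨k, by rw [← hk, Subgroup.orderOf_mk]⟩
  obtain ⟨d₁, hd₁, d₂, hd₂, hdeq⟩ := hA y (hPN hy) hordy d hdD (by rw [hyconj]; exact hx')
  obtain ⟨hd₂1, hd₂2⟩ := Subgroup.mem_inf.1 hd₂
  have hd₂N : d₂ ∈ N := Cfsg.Agent.Lib.Tech.centralizer_le_normalizer' H hd₂2
  refine ⟨d₂ * n, N.mul_mem hd₂N hnN, ?_⟩
  have hd₁c := (Subgroup.mem_inf.1 hd₁).2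
  rw [Subgroup.mem_centralizer_singleton_iff] at hd₁c
  have h6 : y = d * (n * x * n⁻¹) * d⁻¹ := by
    rw [← hyconj]
    group
  rw [hdeq] at h6
  have h7 : d₁⁻¹ * y * d₁ = y := by
    rw [mul_assoc, ← hd₁c]
    group
  calc d₂ * n * x * (d₂ * n)⁻¹ = d₁⁻¹ * (d₁ * d₂ * (n * x * n⁻¹) * (d₁ * d₂)⁻¹) * d₁ := by group
    _ = d₁⁻¹ * y * d₁ := by rw [← h6]
    _ = y := h7

end Cfsg.Agent.S1907
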