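import Cfsg.Statements.S1924
import Cfsg.Agent.Lib.Tech.ThompsonChain
import Cfsg.Agent.Lib.Transfer.Basic
import Cfsg.Agent.Lib.Coprime.Sylow
import Cfsg.Agent.Lib.Basic.Misc2
-- import your own Cfsg.Agent.* helpers here

set_option autoImplicit false
open Cfsg

namespace Cfsg.Agent.S1924

/-- A consequence of Thompson's transfer lemma. Let G be a finite group, L a subgroup with O²(L) = L, T a Sylow 2-subgroup of L and S a Sylow 2-subgroup of G containing T. Suppose D ≤ S is a dihedral subgroup of order at least 4 (the four-group counts) with D ∩ T = 1 and S = TD as a set of products (so |S| = |T|·|D|), and C ≤ D is cyclic of index 2 in D. If no involution of D outside C is G-conjugate to an involution of the subgroup generated by T and C, and the involution of C is not G-conjugate to any involution of T, then G has a normal subgroup K, containing every Sylow 2-subgroup of L as a Sylow 2-subgroup, with G = KD. -/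
theorem result {G : Type*} [Group G] [Finite G] (L T S D C : Subgroup G) (hL : Cfsg.pResidual 2 ↥L = ⊤)
    (hTL : T ≤ L) (hT2 : IsPGroup 2 T) (hTsyl : ¬ 2 ∣ T.relIndex L)
    (hS2 : IsPGroup 2 S) (hSsyl : ¬ 2 ∣ S.index) (hTS : T ≤ S)
    (hDS : D ≤ S) (hDih : ∃ n : ℕ, 2 ≤ n ∧ Nonempty (↥D ≃* DihedralGroup n)) (hDT : D ⊓ T = ⊥) (hTD : T ⊔ D = S) (hTDc : Nat.card T * Nat.card D = Nat.card S)
    (hCD : C ≤ D) (hC : IsCyclic ↥C) (hCi : C.relIndex D = 2)
    (h1 : ∀ x ∈ D, x ∉ C → orderOf x = 2 → ∀ g : G, g * x * g⁻¹ ∈ T ⊔ C → False)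
    (h2 : ∀ c ∈ C, orderOf c = 2 → ∀ g : G, g * c * g⁻¹ ∈ T → False) :
    ∃ K : Subgroup G, K.Normal ∧ K ⊔ D = ⊤ ∧
      ∀ T' : Subgroup G, T' ≤ L → IsPGroup 2 T' → ¬ 2 ∣ T'.relIndex L → T' ≤ K ∧ ¬ 2 ∣ T'.relIndex K := by
  classical
  haveI : Fact (Nat.Prime 2) := ⟨Nat.prime_two⟩
  set K : Subgroup G := Cfsg.pResidual 2 G with hK
  -- `L ≤ K`
  have hLK : L ≤ K := by
    intro x hx
    have h1 : (⟨x, hx⟩ : ↥L) ∈ Cfsg.pResidual 2 ↥L := by
      rw [hL]
      exact Subgroup.mem_top _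
    have h2 : (Cfsg.pResidual 2 ↥L).map L.subtype ≤ K := by
      rw [Subgroup.map_le_iff_le_comap, Cfsg.pResidual, Subgroup.closure_le]
      intro g hg
      apply Subgroup.subset_closure
      change Nat.Coprime (orderOf (g : G)) 2
      rw [Subgroup.orderOf_coe]
      exact hg
    exact h2 ⟨_, h1, rfl⟩
  have hTK : T ≤ K := hTL.trans hLK
  have hCS : C ≤ S := hCD.trans hDS
  -- outside `C` inside `D` : involutions
  obtain ⟨m, hm2, ⟨e⟩⟩ := hDih
  have hrefl : ∀ y ∈ D, y ∉ C → orderOf y = 2 := by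
    intro y hy hyC
    set C' : Subgroup (DihedralGroup m) := (C.subgroupOf D).map e.toMonoidHom with hC'
    have hcyc : IsCyclic ↥C' := by
      have h1 : C.subgroupOf D ≃* C' := (C.subgroupOf D).equivMapOfInjective _ e.injective
      have h2 : C.subgroupOf D ≃* C := Subgroup.subgroupOfEquivOfLe hCD
      exact isCyclic_of_surjective (h1.toMonoidHom.comp h2.symm.toMonoidHom)
        (h1.surjective.comp h2.symm.surjective)
    have hidx : C'.index = 2 := by
      have h4 : C'.index = (C.subgroupOf D).index := Subgroup.index_map_of_bijective e.bijective _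
      rw [h4]
      exact hCi
    have hn : e ⟨y, hy⟩ ∉ C' := by
      rintro ⟨w, hw, hwe⟩
      have : w = ⟨y, hy⟩ := e.injective hwe
      rw [this] at hw
      exact hyC hw
    have h3 := Cfsg.Agent.Lib.Tech.dihedral_outside hm2 C' hcyc hidx hn
    rw [MulEquiv.orderOf_eq, Subgroup.orderOf_mk] at h3
    exact h3
  -- product decomposition
  have hprod := Cfsg.Agent.Lib.Tech.exists_mul_of_card hTS hDS hDT hTDc
  have hCT : C ⊓ T = ⊥ := by
    rw [eq_bot_iff]
    exact (inf_le_inf_right T hCD).trans (le_of_eq hDT)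
  have hcard_D : Nat.card C * 2 = Nat.card D := by
    have h1 := Cfsg.Agent.Lib.Coprime.card_mul_relIndex hCD
    rwa [hCi] at h1
  -- a reflection
  obtain ⟨y₀, hy₀D, hy₀C⟩ : ∃ y ∈ D, y ∉ C := by
    by_contra hno
    push Not at hno
    have h1 : D ≤ C := fun y hy => hno y hy
    have h2 : Nat.card C = Nat.card D := le_antisymm (Subgroup.card_le_of_le hCD) (Subgroup.card_le_of_le h1)
    have h3 : 0 < Nat.card C := Nat.card_pos
    omega
  set Y : Subgroup G := T ⊔ C with hY
  have hYS : Y ≤ S := sup_le hTS hCS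
  have hy₀Y : y₀ ∉ Y := by
    intro hy
    apply h1 y₀ hy₀D hy₀C (hrefl y₀ hy₀D hy₀C) 1
    simpa using hy
  have hYcard : Nat.card S = 2 * Nat.card Y := by
    have h2 : Nat.card T * Nat.card C ≤ Nat.card Y :=
      Cfsg.Agent.Lib.Tech.card_le_sup_of_inf le_sup_left le_sup_right hCT
    have h3 := Cfsg.Agent.Lib.Coprime.card_mul_relIndex hYS
    have h4 : Y.relIndex S ≠ 1 := by
      intro e1
      rw [Subgroup.relIndex_eq_one] at e1
      exact hy₀Y (e1 (hDS hy₀D))
    have h5 : Y.relIndex S ≠ 0 := by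
      intro e0
      rw [e0] at h3
      have : 0 < Nat.card S := Nat.card_pos
      omega
    have h6 : Nat.card S = 2 * (Nat.card T * Nat.card C) := by
      rw [← hTDc, ← hcard_D]
      ring
    have h7 : Y.relIndex S = 2 := by
      by_contra hne
      have h8 : 3 ≤ Y.relIndex S := by omega
      have h9 : Nat.card Y * 3 ≤ Nat.card S := by
        rw [← h3]
        exact Nat.mul_le_mul_left _ h8
      have h10 : 0 < Nat.card Y := Nat.card_pos
      omega
    rw [← h3, h7, mul_comm]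
  -- the index
  set r : ℕ := (S : Subgroup G).index with hr
  have hrodd : Odd r := by
    rw [← Nat.not_even_iff_odd, even_iff_two_dvd]
    exact hSsyl
  have hGcard : Nat.card G = Nat.card S * r := (Subgroup.card_mul_index S).symm
  have hYidx : Y.index = 2 * r := by
    have h2 := Subgroup.card_mul_index Y
    have h3 : Nat.card Y * Y.index = Nat.card Y * (2 * r) := by
      rw [h2, hGcard, hYcard]
      ring
    exact Nat.eq_of_mul_eq_mul_left Nat.card_pos h3
  -- the sign on `G / Y`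
  have hYtop : (Y.subgroupOf (⊤ : Subgroup G)).index = 2 ^ (0 + 1) * r := by
    have h4 : (Y.subgroupOf (⊤ : Subgroup G)).index = Y.index := Subgroup.relIndex_top_right Y
    rw [h4, hYidx]
    norm_num
  set φ : ↥(⊤ : Subgroup G) →* ℤˣ := Cfsg.Agent.Lib.Tech.cosetSign ⊤ Y with hφ
  have hφrefl : ∀ y (hy : y ∈ D), y ∉ C → φ ⟨y, Subgroup.mem_top y⟩ = -1 := by
    intro y hy hyC
    apply Cfsg.Agent.Lib.Tech.cosetSign_eq ⊤ Y (Subgroup.mem_top y) 0 r
    · have h3 := hrefl y hy hyC
      have h4 := pow_orderOf_eq_one y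
      rw [h3] at h4
      simpa using h4
    · intro g _ hg
      apply h1 y hy hyC (hrefl y hy hyC) g⁻¹
      simpa using hg
    · exact hYtop
    · exact hrodd
  have hφodd : ∀ x : ↥(⊤ : Subgroup G), (orderOf x).Coprime 2 → φ x = 1 :=
    fun x hx => Cfsg.Agent.Lib.Tech.cosetSign_odd _ _ hx
  have hKker : K ≤ φ.ker.map (⊤ : Subgroup G).subtype :=
    Cfsg.Agent.Lib.Tech.pResidual_le_ker le_top φ hφodd
  have hφK : ∀ t ∈ K, φ ⟨t, Subgroup.mem_top t⟩ = 1 := by
    intro t ht
    obtain ⟨w, hw, e⟩ := hKker ht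
    have h3 : w = ⟨t, Subgroup.mem_top t⟩ := Subtype.ext e
    rw [← h3]
    exact hw
  have hφC : ∀ c ∈ C, φ ⟨c, Subgroup.mem_top c⟩ = 1 := by
    intro c hc
    have h3 : c * y₀ ∉ C := fun h => hy₀C (by
      have h4 := C.mul_mem (C.inv_mem hc) h
      simpa using h4)
    have h4 := hφrefl _ (D.mul_mem (hCD hc) hy₀D) h3
    have h5 := hφrefl y₀ hy₀D hy₀C
    have e : (⟨c * y₀, Subgroup.mem_top _⟩ : ↥(⊤ : Subgroup G)) = ⟨c, Subgroup.mem_top c⟩ * ⟨y₀, Subgroup.mem_top y₀⟩ := rfl
    rw [e, map_mul, h5] at h4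
    exact mul_right_cancel (h4.trans (one_mul _).symm)
  -- a generator of `C`
  obtain ⟨c, hc⟩ := hC.exists_generator
  have hordc : orderOf (c : G) = Nat.card C := by
    rw [Subgroup.orderOf_coe]
    exact orderOf_eq_card_of_forall_mem_zpowers hc
  obtain ⟨n₀, hn₀⟩ := IsPGroup.iff_card.1 (hS2.to_le hCS)
  set G₁ : Subgroup G := φ.ker.map (⊤ : Subgroup G).subtype with hG₁
  have hchain : K ⊓ S ≤ T := by
    apply Cfsg.Agent.Lib.Tech.descend_chain (T := T) (S := S) hTK n₀ G₁ (c : G) r hKker _ (hordc.trans hn₀) _ hrodd _ _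
    · exact ⟨⟨c, Subgroup.mem_top _⟩, hφC c c.2, rfl⟩
    · intro g k hk ht
      have hck : (c : G) ^ 2 ^ k ∈ C := C.pow_mem c.2 _
      have h3 : orderOf ((c : G) ^ 2 ^ k) = 2 := by
        apply orderOf_eq_prime
        · rw [← pow_mul, ← pow_succ, ← hk, ← hn₀, ← hordc]
          exact pow_orderOf_eq_one _
        · apply pow_ne_one_of_lt_orderOf (by positivity)
          rw [hordc, hn₀, hk]
          exact Nat.pow_lt_pow_right (by norm_num) (by omega)
      exact h2 _ hck h3 g ht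
    · have h3 := Cfsg.Agent.Lib.Tech.card_ker_of_neg φ (hφrefl y₀ hy₀D hy₀C)
      rw [Subgroup.card_top] at h3
      have h4 : 2 * Nat.card G₁ = 2 * (2 ^ n₀ * Nat.card T * r) := by
        rw [← h3, hGcard, ← hTDc, ← hcard_D, hn₀]
        ring
      exact Nat.eq_of_mul_eq_mul_left (by norm_num) h4
    · intro x hx
      obtain ⟨⟨w, hw, rfl⟩, hxS⟩ := Subgroup.mem_inf.1 hx
      obtain ⟨t, ht, d, hd, hxe⟩ := hprod _ hxS
      have hφw : φ w = 1 := hw
      have hdC : d ∈ C := by
        by_contra hdC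
        have e : w = ⟨t, Subgroup.mem_top t⟩ * ⟨d, Subgroup.mem_top d⟩ := Subtype.ext hxe
        rw [e, map_mul, hφK t (hTK ht), one_mul, hφrefl d hd hdC] at hφw
        exact absurd hφw (by decide)
      obtain ⟨a, ha⟩ := (mem_powers_iff_mem_zpowers).2 (hc ⟨d, hdC⟩)
      refine ⟨t, ht, a, ?_⟩
      have h3 : (c : G) ^ a = d := by
        have := congrArg Subtype.val ha
        simpa using this
      rw [h3]
      exact hxe
  haveI hKn : K.Normal := Cfsg.Agent.Lib.Transfer.pResidual_normal 2 G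
  refine ⟨K, hKn, ?_, ?_⟩
  · have hKS : K ⊔ S = ⊤ := by
      have hq : IsPGroup 2 (G ⧸ K) := Cfsg.Agent.Lib.Transfer.isPGroup_quotient_pResidual
      obtain ⟨a, ha⟩ := IsPGroup.iff_card.1 hq
      have h3 : (K ⊔ S).index ∣ K.index := Subgroup.index_dvd_of_le le_sup_left
      have h4 : (K ⊔ S).index ∣ S.index := Subgroup.index_dvd_of_le le_sup_right
      have h5 : K.index = 2 ^ a := ha
      have h6 : Nat.Coprime (2 ^ a) r := Nat.Coprime.pow_left a (Nat.coprime_two_left.2 hrodd)
      rw [h5] at h3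
      exact Subgroup.index_eq_one.1 (Nat.eq_one_of_dvd_coprimes h6 h3 h4)
    rw [eq_top_iff, ← hKS]
    refine sup_le le_sup_left ?_
    rw [← hTD]
    exact sup_le (hTK.trans le_sup_left) le_sup_right
  · intro T' hT'L hT'2 hT's
    refine ⟨hT'L.trans hLK, ?_⟩
    have hT'K := hT'L.trans hLK
    obtain ⟨a, ha⟩ := IsPGroup.iff_card.1 hT2
    obtain ⟨b, hb⟩ := IsPGroup.iff_card.1 hT'2
    have hLa := Cfsg.Agent.Lib.Coprime.card_mul_relIndex hTL
    have hLb := Cfsg.Agent.Lib.Coprime.card_mul_relIndex hT'L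
    have hca : Nat.Coprime (2 ^ a) (T'.relIndex L) := Nat.Coprime.pow_left a ((Nat.Prime.coprime_iff_not_dvd Nat.prime_two).2 hT's)
    have hcb : Nat.Coprime (2 ^ b) (T.relIndex L) := Nat.Coprime.pow_left b ((Nat.Prime.coprime_iff_not_dvd Nat.prime_two).2 hTsyl)
    have heq : Nat.card T = Nat.card T' := by
      rw [ha, hb]
      apply Nat.dvd_antisymm
      · have h3 : 2 ^ a ∣ 2 ^ b * T'.relIndex L := by
          rw [← hb, hLb, ← hLa, ha]
          exact dvd_mul_right _ _
        exact hca.dvd_of_dvd_mul_right h3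
      · have h3 : 2 ^ b ∣ 2 ^ a * T.relIndex L := by
          rw [← ha, hLa, ← hLb, hb]
          exact dvd_mul_right _ _
        exact hcb.dvd_of_dvd_mul_right h3
    have hTKS : T = S ⊓ K := le_antisymm (le_inf hTS hTK) (by rw [inf_comm]; exact hchain)
    have hKa := Cfsg.Agent.Lib.Coprime.card_mul_relIndex hTK
    have hKb := Cfsg.Agent.Lib.Coprime.card_mul_relIndex hT'K
    have hrel : T'.relIndex K = T.relIndex K := by
      have h3 : Nat.card T * T'.relIndex K = Nat.card T * T.relIndex K := by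
        rw [hKa, heq, hKb]
      exact Nat.eq_of_mul_eq_mul_left Nat.card_pos h3
    rw [hrel, hTKS, Subgroup.inf_relIndex_right]
    have hSyl := hS2.toSylow hSsyl
    have h5 := Cfsg.Agent.Lib.Basic.not_dvd_relIndex_of_isSubnormal (hS2.toSylow hSsyl)
      (Subgroup.Normal.isSubnormal hKn)
    simpa using h5

end Cfsg.Agent.S1924
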