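import Cfsg.Statements.S1939
import Cfsg.Agent.Lib.Tech.Basic

set_option autoImplicit false
open Cfsg

namespace Cfsg.Agent.S1939

open Cfsg.Agent.Lib.Tech

/-- Let S be a Sylow p-subgroup of the finite group G and a an element of S that is the only G-conjugate of a lying in S. Then every power of a has the same property: for every n, the only G-conjugate of a^n lying in S is a^n. -/
theorem result {G : Type*} [Group G] [Finite G] {p : ℕ} [Fact p.Prime] (S : Sylow p G) (a : G)
    (haS : a ∈ (S : Subgroup G)) (hwc : ∀ g : G, g * a * g⁻¹ ∈ (S : Subgroup G) → g * a * g⁻¹ = a) (n : ℕ) :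
    ∀ g : G, g * a ^ n * g⁻¹ ∈ (S : Subgroup G) → g * a ^ n * g⁻¹ = a ^ n := by
  intro g hc
  set c := g * a ^ n * g⁻¹ with hcdef
  set e := g * a * g⁻¹ with hedef
  have hce : c = e ^ n := by rw [hcdef, hedef, conj_pow]
  -- a is central in S
  have hcen : ∀ s ∈ (S : Subgroup G), s * a = a * s := by
    intro s hs
    have h1 := hwc s ((S : Subgroup G).mul_mem ((S : Subgroup G).mul_mem hs haS) ((S : Subgroup G).inv_mem hs))
    calc s * a = s * a * s⁻¹ * s := by group
      _ = a * s := by rw [h1]
  let C : Subgroup G := Subgroup.centralizer ({c} : Set G)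
  have hmemC : ∀ x : G, x ∈ C ↔ x * c = c * x := by
    intro x
    rw [Subgroup.mem_centralizer_singleton_iff]
  have haC : a ∈ C := (hmemC a).2 (hcen c hc).symm
  have heC : e ∈ C := by
    rw [hmemC, hce]
    exact (Commute.pow_right (Commute.refl e) n).eq
  have hpa : IsPGroup p (Subgroup.zpowers a) := S.isPGroup'.to_le (Subgroup.zpowers_le.2 haS)
  have hpe : IsPGroup p (Subgroup.zpowers e) := by
    have : Subgroup.zpowers e = (Subgroup.zpowers a).map (MulAut.conj g).toMonoidHom := by
      rw [MonoidHom.map_zpowers]; rfl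
    rw [this]; exact hpa.map _
  obtain ⟨y, hyC, T, hRT, hyT⟩ := exists_conj_common_sylow C (Subgroup.zpowers a)
    (Subgroup.zpowers_le.2 haC) hpa e heC hpe
  obtain ⟨x, hx⟩ := exists_conj_sylow S T
  have haT : a ∈ (T : Subgroup G) := hRT (Subgroup.mem_zpowers a)
  have h1 : x⁻¹ * a * x = a := by
    have h2 := hwc x⁻¹ (by simpa using (hx a).1 haT)
    simpa using h2
  have h3 : x⁻¹ * (y * e * y⁻¹) * x = a := by
    have h2 := hwc (x⁻¹ * y * g) (by
      have := (hx _).1 hyT
      convert this using 1
      simp only [hedef]; group)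
    rw [← h2]
    simp only [hedef]; group
  have h4 : y * e * y⁻¹ = a := by
    have : x⁻¹ * (y * e * y⁻¹) * x = x⁻¹ * a * x := by rw [h3, h1]
    exact mul_left_cancel (mul_right_cancel this)
  have h5 : y * c * y⁻¹ = c := by
    have := (hmemC y).1 hyC
    rw [this]; group
  calc c = y * c * y⁻¹ := h5.symm
    _ = y * e ^ n * y⁻¹ := by rw [← hce]
    _ = (y * e * y⁻¹) ^ n := (conj_pow).symm
    _ = a ^ n := by rw [h4]

end Cfsg.Agent.S1939
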