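import Cfsg.Statements.S1940
-- import your own Cfsg.Agent.* helpers here

set_option autoImplicit false
open Cfsg

namespace Cfsg.Agent.S1940

/-- Let the finite group L act by automorphisms on the finite abelian group M, and let N be an L-invariant subgroup of M such that M/N is a p-group on which L acts trivially (every l • m lies in the coset mN). If every element of M is a product of an element of N and an element fixed by a Sylow p-subgroup T of L, then every element of M is a product of an element of N and an element fixed by all of L. -/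
theorem result {L : Type*} [Group L] [Finite L] {M : Type*} [CommGroup M] [Finite M] [MulDistribMulAction L M]
    {p : ℕ} [Fact p.Prime] (N : Subgroup M) (hN : ∀ (l : L) (m : M), m ∈ N → l • m ∈ N)
    (hquot : IsPGroup p (M ⧸ N)) (htriv : ∀ (l : L) (m : M), (l • m) * m⁻¹ ∈ N) (T : Sylow p L)
    (hT : ∀ m : M, ∃ n ∈ N, ∃ c : M, (∀ t ∈ (T : Subgroup L), t • c = c) ∧ m = n * c) :
    ∀ m : M, ∃ n ∈ N, ∃ c : M, (∀ l : L, l • c = c) ∧ m = n * c := by
  classical
  intro m
  obtain ⟨n₀, hn₀, c, hc, rfl⟩ := hT m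
  have hp : p.Prime := Fact.out
  haveI := Fintype.ofFinite (L ⧸ (T : Subgroup L))
  let d : M := ∏ q : L ⧸ (T : Subgroup L), q.out • c
  have hfix : ∀ l : L, l • d = d := by
    intro l
    simp only [d, Finset.smul_prod']
    refine Fintype.prod_equiv (MulAction.toPerm l) _ _ (fun q => ?_)
    rw [smul_smul]
    have h1 : ((l • q).out)⁻¹ * (l * q.out) ∈ (T : Subgroup L) := by
      rw [← QuotientGroup.eq]
      simp only [QuotientGroup.out_eq']
      show l • q = l • ((q.out : L) : L ⧸ (T : Subgroup L))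
      rw [QuotientGroup.out_eq']
    have h2 := hc _ h1
    have h3 : l * q.out = (l • q).out * (((l • q).out)⁻¹ * (l * q.out)) := by group
    rw [h3, mul_smul, h2]
    rfl
  have hmk : ∀ l : L, ((l • c : M) : M ⧸ N) = (c : M ⧸ N) := by
    intro l
    rw [QuotientGroup.eq]
    have := N.inv_mem (htriv l c)
    simpa [mul_comm] using this
  set k : ℕ := Fintype.card (L ⧸ (T : Subgroup L)) with hk
  have hd : ((d : M) : M ⧸ N) = (c : M ⧸ N) ^ k := by
    have : ((d : M) : M ⧸ N) = ∏ q : L ⧸ (T : Subgroup L), ((q.out • c : M) : M ⧸ N) := by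
      simp only [d]
      exact map_prod (QuotientGroup.mk' N) _ _
    rw [this, Finset.prod_congr rfl (fun q _ => hmk q.out), Finset.prod_const, Finset.card_univ]
  have hkcop : k.Coprime p := by
    rw [Nat.coprime_comm, Nat.Prime.coprime_iff_not_dvd hp]
    have := T.not_dvd_index
    rwa [Subgroup.index, Nat.card_eq_fintype_card] at this
  obtain ⟨a, ha⟩ := IsPGroup.iff_card.1 hquot
  have hcop : k.Coprime (p ^ (a + 1)) := Nat.Coprime.pow_right _ hkcop
  have h1lt : 1 < p ^ (a + 1) := Nat.one_lt_pow (by omega) hp.one_lt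
  obtain ⟨k', -, hk'⟩ := Nat.exists_mul_mod_eq_one_of_coprime hcop h1lt
  have hpow : (c : M ⧸ N) ^ (k * k') = (c : M ⧸ N) := by
    have h2 : (c : M ⧸ N) ^ (p ^ (a + 1)) = 1 := by
      rw [pow_succ, ← ha, pow_mul, pow_card_eq_one', one_pow]
    conv_lhs => rw [← Nat.div_add_mod (k * k') (p ^ (a + 1)), pow_add, pow_mul, h2, one_pow, one_mul, hk', pow_one]
  refine ⟨n₀ * (c * (d ^ k')⁻¹), N.mul_mem hn₀ ?_, d ^ k', ?_, by group⟩
  · rw [← QuotientGroup.eq_one_iff, QuotientGroup.mk_mul, QuotientGroup.mk_inv, QuotientGroup.mk_pow, hd, ← pow_mul, hpow, mul_inv_cancel]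
  · intro l
    rw [smul_pow', hfix]

end Cfsg.Agent.S1940
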