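import Cfsg.Statements.S1941
import Cfsg.Agent.Lib.Components.Layer
import Cfsg.Agent.Lib.Components.PComp2
import Cfsg.Agent.Lib.LocalEven.GFit
import Cfsg.Agent.Lib.Basic.Gaschutz
import Cfsg.Agent.Lib.Basic.Core
-- import your own Cfsg.Agent.* helpers here

set_option autoImplicit false
open Cfsg

namespace Cfsg.Agent.S1941

/-- Let G be a finite group with no nontrivial normal subgroup of order prime to p, T a Sylow p-subgroup of G and E(G) the layer of G (the subgroup generated by its components). An automorphism of G of p-power order that fixes T and E(G) elementwise is inner. -/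
theorem result {G : Type*} [Group G] [Finite G] {p : ℕ} [Fact p.Prime] (hcore : Cfsg.pPrimeCore p G = ⊥)
    (T : Sylow p G) (α : MulAut G) (hα : ∃ j : ℕ, orderOf α = p ^ j) (hfixT : ∀ x ∈ (T : Subgroup G), α x = x)
    (hfixE : ∀ x ∈ Cfsg.layer G, α x = x) : ∃ g : G, ∀ x : G, α x = g * x * g⁻¹ := by
  classical
  have hp : p.Prime := Fact.out
  set Fs := Cfsg.generalizedFittingSubgroup G with hFs
  haveI hFsn : Fs.Normal := inferInstance
  have hFO : Cfsg.fittingSubgroup G = Cfsg.pCore p G := Cfsg.Agent.Lib.Components.fitting_eq_pCore hcore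
  let Fx : Subgroup G := MonoidHom.eqLocus α.toMonoidHom (MonoidHom.id G)
  have hFx : ∀ x, x ∈ Fx ↔ α x = x := fun x => Iff.rfl
  have hFsFx : Fs ≤ Fx := by
    rw [hFs, Cfsg.generalizedFittingSubgroup]
    refine sup_le (fun x hx => hfixE x hx) ?_
    rw [hFO]
    exact fun x hx => hfixT x (Cfsg.Agent.Lib.Basic.pCore_le_sylow T hx)
  have hαF : ∀ y ∈ Fs, α y = y := fun y hy => hFsFx hy
  let V : Subgroup G := Fs ⊓ Subgroup.centralizer (Fs : Set G)
  haveI hVn : V.Normal := inferInstance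
  have hVF : V ≤ Cfsg.pCore p G := by
    rw [← hFO]
    exact Cfsg.Agent.Lib.LocalEven.gfit_inf_centralizer_le_fitting
  have hVp : IsPGroup p V := (Cfsg.Agent.Lib.Basic.pCore_isPGroup p).to_le hVF
  letI : CommGroup V := { (inferInstance : Group V) with
    mul_comm := fun a b => Subtype.ext (Subgroup.mem_centralizer_iff.mp b.2.2 _ a.2.1) }
  have hγmem : ∀ g : G, α g * g⁻¹ ∈ V := by
    intro g
    have hC : α g * g⁻¹ ∈ Subgroup.centralizer (Fs : Set G) := by
      refine Subgroup.mem_centralizer_iff.mpr fun y hy => ?_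
      have hy' : g⁻¹ * y * g ∈ Fs := by
        have := hFsn.conj_mem y hy g⁻¹
        simpa using this
      have h1 : α (g⁻¹ * y * g) = g⁻¹ * y * g := hαF _ hy'
      rw [map_mul, map_mul, map_inv, hαF y hy] at h1
      have h2 : y * α g = α g * (g⁻¹ * y * g) := by
        rw [← h1]
        group
      calc y * (α g * g⁻¹) = (y * α g) * g⁻¹ := by group
        _ = α g * (g⁻¹ * y * g) * g⁻¹ := by rw [h2]
        _ = α g * g⁻¹ * y := by group
    exact ⟨Cfsg.Agent.Lib.Components.centralizer_gfit_le hC, hC⟩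
  let ρ : G →* MulAut V := MulAut.conjNormal
  let γ : G → V := fun g => ⟨α g * g⁻¹, hγmem g⟩
  have hγ : ∀ x y, γ (x * y) = γ x * ρ x (γ y) := by
    intro x y
    apply Subtype.ext
    show α (x * y) * (x * y)⁻¹ = α x * x⁻¹ * (x * (α y * y⁻¹) * x⁻¹)
    rw [map_mul]
    group
  have hT : ∀ t ∈ (T : Subgroup G), γ t = 1 := by
    intro t ht
    apply Subtype.ext
    show α t * t⁻¹ = 1
    rw [hfixT t ht]
    group
  have hcop : (Nat.card V).Coprime (T : Subgroup G).index := by
    obtain ⟨k, hk⟩ := IsPGroup.iff_card.mp hVp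
    rw [hk]
    exact Nat.Coprime.pow_left k ((Nat.Prime.coprime_iff_not_dvd hp).mpr T.not_dvd_index)
  letI : Fintype (G ⧸ (T : Subgroup G)) := Fintype.ofFinite _
  obtain ⟨x, hx⟩ := Cfsg.Agent.Lib.Basic.exists_coboundary ρ (T : Subgroup G) hγ hT hcop
  refine ⟨x, fun h => ?_⟩
  have h1 := congrArg Subtype.val (hx h)
  have h2 : α h * h⁻¹ = (x : G) * (h * (x : G) * h⁻¹)⁻¹ := h1
  calc α h = α h * h⁻¹ * h := by group
    _ = (x : G) * (h * (x : G) * h⁻¹)⁻¹ * h := by rw [h2]
    _ = (x : G) * h * (x : G)⁻¹ := by group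

end Cfsg.Agent.S1941
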