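import Cfsg.Statements.S1944
import Cfsg.Agent.Lib.Tech.Constrained
import Cfsg.Agent.Lib.PGroups.Parts
-- import your own Cfsg.Agent.* helpers here

set_option autoImplicit false
open Cfsg

namespace Cfsg.Agent.S1944

section helpers

/-- The norm from `C_Z(S)` to `C_Z(X)` splits. -/
private theorem exists_complement_fixed {X : Type*} [Group X] [Finite X] (Z S : Subgroup X) [hZn : Z.Normal]
    (hZc : ∀ u ∈ Z, ∀ v ∈ Z, u * v = v * u) (hcop : Nat.Coprime S.index (Nat.card Z)) :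
    ∃ K : Subgroup X, K ≤ Z ⊓ Subgroup.centralizer (S : Set X) ∧
      (Z ⊓ Subgroup.center X) ⊓ K = ⊥ ∧ (Z ⊓ Subgroup.center X) ⊔ K = Z ⊓ Subgroup.centralizer (S : Set X) := by
  classical
  letI : CommGroup Z := { (inferInstance : Group Z) with
    mul_comm := fun a b => Subtype.ext (hZc a.1 a.2 b.1 b.2) }
  letI : Fintype (X ⧸ S) := Fintype.ofFinite _
  let c : X → (Z →* Z) := fun x => (MulAut.conjNormal x : Z ≃* Z).toMonoidHom
  have hcval : ∀ x (z : Z), ((c x z : Z) : X) = x * z * x⁻¹ := fun x z => rfl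
  let τ : Z →* Z :=
    { toFun := fun z => ∏ q : X ⧸ S, c q.out z
      map_one' := by simp
      map_mul' := fun a b => by
        simp only [map_mul]
        exact Finset.prod_mul_distrib }
  have hτ : ∀ z : Z, τ z = ∏ q : X ⧸ S, c q.out z := fun z => rfl
  -- independence of representatives
  have hrep : ∀ (z : Z), (z : X) ∈ Subgroup.centralizer (S : Set X) → ∀ (x y : X),
      (QuotientGroup.mk x : X ⧸ S) = QuotientGroup.mk y → c x z = c y z := by
    intro z hz x y hxy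
    have h1 : x⁻¹ * y ∈ S := QuotientGroup.eq.mp hxy
    have h2 : (x⁻¹ * y) * (z : X) = z * (x⁻¹ * y) := Subgroup.mem_centralizer_iff.mp hz _ h1
    apply Subtype.ext
    rw [hcval, hcval]
    calc x * z * x⁻¹ = x * ((x⁻¹ * y) * z * (x⁻¹ * y)⁻¹) * x⁻¹ := by
          rw [h2]
          group
      _ = y * z * y⁻¹ := by group
  -- `τ z` is central
  have hτcent : ∀ z : Z, (z : X) ∈ Subgroup.centralizer (S : Set X) → ∀ n : X, c n (τ z) = τ z := by
    intro z hz n
    rw [hτ, map_prod]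
    have h1 : ∀ q : X ⧸ S, c n (c q.out z) = c (n • q).out z := by
      intro q
      have h2 : c n (c q.out z) = c (n * q.out) z := by
        apply Subtype.ext
        rw [hcval, hcval, hcval]
        group
      rw [h2]
      apply hrep z hz
      have h3 : (QuotientGroup.mk (n * q.out) : X ⧸ S) = n • q := by
        conv_rhs => rw [← QuotientGroup.out_eq' q]
        rfl
      rw [h3, QuotientGroup.out_eq']
    simp_rw [h1]
    exact Equiv.prod_comp (MulAction.toPerm n : Equiv.Perm (X ⧸ S)) (fun q => c q.out z)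
  have hτS : ∀ z : Z, (z : X) ∈ Subgroup.centralizer (S : Set X) → ((τ z : Z) : X) ∈ Subgroup.center X := by
    intro z hz
    rw [Subgroup.mem_center_iff]
    intro n
    have h1 := congrArg Subtype.val (hτcent z hz n)
    rw [hcval] at h1
    calc n * ((τ z : Z) : X) = n * ((τ z : Z) : X) * n⁻¹ * n := by group
      _ = ((τ z : Z) : X) * n := by rw [h1]
  have hτc : ∀ z : Z, (z : X) ∈ Subgroup.center X → τ z = z ^ S.index := by
    intro z hz
    rw [hτ]
    have h1 : ∀ q : X ⧸ S, c q.out z = z := by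
      intro q
      apply Subtype.ext
      rw [hcval]
      have h2 := Subgroup.mem_center_iff.mp hz q.out
      rw [h2]
      group
    simp_rw [h1]
    rw [Finset.prod_const, Finset.card_univ, Subgroup.index_eq_card, Nat.card_eq_fintype_card]
  have hcop' : ∀ z : Z, Nat.Coprime S.index (orderOf z) := fun z =>
    Nat.Coprime.coprime_dvd_right (orderOf_dvd_natCard z) hcop
  let K : Subgroup X := (τ.ker ⊓ (Subgroup.centralizer (S : Set X)).comap Z.subtype).map Z.subtype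
  refine ⟨K, ?_, ?_, ?_⟩
  · rintro _ ⟨z, ⟨-, hz⟩, rfl⟩
    exact ⟨z.2, hz⟩
  · rw [eq_bot_iff]
    rintro x ⟨⟨hxZ, hxc⟩, ⟨z, ⟨hz1, -⟩, rfl⟩⟩
    have h1 : τ z = z ^ S.index := hτc z hxc
    rw [MonoidHom.mem_ker.mp hz1] at h1
    have h2 : orderOf z ∣ S.index := orderOf_dvd_of_pow_eq_one h1.symm
    have h3 : orderOf z = 1 := Nat.Coprime.eq_one_of_dvd (hcop' z).symm h2
    rw [orderOf_eq_one_iff.mp h3]
    exact Subgroup.one_mem _
  · apply le_antisymm
    · refine sup_le ?_ ?_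
      · rintro x ⟨hxZ, hxc⟩
        refine ⟨hxZ, Subgroup.mem_centralizer_iff.mpr fun s _ => ?_⟩
        exact (Subgroup.mem_center_iff.mp hxc s)
      · rintro _ ⟨z, ⟨-, hz⟩, rfl⟩
        exact ⟨z.2, hz⟩
    · rintro x ⟨hxZ, hxC⟩
      let z : Z := ⟨x, hxZ⟩
      obtain ⟨k, hk⟩ := exists_pow_eq_self_of_coprime (hcop' (τ z))
      have hcent : ((τ z : Z) : X) ∈ Subgroup.center X := hτS z hxC
      have hw : (((τ z) ^ k : Z) : X) ∈ Subgroup.center X := by
        have : (((τ z) ^ k : Z) : X) = ((τ z : Z) : X) ^ k := rfl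
        rw [this]
        exact pow_mem hcent k
      have hτw : τ ((τ z) ^ k) = τ z := by
        rw [map_pow, hτc _ hcent]
        exact hk
      have hx : x = (((τ z) ^ k : Z) : X) * (((τ z) ^ k : Z) : X)⁻¹ * x := by group
      rw [hx, mul_assoc]
      apply Subgroup.mul_mem_sup
      · exact ⟨((τ z) ^ k : Z).2, hw⟩
      · refine ⟨((τ z) ^ k)⁻¹ * z, ⟨?_, ?_⟩, rfl⟩
        · change ((τ z) ^ k)⁻¹ * z ∈ τ.ker
          rw [MonoidHom.mem_ker, map_mul, map_inv, hτw, inv_mul_cancel]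
        · show (((τ z) ^ k : Z) : X)⁻¹ * x ∈ Subgroup.centralizer (S : Set X)
          refine Subgroup.mul_mem _ (Subgroup.inv_mem _ ?_) hxC
          exact Subgroup.mem_centralizer_iff.mpr fun s _ => Subgroup.mem_center_iff.mp hw s

end helpers

/-- Let S be a Sylow p-subgroup of the finite group G and suppose that the centre Z(S) lies in O_{p',p}(G). The elements of S each of which is its only G-conjugate in S form a subgroup W of Z(S); W is then a direct factor of Z(S): there is a subgroup K of Z(S) with W ∩ K = 1 and WK = Z(S). -/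
theorem result {G : Type*} [Group G] [Finite G] {p : ℕ} [Fact p.Prime] (S : Sylow p G)
    (hZ : ((S : Subgroup G) ⊓ Subgroup.centralizer ((S : Subgroup G) : Set G)) ≤ Cfsg.pPrimePCore p G) :
    ∃ W K : Subgroup G, (∀ x : G, x ∈ W ↔ (x ∈ (S : Subgroup G) ∧ ∀ g : G, g * x * g⁻¹ ∈ (S : Subgroup G) → g * x * g⁻¹ = x)) ∧
      K ≤ ((S : Subgroup G) ⊓ Subgroup.centralizer ((S : Subgroup G) : Set G)) ∧ W ⊓ K = ⊥ ∧ W ⊔ K = ((S : Subgroup G) ⊓ Subgroup.centralizer ((S : Subgroup G) : Set G)) := by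
  classical
  have hp : p.Prime := Fact.out
  set H := Cfsg.pPrimeCore p G with hH
  set N := Cfsg.pPrimePCore p G with hN
  haveI hHn : H.Normal := Cfsg.Agent.Lib.Basic.pPrimeCore_normal p
  haveI hNn : N.Normal := Cfsg.Agent.Lib.Components.pPrimePCore_normal
  set Q : Subgroup G := (S : Subgroup G) ⊓ N with hQ
  set L : Subgroup G := Subgroup.normalizer (Q : Set G) with hL
  have htop : L ⊔ H = ⊤ := Cfsg.Agent.Lib.Tech.normalizer_sup_pPrimeCore S
  have hQS : Q ≤ S := inf_le_left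
  have hSg : IsPGroup p (S : Subgroup G) := S.isPGroup'
  have hSL : (S : Subgroup G) ≤ L := by
    intro s hs
    apply Cfsg.Agent.Lib.PGroups.mem_normalizer_of_conj_le'
    rintro w ⟨hw1, hw2⟩
    exact ⟨(S : Subgroup G).mul_mem ((S : Subgroup G).mul_mem hs hw1) ((S : Subgroup G).inv_mem hs),
      hNn.conj_mem w hw2 s⟩
  set ZQ : Subgroup G := Q ⊓ Subgroup.centralizer (Q : Set G) with hZQ
  have hZZ : (S : Subgroup G) ⊓ Subgroup.centralizer ((S : Subgroup G) : Set G) ≤ ZQ := by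
    intro x hx
    refine ⟨⟨hx.1, hZ hx⟩, Subgroup.mem_centralizer_iff.mpr fun y hy => ?_⟩
    exact Subgroup.mem_centralizer_iff.mp hx.2 y (hQS hy)
  have hLZ : ∀ n ∈ L, ∀ z ∈ ZQ, n * z * n⁻¹ ∈ ZQ := by
    intro n hn z hz
    refine ⟨(Subgroup.mem_normalizer_iff.mp hn z).mp hz.1, Subgroup.mem_centralizer_iff.mpr fun y hy => ?_⟩
    have hy' : n⁻¹ * y * n ∈ Q := by
      have := (Subgroup.mem_normalizer_iff.mp (Subgroup.inv_mem _ hn) y).mp hy
      simpa using this
    have h1 := Subgroup.mem_centralizer_iff.mp hz.2 _ hy'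
    calc y * (n * z * n⁻¹) = n * ((n⁻¹ * y * n) * z) * n⁻¹ := by group
      _ = n * (z * (n⁻¹ * y * n)) * n⁻¹ := by rw [h1]
      _ = n * z * n⁻¹ * y := by group
  have hdecomp : ∀ g : G, ∃ h ∈ H, ∃ n ∈ L, g = h * n := by
    intro g
    have hg : g ∈ H ⊔ L := by
      rw [sup_comm, htop]
      exact Subgroup.mem_top g
    obtain ⟨h, hh, n, hn, e⟩ := Subgroup.mem_sup_of_normal_left.mp hg
    exact ⟨h, hh, n, hn, e.symm⟩
  have hHQ : ∀ h ∈ H, ∀ y ∈ Q, h * y * h⁻¹ ∈ Q → h * y * h⁻¹ = y := by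
    intro h hh y hy hm
    have h1 : h * y * h⁻¹ * y⁻¹ ∈ Q := Q.mul_mem hm (Q.inv_mem hy)
    have h2 : h * y * h⁻¹ * y⁻¹ ∈ H := by
      have e : h * y * h⁻¹ * y⁻¹ = h * (y * h⁻¹ * y⁻¹) := by group
      rw [e]
      exact H.mul_mem hh (hHn.conj_mem _ (H.inv_mem hh) y)
    have h3 := Cfsg.Agent.Lib.Tech.inf_pPrimeCore_eq_one (hSg.to_le hQS) h1 h2
    exact mul_inv_eq_one.mp h3
  let W : Subgroup G := ((S : Subgroup G) ⊓ Subgroup.centralizer ((S : Subgroup G) : Set G)) ⊓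
    Subgroup.centralizer (L : Set G)
  have hWmem : ∀ x : G, x ∈ W ↔ (x ∈ (S : Subgroup G) ∧ ∀ g : G, g * x * g⁻¹ ∈ (S : Subgroup G) → g * x * g⁻¹ = x) := by
    intro x
    constructor
    · rintro ⟨⟨hxS, hxC⟩, hxL⟩
      refine ⟨hxS, fun g hg => ?_⟩
      obtain ⟨h, hh, n, hn, rfl⟩ := hdecomp g
      have hnx : n * x = x * n := Subgroup.mem_centralizer_iff.mp hxL n hn
      have e : h * n * x * (h * n)⁻¹ = h * x * h⁻¹ := by
        have : h * n * x * (h * n)⁻¹ = h * (n * x) * n⁻¹ * h⁻¹ := by group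
        rw [this, hnx]
        group
      rw [e] at hg ⊢
      have hxN : x ∈ N := hZ ⟨hxS, hxC⟩
      refine hHQ h hh x ⟨hxS, hxN⟩ ⟨hg, hNn.conj_mem x hxN h⟩
    · rintro ⟨hxS, hx⟩
      have hxC : x ∈ Subgroup.centralizer ((S : Subgroup G) : Set G) := by
        refine Subgroup.mem_centralizer_iff.mpr fun s hs => ?_
        have h1 := hx s ((S : Subgroup G).mul_mem ((S : Subgroup G).mul_mem hs hxS) ((S : Subgroup G).inv_mem hs))
        calc s * x = s * x * s⁻¹ * s := by group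
          _ = x * s := by rw [h1]
      refine ⟨⟨hxS, hxC⟩, Subgroup.mem_centralizer_iff.mpr fun n hn => ?_⟩
      have h1 : n * x * n⁻¹ ∈ ZQ := hLZ n hn x (hZZ ⟨hxS, hxC⟩)
      have h2 := hx n (hQS h1.1)
      calc n * x = n * x * n⁻¹ * n := by group
        _ = x * n := by rw [h2]
  -- the group `↥L`
  let Z' : Subgroup L := ZQ.subgroupOf L
  haveI hZ'n : Z'.Normal := by
    constructor
    intro z hz n
    rw [Subgroup.mem_subgroupOf] at hz ⊢
    exact hLZ n.1 n.2 z.1 hz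
  let S' : Subgroup L := (S : Subgroup G).subgroupOf L
  have hZ'c : ∀ u ∈ Z', ∀ v ∈ Z', u * v = v * u := by
    intro u hu v hv
    rw [Subgroup.mem_subgroupOf] at hu hv
    apply Subtype.ext
    exact Subgroup.mem_centralizer_iff.mp hv.2 _ hu.1
  have hZ'p : IsPGroup p Z' := (hSg.to_le (inf_le_left.trans hQS)).comap_subtype
  have hS'idx : S'.index ∣ (S : Subgroup G).index := by
    have h1 := Subgroup.relIndex_mul_index hSL
    exact ⟨_, h1.symm⟩
  have hcop : Nat.Coprime S'.index (Nat.card Z') := by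
    obtain ⟨k, hk⟩ := IsPGroup.iff_card.mp hZ'p
    rw [hk]
    apply Nat.Coprime.pow_right
    rw [Nat.coprime_comm, Nat.Prime.coprime_iff_not_dvd hp]
    exact fun h => S.not_dvd_index (h.trans hS'idx)
  obtain ⟨K', hK'le, hK'inf, hK'sup⟩ := exists_complement_fixed Z' S' hZ'c hcop
  have hcomm_S : ∀ {x : L}, x ∈ Subgroup.centralizer (S' : Set L) → (x : G) ∈ Subgroup.centralizer ((S : Subgroup G) : Set G) := by
    intro x hx
    refine Subgroup.mem_centralizer_iff.mpr fun s hs => ?_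
    have h1 := Subgroup.mem_centralizer_iff.mp hx ⟨s, hSL hs⟩ (Subgroup.mem_subgroupOf.mpr hs)
    exact congrArg Subtype.val h1
  refine ⟨W, K'.map L.subtype, hWmem, ?_, ?_, ?_⟩
  · rintro _ ⟨x, hx, rfl⟩
    obtain ⟨hx1, hx2⟩ := hK'le hx
    have hx1' : (x : G) ∈ ZQ := Subgroup.mem_subgroupOf.mp hx1
    exact ⟨hQS hx1'.1, hcomm_S hx2⟩
  · rw [eq_bot_iff]
    rintro _ ⟨⟨⟨hx1, hx2⟩, hx3⟩, ⟨x, hx, rfl⟩⟩
    have h1 : x ∈ (Z' ⊓ Subgroup.center L) ⊓ K' := by
      refine ⟨⟨(hK'le hx).1, ?_⟩, hx⟩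
      change x ∈ Subgroup.center L
      rw [Subgroup.mem_center_iff]
      intro n
      apply Subtype.ext
      exact Subgroup.mem_centralizer_iff.mp hx3 n.1 n.2
    rw [hK'inf, Subgroup.mem_bot] at h1
    rw [h1]
    exact Subgroup.one_mem _
  · apply le_antisymm
    · refine sup_le inf_le_left ?_
      rintro _ ⟨x, hx, rfl⟩
      obtain ⟨hx1, hx2⟩ := hK'le hx
      have hx1' : (x : G) ∈ ZQ := Subgroup.mem_subgroupOf.mp hx1
      exact ⟨hQS hx1'.1, hcomm_S hx2⟩
    · intro x hx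
      have hxL : x ∈ L := hSL hx.1
      have h1 : (⟨x, hxL⟩ : L) ∈ (Z' ⊓ Subgroup.center L) ⊔ K' := by
        rw [hK'sup]
        refine ⟨Subgroup.mem_subgroupOf.mpr (hZZ hx), Subgroup.mem_centralizer_iff.mpr fun s hs => ?_⟩
        apply Subtype.ext
        exact Subgroup.mem_centralizer_iff.mp hx.2 s.1 (Subgroup.mem_subgroupOf.mp hs)
      have h2 : x ∈ ((Z' ⊓ Subgroup.center L) ⊔ K').map L.subtype := ⟨_, h1, rfl⟩
      rw [Subgroup.map_sup] at h2
      suffices h3 : (Z' ⊓ Subgroup.center L).map L.subtype ≤ W from (sup_le_sup_right h3 _) h2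
      rintro _ ⟨y, ⟨hy1, hy2⟩, rfl⟩
      have hy1' : (y : G) ∈ ZQ := Subgroup.mem_subgroupOf.mp hy1
      have hyS : (y : G) ∈ (S : Subgroup G) := hQS hy1'.1
      have hyC : ∀ n : L, (n : G) * y = y * n := fun n => by
        have := Subgroup.mem_center_iff.mp hy2 n
        exact congrArg Subtype.val this
      refine ⟨⟨hyS, Subgroup.mem_centralizer_iff.mpr fun s hs => hyC ⟨s, hSL hs⟩⟩,
        Subgroup.mem_centralizer_iff.mpr fun n hn => hyC ⟨n, hn⟩⟩

end Cfsg.Agent.S1944
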