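import Cfsg.Statements.S1946
import Cfsg.Agent.Lib.Tech.SmallExp
-- import your own Cfsg.Agent.* helpers here

set_option autoImplicit false
open Cfsg

namespace Cfsg.Agent.S1946

/-- Let P be a Sylow p-subgroup of the finite group G. Then G has a normal p-complement if and only if P controls the fusion of its elements of order dividing p (dividing 4 when p = 2): whenever such an element a of P has a G-conjugate g a g⁻¹ in P, that conjugate is already x a x⁻¹ for some x in P. -/
theorem result {G : Type*} [Group G] [Finite G] {p : ℕ} [Fact p.Prime] (P : Sylow p G) :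
    Cfsg.HasNormalPComplement p G ↔
      ∀ a ∈ (P : Subgroup G), (a ^ p = 1 ∨ (p = 2 ∧ a ^ 4 = 1)) → ∀ g : G, g * a * g⁻¹ ∈ (P : Subgroup G) →
        ∃ x ∈ (P : Subgroup G), g * a * g⁻¹ = x * a * x⁻¹ := by

  classical
  constructor
  · intro h a ha _ g hg
    obtain ⟨u, hu, hu2⟩ := Cfsg.Agent.Lib.Transfer.exists_conj_in_sylow_of_stable
      (Cfsg.Agent.Lib.Transfer.frobeniusStable_of_hasNormalPComplement h) P ha hg rfl
    exact ⟨u, hu, hu2.symm⟩
  · intro h
    apply Cfsg.Agent.Lib.Transfer.hasNormalPComplement_of_stable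
    apply Cfsg.Agent.Lib.Transfer.frobeniusStable_of_sylow P
    intro Q hQ g hg hgc
    by_contra hcon
    have hQp : IsPGroup p Q := P.2.to_le hQ
    have hne : ¬ ∀ r ∈ Q, g * r = r * g := by
      intro hall
      apply hcon
      rw [Subgroup.mem_centralizer_iff]
      intro r hr
      exact (hall r hr).symm
    obtain ⟨D, hDQ, hDb, hyD, hDD, hsmall⟩ :=
      Cfsg.Agent.Lib.Tech.exists_small_invariant hQp hgc hg hne
    have hDP : D ≤ (P : Subgroup G) := hDQ.trans hQ
    -- `D` lies in all terms of the lower central series of `P`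
    have hLCS : ∀ i : ℕ, D ≤ (P : Subgroup G).lowerCentralSeries i := by
      intro i
      induction i with
      | zero => exact hDP
      | succ i ih =>
        conv_lhs => rw [← hDD]
        rw [Subgroup.commutator_le]
        intro a ha z hz
        obtain ⟨n, rfl⟩ := Subgroup.mem_zpowers_iff.1 hz
        have hzN : g ^ n ∈ Subgroup.normalizer (D : Set G) := Subgroup.zpow_mem _ hyD n
        have hainv : a⁻¹ ∈ D := D.inv_mem ha
        have hconj : g ^ n * a⁻¹ * (g ^ n)⁻¹ ∈ D := (Subgroup.mem_normalizer_iff.1 hzN a⁻¹).1 hainv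
        have hs : (a⁻¹) ^ p = 1 ∨ (p = 2 ∧ (a⁻¹) ^ 4 = 1) := hsmall _ hainv
        obtain ⟨x, hx, hx2⟩ := h a⁻¹ (hDP hainv) hs (g ^ n) (hDP hconj)
        have h1 : a * g ^ n * a⁻¹ * (g ^ n)⁻¹ = a * (g ^ n * a⁻¹ * (g ^ n)⁻¹) := by group
        have h2 : a * g ^ n * a⁻¹ * (g ^ n)⁻¹ = a * x * a⁻¹ * x⁻¹ := by
          rw [h1, hx2]
          group
        change a * g ^ n * a⁻¹ * (g ^ n)⁻¹ ∈ _
        rw [h2]
        rw [Subgroup.lowerCentralSeries_succ]
        exact Subgroup.commutator_mem_commutator (ih ha) hx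
    have hnil : Group.IsNilpotent ↥(P : Subgroup G) := P.2.isNilpotent
    obtain ⟨c, hc⟩ := (Subgroup.isNilpotent_iff_lowerCentralSeries (P : Subgroup G)).1 hnil
    apply hDb
    rw [eq_bot_iff, ← hc]
    exact hLCS c

end Cfsg.Agent.S1946
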