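import Cfsg.Statements.S1947
import Cfsg.Agent.Lib.Tech.SmallExp
-- import your own Cfsg.Agent.* helpers here

set_option autoImplicit false
open Cfsg

namespace Cfsg.Agent.S1947

/-- Let G be a finite group and p a prime. If every element of G of order dividing p (dividing 4 when p = 2) lies in some fixed term Z_n(G) of the upper central series, then G has a normal p-complement. -/
theorem result {G : Type*} [Group G] [Finite G] {p : ℕ} [Fact p.Prime] (n : ℕ)
    (h : ∀ a : G, (a ^ p = 1 ∨ (p = 2 ∧ a ^ 4 = 1)) → a ∈ Subgroup.upperCentralSeries G n) : Cfsg.HasNormalPComplement p G := by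

  classical
  apply Cfsg.Agent.Lib.Transfer.hasNormalPComplement_of_stable
  intro Q hQp g hg hgc
  by_contra hcon
  have hne : ¬ ∀ r ∈ Q, g * r = r * g := by
    intro hall
    apply hcon
    rw [Subgroup.mem_centralizer_iff]
    intro r hr
    exact (hall r hr).symm
  obtain ⟨D, hDQ, hDb, hyD, hDD, hsmall⟩ :=
    Cfsg.Agent.Lib.Tech.exists_small_invariant hQp hgc hg hne
  have hZ : ∀ i : ℕ, i ≤ n → D ≤ Subgroup.upperCentralSeries G (n - i) := by
    intro i
    induction i with
    | zero =>
      intro _ a ha
      exact h a (hsmall a ha)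
    | succ i ih =>
      intro hi
      have h1 := ih (by omega)
      have h2 : n - i = (n - (i + 1)) + 1 := by omega
      rw [h2] at h1
      conv_lhs => rw [← hDD]
      rw [Subgroup.commutator_le]
      intro a ha z _
      exact (Subgroup.mem_upperCentralSeries_succ_iff (G := G) (n := n - (i + 1))).1 (h1 ha) z
  have h0 := hZ n le_rfl
  rw [Nat.sub_self, Subgroup.upperCentralSeries_zero] at h0
  exact hDb (le_bot_iff.1 h0)

end Cfsg.Agent.S1947
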