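import Cfsg.Statements.S1948
import Cfsg.Agent.Lib.Tech.Constrained
import Cfsg.Agent.Lib.Tech.CentricCtl
import Cfsg.Agent.Lib.Char.PBlock
import Cfsg.Agent.Lib.PGroups.CyclicSylow
-- import your own Cfsg.Agent.* helpers here

set_option autoImplicit false
open Cfsg

namespace Cfsg.Agent.S1948

/-- Let S be a Sylow p-subgroup of the finite group G. Then G = N_G(S)·O_{p'}(G) if and only if G is p-constrained and N_G(S) controls fusion in S, in the sense that whenever a subgroup Q of S has a conjugate g Q g⁻¹ inside S, the element g is a product n c with n normalizing S and c centralizing Q. -/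
theorem result {G : Type*} [Group G] [Finite G] {p : ℕ} [Fact p.Prime] (S : Sylow p G) :
    Subgroup.normalizer ((S : Subgroup G) : Set G) ⊔ Cfsg.pPrimeCore p G = ⊤ ↔
      (Cfsg.IsPConstrained p G ∧
        ∀ Q : Subgroup G, Q ≤ (S : Subgroup G) → ∀ g : G, Q.map (MulAut.conj g).toMonoidHom ≤ (S : Subgroup G) →
          ∃ n ∈ Subgroup.normalizer ((S : Subgroup G) : Set G), ∃ c ∈ Subgroup.centralizer (Q : Set G), g = n * c) := by

  classical
  have hp : p.Prime := Fact.out
  set L := Cfsg.pPrimePCore p G with hL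
  set O := Cfsg.pPrimeCore p G with hO
  haveI hOn : O.Normal := Cfsg.Agent.Lib.Basic.pPrimeCore_normal p
  haveI hLn : L.Normal := Cfsg.Agent.Lib.Components.pPrimePCore_normal
  have hSp := S.isPGroup'
  have hOS : ∀ {x : G}, x ∈ (S : Subgroup G) → x ∈ O → x = 1 := fun h1 h2 =>
    Cfsg.Agent.Lib.Tech.inf_pPrimeCore_eq_one hSp h1 h2
  constructor
  · intro htop
    constructor
    · -- `p`-constraint
      rw [Cfsg.Agent.Lib.Components.isPConstrained_iff_quotient]
      let π := QuotientGroup.mk' O
      have hπ : Function.Surjective π := QuotientGroup.mk'_surjective O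
      let Sb : Sylow p (G ⧸ O) := S.mapSurjective hπ
      have hSbn : ((Sb : Subgroup (G ⧸ O))).Normal := by
        constructor
        intro s hs x
        obtain ⟨g, rfl⟩ := hπ x
        have hg : g ∈ Subgroup.normalizer ((S : Subgroup G) : Set G) ⊔ O := by
          rw [htop]
          trivial
        obtain ⟨n, hn, o, ho, rfl⟩ := Cfsg.Agent.Lib.Components.exists_mul_of_mem_sup_normal hg
        have h1 : π (n * o) = π n := by
          rw [map_mul]
          have : π o = 1 := by
            rw [← MonoidHom.mem_ker, QuotientGroup.ker_mk']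
            exact ho
          rw [this, mul_one]
        rw [h1]
        have h2 : s ∈ (S : Subgroup G).map π := hs
        obtain ⟨t, ht, rfl⟩ := h2
        refine ⟨n * t * n⁻¹, (Subgroup.mem_normalizer_iff.1 hn t).1 ht, ?_⟩
        simp
      have hle : (Sb : Subgroup (G ⧸ O)) ≤ Cfsg.pCore p (G ⧸ O) :=
        Cfsg.Agent.Lib.Basic.le_pCore hSbn Sb.isPGroup'
      have hidx : ¬ p ∣ (Cfsg.pCore p (G ⧸ O)).index := by
        intro hd
        exact Sb.not_dvd_index (hd.trans (Subgroup.index_dvd_of_le hle))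
      haveI hcn : (Cfsg.pCore p (G ⧸ O)).Normal := Cfsg.Agent.Lib.Basic.pCore_normal p
      have hsolv : Cfsg.IsPSolvable p (G ⧸ O) := by
        apply Cfsg.Agent.Lib.PGroups.isPSolvable_of_quotient (Cfsg.pCore p (G ⧸ O))
        · left
          exact IsPGroup.iff_card.1 (Cfsg.Agent.Lib.Basic.pCore_isPGroup p)
        · refine ⟨1, ![⊥, ⊤], rfl, rfl, ?_, ?_, ?_⟩
          · intro i j hij
            fin_cases i <;> fin_cases j <;> simp_all
          · intro i
            fin_cases i <;> simp <;> infer_instance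
          · intro i
            fin_cases i
            right
            have h1 : ((⊥ : Subgroup ((G ⧸ O) ⧸ Cfsg.pCore p (G ⧸ O)))).relIndex ⊤ = (Cfsg.pCore p (G ⧸ O)).index := by
              rw [Subgroup.relIndex_bot_left, Subgroup.card_top]
              rfl
            change (Subgroup.relIndex ⊥ ⊤).Coprime p
            rw [h1]
            exact (hp.coprime_iff_not_dvd.2 hidx).symm
      exact Cfsg.Agent.Lib.Char.centralizer_pCore_le_of_isPSolvable hsolv (Cfsg.Agent.Lib.Components.pPrimeCore_quotient_eq_bot p)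
    · -- fusion
      intro Q hQ g hg
      have hgt : g ∈ Subgroup.normalizer ((S : Subgroup G) : Set G) ⊔ O := by
        rw [htop]
        trivial
      obtain ⟨n, hn, o, ho, rfl⟩ := Cfsg.Agent.Lib.Components.exists_mul_of_mem_sup_normal hgt
      refine ⟨n, hn, o, ?_, rfl⟩
      rw [Subgroup.mem_centralizer_iff]
      intro q hq
      have h1 : n * o * q * (n * o)⁻¹ ∈ (S : Subgroup G) := hg ⟨q, hq, rfl⟩
      have h2 : o * q * o⁻¹ ∈ (S : Subgroup G) := by
        have h3 : o * q * o⁻¹ = n⁻¹ * (n * o * q * (n * o)⁻¹) * n := by group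
        rw [h3]
        have := (Subgroup.mem_normalizer_iff.1 (Subgroup.inv_mem _ hn) (n * o * q * (n * o)⁻¹)).1 h1
        simpa using this
      have h4 : o * q * o⁻¹ * q⁻¹ ∈ (S : Subgroup G) := (S : Subgroup G).mul_mem h2 ((S : Subgroup G).inv_mem (hQ hq))
      have h5 : o * q * o⁻¹ * q⁻¹ ∈ O := by
        have h6 : o * q * o⁻¹ * q⁻¹ = o * (q * o⁻¹ * q⁻¹) := by group
        rw [h6]
        exact O.mul_mem ho (hOn.conj_mem _ (O.inv_mem ho) q)
      have h7 := hOS h4 h5
      rw [mul_inv_eq_one, mul_inv_eq_iff_eq_mul] at h7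
      exact h7.symm
  · rintro ⟨hc, hfus⟩
    set H : Subgroup G := (S : Subgroup G) ⊓ L with hH
    obtain ⟨Q, hQ⟩ := Cfsg.Agent.Lib.Coprime.exists_sylow_map_eq_inf S L
    have hCL : Subgroup.centralizer (H : Set G) ≤ L := by
      have := hc Q
      rw [hQ] at this
      exact this
    have hsup := Cfsg.Agent.Lib.Tech.pPrimePCore_le_inf_sup S
    have hLle : L ≤ Subgroup.normalizer ((S : Subgroup G) : Set G) ⊔ O := by
      refine hsup.trans (sup_le ?_ le_sup_right)
      exact (inf_le_left.trans Subgroup.le_normalizer).trans le_sup_left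
    rw [eq_top_iff, ← Cfsg.Agent.Lib.Tech.normalizer_sup_pPrimeCore S]
    refine sup_le ?_ le_sup_right
    intro x hx
    have hxH : H.map (MulEquiv.toMonoidHom (MulAut.conj x)) = H :=
      (Cfsg.Agent.Lib.Coprime.conj_map_eq_iff_mem_normalizer H x).2 hx
    obtain ⟨n, hn, c, hc', rfl⟩ := hfus H inf_le_left x (by rw [hxH]; exact inf_le_left)
    exact Subgroup.mul_mem _ ((le_sup_left : _ ≤ Subgroup.normalizer ((S : Subgroup G) : Set G) ⊔ O) hn) (hLle (hCL hc'))

end Cfsg.Agent.S1948
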