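import Cfsg.Statements.S1952
import Cfsg.Agent.Lib.Tech.NormOrbit
import Cfsg.Agent.Lib.Transfer.Frattini
import Cfsg.Agent.Lib.PLocal.Thompson
-- import your own Cfsg.Agent.* helpers here

set_option autoImplicit false
open Cfsg

namespace Cfsg.Agent.S1952

section helpers

open Finset Polynomial

variable {p : ℕ} [Fact p.Prime]

private theorem delta_aux {M : Type*} [AddCommGroup M] [Module (ZMod p) M] (f : M →+ M)
    (hf : ∀ b, f^[p] b = b) (b : M) : (fun w : M => w - f w)^[p] b = 0 := by
  let σ : M →ₗ[ZMod p] M := AddMonoidHom.toZModLinearMap p f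
  have hσ : ∀ x : M, σ x = f x := fun x => rfl
  have hpow : ∀ (i : ℕ) (x : M), (σ ^ i) x = f^[i] x := by
    intro i
    induction i with
    | zero => intro x; rfl
    | succ i ih =>
      intro x
      rw [pow_succ, Module.End.mul_apply, ih, Function.iterate_succ_apply]
      rfl
  have hsub : ∀ (k : ℕ) (x : M), ((1 - σ) ^ k) x = (fun w : M => w - f w)^[k] x := by
    intro k
    induction k with
    | zero => intro x; rfl
    | succ k ih =>
      intro x
      rw [pow_succ, Module.End.mul_apply, ih, Function.iterate_succ_apply]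
      rfl
  have h2 : (1 - (X : (ZMod p)[X])) ^ p = 1 - X ^ p := by
    have := sub_pow_char (1 : (ZMod p)[X]) X (p := p)
    simpa using this
  have h3 : (1 - σ) ^ p = 1 - σ ^ p := by
    have h1 := congrArg (Polynomial.aeval σ) h2
    simpa only [map_sub, map_pow, Polynomial.aeval_X, map_one] using h1
  rw [← hsub, h3]
  show b - (σ ^ p) b = 0
  rw [hpow, hf, sub_self]

/-- `(1 - f)^p = 1 - f^p` on an elementary abelian group. -/
private theorem delta_iter_eq_one {B : Type*} [CommGroup B] (hexp : ∀ b : B, b ^ p = 1) (f : B →* B)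
    (hf : ∀ b, f^[p] b = b) (b : B) : (fun w : B => w * (f w)⁻¹)^[p] b = 1 := by
  have hp' : ∀ x : Additive B, p • x = 0 := fun x => by
    show Additive.ofMul ((Additive.toMul x) ^ p) = 0
    rw [hexp]; rfl
  letI : Module (ZMod p) (Additive B) := AddCommGroup.zmodModule hp'
  have hit2 : ∀ (k : ℕ) (x : Additive B), (fun w : Additive B => w - MonoidHom.toAdditive f w)^[k] x =
      Additive.ofMul ((fun w : B => w * (f w)⁻¹)^[k] (Additive.toMul x)) := by
    intro k
    induction k with
    | zero => intro x; rfl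
    | succ k ih =>
      intro x
      rw [Function.iterate_succ_apply, Function.iterate_succ_apply, ih]
      congr 2
      rw [toMul_sub]
      exact div_eq_mul_inv _ _
  have hit3 : ∀ (k : ℕ) (x : Additive B), (MonoidHom.toAdditive f)^[k] x =
      Additive.ofMul (f^[k] (Additive.toMul x)) := by
    intro k
    induction k with
    | zero => intro x; rfl
    | succ k ih =>
      intro x
      rw [Function.iterate_succ_apply, Function.iterate_succ_apply, ih]
      rfl
  have h2 := delta_aux (M := Additive B) (MonoidHom.toAdditive f)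
    (fun b => by rw [hit3, hf]; rfl) (Additive.ofMul b)
  rw [hit2] at h2
  exact h2

/-- A long Jordan chain forces a large group. -/
private theorem card_ge_of_iter {V : Type*} [CommGroup V] [Finite V] (hexp : ∀ v : V, v ^ p = 1) (δ : V →* V)
    (w : V) (n : ℕ) (h1 : δ^[n] w ≠ 1) (h2 : δ^[n + 1] w = 1) : p ^ (n + 1) ≤ Nat.card V := by
  classical
  have hp : p.Prime := Fact.out
  have hVp : IsPGroup p V := fun v => ⟨1, by simpa using hexp v⟩
  let C : ℕ → Subgroup V := fun j =>
    { carrier := {v | δ^[j] v = 1}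
      mul_mem' := by
        intro a b ha hb
        show δ^[j] (a * b) = 1
        rw [iterate_map_mul, ha, hb, one_mul]
      one_mem' := by
        show δ^[j] 1 = 1
        exact iterate_map_one δ j
      inv_mem' := by
        intro a ha
        show δ^[j] a⁻¹ = 1
        rw [iterate_map_inv, ha, inv_one] }
  have hC : ∀ j v, v ∈ C j ↔ δ^[j] v = 1 := fun j v => Iff.rfl
  have hle : ∀ j, C j ≤ C (j + 1) := by
    intro j v hv
    rw [hC] at hv ⊢
    rw [Function.iterate_succ_apply', hv, map_one]
  have hstep : ∀ j ≤ n, C j < C (j + 1) := by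
    intro j hj
    refine lt_of_le_of_ne (hle j) ?_
    intro e
    have hu : δ^[n - j] w ∈ C (j + 1) := by
      rw [hC, ← Function.iterate_add_apply]
      have : j + 1 + (n - j) = n + 1 := by omega
      rw [this, h2]
    rw [← e, hC, ← Function.iterate_add_apply] at hu
    have : j + (n - j) = n := by omega
    rw [this] at hu
    exact h1 hu
  have hcard : ∀ j ≤ n + 1, p ^ j ≤ Nat.card (C j) := by
    intro j
    induction j with
    | zero =>
      intro _
      rw [pow_zero]
      exact Nat.card_pos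
    | succ j ih =>
      intro hj
      have h3 := ih (by omega)
      have h4 := hstep j (by omega)
      have h5 : Nat.card (C j) * (C j).relIndex (C (j + 1)) = Nat.card (C (j + 1)) := by
        have h6 := ((C j).subgroupOf (C (j + 1))).card_mul_index
        rw [Subgroup.relIndex]
        rwa [Nat.card_congr (Subgroup.subgroupOfEquivOfLe h4.le).toEquiv] at h6
      have h7 : (C j).relIndex (C (j + 1)) ≠ 1 := by
        intro h
        exact h4.not_ge (Subgroup.relIndex_eq_one.mp h)
      have h8 : IsPGroup p (C (j + 1)) := hVp.to_subgroup _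
      obtain ⟨m, hm⟩ := IsPGroup.iff_card.mp h8
      have h9 : (C j).relIndex (C (j + 1)) ∣ p ^ m := by
        rw [← hm, ← h5]
        exact Dvd.intro_left _ rfl
      obtain ⟨i, -, hi⟩ := (Nat.dvd_prime_pow hp).mp h9
      have hi0 : i ≠ 0 := by
        intro e
        rw [e, pow_zero] at hi
        exact h7 hi
      have h10 : p ≤ (C j).relIndex (C (j + 1)) := by
        rw [hi]
        exact Nat.le_self_pow hi0 p
      rw [← h5, pow_succ]
      exact Nat.mul_le_mul h3 h10
  have h3 := hcard (n + 1) le_rfl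
  refine h3.trans ?_
  exact Subgroup.card_le_card_group _

end helpers

/-- Let P be a finite p-group with a normal elementary abelian subgroup A of index p, and let x ∈ A and y ∈ P with y outside A. If the product of the p conjugates y^(-i) x y^i (i = 0, …, p−1) is not the identity, then the wreath product Z_p ≀ Z_p, realised as a Sylow p-subgroup of the symmetric group of degree p², is a homomorphic image of P. -/
theorem result {P : Type*} [Group P] [Finite P] {p : ℕ} [Fact p.Prime] (hP : IsPGroup p P) (A : Subgroup P) [A.Normal]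
    (hA : Cfsg.IsElementaryAbelian p A) (hidx : A.index = p) (x y : P) (hx : x ∈ A) (hy : y ∉ A)
    (hprod : ((List.range p).map (fun i => (y ^ i)⁻¹ * x * y ^ i)).prod ≠ 1) :
    ∃ (Q : Sylow p (Equiv.Perm (Fin (p ^ 2)))) (f : P →* ↥(Q : Subgroup (Equiv.Perm (Fin (p ^ 2))))), Function.Surjective f := by
  classical
  have hp : p.Prime := Fact.out
  have hAc := (Cfsg.Agent.Lib.PLocal.isEA_iff.mp hA).1
  letI : CommGroup A := { (inferInstance : Group A) with
    mul_comm := fun a b => Subtype.ext (hAc a.1 a.2 b.1 b.2) }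
  have hAexp : ∀ a : A, a ^ p = 1 := fun a => Subtype.ext (hA.2 a.1 a.2)
  let σ : A →* A := (MulAut.conjNormal y⁻¹ : A ≃* A).toMonoidHom
  have hσ : ∀ a : A, ((σ a : A) : P) = y⁻¹ * a * y := fun a => by
    show y⁻¹ * a * y⁻¹⁻¹ = _
    rw [inv_inv]
  have hiter : ∀ (i : ℕ) (a : A), ((σ^[i] a : A) : P) = (y ^ i)⁻¹ * a * y ^ i := by
    intro i
    induction i with
    | zero => intro a; simp
    | succ i ih =>
      intro a
      rw [Function.iterate_succ_apply', hσ, ih, pow_succ]
      group
  let X0 : A := ⟨x, hx⟩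
  have hprodval : ∀ n, ((∏ i ∈ Finset.range n, σ^[i] X0 : A) : P) =
      ((List.range n).map (fun i => (y ^ i)⁻¹ * x * y ^ i)).prod := by
    intro n
    induction n with
    | zero => simp
    | succ n ih =>
      rw [Finset.prod_range_succ, List.range_succ, List.map_append, List.prod_append, ← ih]
      simp [hiter, X0]
  have hNx : (∏ i ∈ Finset.range p, σ^[i] X0) ≠ 1 := by
    intro h
    apply hprod
    rw [← hprodval, h]
    rfl
  obtain ⟨φ, hφ⟩ := Cfsg.Agent.Lib.Transfer.exists_hom_zmod_ne_one hAexp hNx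
  let M₀ : Subgroup P := φ.ker.map A.subtype
  have hM₀A : M₀ ≤ A := Subgroup.map_subtype_le _
  have hsub : M₀.subgroupOf A = φ.ker :=
    Subgroup.comap_map_eq_self_of_injective A.subtype_injective _
  have hidxφ : φ.ker.index = p := by
    rw [Subgroup.index_ker]
    have h1 : Nat.card φ.range ∣ p := by
      have h2 := Subgroup.card_subgroup_dvd_card φ.range
      rwa [Nat.card_congr Multiplicative.toAdd, Nat.card_zmod] at h2
    rcases (Nat.dvd_prime hp).mp h1 with h | h
    · exfalso
      have h2 := Subgroup.card_eq_one.mp h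
      apply hφ
      have h3 : φ (∏ i ∈ Finset.range p, σ^[i] X0) ∈ φ.range := ⟨_, rfl⟩
      rwa [h2, Subgroup.mem_bot] at h3
    · exact h
  have hM₀rel : M₀.relIndex A = p := by
    rw [Subgroup.relIndex, hsub, hidxφ]
  have hM₀idx : M₀.index = p ^ 2 := by
    have := Subgroup.relIndex_mul_index hM₀A
    rw [hM₀rel, hidx] at this
    rw [← this, pow_two]
  let ψ : P →* Equiv.Perm (P ⧸ M₀) := MulAction.toPermHom P (P ⧸ M₀)
  have hKcore : ψ.ker = M₀.normalCore := (Subgroup.normalCore_eq_ker M₀).symm
  have hKM₀ : ψ.ker ≤ M₀ := by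
    rw [hKcore]
    exact Subgroup.normalCore_le M₀
  have hKA : ψ.ker ≤ A := hKM₀.trans hM₀A
  haveI hKn : ψ.ker.Normal := inferInstance
  let Y : Subgroup A := ψ.ker.subgroupOf A
  haveI : Y.Normal := inferInstance
  have hσY : ∀ w ∈ Y, σ w ∈ Y := by
    intro w hw
    rw [Subgroup.mem_subgroupOf] at hw ⊢
    rw [hσ]
    have := hKn.conj_mem _ hw y⁻¹
    rwa [inv_inv] at this
  have hNY : (∏ i ∈ Finset.range p, σ^[i] X0) ∉ Y := by
    intro h
    have h1 : ((∏ i ∈ Finset.range p, σ^[i] X0 : A) : P) ∈ M₀ := hKM₀ (Subgroup.mem_subgroupOf.mp h)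
    have h2 : (∏ i ∈ Finset.range p, σ^[i] X0) ∈ M₀.subgroupOf A := Subgroup.mem_subgroupOf.mpr h1
    rw [hsub, MonoidHom.mem_ker] at h2
    exact hφ h2
  obtain ⟨w, hw⟩ : ∃ w : A, (fun w : A => w * (σ w)⁻¹)^[p - 1] w ∉ Y := by
    by_contra hall
    push Not at hall
    apply hNY
    refine Cfsg.Agent.Lib.Tech.norm_mem_of_iter Y σ hσY (fun w => ?_) hall X0
    rw [hAexp]
    exact Y.one_mem
  -- the quotient `A / Y`
  let π : A →* A ⧸ Y := QuotientGroup.mk' Y
  have hπ : ∀ z : A, π z = 1 ↔ z ∈ Y := fun z => QuotientGroup.eq_one_iff z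
  let σb : A ⧸ Y →* A ⧸ Y := QuotientGroup.map Y Y σ (fun z hz => hσY z hz)
  have hσb : ∀ z : A, σb (π z) = π (σ z) := fun z => rfl
  let δb : A ⧸ Y →* A ⧸ Y :=
    { toFun := fun v => v * (σb v)⁻¹
      map_one' := by simp
      map_mul' := fun a b => by
        simp only [map_mul, mul_inv]
        exact mul_mul_mul_comm _ _ _ _ }
  have hδb : ∀ v, δb v = v * (σb v)⁻¹ := fun v => rfl
  have hiter2 : ∀ (i : ℕ) (z : A), δb^[i] (π z) = π ((fun w : A => w * (σ w)⁻¹)^[i] z) := by
    intro i
    induction i with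
    | zero => intro z; rfl
    | succ i ih =>
      intro z
      rw [Function.iterate_succ_apply, Function.iterate_succ_apply]
      have : δb (π z) = π (z * (σ z)⁻¹) := by
        rw [hδb, hσb, map_mul, map_inv]
      rw [this, ih]
  have hexpb : ∀ v : A ⧸ Y, v ^ p = 1 := by
    intro v
    obtain ⟨z, rfl⟩ := QuotientGroup.mk'_surjective Y v
    rw [← map_pow, hAexp, map_one]
  -- `y ^ p` acts trivially
  have hyp : y ^ p ∈ A := by
    have h1 : (QuotientGroup.mk' A y) ^ p = 1 := by
      have h2 := pow_card_eq_one' (x := QuotientGroup.mk' A y)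
      rwa [show Nat.card (P ⧸ A) = p from hidx] at h2
    rw [← map_pow] at h1
    exact (QuotientGroup.eq_one_iff _).mp h1
  have hσp : ∀ a : A, σ^[p] a = a := by
    intro a
    apply Subtype.ext
    rw [hiter]
    have h1 := hAc _ a.2 _ hyp
    rw [mul_assoc, h1, inv_mul_cancel_left]
  have hσbp : ∀ v : A ⧸ Y, σb^[p] v = v := by
    intro v
    obtain ⟨z, rfl⟩ := QuotientGroup.mk'_surjective Y v
    have h1 : ∀ (i : ℕ) (z : A), σb^[i] (π z) = π (σ^[i] z) := by
      intro i
      induction i with
      | zero => intro z; rfl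
      | succ i ih =>
        intro z
        rw [Function.iterate_succ_apply, Function.iterate_succ_apply, hσb, ih]
    exact (h1 p z).trans (congrArg π (hσp z))
  have hp1 : p - 1 + 1 = p := Nat.sub_add_cancel hp.one_lt.le
  have hcardV : p ^ p ≤ Nat.card (A ⧸ Y) := by
    have h := card_ge_of_iter hexpb δb (π w) (p - 1) ?_ ?_
    · rwa [hp1] at h
    · rw [hiter2]
      intro h
      exact hw ((hπ _).mp h)
    · rw [hp1]
      exact delta_iter_eq_one hexpb σb hσbp (π w)
  have hKidx : p ^ (p + 1) ≤ ψ.ker.index := by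
    have h1 := Subgroup.relIndex_mul_index hKA
    rw [hidx] at h1
    rw [← h1, pow_succ]
    exact Nat.mul_le_mul_right p hcardV
  have hcardq : Nat.card (P ⧸ M₀) = p ^ 2 := hM₀idx
  let e : (P ⧸ M₀) ≃ Fin (p ^ 2) := Finite.equivFinOfCardEq hcardq
  let φ₂ : P →* Equiv.Perm (Fin (p ^ 2)) := (Equiv.permCongrHom e).toMonoidHom.comp ψ
  have hker : φ₂.ker = ψ.ker := by
    ext x
    rw [MonoidHom.mem_ker, MonoidHom.mem_ker]
    show (Equiv.permCongrHom e) (ψ x) = 1 ↔ _
    exact MulEquiv.map_eq_one_iff _
  have hRp : IsPGroup p φ₂.range := hP.of_surjective φ₂.rangeRestrict φ₂.rangeRestrict_surjective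
  obtain ⟨Q, hQ⟩ := hRp.exists_le_sylow
  have hval : (Nat.factorial (p ^ 2)).factorization p = p + 1 := by
    rw [Nat.factorization_def _ hp, pow_two, padicValNat_factorial_mul]
    have h1 : padicValNat p (Nat.factorial p) = 1 := by
      have h2 := padicValNat_factorial_mul (p := p) 1
      rw [mul_one] at h2
      rw [h2]
      simp
    rw [h1, add_comm]
  have hQcard : Nat.card Q = p ^ (p + 1) := by
    rw [Q.card_eq_multiplicity, Nat.card_perm, Nat.card_fin, hval]
  have hR : φ₂.range = Q := by
    apply Subgroup.eq_of_le_of_card_ge hQ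
    rw [hQcard, ← Subgroup.index_ker, hker]
    exact hKidx
  refine ⟨Q, φ₂.codRestrict Q (fun x => hQ ⟨x, rfl⟩), ?_⟩
  rintro ⟨q, hq⟩
  have hq' : q ∈ φ₂.range := by
    rw [hR]
    exact hq
  obtain ⟨x, rfl⟩ := hq'
  exact ⟨x, rfl⟩

end Cfsg.Agent.S1952
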