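import Cfsg.Statements.S1956
import Cfsg.Agent.Lib.Tech.Basic

set_option autoImplicit false
open Cfsg

namespace Cfsg.Agent.S1956

open Cfsg.Agent.Lib.Coprime

/-- Let P be a Sylow p-subgroup of the finite group G such that every element of P of order dividing p (dividing 4 when p = 2) is central in P. Then the fusion of these elements is controlled by N_G(P): if such an element a of P has g a g⁻¹ in P, then g = n c with n normalizing P and c commuting with a. -/
theorem result {G : Type*} [Group G] [Finite G] {p : ℕ} [Fact p.Prime] (P : Sylow p G)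
    (hcen : ∀ a ∈ (P : Subgroup G), (a ^ p = 1 ∨ (p = 2 ∧ a ^ 4 = 1)) → ∀ y ∈ (P : Subgroup G), a * y = y * a) :
    ∀ a ∈ (P : Subgroup G), (a ^ p = 1 ∨ (p = 2 ∧ a ^ 4 = 1)) → ∀ g : G, g * a * g⁻¹ ∈ (P : Subgroup G) →
      ∃ n ∈ Subgroup.normalizer ((P : Subgroup G) : Set G), ∃ c : G, c * a = a * c ∧ g = n * c := by
  intro a haP hcond g hb
  set b := g * a * g⁻¹ with hbdef
  have hbcond : b ^ p = 1 ∨ (p = 2 ∧ b ^ 4 = 1) := by
    rcases hcond with h | ⟨h2, h⟩
    · left; rw [hbdef, conj_pow, h]; group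
    · right; exact ⟨h2, by rw [hbdef, conj_pow, h]; group⟩
  let C : Subgroup G := Subgroup.centralizer ({b} : Set G)
  have hmemC : ∀ x : G, x ∈ C ↔ x * b = b * x := by
    intro x
    rw [Subgroup.mem_centralizer_singleton_iff]
  have hPC : (P : Subgroup G) ≤ C := by
    intro y hy
    rw [hmemC]
    exact (hcen b hb hbcond y hy).symm
  obtain ⟨Q, hQ⟩ := exists_sylow_eq_conj P g
  have hQC : (Q : Subgroup G) ≤ C := by
    rw [hQ]
    rintro _ ⟨y, hy, rfl⟩
    rw [hmemC]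
    have h1 := hcen a haP hcond y hy
    simp only [MulEquiv.coe_toMonoidHom, MulAut.conj_apply, hbdef]
    calc g * y * g⁻¹ * (g * a * g⁻¹) = g * (y * a) * g⁻¹ := by group
      _ = g * (a * y) * g⁻¹ := by rw [h1]
      _ = g * a * g⁻¹ * (g * y * g⁻¹) := by group
  obtain ⟨m, hm, hPeq⟩ := sylow_conj_in Q P hQC hPC
  rw [hQ, conj_map_conj_map] at hPeq
  refine ⟨m * g, (conj_map_eq_iff_mem_normalizer _ _).1 hPeq.symm, g⁻¹ * m⁻¹ * g, ?_, by group⟩
  have hm' := (hmemC m).1 hm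
  have hm'' : m⁻¹ * b = b * m⁻¹ := by
    calc m⁻¹ * b = m⁻¹ * (b * m) * m⁻¹ := by group
      _ = m⁻¹ * (m * b) * m⁻¹ := by rw [hm']
      _ = b * m⁻¹ := by group
  calc g⁻¹ * m⁻¹ * g * a = g⁻¹ * (m⁻¹ * (g * a * g⁻¹)) * g := by group
    _ = g⁻¹ * (b * m⁻¹) * g := by rw [← hm'']
    _ = a * (g⁻¹ * m⁻¹ * g) := by rw [hbdef]; group

end Cfsg.Agent.S1956
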