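import Cfsg.Statements.S2001
import Cfsg.Agent.Lib.Tech.CentralFunctor
-- import your own Cfsg.Agent.* helpers here

set_option autoImplicit false
open Cfsg

namespace Cfsg.Agent.S2001

/-- Let p be a prime dividing the order of the finite group G, P a Sylow p-subgroup, W a conjugacy functor for p on G with Z(H) ≤ W(H) for every nontrivial p-subgroup H, and V a central functor: a conjugacy functor with V(H) ≤ Z(H), and V(H) ≤ V(K) whenever Z(H) ≤ Z(K), for nontrivial p-subgroups H, K. Say that W with V controls transfer in a subgroup L when some Sylow p-subgroup Q of L satisfies Q ∩ L' = (Q ∩ (N_L(W(Q)))')·(Q ∩ (C_L(V(Q)))') as a product of two subgroups. If W with V controls transfer in N_G(H) for every subgroup H with Z(P) ≤ H ≤ P, then W with V controls transfer in G. -/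
theorem result {G : Type*} [Group G] [Finite G] {p : ℕ} [Fact p.Prime] (hdiv : p ∣ Nat.card G) (P : Sylow p G) (W V : Subgroup G → Subgroup G) (hW : Cfsg.IsConjugacyFunctor p W) (hV : Cfsg.IsConjugacyFunctor p V) (hWZ : ∀ H : Subgroup G, IsPGroup p ↥H → H ⊓ Subgroup.centralizer ((H : Subgroup G) : Set G) ≤ W H) (hVZ : ∀ H : Subgroup G, IsPGroup p ↥H → V H ≤ H ⊓ Subgroup.centralizer ((H : Subgroup G) : Set G)) (hVmono : ∀ H K : Subgroup G, IsPGroup p ↥H → IsPGroup p ↥K → H ≠ ⊥ → K ≠ ⊥ → H ⊓ Subgroup.centralizer ((H : Subgroup G) : Set G) ≤ K ⊓ Subgroup.centralizer ((K : Subgroup G) : Set G) → V H ≤ V K) (hloc : ∀ H : Subgroup G, (P : Subgroup G) ⊓ Subgroup.centralizer (((P : Subgroup G) : Subgroup G) : Set G) ≤ H → H ≤ (P : Subgroup G) → ∃ Q : Subgroup G, Q ≤ Subgroup.normalizer ((H : Subgroup G) : Set G) ∧ IsPGroup p ↥Q ∧ ¬ p ∣ (Q).relIndex (Subgroup.normalizer ((H : Subgroup G) : Set G)) ∧ ∀ x : G, x ∈ Q ⊓ ⁅Subgroup.normalizer ((H : Subgroup G) : Set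 G), Subgroup.normalizer ((H : Subgroup G) : Set G)⁆ ↔ ∃ a ∈ Q ⊓ ⁅Subgroup.normalizer ((H : Subgroup G) : Set G) ⊓ Subgroup.normalizer ((W Q : Subgroup G) : Set G), Subgroup.normalizer ((H : Subgroup G) : Set G) ⊓ Subgroup.normalizer ((W Q : Subgroup G) : Set G)⁆, ∃ b ∈ Q ⊓ ⁅Subgroup.normalizer ((H : Subgroup G) : Set G) ⊓ Subgroup.centralizer ((V Q : Subgroup G) : Set G), Subgroup.normalizer ((H : Subgroup G) : Set G) ⊓ Subgroup.centralizer ((V Q : Subgroup G) : Set G)⁆, x = a * b) : ∃ Q : Subgroup G, IsPGroup p ↥Q ∧ ¬ p ∣ Q.index ∧ ∀ x : G, x ∈ Q ⊓ commutator G ↔ ∃ a ∈ Q ⊓ ⁅Subgroup.normalizer ((W Q : Subgroup G) : Set G), Subgroup.normalizer ((W Q : Subgroup G) : Set G)⁆, ∃ b ∈ Q ⊓ ⁅Subgroup.centralizer ((V Q : Subgroup G) : Set G), Subgroup.centralizer ((V Q : Subgroup G) : Set G)⁆, x = a * b := by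
  classical
  have hne : (P : Subgroup G) ≠ ⊥ := by
    intro h
    have hp : p.Prime := Fact.out
    have h1 := P.not_dvd_index
    rw [h, Subgroup.index_bot] at h1
    exact h1 hdiv
  have hSp := P.isPGroup'
  set S' : Subgroup G := (P : Subgroup G) with hS'
  set A : Subgroup G := S' ⊓ ⁅Subgroup.normalizer ((W S' : Subgroup G) : Set G), Subgroup.normalizer ((W S' : Subgroup G) : Set G)⁆ with hA
  set B : Subgroup G := S' ⊓ ⁅Subgroup.centralizer ((V S' : Subgroup G) : Set G), Subgroup.centralizer ((V S' : Subgroup G) : Set G)⁆ with hB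
  refine ⟨S', hSp, P.not_dvd_index, fun x => ⟨fun hx => ?_, ?_⟩⟩
  · have h1 := Cfsg.Agent.Lib.Tech.central_transfer P hne hW hV hWZ hVmono ?_ (A ⊔ B) le_sup_left le_sup_right hx
    · have hBA : B ≤ Subgroup.normalizer (A : Set G) := by
        intro y hy
        have hyS : y ∈ S' := hy.1
        have hyE : y ∈ Subgroup.normalizer ((W S' : Subgroup G) : Set G) :=
          Cfsg.Agent.Lib.Tech.normalizer_le_normalizer_functor hW hSp (Subgroup.le_normalizer hyS)
        apply Cfsg.Agent.Lib.Coprime.mem_normalizer_of_conj_le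
        intro z hz
        obtain ⟨hz1, hz2⟩ := Subgroup.mem_inf.1 hz
        refine Subgroup.mem_inf.2 ⟨S'.mul_mem (S'.mul_mem hyS hz1) (S'.inv_mem hyS), ?_⟩
        have e : (Subgroup.normalizer ((W S' : Subgroup G) : Set G)).map (MulAut.conj y).toMonoidHom = Subgroup.normalizer ((W S' : Subgroup G) : Set G) :=
          (Cfsg.Agent.Lib.Coprime.conj_map_eq_iff_mem_normalizer _ _).2 (Subgroup.le_normalizer hyE)
        have h3 := Cfsg.Agent.Lib.Coprime.conj_mem_conj_map _ y z hz2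
        rwa [Subgroup.map_commutator, e] at h3
      exact Cfsg.Agent.Lib.Components.exists_mul_of_mem_sup_of_le_normalizer hBA h1
    · intro H h1 h2
      obtain ⟨Q, h3, h4, h5, h6⟩ := hloc H h1 h2
      exact ⟨Q, h3, h4, h5, fun x hx => (h6 x).1 hx⟩
  · rintro ⟨a, ha, b, hb, rfl⟩
    refine ⟨S'.mul_mem ha.1 hb.1, (commutator G).mul_mem ?_ ?_⟩
    · exact Subgroup.commutator_mono le_top le_top ha.2
    · exact Subgroup.commutator_mono le_top le_top hb.2

end Cfsg.Agent.S2001
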