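import Cfsg.Statements.S2002
import Cfsg.Agent.Lib.Tech.CentralFusion
-- import your own Cfsg.Agent.* helpers here

set_option autoImplicit false
open Cfsg

namespace Cfsg.Agent.S2002

/-- Let p be a prime dividing the order of the finite group G, P a Sylow p-subgroup, W a conjugacy functor for p on G with Z(H) ≤ W(H) for every nontrivial p-subgroup H, and V a central functor (a conjugacy functor with V(H) ≤ Z(H), and V(H) ≤ V(K) whenever Z(H) ≤ Z(K)). Say that W with V controls strong fusion in a subgroup L when some Sylow p-subgroup Q of L has the property: whenever X ⊆ Q and a ∈ L with a⁻¹Xa ⊆ Q, then a = c b with c ∈ C_L(X) and b = b₁ ⋯ bₙ a product of elements each in N_L(W(Q)) or in C_L(V(Q)) such that every partial conjugate (b₁ ⋯ bₖ)⁻¹ X (b₁ ⋯ bₖ) lies in Q. If W with V controls strong fusion in N_G(H) for every subgroup H with Z(P) ≤ H ≤ P, then W with V controls strong fusion in G. -/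
theorem result {G : Type*} [Group G] [Finite G] {p : ℕ} [Fact p.Prime] (hdiv : p ∣ Nat.card G) (P : Sylow p G) (W V : Subgroup G → Subgroup G) (hW : Cfsg.IsConjugacyFunctor p W) (hV : Cfsg.IsConjugacyFunctor p V) (hWZ : ∀ H : Subgroup G, IsPGroup p ↥H → H ⊓ Subgroup.centralizer ((H : Subgroup G) : Set G) ≤ W H) (hVZ : ∀ H : Subgroup G, IsPGroup p ↥H → V H ≤ H ⊓ Subgroup.centralizer ((H : Subgroup G) : Set G)) (hVmono : ∀ H K : Subgroup G, IsPGroup p ↥H → IsPGroup p ↥K → H ≠ ⊥ → K ≠ ⊥ → H ⊓ Subgroup.centralizer ((H : Subgroup G) : Set G) ≤ K ⊓ Subgroup.centralizer ((K : Subgroup G) : Set G) → V H ≤ V K) (hloc : ∀ H : Subgroup G, (P : Subgroup G) ⊓ Subgroup.centralizer (((P : Subgroup G) : Subgroup G) : Set G) ≤ H → H ≤ (P : Subgroup G) → ∃ Q : Subgroup G, Q ≤ Subgroup.normalizer ((H : Subgroup G) : Set G) ∧ IsPGroup p ↥Q ∧ ¬ p ∣ (Q).relIndex (Subgroup.normalizer ((H : Subgroup G) : Set G)) ∧ ∀ (X : Set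 G) (a : G), X ⊆ Q → a ∈ Subgroup.normalizer ((H : Subgroup G) : Set G) → (fun x => a⁻¹ * x * a) '' X ⊆ Q → ∃ c ∈ Subgroup.normalizer ((H : Subgroup G) : Set G) ⊓ Subgroup.centralizer X, ∃ (n : ℕ) (b : Fin n → G), (∀ i, b i ∈ Subgroup.normalizer ((H : Subgroup G) : Set G) ⊓ Subgroup.normalizer ((W Q : Subgroup G) : Set G) ∨ b i ∈ Subgroup.normalizer ((H : Subgroup G) : Set G) ⊓ Subgroup.centralizer ((V Q : Subgroup G) : Set G)) ∧ a = c * (List.ofFn b).prod ∧ ∀ k : ℕ, k ≤ n → (fun x => (((List.ofFn b).take k).prod)⁻¹ * x * ((List.ofFn b).take k).prod) '' ((fun x => c⁻¹ * x * c) '' X) ⊆ Q) : ∃ Q : Subgroup G, IsPGroup p ↥Q ∧ ¬ p ∣ Q.index ∧ ∀ (X : Set G) (a : G), X ⊆ Q → (fun x => a⁻¹ * x * a) '' X ⊆ Q → ∃ c ∈ Subgroup.centralizer X, ∃ (n : ℕ) (b : Fin n → G), (∀ i, b i ∈ ⊤ ⊓ Subgroup.normalizer ((W Q : Subgroup G) : Set G) ∨ b i ∈ ⊤ ⊓ Subgroup.centralizer ((V Q : Subgroup G) : Set G)) ∧ a = c * (List.ofFn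 b).prod ∧ ∀ k : ℕ, k ≤ n → (fun x => (((List.ofFn b).take k).prod)⁻¹ * x * ((List.ofFn b).take k).prod) '' ((fun x => c⁻¹ * x * c) '' X) ⊆ Q := by
  classical
  have hne : (P : Subgroup G) ≠ ⊥ := by
    intro h
    have h1 := P.not_dvd_index
    rw [h, Subgroup.index_bot] at h1
    exact h1 hdiv
  have hSp := P.isPGroup'
  have hloc' : ∀ H : Subgroup G, (P : Subgroup G) ⊓ Subgroup.centralizer ((P : Subgroup G) : Set G) ≤ H → H ≤ (P : Subgroup G) →
      ∃ Q : Subgroup G, Q ≤ Subgroup.normalizer (H : Set G) ∧ IsPGroup p Q ∧ ¬ p ∣ Q.relIndex (Subgroup.normalizer (H : Set G)) ∧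
        Cfsg.Agent.Lib.Tech.LocCtl W V H Q := by
    intro H h1 h2
    obtain ⟨Q, h3, h4, h5, h6⟩ := hloc H h1 h2
    refine ⟨Q, h3, h4, h5, fun A g hg hA hgA => ?_⟩
    have hgA' : (fun x => g⁻¹⁻¹ * x * g⁻¹) '' A ⊆ Q := by
      rintro _ ⟨a, ha, rfl⟩
      have := hgA ⟨a, ha, rfl⟩
      simpa using this
    obtain ⟨c, hc, n, b, hb, e, hk⟩ := h6 A g⁻¹ hA (Subgroup.inv_mem _ hg) hgA'
    have hcA : ∀ a ∈ A, c⁻¹ * a * c = a := by
      intro a ha
      have h7 := Subgroup.mem_centralizer_iff.1 hc.2 a ha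
      calc c⁻¹ * a * c = c⁻¹ * (a * c) := by group
        _ = c⁻¹ * (c * a) := by rw [h7]
        _ = a := by group
    refine ⟨((List.ofFn b).prod)⁻¹, Cfsg.Agent.Lib.Tech.GC.of_list _ ?_ ?_, fun a ha => ?_⟩
    · intro b' hb'
      rw [List.mem_ofFn] at hb'
      obtain ⟨i, rfl⟩ := hb'
      exact hb i
    · intro k hk'
      rw [List.length_ofFn] at hk'
      rintro _ ⟨a, ha, rfl⟩
      have h8 := hk k hk' ⟨_, ⟨a, ha, rfl⟩, rfl⟩
      simp only [hcA a ha] at h8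
      simpa using h8
    · have e2 : g = ((List.ofFn b).prod)⁻¹ * c⁻¹ := by
        have : g⁻¹⁻¹ = (c * (List.ofFn b).prod)⁻¹ := by rw [← e]
        simpa using this
      rw [e2]
      calc ((List.ofFn b).prod)⁻¹ * a * ((List.ofFn b).prod)⁻¹⁻¹ = ((List.ofFn b).prod)⁻¹ * (c⁻¹ * a * c) * ((List.ofFn b).prod)⁻¹⁻¹ := by rw [hcA a ha]
        _ = _ := by group
  refine ⟨P, hSp, P.not_dvd_index, fun X a hX haX => ?_⟩
  have hlc : Cfsg.Agent.Lib.Tech.lc a⁻¹ X ⊆ (P : Subgroup G) := by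
    rintro _ ⟨x, hx, rfl⟩
    have := haX ⟨x, hx, rfl⟩
    simpa using this
  obtain ⟨c, hc, hcX⟩ := Cfsg.Agent.Lib.Tech.central_fusion P hne hW hV hWZ hVmono hloc' X a⁻¹ hX hlc
  obtain ⟨n, b, hb, e, hk⟩ := hc.exists_data
  have hfix : ∀ x ∈ X, (a * c)⁻¹ * x * (a * c) = x := by
    intro x hx
    have h1 := hcX x hx
    have h2 : c * x * c⁻¹ = a⁻¹ * x * a := by simpa using h1
    calc (a * c)⁻¹ * x * (a * c) = c⁻¹ * (a⁻¹ * x * a) * c := by group
      _ = x := by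
        rw [← h2]; group
  refine ⟨a * c, ?_, n, b, ?_, ?_, ?_⟩
  · rw [Subgroup.mem_centralizer_iff]
    intro x hx
    have h1 := hfix x hx
    calc x * (a * c) = (a * c) * ((a * c)⁻¹ * x * (a * c)) := by group
      _ = (a * c) * x := by rw [h1]
  · intro i
    simpa using hb i
  · rw [← e]
    group
  · intro k' hk'
    rintro _ ⟨_, ⟨x, hx, rfl⟩, rfl⟩
    have h8 := hk hX k' hk' ⟨x, hx, rfl⟩
    simp only [hfix x hx]
    simpa using h8

end Cfsg.Agent.S2002
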