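import Cfsg.Statements.S2004
import Cfsg.Agent.Lib.Tech.SecStable
-- import your own Cfsg.Agent.* helpers here

set_option autoImplicit false
open Cfsg

namespace Cfsg.Agent.S2004

/-- Let p be an odd prime and G a finite group such that SL₂(p) is not involved in N_G(P) for any nonidentity p-subgroup P of G. Then every section of G is p-stable in the normalizer form: in each section, whenever an element of the normalizer of a p-subgroup Q acts quadratically on Q, its image in N(Q)/C(Q) lies in O_p(N(Q)/C(Q)). -/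
theorem result {G : Type*} [Group G] [Finite G] {p : ℕ} [Fact p.Prime] (hp : p ≠ 2) (h : ∀ P : Subgroup G, IsPGroup p ↥P → P ≠ ⊥ → ¬ Cfsg.Involves (Matrix.SpecialLinearGroup (Fin 2) (ZMod p)) ↥(Subgroup.normalizer ((P : Subgroup G) : Set G))) : ∀ (K R : Subgroup G) [hR : (R.subgroupOf K).Normal], Cfsg.IsNormalizerPStable p (↥K ⧸ R.subgroupOf K) := by
  classical
  intro K R hR Q hQ g hg hq
  by_cases hQ1 : Q = ⊥
  · subst hQ1
    have h1 : (QuotientGroup.mk (s := (Subgroup.centralizer ((⊥ : Subgroup (↥K ⧸ R.subgroupOf K)) : Set (↥K ⧸ R.subgroupOf K))).subgroupOf (Subgroup.normalizer ((⊥ : Subgroup (↥K ⧸ R.subgroupOf K)) : Set (↥K ⧸ R.subgroupOf K))))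
        (⟨g, hg⟩ : ↥(Subgroup.normalizer ((⊥ : Subgroup (↥K ⧸ R.subgroupOf K)) : Set (↥K ⧸ R.subgroupOf K))))) = 1 := by
      rw [QuotientGroup.eq_one_iff, Subgroup.mem_subgroupOf, Subgroup.mem_centralizer_iff]
      intro w hw
      have hw1 : w = 1 := hw
      rw [hw1]
      simp
    rw [h1]
    exact one_mem _
  · exact Cfsg.Agent.Lib.Tech.normalizerPStable_of_noSL2p hp Q hQ
      (Cfsg.Agent.Lib.Tech.noSL2p_normalizer_of_local h K R Q hQ hQ1) g hg hq

end Cfsg.Agent.S2004
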