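import Cfsg.Statements.S2015
import Cfsg.Agent.Lib.Tech.SectionInd
-- import your own Cfsg.Agent.* helpers here

set_option autoImplicit false
universe u
open Cfsg

namespace Cfsg.Agent.S2015

/-- For p ≥ 5, every finite p-group P has a characteristic subgroup K containing Z(P), depending only on P, whose normalizer controls transfer wherever P is a Sylow subgroup: for every finite group G and every embedding ι of P onto a Sylow p-subgroup of G, the intersection of ι(P) with the derived subgroup of G equals its intersection with the derived subgroup of N_G(ι(K)). -/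
theorem result (p : ℕ) [Fact p.Prime] (hp : 5 ≤ p) (P : Type u) [Group P] [Finite P] (hP : IsPGroup p P) : ∃ K : Subgroup P, K.Characteristic ∧ Subgroup.center P ≤ K ∧ ∀ (G : Type u) [Group G] [Finite G] (ι : P →* G), Function.Injective ι → (∃ T : Sylow p G, (T : Subgroup G) = ι.range) → ι.range ⊓ commutator G = ι.range ⊓ (commutator ↥(Subgroup.normalizer ((K.map ι : Subgroup G) : Set G))).map (Subgroup.normalizer ((K.map ι : Subgroup G) : Set G)).subtype := by
  have h1 := Cfsg.Agent.S1978.result hP
  refine ⟨Cfsg.kInfLower P, ?_, h1.2.1.trans h1.1, ?_⟩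
  · rw [Subgroup.characteristic_iff_map_eq]
    intro φ
    exact Cfsg.Agent.Lib.Tech.map_kInfLower_equiv φ
  · intro G _ _ ι hι hT
    obtain ⟨T, hT⟩ := hT
    have hW := Cfsg.Agent.Lib.Tech.kInfLower_isCharPFunctor.{u} p
    have hctl : Cfsg.ControlsTransferIn p (Cfsg.inducedFunctor (G := G) Cfsg.kInfLower) ⊤ :=
      Cfsg.Agent.Lib.Tech.ctl_top_of_sections _ hW (fun K R _ => Cfsg.Agent.Lib.Tech.kInfLower_ctl_sections hp K R)
    have h2 := Cfsg.Agent.Lib.Tech.ctl_eq_of_sylow Cfsg.kInfLower hW hctl (S := ι.range) (hT ▸ T.isPGroup')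
      (hT ▸ T.not_dvd_index)
    rw [Cfsg.Agent.Lib.Tech.induced_range_eq hW hP ι hι] at h2
    rw [Subgroup.map_subtype_commutator]
    exact h2

end Cfsg.Agent.S2015
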