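import Cfsg.Statements.S2162
import Cfsg.Agent.Lib.KnownSimple.SqZero
import Cfsg.Agent.Lib.KnownSimple.InvolBasis

set_option autoImplicit false
open Cfsg

namespace Cfsg.Agent.S2162

open Matrix Cfsg.Agent.Lib.KnownSimple

variable {F : Type*} [Field F] [Fintype F] [CharP F 2] {n : ℕ}

private lemma sq_zero (a : Matrix.SpecialLinearGroup (Fin n) F) (ha : orderOf a = 2) :
    ((a : Matrix (Fin n) (Fin n) F) - 1) * ((a : Matrix (Fin n) (Fin n) F) - 1) = 0 := by
  have h1 : a ^ 2 = 1 := by rw [← ha]; exact pow_orderOf_eq_one a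
  have h2 : (a : Matrix (Fin n) (Fin n) F) * (a : Matrix (Fin n) (Fin n) F) = 1 := by
    rw [pow_two] at h1
    exact congrArg Subtype.val h1
  have h20 : (2 : F) = 0 := CharTwo.two_eq_zero
  have h3 : (a : Matrix (Fin n) (Fin n) F) + (a : Matrix (Fin n) (Fin n) F) = 0 := by
    rw [← two_smul F, h20, zero_smul]
  have h4 : (1 : Matrix (Fin n) (Fin n) F) + 1 = 0 := by
    rw [← two_smul F, h20, zero_smul]
  calc ((a : Matrix (Fin n) (Fin n) F) - 1) * ((a : Matrix (Fin n) (Fin n) F) - 1)
      = (a : Matrix (Fin n) (Fin n) F) * (a : Matrix (Fin n) (Fin n) F) + 1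
          - ((a : Matrix (Fin n) (Fin n) F) + (a : Matrix (Fin n) (Fin n) F)) := by noncomm_ring
    _ = 0 := by rw [h2, h3, h4, sub_zero]

private lemma rank_pos (a : Matrix.SpecialLinearGroup (Fin n) F) (ha : orderOf a = 2) :
    0 < ((a : Matrix (Fin n) (Fin n) F) - 1).rank := by
  by_contra hcon
  have h0 : ((a : Matrix (Fin n) (Fin n) F) - 1).rank = 0 := by omega
  rw [Matrix.rank, Submodule.finrank_eq_zero, LinearMap.range_eq_bot] at h0
  have h1 : (a : Matrix (Fin n) (Fin n) F) - 1 = 0 := by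
    apply Matrix.toLin'.injective
    rw [Matrix.toLin'_apply', h0, map_zero]
  have h2 : a = 1 := Subtype.ext (sub_eq_zero.mp h1)
  rw [h2, orderOf_one] at ha
  omega

/-- Conjugacy of involutions in the special linear group over a finite field of characteristic two, in dimension at least 3: two elements of order 2 of SL_n(F) are conjugate in SL_n(F) exactly when the matrices a − 1 and b − 1 have the same rank (the rank of a − 1 is the dimension of the commutator space [V, a]). -/
theorem result {F : Type*} [Field F] [Fintype F] [CharP F 2] {n : ℕ} (hn : 3 ≤ n) (a b : Matrix.SpecialLinearGroup (Fin n) F) (ha : orderOf a = 2) (hb : orderOf b = 2) :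
    IsConj a b ↔ ((a : Matrix (Fin n) (Fin n) F) - 1).rank = ((b : Matrix (Fin n) (Fin n) F) - 1).rank := by
  classical
  constructor
  · intro h
    obtain ⟨g, rfl⟩ := isConj_iff.mp h
    have hg : IsUnit (g : Matrix (Fin n) (Fin n) F).det := by
      rw [g.2]; exact isUnit_one
    have hg' : IsUnit (((g⁻¹ : Matrix.SpecialLinearGroup (Fin n) F)) : Matrix (Fin n) (Fin n) F).det := by
      rw [(g⁻¹).2]; exact isUnit_one
    have hinv : (g : Matrix (Fin n) (Fin n) F) * ((g⁻¹ : Matrix.SpecialLinearGroup (Fin n) F) : Matrix (Fin n) (Fin n) F) = 1 :=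
      congrArg Subtype.val (mul_inv_cancel g)
    have e : ((g * a * g⁻¹ : Matrix.SpecialLinearGroup (Fin n) F) : Matrix (Fin n) (Fin n) F) - 1
        = (g : Matrix (Fin n) (Fin n) F) * ((a : Matrix (Fin n) (Fin n) F) - 1) * ((g⁻¹ : Matrix.SpecialLinearGroup (Fin n) F) : Matrix (Fin n) (Fin n) F) := by
      rw [Matrix.SpecialLinearGroup.coe_mul, Matrix.SpecialLinearGroup.coe_mul, Matrix.mul_sub, Matrix.sub_mul,
        Matrix.mul_one, hinv]
    rw [e, Matrix.rank_mul_eq_left_of_isUnit_det _ _ hg', Matrix.rank_mul_eq_right_of_isUnit_det _ _ hg]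
  · intro hrk
    set l := ((a : Matrix (Fin n) (Fin n) F) - 1).rank with hl
    have hlpos : 0 < l := rank_pos a ha
    let Na : (Fin n → F) →ₗ[F] (Fin n → F) := ((a : Matrix (Fin n) (Fin n) F) - 1).mulVecLin
    let Nb : (Fin n → F) →ₗ[F] (Fin n → F) := ((b : Matrix (Fin n) (Fin n) F) - 1).mulVecLin
    have hNa : ∀ v, Na (Na v) = 0 := by
      intro v
      change ((a : Matrix (Fin n) (Fin n) F) - 1) *ᵥ (((a : Matrix (Fin n) (Fin n) F) - 1) *ᵥ v) = 0
      rw [Matrix.mulVec_mulVec, sq_zero a ha, Matrix.zero_mulVec]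
    have hNb : ∀ v, Nb (Nb v) = 0 := by
      intro v
      change ((b : Matrix (Fin n) (Fin n) F) - 1) *ᵥ (((b : Matrix (Fin n) (Fin n) F) - 1) *ᵥ v) = 0
      rw [Matrix.mulVec_mulVec, sq_zero b hb, Matrix.zero_mulVec]
    have hla : Module.finrank F (LinearMap.range Na) = l := rfl
    have hlb : Module.finrank F (LinearMap.range Nb) = l := hrk.symm
    have hfr : Module.finrank F (Fin n → F) = n := by simp
    have h2l : 2 * l ≤ n := by
      have h1 : LinearMap.range Na ≤ LinearMap.ker Na := by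
        rintro _ ⟨v, rfl⟩
        exact hNa v
      have h2 := Submodule.finrank_mono h1
      have h3 := LinearMap.finrank_range_add_finrank_ker Na
      omega
    obtain ⟨m, hm⟩ : ∃ m, n = 2 * l + m := ⟨n - 2 * l, by omega⟩
    obtain ⟨ba, ha1, ha2, ha3⟩ := exists_basis_of_sq_zero Na hNa l m hla (by rw [hfr]; exact hm)
    obtain ⟨bb, hb1, hb2, hb3⟩ := exists_basis_of_sq_zero Nb hNb l m hlb (by rw [hfr]; exact hm)
    let g : (Fin n → F) ≃ₗ[F] (Fin n → F) := ba.equiv bb (Equiv.refl _)
    have hg : ∀ i, g (ba i) = bb i := fun i => by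
      simp [g]
    have hdetg : LinearMap.det (g : (Fin n → F) →ₗ[F] (Fin n → F)) ≠ 0 :=
      (LinearEquiv.isUnit_det' g).ne_zero
    -- a square root of the inverse determinant
    obtain ⟨e, he⟩ : ∃ e : F, (LinearMap.det (g : (Fin n → F) →ₗ[F] (Fin n → F)))⁻¹ = e * e :=
      FiniteField.isSquare_of_char_two (ringChar.eq_iff.mpr inferInstance) _
    let j₀ : Fin l := ⟨0, hlpos⟩
    let s : (Fin l ⊕ Fin m ⊕ Fin l) → F := fun i =>
      (if i = Sum.inl j₀ then e else 1) * (if i = Sum.inr (Sum.inr j₀) then e else 1)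
    let h : (Fin n → F) →ₗ[F] (Fin n → F) := bb.constr F (fun i => s i • bb i)
    have hh : ∀ i, h (bb i) = s i • bb i := fun i => by
      simp [h]
    have hdeth : LinearMap.det h = e * e := by
      rw [det_eq_prod_of_eigen bb h s hh, Finset.prod_mul_distrib]
      simp
    let G : (Fin n → F) →ₗ[F] (Fin n → F) := h ∘ₗ (g : (Fin n → F) →ₗ[F] (Fin n → F))
    have hdetG : LinearMap.det G = 1 := by
      rw [LinearMap.det_comp, hdeth, ← he, inv_mul_cancel₀ hdetg]
    -- intertwining
    have hint : Nb ∘ₗ G = G ∘ₗ Na := by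
      apply ba.ext
      intro i
      simp only [LinearMap.comp_apply, G, LinearEquiv.coe_coe]
      rcases i with j | k | j
      · rw [ha1, hg, hg, hh, hh, map_smul, hb1]
        congr 1
        simp [s]
      · rw [ha2, map_zero, map_zero, hg, hh, map_smul, hb2, smul_zero]
      · rw [ha3, map_zero, map_zero, hg, hh, map_smul, hb3, smul_zero]
    let M : Matrix (Fin n) (Fin n) F := LinearMap.toMatrix' G
    have hM : M.det = 1 := by
      rw [← hdetG]
      exact LinearMap.det_toMatrix' G
    have hMM : ((b : Matrix (Fin n) (Fin n) F) - 1) * M = M * ((a : Matrix (Fin n) (Fin n) F) - 1) := by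
      apply Matrix.toLin'.injective
      rw [Matrix.toLin'_mul, Matrix.toLin'_mul, Matrix.toLin'_toMatrix']
      rw [Matrix.toLin'_apply', Matrix.toLin'_apply']
      exact hint
    have hMM' : (b : Matrix (Fin n) (Fin n) F) * M = M * (a : Matrix (Fin n) (Fin n) F) := by
      rw [Matrix.sub_mul, Matrix.mul_sub, Matrix.one_mul, Matrix.mul_one] at hMM
      exact sub_left_injective hMM
    let M' : Matrix.SpecialLinearGroup (Fin n) F := ⟨M, hM⟩
    refine isConj_iff.mpr ⟨M', ?_⟩
    rw [mul_inv_eq_iff_eq_mul]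
    apply Subtype.ext
    exact hMM'.symm

end Cfsg.Agent.S2162
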