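import Cfsg.Statements.S2163

set_option autoImplicit false
open Cfsg

namespace Cfsg.Agent.S2163

/-- Over a finite field of characteristic two and for n ≥ 3: for every ℓ with 1 ≤ ℓ and 2ℓ ≤ n, the matrix j_ℓ that is the identity plus the entries 1 in positions (n − ℓ + i, i) for i < ℓ (an identity block of size ℓ in the lower left corner) lies in SL_n(F), has order 2, and j_ℓ − 1 has rank ℓ. Together with the conjugacy criterion by rank, these matrices represent the conjugacy classes of involutions of SL_n(F). -/
theorem result {F : Type*} [Field F] [Fintype F] [CharP F 2] {n : ℕ} (hn : 3 ≤ n) (ℓ : ℕ) (h1 : 1 ≤ ℓ) (h2 : 2 * ℓ ≤ n) :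
    ∃ a : Matrix.SpecialLinearGroup (Fin n) F, (a : Matrix (Fin n) (Fin n) F) = 1 + Matrix.of (fun i j : Fin n => if j.val < ℓ ∧ i.val = j.val + (n - ℓ) then (1 : F) else 0) ∧ orderOf a = 2 ∧ ((a : Matrix (Fin n) (Fin n) F) - 1).rank = ℓ := by
  classical
  set M : Matrix (Fin n) (Fin n) F := Matrix.of (fun i j : Fin n => if j.val < ℓ ∧ i.val = j.val + (n - ℓ) then (1 : F) else 0) with hM
  have hMapp : ∀ i j, M i j = if j.val < ℓ ∧ i.val = j.val + (n - ℓ) then (1 : F) else 0 := fun i j => rfl
  have hMM : M * M = 0 := by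
    ext i k
    rw [Matrix.mul_apply, Matrix.zero_apply]
    apply Finset.sum_eq_zero
    intro j _
    rw [hMapp, hMapp]
    by_cases h3 : j.val < ℓ ∧ i.val = j.val + (n - ℓ)
    · rw [if_pos h3, one_mul, if_neg]
      rintro ⟨_, h5⟩
      omega
    · rw [if_neg h3, zero_mul]
  have hsq : (1 + M) * (1 + M) = 1 := by
    have h20 : (2 : Matrix (Fin n) (Fin n) F) = 0 := by
      have : Nonempty (Fin n) := ⟨⟨0, by omega⟩⟩
      exact CharTwo.two_eq_zero
    calc (1 + M) * (1 + M) = 1 + 2 * M + M * M := by noncomm_ring
      _ = 1 := by rw [hMM, h20]; simp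
  have hdet : (1 + M).det = 1 := by
    have h4 : (1 + M).det ^ 2 = 1 := by
      rw [pow_two, ← Matrix.det_mul, hsq, Matrix.det_one]
    have h20 : (2 : F) = 0 := CharTwo.two_eq_zero
    have h5 : ((1 + M).det - 1) ^ 2 = 0 := by
      rw [sub_sq, h4, h20]; ring_nf; rw [show (2 : F) = 0 from h20]
    have h6 := pow_eq_zero_iff (two_ne_zero) |>.mp h5
    exact sub_eq_zero.mp h6
  let a : Matrix.SpecialLinearGroup (Fin n) F := ⟨1 + M, hdet⟩
  refine ⟨a, rfl, ?_, ?_⟩
  · have : Fact (Nat.Prime 2) := ⟨Nat.prime_two⟩
    apply orderOf_eq_prime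
    · have h3 : a * a = 1 := Subtype.ext hsq
      rw [pow_two]
      exact h3
    · intro h
      have h5 : 1 + M = 1 := congrArg Subtype.val h
      have h6 : M = 0 := by simpa using h5
      have h7 := congrFun (congrFun h6 ⟨n - ℓ, by omega⟩) ⟨0, by omega⟩
      rw [hMapp, Matrix.zero_apply, if_pos (by simp; omega)] at h7
      exact one_ne_zero h7
  · change (1 + M - 1).rank = ℓ
    rw [add_sub_cancel_left]
    apply le_antisymm
    · -- the nonzero rows are those with index at least n - ℓ
      have := Matrix.rank_le_card_of_support_subset M (Finset.image (fun k : Fin ℓ => (⟨k.val + (n - ℓ), by omega⟩ : Fin n)) Finset.univ) ?_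
      · refine this.trans ?_
        exact (Finset.card_image_le).trans (by simp)
      · intro i hi
        rw [Function.mem_support] at hi
        simp only [Finset.coe_image, Finset.coe_univ, Set.image_univ, Set.mem_range]
        by_contra hcon
        apply hi
        ext j
        rw [Matrix.row_apply, hMapp, if_neg, Pi.zero_apply]
        rintro ⟨h7, h8⟩
        exact hcon ⟨⟨j.val, h7⟩, Fin.ext h8.symm⟩
    · let f : Fin ℓ → Fin n := fun k => ⟨k.val, by omega⟩
      let g : Fin ℓ → Fin n := fun k => ⟨k.val + (n - ℓ), by omega⟩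
      have hsub : M.submatrix g f = 1 := by
        ext k k'
        rw [Matrix.submatrix_apply, hMapp, Matrix.one_apply]
        by_cases hk : k = k'
        · subst hk
          simp [f, g]
        · rw [if_neg hk, if_neg]
          rintro ⟨_, h8⟩
          apply hk
          apply Fin.ext
          simp only [f, g] at h8
          omega
      have := Matrix.rank_submatrix_le M g f
      rw [hsub, Matrix.rank_one] at this
      simpa using this

end Cfsg.Agent.S2163
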