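import Cfsg.Statements.S2164
import Cfsg.Agent.Lib.KnownSimple.HermNormal
import Cfsg.Agent.S2162

set_option autoImplicit false
open Cfsg

namespace Cfsg.Agent.S2164

open Matrix Cfsg.Agent.Lib.KnownSimple

variable {F : Type*} [Field F] {n q : ℕ}

private lemma herm_isHerm (hF : HermField q F) : IsHerm q (hermForm n F q) where
  add_left u u' v := by
    simp [hermForm, add_mul, Finset.sum_add_distrib]
  smul_left c u v := by
    simp [hermForm, Finset.mul_sum, mul_assoc]
  swap u v := by
    let σ : F →+ F :=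
      { toFun := fun x => x ^ q
        map_zero' := zero_pow hF.ne
        map_add' := hF.add }
    have : (hermForm n F q u v) ^ q = σ (hermForm n F q u v) := rfl
    rw [this]
    simp only [hermForm, map_sum]
    apply Finset.sum_congr rfl
    intro i _
    change v i * u i ^ q = (u i * v i ^ q) ^ q
    rw [mul_pow, hF.sigma, mul_comm]

private lemma herm_nondeg (hF : HermField q F) : HermNondeg (hermForm n F q) := by
  classical
  intro u hu
  funext i
  have := hu (Pi.single i 1)
  rw [hermForm, Finset.sum_eq_single i] at this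
  · simpa using this
  · intro j _ hj
    rw [Pi.single_eq_of_ne hj, zero_pow hF.ne, mul_zero]
  · simp

/-- An isometry has determinant of norm one. -/
private lemma isometry_det (hF : HermField q F) (G : Matrix (Fin n) (Fin n) F)
    (hG : ∀ u v, hermForm n F q (G *ᵥ u) (G *ᵥ v) = hermForm n F q u v) :
    G.det * G.det ^ q = 1 := by
  classical
  let σ : F →+* F :=
    { toFun := fun x => x ^ q
      map_one' := one_pow _
      map_mul' := fun a b => mul_pow a b q
      map_zero' := zero_pow hF.ne
      map_add' := hF.add }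
  have h1 : Gᵀ * (σ.mapMatrix G) = 1 := by
    ext i j
    have e := hG (Pi.single i 1) (Pi.single j 1)
    have e1 : hermForm n F q (Pi.single i 1) (Pi.single j 1) = (1 : Matrix (Fin n) (Fin n) F) i j := by
      rw [hermForm, Finset.sum_eq_single i]
      · by_cases hij : i = j
        · subst hij
          simp
        · simp [Pi.single_eq_of_ne hij, hF.ne, hij]
      · intro k _ hk
        rw [Pi.single_eq_of_ne hk, zero_mul]
      · simp
    rw [← e1, ← e, hermForm, Matrix.mul_apply]
    apply Finset.sum_congr rfl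
    intro k _
    simp [σ]
  have h2 := congrArg Matrix.det h1
  rw [Matrix.det_mul, Matrix.det_transpose, ← RingHom.map_det, Matrix.det_one] at h2
  exact h2

variable [CharP F 2]

/-- The correction element: scalar `μ` on a hyperbolic pair, the identity on its complement. -/
private lemma exists_correction (hF : HermField q F) (N : (Fin n → F) →ₗ[F] (Fin n → F))
    (hN1 : ∀ v, N (N v) = 0) (hN2 : ∀ u v, hermForm n F q (N u) v = hermForm n F q u (N v))
    (hN0 : N ≠ 0) (μ : F) (hμ : μ ^ q * μ = 1) :
    ∃ T : Matrix (Fin n) (Fin n) F, T.det = μ * μ ∧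
      (∀ u v, hermForm n F q (T *ᵥ u) (T *ᵥ v) = hermForm n F q u v) ∧
      (∀ v, N (T *ᵥ v) = T *ᵥ (N v)) := by
  have hh := herm_isHerm (n := n) hF
  obtain ⟨c, hcc, hcr⟩ := exists_hyper hh hF (herm_nondeg hF) N hN1 hN2 hN0
  set r := N c with hr
  have hrr : hermForm n F q r r = 0 := by
    rw [hr, hN2, hN1, hh.zero_right hF]
  have hrc : hermForm n F q r c = 1 := by
    rw [hr, hN2]
    exact hcr
  set s := μ + 1 with hs
  let A₁ : Matrix (Fin n) (Fin 2) F := Matrix.of fun i k => s * (![c, r] k) i
  let B₁ : Matrix (Fin 2) (Fin n) F := Matrix.of fun k j => ((![r, c] k) j) ^ q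
  have hBv : ∀ v, B₁ *ᵥ v = ![hermForm n F q v r, hermForm n F q v c] := by
    intro v
    funext k
    fin_cases k
    · change ∑ j, (r j) ^ q * v j = ∑ j, v j * (r j) ^ q
      exact Finset.sum_congr rfl fun j _ => mul_comm _ _
    · change ∑ j, (c j) ^ q * v j = ∑ j, v j * (c j) ^ q
      exact Finset.sum_congr rfl fun j _ => mul_comm _ _
  have hTv : ∀ v, (1 + A₁ * B₁) *ᵥ v = v + (s * hermForm n F q v r) • c + (s * hermForm n F q v c) • r := by
    intro v
    rw [Matrix.add_mulVec, Matrix.one_mulVec, ← Matrix.mulVec_mulVec, hBv, add_assoc]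
    congr 1
    funext i
    simp [Matrix.mulVec, dotProduct, Fin.sum_univ_two, A₁]
    ring
  refine ⟨1 + A₁ * B₁, ?_, ?_, ?_⟩
  · rw [Matrix.det_one_add_mul_comm]
    have e : B₁ * A₁ = Matrix.diagonal ![s, s] := by
      ext k l
      have e0 : ∀ x y : Fin n → F, ∑ i, (x i) ^ q * (s * y i) = s * hermForm n F q y x := by
        intro x y
        rw [hermForm, Finset.mul_sum]
        exact Finset.sum_congr rfl fun i _ => by ring
      fin_cases k <;> fin_cases l
      · change ∑ i, (r i) ^ q * (s * c i) = s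
        rw [e0, hcr, mul_one]
      · change ∑ i, (r i) ^ q * (s * r i) = 0
        rw [e0, hrr, mul_zero]
      · change ∑ i, (c i) ^ q * (s * c i) = 0
        rw [e0, hcc, mul_zero]
      · change ∑ i, (c i) ^ q * (s * r i) = s
        rw [e0, hrc, mul_one]
    rw [e]
    have e2 : (1 : Matrix (Fin 2) (Fin 2) F) + Matrix.diagonal ![s, s] = Matrix.diagonal ![μ, μ] := by
      rw [← Matrix.diagonal_one, Matrix.diagonal_add]
      congr 1
      funext i
      have h2 : (1 : F) + 1 = 0 := CharTwo.add_self_eq_zero _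
      fin_cases i
      · change 1 + s = μ
        rw [hs]
        linear_combination h2
      · change 1 + s = μ
        rw [hs]
        linear_combination h2
    rw [e2, Matrix.det_diagonal, Fin.prod_univ_two]
    rfl
  · intro u v
    rw [hTv, hTv]
    have hsq : s ^ q = μ ^ q + 1 := by
      rw [hs, hF.add, one_pow]
    have h20 : (2 : F) = 0 := CharTwo.two_eq_zero
    have hk : s ^ q + s + s * s ^ q = 0 := by
      rw [hsq, hs]
      linear_combination hμ + (μ ^ q + μ + 2) * h20
    have e1 : hermForm n F q c v = (hermForm n F q v c) ^ q := hh.swap v c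
    have e2 : hermForm n F q r v = (hermForm n F q v r) ^ q := hh.swap v r
    simp only [hh.add_left, hh.add_right hF, hh.smul_left, hh.smul_right, mul_pow, hcc, hrr, hcr, hrc, e1, e2]
    linear_combination ((hermForm n F q v r) ^ q * hermForm n F q u c + (hermForm n F q v c) ^ q * hermForm n F q u r) * hk
  · intro v
    have hNr : N r = 0 := hN1 c
    rw [hTv, hTv, map_add, map_add, map_smul, map_smul, ← hr, hNr, hN2 v r, hN2 v c, hNr, hh.zero_right hF, ← hr]
    simp

/-- Let F be a finite field of characteristic two with `q²` elements; involutions of `SU` with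
the same rank are conjugate in `SU`. -/
private lemma conj_of_rank_eq [Fintype F] (hFc : Fintype.card F = q ^ 2) (a b : ↥(Cfsg.SU n F q))
    (ha : orderOf a = 2) (hb : orderOf b = 2)
    (hrk : (((a : Matrix.SpecialLinearGroup (Fin n) F) : Matrix (Fin n) (Fin n) F) - 1).rank
      = (((b : Matrix.SpecialLinearGroup (Fin n) F) : Matrix (Fin n) (Fin n) F) - 1).rank) :
    IsConj a b := by
  classical
  have hF : HermField q F := hermField_of_card hFc
  have hh := herm_isHerm (n := n) hF
  have hnd := herm_nondeg (n := n) hF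
  have h2 : (1 : F) + 1 = 0 := CharTwo.add_self_eq_zero _
  -- common facts about an involution of `SU`
  have hinv : ∀ c : ↥(Cfsg.SU n F q), orderOf c = 2 →
      let N := (((c : Matrix.SpecialLinearGroup (Fin n) F) : Matrix (Fin n) (Fin n) F) - 1).mulVecLin
      (∀ v, N (N v) = 0) ∧ (∀ u v, hermForm n F q (N u) v = hermForm n F q u (N v)) ∧ N ≠ 0 := by
    intro c hc N
    have h1 : c ^ 2 = 1 := by rw [← hc]; exact pow_orderOf_eq_one c
    have h3 : ((c : Matrix.SpecialLinearGroup (Fin n) F) : Matrix (Fin n) (Fin n) F) * ((c : Matrix.SpecialLinearGroup (Fin n) F) : Matrix (Fin n) (Fin n) F) = 1 := by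
      rw [pow_two] at h1
      have := congrArg (fun x : ↥(Cfsg.SU n F q) => ((x : Matrix.SpecialLinearGroup (Fin n) F) : Matrix (Fin n) (Fin n) F)) h1
      exact this
    set C := ((c : Matrix.SpecialLinearGroup (Fin n) F) : Matrix (Fin n) (Fin n) F) with hC
    have hCN : ∀ v, C *ᵥ v = v + N v := by
      intro v
      change C *ᵥ v = v + (C - 1) *ᵥ v
      rw [Matrix.sub_mulVec, Matrix.one_mulVec]
      abel
    have hNN : ∀ v, N (N v) = 0 := by
      intro v
      change (C - 1) *ᵥ ((C - 1) *ᵥ v) = 0
      rw [Matrix.mulVec_mulVec]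
      have h20 : (2 : F) = 0 := CharTwo.two_eq_zero
      have e3 : C + C = 0 := by
        rw [← two_smul F, h20, zero_smul]
      have e4 : (1 : Matrix (Fin n) (Fin n) F) + 1 = 0 := by
        rw [← two_smul F, h20, zero_smul]
      have : (C - 1) * (C - 1) = 0 := by
        calc (C - 1) * (C - 1) = C * C + 1 - (C + C) := by noncomm_ring
          _ = 0 := by rw [h3, e3, e4, sub_zero]
      rw [this, Matrix.zero_mulVec]
    have hiso : ∀ u v, hermForm n F q (C *ᵥ u) (C *ᵥ v) = hermForm n F q u v := fun u v => c.2 u v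
    have hexp : ∀ u v, hermForm n F q u (N v) + hermForm n F q (N u) v + hermForm n F q (N u) (N v) = 0 := by
      intro u v
      have e := hiso u v
      rw [hCN, hCN, hh.add_left, hh.add_right hF, hh.add_right hF] at e
      linear_combination e
    have hiso2 : ∀ u v, hermForm n F q (N u) (N v) = 0 := by
      intro u v
      have e := hexp (N u) v
      simp only [hNN, hh.zero_left, add_zero] at e
      exact e
    refine ⟨hNN, ?_, ?_⟩
    · intro u v
      have e := hexp u v
      rw [hiso2, add_zero] at e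
      have h5 : hermForm n F q u (N v) + hermForm n F q u (N v) = 0 := CharTwo.add_self_eq_zero _
      linear_combination e - h5
    · intro hN
      have h6 : C - 1 = 0 := by
        apply Matrix.toLin'.injective
        rw [Matrix.toLin'_apply', map_zero]
        exact hN
      have h7 : c = 1 := by
        apply Subtype.ext
        apply Subtype.ext
        exact sub_eq_zero.mp h6
      rw [h7, orderOf_one] at hc
      omega
  obtain ⟨ha1, ha2, ha3⟩ := hinv a ha
  obtain ⟨hb1, hb2, hb3⟩ := hinv b hb
  set A := ((a : Matrix.SpecialLinearGroup (Fin n) F) : Matrix (Fin n) (Fin n) F) with hA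
  set B := ((b : Matrix.SpecialLinearGroup (Fin n) F) : Matrix (Fin n) (Fin n) F) with hB
  obtain ⟨g, hg1, hg2⟩ := exists_isometry_sqzero hF n hh hh hnd hnd (A - 1).mulVecLin (B - 1).mulVecLin ha1 ha2 hb1 hb2
    (by simp) (by simp) hrk
  let G := LinearMap.toMatrix' g
  have hGv : ∀ v, G *ᵥ v = g v := fun v => LinearMap.toMatrix'_mulVec g v
  have hGiso : ∀ u v, hermForm n F q (G *ᵥ u) (G *ᵥ v) = hermForm n F q u v := by
    intro u v
    rw [hGv, hGv, hg1]
  have hdet := isometry_det hF G hGiso
  set δ := G.det with hδ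
  have hδ0 : δ ≠ 0 := by
    intro h0
    rw [h0, zero_mul] at hdet
    exact zero_ne_one hdet
  -- a square root
  obtain ⟨k, hk⟩ : ∃ k, q = 2 * k := by
    have h3 : Even (q ^ 2) := by
      rw [← hFc]
      exact Nat.even_iff.mpr (FiniteField.even_card_of_char_two (ringChar.eq_iff.mpr inferInstance))
    rw [Nat.even_pow] at h3
    obtain ⟨k, hk⟩ := h3.1
    exact ⟨k, by omega⟩
  have hδq : δ ^ q = δ⁻¹ := by
    field_simp
    linear_combination hdet
  obtain ⟨ε, hεdef⟩ : ∃ ε, ε = δ⁻¹ := ⟨_, rfl⟩
  have hεq : ε ^ q = δ := by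
    rw [hεdef, inv_pow, hδq, inv_inv]
  have hε : ε ^ q * ε = 1 := by
    rw [hεq, hεdef, mul_inv_cancel₀ hδ0]
  obtain ⟨μ, hμdef⟩ : ∃ μ, μ = ε ^ (k + 1) := ⟨_, rfl⟩
  have hμ : μ ^ q * μ = 1 := by
    rw [hμdef, ← pow_mul, mul_comm (k + 1) q, pow_mul, ← mul_pow, hε, one_pow]
  have hμμ : μ * μ = ε := by
    rw [hμdef, ← pow_add]
    have : k + 1 + (k + 1) = q + 1 + 1 := by omega
    rw [this, pow_succ, pow_succ, hε, one_mul]
  obtain ⟨T, hTdet, hTiso, hTcomm⟩ := exists_correction hF (B - 1).mulVecLin hb1 hb2 hb3 μ hμ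
  have hXdet : (T * G).det = 1 := by
    rw [Matrix.det_mul, hTdet, hμμ, hεdef, ← hδ, inv_mul_cancel₀ hδ0]
  let x : Matrix.SpecialLinearGroup (Fin n) F := ⟨T * G, hXdet⟩
  have hx : x ∈ Cfsg.SU n F q := by
    intro u v
    change hermForm n F q ((T * G) *ᵥ u) ((T * G) *ᵥ v) = _
    rw [← Matrix.mulVec_mulVec, ← Matrix.mulVec_mulVec, hTiso, hGiso]
  refine isConj_iff.mpr ⟨⟨x, hx⟩, ?_⟩
  rw [mul_inv_eq_iff_eq_mul]
  apply Subtype.ext
  apply Subtype.ext
  change (T * G) * A = B * (T * G)
  have hmain : (B - 1) * (T * G) = (T * G) * (A - 1) := by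
    apply Matrix.mulVec_injective
    funext v
    rw [← Matrix.mulVec_mulVec, ← Matrix.mulVec_mulVec, ← Matrix.mulVec_mulVec, ← Matrix.mulVec_mulVec, hGv, hGv]
    have e1 := hTcomm (g v)
    have e2 := hg2 v
    change (B - 1) *ᵥ (T *ᵥ (g v)) = T *ᵥ ((B - 1) *ᵥ (g v)) at e1
    change (B - 1) *ᵥ (g v) = g ((A - 1) *ᵥ v) at e2
    rw [e1, e2]
  rw [Matrix.sub_mul, Matrix.mul_sub, Matrix.one_mul, Matrix.mul_one] at hmain
  exact (sub_left_injective hmain).symm

/-- Conjugacy of involutions in the special unitary group SU_n(q), q even, n ≥ 3, realised over the field F with q² elements as the matrices of determinant 1 preserving the form Σ u_i v_i^q: for two elements of order 2 of SU_n(q) the following are equivalent — they are conjugate in SU_n(q); they are conjugate in SL_n(F); the matrices a − 1 and b − 1 have the same rank. -/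
theorem result {F : Type*} [Field F] [Fintype F] [CharP F 2] {n q : ℕ} (hF : Fintype.card F = q ^ 2) (hn : 3 ≤ n) (a b : ↥(Cfsg.SU n F q)) (ha : orderOf a = 2) (hb : orderOf b = 2) :
    (IsConj a b ↔ IsConj (a : Matrix.SpecialLinearGroup (Fin n) F) (b : Matrix.SpecialLinearGroup (Fin n) F)) ∧
    (IsConj a b ↔ (((a : Matrix.SpecialLinearGroup (Fin n) F) : Matrix (Fin n) (Fin n) F) - 1).rank = (((b : Matrix.SpecialLinearGroup (Fin n) F) : Matrix (Fin n) (Fin n) F) - 1).rank) := by
  have h1 : IsConj a b → IsConj (a : Matrix.SpecialLinearGroup (Fin n) F) (b : Matrix.SpecialLinearGroup (Fin n) F) :=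
    fun h => MonoidHom.map_isConj (Cfsg.SU n F q).subtype h
  have ha' : orderOf (a : Matrix.SpecialLinearGroup (Fin n) F) = 2 := by
    rw [Subgroup.orderOf_coe]; exact ha
  have hb' : orderOf (b : Matrix.SpecialLinearGroup (Fin n) F) = 2 := by
    rw [Subgroup.orderOf_coe]; exact hb
  have h2 := Cfsg.Agent.S2162.result hn (a : Matrix.SpecialLinearGroup (Fin n) F) (b : Matrix.SpecialLinearGroup (Fin n) F) ha' hb'
  have h3 := conj_of_rank_eq hF a b ha hb
  exact ⟨⟨h1, fun h => h3 (h2.mp h)⟩, ⟨fun h => h2.mp (h1 h), h3⟩⟩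

end Cfsg.Agent.S2164
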