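import Cfsg.Statements.S2165

set_option autoImplicit false
open Cfsg

namespace Cfsg.Agent.S2165

/-- In SU_n(q), q even, n ≥ 3 (matrices of determinant 1 over the field with q² elements preserving Σ u_i v_i^q): for every ℓ with 1 ≤ ℓ and 2ℓ ≤ n, the permutation matrix of the involution of {0, …, n−1} exchanging i and n − ℓ + i for each i < ℓ lies in SU_n(q), has order 2, and differs from the identity by a matrix of rank ℓ. So every rank between 1 and n/2 occurs for involutions of SU_n(q). -/
theorem result {F : Type*} [Field F] [Fintype F] [CharP F 2] {n q : ℕ} (hF : Fintype.card F = q ^ 2) (hn : 3 ≤ n) (ℓ : ℕ) (h1 : 1 ≤ ℓ) (h2 : 2 * ℓ ≤ n) :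
    ∃ a : ↥(Cfsg.SU n F q), (((a : Matrix.SpecialLinearGroup (Fin n) F) : Matrix (Fin n) (Fin n) F) = Matrix.of (fun i j : Fin n => if (j.val < ℓ ∧ i.val = j.val + (n - ℓ)) ∨ (i.val < ℓ ∧ j.val = i.val + (n - ℓ)) ∨ (i = j ∧ ℓ ≤ i.val ∧ i.val < n - ℓ) then (1 : F) else 0)) ∧ orderOf a = 2 ∧ ((((a : Matrix.SpecialLinearGroup (Fin n) F) : Matrix (Fin n) (Fin n) F)) - 1).rank = ℓ := by
  classical
  -- the involution of the index set
  let σf : Fin n → Fin n := fun i =>
    if h : i.val < ℓ then ⟨i.val + (n - ℓ), by omega⟩
    else if h' : n - ℓ ≤ i.val then ⟨i.val - (n - ℓ), by omega⟩ else i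
  have hσval : ∀ i : Fin n, (σf i).val = if i.val < ℓ then i.val + (n - ℓ) else if n - ℓ ≤ i.val then i.val - (n - ℓ) else i.val := by
    intro i
    simp only [σf]
    split_ifs <;> rfl
  have hσinv : Function.Involutive σf := by
    intro i
    apply Fin.ext
    rw [hσval, hσval]
    split_ifs <;> omega
  have hkey : ∀ i j : Fin n, ((j.val < ℓ ∧ i.val = j.val + (n - ℓ)) ∨ (i.val < ℓ ∧ j.val = i.val + (n - ℓ)) ∨ (i = j ∧ ℓ ≤ i.val ∧ i.val < n - ℓ)) ↔ i = σf j := by
    intro i j
    rw [Fin.ext_iff (a := i) (b := j), Fin.ext_iff (a := i) (b := σf j), hσval]
    split_ifs <;> omega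
  set P : Matrix (Fin n) (Fin n) F := Matrix.of (fun i j : Fin n => if (j.val < ℓ ∧ i.val = j.val + (n - ℓ)) ∨ (i.val < ℓ ∧ j.val = i.val + (n - ℓ)) ∨ (i = j ∧ ℓ ≤ i.val ∧ i.val < n - ℓ) then (1 : F) else 0) with hP
  have hPapp : ∀ i j, P i j = if i = σf j then (1 : F) else 0 := by
    intro i j
    simp only [hP, Matrix.of_apply, hkey]
  have hσ' : ∀ i j, i = σf j ↔ j = σf i := by
    intro i j
    constructor
    · rintro rfl; exact (hσinv j).symm
    · rintro rfl; exact (hσinv i).symm
  have hmulVec : ∀ (u : Fin n → F) (i : Fin n), (P.mulVec u) i = u (σf i) := by
    intro u i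
    simp only [Matrix.mulVec, dotProduct]
    rw [Finset.sum_eq_single (σf i)]
    · rw [hPapp, if_pos (hσinv i).symm, one_mul]
    · intro b _ hb
      rw [hPapp, if_neg, zero_mul]
      intro h
      exact hb ((hσ' i b).mp h)
    · simp
  have hsq : P * P = 1 := by
    ext i k
    rw [Matrix.mul_apply, Matrix.one_apply]
    rw [Finset.sum_eq_single (σf i)]
    · rw [hPapp, hPapp, if_pos (hσinv i).symm, one_mul]
      by_cases hik : i = k
      · subst hik
        rw [if_pos rfl, if_pos rfl]
      · rw [if_neg hik, if_neg]
        intro h
        apply hik
        have := congrArg σf h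
        rwa [hσinv, hσinv] at this
    · intro b _ hb
      rw [hPapp, if_neg, zero_mul]
      intro h
      exact hb ((hσ' i b).mp h)
    · simp
  have hdet : P.det = 1 := by
    have h4 : P.det ^ 2 = 1 := by
      rw [pow_two, ← Matrix.det_mul, hsq, Matrix.det_one]
    have h20 : (2 : F) = 0 := CharTwo.two_eq_zero
    have h5 : (P.det - 1) ^ 2 = 0 := by
      rw [sub_sq, h4, h20]; ring_nf; rw [show (2 : F) = 0 from h20]
    have h6 := pow_eq_zero_iff (two_ne_zero) |>.mp h5
    exact sub_eq_zero.mp h6
  let a0 : Matrix.SpecialLinearGroup (Fin n) F := ⟨P, hdet⟩
  have hmem : a0 ∈ Cfsg.SU n F q := by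
    intro u v
    change Cfsg.hermForm n F q (P.mulVec u) (P.mulVec v) = Cfsg.hermForm n F q u v
    simp only [Cfsg.hermForm, hmulVec]
    exact Equiv.sum_comp (Function.Involutive.toPerm σf hσinv) (fun i => u i * v i ^ q)
  let a : ↥(Cfsg.SU n F q) := ⟨a0, hmem⟩
  refine ⟨a, rfl, ?_, ?_⟩
  · have : Fact (Nat.Prime 2) := ⟨Nat.prime_two⟩
    apply orderOf_eq_prime
    · have h3 : a0 * a0 = 1 := Subtype.ext hsq
      have h4 : a * a = 1 := Subtype.ext h3
      rw [pow_two]
      exact h4
    · intro h
      have h5 : a0 = 1 := congrArg Subtype.val h
      have h6 : P = 1 := congrArg Subtype.val h5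
      have h7 := congrFun (congrFun h6 ⟨0, by omega⟩) ⟨0, by omega⟩
      rw [hP, Matrix.of_apply, Matrix.one_apply, if_pos rfl, if_neg] at h7
      · exact zero_ne_one h7
      · rintro (⟨_, h8⟩ | ⟨_, h8⟩ | ⟨_, h8, _⟩) <;> simp at h8 <;> omega
  · change (P - 1).rank = ℓ
    set N := P - 1 with hN
    have hNapp : ∀ i j, N i j = (if i = σf j then (1 : F) else 0) + (if i = j then (1 : F) else 0) := by
      intro i j
      rw [hN, Matrix.sub_apply, hPapp, Matrix.one_apply, CharTwo.sub_eq_add]
    let f : Fin ℓ → Fin n := fun k => ⟨k.val, by omega⟩
    let g : Fin ℓ → Fin n := fun k => ⟨k.val + (n - ℓ), by omega⟩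
    have hσf : ∀ k, σf (f k) = g k := by
      intro k
      apply Fin.ext
      simp [σf, f, g]
    have hσg : ∀ k, σf (g k) = f k := by
      intro k
      rw [← hσf, hσinv]
    apply le_antisymm
    · -- factorization through ℓ columns
      let B : Matrix (Fin ℓ) (Fin n) F := Matrix.of fun k j => if j = f k ∨ j = g k then 1 else 0
      have hfac : N = (N.submatrix id f) * B := by
        ext i j
        rw [Matrix.mul_apply]
        simp only [Matrix.submatrix_apply, id_eq]
        by_cases hj : j.val < ℓ
        · let k0 : Fin ℓ := ⟨j.val, hj⟩
          rw [Finset.sum_eq_single k0]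
          · have h0 : f k0 = j := Fin.ext rfl
            have hB : B k0 j = 1 := by
              simp only [B, Matrix.of_apply]
              rw [if_pos (Or.inl h0.symm)]
            rw [hB, mul_one, h0]
          · intro k _ hk
            have hB : B k j = 0 := by
              simp only [B, Matrix.of_apply]
              rw [if_neg]
              rintro (h | h)
              · apply hk
                apply Fin.ext
                have := congrArg Fin.val h
                simp only [f] at this
                simp only [k0]
                omega
              · have := congrArg Fin.val h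
                simp only [g] at this
                have := k.2
                omega
            rw [hB, mul_zero]
          · simp
        · by_cases hj2 : n - ℓ ≤ j.val
          · let k0 : Fin ℓ := ⟨j.val - (n - ℓ), by omega⟩
            have h0 : g k0 = j := by
              apply Fin.ext
              simp only [g, k0]
              omega
            rw [Finset.sum_eq_single k0]
            · have hB : B k0 j = 1 := by
                simp only [B, Matrix.of_apply]
                rw [if_pos (Or.inr h0.symm)]
              rw [hB, mul_one, ← h0, hNapp, hNapp, hσf, hσg]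
              exact add_comm _ _
            · intro k _ hk
              have hB : B k j = 0 := by
                simp only [B, Matrix.of_apply]
                rw [if_neg]
                rintro (h | h)
                · have := congrArg Fin.val h
                  simp only [f] at this
                  have := k.2
                  omega
                · apply hk
                  apply Fin.ext
                  have := congrArg Fin.val h
                  simp only [g] at this
                  simp only [k0]
                  omega
              rw [hB, mul_zero]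
            · simp
          · have hB : ∀ k, B k j = 0 := by
              intro k
              simp only [B, Matrix.of_apply]
              rw [if_neg]
              rintro (h | h)
              · have := congrArg Fin.val h
                simp only [f] at this
                have := k.2
                omega
              · have := congrArg Fin.val h
                simp only [g] at this
                omega
            have hσj : σf j = j := by
              simp only [σf]
              rw [dif_neg hj, dif_neg hj2]
            rw [Finset.sum_eq_zero (fun k _ => by rw [hB, mul_zero]), hNapp, hσj]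
            exact CharTwo.add_self_eq_zero _
      calc N.rank = ((N.submatrix id f) * B).rank := by rw [← hfac]
        _ ≤ (N.submatrix id f).rank := Matrix.rank_mul_le_left _ _
        _ ≤ ℓ := Matrix.rank_le_width _
    · have hsub : N.submatrix g f = 1 := by
        ext k k'
        rw [Matrix.submatrix_apply, hNapp, hσf, Matrix.one_apply]
        have hne : g k ≠ f k' := by
          intro h
          have := congrArg Fin.val h
          simp only [f, g] at this
          have := k'.2
          omega
        rw [if_neg hne, add_zero]
        by_cases hk : k = k'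
        · subst hk; simp
        · rw [if_neg hk, if_neg]
          intro h
          apply hk
          apply Fin.ext
          have := congrArg Fin.val h
          simp only [g] at this
          omega
      have := Matrix.rank_submatrix_le N g f
      rw [hsub, Matrix.rank_one] at this
      simpa using this

end Cfsg.Agent.S2165
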