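import Cfsg.Statements.S2167
import Cfsg.Agent.Lib.KnownSimple.AltForm
import Cfsg.Agent.Lib.KnownSimple.SympForm

set_option autoImplicit false
open Cfsg

namespace Cfsg.Agent.S2167

open Matrix Cfsg.Agent.Lib.KnownSimple

/-- For an involution t of the symplectic group Sp_{2m}(F), m ≥ 2, F a finite field of characteristic two (matrices A with A J Aᵀ = J acting on column vectors, alternating form f(u, v) = u ⬝ (J v)): the set V(t) of vectors v with f(v, t v) = 0 has either q^{2m} or q^{2m−1} elements, q the order of F (it is a subspace of codimension at most 1), and if it is the whole space then t − 1 has even rank. -/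
theorem result {F : Type*} [Field F] [Fintype F] [CharP F 2] {m : ℕ} (hm : 2 ≤ m) (a : ↥(Matrix.symplecticGroup (Fin m) F)) (ha : orderOf a = 2) :
    (Nat.card {v : Fin m ⊕ Fin m → F // Cfsg.sympForm m F v (Matrix.mulVec ((a : ↥(Matrix.symplecticGroup (Fin m) F)) : Matrix (Fin m ⊕ Fin m) (Fin m ⊕ Fin m) F) v) = 0} = Fintype.card F ^ (2 * m) ∨ Nat.card {v : Fin m ⊕ Fin m → F // Cfsg.sympForm m F v (Matrix.mulVec ((a : ↥(Matrix.symplecticGroup (Fin m) F)) : Matrix (Fin m ⊕ Fin m) (Fin m ⊕ Fin m) F) v) = 0} * Fintype.card F = Fintype.card F ^ (2 * m)) ∧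
    ((∀ v : Fin m ⊕ Fin m → F, Cfsg.sympForm m F v (Matrix.mulVec ((a : ↥(Matrix.symplecticGroup (Fin m) F)) : Matrix (Fin m ⊕ Fin m) (Fin m ⊕ Fin m) F) v) = 0) → Even (((a : ↥(Matrix.symplecticGroup (Fin m) F)) : Matrix (Fin m ⊕ Fin m) (Fin m ⊕ Fin m) F) - 1).rank) := by
  classical
  set A : Matrix (Fin m ⊕ Fin m) (Fin m ⊕ Fin m) F := ((a : ↥(Matrix.symplecticGroup (Fin m) F)) : Matrix (Fin m ⊕ Fin m) (Fin m ⊕ Fin m) F) with hA
  have hAmem : A ∈ Matrix.symplecticGroup (Fin m) F := a.2
  have hA2 : A * A = 1 := by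
    have h1 : a ^ 2 = 1 := by rw [← ha]; exact pow_orderOf_eq_one a
    rw [pow_two] at h1
    exact congrArg Subtype.val h1
  have hcardV : Nat.card (Fin m ⊕ Fin m → F) = Fintype.card F ^ (2 * m) := by
    rw [Nat.card_eq_fintype_card, Fintype.card_fun, Fintype.card_sum, Fintype.card_fin, two_mul]
  -- the additive map
  let φf : (Fin m ⊕ Fin m → F) → F := fun v => Cfsg.sympForm m F v (A *ᵥ v)
  have hcross : ∀ u v, Cfsg.sympForm m F v (A *ᵥ u) = - Cfsg.sympForm m F u (A *ᵥ v) := by
    intro u v
    have h1 := sympForm_mulVec_mulVec hAmem v (A *ᵥ u)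
    rw [mulVec_mulVec, hA2, one_mulVec] at h1
    rw [← h1, sympForm_swap]
  have hadd : ∀ u v, φf (u + v) = φf u + φf v := by
    intro u v
    simp only [φf, mulVec_add, sympForm_add_left, sympForm_add_right, hcross u v]
    ring
  let φ : (Fin m ⊕ Fin m → F) →+ F := AddMonoidHom.mk' φf hadd
  have hφsmul : ∀ (c : F) v, φ (c • v) = c * c * φ v := by
    intro c v
    change Cfsg.sympForm m F (c • v) (A *ᵥ (c • v)) = c * c * Cfsg.sympForm m F v (A *ᵥ v)
    rw [mulVec_smul, sympForm_smul_left, sympForm_smul_right, mul_assoc]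
  have hker : Nat.card {v : Fin m ⊕ Fin m → F // Cfsg.sympForm m F v (Matrix.mulVec A v) = 0} = Nat.card φ.ker :=
    Nat.card_congr (Equiv.subtypeEquivRight fun v => (AddMonoidHom.mem_ker (f := φ)).symm)
  refine ⟨?_, ?_⟩
  · by_cases h0 : ∀ v, φ v = 0
    · left
      rw [← hcardV]
      apply Nat.card_congr
      exact Equiv.subtypeUnivEquiv h0
    · right
      push Not at h0
      obtain ⟨v0, hv0⟩ := h0
      have hsurj : Function.Surjective φ := by
        intro y
        have hchar : ringChar F = 2 := ringChar.eq F 2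
        obtain ⟨c, hc⟩ := FiniteField.isSquare_of_char_two hchar (y * (φ v0)⁻¹)
        refine ⟨c • v0, ?_⟩
        rw [hφsmul, ← hc, mul_assoc, inv_mul_cancel₀ hv0, mul_one]
      rw [hker, ← hcardV]
      have h1 := AddSubgroup.card_eq_card_quotient_mul_card_addSubgroup φ.ker
      rw [Nat.card_congr (QuotientAddGroup.quotientKerEquivOfSurjective φ hsurj).toEquiv, Nat.card_eq_fintype_card (α := F)] at h1
      rw [h1, mul_comm]
  · intro hall
    set N := A - 1 with hN
    let B : (Fin m ⊕ Fin m → F) →ₗ[F] (Fin m ⊕ Fin m → F) →ₗ[F] F :=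
      LinearMap.mk₂ F (fun x y => Cfsg.sympForm m F y (N *ᵥ x))
        (by intro x x' y; simp [mulVec_add, sympForm_add_right])
        (by intro c x y; simp [mulVec_smul, sympForm_smul_right])
        (by intro x y y'; simp [sympForm_add_left])
        (by intro c x y; simp [sympForm_smul_left])
    have hBapp : ∀ x y, B x y = Cfsg.sympForm m F y (N *ᵥ x) := fun x y => rfl
    have hBalt : ∀ v, B v v = 0 := by
      intro v
      rw [hBapp, hN, sub_mulVec, one_mulVec]
      have h1 : A *ᵥ v - v = A *ᵥ v + (-1 : F) • v := by simp [sub_eq_add_neg]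
      rw [h1, sympForm_add_right, sympForm_smul_right, sympForm_self, hall]
      simp
    have heven := even_finrank_range_of_alt B hBalt
    have hkerB : LinearMap.ker B = LinearMap.ker N.mulVecLin := by
      ext x
      simp only [LinearMap.mem_ker, mulVecLin_apply]
      constructor
      · intro hx
        apply sympForm_right_eq_zero
        intro u
        rw [← hBapp, hx]
        rfl
      · intro hx
        apply LinearMap.ext
        intro y
        rw [hBapp, hx]
        simp [Cfsg.sympForm]
    have h1 := LinearMap.finrank_range_add_finrank_ker B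
    have h2 := LinearMap.finrank_range_add_finrank_ker N.mulVecLin
    rw [hkerB] at h1
    have h3 : N.rank = Module.finrank F (LinearMap.range B) := by
      rw [Matrix.rank]
      omega
    rw [h3]
    exact heven

end Cfsg.Agent.S2167
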