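import Cfsg.Statements.S2166
import Cfsg.Agent.Lib.KnownSimple.SympInvol
import Cfsg.Agent.Lib.KnownSimple.SympForm
import Cfsg.Agent.S2167

set_option autoImplicit false
open Cfsg

namespace Cfsg.Agent.S2166

open Matrix Cfsg.Agent.Lib.KnownSimple

variable {F : Type*} [Field F] [CharP F 2] {m : ℕ}

private lemma symp_isSymB : IsSymB (Cfsg.sympForm m F) where
  add_left := sympForm_add_left
  smul_left := sympForm_smul_left
  comm u v := by
    rw [sympForm_swap, CharTwo.neg_eq]

private lemma symp_nondeg : SymBNondeg (Cfsg.sympForm m F) := by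
  intro u hu
  apply sympForm_right_eq_zero
  intro v
  rw [symp_isSymB.comm]
  exact hu v

/-- Facts on an involution of the symplectic group. -/
private lemma invol_facts (a : ↥(Matrix.symplecticGroup (Fin m) F)) (ha : orderOf a = 2) :
    let N := (((a : Matrix (Fin m ⊕ Fin m) (Fin m ⊕ Fin m) F)) - 1).mulVecLin
    (∀ v, N (N v) = 0) ∧ (∀ u v, Cfsg.sympForm m F (N u) v = Cfsg.sympForm m F u (N v)) := by
  intro N
  have hf := symp_isSymB (m := m) (F := F)
  have h1 : a ^ 2 = 1 := by rw [← ha]; exact pow_orderOf_eq_one a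
  set C := (a : Matrix (Fin m ⊕ Fin m) (Fin m ⊕ Fin m) F) with hC
  have h3 : C * C = 1 := by
    rw [pow_two] at h1
    exact congrArg Subtype.val h1
  have hCN : ∀ v, C *ᵥ v = v + N v := by
    intro v
    change C *ᵥ v = v + (C - 1) *ᵥ v
    rw [Matrix.sub_mulVec, Matrix.one_mulVec]
    abel
  have hNN : ∀ v, N (N v) = 0 := by
    intro v
    change (C - 1) *ᵥ ((C - 1) *ᵥ v) = 0
    rw [Matrix.mulVec_mulVec]
    have h20 : (2 : F) = 0 := CharTwo.two_eq_zero
    have e3 : C + C = 0 := by
      rw [← two_smul F, h20, zero_smul]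
    have e4 : (1 : Matrix (Fin m ⊕ Fin m) (Fin m ⊕ Fin m) F) + 1 = 0 := by
      rw [← two_smul F, h20, zero_smul]
    have : (C - 1) * (C - 1) = 0 := by
      calc (C - 1) * (C - 1) = C * C + 1 - (C + C) := by noncomm_ring
        _ = 0 := by rw [h3, e3, e4, sub_zero]
    rw [this, Matrix.zero_mulVec]
  have hiso : ∀ u v, Cfsg.sympForm m F (C *ᵥ u) (C *ᵥ v) = Cfsg.sympForm m F u v :=
    fun u v => sympForm_mulVec_mulVec a.2 u v
  have hexp : ∀ u v, Cfsg.sympForm m F u (N v) + Cfsg.sympForm m F (N u) v + Cfsg.sympForm m F (N u) (N v) = 0 := by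
    intro u v
    have e := hiso u v
    rw [hCN, hCN, hf.add_left, hf.add_right, hf.add_right] at e
    linear_combination e
  have hiso2 : ∀ u v, Cfsg.sympForm m F (N u) (N v) = 0 := by
    intro u v
    have e := hexp (N u) v
    simp only [hNN, hf.zero_left, add_zero] at e
    exact e
  refine ⟨hNN, ?_⟩
  intro u v
  have e := hexp u v
  rw [hiso2, add_zero] at e
  have h5 : Cfsg.sympForm m F u (N v) + Cfsg.sympForm m F u (N v) = 0 := CharTwo.add_self_eq_zero _
  linear_combination e - h5

/-- Conjugacy of involutions in the symplectic group Sp_{2m}(F), F a finite field of characteristic two, m ≥ 2 (Sp taken as the matrices A with A J Aᵀ = J, acting on column vectors, with the alternating form f(u, v) = u ⬝ (J v)). For an involution t write V(t) for the set of vectors v with f(v, t v) = 0 (a subspace). Two involutions a, b are conjugate in Sp_{2m}(F) exactly when a − 1 and b − 1 have the same rank and, in case that rank is even, V(a) and V(b) have the same number of elements. -/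
theorem result {F : Type*} [Field F] [Fintype F] [CharP F 2] {m : ℕ} (hm : 2 ≤ m) (a b : ↥(Matrix.symplecticGroup (Fin m) F)) (ha : orderOf a = 2) (hb : orderOf b = 2) :
    IsConj a b ↔ ((((a : ↥(Matrix.symplecticGroup (Fin m) F)) : Matrix (Fin m ⊕ Fin m) (Fin m ⊕ Fin m) F) - 1).rank = (((b : ↥(Matrix.symplecticGroup (Fin m) F)) : Matrix (Fin m ⊕ Fin m) (Fin m ⊕ Fin m) F) - 1).rank ∧
      (Even (((a : ↥(Matrix.symplecticGroup (Fin m) F)) : Matrix (Fin m ⊕ Fin m) (Fin m ⊕ Fin m) F) - 1).rank → Nat.card {v : Fin m ⊕ Fin m → F // Cfsg.sympForm m F v (Matrix.mulVec ((a : ↥(Matrix.symplecticGroup (Fin m) F)) : Matrix (Fin m ⊕ Fin m) (Fin m ⊕ Fin m) F) v) = 0} = Nat.card {v : Fin m ⊕ Fin m → F // Cfsg.sympForm m F v (Matrix.mulVec ((b : ↥(Matrix.symplecticGroup (Fin m) F)) : Matrix (Fin m ⊕ Fin m) (Fin m ⊕ Fin m) F) v) = 0})) := by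
  classical
  have hf := symp_isSymB (m := m) (F := F)
  set A := ((a : ↥(Matrix.symplecticGroup (Fin m) F)) : Matrix (Fin m ⊕ Fin m) (Fin m ⊕ Fin m) F) with hA
  set B := ((b : ↥(Matrix.symplecticGroup (Fin m) F)) : Matrix (Fin m ⊕ Fin m) (Fin m ⊕ Fin m) F) with hB
  constructor
  · intro hconj
    obtain ⟨g, hg⟩ := isConj_iff.mp hconj
    set G := ((g : ↥(Matrix.symplecticGroup (Fin m) F)) : Matrix (Fin m ⊕ Fin m) (Fin m ⊕ Fin m) F) with hG
    set G' := ((g⁻¹ : ↥(Matrix.symplecticGroup (Fin m) F)) : Matrix (Fin m ⊕ Fin m) (Fin m ⊕ Fin m) F) with hG'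
    have hGG' : G * G' = 1 := congrArg Subtype.val (mul_inv_cancel g)
    have hG'G : G' * G = 1 := congrArg Subtype.val (inv_mul_cancel g)
    have hdetG : IsUnit G.det := SymplecticGroup.symplectic_det g.2
    have hdetG' : IsUnit G'.det := SymplecticGroup.symplectic_det (g⁻¹).2
    have hgb : G * A * G' = B := congrArg Subtype.val hg
    have hGA : G * A = B * G := by
      rw [← hgb, Matrix.mul_assoc, Matrix.mul_assoc, hG'G, Matrix.mul_one]
    refine ⟨?_, fun _ => ?_⟩
    · have e : B - 1 = G * (A - 1) * G' := by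
        rw [Matrix.mul_sub, Matrix.sub_mul, Matrix.mul_one, hGG', hgb]
      rw [e, Matrix.rank_mul_eq_left_of_isUnit_det _ _ hdetG', Matrix.rank_mul_eq_right_of_isUnit_det _ _ hdetG]
    · let e : (Fin m ⊕ Fin m → F) ≃ (Fin m ⊕ Fin m → F) :=
        { toFun := fun v => G *ᵥ v
          invFun := fun v => G' *ᵥ v
          left_inv := fun v => by
            change G' *ᵥ (G *ᵥ v) = v
            rw [Matrix.mulVec_mulVec, hG'G, Matrix.one_mulVec]
          right_inv := fun v => by
            change G *ᵥ (G' *ᵥ v) = v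
            rw [Matrix.mulVec_mulVec, hGG', Matrix.one_mulVec] }
      apply Nat.card_congr
      refine Equiv.subtypeEquiv e ?_
      intro v
      have e1 : B *ᵥ (e v) = G *ᵥ (A *ᵥ v) := by
        change B *ᵥ (G *ᵥ v) = _
        rw [Matrix.mulVec_mulVec, Matrix.mulVec_mulVec, hGA]
      rw [e1]
      change _ ↔ Cfsg.sympForm m F (G *ᵥ v) (G *ᵥ (A *ᵥ v)) = 0
      rw [sympForm_mulVec_mulVec g.2]
  · rintro ⟨hrk, hcard⟩
    obtain ⟨ha1, ha2⟩ := invol_facts a ha
    obtain ⟨hb1, hb2⟩ := invol_facts b hb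
    -- the alternating type
    have hAN : ∀ (C : Matrix (Fin m ⊕ Fin m) (Fin m ⊕ Fin m) F) (v : Fin m ⊕ Fin m → F),
        Cfsg.sympForm m F v (C *ᵥ v) = Cfsg.sympForm m F v ((C - 1).mulVecLin v) := by
      intro C v
      have : C *ᵥ v = v + (C - 1).mulVecLin v := by
        change C *ᵥ v = v + (C - 1) *ᵥ v
        rw [Matrix.sub_mulVec, Matrix.one_mulVec]
        abel
      rw [this, hf.add_right, sympForm_self, zero_add]
    have hall : ∀ p : (Fin m ⊕ Fin m → F) → Prop, Nat.card {v // p v} = Nat.card (Fin m ⊕ Fin m → F) → ∀ v, p v := by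
      intro p hp v
      have hinj : Function.Injective (Subtype.val : {v // p v} → (Fin m ⊕ Fin m → F)) := Subtype.val_injective
      have hbij := hinj.bijective_of_nat_card_le hp.ge
      obtain ⟨w, rfl⟩ := hbij.2 v
      exact w.2
    have hcardall : ∀ p : (Fin m ⊕ Fin m → F) → Prop, (∀ v, p v) → Nat.card {v // p v} = Nat.card (Fin m ⊕ Fin m → F) := by
      intro p hp
      exact Nat.card_congr (Equiv.subtypeUnivEquiv hp)
    have hty : (∀ v, Cfsg.sympForm m F v ((A - 1).mulVecLin v) = 0) ↔ ∀ v, Cfsg.sympForm m F v ((B - 1).mulVecLin v) = 0 := by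
      constructor
      · intro h v
        have h1 : ∀ v, Cfsg.sympForm m F v (A *ᵥ v) = 0 := fun v => by rw [hAN]; exact h v
        have hev := (Cfsg.Agent.S2167.result hm a ha).2 h1
        have e1 := hcard hev
        have e2 := hcardall _ h1
        rw [← hAN]
        exact hall (fun v => Cfsg.sympForm m F v (B *ᵥ v) = 0) (e1.symm.trans e2) v
      · intro h v
        have h1 : ∀ v, Cfsg.sympForm m F v (B *ᵥ v) = 0 := fun v => by rw [hAN]; exact h v
        have hev := (Cfsg.Agent.S2167.result hm b hb).2 h1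
        have e1 := hcard (hrk ▸ hev)
        have e2 := hcardall _ h1
        rw [← hAN]
        exact hall (fun v => Cfsg.sympForm m F v (A *ᵥ v) = 0) (e1.trans e2) v
    have hsqrt : ∀ t : F, ∃ l, l * l = t := fun t =>
      let ⟨l, hl⟩ := FiniteField.isSquare_of_char_two (ringChar.eq_iff.mpr inferInstance) t
      ⟨l, hl.symm⟩
    obtain ⟨g, hg1, hg2⟩ := exists_isometry_symp hsqrt (m + m) hf hf sympForm_self sympForm_self symp_nondeg symp_nondeg
      (A - 1).mulVecLin (B - 1).mulVecLin ha1 ha2 hb1 hb2 (by simp) (by simp) hrk hty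
    let G : Matrix (Fin m ⊕ Fin m) (Fin m ⊕ Fin m) F := LinearMap.toMatrix' g
    have hGv : ∀ v, G *ᵥ v = g v := fun v => LinearMap.toMatrix'_mulVec g v
    have hG : G ∈ Matrix.symplecticGroup (Fin m) F := by
      rw [SymplecticGroup.mem_iff']
      apply Matrix.mulVec_injective
      funext v
      apply dotProduct_eq _ _
      intro u
      rw [dotProduct_comm, dotProduct_comm _ u]
      have e := hg1 u v
      rw [← hGv, ← hGv] at e
      simp only [Cfsg.sympForm] at e
      rw [← vecMul_transpose, ← dotProduct_mulVec, mulVec_mulVec, mulVec_mulVec] at e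
      exact e
    have hmain : (B - 1) * G = G * (A - 1) := by
      apply Matrix.mulVec_injective
      funext v
      rw [← Matrix.mulVec_mulVec, ← Matrix.mulVec_mulVec, hGv, hGv]
      exact hg2 v
    rw [Matrix.sub_mul, Matrix.mul_sub, Matrix.one_mul, Matrix.mul_one] at hmain
    have hGA : G * A = B * G := (sub_left_injective hmain).symm
    refine isConj_iff.mpr ⟨⟨G, hG⟩, ?_⟩
    rw [mul_inv_eq_iff_eq_mul]
    apply Subtype.ext
    exact hGA

end Cfsg.Agent.S2166
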