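import Cfsg.Statements.S2178
import Cfsg.Agent.Lib.Chev.Sub.HighC
import Cfsg.Agent.Lib.Chev.All2
-- import your own Cfsg.Agent.* helpers here

set_option autoImplicit false
open Cfsg

namespace Cfsg.Agent.S2178

set_option maxRecDepth 100000 in
set_option synthInstance.maxSize 1000 in
set_option synthInstance.maxHeartbeats 200000 in
set_option backward.isDefEq.respectTransparency false in
theorem chk_a : (47 < Cfsg.Lie.chevF4.nroots ∧ Cfsg.Agent.Lib.Chev.Good2.NN Cfsg.Lie.chevF4 ≤ 47 ∧ 3 < Cfsg.Lie.chevF4.rank) ∧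
    (∀ s ∈ ([14, 20, 22] : List ℕ), s < Cfsg.Lie.chevF4.nroots ∧ s ≠ 47 ∧ s ≠ Cfsg.Lie.chevF4.neg 47 ∧ ∀ e ∈ Cfsg.Lie.chevF4.commTerms 47 s, (2 : ℤ) ∣ e.2.1) ∧
    (∀ s, s < Cfsg.Lie.chevF4.nroots → Cfsg.Agent.Lib.Chev.Good2.NN Cfsg.Lie.chevF4 ≤ s → s ≠ 47 → ∀ e ∈ Cfsg.Lie.chevF4.commTerms 47 s, (2 : ℤ) ∣ e.2.1) ∧
    (∀ i, i < Cfsg.Lie.chevF4.rank → Cfsg.Agent.Lib.Chev.TabF4.good2.W i 47 = 47 → i ≠ 3) ∧
    (∀ i, i < Cfsg.Lie.chevF4.rank → i ≠ 3 → Cfsg.Lie.chevF4.neg (Cfsg.Lie.chevF4.simple i) ∈ ([14, 20, 22] : List ℕ)) ∧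
    (∀ i, i < Cfsg.Lie.chevF4.rank → Cfsg.Lie.chevF4.cartan i 47 = if i = 3 then 1 else 0) := by
  decide +kernel

set_option maxRecDepth 100000 in
set_option synthInstance.maxSize 1000 in
set_option synthInstance.maxHeartbeats 200000 in
set_option backward.isDefEq.respectTransparency false in
theorem chk_b : (44 < Cfsg.Lie.chevF4.nroots ∧ Cfsg.Agent.Lib.Chev.Good2.NN Cfsg.Lie.chevF4 ≤ 44 ∧ 0 < Cfsg.Lie.chevF4.rank) ∧
    (∀ s ∈ ([20, 22, 23] : List ℕ), s < Cfsg.Lie.chevF4.nroots ∧ s ≠ 44 ∧ s ≠ Cfsg.Lie.chevF4.neg 44 ∧ ∀ e ∈ Cfsg.Lie.chevF4.commTerms 44 s, (2 : ℤ) ∣ e.2.1) ∧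
    (∀ s, s < Cfsg.Lie.chevF4.nroots → Cfsg.Agent.Lib.Chev.Good2.NN Cfsg.Lie.chevF4 ≤ s → s ≠ 44 → ∀ e ∈ Cfsg.Lie.chevF4.commTerms 44 s, (2 : ℤ) ∣ e.2.1) ∧
    (∀ i, i < Cfsg.Lie.chevF4.rank → Cfsg.Agent.Lib.Chev.TabF4.good2.W i 44 = 44 → i ≠ 0) ∧
    (∀ i, i < Cfsg.Lie.chevF4.rank → i ≠ 0 → Cfsg.Lie.chevF4.neg (Cfsg.Lie.chevF4.simple i) ∈ ([20, 22, 23] : List ℕ)) ∧
    (∀ i, i < Cfsg.Lie.chevF4.rank → Cfsg.Lie.chevF4.cartan i 44 = if i = 0 then 1 else 0) := by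
  decide +kernel



/-- Centralizers of the long and the short root involutions in the Chevalley group G of type F₄ over a finite field F of characteristic two (this problem's root numbering for type F₄, from the Chevalley data module: fundamental roots p₁, p₂ short, p₃, p₄ long, with indices 33, 27, 25, 24, their negatives 14, 20, 22, 23; highest root 47, highest short root 44; U the subgroup generated by the positive root subgroups). For an element t of G with matrix x_47(1): the centralizer of t in G is the subgroup generated by U and the root subgroups X_{−p₁}, X_{−p₂}, X_{−p₃} (the unipotent radical of the maximal parabolic subgroup whose Levi factor has fundamental roots p₁, p₂, p₃, together with that Levi factor's root subgroups; the Levi factor is of type C₃). For an element u of G with matrix x_44(1): the centralizer of u in G is generated by U and X_{−p₂}, X_{−p₃}, X_{−p₄} (the same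 construction for the Levi factor with fundamental roots p₂, p₃, p₄, of type B₃). -/
theorem result {F : Type*} [Field F] [Fintype F] [CharP F 2] (t u : GL Cfsg.Lie.chevF4.Idx F) (ht : (t : Matrix Cfsg.Lie.chevF4.Idx Cfsg.Lie.chevF4.Idx F) = Cfsg.Lie.chevF4.x F 47 1) (hu : (u : Matrix Cfsg.Lie.chevF4.Idx Cfsg.Lie.chevF4.Idx F) = Cfsg.Lie.chevF4.x F 44 1) :
    Cfsg.Lie.chevF4.group F ⊓ Subgroup.centralizer {t} = Cfsg.Lie.chevF4.posUnipotent F ⊔ Cfsg.Lie.chevF4.rootSubgroup F 14 ⊔ Cfsg.Lie.chevF4.rootSubgroup F 20 ⊔ Cfsg.Lie.chevF4.rootSubgroup F 22 ∧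
    Cfsg.Lie.chevF4.group F ⊓ Subgroup.centralizer {u} = Cfsg.Lie.chevF4.posUnipotent F ⊔ Cfsg.Lie.chevF4.rootSubgroup F 20 ⊔ Cfsg.Lie.chevF4.rootSubgroup F 22 ⊔ Cfsg.Lie.chevF4.rootSubgroup F 23 := by
  obtain ⟨⟨h1, h2, h3⟩, h4, h5, h6, h7, h8⟩ := chk_a
  obtain ⟨⟨k1, k2, k3⟩, k4, k5, k6, k7, k8⟩ := chk_b
  constructor
  · have := Cfsg.Agent.Lib.Chev.TabF4.good2.centralizer_list h1 h2 _ h4 h5 h6 h7 h8 h3 ht
    rw [this]
    simp only [Cfsg.Agent.Lib.Chev.closure_list_cons, Cfsg.Agent.Lib.Chev.closure_list_nil, sup_bot_eq, sup_assoc]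
  · have := Cfsg.Agent.Lib.Chev.TabF4.good2.centralizer_list k1 k2 _ k4 k5 k6 k7 k8 k3 hu
    rw [this]
    simp only [Cfsg.Agent.Lib.Chev.closure_list_cons, Cfsg.Agent.Lib.Chev.closure_list_nil, sup_bot_eq, sup_assoc]

end Cfsg.Agent.S2178
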