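import Cfsg.Statements.S2197
import Cfsg.Agent.Lib.KnownSimple.TitsLab.TwoT

set_option autoImplicit false

open Cfsg

namespace Cfsg.Agent.S2197

/-- The Tits group (the commutator subgroup of ²F₄(2)) has no faithful 2-transitive action on a finite set with more than two points. -/
theorem result {Ω : Type*} [Fintype Ω] [MulAction Cfsg.Lie.TitsGroup Ω] [FaithfulSMul Cfsg.Lie.TitsGroup Ω] (hΩ : 3 ≤ Fintype.card Ω) :
    ¬ MulAction.IsMultiplyPretransitive Cfsg.Lie.TitsGroup Ω 2 := by
  exact Cfsg.Agent.Lib.KnownSimple.TitsLab.no_two_transitive hΩ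

end Cfsg.Agent.S2197
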