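import Cfsg.Statements.S2209
import Cfsg.Agent.Lib.Chev.Sub.HighC
import Cfsg.Agent.Lib.Chev.All2
-- import your own Cfsg.Agent.* helpers here

set_option autoImplicit false
open Cfsg

namespace Cfsg.Agent.S2209

set_option maxRecDepth 100000 in
set_option synthInstance.maxSize 1000 in
set_option synthInstance.maxHeartbeats 200000 in
set_option backward.isDefEq.respectTransparency false in
theorem chk_E6 : (71 < Cfsg.Lie.chevE6.nroots ∧ Cfsg.Agent.Lib.Chev.Good2.NN Cfsg.Lie.chevE6 ≤ 71 ∧ 1 < Cfsg.Lie.chevE6.rank) ∧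
    (∀ s ∈ ([15, 29, 32, 34, 35] : List ℕ), s < Cfsg.Lie.chevE6.nroots ∧ s ≠ 71 ∧ s ≠ Cfsg.Lie.chevE6.neg 71 ∧ ∀ e ∈ Cfsg.Lie.chevE6.commTerms 71 s, (2 : ℤ) ∣ e.2.1) ∧
    (∀ s, s < Cfsg.Lie.chevE6.nroots → Cfsg.Agent.Lib.Chev.Good2.NN Cfsg.Lie.chevE6 ≤ s → s ≠ 71 → ∀ e ∈ Cfsg.Lie.chevE6.commTerms 71 s, (2 : ℤ) ∣ e.2.1) ∧
    (∀ i, i < Cfsg.Lie.chevE6.rank → Cfsg.Agent.Lib.Chev.TabE6.good2.W i 71 = 71 → i ≠ 1) ∧
    (∀ i, i < Cfsg.Lie.chevE6.rank → i ≠ 1 → Cfsg.Lie.chevE6.neg (Cfsg.Lie.chevE6.simple i) ∈ ([15, 29, 32, 34, 35] : List ℕ)) ∧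
    (∀ i, i < Cfsg.Lie.chevE6.rank → Cfsg.Lie.chevE6.cartan i 71 = if i = 1 then 1 else 0) := by
  decide +kernel

set_option maxRecDepth 100000 in
set_option synthInstance.maxSize 1000 in
set_option synthInstance.maxHeartbeats 200000 in
set_option backward.isDefEq.respectTransparency false in
theorem chk_E7 : (125 < Cfsg.Lie.chevE7.nroots ∧ Cfsg.Agent.Lib.Chev.Good2.NN Cfsg.Lie.chevE7 ≤ 125 ∧ 0 < Cfsg.Lie.chevE7.rank) ∧
    (∀ s ∈ ([47, 52, 56, 59, 61, 62] : List ℕ), s < Cfsg.Lie.chevE7.nroots ∧ s ≠ 125 ∧ s ≠ Cfsg.Lie.chevE7.neg 125 ∧ ∀ e ∈ Cfsg.Lie.chevE7.commTerms 125 s, (2 : ℤ) ∣ e.2.1) ∧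
    (∀ s, s < Cfsg.Lie.chevE7.nroots → Cfsg.Agent.Lib.Chev.Good2.NN Cfsg.Lie.chevE7 ≤ s → s ≠ 125 → ∀ e ∈ Cfsg.Lie.chevE7.commTerms 125 s, (2 : ℤ) ∣ e.2.1) ∧
    (∀ i, i < Cfsg.Lie.chevE7.rank → Cfsg.Agent.Lib.Chev.TabE7.good2.W i 125 = 125 → i ≠ 0) ∧
    (∀ i, i < Cfsg.Lie.chevE7.rank → i ≠ 0 → Cfsg.Lie.chevE7.neg (Cfsg.Lie.chevE7.simple i) ∈ ([47, 52, 56, 59, 61, 62] : List ℕ)) ∧
    (∀ i, i < Cfsg.Lie.chevE7.rank → Cfsg.Lie.chevE7.cartan i 125 = if i = 0 then 1 else 0) := by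
  decide +kernel

set_option maxRecDepth 100000 in
set_option synthInstance.maxSize 1000 in
set_option synthInstance.maxHeartbeats 200000 in
set_option backward.isDefEq.respectTransparency false in
theorem chk_E8 : (239 < Cfsg.Lie.chevE8.nroots ∧ Cfsg.Agent.Lib.Chev.Good2.NN Cfsg.Lie.chevE8 ≤ 239 ∧ 7 < Cfsg.Lie.chevE8.rank) ∧
    (∀ s ∈ ([77, 98, 104, 109, 113, 116, 118] : List ℕ), s < Cfsg.Lie.chevE8.nroots ∧ s ≠ 239 ∧ s ≠ Cfsg.Lie.chevE8.neg 239 ∧ ∀ e ∈ Cfsg.Lie.chevE8.commTerms 239 s, (2 : ℤ) ∣ e.2.1) ∧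
    (∀ s, s < Cfsg.Lie.chevE8.nroots → Cfsg.Agent.Lib.Chev.Good2.NN Cfsg.Lie.chevE8 ≤ s → s ≠ 239 → ∀ e ∈ Cfsg.Lie.chevE8.commTerms 239 s, (2 : ℤ) ∣ e.2.1) ∧
    (∀ i, i < Cfsg.Lie.chevE8.rank → Cfsg.Agent.Lib.Chev.TabE8.good2.W i 239 = 239 → i ≠ 7) ∧
    (∀ i, i < Cfsg.Lie.chevE8.rank → i ≠ 7 → Cfsg.Lie.chevE8.neg (Cfsg.Lie.chevE8.simple i) ∈ ([77, 98, 104, 109, 113, 116, 118] : List ℕ)) ∧
    (∀ i, i < Cfsg.Lie.chevE8.rank → Cfsg.Lie.chevE8.cartan i 239 = if i = 7 then 1 else 0) := by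
  decide +kernel



/-- Centralizer of a long root involution in the Chevalley groups of type E₆, E₇, E₈ over a finite field F of characteristic two. Let G be the group generated by the root elements, U the subgroup generated by the positive root subgroups, r the highest root (the last root index: 71, 125, 239 respectively), and t the element of G with matrix x_r(1). Then the centralizer of t in G is the subgroup generated by U together with the root subgroups X_{−p} for the fundamental roots p orthogonal to r — all fundamental roots except p₂ for E₆, except p₁ for E₇, except p₈ for E₈ (numbering with p₁–p₃–p₄–…–p_l the long chain and p₂ joined to p₄); the indices of these negative fundamental roots are 15, 29, 32, 34, 35 (E₆), 47, 52, 56, 59, 61, 62 (E₇), 77, 98, 104, 109, 113, 116, 118 (E₈). (This is the unipotent radical of the corresponding maximal parabolic subgroup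 extended by the root subgroups of its Levi factor, of type A₅, D₆, E₇ respectively.) -/
theorem result {F : Type*} [Field F] [Fintype F] [CharP F 2] (d : Cfsg.Lie.ChevalleyDatum × List ℕ)
    (hd : d ∈ [(Cfsg.Lie.chevE6, [15, 29, 32, 34, 35]), (Cfsg.Lie.chevE7, [47, 52, 56, 59, 61, 62]), (Cfsg.Lie.chevE8, [77, 98, 104, 109, 113, 116, 118])])
    (t : GL d.1.Idx F) (ht : (t : Matrix d.1.Idx d.1.Idx F) = d.1.x F (d.1.nroots - 1) 1) :
    d.1.group F ⊓ Subgroup.centralizer {t} = d.1.posUnipotent F ⊔ Subgroup.closure {g : GL d.1.Idx F | ∃ s ∈ d.2, ∃ c : F, (g : Matrix d.1.Idx d.1.Idx F) = d.1.x F s c} := by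
  obtain ⟨D, l⟩ := d
  simp only [List.mem_cons, List.not_mem_nil, or_false, Prod.mk.injEq] at hd
  rcases hd with ⟨rfl, rfl⟩ | ⟨rfl, rfl⟩ | ⟨rfl, rfl⟩
  · obtain ⟨⟨h1, h2, h3⟩, h4, h5, h6, h7, h8⟩ := chk_E6
    exact Cfsg.Agent.Lib.Chev.TabE6.good2.centralizer_list h1 h2 _ h4 h5 h6 h7 h8 h3 ht
  · obtain ⟨⟨h1, h2, h3⟩, h4, h5, h6, h7, h8⟩ := chk_E7
    exact Cfsg.Agent.Lib.Chev.TabE7.good2.centralizer_list h1 h2 _ h4 h5 h6 h7 h8 h3 ht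
  · obtain ⟨⟨h1, h2, h3⟩, h4, h5, h6, h7, h8⟩ := chk_E8
    exact Cfsg.Agent.Lib.Chev.TabE8.good2.centralizer_list h1 h2 _ h4 h5 h6 h7 h8 h3 ht

end Cfsg.Agent.S2209
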