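import Cfsg.Statements.S2231
import Cfsg.Agent.Lib.KnownSimple.Qd

set_option autoImplicit false
open Cfsg

namespace Cfsg.Agent.S2231

open Matrix Cfsg.Agent.Lib.KnownSimple

variable {p : ℕ} [Fact p.Prime] {K : Type*} [Field K] [Fintype K] [CharP K p]

private lemma scalar_comm {K : Type*} [Field K] {a b c d a' b' c' d' x y : K} (hv : x ≠ 0 ∨ y ≠ 0)
    (ht : a * d - b * c = 1) (hs : a' * d' - b' * c' = 1)
    (t0 : a * x + b * y = x) (t1 : c * x + d * y = y)
    (s0 : a' * x + b' * y = x) (s1 : c' * x + d' * y = y) :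
    (a * a' + b * c' = a' * a + b' * c) ∧ (a * b' + b * d' = a' * b + b' * d) ∧
    (c * a' + d * c' = c' * a + d' * c) ∧ (c * b' + d * d' = c' * b + d' * d) := by
  rcases hv with hx | hy
  · have ha : a = 1 - b * y / x := by field_simp; linear_combination t0
    have hc : c = (1 - d) * y / x := by field_simp; linear_combination t1
    have ha' : a' = 1 - b' * y / x := by field_simp; linear_combination s0
    have hc' : c' = (1 - d') * y / x := by field_simp; linear_combination s1
    subst ha hc ha' hc'
    have hd : d = 1 + b * y / x := by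
      field_simp at ht ⊢
      linear_combination ht
    have hd' : d' = 1 + b' * y / x := by
      field_simp at hs ⊢
      linear_combination hs
    subst hd hd'
    refine ⟨?_, ?_, ?_, ?_⟩ <;> field_simp <;> ring
  · have hb : b = (1 - a) * x / y := by field_simp; linear_combination t0
    have hd : d = 1 - c * x / y := by field_simp; linear_combination t1
    have hb' : b' = (1 - a') * x / y := by field_simp; linear_combination s0
    have hd' : d' = 1 - c' * x / y := by field_simp; linear_combination s1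
    subst hb hd hb' hd'
    have ha : a = 1 + c * x / y := by
      field_simp at ht ⊢
      linear_combination ht
    have ha' : a' = 1 + c' * x / y := by
      field_simp at hs ⊢
      linear_combination hs
    subst ha ha'
    refine ⟨?_, ?_, ?_, ?_⟩ <;> field_simp <;> ring

/-- Two elements of `SL₂(K)` with a common nonzero fixed vector commute. -/
private lemma commute_of_fix {K : Type*} [Field K] (t s : Matrix (Fin 2) (Fin 2) K) (ht : t.det = 1) (hs : s.det = 1)
    (v : Fin 2 → K) (hv : v ≠ 0) (htv : t *ᵥ v = v) (hsv : s *ᵥ v = v) : t * s = s * t := by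
  have hv' : v 0 ≠ 0 ∨ v 1 ≠ 0 := by
    by_contra hcon
    push Not at hcon
    apply hv
    funext i
    fin_cases i
    · exact hcon.1
    · exact hcon.2
  have t0 := congrFun htv 0
  have t1 := congrFun htv 1
  have s0 := congrFun hsv 0
  have s1 := congrFun hsv 1
  simp only [Matrix.mulVec, dotProduct, Fin.sum_univ_two] at t0 t1 s0 s1
  rw [Matrix.det_fin_two] at ht hs
  obtain ⟨e1, e2, e3, e4⟩ := scalar_comm hv' ht hs t0 t1 s0 s1
  ext i j
  simp only [Matrix.mul_apply, Fin.sum_univ_two]
  fin_cases i <;> fin_cases j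
  · exact e1
  · exact e2
  · exact e3
  · exact e4

/-- All `p`-subgroups of `SL₂(K)` are commutative. -/
private lemma sl2_pSubgroups_comm (T : Subgroup (Matrix.SpecialLinearGroup (Fin 2) K)) (hT : IsPGroup p T) :
    ∀ x ∈ T, ∀ y ∈ T, x * y = y * x := by
  classical
  let act : MulAction T (Fin 2 → K) :=
    { smul := fun t v => ((t : Matrix.SpecialLinearGroup (Fin 2) K) : Matrix (Fin 2) (Fin 2) K) *ᵥ v
      one_smul := fun v => by
        change (((1 : T) : Matrix.SpecialLinearGroup (Fin 2) K) : Matrix (Fin 2) (Fin 2) K) *ᵥ v = v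
        simp
      mul_smul := fun a b v => by
        change (((a : Matrix.SpecialLinearGroup (Fin 2) K) : Matrix (Fin 2) (Fin 2) K) * ((b : Matrix.SpecialLinearGroup (Fin 2) K) : Matrix (Fin 2) (Fin 2) K)) *ᵥ v
          = ((a : Matrix.SpecialLinearGroup (Fin 2) K) : Matrix (Fin 2) (Fin 2) K) *ᵥ (((b : Matrix.SpecialLinearGroup (Fin 2) K) : Matrix (Fin 2) (Fin 2) K) *ᵥ v)
        rw [Matrix.mulVec_mulVec] }
  have hp : p ∣ Nat.card (Fin 2 → K) := by
    rw [Nat.card_eq_fintype_card, Fintype.card_fun, Fintype.card_fin]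
    obtain ⟨n, hpp, hn⟩ := FiniteField.card K p
    rw [hn]
    exact Dvd.dvd.pow (dvd_pow_self p n.ne_zero) (by norm_num)
  have hfix0 : (0 : Fin 2 → K) ∈ MulAction.fixedPoints T (Fin 2 → K) := by
    intro t
    change ((t : Matrix.SpecialLinearGroup (Fin 2) K) : Matrix (Fin 2) (Fin 2) K) *ᵥ 0 = 0
    simp
  obtain ⟨v, hv, hne⟩ := hT.exists_fixed_point_of_prime_dvd_card_of_fixed_point (Fin 2 → K) hp hfix0
  have hfix : ∀ t : T, ((t : Matrix.SpecialLinearGroup (Fin 2) K) : Matrix (Fin 2) (Fin 2) K) *ᵥ v = v :=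
    fun t => hv t
  intro x hx y hy
  apply Subtype.ext
  exact commute_of_fix _ _ x.2 y.2 v hne.symm (hfix ⟨x, hx⟩) (hfix ⟨y, hy⟩)

/-- Let p be an odd prime and K a finite field of characteristic p. Then Qd(p) (the natural semidirect product of an elementary abelian group of order p² by SL₂(p)) is not involved in the projective special linear group PSL₂(K). -/
theorem result {p : ℕ} [Fact p.Prime] (hp : p ≠ 2) {K : Type*} [Field K] [Fintype K] [CharP K p] : ¬ Cfsg.Involves ↥(Cfsg.qd p) (Matrix.ProjectiveSpecialLinearGroup (Fin 2) K) := by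
  rintro ⟨K1, R, hN, ⟨e⟩⟩
  apply qd_not_pSubgroups_comm hp
  have h1 : ∀ P : Subgroup (Matrix.ProjectiveSpecialLinearGroup (Fin 2) K), IsPGroup p P → ∀ x ∈ P, ∀ y ∈ P, x * y = y * x :=
    pSubgroups_comm_of_surjective (QuotientGroup.mk' _) (QuotientGroup.mk'_surjective _) sl2_pSubgroups_comm
  exact pSubgroups_comm_of_section K1 R hN e h1

end Cfsg.Agent.S2231
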