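import Cfsg.Statements.S2232
import Cfsg.Agent.Lib.KnownSimple.QdLocal

set_option autoImplicit false
open Cfsg

namespace Cfsg.Agent.S2232

open Matrix Cfsg.Agent.Lib.KnownSimple

variable {K : Type*} [Field K]

/-- Upper triangular `3 × 3` matrices. -/
private def Up (M : Matrix (Fin 3) (Fin 3) K) : Prop := M 1 0 = 0 ∧ M 2 0 = 0 ∧ M 2 1 = 0

private lemma Up.mul' {M M' : Matrix (Fin 3) (Fin 3) K} (h : Up M) (h' : Up M') :
    Up (M * M') ∧ ∀ i, (M * M') i i = M i i * M' i i := by
  obtain ⟨a, b, c⟩ := h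
  obtain ⟨a', b', c'⟩ := h'
  refine ⟨⟨?_, ?_, ?_⟩, ?_⟩
  · simp [Matrix.mul_apply, Fin.sum_univ_three, a, b, c, a', b', c']
  · simp [Matrix.mul_apply, Fin.sum_univ_three, a, b, c, a', b', c']
  · simp [Matrix.mul_apply, Fin.sum_univ_three, a, b, c, a', b', c']
  · intro i
    fin_cases i <;> simp [Matrix.mul_apply, Fin.sum_univ_three, a, b, c, a', b', c']

private lemma commutator_unipotent {p : ℕ} [Fact p.Prime] [CharP K p] (hp : p ≠ 2)
    {a b a' b' : Matrix (Fin 3) (Fin 3) K} (ha : Up a) (hb : Up b) (ha' : Up a') (hb' : Up b')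
    (haa : a * a' = 1) (hbb : b * b' = 1) : (a * b * a' * b') ^ p = 1 := by
  have h1 := ha.mul' hb
  have h2 := h1.1.mul' ha'
  have h3 := h2.1.mul' hb'
  have hdiag : ∀ i, (a * b * a' * b') i i = 1 := by
    intro i
    rw [h3.2, h2.2, h1.2]
    have e1 : a i i * a' i i = 1 := by
      rw [← (ha.mul' ha').2, haa, Matrix.one_apply_eq]
    have e2 : b i i * b' i i = 1 := by
      rw [← (hb.mul' hb').2, hbb, Matrix.one_apply_eq]
    calc a i i * b i i * a' i i * b' i i = (a i i * a' i i) * (b i i * b' i i) := by ring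
      _ = 1 := by rw [e1, e2, one_mul]
  set u := a * b * a' * b' with hu
  obtain ⟨u10, u20, u21⟩ := h3.1
  set m := u - 1 with hm
  have hm3 : m ^ 3 = 0 := by
    have m00 : m 0 0 = 0 := by simp [hm, hdiag]
    have m11 : m 1 1 = 0 := by simp [hm, hdiag]
    have m22 : m 2 2 = 0 := by simp [hm, hdiag]
    have m10 : m 1 0 = 0 := by simp [hm, u10]
    have m20 : m 2 0 = 0 := by simp [hm, u20]
    have m21 : m 2 1 = 0 := by simp [hm, u21]
    ext i j
    rw [pow_succ, pow_two]
    fin_cases i <;> fin_cases j <;>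
      simp [Matrix.mul_apply, Fin.sum_univ_three, m00, m11, m22, m10, m20, m21]
  have hp3 : 3 ≤ p := by
    have := (Fact.out : p.Prime).two_le
    omega
  have hmp : m ^ p = 0 := by
    obtain ⟨k, rfl⟩ := Nat.exists_eq_add_of_le hp3
    rw [pow_add, hm3, zero_mul]
  have hc : Commute m (1 : Matrix (Fin 3) (Fin 3) K) := Commute.one_right m
  have := add_pow_char_of_commute p hc
  rw [hmp, one_pow, zero_add] at this
  rw [← this, hm, sub_add_cancel]

section form

variable {q : ℕ}

private lemma herm_add_left (u u' v : Fin 3 → K) :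
    hermForm 3 K q (u + u') v = hermForm 3 K q u v + hermForm 3 K q u' v := by
  simp [hermForm, add_mul, Finset.sum_add_distrib]

private lemma herm_sub_left (u u' v : Fin 3 → K) :
    hermForm 3 K q (u - u') v = hermForm 3 K q u v - hermForm 3 K q u' v := by
  simp [hermForm, sub_mul, Finset.sum_sub_distrib]

private lemma herm_smul_left (c : K) (u v : Fin 3 → K) :
    hermForm 3 K q (c • u) v = c * hermForm 3 K q u v := by
  simp [hermForm, Finset.mul_sum, mul_assoc]

private lemma herm_smul_right (c : K) (u v : Fin 3 → K) :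
    hermForm 3 K q u (c • v) = c ^ q * hermForm 3 K q u v := by
  simp only [hermForm, Finset.mul_sum, Pi.smul_apply, smul_eq_mul, mul_pow]
  exact Finset.sum_congr rfl fun i _ => by ring

/-- A totally isotropic subspace of the three-dimensional Hermitian space has dimension at most
one. -/
private lemma isotropic_line (hadd : ∀ a b : K, (a + b) ^ q = a ^ q + b ^ q)
    (hmul : ∀ a b : K, (a * b) ^ q = a ^ q * b ^ q) (hzero : ((0 : K) ^ q) = 0)
    (hσ : ∀ a : K, (a ^ q) ^ q = a)
    {x y : Fin 3 → K} (hx : x ≠ 0)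
    (hxx : hermForm 3 K q x x = 0) (hxy : hermForm 3 K q x y = 0)
    (hyx : hermForm 3 K q y x = 0) (hyy : hermForm 3 K q y y = 0) : ∃ c : K, y = c • x := by
  by_contra hcon
  push Not at hcon
  have hli : LinearIndependent K ![x, y] := by
    rw [LinearIndependent.pair_iff]
    intro s t hst
    have ht : t = 0 := by
      by_contra ht
      apply hcon (-(s / t))
      have : t • y = -(s • x) := by
        rw [eq_neg_iff_add_eq_zero, add_comm]; exact hst
      calc y = t⁻¹ • (t • y) := by rw [smul_smul, inv_mul_cancel₀ ht, one_smul]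
        _ = -(s / t) • x := by
          rw [this, smul_neg, smul_smul, neg_smul, div_eq_inv_mul]
    subst ht
    refine ⟨?_, rfl⟩
    rw [zero_smul, add_zero] at hst
    exact (smul_eq_zero.mp hst).resolve_right hx
  let σ : K →+* K :=
    { toFun := fun a => a ^ q
      map_one' := by
        have := hσ 1
        rw [one_pow, one_pow] at this
        simp
      map_mul' := hmul
      map_zero' := hzero
      map_add' := hadd }
  have hli' : LinearIndependent K ![fun i => (x i) ^ q, fun i => (y i) ^ q] := by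
    rw [LinearIndependent.pair_iff] at hli ⊢
    intro s t hst
    have h := hli (s ^ q) (t ^ q) (by
      funext i
      have := congrFun hst i
      have h2 := congrArg (fun a => a ^ q) this
      simp only [Pi.add_apply, Pi.smul_apply, smul_eq_mul, Pi.zero_apply] at h2 ⊢
      rw [hzero, hadd, hmul, hmul, hσ, hσ] at h2
      exact h2)
    have e1 := hσ s
    have e2 := hσ t
    rw [h.1, hzero] at e1
    rw [h.2, hzero] at e2
    exact ⟨e1.symm, e2.symm⟩
  let M : Matrix (Fin 2) (Fin 3) K := Matrix.of ![x, y]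
  let N : Matrix (Fin 3) (Fin 2) K := Matrix.of fun i j => (![x, y] j i) ^ q
  have hMN : M * N = 0 := by
    ext a b
    simp only [Matrix.mul_apply, M, N, Matrix.of_apply, Matrix.zero_apply]
    fin_cases a <;> fin_cases b
    · exact hxx
    · exact hxy
    · exact hyx
    · exact hyy
  have hM : M.rank = 2 := by
    have : LinearIndependent K M.row := hli
    simpa using this.rank_matrix
  have hN : N.rank = 2 := by
    rw [← Matrix.rank_transpose]
    have : LinearIndependent K Nᵀ.row := by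
      convert hli' using 1
      funext j i
      fin_cases j <;> rfl
    simpa using this.rank_matrix
  have := Matrix.rank_add_rank_le_card_of_mul_eq_zero hMN
  rw [hM, hN] at this
  simp at this

end form

section group

variable {G : Type*} [Group G] (ρ : G →* Matrix (Fin 3) (Fin 3) K)

/-- The commutator space `[V, T]`. -/
private def commSpan (T : Subgroup G) : Submodule K (Fin 3 → K) :=
  Submodule.span K {v | ∃ t ∈ T, ∃ u, v = ρ t *ᵥ u - u}

private lemma commSpan_map (T : Subgroup G) {g : G} (hg : g ∈ Subgroup.normalizer (T : Set G))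
    {v : Fin 3 → K} (hv : v ∈ commSpan ρ T) : ρ g *ᵥ v ∈ commSpan ρ T := by
  induction hv using Submodule.span_induction with
  | mem v hv =>
    obtain ⟨t, ht, u, rfl⟩ := hv
    apply Submodule.subset_span
    refine ⟨g * t * g⁻¹, (Subgroup.mem_normalizer_iff.mp hg t).mp ht, ρ g *ᵥ u, ?_⟩
    have h3 : g * t = g * t * g⁻¹ * g := by group
    rw [Matrix.mulVec_sub, Matrix.mulVec_mulVec, Matrix.mulVec_mulVec, ← map_mul, ← map_mul, ← h3]
  | zero => simp
  | add a b _ _ ha hb => rw [Matrix.mulVec_add]; exact Submodule.add_mem _ ha hb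
  | smul c a _ ha => rw [Matrix.mulVec_smul]; exact Submodule.smul_mem _ c ha

private lemma fixed_map (T : Subgroup G) {g : G} (hg : g ∈ Subgroup.normalizer (T : Set G))
    {v : Fin 3 → K} (hv : ∀ t ∈ T, ρ t *ᵥ v = v) : ∀ t ∈ T, ρ t *ᵥ (ρ g *ᵥ v) = ρ g *ᵥ v := by
  intro t ht
  have h1 : g⁻¹ * t * g⁻¹⁻¹ ∈ T :=
    (Subgroup.mem_normalizer_iff.mp (Subgroup.inv_mem _ hg) t).mp ht
  rw [inv_inv] at h1
  have h2 := hv _ h1
  calc ρ t *ᵥ (ρ g *ᵥ v) = ρ g *ᵥ (ρ (g⁻¹ * t * g) *ᵥ v) := by
        rw [Matrix.mulVec_mulVec, Matrix.mulVec_mulVec, ← map_mul, ← map_mul]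
        congr 2
        group
    _ = ρ g *ᵥ v := by rw [h2]

private lemma exists_fixed {p : ℕ} [Fact p.Prime] [Fintype K] [Finite G] (hpK : p ∣ Fintype.card K)
    (hinj : Function.Injective ρ) (T : Subgroup G) (hT : IsPGroup p T) (hT1 : T ≠ ⊥) :
    ∃ x ∈ commSpan ρ T, x ≠ 0 ∧ ∀ t ∈ T, ρ t *ᵥ x = x := by
  classical
  have hW : commSpan ρ T ≠ ⊥ := by
    intro hbot
    apply hT1
    rw [eq_bot_iff]
    intro t ht
    rw [Subgroup.mem_bot]
    apply hinj
    rw [map_one]
    apply Matrix.ext_of_mulVec_single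
    intro i
    have : ρ t *ᵥ (Pi.single i 1) - Pi.single i 1 ∈ commSpan ρ T :=
      Submodule.subset_span ⟨t, ht, _, rfl⟩
    rw [hbot, Submodule.mem_bot, sub_eq_zero] at this
    rw [this, Matrix.one_mulVec]
  let act : MulAction T (commSpan ρ T) :=
    { smul := fun t v => ⟨ρ t *ᵥ (v : Fin 3 → K), commSpan_map ρ T (Subgroup.le_normalizer t.2) v.2⟩
      one_smul := fun v => by
        apply Subtype.ext
        change ρ ((1 : T) : G) *ᵥ (v : Fin 3 → K) = v
        simp
      mul_smul := fun a b v => by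
        apply Subtype.ext
        change ρ ((a * b : T) : G) *ᵥ (v : Fin 3 → K) = ρ a *ᵥ (ρ b *ᵥ (v : Fin 3 → K))
        rw [Matrix.mulVec_mulVec, Subgroup.coe_mul, map_mul] }
  have hcard : p ∣ Nat.card (commSpan ρ T) := by
    rw [Module.natCard_eq_pow_finrank (K := K), Nat.card_eq_fintype_card]
    have : 1 ≤ Module.finrank K (commSpan ρ T) := Submodule.one_le_finrank_iff.mpr hW
    exact hpK.trans (dvd_pow_self _ (by omega))
  have hfix0 : (0 : commSpan ρ T) ∈ MulAction.fixedPoints T (commSpan ρ T) := by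
    intro t
    apply Subtype.ext
    change ρ (t : G) *ᵥ (0 : Fin 3 → K) = 0
    simp
  obtain ⟨v, hv, hne⟩ := hT.exists_fixed_point_of_prime_dvd_card_of_fixed_point (commSpan ρ T) hcard hfix0
  refine ⟨v, v.2, fun h => hne.symm (Subtype.ext h), ?_⟩
  intro t ht
  have := hv ⟨t, ht⟩
  exact congrArg Subtype.val this

variable {q : ℕ}

private lemma herm_commSpan (hρ : ∀ g u v, hermForm 3 K q (ρ g *ᵥ u) (ρ g *ᵥ v) = hermForm 3 K q u v)
    (T : Subgroup G) {r v : Fin 3 → K} (hr : r ∈ commSpan ρ T) (hv : ∀ t ∈ T, ρ t *ᵥ v = v) :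
    hermForm 3 K q r v = 0 := by
  induction hr using Submodule.span_induction with
  | mem r hr =>
    obtain ⟨t, ht, u, rfl⟩ := hr
    rw [herm_sub_left]
    nth_rewrite 1 [← hv t ht]
    rw [hρ, sub_self]
  | zero => simp [hermForm]
  | add a b _ _ ha hb => rw [herm_add_left, ha, hb, add_zero]
  | smul c a _ ha => rw [herm_smul_left, ha, mul_zero]

theorem key {p : ℕ} [Fact p.Prime] [Fintype K] [CharP K p] [Finite G] (hp : p ≠ 2)
    (hpK : p ∣ Fintype.card K)
    (hadd : ∀ a b : K, (a + b) ^ q = a ^ q + b ^ q)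
    (hmul : ∀ a b : K, (a * b) ^ q = a ^ q * b ^ q) (hzero : ((0 : K) ^ q) = 0)
    (hσ : ∀ a : K, (a ^ q) ^ q = a)
    (hρ : ∀ g u v, hermForm 3 K q (ρ g *ᵥ u) (ρ g *ᵥ v) = hermForm 3 K q u v)
    (hinj : Function.Injective ρ) (T : Subgroup G) (hT : IsPGroup p T) (hT1 : T ≠ ⊥)
    {g₁ g₂ : G} (h₁ : g₁ ∈ Subgroup.normalizer (T : Set G))
    (h₂ : g₂ ∈ Subgroup.normalizer (T : Set G)) :
    (g₁ * g₂ * g₁⁻¹ * g₂⁻¹) ^ p = 1 := by
  classical
  obtain ⟨x, hxW, hx0, hxfix⟩ := exists_fixed ρ hpK hinj T hT hT1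
  have hline : ∀ g ∈ Subgroup.normalizer (T : Set G), ∃ c : K, ρ g *ᵥ x = c • x := by
    intro g hg
    have h1 := commSpan_map ρ T hg hxW
    have h2 := fixed_map ρ T hg hxfix
    exact isotropic_line hadd hmul hzero hσ hx0 (herm_commSpan ρ hρ T hxW hxfix)
      (herm_commSpan ρ hρ T hxW h2) (herm_commSpan ρ hρ T h1 hxfix) (herm_commSpan ρ hρ T h1 h2)
  -- the functional
  let φ : (Fin 3 → K) →ₗ[K] K :=
    { toFun := fun u => hermForm 3 K q u x
      map_add' := fun u v => herm_add_left u v x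
      map_smul' := fun c u => herm_smul_left c u x }
  have hφ : ∀ u, φ u = hermForm 3 K q u x := fun _ => rfl
  have hφx : φ x = 0 := herm_commSpan ρ hρ T hxW hxfix
  have hφg : ∀ g ∈ Subgroup.normalizer (T : Set G), ∀ u, φ u = 0 → φ (ρ g *ᵥ u) = 0 := by
    intro g hg u hu
    obtain ⟨c, hc⟩ := hline g⁻¹ (Subgroup.inv_mem _ hg)
    have : x = ρ g *ᵥ (ρ g⁻¹ *ᵥ x) := by
      rw [Matrix.mulVec_mulVec, ← map_mul, mul_inv_cancel, map_one, Matrix.one_mulVec]
    rw [hφ, this, hρ, hc, herm_smul_right, ← hφ, hu, mul_zero]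
  -- a vector off the kernel
  obtain ⟨w, hw⟩ : ∃ w, φ w ≠ 0 := by
    obtain ⟨i, hi⟩ := Function.ne_iff.mp hx0
    refine ⟨Pi.single i 1, ?_⟩
    rw [hφ]
    simp only [hermForm, Fin.sum_univ_three]
    have h3 : (x i) ^ q ≠ 0 := by
      intro h
      have := hσ (x i)
      rw [h, hzero] at this
      exact hi this.symm
    have : (∑ j, (Pi.single i (1 : K) : Fin 3 → K) j * (x j) ^ q) = (x i) ^ q := by
      rw [Finset.sum_eq_single i]
      · simp
      · intro j _ hj
        simp [Pi.single_eq_of_ne hj]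
      · simp
    rw [Fin.sum_univ_three] at this
    rw [this]
    exact h3
  -- a vector in the kernel, off the line
  obtain ⟨z, hz, hzx⟩ : ∃ z, φ z = 0 ∧ z ∉ Submodule.span K {x} := by
    by_contra hcon
    push Not at hcon
    have hle : LinearMap.ker φ ≤ Submodule.span K {x} := fun z hz => hcon z (LinearMap.mem_ker.mp hz)
    have h1 := Submodule.finrank_mono hle
    rw [finrank_span_singleton hx0] at h1
    have h2 := LinearMap.finrank_range_add_finrank_ker φ
    have h3 : Module.finrank K (LinearMap.range φ) ≤ 1 := by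
      have := Submodule.finrank_le (LinearMap.range φ)
      simpa using this
    simp at h2
    omega
  let Q : Matrix (Fin 3) (Fin 3) K := Matrix.of fun i j => (![x, z, w] j) i
  have hQ : IsUnit Q := by
    rw [← Matrix.linearIndependent_cols_iff_isUnit]
    have hcol : Q.col = ![x, z, w] := by
      funext j i
      fin_cases j <;> rfl
    rw [hcol, Fintype.linearIndependent_iff]
    intro c hc
    rw [Fin.sum_univ_three] at hc
    simp only [Matrix.cons_val_zero, Matrix.cons_val_one, Matrix.cons_val] at hc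
    have hc2 : c 2 = 0 := by
      have := congrArg φ hc
      rw [map_add, map_add, map_smul, map_smul, map_smul, hφx, hz, map_zero] at this
      simpa [hw] using this
    rw [hc2, zero_smul, add_zero] at hc
    have hc1 : c 1 = 0 := by
      by_contra hne
      apply hzx
      have : z = (-(c 0 / c 1)) • x := by
        have h5 : c 1 • z = -(c 0 • x) := by
          rw [eq_neg_iff_add_eq_zero, add_comm]; exact hc
        calc z = (c 1)⁻¹ • (c 1 • z) := by rw [smul_smul, inv_mul_cancel₀ hne, one_smul]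
          _ = _ := by rw [h5, smul_neg, smul_smul, neg_smul, div_eq_inv_mul]
      rw [this]
      exact Submodule.smul_mem _ _ (Submodule.mem_span_singleton_self x)
    rw [hc1, zero_smul, add_zero] at hc
    have hc0 : c 0 = 0 := (smul_eq_zero.mp hc).resolve_right hx0
    intro i
    fin_cases i
    · exact hc0
    · exact hc1
    · exact hc2
  have hdet : IsUnit Q.det := (Matrix.isUnit_iff_isUnit_det Q).mp hQ
  have hQi : Q⁻¹ * Q = 1 := Matrix.nonsing_inv_mul Q hdet
  have hQi' : Q * Q⁻¹ = 1 := Matrix.mul_nonsing_inv Q hdet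
  let A : G →* Matrix (Fin 3) (Fin 3) K :=
    { toFun := fun g => Q⁻¹ * ρ g * Q
      map_one' := by rw [map_one, mul_one, hQi]
      map_mul' := by
        intro a b
        rw [map_mul]
        calc Q⁻¹ * (ρ a * ρ b) * Q = Q⁻¹ * ρ a * (Q * Q⁻¹) * ρ b * Q := by
              rw [hQi']; simp only [Matrix.mul_assoc, Matrix.mul_one]
          _ = Q⁻¹ * ρ a * Q * (Q⁻¹ * ρ b * Q) := by simp only [Matrix.mul_assoc] }
  have hA : ∀ g, A g = Q⁻¹ * ρ g * Q := fun _ => rfl
  have hQe0 : Q *ᵥ Pi.single 0 1 = x := by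
    rw [Matrix.mulVec_single_one]; rfl
  have hQe1 : Q *ᵥ Pi.single 1 1 = z := by
    rw [Matrix.mulVec_single_one]; rfl
  have hUp : ∀ g ∈ Subgroup.normalizer (T : Set G), Up (A g) := by
    intro g hg
    have hcol : ∀ j (v : Fin 3 → K), Q *ᵥ Pi.single j 1 = v → ∀ i, A g i j = (Q⁻¹ *ᵥ (ρ g *ᵥ v)) i := by
      intro j v hv i
      rw [← hv, Matrix.mulVec_mulVec, Matrix.mulVec_mulVec, ← hA, Matrix.mulVec_single_one]
      rfl
    obtain ⟨c, hc⟩ := hline g hg
    have hcol0 : ∀ i, A g i 0 = c * (Pi.single 0 1 : Fin 3 → K) i := by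
      intro i
      rw [hcol 0 x hQe0, hc, Matrix.mulVec_smul]
      have : Q⁻¹ *ᵥ x = Pi.single 0 1 := by
        rw [← hQe0, Matrix.mulVec_mulVec, hQi, Matrix.one_mulVec]
      rw [this]
      rfl
    have h2 : A g 2 1 = 0 := by
      rw [hcol 1 z hQe1]
      set y := Q⁻¹ *ᵥ (ρ g *ᵥ z) with hy
      have h3 : Q *ᵥ y = ρ g *ᵥ z := by
        rw [hy, Matrix.mulVec_mulVec, hQi', Matrix.one_mulVec]
      have h4 : Q *ᵥ y = y 0 • x + y 1 • z + y 2 • w := by
        funext i
        simp [Q, Matrix.mulVec, dotProduct, Fin.sum_univ_three]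
        ring
      have h5 := hφg g hg z hz
      rw [← h3, h4, map_add, map_add, map_smul, map_smul, map_smul, hφx, hz] at h5
      simpa [hw] using h5
    refine ⟨?_, ?_, h2⟩
    · rw [hcol0]; simp
    · rw [hcol0]; simp
  have h₁' := Subgroup.inv_mem _ h₁
  have h₂' := Subgroup.inv_mem _ h₂
  have hmain := commutator_unipotent (p := p) hp (hUp _ h₁) (hUp _ h₂) (hUp _ h₁') (hUp _ h₂')
    (by rw [← map_mul, mul_inv_cancel, map_one]) (by rw [← map_mul, mul_inv_cancel, map_one])
  rw [← map_mul, ← map_mul, ← map_mul, ← map_pow] at hmain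
  apply hinj
  rw [map_one]
  have h6 := hmain
  rw [hA] at h6
  calc ρ ((g₁ * g₂ * g₁⁻¹ * g₂⁻¹) ^ p) = Q * (Q⁻¹ * ρ ((g₁ * g₂ * g₁⁻¹ * g₂⁻¹) ^ p) * Q) * Q⁻¹ := by
        simp only [Matrix.mul_assoc, hQi', Matrix.mul_one]
        rw [← Matrix.mul_assoc, hQi', Matrix.one_mul]
    _ = 1 := by rw [h6, mul_one, hQi']

end group

/-- Let p be an odd prime, q a power of p and K a finite field with q² elements. Then Qd(p) (the natural semidirect product of an elementary abelian group of order p² by SL₂(p)) is not involved in the projective special unitary group PSU₃(q) realised over K. -/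
theorem result {p : ℕ} [Fact p.Prime] (hp : p ≠ 2) {K : Type*} [Field K] [Fintype K] [CharP K p] (n : ℕ) (hn : 1 ≤ n) (hK : Fintype.card K = (p ^ n) ^ 2) : ¬ Cfsg.Involves ↥(Cfsg.qd p) (Cfsg.PSU 3 K (p ^ n)) := by
  rintro ⟨K1, R, hN, ⟨e⟩⟩
  classical
  have hpK : p ∣ Fintype.card K := by
    rw [hK]
    exact dvd_pow (dvd_pow_self p (by omega)) (by norm_num)
  have hadd : ∀ a b : K, (a + b) ^ (p ^ n) = a ^ (p ^ n) + b ^ (p ^ n) := fun a b => add_pow_char_pow a b p n
  have hmul : ∀ a b : K, (a * b) ^ (p ^ n) = a ^ (p ^ n) * b ^ (p ^ n) := fun a b => mul_pow a b _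
  have hzero : ((0 : K) ^ (p ^ n)) = 0 :=
    zero_pow (pow_ne_zero _ (Fact.out : p.Prime).ne_zero)
  have hσ : ∀ a : K, (a ^ (p ^ n)) ^ (p ^ n) = a := by
    intro a
    rw [← pow_mul, ← pow_two, ← hK, FiniteField.pow_card]
  let mk := QuotientGroup.mk' (Subgroup.center (SU 3 K (p ^ n)))
  let K2 : Subgroup (SU 3 K (p ^ n)) := K1.comap mk
  let π : K2 →* Cfsg.qd p := e.toMonoidHom.comp ((QuotientGroup.mk' (R.subgroupOf K1)).comp (mk.subgroupComap K1))
  have hπ : Function.Surjective π :=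
    e.surjective.comp ((QuotientGroup.mk'_surjective _).comp
      (MonoidHom.subgroupComap_surjective_of_surjective mk K1 (QuotientGroup.mk'_surjective _)))
  let ρ : K2 →* Matrix (Fin 3) (Fin 3) K := (slToMat 3 K).comp ((SU 3 K (p ^ n)).subtype.comp K2.subtype)
  have hρ : ∀ g u v, hermForm 3 K (p ^ n) (ρ g *ᵥ u) (ρ g *ᵥ v) = hermForm 3 K (p ^ n) u v :=
    fun g u v => (g : SU 3 K (p ^ n)).2 u v
  have hinj : Function.Injective ρ := by
    intro a b hab
    apply Subtype.ext
    apply Subtype.ext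
    apply Subtype.ext
    exact hab
  obtain ⟨W, hWn, hWp, hW1⟩ := qd_exists_normal_pSubgroup (p := p) hp
  obtain ⟨T, hT, hT1, hTN⟩ := exists_pSubgroup_normalizer_map_eq_top π hπ W hWp hW1
  obtain ⟨x, y, hxy⟩ := qd_exists_commutator (p := p) hp
  obtain ⟨g₁, h₁, rfl⟩ := hTN x
  obtain ⟨g₂, h₂, rfl⟩ := hTN y
  apply hxy
  rw [← map_inv, ← map_inv, ← map_mul, ← map_mul, ← map_mul, ← map_pow,
    key ρ hp hpK hadd hmul hzero hσ hρ hinj T hT hT1 h₁ h₂, map_one]

end Cfsg.Agent.S2232
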