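import Cfsg.Statements.S2239
import Cfsg.Agent.Lib.Suzuki.SubSolv

set_option autoImplicit false
open Cfsg

namespace Cfsg.Agent.S2239

theorem finrank_of_card (A : Type*) [Field A] [Fintype A] [Algebra (ZMod 2) A] (n : ℕ) (hn : Fintype.card A = 2 ^ n) :
    Module.finrank (ZMod 2) A = n := by
  haveI : Fact (Nat.Prime 2) := ⟨Nat.prime_two⟩
  have := FiniteField.pow_finrank_eq_card 2 A
  rw [hn] at this
  exact Nat.pow_right_injective (le_refl 2) this

open Cfsg.Agent.Lib.Suzuki in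
/-- Normal form for a subgroup isomorphic to a smaller Suzuki group. -/
theorem normal_of_equiv {F : Type*} [Field F] [Fintype F] {m : ℕ} (hm : 1 ≤ m) (hF : Fintype.card F = 2 ^ (2 * m + 1))
    {K : Type*} [Field K] [Fintype K] {k : ℕ} (hk : 1 ≤ k) (hK : Fintype.card K = 2 ^ (2 * k + 1))
    (S : Subgroup (Cfsg.Sz F m)) (e : S ≃* Cfsg.Sz K k) :
    ∃ (g : Cfsg.Sz F m) (L : Subfield F), SubData hF hm (S.map (MulAut.conj g).toMonoidHom) L ∧ Nat.card L = 2 ^ (2 * k + 1) := by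
  classical
  rcases solvable_or_subfield hF hm S with hs | ⟨g, L, b₀, b₁, hL, h0, h1, h00, h10, h01⟩
  · exfalso
    apply not_solvable_Sz hK hk
    haveI := hs
    exact solvable_of_surjective (f := e.toMonoidHom) e.surjective
  · refine ⟨g, L, hL, ?_⟩
    obtain ⟨k', hk', hcard, hdvd⟩ := subfield_param hF L h0 h1 h00 h10 h01
    letI : Fintype L := Fintype.ofFinite _
    have hL' : Fintype.card L = 2 ^ (2 * k' + 1) := by rw [← Nat.card_eq_fintype_card, hcard]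
    obtain ⟨e'⟩ := equiv_of_data hF hm hL' hk' hdvd L.subtype hL (by
      intro x
      constructor
      · intro hx
        exact ⟨⟨x, hx⟩, rfl⟩
      · rintro ⟨a, rfl⟩
        exact a.2)
    have h2 : Nat.card (Cfsg.Sz L k') = Nat.card (Cfsg.Sz K k) := by
      rw [← Nat.card_congr e'.toEquiv, ← Nat.card_congr e.toEquiv]
      exact (Nat.card_congr (S.equivMapOfInjective _ (MulAut.conj g).injective).toEquiv).symm
    rw [card_Sz hL' hk', card_Sz hK hk] at h2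
    have h3 := order_formula_inj (a := 2 ^ (2 * k' + 1)) (b := 2 ^ (2 * k + 1)) ?_ ?_ h2
    · rw [hcard, h3]
    · calc 2 = 2 ^ 1 := rfl
        _ ≤ 2 ^ (2 * k' + 1) := Nat.pow_le_pow_right (by omega) (by omega)
    · calc 2 = 2 ^ 1 := rfl
        _ ≤ 2 ^ (2 * k + 1) := Nat.pow_le_pow_right (by omega) (by omega)


/-- Subfield subgroups of the Suzuki group: let q = 2^(2m+1) and s = 2^(2k+1) with m, k ≥ 1 and 2k+1 dividing 2m+1 (so q is a power of s), both groups realised as stabilisers in SL₄ of the Suzuki–Tits ovoid. Then Sz(q) has a subgroup isomorphic to Sz(s), and any two subgroups of Sz(q) isomorphic to Sz(s) are conjugate. -/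
theorem result {F : Type*} [Field F] [Fintype F] {m : ℕ} (hm : 1 ≤ m) (hF : Fintype.card F = 2 ^ (2 * m + 1)) {K : Type*} [Field K] [Fintype K] {k : ℕ} (hk : 1 ≤ k) (hK : Fintype.card K = 2 ^ (2 * k + 1)) (hdiv : 2 * k + 1 ∣ 2 * m + 1) :
    (∃ S : Subgroup ↥(Cfsg.Sz F m), Nonempty (↥S ≃* ↥(Cfsg.Sz K k))) ∧
    ∀ S₁ S₂ : Subgroup ↥(Cfsg.Sz F m), Nonempty (↥S₁ ≃* ↥(Cfsg.Sz K k)) → Nonempty (↥S₂ ≃* ↥(Cfsg.Sz K k)) →
      ∃ g : ↥(Cfsg.Sz F m), S₂ = S₁.map (MulAut.conj g).toMonoidHom := by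
  classical
  open Cfsg.Agent.Lib.Suzuki in
  constructor
  · haveI : Fact (Nat.Prime 2) := ⟨Nat.prime_two⟩
    haveI := charP_two hK
    haveI := charP_two hF
    letI := ZMod.algebra K 2
    letI := ZMod.algebra F 2
    obtain ⟨ι⟩ := FiniteField.nonempty_algHom_of_finrank_dvd (F := ZMod 2) (K := K) (L := F) (by
      rw [finrank_of_card _ _ hK, finrank_of_card _ _ hF]
      exact hdiv)
    exact ⟨(emb hF hm hK hk hdiv ι.toRingHom).range,
      ⟨(MonoidHom.ofInjective (emb_inj hF hm hK hk hdiv ι.toRingHom)).symm⟩⟩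
  · rintro S₁ S₂ ⟨e₁⟩ ⟨e₂⟩
    obtain ⟨g₁, L₁, h1, c1⟩ := normal_of_equiv hm hF hk hK S₁ e₁
    obtain ⟨g₂, L₂, h2, c2⟩ := normal_of_equiv hm hF hk hK S₂ e₂
    have hLL : L₁ = L₂ := subfield_unique (c1.trans c2.symm)
    subst hLL
    have h3 : S₁.map (MulAut.conj g₁).toMonoidHom = S₂.map (MulAut.conj g₂).toMonoidHom :=
      le_antisymm (data_unique h1 h2) (data_unique h2 h1)
    refine ⟨g₂⁻¹ * g₁, ?_⟩
    ext x
    rw [mem_conj_map]
    have e1 : (g₂⁻¹ * g₁)⁻¹ * x * (g₂⁻¹ * g₁) = g₁⁻¹ * (g₂ * x * g₂⁻¹) * g₁ := by group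
    rw [e1, ← mem_conj_map S₁ g₁, h3, mem_conj_map]
    have e2 : g₂⁻¹ * (g₂ * x * g₂⁻¹) * g₂ = x := by group
    rw [e2]

end Cfsg.Agent.S2239
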