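import Cfsg.Statements.S2249
import Mathlib
import Cfsg.Agent.Lib.NormRank.Lower

set_option autoImplicit false
open Cfsg

namespace Cfsg.Agent.S2249

/-- The normal 2-rank of the general linear group over a finite field of odd order q: for n ≥ 1 and S a Sylow 2-subgroup of GL_n(F), the largest rank of an elementary abelian subgroup of S that is normal in S equals n when q ≡ 1 (mod 4) and ⌊(n + 1)/2⌋ when q ≡ 3 (mod 4). -/
theorem result {F : Type*} [Field F] [Fintype F] {q : ℕ} (hF : Fintype.card F = q) (hodd : Odd q) (n : ℕ) (hn : 1 ≤ n) (S : Sylow 2 (Matrix.GeneralLinearGroup (Fin n) F)) :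
    (q % 4 = 1 → ((∃ E : Subgroup ↥(S : Subgroup (Matrix.GeneralLinearGroup (Fin n) F)), E.Normal ∧ Cfsg.IsElementaryAbelian 2 E ∧ 2 ^ (n) ≤ Nat.card ↥E) ∧
      ∀ E : Subgroup ↥(S : Subgroup (Matrix.GeneralLinearGroup (Fin n) F)), E.Normal → Cfsg.IsElementaryAbelian 2 E → Nat.card ↥E ≤ 2 ^ (n))) ∧
    (q % 4 = 3 → ((∃ E : Subgroup ↥(S : Subgroup (Matrix.GeneralLinearGroup (Fin n) F)), E.Normal ∧ Cfsg.IsElementaryAbelian 2 E ∧ 2 ^ ((n + 1) / 2) ≤ Nat.card ↥E) ∧
      ∀ E : Subgroup ↥(S : Subgroup (Matrix.GeneralLinearGroup (Fin n) F)), E.Normal → Cfsg.IsElementaryAbelian 2 E → Nat.card ↥E ≤ 2 ^ ((n + 1) / 2))) := by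
  classical
  subst hF
  haveI : Fact (Nat.Prime 2) := ⟨Nat.prime_two⟩
  have hodd' : Fintype.card F % 2 = 1 := Nat.odd_iff.1 hodd
  have h2 : (2 : F) ≠ 0 := Cfsg.Agent.Lib.NormRank.two_ne_zero_of_odd hodd'
  have hnk : n = 2 * (n / 2) + n % 2 := by omega
  have hcn := Nat.mod_two_eq_zero_or_one n
  have hA : ∀ E : Subgroup ↥(S : Subgroup (Matrix.GeneralLinearGroup (Fin n) F)), Cfsg.IsElementaryAbelian 2 E →
      (∀ a ∈ E.map (S : Subgroup (Matrix.GeneralLinearGroup (Fin n) F)).subtype,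
        ∀ b ∈ E.map (S : Subgroup (Matrix.GeneralLinearGroup (Fin n) F)).subtype, a * b = b * a) ∧
      (∀ a ∈ E.map (S : Subgroup (Matrix.GeneralLinearGroup (Fin n) F)).subtype, a * a = 1) ∧
      Nat.card ↥(E.map (S : Subgroup (Matrix.GeneralLinearGroup (Fin n) F)).subtype) = Nat.card ↥E := by
    intro E hE
    refine ⟨?_, ?_, Subgroup.card_map_of_injective (Subgroup.subtype_injective _)⟩
    · rintro _ ⟨a, ha, rfl⟩ _ ⟨b, hb, rfl⟩
      have h3 := hE.1.is_comm.comm ⟨a, ha⟩ ⟨b, hb⟩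
      exact congrArg (fun z : ↥E => ((z : ↥(S : Subgroup (Matrix.GeneralLinearGroup (Fin n) F))) :
        Matrix.GeneralLinearGroup (Fin n) F)) h3
    · rintro _ ⟨a, ha, rfl⟩
      have h3 := hE.2 a ha
      rw [pow_two] at h3
      exact congrArg (fun z : ↥(S : Subgroup (Matrix.GeneralLinearGroup (Fin n) F)) =>
        (z : Matrix.GeneralLinearGroup (Fin n) F)) h3
  refine ⟨fun h1 => ⟨?_, ?_⟩, fun h3 => ⟨?_, ?_⟩⟩
  · -- the lower bound, `q ≡ 1 (mod 4)`
    obtain ⟨D₂⟩ : Nonempty (Sylow 2 (Matrix.GeneralLinearGroup (Fin 2) F)) := ⟨default⟩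
    obtain ⟨Z', hZ'n, hZ'c, hZ'i, hZ'4⟩ :=
      Cfsg.Agent.Lib.NormRank.exists_Z_wreath (Cfsg.Agent.Lib.TwoFusion.GL2.wreathed_of_mod_four h1 D₂)
    let Z₂ : Subgroup (Matrix.GeneralLinearGroup (Fin 2) F) := Z'.map (D₂ : Subgroup _).subtype
    have hcZ : Nat.card ↥Z₂ = Nat.card ↥Z' := Subgroup.card_map_of_injective (Subgroup.subtype_injective _)
    obtain ⟨E, hE, hE2, hE3⟩ := Cfsg.Agent.Lib.NormRank.lower_general h2 hodd n (n / 2) (n % 2) hnk hcn D₂ Z₂
      (by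
        rintro _ ⟨a, _, rfl⟩
        exact a.2)
      (by
        rintro d hd _ ⟨a, ha, rfl⟩
        refine ⟨⟨d, hd⟩ * a * ⟨d, hd⟩⁻¹, hZ'n.conj_mem a ha _, ?_⟩
        simp)
      (by
        rintro _ ⟨a, ha, rfl⟩ _ ⟨b, hb, rfl⟩
        exact congrArg Subtype.val (hZ'c a ha b hb))
      (by
        rintro _ ⟨a, ha, rfl⟩
        exact congrArg Subtype.val (hZ'i a ha))
      S
    refine ⟨E, hE, hE2, le_trans ?_ hE3⟩
    rw [hcZ]
    calc 2 ^ n = 4 ^ (n / 2) * 2 ^ (n % 2) := by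
          have e : (4 : ℕ) = 2 ^ 2 := by norm_num
          rw [e, ← pow_mul, ← pow_add, ← hnk]
      _ ≤ _ := Nat.mul_le_mul_right _ (Nat.pow_le_pow_left hZ'4 _)
  · -- the upper bound, `q ≡ 1 (mod 4)`
    intro E _ hE
    obtain ⟨hc, hi, hcard⟩ := hA E hE
    rw [← hcard]
    have := Cfsg.Agent.Lib.NormRank.upper_one hc hi h2
    simpa using this
  · -- the lower bound, `q ≡ 3 (mod 4)`
    let c : Matrix.GeneralLinearGroup (Fin 2) F := -1
    have hcc : ∀ g : Matrix.GeneralLinearGroup (Fin 2) F, g * c = c * g := by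
      intro g
      simp [c]
    have hc2 : c * c = 1 := by
      simp [c]
    have hc1 : c ≠ 1 := by
      intro e
      have e1 := congrArg (fun g : Matrix.GeneralLinearGroup (Fin 2) F => (g : Matrix (Fin 2) (Fin 2) F) 0 0) e
      have e2 : (-1 : F) = 1 := by simpa [c] using e1
      apply h2
      linear_combination -e2
    have hord : orderOf c = 2 := orderOf_eq_prime (by rw [pow_two, hc2]) hc1
    let Z₂ : Subgroup (Matrix.GeneralLinearGroup (Fin 2) F) := Subgroup.zpowers c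
    have hZp : IsPGroup 2 ↥Z₂ := by
      rintro ⟨_, m, rfl⟩
      refine ⟨1, ?_⟩
      apply Subtype.ext
      show (c ^ m) ^ 2 ^ 1 = 1
      rw [← zpow_natCast, ← _root_.zpow_mul, mul_comm, _root_.zpow_mul]
      simp [pow_two, hc2]
    obtain ⟨D₂, hD₂⟩ := hZp.exists_le_sylow
    have hZcen : ∀ v : Matrix.GeneralLinearGroup (Fin 2) F, ∀ u ∈ Z₂, v * u = u * v := by
      rintro v _ ⟨m, rfl⟩
      exact ((show Commute v c from hcc v).zpow_right m).eq
    obtain ⟨E, hE, hE2, hE3⟩ := Cfsg.Agent.Lib.NormRank.lower_general h2 hodd n (n / 2) (n % 2) hnk hcn D₂ Z₂ hD₂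
      (by
        intro d _ x hx
        rw [hZcen d x hx, mul_inv_cancel_right]
        exact hx)
      (fun x _ y hy => hZcen x y hy)
      (by
        rintro _ ⟨m, rfl⟩
        show c ^ m * c ^ m = 1
        rw [← _root_.zpow_add, ← two_mul, _root_.zpow_mul, zpow_two, hc2, _root_.one_zpow])
      S
    refine ⟨E, hE, hE2, le_trans ?_ hE3⟩
    have hZ2 : Nat.card ↥Z₂ = 2 := by
      show Nat.card ↥(Subgroup.zpowers c) = 2
      rw [Nat.card_zpowers, hord]
    rw [hZ2, ← pow_add]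
    exact Nat.pow_le_pow_right (by norm_num) (by omega)
  · -- the upper bound, `q ≡ 3 (mod 4)`
    intro E hEn hE
    obtain ⟨hc, hi, hcard⟩ := hA E hE
    rw [← hcard]
    obtain ⟨t, ht⟩ := Cfsg.Agent.Lib.NormRank.exists_good h3 n
    obtain ⟨g, hTS⟩ := Cfsg.Agent.Lib.NormRank.exists_conj_mem t ht.1 S
    have hroots : ∀ l : F, l ^ 4 = 1 → l ^ 2 = 1 := by
      intro l hl
      have h5 : (l ^ 2 - 1) * (l ^ 2 + 1) = 0 := by
        linear_combination hl
      rcases mul_eq_zero.1 h5 with h6 | h6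
      · linear_combination h6
      · exfalso
        have : IsSquare (-1 : F) := ⟨l, by linear_combination -h6⟩
        exact (FiniteField.isSquare_neg_one_iff.1 this) h3
    exact Cfsg.Agent.Lib.NormRank.upper_of_good hc hi h2 _
      (Cfsg.Agent.Lib.NormRank.conj_mem_map _ E hEn _ hTS) (ht.conj g) hroots

end Cfsg.Agent.S2249
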