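import Cfsg.Statements.S2250
import Cfsg.Agent.Lib.Perm.SpWrC
import Mathlib

set_option autoImplicit false
open Cfsg

namespace Cfsg.Agent.S2250

theorem transfer_key {X Y : Type*} [Group X] [Group Y] (e : X ≃* Y) (E : Subgroup X) (hE : E.Normal) (hel : Cfsg.IsElementaryAbelian 2 E) :
    (E.map e.toMonoidHom).Normal ∧ Cfsg.IsElementaryAbelian 2 (E.map e.toMonoidHom) ∧
      Nat.card (E.map e.toMonoidHom) = Nat.card E := by
  refine ⟨hE.map _ e.surjective, ⟨⟨⟨?_⟩⟩, ?_⟩, ?_⟩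
  · rintro ⟨_, a, ha, rfl⟩ ⟨_, b, hb, rfl⟩
    apply Subtype.ext
    show e a * e b = e b * e a
    have h1 : (⟨a, ha⟩ : E) * ⟨b, hb⟩ = ⟨b, hb⟩ * ⟨a, ha⟩ := by
      haveI := hel.1
      exact mul_comm' _ _
    have h2 : a * b = b * a := congrArg Subtype.val h1
    rw [← map_mul, h2, map_mul]
  · rintro _ ⟨a, ha, rfl⟩
    show (e a) ^ 2 = 1
    rw [← map_pow, hel.2 a ha, map_one]
  · exact Nat.card_congr (Subgroup.equivMapOfInjective E e.toMonoidHom e.injective).symm.toEquiv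

theorem transfer_rank {X Y : Type*} [Group X] [Group Y] (e : X ≃* Y) [Finite X] (n : ℕ)
    (h : (∃ E : Subgroup X, E.Normal ∧ Cfsg.IsElementaryAbelian 2 E ∧ 2 ^ n ≤ Nat.card E) ∧
      ∀ E : Subgroup X, E.Normal → Cfsg.IsElementaryAbelian 2 E → Nat.card E ≤ 2 ^ n) :
    (∃ E : Subgroup Y, E.Normal ∧ Cfsg.IsElementaryAbelian 2 E ∧ 2 ^ n ≤ Nat.card E) ∧
      ∀ E : Subgroup Y, E.Normal → Cfsg.IsElementaryAbelian 2 E → Nat.card E ≤ 2 ^ n := by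
  obtain ⟨⟨E, h1, h2, h3⟩, h4⟩ := h
  obtain ⟨k1, k2, k3⟩ := transfer_key e E h1 h2
  refine ⟨⟨_, k1, k2, k3 ▸ h3⟩, fun E' hE' hel' => ?_⟩
  obtain ⟨l1, l2, l3⟩ := transfer_key e.symm E' hE' hel'
  rw [← l3]
  exact h4 _ l1 l2

/-- The normal 2-rank of the symplectic group over a finite field of odd order: for n ≥ 1 and S a Sylow 2-subgroup of Sp_{2n}(F), the largest rank of an elementary abelian subgroup of S that is normal in S equals n. -/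
theorem result {F : Type*} [Field F] [Fintype F] (hF : Odd (Fintype.card F)) (n : ℕ) (hn : 1 ≤ n) (S : Sylow 2 ↥(Matrix.symplecticGroup (Fin n) F)) :
    ((∃ E : Subgroup ↥(S : Subgroup ↥(Matrix.symplecticGroup (Fin n) F)), E.Normal ∧ Cfsg.IsElementaryAbelian 2 E ∧ 2 ^ (n) ≤ Nat.card ↥E) ∧
      ∀ E : Subgroup ↥(S : Subgroup ↥(Matrix.symplecticGroup (Fin n) F)), E.Normal → Cfsg.IsElementaryAbelian 2 E → Nat.card ↥E ≤ 2 ^ (n)) := by
  classical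
  obtain ⟨Q, A, y, w, a, D, hval⟩ := Cfsg.Agent.Lib.Perm.SpWr.exists_QData hF
  have h2 := Cfsg.Agent.Lib.Known.two_ne_zero_of_odd hF
  haveI : Fact (Nat.Prime 2) := ⟨Nat.prime_two⟩
  obtain ⟨T, hT, hG⟩ := Cfsg.Agent.Lib.Misc19.SymSylow.exists_genP_sym 2 n
  obtain ⟨P₀, hP₀⟩ := Cfsg.Agent.Lib.Perm.SpWr.exists_sylow_WW D hval hF T hT
  have hr := Cfsg.Agent.Lib.Perm.SpWr.normal_rank D h2 T
  rw [← hP₀] at hr
  exact transfer_rank (Sylow.equiv P₀ S) n hr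

end Cfsg.Agent.S2250
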