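import Cfsg.Statements.S2251
import Cfsg.Agent.Lib.Suzuki.Emb

set_option autoImplicit false
open Cfsg

namespace Cfsg.Agent.S2251

open Cfsg.Agent.Lib.Suzuki in
theorem mem_of_card {F : Type*} [Field F] [Fintype F] {m k : ℕ} (hF : Fintype.card F = 2 ^ (2 * m + 1)) (L : Subfield F)
    (hcard : Nat.card L = 2 ^ (2 * k + 1)) (hkm : k = m) (x : F) : x ∈ L := by
  classical
  haveI : Fintype L := Fintype.ofFinite _
  have h : Function.Bijective (Subtype.val : L → F) := by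
    rw [Fintype.bijective_iff_injective_and_card]
    refine ⟨Subtype.val_injective, ?_⟩
    rw [← Nat.card_eq_fintype_card, hcard, hF, hkm]
  obtain ⟨y, rfl⟩ := h.2 x
  exact y.2


/-- The subgroups of the Suzuki group: with q = 2^(2m+1), m ≥ 1, r = 2^m and the group realised as the stabiliser in SL₄ of the Suzuki–Tits ovoid, every proper subgroup is contained in the normalizer of a Sylow 2-subgroup, or in the normalizer of a cyclic subgroup of order q − 1, q + 2r + 1 or q − 2r + 1, or in a subgroup isomorphic to a smaller Suzuki group Sz(s) with s = 2^(2k+1) ≥ 8 and 2k+1 a proper divisor of 2m+1. -/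
theorem result {F : Type*} [Field F] [Fintype F] {m : ℕ} (hm : 1 ≤ m) (hF : Fintype.card F = 2 ^ (2 * m + 1)) (M : Subgroup ↥(Cfsg.Sz F m)) (hM : M ≠ ⊤) :
    (∃ P : Sylow 2 ↥(Cfsg.Sz F m), M ≤ Subgroup.normalizer ((P : Subgroup ↥(Cfsg.Sz F m)) : Set ↥(Cfsg.Sz F m))) ∨
    (∃ U : Subgroup ↥(Cfsg.Sz F m), IsCyclic ↥U ∧ Nat.card ↥U ∈ ({2 ^ (2 * m + 1) - 1, 2 ^ (2 * m + 1) + 2 ^ (m + 1) + 1, 2 ^ (2 * m + 1) - 2 ^ (m + 1) + 1} : Set ℕ) ∧
      M ≤ Subgroup.normalizer (U : Set ↥(Cfsg.Sz F m))) ∨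
    (∃ (K : Type) (_ : Field K) (_ : Fintype K) (k : ℕ), 1 ≤ k ∧ k < m ∧ Fintype.card K = 2 ^ (2 * k + 1) ∧ 2 * k + 1 ∣ 2 * m + 1 ∧
      ∃ S : Subgroup ↥(Cfsg.Sz F m), Nonempty (↥S ≃* ↥(Cfsg.Sz K k)) ∧ M ≤ S) := by
  classical
  open Cfsg.Agent.Lib.Suzuki in
  rcases subgroup_trichotomy hF hm M with ⟨p, hp, hfix⟩ | ⟨g, hg1, hg2, hg3⟩ | ⟨k₀, L, b₀, b₁, hL, h0, h1, h00, h10, h01⟩
  · left
    obtain ⟨g, hg⟩ := exists_smul_pinf hF hm hp
    refine ⟨(g⁻¹ : _) • UUs hF hm, ?_⟩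
    have hmemP : ∀ x, x ∈ (((g⁻¹ : _) • UUs hF hm : Sylow 2 _) : Subgroup (Cfsg.Sz F m)) ↔ g * x * g⁻¹ ∈ UU hF hm := by
      intro x
      rw [Sylow.coe_subgroup_smul, Subgroup.mem_pointwise_smul_iff_inv_smul_mem]
      show (MulAut.conj g⁻¹)⁻¹ x ∈ (UUs hF hm : Subgroup _) ↔ _
      rw [MulAut.conj_inv_apply, inv_inv]
      exact Iff.rfl
    intro x hx
    rw [Subgroup.mem_normalizer_iff]
    intro h
    have hb : g * x * g⁻¹ ∈ BB F m := by
      rw [MulAction.mem_stabilizer_iff, mul_smul, mul_smul, ← hg, inv_smul_smul, hfix x hx]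
    rw [← normalizer_UU hF hm, Subgroup.mem_normalizer_iff] at hb
    have e : (g * x * g⁻¹) * (g * h * g⁻¹) * (g * x * g⁻¹)⁻¹ = g * (x * h * x⁻¹) * g⁻¹ := by group
    rw [hmemP, hmemP]
    have := hb (g * h * g⁻¹)
    rw [this, e]
  · right; left
    obtain ⟨h1, h2⟩ := odd_block hF hm hg1 hg2
    exact ⟨Subgroup.centralizer {g}, h1, h2, hg3⟩
  · right; right
    obtain ⟨k, hk1, hcard, hdvd⟩ := subfield_param hF L h0 h1 h00 h10 h01
    have hkm : k < m := by
      have hle := Nat.le_of_dvd (by omega) hdvd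
      by_contra hcon
      have hkm : k = m := by omega
      apply hM
      have hall := mem_of_card hF L hcard hkm
      rw [eq_top_iff]
      intro x _
      have hx : k₀ * x * k₀⁻¹ ∈ M.map (MulAut.conj k₀).toMonoidHom := by
        rcases bruhatG hF hm (k₀ * x * k₀⁻¹) with ⟨a, b, t, e⟩ | ⟨x', y, a, b, t, e⟩
        · rw [e]
          exact Subgroup.mul_mem _ (hL.hu _ _ (hall _) (hall _)) (hL.ht _ (hall _))
        · rw [e]
          exact Subgroup.mul_mem _ (Subgroup.mul_mem _ (hL.hu _ _ (hall _) (hall _)) hL.hw)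
            (Subgroup.mul_mem _ (hL.hu _ _ (hall _) (hall _)) (hL.ht _ (hall _)))
      have := (mem_conj_map M k₀ _).mp hx
      have e : k₀⁻¹ * (k₀ * x * k₀⁻¹) * k₀ = x := by group
      rwa [e] at this
    haveI : Fact (Nat.Prime 2) := ⟨Nat.prime_two⟩
    letI : Fintype (GaloisField 2 (2 * k + 1)) := Fintype.ofFinite _
    have hKc : Fintype.card (GaloisField 2 (2 * k + 1)) = 2 ^ (2 * k + 1) := by
      rw [← Nat.card_eq_fintype_card]
      exact GaloisField.card 2 _ (by omega)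
    letI : Fintype L := Fintype.ofFinite _
    have e : (GaloisField 2 (2 * k + 1)) ≃+* L :=
      FiniteField.ringEquivOfCardEq (by rw [hKc, ← Nat.card_eq_fintype_card, hcard])
    refine ⟨GaloisField 2 (2 * k + 1), inferInstance, inferInstance, k, hk1, hkm, hKc, hdvd, M, ?_, le_rfl⟩
    obtain ⟨eq⟩ := equiv_of_data hF hm hKc hk1 hdvd (L.subtype.comp e.toRingHom) hL (by
      intro x
      constructor
      · intro hx
        exact ⟨e.symm ⟨x, hx⟩, by simp⟩
      · rintro ⟨a, rfl⟩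
        exact (e a).2)
    exact ⟨(M.equivMapOfInjective _ (MulAut.conj k₀).injective).trans eq⟩

end Cfsg.Agent.S2251
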