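-- Statement S2254: largest nilpotent subgroups of S_n for n ≡ 3 mod 4.
import Cfsg.Statements.S2254
import Cfsg.Agent.Lib.KnownSimple.NilpMax

set_option autoImplicit false
open Cfsg

namespace Cfsg.Agent.S2254

open Equiv Equiv.Perm Cfsg.Agent.Lib.KnownSimple.NilpNumeric Cfsg.Agent.Lib.KnownSimple.NilpPerm
  Cfsg.Agent.Lib.KnownSimple.NilpMax

/-- Let n ≡ 3 (mod 4). Then every nilpotent subgroup of the symmetric group on n letters has order at most 3 times the order of a Sylow 2-subgroup of the symmetric group on n − 3 letters; the bound is attained by a nilpotent subgroup isomorphic to the direct product of such a Sylow 2-subgroup with a cyclic group of order 3; and any two nilpotent subgroups attaining the bound are conjugate. -/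
theorem result  (n : ℕ) (hn : n % 4 = 3)
    (P : Sylow 2 (Equiv.Perm (Fin (n - 3)))) :
    (∀ N : Subgroup (Equiv.Perm (Fin n)), Group.IsNilpotent N → Nat.card N ≤ 3 * Nat.card P) ∧
    (∃ M : Subgroup (Equiv.Perm (Fin n)), Group.IsNilpotent M ∧ Nat.card M = 3 * Nat.card P ∧
      Nonempty (M ≃* (↥(P : Subgroup (Equiv.Perm (Fin (n - 3)))) × Multiplicative (ZMod 3)))) ∧
    (∀ N₁ N₂ : Subgroup (Equiv.Perm (Fin n)), Group.IsNilpotent N₁ → Group.IsNilpotent N₂ →
      Nat.card N₁ = 3 * Nat.card P → Nat.card N₂ = 3 * Nat.card P →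
      ∃ g : Equiv.Perm (Fin n), N₂ = N₁.map (MulAut.conj g).toMonoidHom) := by
  have h3n : n - 3 + 3 = n := by omega
  have hF2 : Fact (Nat.Prime 2) := ⟨Nat.prime_two⟩
  have hPcard : Nat.card P = 2 ^ v (n - 3) := by
    rw [P.card_eq_multiplicity, Nat.card_perm, Nat.card_fin]
    rfl
  refine ⟨fun N hN => ?_, ?_, fun N₁ N₂ hN₁ hN₂ h₁ h₂ => ?_⟩
  · have h := card_le_F n (Fin n) N (by simp) hN
    rw [F_of_three hn] at h
    rw [hPcard]
    exact h
  · let Ψ : Perm (Fin (n - 3)) × Subgroup.zpowers c3 →* Perm (Fin n) :=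
      (embHom h3n).comp (MonoidHom.prodMap (MonoidHom.id _) (Subgroup.zpowers c3).subtype)
    have hinj : Function.Injective Ψ := by
      refine (embHom_injective h3n).comp ?_
      exact Function.Injective.prodMap Function.injective_id (Subgroup.subtype_injective _)
    exact exists_max_nilp Ψ hinj _ (P.isPGroup'.isNilpotent) card_zpowers_c3
  · rw [hPcard] at h₁ h₂
    obtain ⟨c₁, _, hc₁, Q₁, _, hQ₁, hcomm₁, hN₁'⟩ := exists_three_decomp N₁ hN₁ h₁
    obtain ⟨c₂, _, hc₂, Q₂, _, hQ₂, hcomm₂, hN₂'⟩ := exists_three_decomp N₂ hN₂ h₂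
    have hcardX : Fintype.card (Fin n) = n := Fintype.card_fin n
    have ht : 6 ≤ Fintype.card (Fin n) → v (Fintype.card (Fin n) - 4) < v (n - 3) := by
      rw [hcardX]
      intro h6
      have e : n - 3 = (n - 4) + 1 := by omega
      have := v_step_four (n := n - 4) (by omega)
      rw [← e] at this
      omega
    have h3₁ := isThreeCycle_of_commuting hc₁ Q₁ hQ₁ hcomm₁ ht
    have h3₂ := isThreeCycle_of_commuting hc₂ Q₂ hQ₂ hcomm₂ ht
    have hconj : IsConj c₁ c₂ := by
      rw [isConj_iff_cycleType_eq, h3₁.cycleType, h3₂.cycleType]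
    have hrep : c₂.cycleType = Multiset.replicate 1 3 := by
      rw [h3₂.cycleType, Multiset.replicate_one]
    have hS : Nat.card Q₂ = 2 ^ (Nat.card (Subgroup.centralizer {c₂})).factorization 2 := by
      rw [factorization_card_centralizer le_rfl hrep, hcardX, v_one, add_zero, mul_one, hQ₂]
    obtain ⟨g, hg⟩ := exists_conj_of_sylow hconj hcomm₁ hcomm₂ (hQ₁.trans hQ₂.symm) hS
    exact ⟨g, by rw [hN₁', hN₂', hg]⟩

end Cfsg.Agent.S2254
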