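-- Statement S2255: nilpotent subgroups of A_n, n ≢ 3 mod 4, n ∉ {5,6,9}.
import Cfsg.Statements.S2255
import Cfsg.Agent.Lib.KnownSimple.NilpAlt

set_option autoImplicit false
open Cfsg

namespace Cfsg.Agent.S2255

open Equiv Equiv.Perm Cfsg.Agent.Lib.KnownSimple.NilpNumeric Cfsg.Agent.Lib.KnownSimple.NilpPerm
  Cfsg.Agent.Lib.KnownSimple.NilpAlt

/-- Let n be a natural number not congruent to 3 modulo 4, with n ∉ {5, 6, 9}. Then every nilpotent subgroup of the alternating group on n letters has order at most the order of a Sylow 2-subgroup of the alternating group (so the nilpotent subgroups of largest order are exactly the Sylow 2-subgroups). -/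
theorem result  (n : ℕ) (hn : n % 4 ≠ 3)
    (h5 : n ≠ 5) (h6 : n ≠ 6) (h9 : n ≠ 9)
    (N : Subgroup (alternatingGroup (Fin n))) (hN : Group.IsNilpotent N)
    (P : Sylow 2 (alternatingGroup (Fin n))) :
    Nat.card N ≤ Nat.card P := by
  have hF : Fact (Nat.Prime 2) := ⟨Nat.prime_two⟩
  let N' : Subgroup (Perm (Fin n)) := N.map (alternatingGroup (Fin n)).subtype
  have e : N ≃* N' := Subgroup.equivMapOfInjective _ _ (Subgroup.subtype_injective _)
  have hcard : Nat.card N = Nat.card N' := Nat.card_congr e.toEquiv
  have hN' : Group.IsNilpotent N' := (Group.isNilpotent_congr e).mp hN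
  have hG := card_le_G n (Fin n) N' (by simp) hN' (by
    rintro _ ⟨x, _, rfl⟩
    exact x.2)
  rw [hcard]
  refine hG.trans ?_
  by_cases h2 : 2 ≤ n
  · rw [G_gen h2 (by omega) h5 h6 h9 hn, P.card_eq_multiplicity, factorization_card_alt h2]
  · have : G n = 1 := by
      have hn' : n = 0 ∨ n = 1 := by omega
      rcases hn' with rfl | rfl
      · exact G_zero
      · exact G_one
    rw [this]
    exact Nat.card_pos

end Cfsg.Agent.S2255
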