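-- Statement S2256: largest nilpotent subgroups of A_n for n ≡ 3 mod 4, n ≥ 7.
import Cfsg.Statements.S2256
import Cfsg.Agent.Lib.KnownSimple.NilpAlt

set_option autoImplicit false
open Cfsg

namespace Cfsg.Agent.S2256

open Equiv Equiv.Perm Cfsg.Agent.Lib.KnownSimple.NilpNumeric Cfsg.Agent.Lib.KnownSimple.NilpPerm
  Cfsg.Agent.Lib.KnownSimple.NilpMax Cfsg.Agent.Lib.KnownSimple.NilpAlt

/-- Let n ≡ 3 (mod 4) with n ≥ 7. Then every nilpotent subgroup of the alternating group on n letters has order at most 3 times the order of a Sylow 2-subgroup of the alternating group on n − 3 letters; the bound is attained by a nilpotent subgroup isomorphic to the direct product of such a Sylow 2-subgroup with a cyclic group of order 3; and any two nilpotent subgroups of the alternating group attaining the bound are conjugate in it. -/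
theorem result  (n : ℕ) (hn : n % 4 = 3) (h7 : 7 ≤ n)
    (P : Sylow 2 (alternatingGroup (Fin (n - 3)))) :
    (∀ N : Subgroup (alternatingGroup (Fin n)), Group.IsNilpotent N → Nat.card N ≤ 3 * Nat.card P) ∧
    (∃ M : Subgroup (alternatingGroup (Fin n)), Group.IsNilpotent M ∧ Nat.card M = 3 * Nat.card P ∧
      Nonempty (M ≃* (↥(P : Subgroup (alternatingGroup (Fin (n - 3)))) × Multiplicative (ZMod 3)))) ∧
    (∀ N₁ N₂ : Subgroup (alternatingGroup (Fin n)), Group.IsNilpotent N₁ → Group.IsNilpotent N₂ →
      Nat.card N₁ = 3 * Nat.card P → Nat.card N₂ = 3 * Nat.card P →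
      ∃ g : alternatingGroup (Fin n), N₂ = N₁.map (MulAut.conj g).toMonoidHom) := by
  have h3n : n - 3 + 3 = n := by omega
  have hF2 : Fact (Nat.Prime 2) := ⟨Nat.prime_two⟩
  have hn4 : 2 ≤ n - 3 := by omega
  have hPcard : Nat.card P = 2 ^ (v (n - 3) - 1) := by
    rw [P.card_eq_multiplicity, factorization_card_alt hn4]
  refine ⟨fun N hN => ?_, ?_, fun N₁ N₂ hN₁ hN₂ h₁ h₂ => ?_⟩
  · let N' : Subgroup (Perm (Fin n)) := N.map (alternatingGroup (Fin n)).subtype
    have e : N ≃* N' := Subgroup.equivMapOfInjective _ _ (Subgroup.subtype_injective _)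
    have hcard : Nat.card N = Nat.card N' := Nat.card_congr e.toEquiv
    have hN' : Group.IsNilpotent N' := (Group.isNilpotent_congr e).mp hN
    have hG := card_le_G n (Fin n) N' (by simp) hN' (by
      rintro _ ⟨x, _, rfl⟩
      exact x.2)
    rw [G_gen3 (by omega) hn] at hG
    rw [hcard, hPcard]
    exact hG
  · have hsign : ∀ x : alternatingGroup (Fin (n - 3)) × Subgroup.zpowers c3,
        embHom h3n (x.1.1, x.2.1) ∈ alternatingGroup (Fin n) := by
      rintro ⟨a, z⟩
      rw [mem_alternatingGroup, sign_embHom]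
      have h1 : sign (a : Perm (Fin (n - 3))) = 1 := a.2
      have h2 : sign (z : Perm (Fin 3)) = 1 := by
        obtain ⟨k, hk⟩ := z.2
        rw [← hk, map_zpow, c3_isThreeCycle.sign, one_zpow]
      rw [h1, h2, one_mul]
    let Ψ : alternatingGroup (Fin (n - 3)) × Subgroup.zpowers c3 →* alternatingGroup (Fin n) :=
      MonoidHom.codRestrict
        ((embHom h3n).comp (MonoidHom.prodMap (alternatingGroup (Fin (n - 3))).subtype
          (Subgroup.zpowers c3).subtype)) (alternatingGroup (Fin n)) hsign
    have hinj : Function.Injective Ψ := by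
      intro a b hab
      have h1 : embHom h3n (a.1.1, a.2.1) = embHom h3n (b.1.1, b.2.1) := congrArg Subtype.val hab
      have h2 := embHom_injective h3n h1
      exact Prod.ext (Subtype.ext (Prod.ext_iff.mp h2).1) (Subtype.ext (Prod.ext_iff.mp h2).2)
    exact exists_max_nilp Ψ hinj _ (P.isPGroup'.isNilpotent) card_zpowers_c3
  · rw [hPcard] at h₁ h₂
    obtain ⟨c₁, _, hc₁, Q₁, _, hQ₁, hcomm₁, hN₁'⟩ := exists_three_decomp N₁ hN₁ h₁
    obtain ⟨c₂, _, hc₂, Q₂, _, hQ₂, hcomm₂, hN₂'⟩ := exists_three_decomp N₂ hN₂ h₂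
    have hcardX : Fintype.card (Fin n) = n := Fintype.card_fin n
    have ht : 6 ≤ Fintype.card (Fin n) → v (Fintype.card (Fin n) - 4) < v (n - 3) - 1 := by
      rw [hcardX]
      intro h6
      have e : n - 3 = (n - 4) + 1 := by omega
      have := v_step_four (n := n - 4) (by omega)
      rw [← e] at this
      omega
    have key : ∀ (c : alternatingGroup (Fin n)) (Q : Subgroup (alternatingGroup (Fin n))),
        orderOf c = 3 → Nat.card Q = 2 ^ (v (n - 3) - 1) → (∀ x ∈ Q, x * c = c * x) →
        (c : Perm (Fin n)).IsThreeCycle := by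
      intro c Q hc hQ hcomm
      refine isThreeCycle_of_commuting (Q := Q.map (alternatingGroup (Fin n)).subtype)
        (by rw [← Subgroup.orderOf_coe] at hc; exact hc) ?_ ?_ ht
      · rw [Subgroup.card_map_of_injective (Subgroup.subtype_injective _), hQ]
      · rintro _ ⟨x, hx, rfl⟩
        exact congrArg Subtype.val (hcomm x hx)
    have h3₁ := key c₁ Q₁ hc₁ hQ₁ hcomm₁
    have h3₂ := key c₂ Q₂ hc₂ hQ₂ hcomm₂
    have hconj : IsConj c₁ c₂ :=
      alternatingGroup.isThreeCycle_isConj (by rw [Nat.card_fin]; omega) h3₁ h3₂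
    have hrep : (c₂ : Perm (Fin n)).cycleType = Multiset.replicate 1 3 := by
      rw [h3₂.cycleType, Multiset.replicate_one]
    have hnot : ¬ Subgroup.centralizer {(c₂ : Perm (Fin n))} ≤ alternatingGroup (Fin n) := by
      rw [centralizer_le_alternating_iff, h3₂.cycleType]
      simp only [Multiset.sum_singleton, hcardX]
      omega
    have hcent := card_centralizer_alt c₂ hnot
    have hfac := factorization_card_centralizer le_rfl hrep
    rw [← hcent, Nat.factorization_mul Nat.card_pos.ne' (by norm_num), Finsupp.add_apply,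
      Nat.Prime.factorization_self Nat.prime_two, hcardX, v_one, add_zero, mul_one] at hfac
    have hS : Nat.card Q₂ = 2 ^ (Nat.card (Subgroup.centralizer {c₂})).factorization 2 := by
      rw [hQ₂]
      congr 1
      omega
    obtain ⟨g, hg⟩ := exists_conj_of_sylow hconj hcomm₁ hcomm₂ (hQ₁.trans hQ₂.symm) hS
    exact ⟨g, by rw [hN₁', hN₂', hg]⟩

end Cfsg.Agent.S2256
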