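import Cfsg.Statements.S2259
import Cfsg.Agent.Lib.Suzuki.SolE

set_option autoImplicit false
open Cfsg

namespace Cfsg.Agent.S2259

open Cfsg.Agent.Lib.Suzuki

theorem solvable_closure_iff {A B : Type*} [Group A] [Group B] (E : A ≃* B) (a b : A) :
    Group.IsSolvable (Subgroup.closure ({E a, E b} : Set B)) ↔ Group.IsSolvable (Subgroup.closure ({a, b} : Set A)) := by
  have e1 : Subgroup.closure ({E a, E b} : Set B) = (Subgroup.closure ({a, b} : Set A)).map E.toMonoidHom := by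
    rw [MonoidHom.map_closure]
    congr 1
    ext z
    simp [Set.mem_image, eq_comm]
  rw [e1]
  have e2 := (Subgroup.closure ({a, b} : Set A)).equivMapOfInjective E.toMonoidHom E.injective
  constructor
  · intro h
    exact solvable_of_surjective (f := e2.symm.toMonoidHom) e2.symm.surjective
  · intro h
    exact solvable_of_surjective (f := e2.toMonoidHom) e2.surjective

theorem common_q {m c : ℕ} (h1 : c ∣ 2 ^ (2 * m + 1) - 1) (h3 : c ∣ (2 ^ (2 * m + 1)) ^ 2 + 1) : c = 1 := by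
  have hrel : (2 ^ (2 * m + 1)) ^ 2 + 1 = (2 ^ (2 * m + 1) - 1) * (2 ^ (2 * m + 1) + 1) + 2 := by
    have hq1 : 1 ≤ 2 ^ (2 * m + 1) := Nat.one_le_two_pow
    zify [hq1]
    ring
  rw [hrel] at h3
  have h4 := (Nat.dvd_add_right (Dvd.dvd.mul_right h1 _)).mp h3
  have h5 : ¬ 2 ∣ c := fun h => odd_qq (m := m) (by rw [hrel]; exact (h.trans (Dvd.dvd.add (Dvd.dvd.mul_right h1 _) h4)))
  have h6 := Nat.le_of_dvd (by norm_num) h4
  interval_cases c
  · simp at h4
  · rfl
  · exact absurd (dvd_refl 2) h5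

/-- The identification of a derangement from the order. -/
theorem der_of_order {F : Type*} [Field F] [Fintype F] {m : ℕ} (hm : 1 ≤ m) (hF : Fintype.card F = 2 ^ (2 * m + 1))
    {x : Cfsg.Sz F m} (hx : x ≠ 1) {c : ℕ} (hc : c ∣ (2 ^ (2 * m + 1)) ^ 2 + 1) (ho : orderOf x ∣ c) : Der x := by
  by_contra hder
  have ho' := ho.trans hc
  have hoddc : ¬ 2 ∣ orderOf x := fun h => odd_qq (m := m) (h.trans ho')
  rcases not_der_cases hF hm hx hder with h | ⟨k, s, hs, hk⟩
  · exact hx (pow_odd_eq_one_of_pow_four hoddc h)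
  · have h1 : x = k⁻¹ * tG hF s * k := by
      rw [← hk]
      group
    have h2 : x ^ (2 ^ (2 * m + 1) - 1) = 1 := by
      have e := conj_pow (a := k⁻¹) (b := tG hF s) (i := 2 ^ (2 * m + 1) - 1)
      rw [inv_inv, tG_pow_card_sub_one hF, mul_one, inv_mul_cancel] at e
      rw [h1]
      exact e
    have h3 := common_q (orderOf_dvd_of_pow_eq_one h2) ho'
    exact hx (orderOf_eq_one_iff.mp h3)


/-- Let G be the Suzuki group Sz(q), q = 2^(2m+1) with 2m + 1 prime and m ≥ 1, realised inside Sp_4(F) for F the field of order q, write r = 2^(m+1) (so r² = 2q), and for x ∈ G call the solubilizer of x the set of y ∈ G such that x and y generate a solvable subgroup. Then the solubilizer of an involution has q²(4q − 3) elements; that of an element of order 4 has q²(q + 3) elements; that of a non-identity element of order dividing q − 1 has 2q²(q − 1) elements; that of a non-identity element of order dividing q + r + 1 has 4(q + r + 1) elements; and that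 of a non-identity element of order dividing q − r + 1 has 4(q − r + 1) elements. -/
theorem result {F : Type*} [Field F] [Fintype F] {m : ℕ} (hm : 1 ≤ m)
    (hp : (2 * m + 1).Prime) (hF : Fintype.card F = 2 ^ (2 * m + 1)) (x : ↥(Cfsg.Lie.Sz F (2 ^ (m + 1)))) :
    (orderOf x = 2 → Nat.card {y : ↥(Cfsg.Lie.Sz F (2 ^ (m + 1))) // Group.IsSolvable ↥(Subgroup.closure ({x, y} : Set (↥(Cfsg.Lie.Sz F (2 ^ (m + 1))))))} = (2 ^ (2 * m + 1)) ^ 2 * (4 * 2 ^ (2 * m + 1) - 3)) ∧
    (orderOf x = 4 → Nat.card {y : ↥(Cfsg.Lie.Sz F (2 ^ (m + 1))) // Group.IsSolvable ↥(Subgroup.closure ({x, y} : Set (↥(Cfsg.Lie.Sz F (2 ^ (m + 1))))))} = (2 ^ (2 * m + 1)) ^ 2 * (2 ^ (2 * m + 1) + 3)) ∧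
    (x ≠ 1 → orderOf x ∣ 2 ^ (2 * m + 1) - 1 →
      Nat.card {y : ↥(Cfsg.Lie.Sz F (2 ^ (m + 1))) // Group.IsSolvable ↥(Subgroup.closure ({x, y} : Set (↥(Cfsg.Lie.Sz F (2 ^ (m + 1))))))} = 2 * (2 ^ (2 * m + 1)) ^ 2 * (2 ^ (2 * m + 1) - 1)) ∧
    (x ≠ 1 → orderOf x ∣ 2 ^ (2 * m + 1) + 2 ^ (m + 1) + 1 → Nat.card {y : ↥(Cfsg.Lie.Sz F (2 ^ (m + 1))) // Group.IsSolvable ↥(Subgroup.closure ({x, y} : Set (↥(Cfsg.Lie.Sz F (2 ^ (m + 1))))))} = 4 * (2 ^ (2 * m + 1) + 2 ^ (m + 1) + 1)) ∧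
    (x ≠ 1 → orderOf x ∣ 2 ^ (2 * m + 1) - 2 ^ (m + 1) + 1 → Nat.card {y : ↥(Cfsg.Lie.Sz F (2 ^ (m + 1))) // Group.IsSolvable ↥(Subgroup.closure ({x, y} : Set (↥(Cfsg.Lie.Sz F (2 ^ (m + 1))))))} = 4 * (2 ^ (2 * m + 1) - 2 ^ (m + 1) + 1)) := by
  classical
  set E := szEquiv hF hm with hE
  set x₀ : Cfsg.Sz F m := E.symm x with hx₀
  have hxx : x = E x₀ := by simp [hx₀]
  have hmain : Nat.card {y : ↥(Cfsg.Lie.Sz F (2 ^ (m + 1))) // Group.IsSolvable ↥(Subgroup.closure ({x, y} : Set (↥(Cfsg.Lie.Sz F (2 ^ (m + 1))))))} =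
      Nat.card {y : Cfsg.Sz F m // SolR x₀ y} := by
    apply Nat.card_congr
    refine Equiv.subtypeEquiv E.symm.toEquiv ?_
    intro y
    have e1 : y = E (E.symm y) := by simp
    have e2 := solvable_closure_iff E x₀ (E.symm y)
    rw [← hxx, ← e1] at e2
    rw [e2, solv_iff hF hm hp]
    rfl
  have hord : orderOf x = orderOf x₀ := by
    rw [hxx]
    exact MulEquiv.orderOf_eq E x₀
  have hne : x ≠ 1 → x₀ ≠ 1 := by
    intro h1 h2
    apply h1
    rw [hxx, h2, map_one]
  rw [hmain, hord]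
  refine ⟨?_, ?_, ?_, ?_, ?_⟩
  · intro h
    have h1 : x₀ * x₀ = 1 := by
      have := pow_orderOf_eq_one x₀
      rw [h, sq] at this
      exact this
    have h2 : x₀ ≠ 1 := by
      rintro e
      rw [e, orderOf_one] at h
      omega
    exact card_SolR_inv hF hm h1 h2
  · intro h
    have h1 : x₀ ^ 4 = 1 := by
      have := pow_orderOf_eq_one x₀
      rwa [h] at this
    have h2 : x₀ * x₀ ≠ 1 := by
      intro e
      have h3 : orderOf x₀ ∣ 2 := orderOf_dvd_of_pow_eq_one (by rw [sq, e])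
      rw [h] at h3
      omega
    exact card_SolR_four hF hm h1 h2
  · intro h1 h2
    have h3 := hne h1
    have hoddc : ¬ 2 ∣ orderOf x₀ := fun h => odd_q_sub_one m (h.trans h2)
    have hder : ¬ Der x₀ := by
      intro hd
      have := common_q h2 (der_orderOf_dvd hF hm hd)
      exact h3 (orderOf_eq_one_iff.mp this)
    rcases not_der_cases hF hm h3 hder with h | ⟨k, s, hs, hk⟩
    · exact absurd (pow_odd_eq_one_of_pow_four hoddc h) h3
    · rw [← card_SolR_conj k x₀, hk]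
      exact card_SolR_split hF hm hs
  · intro h1 h2
    have h3 := hne h1
    have hd : Der x₀ := der_of_order hm hF h3 (Dvd.intro _ (pm_mul m)) h2
    rw [card_SolR_der hF hm hd]
    rcases der_centralizer_card hF hm hd with h | h
    · exact congrArg (fun z => 4 * z) h
    · exfalso
      have h4 : orderOf x₀ ∣ Nat.card (Cz x₀) := Subgroup.orderOf_dvd_natCard _ (self_mem_Cz x₀)
      have h5 : orderOf x₀ ∣ 2 ^ (2 * m + 1) - 2 ^ (m + 1) + 1 := by
        have e : Nat.card (Cz x₀) = _ := h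
        rwa [e] at h4
      have h6 := Nat.Coprime.eq_one_of_dvd (Nat.Coprime.coprime_dvd_left h2 (pm_coprime m)) h5
      exact h3 (orderOf_eq_one_iff.mp h6)
  · intro h1 h2
    have h3 := hne h1
    have hd : Der x₀ := der_of_order hm hF h3 (Dvd.intro_left _ (pm_mul m)) h2
    rw [card_SolR_der hF hm hd]
    rcases der_centralizer_card hF hm hd with h | h
    · exfalso
      have h4 : orderOf x₀ ∣ Nat.card (Cz x₀) := Subgroup.orderOf_dvd_natCard _ (self_mem_Cz x₀)
      have h5 : orderOf x₀ ∣ 2 ^ (2 * m + 1) + 2 ^ (m + 1) + 1 := by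
        have e : Nat.card (Cz x₀) = _ := h
        rwa [e] at h4
      have h6 := Nat.Coprime.eq_one_of_dvd (Nat.Coprime.coprime_dvd_left h2 (pm_coprime m).symm) h5
      exact h3 (orderOf_eq_one_iff.mp h6)
    · exact congrArg (fun z => 4 * z) h

end Cfsg.Agent.S2259
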