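import Cfsg.Statements.S2268

set_option autoImplicit false
open Cfsg

namespace Cfsg.Agent.S2268

private lemma conj_eq_of_mem_centralizer {G : Type*} [Group G] {S : Subgroup G} {c y : G}
    (hc : c ∈ Subgroup.centralizer (S : Set G)) (hy : y ∈ S) : c * y * c⁻¹ = y := by
  have := (Subgroup.mem_centralizer_iff.mp hc) y hy
  rw [← this]; group

private lemma centralizer_le_norm {G : Type*} [Group G] (S : Subgroup G) :
    Subgroup.centralizer (S : Set G) ≤ Subgroup.normalizer (S : Set G) := by
  intro c hc
  rw [Subgroup.mem_normalizer_iff]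
  intro x
  constructor
  · intro hx
    rw [conj_eq_of_mem_centralizer hc hx]; exact hx
  · intro hx
    have h1 := conj_eq_of_mem_centralizer hc hx
    have h2 : c * x * c⁻¹ = x := mul_left_cancel (mul_right_cancel h1)
    rw [h2] at hx; exact hx

private lemma conj_mem_of_mem_normalizer {G : Type*} [Group G] {S : Subgroup G} {n y : G}
    (hn : n ∈ Subgroup.normalizer (S : Set G)) (hy : y ∈ S) : n⁻¹ * y * n ∈ S := by
  have := (Subgroup.mem_normalizer_iff.mp (Subgroup.inv_mem _ hn) y).mp hy
  simpa using this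

/-- Let G be a finite group with an abelian Sylow p-subgroup P and let Q ≤ P. Then N_G(Q) = (N_G(Q) ∩ N_G(P))·C_G(Q), so that N_G(Q)/C_G(Q) is a homomorphic image of the subgroup (N_G(Q) ∩ N_G(P))/C_G(P) of N_G(P)/C_G(P); in particular the order of N_G(Q)/C_G(Q) divides the order of N_G(P)/C_G(P). -/
theorem result {G : Type*} [Group G] [Finite G] {p : ℕ} [Fact p.Prime]
    (P : Sylow p G) (hP : IsMulCommutative (P : Subgroup G)) (Q : Subgroup G) (hQ : Q ≤ (P : Subgroup G)) :
    Subgroup.normalizer (Q : Set G) =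
      (Subgroup.normalizer (Q : Set G) ⊓ Subgroup.normalizer ((P : Subgroup G) : Set G)) ⊔ Subgroup.centralizer (Q : Set G) ∧
    ((Subgroup.centralizer (Q : Set G)).subgroupOf (Subgroup.normalizer (Q : Set G))).index ∣ ((Subgroup.centralizer ((P : Subgroup G) : Set G)).subgroupOf (Subgroup.normalizer ((P : Subgroup G) : Set G))).index := by
  classical
  set N := Subgroup.normalizer (Q : Set G) with hN
  set C := Subgroup.centralizer (Q : Set G) with hC
  set NP := Subgroup.normalizer ((P : Subgroup G) : Set G) with hNP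
  set CP := Subgroup.centralizer ((P : Subgroup G) : Set G) with hCP
  have hCN : C ≤ N := centralizer_le_norm Q
  have hPC : (P : Subgroup G) ≤ C := by
    intro x hx
    rw [hC, Subgroup.mem_centralizer_iff]
    intro y hy
    have := hP.is_comm.comm ⟨x, hx⟩ ⟨y, hQ hy⟩
    have h' := congrArg Subtype.val this
    exact h'.symm
  have key : N ≤ (N ⊓ NP) ⊔ C := by
    intro g hg
    -- the conjugate of P by g lies in C
    have h2 : ((g • P : Sylow p G) : Subgroup G) ≤ C := by
      intro x hx
      rw [Sylow.coe_subgroup_smul, Subgroup.mem_smul_pointwise_iff_exists] at hx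
      obtain ⟨y, hy, rfl⟩ := hx
      rw [hC, Subgroup.mem_centralizer_iff]
      intro z hz
      have hz' : g⁻¹ * z * g ∈ Q := conj_mem_of_mem_normalizer hg hz
      have hyC := hPC hy
      rw [hC, Subgroup.mem_centralizer_iff] at hyC
      have := hyC _ hz'
      change z * (g * y * g⁻¹) = g * y * g⁻¹ * z
      calc z * (g * y * g⁻¹) = g * ((g⁻¹ * z * g) * y) * g⁻¹ := by group
        _ = g * (y * (g⁻¹ * z * g)) * g⁻¹ := by rw [this]
        _ = g * y * g⁻¹ * z := by group
    obtain ⟨h, hh⟩ := MulAction.exists_smul_eq C ((g • P).subtype h2) (P.subtype hPC)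
    simp_rw [Sylow.smul_subtype, Subgroup.smul_def, smul_smul] at hh
    have hhg : (h : G) * g ∈ NP := Sylow.smul_eq_iff_mem_normalizer.mp (Sylow.subtype_injective hh)
    have hhN : (h : G) * g ∈ N := N.mul_mem (hCN h.2) hg
    have : g = (h : G)⁻¹ * ((h : G) * g) := by group
    rw [this, sup_comm]
    exact Subgroup.mul_mem_sup (C.inv_mem h.2) ⟨hhN, hhg⟩
  have hEq : N = (N ⊓ NP) ⊔ C := le_antisymm key (sup_le inf_le_left hCN)
  refine ⟨hEq, ?_⟩
  -- the index computation
  set A := N ⊓ NP with hA
  have hAN : A ≤ N := inf_le_left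
  have hCPC : CP ≤ C := Subgroup.centralizer_le hQ
  have hCPNP : CP ≤ NP := centralizer_le_norm (P : Subgroup G)
  have hCPA : CP ≤ A := le_inf (le_trans hCPC hCN) hCPNP
  have h1 : (C.subgroupOf N).index = C.relIndex A := by
    have hnorm : (C.subgroupOf N).Normal := by
      refine ⟨?_⟩
      intro c hc n
      rw [Subgroup.mem_subgroupOf] at hc ⊢
      rw [hC, Subgroup.mem_centralizer_iff] at hc ⊢
      intro y hy
      have hn := n.2
      have hy' : ((n : G))⁻¹ * y * n ∈ Q := conj_mem_of_mem_normalizer hn hy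
      have := hc _ hy'
      simp only [Subgroup.coe_mul, Subgroup.coe_inv]
      calc y * ((n : G) * c * (n : G)⁻¹) = n * ((n : G)⁻¹ * y * n * c) * (n : G)⁻¹ := by group
        _ = n * (c * ((n : G)⁻¹ * y * n)) * (n : G)⁻¹ := by rw [this]
        _ = (n : G) * c * (n : G)⁻¹ * y := by group
    have htop : (A.subgroupOf N) ⊔ (C.subgroupOf N) = ⊤ := by
      apply Subgroup.map_injective N.subtype_injective
      rw [Subgroup.map_sup, Subgroup.map_subgroupOf_eq_of_le hAN, Subgroup.map_subgroupOf_eq_of_le hCN]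
      rw [← hEq, ← MonoidHom.range_eq_map]
      simp
    have := Subgroup.relIndex_sup_right (A.subgroupOf N) (C.subgroupOf N)
    rw [htop, Subgroup.relIndex_top_right, Subgroup.relIndex_subgroupOf hAN] at this
    exact this
  have h2 : (CP.subgroupOf NP).index = CP.relIndex NP := rfl
  rw [h1, h2]
  have h3 : CP.relIndex A * A.relIndex NP = CP.relIndex NP :=
    Subgroup.relIndex_mul_relIndex _ _ _ hCPA inf_le_right
  have h4 : C.relIndex A ∣ CP.relIndex A := Subgroup.relIndex_dvd_of_le_left _ hCPC
  exact h4.trans (Dvd.intro _ h3)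

end Cfsg.Agent.S2268
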