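import Cfsg.Statements.S2270
import Cfsg.Agent.Lib.Known.Invert

set_option autoImplicit false
open Cfsg

namespace Cfsg.Agent.S2270

open Cfsg.Agent.Lib.Known

/-- Let n ≥ 3, p an odd prime, and P an abelian Sylow p-subgroup of the symmetric group S_n (with p dividing n!, so that P ≠ 1). Then N(P)/C(P) has even order. -/
theorem result (n : ℕ) (hn : 3 ≤ n) {p : ℕ} [Fact p.Prime] (hp : p ≠ 2) (hpn : p ≤ n)
    (P : Sylow p (Equiv.Perm (Fin n))) (hP : IsMulCommutative (P : Subgroup (Equiv.Perm (Fin n)))) :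
    2 ∣ ((Subgroup.centralizer ((P : Subgroup (Equiv.Perm (Fin n))) : Set (Equiv.Perm (Fin n)))).subgroupOf (Subgroup.normalizer ((P : Subgroup (Equiv.Perm (Fin n))) : Set (Equiv.Perm (Fin n))))).index := by
  classical
  have hcomm : ∀ a ∈ (P : Subgroup (Equiv.Perm (Fin n))), ∀ b ∈ (P : Subgroup (Equiv.Perm (Fin n))), a * b = b * a := by
    intro a ha b hb
    have := hP.is_comm.comm ⟨a, ha⟩ ⟨b, hb⟩
    exact congrArg Subtype.val this
  obtain ⟨t, ht, hinv⟩ := exists_inverting_perm (P : Subgroup (Equiv.Perm (Fin n))) hcomm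
  have hinv' : t⁻¹ = t := by
    rw [inv_eq_iff_mul_eq_one]; exact ht
  have htN : t ∈ Subgroup.normalizer ((P : Subgroup (Equiv.Perm (Fin n))) : Set (Equiv.Perm (Fin n))) := by
    rw [Subgroup.mem_normalizer_iff]
    intro z
    constructor
    · intro hz
      rw [hinv z hz]
      exact inv_mem hz
    · intro hz
      have h1 := hinv _ hz
      have h2 : t * (t * z * t⁻¹) * t⁻¹ = z := by
        rw [hinv', ← mul_assoc, ← mul_assoc, ht, one_mul, mul_assoc, ht, mul_one]
      rw [h2] at h1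
      rw [h1]
      exact inv_mem hz
  have hdvd : p ∣ Nat.card (Equiv.Perm (Fin n)) := by
    rw [Nat.card_perm, Nat.card_fin]
    exact (Nat.Prime.dvd_factorial Fact.out).mpr hpn
  have hne : (P : Subgroup (Equiv.Perm (Fin n))) ≠ ⊥ := P.ne_bot_of_dvd_card hdvd
  obtain ⟨z, hz, hz1⟩ := (Subgroup.bot_or_exists_ne_one (P : Subgroup (Equiv.Perm (Fin n)))).resolve_left hne
  have hz2 : z⁻¹ ≠ z := by
    intro h
    have h2 : z ^ 2 = 1 := by
      rw [pow_two]
      nth_rewrite 1 [← h]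
      exact inv_mul_cancel z
    obtain ⟨k, hk⟩ := P.isPGroup' ⟨z, hz⟩
    have hk' : z ^ p ^ k = 1 := by simpa using congrArg Subtype.val hk
    have hco : Nat.gcd 2 (p ^ k) = 1 := by
      apply Nat.Coprime.pow_right
      exact (Nat.coprime_primes Nat.prime_two Fact.out).mpr (Ne.symm hp)
    have := pow_gcd_eq_one.mpr ⟨h2, hk'⟩
    rw [hco, pow_one] at this
    exact hz1 this
  have htC : t ∉ Subgroup.centralizer ((P : Subgroup (Equiv.Perm (Fin n))) : Set (Equiv.Perm (Fin n))) := by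
    intro h
    have h1 := Subgroup.mem_centralizer_iff.mp h z hz
    apply hz2
    rw [← hinv z hz, ← h1, mul_assoc, mul_inv_cancel, mul_one]
  set N := Subgroup.normalizer ((P : Subgroup (Equiv.Perm (Fin n))) : Set (Equiv.Perm (Fin n))) with hN
  set C := (Subgroup.centralizer ((P : Subgroup (Equiv.Perm (Fin n))) : Set (Equiv.Perm (Fin n)))).subgroupOf N with hC
  have hnormal : C.Normal := by
    constructor
    intro c hc g
    rw [hC, Subgroup.mem_subgroupOf, Subgroup.mem_centralizer_iff] at hc ⊢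
    intro z hz
    have h1 : (g : Equiv.Perm (Fin n))⁻¹ * z * ((g : Equiv.Perm (Fin n))⁻¹)⁻¹ ∈ (P : Subgroup (Equiv.Perm (Fin n))) :=
      (Subgroup.mem_normalizer_iff.mp (inv_mem g.2) z).mp hz
    have h2 := hc _ h1
    simp only [inv_inv] at h2
    simp only [Subgroup.coe_mul, Subgroup.coe_inv]
    calc z * ((g : Equiv.Perm (Fin n)) * c * (g : Equiv.Perm (Fin n))⁻¹)
        = g * (((g : Equiv.Perm (Fin n))⁻¹ * z * g) * c) * (g : Equiv.Perm (Fin n))⁻¹ := by group
      _ = g * (c * ((g : Equiv.Perm (Fin n))⁻¹ * z * g)) * (g : Equiv.Perm (Fin n))⁻¹ := by rw [h2]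
      _ = (g : Equiv.Perm (Fin n)) * c * (g : Equiv.Perm (Fin n))⁻¹ * z := by group
  by_contra hodd
  have hodd' : Odd C.index := Nat.not_even_iff_odd.mp (fun h => hodd h.two_dvd)
  have h1 := Subgroup.pow_index_mem C (⟨t, htN⟩ : N)
  obtain ⟨m, hm⟩ := hodd'
  have h2 : (⟨t, htN⟩ : N) ^ C.index = ⟨t, htN⟩ := by
    rw [hm, pow_succ, pow_mul, pow_two]
    have : (⟨t, htN⟩ : N) * ⟨t, htN⟩ = 1 := Subtype.ext ht
    rw [this, one_pow, one_mul]
  rw [h2] at h1
  exact htC (Subgroup.mem_subgroupOf.mp h1)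

end Cfsg.Agent.S2270
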