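import Cfsg.Statements.S2343
import Cfsg.Agent.Lib.Ree.Deg
import Cfsg.Agent.Lib.Known.SzRep

set_option autoImplicit false
open Cfsg

namespace Cfsg.Agent.S2343




/-- For the Ree group ²G₂(q), q = 3^(2m+1) with m ≥ 1 (realised over the field with q elements), every irreducible complex representation of degree at least 2 has degree at least q² − q + 1. -/
theorem result {K : Type*} [Field K] [Fintype K] (m : ℕ) (hm : 1 ≤ m) (hK : Fintype.card K = 3 ^ (2 * m + 1)) :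
    (∀ (k : ℕ) (ρ : Representation ℂ (Cfsg.Lie.twistedG2 K (3 ^ m)) (Fin k → ℂ)), ρ.IsIrreducible → 2 ≤ k → (3 ^ (2 * m + 1)) ^ 2 - 3 ^ (2 * m + 1) + 1 ≤ k) := by
  open Cfsg.Agent.Lib.Chev Cfsg.Agent.Lib.Chev.TwG2 Cfsg.Agent.Lib.Ree in
  have h3 : Nat.Prime 3 := Nat.prime_three
  have hn : 2 * m + 1 ≠ 0 := by omega
  have := charP_of_card h3 hn hK
  obtain ⟨f, hf⟩ := frobP h3 hn hK m
  have hf3 := frob_sq hK f hf
  have hc : ringChar K ≠ 2 := by rw [ringChar.eq K 3]; norm_num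
  have hsq := sq_or_neg hK hc
  rw [← AA_eq f hf3 hf]
  intro k ρ hρ hk
  have hG := card_G f hf3 hK hc
  have hq : 2 ≤ Fintype.card K := Fintype.one_lt_card
  haveI hfin : Finite ↥((TT f).AA JJ) := Nat.finite_of_card_ne_zero (by
    rw [hG]
    have h1 : 0 < Fintype.card K - 1 := by omega
    have h2 : 0 < Fintype.card K := by omega
    positivity)
  have hsimple : IsSimpleGroup ↥((TT f).AA JJ) := by
    have h4 : 3 < Fintype.card K := by
      rw [hK]
      have : 3 ^ 3 ≤ 3 ^ (2 * m + 1) := Nat.pow_le_pow_right (by norm_num) (by omega)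
      omega
    obtain ⟨u, hu⟩ := exists_unit_ne_two h4
    have hA : (TabG2.good3.toGood2.torusHom (gc f u)) ∈ (TT f).AA JJ := by
      have h5 := H1_eq f hf3 hsq
      have h6 : (TabG2.good3.toGood2.torusHom.comp (gc f)) u ∈ (TabG2.good3.toGood2.torusHom.comp (gc f)).range := ⟨u, rfl⟩
      rw [← h5] at h6
      exact h6.2
    exact (simple_AA f hf3 hu hA).1
  have hq8 : ¬ 8 ∣ Fintype.card K * (Fintype.card K - 1) := by
    rw [hK]
    have h : 3 ^ (2 * m + 1) % 8 = 3 := by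
      rw [pow_succ, pow_mul]
      norm_num [Nat.mul_mod, Nat.pow_mod]
    obtain ⟨N, hN⟩ : ∃ N, N = 3 ^ (2 * m + 1) := ⟨_, rfl⟩
    rw [← hN] at h ⊢
    obtain ⟨a, ha⟩ : ∃ a, N = 8 * a + 3 := ⟨N / 8, by omega⟩
    intro hd
    have e : N * (N - 1) = 8 * (8 * a * a + 5 * a) + 6 := by
      rw [ha, show 8 * a + 3 - 1 = 8 * a + 2 by omega]
      ring
    rw [e] at hd
    omega
  have := (rd f hf3 hsq).deg_bound ρ (rl f hf3 hsq) hsimple hG hq hq8
    (Cfsg.Agent.Lib.Known.exists_ne_one_of_irreducible ρ hρ hk)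
  rw [hK] at this
  have e : (3 ^ (2 * m + 1)) ^ 2 - 3 ^ (2 * m + 1) + 1 = 3 ^ (2 * m + 1) * (3 ^ (2 * m + 1) - 1) + 1 := by
    rw [Nat.mul_sub, mul_one, pow_two]
  rw [e]
  exact this

end Cfsg.Agent.S2343
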