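import Cfsg.Statements.S2357
import Cfsg.Agent.Lib.Ree.CntC

set_option autoImplicit false
open Cfsg

namespace Cfsg.Agent.S2357




/-- Let R be the small Ree group over the field with q = 3^(2m+1) ≥ 27 elements and write φ for Euler's totient function. Then R has exactly q²(q²−q+1) involutions, (q²−1)(q³+1) elements of order 3, and q²(q−1)(q³+1) elements of order 6 and as many of order 9; for i > 2 dividing q−1 it has φ(i)q³(q³+1)/2 elements of order i; for i > 1 dividing (q+1)/4 it has φ(i)q³(q−1)(q²−q+1)/6 elements of order i and φ(i)q³(q−1)(q²−q+1)/2 elements of order 2i; and for i > 1 dividing q − 3^(m+1) + 1 (respectively q + 3^(m+1) + 1) it has φ(i)q³(q²−1)(q + 3^(m+1) + 1)/6 (respectively φ(i)q³(q²−1)(q − 3^(m+1) + 1)/6) elements of order i. -/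
theorem result {K : Type*} [Field K] [Fintype K] {m : ℕ} (hm : 1 ≤ m)
    (hK : Fintype.card K = 3 ^ (2 * m + 1)) :
    Nat.card {g : ↥(Cfsg.Lie.twistedG2 K (3 ^ m)) // orderOf g = 2} = (3 ^ (2 * m + 1)) ^ 2 * ((3 ^ (2 * m + 1)) ^ 2 - 3 ^ (2 * m + 1) + 1) ∧
    Nat.card {g : ↥(Cfsg.Lie.twistedG2 K (3 ^ m)) // orderOf g = 3} = ((3 ^ (2 * m + 1)) ^ 2 - 1) * ((3 ^ (2 * m + 1)) ^ 3 + 1) ∧
    Nat.card {g : ↥(Cfsg.Lie.twistedG2 K (3 ^ m)) // orderOf g = 6} = (3 ^ (2 * m + 1)) ^ 2 * (3 ^ (2 * m + 1) - 1) * ((3 ^ (2 * m + 1)) ^ 3 + 1) ∧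
    Nat.card {g : ↥(Cfsg.Lie.twistedG2 K (3 ^ m)) // orderOf g = 9} = (3 ^ (2 * m + 1)) ^ 2 * (3 ^ (2 * m + 1) - 1) * ((3 ^ (2 * m + 1)) ^ 3 + 1) ∧
    (∀ i : ℕ, 2 < i → i ∣ 3 ^ (2 * m + 1) - 1 →
      2 * Nat.card {g : ↥(Cfsg.Lie.twistedG2 K (3 ^ m)) // orderOf g = i} = Nat.totient i * (3 ^ (2 * m + 1)) ^ 3 * ((3 ^ (2 * m + 1)) ^ 3 + 1)) ∧
    (∀ i : ℕ, 1 < i → i ∣ (3 ^ (2 * m + 1) + 1) / 4 →
      6 * Nat.card {g : ↥(Cfsg.Lie.twistedG2 K (3 ^ m)) // orderOf g = i} =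
          Nat.totient i * (3 ^ (2 * m + 1)) ^ 3 * (3 ^ (2 * m + 1) - 1) * ((3 ^ (2 * m + 1)) ^ 2 - 3 ^ (2 * m + 1) + 1) ∧
        2 * Nat.card {g : ↥(Cfsg.Lie.twistedG2 K (3 ^ m)) // orderOf g = 2 * i} =
          Nat.totient i * (3 ^ (2 * m + 1)) ^ 3 * (3 ^ (2 * m + 1) - 1) * ((3 ^ (2 * m + 1)) ^ 2 - 3 ^ (2 * m + 1) + 1)) ∧
    (∀ i : ℕ, 1 < i → i ∣ 3 ^ (2 * m + 1) - 3 ^ (m + 1) + 1 →
      6 * Nat.card {g : ↥(Cfsg.Lie.twistedG2 K (3 ^ m)) // orderOf g = i} =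
        Nat.totient i * (3 ^ (2 * m + 1)) ^ 3 * ((3 ^ (2 * m + 1)) ^ 2 - 1) * (3 ^ (2 * m + 1) + 3 ^ (m + 1) + 1)) ∧
    (∀ i : ℕ, 1 < i → i ∣ 3 ^ (2 * m + 1) + 3 ^ (m + 1) + 1 →
      6 * Nat.card {g : ↥(Cfsg.Lie.twistedG2 K (3 ^ m)) // orderOf g = i} =
        Nat.totient i * (3 ^ (2 * m + 1)) ^ 3 * ((3 ^ (2 * m + 1)) ^ 2 - 1) * (3 ^ (2 * m + 1) - 3 ^ (m + 1) + 1)) := by
  open Cfsg.Agent.Lib.Chev Cfsg.Agent.Lib.Chev.TwG2 Cfsg.Agent.Lib.Ree in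
  obtain ⟨hchar, f, hf3, hsq, hAA, hfin, ⟨D⟩⟩ := exists_setup hm hK
  rw [← hAA]
  obtain ⟨x₀, hx, hd', hxa⟩ := D.toCtx.exists_x₀
  have hr : 3 ^ (m + 1) * 3 ^ (m + 1) = 3 * Fintype.card K := by
    rw [hK]
    ring
  obtain ⟨y₁, y₂, h1, h2, h3, h4, h5, h6, h7, h8, h9, h10, h11⟩ := D.T3_r hx hd' hxa hr
  have hrq : 3 ^ (m + 1) ≤ Fintype.card K := by
    rw [hK]
    exact Nat.pow_le_pow_right (by norm_num) (by omega)
  have e1 : Nat.card ↥(Subgroup.centralizer {y₁}) = Fintype.card K - 3 ^ (m + 1) + 1 := by omega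
  have e2 : Nat.card ↥(Subgroup.centralizer {y₂}) = Fintype.card K + 3 ^ (m + 1) + 1 := by omega
  have hq27 := D.toCtx.hq27
  have hq := D.toCtx.hq
  have hq8 := D.toCtx.hq8
  have hGc := D.toCtx.hG
  rw [← hK]
  have key : ∀ i : ℕ, Nat.card {g : ↥((Cfsg.Agent.Lib.Chev.TwG2.TT f).AA Cfsg.Agent.Lib.Chev.TwG2.JJ) // orderOf g = i} = {g : ↥((Cfsg.Agent.Lib.Chev.TwG2.TT f).AA Cfsg.Agent.Lib.Chev.TwG2.JJ) | orderOf g = i}.ncard :=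
    fun i => Nat.card_coe_set_eq _
  simp only [key]
  have hn : Fintype.card K * (Fintype.card K - 1) + 1 = Fintype.card K ^ 2 - Fintype.card K + 1 := by
    have := D.toCtx.nq_eq
    unfold nq at this
    exact this.symm
  refine ⟨?_, ?_, ?_, ?_, ?_, ?_, ?_, ?_⟩
  · rw [D.toCtx.card_inv, hn]
  · rw [(rd f hf3 hsq).count_three_type hGc hq (k := 3) (dvd_refl 3), (rd f hf3 hsq).ncard_B3 hq]
    ring
  · rw [(rd f hf3 hsq).count_three_type hGc hq (k := 6) (by norm_num), (rd f hf3 hsq).ncard_B6 hq]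
    ring
  · rw [(rd f hf3 hsq).count_three_type hGc hq (k := 9) (by norm_num), (rd f hf3 hsq).ncard_B9 hq]
    ring
  · intro i hi hd
    exact (rd f hf3 hsq).count_sp_one hGc hq hq8 hi hd
  · intro i hi hd
    constructor
    · rw [D.toCtx.count_one hx hd' hxa hi hd]
      unfold nq
      ring
    · rw [D.toCtx.count_two hx hd' hxa hi hd]
      unfold nq
      ring
  · intro i hi hd
    rw [D.count_tor h1 h2 h3 h4 h5 h10 h11 h9 hi (by rw [e1]; exact hd), e2]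
    ring
  · intro i hi hd
    rw [D.count_tor h3 h4 h1 h2 h6 (by rw [mul_comm]; exact h10) (by rw [add_comm]; exact h11) (fun x hx => (h9 x hx).symm) hi (by rw [e2]; exact hd), e1]
    ring

end Cfsg.Agent.S2357
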