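import Cfsg.Statements.S2358
import Cfsg.Agent.Lib.Ree.CentY

set_option autoImplicit false
open Cfsg

namespace Cfsg.Agent.S2358




/-- Let R be the small Ree group over the field with q = 3^(2m+1) ≥ 27 elements. If d divides one of (q−1)/2, (q+1)/4, q − 3^(m+1) + 1 or q + 3^(m+1) + 1, then any two cyclic subgroups of R of order d are conjugate in R. -/
theorem result {K : Type*} [Field K] [Fintype K] {m : ℕ} (hm : 1 ≤ m)
    (hK : Fintype.card K = 3 ^ (2 * m + 1)) (d : ℕ)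
    (hd : d ∣ (3 ^ (2 * m + 1) - 1) / 2 ∨ d ∣ (3 ^ (2 * m + 1) + 1) / 4 ∨ d ∣ 3 ^ (2 * m + 1) - 3 ^ (m + 1) + 1 ∨ d ∣ 3 ^ (2 * m + 1) + 3 ^ (m + 1) + 1)
    (A B : Subgroup ↥(Cfsg.Lie.twistedG2 K (3 ^ m))) (hA : IsCyclic A) (hB : IsCyclic B)
    (hAd : Nat.card A = d) (hBd : Nat.card B = d) :
    ∃ g : ↥(Cfsg.Lie.twistedG2 K (3 ^ m)), B = A.map (MulAut.conj g).toMonoidHom := by
  open Cfsg.Agent.Lib.Chev Cfsg.Agent.Lib.Chev.TwG2 Cfsg.Agent.Lib.Ree in
  have h3 : Nat.Prime 3 := Nat.prime_three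
  have hn : 2 * m + 1 ≠ 0 := by omega
  have := charP_of_card h3 hn hK
  have hcyc := cyc_twisted hm hK
  have hΓ' : ∀ g ∈ Cfsg.Lie.twistedG2 K (3 ^ m), inv7 ((g : GL Cfsg.Lie.chevG2.Idx K) : Matrix Cfsg.Lie.chevG2.Idx Cfsg.Lie.chevG2.Idx K) :=
    fun g hg => inv7_gen _ hg
  obtain ⟨f, hf⟩ := frobP h3 hn hK m
  have hf3 := frob_sq hK f hf
  have hc : ringChar K ≠ 2 := by rw [ringChar.eq K 3]; norm_num
  have hsq := sq_or_neg hK hc
  revert A B hcyc hΓ'
  rw [← AA_eq f hf3 hf]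
  intro A B hA hB hAd hBd hcyc hΓ
  have hG := card_G f hf3 hK hc
  have hq : 2 ≤ Fintype.card K := Fintype.one_lt_card
  haveI : Finite ↥((TT f).AA JJ) := Nat.finite_of_card_ne_zero (by
    rw [hG]
    have h1 : 0 < Fintype.card K - 1 := by omega
    have h2 : 0 < Fintype.card K := by omega
    positivity)
  have hmod : Nat.card ↥((TT f).AA JJ) % 16 = 8 := by
    rw [hG, hK]
    exact card_mod
  have hq27 : 27 ≤ Fintype.card K := by
    rw [hK]
    have : 3 ^ 3 ≤ 3 ^ (2 * m + 1) := Nat.pow_le_pow_right (by norm_num) (by omega)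
    omega
  have hq8 : Fintype.card K % 8 = 3 := by
    rw [hK, pow_succ, pow_mul]
    norm_num [Nat.mul_mod, Nat.pow_mod]
  have hsimple : IsSimpleGroup ↥((TT f).AA JJ) := by
    have h4 : 3 < Fintype.card K := by omega
    obtain ⟨u, hu⟩ := exists_unit_ne_two h4
    have hA : (TabG2.good3.toGood2.torusHom (gc f u)) ∈ (TT f).AA JJ := by
      have h5 := H1_eq f hf3 hsq
      have h6 : (TabG2.good3.toGood2.torusHom.comp (gc f)) u ∈ (TabG2.good3.toGood2.torusHom.comp (gc f)).range := ⟨u, rfl⟩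
      rw [← h5] at h6
      exact h6.2
    exact (simple_AA f hf3 hu hA).1
  rw [← hK] at hd
  set q := Fintype.card K with hqdef
  set s := 3 ^ (m + 1) with hs
  have hs2 : s ^ 2 = 3 * q := by
    rw [hs, hK]
    ring
  have hsle : s ≤ q := by
    rw [hs, hK]
    exact Nat.pow_le_pow_right (by norm_num) (by omega)
  have hsodd : s % 2 = 1 := by
    rw [hs, Nat.pow_mod]
    norm_num
  have hs3 : 3 ∣ s := by
    rw [hs]
    exact dvd_pow_self 3 (by omega)
  have hq3 : 3 ∣ q := by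
    rw [hK]
    exact dvd_pow_self 3 (by omega)
  have hd3 : ∀ r : ℕ, r.Prime → r ∣ d → 3 < r := by
    intro r hr hrd
    have hr2 := hr.two_le
    have key : r ≠ 2 ∧ r ≠ 3 := by
      constructor
      · rintro rfl
        rcases hd with h | h | h | h <;> have := hrd.trans h <;> omega
      · rintro rfl
        rcases hd with h | h | h | h <;> have := hrd.trans h <;> omega
    omega
  refine conj_of_comm hcyc hd3 ?_ A B hA hB hAd hBd
  intro y hyp hyd
  have hl3 := hd3 _ hyp hyd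
  have hl2 : orderOf y ≠ 2 := by omega
  have hl3' : orderOf y ≠ 3 := by omega
  rcases hd with h | h | h | h
  · have h1 := hyd.trans h
    exact ((rd f hf3 hsq).cent_sp hG hq hyp hl2 (h1.trans (Nat.div_dvd_of_dvd (by omega))) rfl).2.2
  · have h1 := hyd.trans h
    exact ((rl f hf3 hsq).cent_x hsq hG hq hmod (by omega) hcyc hyp hl2 hl3' (h1.trans (Nat.div_dvd_of_dvd (by omega))) rfl).2
  · have h1 := hyd.trans h
    haveI : Fact (orderOf y).Prime := ⟨hyp⟩
    have h2 := (ZMod.natCast_eq_zero_iff _ _).mpr h1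
    rw [Nat.cast_add, Nat.cast_sub hsle] at h2
    have h4 : ((s : ℕ) : ZMod (orderOf y)) ^ 2 = 3 * ((q : ℕ) : ZMod (orderOf y)) := by
      have := congrArg (Nat.cast : ℕ → ZMod (orderOf y)) hs2
      push_cast at this
      exact this
    push_cast at h2
    have hz : ((q : ℕ) : ZMod (orderOf y)) ^ 2 - ((q : ℕ) : ZMod (orderOf y)) + 1 = 0 := by
      linear_combination (((q : ℕ) : ZMod (orderOf y)) + 1 + ((s : ℕ) : ZMod (orderOf y))) * h2 + h4
    exact cent_y f hf3 hΓ hsq hG hq hmod hsimple hyp hl3 hz rfl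
  · have h1 := hyd.trans h
    haveI : Fact (orderOf y).Prime := ⟨hyp⟩
    have h2 := (ZMod.natCast_eq_zero_iff _ _).mpr h1
    have h4 : ((s : ℕ) : ZMod (orderOf y)) ^ 2 = 3 * ((q : ℕ) : ZMod (orderOf y)) := by
      have := congrArg (Nat.cast : ℕ → ZMod (orderOf y)) hs2
      push_cast at this
      exact this
    push_cast at h2
    have hz : ((q : ℕ) : ZMod (orderOf y)) ^ 2 - ((q : ℕ) : ZMod (orderOf y)) + 1 = 0 := by
      linear_combination (((q : ℕ) : ZMod (orderOf y)) + 1 - ((s : ℕ) : ZMod (orderOf y))) * h2 + h4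
    exact cent_y f hf3 hΓ hsq hG hq hmod hsimple hyp hl3 hz rfl

end Cfsg.Agent.S2358
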