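import Cfsg.Statements.S2450
import Cfsg.Agent.Lib.Known.PSL2Conj

set_option autoImplicit false
open Cfsg

namespace Cfsg.Agent.S2450

open Cfsg.Agent.Lib.Known

/-- The Arad–Herzog conjecture for PSL(2,q): let F be a finite field with q ≥ 4 elements. For any two non-identity elements a, b of PSL(2,F), the set of products of a conjugate of a with a conjugate of b is not a single conjugacy class. -/
theorem result {F : Type*} [Field F] [Fintype F] (h4 : 4 ≤ Fintype.card F)
    (a b : Matrix.ProjectiveSpecialLinearGroup (Fin 2) F) (ha : a ≠ 1) (hb : b ≠ 1) (c : Matrix.ProjectiveSpecialLinearGroup (Fin 2) F) :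
    {g : Matrix.ProjectiveSpecialLinearGroup (Fin 2) F | ∃ u v : Matrix.ProjectiveSpecialLinearGroup (Fin 2) F, g = (u * a * u⁻¹) * (v * b * v⁻¹)} ≠ {g | IsConj c g} := by
  classical
  intro heq
  obtain ⟨A, rfl⟩ := QuotientGroup.mk_surjective a
  obtain ⟨B, rfl⟩ := QuotientGroup.mk_surjective b
  obtain ⟨C, rfl⟩ := QuotientGroup.mk_surjective c
  have hA : A ∉ Subgroup.center (SL2 F) := fun h => ha ((QuotientGroup.eq_one_iff _).mpr h)
  have hB : B ∉ Subgroup.center (SL2 F) := fun h => hb ((QuotientGroup.eq_one_iff _).mpr h)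
  obtain ⟨x, hx⟩ := exists_conj_lower_ne A hA
  obtain ⟨y, hy⟩ := exists_conj_lower_ne B hB
  obtain ⟨A', hA'⟩ : ∃ A', A' = x * A * x⁻¹ := ⟨_, rfl⟩
  obtain ⟨B', hB'⟩ : ∃ B', B' = y * B * y⁻¹ := ⟨_, rfl⟩
  rw [← hA'] at hx
  rw [← hB'] at hy
  have key : ∀ s : F, trS (A' * (sl2U s * B' * (sl2U s)⁻¹)) = trS C ∨
      trS (A' * (sl2U s * B' * (sl2U s)⁻¹)) = -trS C := by
    intro s
    have hmem : (((A' * (sl2U s * B' * (sl2U s)⁻¹) : SL2 F) : Matrix.ProjectiveSpecialLinearGroup (Fin 2) F)) ∈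
        {g : Matrix.ProjectiveSpecialLinearGroup (Fin 2) F | ∃ u v : Matrix.ProjectiveSpecialLinearGroup (Fin 2) F,
          g = (u * (A : Matrix.ProjectiveSpecialLinearGroup (Fin 2) F) * u⁻¹) *
            (v * (B : Matrix.ProjectiveSpecialLinearGroup (Fin 2) F) * v⁻¹)} := by
      refine ⟨(x : SL2 F), ((sl2U s * y : SL2 F)), ?_⟩
      rw [hA', hB']
      simp only [← QuotientGroup.mk_mul, ← QuotientGroup.mk_inv]
      congr 1
      group
    rw [heq] at hmem
    exact trS_of_isConj_mk C _ hmem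
  set α := -((A' : Matrix (Fin 2) (Fin 2) F) 1 0 * (B' : Matrix (Fin 2) (Fin 2) F) 1 0) with hα
  have hα0 : α ≠ 0 := neg_ne_zero.mpr (mul_ne_zero hx hy)
  set β := ((A' : Matrix (Fin 2) (Fin 2) F) 0 0 * (B' : Matrix (Fin 2) (Fin 2) F) 1 0 +
        (A' : Matrix (Fin 2) (Fin 2) F) 1 0 * ((B' : Matrix (Fin 2) (Fin 2) F) 1 1 - (B' : Matrix (Fin 2) (Fin 2) F) 0 0) -
        (A' : Matrix (Fin 2) (Fin 2) F) 1 1 * (B' : Matrix (Fin 2) (Fin 2) F) 1 0) with hβ
  set γ := trS (A' * B') with hγ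
  set t := trS C with ht
  have hf : ∀ s : F, trS (A' * (sl2U s * B' * (sl2U s)⁻¹)) = α * s ^ 2 + β * s + γ := fun s => trS_family A' B' s
  simp only [hf] at key
  have h1 := card_quadratic_roots α β (γ - t) hα0
  have h2 := card_quadratic_roots α β (γ + t) hα0
  have hcover : (Finset.univ : Finset F) ⊆ (Finset.univ.filter (fun s : F => α * s ^ 2 + β * s + (γ - t) = 0)) ∪
      (Finset.univ.filter (fun s : F => α * s ^ 2 + β * s + (γ + t) = 0)) := by
    intro s _
    rw [Finset.mem_union, Finset.mem_filter, Finset.mem_filter]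
    rcases key s with h | h
    · left
      exact ⟨Finset.mem_univ _, by linear_combination h⟩
    · right
      exact ⟨Finset.mem_univ _, by linear_combination h⟩
  have h3 := Finset.card_le_card hcover
  have h4 := Finset.card_union_le (Finset.univ.filter (fun s : F => α * s ^ 2 + β * s + (γ - t) = 0))
      (Finset.univ.filter (fun s : F => α * s ^ 2 + β * s + (γ + t) = 0))
  rw [Finset.card_univ] at h3
  have hq4 : Fintype.card F = 4 := by omega
  -- char 2
  obtain ⟨p, hp⟩ := CharP.exists F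
  obtain ⟨n, hpp, hn⟩ := FiniteField.card F p
  have hp2 : p = 2 := by
    have h5 : p ∣ 2 ^ 2 := by
      rw [show (2 : ℕ) ^ 2 = 4 by norm_num, ← hq4, hn]
      exact dvd_pow_self p n.ne_zero
    exact (Nat.prime_dvd_prime_iff_eq hpp Nat.prime_two).mp (hpp.dvd_of_dvd_pow h5)
  subst hp2
  have htt : γ - t = γ + t := by
    have : (2 : F) = 0 := by exact_mod_cast CharP.cast_eq_zero F 2
    linear_combination -t * this
  rw [htt] at hcover
  have h5 := Finset.card_le_card hcover
  rw [Finset.union_self, Finset.card_univ] at h5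
  rw [htt] at h1
  omega

end Cfsg.Agent.S2450
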