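import Cfsg.Statements.S2455
import Cfsg.Agent.Lib.Known.PSL2Cover

set_option autoImplicit false
open Cfsg

namespace Cfsg.Agent.S2455

open Cfsg.Agent.Lib.Known

/-- A strong covering result in the direction of Thompson's conjecture (non-identity elements) for PSL(2,q), q odd: let F be a finite field of odd characteristic p with at least 5 elements and let x ∈ PSL(2,F) have order greater than 2 and not divisible by p (so x is not unipotent). Then every non-identity element of PSL(2,F) is a product of two conjugates of x. -/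
theorem result {F : Type*} [Field F] [Fintype F] (p : ℕ) [Fact p.Prime] [CharP F p] (hp : p ≠ 2) (h5 : 5 ≤ Fintype.card F)
    (x : Matrix.ProjectiveSpecialLinearGroup (Fin 2) F) (hx2 : 2 < orderOf x) (hxp : ¬ p ∣ orderOf x) : ∀ g : Matrix.ProjectiveSpecialLinearGroup (Fin 2) F, g ≠ 1 → ∃ u v : Matrix.ProjectiveSpecialLinearGroup (Fin 2) F, g = (u * x * u⁻¹) * (v * x * v⁻¹) := by
  classical
  intro g hg
  have hp' : p.Prime := Fact.out
  have h2 : (2 : F) ≠ 0 := by
    intro h
    have : ((2 : ℕ) : F) = 0 := by exact_mod_cast h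
    rw [CharP.cast_eq_zero_iff F p] at this
    exact hp ((Nat.prime_dvd_prime_iff_eq hp' Nat.prime_two).mp this)
  have hodd : Fintype.card F % 2 = 1 := by
    obtain ⟨n, _, hn⟩ := FiniteField.card F p
    rw [hn]
    have : Odd p := hp'.odd_of_ne_two hp
    exact Nat.odd_iff.mp (this.pow)
  obtain ⟨X, rfl⟩ := QuotientGroup.mk_surjective x
  obtain ⟨G, rfl⟩ := QuotientGroup.mk_surjective g
  have hmk : ∀ (Y : SL2 F) (n : ℕ), Y ^ n ∈ Subgroup.center (SL2 F) →
      ((Y : Matrix.ProjectiveSpecialLinearGroup (Fin 2) F)) ^ n = 1 := by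
    intro Y n h
    rw [← QuotientGroup.mk_pow]
    exact (QuotientGroup.eq_one_iff _).mpr h
  have ht0 : trS X ≠ 0 := by
    intro h
    have := orderOf_le_of_pow_eq_one (by norm_num) (hmk X 2 (sq_mem_center_of_trS_zero X h))
    omega
  have ht2 : trS X ^ 2 ≠ 4 := by
    intro h
    have h1 := orderOf_dvd_of_pow_eq_one (hmk X p (pow_char_mem_center_of_sq p X h2 h))
    rcases (Nat.dvd_prime hp').mp h1 with h3 | h3
    · omega
    · exact hxp (h3 ▸ dvd_rfl)
  have hGc : G ∉ Subgroup.center (SL2 F) := fun h => hg ((QuotientGroup.eq_one_iff _).mpr h)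
  have hGs : ¬ m2Scalar (G : Matrix (Fin 2) (Fin 2) F) := fun h => hGc (mem_center_of_scalar G h)
  let M : SL2 F := sl2Mk (-1) 0 0 (-1) (by ring)
  have hMc : M ∈ Subgroup.center (SL2 F) := by
    apply mem_center_of_scalar
    simp [m2Scalar, M]
  by_cases hγ : trS G = 2
  · -- use `-G`
    have hG' : trS (M * G) ≠ 2 := by
      have : trS (M * G) = - trS G := by
        simp [trS, sl2_mul_apply, M]
        ring
      rw [this, hγ]
      intro h
      apply h2
      have : (4 : F) = 0 := by linear_combination -h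
      have h4 : (2 : F) * 2 = 0 := by rw [← this]; norm_num
      exact (mul_self_eq_zero.mp h4)
    have hs : ¬ m2Scalar ((M * G : SL2 F) : Matrix (Fin 2) (Fin 2) F) := by
      intro h
      apply hGc
      have h5 := mem_center_of_scalar _ h
      have : G = M⁻¹ * (M * G) := by group
      rw [this]
      exact mul_mem (inv_mem hMc) h5
    obtain ⟨u, v, huv⟩ := exists_two_conj_odd hodd h2 X (M * G) ht0 ht2 hs hG'
    refine ⟨(u : SL2 F), (v : SL2 F), ?_⟩
    have h6 : ((M * G : SL2 F) : Matrix.ProjectiveSpecialLinearGroup (Fin 2) F) = (G : SL2 F) := by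
      apply QuotientGroup.eq.mpr
      have hc : M * G = G * M := (Subgroup.mem_center_iff.mp hMc G).symm
      have : (M * G)⁻¹ * G = M⁻¹ := by rw [hc]; group
      rw [this]
      exact inv_mem hMc
    rw [← h6, huv]
    simp only [← QuotientGroup.mk_mul, ← QuotientGroup.mk_inv]
  · obtain ⟨u, v, huv⟩ := exists_two_conj_odd hodd h2 X G ht0 ht2 hGs hγ
    refine ⟨(u : SL2 F), (v : SL2 F), ?_⟩
    rw [huv]
    simp only [← QuotientGroup.mk_mul, ← QuotientGroup.mk_inv]

end Cfsg.Agent.S2455
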