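import Cfsg.Statements.S2456
import Cfsg.Agent.Lib.Known.PSL2Cover
import Cfsg.Agent.Lib.Known.Discrete8

set_option autoImplicit false
open Cfsg

namespace Cfsg.Agent.S2456

open Cfsg.Agent.Lib.Known

/-- A strong covering result in the direction of Thompson's conjecture (non-identity elements) for PSL(2,q), q even: let F be a finite field of characteristic 2 with q ≥ 4 elements and let x ∈ PSL(2,F) have order greater than 2 and not dividing q + 1. Then every non-identity element of PSL(2,F) is a product of two conjugates of x. -/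
theorem result {F : Type*} [Field F] [Fintype F] [CharP F 2] (h4 : 4 ≤ Fintype.card F)
    (x : Matrix.ProjectiveSpecialLinearGroup (Fin 2) F) (hx2 : 2 < orderOf x) (hxq : ¬ orderOf x ∣ Fintype.card F + 1) : ∀ g : Matrix.ProjectiveSpecialLinearGroup (Fin 2) F, g ≠ 1 → ∃ u v : Matrix.ProjectiveSpecialLinearGroup (Fin 2) F, g = (u * x * u⁻¹) * (v * x * v⁻¹) := by
  classical
  intro g hg
  have h20 : (2 : F) = 0 := by exact_mod_cast CharP.cast_eq_zero F 2
  obtain ⟨X, rfl⟩ := QuotientGroup.mk_surjective x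
  obtain ⟨G, rfl⟩ := QuotientGroup.mk_surjective g
  have hmk : ∀ (Y : SL2 F) (n : ℕ), Y ^ n ∈ Subgroup.center (SL2 F) →
      ((Y : Matrix.ProjectiveSpecialLinearGroup (Fin 2) F)) ^ n = 1 := by
    intro Y n h
    rw [← QuotientGroup.mk_pow]
    exact (QuotientGroup.eq_one_iff _).mpr h
  have ht0 : trS X ≠ 0 := by
    intro h
    have := orderOf_le_of_pow_eq_one (by norm_num) (hmk X 2 (sq_mem_center_of_trS_zero X h))
    omega
  -- `X` has an eigenvalue
  have hX : ¬ sl2NoEig X := by
    intro hne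
    apply hxq
    apply orderOf_dvd_of_pow_eq_one
    apply hmk
    have hmem : X ∈ sl2T X := by
      rw [sl2T, Subgroup.mem_centralizer_singleton_iff]
    have h1 := pow_card_eq_one' (x := (⟨X, hmem⟩ : sl2T X))
    rw [card_centralizer_noEig hne] at h1
    have h2 : X ^ (Fintype.card F + 1) = 1 := congrArg Subtype.val h1
    rw [h2]
    exact one_mem _
  rw [sl2NoEig_iff] at hX
  push Not at hX
  obtain ⟨c, hc⟩ := hX
  have hc' : c ^ 2 + trS X * c + 1 = 0 := by
    rw [hc, trS_eq_trace]
    have : (-1 + (X : Matrix (Fin 2) (Fin 2) F).trace * c) + (X : Matrix (Fin 2) (Fin 2) F).trace * c + 1 = (X : Matrix (Fin 2) (Fin 2) F).trace * c * 2 := by ring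
    rw [this, h20, mul_zero]
  have hGc : G ∉ Subgroup.center (SL2 F) := fun h => hg ((QuotientGroup.eq_one_iff _).mpr h)
  have hGs : ¬ m2Scalar (G : Matrix (Fin 2) (Fin 2) F) := fun h => hGc (mem_center_of_scalar G h)
  obtain ⟨a, b, hab, ha, hb⟩ := exists_factor_of_nonscalar G hGs (trS X) (by
    intro γ _
    by_cases hγ : γ = 0
    · refine exists_factor_of_conic _ _ c 0 ?_
      rw [hγ]
      have : c ^ 2 + (0 : F) ^ 2 - 0 * c * 0 - trS X * c + trS X * 0 + 1 = c ^ 2 + trS X * c + 1 := by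
        rw [CharTwo.sub_eq_add]
        ring
      rw [this, hc']
    · obtain ⟨s, hs⟩ := FiniteField.isSquare_of_char_two (ringChar.eq F 2)
        ((trS X / γ) ^ 2 + trS X ^ 2 / γ + 1)
      refine exists_factor_of_conic _ _ (trS X / γ) s ?_
      have h1 : (trS X / γ) ^ 2 + s ^ 2 - γ * (trS X / γ) * s - trS X * (trS X / γ) + trS X * s + 1
          = ((trS X / γ) ^ 2 + trS X ^ 2 / γ + 1) + s ^ 2 := by
        have : γ * (trS X / γ) = trS X := by field_simp
        rw [this, CharTwo.sub_eq_add, CharTwo.sub_eq_add]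
        have : trS X * s + trS X * s = 0 := by
          have : trS X * s + trS X * s = trS X * s * 2 := by ring
          rw [this, h20, mul_zero]
        have h3 : trS X * (trS X / γ) = trS X ^ 2 / γ := by ring
        rw [h3]
        linear_combination this
      rw [h1, hs]
      have : s * s + s ^ 2 = s ^ 2 * 2 := by ring
      rw [this, h20, mul_zero])
  have hsc : ∀ Y : SL2 F, trS Y = trS X → ¬ m2Scalar (Y : Matrix (Fin 2) (Fin 2) F) := by
    rintro Y hY ⟨h1, h2, h3⟩
    apply ht0
    rw [← hY]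
    simp only [trS, ← h3]
    have : (Y : Matrix (Fin 2) (Fin 2) F) 0 0 + (Y : Matrix (Fin 2) (Fin 2) F) 0 0 = (Y : Matrix (Fin 2) (Fin 2) F) 0 0 * 2 := by ring
    rw [this, h20, mul_zero]
  have hrep : ∀ δ : F, δ ≠ 0 → ∃ x y : F, x * x + trS X * x * y + y * y = δ := fun δ _ =>
    form_surj_two _ δ
  obtain ⟨u, hu⟩ := isConj_iff.mp (isConj_of_trS_eq X a (hsc X rfl) (hsc a ha) ha hrep).symm
  obtain ⟨v, hv⟩ := isConj_iff.mp (isConj_of_trS_eq X b (hsc X rfl) (hsc b hb) hb hrep).symm
  refine ⟨(u : SL2 F), (v : SL2 F), ?_⟩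
  rw [← hab, ← hu, ← hv]
  simp only [← QuotientGroup.mk_mul, ← QuotientGroup.mk_inv]

end Cfsg.Agent.S2456
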