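import Cfsg.Statements.S2466
import Cfsg.Agent.Lib.Known.AltOrders

set_option autoImplicit false
open Cfsg

namespace Cfsg.Agent.S2466

open Cfsg.Agent.Lib.Known

/-- Adjacency of odd primes in the prime graph of the alternating groups: let r ≠ s be odd primes at most n. The alternating group of degree n has an element of order r·s if and only if r + s ≤ n. -/
theorem result (n r s : ℕ) (hr : r.Prime) (hs : s.Prime) (hr2 : r ≠ 2) (hs2 : s ≠ 2) (hrs : r ≠ s) (hrn : r ≤ n) (hsn : s ≤ n) :
    (r * s ∈ Set.range (orderOf : alternatingGroup (Fin n) → ℕ)) ↔ r + s ≤ n := by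
  rw [alt_order_iff]
  constructor
  · rintro ⟨m, hS, h2, hl, -⟩
    have hrd : r ∣ m.lcm := by rw [hl]; exact dvd_mul_right r s
    have hsd : s ∣ m.lcm := by rw [hl]; exact dvd_mul_left s r
    obtain ⟨a, ha, hra⟩ := prime_dvd_multiset_lcm hr m hrd
    obtain ⟨b, hb, hsb⟩ := prime_dvd_multiset_lcm hs m hsd
    have hr3 : 3 ≤ r := by
      have := hr.two_le; omega
    have hs3 : 3 ≤ s := by
      have := hs.two_le; omega
    have ha0 : 0 < a := by have := h2 a ha; omega
    have hb0 : 0 < b := by have := h2 b hb; omega
    have hra' := Nat.le_of_dvd ha0 hra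
    have hsb' := Nat.le_of_dvd hb0 hsb
    by_cases hab : a = b
    · subst hab
      have hcop : Nat.Coprime r s := (Nat.coprime_primes hr hs).mpr hrs
      have h3 : r * s ∣ a := hcop.mul_dvd_of_dvd_of_dvd hra hsb
      have h4 := Nat.le_of_dvd ha0 h3
      have h5 : a ≤ m.sum := Multiset.le_sum_of_mem ha
      have h6 : r + s ≤ r * s := by nlinarith
      omega
    · obtain ⟨m', rfl⟩ := Multiset.exists_cons_of_mem ha
      have hb' : b ∈ m' := by
        rcases Multiset.mem_cons.mp hb with h | h
        · exact absurd h.symm hab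
        · exact h
      have h5 : b ≤ m'.sum := Multiset.le_sum_of_mem hb'
      rw [Multiset.sum_cons] at hS
      omega
  · intro h
    have hoddr : Odd r := hr.odd_of_ne_two hr2
    have hodds : Odd s := hs.odd_of_ne_two hs2
    refine ⟨{r, s}, ?_, ?_, ?_, ?_⟩
    · simpa using h
    · intro a ha
      simp only [Multiset.insert_eq_cons, Multiset.mem_cons, Multiset.mem_singleton] at ha
      rcases ha with rfl | rfl
      · exact hr.two_le
      · exact hs.two_le
    · have hcop : Nat.Coprime r s := (Nat.coprime_primes hr hs).mpr hrs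
      simp [Multiset.lcm_cons]
      exact hcop.lcm_eq_mul
    · simp only [Multiset.insert_eq_cons, Multiset.sum_cons, Multiset.sum_singleton, Multiset.card_cons, Multiset.card_singleton]
      obtain ⟨x, hx⟩ := hoddr
      obtain ⟨y, hy⟩ := hodds
      exact ⟨x + y + 2, by omega⟩

end Cfsg.Agent.S2466
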