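import Cfsg.Statements.S2467
import Cfsg.Agent.Lib.Known.AltOrders

set_option autoImplicit false
open Cfsg

namespace Cfsg.Agent.S2467

open Cfsg.Agent.Lib.Known

/-- Adjacency of 2 and an odd prime in the prime graph of the alternating groups: let r be an odd prime at most n, with n ≥ 4. The alternating group of degree n has an element of order 2r if and only if r + 4 ≤ n. -/
theorem result (n r : ℕ) (hn : 4 ≤ n) (hr : r.Prime) (hr2 : r ≠ 2) (hrn : r ≤ n) :
    (2 * r ∈ Set.range (orderOf : alternatingGroup (Fin n) → ℕ)) ↔ r + 4 ≤ n := by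
  rw [alt_order_iff]
  have hr3 : 3 ≤ r := by
    have := hr.two_le; omega
  have hoddr : Odd r := hr.odd_of_ne_two hr2
  constructor
  · rintro ⟨m, hs, h2, hl, he⟩
    by_contra hlt
    have hrd : r ∣ m.lcm := by rw [hl]; exact dvd_mul_left r 2
    have h2d : 2 ∣ m.lcm := by rw [hl]; exact dvd_mul_right 2 r
    obtain ⟨a, ha, hra⟩ := prime_dvd_multiset_lcm hr m hrd
    have hdv : ∀ x ∈ m, x ∣ 2 * r := by
      intro x hx
      rw [← hl]
      exact Multiset.dvd_lcm hx
    -- all members divide `2r`
    have hcases : ∀ x ∈ m, x = 2 ∨ x = r ∨ x = 2 * r := by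
      intro x hx
      have h1 := hdv x hx
      have h3 := h2 x hx
      have hcop : Nat.Coprime 2 r := (Nat.coprime_primes Nat.prime_two hr).mpr (Ne.symm hr2)
      obtain ⟨u, v, hu, hv, rfl⟩ := (Nat.dvd_mul).mp h1
      rcases (Nat.dvd_prime Nat.prime_two).mp hu with rfl | rfl <;>
        rcases (Nat.dvd_prime hr).mp hv with rfl | rfl
      · omega
      · right; left; omega
      · left; omega
      · right; right; rfl
    have hpa : r = a ∨ 2 * r = a := by
      rcases hcases a ha with rfl | h | h
      · exfalso
        have := Nat.le_of_dvd (by norm_num) hra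
        omega
      · exact Or.inl h.symm
      · exact Or.inr h.symm
    obtain ⟨m', rfl⟩ := Multiset.exists_cons_of_mem ha
    rw [Multiset.sum_cons] at hs
    have hmem : ∀ x ∈ m', 2 ≤ x := fun x hx => h2 x (Multiset.mem_cons_of_mem hx)
    rcases hpa with rfl | rfl
    · -- the cycle of length `r`
      obtain ⟨b, hb, h2b⟩ := prime_dvd_multiset_lcm Nat.prime_two _ h2d
      have hb' : b ∈ m' := by
        rcases Multiset.mem_cons.mp hb with h | h
        · subst h
          exact absurd hoddr (Nat.not_odd_iff_even.mpr (even_iff_two_dvd.mpr h2b))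
        · exact h
      have hb2 : b = 2 := by
        rcases hcases b hb with h | h | h
        · exact h
        · subst h
          exact absurd hoddr (Nat.not_odd_iff_even.mpr (even_iff_two_dvd.mpr h2b))
        · subst h
          have : 2 * r ≤ m'.sum := Multiset.le_sum_of_mem hb'
          omega
      subst hb2
      obtain ⟨m'', rfl⟩ := Multiset.exists_cons_of_mem hb'
      rw [Multiset.sum_cons] at hs
      have hm'' : m'' = 0 := by
        by_contra hne
        have := sum_ge_two_of_ne_zero m'' (fun x hx => hmem x (Multiset.mem_cons_of_mem hx)) hne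
        omega
      subst hm''
      obtain ⟨x, hx⟩ := hoddr
      simp only [Multiset.sum_cons, Multiset.card_cons, Multiset.sum_zero, Multiset.card_zero] at he
      rw [Nat.even_iff] at he
      omega
    · -- the cycle of length `2r`
      have hm' : m' = 0 := by
        by_contra hne
        have := sum_ge_two_of_ne_zero m' hmem hne
        omega
      subst hm'
      simp only [Multiset.sum_cons, Multiset.card_cons, Multiset.sum_zero, Multiset.card_zero] at he
      rw [Nat.even_iff] at he
      omega
  · intro h
    refine ⟨{r, 2, 2}, ?_, ?_, ?_, ?_⟩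
    · simp only [Multiset.insert_eq_cons, Multiset.sum_cons, Multiset.sum_singleton]; omega
    · intro a ha
      simp only [Multiset.insert_eq_cons, Multiset.mem_cons, Multiset.mem_singleton] at ha
      rcases ha with rfl | rfl | rfl
      · exact hr.two_le
      · exact le_rfl
      · exact le_rfl
    · have hcop : Nat.Coprime r 2 := (Nat.coprime_primes hr Nat.prime_two).mpr hr2
      simp [Multiset.lcm_cons]
      have h3 : Nat.lcm r 2 = r * 2 := hcop.lcm_eq_mul
      exact h3.trans (mul_comm _ _)
    · simp only [Multiset.insert_eq_cons, Multiset.sum_cons, Multiset.sum_singleton, Multiset.card_cons, Multiset.card_singleton]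
      obtain ⟨x, hx⟩ := hoddr
      exact ⟨x + 4, by omega⟩

end Cfsg.Agent.S2467
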