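import Cfsg.Statements.S2471
import Cfsg.Agent.Lib.Known.Discrete8

set_option autoImplicit false
open Cfsg

namespace Cfsg.Agent.S2471

open Cfsg.Agent.Lib.Known

/-- In PSL(2,q) with q odd, the characteristic p is isolated from 2 in the prime graph: for F a finite field of odd characteristic p with at least 5 elements, PSL(2,F) has no element of order 2p. -/
theorem result {F : Type*} [Field F] [Fintype F] (p : ℕ) [Fact p.Prime] [CharP F p] (hp : p ≠ 2) (h5 : 5 ≤ Fintype.card F) (g : Matrix.ProjectiveSpecialLinearGroup (Fin 2) F) :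
    orderOf g ≠ 2 * p := by
  classical
  intro hord
  have hp' : p.Prime := Fact.out
  have hp3 : 3 ≤ p := by have := hp'.two_le; omega
  have hpodd : Odd p := hp'.odd_of_ne_two hp
  obtain ⟨h, rfl⟩ := QuotientGroup.mk_surjective g
  have hF2 : (2 : F) ≠ 0 := by
    intro h2
    have : ((2 : ℕ) : F) = 0 := by exact_mod_cast h2
    rw [CharP.cast_eq_zero_iff F p] at this
    exact hp (Nat.prime_dvd_prime_iff_eq hp' Nat.prime_two |>.mp this)
  have hmk : ∀ n : ℕ, ((h : Matrix.ProjectiveSpecialLinearGroup (Fin 2) F)) ^ n = 1 ↔ h ^ n ∈ Subgroup.center (SL2 F) := by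
    intro n
    rw [← QuotientGroup.mk_pow]
    exact QuotientGroup.eq_one_iff _
  have h1 : h ^ (2 * p) ∈ Subgroup.center (SL2 F) := by
    rw [← hmk, ← hord]; exact pow_orderOf_eq_one _
  have h2 : h ^ 2 ∉ Subgroup.center (SL2 F) := by
    rw [← hmk]
    intro h'
    have := orderOf_le_of_pow_eq_one (by norm_num) h'
    omega
  have h3 : h ^ p ∉ Subgroup.center (SL2 F) := by
    rw [← hmk]
    intro h'
    have := orderOf_le_of_pow_eq_one hp'.pos h'
    omega
  -- central elements are `± 1`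
  have hcen : ∀ c ∈ Subgroup.center (SL2 F), c = 1 ∨ c = sl2M1 F := by
    intro c hc
    have h10 := (mem_centralizer_sl2U_iff (F := F) one_ne_zero c).mp (by
      rw [Subgroup.mem_centralizer_singleton_iff]
      exact (Subgroup.mem_center_iff.mp hc _).symm)
    have hw := (sl2_comm_iff _ _).mp (Subgroup.mem_center_iff.mp hc sl2W)
    have e := congrFun (congrFun hw 0) 0
    simp [Matrix.mul_apply, sl2W, h10.1] at e
    have hdet := sl2_det c
    rw [h10.1, e, ← h10.2] at hdet
    have hsq : ((c : Matrix (Fin 2) (Fin 2) F) 0 0 - 1) * ((c : Matrix (Fin 2) (Fin 2) F) 0 0 + 1) = 0 := by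
      linear_combination hdet
    rcases mul_eq_zero.mp hsq with h4 | h4
    · left
      have h5 : (c : Matrix (Fin 2) (Fin 2) F) 0 0 = 1 := by linear_combination h4
      apply sl2_ext
      · rw [h5]; simp
      · rw [e]; simp
      · rw [h10.1]; simp
      · rw [← h10.2, h5]; simp
    · right
      have h5 : (c : Matrix (Fin 2) (Fin 2) F) 0 0 = -1 := by linear_combination h4
      apply sl2_ext
      · rw [h5]; simp [sl2M1]
      · rw [e]; simp [sl2M1]
      · rw [h10.1]; simp [sl2M1]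
      · rw [← h10.2, h5]; simp [sl2M1]
  have hc2 : ∀ c ∈ Subgroup.center (SL2 F), c ^ p * c = 1 := by
    intro c hc
    rcases hcen c hc with rfl | rfl
    · simp
    · obtain ⟨k, hk⟩ := hpodd
      rw [← pow_succ, show p + 1 = 2 * (k + 1) by omega, pow_mul, pow_two, sl2M1_mul_self, one_pow]
  obtain ⟨c, hc⟩ : ∃ c, c = h ^ (2 * p) := ⟨_, rfl⟩
  rw [← hc] at h1
  have hcc : Commute c (h ^ 2) := (show Commute (h ^ 2) c from Subgroup.mem_center_iff.mp h1 _).symm
  obtain ⟨t, ht⟩ : ∃ t, t = c * h ^ 2 := ⟨_, rfl⟩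
  have htp : t ^ p = 1 := by
    rw [ht, hcc.mul_pow, ← pow_mul, ← hc, hc2 c h1]
  have ht1 : t ≠ 1 := by
    intro h4
    apply h2
    have : h ^ 2 = c⁻¹ := by
      rw [eq_inv_iff_mul_eq_one, ← hcc.eq, ← ht]
      exact h4
    rw [this]
    exact inv_mem h1
  have hot : orderOf t = p := orderOf_eq_prime htp ht1
  obtain ⟨b, hb, hconj⟩ := sl2_order_p_conj_U t hot
  obtain ⟨x, hx⟩ := isConj_iff.mp hconj
  have hth : h * t = t * h := by
    rw [ht]
    have h4 : h * c = c * h := Subgroup.mem_center_iff.mp h1 h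
    rw [← mul_assoc, h4, mul_assoc, mul_assoc, pow_two, mul_assoc]
  obtain ⟨h', hh'⟩ : ∃ h', h' = x * h * x⁻¹ := ⟨_, rfl⟩
  have hcomm : h' * sl2U b = sl2U b * h' := by
    rw [← hx, hh']
    calc x * h * x⁻¹ * (x * t * x⁻¹) = x * (h * t) * x⁻¹ := by group
      _ = x * (t * h) * x⁻¹ := by rw [hth]
      _ = x * t * x⁻¹ * (x * h * x⁻¹) := by group
  have hCent := (mem_centralizer_sl2U_iff hb h').mp (Subgroup.mem_centralizer_singleton_iff.mpr hcomm)
  have hdet := sl2_det h'
  rw [hCent.1, ← hCent.2] at hdet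
  have hsq : ((h' : Matrix (Fin 2) (Fin 2) F) 0 0 - 1) * ((h' : Matrix (Fin 2) (Fin 2) F) 0 0 + 1) = 0 := by
    linear_combination hdet
  have hUp : ∀ v : F, sl2U v ^ p = 1 := by
    intro v
    rw [sl2U_pow, CharP.cast_eq_zero, zero_mul, sl2U_zero]
  have hpow : h' ^ p ∈ Subgroup.center (SL2 F) := by
    rcases mul_eq_zero.mp hsq with h4 | h4
    · have h5 : (h' : Matrix (Fin 2) (Fin 2) F) 0 0 = 1 := by linear_combination h4
      rw [sl2U_eq_of_entries hCent.1 h5 (hCent.2 ▸ h5), hUp]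
      exact one_mem _
    · have h5 : (h' : Matrix (Fin 2) (Fin 2) F) 0 0 = -1 := by linear_combination h4
      have h6 : h' = sl2M1 F * sl2U (-(h' : Matrix (Fin 2) (Fin 2) F) 0 1) := by
        apply sl2_ext
        · simp [sl2_mul_apply, sl2M1, sl2U, h5]
        · simp [sl2_mul_apply, sl2M1, sl2U]
        · simp [sl2_mul_apply, sl2M1, sl2U, hCent.1]
        · simp [sl2_mul_apply, sl2M1, sl2U, ← hCent.2, h5]
      rw [h6, (show Commute (sl2M1 F) _ from sl2M1_comm _).mul_pow, hUp, mul_one]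
      apply pow_mem
      rw [Subgroup.mem_center_iff]
      exact fun g => (sl2M1_comm g).symm
  have h7 : h' ^ p = x * h ^ p * x⁻¹ := by
    rw [hh', conj_pow]
  apply h3
  rw [h7] at hpow
  have h8 := (inferInstance : (Subgroup.center (SL2 F)).Normal).conj_mem _ hpow x⁻¹
  have h9 : x⁻¹ * (x * h ^ p * x⁻¹) * x⁻¹⁻¹ = h ^ p := by group
  rwa [h9] at h8

end Cfsg.Agent.S2471
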