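import Cfsg.Statements.S2478
import Cfsg.Agent.Lib.GLCount.Mod

set_option autoImplicit false
open Cfsg

namespace Cfsg.Agent.S2478

open Polynomial Cfsg.Agent.Lib.GLCount in
theorem exists_gl_charpoly {F : Type*} [Field F] {n : ℕ} [Fintype F] (f : F[X]) (hf : f ∈ Mon F n) :
    ∃ g : Matrix.GeneralLinearGroup (Fin n) F, (g : Matrix (Fin n) (Fin n) F).charpoly = f := by
  classical
  obtain ⟨hm, hd, h0⟩ := hf
  let pb := AdjoinRoot.powerBasis' hm
  have hdim : pb.dim = n := by
    rw [AdjoinRoot.powerBasis'_dim, hd]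
  let e : Fin pb.dim ≃ Fin n := finCongr hdim
  let M : Matrix (Fin pb.dim) (Fin pb.dim) F := Algebra.leftMulMatrix pb.basis pb.gen
  have hM : M.charpoly = f := by
    simp only [M]
    rw [charpoly_leftMulMatrix, AdjoinRoot.powerBasis'_gen, AdjoinRoot.minpoly_root hm.ne_zero, hm.leadingCoeff]
    simp
  let A : Matrix (Fin n) (Fin n) F := Matrix.reindex e e M
  have hA : A.charpoly = f := by
    simp only [A]
    rw [Matrix.charpoly_reindex, hM]
  have hdet : A.det ≠ 0 := by
    rw [Matrix.det_eq_sign_charpoly_coeff, hA]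
    exact mul_ne_zero (pow_ne_zero _ (by norm_num)) h0
  refine ⟨Matrix.GeneralLinearGroup.mkOfDetNeZero A hdet, ?_⟩
  exact hA

/-- The number of conjugacy classes of GL(n,q): for F a finite field with q elements and n ≥ 1, the number k of conjugacy classes of GL(n,F) satisfies q^n − q^(n−1) ≤ k ≤ q^n. -/
theorem result {F : Type*} [Field F] [Fintype F] (n : ℕ) (hn : 1 ≤ n) :
    Fintype.card F ^ n - Fintype.card F ^ (n - 1) ≤ Nat.card (ConjClasses (Matrix.GeneralLinearGroup (Fin n) F)) ∧ Nat.card (ConjClasses (Matrix.GeneralLinearGroup (Fin n) F)) ≤ Fintype.card F ^ n := by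
  classical
  refine ⟨?_, Cfsg.Agent.Lib.GLCount.card_conj_le hn⟩
  obtain ⟨m, rfl⟩ : ∃ m, n = m + 1 := ⟨n - 1, by omega⟩
  have hq : 1 ≤ Fintype.card F := Fintype.card_pos
  have h1 : Fintype.card F ^ (m + 1) - Fintype.card F ^ (m + 1 - 1) = (Fintype.card F - 1) * Fintype.card F ^ m := by
    rw [Nat.add_sub_cancel, Nat.sub_mul, one_mul, pow_succ']
  rw [h1, ← Cfsg.Agent.Lib.GLCount.mon_succ_ncard F m]
  have hex := fun f : Cfsg.Agent.Lib.GLCount.Mon F (m + 1) => exists_gl_charpoly f.1 f.2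
  choose g hg using hex
  let φ : Cfsg.Agent.Lib.GLCount.Mon F (m + 1) → ConjClasses (Matrix.GeneralLinearGroup (Fin (m + 1)) F) :=
    fun f => ConjClasses.mk (g f)
  have hφ : Function.Injective φ := by
    intro f f' h
    have h2 : IsConj (g f) (g f') := ConjClasses.mk_eq_mk_iff_isConj.1 h
    obtain ⟨c, hc⟩ := isConj_iff.1 h2
    apply Subtype.ext
    rw [← hg f, ← hg f', ← hc]
    rw [Units.val_mul, Units.val_mul, Matrix.coe_units_inv]
    exact (Matrix.charpoly_units_conj c (g f : Matrix (Fin (m + 1)) (Fin (m + 1)) F)).symm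
  have h3 := Nat.card_le_card_of_injective φ hφ
  rwa [Nat.card_coe_set_eq] at h3

end Cfsg.Agent.S2478
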