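import Cfsg.Statements.S2490
import Cfsg.Agent.Lib.Misc19.M11Prime

set_option autoImplicit false
open Cfsg

namespace Cfsg.Agent.S2490



/-- Let G be a finite group of order 7920 = 2⁴·3²·5·11 (the order of the smallest Mathieu group) and suppose its prime graph (vertices the prime divisors of the order, distinct p, q joined when there is an element of order pq) is disconnected: the prime divisors split into two non-empty parts with no element of order pq for p in one part and q in the other. Then G is simple. -/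
theorem result {G : Type*} [Group G] [Finite G] (hord : Nat.card G = 7920)
    (hdisc : (∃ A : Set ℕ, (∃ a ∈ A, a.Prime ∧ a ∣ Nat.card G) ∧ (∃ b ∉ A, b.Prime ∧ b ∣ Nat.card G) ∧
      ∀ a ∈ A, ∀ b ∉ A, a.Prime → b.Prime → a ∣ Nat.card G → b ∣ Nat.card G → ¬ ∃ g : G, orderOf g = a * b)) :
    IsSimpleGroup G := by

  by_contra hns
  obtain ⟨E22, E33, E5⟩ := Cfsg.Agent.Lib.Misc19.M11P.edges hord hns
  obtain ⟨A, ⟨a, haA, hap, had⟩, ⟨b, hbA, hbp, hbd⟩, hno⟩ := hdisc
  have hedge : ∀ p q : ℕ, p.Prime → q.Prime → p ∣ Nat.card G → q ∣ Nat.card G → (∃ g : G, orderOf g = p * q) →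
      (p ∈ A ↔ q ∈ A) := by
    intro p q hp hq hpd hqd hg
    constructor
    · intro hpA
      by_contra hqA
      exact hno p hpA q hqA hp hq hpd hqd hg
    · intro hqA
      by_contra hpA
      obtain ⟨g, hg⟩ := hg
      exact hno q hqA p hpA hq hp hqd hpd ⟨g, by rw [hg, mul_comm]⟩
  have h2 : (2 : ℕ).Prime := by norm_num
  have h3 : (3 : ℕ).Prime := by norm_num
  have h5 : (5 : ℕ).Prime := by norm_num
  have h11 : (11 : ℕ).Prime := by norm_num
  have d2 : 2 ∣ Nat.card G := by rw [hord]; norm_num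
  have d3 : 3 ∣ Nat.card G := by rw [hord]; norm_num
  have d5 : 5 ∣ Nat.card G := by rw [hord]; norm_num
  have d11 : 11 ∣ Nat.card G := by rw [hord]; norm_num
  have e2 : 2 ∈ A ↔ 11 ∈ A := hedge 2 11 h2 h11 d2 d11 (by simpa using E22)
  have e3 : 3 ∈ A ↔ 11 ∈ A := hedge 3 11 h3 h11 d3 d11 (by simpa using E33)
  have e5 : 5 ∈ A ↔ 11 ∈ A := by
    rcases E5 with E | E
    · exact hedge 5 11 h5 h11 d5 d11 (by simpa using E)
    · exact (hedge 5 3 h5 h3 d5 d3 (by simpa using E)).trans e3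
  have hprimes : ∀ p : ℕ, p.Prime → p ∣ Nat.card G → p = 2 ∨ p = 3 ∨ p = 5 ∨ p = 11 := by
    intro p hp hd
    rw [hord] at hd
    have e : (7920 : ℕ) = 2 ^ 4 * 3 ^ 2 * 5 * 11 := by norm_num
    rw [e] at hd
    rcases (Nat.Prime.dvd_mul hp).mp hd with h1 | h1
    · rcases (Nat.Prime.dvd_mul hp).mp h1 with h1 | h1
      · rcases (Nat.Prime.dvd_mul hp).mp h1 with h1 | h1
        · exact Or.inl ((Nat.prime_dvd_prime_iff_eq hp h2).mp (hp.dvd_of_dvd_pow h1))
        · exact Or.inr (Or.inl ((Nat.prime_dvd_prime_iff_eq hp h3).mp (hp.dvd_of_dvd_pow h1)))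
      · exact Or.inr (Or.inr (Or.inl ((Nat.prime_dvd_prime_iff_eq hp h5).mp h1)))
    · exact Or.inr (Or.inr (Or.inr ((Nat.prime_dvd_prime_iff_eq hp h11).mp h1)))
  have hall : ∀ p : ℕ, p.Prime → p ∣ Nat.card G → (p ∈ A ↔ 11 ∈ A) := by
    intro p hp hd
    rcases hprimes p hp hd with rfl | rfl | rfl | rfl
    · exact e2
    · exact e3
    · exact e5
    · exact Iff.rfl
  exact hbA ((hall b hbp hbd).mpr ((hall a hap had).mp haA))

end Cfsg.Agent.S2490
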