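import Cfsg.Statements.S2495
import Cfsg.Agent.Lib.Known.SingerPSL

set_option autoImplicit false
open Cfsg

namespace Cfsg.Agent.S2495

/-- Let q be an odd prime power, n ≥ 4 even, and L = PSL(n,q). Then L has an element of order q^(n/2) + 1 if and only if the 2-part of n exceeds the 2-part of q − 1. -/
theorem result {F : Type*} [Field F] [Fintype F] {q : ℕ} (hF : Fintype.card F = q) (hodd : Odd q)
    {n : ℕ} (hn : 4 ≤ n) (heven : Even n) :
    (∃ g : Matrix.ProjectiveSpecialLinearGroup (Fin n) F, orderOf g = q ^ (n / 2) + 1) ↔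
      padicValNat 2 (q - 1) < padicValNat 2 n := by
  obtain ⟨m, hm⟩ := heven
  have hn' : n = 2 * m := by omega
  have hm2 : 2 ≤ m := by omega
  have hq3 : 3 ≤ q := by
    have h1 : 2 ≤ q := by
      rw [← hF]
      exact Fintype.one_lt_card
    obtain ⟨k, hk⟩ := hodd
    omega
  have hdiv : n / 2 = m := by omega
  rw [hdiv]
  subst hn'
  rw [← Cfsg.Agent.Lib.Known.Singer.gcd_dvd_iff_padic hq3 hm2]
  constructor
  · rintro ⟨g, hg⟩
    exact Cfsg.Agent.Lib.Known.Singer.gcd_dvd_of_exists_order hF hq3 hm2 rfl g hg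
  · intro h
    exact Cfsg.Agent.Lib.Known.Singer.exists_order_of_gcd_dvd hF hq3 hm2 rfl hodd h

end Cfsg.Agent.S2495
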