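import Cfsg.Statements.S2503
import Cfsg.Agent.Lib.Known.PSL2ABA

set_option autoImplicit false
open Cfsg

namespace Cfsg.Agent.S2503

open Cfsg.Agent.Lib.Known

/-- Let F be a finite field with q = 2^t ≥ 4 elements and L = PSL(2,F). Then L has a cyclic subgroup A of order q + 1 and an elementary abelian 2-subgroup B of order q such that L = ABA: every element of L is a product a·b·a' with a, a' ∈ A and b ∈ B. -/
theorem result {F : Type*} [Field F] [Fintype F]
    (h2 : 2 ∣ Fintype.card F) (h4 : 4 ≤ Fintype.card F) :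
    ∃ A B : Subgroup (Matrix.ProjectiveSpecialLinearGroup (Fin 2) F),
      IsCyclic A ∧ Nat.card A = Fintype.card F + 1 ∧ IsMulCommutative B ∧ (∀ b ∈ B, b * b = 1) ∧
        Nat.card B = Fintype.card F ∧
        ∀ g : Matrix.ProjectiveSpecialLinearGroup (Fin 2) F, ∃ a ∈ A, ∃ b ∈ B, ∃ c ∈ A, g = a * b * c := by
  classical
  obtain ⟨p, hp⟩ := CharP.exists F
  obtain ⟨n, hpp, hn⟩ := FiniteField.card F p
  haveI : Fact p.Prime := ⟨hpp⟩
  have hp2 : p = 2 := by
    rw [hn] at h2
    exact ((Nat.prime_dvd_prime_iff_eq Nat.prime_two hpp).mp (Nat.Prime.dvd_of_dvd_pow Nat.prime_two h2)).symm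
  subst hp2
  exact exists_ABA (F := F)

end Cfsg.Agent.S2503
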