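import Cfsg.Statements.S2504
import Mathlib
import Cfsg.Agent.Lib.AbPerm.Exist

set_option autoImplicit false
open Cfsg

namespace Cfsg.Agent.S2504

open Cfsg.Agent.Lib.AbPerm

/-- The largest order of an abelian subgroup of the alternating group of degree n is 3^k when n = 3k, 4·3^(k−1) when n = 3k + 1, and 16·3^(k−2) when n = 3k + 2, for every k ≥ 2 (so for all degrees n ≥ 6). -/
theorem result (k : ℕ) (hk : 2 ≤ k) :
    IsGreatest {c : ℕ | ∃ A : Subgroup (alternatingGroup (Fin (3 * k))), IsMulCommutative A ∧ Nat.card A = c} (3 ^ k) ∧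
    IsGreatest {c : ℕ | ∃ A : Subgroup (alternatingGroup (Fin (3 * k + 1))), IsMulCommutative A ∧ Nat.card A = c}
      (4 * 3 ^ (k - 1)) ∧
    IsGreatest {c : ℕ | ∃ A : Subgroup (alternatingGroup (Fin (3 * k + 2))), IsMulCommutative A ∧ Nat.card A = c}
      (16 * 3 ^ (k - 2)) := by
  obtain ⟨m, rfl⟩ : ∃ m, k = m + 2 := ⟨k - 2, by omega⟩
  refine ⟨⟨(hasAb_mul_three True _).exists_alt, ?_⟩, ⟨?_, ?_⟩, ⟨?_, ?_⟩⟩
  · rintro c ⟨A, hA, rfl⟩
    have := card_le_g_alt A hA
    rwa [g_mul_three] at this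
  · have := (hasAb_three_one True (m + 1)).exists_alt
    simpa using this
  · rintro c ⟨A, hA, rfl⟩
    have := card_le_g_alt A hA
    have e : g (3 * (m + 2) + 1) = 4 * 3 ^ (m + 1) := g_mul_three_one (m + 1)
    rw [e] at this
    simpa using this
  · have := (hasAb_three_two_even True m).exists_alt
    simpa using this
  · rintro c ⟨A, hA, rfl⟩
    exact card_le_alt_two (by omega) A hA

end Cfsg.Agent.S2504
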