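import Cfsg.Statements.S2506
import Cfsg.Agent.Lib.Perm.MaxAbAltB
import Mathlib

set_option autoImplicit false
open scoped Pointwise
open Cfsg

namespace Cfsg.Agent.S2506

private lemma small_alt : ∀ n : ℕ, n ≤ 2 → ∀ x : alternatingGroup (Fin n), x = 1 := by
  intro n hn x
  interval_cases n
  · exact Subsingleton.elim _ _
  · exact Subsingleton.elim _ _
  · apply Subtype.ext
    exact Cfsg.Agent.Perm.MaxAb.dec_two _ x.2

private lemma dec_no_six : ∀ σ : Equiv.Perm (Fin 5), Equiv.Perm.sign σ = 1 → σ ^ 6 = 1 → σ ^ 2 = 1 ∨ σ ^ 3 = 1 := by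
  decide +kernel

private lemma card_alt_five : Nat.card (alternatingGroup (Fin 5)) = 60 := by
  rw [Nat.card_eq_fintype_card]
  have h := two_mul_card_alternatingGroup (α := Fin 5)
  rw [Fintype.card_perm, Fintype.card_fin] at h
  have h2 : Nat.factorial 5 = 120 := rfl
  omega

open Cfsg.Agent.Perm.MaxAb Cfsg.Agent.Lib.AbPerm in
private lemma five_case (A : Subgroup (alternatingGroup (Fin 5))) (hA : IsMulCommutative A)
    (hAmax : ∀ C : Subgroup (alternatingGroup (Fin 5)), IsMulCommutative C → Nat.card C ≤ Nat.card A) :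
    Nat.card A = 5 := by
  classical
  haveI : Fact (Nat.Prime 5) := ⟨by norm_num⟩
  haveI : Fact (Nat.Prime 2) := ⟨by norm_num⟩
  haveI : Fact (Nat.Prime 3) := ⟨by norm_num⟩
  obtain ⟨x, hx⟩ : ∃ x : alternatingGroup (Fin 5), orderOf x = 5 :=
    exists_prime_orderOf_dvd_card' 5 (by rw [card_alt_five]; norm_num)
  have hlow : 5 ≤ Nat.card A := by
    have h := hAmax (Subgroup.zpowers x) inferInstance
    rwa [Nat.card_zpowers, hx] at h
  have hup : Nat.card A ≤ 6 := by
    have h := card_le_g_alt A hA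
    exact h
  have hne : Nat.card A ≠ 6 := by
    intro h6
    obtain ⟨u, hu⟩ : ∃ u : A, orderOf u = 2 := exists_prime_orderOf_dvd_card' 2 (by rw [h6]; norm_num)
    obtain ⟨v, hv⟩ : ∃ v : A, orderOf v = 3 := exists_prime_orderOf_dvd_card' 3 (by rw [h6]; norm_num)
    have hcomm : Commute u v := by
      have h := hA.is_comm.comm u v
      exact h
    have hu2 : u ^ 2 = 1 := by rw [← hu]; exact pow_orderOf_eq_one u
    have hv3 : v ^ 3 = 1 := by rw [← hv]; exact pow_orderOf_eq_one v
    have hw6 : (u * v) ^ 6 = 1 := by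
      rw [hcomm.mul_pow, show (6 : ℕ) = 2 * 3 by norm_num, pow_mul u, hu2, one_pow, one_mul,
        show 2 * 3 = 3 * 2 by norm_num, pow_mul v, hv3, one_pow]
    let ι : A →* Equiv.Perm (Fin 5) := (alternatingGroup (Fin 5)).subtype.comp A.subtype
    have hι : Function.Injective ι := by
      intro a b hab
      apply Subtype.ext
      apply Subtype.ext
      exact hab
    have hsign : Equiv.Perm.sign (ι (u * v)) = 1 := ((u * v : A) : alternatingGroup (Fin 5)).2
    have h6' : (ι (u * v)) ^ 6 = 1 := by rw [← map_pow, hw6, map_one]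
    rcases dec_no_six _ hsign h6' with h | h
    · rw [← map_pow, (map_eq_one_iff ι hι)] at h
      rw [hcomm.mul_pow, hu2, one_mul] at h
      have h1 : orderOf v ∣ 2 := orderOf_dvd_of_pow_eq_one h
      rw [hv] at h1
      exact absurd h1 (by norm_num)
    · rw [← map_pow, (map_eq_one_iff ι hι)] at h
      rw [hcomm.mul_pow, hv3, mul_one] at h
      have h1 : orderOf u ∣ 3 := orderOf_dvd_of_pow_eq_one h
      rw [hu] at h1
      exact absurd h1 (by norm_num)
  omega

open Cfsg.Agent.Perm.MaxAb Cfsg.Agent.Lib.AbPerm in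
private lemma exists_large (k fam n : ℕ) (hfam : fam ≤ 2) (hn : n = 3 * k + 4 * fam) :
    ∃ C : Subgroup (alternatingGroup (Fin n)), IsMulCommutative C ∧ Nat.card C = 4 ^ fam * 3 ^ k := by
  have h : HasAb n (4 ^ fam * 3 ^ k) True := by
    have hfam' : fam = 0 ∨ fam = 1 ∨ fam = 2 := by omega
    rcases hfam' with rfl | rfl | rfl
    · exact (hasAb_mul_three True k).cast (by omega) (by simp)
    · exact (hasAb_three_one True k).cast (by omega) (by simp)
    · exact (hasAb_three_two_even True k).cast (by omega) (by norm_num)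
  exact h.exists_alt

/-- In the alternating group of any degree, any two abelian subgroups of the largest possible order (among abelian subgroups) are conjugate. -/
theorem result (n : ℕ)
    (A B : Subgroup (alternatingGroup (Fin n))) (hA : IsMulCommutative A) (hB : IsMulCommutative B)
    (hAmax : ∀ C : Subgroup (alternatingGroup (Fin n)), IsMulCommutative C → Nat.card C ≤ Nat.card A)
    (hBmax : ∀ C : Subgroup (alternatingGroup (Fin n)), IsMulCommutative C → Nat.card C ≤ Nat.card B) :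
    ∃ g : alternatingGroup (Fin n), B = MulAut.conj g • A := by
  classical
  by_cases hn2 : n ≤ 2
  · have hall := small_alt n hn2
    refine ⟨1, ?_⟩
    ext x
    rw [Subgroup.mem_pointwise_smul_iff_inv_smul_mem]
    simp only [MulAut.smul_def, map_one, inv_one, MulAut.one_apply, one_smul]
    rw [hall x]
    exact ⟨fun _ => A.one_mem, fun _ => B.one_mem⟩
  by_cases hn5 : n = 5
  · subst hn5
    haveI : Fact (Nat.Prime 5) := ⟨by norm_num⟩
    have hfac : (Nat.card (alternatingGroup (Fin 5))).factorization 5 = 1 := by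
      rw [card_alt_five, show (60 : ℕ) = 5 ^ 1 * 12 by norm_num,
        Nat.factorization_mul (by norm_num) (by norm_num), Nat.factorization_pow]
      simp [Nat.Prime.factorization_self (show Nat.Prime 5 by norm_num)]
      exact Nat.factorization_eq_zero_of_not_dvd (by norm_num)
    let P : Sylow 5 (alternatingGroup (Fin 5)) := Sylow.ofCard A (by
      rw [five_case A hA hAmax, hfac, pow_one])
    let Q : Sylow 5 (alternatingGroup (Fin 5)) := Sylow.ofCard B (by
      rw [five_case B hB hBmax, hfac, pow_one])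
    obtain ⟨g, hg⟩ := MulAction.exists_smul_eq (alternatingGroup (Fin 5)) P Q
    refine ⟨g, ?_⟩
    have h1 : ((g • P : Sylow 5 (alternatingGroup (Fin 5))) : Subgroup (alternatingGroup (Fin 5))) = Q := by
      rw [hg]
    rw [Sylow.coe_subgroup_smul] at h1
    exact h1.symm
  -- the general case
  obtain ⟨k, fam, hfam, hnk⟩ : ∃ k fam : ℕ, fam ≤ 2 ∧ n = 3 * k + 4 * fam := by
    by_cases h0 : n % 3 = 0
    · exact ⟨n / 3, 0, by omega, by omega⟩
    · by_cases h1 : n % 3 = 1
      · exact ⟨(n - 4) / 3, 1, by omega, by omega⟩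
      · exact ⟨(n - 8) / 3, 2, by omega, by omega⟩
  obtain ⟨C₀, hC₀, hC₀card⟩ := exists_large k fam n hfam hnk
  have hTA : 4 ^ fam * 3 ^ k ≤ Nat.card A := hC₀card ▸ hAmax C₀ hC₀
  have hTB : 4 ^ fam * 3 ^ k ≤ Nat.card B := hC₀card ▸ hBmax C₀ hC₀
  let S := alternatingGroup (Fin n)
  let A' : Subgroup (Equiv.Perm (Fin n)) := A.map S.subtype
  let B' : Subgroup (Equiv.Perm (Fin n)) := B.map S.subtype
  have hA'card : Nat.card A' = Nat.card A :=
    Nat.card_congr (Subgroup.equivMapOfInjective A _ S.subtype_injective).toEquiv.symm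
  have hB'card : Nat.card B' = Nat.card B :=
    Nat.card_congr (Subgroup.equivMapOfInjective B _ S.subtype_injective).toEquiv.symm
  have hcommOf : ∀ D : Subgroup S, IsMulCommutative D → ∀ a ∈ D.map S.subtype, ∀ b ∈ D.map S.subtype, a * b = b * a := by
    rintro D hD _ ⟨x, hx, rfl⟩ _ ⟨y, hy, rfl⟩
    have h := hD.is_comm.comm ⟨x, hx⟩ ⟨y, hy⟩
    have h2 : x * y = y * x := congrArg Subtype.val h
    rw [← map_mul, ← map_mul, h2]
  have hevenOf : ∀ D : Subgroup S, ∀ a ∈ D.map S.subtype, Equiv.Perm.sign a = 1 := by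
    rintro D _ ⟨x, hx, rfl⟩
    exact x.2
  have hmaxOf : ∀ D : Subgroup S, (∀ C : Subgroup S, IsMulCommutative C → Nat.card C ≤ Nat.card D) →
      ∀ C : Subgroup (Equiv.Perm (Fin n)), (∀ a ∈ C, ∀ b ∈ C, a * b = b * a) →
      (∀ a ∈ C, Equiv.Perm.sign a = 1) → Nat.card C ≤ Nat.card (D.map S.subtype) := by
    intro D hD C hC hCe
    have hle : C ≤ S := fun a ha => hCe a ha
    have h1 := hD (C.subgroupOf S) ⟨⟨fun a b => Subtype.ext (Subtype.ext (hC _ a.2 _ b.2))⟩⟩
    rw [Nat.card_congr (Subgroup.subgroupOfEquivOfLe hle).toEquiv] at h1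
    have e : Nat.card (D.map S.subtype) = Nat.card D :=
      Nat.card_congr (Subgroup.equivMapOfInjective D _ S.subtype_injective).toEquiv.symm
    rw [e]
    exact h1
  have hnpos : 0 < n := by omega
  letI hinst : ∀ D : Subgroup (Equiv.Perm (Fin n)), Fintype (MulAction.orbitRel.Quotient D (Fin n)) :=
    fun D => Fintype.ofFinite _
  obtain ⟨g, hgs, hg⟩ := Cfsg.Agent.Perm.MaxAb.conj_main A' B' (hcommOf A hA) (hcommOf B hB) (hevenOf A) (hevenOf B)
    (hmaxOf A hAmax) (hmaxOf B hBmax) k fam hfam (by simpa using hnk)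
    (by rw [hA'card]; exact hTA) (by rw [hB'card]; exact hTB) ⟨0, hnpos⟩
  let g' : S := ⟨g, hgs⟩
  refine ⟨g', ?_⟩
  ext x
  rw [Subgroup.mem_pointwise_smul_iff_inv_smul_mem, MulAut.smul_def, MulAut.conj_inv_apply]
  have h1 : x ∈ B ↔ (x : Equiv.Perm (Fin n)) ∈ B' := by
    constructor
    · intro hx
      exact ⟨x, hx, rfl⟩
    · rintro ⟨y, hy, hyx⟩
      have : y = x := Subtype.ext hyx
      rwa [← this]
  have h2 : g'⁻¹ * x * g' ∈ A ↔ ((g'⁻¹ * x * g' : S) : Equiv.Perm (Fin n)) ∈ A' := by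
    constructor
    · intro hx
      exact ⟨_, hx, rfl⟩
    · rintro ⟨y, hy, hyx⟩
      have : y = g'⁻¹ * x * g' := Subtype.ext hyx
      rwa [← this]
  rw [h1, h2, hg, Cfsg.Agent.Perm.MaxAb.mem_conjS]
  rfl

end Cfsg.Agent.S2506
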