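import Cfsg.Statements.S2508
import Cfsg.Agent.Lib.Perm.PSL2ClassesC
import Mathlib

set_option autoImplicit false
open Cfsg

namespace Cfsg.Agent.S2508

/-- Let F be a finite field with q elements, q odd and q ≥ 7. If q ≡ 1 (mod 4) the conjugacy class sizes of PSL(2,F) are exactly 1, (q² − 1)/2, q(q + 1)/2, q(q − 1) and q(q + 1); if q ≡ 3 (mod 4) they are exactly 1, (q² − 1)/2, q(q − 1)/2, q(q + 1) and q(q − 1). -/
theorem result {F : Type*} [Field F] [Fintype F]
    (hodd : ¬ 2 ∣ Fintype.card F) (h7 : 7 ≤ Fintype.card F) :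
    (Fintype.card F % 4 = 1 →
      Set.range (fun g : (Matrix.ProjectiveSpecialLinearGroup (Fin 2) F) => (Subgroup.centralizer ({g} : Set (Matrix.ProjectiveSpecialLinearGroup (Fin 2) F))).index) =
        {1, (Fintype.card F ^ 2 - 1) / 2, Fintype.card F * (Fintype.card F + 1) / 2,
          Fintype.card F * (Fintype.card F - 1), Fintype.card F * (Fintype.card F + 1)}) ∧
    (Fintype.card F % 4 = 3 →
      Set.range (fun g : (Matrix.ProjectiveSpecialLinearGroup (Fin 2) F) => (Subgroup.centralizer ({g} : Set (Matrix.ProjectiveSpecialLinearGroup (Fin 2) F))).index) =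
        {1, (Fintype.card F ^ 2 - 1) / 2, Fintype.card F * (Fintype.card F - 1) / 2,
          Fintype.card F * (Fintype.card F + 1), Fintype.card F * (Fintype.card F - 1)}) := by
  have hodd' : Odd (Fintype.card F) := Nat.not_even_iff_odd.1 (fun h => hodd h.two_dvd)
  constructor
  · intro h1
    have hs : IsSquare (-1 : F) := FiniteField.isSquare_neg_one_iff.2 (by omega)
    obtain ⟨i, hi⟩ := hs
    have hi2 : i ^ 2 = -1 := by rw [hi, pow_two]
    exact Cfsg.Agent.Perm.PSL2Classes.range_odd hodd' h7 _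
      (fun x hx => Cfsg.Agent.Perm.PSL2Classes.val_zero_split hodd' hx hi2)
  · intro h3
    have hi : ∀ i : F, i ^ 2 ≠ -1 := by
      intro i hi
      have hs : IsSquare (-1 : F) := ⟨i, by rw [← hi, pow_two]⟩
      exact (FiniteField.isSquare_neg_one_iff.1 hs) h3
    rw [Cfsg.Agent.Perm.PSL2Classes.range_odd hodd' h7 _
      (fun x hx => Cfsg.Agent.Perm.PSL2Classes.val_zero_nonsplit hodd' hx hi)]
    ext v
    simp only [Set.mem_insert_iff, Set.mem_singleton_iff]
    tauto

end Cfsg.Agent.S2508
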