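import Cfsg.Statements.S2513
import Mathlib
import Cfsg.Agent.Lib.ElemOrders.Basic

set_option autoImplicit false
open Cfsg

namespace Cfsg.Agent.S2513


/-- Let F be the field with two elements, n ≥ 2, L = PSL(n, F) and k₀ = ⌊(n + 3)/2⌋. Then for every k ≥ k₀ the direct product of k copies of L has the same set of element orders as the direct product of k₀ copies of L. -/
theorem result {F : Type*} [Field F] [Fintype F] (hF : Fintype.card F = 2) (n k : ℕ) (hn : 2 ≤ n) (hk : (n + 3) / 2 ≤ k) :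
    Set.range (orderOf : (Fin k → Matrix.ProjectiveSpecialLinearGroup (Fin n) F) → ℕ) = Set.range (orderOf : (Fin ((n + 3) / 2) → Matrix.ProjectiveSpecialLinearGroup (Fin n) F) → ℕ) := by
  classical
  -- the characteristic
  have hp2 : Nat.Prime 2 := Nat.prime_two
  haveI : Fact (Nat.Prime 2) := ⟨hp2⟩
  haveI hchar : CharP F 2 := by
    obtain ⟨p, hp⟩ := CharP.exists F
    haveI := hp
    obtain ⟨m, hprime, hpm⟩ := FiniteField.card F p
    have h1 : p ∣ 2 := by
      rw [← hF, hpm]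
      exact dvd_pow_self p m.ne_zero
    have h2 := (Nat.prime_dvd_prime_iff_eq hprime Nat.prime_two).1 h1
    rwa [h2] at hp
  have hone : ∀ x : F, x ≠ 0 → x = 1 := by
    intro x hx
    have h1 := FiniteField.pow_card_sub_one_eq_one x hx
    rw [hF] at h1
    simpa using h1
  -- `PSL` is `SL`
  let π : Matrix.SpecialLinearGroup (Fin n) F →* Matrix.ProjectiveSpecialLinearGroup (Fin n) F :=
    QuotientGroup.mk' _
  have hπinj : Function.Injective π := by
    rw [injective_iff_map_eq_one]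
    intro s hs
    have h1 : s ∈ Subgroup.center (Matrix.SpecialLinearGroup (Fin n) F) := (QuotientGroup.eq_one_iff s).1 hs
    obtain ⟨r, hr, hr2⟩ := (Matrix.SpecialLinearGroup.mem_center_iff (A := s)).1 h1
    have hr0 : r ≠ 0 := by
      rintro rfl
      rw [zero_pow (by simp; omega)] at hr
      exact zero_ne_one hr
    apply Subtype.ext
    rw [← hr2, hone r hr0]
    simp
  have hπsurj : Function.Surjective π := QuotientGroup.mk'_surjective _
  -- transfer from `GL`
  have hfromGL : ∀ g : GL (Fin n) F, ∃ x : Matrix.ProjectiveSpecialLinearGroup (Fin n) F, orderOf x = orderOf g := by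
    intro g
    have hdet : (g : Matrix (Fin n) (Fin n) F).det = 1 := by
      apply hone
      exact ((Matrix.isUnit_iff_isUnit_det _).1 g.isUnit).ne_zero
    let s : Matrix.SpecialLinearGroup (Fin n) F := ⟨g, hdet⟩
    have hs : Matrix.SpecialLinearGroup.toGL s = g := Units.ext rfl
    refine ⟨π s, ?_⟩
    rw [orderOf_injective π hπinj s, ← hs]
    exact (orderOf_injective _ Matrix.SpecialLinearGroup.toGL_injective s).symm
  have htoGL : ∀ x : Matrix.ProjectiveSpecialLinearGroup (Fin n) F, ∃ g : GL (Fin n) F, orderOf x = orderOf g := by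
    intro x
    obtain ⟨s, rfl⟩ := hπsurj x
    refine ⟨Matrix.SpecialLinearGroup.toGL s, ?_⟩
    rw [orderOf_injective π hπinj s]
    exact (orderOf_injective _ Matrix.SpecialLinearGroup.toGL_injective s).symm
  have hn1 : 1 ≤ n := by omega
  obtain ⟨u, hu⟩ := Cfsg.Agent.Lib.ElemOrders.exists_unipotent_orderOf (F := F) (p := 2) hn1
  -- the bins
  have hbin : ∀ j : Fin ((n + 3) / 2), ∃ x : Matrix.ProjectiveSpecialLinearGroup (Fin n) F,
      ((j : ℕ) = 0 → ∀ a, 2 ^ a < n → 2 ^ (a + 1) ∣ orderOf x) ∧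
      ((j : ℕ) ≠ 0 → (2 ^ (n + 1 - j) - 1) ∣ orderOf x ∧ (2 ≤ (j : ℕ) → (2 ^ ((j : ℕ) - 1) - 1) ∣ orderOf x)) := by
    intro j
    have hj := j.2
    by_cases hj0 : (j : ℕ) = 0
    · refine ⟨π u, fun _ a ha => ?_, fun h => absurd hj0 h⟩
      rw [orderOf_injective π hπinj u]
      exact hu a ha
    · by_cases hj1 : (j : ℕ) = 1
      · obtain ⟨g, hg⟩ := Cfsg.Agent.Lib.ElemOrders.exists_GL_singer (F := F) 2 n hn1
        obtain ⟨x, hx⟩ := hfromGL g
        refine ⟨x, fun h => absurd h hj0, fun _ => ⟨?_, fun h => by omega⟩⟩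
        rw [hx, hg, hF, hj1]
        simp
      · obtain ⟨g, hg1, hg2⟩ := Cfsg.Agent.Lib.ElemOrders.exists_GL_two_blocks (F := F) 2 n (n + 1 - j) ((j : ℕ) - 1)
          (by omega) (by omega) (by omega)
        obtain ⟨x, hx⟩ := hfromGL g
        refine ⟨x, fun h => absurd h hj0, fun _ => ⟨?_, fun _ => ?_⟩⟩
        · rw [hx]; rwa [hF] at hg1
        · rw [hx]; rwa [hF] at hg2
  choose b hb0 hb1 using hbin
  apply Cfsg.Agent.Lib.ElemOrders.range_orderOf_pi_eq_of_bins hk b
  intro x r a hr hra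
  have h2k : 2 ≤ (n + 3) / 2 := by omega
  let j0 : Fin ((n + 3) / 2) := ⟨0, by omega⟩
  rcases Nat.eq_zero_or_pos a with rfl | ha
  · exact ⟨j0, by simp⟩
  obtain ⟨g, hg⟩ := htoGL x
  rw [hg] at hra
  by_cases hr2 : r = 2
  · subst hr2
    obtain ⟨a', rfl⟩ : ∃ a', a = a' + 1 := ⟨a - 1, by omega⟩
    exact ⟨j0, hb0 j0 rfl a' (Cfsg.Agent.Lib.ElemOrders.pow_lt_of_dvd_orderOf (p := 2) g hra)⟩
  · have hrF : ((r : ℕ) : F) ≠ 0 := by
      intro h0
      have h1 := (CharP.cast_eq_zero_iff F 2 r).1 h0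
      exact hr2 ((Nat.prime_dvd_prime_iff_eq Nat.prime_two hr).1 h1).symm
    obtain ⟨d, hd1, hdn, hdvd⟩ := Cfsg.Agent.Lib.ElemOrders.exists_dvd_pow_sub_one_of_dvd_orderOf g hr hrF ha hra
    rw [hF] at hdvd
    rcases lt_trichotomy (2 * d) n with hlt | heq | hgt
    · -- the partner of a small block
      let j : Fin ((n + 3) / 2) := ⟨d + 1, by omega⟩
      refine ⟨j, ?_⟩
      have h1 := (hb1 j (by simp [j])).2 (by simp [j]; omega)
      have h2 : (j : ℕ) - 1 = d := by simp [j]
      rw [h2] at h1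
      exact hdvd.trans h1
    · let j : Fin ((n + 3) / 2) := ⟨1, by omega⟩
      refine ⟨j, ?_⟩
      have h1 := (hb1 j (by simp [j])).1
      have h2 : n + 1 - (j : ℕ) = d * 2 := by simp [j]; omega
      rw [h2, pow_mul] at h1
      refine hdvd.trans (dvd_trans ?_ h1)
      simpa using Nat.sub_dvd_pow_sub_pow (2 ^ d) 1 2
    · let j : Fin ((n + 3) / 2) := ⟨n + 1 - d, by omega⟩
      refine ⟨j, ?_⟩
      have h1 := (hb1 j (by simp [j]; omega)).1
      have h2 : n + 1 - (j : ℕ) = d := by simp [j]; omega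
      rw [h2] at h1
      exact hdvd.trans h1

end Cfsg.Agent.S2513
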