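import Cfsg.Statements.S2514
import Mathlib

set_option autoImplicit false
open Cfsg

namespace Cfsg.Agent.S2514

theorem ord_dvd_closed {G : Type*} [Group G] [Finite G] (g : G) (d : ℕ) (hd : d ∣ orderOf g) :
    ∃ g' : G, orderOf g' = d :=
  ⟨g ^ (orderOf g / d), orderOf_pow_orderOf_div (orderOf_pos g).ne' hd⟩

theorem exists_max {G : Type*} [Group G] [Finite G] (g : G) :
    ∃ m, (m ∈ Set.range (orderOf : G → ℕ) ∧ ∀ m' ∈ Set.range (orderOf : G → ℕ), m ∣ m' → m' = m) ∧
      orderOf g ∣ m := by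
  have hfin : {m | m ∈ Set.range (orderOf : G → ℕ) ∧ orderOf g ∣ m}.Finite :=
    (Set.finite_range _).subset (fun m hm => hm.1)
  obtain ⟨m, hm, hmax⟩ := Set.exists_max_image _ id hfin ⟨orderOf g, ⟨g, rfl⟩, dvd_rfl⟩
  refine ⟨m, ⟨hm.1, ?_⟩, hm.2⟩
  rintro m' hm' hd
  obtain ⟨x, rfl⟩ := hm'
  have h1 : orderOf x ≤ m := hmax _ ⟨⟨x, rfl⟩, hm.2.trans hd⟩
  exact le_antisymm h1 (Nat.le_of_dvd (orderOf_pos x) hd)

theorem orderOf_eq_of_dvd_iff {α β : Type*} [Monoid α] [Monoid β] (x : α) (y : β)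
    (h : ∀ n, orderOf x ∣ n ↔ orderOf y ∣ n) : orderOf x = orderOf y :=
  Nat.dvd_antisymm ((h _).2 dvd_rfl) ((h _).1 dvd_rfl)

theorem pi_dvd_iff {ι α : Type*} [Monoid α] (x : ι → α) (n : ℕ) :
    orderOf x ∣ n ↔ ∀ i, orderOf (x i) ∣ n := by
  simp only [orderOf_dvd_iff_pow_eq_one, funext_iff, Pi.pow_apply, Pi.one_apply]

theorem prod_dvd_iff {α β : Type*} [Monoid α] [Monoid β] (x : α × β) (n : ℕ) :
    orderOf x ∣ n ↔ orderOf x.1 ∣ n ∧ orderOf x.2 ∣ n := by
  simp only [orderOf_dvd_iff_pow_eq_one, Prod.ext_iff, Prod.pow_fst, Prod.pow_snd, Prod.fst_one,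
    Prod.snd_one]


/-- For a finite group X write μ(X) for the set of element orders of X that are maximal under divisibility. Let G and H be finite groups and k ≥ 1 such that μ(H) ⊆ μ(G) and μ(G) has fewer than k elements outside μ(H). Then the direct product of k copies of G has the same set of element orders as the direct product of k − 1 copies of G with H. -/
theorem result {G H : Type*} [Group G] [Finite G] [Group H] [Finite H] (k : ℕ) (hk : 1 ≤ k)
    (hsub : {n : ℕ | n ∈ Set.range (orderOf : H → ℕ) ∧ ∀ m ∈ Set.range (orderOf : H → ℕ), n ∣ m → m = n} ⊆ {n : ℕ | n ∈ Set.range (orderOf : G → ℕ) ∧ ∀ m ∈ Set.range (orderOf : G → ℕ), n ∣ m → m = n})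
    (hfew : ({n : ℕ | n ∈ Set.range (orderOf : G → ℕ) ∧ ∀ m ∈ Set.range (orderOf : G → ℕ), n ∣ m → m = n} \ {n : ℕ | n ∈ Set.range (orderOf : H → ℕ) ∧ ∀ m ∈ Set.range (orderOf : H → ℕ), n ∣ m → m = n}).ncard < k) :
    Set.range (orderOf : (Fin k → G) → ℕ) = Set.range (orderOf : (Fin (k - 1) → G) × H → ℕ) := by
  obtain ⟨k', rfl⟩ : ∃ k', k = k' + 1 := ⟨k - 1, by omega⟩
  show Set.range (orderOf : (Fin (k' + 1) → G) → ℕ) = Set.range (orderOf : (Fin k' → G) × H → ℕ)
  ext n
  constructor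
  · -- from `G^k` to `G^(k-1) × H`
    rintro ⟨g, rfl⟩
    by_cases hA : ∃ i, ∃ h : H, orderOf h = orderOf (g i)
    · obtain ⟨i, h, hh⟩ := hA
      refine ⟨(g ∘ i.succAbove, h), orderOf_eq_of_dvd_iff _ _ fun n => ?_⟩
      rw [prod_dvd_iff, pi_dvd_iff, pi_dvd_iff, Fin.forall_iff_succAbove i, hh, and_comm]
      simp only [Function.comp]
    · push Not at hA
      -- each `g i` lies under a maximal order, which is not an order of `H`
      choose m hm hdvd using fun i => exists_max (g i)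
      have hD : ∀ i, m i ∉ {n : ℕ | n ∈ Set.range (orderOf : H → ℕ) ∧ ∀ m ∈ Set.range (orderOf : H → ℕ), n ∣ m → m = n} := by
        rintro i ⟨⟨h, hh⟩, -⟩
        obtain ⟨h', hh'⟩ := ord_dvd_closed h (orderOf (g i)) (hh ▸ hdvd i)
        exact hA i h' hh'
      let D := {n : ℕ | n ∈ Set.range (orderOf : G → ℕ) ∧ ∀ m ∈ Set.range (orderOf : G → ℕ), n ∣ m → m = n} \ {n : ℕ | n ∈ Set.range (orderOf : H → ℕ) ∧ ∀ m ∈ Set.range (orderOf : H → ℕ), n ∣ m → m = n}
      have hDfin : D.Finite := (Set.finite_range (orderOf : G → ℕ)).subset (fun n hn => hn.1.1)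
      have : ¬ Function.Injective (fun i : Fin (k' + 1) => (⟨m i, hm i, hD i⟩ : D)) := by
        intro hinj
        have hle := Nat.card_le_card_of_injective _ hinj
        have := hDfin.to_subtype
        rw [Nat.card_eq_fintype_card, Fintype.card_fin, Nat.card_coe_set_eq] at hle
        have hfew' : D.ncard < k' + 1 := hfew
        omega
      obtain ⟨i, j, hij, hne⟩ : ∃ i j, m i = m j ∧ i ≠ j := by
        simp only [Function.Injective, not_forall] at this
        obtain ⟨i, j, hij, hne⟩ := this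
        exact ⟨i, j, congrArg Subtype.val hij, hne⟩
      -- combine `g i` and `g j` into one element
      obtain ⟨g₀, hg₀⟩ : ∃ g₀ : G, orderOf g₀ = Nat.lcm (orderOf (g i)) (orderOf (g j)) := by
        obtain ⟨⟨x, hx⟩, -⟩ := hm i
        refine ord_dvd_closed x _ ?_
        rw [hx]
        exact Nat.lcm_dvd (hdvd i) (hij ▸ hdvd j)
      classical
      let g₁ := Function.update g i g₀
      have hg₁ : ∀ t, t ≠ i → g₁ t = g t := fun t ht => Function.update_of_ne ht _ _
      have hg₁i : g₁ i = g₀ := Function.update_self _ _ _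
      refine ⟨(g₁ ∘ j.succAbove, 1), orderOf_eq_of_dvd_iff _ _ fun n => ?_⟩
      rw [prod_dvd_iff, pi_dvd_iff, pi_dvd_iff]
      simp only [orderOf_one, one_dvd, and_true, Function.comp]
      constructor
      · intro hn t
        obtain ⟨s, hs⟩ : ∃ s, j.succAbove s = i := Fin.exists_succAbove_eq hne
        have hs' := hn s
        rw [hs, hg₁i, hg₀] at hs'
        have h1 : orderOf (g i) ∣ n := (Nat.dvd_lcm_left _ _).trans hs'
        have h2 : orderOf (g j) ∣ n := (Nat.dvd_lcm_right _ _).trans hs'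
        by_cases hti : t = i
        · rwa [hti]
        · by_cases htj : t = j
          · rwa [htj]
          · obtain ⟨s', hs''⟩ := Fin.exists_succAbove_eq htj
            have := hn s'
            rwa [hs'', hg₁ _ hti] at this
      · rintro hn t
        by_cases ht : j.succAbove t = i
        · rw [ht, hg₁i, hg₀]
          exact Nat.lcm_dvd (hn i) (hn j)
        · rw [hg₁ _ ht]
          exact hn _
  · -- from `G^(k-1) × H` to `G^k`
    rintro ⟨⟨g', h⟩, rfl⟩
    obtain ⟨m, hm, hd⟩ := exists_max h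
    obtain ⟨g₀, hg₀⟩ : ∃ g₀ : G, orderOf g₀ = orderOf h := by
      obtain ⟨⟨x, hx⟩, -⟩ := hsub hm
      exact ord_dvd_closed x _ (hx ▸ hd)
    refine ⟨Fin.cons g₀ g', orderOf_eq_of_dvd_iff _ _ fun n => ?_⟩
    rw [prod_dvd_iff, pi_dvd_iff, pi_dvd_iff, Fin.forall_fin_succ]
    simp only [Fin.cons_zero, Fin.cons_succ, hg₀]
    exact and_comm

end Cfsg.Agent.S2514
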