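import Cfsg.Statements.S2515
import Cfsg.Agent.Lib.Ree.Spec4

set_option autoImplicit false
open Cfsg

namespace Cfsg.Agent.S2515




/-- Let q = 3^α with α ≥ 3 odd. There is a finite group H having a non-trivial normal 3-subgroup and whose element orders maximal under divisibility are exactly 6, 9, q − 1 and (q + 1)/2. -/
theorem result (α : ℕ) (hα : 3 ≤ α) (hodd : Odd α) :
    ∃ (H : Type) (_ : Group H) (_ : Fintype H), (∃ P : Subgroup H, P.Normal ∧ P ≠ ⊥ ∧ IsPGroup 3 ↥P) ∧
      {n : ℕ | n ∈ Set.range (orderOf : H → ℕ) ∧ ∀ m ∈ Set.range (orderOf : H → ℕ), n ∣ m → m = n} = ({6, 9, 3 ^ α - 1, (3 ^ α + 1) / 2} : Set ℕ) := by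
  open Cfsg.Agent.Lib.Chev Cfsg.Agent.Lib.Chev.TwG2 Cfsg.Agent.Lib.Ree in
  obtain ⟨m, hm⟩ := hodd
  have hm1 : 1 ≤ m := by omega
  haveI : Fact (Nat.Prime 3) := ⟨Nat.prime_three⟩
  have hα0 : α ≠ 0 := by omega
  letI : Fintype (GaloisField 3 α) := Fintype.ofFinite _
  have hK : Fintype.card (GaloisField 3 α) = 3 ^ (2 * m + 1) := by
    rw [← Nat.card_eq_fintype_card, GaloisField.card 3 α hα0, hm]
  obtain ⟨hchar, f, hf3, hsq, hAA, hfin, ⟨D⟩⟩ := exists_setup hm1 hK
  have hq8 := D.toCtx.hq8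
  have hq27 := D.toCtx.hq27
  have h3d := RD.RL.three_dvd_card (K := GaloisField 3 α)
  obtain ⟨s, hs⟩ : ∃ s : GaloisField 3 α →+* GaloisField 3 α, ∀ x, s x = x ^ 3 :=
    ⟨frobenius _ 3, fun x => frobenius_def 3 x⟩
  have hspec := D.spec_iff s hs 0
  have hq : Fintype.card (GaloisField 3 α) = 3 ^ α := by rw [hK, hm]
  rw [← hq]
  obtain ⟨q, hqe⟩ : ∃ q, q = Fintype.card (GaloisField 3 α) := ⟨_, rfl⟩
  rw [← hqe] at hq8 hq27 h3d hspec ⊢
  letI : Fintype (FF s 0) := Fintype.ofFinite _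
  refine ⟨FF s 0, inferInstance, inferInstance, ⟨AffG.toY.ker, inferInstance, ?_, ?_⟩, ?_⟩
  · intro h
    have h1 : (⟨fun _ => 1, 1⟩ : FF s 0) ∈ (AffG.toY : FF s 0 →* _).ker := rfl
    rw [h, Subgroup.mem_bot] at h1
    have h2 := congrFun (congrArg AffG.v h1) 0
    exact one_ne_zero h2
  · rintro ⟨a, ha⟩
    refine ⟨1, Subtype.ext ?_⟩
    rw [pow_one]
    exact trans_cube s a ha
  · have hr : ∀ d, d ∈ Set.range (orderOf : FF s 0 → ℕ) ↔ (d ∣ 6 ∨ d ∣ 9 ∨ d ∣ q - 1 ∨ d ∣ (q + 1) / 2) := by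
      intro d
      rw [← hspec d]
      rfl
    have hnd : ∀ a b : ℕ, a ∈ ({6, 9, q - 1, (q + 1) / 2} : Set ℕ) → b ∈ ({6, 9, q - 1, (q + 1) / 2} : Set ℕ) → a ∣ b → a = b := by
      have h13 : ¬ (q - 1 ∣ (q + 1) / 2) := by
        intro h
        have := Nat.le_of_dvd (by omega) h
        omega
      have h14 : ¬ ((q + 1) / 2 ∣ q - 1) := by
        rintro ⟨c, hc⟩
        have hc2 : c < 2 := by
          by_contra hc3
          have : (q + 1) / 2 * 2 ≤ (q + 1) / 2 * c := Nat.mul_le_mul_left _ (by omega)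
          omega
        interval_cases c <;> omega
      have h15 : ¬ (q - 1 ∣ 6) := fun h => by
        have := Nat.le_of_dvd (by norm_num) h
        omega
      have h16 : ¬ (q - 1 ∣ 9) := fun h => by
        have := Nat.le_of_dvd (by norm_num) h
        omega
      have h17 : ¬ ((q + 1) / 2 ∣ 6) := fun h => by
        have := Nat.le_of_dvd (by norm_num) h
        omega
      have h18 : ¬ ((q + 1) / 2 ∣ 9) := fun h => by
        have := Nat.le_of_dvd (by norm_num) h
        omega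
      intro a b ha hb hab
      simp only [Set.mem_insert_iff, Set.mem_singleton_iff] at ha hb
      rcases ha with rfl | rfl | rfl | rfl <;> rcases hb with rfl | rfl | rfl | rfl <;> first | rfl | omega | (exfalso; revert hab; decide) | exact absurd hab ‹_›
    ext n
    simp only [Set.mem_setOf_eq]
    constructor
    · rintro ⟨h1, h2⟩
      have key : ∀ N, N ∈ Set.range (orderOf : FF s 0 → ℕ) → n ∣ N → N ∈ ({6, 9, q - 1, (q + 1) / 2} : Set ℕ) → n ∈ ({6, 9, q - 1, (q + 1) / 2} : Set ℕ) := by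
        intro N hN hd hs2
        rw [← h2 N hN hd]
        exact hs2
      rcases (hr n).mp h1 with h | h | h | h
      · exact key 6 ((hr 6).mpr (Or.inl dvd_rfl)) h (by simp)
      · exact key 9 ((hr 9).mpr (Or.inr (Or.inl dvd_rfl))) h (by simp)
      · exact key _ ((hr _).mpr (Or.inr (Or.inr (Or.inl dvd_rfl)))) h (by simp)
      · exact key _ ((hr _).mpr (Or.inr (Or.inr (Or.inr dvd_rfl)))) h (by simp)
    · intro hn
      have hnr : n ∈ Set.range (orderOf : FF s 0 → ℕ) := by
        simp only [Set.mem_insert_iff, Set.mem_singleton_iff] at hn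
        rw [hr]
        rcases hn with rfl | rfl | rfl | rfl
        · exact Or.inl dvd_rfl
        · exact Or.inr (Or.inl dvd_rfl)
        · exact Or.inr (Or.inr (Or.inl dvd_rfl))
        · exact Or.inr (Or.inr (Or.inr dvd_rfl))
      refine ⟨hnr, ?_⟩
      intro x hx hnx
      have key : ∀ N, N ∈ ({6, 9, q - 1, (q + 1) / 2} : Set ℕ) → x ∣ N → x = n := by
        intro N hN hxN
        have h1 := hnd n N hn hN (hnx.trans hxN)
        rw [← h1] at hxN
        exact Nat.dvd_antisymm hxN hnx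
      rcases (hr x).mp hx with h | h | h | h
      · exact key 6 (by simp) h
      · exact key 9 (by simp) h
      · exact key _ (by simp) h
      · exact key _ (by simp) h

end Cfsg.Agent.S2515
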