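import Cfsg.Statements.S2516
import Mathlib

set_option autoImplicit false
open Cfsg

namespace Cfsg.Agent.S2516


/-- Let F be a field of characteristic p > 0, V a non-zero finite-dimensional F-vector space, G a finite group and ρ a representation of G on V; form the semidirect product V ⋊ G. For g ∈ G of order k, the coset Vg contains an element of order pk if and only if the minimal polynomial of ρ(g) does not divide 1 + X + ⋯ + X^(k−1). -/
theorem result {F : Type*} [Field F] (p : ℕ) [Fact p.Prime] [CharP F p] {V : Type*} [AddCommGroup V] [Module F V] [FiniteDimensional F V] [Nontrivial V]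
    {G : Type*} [Group G] [Finite G] (ρ : Representation F G V) (g : G) :
    (∃ x : Multiplicative V ⋊[(MulAutMultiplicative V).symm.toMonoidHom.comp
        ((DistribMulAction.toAddAut ((V →ₗ[F] V)ˣ) V).comp ρ.asGroupHom)] G,
        x.right = g ∧ orderOf x = p * orderOf g) ↔
      ¬ (minpoly F (ρ g) ∣ ∑ i ∈ Finset.range (orderOf g), (Polynomial.X : Polynomial F) ^ i) := by
  classical
  set φ := (MulAutMultiplicative V).symm.toMonoidHom.comp
        ((DistribMulAction.toAddAut ((V →ₗ[F] V)ˣ) V).comp ρ.asGroupHom) with hφ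
  have hφapp : ∀ (h : G) (w : V), φ h (Multiplicative.ofAdd w) = Multiplicative.ofAdd (ρ h w) := by
    intro h w
    rfl
  have hk0 : 0 < orderOf g := orderOf_pos g
  set k := orderOf g with hk
  have hpp : p.Prime := Fact.out
  have hpow : ∀ (v : Multiplicative V) (n : ℕ), (((⟨v, g⟩ : Multiplicative V ⋊[φ] G)) ^ n).left = Multiplicative.ofAdd ((∑ i ∈ Finset.range n, ρ g ^ i) (Multiplicative.toAdd v)) ∧ (((⟨v, g⟩ : Multiplicative V ⋊[φ] G)) ^ n).right = g ^ n := by
    intro v n
    induction n with
    | zero => simp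
    | succ n ih =>
      rw [pow_succ']
      constructor
      · rw [SemidirectProduct.mul_left, ih.1, hφapp, geom_sum_succ, add_comm (ρ g * _) 1]
        rfl
      · rw [SemidirectProduct.mul_right, ih.2, pow_succ']
  have hN : (Polynomial.aeval (ρ g)) (∑ i ∈ Finset.range k, (Polynomial.X : Polynomial F) ^ i) = ∑ i ∈ Finset.range k, ρ g ^ i := by
    simp [map_sum]
  have hgk : g ^ k = 1 := pow_orderOf_eq_one g
  constructor
  · rintro ⟨x, hx, ho⟩ hdvd
    have h0 : (∑ i ∈ Finset.range k, ρ g ^ i) = 0 := by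
      rw [← hN]
      exact (minpoly.dvd_iff).1 hdvd
    obtain ⟨v, r⟩ := x
    simp only at hx
    subst hx
    have h1 : ((⟨v, r⟩ : Multiplicative V ⋊[φ] G)) ^ k = 1 := by
      apply SemidirectProduct.ext
      · rw [(hpow v k).1, h0]; rfl
      · rw [(hpow v k).2, hgk]; rfl
    have h2 := orderOf_dvd_of_pow_eq_one h1
    rw [ho] at h2
    have h3 := Nat.le_of_dvd hk0 h2
    have h4 := hpp.two_le
    nlinarith
  · intro hnd
    have hne : (∑ i ∈ Finset.range k, ρ g ^ i) ≠ 0 := by
      intro h
      apply hnd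
      apply minpoly.dvd
      rw [hN, h]
    obtain ⟨w, hw⟩ : ∃ w, (∑ i ∈ Finset.range k, ρ g ^ i) w ≠ 0 := by
      by_contra hcon
      push Not at hcon
      exact hne (LinearMap.ext hcon)
    let x : Multiplicative V ⋊[φ] G := ⟨Multiplicative.ofAdd w, g⟩
    refine ⟨x, rfl, ?_⟩
    have hxk : x ^ k = SemidirectProduct.inl (Multiplicative.ofAdd ((∑ i ∈ Finset.range k, ρ g ^ i) w)) := by
      apply SemidirectProduct.ext
      · rw [(hpow _ k).1]; rfl
      · rw [(hpow _ k).2, hgk]; rfl
    have hxk1 : x ^ k ≠ 1 := by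
      intro h
      have h1 := congrArg SemidirectProduct.left h
      rw [(hpow _ k).1] at h1
      exact hw h1
    have hxpk : x ^ (p * k) = 1 := by
      rw [mul_comm, pow_mul, hxk, ← map_pow]
      have : (Multiplicative.ofAdd ((∑ i ∈ Finset.range k, ρ g ^ i) w)) ^ p = 1 := by
        rw [← ofAdd_nsmul]
        have : p • ((∑ i ∈ Finset.range k, ρ g ^ i) w) = 0 := by
          rw [← Nat.cast_smul_eq_nsmul F, CharP.cast_eq_zero F p, zero_smul]
        rw [this]; rfl
      rw [this, map_one]
    have hd1 : orderOf x ∣ p * k := orderOf_dvd_of_pow_eq_one hxpk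
    have hd2 : k ∣ orderOf x := by
      have := orderOf_map_dvd (SemidirectProduct.rightHom : Multiplicative V ⋊[φ] G →* G) x
      exact this
    obtain ⟨d, hd⟩ := hd2
    have hd3 : d ∣ p := by
      rw [hd, mul_comm] at hd1
      exact Nat.dvd_of_mul_dvd_mul_right hk0 hd1
    rcases (Nat.dvd_prime hpp).1 hd3 with h1 | h1
    · exfalso
      apply hxk1
      rw [h1, mul_one] at hd
      rw [← hd]
      exact pow_orderOf_eq_one x
    · rw [hd, h1, mul_comm]

end Cfsg.Agent.S2516
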