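import Cfsg.Statements.S2556
import Cfsg.Agent.Lib.SzSylowAut.Coord

set_option autoImplicit false
open Cfsg

namespace Cfsg.Agent.S2556


/-- Let S be a Sylow 2-subgroup of the Suzuki group Sz(q), q = 2ⁿ with n = 2m + 1 ≥ 3 (realised as 4 × 4 matrices over the field with q elements). Then the largest normal 2-subgroup of the automorphism group of S is elementary abelian of order 2^(n²), and the automorphism group of S has order 2^(n²) · n · (q − 1). -/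
theorem result {S : Type*} [Group S] [Finite S] (m : ℕ) (hm : 1 ≤ m)
    {F : Type*} [Field F] [Fintype F] (hF : Fintype.card F = 2 ^ (2 * m + 1))
    (P : Sylow 2 ↥(Cfsg.Lie.Sz F (2 ^ (m + 1)))) (hS : Nonempty (S ≃* ↥(P : Subgroup ↥(Cfsg.Lie.Sz F (2 ^ (m + 1)))))) :
    Cfsg.IsElementaryAbelian 2 (Cfsg.pCore 2 (MulAut S)) ∧ Nat.card ↥(Cfsg.pCore 2 (MulAut S)) = 2 ^ ((2 * m + 1) ^ 2) ∧
      Nat.card (MulAut S) = 2 ^ ((2 * m + 1) ^ 2) * ((2 * m + 1) * (2 ^ (2 * m + 1) - 1)) := by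
  obtain ⟨e0⟩ := hS
  haveI := Cfsg.Agent.Lib.Suzuki.finite_Sz hF hm
  let E := Cfsg.Agent.Lib.Suzuki.szEquiv hF hm
  haveI : Finite ↥(Cfsg.Lie.Sz F (2 ^ (m + 1))) := Finite.of_equiv _ E.toEquiv
  let P' : Sylow 2 (Cfsg.Sz F m) := P.mapSurjective (f := E.symm.toMonoidHom) E.symm.surjective
  obtain ⟨k, hk⟩ := Cfsg.Agent.Lib.Suzuki.exists_conj hF hm P'
  let e1 : (P' : Subgroup (Cfsg.Sz F m)) ≃* Cfsg.Agent.Lib.Suzuki.UU hF hm :=
    Cfsg.Agent.Lib.Suzuki.conjEquiv k hk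
  let e2 : (P : Subgroup ↥(Cfsg.Lie.Sz F (2 ^ (m + 1)))) ≃* (P' : Subgroup (Cfsg.Sz F m)) :=
    E.symm.subgroupMap (P : Subgroup ↥(Cfsg.Lie.Sz F (2 ^ (m + 1))))
  let e3 : S ≃* Cfsg.Agent.Lib.Suzuki.UU hF hm := e0.trans (e2.trans e1)
  let co : F × F ≃ S := (Cfsg.Agent.Lib.Suzuki.uuEquiv hF hm).trans e3.symm.toEquiv
  have hco : ∀ p, co p = e3.symm (Cfsg.Agent.Lib.Suzuki.uuEquiv hF hm p) := fun _ => rfl
  have hmul : ∀ a b c d : F, co (a, b) * co (c, d) = co (a + c, b + d + a ^ (2 ^ (m + 1)) * c) := by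
    intro a b c d
    rw [hco, hco, hco, ← map_mul]
    congr 1
    apply Subtype.ext
    exact Cfsg.Agent.Lib.Suzuki.uG_mul hF a b c d
  exact Cfsg.Agent.Lib.SzSylowAut.main_abstract co hmul hF hm

end Cfsg.Agent.S2556
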