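import Cfsg.Statements.S2648
import Cfsg.Agent.Lib.Perm.SpWrE
import Mathlib

set_option autoImplicit false
open Cfsg

namespace Cfsg.Agent.S2648

/-- Let q be odd, F a field with q elements and n ≥ 1. A Sylow 2-subgroup R of the symplectic group Sp_{2n}(F) has derived length exactly k + 1, where 2^k ≤ 2n < 2^{k+1}: the (k+1)-st term of its derived series is trivial and the k-th is not. -/
theorem result {F : Type*} [Field F] [Fintype F] [DecidableEq F] (q : ℕ) (hF : Fintype.card F = q) (hq : Odd q) (n : ℕ) (hn : 1 ≤ n) (R : Sylow 2 ↥(Matrix.symplecticGroup (Fin n) F)) : derivedSeries ↥(R : Subgroup ↥(Matrix.symplecticGroup (Fin n) F)) (Nat.log 2 (2 * n) + 1) = ⊥ ∧ derivedSeries ↥(R : Subgroup ↥(Matrix.symplecticGroup (Fin n) F)) (Nat.log 2 (2 * n)) ≠ ⊥ := by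
  classical
  subst hF
  obtain ⟨Q, A, y, w, a, D, hval⟩ := Cfsg.Agent.Lib.Perm.SpWr.exists_QData hq
  obtain ⟨T, hT, -, hD⟩ := Cfsg.Agent.Lib.Perm.SpWr.exists_sym_dl n
  obtain ⟨P₀, hP₀⟩ := Cfsg.Agent.Lib.Perm.SpWr.exists_sylow_WW D hval hq T hT
  have hlog : Nat.log 2 (2 * n) = Nat.log 2 n + 1 := by
    rw [mul_comm]
    exact Nat.log_mul_base (by norm_num) (by omega)
  rw [hlog]
  haveI : Fact (Nat.Prime 2) := ⟨Nat.prime_two⟩
  constructor
  · -- the upper bound
    have h0 := Cfsg.Agent.Lib.Perm.SpWr.dS_WW_top hD D.comm_comm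
    rw [← hP₀, ← Cfsg.Agent.Lib.Perm.SpWr.map_derivedSeries_eq_dS] at h0
    have h1 : derivedSeries (P₀ : Subgroup (Matrix.symplecticGroup (Fin n) F)) (Nat.log 2 n + 2) = ⊥ :=
      (Subgroup.map_eq_bot_iff_of_injective _ (Subgroup.subtype_injective _)).1 h0
    have h2 := map_derivedSeries_eq (f := (Sylow.equiv P₀ R).toMonoidHom) (Sylow.equiv P₀ R).surjective (Nat.log 2 n + 2)
    rw [h1, Subgroup.map_bot] at h2
    exact h2.symm
  · -- the lower bound
    have hle : 2 ^ Nat.log 2 n ≤ (Finset.univ : Finset (Fin n)).card := by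
      rw [Finset.card_univ, Fintype.card_fin]
      exact Nat.pow_log_le_self 2 (by omega)
    obtain ⟨C, -, hC⟩ := Finset.exists_subset_card_eq hle
    obtain ⟨V, hVp, -, hVd⟩ := Cfsg.Agent.Lib.Perm.SpWr.exists_tower D _ C hC
    obtain ⟨S, hS⟩ := hVp.exists_le_sylow
    have h1 : Cfsg.Agent.Lib.Perm.SpWr.dS (S : Subgroup (Matrix.symplecticGroup (Fin n) F)) (Nat.log 2 n + 1) ≠ ⊥ := by
      intro h
      apply hVd
      rw [eq_bot_iff, ← h]
      exact Cfsg.Agent.Lib.Perm.SpWr.dS_mono hS _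
    rw [← Cfsg.Agent.Lib.Perm.SpWr.map_derivedSeries_eq_dS] at h1
    have h2 : derivedSeries (S : Subgroup (Matrix.symplecticGroup (Fin n) F)) (Nat.log 2 n + 1) ≠ ⊥ := by
      intro h
      apply h1
      rw [h, Subgroup.map_bot]
    intro h3
    apply h2
    have h4 := map_derivedSeries_eq (f := (Sylow.equiv R S).toMonoidHom) (Sylow.equiv R S).surjective (Nat.log 2 n + 1)
    rw [h3, Subgroup.map_bot] at h4
    exact h4.symm

end Cfsg.Agent.S2648
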