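import Cfsg.Statements.S2762
import Cfsg.Agent.Lib.LocalEven.QdOver

set_option autoImplicit false
open Cfsg

namespace Cfsg.Agent.S2762

/-- Structure of Qd over a finite field F of characteristic p (the affine subgroup of SL₃(F)): its largest normal p-subgroup is the group of translations (matrices with upper-left block the identity), the block-diagonal matrices form a complement isomorphic to SL₂(F), and the translation subgroup is a natural SL₂(F)-module for that complement. -/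
theorem result {F : Type*} [Field F] [Fintype F] {p : ℕ} [Fact p.Prime] [CharP F p] : (∀ M : ↥(Cfsg.qdOver F), M ∈ Cfsg.pCore p ↥(Cfsg.qdOver F) ↔ ((M : Matrix.SpecialLinearGroup (Fin 3) F) : Matrix (Fin 3) (Fin 3) F) 0 0 = 1 ∧ ((M : Matrix.SpecialLinearGroup (Fin 3) F) : Matrix (Fin 3) (Fin 3) F) 0 1 = 0 ∧ ((M : Matrix.SpecialLinearGroup (Fin 3) F) : Matrix (Fin 3) (Fin 3) F) 1 0 = 0 ∧ ((M : Matrix.SpecialLinearGroup (Fin 3) F) : Matrix (Fin 3) (Fin 3) F) 1 1 = 1) ∧ ∃ K : Subgroup ↥(Cfsg.qdOver F), (∀ M : ↥(Cfsg.qdOver F), M ∈ K ↔ ((M : Matrix.SpecialLinearGroup (Fin 3) F) : Matrix (Fin 3) (Fin 3) F) 0 2 = 0 ∧ ((M : Matrix.SpecialLinearGroup (Fin 3) F) : Matrix (Fin 3) (Fin 3) F) 1 2 = 0) ∧ K ⊓ Cfsg.pCore p ↥(Cfsg.qdOver F) = ⊥ ∧ K ⊔ Cfsg.pCore p ↥(Cfsg.qdOver F) = ⊤ ∧ Nonempty (↥K ≃* Matrix.SpecialLinearGroup (Fin 2) F) ∧ Cfsg.IsNaturalSL2Module F (Cfsg.pCore p ↥(Cfsg.qdOver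 F)) K := by
  classical

  refine ⟨Cfsg.Agent.Lib.LocalEven.QdOver.mem_pCore_iff, (Cfsg.Agent.Lib.LocalEven.QdOver.qoB : Cfsg.Agent.Lib.Known.SL2 F →* Cfsg.qdOver F).range, ?_, ?_, ?_, ?_, Cfsg.Agent.Lib.LocalEven.QdOver.qo_natural⟩
  · intro M
    obtain ⟨A, u, rfl⟩ := Cfsg.Agent.Lib.LocalEven.QdOver.qoEl_surj M
    simp only [Cfsg.Agent.Lib.LocalEven.QdOver.qoEl_val]
    constructor
    · rintro ⟨B, hB⟩
      have h := (Cfsg.Agent.Lib.LocalEven.QdOver.qoEl_inj hB).2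
      subst h
      simp [Cfsg.Agent.Lib.LocalEven.QdOver.qoMat]
    · rintro ⟨h0, h1⟩
      simp only [Cfsg.Agent.Lib.LocalEven.QdOver.qoMat] at h0 h1
      have hu : u = 0 := by
        funext i
        fin_cases i <;> simpa using ‹_›
      subst hu
      exact ⟨A, rfl⟩
  · rw [eq_bot_iff]
    rintro x ⟨hx1, hx2⟩
    obtain ⟨A, rfl⟩ := hx1
    have hx3 : Cfsg.Agent.Lib.LocalEven.QdOver.qoB A ∈ Cfsg.pCore p ↥(Cfsg.qdOver F) := hx2
    rw [Cfsg.Agent.Lib.LocalEven.QdOver.pCore_qo (p := p), MonoidHom.mem_ker, Cfsg.Agent.Lib.LocalEven.QdOver.qoB_apply, Cfsg.Agent.Lib.LocalEven.QdOver.qoBlock_el] at hx3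
    replace hx2 := hx3
    subst hx2
    rw [Subgroup.mem_bot, Cfsg.Agent.Lib.LocalEven.QdOver.qoB_apply, Cfsg.Agent.Lib.LocalEven.QdOver.qoEl_one]
  · rw [eq_top_iff]
    intro M _
    obtain ⟨A, u, rfl⟩ := Cfsg.Agent.Lib.LocalEven.QdOver.qoEl_surj M
    have h : Cfsg.Agent.Lib.LocalEven.QdOver.qoEl A u = Cfsg.Agent.Lib.LocalEven.QdOver.qoEl 1 u * Cfsg.Agent.Lib.LocalEven.QdOver.qoEl A 0 := by
      rw [Cfsg.Agent.Lib.LocalEven.QdOver.qoEl_mul, one_mul]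
      simp
    rw [h, sup_comm]
    refine Subgroup.mul_mem_sup ?_ ⟨A, rfl⟩
    rw [Cfsg.Agent.Lib.LocalEven.QdOver.pCore_qo (p := p), MonoidHom.mem_ker, Cfsg.Agent.Lib.LocalEven.QdOver.qoBlock_el]
  · exact ⟨(MonoidHom.ofInjective Cfsg.Agent.Lib.LocalEven.QdOver.qoB_injective).symm⟩

end Cfsg.Agent.S2762
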