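import Cfsg.Statements.S2922
import Cfsg.Agent.Lib.TwoFusion.QTSetup
-- import your own Cfsg.Agent.* helpers here

set_option autoImplicit false
open Cfsg

namespace Cfsg.Agent.S2922

/-- Let p be a prime, X a finite group, B a p-subgroup of X and C a normal subgroup of B. If N_X(C) has characteristic p (its generalized Fitting subgroup is O_p(N_X(C))), then N_X(B) and C_X(B) have characteristic p. -/
theorem result {X : Type*} [Group X] [Finite X] {p : ℕ} [Fact p.Prime] (B C : Subgroup X) (hB : IsPGroup p ↥B) (hCB : C ≤ B) (hCn : (C.subgroupOf B).Normal) (hC : Cfsg.generalizedFittingSubgroup ↥(Subgroup.normalizer (C : Set X)) = Cfsg.pCore p ↥(Subgroup.normalizer (C : Set X))) : Cfsg.generalizedFittingSubgroup ↥(Subgroup.normalizer (B : Set X)) = Cfsg.pCore p ↥(Subgroup.normalizer (B : Set X)) ∧ Cfsg.generalizedFittingSubgroup ↥(Subgroup.centralizer (B : Set X)) = Cfsg.pCore p ↥(Subgroup.centralizer (B : Set X)) := by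
  classical
  have hH : Cfsg.Agent.Lib.Components.IsPType p ↥(Subgroup.normalizer (C : Set X)) :=
    Cfsg.Agent.Lib.Components.isPType_iff.mpr hC
  have hBH : B ≤ Subgroup.normalizer (C : Set X) := by
    intro b hb
    rw [Subgroup.mem_normalizer_iff]
    intro c
    have hn := hCn
    constructor
    · intro hc
      have h1 := hn.conj_mem ⟨c, hCB hc⟩ (by simpa [Subgroup.mem_subgroupOf] using hc) ⟨b, hb⟩
      simpa [Subgroup.mem_subgroupOf] using h1
    · intro hc
      have hcb : c ∈ B := by
        have h1 : b * c * b⁻¹ ∈ B := hCB hc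
        have e : c = b⁻¹ * (b * c * b⁻¹) * b := by group
        rw [e]
        exact B.mul_mem (B.mul_mem (B.inv_mem hb) h1) hb
      have h1 := hn.conj_mem ⟨b * c * b⁻¹, hCB hc⟩ (by simpa [Subgroup.mem_subgroupOf] using hc)
        ⟨b⁻¹, B.inv_mem hb⟩
      have e : b⁻¹ * (b * c * b⁻¹) * b = c := by group
      simpa [Subgroup.mem_subgroupOf, e] using h1
  have h3 := Cfsg.Agent.Lib.Components.isPType_normalizer hH
    (P := B.subgroupOf (Subgroup.normalizer (C : Set X)))
    (Cfsg.Agent.Lib.Components.isPGroup_subgroupOf hB)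
  have h4 := Cfsg.Agent.Lib.Components.isPType_congr
    (Cfsg.Agent.Lib.Components.normalizerSubgroupOfEquiv hBH) h3
  have hN : Cfsg.Agent.Lib.Components.IsPType p ↥(Subgroup.normalizer (B : Set X)) := by
    refine Cfsg.Agent.Lib.Components.isPType_of_centralizer_le
      (T := B.subgroupOf (Subgroup.normalizer (B : Set X)))
      ((Subgroup.normal_subgroupOf_iff_le_normalizer Subgroup.le_normalizer).mpr le_rfl)
      (Cfsg.Agent.Lib.Components.isPGroup_subgroupOf hB) ?_ h4
    intro x hx
    rw [Subgroup.mem_subgroupOf]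
    apply Cfsg.Agent.Lib.Components.centralizer_le_normalizer' C
    rw [Subgroup.mem_centralizer_iff]
    intro c hc
    have h5 := Subgroup.mem_centralizer_iff.mp hx ⟨c, Subgroup.le_normalizer (hCB hc)⟩ (by
      rw [SetLike.mem_coe, Subgroup.mem_subgroupOf]; exact hCB hc)
    exact congrArg Subtype.val h5
  refine ⟨Cfsg.Agent.Lib.Components.isPType_iff.mp hN, ?_⟩
  have hle : Subgroup.centralizer (B : Set X) ≤ Subgroup.normalizer (B : Set X) :=
    Cfsg.Agent.Lib.Components.centralizer_le_normalizer' B
  have h6 := Cfsg.Agent.Lib.TwoFusion.isPType_of_subnormal hN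
    (S := (Subgroup.centralizer (B : Set X)).subgroupOf (Subgroup.normalizer (B : Set X)))
    (Cfsg.Agent.Lib.Components.centralizer_normal_in_normalizer B).isSubnormal
  exact Cfsg.Agent.Lib.Components.isPType_iff.mp
    (Cfsg.Agent.Lib.Components.isPType_congr (Subgroup.subgroupOfEquivOfLe hle) h6)

end Cfsg.Agent.S2922
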