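import Cfsg.Statements.S2925
import Cfsg.Agent.Lib.Components.Layer
import Cfsg.Agent.Lib.Components.Quasi
import Cfsg.Agent.Lib.Basic.Misc2
-- import your own Cfsg.Agent.* helpers here

set_option autoImplicit false
open Cfsg

namespace Cfsg.Agent.S2925

theorem comm_mem_center {X : Type*} [Group X] [Finite X] (K : Subgroup X) (hK : Cfsg.IsComponent K) (T Y : Subgroup X) (hYT : Y ≤ T) (hYn : (Y.subgroupOf T).Normal) (hYab : IsMulCommutative ↥Y) (y : X) (hy : y ∈ Y) (hny : y ∉ Subgroup.normalizer (K : Set X)) (r s : X) (hrK : r ∈ K) (hsK : s ∈ K) (hrT : r ∈ T) (hsT : s ∈ T) :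
    ∀ k ∈ K, k * ((s * r)⁻¹ * (r * s)) = ((s * r)⁻¹ * (r * s)) * k := by
  have hKy : Cfsg.IsComponent (K.map (MulAut.conj y).toMonoidHom) :=
    Cfsg.Agent.Lib.Components.component_conj hK y
  have hne : K ≠ K.map (MulAut.conj y).toMonoidHom := by
    intro he
    apply hny
    rw [Subgroup.mem_normalizer_iff]
    intro x
    constructor
    · intro hx
      have : y * x * y⁻¹ ∈ K.map (MulAut.conj y).toMonoidHom := ⟨x, hx, rfl⟩
      rwa [← he] at this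
    · intro hx
      have h1 : y * x * y⁻¹ ∈ K.map (MulAut.conj y).toMonoidHom := by rw [← he]; exact hx
      obtain ⟨w, hw, e⟩ := h1
      have e2 : y * w * y⁻¹ = y * x * y⁻¹ := e
      have e3 : w = x := by
        have := mul_right_cancel e2
        exact mul_left_cancel this
      rwa [← e3]
  have hcomm := Cfsg.Agent.Lib.Components.component_commutes hK hKy hne
  set r' := y * r * y⁻¹ with hr'
  set s' := y * s * y⁻¹ with hs'
  have hr'K : r' ∈ K.map (MulAut.conj y).toMonoidHom := ⟨r, hrK, rfl⟩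
  have hs'K : s' ∈ K.map (MulAut.conj y).toMonoidHom := ⟨s, hsK, rfl⟩
  have hyT : y ∈ T := hYT hy
  have hmem : ∀ t ∈ T, t * y * t⁻¹ ∈ Y := by
    intro t ht
    have := hYn.conj_mem ⟨y, hyT⟩ (Subgroup.mem_subgroupOf.2 hy) ⟨t, ht⟩
    exact Subgroup.mem_subgroupOf.1 this
  have hcomY : ∀ a ∈ Y, ∀ b ∈ Y, a * b = b * a := fun a ha b hb =>
    congrArg Subtype.val (hYab.is_comm.comm ⟨a, ha⟩ ⟨b, hb⟩)
  have ha_r : r * r'⁻¹ ∈ Y := by
    have e : r * r'⁻¹ = (r * y * r⁻¹) * y⁻¹ := by rw [hr']; group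
    rw [e]
    exact Y.mul_mem (hmem r hrT) (Y.inv_mem hy)
  have ha_s : s * s'⁻¹ ∈ Y := by
    have e : s * s'⁻¹ = (s * y * s⁻¹) * y⁻¹ := by rw [hs']; group
    rw [e]
    exact Y.mul_mem (hmem s hsT) (Y.inv_mem hy)
  have h1 := hcomY _ ha_r _ ha_s
  -- commuting relations
  have c1 : s * r'⁻¹ = r'⁻¹ * s := hcomm s hsK _ (Subgroup.inv_mem _ hr'K)
  have c2 : r * s'⁻¹ = s'⁻¹ * r := hcomm r hrK _ (Subgroup.inv_mem _ hs'K)
  have h2 : r * s * (r'⁻¹ * s'⁻¹) = s * r * (s'⁻¹ * r'⁻¹) := by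
    calc r * s * (r'⁻¹ * s'⁻¹) = r * (s * r'⁻¹) * s'⁻¹ := by group
      _ = r * (r'⁻¹ * s) * s'⁻¹ := by rw [c1]
      _ = r * r'⁻¹ * (s * s'⁻¹) := by group
      _ = s * s'⁻¹ * (r * r'⁻¹) := h1
      _ = s * (s'⁻¹ * r) * r'⁻¹ := by group
      _ = s * (r * s'⁻¹) * r'⁻¹ := by rw [c2]
      _ = s * r * (s'⁻¹ * r'⁻¹) := by group
  have h3 : (s * r)⁻¹ * (r * s) = (s'⁻¹ * r'⁻¹) * (r'⁻¹ * s'⁻¹)⁻¹ := by
    have : r * s = s * r * (s'⁻¹ * r'⁻¹) * (r'⁻¹ * s'⁻¹)⁻¹ := by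
      rw [← h2]; group
    rw [this]; group
  intro k hk
  rw [h3]
  have hmemK' : (s'⁻¹ * r'⁻¹) * (r'⁻¹ * s'⁻¹)⁻¹ ∈ K.map (MulAut.conj y).toMonoidHom := by
    apply Subgroup.mul_mem _ (Subgroup.mul_mem _ (Subgroup.inv_mem _ hs'K) (Subgroup.inv_mem _ hr'K))
    apply Subgroup.inv_mem
    exact Subgroup.mul_mem _ (Subgroup.inv_mem _ hr'K) (Subgroup.inv_mem _ hs'K)
  exact hcomm k hk _ hmemK'

/-- Let K be a component of the finite group X and T a Sylow 2-subgroup of X. If some abelian normal subgroup Y of T does not normalize K, then K ⧸ Z(K) has abelian Sylow 2-subgroups. -/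
theorem result {X : Type*} [Group X] [Finite X] (K : Subgroup X) (hK : Cfsg.IsComponent K) (T : Sylow 2 X) (Y : Subgroup X) (hYT : Y ≤ (T : Subgroup X)) (hYn : (Y.subgroupOf (T : Subgroup X)).Normal) (hYab : IsMulCommutative ↥Y) (hnot : ¬ Y ≤ Subgroup.normalizer (K : Set X)) (P : Sylow 2 (↥K ⧸ Subgroup.center ↥K)) : IsMulCommutative ↥(P : Subgroup (↥K ⧸ Subgroup.center ↥K)) := by
  classical
  obtain ⟨y, hy, hny⟩ := SetLike.not_le_iff_exists.1 hnot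
  obtain ⟨R₀, hR₀⟩ := Cfsg.Agent.Lib.Basic.sylow_inf_of_isSubnormal 2 K hK.1 T
  let f : ↥K →* ↥K ⧸ Subgroup.center ↥K := QuotientGroup.mk' _
  have hf : Function.Surjective f := QuotientGroup.mk'_surjective _
  obtain ⟨g, hg⟩ := MulAction.exists_smul_eq (↥K ⧸ Subgroup.center ↥K) (R₀.mapSurjective hf) P
  have hmemP : ∀ a ∈ (P : Subgroup (↥K ⧸ Subgroup.center ↥K)), ∃ r : ↥K, r ∈ (R₀ : Subgroup ↥K) ∧ a = g * f r * g⁻¹ := by
    intro a ha
    rw [← hg, Sylow.coe_subgroup_smul, Subgroup.mem_pointwise_smul_iff_inv_smul_mem] at ha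
    obtain ⟨r, hr, e⟩ := ha
    refine ⟨r, hr, ?_⟩
    have e2 : f r = g⁻¹ * a * g := by
      rw [e]
      simp [MulAut.smul_def, MulAut.conj_apply]
    rw [e2]; group
  refine ⟨⟨fun a b => Subtype.ext ?_⟩⟩
  obtain ⟨r, hr, ea⟩ := hmemP a a.2
  obtain ⟨s, hs, eb⟩ := hmemP b b.2
  rw [hR₀] at hr hs
  have hrT : (r : X) ∈ (T : Subgroup X) := Subgroup.mem_subgroupOf.1 hr
  have hsT : (s : X) ∈ (T : Subgroup X) := Subgroup.mem_subgroupOf.1 hs
  have hcen := comm_mem_center K hK (T : Subgroup X) Y hYT hYn hYab y hy hny r s r.2 s.2 hrT hsT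
  have h1 : (s * r)⁻¹ * (r * s) ∈ Subgroup.center ↥K := by
    rw [Subgroup.mem_center_iff]
    intro k
    apply Subtype.ext
    exact hcen k k.2
  have h2 : f (s * r) = f (r * s) := by
    change ((s * r : ↥K) : ↥K ⧸ Subgroup.center ↥K) = ((r * s : ↥K) : ↥K ⧸ Subgroup.center ↥K)
    exact QuotientGroup.eq.2 h1
  simp only [Subgroup.coe_mul]
  rw [ea, eb]
  rw [map_mul, map_mul] at h2
  calc g * f r * g⁻¹ * (g * f s * g⁻¹) = g * (f r * f s) * g⁻¹ := by group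
    _ = g * (f s * f r) * g⁻¹ := by rw [h2]
    _ = g * f s * g⁻¹ * (g * f r * g⁻¹) := by group

end Cfsg.Agent.S2925
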