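import Cfsg.Statements.S2928
import Cfsg.Agent.Lib.LocalEven2.AltLift2
-- import your own Cfsg.Agent.* helpers here

set_option autoImplicit false
open Cfsg

namespace Cfsg.Agent.S2928

/-- Let n ≥ 8 and let H be a subgroup of the symmetric group of degree n whose generalized Fitting subgroup F*(H) is quasisimple. If H contains a Sylow 2-subgroup of the alternating group of degree n, then F*(H) is isomorphic to an alternating group of degree m for some m ∈ {n − 3, n − 2, n − 1, n}. -/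
theorem result (n : ℕ) (hn : 8 ≤ n) (H : Subgroup (Equiv.Perm (Fin n))) (hF : Cfsg.IsQuasisimple ↥(Cfsg.generalizedFittingSubgroup ↥H)) (hS : ∃ P : Sylow 2 ↥(alternatingGroup (Fin n)), ((P : Subgroup ↥(alternatingGroup (Fin n))).map (alternatingGroup (Fin n)).subtype) ≤ H) : ∃ m : ℕ, (m = n - 3 ∨ m = n - 2 ∨ m = n - 1 ∨ m = n) ∧ Nonempty (↥(Cfsg.generalizedFittingSubgroup ↥H) ≃* ↥(alternatingGroup (Fin m))) := by
  classical
  obtain ⟨P, hP⟩ := hS
  obtain ⟨ζ, hd⟩ := Cfsg.Agent.Lib.LocalEven2.AltLift.exists_pairData (by simpa using hn) H P hP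
  obtain ⟨h1, ⟨e⟩⟩ := Cfsg.Agent.Lib.LocalEven2.AltLift.main_pairs hF hd
  refine ⟨_, ?_, ⟨e⟩⟩
  have h2 : Nat.card {x // Cfsg.Agent.Lib.LocalEven2.AltLift.Mv H x} + Nat.card {x // ¬ Cfsg.Agent.Lib.LocalEven2.AltLift.Mv H x} = n := by
    have := Fintype.card_subtype_compl (fun x => Cfsg.Agent.Lib.LocalEven2.AltLift.Mv H x)
    simp only [Nat.card_eq_fintype_card, Fintype.card_fin] at this ⊢
    have h3 : Fintype.card {x // Cfsg.Agent.Lib.LocalEven2.AltLift.Mv H x} ≤ n := by
      calc Fintype.card {x // Cfsg.Agent.Lib.LocalEven2.AltLift.Mv H x} ≤ Fintype.card (Fin n) := Fintype.card_subtype_le _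
        _ = n := Fintype.card_fin n
    omega
  omega

end Cfsg.Agent.S2928
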