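import Cfsg.Statements.S2929
import Cfsg.Agent.Lib.LocalEven2.AltLift
-- import your own Cfsg.Agent.* helpers here

set_option autoImplicit false
open Cfsg

namespace Cfsg.Agent.S2929

/-- Let n ≥ 5 and let H be a subgroup of the symmetric group of degree n whose generalized Fitting subgroup F*(H) is quasisimple. If H contains a Sylow 3-subgroup of the symmetric group, then F*(H) is isomorphic to an alternating group of degree m for some m ∈ {n − 2, n − 1, n}. -/
theorem result (n : ℕ) (hn : 5 ≤ n) (H : Subgroup (Equiv.Perm (Fin n))) (hF : Cfsg.IsQuasisimple ↥(Cfsg.generalizedFittingSubgroup ↥H)) (hS : ∃ P : Sylow 3 (Equiv.Perm (Fin n)), (P : Subgroup (Equiv.Perm (Fin n))) ≤ H) : ∃ m : ℕ, (m = n - 2 ∨ m = n - 1 ∨ m = n) ∧ Nonempty (↥(Cfsg.generalizedFittingSubgroup ↥H) ≃* ↥(alternatingGroup (Fin m))) := by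
  classical
  obtain ⟨P, hP⟩ := hS
  open Cfsg.Agent.Lib.LocalEven2.AltLift in
  have h1 := card_not_Mv_le H P hP
  open Cfsg.Agent.Lib.LocalEven2.AltLift in
  obtain ⟨e⟩ := main_alt H hF (by omega)
  refine ⟨_, ?_, ⟨e⟩⟩
  open Cfsg.Agent.Lib.LocalEven2.AltLift in
  have h2 : Nat.card {x // Cfsg.Agent.Lib.LocalEven2.AltLift.Mv H x} + Nat.card {x // ¬ Cfsg.Agent.Lib.LocalEven2.AltLift.Mv H x} = n := by
    have := Fintype.card_subtype_compl (fun x => Cfsg.Agent.Lib.LocalEven2.AltLift.Mv H x)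
    simp only [Nat.card_eq_fintype_card, Fintype.card_fin] at this ⊢
    have h3 : Fintype.card {x // Cfsg.Agent.Lib.LocalEven2.AltLift.Mv H x} ≤ n := by
      calc Fintype.card {x // Cfsg.Agent.Lib.LocalEven2.AltLift.Mv H x} ≤ Fintype.card (Fin n) := Fintype.card_subtype_le _
        _ = n := Fintype.card_fin n
    omega
  omega

end Cfsg.Agent.S2929
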