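import Cfsg.Statements.S2930
import Cfsg.Agent.Lib.Perm.ThreeMinB
import Cfsg.Agent.Lib.Struct.AutAlt
import Cfsg.Agent.S1265
import Cfsg.Agent.Lib.Components.Layer
import Mathlib

set_option autoImplicit false
open Cfsg

namespace Cfsg.Agent.S2930

/-- Let X be a finite 3-minimal group (a Sylow 3-subgroup is not normal and lies in a unique maximal subgroup) whose generalized Fitting subgroup is isomorphic to an alternating group of degree n ≥ 5. Then X = F*(X), and n = 6, n = 9, or n = 3ᵃ + 1 for some a ≥ 2. -/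
theorem result {X : Type*} [Group X] [Finite X] (hX : Cfsg.IsPMinimal 3 X) (n : ℕ) (hn : 5 ≤ n) (hF : Nonempty (↥(Cfsg.generalizedFittingSubgroup X) ≃* ↥(alternatingGroup (Fin n)))) : Cfsg.generalizedFittingSubgroup X = ⊤ ∧ (n = 6 ∨ n = 9 ∨ ∃ a : ℕ, 2 ≤ a ∧ n = 3 ^ a + 1) := by
  classical
  obtain ⟨e⟩ := hF
  haveI hKn : (Cfsg.generalizedFittingSubgroup X).Normal := Cfsg.Agent.Lib.Components.gfit_normal
  have hCK : Subgroup.centralizer (Cfsg.generalizedFittingSubgroup X : Set X) ≤
      Cfsg.generalizedFittingSubgroup X := Cfsg.Agent.S1265.result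
  set K := Cfsg.generalizedFittingSubgroup X with hK
  haveI : Fact (Nat.Prime 3) := ⟨by norm_num⟩
  -- the coatom property
  have hle : ∀ S : Sylow 3 X, ∃ M : Subgroup X, M ≠ ⊤ ∧
      ∀ H : Subgroup X, (S : Subgroup X) ≤ H → H ≠ ⊤ → H ≤ M := by
    intro S
    obtain ⟨_, M, ⟨hM, hSM⟩, huniq⟩ := hX S
    refine ⟨M, hM.1, fun H hSH hH => ?_⟩
    obtain rfl | ⟨C, hC, hHC⟩ := eq_top_or_exists_le_coatom H
    · exact absurd rfl hH
    · have := huniq C ⟨hC, hSH.trans hHC⟩
      rw [← this]
      exact hHC
  -- the order of A_n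
  have hcardA : 60 ∣ Nat.card (alternatingGroup (Fin n)) := by
    have h1 : 2 * Nat.card (alternatingGroup (Fin n)) = n.factorial := by
      haveI : Nontrivial (Fin n) := Fin.nontrivial_iff_two_le.mpr (by omega)
      have := two_mul_nat_card_alternatingGroup (α := Fin n)
      rw [this, Nat.card_perm, Nat.card_eq_fintype_card, Fintype.card_fin]
    have h2 : Nat.factorial 5 ∣ n.factorial := Nat.factorial_dvd_factorial hn
    rw [← h1] at h2
    have h3 : Nat.factorial 5 = 2 * 60 := by norm_num [Nat.factorial]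
    rw [h3] at h2
    exact Nat.dvd_of_mul_dvd_mul_left (by norm_num) h2
  have hcardK : 60 ∣ Nat.card K := by
    rw [Nat.card_congr e.toEquiv]; exact hcardA
  have hsimpA : IsSimpleGroup (alternatingGroup (Fin n)) :=
    alternatingGroup.isSimpleGroup (by simpa using hn)
  have hKtop : K = ⊤ := by
    by_contra hne
    obtain ⟨T⟩ : Nonempty (Sylow 3 K) := inferInstance
    -- T is neither bottom nor top
    have hT1 : (T : Subgroup K) ≠ ⊥ :=
      T.ne_bot_of_dvd_card (Dvd.dvd.trans (by norm_num) hcardK)
    have hT2 : (T : Subgroup K) ≠ ⊤ := by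
      intro h
      have hp : IsPGroup 3 K := by
        have := T.2
        rw [h] at this
        exact IsPGroup.of_equiv this Subgroup.topEquiv
      obtain ⟨k, hk⟩ := IsPGroup.iff_card.mp hp
      have h2 : 2 ∣ 3 ^ k := by
        rw [← hk]; exact Dvd.dvd.trans (by norm_num) hcardK
      have := Nat.Prime.dvd_of_dvd_pow Nat.prime_two h2
      omega
    set Tt : Subgroup X := (T : Subgroup K).map K.subtype with hTt
    have hTtp : IsPGroup 3 Tt := T.2.map K.subtype
    obtain ⟨S, hTS⟩ := hTtp.exists_le_sylow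
    -- T = S ∩ K
    have hTeq : Tt = (S : Subgroup X) ⊓ K := by
      apply le_antisymm
      · refine le_inf hTS ?_
        rintro _ ⟨k, _, rfl⟩
        exact k.2
      · let Q : Subgroup K := ((S : Subgroup X) ⊓ K).subgroupOf K
        have hp : IsPGroup 3 Q := by
          intro g
          have hg : ((g : K) : X) ∈ (S : Subgroup X) := (Subgroup.mem_subgroupOf.mp g.2).1
          obtain ⟨k, hk⟩ := S.2 ⟨_, hg⟩
          refine ⟨k, ?_⟩
          apply Subtype.ext
          apply Subtype.ext
          have := congrArg Subtype.val hk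
          simpa using this
        have hTQ : (T : Subgroup K) ≤ Q := by
          intro t ht
          rw [Subgroup.mem_subgroupOf]
          exact ⟨hTS ⟨t, ht, rfl⟩, t.2⟩
        have hQT : Q = (T : Subgroup K) := T.is_maximal' hp hTQ
        intro x hx
        have hxQ : (⟨x, hx.2⟩ : K) ∈ Q := by
          rw [Subgroup.mem_subgroupOf]
          exact hx
        rw [hQT] at hxQ
        exact ⟨_, hxQ, rfl⟩
    have hSnorm : (S : Subgroup X) ≤ Subgroup.normalizer (Tt : Set X) := by
      intro s hs
      rw [Subgroup.mem_normalizer_iff]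
      intro h
      rw [hTeq]
      constructor
      · rintro ⟨h1, h2⟩
        exact ⟨Subgroup.mul_mem _ (Subgroup.mul_mem _ hs h1) (Subgroup.inv_mem _ hs),
          hKn.conj_mem h h2 s⟩
      · rintro ⟨h1, h2⟩
        have e1 : h = s⁻¹ * (s * h * s⁻¹) * s := by group
        rw [e1]
        refine ⟨Subgroup.mul_mem _ (Subgroup.mul_mem _ (Subgroup.inv_mem _ hs) h1) hs, ?_⟩
        have := hKn.conj_mem _ h2 s⁻¹
        simpa using this
    have hFr : Subgroup.normalizer (Tt : Set X) ⊔ K = ⊤ := Sylow.normalizer_sup_eq_top T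
    obtain ⟨M, hMne, hM⟩ := hle S
    have hN : Subgroup.normalizer (Tt : Set X) ≠ ⊤ := by
      intro h
      have hTn : Tt.Normal := Subgroup.normalizer_eq_top_iff.mp h
      have hTc : (T : Subgroup K).Normal := by
        have h2 := hTn.comap K.subtype
        have h3 : Tt.comap K.subtype = (T : Subgroup K) :=
          Subgroup.comap_map_eq_self_of_injective K.subtype_injective _
        rwa [h3] at h2
      -- image under e
      have hTe : ((T : Subgroup K).map e.toMonoidHom).Normal :=
        hTc.map _ e.surjective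
      rcases hsimpA.eq_bot_or_eq_top_of_normal _ hTe with h4 | h4
      · apply hT1
        rw [Subgroup.map_eq_bot_iff_of_injective _ e.injective] at h4
        exact h4
      · apply hT2
        have h5 := congrArg (Subgroup.comap e.toMonoidHom) h4
        rw [Subgroup.comap_map_eq_self_of_injective e.injective] at h5
        rw [h5]
        rfl
    have hNM := hM _ hSnorm hN
    have hSK : (S : Subgroup X) ⊔ K = ⊤ := by
      by_contra h
      have h1 := hM _ le_sup_left h
      have hKM : K ≤ M := le_sup_right.trans h1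
      apply hMne
      rw [eq_top_iff, ← hFr]
      exact sup_le hNM hKM
    obtain ⟨s, hsS, hsK⟩ : ∃ s ∈ (S : Subgroup X), s ∉ K := by
      by_contra h
      push Not at h
      have h1 : (S : Subgroup X) ≤ K := h
      rw [sup_eq_right.mpr h1] at hSK
      exact hne hSK
    obtain ⟨k, hk⟩ := S.2 ⟨s, hsS⟩
    have hs3 : s ^ (3 ^ k) = 1 := by simpa using congrArg Subtype.val hk
    let φ : MulAut K := MulAut.conjNormal s
    let ψ : MulAut (alternatingGroup (Fin n)) := MulAut.congr e φ
    have hψ3 : ψ ^ (3 ^ k) = 1 := by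
      have h1 : φ ^ (3 ^ k) = 1 := by
        show (MulAut.conjNormal s) ^ (3 ^ k) = (1 : MulAut K)
        rw [← map_pow, hs3, map_one]
      show (MulAut.congr e φ) ^ (3 ^ k) = 1
      rw [← map_pow, h1, map_one]
    have h3odd : Odd (3 ^ k) := Odd.pow (by decide)
    have hodd : Odd (orderOf ψ) := Odd.of_dvd_nat h3odd (orderOf_dvd_of_pow_eq_one hψ3)
    obtain ⟨π, hπ⟩ := Cfsg.Agent.Lib.Struct.AutAlt.exists_conj_of_odd n hn ψ hodd
    have hπA : π ∈ alternatingGroup (Fin n) := by
      by_contra hodd'
      have hsign : Equiv.Perm.sign π = -1 := by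
        rcases Int.units_eq_one_or (Equiv.Perm.sign π) with h | h
        · exact absurd (Equiv.Perm.mem_alternatingGroup.mpr h) hodd'
        · exact h
      have h1 : MulAut.conjNormal (π ^ (3 ^ k)) =
          (1 : MulAut ↥(alternatingGroup (Fin n))) := by
        rw [map_pow, hπ, hψ3]
      have h2 : π ^ (3 ^ k) = 1 :=
        Cfsg.Agent.S2119.conj_injective (by omega) (by rw [h1, map_one])
      have h3 := congrArg Equiv.Perm.sign h2
      rw [map_pow, hsign, map_one, h3odd.neg_one_pow] at h3
      exact absurd h3 (by decide)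
    let y₀ : alternatingGroup (Fin n) := ⟨π, hπA⟩
    let y : K := e.symm y₀
    have hagree : ∀ k' : K, (s * k' * s⁻¹ : X) = ((y * k' * y⁻¹ : K) : X) := by
      intro k'
      have h1 : ψ (e k') = e (φ k') := by
        simp [ψ, MulAut.congr]
      have h2 : ψ (e k') = y₀ * e k' * y₀⁻¹ := by
        rw [← hπ]
        apply Subtype.ext
        simp [MulAut.conjNormal_apply, y₀]
      have h3 : e (φ k') = e (y * k' * y⁻¹) := by
        rw [← h1, h2]
        simp [y, map_mul]
      have h4 := e.injective h3
      have h5 := congrArg Subtype.val h4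
      simpa [φ, MulAut.conjNormal_apply] using h5
    have hcen : ((y : K) : X)⁻¹ * s ∈ Subgroup.centralizer (K : Set X) := by
      rw [Subgroup.mem_centralizer_iff]
      intro k' hk'
      have h1 := hagree ⟨k', hk'⟩
      have h2 : s * k' * s⁻¹ = (y : X) * k' * (y : X)⁻¹ := by simpa using h1
      have e2 : s * k' = (y : X) * k' * (y : X)⁻¹ * s := by rw [← h2]; group
      calc k' * ((y : X)⁻¹ * s) = (y : X)⁻¹ * ((y : X) * k' * (y : X)⁻¹ * s) := by group
        _ = (y : X)⁻¹ * (s * k') := by rw [e2]
        _ = (y : X)⁻¹ * s * k' := by group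
    apply hsK
    have h := hCK hcen
    have e3 : s = (y : X) * ((y : X)⁻¹ * s) := by group
    rw [e3]
    exact K.mul_mem y.2 h
  refine ⟨hKtop, ?_⟩
  let E : X ≃* alternatingGroup (Fin n) :=
    (Subgroup.topEquiv.symm.trans (MulEquiv.subgroupCongr hKtop.symm)).trans e
  obtain ⟨S⟩ : Nonempty (Sylow 3 X) := inferInstance
  obtain ⟨M, hMne, hM⟩ := hle S
  have key := Cfsg.Agent.Lib.Perm.ThreeMinB.alt_three_min (α := Fin n) (by simpa using hn)
    ((S : Subgroup X).map E.toMonoidHom) (M.map E.toMonoidHom) (S.2.map _) ?_ ?_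
  · simpa using key
  · intro h
    apply hMne
    have h5 := congrArg (Subgroup.comap E.toMonoidHom) h
    rw [Subgroup.comap_map_eq_self_of_injective E.injective] at h5
    rw [h5]
    rfl
  · intro H hSH hH
    have h1 : (S : Subgroup X) ≤ H.comap E.toMonoidHom := Subgroup.map_le_iff_le_comap.mp hSH
    have h2 : H.comap E.toMonoidHom ≠ ⊤ := by
      intro h
      apply hH
      have h3 := congrArg (Subgroup.map E.toMonoidHom) h
      rw [Subgroup.map_comap_eq_self_of_surjective E.surjective,
        Subgroup.map_top_of_surjective _ E.surjective] at h3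
      exact h3
    have h3 := hM _ h1 h2
    have h4 := Subgroup.map_mono (f := E.toMonoidHom) h3
    rwa [Subgroup.map_comap_eq_self_of_surjective E.surjective] at h4

end Cfsg.Agent.S2930
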