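import Cfsg.Statements.S2931
import Cfsg.Agent.Lib.LocalEven2.Tab1
import Cfsg.Agent.Lib.LocalEven2.Tab2
import Cfsg.Agent.Lib.Classical.SpOrder
import Cfsg.Agent.Lib.Classical.OrthMinus
import Cfsg.Agent.Lib.Classical.IsoTransfer
-- import your own Cfsg.Agent.* helpers here

set_option autoImplicit false
open Cfsg

namespace Cfsg.Agent.S2931

theorem chain {A B B' : Type*} [Group A] [Group B] [Group B'] [Finite A] [Finite B'] (e : B ≃* B')
    (HA : Subgroup A) (HB : Subgroup B) (h : HA ≃* HB) {k mA mB : ℕ}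
    (cardHA : Nat.card HA = 2 ^ k) (cardHB : Nat.card HB = 2 ^ k)
    (cA : Nat.card A = 2 ^ k * mA) (cB : Nat.card B' = 2 ^ k * mB)
    (hmA : ¬ 2 ∣ mA) (hmB : ¬ 2 ∣ mB) (P : Sylow 2 A) (Q : Sylow 2 B') :
    Nonempty (↥(P : Subgroup A) ≃* ↥(Q : Subgroup B')) := by
  obtain ⟨e1⟩ := Cfsg.Agent.Lib.LocalEven2.Tab.sylow_equiv_of_card cA hmA HA cardHA P
  have h3 : Nat.card (HB.map (e : B →* B')) = 2 ^ k :=
    (Nat.card_congr (e.subgroupMap HB).toEquiv).symm.trans cardHB
  obtain ⟨e2⟩ := Cfsg.Agent.Lib.LocalEven2.Tab.sylow_equiv_of_card cB hmB (HB.map (e : B →* B')) h3 Q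
  exact ⟨e1.trans (h.trans ((e.subgroupMap HB).trans e2.symm))⟩

/-- The symplectic group along a ring isomorphism. -/
noncomputable def spEquiv {F K : Type*} [Field F] [Field K] (e : F ≃+* K) (m : ℕ) :
    Matrix.symplecticGroup (Fin m) F ≃* Matrix.symplecticGroup (Fin m) K where
  toFun A := ⟨A.1.map e, SymplecticGroup.map_mem A.2 e⟩
  invFun A := ⟨A.1.map e.symm, SymplecticGroup.map_mem A.2 e.symm⟩
  left_inv A := by
    apply Subtype.ext
    ext i j
    simp
  right_inv A := by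
    apply Subtype.ext
    ext i j
    simp
  map_mul' A B := by
    apply Subtype.ext
    exact Matrix.map_mul

/-- The projective symplectic group along a ring isomorphism. -/
noncomputable def pspEquiv {F K : Type*} [Field F] [Field K] (e : F ≃+* K) (m : ℕ) :
    Cfsg.PSp m F ≃* Cfsg.PSp m K :=
  QuotientGroup.congr _ _ (spEquiv e m) (by
    ext x
    simp only [Subgroup.mem_map, Subgroup.mem_center_iff]
    constructor
    · rintro ⟨g, hg, rfl⟩ h
      obtain ⟨h', rfl⟩ := (spEquiv e m).surjective h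
      show _ * spEquiv e m g = spEquiv e m g * _
      rw [← map_mul, ← map_mul, hg]
    · intro hx
      obtain ⟨g, rfl⟩ := (spEquiv e m).surjective x
      refine ⟨g, ?_, rfl⟩
      intro h
      apply (spEquiv e m).injective
      rw [map_mul, map_mul]
      exact hx _)

theorem part1 (F : Type) [Field F] [Fintype F] (hF : Fintype.card F = 3)
    (P : Sylow 2 ↥(alternatingGroup (Fin 8))) (Q : Sylow 2 (Cfsg.PSp 2 F)) :
    Nonempty (↥(P : Subgroup ↥(alternatingGroup (Fin 8))) ≃* ↥(Q : Subgroup (Cfsg.PSp 2 F))) := by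
  classical
  haveI : Fact (Nat.Prime 3) := ⟨by norm_num⟩
  let e : ZMod 3 ≃+* F := FiniteField.ringEquivOfCardEq (by simp [hF])
  obtain ⟨h1, h2, ⟨h3⟩⟩ := Cfsg.Agent.Lib.LocalEven2.Tab1.main_table
  haveI : Finite (Matrix.symplecticGroup (Fin 2) F) := by
    apply Subtype.finite
  haveI : Finite (Cfsg.PSp 2 F) := Quotient.finite _
  refine chain (pspEquiv e 2) _ _ h3 (k := 6) (mA := 315) (mB := 405) h1 h2 ?_ ?_ (by norm_num) (by norm_num) P Q
  · have c0 : 2 * Nat.card (alternatingGroup (Fin 8)) = Nat.card (Equiv.Perm (Fin 8)) :=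
      two_mul_nat_card_alternatingGroup
    have c00 : Nat.card (Equiv.Perm (Fin 8)) = 40320 := by
      rw [Nat.card_eq_fintype_card, Fintype.card_perm, Fintype.card_fin]
      rfl
    omega
  · have c1 := Subgroup.card_eq_card_quotient_mul_card_subgroup (Subgroup.center (Matrix.symplecticGroup (Fin 2) F))
    rw [Cfsg.Agent.Lib.Classical.card_sp hF 2, Cfsg.Agent.Lib.Classical.card_center_sp hF (by norm_num)] at c1
    have c3 : (3 : ℕ) ^ (2 ^ 2) * ∏ i ∈ Finset.range 2, (3 ^ (2 * (i + 1)) - 1) = 51840 := by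
      norm_num [Finset.prod_range_succ]
    have c4 : Nat.gcd 2 (3 - 1) = 2 := by norm_num
    rw [c3, c4] at c1
    have c2 : Nat.card (Cfsg.PSp 2 F) * 2 = 51840 := c1.symm
    omega

theorem part2 (K : Type) [Field K] [Fintype K] (hK : Fintype.card K = 2) (a b : K)
    (hab : ∀ z₁ z₂ : K, z₁ ^ 2 + a * z₁ * z₂ + b * z₂ ^ 2 = 0 → z₁ = 0 ∧ z₂ = 0)
    (P' : Sylow 2 (Equiv.Perm (Fin 8))) (Q' : Sylow 2 ↥(Cfsg.isometryGroup K (Cfsg.quadFormMinus 2 K a b))) :
    Nonempty (↥(P' : Subgroup (Equiv.Perm (Fin 8))) ≃* ↥(Q' : Subgroup ↥(Cfsg.isometryGroup K (Cfsg.quadFormMinus 2 K a b)))) := by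
  classical
  let e : K ≃+* ZMod 2 := Cfsg.Agent.Lib.Classical.ringEquivZMod2 hK
  have key : ∀ x : K, x = 0 ∨ x = 1 := by
    intro x
    have h : ∀ t : ZMod 2, t = 0 ∨ t = 1 := by decide
    rcases h (e x) with h | h
    · left
      apply e.injective
      rw [h, map_zero]
    · right
      apply e.injective
      rw [h, map_one]
  have h11 : (1 : K) + 1 = 0 := by
    apply e.injective
    rw [map_add, map_one, map_zero]
    decide
  have hb : b = 1 := by
    rcases key b with h | h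
    · exfalso
      have := (hab 0 1 (by simp [h])).2
      exact one_ne_zero this
    · exact h
  have ha : a = 1 := by
    rcases key a with h | h
    · exfalso
      have := (hab 1 1 (by simp [h, hb, h11])).2
      exact one_ne_zero this
    · exact h
  obtain ⟨h1, h2, ⟨h3⟩⟩ := Cfsg.Agent.Lib.LocalEven2.Tab2.main_table
  have hQ : ∀ v, Cfsg.Agent.Lib.LocalEven2.Tab2.Q₂ (e ∘ v) = e (Cfsg.quadFormMinus 2 K a b v) := by
    intro v
    simp [Cfsg.Agent.Lib.LocalEven2.Tab2.Q₂, Cfsg.quadFormMinus, map_sum, map_add, map_mul, map_pow, ha, hb]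
  let E := Cfsg.Agent.Lib.Classical.isometryTransfer e (Cfsg.quadFormMinus 2 K a b) Cfsg.Agent.Lib.LocalEven2.Tab2.Q₂ hQ
  haveI : Finite ↥(Cfsg.isometryGroup K (Cfsg.quadFormMinus 2 K a b)) := by
    apply Subtype.finite
  refine chain E.symm _ _ h3 (k := 7) (mA := 315) (mB := 405) h1 h2 ?_ ?_ (by norm_num) (by norm_num) P' Q'
  · rw [Nat.card_eq_fintype_card, Fintype.card_perm, Fintype.card_fin]
    rfl
  · have c1 := Cfsg.Agent.Lib.Classical.card_isometry_minus (q := 2) hK 3 (by norm_num) a b hab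
    refine c1.trans ?_
    norm_num [Finset.prod_range_succ]

/-- The Sylow 2-subgroups of the alternating group of degree 8 and of PSp₄(3) are isomorphic, and so are the Sylow 2-subgroups of the symmetric group of degree 8 and of the full isometry group of a non-degenerate quadratic form of minus type in dimension 6 over the field with 2 elements. -/
theorem result (F : Type) [Field F] [Fintype F] (hF : Fintype.card F = 3) (K : Type) [Field K] [Fintype K] (hK : Fintype.card K = 2) (a b : K) (hab : ∀ z₁ z₂ : K, z₁ ^ 2 + a * z₁ * z₂ + b * z₂ ^ 2 = 0 → z₁ = 0 ∧ z₂ = 0) (P : Sylow 2 ↥(alternatingGroup (Fin 8))) (Q : Sylow 2 (Cfsg.PSp 2 F)) (P' : Sylow 2 (Equiv.Perm (Fin 8))) (Q' : Sylow 2 ↥(Cfsg.isometryGroup K (Cfsg.quadFormMinus 2 K a b))) : Nonempty (↥(P : Subgroup ↥(alternatingGroup (Fin 8))) ≃* ↥(Q : Subgroup (Cfsg.PSp 2 F))) ∧ Nonempty (↥(P' : Subgroup (Equiv.Perm (Fin 8))) ≃* ↥(Q' : Subgroup ↥(Cfsg.isometryGroup K (Cfsg.quadFormMinus 2 K a b))))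 := by
  exact ⟨part1 F hF P Q, part2 K hK a b hab P' Q'⟩

end Cfsg.Agent.S2931
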