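import Cfsg.Statements.S2939
import Cfsg.Agent.Lib.LocalEven2.SylowFamily
-- import your own Cfsg.Agent.* helpers here

set_option autoImplicit false
open Cfsg

namespace Cfsg.Agent.S2939

open Cfsg.Agent.Lib.LocalEven2 Cfsg.Agent.Lib.LocalEven Cfsg.Agent.Lib.Coprime Cfsg

theorem mem_normalizer_of_conjRight_eq {G : Type*} [Group G] {S : Subgroup G} {k : G}
    (h : subgroupConjRight k S = S) : k ∈ Subgroup.normalizer (S : Set G) := by
  have h4 := (conj_map_eq_iff_mem_normalizer S k⁻¹).1 h
  simpa using Subgroup.inv_mem _ h4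

theorem conjRight_eq_of_mem_normalizer {G : Type*} [Group G] {S : Subgroup G} {k : G}
    (h : k ∈ Subgroup.normalizer (S : Set G)) : subgroupConjRight k S = S :=
  (conj_map_eq_iff_mem_normalizer S k⁻¹).2 (Subgroup.inv_mem _ h)

theorem prod_take_ofFn_succ {G : Type*} [Group G] {n : ℕ} (y : Fin n → G) (i : Fin n) :
    ((List.ofFn y).take (i.val + 1)).prod = ((List.ofFn y).take i.val).prod * y i := by
  have hlen : i.val < (List.ofFn y).length := by simp
  rw [List.prod_take_succ _ _ hlen]
  simp

theorem prod_take_ofFn_zero {G : Type*} [Group G] {n : ℕ} (y : Fin n → G) :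
    ((List.ofFn y).take 0).prod = 1 := by simp

theorem prod_ofFn_eq_take {G : Type*} [Group G] {n : ℕ} (y : Fin n → G) :
    (List.ofFn y).prod = ((List.ofFn y).take n).prod := by
  have : (List.ofFn y).take n = List.ofFn y := by
    apply List.take_of_length_le
    simp
  rw [this]

/-- Let p be a prime dividing the order of the finite group G and 𝓕 a family of subgroups of G closed under conjugation, with conjugates taken as X^g = g⁻¹Xg. Then 𝓕 controls Sylow p-intersections in G (any two distinct Sylow p-subgroups S and T with S ∩ T ≠ 1 are joined by a chain S = S₀, S₁, …, Sₙ = T of Sylow p-subgroups where, for each i, some member Xᵢ of 𝓕 meets both S_{i-1} and Sᵢ in Sylow p-subgroups of Xᵢ, satisfies S ∩ T ≤ Sᵢ ∩ Xᵢ, and contains an element xᵢ with Sᵢ^{xᵢ} = S_{i-1}) if and only if 𝓕 strongly controls p-fusion in G (whenever A is a subset of a Sylow p-subgroup S, A contains an element other than 1, and A^g ⊆ S, the element g factorises as g = y₁⋯yₙy with y ∈ N_G(S) and each yᵢ in a member Yᵢ of 𝓕 that meets S in a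 Sylow p-subgroup of Yᵢ, with A^{y₁⋯yᵢ} ⊆ S ∩ Yᵢ for each i). -/
theorem result {G : Type*} [Group G] [Finite G] {p : ℕ} [Fact p.Prime] (hdiv : p ∣ Nat.card G) (𝓕 : Set (Subgroup G)) (h𝓕 : Cfsg.IsNormalSet 𝓕) : Cfsg.ControlsSylowIntersections p 𝓕 ↔ Cfsg.FamilyStronglyControlsFusion p 𝓕 := by
  constructor
  · intro hc S A g hAS ha hAg
    obtain ⟨T, hT⟩ := exists_sylow_subgroupConjRight S g⁻¹
    have hAT : ∀ a ∈ A, a ∈ (T : Subgroup G) := by
      intro a ha'
      rw [hT, mem_subgroupConjRight, inv_inv]
      exact hAg ⟨a, ha', rfl⟩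
    obtain ⟨a₀, ha₀, ha₀1⟩ := ha
    by_cases hST : S = T
    · refine ⟨0, Fin.elim0, Fin.elim0, g, ?_, fun i => i.elim0, ?_, fun i => i.elim0⟩
      · have h1 : subgroupConjRight g⁻¹ (S : Subgroup G) = S := by
          rw [← hT, ← hST]
        simpa using mem_normalizer_of_conjRight_eq h1 |> Subgroup.inv_mem _
      · simp
    · have hne : (S : Subgroup G) ⊓ (T : Subgroup G) ≠ ⊥ := by
        intro e
        have : a₀ ∈ (S : Subgroup G) ⊓ (T : Subgroup G) := Subgroup.mem_inf.2 ⟨hAS ha₀, hAT a₀ ha₀⟩
        rw [e, Subgroup.mem_bot] at this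
        exact ha₀1 this
      obtain ⟨n, c, X, x, h0, hn, hi⟩ := hc S T hST hne
      set z : Fin (n + 1) → G := fun i => Fin.induction (motive := fun _ => G) 1 (fun i zi => x i * zi) i with hz
      have hz0 : z 0 = 1 := by simp [hz]
      have hzs : ∀ i : Fin n, z i.succ = x i * z i.castSucc := by
        intro i
        simp [hz]
      have claim1 : ∀ i : Fin (n + 1), subgroupConjRight (z i) (c i : Subgroup G) = S := by
        intro i
        induction i using Fin.induction with
        | zero => rw [hz0, subgroupConjRight_one, h0]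
        | succ i ih =>
          rw [hzs, subgroupConjRight_mul, (hi i).2.2.2.1, ih]
      set y : Fin n → G := fun i => (z i.castSucc)⁻¹ * x i * z i.castSucc with hy
      have claim2 : ∀ (i : ℕ) (h : i < n + 1), ((List.ofFn y).take i).prod = z ⟨i, h⟩ := by
        intro i
        induction i with
        | zero =>
          intro _
          rw [prod_take_ofFn_zero]
          exact hz0.symm
        | succ i ih =>
          intro h
          have hi' : i < n := by omega
          have := prod_take_ofFn_succ y ⟨i, hi'⟩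
          simp only at this
          rw [this, ih (by omega)]
          have e : (⟨i + 1, h⟩ : Fin (n + 1)) = (⟨i, hi'⟩ : Fin n).succ := rfl
          rw [e, hzs]
          have e2 : (⟨i, by omega⟩ : Fin (n + 1)) = (⟨i, hi'⟩ : Fin n).castSucc := rfl
          rw [e2, hy]
          simp only
          group
      have hlast : (Fin.last n) = (⟨n, by omega⟩ : Fin (n + 1)) := rfl
      have hzn : (List.ofFn y).prod = z (Fin.last n) := by
        rw [prod_ofFn_eq_take, claim2 n (by omega)]
        rfl
      have hy₀ : (z (Fin.last n))⁻¹ * g ∈ Subgroup.normalizer ((S : Subgroup G) : Set G) := by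
        have h1 := claim1 (Fin.last n)
        rw [hn, hT, ← subgroupConjRight_mul] at h1
        have h2 := mem_normalizer_of_conjRight_eq h1
        have h3 := Subgroup.inv_mem _ h2
        simpa using h3
      refine ⟨n, fun i => subgroupConjRight (z i.castSucc) (X i), y, (z (Fin.last n))⁻¹ * g, hy₀, ?_, ?_, ?_⟩
      · intro i
        refine ⟨?_, ?_⟩
        · have := sylowMembers_conj h𝓕 (hi i).1 (z i.castSucc)
          rwa [claim1] at this
        · rw [mem_subgroupConjRight, hy]
          simp only
          have e : z i.castSucc * ((z i.castSucc)⁻¹ * x i * z i.castSucc) * (z i.castSucc)⁻¹ = x i := by group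
          rw [e]
          exact (hi i).2.2.1
      · rw [hzn]; group
      · intro i
        have e : ((List.ofFn y).take (i.val + 1)).prod = z i.succ := by
          rw [claim2 (i.val + 1) (by omega)]
          rfl
        rw [e]
        rintro _ ⟨a, ha', rfl⟩
        have hleq := (hi i).2.2.2.2
        have ha2 : a ∈ (S : Subgroup G) ⊓ (T : Subgroup G) := Subgroup.mem_inf.2 ⟨hAS ha', hAT a ha'⟩
        have ha3 := Subgroup.mem_inf.1 (hleq ha2)
        refine ⟨?_, ?_⟩
        · have h1 := claim1 i.succ
          have : (z i.succ)⁻¹ * a * z i.succ ∈ subgroupConjRight (z i.succ) (c i.succ : Subgroup G) := by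
            rw [mem_subgroupConjRight]
            have e : z i.succ * ((z i.succ)⁻¹ * a * z i.succ) * (z i.succ)⁻¹ = a := by group
            rw [e]; exact ha3.1
          rw [h1] at this
          exact this
        · show _ ∈ subgroupConjRight (z i.castSucc) (X i)
          rw [mem_subgroupConjRight, hzs]
          have e : z i.castSucc * ((x i * z i.castSucc)⁻¹ * a * (x i * z i.castSucc)) * (z i.castSucc)⁻¹ = (x i)⁻¹ * a * x i := by group
          rw [e]
          have hx := (hi i).2.2.1
          exact (X i).mul_mem ((X i).mul_mem ((X i).inv_mem hx) ha3.2) hx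
  · intro hs S T hne hST
    obtain ⟨g', hg'⟩ := exists_subgroupConjRight_eq S T
    obtain ⟨a₀, ha₀, ha₀1⟩ := (Subgroup.ne_bot_iff_exists_ne_one.1 hST : ∃ a : ↥((S : Subgroup G) ⊓ (T : Subgroup G)), a ≠ 1) |> fun ⟨a, ha⟩ => (⟨a.1, a.2, fun h => ha (Subtype.ext h)⟩ : ∃ a₀, a₀ ∈ (S : Subgroup G) ⊓ (T : Subgroup G) ∧ a₀ ≠ 1)
    set A : Set G := (((S : Subgroup G) ⊓ (T : Subgroup G) : Subgroup G) : Set G) with hA
    have hAS : A ⊆ (S : Set G) := fun a ha => (Subgroup.mem_inf.1 ha).1
    have hAg : conjRight g'⁻¹ A ⊆ (S : Set G) := by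
      rintro _ ⟨a, ha, rfl⟩
      have h1 := (Subgroup.mem_inf.1 ha).2
      rw [hg', mem_subgroupConjRight] at h1
      have e : (g'⁻¹)⁻¹ * a * g'⁻¹ = g' * a * g'⁻¹ := by simp
      show (g'⁻¹)⁻¹ * a * g'⁻¹ ∈ (S : Subgroup G)
      rw [e]
      exact h1
    obtain ⟨n, Y, y, y₀, hy₀, hY, hg, hcond⟩ := hs S A g'⁻¹ hAS ⟨a₀, ha₀, ha₀1⟩ hAg
    set z : ℕ → G := fun i => ((List.ofFn y).take i).prod with hz
    have hz0 : z 0 = 1 := by simp [hz]
    have hzs : ∀ i : Fin n, z (i.val + 1) = z i.val * y i := fun i => prod_take_ofFn_succ y i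
    choose c hc using fun i : Fin (n + 1) => exists_sylow_subgroupConjRight S (z i.val)⁻¹
    refine ⟨n, c, fun i => subgroupConjRight (z (i.val + 1))⁻¹ (Y i), fun i => z i.val * y i * (z i.val)⁻¹, ?_, ?_, ?_⟩
    · apply Sylow.ext
      rw [hc]
      simp [hz0, subgroupConjRight_one]
    · apply Sylow.ext
      rw [hc, hg']
      have h1 : z (Fin.last n).val = (List.ofFn y).prod := (prod_ofFn_eq_take y).symm
      have h2 : g' = y₀⁻¹ * (z (Fin.last n).val)⁻¹ := by
        have : g' = (g'⁻¹)⁻¹ := by simp
        rw [this, hg, h1]; group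
      rw [h2, subgroupConjRight_mul]
      congr 1
      exact (conjRight_eq_of_mem_normalizer (Subgroup.inv_mem _ hy₀)).symm
    · intro i
      have e1 : (z (i.val + 1))⁻¹ = (y i)⁻¹ * (z i.val)⁻¹ := by rw [hzs]; group
      have eX : subgroupConjRight (z (i.val + 1))⁻¹ (Y i) = subgroupConjRight (z i.val)⁻¹ (Y i) := by
        rw [e1, subgroupConjRight_mul, subgroupConjRight_of_mem ((Y i).inv_mem (hY i).2)]
      refine ⟨?_, ?_, ?_, ?_, ?_⟩
      · have := sylowMembers_conj h𝓕 (hY i).1 (z i.val)⁻¹
        have h3 := hc i.castSucc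
        simp only [Fin.val_castSucc] at h3
        show subgroupConjRight (z (i.val + 1))⁻¹ (Y i) ∈ _
        rw [h3, eX]
        exact this
      · have := sylowMembers_conj h𝓕 (hY i).1 (z (i.val + 1))⁻¹
        have h2 := hc i.succ
        simp only [Fin.val_succ] at h2
        rw [← h2] at this
        exact this
      · show z i.val * y i * (z i.val)⁻¹ ∈ subgroupConjRight (z (i.val + 1))⁻¹ (Y i)
        rw [eX, mem_subgroupConjRight]
        have e : (z i.val)⁻¹ * (z i.val * y i * (z i.val)⁻¹) * (z i.val)⁻¹⁻¹ = y i := by group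
        rw [e]
        exact (hY i).2
      · have h2 := hc i.succ
        simp only [Fin.val_succ] at h2
        have h3 := hc i.castSucc
        simp only [Fin.val_castSucc] at h3
        rw [h2, h3, ← subgroupConjRight_mul]
        congr 1
        rw [e1]; group
      · intro a ha
        have h1 := hcond i ⟨a, ha, rfl⟩
        have h2 : (z (i.val + 1))⁻¹ * a * z (i.val + 1) ∈ (S : Subgroup G) := h1.1
        have h3 : (z (i.val + 1))⁻¹ * a * z (i.val + 1) ∈ Y i := h1.2
        refine Subgroup.mem_inf.2 ⟨?_, ?_⟩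
        · rw [hc i.succ, mem_subgroupConjRight]
          simpa using h2
        · rw [mem_subgroupConjRight]
          simpa using h3

end Cfsg.Agent.S2939
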