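import Cfsg.Statements.S2940
import Cfsg.Agent.Lib.LocalEven2.SylowFamily
-- import your own Cfsg.Agent.* helpers here

set_option autoImplicit false
open Cfsg

namespace Cfsg.Agent.S2940

open Cfsg.Agent.Lib.LocalEven2 Cfsg.Agent.Lib.LocalEven Cfsg.Agent.Lib.Coprime

/-- Let S be a Sylow p-subgroup of the finite group G and G₁, G₂ subgroups containing S with G = G₁G₂. Then for every g ∈ G there is a Sylow p-subgroup U of G with S ∩ S^g ≤ U ≤ G₁ ∩ G₂^g (conjugates taken as X^g = g⁻¹Xg). -/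
theorem result {G : Type*} [Group G] [Finite G] {p : ℕ} [Fact p.Prime] (S : Sylow p G) (G₁ G₂ : Subgroup G) (h1 : (S : Subgroup G) ≤ G₁) (h2 : (S : Subgroup G) ≤ G₂) (hfact : ∀ g : G, ∃ g₁ ∈ G₁, ∃ g₂ ∈ G₂, g = g₁ * g₂) (g : G) : ∃ U : Sylow p G, (S : Subgroup G) ⊓ Cfsg.subgroupConjRight g (S : Subgroup G) ≤ (U : Subgroup G) ∧ (U : Subgroup G) ≤ G₁ ⊓ Cfsg.subgroupConjRight g G₂ := by
  obtain ⟨g₁, hg₁, g₂, hg₂, he⟩ := hfact g⁻¹
  set D : Subgroup G := G₁ ⊓ Cfsg.subgroupConjRight g G₂ with hD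
  obtain ⟨V, hV⟩ := exists_sylow_eq_conj S g₁
  have hg : g = g₂⁻¹ * g₁⁻¹ := by
    have : g = (g₁ * g₂)⁻¹ := by rw [← he, inv_inv]
    rw [this]; group
  have hVD : (V : Subgroup G) ≤ D := by
    rw [hV]
    rintro _ ⟨s, hs, rfl⟩
    simp only [MulEquiv.coe_toMonoidHom, MulAut.conj_apply]
    refine Subgroup.mem_inf.2 ⟨G₁.mul_mem (G₁.mul_mem hg₁ (h1 hs)) (G₁.inv_mem hg₁), ?_⟩
    rw [mem_subgroupConjRight]
    have e : g * (g₁ * s * g₁⁻¹) * g⁻¹ = g₂⁻¹ * s * g₂ := by rw [hg]; group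
    rw [e]
    exact G₂.mul_mem (G₂.mul_mem (G₂.inv_mem hg₂) (h2 hs)) hg₂
  set A : Subgroup G := (S : Subgroup G) ⊓ Cfsg.subgroupConjRight g (S : Subgroup G) with hA
  have hAD : A ≤ D := by
    intro a ha
    refine Subgroup.mem_inf.2 ⟨h1 ha.1, ?_⟩
    have := mem_subgroupConjRight.1 (Subgroup.mem_inf.1 ha).2
    rw [mem_subgroupConjRight]
    exact h2 this
  obtain ⟨m, hm, T, hT, hTD, hAT, hVT⟩ := exists_conj_common_of_isPGroup (M := D)
    (S.isPGroup'.to_le inf_le_left : IsPGroup p A) V.isPGroup' hAD hVD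
  obtain ⟨U, hU⟩ := exists_sylow_eq_conj V m
  have hUT : (U : Subgroup G) ≤ T := by rw [hU]; exact hVT
  have hTU : T = U := U.is_maximal' hT hUT
  refine ⟨U, ?_, ?_⟩
  · rw [← hTU]; exact hAT
  · rw [← hTU]; exact hTD

end Cfsg.Agent.S2940
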