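import Cfsg.Statements.S2943
import Cfsg.Agent.Lib.LocalEven2.JC5
-- import your own Cfsg.Agent.* helpers here

set_option autoImplicit false
open Cfsg

namespace Cfsg.Agent.S2943

open Cfsg.Agent.Lib.LocalEven2.JC
open Cfsg.Agent.Lib.LocalEven (cj cj_eq_of_mem_normalizer)

/-- Let G be a finite group of characteristic 2 type in which every 2-local subgroup is solvable and the centralizer of Ω₁(Z(S)) lies in N_G(S) for every Sylow 2-subgroup S, and let T be a nontrivial 2-subgroup (below, J is the Thompson subgroup generated by the elementary abelian 2-subgroups of largest order), L a subgroup in which T is a Sylow 2-subgroup with J(T) not contained in O₂(L) and C_G(O₂(L)) ≤ O₂(L), and K a J(T)-component contained in L. If Z(T) meets W_K = [Ω₁(Z(O₂(K))), K] nontrivially, then T normalizes K. -/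
theorem result {G : Type*} [Group G] [Finite G] (hL : Cfsg.IsCharacteristicTwoType G) (hN : ∀ N : Subgroup G, Cfsg.IsTwoLocal N → Group.IsSolvable ↥N)
    (hZ : ∀ S : Sylow 2 G, Subgroup.centralizer (Cfsg.omegaCenterOf (S : Subgroup G) : Set G) ≤ Subgroup.normalizer ((S : Subgroup G) : Set G)) (T : Subgroup G) (hT : IsPGroup 2 ↥T) (hT1 : T ≠ ⊥) (L : Subgroup G) (hLT : L ∈ Cfsg.jOvergroups T)
    (K : Subgroup G) (hK : Cfsg.IsJComponent T K) (hKL : K ≤ L)
    (hZW : T ⊓ Subgroup.centralizer (T : Set G) ⊓ Cfsg.wOf K ≠ ⊥) : T ≤ Subgroup.normalizer (K : Set G) := by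
  have hne : (⊤ : Subgroup G) ≠ ⊥ := fun h => hT1 (by rw [eq_bot_iff, ← h]; exact le_top)
  obtain ⟨hSyl, _, hc⟩ := hLT
  have hLS : LS L := ⟨hL, hN, hZ, hc, hne⟩
  have hC : CompIn L T K := ⟨hLS, hSyl, hT1, hK, hKL⟩
  obtain ⟨z, hz, hz1⟩ := (Subgroup.bot_or_exists_ne_one _).resolve_left hZW
  have hzO : z ∈ omegaCenterOf T := mem_omegaCenterOf.2 ⟨hz.1.1, hz.1.2, hC.D.hW2 z hz.2⟩
  have hzV := omega_mem hSyl hzO
  intro t ht
  have hcT : cj t T = T := cj_eq_of_mem_normalizer (Subgroup.le_normalizer ht)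
  have hC₁ : CompIn L T (cj t K) := by
    have := hC.cj_of_mem (hSyl.1 ht)
    rwa [hcT] at this
  have hzt : t * z * t⁻¹ = z := by
    have := Subgroup.mem_centralizer_iff.1 hz.1.2 t ht
    rw [this]; group
  have hz₁ : z ∈ wOf (cj t K) := by
    rw [wOf_cj]
    exact ⟨z, hz.2, hzt⟩
  have he := hC.eq_of_common hC₁ hz.2 hz₁ hz1 hzV
  apply Cfsg.Agent.Lib.Coprime.mem_normalizer_of_conj_le
  intro k hk
  have : t * k * t⁻¹ ∈ cj t K := ⟨k, hk, rfl⟩
  rwa [he] at this

end Cfsg.Agent.S2943
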