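import Cfsg.Statements.S2944
import Cfsg.Agent.Lib.LocalEven2.JC5
-- import your own Cfsg.Agent.* helpers here

set_option autoImplicit false
open Cfsg

namespace Cfsg.Agent.S2944

open Cfsg.Agent.Lib.LocalEven2.JC
open Cfsg.Agent.Lib.LocalEven (cj cj_eq_of_mem_normalizer cj_inv_cj cj_cj_inv cj_mono isPGroup_cj)
open Cfsg.Agent.Lib.OddLocal (MaxEA thompsonSubgroupOf_eq le_thompsonSubgroupOf MaxEA_nonempty isElementaryAbelian_map)

/-- Let G be a finite group of characteristic 2 type in which every 2-local subgroup is solvable and the centralizer of Ω₁(Z(S)) lies in N_G(S) for every Sylow 2-subgroup S, and let T be a nontrivial 2-subgroup (below, J is the Thompson subgroup generated by the elementary abelian 2-subgroups of largest order) and K a J(T)-component such that J(T) is the Thompson subgroup of every Sylow 2-subgroup of N_G(W_K) containing J(T), where W_K = [Ω₁(Z(O₂(K))), K]. Then N_G(K) = N_G(W_K), and K is a J(Tᵍ)-component for every conjugate Tᵍ of T with J(Tᵍ) ≤ N_G(W_K).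 -/
theorem result {G : Type*} [Group G] [Finite G] (hL : Cfsg.IsCharacteristicTwoType G) (hN : ∀ N : Subgroup G, Cfsg.IsTwoLocal N → Group.IsSolvable ↥N)
    (hZ : ∀ S : Sylow 2 G, Subgroup.centralizer (Cfsg.omegaCenterOf (S : Subgroup G) : Set G) ≤ Subgroup.normalizer ((S : Subgroup G) : Set G)) (T : Subgroup G) (hT : IsPGroup 2 ↥T) (hT1 : T ≠ ⊥) (K : Subgroup G) (hK : K ∈ Cfsg.jComponentsZero T) :
    Subgroup.normalizer (K : Set G) = Subgroup.normalizer (Cfsg.wOf K : Set G) ∧
      ∀ g : G, Cfsg.thompsonSubgroupOf 2 (T.map (MulAut.conj g).toMonoidHom) ≤ Subgroup.normalizer (Cfsg.wOf K : Set G) →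
        Cfsg.IsJComponent (T.map (MulAut.conj g).toMonoidHom) K := by
  obtain ⟨hle, S, hS, hJS, hSJ⟩ := eq_normalizer_of_zero hL hN hZ hT hT1 hK
  have hJC := hK.1
  have D := Data.of hT hJC
  refine ⟨le_antisymm Data.W_norm hle, ?_⟩
  intro g hg
  set N := Subgroup.normalizer ((wOf K : Subgroup G) : Set G) with hNdef
  set J := thompsonSubgroupOf 2 T with hJ
  -- a Sylow subgroup of `N` containing `J^g`
  have hJgp : IsPGroup 2 (thompsonSubgroupOf 2 (cj g T)) := by
    rw [thompson_cj]
    exact isPGroup_cj D.hJp g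
  obtain ⟨S', hS', hJS'⟩ := Data.exists_sylowIn hg hJgp
  obtain ⟨n, hn, rfl⟩ := exists_conj_of_sylowIn hS hS'
  -- comparing the Thompson subgroups
  have hth : thompsonSubgroupOf 2 (cj n S) = cj n J := by rw [thompson_cj, hSJ]
  have hMaxS : MaxEA 2 S = MaxEA 2 J := Data.MaxEA_eq_of_thompson hJS hSJ
  have hMaxT : MaxEA 2 T = MaxEA 2 J := Data.MaxEA_eq_of_thompson (thompson_le T) rfl
  have hle1 : thompsonSubgroupOf 2 (cj g T) ≤ cj n J := by
    rw [thompsonSubgroupOf_eq, ← hth]
    refine sSup_le fun A hA => ?_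
    apply le_thompsonSubgroupOf
    refine ⟨(le_sSup hA |>.trans (by rw [← thompsonSubgroupOf_eq]; exact hJS')), hA.2.1, fun B hB hBE => ?_⟩
    -- compare with a member of `MaxEA 2 S`
    obtain ⟨A₀, hA₀⟩ := MaxEA_nonempty 2 S
    have h1 : cj n⁻¹ B ≤ S := by
      have := cj_mono (g := n⁻¹) hB
      rwa [cj_inv_cj] at this
    have h2 := hA₀.2.2 _ h1 (isElementaryAbelian_map _ hBE)
    have h3 : Nat.card (cj n⁻¹ B) = Nat.card B := Subgroup.card_map_of_injective (MulAut.conj n⁻¹).injective
    rw [h3] at h2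
    have hA₀T : A₀ ∈ MaxEA 2 T := by rw [hMaxT, ← hMaxS]; exact hA₀
    have h4 := hA.2.2 (cj g A₀) (cj_mono hA₀T.1) (isElementaryAbelian_map _ hA₀T.2.1)
    have h5 : Nat.card (cj g A₀) = Nat.card A₀ := Subgroup.card_map_of_injective (MulAut.conj g).injective
    rw [h5] at h4
    exact h2.trans h4
  have heq : thompsonSubgroupOf 2 (cj g T) = cj n J := by
    apply Subgroup.eq_of_le_of_card_ge hle1
    rw [thompson_cj]
    have h5 : Nat.card (cj g J) = Nat.card J := Subgroup.card_map_of_injective (MulAut.conj g).injective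
    have h6 : Nat.card (cj n J) = Nat.card J := Subgroup.card_map_of_injective (MulAut.conj n).injective
    rw [h5, h6]
  have hKn : cj n K = K := cj_eq_of_mem_normalizer (hle hn)
  have h7 := jc_cj n hJC
  rw [hKn] at h7
  refine isJComponent_congr ?_ h7
  rw [thompson_cj, heq]

end Cfsg.Agent.S2944
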