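import Cfsg.Statements.S2955
import Cfsg.Agent.Lib.LocalEven2.SylowFamily
-- import your own Cfsg.Agent.* helpers here

set_option autoImplicit false
open Cfsg

namespace Cfsg.Agent.S2955

open Cfsg.Agent.Lib.LocalEven2 Cfsg.Agent.Lib.LocalEven Cfsg.Agent.Lib.Coprime Cfsg

/-- The subgroup `⟨𝓕(S), N(S)⟩`. -/
def hullOf {G : Type*} [Group G] (p : ℕ) (𝓕 : Set (Subgroup G)) (S : Subgroup G) : Subgroup G :=
  (⨆ X ∈ sylowMembers p 𝓕 S, X) ⊔ Subgroup.normalizer (S : Set G)

theorem hullOf_conj_le {G : Type*} [Group G] [Finite G] {p : ℕ} [Fact p.Prime] {𝓕 : Set (Subgroup G)} (h𝓕 : IsNormalSet 𝓕)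
    (S : Subgroup G) (g : G) : subgroupConjRight g (hullOf p 𝓕 S) ≤ hullOf p 𝓕 (subgroupConjRight g S) := by
  have hle : hullOf p 𝓕 S ≤ subgroupConjRight g⁻¹ (hullOf p 𝓕 (subgroupConjRight g S)) := by
    refine sup_le (iSup₂_le fun X hX => ?_) ?_
    · intro x hx
      rw [mem_subgroupConjRight, inv_inv]
      refine Subgroup.mem_sup_left (Subgroup.mem_iSup_of_mem _ (Subgroup.mem_iSup_of_mem (sylowMembers_conj h𝓕 hX g) ?_))
      rw [mem_subgroupConjRight]
      have e : g * (g⁻¹ * x * g) * g⁻¹ = x := by group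
      rw [e]; exact hx
    · intro x hx
      rw [mem_subgroupConjRight, inv_inv]
      apply Subgroup.mem_sup_right
      rw [Subgroup.mem_normalizer_iff]
      intro y
      simp only [mem_subgroupConjRight]
      have e : g * (g⁻¹ * x * g * y * (g⁻¹ * x * g)⁻¹) * g⁻¹ = x * (g * y * g⁻¹) * x⁻¹ := by group
      rw [e]
      exact Subgroup.mem_normalizer_iff.1 hx _
  intro x hx
  rw [mem_subgroupConjRight] at hx
  have := hle hx
  rw [mem_subgroupConjRight, inv_inv] at this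
  have e : g⁻¹ * (g * x * g⁻¹) * g = x := by group
  rwa [e] at this

theorem hullOf_conj {G : Type*} [Group G] [Finite G] {p : ℕ} [Fact p.Prime] {𝓕 : Set (Subgroup G)} (h𝓕 : IsNormalSet 𝓕)
    (S : Subgroup G) (g : G) : hullOf p 𝓕 (subgroupConjRight g S) = subgroupConjRight g (hullOf p 𝓕 S) := by
  apply le_antisymm _ (hullOf_conj_le h𝓕 S g)
  have h := hullOf_conj_le (p := p) h𝓕 (subgroupConjRight g S) g⁻¹
  rw [subgroupConjRight_self_inv] at h
  intro x hx
  rw [mem_subgroupConjRight]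
  apply h
  rw [mem_subgroupConjRight, inv_inv]
  have e : g⁻¹ * (g * x * g⁻¹) * g = x := by group
  rw [e]; exact hx

/-- `T = S^{h}` with `h ∈ ⟨𝓕(S), N(S)⟩`, the same hull. -/
def Rel {G : Type*} [Group G] (p : ℕ) (𝓕 : Set (Subgroup G)) (S T : Subgroup G) : Prop :=
  hullOf p 𝓕 T = hullOf p 𝓕 S ∧ ∃ h ∈ hullOf p 𝓕 S, T = subgroupConjRight h S

theorem Rel.refl {G : Type*} [Group G] (p : ℕ) (𝓕 : Set (Subgroup G)) (S : Subgroup G) : Rel p 𝓕 S S :=
  ⟨rfl, 1, Subgroup.one_mem _, (subgroupConjRight_one S).symm⟩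

theorem Rel.trans {G : Type*} [Group G] {p : ℕ} {𝓕 : Set (Subgroup G)} {S T U : Subgroup G}
    (h1 : Rel p 𝓕 S T) (h2 : Rel p 𝓕 T U) : Rel p 𝓕 S U := by
  obtain ⟨e1, a, ha, hT⟩ := h1
  obtain ⟨e2, b, hb, hU⟩ := h2
  refine ⟨e2.trans e1, a * b, Subgroup.mul_mem _ ha (e1 ▸ hb), ?_⟩
  rw [subgroupConjRight_mul, ← hT, hU]

/-- One step: `S₁ = S₀^{x}` ... -/
theorem Rel.step {G : Type*} [Group G] [Finite G] {p : ℕ} [Fact p.Prime] {𝓕 : Set (Subgroup G)} (h𝓕 : IsNormalSet 𝓕)
    {S₀ S₁ X : Subgroup G} (hX : X ∈ sylowMembers p 𝓕 S₀) {x : G} (hx : x ∈ X)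
    (he : subgroupConjRight x S₁ = S₀) : Rel p 𝓕 S₀ S₁ := by
  have hxH : x ∈ hullOf p 𝓕 S₀ :=
    Subgroup.mem_sup_left (Subgroup.mem_iSup_of_mem X (Subgroup.mem_iSup_of_mem hX hx))
  have hS₁ : S₁ = subgroupConjRight x⁻¹ S₀ := by
    rw [← he, subgroupConjRight_self_inv]
  refine ⟨?_, x⁻¹, Subgroup.inv_mem _ hxH, hS₁⟩
  rw [hS₁, hullOf_conj h𝓕, subgroupConjRight_of_mem (Subgroup.inv_mem _ hxH)]

/-- Controls step: `S ≠ T`, `S ∩ T ≠ 1` give the relation. -/
theorem Rel.of_controls {G : Type*} [Group G] [Finite G] {p : ℕ} [Fact p.Prime] {𝓕 : Set (Subgroup G)} (h𝓕 : IsNormalSet 𝓕)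
    (hc : ControlsSylowIntersections p 𝓕) {S T : Sylow p G} (hne : S ≠ T)
    (hST : (S : Subgroup G) ⊓ (T : Subgroup G) ≠ ⊥) : Rel p 𝓕 S T := by
  obtain ⟨n, c, X, x, h0, hn, hi⟩ := hc S T hne hST
  have key : ∀ i : Fin (n + 1), Rel p 𝓕 S (c i) := by
    intro i
    induction i using Fin.induction with
    | zero => rw [h0]; exact Rel.refl p 𝓕 _
    | succ i ih =>
      obtain ⟨h1, _, h3, h4, _⟩ := hi i
      exact ih.trans (Rel.step h𝓕 h1 h3 h4)
  have := key (Fin.last n)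
  rwa [hn] at this

/-- Let p be a prime dividing the order of the finite group G and 𝓕 a conjugation-closed family of subgroups that controls Sylow p-intersections in G. Suppose the Sylow p-subgroups of G are chain-connected: any two of them are joined by a chain of Sylow p-subgroups, consecutive ones distinct with nontrivial intersection, all containing the intersection of the two ends (equivalently, the graph on the Sylow p-subgroups whose edges are the distinct pairs meeting nontrivially is connected). Then for every Sylow p-subgroup S, G is generated by N_G(S) together with the members of 𝓕 that meet S in a Sylow p-subgroup of themselves. -/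
theorem result {G : Type*} [Group G] [Finite G] (p : ℕ) [Fact p.Prime] (hdiv : p ∣ Nat.card G)
    (𝓕 : Set (Subgroup G)) (h𝓕 : Cfsg.IsNormalSet 𝓕) (hc : Cfsg.ControlsSylowIntersections p 𝓕)
    (hconn : Cfsg.IsSylowChainConnected p G) (S : Sylow p G) :
    (⨆ X ∈ Cfsg.sylowMembers p 𝓕 (S : Subgroup G), X) ⊔ Subgroup.normalizer ((S : Subgroup G) : Set G) = ⊤ := by
  have hall : ∀ T : Sylow p G, Rel p 𝓕 S T := by
    intro T
    obtain ⟨n, c, h0, hn, _, hi⟩ := hconn S T
    have key : ∀ i : Fin (n + 1), Rel p 𝓕 S (c i) := by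
      intro i
      induction i using Fin.induction with
      | zero => rw [h0]; exact Rel.refl p 𝓕 _
      | succ i ih =>
        exact ih.trans (Rel.of_controls h𝓕 hc (hi i).1 (hi i).2)
    have := key (Fin.last n)
    rwa [hn] at this
  change hullOf p 𝓕 S = ⊤
  rw [eq_top_iff]
  intro g _
  obtain ⟨Q, hQ⟩ := exists_sylow_subgroupConjRight S g
  obtain ⟨_, h, hh, he⟩ := hall Q
  rw [hQ] at he
  -- `S^g = S^h`, so `g h⁻¹` normalizes `S`.
  have h1 : g * h⁻¹ ∈ Subgroup.normalizer ((S : Subgroup G) : Set G) := by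
    have h2 : subgroupConjRight (g * h⁻¹) (S : Subgroup G) = S := by
      rw [subgroupConjRight_mul, he, subgroupConjRight_self_inv]
    have h4 := (conj_map_eq_iff_mem_normalizer (S : Subgroup G) (g * h⁻¹)⁻¹).1 h2
    simpa using Subgroup.inv_mem _ h4
  have h3 : g = (g * h⁻¹) * h := by group
  rw [h3]
  exact Subgroup.mul_mem _ (Subgroup.mem_sup_right h1) hh

end Cfsg.Agent.S2955
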