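import Cfsg.Statements.S2957
import Cfsg.Agent.Lib.LocalEven2.SC
import Cfsg.Agent.S2940
-- import your own Cfsg.Agent.* helpers here

set_option autoImplicit false
open Cfsg

namespace Cfsg.Agent.S2957

open Cfsg.Agent.Lib.LocalEven2 Cfsg.Agent.Lib.LocalEven2.SC Cfsg.Agent.Lib.LocalEven Cfsg.Agent.Lib.Coprime

/-- Let p be a prime dividing the order of the finite group G, f an equivariant assignment of a set of subgroups f(P) of P to every p-subgroup P, each normalized by N_G(P), and S a Sylow p-subgroup. If G = G₁G₂ for subgroups G₁, G₂ both containing S and both regular for f (in each Gᵢ, the family of normalizers in Gᵢ of the members of f(P), P a Sylow p-subgroup of Gᵢ, controls Sylow p-intersections), then G itself is regular for f. -/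
theorem result {G : Type*} [Group G] [Finite G] (p : ℕ) [Fact p.Prime] (hdiv : p ∣ Nat.card G)
    (f : Subgroup G → Set (Subgroup G)) (hf : Cfsg.IsNormalizerFunctor p f) (S : Sylow p G)
    (G₁ G₂ : Subgroup G) (h₁ : (S : Subgroup G) ≤ G₁) (h₂ : (S : Subgroup G) ≤ G₂)
    (hprod : ∀ g : G, ∃ g₁ ∈ G₁, ∃ g₂ ∈ G₂, g = g₁ * g₂)
    (hr₁ : Cfsg.IsFunctorRegular p f G₁) (hr₂ : Cfsg.IsFunctorRegular p f G₂) :
    Cfsg.IsFunctorRegular p f ⊤ := by
  classical
  apply regular_top hf
  intro T₁ T₂ hne hbot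
  have hi₁ : ¬ p ∣ G₁.index := fun h => S.not_dvd_index (h.trans (Subgroup.index_dvd_of_le h₁))
  have hi₂ : ¬ p ∣ G₂.index := fun h => S.not_dvd_index (h.trans (Subgroup.index_dvd_of_le h₂))
  obtain ⟨a, ha⟩ := exists_cS_eq S T₁
  obtain ⟨b, hb⟩ := exists_cS_eq S T₂
  set g := b * a⁻¹ with hg
  have hT₂ : cS a⁻¹ T₂ = cS g S := by
    rw [hb, hg, cS_mul]
  have hT₁ : cS a⁻¹ T₁ = S := by
    rw [ha, cS_inv_cS]
  set D : Subgroup G := subgroupConjRight a⁻¹ ((T₁ : Subgroup G) ⊓ T₂) with hD
  have hD' : D = (S : Subgroup G) ⊓ subgroupConjRight g (S : Subgroup G) := by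
    rw [hD, subgroupConjRight_inf, ← coe_cS, ← coe_cS, hT₁, hT₂, coe_cS]
  have hD1 : D ≠ ⊥ := by
    intro e
    apply hbot
    have := subgroupConjRight_inv_self ((T₁ : Subgroup G) ⊓ T₂) a
    rw [← hD, e] at this
    rw [← this]
    ext y
    simp [mem_subgroupConjRight]
  obtain ⟨U, hU1, hU2⟩ := Cfsg.Agent.S2940.result S G₁ G₂ h₁ h₂ hprod g
  rw [← hD'] at hU1
  -- first part of the chain
  have hDS : D ≤ S := by rw [hD']; exact inf_le_left
  have hDSg : D ≤ subgroupConjRight g (S : Subgroup G) := by rw [hD']; exact inf_le_right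
  have hc1 : Conn (fam p f) D S U := by
    have hne1 : (S : Subgroup G) ⊓ U ≠ ⊥ := by
      intro e
      apply hD1
      rw [eq_bot_iff, ← e]
      exact le_inf hDS hU1
    exact Conn.mono (le_inf hDS hU1) (conn_of_regular hf hi₁ hr₁ S U h₁ (hU2.trans inf_le_left) hne1)
  -- second part
  have hU' : (cS g⁻¹ U : Subgroup G) ≤ G₂ := by
    rw [coe_cS]
    have := subgroupConjRight_mono (hU2.trans inf_le_right) g⁻¹
    rwa [subgroupConjRight_self_inv] at this
  have hc2 : Conn (fam p f) D U (cS g S) := by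
    have hne2 : ((cS g⁻¹ U : Sylow p G) : Subgroup G) ⊓ S ≠ ⊥ := by
      intro e
      apply hD1
      have h3 := subgroupConjRight_mono (show subgroupConjRight g⁻¹ D ≤ ((cS g⁻¹ U : Sylow p G) : Subgroup G) ⊓ S from ?_) g
      · rw [e] at h3
        rw [subgroupConjRight_inv_self] at h3
        rw [eq_bot_iff]
        refine h3.trans ?_
        intro y hy
        rw [mem_subgroupConjRight] at hy
        have := (Subgroup.mem_bot).1 hy
        have e2 : y = g⁻¹ * (g * y * g⁻¹) * g := by group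
        rw [e2, this]
        simp
      · rw [coe_cS]
        apply le_inf (subgroupConjRight_mono hU1 _)
        have := subgroupConjRight_mono hDSg g⁻¹
        rwa [subgroupConjRight_self_inv] at this
    have h4 := conn_of_regular hf hi₂ hr₂ (cS g⁻¹ U) S hU' h₂ hne2
    have h5 := conn_conj (fam_normal hf) g h4
    rw [cS_cS_inv] at h5
    refine Conn.mono ?_ h5
    rw [subgroupConjRight_inf, coe_cS, subgroupConjRight_inv_self]
    exact le_inf hU1 hDSg
  have hc3 := conn_conj (fam_normal hf) a (hc1.trans hc2)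
  have e1 : cS a S = T₁ := ha.symm
  have e2 : cS a (cS g S) = T₂ := by
    rw [← cS_mul, hg, inv_mul_cancel_right, ← hb]
  have e3 : subgroupConjRight a D = (T₁ : Subgroup G) ⊓ T₂ := by
    rw [hD, subgroupConjRight_inv_self]
  rwa [e1, e2, e3] at hc3

end Cfsg.Agent.S2957
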