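import Cfsg.Statements.S2958
-- import your own Cfsg.Agent.* helpers here

set_option autoImplicit false
open Cfsg

namespace Cfsg.Agent.S2958

theorem aux {G : Type*} [Group G] (X A B : Subgroup G)
    (hcover : ∀ g : G, X.map (MulAut.conj g).toMonoidHom ≤ A ∨ X.map (MulAut.conj g).toMonoidHom ≤ B) :
    ∀ g : G, X.map (MulAut.conj g).toMonoidHom ≤ A ∨
      X.map (MulAut.conj g).toMonoidHom ≤ ⨅ a : A, B.map (MulAut.conj (a : G)).toMonoidHom := by
  intro g
  by_cases h : X.map (MulAut.conj g).toMonoidHom ≤ A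
  · exact Or.inl h
  right
  refine le_iInf fun a => ?_
  rcases hcover ((a : G)⁻¹ * g) with h1 | h1
  · exfalso; apply h
    rintro _ ⟨x, hx, rfl⟩
    have h2 : (a : G)⁻¹ * (g * x * g⁻¹) * a ∈ A := h1 ⟨x, hx, by simp [mul_assoc]⟩
    have h3 := A.mul_mem (A.mul_mem a.2 h2) (A.inv_mem a.2)
    simpa [mul_assoc] using h3
  · rintro _ ⟨x, hx, rfl⟩
    exact ⟨(a : G)⁻¹ * (g * x * g⁻¹) * a, h1 ⟨x, hx, by simp [mul_assoc]⟩, by simp [mul_assoc]⟩

theorem aux_norm {G : Type*} [Group G] (A B : Subgroup G) :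
    A ≤ Subgroup.normalizer ((⨅ a : A, B.map (MulAut.conj (a : G)).toMonoidHom : Subgroup G) : Set G) := by
  intro c hc
  rw [Subgroup.mem_normalizer_iff]
  have key : ∀ c ∈ A, ∀ y, y ∈ (⨅ a : A, B.map (MulAut.conj (a : G)).toMonoidHom : Subgroup G) →
      c * y * c⁻¹ ∈ (⨅ a : A, B.map (MulAut.conj (a : G)).toMonoidHom : Subgroup G) := by
    intro c hc y hy
    rw [Subgroup.mem_iInf] at hy ⊢
    intro a
    obtain ⟨b, hb, hby⟩ := hy ⟨c⁻¹ * a, A.mul_mem (A.inv_mem hc) a.2⟩
    refine ⟨b, hb, ?_⟩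
    simp only [MulEquiv.coe_toMonoidHom, MulAut.conj_apply, mul_inv_rev, inv_inv] at hby ⊢
    rw [← hby]; group
  intro y
  constructor
  · exact key c hc y
  · intro h
    have := key c⁻¹ (A.inv_mem hc) _ h
    simpa [mul_assoc] using this

/-- Let X, A, B be subgroups of a group G such that G is generated by the conjugates of X and every conjugate of X is contained in A or in B. Then A = G or B = G. -/
theorem result {G : Type*} [Group G] (X A B : Subgroup G) (hgen : (⨆ g : G, X.map (MulAut.conj g).toMonoidHom) = ⊤) (hcover : ∀ g : G, X.map (MulAut.conj g).toMonoidHom ≤ A ∨ X.map (MulAut.conj g).toMonoidHom ≤ B) : A = ⊤ ∨ B = ⊤ := by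
  classical
  set B' : Subgroup G := ⨅ a : A, B.map (MulAut.conj (a : G)).toMonoidHom with hB'
  set A' : Subgroup G := ⨅ a : B', A.map (MulAut.conj (a : G)).toMonoidHom with hA'
  have hB'le : B' ≤ B := by
    refine (iInf_le _ (⟨1, A.one_mem⟩ : A)).trans ?_
    rintro _ ⟨x, hx, rfl⟩
    simpa using hx
  have hA'le : A' ≤ A := by
    refine (iInf_le _ (⟨1, B'.one_mem⟩ : B')).trans ?_
    rintro _ ⟨x, hx, rfl⟩
    simpa using hx
  have c1 : ∀ g : G, X.map (MulAut.conj g).toMonoidHom ≤ A ∨ X.map (MulAut.conj g).toMonoidHom ≤ B' :=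
    aux X A B hcover
  have c2 : ∀ g : G, X.map (MulAut.conj g).toMonoidHom ≤ A' ∨ X.map (MulAut.conj g).toMonoidHom ≤ B' := by
    intro g
    rcases aux X B' A (fun g => (c1 g).symm) g with h | h
    · exact Or.inr h
    · exact Or.inl h
  have n1 : A' ≤ Subgroup.normalizer (B' : Set G) := hA'le.trans (aux_norm A B)
  have n2 : B' ≤ Subgroup.normalizer (A' : Set G) := aux_norm B' A
  have n3 : A' ≤ Subgroup.normalizer (A' : Set G) := Subgroup.le_normalizer
  have n4 : B' ≤ Subgroup.normalizer (B' : Set G) := Subgroup.le_normalizer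
  have htop : A' ⊔ B' = ⊤ := by
    rw [eq_top_iff, ← hgen]
    refine iSup_le fun g => ?_
    rcases c2 g with h | h
    · exact h.trans le_sup_left
    · exact h.trans le_sup_right
  have hnA : Subgroup.normalizer (A' : Set G) = ⊤ := by
    rw [eq_top_iff, ← htop]; exact sup_le n3 n2
  have hnB : Subgroup.normalizer (B' : Set G) = ⊤ := by
    rw [eq_top_iff, ← htop]; exact sup_le n1 n4
  have hA'n : A'.Normal := Subgroup.normalizer_eq_top_iff.mp hnA
  have hB'n : B'.Normal := Subgroup.normalizer_eq_top_iff.mp hnB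
  have hX : X ≤ A' ∨ X ≤ B' := by
    have h1 : X.map (MulAut.conj (1 : G)).toMonoidHom = X := by
      ext y
      simp
    have := c2 1
    rwa [h1] at this
  rcases hX with h | h
  · left
    rw [eq_top_iff, ← hgen]
    refine iSup_le fun g => ?_
    rintro _ ⟨x, hx, rfl⟩
    exact hA'le (hA'n.conj_mem x (h hx) g)
  · right
    rw [eq_top_iff, ← hgen]
    refine iSup_le fun g => ?_
    rintro _ ⟨x, hx, rfl⟩
    exact hB'le (hB'n.conj_mem x (h hx) g)

end Cfsg.Agent.S2958
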