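import Cfsg.Statements.S2960
import Cfsg.Agent.Lib.LocalEven2.CharP
-- import your own Cfsg.Agent.* helpers here

set_option autoImplicit false
open Cfsg

namespace Cfsg.Agent.S2960

/-- Let G be a finite group of characteristic p (C_G(O_p(G)) ≤ O_p(G)), p prime, T a Sylow p-subgroup of G and Q a normal subgroup of T with C_T(Q) ≤ Q. Then C_G(Q) ≤ Q. -/
theorem result {G : Type*} [Group G] [Finite G] {p : ℕ} [Fact p.Prime] (hG : Subgroup.centralizer (Cfsg.pCore p G : Set G) ≤ Cfsg.pCore p G) (T : Sylow p G) (Q : Subgroup G) (hQT : Q ≤ (T : Subgroup G)) (hQn : (T : Subgroup G) ≤ Subgroup.normalizer (Q : Set G)) (hC : (T : Subgroup G) ⊓ Subgroup.centralizer (Q : Set G) ≤ Q) : Subgroup.centralizer (Q : Set G) ≤ Q := by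
  open Cfsg.Agent.Lib.LocalEven2 Cfsg.Agent.Lib.Basic Cfsg.Agent.Lib.LocalEven in
  have hPT : pCore p G ≤ (T : Subgroup G) := pCore_le_sylow T
  set D := Subgroup.centralizer (Q : Set G) with hD
  have hconj : ∀ t ∈ (T : Subgroup G), ∀ d ∈ D, t * d * t⁻¹ ∈ D := by
    intro t ht d hd
    rw [hD, Subgroup.mem_centralizer_iff] at hd ⊢
    intro q hq
    have h1 : t⁻¹ * q * t⁻¹⁻¹ ∈ Q := (Subgroup.mem_normalizer_iff.1 (hQn (T.inv_mem ht)) q).1 hq
    have h2 := hd _ h1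
    have e1 : q = t * (t⁻¹ * q * t⁻¹⁻¹) * t⁻¹ := by group
    calc q * (t * d * t⁻¹) = t * ((t⁻¹ * q * t⁻¹⁻¹) * d) * t⁻¹ := by group
      _ = t * (d * (t⁻¹ * q * t⁻¹⁻¹)) * t⁻¹ := by rw [h2]
      _ = t * d * t⁻¹ * q := by group
  have hTD : (T : Subgroup G) ≤ Subgroup.normalizer (D : Set G) := by
    intro t ht
    rw [Subgroup.mem_normalizer_iff]
    intro d
    refine ⟨hconj t ht d, fun h => ?_⟩
    have := hconj t⁻¹ (T.inv_mem ht) _ h
    simpa [mul_assoc] using this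
  have hchar := charP_of_pCore_normalizes hG D (hPT.trans hTD)
  -- `T` normalizes `O_p(D)`.
  have hP0 : IsPGroup p (pCoreOf p D) := pCoreOf_isPGroup D
  have hT0 : (T : Subgroup G) ≤ Subgroup.normalizer ((pCoreOf p D : Subgroup G) : Set G) := by
    exact hTD.trans (normalizer_le_normalizer_pCoreOf D)
  have hP0T : pCoreOf p D ≤ (T : Subgroup G) := le_sylow_of_le_normalizer hP0 T hT0
  have hP0Q : pCoreOf p D ≤ Q := by
    intro a ha
    exact hC ⟨hP0T ha, pCoreOf_le D ha⟩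
  intro x hx
  have hx1 : (⟨x, hx⟩ : D) ∈ Subgroup.centralizer (pCore p D : Set D) := by
    rw [Subgroup.mem_centralizer_iff]
    intro a ha
    apply Subtype.ext
    have h1 : (a : G) ∈ Q := hP0Q ⟨a, ha, rfl⟩
    exact ((Subgroup.mem_centralizer_iff.1 hx) _ h1)
  exact hP0Q ⟨_, hchar hx1, rfl⟩

end Cfsg.Agent.S2960
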