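import Cfsg.Statements.S2961
import Cfsg.Agent.Lib.LocalEven2.CharP
import Cfsg.Agent.S2960
-- import your own Cfsg.Agent.* helpers here

set_option autoImplicit false
open Cfsg

namespace Cfsg.Agent.S2961

open Cfsg Cfsg.Agent.Lib.LocalEven2 Cfsg.Agent.Lib.Basic Cfsg.Agent.Lib.LocalEven

theorem le_normalizer_map_subtype {G : Type*} [Group G] (L : Subgroup G) (N : Subgroup L) [hN : N.Normal] :
    L ≤ Subgroup.normalizer ((N.map L.subtype : Subgroup G) : Set G) := by
  intro l hl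
  rw [Subgroup.mem_normalizer_iff]
  intro x
  constructor
  · rintro ⟨y, hy, rfl⟩
    exact ⟨⟨l, hl⟩ * y * ⟨l, hl⟩⁻¹, hN.conj_mem y hy _, by simp⟩
  · rintro ⟨y, hy, hyx⟩
    refine ⟨⟨l, hl⟩⁻¹ * y * ⟨l, hl⟩, ?_, ?_⟩
    · have := hN.conj_mem y hy ⟨l, hl⟩⁻¹
      simpa using this
    · have : (y : G) = l * x * l⁻¹ := hyx
      simp [this]
      group

theorem mem_normalizer_inf {G : Type*} [Group G] {U V : Subgroup G} {t : G}
    (hU : t ∈ Subgroup.normalizer (U : Set G)) (hV : t ∈ Subgroup.normalizer (V : Set G)) :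
    t ∈ Subgroup.normalizer ((U ⊓ V : Subgroup G) : Set G) := by
  rw [Subgroup.mem_normalizer_iff] at *
  intro x
  constructor
  · rintro ⟨h1, h2⟩
    exact ⟨(hU x).1 h1, (hV x).1 h2⟩
  · rintro ⟨h1, h2⟩
    exact ⟨(hU x).2 h1, (hV x).2 h2⟩

theorem mem_normalizer_normalizer {G : Type*} [Group G] {A : Subgroup G} {t : G}
    (hA : t ∈ Subgroup.normalizer (A : Set G)) :
    t ∈ Subgroup.normalizer ((Subgroup.normalizer (A : Set G) : Subgroup G) : Set G) := by
  rw [Subgroup.mem_normalizer_iff]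
  intro x
  constructor
  · intro hx
    exact Subgroup.mul_mem _ (Subgroup.mul_mem _ hA hx) (Subgroup.inv_mem _ hA)
  · intro hx
    have := Subgroup.mul_mem _ (Subgroup.mul_mem _ (Subgroup.inv_mem _ hA) hx) hA
    simpa [mul_assoc] using this

/-- The subgroup of `H` acting trivially on `A` and on `P/A`. -/
def stabChain {G : Type*} [Group G] (H P A : Subgroup G) (hHA : H ≤ Subgroup.normalizer (A : Set G)) : Subgroup G where
  carrier := {h | h ∈ H ∧ (∀ a ∈ A, Commute h a) ∧ ∀ b ∈ P, b * h * b⁻¹ * h⁻¹ ∈ A}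
  one_mem' := ⟨H.one_mem, fun a _ => Commute.one_left a, fun b _ => by simp [A.one_mem]⟩
  mul_mem' := by
    rintro h k ⟨hH, hA, hP⟩ ⟨kH, kA, kP⟩
    refine ⟨H.mul_mem hH kH, fun a ha => (hA a ha).mul_left (kA a ha), fun b hb => ?_⟩
    have e : b * (h * k) * b⁻¹ * (h * k)⁻¹ = (b * h * b⁻¹ * h⁻¹) * (h * (b * k * b⁻¹ * k⁻¹) * h⁻¹) := by
      group
    rw [e]
    exact A.mul_mem (hP b hb) ((Subgroup.mem_normalizer_iff.1 (hHA hH) _).1 (kP b hb))
  inv_mem' := by
    rintro h ⟨hH, hA, hP⟩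
    refine ⟨H.inv_mem hH, fun a ha => (hA a ha).inv_left, fun b hb => ?_⟩
    have e : b * h⁻¹ * b⁻¹ * h⁻¹⁻¹ = h⁻¹ * (b * h * b⁻¹ * h⁻¹)⁻¹ * h⁻¹⁻¹ := by group
    rw [e]
    exact (Subgroup.mem_normalizer_iff.1 (hHA (H.inv_mem hH)) _).1 (A.inv_mem (hP b hb))

theorem stabChain_le_pCoreOf {G : Type*} [Group G] [Finite G] {p : ℕ} [Fact p.Prime] (H A : Subgroup G)
    (hH : Subgroup.centralizer (pCore p ↥H : Set ↥H) ≤ pCore p ↥H)
    (hHA : H ≤ Subgroup.normalizer (A : Set G)) (hAP : A ≤ pCoreOf p H) :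
    stabChain H (pCoreOf p H) A hHA ≤ pCoreOf p H := by
  set F := stabChain H (pCoreOf p H) A hHA with hF
  have hFH : F ≤ H := fun h hh => hh.1
  have hP : IsPGroup p (pCoreOf p H) := pCoreOf_isPGroup H
  have hFp : IsPGroup p F := by
    apply isPGroup_subgroup_of_forall_coprime
    intro g hg hcop
    have h1 := coprime_commute_of_commutator_mem hcop hP hAP hg.2.1 hg.2.2
    have h2 : (⟨g, hg.1⟩ : H) ∈ Subgroup.centralizer (pCore p ↥H : Set ↥H) := by
      rw [Subgroup.mem_centralizer_iff]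
      intro z hz
      apply Subtype.ext
      exact (h1 z ⟨z, hz, rfl⟩).symm
    have h3 := hH h2
    have h4 : g ∈ pCoreOf p H := ⟨_, h3, rfl⟩
    exact eq_one_of_coprime_of_pPower (orderOf_of_mem_isPGroup hP h4) hcop
  have hFn : H ≤ Subgroup.normalizer (F : Set G) := by
    have hPn := le_normalizer_pCoreOf (p := p) H
    have key : ∀ g ∈ H, ∀ h ∈ F, g * h * g⁻¹ ∈ F := by
      rintro g hg h ⟨hH', hA', hP'⟩
      refine ⟨H.mul_mem (H.mul_mem hg hH') (H.inv_mem hg), fun a ha => ?_, fun b hb => ?_⟩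
      · have h1 : g⁻¹ * a * g⁻¹⁻¹ ∈ A := (Subgroup.mem_normalizer_iff.1 (hHA (H.inv_mem hg)) a).1 ha
        have h2 := (hA' _ h1).eq
        have e : Commute (g * h * g⁻¹) (g * (g⁻¹ * a * g⁻¹⁻¹) * g⁻¹) := by
          show _ = _
          calc g * h * g⁻¹ * (g * (g⁻¹ * a * g⁻¹⁻¹) * g⁻¹) = g * (h * (g⁻¹ * a * g⁻¹⁻¹)) * g⁻¹ := by group
            _ = g * ((g⁻¹ * a * g⁻¹⁻¹) * h) * g⁻¹ := by rw [h2]
            _ = _ := by group
        have e2 : g * (g⁻¹ * a * g⁻¹⁻¹) * g⁻¹ = a := by group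
        rwa [e2] at e
      · have h1 : g⁻¹ * b * g⁻¹⁻¹ ∈ pCoreOf p H := (Subgroup.mem_normalizer_iff.1 (hPn (H.inv_mem hg)) b).1 hb
        have h2 := hP' _ h1
        have h3 := (Subgroup.mem_normalizer_iff.1 (hHA hg) _).1 h2
        have e : b * (g * h * g⁻¹) * b⁻¹ * (g * h * g⁻¹)⁻¹ =
            g * ((g⁻¹ * b * g⁻¹⁻¹) * h * (g⁻¹ * b * g⁻¹⁻¹)⁻¹ * h⁻¹) * g⁻¹ := by group
        rw [e]
        exact h3
    intro g hg
    rw [Subgroup.mem_normalizer_iff]
    intro h
    refine ⟨key g hg h, fun hh => ?_⟩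
    have := key g⁻¹ (H.inv_mem hg) _ hh
    simpa [mul_assoc] using this
  intro h hh
  exact ⟨⟨h, hFH hh⟩, mem_pCore_subgroup hFH hFn hFp hh, rfl⟩

theorem key {G : Type*} [Group G] [Finite G] {p : ℕ} [Fact p.Prime]
    (hG : Subgroup.centralizer (pCore p G : Set G) ≤ pCore p G) (T : Sylow p G) (Q : Subgroup G)
    (hQT : Q ≤ (T : Subgroup G)) (hQn : (T : Subgroup G) ≤ Subgroup.normalizer (Q : Set G))
    (hC : (T : Subgroup G) ⊓ Subgroup.centralizer (Q : Set G) ≤ Q) :
    ∀ (n : ℕ) (H : Subgroup G), Nat.card H = n → (T : Subgroup G) ≤ Subgroup.normalizer (H : Set G) →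
      Q ≤ H → Subgroup.centralizer (pCore p ↥H : Set ↥H) ≤ pCore p ↥H →
      ∀ L : Subgroup G, Q ≤ L → L ≤ H →
        Subgroup.centralizer (pCore p ↥L : Set ↥L) ≤ pCore p ↥L := by
  intro n
  induction n using Nat.strong_induction_on with
  | _ n IH =>
  intro H hn hTH hQH hH L hQL hLH
  apply centralizer_pCore_le_of_forall
  intro x hx hcx
  have hx' : (orderOf (x : G)).Coprime p := by rw [Subgroup.orderOf_coe]; exact hx
  have hCQ := Cfsg.Agent.S2960.result hG T Q hQT hQn hC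
  have hP : IsPGroup p (pCoreOf p H) := pCoreOf_isPGroup H
  have hHP := le_normalizer_pCoreOf (p := p) H
  have hTP : (T : Subgroup G) ≤ Subgroup.normalizer ((pCoreOf p H : Subgroup G) : Set G) :=
    hTH.trans (normalizer_le_normalizer_pCoreOf H)
  have hPT : pCoreOf p H ≤ (T : Subgroup G) := le_sylow_of_le_normalizer hP T hTP
  have hPH : pCoreOf p H ≤ H := pCoreOf_le H
  set A : Subgroup G := Q ⊓ pCoreOf p H with hA
  have hAP : A ≤ pCoreOf p H := inf_le_right
  have hAL : A ≤ L ⊓ pCoreOf p H := fun a ha => ⟨hQL ha.1, ha.2⟩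
  have hLnorm : L ≤ Subgroup.normalizer ((L ⊓ pCoreOf p H : Subgroup G) : Set G) := by
    intro l hl
    apply mem_normalizer_inf (Subgroup.le_normalizer hl) (hHP (hLH hl))
  have hLPcomm : ∀ a ∈ L ⊓ pCoreOf p H, Commute (x : G) a := fun a ha =>
    commute_of_mem_centralizer_pCore inf_le_left hLnorm (hP.to_le inf_le_right) hcx ha
  have hxA : ∀ a ∈ A, Commute (x : G) a := fun a ha => hLPcomm a (hAL ha)
  by_cases hY : H ≤ Subgroup.normalizer (A : Set G)
  · -- `A` is normal in `H`.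
    have hqx : ∀ q ∈ Q, Commute q (x : G) := by
      intro q hq
      have hqH := hQH hq
      set w := q * (x : G) * q⁻¹ * (x : G)⁻¹ with hw
      have hxH : (x : G) ∈ H := hLH x.2
      have hwF : w ∈ stabChain H (pCoreOf p H) A hY := by
        refine ⟨?_, fun a ha => ?_, fun b hb => ?_⟩
        · exact H.mul_mem (H.mul_mem (H.mul_mem hqH hxH) (H.inv_mem hqH)) (H.inv_mem hxH)
        · have h1 : q⁻¹ * a * q⁻¹⁻¹ ∈ A := (Subgroup.mem_normalizer_iff.1 (hY (H.inv_mem hqH)) a).1 ha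
          have h2 := (hxA _ h1).eq
          have h3 := (hxA a ha).eq
          show w * a = a * w
          have e1 : (x : G)⁻¹ * a = a * (x : G)⁻¹ := by
            have : a = (x : G)⁻¹ * (x * a) := by group
            rw [h3] at this
            calc (x : G)⁻¹ * a = (x : G)⁻¹ * (a * x * (x : G)⁻¹) := by group
              _ = ((x : G)⁻¹ * (a * x)) * (x : G)⁻¹ := by group
              _ = a * (x : G)⁻¹ := by rw [← this]
          calc w * a = q * (x : G) * q⁻¹ * ((x : G)⁻¹ * a) := by rw [hw]; group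
            _ = q * ((x : G) * (q⁻¹ * a * q⁻¹⁻¹)) * q⁻¹ * (x : G)⁻¹ := by rw [e1]; group
            _ = q * ((q⁻¹ * a * q⁻¹⁻¹) * (x : G)) * q⁻¹ * (x : G)⁻¹ := by rw [h2]
            _ = a * w := by rw [hw]; group
        · -- trivial on `P/A`.
          have hqb : ∀ b ∈ pCoreOf p H, b * q * b⁻¹ * q⁻¹ ∈ A := by
            intro b hb
            refine ⟨?_, ?_⟩
            · have h1 : b * q * b⁻¹ ∈ Q := (Subgroup.mem_normalizer_iff.1 (hQn (hPT hb)) q).1 hq
              exact Q.mul_mem h1 (Q.inv_mem hq)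
            · have h1 : q * b⁻¹ * q⁻¹ ∈ pCoreOf p H :=
                (Subgroup.mem_normalizer_iff.1 (hHP hqH) _).1 ((pCoreOf p H).inv_mem hb)
              have e : b * q * b⁻¹ * q⁻¹ = b * (q * b⁻¹ * q⁻¹) := by group
              rw [e]
              exact (pCoreOf p H).mul_mem hb h1
          -- b * w * b⁻¹ * w⁻¹
          have hb1 : (x : G)⁻¹ * b * (x : G)⁻¹⁻¹ ∈ pCoreOf p H :=
            (Subgroup.mem_normalizer_iff.1 (hHP (H.inv_mem hxH)) _).1 hb
          have h1 := hqb b hb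
          have h2 := hqb _ hb1
          set k2 := ((x : G)⁻¹ * b * (x : G)⁻¹⁻¹) * q * ((x : G)⁻¹ * b * (x : G)⁻¹⁻¹)⁻¹ * q⁻¹ with hk2
          have h3 : q⁻¹ * k2⁻¹ * q⁻¹⁻¹ ∈ A :=
            (Subgroup.mem_normalizer_iff.1 (hY (H.inv_mem hqH)) _).1 (A.inv_mem h2)
          have h4 : (x : G) * (q⁻¹ * k2⁻¹ * q⁻¹⁻¹) * (x : G)⁻¹ ∈ A :=
            (Subgroup.mem_normalizer_iff.1 (hY hxH) _).1 h3
          have h5 : q * ((x : G) * (q⁻¹ * k2⁻¹ * q⁻¹⁻¹) * (x : G)⁻¹) * q⁻¹ ∈ A :=
            (Subgroup.mem_normalizer_iff.1 (hY hqH) _).1 h4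
          have e : b * w * b⁻¹ * w⁻¹ = (b * q * b⁻¹ * q⁻¹) *
              (q * ((x : G) * (q⁻¹ * k2⁻¹ * q⁻¹⁻¹) * (x : G)⁻¹) * q⁻¹) := by
            rw [hw, hk2]; group
          rw [e]
          exact A.mul_mem h1 h5
      have hwP : w ∈ pCoreOf p H := stabChain_le_pCoreOf H A hH hY hAP hwF
      have hwL : w ∈ L := by
        have h1 := hQL hq
        exact L.mul_mem (L.mul_mem (L.mul_mem h1 x.2) (L.inv_mem h1)) (L.inv_mem x.2)
      have hwc : Commute (x : G) w := hLPcomm w ⟨hwL, hwP⟩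
      -- `q x q⁻¹ = w x`.
      have h1 : q * (x : G) * q⁻¹ = w * x := by rw [hw]; group
      have h2 : (q * (x : G) * q⁻¹) ^ (orderOf (x : G)) = 1 := by
        rw [conj_pow, pow_orderOf_eq_one]; simp
      rw [h1, hwc.symm.mul_pow, pow_orderOf_eq_one, mul_one] at h2
      have h3 : w = 1 := eq_one_of_pow_coprime (orderOf_of_mem_isPGroup hP hwP) hx' h2
      rw [h3, one_mul] at h1
      show q * x = x * q
      calc q * (x : G) = (q * (x : G) * q⁻¹) * q := by group
        _ = x * q := by rw [h1]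
    have hxQ : (x : G) ∈ Q := by
      apply hCQ
      rw [Subgroup.mem_centralizer_iff]
      exact fun q hq => hqx q hq
    apply Subtype.ext
    exact eq_one_of_coprime_of_pPower (orderOf_of_mem_isPGroup T.isPGroup' (hQT hxQ)) hx'
  · -- `Y = N_H(A) < H`.
    set Y : Subgroup G := H ⊓ Subgroup.normalizer (A : Set G) with hYdef
    have hYlt : Y < H := by
      refine lt_of_le_of_ne inf_le_left ?_
      intro h
      exact hY (h ▸ inf_le_right)
    have hcard : Nat.card Y < n := by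
      rw [← hn]
      change Nat.card ((Y : Set G)) < Nat.card ((H : Set G))
      rw [Nat.card_coe_set_eq, Nat.card_coe_set_eq]
      exact Set.ncard_lt_ncard (SetLike.coe_ssubset_coe.mpr hYlt) (Set.toFinite _)
    have hTA : (T : Subgroup G) ≤ Subgroup.normalizer (A : Set G) := fun t ht =>
      mem_normalizer_inf (hQn ht) (hTP ht)
    have hTY : (T : Subgroup G) ≤ Subgroup.normalizer (Y : Set G) := fun t ht =>
      mem_normalizer_inf (hTH ht) (mem_normalizer_normalizer (hTA ht))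
    have hQY : Q ≤ Y := fun q hq => ⟨hQH hq, hTA (hQT hq)⟩
    have hPY : pCoreOf p H ≤ Y := fun b hb => ⟨hPH hb, hTA (hPT hb)⟩
    have hYchar : Subgroup.centralizer (pCore p ↥Y : Set ↥Y) ≤ pCore p ↥Y := by
      have h1 := charP_of_pCore_normalizes hH (Y.subgroupOf H) (by
        intro b hb
        have hbY : (b : G) ∈ Y := hPY ⟨b, hb, rfl⟩
        have hb' : b ∈ Y.subgroupOf H := hbY
        exact Subgroup.le_normalizer hb')
      exact charP_of_equiv (Subgroup.subgroupOfEquivOfLe (inf_le_left : Y ≤ H)) h1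
    set L' : Subgroup G := L ⊓ Y with hL'
    have hL'char := IH _ hcard Y rfl hTY hQY hYchar L' (le_inf hQL hQY) inf_le_right
    set D : Subgroup G := (Subgroup.centralizer (pCore p ↥L : Set ↥L)).map L.subtype with hD
    have hLD : L ≤ Subgroup.normalizer (D : Set G) := le_normalizer_map_subtype L _
    have hDL' : D ≤ L' := by
      rintro _ ⟨d, hd, rfl⟩
      refine ⟨d.2, hLH d.2, ?_⟩
      -- `d` centralizes `A`.
      show (d : G) ∈ Subgroup.normalizer (A : Set G)
      rw [Subgroup.mem_normalizer_iff]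
      intro a
      have hdA : ∀ a ∈ A, Commute (d : G) a := fun a ha =>
        commute_of_mem_centralizer_pCore inf_le_left hLnorm (hP.to_le inf_le_right) hd (hAL ha)
      constructor
      · intro ha
        have := (hdA a ha).eq
        have e : (d : G) * a * (d : G)⁻¹ = a := by rw [this]; group
        rw [e]; exact ha
      · intro ha
        have h1 := hdA ((d : G) * a * (d : G)⁻¹) ha
        have h2 := h1.eq
        have e : (d : G) * a * (d : G)⁻¹ = a := by
          have : (d : G) * ((d : G) * a * (d : G)⁻¹) = ((d : G) * a * (d : G)⁻¹) * d := h2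
          have h3 : (d : G) * a = a * (d : G) := by
            have h4 : (d : G) * ((d : G) * a * (d : G)⁻¹) * (d : G) = ((d : G) * a * (d : G)⁻¹) * d * d := by rw [this]
            have h5 : (d : G) * ((d : G) * a) = (d : G) * (a * d) := by
              calc (d : G) * ((d : G) * a) = (d : G) * ((d : G) * a * (d : G)⁻¹) * (d : G) := by group
                _ = ((d : G) * a * (d : G)⁻¹) * d * d := h4
                _ = (d : G) * (a * d) := by group
            exact mul_left_cancel h5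
          rw [h3]; group
        rw [e] at ha
        exact ha
    have hxD : (x : G) ∈ D := ⟨x, hcx, rfl⟩
    set R : Subgroup G := pCoreOf p L' with hR
    have hRp : IsPGroup p R := pCoreOf_isPGroup L'
    have hL'R : L' ≤ Subgroup.normalizer (R : Set G) := le_normalizer_pCoreOf L'
    have hDcore : pCoreOf p D ≤ L := (pCoreOf_le D).trans (hDL'.trans inf_le_left)
    have hLDcore : L ≤ Subgroup.normalizer ((pCoreOf p D : Subgroup G) : Set G) :=
      hLD.trans (normalizer_le_normalizer_pCoreOf D)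
    have hxDc : ∀ a ∈ pCoreOf p D, Commute (x : G) a := fun a ha =>
      commute_of_mem_centralizer_pCore hDcore hLDcore (pCoreOf_isPGroup D) hcx ha
    have hcomm : ∀ r ∈ R, Commute (x : G) r := by
      apply coprime_commute_of_commutator_mem hx' hRp (A := R ⊓ D) inf_le_left
      · intro a ha
        apply hxDc
        have hn : D ≤ Subgroup.normalizer ((R ⊓ D : Subgroup G) : Set G) := fun d hd =>
          mem_normalizer_inf (hL'R (hDL' hd)) (Subgroup.le_normalizer hd)
        exact ⟨⟨a, ha.2⟩, mem_pCore_subgroup inf_le_right hn (hRp.to_le inf_le_left) ha, rfl⟩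
      · intro b hb
        have hbL' : b ∈ L' := pCoreOf_le L' hb
        refine ⟨?_, ?_⟩
        · have e : b * (x : G) * b⁻¹ * (x : G)⁻¹ = b * ((x : G) * b⁻¹ * (x : G)⁻¹) := by group
          rw [e]
          exact R.mul_mem hb ((Subgroup.mem_normalizer_iff.1 (hL'R (hDL' hxD)) _).1 (R.inv_mem hb))
        · have h1 : b * (x : G) * b⁻¹ ∈ D :=
            (Subgroup.mem_normalizer_iff.1 (hLD hbL'.1) _).1 hxD
          exact D.mul_mem h1 (D.inv_mem hxD)
    have hx2 : (⟨x, hDL' hxD⟩ : L') ∈ Subgroup.centralizer (pCore p ↥L' : Set ↥L') := by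
      rw [Subgroup.mem_centralizer_iff]
      intro z hz
      apply Subtype.ext
      exact (hcomm z ⟨z, hz, rfl⟩).symm
    have hx3 := hL'char hx2
    have hx4 : (x : G) ∈ R := ⟨_, hx3, rfl⟩
    apply Subtype.ext
    exact eq_one_of_coprime_of_pPower (orderOf_of_mem_isPGroup hRp hx4) hx'

/-- Let G be a finite group of characteristic p (C_G(O_p(G)) ≤ O_p(G)), p prime, T a Sylow p-subgroup of G and Q a normal subgroup of T with C_T(Q) ≤ Q. Then every subgroup L of G containing Q has characteristic p: C_L(O_p(L)) ≤ O_p(L). -/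
theorem result {G : Type*} [Group G] [Finite G] {p : ℕ} [Fact p.Prime] (hG : Subgroup.centralizer (Cfsg.pCore p G : Set G) ≤ Cfsg.pCore p G) (T : Sylow p G) (Q : Subgroup G) (hQT : Q ≤ (T : Subgroup G)) (hQn : (T : Subgroup G) ≤ Subgroup.normalizer (Q : Set G)) (hC : (T : Subgroup G) ⊓ Subgroup.centralizer (Q : Set G) ≤ Q) (L : Subgroup G) (hQL : Q ≤ L) : Subgroup.centralizer (Cfsg.pCore p ↥L : Set ↥L) ≤ Cfsg.pCore p ↥L := by
  have htop : Subgroup.centralizer (pCore p ↥(⊤ : Subgroup G) : Set ↥(⊤ : Subgroup G)) ≤ pCore p ↥(⊤ : Subgroup G) :=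
    charP_of_equiv (Subgroup.topEquiv (G := G)).symm hG
  exact key hG T Q hQT hQn hC _ ⊤ rfl (by rw [Subgroup.normalizer_eq_top_iff.2 inferInstance]; exact le_top) le_top htop L hQL le_top

end Cfsg.Agent.S2961
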