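import Cfsg.Statements.S2963
import Cfsg.Prelude.Def_LocalEven
-- import your own Cfsg.Agent.* helpers here

set_option autoImplicit false
open Cfsg

namespace Cfsg.Agent.S2963

open Equiv Equiv.Perm

/-- The setwise stabilizer. -/
def setStab {α : Type*} (O : Set α) : Subgroup (Perm α) where
  carrier := {g | ∀ a, g a ∈ O ↔ a ∈ O}
  one_mem' := by intro a; simp
  mul_mem' := by
    intro g k hg hk a
    have h1 := hg (k a)
    have h2 := hk a
    simpa using h1.trans h2
  inv_mem' := by
    intro g hg a
    have h1 := hg (g⁻¹ a)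
    simpa using h1.symm

/-- Let n be odd. If the symmetric group of degree n is a minimal parabolic group for the prime 2, that is, a Sylow 2-subgroup is not normal and lies in exactly one maximal subgroup, then n = 2^m + 1 for some natural number m. -/
theorem result (n : ℕ) (hn : Odd n) (h : Cfsg.IsPMinimal 2 (Equiv.Perm (Fin n))) : ∃ m : ℕ, n = 2 ^ m + 1 := by
  classical
  obtain ⟨S⟩ : Nonempty (Sylow 2 (Perm (Fin n))) := inferInstance
  obtain ⟨hnn, M, ⟨hMc, hSM⟩, huniq⟩ := h S
  have hT : IsPGroup 2 (S : Subgroup (Perm (Fin n))) := S.isPGroup'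
  -- a fixed point
  have hmod := hT.card_modEq_card_fixedPoints (Fin n)
  have hfix : (MulAction.fixedPoints (S : Subgroup (Perm (Fin n))) (Fin n)).Nonempty := by
    by_contra hemp
    rw [Set.not_nonempty_iff_eq_empty] at hemp
    have h0 : Nat.card (MulAction.fixedPoints (S : Subgroup (Perm (Fin n))) (Fin n)) = 0 := by
      rw [hemp]; simp
    rw [h0, Nat.card_eq_fintype_card, Fintype.card_fin] at hmod
    have h3 : n % 2 = 0 := by simpa [Nat.ModEq] using hmod
    rcases hn with ⟨k, rfl⟩
    omega
  obtain ⟨x, hx⟩ := hfix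
  have hxfix : ∀ t ∈ (S : Subgroup (Perm (Fin n))), t x = x := fun t ht =>
    hx ⟨t, ht⟩
  -- another point
  obtain ⟨y, hy⟩ : ∃ y, y ≠ x := by
    by_contra hall
    push Not at hall
    apply hnn
    have : Subsingleton (Fin n) := ⟨fun a b => (hall a).trans (hall b).symm⟩
    constructor
    intro t ht g
    have : g * t * g⁻¹ = t := Subsingleton.elim _ _
    rwa [this]
  set O : Set (Fin n) := MulAction.orbit (S : Subgroup (Perm (Fin n))) y with hO
  have hxO : x ∉ O := by
    rintro ⟨⟨t, ht⟩, e⟩
    have e' : t y = x := e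
    apply hy
    have h2 := hxfix t ht
    exact t.injective (e'.trans h2.symm)
  have hyO : y ∈ O := MulAction.mem_orbit_self y
  by_cases hall : ∀ z, z ≠ x → z ∈ O
  · obtain ⟨m, hm⟩ := hT.card_orbit y
    refine ⟨m, ?_⟩
    have hOx : O = {x}ᶜ := by
      ext z
      simp only [Set.mem_compl_iff, Set.mem_singleton_iff]
      constructor
      · rintro hz rfl
        exact hxO hz
      · exact hall z
    have h1 : Nat.card O = Set.ncard O := rfl
    have h2 : Set.ncard O = Nat.card (Fin n) - 1 := by
      rw [hOx, Set.ncard_compl, Set.ncard_singleton]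
    have h3 : Nat.card O = 2 ^ m := hm
    have h4 : Nat.card (Fin n) = n := by simp
    have hnpos : 0 < n := x.pos
    omega
  · exfalso
    push Not at hall
    obtain ⟨z, hzx, hzO⟩ := hall
    have hM₁T : (S : Subgroup (Perm (Fin n))) ≤ MulAction.stabilizer (Perm (Fin n)) x := by
      intro t ht
      exact hxfix t ht
    have hM₂T : (S : Subgroup (Perm (Fin n))) ≤ setStab O := by
      intro t ht a
      constructor
      · rintro ⟨⟨u, hu⟩, e⟩
        refine ⟨⟨t⁻¹ * u, Subgroup.mul_mem _ (Subgroup.inv_mem _ ht) hu⟩, ?_⟩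
        have e' : u y = t a := e
        show (t⁻¹ * u) y = a
        simp [e']
      · rintro ⟨⟨u, hu⟩, e⟩
        refine ⟨⟨t * u, Subgroup.mul_mem _ ht hu⟩, ?_⟩
        have e' : u y = a := e
        show (t * u) y = t a
        simp [e']
    have hM₁ne : MulAction.stabilizer (Perm (Fin n)) x ≠ ⊤ := by
      intro e
      have h1 : swap x y ∈ MulAction.stabilizer (Perm (Fin n)) x := by rw [e]; trivial
      have h2 : swap x y x = x := h1
      rw [swap_apply_left] at h2
      exact hy h2
    have hM₂ne : setStab O ≠ ⊤ := by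
      intro e
      have h1 : swap y z ∈ setStab O := by rw [e]; trivial
      have h2 := (h1 y).2 hyO
      rw [swap_apply_left] at h2
      exact hzO h2
    obtain ⟨C₁, hC₁, hM₁C⟩ := (eq_top_or_exists_le_coatom (MulAction.stabilizer (Perm (Fin n)) x)).resolve_left hM₁ne
    obtain ⟨C₂, hC₂, hM₂C⟩ := (eq_top_or_exists_le_coatom (setStab O)).resolve_left hM₂ne
    have e₁ := huniq C₁ ⟨hC₁, hM₁T.trans hM₁C⟩
    have e₂ := huniq C₂ ⟨hC₂, hM₂T.trans hM₂C⟩
    rw [e₁] at hM₁C
    rw [e₂] at hM₂C
    apply hMc.1
    rw [eq_top_iff, ← Equiv.Perm.closure_isSwap, Subgroup.closure_le]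
    rintro _ ⟨a, b, hab, rfl⟩
    -- swaps with `x`
    have hxb : ∀ b, b ≠ x → swap x b ∈ M := by
      intro b hb
      have hxz : swap x z ∈ M := by
        apply hM₂C
        intro c
        by_cases hc : c = x
        · subst hc
          rw [swap_apply_left]
          exact ⟨fun h => absurd h hzO, fun h => absurd h hxO⟩
        · by_cases hc' : c = z
          · subst hc'
            rw [swap_apply_right]
            exact ⟨fun h => absurd h hxO, fun h => absurd h hzO⟩
          · rw [swap_apply_of_ne_of_ne hc hc']
      by_cases hbz : b = z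
      · rw [hbz]; exact hxz
      · have hf : swap z b ∈ M := by
          apply hM₁C
          show swap z b x = x
          exact swap_apply_of_ne_of_ne hzx.symm hb.symm
        have e : swap x b = swap z b * swap x z * (swap z b)⁻¹ := by
          have := Equiv.swap_apply_apply (swap z b) x z
          rw [swap_apply_left, swap_apply_of_ne_of_ne hzx.symm hb.symm] at this
          exact this
        rw [e]
        exact M.mul_mem (M.mul_mem hf hxz) (M.inv_mem hf)
    by_cases ha : a = x
    · rw [ha] at hab ⊢
      exact hxb b (Ne.symm hab)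
    · by_cases hb : b = x
      · rw [hb, swap_comm]
        exact hxb a ha
      · apply hM₁C
        show swap a b x = x
        exact swap_apply_of_ne_of_ne (Ne.symm ha) (Ne.symm hb)

end Cfsg.Agent.S2963
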