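import Cfsg.Statements.S2998
import Cfsg.Agent.Lib.LocalEven2.Sylow
import Cfsg.Agent.Lib.LocalEven.Amalgam
-- import your own Cfsg.Agent.* helpers here

set_option autoImplicit false
open Cfsg

namespace Cfsg.Agent.S2998

open Cfsg.Agent.Lib.LocalEven2 Cfsg.Agent.Lib.LocalEven Cfsg.Agent.Lib.Coprime

theorem commute_iff_conj {G : Type*} [Group G] {g x : G} : g * x * g⁻¹ = x ↔ g ∈ Subgroup.centralizer ({x} : Set G) := by
  rw [Subgroup.mem_centralizer_singleton_iff]
  constructor
  · intro h
    calc g * x = (g * x * g⁻¹) * g := by group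
      _ = x * g := by rw [h]
  · intro h
    rw [h]; group

/-- The fusion lemma: nontrivially intersecting conjugates of `P` carry the same conjugate of `x`. -/
theorem conj_eq_of_inter_ne_bot {G : Type*} [Group G] [Finite G] {p : ℕ} [Fact p.Prime] (P : Sylow p G) (x : G)
    (hlc : ∀ R : Subgroup G, R ≤ (P : Subgroup G) → R ≠ ⊥ → Subgroup.normalizer (R : Set G) ≤ Subgroup.centralizer ({x} : Set G)) :
    ∀ (k : ℕ) (g : G), Nat.card (P : Subgroup G) - Nat.card ((P : Subgroup G) ⊓ (P : Subgroup G).map (MulAut.conj g).toMonoidHom : Subgroup G) = k →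
      (P : Subgroup G) ⊓ (P : Subgroup G).map (MulAut.conj g).toMonoidHom ≠ ⊥ → g * x * g⁻¹ = x := by
  intro k
  induction k using Nat.strong_induction_on with
  | _ k IH =>
  intro g hk hD
  set D : Subgroup G := (P : Subgroup G) ⊓ (P : Subgroup G).map (MulAut.conj g).toMonoidHom with hDdef
  have hDP : D ≤ (P : Subgroup G) := inf_le_left
  have hDg : D ≤ (P : Subgroup G).map (MulAut.conj g).toMonoidHom := inf_le_right
  have hpg : IsPGroup p ((P : Subgroup G).map (MulAut.conj g).toMonoidHom : Subgroup G) := isPGroup_conj_map P.isPGroup' g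
  have hcardg : Nat.card ((P : Subgroup G).map (MulAut.conj g).toMonoidHom : Subgroup G) = Nat.card (P : Subgroup G) := card_conj_map _ _
  have hcl : ∀ {A B : Subgroup G}, A < B → Nat.card A < Nat.card B := by
    intro A B h
    change Nat.card ((A : Set G)) < Nat.card ((B : Set G))
    rw [Nat.card_coe_set_eq, Nat.card_coe_set_eq]
    exact Set.ncard_lt_ncard (SetLike.coe_ssubset_coe.mpr h) (Set.toFinite _)
  have hcle : ∀ {A B : Subgroup G}, A ≤ B → Nat.card A ≤ Nat.card B := by
    intro A B h
    exact Subgroup.card_le_of_le h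
  by_cases hEq : D = (P : Subgroup G)
  · -- `P ≤ P^g`, so `g` normalizes `P`.
    have h1 : (P : Subgroup G).map (MulAut.conj g).toMonoidHom = (P : Subgroup G) := by
      symm
      apply Subgroup.eq_of_le_of_card_ge
      · exact hEq.ge.trans hDg
      · rw [hcardg]
    have h2 := (conj_map_eq_iff_mem_normalizer _ _).1 h1
    have h3 : (P : Subgroup G) ≠ ⊥ := by rw [← hEq]; exact hD
    exact commute_iff_conj.2 (hlc _ le_rfl h3 h2)
  · have hDltP : D < (P : Subgroup G) := lt_of_le_of_ne hDP hEq
    have hDltg : D < (P : Subgroup G).map (MulAut.conj g).toMonoidHom := by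
      refine lt_of_le_of_ne hDg ?_
      intro e
      apply hDltP.ne
      apply Subgroup.eq_of_le_of_card_ge hDP
      rw [e, hcardg]
    set M := Subgroup.normalizer (D : Set G) with hM
    have hMx : M ≤ Subgroup.centralizer ({x} : Set G) := hlc D hDP hD
    have hA := lt_inf_normalizer_of_lt P.isPGroup' hDltP
    have hB := lt_inf_normalizer_of_lt hpg hDltg
    set A : Subgroup G := (P : Subgroup G) ⊓ Subgroup.normalizer (D : Set G) with hAdef
    set B : Subgroup G := (P : Subgroup G).map (MulAut.conj g).toMonoidHom ⊓ Subgroup.normalizer (D : Set G) with hBdef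
    obtain ⟨m, hm, T, hT, _, hAT, hBT⟩ := exists_conj_common_of_isPGroup (M := M)
      (P.isPGroup'.to_le inf_le_left) (hpg.to_le inf_le_left) (inf_le_right : A ≤ M) (inf_le_right : B ≤ M)
    obtain ⟨Q, hTQ⟩ := hT.exists_le_sylow
    obtain ⟨h, hh⟩ := MulAction.exists_smul_eq G P Q
    have hQh : (Q : Subgroup G) = (P : Subgroup G).map (MulAut.conj h).toMonoidHom := by
      rw [← hh, Sylow.coe_subgroup_smul]
      ext y
      rw [mem_conj_map, Subgroup.mem_pointwise_smul_iff_inv_smul_mem]
      simp [MulAut.smul_def, MulAut.conj_apply, mul_assoc]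
    rw [hQh] at hTQ
    -- First use of the induction hypothesis.
    have hcardP : Nat.card D < Nat.card (P : Subgroup G) := hcl hDltP
    have hx1 : h * x * h⁻¹ = x := by
      have hle : A ≤ (P : Subgroup G) ⊓ (P : Subgroup G).map (MulAut.conj h).toMonoidHom :=
        le_inf inf_le_left (hAT.trans hTQ)
      have hc1 : Nat.card D < Nat.card A := hcl hA
      have hc2 := hcle hle
      have hc3 : Nat.card ((P : Subgroup G) ⊓ (P : Subgroup G).map (MulAut.conj h).toMonoidHom : Subgroup G) ≤ Nat.card (P : Subgroup G) :=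
        hcle inf_le_left
      refine IH _ ?_ h rfl ?_
      · omega
      · intro e
        rw [e] at hle
        have : D ≤ ⊥ := hA.le.trans hle
        exact hD (le_bot_iff.1 this)
    -- Second use.
    set g₂ := g⁻¹ * m⁻¹ * h with hg₂
    have hx2 : g₂ * x * g₂⁻¹ = x := by
      have hle : B.map (MulAut.conj g⁻¹).toMonoidHom ≤ (P : Subgroup G) ⊓ (P : Subgroup G).map (MulAut.conj g₂).toMonoidHom := by
        rintro _ ⟨b, hb, rfl⟩
        have hbP : b ∈ (P : Subgroup G).map (MulAut.conj g).toMonoidHom := hb.1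
        rw [mem_conj_map] at hbP
        refine Subgroup.mem_inf.2 ⟨?_, ?_⟩
        · have e : (MulAut.conj g⁻¹).toMonoidHom b = g⁻¹ * b * g := by simp
          rw [e]; exact hbP
        · rw [mem_conj_map]
          have h1 : m * b * m⁻¹ ∈ (P : Subgroup G).map (MulAut.conj h).toMonoidHom :=
            hTQ (hBT ⟨b, hb, rfl⟩)
          rw [mem_conj_map] at h1
          have e : g₂⁻¹ * ((MulAut.conj g⁻¹).toMonoidHom b) * g₂ = h⁻¹ * (m * b * m⁻¹) * h := by
            rw [hg₂]
            simp only [MulEquiv.coe_toMonoidHom, MulAut.conj_apply]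
            group
          rw [e]; exact h1
      have hc1 : Nat.card D < Nat.card B := hcl hB
      have hc2 := hcle hle
      have hc0 : Nat.card (B.map (MulAut.conj g⁻¹).toMonoidHom : Subgroup G) = Nat.card B := card_conj_map _ _
      have hc3 : Nat.card ((P : Subgroup G) ⊓ (P : Subgroup G).map (MulAut.conj g₂).toMonoidHom : Subgroup G) ≤ Nat.card (P : Subgroup G) :=
        hcle inf_le_left
      refine IH _ ?_ g₂ rfl ?_
      · omega
      · intro e
        rw [e] at hle
        have h3 : Nat.card (⊥ : Subgroup G) = 1 := Subgroup.card_bot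
        have h4 : Nat.card ((⊥ : Subgroup G)) ≥ Nat.card (B.map (MulAut.conj g⁻¹).toMonoidHom : Subgroup G) := hcle hle
        have h5 : 1 ≤ Nat.card D := Nat.card_pos
        omega
    have hmx : m⁻¹ * x * m⁻¹⁻¹ = x := commute_iff_conj.2 (Subgroup.inv_mem _ (hMx hm))
    have e : g₂ * x * g₂⁻¹ = g⁻¹ * (m⁻¹ * (h * x * h⁻¹) * m⁻¹⁻¹) * g⁻¹⁻¹ := by rw [hg₂]; group
    rw [e, hx1, hmx] at hx2
    calc g * x * g⁻¹ = g * (g⁻¹ * x * g⁻¹⁻¹) * g⁻¹ := by rw [hx2]
      _ = x := by group

/-- Let G be a finite group, p a prime, P a Sylow p-subgroup of G and x ∈ P an element such that N_G(R) ≤ C_G(x) for every nontrivial subgroup R of P. Then P ≤ C_G(x); every G-conjugate of x lying in P equals x (so g ∈ C_G(x) whenever g x g⁻¹ ∈ P); and for every normal subgroup N of G, the image of x in G ⧸ N has the same property with respect to the image of P: the normalizer of every nontrivial subgroup of the image of P centralizes the image of x. -/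
theorem result {G : Type*} [Group G] [Finite G] {p : ℕ} [Fact p.Prime] (P : Sylow p G) (x : G) (hxP : x ∈ (P : Subgroup G)) (hlc : ∀ R : Subgroup G, R ≤ (P : Subgroup G) → R ≠ ⊥ → Subgroup.normalizer (R : Set G) ≤ Subgroup.centralizer ({x} : Set G)) : (P : Subgroup G) ≤ Subgroup.centralizer ({x} : Set G) ∧ (∀ g : G, g * x * g⁻¹ ∈ (P : Subgroup G) → g * x * g⁻¹ = x) ∧ ∀ (N : Subgroup G) [N.Normal], ∀ R : Subgroup (G ⧸ N), R ≤ (P : Subgroup G).map (QuotientGroup.mk' N) → R ≠ ⊥ → Subgroup.normalizer (R : Set (G ⧸ N)) ≤ Subgroup.centralizer ({(QuotientGroup.mk x : G ⧸ N)} : Set (G ⧸ N)) := by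
  have hP1 : (P : Subgroup G) ≤ Subgroup.centralizer ({x} : Set G) := by
    by_cases hb : (P : Subgroup G) = ⊥
    · rw [hb]; exact bot_le
    · exact (Subgroup.le_normalizer).trans (hlc _ le_rfl hb)
  refine ⟨hP1, ?_, ?_⟩
  · intro g hg
    by_cases hx1 : x = 1
    · rw [hx1]; simp
    · apply conj_eq_of_inter_ne_bot P x hlc _ g rfl
      intro e
      have h1 : g * x * g⁻¹ ∈ (P : Subgroup G) ⊓ (P : Subgroup G).map (MulAut.conj g).toMonoidHom :=
        ⟨hg, ⟨x, hxP, rfl⟩⟩
      rw [e, Subgroup.mem_bot] at h1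
      apply hx1
      have : g⁻¹ * (g * x * g⁻¹) * g = x := by group
      rw [← this, h1]; simp
  · intro N _ R hR hRb gbar hg
    obtain ⟨g, rfl⟩ := QuotientGroup.mk_surjective gbar
    set π := QuotientGroup.mk' N with hπ
    have hπe : ∀ a : G, (QuotientGroup.mk a : G ⧸ N) = π a := fun _ => rfl
    rw [hπe, Subgroup.mem_centralizer_singleton_iff, hπe] at *
    set M : Subgroup G := R.comap π with hM
    have hNM : N ≤ M := by
      intro n hn
      rw [hM, Subgroup.mem_comap]
      have : π n = 1 := (QuotientGroup.eq_one_iff n).2 hn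
      rw [this]; exact R.one_mem
    set R₁ : Subgroup G := (P : Subgroup G) ⊓ M with hR₁
    have hR₁P : IsPGroup p R₁ := P.isPGroup'.to_le inf_le_left
    have hlift : ∀ y ∈ M, ∃ u ∈ R₁, π u = π y := by
      intro y hy
      obtain ⟨u, hu, hue⟩ := hR hy
      refine ⟨u, Subgroup.mem_inf.2 ⟨hu, ?_⟩, hue⟩
      rw [hM, Subgroup.mem_comap]
      have : π u = π y := hue
      rw [this]; exact hy
    have hR₁b : R₁ ≠ ⊥ := by
      intro e
      apply hRb
      rw [eq_bot_iff]
      intro r hr
      obtain ⟨y, rfl⟩ := QuotientGroup.mk'_surjective N r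
      obtain ⟨u, hu, hue⟩ := hlift y hr
      rw [e, Subgroup.mem_bot] at hu
      rw [Subgroup.mem_bot, ← hue, hu, map_one]
    have hsup : R₁ ⊔ N = M := by
      apply le_antisymm (sup_le inf_le_right hNM)
      intro y hy
      obtain ⟨u, hu, hue⟩ := hlift y hy
      have e : y = u * (u⁻¹ * y) := by group
      rw [e]
      refine Subgroup.mul_mem _ (Subgroup.mem_sup_left hu) (Subgroup.mem_sup_right ?_)
      have : π (u⁻¹ * y) = 1 := by rw [map_mul, map_inv, hue]; simp
      exact (QuotientGroup.eq_one_iff _).1 this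
    have hinf : R₁ ⊓ N = (P : Subgroup G) ⊓ N := by
      ext y
      constructor
      · rintro ⟨h1, h2⟩
        exact ⟨h1.1, h2⟩
      · rintro ⟨h1, h2⟩
        exact ⟨⟨h1, hNM h2⟩, h2⟩
    have hnd : ¬ p ∣ R₁.relIndex M := by
      rw [← hsup, ← relIndex_eq_relIndex_sup_of_normal]
      have h0 := sylow_relIndex_normal_not_dvd P N
      have h1 : R₁.relIndex N = (P : Subgroup G).relIndex N := by
        rw [← Subgroup.inf_relIndex_right R₁ N, hinf, Subgroup.inf_relIndex_right]
      rw [h1]; exact h0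
    -- `g` normalizes `M`.
    have hgM : g ∈ Subgroup.normalizer (M : Set G) := by
      rw [Subgroup.mem_normalizer_iff]
      intro y
      rw [hM, Subgroup.mem_comap, Subgroup.mem_comap]
      have e : π (g * y * g⁻¹) = π g * π y * (π g)⁻¹ := by simp
      rw [e]
      exact Subgroup.mem_normalizer_iff.1 hg _
    have hMconj : M.map (MulAut.conj g).toMonoidHom = M :=
      (conj_map_eq_iff_mem_normalizer _ _).2 hgM
    have hT₂ : R₁.map (MulAut.conj g).toMonoidHom ≤ M := by
      rw [← hMconj]
      exact Subgroup.map_mono inf_le_right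
    have hnd₂ : ¬ p ∣ (R₁.map (MulAut.conj g).toMonoidHom).relIndex M := by
      rw [← hMconj, relIndex_conj]
      exact hnd
    obtain ⟨m, hmM, hmconj⟩ := exists_conj_of_relIndex (p := p) (inf_le_right : R₁ ≤ M) hT₂ hR₁P
      (isPGroup_conj_map hR₁P g) hnd hnd₂
    -- `m⁻¹ g` normalizes `R₁`.
    have h1 : m⁻¹ * g ∈ Subgroup.normalizer (R₁ : Set G) := by
      rw [← conj_map_eq_iff_mem_normalizer]
      have := congrArg (fun K : Subgroup G => K.map (MulAut.conj m⁻¹).toMonoidHom) hmconj
      simp only [conj_map_conj_map, inv_mul_cancel, conj_map_one] at this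
      exact this
    have h2 := hlc R₁ inf_le_left hR₁b h1
    have h3 : π (m⁻¹ * g) * π x = π x * π (m⁻¹ * g) := by
      rw [← map_mul, ← map_mul, Subgroup.mem_centralizer_singleton_iff.1 h2]
    obtain ⟨u, hu, hue⟩ := hlift m hmM
    have h4 : π m * π x = π x * π m := by
      rw [← hue, ← map_mul, ← map_mul, Subgroup.mem_centralizer_singleton_iff.1 (hP1 hu.1)]
    have e : π g = π m * π (m⁻¹ * g) := by
      rw [← map_mul]; congr 1; group
    rw [e, mul_assoc, h3, ← mul_assoc, h4, mul_assoc]

end Cfsg.Agent.S2998
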