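import Cfsg.Statements.S3003
import Cfsg.Agent.Lib.Basic.Index2
import Cfsg.Agent.Lib.Components.Signal2
import Cfsg.Agent.Lib.LocalEven.GFit
-- import your own Cfsg.Agent.* helpers here

set_option autoImplicit false
open Cfsg

namespace Cfsg.Agent.S3003

open scoped commutatorElement in
theorem part1 {G : Type*} [Group G] [Finite G] {p : ℕ} [Fact p.Prime] (Q : Subgroup G) (hQp : IsPGroup p ↥Q) (hlarge : Cfsg.IsLarge Q) (G₁ : Subgroup G) (hQG : Q ≤ G₁) (R : Subgroup G) (hR : (Nat.card ↥R).Coprime p) (hGR : G₁ ≤ Subgroup.normalizer (R : Set G)) (U : Subgroup G)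
    (h : ∃ x ∈ U, x ≠ 1 ∧ ∃ g ∈ G₁, g * x * g⁻¹ ∈ Q ⊓ Subgroup.centralizer (Q : Set G)) : R ⊓ Subgroup.centralizer (U : Set G) = ⊥ := by
  obtain ⟨x, hxU, hx1, g, hg, hy⟩ := h
  have hRQ : R ⊓ Q = ⊥ := by
    have := Cfsg.Agent.Lib.LocalEven.eq_bot_of_pgroup_le_coprime (Y := R ⊓ Q) (Z := R) (hQp.to_le inf_le_right) hR inf_le_left
    exact this
  rw [eq_bot_iff]
  rintro d ⟨hdR, hdU⟩
  set y := g * x * g⁻¹ with hydef
  have hy1 : y ≠ 1 := by
    intro h1
    apply hx1
    have e : x = g⁻¹ * y * g := by rw [hydef]; group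
    rw [e, h1]; group
  set d' := g * d * g⁻¹ with hd'
  have hd'R : d' ∈ R := (Subgroup.mem_normalizer_iff.1 (hGR hg) d).1 hdR
  have hcomm : d' * y = y * d' := by
    have h1 : d * x = x * d := (Subgroup.mem_centralizer_iff.1 hdU x hxU).symm
    rw [hd', hydef]
    calc g * d * g⁻¹ * (g * x * g⁻¹) = g * (d * x) * g⁻¹ := by group
      _ = g * (x * d) * g⁻¹ := by rw [h1]
      _ = g * x * g⁻¹ * (g * d * g⁻¹) := by group
  have hzle : Subgroup.zpowers y ≤ Subgroup.centralizer (Q : Set G) := (Subgroup.zpowers_le).2 hy.2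
  have hzne : Subgroup.zpowers y ≠ ⊥ := by
    rw [Ne, Subgroup.zpowers_eq_bot]; exact hy1
  have hd'N : d' ∈ Subgroup.normalizer (Subgroup.zpowers y : Set G) := by
    rw [Subgroup.mem_normalizer_iff]
    intro w
    constructor
    · rintro ⟨k, rfl⟩
      refine ⟨k, ?_⟩
      have : Commute d' y := hcomm
      simp only
      have h2 := (this.zpow_right k).eq
      rw [h2]; group
    · rintro ⟨k, hk⟩
      refine ⟨k, ?_⟩
      have : Commute d' y := hcomm
      simp only at hk
      have h2 := (this.zpow_right k).eq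
      have e : w = d'⁻¹ * (d' * w * d'⁻¹) * d' := by group
      simp only
      rw [e, ← hk, mul_assoc, ← h2]; group
  have hd'NQ := hlarge.2 _ hzle hzne hd'N
  have hd'C : d' ∈ Subgroup.centralizer (Q : Set G) := by
    rw [Subgroup.mem_centralizer_iff]
    intro q hq
    have h1 : ⁅d', q⁆ ∈ R ⊓ Q := by
      constructor
      · rw [commutatorElement_def]
        have e : d' * q * d'⁻¹ * q⁻¹ = d' * (q * d'⁻¹ * q⁻¹) := by group
        rw [e]
        exact R.mul_mem hd'R ((Subgroup.mem_normalizer_iff.1 (hGR (hQG hq)) _).1 (R.inv_mem hd'R))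
      · rw [commutatorElement_def]
        exact Q.mul_mem ((Subgroup.mem_normalizer_iff.1 hd'NQ q).1 hq) (Q.inv_mem hq)
    rw [hRQ, Subgroup.mem_bot] at h1
    exact (commutatorElement_eq_one_iff_mul_comm.1 h1).symm
  have h3 : d' ∈ R ⊓ Q := ⟨hd'R, hlarge.1 hd'C⟩
  rw [hRQ, Subgroup.mem_bot] at h3
  have e : d = g⁻¹ * d' * g := by rw [hd']; group
  rw [e, h3]
  simp

/-- Let G be a finite group, p a prime and Q a large p-subgroup of G: C_G(Q) ≤ Q and N_G(U) ≤ N_G(Q) for every nontrivial subgroup U of C_G(Q). Let Q ≤ G₁ ≤ G, let R be a subgroup of order prime to p normalized by G₁, and let U ≤ G₁ be a p-subgroup. If U contains a nontrivial element which is G₁-conjugate to an element of Z(Q), then C_R(U) = 1. In particular, if U is elementary abelian of order at least p² and every maximal subgroup of U contains a nontrivial element G₁-conjugate into Z(Q), then R = 1. -/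
theorem result {G : Type*} [Group G] [Finite G] {p : ℕ} [Fact p.Prime] (Q : Subgroup G) (hQp : IsPGroup p ↥Q) (hlarge : Cfsg.IsLarge Q) (G₁ : Subgroup G) (hQG : Q ≤ G₁) (R : Subgroup G) (hR : (Nat.card ↥R).Coprime p) (hGR : G₁ ≤ Subgroup.normalizer (R : Set G)) (U : Subgroup G) (hUG : U ≤ G₁) (hUp : IsPGroup p ↥U) : ((∃ x ∈ U, x ≠ 1 ∧ ∃ g ∈ G₁, g * x * g⁻¹ ∈ Q ⊓ Subgroup.centralizer (Q : Set G)) → R ⊓ Subgroup.centralizer (U : Set G) = ⊥) ∧ (Cfsg.IsElementaryAbelian p U → p ^ 2 ≤ Nat.card ↥U → (∀ U₀ : Subgroup G, U₀ ≤ U → IsCoatom (U₀.subgroupOf U) → ∃ x ∈ U₀, x ≠ 1 ∧ ∃ g ∈ G₁, g * x * g⁻¹ ∈ Q ⊓ Subgroup.centralizer (Q : Set G)) → R = ⊥) := by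
  constructor
  · exact part1 Q hQp hlarge G₁ hQG R hR hGR U
  · intro hea hcard hcoat
    have hp : p.Prime := Fact.out
    have hRd : ¬ p ∣ Nat.card R := (Nat.Prime.coprime_iff_not_dvd hp).1 hR.symm
    have hUN : U ≤ Subgroup.normalizer (R : Set G) := hUG.trans hGR
    have hle := Cfsg.Agent.Lib.Components.le_iSup_centralizer_hyperplane hea hRd hUN
    have hcen : ∀ U₀ : Subgroup G, U₀ ≤ U → IsCoatom (U₀.subgroupOf U) → R ⊓ Subgroup.centralizer (U₀ : Set G) = ⊥ :=
      fun U₀ h1 h2 => part1 Q hQp hlarge G₁ hQG R hR hGR U₀ (hcoat U₀ h1 h2)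
    rw [eq_bot_iff]
    refine hle.trans (iSup_le ?_)
    rintro ⟨B, hBU, hBi⟩
    simp only
    have hUp : IsPGroup p U := by
      rw [IsPGroup.iff_orderOf]
      intro u
      have h1 : orderOf u ∣ p := orderOf_dvd_of_pow_eq_one (by
        apply Subtype.ext
        simpa using hea.2 u u.2)
      rcases (Nat.dvd_prime hp).1 h1 with h | h
      · exact ⟨0, by simpa using h⟩
      · exact ⟨1, by simpa using h⟩
    have hd : B.relIndex U ∣ Nat.card U := Subgroup.relIndex_dvd_card B U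
    obtain ⟨k, hk⟩ := IsPGroup.iff_card.1 hUp
    rw [hk] at hd
    obtain ⟨j, _, hj⟩ := (Nat.dvd_prime_pow hp).1 hd
    have hj1 : j = 0 ∨ j = 1 := by
      by_contra hc
      push_neg at hc
      have h2 : 2 ≤ j := by omega
      have h3 : p ^ 2 ≤ p ^ j := Nat.pow_le_pow_right hp.pos h2
      have h4 : p < p ^ 2 := by nlinarith [hp.two_le]
      rw [hj] at hBi
      omega
    rcases hj1 with rfl | rfl
    · -- `B = U`
      rw [pow_zero] at hj
      have hUB : U ≤ B := Subgroup.relIndex_eq_one.1 hj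
      have hp2 : p ≤ Nat.card U := le_trans (by nlinarith [hp.two_le]) hcard
      obtain ⟨D, hDU, hDi⟩ := Cfsg.Agent.Lib.Components.exists_hyperplane hUp hp2
      have h5 : IsCoatom (D.subgroupOf U) :=
        Cfsg.Agent.Lib.Basic.isCoatom_of_index_prime (by
          change (D.relIndex U).Prime
          rw [hDi]; exact hp)
      have h6 := hcen D hDU h5
      rw [← h6]
      exact inf_le_inf_left _ (Subgroup.centralizer_le (hDU.trans hUB))
    · rw [pow_one] at hj
      have h5 : IsCoatom (B.subgroupOf U) :=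
        Cfsg.Agent.Lib.Basic.isCoatom_of_index_prime (by
          change (B.relIndex U).Prime
          rw [hj]; exact hp)
      rw [hcen B hBU h5]

end Cfsg.Agent.S3003
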