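import Cfsg.Statements.S3006
import Cfsg.Agent.Lib.LocalEven2.CDAbelian
-- import your own Cfsg.Agent.* helpers here

set_option autoImplicit false
open scoped Pointwise
open Cfsg

namespace Cfsg.Agent.S3006

open Cfsg.Agent.Lib.LocalEven2

/-- Let P be a finite p-group, Q a centrally large subgroup of P (|Q|·|Z(Q)| maximal among subgroups of P) and A an abelian subgroup of P of largest order. Then QA = AQ is a centrally large subgroup of P, C_{QA}(Q ∩ A) = Z(Q)·A, and the subgroup generated by all centrally large subgroups of P contains C_P(Z(J(P))), where J(P) is generated by the abelian subgroups of largest order. -/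
theorem result {p : ℕ} [Fact p.Prime] (P : Type*) [Group P] [Finite P] (hP : IsPGroup p P) (Q A : Subgroup P) (hQ : Cfsg.IsCentrallyLarge Q) (hA : A ∈ Cfsg.maxAbelianSubgroups P) : ((Q ⊔ A : Subgroup P) : Set P) = (Q : Set P) * (A : Set P) ∧ Cfsg.IsCentrallyLarge (Q ⊔ A) ∧ (Q ⊔ A) ⊓ Subgroup.centralizer ((Q ⊓ A : Subgroup P) : Set P) = (Q ⊓ Subgroup.centralizer (Q : Set P)) ⊔ A ∧ (((Q ⊓ Subgroup.centralizer (Q : Set P)) ⊔ A : Subgroup P) : Set P) = ((Q ⊓ Subgroup.centralizer (Q : Set P)) : Set P) * (A : Set P) ∧ Subgroup.centralizer ((Cfsg.thompsonSubgroupA P ⊓ Subgroup.centralizer (Cfsg.thompsonSubgroupA P : Set P) : Subgroup P) : Set P) ≤ Cfsg.centrallyLargeJoin P := by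
  have hD := clAbelianData hQ hA
  obtain ⟨hAab, hAmax⟩ := id hA
  set Z : Subgroup P := Q ⊓ Subgroup.centralizer (Q : Set P) with hZ
  set I : Subgroup P := Q ⊓ A with hI
  have hZI : ∀ a ∈ Z, ∀ b ∈ I, a * b = b * a := by
    intro a ha b hb
    exact (Subgroup.mem_centralizer_iff.1 (Subgroup.mem_inf.1 ha).2 b (Subgroup.mem_inf.1 hb).1).symm
  have key : ∀ t ∈ (Q ⊔ A) ⊓ Subgroup.centralizer ((Q ⊓ A : Subgroup P) : Set P), ∃ z ∈ Z, ∃ a ∈ A, t = z * a := by
    intro t ht
    obtain ⟨h1, h2⟩ := Subgroup.mem_inf.1 ht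
    obtain ⟨q, hq, b, hb, rfl⟩ := exists_mul_of_card_eq hD.card_eq h1
    have hbC : b ∈ Subgroup.centralizer ((Q ⊓ A : Subgroup P) : Set P) := by
      rw [Subgroup.mem_centralizer_iff]
      intro i hi
      exact comm_of_abelian hAab (Subgroup.mem_inf.1 hi).2 hb
    have hqC : q ∈ Subgroup.centralizer ((Q ⊓ A : Subgroup P) : Set P) := by
      have e : q = (q * b) * b⁻¹ := by group
      rw [e]
      exact Subgroup.mul_mem _ h2 (Subgroup.inv_mem _ hbC)
    have hqV := hD.centralizer_le (Subgroup.mem_inf.2 ⟨hq, hqC⟩)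
    obtain ⟨z, hz, i, hi, rfl⟩ := Cfsg.Agent.Lib.Components.exists_mul_of_mem_sup_of_commutes hZI hqV
    refine ⟨z, hz, i * b, A.mul_mem (Subgroup.mem_inf.1 hi).2 hb, ?_⟩
    group
  have hZA : Z ⊔ A ≤ (Q ⊔ A) ⊓ Subgroup.centralizer ((Q ⊓ A : Subgroup P) : Set P) := by
    apply sup_le
    · refine le_inf (le_trans inf_le_left le_sup_left) ?_
      intro z hz
      rw [Subgroup.mem_centralizer_iff]
      intro i hi
      exact (hZI z hz i hi).symm
    · refine le_inf le_sup_right ?_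
      intro a ha
      rw [Subgroup.mem_centralizer_iff]
      intro i hi
      exact comm_of_abelian hAab (Subgroup.mem_inf.1 hi).2 ha
  have hE : (Q ⊔ A) ⊓ Subgroup.centralizer ((Q ⊓ A : Subgroup P) : Set P) = Z ⊔ A := by
    apply le_antisymm _ hZA
    intro t ht
    obtain ⟨z, hz, a, ha, rfl⟩ := key t ht
    exact Subgroup.mul_mem _ (Subgroup.mem_sup_left hz) (Subgroup.mem_sup_right ha)
  refine ⟨coe_sup_eq_mul_of_card_eq hD.card_eq, hD.cl, hE, ?_, ?_⟩
  · ext t
    constructor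
    · intro ht
      obtain ⟨z, hz, a, ha, rfl⟩ := key t (hZA ht)
      exact Set.mem_mul.2 ⟨z, hz, a, ha, rfl⟩
    · intro ht
      obtain ⟨z, hz, a, ha, rfl⟩ := Set.mem_mul.1 ht
      exact Subgroup.mul_mem _ (Subgroup.mem_sup_left hz) (Subgroup.mem_sup_right ha)
  · obtain ⟨R, hR⟩ := exists_isCentrallyLarge (G := P)
    have hJ : Cfsg.centrallyLargeJoin P = sSup {R : Subgroup P | Cfsg.IsCentrallyLarge R} := rfl
    have hcl : Cfsg.IsCentrallyLarge (Cfsg.centrallyLargeJoin P) :=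
      isCentrallyLarge_sSup ⟨R, hR⟩ fun X hX => hX
    apply centralizer_centerThompson_le hcl
    apply sSup_le
    intro B hB
    have h1 := (clAbelianData hcl hB).cl
    have h2 : Cfsg.centrallyLargeJoin P ⊔ B ≤ Cfsg.centrallyLargeJoin P := le_sSup h1
    exact le_sup_right.trans h2

end Cfsg.Agent.S3006
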