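import Cfsg.Statements.S3008
import Cfsg.Agent.Lib.LocalEven2.CL2g
-- import your own Cfsg.Agent.* helpers here

set_option autoImplicit false
open Cfsg

namespace Cfsg.Agent.S3008

open Cfsg.Agent.Lib.LocalEven2 in
theorem part3 {p : ℕ} [Fact p.Prime] (P : Type*) [Group P] [Finite P] :
    (Cfsg.thompsonSubgroupA P = ⊤ → (∀ A ∈ Cfsg.maxAbelianSubgroups P, Nat.card ↥A ^ 2 = Nat.card P * Nat.card ↥(Subgroup.center P)) → ∀ Q : Subgroup P, Cfsg.IsMinimalCentrallyLarge Q → IsMulCommutative ↥Q) := by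
  intro hJ hA Q hQ
  obtain ⟨A, hAm⟩ := exists_mem_maxAbelianSubgroups (G := P)
  have hT : Cfsg.IsCentrallyLarge (⊤ : Subgroup P) := by
    have := cl_sup_thompson hQ.1
    rwa [hJ, sup_top_eq] at this
  have hAcl : Cfsg.IsCentrallyLarge A := by
    apply isCentrallyLarge_iff.2
    intro X
    refine (isCentrallyLarge_iff.1 hT X).trans ?_
    rw [cdF_of_abelian hAm.1]
    have h1 := hA A hAm
    rw [pow_two] at h1
    rw [h1]
    unfold cdF
    have e1 : Nat.card (⊤ : Subgroup P) = Nat.card P := Nat.card_congr Subgroup.topEquiv.toEquiv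
    have e2 : Nat.card ((⊤ : Subgroup P) ⊓ Subgroup.centralizer ((⊤ : Subgroup P) : Set P) : Subgroup P) =
        Nat.card (Subgroup.center P) := by
      rw [top_inf_eq]
      congr 2
      ext x
      simp [Subgroup.mem_center_iff, Subgroup.mem_centralizer_iff]
    rw [e1, e2]
  obtain ⟨R, hR, hRA⟩ := IsMinimalCentrallyLarge.exists_le hAcl
  have hRab : IsMulCommutative R := by
    apply abelian_of_comm
    intro a ha b hb
    exact congrArg Subtype.val (hAm.1.is_comm.comm (⟨a, hRA ha⟩ : A) ⟨b, hRA hb⟩)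
  exact ((minimal_cl_iff_maxAbelian hR hRab Q).1 hQ).1

open Cfsg.Agent.Lib.LocalEven2 in
theorem part4 (P : Type*) [Group P] [Finite P] :
    ((∀ Q : Subgroup P, Cfsg.IsMinimalCentrallyLarge Q → IsMulCommutative ↥Q) → Subgroup.centralizer ((Cfsg.thompsonSubgroupA P ⊓ Subgroup.centralizer (Cfsg.thompsonSubgroupA P : Set P) : Subgroup P) : Set P) = Cfsg.thompsonSubgroupA P) := by
  intro h
  obtain ⟨Q, hQ⟩ := exists_isMinimalCentrallyLarge (G := P)
  have hmem := (minimal_cl_iff_maxAbelian hQ (h Q hQ) Q).1 hQ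
  have hQJ : Q ≤ Cfsg.thompsonSubgroupA P := le_sSup hmem
  have hJcl : Cfsg.IsCentrallyLarge (Cfsg.thompsonSubgroupA P) := by
    have := cl_sup_thompson hQ.1
    rwa [sup_eq_right.2 hQJ] at this
  apply le_antisymm (centralizer_centerThompson_le hJcl le_rfl)
  intro x hx
  rw [Subgroup.mem_centralizer_iff]
  intro z hz
  have hz' : z ∈ Subgroup.centralizer (Cfsg.thompsonSubgroupA P : Set P) :=
    (Subgroup.mem_inf.1 hz).2
  exact (Subgroup.mem_centralizer_iff.1 hz' x hx).symm

/-- Let P be a finite p-group, with J(P) generated by its abelian subgroups of largest order and J̃(P) = C_P(Z(J(P))); call R ≤ P centrally large if |R|·|Z(R)| is as large as possible, and let P_MCL be generated by the minimal centrally large subgroups. Then: for every centrally large Q, Q·J(P) ⊇ J̃(P); some minimal centrally large subgroup of P is normalized by both J(P) and P_MCL; if P = J(P) and d(P)² = |P|·|Z(P)|, where d(P) is the largest order of an abelian subgroup, then every minimal centrally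 large subgroup of P is abelian; and if every minimal centrally large subgroup is abelian then J̃(P) = J(P). -/
theorem result {p : ℕ} [Fact p.Prime] (P : Type*) [Group P] [Finite P] (hP : IsPGroup p P) : (∀ Q : Subgroup P, Cfsg.IsCentrallyLarge Q → Subgroup.centralizer ((Cfsg.thompsonSubgroupA P ⊓ Subgroup.centralizer (Cfsg.thompsonSubgroupA P : Set P) : Subgroup P) : Set P) ≤ Q ⊔ Cfsg.thompsonSubgroupA P) ∧ (∃ Q : Subgroup P, Cfsg.IsMinimalCentrallyLarge Q ∧ Cfsg.thompsonSubgroupA P ≤ Subgroup.normalizer (Q : Set P) ∧ Cfsg.minimalCentrallyLargeJoin P ≤ Subgroup.normalizer (Q : Set P)) ∧ (Cfsg.thompsonSubgroupA P = ⊤ → (∀ A ∈ Cfsg.maxAbelianSubgroups P, Nat.card ↥A ^ 2 = Nat.card P * Nat.card ↥(Subgroup.center P)) → ∀ Q : Subgroup P, Cfsg.IsMinimalCentrallyLarge Q → IsMulCommutative ↥Q) ∧ ((∀ Q : Subgroup P, Cfsg.IsMinimalCentrallyLarge Q → IsMulCommutative ↥Q) → Subgroup.centralizer ((Cfsg.thompsonSubgroupA P ⊓ Subgroup.centralizer (Cfsg.thompsonSubgroupA P : Set P) : Subgroup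 P) : Set P) = Cfsg.thompsonSubgroupA P) := by
  haveI : Finite P := ‹_›
  refine ⟨fun Q hQ => Cfsg.Agent.Lib.LocalEven2.centralizer_centerThompson_le
      (Cfsg.Agent.Lib.LocalEven2.cl_sup_thompson hQ) le_sup_right, ?_, part3 (p := p) P, part4 P⟩
  exact Cfsg.Agent.Lib.LocalEven2.CL2.exists_min_cl_normalized hP

end Cfsg.Agent.S3008
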