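import Cfsg.Statements.S3009
import Cfsg.Agent.Lib.LocalEven2.NatSL2
import Cfsg.Agent.Lib.Classical.SylowSL2
-- import your own Cfsg.Agent.* helpers here

set_option autoImplicit false
open Cfsg

namespace Cfsg.Agent.S3009

open Subgroup Cfsg Cfsg.Agent.Lib.Root Cfsg.Agent.Lib.LocalEven2.NatSL2
open scoped commutatorElement

section Mult

variable {F : Type*} [Field F] {A : Type*} [CommGroup A]

/-- The additive action attached to a multiplicative one. -/
def actOf (τ : Matrix.SpecialLinearGroup (Fin 2) F →* MulAut A) :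
    DistribMulAction (Matrix.SpecialLinearGroup (Fin 2) F) (Additive A) where
  smul g v := Additive.ofMul (τ g v.toMul)
  one_smul v := by
    show Additive.ofMul (τ 1 v.toMul) = v
    rw [map_one]
    rfl
  mul_smul a b v := by
    show Additive.ofMul (τ (a * b) v.toMul) = Additive.ofMul (τ a (τ b v.toMul))
    rw [map_mul]
    rfl
  smul_zero a := by
    show Additive.ofMul (τ a 1) = 0
    rw [map_one]
    rfl
  smul_add a x y := by
    show Additive.ofMul (τ a (x.toMul * y.toMul)) = Additive.ofMul (τ a x.toMul) + Additive.ofMul (τ a y.toMul)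
    rw [map_mul]
    rfl

theorem add_main [inst : DistribMulAction (Matrix.SpecialLinearGroup (Fin 2) F) (Additive A)]
    [Finite A] {p : ℕ} [Fact p.Prime] [CharP F p] (hexp : ∀ a : A, a ^ p = 1)
    (τ : Matrix.SpecialLinearGroup (Fin 2) F →* MulAut A)
    (hτ : ∀ (g : Matrix.SpecialLinearGroup (Fin 2) F) (v : Additive A), g • v = Additive.ofMul (τ g v.toMul))
    (hirr : ∀ B : Subgroup A, (∀ g, ∀ a ∈ B, τ g a ∈ B) → B = ⊥ ∨ B = ⊤)
    (hnt : ∃ g a, τ g a ≠ a)
    (hyp : (∀ (a b : F) (v : A), τ (bU a) (τ (bU b) v * v⁻¹) = τ (bU b) v * v⁻¹) ∨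
      Nat.card A ≤ Nat.card {v : A // ∀ a : F, τ (bU a) v = v} ^ 2) :
    ∃ ψ : A →* Multiplicative (Fin 2 → F), Function.Bijective ψ ∧
      ∀ g a, ψ (τ g a) = Multiplicative.ofAdd (g.1.mulVec (Multiplicative.toAdd (ψ a))) := by
  have hirr' : ∀ W : AddSubgroup (Additive A),
      (∀ (g : Matrix.SpecialLinearGroup (Fin 2) F), ∀ v ∈ W, g • v ∈ W) → W = ⊥ ∨ W = ⊤ := by
    intro W hW
    let B : Subgroup A :=
      { carrier := {a | Additive.ofMul a ∈ W}
        mul_mem' := fun {a b} ha hb => by
          show Additive.ofMul (a * b) ∈ W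
          rw [ofMul_mul]
          exact W.add_mem ha hb
        one_mem' := by
          show Additive.ofMul (1 : A) ∈ W
          rw [ofMul_one]
          exact W.zero_mem
        inv_mem' := fun {a} ha => by
          show Additive.ofMul (a⁻¹) ∈ W
          rw [ofMul_inv]
          exact W.neg_mem ha }
    rcases hirr B (fun g a ha => by
      show Additive.ofMul (τ g a) ∈ W
      have := hW g (Additive.ofMul a) ha
      rw [hτ] at this
      exact this) with h | h
    · left
      rw [eq_bot_iff]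
      intro v hv
      have : v.toMul ∈ B := hv
      rw [h, Subgroup.mem_bot] at this
      rw [AddSubgroup.mem_bot]
      exact this
    · right
      rw [eq_top_iff]
      intro v _
      have : v.toMul ∈ B := by rw [h]; trivial
      exact this
  have hnt' : ∃ (g : Matrix.SpecialLinearGroup (Fin 2) F) (v : Additive A), g • v ≠ v := by
    obtain ⟨g, a, h⟩ := hnt
    refine ⟨g, Additive.ofMul a, ?_⟩
    rw [hτ]
    intro h2
    exact h h2
  have hqu : ∀ (b : F) (v : Additive A), Fx F (bU b • v - v) := by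
    rcases hyp with h | hcard
    · intro b v a
      have h1 : bU b • v - v = Additive.ofMul (τ (bU b) v.toMul * v.toMul⁻¹) := by
        rw [hτ, ofMul_mul, ofMul_inv, ofMul_toMul, sub_eq_add_neg]
      rw [h1, hτ, toMul_ofMul, h a b v.toMul]
    · have hcard' : Nat.card (Additive A) ≤ Nat.card (V0 F (V := Additive A)) ^ 2 := by
        have e1 : Nat.card (Additive A) = Nat.card A := Nat.card_congr Additive.toMul
        have e2 : Nat.card (V0 F (V := Additive A)) = Nat.card {v : A // ∀ a : F, τ (bU a) v = v} := by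
          refine Nat.card_congr
            { toFun := fun v => ⟨(v : Additive A).toMul, fun a => by
                have := v.2 a
                rw [hτ] at this
                exact this⟩
              invFun := fun v => ⟨Additive.ofMul (v : A), fun a => by
                rw [hτ]
                exact congrArg Additive.ofMul (v.2 a)⟩
              left_inv := fun v => rfl
              right_inv := fun v => rfl }
        rw [e1, e2]
        exact hcard
      intro b v
      exact quadratic_of_card (p := p) (fun v => by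
        show Additive.ofMul (v.toMul ^ p) = 0
        rw [hexp]
        rfl) hirr' hnt' hcard' b v
  obtain ⟨Ψ, hΨ⟩ := natural_of_quadratic hirr' hnt' hqu
  refine ⟨⟨⟨fun a => Multiplicative.ofAdd (Ψ.symm (Additive.ofMul a)), ?_⟩, ?_⟩, ⟨?_, ?_⟩, ?_⟩
  · show Multiplicative.ofAdd (Ψ.symm (Additive.ofMul 1)) = 1
    rw [ofMul_one, map_zero]
    rfl
  · intro a b
    show Multiplicative.ofAdd (Ψ.symm (Additive.ofMul (a*b))) = Multiplicative.ofAdd (Ψ.symm (Additive.ofMul a)) * Multiplicative.ofAdd (Ψ.symm (Additive.ofMul b))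
    rw [ofMul_mul, map_add]
    rfl
  · intro a b h
    have h1 : Ψ.symm (Additive.ofMul a) = Ψ.symm (Additive.ofMul b) := Multiplicative.ofAdd.injective h
    exact Additive.ofMul.injective (Ψ.symm.injective h1)
  · intro y
    refine ⟨(Ψ (Multiplicative.toAdd y)).toMul, ?_⟩
    show Multiplicative.ofAdd (Ψ.symm (Additive.ofMul (Ψ (Multiplicative.toAdd y)).toMul)) = y
    rw [ofMul_toMul, AddEquiv.symm_apply_apply]
    rfl
  · intro g a
    show Multiplicative.ofAdd (Ψ.symm (Additive.ofMul (τ g a))) = Multiplicative.ofAdd (g.1.mulVec (Ψ.symm (Additive.ofMul a)))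
    congr 1
    apply Ψ.injective
    rw [AddEquiv.apply_symm_apply, ← hΨ, AddEquiv.apply_symm_apply, hτ]
    rfl

theorem mult_main [Finite A] {p : ℕ} [Fact p.Prime] [CharP F p] (hexp : ∀ a : A, a ^ p = 1)
    (τ : Matrix.SpecialLinearGroup (Fin 2) F →* MulAut A)
    (hirr : ∀ B : Subgroup A, (∀ g, ∀ a ∈ B, τ g a ∈ B) → B = ⊥ ∨ B = ⊤)
    (hnt : ∃ g a, τ g a ≠ a)
    (hyp : (∀ (a b : F) (v : A), τ (bU a) (τ (bU b) v * v⁻¹) = τ (bU b) v * v⁻¹) ∨
      Nat.card A ≤ Nat.card {v : A // ∀ a : F, τ (bU a) v = v} ^ 2) :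
    ∃ ψ : A →* Multiplicative (Fin 2 → F), Function.Bijective ψ ∧
      ∀ g a, ψ (τ g a) = Multiplicative.ofAdd (g.1.mulVec (Multiplicative.toAdd (ψ a))) := by
  letI := actOf τ
  exact add_main hexp τ (fun _ _ => rfl) hirr hnt hyp

end Mult

section Grp

variable {X : Type*} [Group X]

/-- Conjugation of `G` on the normalized subgroup `V`. -/
def cjG (G V : Subgroup X) (hGV : G ≤ normalizer (V : Set X)) : G →* MulAut V where
  toFun g :=
    { toFun := fun v => ⟨(g : X) * v * (g : X)⁻¹, (mem_normalizer_iff.mp (hGV g.2) v).mp v.2⟩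
      invFun := fun v => ⟨(g : X)⁻¹ * v * (g : X), by
        have h1 := (mem_normalizer_iff.mp (hGV (inv_mem g.2)) v).mp v.2
        simpa using h1⟩
      left_inv := fun v => Subtype.ext (by simp [mul_assoc])
      right_inv := fun v => Subtype.ext (by simp [mul_assoc])
      map_mul' := fun a b => Subtype.ext (by simp [mul_assoc]) }
  map_one' := by
    ext v
    simp
  map_mul' := fun a b => by
    ext v
    simp [mul_assoc]

theorem cjG_apply (G V : Subgroup X) (hGV : G ≤ normalizer (V : Set X)) (g : G) (v : V) :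
    (cjG G V hGV g v : X) = (g : X) * v * (g : X)⁻¹ := rfl

end Grp

/-- Let p be a prime and let G and V be subgroups of a finite group with V elementary abelian and normalized by G, and G isomorphic to SL₂(F) for a finite field F with pⁿ elements. Suppose G acts irreducibly and nontrivially on V by conjugation (no G-invariant subgroups of V other than 1 and V, and [V, G] ≠ 1), and let S be a Sylow p-subgroup of G and V₀ = C_V(S). If [V, S, S] = 1 or |V| ≤ |V₀|², then G acts on V as SL₂(F) on its natural two-dimensional module; in particular |V| = |F|². -/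
theorem result {X : Type*} [Group X] [Finite X] {p : ℕ} [Fact p.Prime] (G V : Subgroup X) (hV : Cfsg.IsElementaryAbelian p V) (hGV : G ≤ Subgroup.normalizer (V : Set X)) (F : Type) [Field F] [Fintype F] (n : ℕ) (hF : Fintype.card F = p ^ n) (hG : Nonempty (↥G ≃* Matrix.SpecialLinearGroup (Fin 2) F)) (hirr : ∀ U : Subgroup X, U ≤ V → G ≤ Subgroup.normalizer (U : Set X) → U = ⊥ ∨ U = V) (hnt : ⁅V, G⁆ ≠ ⊥) (S : Sylow p ↥G) (hyp : ⁅⁅V, (S : Subgroup ↥G).map G.subtype⁆, (S : Subgroup ↥G).map G.subtype⁆ = ⊥ ∨ Nat.card ↥V ≤ Nat.card ↥(V ⊓ Subgroup.centralizer (((S : Subgroup ↥G).map G.subtype : Subgroup X) : Set X)) ^ 2) : Cfsg.ActsAsSL2OnSection F ⊤ G V ⊥ := by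
  obtain ⟨e⟩ := hG
  classical
  have hpp : p.Prime := Fact.out
  -- the characteristic
  haveI hchar : CharP F p := by
    obtain ⟨q, hq⟩ := CharP.exists F
    haveI := hq
    obtain ⟨m, hqp, hm⟩ := FiniteField.card F q
    haveI : Fact q.Prime := ⟨hqp⟩
    have h1 : (p : ℕ) ^ n = q ^ (m : ℕ) := by rw [← hF, hm]
    have hn0 : n ≠ 0 := by
      rintro rfl
      rw [pow_zero] at h1
      have := Nat.one_lt_pow m.ne_zero hqp.one_lt
      omega
    have h2 : p ∣ q ^ (m : ℕ) := by
      rw [← h1]
      exact dvd_pow_self p hn0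
    have h3 : p = q := (Nat.prime_dvd_prime_iff_eq hpp hqp).mp (hpp.dvd_of_dvd_pow h2)
    rw [h3]
    exact hq
  -- normalizing the Sylow subgroup
  let S₁ : Sylow p (Matrix.SpecialLinearGroup (Fin 2) F) :=
    S.mapSurjective (f := e.toMonoidHom) e.surjective
  obtain ⟨c, hc⟩ := MulAction.exists_smul_eq (Matrix.SpecialLinearGroup (Fin 2) F) S₁
    (Cfsg.Agent.Lib.Classical.sl2Sylow (F := F) (p := p))
  let e' : G ≃* Matrix.SpecialLinearGroup (Fin 2) F := e.trans (MulAut.conj c)
  have he' : ∀ g : G, e' g = c * e g * c⁻¹ := fun _ => rfl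
  have hS : ∀ g : G, g ∈ (S : Subgroup G) ↔ ∃ a : F, e' g = bU a := by
    intro g
    have h1 : g ∈ (S : Subgroup G) ↔ e' g ∈ Matrix.SpecialLinearGroup.lineStab (Cfsg.Agent.Lib.Classical.L0 F) := by
      have h2 : ((Cfsg.Agent.Lib.Classical.sl2Sylow (F := F) (p := p) : Sylow p _) : Subgroup _) =
          Matrix.SpecialLinearGroup.lineStab (Cfsg.Agent.Lib.Classical.L0 F) := rfl
      rw [← h2, ← hc, Sylow.coe_subgroup_smul]
      constructor
      · intro hg
        refine ⟨e g, ?_, rfl⟩
        exact ⟨g, hg, rfl⟩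
      · rintro ⟨y, ⟨g', hg', rfl⟩, hy⟩
        have h3 : e g' = e g := by
          have h4 : c * e g' * c⁻¹ = c * e g * c⁻¹ := hy
          exact mul_left_cancel (mul_right_cancel h4)
        have h5 : g' = g := e.injective h3
        rw [← h5]
        exact hg'
    rw [h1, Cfsg.Agent.Lib.Classical.mem_lineStab_L0_iff]
    constructor
    · rintro ⟨t, ht⟩
      refine ⟨t, ?_⟩
      rw [ht]
      apply Subtype.ext
      rw [Matrix.SpecialLinearGroup.transvection_coe]
      ext i j
      fin_cases i <;> fin_cases j <;> simp [bU, Matrix.one_apply, Matrix.single_apply]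
    · rintro ⟨t, ht⟩
      refine ⟨t, ?_⟩
      rw [ht]
      apply Subtype.ext
      rw [Matrix.SpecialLinearGroup.transvection_coe]
      ext i j
      fin_cases i <;> fin_cases j <;> simp [bU, Matrix.one_apply, Matrix.single_apply]
  have hSb : ∀ a : F, ((e'.symm (bU a) : G) : X) ∈ ((S : Subgroup ↥G).map G.subtype : Subgroup X) := by
    intro a
    exact ⟨e'.symm (bU a), (hS _).mpr ⟨a, by simp⟩, rfl⟩
  haveI hVc := hV.1
  letI : CommGroup V := { (inferInstance : Group V) with mul_comm := fun a b => mul_comm' a b }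
  let τ : Matrix.SpecialLinearGroup (Fin 2) F →* MulAut V := (cjG G V hGV).comp e'.symm.toMonoidHom
  have hτ : ∀ (g : Matrix.SpecialLinearGroup (Fin 2) F) (v : V),
      (τ g v : X) = (e'.symm g : X) * v * (e'.symm g : X)⁻¹ := fun _ _ => rfl
  have hirrB : ∀ B : Subgroup V, (∀ g, ∀ a ∈ B, τ g a ∈ B) → B = ⊥ ∨ B = ⊤ := by
    intro B hB
    have hle : B.map V.subtype ≤ V := Subgroup.map_subtype_le B
    have hN : G ≤ normalizer ((B.map V.subtype : Subgroup X) : Set X) := by
      intro g hg
      rw [mem_normalizer_iff]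
      intro h
      constructor
      · rintro ⟨b, hb, rfl⟩
        refine ⟨τ (e' ⟨g, hg⟩) b, hB _ _ hb, ?_⟩
        show (τ (e' ⟨g, hg⟩) b : X) = _
        rw [hτ]
        simp
      · rintro ⟨b, hb, hbe⟩
        have hg' : g⁻¹ ∈ G := inv_mem hg
        refine ⟨τ (e' ⟨g⁻¹, hg'⟩) b, hB _ _ hb, ?_⟩
        show (τ (e' ⟨g⁻¹, hg'⟩) b : X) = _
        rw [hτ]
        have hbe' : (b : X) = g * h * g⁻¹ := hbe
        simp only [MulEquiv.symm_apply_apply, hbe']
        group
    rcases hirr _ hle hN with h | h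
    · left
      rw [eq_bot_iff]
      intro a ha
      have : (a : X) ∈ B.map V.subtype := ⟨a, ha, rfl⟩
      rw [h, Subgroup.mem_bot] at this
      exact Subtype.ext this
    · right
      rw [eq_top_iff]
      intro a _
      have : (a : X) ∈ B.map V.subtype := by rw [h]; exact a.2
      obtain ⟨a', ha', e1⟩ := this
      have : a' = a := Subtype.ext e1
      rwa [← this]
  have hntB : ∃ g a, τ g a ≠ a := by
    by_contra hc2
    push Not at hc2
    apply hnt
    rw [eq_bot_iff, Subgroup.commutator_le]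
    intro v hv g hg
    have h1 := hc2 (e' ⟨g, hg⟩) ⟨v, hv⟩
    have h2 := congrArg Subtype.val h1
    rw [hτ] at h2
    simp only [MulEquiv.symm_apply_apply] at h2
    rw [Subgroup.mem_bot, commutatorElement_eq_one_iff_mul_comm]
    have h3 : g * v = v * g := mul_inv_eq_iff_eq_mul.mp h2
    exact h3.symm
  have hypB : (∀ (a b : F) (v : V), τ (bU a) (τ (bU b) v * v⁻¹) = τ (bU b) v * v⁻¹) ∨
      Nat.card V ≤ Nat.card {v : V // ∀ a : F, τ (bU a) v = v} ^ 2 := by
    rcases hyp with h | h
    · left
      intro a b v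
      apply Subtype.ext
      set sa : X := (e'.symm (bU a) : X) with hsa
      set sb : X := (e'.symm (bU b) : X) with hsb
      have h1 : ((τ (bU b) v * v⁻¹ : V) : X) = sb * v * sb⁻¹ * (v : X)⁻¹ := by
        rw [Subgroup.coe_mul, hτ]
        rfl
      rw [hτ, h1]
      have h2 : sb * v * sb⁻¹ * (v : X)⁻¹ ∈ ⁅V, (S : Subgroup ↥G).map G.subtype⁆ := by
        have h3 : ⁅(v : X), sb⁆ ∈ ⁅V, (S : Subgroup ↥G).map G.subtype⁆ :=
          Subgroup.commutator_mem_commutator v.2 (hSb b)
        have h4 := inv_mem h3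
        rw [commutatorElement_inv] at h4
        exact h4
      have h5 : ⁅sb * v * sb⁻¹ * (v : X)⁻¹, sa⁆ ∈
          ⁅⁅V, (S : Subgroup ↥G).map G.subtype⁆, (S : Subgroup ↥G).map G.subtype⁆ :=
        Subgroup.commutator_mem_commutator h2 (hSb a)
      rw [h, Subgroup.mem_bot, commutatorElement_eq_one_iff_mul_comm] at h5
      show sa * (sb * v * sb⁻¹ * (v : X)⁻¹) * sa⁻¹ = _
      rw [← h5]
      group
    · right
      have e2 : Nat.card ↥(V ⊓ centralizer (((S : Subgroup ↥G).map G.subtype : Subgroup X) : Set X)) =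
          Nat.card {v : V // ∀ a : F, τ (bU a) v = v} := by
        refine Nat.card_congr
          { toFun := fun v => ⟨⟨v, v.2.1⟩, fun a => Subtype.ext ?_⟩
            invFun := fun v => ⟨v.1, v.1.2, ?_⟩
            left_inv := fun v => rfl
            right_inv := fun v => rfl }
        · rw [hτ]
          have h1 := mem_centralizer_iff.mp v.2.2 _ (hSb a)
          rw [h1]
          group
        · show (v.1 : X) ∈ centralizer _
          rw [mem_centralizer_iff]
          rintro _ ⟨s, hs, rfl⟩
          obtain ⟨a, ha⟩ := (hS s).mp hs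
          have h1 := congrArg Subtype.val (v.2 a)
          rw [hτ] at h1
          have h2 : e'.symm (bU a) = s := by rw [← ha]; simp
          rw [h2] at h1
          exact mul_inv_eq_iff_eq_mul.mp h1
      rw [← e2]
      exact h
  obtain ⟨ψ, hψb, hψ⟩ := mult_main (F := F) (A := V) (p := p)
    (fun a => Subtype.ext (by simpa using hV.2 a a.2)) τ hirrB hntB hypB
  refine ⟨hGV, bot_le, e'.toMonoidHom, ψ, ?_, hψb.2, ?_, ?_⟩
  · exact MonoidHom.range_eq_top.mpr e'.surjective
  · intro u
    rw [Subgroup.mem_bot]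
    constructor
    · intro h
      have h1 : u = 1 := hψb.1 (by rw [h, map_one])
      rw [h1]
      rfl
    · intro h
      have h1 : u = 1 := Subtype.ext h
      rw [h1, map_one]
  · intro g u
    refine ⟨τ (e' g) u, ?_, ?_⟩
    · rw [hτ]
      simp
    · rw [hψ]
      rfl

end Cfsg.Agent.S3009
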