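import Cfsg.Statements.S3011
import Cfsg.Agent.S0200
import Cfsg.Agent.Lib.Basic.Core
-- import your own Cfsg.Agent.* helpers here

set_option autoImplicit false
open Cfsg

namespace Cfsg.Agent.S3011

variable {G : Type*} [Group G]

theorem eq_one_of_sq {h : G} (hodd : Odd (orderOf h)) (h2 : h * h = 1) : h = 1 := by
  have h3 : orderOf h ∣ 2 := orderOf_dvd_of_pow_eq_one (by rw [pow_two, h2])
  have h4 : orderOf h ≤ 2 := Nat.le_of_dvd (by norm_num) h3
  have h5 : orderOf h ≠ 0 := by
    intro e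
    rw [e] at hodd
    simp at hodd
  have h6 : orderOf h = 1 := by
    obtain ⟨k, hk⟩ := hodd
    omega
  exact orderOf_eq_one_iff.1 h6

theorem conj_sq_of_inv {u y : G} (h : u * y * u⁻¹ = y⁻¹) : (u * u) * y * (u * u)⁻¹ = y := by
  calc (u * u) * y * (u * u)⁻¹ = u * (u * y * u⁻¹) * u⁻¹ := by group
    _ = u * y⁻¹ * u⁻¹ := by rw [h]
    _ = (u * y * u⁻¹)⁻¹ := by group
    _ = y := by rw [h, inv_inv]

theorem commute_of_sq {x y : G} (hodd : Odd (orderOf x)) (h2 : Commute (x * x) y) : Commute x y := by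
  obtain ⟨m, hm⟩ := hodd
  have h3 : x ^ (2 * m + 1) = 1 := by rw [← hm, pow_orderOf_eq_one]
  have h4 : x = ((x * x) ^ m)⁻¹ := by
    rw [← pow_two, ← pow_mul, eq_inv_iff_mul_eq_one, ← pow_succ', h3]
  rw [h4]
  exact ((h2.pow_left m).inv_left)

theorem odd_orderOf_conj (g x : G) (hx : Odd (orderOf x)) : Odd (orderOf (g * x * g⁻¹)) := by
  have := orderOf_injective (MulAut.conj g).toMonoidHom (MulAut.conj g).injective x
  simp only [MulEquiv.coe_toMonoidHom, MulAut.conj_apply] at this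
  rwa [this]

theorem odd_orderOf_mul [Finite G] {x y : G} (hc : Commute x y) (hx : Odd (orderOf x)) (hy : Odd (orderOf y)) :
    Odd (orderOf (x * y)) := by
  have h1 := hc.orderOf_mul_dvd_lcm
  have h2 : Odd (orderOf x * orderOf y) := hx.mul hy
  exact Odd.of_dvd_nat h2 (h1.trans (Nat.lcm_dvd_mul _ _))

/-- Let G be a finite group and V a nontrivial elementary abelian 2-subgroup of G of order at most 4 such that, whenever an element of V inverts an element h of G of odd order, some nontrivial element of V commutes with h. Then V meets O₂(G) nontrivially. (The case of order at most 4 has a short argument from the Baer–Suzuki theorem.) -/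
theorem result {G : Type*} [Group G] [Finite G] (V : Subgroup G) (hV : Cfsg.IsElementaryAbelian 2 V) (hV1 : V ≠ ⊥) (hS : Cfsg.IsSidkiPair V) (h4 : Nat.card V ≤ 4) : V ⊓ Cfsg.pCore 2 G ≠ ⊥ := by
  classical
  haveI : Fact (Nat.Prime 2) := ⟨Nat.prime_two⟩
  obtain ⟨hVc, hVe⟩ := hV
  by_contra! hbot
  have hcomm : ∀ a ∈ V, ∀ b ∈ V, a * b = b * a := by
    intro a ha b hb
    have := hVc.is_comm.comm (⟨a, ha⟩ : V) ⟨b, hb⟩
    exact congrArg Subtype.val this
  have hinv : ∀ a ∈ V, a⁻¹ = a := by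
    intro a ha
    rw [inv_eq_iff_mul_eq_one, ← pow_two]
    exact hVe a ha
  have key : ∀ v ∈ V, v ≠ 1 → ∃ h : G, h ≠ 1 ∧ Odd (orderOf h) ∧ v * h * v⁻¹ = h⁻¹ := by
    intro v hv hv1
    apply Cfsg.Agent.S0200.result v
    · exact orderOf_eq_prime (hVe v hv) hv1
    · intro N hN hNp hvN
      have h1 : N ≤ Cfsg.pCore 2 G := Cfsg.Agent.Lib.Basic.le_pCore hN hNp
      have h2 : v ∈ V ⊓ Cfsg.pCore 2 G := ⟨hv, h1 hvN⟩
      rw [hbot] at h2
      exact hv1 (Subgroup.mem_bot.1 h2)
  -- commuting and inverting is impossible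
  have hno : ∀ (v h : G), h ≠ 1 → Odd (orderOf h) → v * h * v⁻¹ = h⁻¹ → v * h = h * v → False := by
    intro v h hh1 hodd h1 h2
    have h3 : v * h * v⁻¹ = h := by rw [h2]; group
    rw [h3] at h1
    apply hh1
    apply eq_one_of_sq hodd
    nth_rewrite 1 [h1]
    group
  obtain ⟨⟨a, ha⟩, ha1⟩ := Subgroup.ne_bot_iff_exists_ne_one.1 hV1
  have ha1' : a ≠ 1 := fun e => ha1 (Subtype.ext e)
  obtain ⟨x, hx1, hxo, hax⟩ := key a ha ha1'
  obtain ⟨A, hA, hA1, hAx⟩ := hS x a ha hxo hax
  obtain ⟨y, hy1, hyo, hAy⟩ := key A hA hA1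
  obtain ⟨B, hB, hB1, hBy⟩ := hS y A hA hyo hAy
  have hAB : A ≠ B := by
    rintro rfl
    exact hno _ _ hy1 hyo hAy hBy
  have haA : a ≠ A := by
    rintro rfl
    exact hno _ _ hx1 hxo hax hAx
  -- the four elements of `V`.
  have hfour : ∀ v ∈ V, v = 1 ∨ v = A ∨ v = B ∨ v = A * B := by
    intro v hv
    by_contra hcon
    push Not at hcon
    obtain ⟨h1, h2, h3, h4⟩ := hcon
    have hF : ({1, A, B, A * B, v} : Finset G).card = 5 := by
      rw [Finset.card_insert_of_notMem, Finset.card_insert_of_notMem, Finset.card_insert_of_notMem,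
        Finset.card_insert_of_notMem, Finset.card_singleton]
      · simp only [Finset.mem_singleton]
        exact h4.symm
      · simp only [Finset.mem_insert, Finset.mem_singleton, not_or]
        refine ⟨?_, h3.symm⟩
        intro e
        have h7 : A * B = 1 * B := by rw [one_mul]; exact e.symm
        exact hA1 (mul_right_cancel h7)
      · simp only [Finset.mem_insert, Finset.mem_singleton, not_or]
        refine ⟨hAB, ?_, h2.symm⟩
        intro e
        have h7 : A * B = A * 1 := by rw [mul_one]; exact e.symm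
        exact hB1 (mul_left_cancel h7)
      · simp only [Finset.mem_insert, Finset.mem_singleton, not_or]
        refine ⟨hA1.symm, hB1.symm, ?_, h1.symm⟩
        intro e
        have h5 : A * A = 1 := by rw [← pow_two]; exact hVe A hA
        have h6 : B = A := by
          have h7 : A * B = A * A := by
            rw [← e]
            rw [h5]
          exact (mul_left_cancel h7)
        exact hAB h6.symm
    have hsub : ((({1, A, B, A * B, v} : Finset G) : Finset G) : Set G) ⊆ (V : Set G) := by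
      intro w hw
      simp only [Finset.coe_insert, Finset.coe_singleton, Set.mem_insert_iff, Set.mem_singleton_iff] at hw
      rcases hw with rfl | rfl | rfl | rfl | rfl
      · exact V.one_mem
      · exact hA
      · exact hB
      · exact V.mul_mem hA hB
      · exact hv
    have h5 := Set.ncard_le_ncard hsub (Set.toFinite _)
    rw [Set.ncard_coe_finset, hF] at h5
    have h6 : Nat.card V = (V : Set G).ncard := Nat.card_coe_set_eq (V : Set G)
    omega
  have hA2 : A * A = 1 := by rw [← pow_two]; exact hVe A hA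
  have hB2 : B * B = 1 := by rw [← pow_two]; exact hVe B hB
  have hAB' : A * B = B * A := hcomm A hA B hB
  -- `B` inverts `x`
  have hAxc : A * x * A⁻¹ = x := by rw [hAx]; group
  have hByc : B * y * B⁻¹ = y := by rw [hBy]; group
  have hAxi : A * x⁻¹ * A⁻¹ = x⁻¹ := by
    have e : A * x⁻¹ * A⁻¹ = (A * x * A⁻¹)⁻¹ := by group
    rw [e, hAxc]
  have hBx : B * x * B⁻¹ = x⁻¹ := by
    rcases hfour a ha with rfl | rfl | rfl | rfl
    · exact absurd rfl ha1'
    · exact absurd rfl haA
    · exact hax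
    · have e : A * (B * x * B⁻¹) * A⁻¹ = x⁻¹ := by rw [← hax]; group
      have e2 : B * x * B⁻¹ = A⁻¹ * x⁻¹ * A := by rw [← e]; group
      rw [e2]
      calc A⁻¹ * x⁻¹ * A = A⁻¹ * (A * x⁻¹ * A⁻¹) * A := by rw [hAxi]
        _ = x⁻¹ := by group
  have hCx : (A * B) * x * (A * B)⁻¹ = x⁻¹ := by
    calc (A * B) * x * (A * B)⁻¹ = A * (B * x * B⁻¹) * A⁻¹ := by group
      _ = x⁻¹ := by rw [hBx, hAxi]
  have hCy : (A * B) * y * (A * B)⁻¹ = y⁻¹ := by
    calc (A * B) * y * (A * B)⁻¹ = A * (B * y * B⁻¹) * A⁻¹ := by group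
      _ = y⁻¹ := by rw [hByc, hAy]
  have hwo : Odd (orderOf (x * y * x⁻¹)) := odd_orderOf_conj x y hyo
  have hw1 : x * y * x⁻¹ ≠ 1 := by
    intro e
    apply hy1
    have : y = x⁻¹ * (x * y * x⁻¹) * x := by group
    rw [this, e]
    group
  have hAw : A * (x * y * x⁻¹) * A⁻¹ = (x * y * x⁻¹)⁻¹ := by
    calc A * (x * y * x⁻¹) * A⁻¹ = (A * x * A⁻¹) * (A * y * A⁻¹) * (A * x * A⁻¹)⁻¹ := by group
      _ = (x * y * x⁻¹)⁻¹ := by rw [hAxc, hAy]; group
  obtain ⟨W, hW, hW1, hWw⟩ := hS _ A hA hwo hAw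
  have hcomm1 : Commute x y := by
    rcases hfour W hW with rfl | rfl | rfl | rfl
    · exact absurd rfl hW1
    · exact (hno _ _ hw1 hwo hAw hWw).elim
    · have h1 : W * (x * y * x⁻¹) * W⁻¹ = x⁻¹ * y * x := by
        calc W * (x * y * x⁻¹) * W⁻¹ = (W * x * W⁻¹) * (W * y * W⁻¹) * (W * x * W⁻¹)⁻¹ := by group
          _ = x⁻¹ * y * x := by rw [hBx, hByc]; group
      have h2 : W * (x * y * x⁻¹) * W⁻¹ = x * y * x⁻¹ := by rw [hWw]; group
      rw [h1] at h2
      apply commute_of_sq hxo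
      show (x * x) * y = y * (x * x)
      calc (x * x) * y = x * (x * y * x⁻¹) * x := by group
        _ = x * (x⁻¹ * y * x) * x := by rw [h2]
        _ = y * (x * x) := by group
    · have h1 : (A * B) * (x * y * x⁻¹) * (A * B)⁻¹ = x⁻¹ * y⁻¹ * x := by
        calc (A * B) * (x * y * x⁻¹) * (A * B)⁻¹
            = ((A * B) * x * (A * B)⁻¹) * ((A * B) * y * (A * B)⁻¹) * ((A * B) * x * (A * B)⁻¹)⁻¹ := by group
          _ = x⁻¹ * y⁻¹ * x := by rw [hCx, hCy]; group
      have h2 : (A * B) * (x * y * x⁻¹) * (A * B)⁻¹ = x * y * x⁻¹ := by rw [hWw]; group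
      rw [h1] at h2
      have h3 : (x * x) * y * (x * x)⁻¹ = y⁻¹ := by
        calc (x * x) * y * (x * x)⁻¹ = x * (x * y * x⁻¹) * x⁻¹ := by group
          _ = x * (x⁻¹ * y⁻¹ * x) * x⁻¹ := by rw [h2]
          _ = y⁻¹ := by group
      have h4 : Commute ((x * x) * (x * x)) y := by
        show ((x * x) * (x * x)) * y = y * ((x * x) * (x * x))
        have h5 : ((x * x) * (x * x)) * y * ((x * x) * (x * x))⁻¹ = y := conj_sq_of_inv h3
        generalize (x * x) * (x * x) = u at h5 ⊢
        calc u * y = (u * y * u⁻¹) * u := by group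
          _ = y * u := by rw [h5]
      have hxxo : Odd (orderOf (x * x)) := by
        rw [← pow_two]
        exact Odd.of_dvd_nat hxo (orderOf_dvd_of_pow_eq_one (by
          rw [← pow_mul, mul_comm, pow_mul, pow_orderOf_eq_one, one_pow]))
      exact commute_of_sq hxo (commute_of_sq hxxo h4)
  -- the product
  have hxyo : Odd (orderOf (x * y)) := odd_orderOf_mul hcomm1 hxo hyo
  have hCxy : (A * B) * (x * y) * (A * B)⁻¹ = (x * y)⁻¹ := by
    calc (A * B) * (x * y) * (A * B)⁻¹ = ((A * B) * x * (A * B)⁻¹) * ((A * B) * y * (A * B)⁻¹) := by group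
      _ = x⁻¹ * y⁻¹ := by rw [hCx, hCy]
      _ = (x * y)⁻¹ := by rw [hcomm1.eq, mul_inv_rev]
  obtain ⟨W, hW, hW1, hWw⟩ := hS _ (A * B) (V.mul_mem hA hB) hxyo hCxy
  rcases hfour W hW with rfl | rfl | rfl | rfl
  · exact absurd rfl hW1
  · have h1 : W * (x * y) * W⁻¹ = x * y⁻¹ := by
      calc W * (x * y) * W⁻¹ = (W * x * W⁻¹) * (W * y * W⁻¹) := by group
        _ = x * y⁻¹ := by rw [hAxc, hAy]
    have h2 : W * (x * y) * W⁻¹ = x * y := by rw [hWw]; group
    rw [h1] at h2
    have h3 : y⁻¹ = y := mul_left_cancel h2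
    apply hy1
    apply eq_one_of_sq hyo
    nth_rewrite 1 [← h3]
    group
  · have h1 : W * (x * y) * W⁻¹ = x⁻¹ * y := by
      calc W * (x * y) * W⁻¹ = (W * x * W⁻¹) * (W * y * W⁻¹) := by group
        _ = x⁻¹ * y := by rw [hBx, hByc]
    have h2 : W * (x * y) * W⁻¹ = x * y := by rw [hWw]; group
    rw [h1] at h2
    have h3 : x⁻¹ = x := mul_right_cancel h2
    apply hx1
    apply eq_one_of_sq hxo
    nth_rewrite 1 [← h3]
    group
  · by_cases hxy1 : x * y = 1
    · have h5 : y = x⁻¹ := eq_inv_of_mul_eq_one_right hxy1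
      apply hy1
      apply eq_one_of_sq hyo
      have h6 : A * y * A⁻¹ = y := by rw [h5, hAxi]
      rw [hAy] at h6
      nth_rewrite 1 [← h6]
      group
    · exact hno _ _ hxy1 hxyo hCxy hWw

end Cfsg.Agent.S3011
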