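import Cfsg.Statements.S3012
import Cfsg.Agent.Lib.LocalEven2.Sylow
import Cfsg.Prelude.Def_SubgroupEmbedding
import Cfsg.Prelude.Def_Transfer
-- import your own Cfsg.Agent.* helpers here

set_option autoImplicit false
open Cfsg

namespace Cfsg.Agent.S3012

open Cfsg.Agent.Lib.LocalEven2 Cfsg.Agent.Lib.LocalEven Cfsg.Agent.Lib.Coprime Cfsg Cfsg.Agent.Lib.Basic

/-- A square root in the cyclic group of an odd-order element. -/
theorem commute_of_commute_sq {G : Type*} [Group G] {w h : G} (hh : Odd (orderOf h)) (hc : Commute w (h ^ 2)) :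
    Commute w h := by
  have hcop : Nat.Coprime 2 (orderOf h) := Nat.coprime_two_left.2 hh
  obtain ⟨m, hm⟩ := exists_pow_eq_self_of_coprime hcop
  rw [← hm]
  exact hc.pow_right m

/-- Let G be a finite group, V a nontrivial elementary abelian 2-subgroup of G satisfying the Sidki pair condition (every odd-order element inverted by an element of V commutes with a nontrivial element of V), and K a normal subgroup of G with V ∩ K = 1. Then the image of V in G/K satisfies the Sidki pair condition in G/K. -/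
theorem result {G : Type*} [Group G] [Finite G] (V K : Subgroup G) [K.Normal] (hV : Cfsg.IsElementaryAbelian 2 V) (hV1 : V ≠ ⊥) (hS : Cfsg.IsSidkiPair V) (hVK : V ⊓ K = ⊥) : Cfsg.IsSidkiPair (V.map (QuotientGroup.mk' K)) := by
  have : Fact (Nat.Prime 2) := ⟨Nat.prime_two⟩
  intro hbar vbar hvbar hodd hinv
  obtain ⟨v, hv, rfl⟩ := hvbar
  obtain ⟨c, rfl⟩ := QuotientGroup.mk'_surjective K hbar
  set π := QuotientGroup.mk' K with hπ
  have hv2 : v * v = 1 := by
    have := hV.2 v hv
    rwa [pow_two] at this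
  have hvi : v⁻¹ = v := inv_eq_of_mul_eq_one_left hv2
  set v' := c * v * c⁻¹ with hv'
  have hv'i : v'⁻¹ = v' := by
    rw [hv']
    calc (c * v * c⁻¹)⁻¹ = c * v⁻¹ * c⁻¹ := by group
      _ = _ := by rw [hvi]
  set x := v * v' with hx
  have hxinv : v * x * v⁻¹ = x⁻¹ := by
    rw [hx, hvi]
    have : (v * v')⁻¹ = v' * v := by rw [mul_inv_rev, hv'i, hvi]
    rw [this]
    calc v * (v * v') * v = (v * v) * v' * v := by group
      _ = v' * v := by rw [hv2, one_mul]
  have hπvi : (π v)⁻¹ = π v := by rw [← map_inv, hvi]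
  have hπx : π x = ((π c) ^ 2)⁻¹ := by
    rw [hx, hv', map_mul, map_mul, map_mul, map_inv]
    have h1 : π v * π c * π v = (π c)⁻¹ := by
      have := hinv
      rwa [hπvi] at this
    rw [pow_two]
    calc π v * (π c * π v * (π c)⁻¹) = (π v * π c * π v) * (π c)⁻¹ := by group
      _ = (π c)⁻¹ * (π c)⁻¹ := by rw [h1]
      _ = _ := by group
  obtain ⟨u, w, huw, hu, hw, huo, hwo, _⟩ := exists_p_decomp (p := 2) x (isOfFinOrder_of_finite x)
  have hwinv : v * w * v⁻¹ = w⁻¹ := by
    obtain ⟨k, rfl⟩ := Subgroup.mem_zpowers_iff.1 hw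
    rw [← conj_zpow, hxinv, inv_zpow]
  have hwodd : Odd (orderOf w) := Nat.coprime_two_right.1 hwo
  obtain ⟨y, hy, hy1, hyw⟩ := hS w v hv hwodd hwinv
  have hπu : π u = 1 := by
    obtain ⟨k, hk⟩ := Subgroup.mem_zpowers_iff.1 hu
    obtain ⟨t, ht⟩ := huo
    have h1 : orderOf (π u) ∣ 2 ^ t := by
      rw [← ht]; exact orderOf_map_dvd π u
    have h2 : orderOf (π u) ∣ orderOf (π c) := by
      apply orderOf_dvd_of_pow_eq_one
      have h0 : ((π c ^ 2)⁻¹) ^ orderOf (π c) = 1 := by
        rw [inv_pow, ← pow_mul, mul_comm, pow_mul, pow_orderOf_eq_one]; simp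
      rw [← hk, map_zpow, hπx, ← zpow_natCast, ← zpow_mul, mul_comm, zpow_mul, zpow_natCast, h0, one_zpow]
    have h3 : Nat.Coprime (orderOf (π u)) (2 ^ t) := by
      apply Nat.Coprime.pow_right
      exact Nat.coprime_two_right.2 (Odd.of_dvd_nat hodd h2)
    have h4 := Nat.Coprime.eq_one_of_dvd h3 h1
    exact orderOf_eq_one_iff.1 h4
  have hπw : π w = ((π c) ^ 2)⁻¹ := by
    rw [← hπx, huw, map_mul, hπu, one_mul]
  refine ⟨π y, ⟨y, hy, rfl⟩, ?_, ?_⟩
  · intro h1
    apply hy1
    have h2 : y ∈ K := (QuotientGroup.eq_one_iff y).1 h1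
    have h3 : y ∈ V ⊓ K := Subgroup.mem_inf.2 ⟨hy, h2⟩
    rw [hVK, Subgroup.mem_bot] at h3
    exact h3
  · have h1 : Commute (π y) (π w) := by
      show π y * π w = π w * π y
      rw [← map_mul, ← map_mul, hyw]
    rw [hπw] at h1
    have h2 : Commute (π y) ((π c) ^ 2) := by simpa using h1.inv_right
    exact (commute_of_commute_sq hodd h2).eq

end Cfsg.Agent.S3012
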