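import Cfsg.Statements.S3013
import Cfsg.Agent.Lib.LocalEven2.Sylow
import Cfsg.Prelude.Def_SubgroupEmbedding
import Cfsg.Prelude.Def_Transfer
-- import your own Cfsg.Agent.* helpers here

set_option autoImplicit false
open Cfsg

namespace Cfsg.Agent.S3013

open Cfsg.Agent.Lib.LocalEven2 Cfsg.Agent.Lib.LocalEven Cfsg.Agent.Lib.Coprime Cfsg Cfsg.Agent.Lib.Basic

/-- A square root in the cyclic group of an odd-order element. -/
theorem commute_of_commute_sq {G : Type*} [Group G] {w h : G} (hh : Odd (orderOf h)) (hc : Commute w (h ^ 2)) :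
    Commute w h := by
  have hcop : Nat.Coprime 2 (orderOf h) := Nat.coprime_two_left.2 hh
  obtain ⟨m, hm⟩ := exists_pow_eq_self_of_coprime hcop
  rw [← hm]
  exact hc.pow_right m

/-- Let G be a finite group and V a nontrivial elementary abelian 2-subgroup of G satisfying the Sidki pair condition. Let v ∈ V and let x be an element of odd order inverted by v, and put C = C_G(v) ∩ C_G(x), the centralizer of the dihedral subgroup generated by v and x. Then C ∩ V is nontrivial and satisfies the Sidki pair condition inside C: every odd-order element of C inverted by an element of C ∩ V commutes with a nontrivial element of C ∩ V. -/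
theorem result {G : Type*} [Group G] [Finite G] (V : Subgroup G) (hV : Cfsg.IsElementaryAbelian 2 V) (hV1 : V ≠ ⊥) (hS : Cfsg.IsSidkiPair V) (v x : G) (hv : v ∈ V) (hx : Odd (orderOf x)) (hinv : v * x * v⁻¹ = x⁻¹) (C : Subgroup G) (hC : C = Subgroup.centralizer ({v} : Set G) ⊓ Subgroup.centralizer ({x} : Set G)) : C ⊓ V ≠ ⊥ ∧ Cfsg.IsSidkiPair ((C ⊓ V).subgroupOf C) := by
  have hab : ∀ a ∈ V, ∀ b ∈ V, Commute a b := by
    intro a ha b hb
    have := hV.1.is_comm.comm (⟨a, ha⟩ : V) ⟨b, hb⟩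
    exact congrArg Subtype.val this
  constructor
  · obtain ⟨w, hw, hw1, hwx⟩ := hS x v hv hx hinv
    intro e
    have h1 : w ∈ C ⊓ V := by
      rw [hC]
      refine Subgroup.mem_inf.2 ⟨Subgroup.mem_inf.2 ⟨?_, ?_⟩, hw⟩
      · exact Subgroup.mem_centralizer_singleton_iff.2 (hab w hw v hv).eq
      · exact Subgroup.mem_centralizer_singleton_iff.2 hwx
    rw [e, Subgroup.mem_bot] at h1
    exact hw1 h1
  · intro h v₁ hv₁ hodd hinv₁
    have hv₁' : (v₁ : G) ∈ C ⊓ V := hv₁
    have hv₁V : (v₁ : G) ∈ V := (Subgroup.mem_inf.1 hv₁').2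
    have hv₁C : (v₁ : G) ∈ Subgroup.centralizer ({v} : Set G) ⊓ Subgroup.centralizer ({x} : Set G) := by
      rw [← hC]; exact (Subgroup.mem_inf.1 hv₁').1
    have hhC : (h : G) ∈ Subgroup.centralizer ({v} : Set G) ⊓ Subgroup.centralizer ({x} : Set G) := by
      rw [← hC]; exact h.2
    have hhv : (h : G) * v = v * h := Subgroup.mem_centralizer_singleton_iff.1 (Subgroup.mem_inf.1 hhC).1
    have hhx : (h : G) * x = x * h := Subgroup.mem_centralizer_singleton_iff.1 (Subgroup.mem_inf.1 hhC).2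
    have hv₁x : (v₁ : G) * x = x * v₁ := Subgroup.mem_centralizer_singleton_iff.1 (Subgroup.mem_inf.1 hv₁C).2
    have hodd' : Odd (orderOf (h : G)) := by rwa [Subgroup.orderOf_coe]
    have hinv₁' : (v₁ : G) * h * (v₁ : G)⁻¹ = (h : G)⁻¹ := by
      have := congrArg Subtype.val hinv₁
      simpa using this
    have hcomm : Commute (h : G) x := hhx
    -- `h x` has odd order, inverted by `v₁ v`.
    have hoddhx : Odd (orderOf ((h : G) * x)) := by
      have hdvd : orderOf ((h : G) * x) ∣ orderOf (h : G) * orderOf x := hcomm.orderOf_mul_dvd_mul_orderOf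
      exact Odd.of_dvd_nat (hodd'.mul hx) hdvd
    have hinvhx : ((v₁ : G) * v) * ((h : G) * x) * ((v₁ : G) * v)⁻¹ = ((h : G) * x)⁻¹ := by
      have e1 : v * (h : G) * v⁻¹ = h := by rw [← hhv]; group
      have e2 : (v₁ : G) * x⁻¹ * (v₁ : G)⁻¹ = x⁻¹ := by
        have : (v₁ : G) * x * (v₁ : G)⁻¹ = x := by rw [hv₁x]; group
        have h3 : (v₁ : G) * x⁻¹ * (v₁ : G)⁻¹ = ((v₁ : G) * x * (v₁ : G)⁻¹)⁻¹ := by group
        rw [h3, this]
      calc ((v₁ : G) * v) * ((h : G) * x) * ((v₁ : G) * v)⁻¹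
          = (v₁ : G) * (v * (h : G) * v⁻¹) * (v₁ : G)⁻¹ * ((v₁ : G) * (v * x * v⁻¹) * (v₁ : G)⁻¹) := by group
        _ = (h : G)⁻¹ * x⁻¹ := by rw [e1, hinv, e2, hinv₁']
        _ = x⁻¹ * (h : G)⁻¹ := by
            have := (hcomm.inv_inv).eq
            exact this
        _ = ((h : G) * x)⁻¹ := by group
    obtain ⟨w, hw, hw1, hwc⟩ := hS ((h : G) * x) ((v₁ : G) * v) (V.mul_mem hv₁V hv) hoddhx hinvhx
    have hwv : Commute w v := hab w hw v hv
    -- `w` commutes with `h x⁻¹`.
    have hwc' : Commute w ((h : G) * x⁻¹) := by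
      have h1 : Commute (v * w * v⁻¹) (v * ((h : G) * x) * v⁻¹) := by
        have : Commute w ((h : G) * x) := hwc
        show _ = _
        calc (v * w * v⁻¹) * (v * ((h : G) * x) * v⁻¹) = v * (w * ((h : G) * x)) * v⁻¹ := by group
          _ = v * (((h : G) * x) * w) * v⁻¹ := by rw [this.eq]
          _ = _ := by group
      have e1 : v * w * v⁻¹ = w := by rw [hwv.symm.eq]; group
      have e2 : v * ((h : G) * x) * v⁻¹ = (h : G) * x⁻¹ := by
        rw [← hinv, ← mul_assoc]
        have : v * (h : G) = (h : G) * v := hhv.symm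
        rw [this]; group
      rwa [e1, e2] at h1
    have hwcomm : Commute w ((h : G) * x) := hwc
    have h1 : Commute w ((h : G) ^ 2) := by
      have e : (h : G) ^ 2 = ((h : G) * x) * ((h : G) * x⁻¹) := by
        calc (h : G) ^ 2 = (h : G) * ((h : G) * x) * x⁻¹ := by rw [pow_two]; group
          _ = (h : G) * (x * (h : G)) * x⁻¹ := by rw [hhx]
          _ = _ := by group
      rw [e]
      exact hwcomm.mul_right hwc'
    have h2 : Commute w (x ^ 2) := by
      have e : x ^ 2 = ((h : G) * x⁻¹)⁻¹ * ((h : G) * x) := by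
        rw [pow_two]; group
      rw [e]
      exact hwc'.inv_right.mul_right hwcomm
    have hwh := commute_of_commute_sq hodd' h1
    have hwx := commute_of_commute_sq hx h2
    have hwC : w ∈ C := by
      rw [hC]
      exact Subgroup.mem_inf.2 ⟨Subgroup.mem_centralizer_singleton_iff.2 hwv.eq,
        Subgroup.mem_centralizer_singleton_iff.2 hwx.eq⟩
    refine ⟨⟨w, hwC⟩, ?_, ?_, ?_⟩
    · exact Subgroup.mem_inf.2 ⟨hwC, hw⟩
    · intro e
      exact hw1 (congrArg Subtype.val e)
    · apply Subtype.ext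
      exact hwh.eq

end Cfsg.Agent.S3013
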