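import Cfsg.Statements.S3020
import Cfsg.Agent.Lib.LocalEven2.Sylow
import Cfsg.Prelude.Def_SubgroupEmbedding
-- import your own Cfsg.Agent.* helpers here

set_option autoImplicit false
open Cfsg

namespace Cfsg.Agent.S3020

open Cfsg.Agent.Lib.LocalEven2 Cfsg.Agent.Lib.LocalEven Cfsg.Agent.Lib.Coprime Cfsg Cfsg.Agent.Lib.Basic

/-- Normalizer in a subgroup, back in the ambient group. -/
theorem coe_mem_normalizer_of_mem {G : Type*} [Group G] [Finite G] {H T : Subgroup G} (hHT : H ≤ T) {a : T}
    (ha : a ∈ Subgroup.normalizer ((H.subgroupOf T : Subgroup T) : Set T)) :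
    (a : G) ∈ Subgroup.normalizer (H : Set G) := by
  apply mem_normalizer_of_conj_le
  intro x hx
  have h1 : (⟨x, hHT hx⟩ : T) ∈ H.subgroupOf T := hx
  have h2 := (Subgroup.mem_normalizer_iff.1 ha _).1 h1
  exact h2

/-- Let G be a finite group, p a prime and H an abelian p-subgroup of G that is extremely closed (for every g, the subgroup generated by H and g H g⁻¹ meets N_G(H) exactly in H). Then for every g ∈ G, the subgroup T generated by H and g H g⁻¹ is the product of H with O_{p'}(T), and H meets O_{p'}(T) trivially; that is, O_{p'}(T) is a normal p-complement of H in T. -/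
theorem result {G : Type*} [Group G] [Finite G] {p : ℕ} [Fact p.Prime] (H : Subgroup G) (hHp : IsPGroup p H) (hHab : IsMulCommutative H) (hcl : Cfsg.IsExtremelyClosed H) (g : G) (T : Subgroup G) (hT : T = H ⊔ H.map (MulAut.conj g).toMonoidHom) : H ⊔ (Cfsg.pPrimeCore p ↥T).map T.subtype = T ∧ H ⊓ (Cfsg.pPrimeCore p ↥T).map T.subtype = ⊥ := by
  have hHT : H ≤ T := by rw [hT]; exact le_sup_left
  have hcl' : T ⊓ Subgroup.normalizer (H : Set G) = H := by rw [hT]; exact hcl g
  set H' : Subgroup T := H.subgroupOf T with hH'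
  have hH'p : IsPGroup p H' := hHp.of_equiv (Subgroup.subgroupOfEquivOfLe hHT).symm
  have hnorm : ∀ a : T, a ∈ Subgroup.normalizer ((H' : Subgroup T) : Set T) → a ∈ H' := by
    intro a ha
    have h1 := coe_mem_normalizer_of_mem hHT ha
    have h2 : (a : G) ∈ T ⊓ Subgroup.normalizer (H : Set G) := Subgroup.mem_inf.2 ⟨a.2, h1⟩
    rw [hcl'] at h2
    exact h2
  obtain ⟨P, hP⟩ := hH'p.exists_le_sylow
  have hPeq : (P : Subgroup T) = H' := by
    by_contra hne
    have hlt : H' < (P : Subgroup T) := lt_of_le_of_ne hP (Ne.symm hne)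
    obtain ⟨a, ha, ha'⟩ := SetLike.exists_of_lt (lt_inf_normalizer_of_lt P.isPGroup' hlt)
    exact ha' (hnorm a (Subgroup.mem_inf.1 ha).2)
  have hcomm : Subgroup.normalizer (((P : Subgroup T)) : Set T) ≤ Subgroup.centralizer ((P : Subgroup T) : Set T) := by
    intro a ha
    rw [hPeq] at ha ⊢
    have h1 := hnorm a ha
    rw [Subgroup.mem_centralizer_iff]
    intro b hb
    apply Subtype.ext
    have h2 := hHab.is_comm.comm (⟨b, hb⟩ : H) ⟨a, h1⟩
    have h3 := congrArg Subtype.val h2
    exact h3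
  have hcompl := MonoidHom.ker_transferSylow_isComplement' P hcomm
  have hnd := MonoidHom.not_dvd_card_ker_transferSylow P hcomm
  set K := (MonoidHom.transferSylow P hcomm).ker with hK
  have hpp : p.Prime := Fact.out
  have hKle : K ≤ pPrimeCore p T := by
    apply le_pPrimeCore (by rw [hK]; infer_instance)
    exact ((Nat.Prime.coprime_iff_not_dvd hpp).2 hnd).symm
  have hsup : K ⊔ H' = ⊤ := by
    rw [← hPeq]
    exact hcompl.sup_eq_top
  constructor
  · apply le_antisymm
    · apply sup_le hHT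
      rintro _ ⟨x, _, rfl⟩
      exact x.2
    · intro t ht
      have h1 : (⟨t, ht⟩ : T) ∈ K ⊔ H' := by rw [hsup]; trivial
      have h2 : K ⊔ H' ≤ (pPrimeCore p T ⊔ H' : Subgroup T) := sup_le_sup_right hKle _
      have h3 : (pPrimeCore p T ⊔ H' : Subgroup T) ≤ (H ⊔ (pPrimeCore p T).map T.subtype).comap T.subtype := by
        apply sup_le
        · intro y hy
          exact Subgroup.mem_sup_right ⟨y, hy, rfl⟩
        · intro y hy
          exact Subgroup.mem_sup_left hy
      exact h3 (h2 h1)
  · rw [eq_bot_iff]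
    rintro x hx
    obtain ⟨hx1, y, hy, rfl⟩ := Subgroup.mem_inf.1 hx
    rw [Subgroup.mem_bot]
    apply eq_one_of_coprime_of_pPower (orderOf_of_mem_isPGroup hHp hx1)
    have h1 : orderOf (T.subtype y) = orderOf y := Subgroup.orderOf_coe y
    rw [h1]
    have h2 : orderOf y = orderOf (⟨y, hy⟩ : pPrimeCore p T) := (Subgroup.orderOf_mk y hy).symm
    rw [h2]
    exact Nat.Coprime.coprime_dvd_left (orderOf_dvd_natCard _) (pPrimeCore_coprime p)

end Cfsg.Agent.S3020
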