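import Cfsg.Statements.S3021
import Cfsg.Agent.Lib.LocalEven2.Sylow
import Cfsg.Prelude.Def_TwoFusion
-- import your own Cfsg.Agent.* helpers here

set_option autoImplicit false
open Cfsg

namespace Cfsg.Agent.S3021

open Cfsg.Agent.Lib.LocalEven2 Cfsg.Agent.Lib.LocalEven Cfsg.Agent.Lib.Coprime Cfsg

/-- If `g H g⁻¹ ≤ N(H)` then `g` normalizes `H`. -/
theorem mem_normalizer_of_conj_le_normalizer {G : Type*} [Group G] [Finite G] {H : Subgroup G}
    (hcl : IsExtremelyClosed H) {g : G}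
    (h : H.map (MulAut.conj g).toMonoidHom ≤ Subgroup.normalizer (H : Set G)) :
    g ∈ Subgroup.normalizer (H : Set G) := by
  apply mem_normalizer_of_conj_le
  intro x hx
  have h1 : g * x * g⁻¹ ∈ H.map (MulAut.conj g).toMonoidHom := ⟨x, hx, rfl⟩
  have h2 := hcl g
  rw [← h2]
  exact Subgroup.mem_inf.2 ⟨Subgroup.mem_sup_right h1, h h1⟩

/-- Let G be a finite group, p a prime and H a p-subgroup of G that is extremely closed (for every g, the subgroup generated by H and g H g⁻¹ meets N_G(H) exactly in H). Then every p-subgroup Q of G containing H has N_G(Q) ≤ N_G(H); in particular every Sylow p-subgroup P of G containing H normalizes H, and H is strongly closed in P with respect to G. -/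
theorem result {G : Type*} [Group G] [Finite G] {p : ℕ} [Fact p.Prime] (H : Subgroup G) (hHp : IsPGroup p H) (hcl : Cfsg.IsExtremelyClosed H) : (∀ Q : Subgroup G, IsPGroup p Q → H ≤ Q → Subgroup.normalizer (Q : Set G) ≤ Subgroup.normalizer (H : Set G)) ∧ ∀ P : Sylow p G, H ≤ (P : Subgroup G) → (P : Subgroup G) ≤ Subgroup.normalizer (H : Set G) ∧ Cfsg.IsStronglyClosed H (P : Subgroup G) := by
  have hQn : ∀ Q : Subgroup G, IsPGroup p Q → H ≤ Q → Q ≤ Subgroup.normalizer (H : Set G) := by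
    intro Q hQ hHQ
    by_contra hne
    set C : Subgroup G := Q ⊓ Subgroup.normalizer (H : Set G) with hC
    have hlt : C < Q := by
      refine lt_of_le_of_ne inf_le_left ?_
      intro e
      apply hne
      rw [← e]
      exact inf_le_right
    obtain ⟨y, hy, hy'⟩ := SetLike.exists_of_lt (lt_inf_normalizer_of_lt hQ hlt)
    apply hy'
    refine Subgroup.mem_inf.2 ⟨hy.1, ?_⟩
    apply mem_normalizer_of_conj_le_normalizer hcl
    rintro _ ⟨x, hx, rfl⟩
    have hxC : x ∈ C := Subgroup.mem_inf.2 ⟨hHQ hx, Subgroup.le_normalizer hx⟩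
    have h1 := (Subgroup.mem_normalizer_iff.1 hy.2 x).1 hxC
    exact (Subgroup.mem_inf.1 h1).2
  have hN : ∀ Q : Subgroup G, IsPGroup p Q → H ≤ Q → Subgroup.normalizer (Q : Set G) ≤ Subgroup.normalizer (H : Set G) := by
    intro Q hQ hHQ g hg
    apply mem_normalizer_of_conj_le_normalizer hcl
    rintro _ ⟨x, hx, rfl⟩
    exact hQn Q hQ hHQ ((Subgroup.mem_normalizer_iff.1 hg x).1 (hHQ hx))
  refine ⟨hN, fun P hP => ⟨hQn _ P.isPGroup' hP, hP, ?_⟩⟩
  intro x hx g hg
  have h1 : g * x * g⁻¹ ∈ H.map (MulAut.conj g).toMonoidHom := ⟨x, hx, rfl⟩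
  have h2 := hcl g
  rw [← h2]
  exact Subgroup.mem_inf.2 ⟨Subgroup.mem_sup_right h1, hQn _ P.isPGroup' hP hg⟩

end Cfsg.Agent.S3021
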