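import Cfsg.Statements.S3023
import Cfsg.Agent.Lib.LocalEven.CharPFacts
import Cfsg.Agent.Lib.TwoFusion.QTSetup
import Cfsg.Agent.Lib.Basic.Misc2
-- import your own Cfsg.Agent.* helpers here

set_option autoImplicit false
open Cfsg

namespace Cfsg.Agent.S3023

open Cfsg.Agent.Lib.LocalEven Cfsg.Agent.Lib.Components Cfsg.Agent.Lib.Basic in
theorem aux {G : Type*} [Group G] [Finite G] {p : ℕ} [Fact p.Prime] (hG : Cfsg.IsOfParabolicCharacteristic p G) (S : Sylow p G) (G₁ : Subgroup G) (hsn : G₁.IsSubnormal)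
    (hle : ((S : Subgroup G) ⊓ G₁) ⊓ Subgroup.centralizer (((S : Subgroup G) ⊓ G₁ : Subgroup G) : Set G) ≤ (S : Subgroup G) ⊓ Subgroup.centralizer ((S : Subgroup G) : Set G)) : Cfsg.IsOfParabolicCharacteristic p ↥G₁ := by
  have hp : p.Prime := Fact.out
  intro R hRp hR1 hRpar
  obtain ⟨T₁, hT₁⟩ := hRpar
  set N₁ := Subgroup.normalizer (R : Set ↥G₁) with hN₁
  -- `R ≤ T₁`
  have hRT : R ≤ T₁ := Cfsg.Agent.Lib.LocalEven2.le_sylow_of_le_normalizer hRp T₁ hT₁
  -- compare `T₁` and `S ∩ G₁`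
  obtain ⟨S₁, hS₁⟩ := sylow_inf_of_isSubnormal p G₁ hsn S
  have hS₁' : (S₁ : Subgroup ↥G₁).map G₁.subtype = (S : Subgroup G) ⊓ G₁ := by
    rw [hS₁, Subgroup.subgroupOf_map_subtype]
  obtain ⟨h, hh⟩ := exists_sylow_conj S₁ T₁
  obtain ⟨z, hzR, hzo, hzc⟩ := exists_central_order_p T₁.isPGroup' hRp hT₁ hR1
  have hzT : z ∈ (T₁ : Subgroup ↥G₁) := hRT hzR
  have hz1 : z ≠ 1 := by
    rintro rfl
    rw [orderOf_one] at hzo
    exact hp.one_lt.ne hzo
  have hzp : z ^ p = 1 := by rw [← hzo]; exact pow_orderOf_eq_one z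
  set z₀ : ↥G₁ := h⁻¹ * z * h with hz₀
  have hz₀S : z₀ ∈ (S₁ : Subgroup ↥G₁) := by
    rw [hh] at hzT
    exact mem_cj.1 hzT
  have hz₀c : ∀ s ∈ (S₁ : Subgroup ↥G₁), s * z₀ = z₀ * s := by
    intro s hs
    have h1 : h * s * h⁻¹ ∈ (T₁ : Subgroup ↥G₁) := by
      rw [hh]; exact conj_mem_cj hs
    have h2 := hzc _ h1
    calc s * z₀ = h⁻¹ * ((h * s * h⁻¹) * z) * h := by rw [hz₀]; group
      _ = h⁻¹ * (z * (h * s * h⁻¹)) * h := by rw [h2]
      _ = z₀ * s := by rw [hz₀]; group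
  -- `z₀` is central in `S`
  have hmem₀ : (z₀ : G) ∈ ((S : Subgroup G) ⊓ G₁) ⊓
      Subgroup.centralizer (((S : Subgroup G) ⊓ G₁ : Subgroup G) : Set G) := by
    refine ⟨?_, ?_⟩
    · rw [← hS₁']; exact ⟨z₀, hz₀S, rfl⟩
    · apply Subgroup.mem_centralizer_iff.2
      intro s hs
      rw [← hS₁'] at hs
      obtain ⟨s', hs', rfl⟩ := hs
      exact congrArg Subtype.val (hz₀c s' hs')
  have hmem₁ := hle hmem₀
  have hz₀S' : (z₀ : G) ∈ (S : Subgroup G) := hmem₁.1
  have hz₀cS : ∀ s ∈ (S : Subgroup G), s * (z₀ : G) = (z₀ : G) * s :=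
    fun s hs => Subgroup.mem_centralizer_iff.1 hmem₁.2 s hs
  have hz₀1 : (z₀ : G) ≠ 1 := by
    intro e
    apply hz1
    have h1 : z₀ = 1 := Subtype.ext e
    have e2 : z = h * z₀ * h⁻¹ := by rw [hz₀]; group
    rw [e2, h1]
    group
  have hz₀p : (z₀ : G) ^ p = 1 := by
    exact congrArg Subtype.val (show z₀ ^ p = 1 by
        rw [hz₀, show h⁻¹ * z * h = h⁻¹ * z * h⁻¹⁻¹ by group, conj_pow, hzp]; group)
  have hA₀ := isPType_centralizer_of_parabolic hG S hz₀1 hz₀S' hz₀p hz₀cS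
  -- conjugate: `z` in `G`
  have hA := isPType_centralizer_conj (h : G) (z₀ : G) hA₀
  have ez : (h : G) * (z₀ : G) * (h : G)⁻¹ = (z : G) := by
    have e2 : z = h * z₀ * h⁻¹ := by rw [hz₀]; group
    rw [e2]
    rfl
  rw [ez] at hA
  set A := Subgroup.centralizer ({(z : G)} : Set G) with hAdef
  -- `C_{G₁}(z)`
  set A₁ := Subgroup.centralizer ({z} : Set ↥G₁) with hA₁
  have hL₁ : IsPType p ↥(G₁.subgroupOf A) :=
    Cfsg.Agent.Lib.TwoFusion.isPType_of_subnormal hA hsn.subgroupOf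
  have hA₁P : IsPType p ↥A₁ := by
    refine isPType_congr (?_ : ↥(G₁.subgroupOf A) ≃* ↥A₁) hL₁
    exact
      { toFun := fun y => ⟨⟨y.1.1, y.2⟩, by
          rw [hA₁, Subgroup.mem_centralizer_singleton_iff]
          apply Subtype.ext
          exact Subgroup.mem_centralizer_singleton_iff.1 y.1.2⟩
        invFun := fun x => ⟨⟨x.1.1, by
          rw [hAdef, Subgroup.mem_centralizer_singleton_iff]
          have := Subgroup.mem_centralizer_singleton_iff.1 x.2
          exact congrArg Subtype.val this⟩, x.1.2⟩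
        left_inv := fun y => rfl
        right_inv := fun x => rfl
        map_mul' := fun _ _ => rfl }
  -- `T₁ ≤ A₁`, `T₁ ≤ N₁`
  have hT₁A₁ : (T₁ : Subgroup ↥G₁) ≤ A₁ := by
    intro t ht
    rw [hA₁, Subgroup.mem_centralizer_singleton_iff]
    exact hzc t ht
  have hD' : IsPType p ↥(N₁.subgroupOf A₁) := by
    apply isPType_of_pCore_normalizes hA₁P
    intro x hx
    have h5 : pCoreOf p A₁ ≤ T₁ := Cfsg.Agent.Lib.LocalEven2.le_sylow_of_le_normalizer
      (pCoreOf_isPGroup _) T₁ (hT₁A₁.trans (le_normalizer_pCoreOf _))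
    have h6 : x ∈ N₁.subgroupOf A₁ := Subgroup.mem_subgroupOf.2 (hT₁ (h5 ⟨x, hx, rfl⟩))
    exact Subgroup.le_normalizer h6
  have hD : IsPType p ↥(A₁.subgroupOf N₁) := by
    refine isPType_congr (?_ : ↥(N₁.subgroupOf A₁) ≃* ↥(A₁.subgroupOf N₁)) hD'
    exact
      { toFun := fun y => ⟨⟨y.1.1, y.2⟩, y.1.2⟩
        invFun := fun x => ⟨⟨x.1.1, x.2⟩, x.1.2⟩
        left_inv := fun y => rfl
        right_inv := fun x => rfl
        map_mul' := fun _ _ => rfl }
  have hRn : (R.subgroupOf N₁).Normal :=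
    (Subgroup.normal_subgroupOf_iff_le_normalizer Subgroup.le_normalizer).mpr le_rfl
  have hfin : IsPType p ↥N₁ := by
    refine isPType_of_centralizer_le (T := R.subgroupOf N₁) hRn (isPGroup_subgroupOf hRp) ?_ hD
    intro x hx
    rw [Subgroup.mem_subgroupOf, hA₁, Subgroup.mem_centralizer_singleton_iff]
    have h5 := Subgroup.mem_centralizer_iff.mp hx ⟨z, Subgroup.le_normalizer hzR⟩ (by
      rw [SetLike.mem_coe, Subgroup.mem_subgroupOf]; exact hzR)
    exact (congrArg Subtype.val h5).symm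
  exact cp_iff_isPType.2 hfin

/-- Let p be a prime, G a finite group of parabolic characteristic p (every p-local subgroup containing a Sylow p-subgroup of G has characteristic p), S a Sylow p-subgroup of G and G₁ a subnormal subgroup of G. If the centre of S ∩ G₁ is nontrivial and contained in the centre of S, then G₁ has parabolic characteristic p. -/
theorem result {G : Type*} [Group G] [Finite G] {p : ℕ} [Fact p.Prime] (hG : Cfsg.IsOfParabolicCharacteristic p G) (S : Sylow p G) (G₁ : Subgroup G) (hsn : G₁.IsSubnormal) (hne : ((S : Subgroup G) ⊓ G₁) ⊓ Subgroup.centralizer (((S : Subgroup G) ⊓ G₁ : Subgroup G) : Set G) ≠ ⊥) (hle : ((S : Subgroup G) ⊓ G₁) ⊓ Subgroup.centralizer (((S : Subgroup G) ⊓ G₁ : Subgroup G) : Set G) ≤ (S : Subgroup G) ⊓ Subgroup.centralizer ((S : Subgroup G) : Set G)) : Cfsg.IsOfParabolicCharacteristic p ↥G₁ := by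
  exact aux hG S G₁ hsn hle

end Cfsg.Agent.S3023
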