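import Cfsg.Statements.S3025
import Cfsg.Agent.Lib.OddLocal.UniqueP2
import Cfsg.Agent.Lib.OddLocal.UniqueP
import Cfsg.Agent.Lib.Coprime.Conj
import Cfsg.Agent.Lib.PGroups.Parts
-- import your own Cfsg.Agent.* helpers here

set_option autoImplicit false
open Cfsg

namespace Cfsg.Agent.S3025

open Cfsg.Agent.Lib.OddLocal Cfsg.Agent.Lib.Coprime

set_option linter.style.haveILetI false

variable {F : Type*} [Group F] [Finite F]

/-- The normal closure of `H` is simple. -/
theorem simple_closure (H : Subgroup F) (hH : H ≠ ⊥)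
    (hmin : ∀ R : Subgroup F, R ≠ ⊥ → H ≤ Subgroup.normalizer (R : Set F) → H ≤ R) :
    IsSimpleGroup ↥(Subgroup.normalClosure (H : Set F)) := by
  set N := Subgroup.normalClosure (H : Set F) with hN
  have hNn : N.Normal := Subgroup.normalClosure_normal
  have hHN : H ≤ N := Subgroup.subset_normalClosure
  have hNb : N ≠ ⊥ := fun e => hH (le_bot_iff.1 (e ▸ hHN))
  haveI : Nontrivial ↥N := (Subgroup.nontrivial_iff_ne_bot N).2 hNb
  refine ⟨fun K hK => ?_⟩
  by_cases hb : K = ⊥
  · exact Or.inl hb
  right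
  set K' : Subgroup F := K.map N.subtype with hK'
  have hK'b : K' ≠ ⊥ := by
    intro e
    rw [hK', Subgroup.map_eq_bot_iff_of_injective _ N.subtype_injective] at e
    exact hb e
  have hle : N ≤ K' := by
    rw [hN, Subgroup.normalClosure, Subgroup.closure_le]
    intro y hy
    rw [Group.mem_conjugatesOfSet_iff] at hy
    obtain ⟨h, hh, hc⟩ := hy
    rw [isConj_iff] at hc
    obtain ⟨g, rfl⟩ := hc
    -- apply minimality to the conjugate of `K'`.
    have hconj : H ≤ K'.map (MulAut.conj g⁻¹).toMonoidHom := by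
      apply hmin
      · intro e
        rw [Subgroup.map_eq_bot_iff_of_injective _ (MulAut.conj g⁻¹).injective] at e
        exact hK'b e
      · intro a ha
        apply Cfsg.Agent.Lib.PGroups.mem_normalizer_of_conj_le'
        intro w hw
        rw [mem_conj_map] at hw ⊢
        obtain ⟨k, hk, hke⟩ := hw
        have hga : g * a * g⁻¹ ∈ N := hNn.conj_mem a (hHN ha) g
        refine ⟨⟨g * a * g⁻¹, hga⟩ * k * (⟨g * a * g⁻¹, hga⟩ : N)⁻¹, hK.conj_mem _ hk _, ?_⟩
        simp only [Subgroup.subtype_apply, Subgroup.coe_mul, Subgroup.coe_inv] at hke ⊢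
        rw [hke]
        group
    have h2 := hconj hh
    rw [mem_conj_map] at h2
    simpa using h2
  have htop : K = ⊤ := by
    rw [eq_top_iff]
    intro n _
    obtain ⟨k, hk, hke⟩ := hle n.2
    have : k = n := Subtype.ext hke
    rwa [← this]
  exact htop

/-- Let F be a finite group and H a nontrivial subgroup of F that is contained in every nontrivial subgroup of F which H normalizes. Then F has a nontrivial normal subgroup N contained in every nontrivial normal subgroup of F (a unique minimal normal subgroup), N is simple, and one of the following holds: C_F(N) = 1; or H = N has prime order p, C_F(N) is cyclic of order a power of p, and F/C_F(N) is cyclic of order dividing p − 1; or H = N has order 2, N is central in F, and F is a generalized quaternion group. -/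
theorem result {F : Type*} [Group F] [Finite F] (H : Subgroup F) (hH : H ≠ ⊥)
    (hmin : ∀ R : Subgroup F, R ≠ ⊥ → H ≤ Subgroup.normalizer (R : Set F) → H ≤ R) :
    ∃ N : Subgroup F, N.Normal ∧ N ≠ ⊥ ∧ (∀ M : Subgroup F, M.Normal → M ≠ ⊥ → N ≤ M) ∧ IsSimpleGroup ↥N ∧
      (Subgroup.centralizer (N : Set F) = ⊥ ∨
       (H = N ∧ (Nat.card N).Prime ∧ IsCyclic ↥(Subgroup.centralizer (N : Set F)) ∧
          (∃ k : ℕ, 1 ≤ k ∧ Nat.card ↥(Subgroup.centralizer (N : Set F)) = Nat.card N ^ k) ∧
          (∃ g : F, Subgroup.centralizer (N : Set F) ⊔ Subgroup.zpowers g = ⊤) ∧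
          (Subgroup.centralizer (N : Set F)).index ∣ Nat.card N - 1) ∨
       (H = N ∧ Nat.card N = 2 ∧ Subgroup.centralizer (N : Set F) = ⊤ ∧
          ∃ k : ℕ, 1 ≤ k ∧ Nonempty (F ≃* QuaternionGroup (2 ^ k)))) := by
  classical
  set N := Subgroup.normalClosure (H : Set F) with hN
  have hNn : N.Normal := Subgroup.normalClosure_normal
  haveI := hNn
  have hHN : H ≤ N := Subgroup.subset_normalClosure
  have hNb : N ≠ ⊥ := fun e => hH (le_bot_iff.1 (e ▸ hHN))
  have hsimple : IsSimpleGroup ↥N := simple_closure H hH hmin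
  have hNmin : ∀ M : Subgroup F, M.Normal → M ≠ ⊥ → N ≤ M := by
    intro M hM hMb
    apply Subgroup.normalClosure_le_normal
    apply hmin M hMb
    rw [(Subgroup.normalizer_eq_top_iff).2 hM]
    exact le_top
  refine ⟨N, hNn, hNb, hNmin, hsimple, ?_⟩
  by_cases hC : Subgroup.centralizer (N : Set F) = ⊥
  · exact Or.inl hC
  right
  set C := Subgroup.centralizer (N : Set F) with hCdef
  have hCn : C.Normal := inferInstance
  have hNC : N ≤ C := hNmin C hCn hC
  -- `N` has prime order
  have hNcomm : ∀ a ∈ N, ∀ b ∈ N, a * b = b * a := fun a ha b hb =>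
    (Subgroup.mem_centralizer_iff.1 (hNC hb) a ha)
  have hnt : Nontrivial ↥N := (Subgroup.nontrivial_iff_ne_bot N).2 hNb
  obtain ⟨q, hq, hqd⟩ := Nat.exists_prime_and_dvd (n := Nat.card N) (by
    have := Finite.one_lt_card (α := ↥N)
    omega)
  haveI : Fact q.Prime := ⟨hq⟩
  obtain ⟨u, hu⟩ := exists_prime_orderOf_dvd_card' (G := ↥N) q hqd
  have hZn : (Subgroup.zpowers u).Normal := by
    refine ⟨fun y hy g => ?_⟩
    have e : g * y * g⁻¹ = y := by
      have : g * y = y * g := Subtype.ext (hNcomm _ g.2 _ y.2)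
      rw [this]; group
    rwa [e]
  have hcardN : Nat.card N = q := by
    rcases hsimple.eq_bot_or_eq_top_of_normal _ hZn with h | h
    · exfalso
      rw [Subgroup.zpowers_eq_bot] at h
      rw [h, orderOf_one] at hu
      exact hq.one_lt.ne hu
    · have h1 : Nat.card (Subgroup.zpowers u) = q := by rw [Nat.card_zpowers, hu]
      rw [h] at h1
      rwa [Subgroup.card_top] at h1
  -- `H = N`
  have hHeq : H = N := by
    have h1 : Nat.card H ∣ q := hcardN ▸ Subgroup.card_dvd_of_le hHN
    rcases (Nat.dvd_prime hq).1 h1 with h | h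
    · exact absurd (Subgroup.card_eq_one.1 h) hH
    · exact Subgroup.eq_of_le_of_card_ge hHN (by rw [hcardN, h])
  refine ?_
  have hRC : ∀ R : Subgroup F, R ≤ C → R ≠ ⊥ → N ≤ R := by
    intro R hRC hRb
    rw [← hHeq]
    apply hmin R hRb
    intro a ha
    apply Cfsg.Agent.Lib.PGroups.mem_normalizer_of_conj_le'
    intro w hw
    have e : a * w = w * a := (Subgroup.mem_centralizer_iff.1 (hRC hw) a (hHN ha)).symm ▸ rfl
    have : a * w * a⁻¹ = w := by rw [e]; group
    rwa [this]
  -- `C` is a `q`-group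
  have hCq : IsPGroup q ↥C := by
    apply IsPGroup.of_card (n := (Nat.card C).primeFactorsList.length)
    apply Nat.eq_prime_pow_of_unique_prime_dvd Nat.card_pos.ne'
    intro d hd hdd
    haveI : Fact d.Prime := ⟨hd⟩
    obtain ⟨r, hr⟩ := exists_prime_orderOf_dvd_card' (G := ↥C) d hdd
    have hr' : orderOf (r : F) = d := by rw [Subgroup.orderOf_coe, hr]
    have hle : Subgroup.zpowers (r : F) ≤ C := (Subgroup.zpowers_le).2 r.2
    have hb : Subgroup.zpowers (r : F) ≠ ⊥ := by
      intro e
      rw [Subgroup.zpowers_eq_bot] at e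
      rw [e, orderOf_one] at hr'
      exact hd.one_lt.ne hr'
    have h1 := Subgroup.card_dvd_of_le (hRC _ hle hb)
    rw [hcardN, Nat.card_zpowers, hr'] at h1
    exact ((Nat.prime_dvd_prime_iff_eq hq hd).1 h1).symm
  have hU : UniqueP q ↥C := by
    have key : ∀ A : Subgroup ↥C, Nat.card A = q → A.map C.subtype = N := by
      intro A hA
      have hc : Nat.card (A.map C.subtype) = q := by
        rw [Subgroup.card_map_of_injective C.subtype_injective, hA]
      have hb : A.map C.subtype ≠ ⊥ := by
        intro e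
        rw [e, Subgroup.card_bot] at hc
        exact hq.one_lt.ne hc
      have h1 := hRC _ (Subgroup.map_subtype_le A) hb
      exact (Subgroup.eq_of_le_of_card_ge h1 (by rw [hc, hcardN])).symm
    intro A B hA hB
    apply Subgroup.map_injective C.subtype_injective
    rw [key A hA, key B hB]
  -- the action on `N`
  let φ : F →* MulAut ↥N := MulAut.conjNormal
  have hker : φ.ker = C := by
    ext f
    rw [MonoidHom.mem_ker, hCdef, Subgroup.mem_centralizer_iff]
    constructor
    · intro hf n hn
      have h1 : (φ f) ⟨n, hn⟩ = ⟨n, hn⟩ := by rw [hf]; rfl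
      have h2 : f * n * f⁻¹ = n := congrArg Subtype.val h1
      calc n * f = (f * n * f⁻¹) * f := by rw [h2]
        _ = f * n := by group
    · intro hf
      ext n
      have h1 : f * n * f⁻¹ = n := by
        rw [← hf n n.2]; group
      exact h1
  have hNcyc : IsCyclic ↥N := isCyclic_of_prime_card hcardN
  have hAutcard : Nat.card (MulAut ↥N) = q - 1 := by
    rw [IsCyclic.card_mulAut, hcardN, Nat.totient_prime hq]
  haveI : Finite (MulAut ↥N) := Finite.of_injective _ DFunLike.coe_injective
  have hAutcyc : IsCyclic (MulAut ↥N) := by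
    haveI : Fact (Nat.card ↥N).Prime := ⟨hcardN ▸ hq⟩
    exact isCyclic_of_surjective (IsCyclic.mulAutMulEquiv ↥N).symm (IsCyclic.mulAutMulEquiv ↥N).symm.surjective
  have hidx : C.index ∣ Nat.card N - 1 := by
    rw [hcardN, ← hAutcard, ← hker, Subgroup.index_ker]
    exact Subgroup.card_subgroup_dvd_card _
  have hgen : ∃ g : F, C ⊔ Subgroup.zpowers g = ⊤ := by
    have hrc : IsCyclic φ.range := inferInstance
    obtain ⟨⟨_, g, rfl⟩, hg⟩ := hrc.exists_generator
    refine ⟨g, ?_⟩
    rw [eq_top_iff]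
    intro f _
    obtain ⟨k, hk⟩ := Subgroup.mem_zpowers_iff.1 (hg ⟨φ f, f, rfl⟩)
    have h1 : φ (g ^ k) = φ f := by
      rw [map_zpow]
      exact congrArg Subtype.val hk
    have h2 : f * (g ^ k)⁻¹ ∈ C := by
      rw [← hker, MonoidHom.mem_ker, map_mul, map_inv, h1, mul_inv_cancel]
    have e : f = (f * (g ^ k)⁻¹) * g ^ k := by group
    rw [e]
    exact Subgroup.mul_mem_sup h2 (Subgroup.zpow_mem_zpowers g k)
  have hCcard : ∃ k : ℕ, 1 ≤ k ∧ Nat.card ↥C = Nat.card N ^ k := by
    obtain ⟨k, hk⟩ := IsPGroup.iff_card.1 hCq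
    refine ⟨k, ?_, by rw [hk, hcardN]⟩
    by_contra hk0
    have : k = 0 := by omega
    rw [this, pow_zero] at hk
    exact hC (Subgroup.card_eq_one.1 hk)
  by_cases hq2 : q = 2
  · subst hq2
    have hCtop : C = ⊤ := by
      rw [hcardN] at hidx
      have : C.index = 1 := Nat.dvd_one.1 hidx
      exact Subgroup.index_eq_one.1 this
    rcases cyclic_or_quaternion hCq hU with hcyc | ⟨n, ⟨e⟩⟩
    · exact Or.inl ⟨hHeq, hcardN ▸ hq, hcyc, hCcard, hgen, hidx⟩
    · by_cases hn : n = 0
      · subst hn
        have hcyc : IsCyclic ↥C := by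
          have h1 : IsCyclic (QuaternionGroup (2 ^ 0)) := by
            simpa using QuaternionGroup.quaternionGroup_one_isCyclic
          exact isCyclic_of_surjective e.symm e.symm.surjective
        exact Or.inl ⟨hHeq, hcardN ▸ hq, hcyc, hCcard, hgen, hidx⟩
      · right
        refine ⟨hHeq, hcardN, hCtop, n, by omega, ⟨?_⟩⟩
        have e2 : F ≃* ↥C := (Subgroup.topEquiv (G := F)).symm.trans (MulEquiv.subgroupCongr hCtop.symm)
        exact e2.trans e
  · left
    have hq2' : q ≠ 2 := hq2
    have hcyc : IsCyclic ↥C := isCyclic_of_uniqueP_odd hq2' _ ↥C rfl hCq hU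
    exact ⟨hHeq, hcardN ▸ hq, hcyc, hCcard, hgen, hidx⟩

end Cfsg.Agent.S3025
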