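import Cfsg.Statements.S3027
import Cfsg.Agent.Lib.Coprime.Conj
-- import your own Cfsg.Agent.* helpers here

set_option autoImplicit false
open Cfsg

namespace Cfsg.Agent.S3027

open Cfsg.Agent.Lib.Coprime
open scoped commutatorElement

variable {G : Type*} [Group G]

theorem subnormal_inf {A B : Subgroup G} (hA : A.IsSubnormal) (hB : B.IsSubnormal) : (A ⊓ B).IsSubnormal := by
  induction hA with
  | top => simpa using hB
  | step A K hle hK hN ih =>
    refine Subgroup.IsSubnormal.step _ (K ⊓ B) (inf_le_inf_right _ hle) ih ?_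
    refine ⟨fun y hy g => ?_⟩
    have h1 : (y : G) ∈ A := hy.1
    have h2 : (y : G) ∈ B := hy.2
    have h3 : ((⟨g.1, g.2.1⟩ : K) * ⟨y.1, y.2.1⟩ * (⟨g.1, g.2.1⟩ : K)⁻¹ : K) ∈ A.subgroupOf K :=
      hN.conj_mem ⟨y.1, y.2.1⟩ h1 ⟨g.1, g.2.1⟩
    exact ⟨h3, B.mul_mem (B.mul_mem g.2.2 h2) (B.inv_mem g.2.2)⟩

theorem sup_eq_top_iff (A D : Subgroup G) [D.Normal] : A ⊔ D = ⊤ ↔ A.map (QuotientGroup.mk' D) = ⊤ := by
  constructor
  · intro h
    have h1 := congrArg (Subgroup.map (QuotientGroup.mk' D)) h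
    rw [Subgroup.map_sup, Subgroup.map_top_of_surjective _ (QuotientGroup.mk'_surjective D)] at h1
    have h2 : D.map (QuotientGroup.mk' D) = ⊥ := by
      rw [Subgroup.map_eq_bot_iff, QuotientGroup.ker_mk']
    rwa [h2, sup_bot_eq] at h1
  · intro h
    have h1 := Subgroup.comap_map_eq (QuotientGroup.mk' D) A
    rw [h, Subgroup.comap_top, QuotientGroup.ker_mk'] at h1
    exact h1.symm

/-- The normal case, ambient in a group `M`. -/
theorem key_normal (D : Subgroup G) [D.Normal] (hperf : ⁅(⊤ : Subgroup G), (⊤ : Subgroup G)⁆ ⊔ D = ⊤)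
    {M X Y : Subgroup G} (hXM : X ≤ M) (hYM : Y ≤ M)
    (hXn : M ≤ Subgroup.normalizer (X : Set G)) (hYn : M ≤ Subgroup.normalizer (Y : Set G))
    (hX : X ⊔ D = ⊤) (hY : Y ⊔ D = ⊤) : (X ⊓ Y) ⊔ D = ⊤ := by
  rw [sup_eq_top_iff] at hperf hX hY ⊢
  have hle : ⁅X, Y⁆ ≤ X ⊓ Y := by
    rw [Subgroup.commutator_le]
    intro x hx y hy
    constructor
    · have h1 := (Subgroup.mem_normalizer_iff.1 (hXn (hYM hy)) x⁻¹).1 (X.inv_mem hx)
      have e : ⁅x, y⁆ = x * (y * x⁻¹ * y⁻¹) := by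
        rw [commutatorElement_def]; group
      rw [e]
      exact X.mul_mem hx h1
    · have h1 := (Subgroup.mem_normalizer_iff.1 (hYn (hXM hx)) y).1 hy
      have e : ⁅x, y⁆ = (x * y * x⁻¹) * y⁻¹ := by
        rw [commutatorElement_def]
      rw [e]
      exact Y.mul_mem h1 (Y.inv_mem hy)
  have h2 := Subgroup.map_mono (f := QuotientGroup.mk' D) hle
  rw [Subgroup.map_commutator, hX, hY] at h2
  rw [Subgroup.map_commutator, Subgroup.map_top_of_surjective _ (QuotientGroup.mk'_surjective D)] at hperf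
  rw [hperf] at h2
  exact top_le_iff.1 h2

theorem key_inf (D : Subgroup G) [D.Normal] (hperf : ⁅(⊤ : Subgroup G), (⊤ : Subgroup G)⁆ ⊔ D = ⊤)
    {A : Subgroup G} (hA : A.IsSubnormal) : A ⊔ D = ⊤ →
      ∀ B : Subgroup G, B.IsSubnormal → B ⊔ D = ⊤ → (A ⊓ B) ⊔ D = ⊤ := by
  induction hA with
  | top =>
    intro _ B _ hBD
    simpa using hBD
  | step A A' hle hA' hN ihA =>
    intro hAD B hB hBD
    have hA'D : A' ⊔ D = ⊤ := top_le_iff.1 (hAD ▸ sup_le_sup_right hle D)
    have hihA := ihA hA'D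
    induction hB with
    | top => simpa using hAD
    | step B B' hleB hB' hNB ihB =>
      have hB'D : B' ⊔ D = ⊤ := top_le_iff.1 (hBD ▸ sup_le_sup_right hleB D)
      have h1 := ihB hB'D
      have h2 := hihA B (Subgroup.IsSubnormal.step _ _ hleB hB' hNB) hBD
      -- apply the normal case in `M = A' ⊓ B'`.
      have hXM : A ⊓ B' ≤ A' ⊓ B' := inf_le_inf_right _ hle
      have hYM : A' ⊓ B ≤ A' ⊓ B' := inf_le_inf_left _ hleB
      have hXn : A' ⊓ B' ≤ Subgroup.normalizer ((A ⊓ B' : Subgroup G) : Set G) := by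
        have h5 : A' ≤ Subgroup.normalizer (A : Set G) :=
          (Subgroup.normal_subgroupOf_iff_le_normalizer hle).1 hN
        exact (inf_le_inf h5 Subgroup.le_normalizer).trans Subgroup.inf_normalizer_le_normalizer_inf
      have hYn : A' ⊓ B' ≤ Subgroup.normalizer ((A' ⊓ B : Subgroup G) : Set G) := by
        have h5 : B' ≤ Subgroup.normalizer (B : Set G) :=
          (Subgroup.normal_subgroupOf_iff_le_normalizer hleB).1 hNB
        exact (inf_le_inf Subgroup.le_normalizer h5).trans Subgroup.inf_normalizer_le_normalizer_inf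
      have h3 := key_normal D hperf hXM hYM hXn hYn h1 h2
      have e : (A ⊓ B') ⊓ (A' ⊓ B) = A ⊓ B := by
        ext z
        constructor
        · rintro ⟨⟨h1, -⟩, -, h4⟩
          exact ⟨h1, h4⟩
        · rintro ⟨h1, h2⟩
          exact ⟨⟨h1, hleB h2⟩, hle h1, h2⟩
      rwa [e] at h3

/-- Let G be a finite group and D a normal subgroup of G such that G/D is perfect (that is, G = G′D). Then among the subnormal subgroups B of G with BD = G there is a least one, and it is normal in G. -/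
theorem result {G : Type*} [Group G] [Finite G] (D : Subgroup G) [D.Normal] (hperf : ⁅(⊤ : Subgroup G), (⊤ : Subgroup G)⁆ ⊔ D = ⊤) :
    ∃ B : Subgroup G, B.Normal ∧ B ⊔ D = ⊤ ∧ ∀ B' : Subgroup G, B'.IsSubnormal → B' ⊔ D = ⊤ → B ≤ B' := by
  classical
  set 𝓑 : Set (Subgroup G) := {B' | B'.IsSubnormal ∧ B' ⊔ D = ⊤} with h𝓑
  have hne : 𝓑.Nonempty := ⟨⊤, Subgroup.IsSubnormal.top, by simp⟩
  obtain ⟨B, hB, hmin⟩ := (Set.toFinite 𝓑).exists_minimal hne
  have hleast : ∀ B' : Subgroup G, B'.IsSubnormal → B' ⊔ D = ⊤ → B ≤ B' := by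
    intro B' h1 h2
    have h3 : B ⊓ B' ∈ 𝓑 := ⟨subnormal_inf hB.1 h1, key_inf D hperf hB.1 hB.2 B' h1 h2⟩
    have h4 := hmin h3 inf_le_left
    exact h4.trans inf_le_right
  refine ⟨B, ?_, hB.2, hleast⟩
  refine ⟨fun b hb g => ?_⟩
  have h1 : (B.map (MulAut.conj g⁻¹).toMonoidHom) ∈ 𝓑 := by
    refine ⟨hB.1.map (MulAut.conj g⁻¹).surjective, ?_⟩
    have h2 := congrArg (Subgroup.map (MulAut.conj g⁻¹).toMonoidHom) hB.2
    rw [Subgroup.map_sup, Subgroup.map_top_of_surjective _ (MulAut.conj g⁻¹).surjective] at h2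
    have h3 : D.map (MulAut.conj g⁻¹).toMonoidHom = D := by
      ext y
      rw [mem_conj_map]
      simp only [inv_inv]
      constructor
      · intro hy
        have := (inferInstance : D.Normal).conj_mem _ hy g⁻¹
        have e : g⁻¹ * (g * y * g⁻¹) * g⁻¹⁻¹ = y := by group
        rwa [e] at this
      · intro hy
        exact (inferInstance : D.Normal).conj_mem _ hy g
    rwa [h3] at h2
  have h2 := hleast _ h1.1 h1.2 hb
  rw [mem_conj_map] at h2
  simpa using h2

end Cfsg.Agent.S3027
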