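import Cfsg.Statements.S3044
import Cfsg.Agent.Lib.LocalEven2.IsoC
-- import your own Cfsg.Agent.* helpers here

set_option autoImplicit false
open Cfsg

namespace Cfsg.Agent.S3044

/-- Let G be a finite group, p a prime, S a Sylow p-subgroup of G and P a p-minimal subgroup of G containing S (S is not normal in P and lies in exactly one maximal subgroup of P). Let L be the subgroup generated by N_G(S) and all p-minimal subgroups of G containing S other than P, and suppose P is isolated: O_p(L) is not contained in O_p(P). Put Y for the normal closure of O^p(P) in G. Then G = YL; P is again isolated in the subgroup YS (the subgroup L₀ generated by N_{YS}(S) and the p-minimal subgroups of YS containing S other than P has O_p(L₀) not contained in O_p(P)); and either Y = O^p(P), or p divides |Y/O_p(Y)|, Y/O_p(Y) is generated by its components (a central product of quasisimple groups), and S permutes these components transitively by conjugation. -/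
theorem result {G : Type*} [Group G] [Finite G] {p : ℕ} [Fact p.Prime] (S : Sylow p G) (P : Subgroup G) (hSP : (S : Subgroup G) ≤ P) (hPmin : Cfsg.IsPMinimal p ↥P)
    (L Y : Subgroup G)
    (hL : L = Subgroup.normalizer ((S : Subgroup G) : Set G) ⊔ ⨆ P' : {P' : Subgroup G // (S : Subgroup G) ≤ P' ∧ Cfsg.IsPMinimal p ↥P' ∧ P' ≠ P}, (P' : Subgroup G))
    (hiso : ¬ (Cfsg.pCore p ↥L).map L.subtype ≤ (Cfsg.pCore p ↥P).map P.subtype)
    (hY : Y = Subgroup.normalClosure (((Cfsg.pResidual p ↥P).map P.subtype : Subgroup G) : Set G)) :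
    Y ⊔ L = ⊤ ∧
    ¬ (Cfsg.pCore p ↥((Subgroup.normalizer ((S : Subgroup G) : Set G) ⊓ (Y ⊔ (S : Subgroup G))) ⊔
          ⨆ P' : {P' : Subgroup G // (S : Subgroup G) ≤ P' ∧ P' ≤ Y ⊔ (S : Subgroup G) ∧ Cfsg.IsPMinimal p ↥P' ∧ P' ≠ P}, (P' : Subgroup G))).map
        (Subgroup.subtype _) ≤ (Cfsg.pCore p ↥P).map P.subtype ∧
    ((Cfsg.pResidual p ↥P).map P.subtype = Y ∨
     ∃ _ : (Cfsg.pCore p ↥Y).Normal,
       p ∣ Nat.card (↥Y ⧸ Cfsg.pCore p ↥Y) ∧ Cfsg.layer (↥Y ⧸ Cfsg.pCore p ↥Y) = ⊤ ∧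
       ∀ K₁ K₂ : Subgroup (↥Y ⧸ Cfsg.pCore p ↥Y), Cfsg.IsComponent K₁ → Cfsg.IsComponent K₂ →
         ∃ s ∈ (S : Subgroup G), ((K₂.comap (QuotientGroup.mk' (Cfsg.pCore p ↥Y))).map Y.subtype) = (((K₁.comap (QuotientGroup.mk' (Cfsg.pCore p ↥Y))).map Y.subtype)).map (MulAut.conj s).toMonoidHom) := by
  classical
  open Subgroup Cfsg.Agent.Lib.LocalEven2 in
  have h : IsoP S P L := ⟨hSP, hPmin, hL, hiso⟩
  haveI hYn : Y.Normal := by rw [hY]; exact Subgroup.normalClosure_normal
  haveI hQ : (Cfsg.pCore p G).Normal := Cfsg.Agent.Lib.Basic.pCore_normal p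
  have hKY : (Cfsg.pResidual p ↥P).map P.subtype ≤ Y := by rw [hY]; exact Subgroup.subset_normalClosure
  refine ⟨?_, ?_, ?_⟩
  · rw [eq_top_iff, ← h.sup_eq_top]
    apply sup_le le_sup_right
    rw [← h.K_sup_S]
    exact sup_le (hKY.trans le_sup_left) (h.S_le_L.trans le_sup_right)
  · intro hle
    apply hiso
    refine le_trans ?_ hle
    apply le_map_pCore_of_normalizes _ h.R_isP
    · refine le_trans ?_ h.L_le_nR
      apply sup_le (inf_le_left.trans h.normalizer_le)
      apply iSup_le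
      rintro ⟨P', h1, -, h3, h4⟩
      exact h.P'_le h1 h3 h4
    · refine h.R_le_S.trans ?_
      refine le_trans ?_ le_sup_left
      exact le_inf Subgroup.le_normalizer le_sup_right
  · by_cases hnA : ((Cfsg.pResidual p ↥P).map P.subtype).map (QuotientGroup.mk' (Cfsg.pCore p G)) ≤ Cfsg.pPrimeCore p (G ⧸ Cfsg.pCore p G)
    · left
      have hd := h.isoData
      haveI : (Cfsg.pPrimeCore p (G ⧸ Cfsg.pCore p G)).Normal := Cfsg.Agent.Lib.Basic.pPrimeCore_normal p
      have hAc : (Nat.card (Cfsg.pPrimeCore p (G ⧸ Cfsg.pCore p G))).Coprime p := Cfsg.Agent.Lib.Basic.pPrimeCore_coprime p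
      have hKc := Nat.Coprime.coprime_dvd_left (Subgroup.card_dvd_of_le hnA) hAc
      obtain ⟨t, ht, htp, hKt⟩ := hd.exists_t hKc
      haveI : Fact t.Prime := ⟨ht⟩
      obtain ⟨hN, -⟩ := hd.main_T hnA hAc htp hKt
      haveI hKn := h.K_normal hN
      rw [hY]; exact (Subgroup.normalClosure_eq_self _).symm
    · right
      refine ⟨Cfsg.Agent.Lib.Basic.pCore_normal p, ?_⟩
      exact h.right_alt hY hnA

end Cfsg.Agent.S3044
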