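import Cfsg.Statements.S3045
import Cfsg.Agent.Lib.LocalEven2.IsoG
-- import your own Cfsg.Agent.* helpers here

set_option autoImplicit false
open Cfsg

namespace Cfsg.Agent.S3045

open Subgroup Cfsg Cfsg.Agent.Lib.LocalEven2 in

/-- Let G be a finite group, p a prime, S a Sylow p-subgroup of G and P a p-minimal subgroup of G containing S. Let L be the subgroup generated by N_G(S) and all p-minimal subgroups of G containing S other than P, and suppose O_p(L) is not contained in O_p(P). Put Y for the normal closure of O^p(P) in G. Then O^p(P) is contained in the preimage in G of F*(G/O_p(G)); and if Y is solvable, then Y = O^p(P) and Y/O_p(Y) is a t-group of nilpotency class at most 2 for some prime t ≠ p. -/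
theorem result {G : Type*} [Group G] [Finite G] {p : ℕ} [Fact p.Prime] (S : Sylow p G) (P : Subgroup G) (hSP : (S : Subgroup G) ≤ P) (hPmin : Cfsg.IsPMinimal p ↥P)
    (L Y : Subgroup G)
    (hL : L = Subgroup.normalizer ((S : Subgroup G) : Set G) ⊔ ⨆ P' : {P' : Subgroup G // (S : Subgroup G) ≤ P' ∧ Cfsg.IsPMinimal p ↥P' ∧ P' ≠ P}, (P' : Subgroup G))
    (hiso : ¬ (Cfsg.pCore p ↥L).map L.subtype ≤ (Cfsg.pCore p ↥P).map P.subtype)
    (hY : Y = Subgroup.normalClosure (((Cfsg.pResidual p ↥P).map P.subtype : Subgroup G) : Set G)) [hn : (Cfsg.pCore p G).Normal] :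
    (Cfsg.pResidual p ↥P).map P.subtype ≤ (Cfsg.generalizedFittingSubgroup (G ⧸ Cfsg.pCore p G)).comap (QuotientGroup.mk' (Cfsg.pCore p G)) ∧
    (Group.IsSolvable ↥Y → (Cfsg.pResidual p ↥P).map P.subtype = Y ∧
       ∃ _ : (Cfsg.pCore p ↥Y).Normal, ∃ t : ℕ, t.Prime ∧ t ≠ p ∧ IsPGroup t (↥Y ⧸ Cfsg.pCore p ↥Y) ∧
         ∃ _ : Group.IsNilpotent (↥Y ⧸ Cfsg.pCore p ↥Y), Group.nilpotencyClass (↥Y ⧸ Cfsg.pCore p ↥Y) ≤ 2) := by
  classical
  open Subgroup Cfsg.Agent.Lib.LocalEven2 in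
  have h : IsoP S P L := ⟨hSP, hPmin, hL, hiso⟩
  have hd := h.isoData
  have hO := pCore_quot_eq_bot (p := p) (G := G)
  have hG1 := hd.le_gfit hO
  refine ⟨Subgroup.map_le_iff_le_comap.mp hG1, ?_⟩
  intro hs
  haveI hYn : Y.Normal := by rw [hY]; exact Subgroup.normalClosure_normal
  have hKY : (Cfsg.pResidual p ↥P).map P.subtype ≤ Y := by rw [hY]; exact Subgroup.subset_normalClosure
  have hπs := QuotientGroup.mk'_surjective (Cfsg.pCore p G)
  haveI hYt : (Y.map (QuotientGroup.mk' (Cfsg.pCore p G))).Normal := hYn.map _ hπs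
  have hYts : Group.IsSolvable (Y.map (QuotientGroup.mk' (Cfsg.pCore p G))) :=
    solvable_of_surjective (MonoidHom.subgroupMap_surjective (QuotientGroup.mk' (Cfsg.pCore p G)) Y)
  have hKF := le_fitting_of_solvable hG1 (Subgroup.map_mono hKY) hYt hYts
  have hFc := fitting_coprime hO
  have hKc := Nat.Coprime.coprime_dvd_left (Subgroup.card_dvd_of_le hKF) hFc
  obtain ⟨t, ht, htp, hKt⟩ := hd.exists_t hKc
  haveI : Fact t.Prime := ⟨ht⟩
  haveI : (Cfsg.fittingSubgroup (G ⧸ Cfsg.pCore p G)).Normal := fitting_normal'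
  obtain ⟨hN, hcl⟩ := hd.main_T hKF hFc htp hKt
  haveI hKn := h.K_normal hN
  have hKeq : (Cfsg.pResidual p ↥P).map P.subtype = Y := by
    rw [hY]; exact (Subgroup.normalClosure_eq_self _).symm
  refine ⟨hKeq, Cfsg.Agent.Lib.Basic.pCore_normal p, t, ht, htp, ?_⟩
  rw [hKeq] at hKt hcl
  exact quotient_props hKt hcl ht

end Cfsg.Agent.S3045
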