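import Cfsg.Statements.S3056
import Cfsg.Agent.Lib.LocalEven2.StrongEmbed
-- import your own Cfsg.Agent.* helpers here

set_option autoImplicit false
open Cfsg

namespace Cfsg.Agent.S3056

open Cfsg.Agent.Lib.LocalEven2 Cfsg.Agent.Lib.LocalEven Cfsg.Agent.Lib.Coprime Cfsg
open scoped Pointwise

set_option linter.unusedSectionVars false

variable {G : Type*} [Group G] {p : ℕ} [Fact p.Prime]

theorem coe_smul_eq_map (R : Sylow p G) (g : G) :
    ((g • R : Sylow p G) : Subgroup G) = (R : Subgroup G).map (MulAut.conj g).toMonoidHom := by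
  rw [Sylow.coe_subgroup_smul]
  ext x
  rw [mem_conj_map, Subgroup.mem_pointwise_smul_iff_inv_smul_mem]
  simp [MulAut.smul_def, mul_assoc]

/-- The graph on the Sylow subgroups. -/
def Adj (A B : Sylow p G) : Prop := A ≠ B ∧ (A : Subgroup G) ⊓ (B : Subgroup G) ≠ ⊥

theorem Adj.symm {A B : Sylow p G} (h : Adj A B) : Adj B A :=
  ⟨h.1.symm, by rw [inf_comm]; exact h.2⟩

abbrev Conn (A B : Sylow p G) : Prop := Relation.ReflTransGen Adj A B

theorem Conn.symm {A B : Sylow p G} (h : Conn A B) : Conn B A := by
  induction h with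
  | refl => exact Relation.ReflTransGen.refl
  | tail _ hbc ih => exact (Relation.ReflTransGen.single hbc.symm).trans ih

theorem Adj.smul {A B : Sylow p G} (h : Adj A B) (g : G) : Adj (g • A) (g • B) := by
  refine ⟨fun e => h.1 (smul_left_cancel g e), ?_⟩
  rw [coe_smul_eq_map, coe_smul_eq_map]
  intro e
  apply h.2
  rw [eq_bot_iff]
  intro x hx
  have h1 : g * x * g⁻¹ ∈ (A : Subgroup G).map (MulAut.conj g).toMonoidHom ⊓ (B : Subgroup G).map (MulAut.conj g).toMonoidHom :=
    Subgroup.mem_inf.2 ⟨⟨x, (Subgroup.mem_inf.1 hx).1, rfl⟩, ⟨x, (Subgroup.mem_inf.1 hx).2, rfl⟩⟩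
  rw [e, Subgroup.mem_bot] at h1
  rw [Subgroup.mem_bot]
  have : x = g⁻¹ * (g * x * g⁻¹) * g := by group
  rw [this, h1]; simp

theorem Conn.smul {A B : Sylow p G} (h : Conn A B) (g : G) : Conn (g • A) (g • B) :=
  h.lift (fun X => g • X) (fun _ _ h => Adj.smul h g)

theorem conn_of_mem {A B : Sylow p G} {y : G} (hA : y ∈ (A : Subgroup G)) (hB : y ∈ (B : Subgroup G)) (hy : y ≠ 1) :
    Conn A B := by
  by_cases e : A = B
  · rw [e]
  · apply Relation.ReflTransGen.single
    refine ⟨e, ?_⟩
    intro h
    have : y ∈ (A : Subgroup G) ⊓ (B : Subgroup G) := Subgroup.mem_inf.2 ⟨hA, hB⟩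
    rw [h, Subgroup.mem_bot] at this
    exact hy this

theorem exists_chain_of_conn {A B : Sylow p G} (h : Conn A B) :
    ∃ (n : ℕ) (c : Fin (n + 1) → Sylow p G), c 0 = A ∧ c (Fin.last n) = B ∧
      ∀ i : Fin n, Adj (c i.castSucc) (c i.succ) := by
  induction h with
  | refl => exact ⟨0, fun _ => A, rfl, rfl, fun i => i.elim0⟩
  | @tail b c' _ hbc ih =>
    obtain ⟨n, c, h0, hn, hi⟩ := ih
    refine ⟨n + 1, Fin.snoc c c', ?_, ?_, ?_⟩
    · have : (0 : Fin (n + 1 + 1)) = Fin.castSucc (0 : Fin (n + 1)) := rfl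
      rw [this, Fin.snoc_castSucc, h0]
    · exact Fin.snoc_last _ _
    · intro i
      induction i using Fin.lastCases with
      | last =>
        have e1 : (Fin.last n).castSucc = Fin.castSucc (Fin.last n) := rfl
        rw [Fin.succ_last, Fin.snoc_last, Fin.snoc_castSucc, hn]
        exact hbc
      | cast j =>
        have e1 : (Fin.castSucc j).succ = Fin.castSucc j.succ := rfl
        rw [e1, Fin.snoc_castSucc, Fin.snoc_castSucc]
        exact hi j

/-- The stabilizer of the connected component of `S`. -/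
def compStab (S : Sylow p G) : Subgroup G where
  carrier := {g | Conn S (g • S)}
  one_mem' := by
    show Conn S ((1 : G) • S)
    rw [one_smul]
  mul_mem' := by
    intro a b ha hb
    have h1 : Conn S (a • S) := ha
    have h2 : Conn S (b • S) := hb
    show Conn S ((a * b) • S)
    rw [mul_smul]
    exact h1.trans (h2.smul a)
  inv_mem' := by
    intro a ha
    have h1 : Conn S (a • S) := ha
    show Conn S (a⁻¹ • S)
    have h2 := h1.smul a⁻¹
    rw [smul_smul, inv_mul_cancel, one_smul] at h2
    exact h2.symm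

theorem mem_compStab {S : Sylow p G} {g : G} : g ∈ compStab S ↔ Conn S (g • S) := Iff.rfl

/-- Let G be a finite group and p a prime. Join two Sylow p-subgroups when they are distinct and meet nontrivially. This graph on the Sylow p-subgroups is disconnected (the Sylow p-subgroups are not chain-connected through nontrivial intersections) if and only if G has a strongly p-embedded subgroup in the classical sense: a proper subgroup H of order divisible by p such that H ∩ gHg⁻¹ has order prime to p for every g outside H. -/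
theorem result {G : Type*} [Group G] [Finite G]
    (p : ℕ) [Fact p.Prime] :
    ¬ Cfsg.IsSylowChainConnected p G ↔
      ∃ H : Subgroup G, H ≠ ⊤ ∧ p ∣ Nat.card H ∧
        ∀ g : G, g ∉ H → ¬ p ∣ Nat.card ↥(H ⊓ H.map (MulAut.conj g).toMonoidHom) := by
  constructor
  · intro hnot
    have hex : ∃ S T : Sylow p G, ¬ Conn S T := by
      by_contra hall
      push Not at hall
      apply hnot
      intro S T
      by_cases e : S = T
      · subst e
        exact ⟨0, fun _ => S, rfl, rfl, fun i => by
          exact inf_le_left, fun i => i.elim0⟩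
      · by_cases hinf : (S : Subgroup G) ⊓ (T : Subgroup G) = ⊥
        · obtain ⟨n, c, h0, hn, hi⟩ := exists_chain_of_conn (hall S T)
          refine ⟨n, c, h0, hn, fun i => ?_, fun i => (hi i)⟩
          rw [hinf]; exact bot_le
        · refine ⟨1, fun i => if i = 0 then S else T, by simp, by simp, ?_, ?_⟩
          · intro i
            by_cases hi : i = 0
            · simp only [hi, if_true]; exact inf_le_left
            · simp only [hi, if_false]; exact inf_le_right
          · intro i
            have hi0 : i = 0 := Subsingleton.elim _ _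
            subst hi0
            simpa using ⟨e, hinf⟩
    obtain ⟨S, T, hST⟩ := hex
    refine ⟨compStab S, ?_, ?_, ?_⟩
    · intro htop
      obtain ⟨g, hg⟩ := MulAction.exists_smul_eq G S T
      have h1 : g ∈ compStab S := by rw [htop]; trivial
      rw [mem_compStab, hg] at h1
      exact hST h1
    · have hSH : (S : Subgroup G) ≤ compStab S := by
        intro s hs
        rw [mem_compStab]
        have : s • S = S := Sylow.smul_eq_iff_mem_normalizer.2 (Subgroup.le_normalizer hs)
        rw [this]
      have hS1 : (S : Subgroup G) ≠ ⊥ := by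
        intro e
        apply hST
        obtain ⟨g, hg⟩ := MulAction.exists_smul_eq G S T
        have h1 : (T : Subgroup G) = ⊥ := by
          rw [← hg, coe_smul_eq_map, e, Subgroup.map_bot]
        have h2 : S = T := Sylow.ext (e.trans h1.symm)
        rw [h2]
      exact (dvd_card_of_ne_bot S.isPGroup' hS1).trans (Subgroup.card_dvd_of_le hSH)
    · intro g hg hdvd
      have hSH : (S : Subgroup G) ≤ compStab S := by
        intro s hs
        rw [mem_compStab]
        have : s • S = S := Sylow.smul_eq_iff_mem_normalizer.2 (Subgroup.le_normalizer hs)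
        rw [this]
      have hpelt : ∀ y ∈ compStab S, (∃ k, orderOf y = p ^ k) → ∃ h ∈ compStab S, y ∈ ((h • S : Sylow p G) : Subgroup G) := by
        intro y hy hyo
        obtain ⟨m, hm, T', hT', _, hST', hyT'⟩ := exists_conj_common_of_isPGroup (M := compStab S)
          S.isPGroup' (isPGroup_zpowers hyo) hSH ((Subgroup.zpowers_le).2 hy)
        have hT'S := S.is_maximal' hT' hST'
        refine ⟨m⁻¹, Subgroup.inv_mem _ hm, ?_⟩
        rw [coe_smul_eq_map, mem_conj_map, inv_inv]
        have h1 : m * y * m⁻¹ ∈ T' := hyT' ⟨y, Subgroup.mem_zpowers y, rfl⟩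
        rw [hT'S] at h1
        exact h1
      obtain ⟨⟨y, hy⟩, hyo⟩ := exists_prime_orderOf_dvd_card' p hdvd
      have hyo' : orderOf y = p := by
        rw [← hyo]; exact (Subgroup.orderOf_mk y hy).symm
      obtain ⟨hy1, hy2⟩ := Subgroup.mem_inf.1 hy
      have hy11 : y ≠ 1 := by
        intro e
        rw [e, orderOf_one] at hyo'
        exact (Fact.out : p.Prime).one_lt.ne hyo'
      obtain ⟨h₁, hh₁, hm₁⟩ := hpelt y hy1 ⟨1, by rw [hyo', pow_one]⟩
      rw [mem_conj_map] at hy2
      obtain ⟨h₂, hh₂, hm₂⟩ := hpelt _ hy2 ⟨1, by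
        have e0 : g⁻¹ * y * g = g⁻¹ * y * g⁻¹⁻¹ := by simp
        rw [e0, orderOf_conj, hyo', pow_one]⟩
      have hm₃ : y ∈ (((g * h₂) • S : Sylow p G) : Subgroup G) := by
        rw [mul_smul, coe_smul_eq_map, mem_conj_map]
        exact hm₂
      have hc := conn_of_mem hm₁ hm₃ hy11
      have h3 : g * h₂ ∈ compStab S := (mem_compStab.1 hh₁).trans hc
      apply hg
      have e : g = (g * h₂) * h₂⁻¹ := by group
      rw [e]
      exact Subgroup.mul_mem _ h3 (Subgroup.inv_mem _ hh₂)
  · rintro ⟨H, hH, hpH, hse⟩ hconn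
    obtain ⟨S, hS⟩ := exists_sylow_le_of_strongly_embedded hpH hse
    have hstep : ∀ T₁ T₂ : Sylow p G, (T₁ : Subgroup G) ≤ H → (T₁ : Subgroup G) ⊓ (T₂ : Subgroup G) ≠ ⊥ → (T₂ : Subgroup G) ≤ H := by
      intro T₁ T₂ h1 h2
      obtain ⟨g, hg⟩ := MulAction.exists_smul_eq G S T₂
      rw [← hg, coe_smul_eq_map]
      by_cases hgH : g ∈ H
      · rintro _ ⟨s, hs, rfl⟩
        exact H.mul_mem (H.mul_mem hgH (hS hs)) (H.inv_mem hgH)
      · exfalso
        have h3 := inf_conj_eq_bot_of_strongly_embedded S.isPGroup' hS hse hgH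
        apply h2
        rw [eq_bot_iff, ← h3, ← hg, coe_smul_eq_map]
        intro x hx
        exact Subgroup.mem_inf.2 ⟨(Subgroup.mem_inf.1 hx).2, h1 (Subgroup.mem_inf.1 hx).1⟩
    have hall : ∀ T : Sylow p G, (T : Subgroup G) ≤ H := by
      intro T
      obtain ⟨n, c, h0, hn, _, hi⟩ := hconn S T
      have key : ∀ i : Fin (n + 1), (c i : Subgroup G) ≤ H := by
        intro i
        induction i using Fin.induction with
        | zero => rw [h0]; exact hS
        | succ i ih => exact hstep _ _ ih (hi i).2
      have := key (Fin.last n)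
      rwa [hn] at this
    obtain ⟨g, hg⟩ : ∃ g, g ∉ H := by
      by_contra h
      push Not at h
      exact hH (eq_top_iff.2 fun x _ => h x)
    have h3 := inf_conj_eq_bot_of_strongly_embedded S.isPGroup' hS hse hg
    have h4 : ((g • S : Sylow p G) : Subgroup G) ≤ H := hall _
    rw [coe_smul_eq_map] at h4
    rw [inf_eq_left.2 h4] at h3
    have h5 : (S : Subgroup G) = ⊥ := by
      rw [eq_bot_iff]
      intro x hx
      have : g * x * g⁻¹ ∈ (S : Subgroup G).map (MulAut.conj g).toMonoidHom := ⟨x, hx, rfl⟩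
      rw [h3, Subgroup.mem_bot] at this
      rw [Subgroup.mem_bot]
      have e : x = g⁻¹ * (g * x * g⁻¹) * g := by group
      rw [e, this]; simp
    have h6 := S.not_dvd_index
    rw [h5, Subgroup.index_bot] at h6
    apply h6
    exact hpH.trans (Subgroup.card_subgroup_dvd_card H)

end Cfsg.Agent.S3056
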