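import Cfsg.Statements.S3057
import Cfsg.Agent.S3056
import Cfsg.Agent.Lib.LocalEven2.StrongEmbed2
import Cfsg.Agent.Lib.LocalEven2.ZStar
import Cfsg.Agent.Lib.OddLocal.UniqueP2
import Cfsg.Prelude.Def_Local
-- import your own Cfsg.Agent.* helpers here

set_option autoImplicit false
open Cfsg

namespace Cfsg.Agent.S3057

open Cfsg.Agent.Lib.LocalEven2 Cfsg.Agent.Lib.Coprime Cfsg.Agent.Lib.Basic Cfsg.Agent.Lib.OddLocal Subgroup

set_option linter.unusedSectionVars false
set_option linter.style.haveILetI false

variable {G : Type*} [Group G] [Finite G]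

theorem uniqueP_of_equiv {X Y : Type*} [Group X] [Group Y] {p : ℕ} (e : X ≃* Y) (h : UniqueP p Y) : UniqueP p X := by
  intro A B hA hB
  have key : ∀ C : Subgroup X, Nat.card (C.map e.toMonoidHom) = Nat.card C := fun C =>
    Subgroup.card_map_of_injective e.injective
  exact Subgroup.map_injective e.injective (h _ _ ((key A).trans hA) ((key B).trans hB))

theorem uniqueP_of_isCyclic {X : Type*} [Group X] [Finite X] [IsCyclic X] {p : ℕ} : UniqueP p X :=
  fun _ _ hA hB => eq_of_card_eq_of_isCyclic (hA.trans hB.symm)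

theorem mem_of_sq_quaternion {m : ℕ} [NeZero m] {u : QuaternionGroup m} (hu : u ^ 2 = 1) (hu1 : u ≠ 1) :
    u = QuaternionGroup.a (m : ZMod (2 * m)) := by
  cases u with
  | xa i =>
    exfalso
    have h1 : orderOf (QuaternionGroup.xa i : QuaternionGroup m) = 4 := QuaternionGroup.orderOf_xa i
    have h2 := orderOf_dvd_of_pow_eq_one hu
    rw [h1] at h2
    omega
  | a i =>
    have hm : 0 < m := NeZero.pos m
    haveI : NeZero (2 * m) := ⟨by omega⟩
    have h1 : i + i = 0 := by
      have h2 : (QuaternionGroup.a i : QuaternionGroup m) * QuaternionGroup.a i = QuaternionGroup.a 0 := by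
        rw [← pow_two, hu]; rfl
      rw [QuaternionGroup.a_mul_a] at h2
      exact QuaternionGroup.a.inj h2
    have hi0 : i ≠ 0 := by
      rintro rfl
      exact hu1 rfl
    congr 1
    -- `i + i = 0` in `ZMod (2 * m)`, `i ≠ 0`
    have hv : i.val < 2 * m := ZMod.val_lt i
    have h3 : ((i.val + i.val : ℕ) : ZMod (2 * m)) = 0 := by
      push_cast
      rw [ZMod.natCast_zmod_val, h1]
    rw [ZMod.natCast_eq_zero_iff] at h3
    have h4 : i.val ≠ 0 := by
      intro e
      exact hi0 ((ZMod.val_eq_zero i).1 e)
    have h5 : i.val = m := by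
      obtain ⟨c, hc⟩ := h3
      have : c = 1 := by
        have h6 : c < 2 := by nlinarith
        have h7 : c ≠ 0 := by
          rintro rfl
          omega
        omega
      subst this
      omega
    have h6 : ((i.val : ℕ) : ZMod (2 * m)) = (m : ZMod (2 * m)) := by rw [h5]
    rwa [ZMod.natCast_zmod_val] at h6

theorem uniqueP_quaternion (m : ℕ) [NeZero m] : UniqueP 2 (QuaternionGroup m) := by
  haveI : Fact (Nat.Prime 2) := ⟨Nat.prime_two⟩
  have key : ∀ A : Subgroup (QuaternionGroup m), Nat.card A = 2 →
      A = zpowers (QuaternionGroup.a (m : ZMod (2 * m))) := by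
    intro A hA
    haveI : Nontrivial A := by
      apply Finite.one_lt_card_iff_nontrivial.1
      omega
    obtain ⟨⟨u, hu⟩, hu1⟩ := exists_ne (1 : A)
    have hu1' : u ≠ 1 := fun e => hu1 (Subtype.ext e)
    have hu2 : u ^ 2 = 1 := by
      have h1 := pow_card_eq_one' (G := A) (x := ⟨u, hu⟩)
      rw [hA] at h1
      exact congrArg Subtype.val h1
    have he := mem_of_sq_quaternion hu2 hu1'
    subst he
    have hord : orderOf (QuaternionGroup.a (m : ZMod (2 * m)) : QuaternionGroup m) = 2 :=
      orderOf_eq_prime hu2 hu1'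
    refine (Subgroup.eq_of_le_of_card_ge ((zpowers_le).2 hu) ?_).symm
    rw [hA, Nat.card_zpowers, hord]
  intro A B hA hB
  rw [key A hA, key B hB]

/-- Existence of the `p`-layer over the `p'`-core. -/
theorem exists_layer {p : ℕ} [Fact p.Prime] (hdiv : p ∣ Nat.card G) (hsol : Cfsg.IsPSolvable p G) :
    ∃ L : Subgroup G, L.Normal ∧ Cfsg.pPrimeCore p G ≤ L ∧ ¬ L ≤ Cfsg.pPrimeCore p G ∧
      ∃ m : ℕ, (Cfsg.pPrimeCore p G).relIndex L = p ^ m := by
  classical
  have hpp : p.Prime := Fact.out
  by_contra hno
  push Not at hno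
  obtain ⟨n, H, h0, hlast, hmono, hnorm, hstep⟩ := hsol
  set K := Cfsg.pPrimeCore p G with hK
  have hKn : K.Normal := Cfsg.Agent.Lib.Basic.pPrimeCore_normal p
  have hKc : (Nat.card K).Coprime p := pPrimeCore_coprime p
  have key : ∀ i : ℕ, ∀ hi : i < n + 1, H ⟨i, hi⟩ ≤ K := by
    intro i
    induction i with
    | zero =>
      intro hi
      have : (⟨0, hi⟩ : Fin (n + 1)) = 0 := rfl
      rw [this, h0]
      exact bot_le
    | succ i ih =>
      intro hi
      have hi' : i < n := by omega
      have h1 := ih (by omega)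
      have h2 := hstep ⟨i, hi'⟩
      have e1 : (⟨i, hi'⟩ : Fin n).castSucc = ⟨i, by omega⟩ := rfl
      have e2 : (⟨i, hi'⟩ : Fin n).succ = ⟨i + 1, hi⟩ := rfl
      rw [e1, e2] at h2
      set A := H ⟨i, by omega⟩ with hA
      set B := H ⟨i + 1, hi⟩ with hB
      have hAB : A ≤ B := hmono (by simp [Fin.le_def])
      have hBn : B.Normal := hnorm _
      by_contra hBK
      rcases h2 with ⟨m, hm⟩ | hc
      · -- the layer
        haveI := hKn
        have hsupn : (B ⊔ K).Normal := inferInstance
        obtain ⟨m', -, hm'⟩ : ∃ m' ≤ m, K.relIndex B = p ^ m' := by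
          have h3 : K.relIndex B ∣ A.relIndex B := Subgroup.relIndex_dvd_of_le_left B h1
          rw [hm] at h3
          exact (Nat.dvd_prime_pow hpp).1 h3
        refine hno (B ⊔ K) hsupn le_sup_right (fun h => hBK (le_sup_left.trans h)) m' ?_
        exact (Subgroup.relIndex_sup_right B K).trans hm'
      · apply hBK
        apply le_pPrimeCore hBn
        have h3 := card_mul_relIndex_of_le hAB
        rw [← h3]
        exact Nat.Coprime.mul_left (Nat.Coprime.coprime_dvd_left (Subgroup.card_dvd_of_le h1) hKc) hc
  have h1 := key n (by omega)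
  have h2 : (⟨n, by omega⟩ : Fin (n + 1)) = Fin.last n := rfl
  rw [h2, hlast] at h1
  have h3 : Nat.card K = Nat.card G := by
    rw [top_le_iff.1 h1]
    exact Nat.card_congr Subgroup.topEquiv.toEquiv
  rw [h3] at hKc
  exact (Nat.Prime.coprime_iff_not_dvd hpp).1 hKc.symm hdiv

/-- Let p be a prime and G a finite p-solvable group of order divisible by p, with Sylow p-subgroup P. Then the Sylow p-subgroups of G fail to be chain-connected through nontrivial intersections (equivalently, G has a strongly p-embedded subgroup) if and only if O_p(G) = 1 and P is cyclic or, for p = 2, generalized quaternion. -/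
theorem result {G : Type*} [Group G] [Finite G]
    (p : ℕ) [Fact p.Prime] (hdiv : p ∣ Nat.card G) (hsol : Cfsg.IsPSolvable p G) (P : Sylow p G) :
    ¬ Cfsg.IsSylowChainConnected p G ↔
      Cfsg.pCore p G = ⊥ ∧ (IsCyclic ↥P ∨ (p = 2 ∧ ∃ n : ℕ, Nonempty (↥P ≃* QuaternionGroup (2 ^ n)))) := by
  classical
  have hpp : p.Prime := Fact.out
  constructor
  · intro hG'
    obtain ⟨H, hHt, hHd, hse⟩ := (Cfsg.Agent.S3056.result p).1 hG'
    obtain ⟨S, hSH⟩ := exists_sylow_le_of_strongly_embedded hHd hse
    -- `O_p(G) = 1`
    have hcore : Cfsg.pCore p G = ⊥ := by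
      by_contra hne
      have hle : Cfsg.pCore p G ≤ (S : Subgroup G) := pCore_le_sylow S
      have h1 := normalizer_le_of_strongly_embedded hse (pCore_isPGroup p) (hle.trans hSH) hne
      have hn : (Cfsg.pCore p G).Normal := Cfsg.Agent.Lib.Basic.pCore_normal p
      rw [(Subgroup.normalizer_eq_top_iff).2 hn] at h1
      exact hHt (top_le_iff.1 h1)
    refine ⟨hcore, ?_⟩
    -- `S` has no noncyclic elementary abelian subgroup.
    obtain ⟨L, hLn, hKL, hLK, m, hm⟩ := exists_layer hdiv hsol
    haveI := hLn
    set K := Cfsg.pPrimeCore p G with hK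
    have hKn : K.Normal := Cfsg.Agent.Lib.Basic.pPrimeCore_normal p
    haveI := hKn
    have hKc : ¬ p ∣ Nat.card K := (Nat.Prime.coprime_iff_not_dvd hpp).1 (pPrimeCore_coprime p).symm
    have hKnH : ¬ K ≤ H := by
      intro hKH
      -- Frattini
      have hm0 : m ≠ 0 := by
        rintro rfl
        rw [pow_zero, Subgroup.relIndex_eq_one] at hm
        exact hLK hm
      have hLd : p ∣ Nat.card L := by
        have h1 := card_mul_relIndex_of_le hKL
        rw [hm] at h1
        rw [← h1]
        exact Dvd.dvd.mul_left (dvd_pow_self p hm0) _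
      have hT1 : (S : Subgroup G) ⊓ L ≠ ⊥ := by
        intro e
        have := dvd_card_inf_sylow S L hLd
        rw [e, Subgroup.card_bot] at this
        exact hpp.one_lt.ne' (Nat.dvd_one.1 this)
      have hnorm := normalizer_le_of_strongly_embedded hse (S.isPGroup'.to_le inf_le_left)
        (inf_le_left.trans hSH) hT1
      obtain ⟨P₁, hP₁⟩ := exists_sylow_map_eq_inf S L
      have hfr := Sylow.normalizer_sup_eq_top P₁
      rw [hP₁] at hfr
      -- `L ≤ K (S ∩ L)`
      have hLle : L ≤ K ⊔ ((S : Subgroup G) ⊓ L) := by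
        set W := K ⊔ ((S : Subgroup G) ⊓ L) with hW
        have h1 : W.relIndex L ∣ K.relIndex L := Subgroup.relIndex_dvd_of_le_left L le_sup_left
        have h2 : W.relIndex L ∣ ((S : Subgroup G) ⊓ L).relIndex L :=
          Subgroup.relIndex_dvd_of_le_left L le_sup_right
        have h3 : ¬ p ∣ ((S : Subgroup G) ⊓ L).relIndex L := by
          rw [Subgroup.inf_relIndex_right]
          exact sylow_relIndex_normal_not_dvd S L
        rw [hm] at h1
        obtain ⟨j, -, hj⟩ := (Nat.dvd_prime_pow hpp).1 h1
        have hj0 : j = 0 := by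
          by_contra hj0
          apply h3
          rw [hj] at h2
          exact (dvd_pow_self p hj0).trans h2
        have hone : W.relIndex L = 1 := by rw [hj, hj0, pow_zero]
        exact Subgroup.relIndex_eq_one.1 hone
      apply hHt
      rw [eq_top_iff, ← hfr]
      refine sup_le hnorm (hLle.trans (sup_le hKH (inf_le_left.trans hSH)))
    -- hence `UniqueP`
    have hU : UniqueP p ↥(S : Subgroup G) := by
      by_contra hnU
      apply hKnH
      -- find a noncyclic elementary abelian subgroup
      have hcard1 : p ∣ Nat.card (S : Subgroup G) := by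
        have hne : (S : Subgroup G) ≠ ⊥ := by
          intro e
          have h1 := S.not_dvd_index
          rw [e, Subgroup.index_bot] at h1
          exact h1 hdiv
        exact dvd_card_of_ne_bot S.isPGroup' hne
      have hSnil : Group.IsNilpotent ↥(S : Subgroup G) := S.isPGroup'.isNilpotent
      -- a central element of order `p` in `S`.
      obtain ⟨z, hzc, hzo⟩ : ∃ z : ↥(S : Subgroup G), z ∈ Subgroup.center ↥(S : Subgroup G) ∧ orderOf z = p := by
        haveI : Nontrivial ↥(S : Subgroup G) := by
          apply Finite.one_lt_card_iff_nontrivial.1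
          have := Nat.le_of_dvd Nat.card_pos hcard1
          have := hpp.two_le
          omega
        have h1 : p ∣ Nat.card (Subgroup.center ↥(S : Subgroup G)) := by
          have := S.isPGroup'.center_nontrivial
          have hc := IsPGroup.to_subgroup S.isPGroup' (Subgroup.center ↥(S : Subgroup G))
          exact dvd_card_of_ne_bot hc ((Subgroup.nontrivial_iff_ne_bot _).1 this)
        obtain ⟨z, hz⟩ := exists_prime_orderOf_dvd_card' (G := Subgroup.center ↥(S : Subgroup G)) p h1
        exact ⟨z, z.2, by rw [Subgroup.orderOf_coe, hz]⟩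
      set z' : G := ((z : ↥(S : Subgroup G)) : G) with hz'
      have hz'o : orderOf z' = p := by rw [hz', Subgroup.orderOf_coe, hzo]
      -- some element of order `p` outside `⟨z⟩`
      have hex : ∃ y ∈ (S : Subgroup G), orderOf y = p ∧ y ∉ zpowers z' := by
        by_contra hno
        push Not at hno
        apply hnU
        have key : ∀ A : Subgroup ↥(S : Subgroup G), Nat.card A = p → A = zpowers z := by
          intro A hA
          have hle : A ≤ zpowers z := by
            intro u hu
            by_cases hu1 : u = 1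
            · rw [hu1]; exact one_mem _
            have hup : u ^ p = 1 := by
              have h1 := pow_card_eq_one' (G := A) (x := ⟨u, hu⟩)
              rw [hA] at h1
              exact congrArg Subtype.val h1
            have huo : orderOf u = p := orderOf_eq_prime hup hu1
            have h2 := hno (u : G) u.2 (by rw [Subgroup.orderOf_coe, huo])
            obtain ⟨k, hk⟩ := Subgroup.mem_zpowers_iff.1 h2
            exact Subgroup.mem_zpowers_iff.2 ⟨k, Subtype.ext (by simpa using hk)⟩
          exact Subgroup.eq_of_le_of_card_ge hle (by rw [hA, Nat.card_zpowers, hzo])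
        intro A B hA hB
        rw [key A hA, key B hB]
      obtain ⟨y, hyS, hyo, hyz⟩ := hex
      have hcomm : Commute z' y := by
        have h1 := (Subgroup.mem_center_iff.1 hzc) ⟨y, hyS⟩
        exact (congrArg Subtype.val h1).symm
      have hEa := ea_sup_zpowers (p := p) (a := z') (b := y) (by rw [← hz'o, pow_orderOf_eq_one])
        (by rw [← hyo, pow_orderOf_eq_one]) hcomm
      have hEcard : p < Nat.card ↥(zpowers z' ⊔ zpowers y) := by
        have hlt : zpowers z' < zpowers z' ⊔ zpowers y := by
          refine lt_of_le_of_ne le_sup_left ?_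
          intro e
          apply hyz
          rw [e]
          exact (le_sup_right : zpowers y ≤ zpowers z' ⊔ zpowers y) (mem_zpowers y)
        have h2 := Cfsg.Agent.Lib.OddLocal.card_lt_of_lt hlt
        rwa [Nat.card_zpowers, hz'o] at h2
      have hEH : zpowers z' ⊔ zpowers y ≤ H :=
        sup_le ((zpowers_le).2 (hSH z.2)) ((zpowers_le).2 (hSH hyS))
      have hEK : zpowers z' ⊔ zpowers y ≤ normalizer ((K : Subgroup G) : Set G) := by
        rw [(Subgroup.normalizer_eq_top_iff).2 hKn]
        exact le_top
      exact le_of_ea_of_strongly_embedded hse hKc hEa hEH hEcard hEK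
    have hUP : UniqueP p ↥P := uniqueP_of_equiv (Sylow.equiv P S) hU
    by_cases hp2 : p = 2
    · subst hp2
      rcases cyclic_or_quaternion P.isPGroup' hUP with h | ⟨n, hn⟩
      · exact Or.inl h
      · exact Or.inr ⟨rfl, n, hn⟩
    · exact Or.inl (isCyclic_of_uniqueP_odd hp2 _ ↥P rfl P.isPGroup' hUP)
  · rintro ⟨hcore, hstr⟩
    have hUP : UniqueP p ↥P := by
      rcases hstr with h | ⟨rfl, n, ⟨e⟩⟩
      · exact uniqueP_of_isCyclic
      · haveI : NeZero (2 ^ n) := ⟨by positivity⟩
        exact uniqueP_of_equiv e (uniqueP_quaternion (2 ^ n))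
    apply (Cfsg.Agent.S3056.result p).2
    -- any two subgroups of order `p` generating a `p`-group coincide.
    have hU' : ∀ A B : Subgroup G, IsPGroup p ↥(A ⊔ B) → Nat.card A = p → Nat.card B = p → A = B := by
      intro A B hAB hA hB
      obtain ⟨Q, hQ⟩ := hAB.exists_le_sylow
      have hUQ : UniqueP p ↥(Q : Subgroup G) := uniqueP_of_equiv (Sylow.equiv Q P) hUP
      have hAQ : A ≤ (Q : Subgroup G) := le_sup_left.trans hQ
      have hBQ : B ≤ (Q : Subgroup G) := le_sup_right.trans hQ
      have h1 := hUQ (A.subgroupOf Q) (B.subgroupOf Q)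
        ((Nat.card_congr (Subgroup.subgroupOfEquivOfLe hAQ).toEquiv).trans hA)
        ((Nat.card_congr (Subgroup.subgroupOfEquivOfLe hBQ).toEquiv).trans hB)
      have h2 := congrArg (Subgroup.map (Q : Subgroup G).subtype) h1
      rwa [Subgroup.map_subgroupOf_eq_of_le hAQ, Subgroup.map_subgroupOf_eq_of_le hBQ] at h2
    have hPd : p ∣ Nat.card ↥P := by
      have hne : (P : Subgroup G) ≠ ⊥ := by
        intro e
        have h1 := P.not_dvd_index
        rw [e, Subgroup.index_bot] at h1
        exact h1 hdiv
      exact dvd_card_of_ne_bot P.isPGroup' hne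
    obtain ⟨z₀, hz₀⟩ := exists_prime_orderOf_dvd_card' (G := ↥P) p hPd
    set z : G := (z₀ : G) with hz
    have hzo : orderOf z = p := by rw [hz, Subgroup.orderOf_coe, hz₀]
    have hzp : IsPGroup p (zpowers z) := isPGroup_zpowers ⟨1, by simpa using hzo⟩
    have hzb : zpowers z ≠ ⊥ := by
      intro e
      rw [Subgroup.zpowers_eq_bot] at e
      rw [e, orderOf_one] at hzo
      exact hpp.one_lt.ne hzo
    have hzc : Nat.card (zpowers z) = p := by rw [Nat.card_zpowers, hzo]
    -- every element of order `p` of `N(Z₀)` lies in `Z₀`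
    have hkey : ∀ u ∈ normalizer ((zpowers z : Subgroup G) : Set G), orderOf u = p → zpowers u = zpowers z := by
      intro u hu huo
      have hup : IsPGroup p (zpowers u) := isPGroup_zpowers ⟨1, by simpa using huo⟩
      have h1 : IsPGroup p ↥(zpowers u ⊔ zpowers z) :=
        isPGroup_sup_of_le_normalizer hzp hup ((zpowers_le).2 hu)
      exact hU' _ _ h1 (by rw [Nat.card_zpowers, huo]) hzc
    refine ⟨normalizer ((zpowers z : Subgroup G) : Set G), ?_, ?_, ?_⟩
    · intro e
      have hn : (zpowers z).Normal := (Subgroup.normalizer_eq_top_iff).1 e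
      have h1 : zpowers z ≤ Cfsg.pCore p G := le_pCore hn hzp
      rw [hcore] at h1
      exact hzb (le_bot_iff.1 h1)
    · have h1 : zpowers z ≤ normalizer ((zpowers z : Subgroup G) : Set G) := Subgroup.le_normalizer
      have h2 := Subgroup.card_dvd_of_le h1
      rwa [hzc] at h2
    · intro g hg hd
      obtain ⟨u₀, hu₀⟩ := exists_prime_orderOf_dvd_card' p hd
      set u : G := (u₀ : G) with hu
      have huo : orderOf u = p := by rw [hu, Subgroup.orderOf_coe, hu₀]
      have hu1 : u ∈ normalizer ((zpowers z : Subgroup G) : Set G) := u₀.2.1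
      have hu2 : u ∈ (normalizer ((zpowers z : Subgroup G) : Set G)).map (MulAut.conj g).toMonoidHom := u₀.2.2
      rw [mem_conj_map] at hu2
      have e1 := hkey u hu1 huo
      have e2 := hkey (g⁻¹ * u * g) hu2 (by
        have := orderOf_conj g⁻¹ u
        rw [inv_inv] at this
        rw [this, huo])
      apply hg
      rw [← e2] at e1
      have hgi : g⁻¹ ∈ normalizer ((zpowers u : Subgroup G) : Set G) := by
        apply Cfsg.Agent.Lib.PGroups.mem_normalizer_of_conj_le'
        intro w hw
        obtain ⟨k, rfl⟩ := Subgroup.mem_zpowers_iff.1 hw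
        have e3 : g⁻¹ * u ^ k * g⁻¹⁻¹ = (g⁻¹ * u * g⁻¹⁻¹) ^ k := conj_zpow.symm
        rw [e3, inv_inv, e1]
        exact Subgroup.zpow_mem_zpowers _ _
      have e4 : zpowers u = zpowers z := hkey u hu1 huo
      have hgn := Subgroup.inv_mem _ hgi
      rw [inv_inv, e4] at hgn
      exact hgn

end Cfsg.Agent.S3057
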