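import Cfsg.Statements.S3058
import Cfsg.Agent.S3056
import Cfsg.Agent.Lib.LocalEven2.StrongEmbed2
-- import your own Cfsg.Agent.* helpers here

set_option autoImplicit false
open Cfsg

namespace Cfsg.Agent.S3058

open Cfsg.Agent.Lib.LocalEven2 Cfsg.Agent.Lib.Coprime Cfsg.Agent.Lib.Basic Subgroup

/-- Let p be a prime and G a finite group whose Sylow p-subgroups are not chain-connected through nontrivial intersections (so G has a strongly p-embedded subgroup). If N and M are normal subgroups of G whose orders are both divisible by p, then the order of N ∩ M is divisible by p. Consequently, among the normal subgroups of G whose order is divisible by p there is a smallest one (the intersection of all of them). -/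
theorem result {G : Type*} [Group G] [Finite G]
    (p : ℕ) [Fact p.Prime] (hG : ¬ Cfsg.IsSylowChainConnected p G)
    (N M : Subgroup G) [N.Normal] [M.Normal] (hN : p ∣ Nat.card N) (hM : p ∣ Nat.card M) :
    p ∣ Nat.card ↥(N ⊓ M) := by
  classical
  have hpp : p.Prime := Fact.out
  by_contra hK
  obtain ⟨H, hHt, hHd, hse⟩ := (Cfsg.Agent.S3056.result p).1 hG
  obtain ⟨S, hSH⟩ := exists_sylow_le_of_strongly_embedded hHd hse
  have hKn : (N ⊓ M).Normal := inferInstance
  -- elements of order `p`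
  obtain ⟨a₀, ha₀⟩ := exists_prime_orderOf_dvd_card' (G := ↥((S : Subgroup G) ⊓ N)) p (dvd_card_inf_sylow S N hN)
  obtain ⟨b₀, hb₀⟩ := exists_prime_orderOf_dvd_card' (G := ↥((S : Subgroup G) ⊓ M)) p (dvd_card_inf_sylow S M hM)
  set a : G := (a₀ : G) with ha
  set b : G := (b₀ : G) with hb
  have hao : orderOf a = p := by rw [ha, Subgroup.orderOf_coe, ha₀]
  have hbo : orderOf b = p := by rw [hb, Subgroup.orderOf_coe, hb₀]
  have haS : a ∈ (S : Subgroup G) := a₀.2.1
  have haN : a ∈ N := a₀.2.2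
  have hbS : b ∈ (S : Subgroup G) := b₀.2.1
  have hbM : b ∈ M := b₀.2.2
  have ha1 : a ≠ 1 := by
    intro e
    rw [e, orderOf_one] at hao
    exact hpp.one_lt.ne hao
  have hb1 : b ≠ 1 := by
    intro e
    rw [e, orderOf_one] at hbo
    exact hpp.one_lt.ne hbo
  have hSK : (S : Subgroup G) ⊓ (N ⊓ M) = ⊥ :=
    eq_bot_of_isPGroup_of_not_dvd (S.isPGroup'.to_le inf_le_left) inf_le_right hK
  -- `a`, `b` commute
  have hab : Commute a b := by
    have h1 : a * b * a⁻¹ * b⁻¹ ∈ (S : Subgroup G) ⊓ (N ⊓ M) := by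
      refine ⟨?_, ?_, ?_⟩
      · exact S.1.mul_mem (S.1.mul_mem (S.1.mul_mem haS hbS) (S.1.inv_mem haS)) (S.1.inv_mem hbS)
      · have e : a * b * a⁻¹ * b⁻¹ = a * (b * a⁻¹ * b⁻¹) := by group
        rw [e]
        exact N.mul_mem haN ((inferInstance : N.Normal).conj_mem _ (N.inv_mem haN) b)
      · exact M.mul_mem ((inferInstance : M.Normal).conj_mem _ hbM a) (M.inv_mem hbM)
    rw [hSK] at h1
    have h2 := Subgroup.mem_bot.1 h1
    have h3 : a * b * a⁻¹ = b := by
      calc a * b * a⁻¹ = (a * b * a⁻¹ * b⁻¹) * b := by group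
        _ = b := by rw [h2, one_mul]
    calc a * b = (a * b * a⁻¹) * a := by group
      _ = b * a := by rw [h3]
  have hinf : zpowers a ⊓ zpowers b = ⊥ := by
    rw [eq_bot_iff, ← hSK]
    rintro x ⟨hx1, hx2⟩
    refine ⟨?_, ?_, ?_⟩
    · exact ((zpowers_le).2 haS) hx1
    · exact ((zpowers_le).2 haN) hx1
    · exact ((zpowers_le).2 hbM) hx2
  have hEa := ea_sup_zpowers (p := p) (a := a) (b := b) (by rw [← hao, pow_orderOf_eq_one])
    (by rw [← hbo, pow_orderOf_eq_one]) hab
  have hEcard : p < Nat.card ↥(zpowers a ⊔ zpowers b) := by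
    have hn : zpowers b ≤ normalizer ((zpowers a : Subgroup G) : Set G) := by
      intro y hy
      obtain ⟨j, rfl⟩ := Subgroup.mem_zpowers_iff.1 hy
      apply Cfsg.Agent.Lib.PGroups.mem_normalizer_of_conj_le'
      intro u hu
      obtain ⟨i, rfl⟩ := Subgroup.mem_zpowers_iff.1 hu
      have e : b ^ j * a ^ i * (b ^ j)⁻¹ = a ^ i := by
        rw [← (hab.zpow_zpow i j).eq]; group
      rw [e]
      exact hu
    have h1 := Cfsg.Agent.Lib.OddLocal.card_sup_mul_card_inf hn
    rw [hinf, Subgroup.card_bot, mul_one, Nat.card_zpowers, Nat.card_zpowers, hao, hbo] at h1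
    rw [h1]
    have := hpp.two_le
    nlinarith
  have hEH : zpowers a ⊔ zpowers b ≤ H :=
    sup_le ((zpowers_le).2 (hSH haS)) ((zpowers_le).2 (hSH hbS))
  have hEK : zpowers a ⊔ zpowers b ≤ normalizer ((N ⊓ M : Subgroup G) : Set G) := by
    rw [(Subgroup.normalizer_eq_top_iff).2 hKn]
    exact le_top
  have hKH := le_of_ea_of_strongly_embedded hse hK hEa hEH hEcard hEK
  -- `N ≤ K H`
  have hNle : N ≤ (N ⊓ M) ⊔ H := by
    intro n hn
    apply mem_sup_of_comm hse hK (a := b) ⟨1, by simpa using hbo⟩ (hSH hbS) hb1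
    refine ⟨?_, ?_⟩
    · have e : n * b * n⁻¹ * b⁻¹ = n * (b * n⁻¹ * b⁻¹) := by group
      rw [e]
      exact N.mul_mem hn ((inferInstance : N.Normal).conj_mem _ (N.inv_mem hn) b)
    · exact M.mul_mem ((inferInstance : M.Normal).conj_mem _ hbM n) (M.inv_mem hbM)
  rw [sup_eq_right.2 hKH] at hNle
  -- Frattini
  obtain ⟨P, hP⟩ := exists_sylow_map_eq_inf S N
  have hfr := Sylow.normalizer_sup_eq_top P
  have hT1 : (S : Subgroup G) ⊓ N ≠ ⊥ := by
    intro e
    have := dvd_card_inf_sylow S N hN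
    rw [e, Subgroup.card_bot] at this
    exact hpp.one_lt.ne' (Nat.dvd_one.1 this)
  have hnorm := normalizer_le_of_strongly_embedded hse (S.isPGroup'.to_le inf_le_left)
    (inf_le_left.trans hSH) hT1
  rw [hP] at hfr
  apply hHt
  rw [eq_top_iff, ← hfr]
  exact sup_le hnorm hNle

end Cfsg.Agent.S3058
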