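import Cfsg.Statements.S3059
import Cfsg.Agent.Lib.LocalEven2.StrongEmbed
import Cfsg.Agent.Lib.LocalEven2.CD
-- import your own Cfsg.Agent.* helpers here

set_option autoImplicit false
open Cfsg

namespace Cfsg.Agent.S3059

open Cfsg.Agent.Lib.LocalEven2 Cfsg.Agent.Lib.LocalEven Cfsg.Agent.Lib.Coprime Cfsg

/-- Let p be a prime and H a strongly p-embedded subgroup of the finite group G in the classical sense: H is proper, p divides the order of H, and H ∩ gHg⁻¹ has order prime to p for every g outside H. Then for every normal subgroup N of G of order divisible by p, G = H · O^p(N), where O^p(N) is the subgroup generated by the elements of N of order prime to p. -/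
theorem result {G : Type*} [Group G] [Finite G]
    (p : ℕ) [Fact p.Prime] (H : Subgroup G) (hH : H ≠ ⊤) (hpH : p ∣ Nat.card H)
    (hse : ∀ g : G, g ∉ H → ¬ p ∣ Nat.card ↥(H ⊓ H.map (MulAut.conj g).toMonoidHom))
    (N : Subgroup G) [N.Normal] (hN : p ∣ Nat.card N) :
    H ⊔ Subgroup.closure {g : G | g ∈ N ∧ (orderOf g).Coprime p} = ⊤ := by
  obtain ⟨S, hS⟩ := exists_sylow_le_of_strongly_embedded hpH hse
  have hpp : p.Prime := Fact.out
  set A : Subgroup G := (S : Subgroup G) ⊓ N with hA
  have hAp : IsPGroup p A := S.isPGroup'.to_le inf_le_left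
  have hAH : A ≤ H := inf_le_left.trans hS
  have hpA : p ∣ Nat.card A := by
    have h1 := sylow_relIndex_normal_not_dvd S N
    have h2 := card_inf_mul_relIndex' (S : Subgroup G) N
    rw [← h2] at hN
    rcases hpp.dvd_mul.1 hN with h3 | h3
    · exact h3
    · exact absurd h3 h1
  have hNA : Subgroup.normalizer (A : Set G) ≤ H := by
    intro g hg
    by_contra hgH
    apply hse g hgH
    have hle : A ≤ H ⊓ H.map (MulAut.conj g).toMonoidHom := by
      refine le_inf hAH ?_
      intro x hx
      rw [mem_conj_map]
      have := (Subgroup.mem_normalizer_iff.1 (Subgroup.inv_mem _ hg) x).1 hx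
      simp only [inv_inv] at this
      exact hAH this
    exact hpA.trans (Subgroup.card_dvd_of_le hle)
  have hfr : H ⊔ N = ⊤ := by
    have h1 := frattini_inf_normal S N
    rw [eq_top_iff, ← h1]
    exact sup_le_sup_right hNA _
  obtain ⟨A', hA'⟩ := exists_sylow_map_eq_inf S N
  have hres := pResidual_sup_sylow A'
  set L := Subgroup.closure {g : G | g ∈ N ∧ (orderOf g).Coprime p} with hL
  have hresL : (pResidual p N).map N.subtype ≤ L := by
    rw [Subgroup.map_le_iff_le_comap]
    delta pResidual
    rw [Subgroup.closure_le]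
    intro g hg
    apply Subgroup.subset_closure
    exact ⟨g.2, by
      have : orderOf (g : G) = orderOf g := Subgroup.orderOf_coe g
      show (orderOf (g : G)).Coprime p
      rw [this]; exact hg⟩
  have hNle : N ≤ H ⊔ L := by
    intro x hx
    have h1 : (⟨x, hx⟩ : N) ∈ pResidual p N ⊔ (A' : Subgroup N) := by rw [hres]; trivial
    have h2 : pResidual p N ⊔ (A' : Subgroup N) ≤ (H ⊔ L).comap N.subtype := by
      apply sup_le
      · intro y hy
        exact Subgroup.mem_sup_right (hresL ⟨y, hy, rfl⟩)
      · intro y hy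
        have h3 : (y : G) ∈ (A' : Subgroup N).map N.subtype := ⟨y, hy, rfl⟩
        rw [hA'] at h3
        exact Subgroup.mem_sup_left (hAH h3)
    exact h2 h1
  rw [eq_top_iff, ← hfr]
  exact sup_le le_sup_left hNle

end Cfsg.Agent.S3059
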