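import Cfsg.Statements.S3060
import Cfsg.Agent.Lib.LocalEven2.DStar
import Cfsg.Agent.Lib.Basic.Core
-- import your own Cfsg.Agent.* helpers here

set_option autoImplicit false
open Cfsg

namespace Cfsg.Agent.S3060

open Subgroup Cfsg Cfsg.Agent.Lib.LocalEven2
open scoped commutatorElement

section aux
variable {G : Type*} [Group G] [Finite G] {p : ℕ} [Fact p.Prime]

theorem D_le (S : Sylow p G) : dStarOf (S : Subgroup G) ≤ S := by
  rintro _ ⟨a, -, rfl⟩
  exact a.2

theorem D_comm (S : Sylow p G) : ∀ a ∈ dStarOf (S : Subgroup G), ∀ b ∈ dStarOf (S : Subgroup G),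
    a * b = b * a := by
  rintro _ ⟨a, ha, rfl⟩ _ ⟨b, hb, rfl⟩
  exact congrArg Subtype.val (dStar_comm S.isPGroup' a ha b hb)

theorem D_norm (S : Sylow p G) {s d : G} (hs : s ∈ S) (hd : d ∈ dStarOf (S : Subgroup G)) :
    s * d * s⁻¹ ∈ dStarOf (S : Subgroup G) := by
  obtain ⟨a, ha, rfl⟩ := hd
  have := (dStar_normal (G := (S : Subgroup G))).conj_mem a ha ⟨s, hs⟩
  exact ⟨_, this, rfl⟩

theorem D_fam (S : Sylow p G) {s : G} (hs : s ∈ S)
    (h : ∀ d ∈ dStarOf (S : Subgroup G), ⁅⁅d, s⁆, s⁆ = 1) :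
    ∀ d ∈ dStarOf (S : Subgroup G), d * s = s * d := by
  rintro _ ⟨a, ha, rfl⟩
  have hP : IsPGroup p (S : Subgroup G) := S.isPGroup'
  have hf := dStar_mem_family hP
  have hcl : ⁅⁅dStar (S : Subgroup G) ⊔ zpowers (⟨s, hs⟩ : (S : Subgroup G)),
      dStar (S : Subgroup G) ⊔ zpowers (⟨s, hs⟩ : (S : Subgroup G))⁆,
      dStar (S : Subgroup G) ⊔ zpowers (⟨s, hs⟩ : (S : Subgroup G))⁆ = ⊥ := by
    apply class_two_of_sup_zpowers (dStar_comm hP)
    intro b hb
    set x : (S : Subgroup G) := ⟨s, hs⟩ with hx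
    have hcD : ⁅b, x⁆ ∈ dStar (S : Subgroup G) := by
      have e : ⁅b, x⁆ = b * (x * b⁻¹ * x⁻¹) := by rw [commutatorElement_def]; group
      rw [e]
      exact Subgroup.mul_mem _ hb
        ((dStar_normal (G := (S : Subgroup G))).conj_mem _ (Subgroup.inv_mem _ hb) x)
    have hW : dStar (S : Subgroup G) ⊔ zpowers x ≤ centralizer ({⁅b, x⁆} : Set (S : Subgroup G)) := by
      apply sup_le
      · intro t ht
        rw [mem_centralizer_iff]
        intro c hc
        rw [Set.mem_singleton_iff.1 hc]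
        exact dStar_comm hP _ hcD _ ht
      · rw [zpowers_le, mem_centralizer_iff]
        intro c hc
        rw [Set.mem_singleton_iff.1 hc]
        have h1 := h _ ⟨b, hb, rfl⟩
        apply Subtype.ext
        have h2 : ⁅⁅(b : G), s⁆, s⁆ = 1 := h1
        have h3 := commutatorElement_eq_one_iff_mul_comm.1 h2
        show (⁅(b : G), s⁆) * s = s * ⁅(b : G), s⁆
        exact h3
    intro y hy
    exact (mem_centralizer_iff.1 (hW hy) _ rfl).symm
  exact congrArg Subtype.val (hf.2 ⟨s, hs⟩ hcl a ha)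

theorem mem_core_of_le {V : Subgroup G} [hV : V.Normal] (hc : centralizer (V : Set G) ≤ pCore p G) {d : G}
    (h : (QuotientGroup.mk d : G ⧸ centralizer (V : Set G)) ∈ pCore p (G ⧸ centralizer (V : Set G))) :
    d ∈ pCore p G := by
  set C : Subgroup G := centralizer (V : Set G) with hC
  set L : Subgroup G := (pCore p (G ⧸ C)).comap (QuotientGroup.mk' C) with hL
  have hLn : L.Normal := (Cfsg.Agent.Lib.Basic.pCore_normal (G := G ⧸ C) p).comap _
  have hLp : IsPGroup p L := by
    rintro ⟨g, hg⟩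
    obtain ⟨k, hk⟩ := Cfsg.Agent.Lib.Basic.pCore_isPGroup (G := G ⧸ C) p ⟨_, hg⟩
    have h1 : (QuotientGroup.mk' C g) ^ p ^ k = 1 := congrArg Subtype.val hk
    have h2 : g ^ p ^ k ∈ C := by
      rw [← QuotientGroup.eq_one_iff]
      simpa using h1
    obtain ⟨m, hm⟩ := Cfsg.Agent.Lib.Basic.pCore_isPGroup (G := G) p ⟨_, hc h2⟩
    have h3 : (g ^ p ^ k) ^ p ^ m = 1 := congrArg Subtype.val hm
    refine ⟨k + m, Subtype.ext ?_⟩
    show g ^ p ^ (k + m) = 1
    rw [pow_add, pow_mul]
    exact h3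
  exact Cfsg.Agent.Lib.Basic.le_pCore hLn hLp h

theorem comm_of_closure {X : Set G} (hX : ∀ a ∈ X, ∀ b ∈ X, a * b = b * a) :
    ∀ a ∈ closure X, ∀ b ∈ closure X, a * b = b * a := by
  have h1 : closure X ≤ centralizer X :=
    (closure_le _).2 (fun a ha => mem_centralizer_iff.2 (fun b hb => hX b hb a ha))
  have h2 : closure X ≤ centralizer ((closure X : Subgroup G) : Set G) := by
    refine (closure_le _).2 (fun a ha => mem_centralizer_iff.2 (fun b hb => ?_))
    exact ((mem_centralizer_iff.1 (h1 hb)) a ha).symm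
  intro a ha b hb
  exact (mem_centralizer_iff.1 (h2 hb)) a ha

end aux

/-- The D*-Theorem. For a finite p-group S let D*(S) be the subgroup generated by the abelian subgroups A of S such that every x ∈ S with ⟨A, x⟩ of nilpotency class at most two centralizes A. Let p be an odd prime and H a finite p-stable group with Sylow p-subgroup S. Here H is p-stable in the following sense: the largest normal p-subgroup O_p(H) contains its centralizer in H, and for every normal p-subgroup P of H, every element acting quadratically on P has image in O_p(H/C_H(P)). Then D*(S) is a normal subgroup of H. -/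
theorem result {G : Type*} [Group G] [Finite G] {p : ℕ} [Fact p.Prime] (hp : p ≠ 2)
    (hc : Subgroup.centralizer (Cfsg.pCore p G : Set G) ≤ Cfsg.pCore p G)
    (hst : ∀ (P : Subgroup G) [P.Normal], IsPGroup p P → Cfsg.IsPStableOn p P) (S : Sylow p G) :
    (Cfsg.dStarOf (S : Subgroup G)).Normal := by
  classical
  set D : Subgroup G := Cfsg.dStarOf (S : Subgroup G) with hD
  haveI hQn : (Cfsg.pCore p G).Normal := Cfsg.Agent.Lib.Basic.pCore_normal (G := G) p
  have hQp : IsPGroup p (Cfsg.pCore p G) := Cfsg.Agent.Lib.Basic.pCore_isPGroup (G := G) p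
  have hQS : Cfsg.pCore p G ≤ S := Cfsg.Agent.Lib.Basic.pCore_le_sylow S
  have hDc := D_comm S
  -- Step 1
  have hDQ : D ≤ Cfsg.pCore p G := by
    intro d hd
    have hq : ⁅⁅Cfsg.pCore p G, Subgroup.zpowers d⁆, Subgroup.zpowers d⁆ = ⊥ := by
      have hzD : Subgroup.zpowers d ≤ D := Subgroup.zpowers_le.2 hd
      have h1 : ⁅Cfsg.pCore p G, Subgroup.zpowers d⁆ ≤ D := by
        rw [Subgroup.commutator_le]
        intro q hq y hy
        have hyD : y ∈ D := hzD hy
        rw [commutatorElement_def]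
        exact D.mul_mem (D_norm S (hQS hq) hyD) (D.inv_mem hyD)
      rw [eq_bot_iff, Subgroup.commutator_le]
      intro a ha b hb
      rw [Subgroup.mem_bot, commutatorElement_eq_one_iff_mul_comm]
      exact hDc _ (h1 ha) _ (hzD hb)
    exact mem_core_of_le hc (hst (Cfsg.pCore p G) hQp d hq)
  have hconj : ∀ (g d₁ d₂ : G), d₁ ∈ D → d₂ ∈ D → (g * d₁ * g⁻¹) * d₂ = d₂ * (g * d₁ * g⁻¹) := by
    intro g d₁ d₂ hd₁ hd₂
    set x := g * d₁ * g⁻¹ with hx
    have hxQ : x ∈ Cfsg.pCore p G := hQn.conj_mem _ (hDQ hd₁) g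
    refine (D_fam S (hQS hxQ) ?_ d₂ hd₂).symm ▸ ?_
    · intro d hd
      set t := g⁻¹ * d * g with ht
      have htQ : t ∈ Cfsg.pCore p G := by
        have := hQn.conj_mem _ (hDQ hd) g⁻¹
        simpa [ht] using this
      set w := t * d₁ * t⁻¹ * d₁⁻¹ with hw
      have hwD : w ∈ D := D.mul_mem (D_norm S (hQS htQ) hd₁) (D.inv_mem hd₁)
      have hy : ⁅d, x⁆ = g * w * g⁻¹ := by
        rw [commutatorElement_def, hx, hw, ht]; group
      rw [hy, commutatorElement_eq_one_iff_mul_comm]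
      have := hDc w hwD d₁ hd₁
      calc g * w * g⁻¹ * x = g * (w * d₁) * g⁻¹ := by rw [hx]; group
        _ = g * (d₁ * w) * g⁻¹ := by rw [this]
        _ = _ := by rw [hx]; group
    · rfl
  set E : Subgroup G := Subgroup.normalClosure (D : Set G) with hE
  have hEn : E.Normal := inferInstance
  have hDE : D ≤ E := Subgroup.subset_normalClosure
  have hEQ : E ≤ Cfsg.pCore p G := Subgroup.normalClosure_le_normal hDQ
  have hEp : IsPGroup p E := hQp.to_le hEQ
  have hgen : ∀ y ∈ Group.conjugatesOfSet (D : Set G), ∃ d ∈ D, ∃ g : G, y = g * d * g⁻¹ := by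
    intro y hy
    obtain ⟨a, ha, hc⟩ := Group.mem_conjugatesOfSet_iff.1 hy
    obtain ⟨c, hc⟩ := isConj_iff.1 hc
    exact ⟨a, ha, c, hc.symm⟩
  have hEc : ∀ a ∈ E, ∀ b ∈ E, a * b = b * a := by
    apply comm_of_closure
    intro a ha b hb
    obtain ⟨d₁, hd₁, g₁, rfl⟩ := hgen a ha
    obtain ⟨d₂, hd₂, g₂, rfl⟩ := hgen b hb
    have := hconj (g₂⁻¹ * g₁) d₁ d₂ hd₁ hd₂
    calc g₁ * d₁ * g₁⁻¹ * (g₂ * d₂ * g₂⁻¹)
        = g₂ * (((g₂⁻¹ * g₁) * d₁ * (g₂⁻¹ * g₁)⁻¹) * d₂) * g₂⁻¹ := by group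
      _ = g₂ * (d₂ * ((g₂⁻¹ * g₁) * d₁ * (g₂⁻¹ * g₁)⁻¹)) * g₂⁻¹ := by rw [this]
      _ = _ := by group
  have hkey : ∀ x : G, ⁅⁅E, Subgroup.zpowers x⁆, Subgroup.zpowers x⁆ = ⊥ → ∀ a ∈ E, a * x = x * a := by
    intro x hq
    have h1 := hst E hEp x hq
    set C : Subgroup G := Subgroup.centralizer (E : Set G) with hC
    have hsurj : Function.Surjective (QuotientGroup.mk' C) := QuotientGroup.mk'_surjective C
    have hxq : ∀ e ∈ E, ⁅⁅e, x⁆, x⁆ = 1 := by
      intro e he
      have := Subgroup.commutator_mem_commutator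
        (Subgroup.commutator_mem_commutator he (Subgroup.mem_zpowers x)) (Subgroup.mem_zpowers x)
      rwa [hq, Subgroup.mem_bot] at this
    have hgen2 : ∀ g d : G, d ∈ D → (g * d * g⁻¹) * x = x * (g * d * g⁻¹) := by
      intro g d hd
      set x₁ := g⁻¹ * x * g with hx₁
      have hmem : QuotientGroup.mk' C x₁ ∈ Cfsg.pCore p (G ⧸ C) := by
        have := (Cfsg.Agent.Lib.Basic.pCore_normal (G := G ⧸ C) p).conj_mem _ h1 (QuotientGroup.mk' C g⁻¹)
        have e : QuotientGroup.mk' C x₁ =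
            QuotientGroup.mk' C g⁻¹ * (QuotientGroup.mk x : G ⧸ C) * (QuotientGroup.mk' C g⁻¹)⁻¹ := by
          rw [hx₁, ← map_inv, inv_inv, map_mul, map_mul]
          rfl
        rw [e]
        exact this
      have hSyl := Cfsg.Agent.Lib.Basic.pCore_le_sylow (S.mapSurjective hsurj) hmem
      rw [Sylow.coe_mapSurjective] at hSyl
      obtain ⟨s, hs, hsx⟩ := hSyl
      have hc : s⁻¹ * x₁ ∈ C := QuotientGroup.eq.1 hsx
      set c := s⁻¹ * x₁ with hcdef
      have hx₁s : x₁ = s * c := by rw [hcdef]; group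
      have hconjE : ∀ e ∈ E, s * e * s⁻¹ = x₁ * e * x₁⁻¹ := by
        intro e he
        have h2 : e * c = c * e := Subgroup.mem_centralizer_iff.1 hc e he
        rw [hx₁s]
        calc s * e * s⁻¹ = s * (e * c) * c⁻¹ * s⁻¹ := by group
          _ = s * (c * e) * c⁻¹ * s⁻¹ := by rw [h2]
          _ = _ := by group
      have hq₁ : ∀ e ∈ E, ⁅⁅e, x₁⁆, x₁⁆ = 1 := by
        intro e he
        have h2 := hxq _ (hEn.conj_mem e he g)
        have e3 : ⁅⁅e, x₁⁆, x₁⁆ = g⁻¹ * ⁅⁅g * e * g⁻¹, x⁆, x⁆ * g := by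
          simp only [commutatorElement_def, hx₁]; group
        rw [e3, h2]; group
      have hcomm_s : ∀ e ∈ E, ⁅e, s⁆ = ⁅e, x₁⁆ := by
        intro e he
        have h2 := hconjE _ (E.inv_mem he)
        have e1 : ⁅e, s⁆ = e * (s * e⁻¹ * s⁻¹) := by rw [commutatorElement_def]; group
        have e2 : ⁅e, x₁⁆ = e * (x₁ * e⁻¹ * x₁⁻¹) := by rw [commutatorElement_def]; group
        rw [e1, e2, h2]
      have hq₂ : ∀ d ∈ D, ⁅⁅d, s⁆, s⁆ = 1 := by
        intro d hd
        have hdE := hDE hd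
        rw [hcomm_s d hdE]
        have hy : ⁅d, x₁⁆ ∈ E := by
          have e2 : ⁅d, x₁⁆ = d * (x₁ * d⁻¹ * x₁⁻¹) := by rw [commutatorElement_def]; group
          rw [e2]
          exact E.mul_mem hdE (hEn.conj_mem _ (E.inv_mem hdE) x₁)
        rw [hcomm_s _ hy]
        exact hq₁ d hdE
      have hsc := D_fam S hs hq₂ d hd
      have h3 : d * c = c * d := Subgroup.mem_centralizer_iff.1 hc d (hDE hd)
      have h4 : d * x₁ = x₁ * d := by
        rw [hx₁s]
        calc d * (s * c) = (d * s) * c := by group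
          _ = (s * d) * c := by rw [hsc]
          _ = s * (d * c) := by group
          _ = s * (c * d) := by rw [h3]
          _ = _ := by group
      calc (g * d * g⁻¹) * x = g * (d * x₁) * g⁻¹ := by rw [hx₁]; group
        _ = g * (x₁ * d) * g⁻¹ := by rw [h4]
        _ = _ := by rw [hx₁]; group
    have hEcx : E ≤ Subgroup.centralizer ({x} : Set G) := by
      apply (Subgroup.closure_le _).2
      intro y hy
      obtain ⟨d, hd, g, rfl⟩ := hgen y hy
      rw [SetLike.mem_coe, Subgroup.mem_centralizer_iff]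
      intro z hz
      rw [Set.mem_singleton_iff.1 hz]
      exact (hgen2 g d hd).symm
    intro a ha
    exact (Subgroup.mem_centralizer_iff.1 (hEcx ha) x rfl).symm
  have hED : E ≤ D := by
    intro e he
    have heS : e ∈ (S : Subgroup G) := hQS (hEQ he)
    have hmem : (E.subgroupOf (S : Subgroup G)) ∈ Cfsg.dStarFamily (S : Subgroup G) := by
      refine ⟨abelian_of_comm (fun a ha b hb => Subtype.ext (hEc a ha b hb)), ?_⟩
      intro x hcl a ha
      have hq : ⁅⁅E, Subgroup.zpowers (x : G)⁆, Subgroup.zpowers (x : G)⁆ = ⊥ := by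
        set A := E.subgroupOf (S : Subgroup G) with hA
        set W : Subgroup (S : Subgroup G) := A ⊔ Subgroup.zpowers x with hW
        have hW1 : ⁅E, Subgroup.zpowers (x : G)⁆ ≤ (⁅W, W⁆).map (S : Subgroup G).subtype := by
          rw [Subgroup.commutator_le]
          intro e he y hy
          obtain ⟨k, rfl⟩ := Subgroup.mem_zpowers_iff.1 hy
          have heS : e ∈ (S : Subgroup G) := hQS (hEQ he)
          refine ⟨⁅(⟨e, heS⟩ : (S : Subgroup G)), x ^ k⁆, Subgroup.commutator_mem_commutator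
            (le_sup_left (α := Subgroup _) (show (⟨e, heS⟩ : (S : Subgroup G)) ∈ A from he))
            (le_sup_right (α := Subgroup _) (Subgroup.zpow_mem_zpowers x k)), ?_⟩
          simp [commutatorElement_def]
        rw [eq_bot_iff, Subgroup.commutator_le]
        intro a' ha' b hb
        obtain ⟨a'', ha'', rfl⟩ := hW1 ha'
        obtain ⟨k, rfl⟩ := Subgroup.mem_zpowers_iff.1 hb
        have h5 : ⁅a'', x ^ k⁆ ∈ ⁅⁅W, W⁆, W⁆ := Subgroup.commutator_mem_commutator ha''
          (le_sup_right (α := Subgroup _) (Subgroup.zpow_mem_zpowers x k))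
        rw [hcl, Subgroup.mem_bot] at h5
        have h6 := congrArg Subtype.val h5
        simpa [commutatorElement_def] using h6
      exact Subtype.ext (hkey x hq a ha)
    have hle : E.subgroupOf (S : Subgroup G) ≤ Cfsg.dStar (S : Subgroup G) := le_sSup hmem
    exact ⟨⟨e, heS⟩, hle he, rfl⟩
  have hfin : D = E := le_antisymm hDE hED
  rw [hfin]
  exact hEn

end Cfsg.Agent.S3060
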