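import Cfsg.Statements.S3062
import Cfsg.Agent.Lib.LocalEven2.DStar
-- import your own Cfsg.Agent.* helpers here

set_option autoImplicit false
open Cfsg

namespace Cfsg.Agent.S3062

/-- Let S be a finite p-group, J(S) the subgroup generated by the abelian subgroups of S of largest order and Z(J(S)) its centre. Then Z(S) ≤ D*(S) ≤ Z(J(S)), and every maximal normal abelian subgroup of S contains D*(S). -/
theorem result {S : Type*} [Group S] [Finite S] {p : ℕ} [Fact p.Prime]
    (hS : IsPGroup p S) :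
    Subgroup.center S ≤ Cfsg.dStar S ∧
    Cfsg.dStar S ≤ Cfsg.thompsonSubgroupA S ⊓ Subgroup.centralizer (Cfsg.thompsonSubgroupA S : Set S) ∧
    ∀ A : Subgroup S, A.Normal → IsMulCommutative A →
      (∀ B : Subgroup S, B.Normal → IsMulCommutative B → A ≤ B → B = A) → Cfsg.dStar S ≤ A := by
  open Cfsg.Agent.Lib.LocalEven2 in
  have hDc := dStar_comm hS
  have hcen : Subgroup.center S ∈ Cfsg.dStarFamily S := by
    refine ⟨abelian_of_comm fun a ha b _ => (Subgroup.mem_center_iff.1 ha b).symm, ?_⟩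
    intro x _ a ha
    exact (Subgroup.mem_center_iff.1 ha x).symm
  have hall : ∀ A ∈ Cfsg.maxAbelianSubgroups S, Cfsg.dStar S ≤ A := fun A hA => dStar_le_of_maxAbelian hS hA
  refine ⟨le_sSup hcen, ?_, fun A hn hab hmax => dStar_le_of_maxNormalAbelian hS hn hab hmax⟩
  obtain ⟨A₀, hA₀⟩ := exists_mem_maxAbelianSubgroups (G := S)
  refine le_inf ((hall A₀ hA₀).trans (le_sSup hA₀)) ?_
  intro d hd
  rw [Subgroup.mem_centralizer_iff]
  intro t ht
  have h1 : Cfsg.thompsonSubgroupA S ≤ Subgroup.centralizer ({d} : Set S) := by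
    apply sSup_le
    intro A hA c hc
    rw [Subgroup.mem_centralizer_iff]
    intro u hu
    rw [Set.mem_singleton_iff.1 hu]
    exact comm_of_abelian hA.1 (hall A hA hd) hc
  exact (Subgroup.mem_centralizer_iff.1 (h1 ht) d rfl).symm

end Cfsg.Agent.S3062
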