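import Cfsg.Statements.S3063
import Cfsg.Agent.Lib.LocalEven2.Replace
-- import your own Cfsg.Agent.* helpers here

set_option autoImplicit false
open Cfsg

namespace Cfsg.Agent.S3063

open Subgroup Cfsg Cfsg.Agent.Lib.LocalEven2

theorem inv_aux {S : Type*} [Group S] [Finite S] {p : ℕ} [Fact p.Prime]
    (hmeta : IsMulCommutative ↥(commutator S)) {K : Subgroup S} (hK : K.Normal) :
    ∀ n : ℕ, ∀ A : Subgroup S, A ∈ Cfsg.maxAbelianSubgroups S → A ≤ K →
      Nat.card S - Nat.card (A ⊓ (K ⊓ commutator S) : Subgroup S) = n → IsPGroup p S →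
      ∃ B ∈ Cfsg.maxAbelianSubgroups S, B.Normal ∧ B ≤ K := by
  intro n
  induction n using Nat.strong_induction_on with
  | _ n ih =>
    intro A hA hAK hn hS
    set B₀ : Subgroup S := K ⊓ commutator S with hB₀
    have hB₀n : B₀.Normal := by
      have : (commutator S).Normal := inferInstance
      exact Subgroup.normal_inf_normal K (commutator S)
    have hB₀c : ∀ a ∈ B₀, ∀ b ∈ B₀, a * b = b * a := by
      intro a ha b hb
      have := hmeta.is_comm.comm ⟨a, (Subgroup.mem_inf.1 ha).2⟩ ⟨b, (Subgroup.mem_inf.1 hb).2⟩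
      exact congrArg Subtype.val this
    have hcardle : ∀ A' : Subgroup S, Nat.card (A' ⊓ B₀ : Subgroup S) ≤ Nat.card S :=
      fun A' => Subgroup.card_le_card_group _
    have hgo : ∀ A' ∈ Cfsg.maxAbelianSubgroups S, A' ≤ K →
        Nat.card (A ⊓ B₀ : Subgroup S) < Nat.card (A' ⊓ B₀ : Subgroup S) →
        ∃ B ∈ Cfsg.maxAbelianSubgroups S, B.Normal ∧ B ≤ K := by
      intro A' hA' hA'K hlt
      have := hcardle A'
      exact ih (Nat.card S - Nat.card (A' ⊓ B₀ : Subgroup S)) (by omega) A' hA' hA'K rfl hS
    by_cases h1 : B₀ ≤ normalizer (A : Set S)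
    · by_cases h2 : (A : Subgroup S).Normal
      · exact ⟨A, hA, h2, hAK⟩
      · have h3 : ∃ s : S, s ∉ normalizer (A : Set S) := by
          by_contra! hc
          apply h2
          have : normalizer (A : Set S) = ⊤ := by
            rw [eq_top_iff]; intro s _; exact hc s
          exact Subgroup.normalizer_eq_top_iff.1 this
        obtain ⟨s, hs⟩ := h3
        have hcomm : ∀ a ∈ A, s * a * s⁻¹ * a⁻¹ ∈ B₀ := by
          intro a ha
          refine Subgroup.mem_inf.2 ⟨K.mul_mem (hK.conj_mem _ (hAK ha) s) (K.inv_mem (hAK ha)), ?_⟩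
          exact Subgroup.commutator_mem_commutator (Subgroup.mem_top s) (Subgroup.mem_top a)
        have hN : ∀ a ∈ A, s * a * s⁻¹ ∈ normalizer (A : Set S) := by
          intro a ha
          have e : s * a * s⁻¹ = (s * a * s⁻¹ * a⁻¹) * a := by group
          rw [e]
          exact Subgroup.mul_mem _ (h1 (hcomm a ha)) (le_normalizer ha)
        obtain ⟨A', hA', -, hle, hlt⟩ := replacement_step hA hB₀c hB₀n hcomm hN hs
        refine hgo A' hA' (hle.trans (sup_le hAK ?_)) hlt
        rintro _ ⟨a, ha, rfl⟩
        exact hK.conj_mem _ (hAK ha) s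
    · obtain ⟨A', hA', hA'K, hlt⟩ := thompson_replacement_le hS hA hB₀c hB₀n h1 hK hAK
      exact hgo A' hA' hA'K hlt

/-- A weak replacement Theorem for metabelian p-groups: let S be a finite p-group whose derived subgroup is abelian and A an abelian subgroup of S of largest possible order. Then the normal closure of A in S contains an abelian subgroup B of the same order as A that is normal in S. -/
theorem result {S : Type*} [Group S] [Finite S] {p : ℕ} [Fact p.Prime]
    (hS : IsPGroup p S) (hmeta : IsMulCommutative ↥(commutator S))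
    (A : Subgroup S) (hA : A ∈ Cfsg.maxAbelianSubgroups S) :
    ∃ B ∈ Cfsg.maxAbelianSubgroups S, B.Normal ∧ B ≤ Subgroup.normalClosure (A : Set S) := by
  classical
  have hK : (Subgroup.normalClosure (A : Set S)).Normal := inferInstance
  exact inv_aux (p := p) hmeta hK _ A hA (Subgroup.subset_normalClosure) rfl hS

end Cfsg.Agent.S3063
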