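import Cfsg.Statements.S3074
import Cfsg.Agent.Lib.KnownSimple.Qd
import Cfsg.Agent.Lib.KnownSimple.QdLocal
import Cfsg.Agent.Lib.Classical.SylowSL2
import Cfsg.Agent.Lib.Transfer.Frattini
import Cfsg.Agent.Lib.Transfer.Misc
import Cfsg.Agent.Lib.Coprime.Conj
-- import your own Cfsg.Agent.* helpers here

set_option autoImplicit false
open Cfsg

namespace Cfsg.Agent.S3074

open Cfsg.Agent.Lib.KnownSimple
open scoped MatrixGroups
open scoped commutatorElement

/-- A non-abelian group of order `p³` and exponent `p` is extraspecial. -/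
theorem extraspecial_of_card_cube {R : Type*} [Group R] [Finite R] {p : ℕ} [Fact p.Prime]
    (hc : Nat.card R = p ^ 3) (hnc : ¬ ∀ x y : R, x * y = y * x) (hexp : ∀ x : R, x ^ p = 1) :
    Cfsg.IsExtraspecial p R ∧ Monoid.exponent R = p := by
  have hp : p.Prime := Fact.out
  have hP : IsPGroup p R := IsPGroup.of_card hc
  have hnt : Nontrivial R := by
    by_contra hcon
    rw [not_nontrivial_iff_subsingleton] at hcon
    exact hnc fun x y => Subsingleton.elim _ _
  obtain ⟨k, hk3, hk⟩ := (Nat.dvd_prime_pow hp).1 (hc ▸ Subgroup.card_subgroup_dvd_card (Subgroup.center R))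
  have hZq : Nat.card R = Nat.card (R ⧸ Subgroup.center R) * Nat.card (Subgroup.center R) :=
    Subgroup.card_eq_card_quotient_mul_card_subgroup _
  have hk1 : k = 1 := by
    interval_cases k
    · exfalso
      have := hP.center_nontrivial
      have h1 : 1 < Nat.card (Subgroup.center R) := Finite.one_lt_card
      rw [hk] at h1
      simp at h1
    · rfl
    · exfalso
      have h1 : Nat.card (R ⧸ Subgroup.center R) = p := by
        rw [hc, hk] at hZq
        have hp0 : 0 < p ^ 2 := pow_pos hp.pos 2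
        have : p * p ^ 2 = Nat.card (R ⧸ Subgroup.center R) * p ^ 2 := by rw [← hZq]; ring
        exact (Nat.eq_of_mul_eq_mul_right hp0 this).symm
      have : Fact (Nat.card (R ⧸ Subgroup.center R)).Prime := ⟨h1 ▸ hp⟩
      have hcyc : IsCyclic (R ⧸ Subgroup.center R) := isCyclic_of_prime_card rfl
      apply hnc
      intro a b
      exact ((QuotientGroup.mk' (Subgroup.center R)).isMulCommutative_of_isCyclic_of_ker_le_center
        (by rw [QuotientGroup.ker_mk'])).is_comm.comm a b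
    · exfalso
      have h1 : Subgroup.center R = ⊤ := Subgroup.eq_top_of_card_eq _ (by rw [hk, hc])
      apply hnc
      intro x y
      have : x ∈ Subgroup.center R := by rw [h1]; trivial
      exact (Subgroup.mem_center_iff.1 this y).symm
  subst hk1
  rw [pow_one] at hk
  have hq : Nat.card (R ⧸ Subgroup.center R) = p ^ 2 := by
    rw [hc, hk] at hZq
    have : p ^ 2 * p = Nat.card (R ⧸ Subgroup.center R) * p := by rw [← hZq]; ring
    exact (Nat.eq_of_mul_eq_mul_right hp.pos this).symm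
  have hcomm := (IsPGroup.isMulCommutative_of_card_eq_prime_sq hq).is_comm.comm
  have hcm : ∀ x y : R, x * y * x⁻¹ * y⁻¹ ∈ Subgroup.center R := by
    intro x y
    rw [← QuotientGroup.eq_one_iff]
    have := hcomm (x : R ⧸ Subgroup.center R) y
    have e : ((x * y * x⁻¹ * y⁻¹ : R) : R ⧸ Subgroup.center R) =
      (x : R ⧸ Subgroup.center R) * y * (x : R ⧸ Subgroup.center R)⁻¹ * (y : R ⧸ Subgroup.center R)⁻¹ := rfl
    rw [e, this]
    group
  have hle : commutator R ≤ Subgroup.center R := by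
    rw [commutator_def, Subgroup.commutator_le]
    intro x _ y _
    exact hcm x y
  have hcard : Nat.card (commutator R) ∣ p := hk ▸ Subgroup.card_dvd_of_le hle
  have hceq : commutator R = Subgroup.center R := by
    rcases (Nat.dvd_prime hp).1 hcard with h1 | h1
    · exfalso
      apply hnc
      intro x y
      have h2 : commutator R = ⊥ := (Subgroup.eq_bot_iff_card _).2 h1
      have h3 : ⁅x, y⁆ ∈ commutator R := by
        rw [commutator_def]
        exact Subgroup.commutator_mem_commutator (Subgroup.mem_top x) (Subgroup.mem_top y)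
      rw [h2, Subgroup.mem_bot, commutatorElement_eq_one_iff_mul_comm] at h3
      exact h3
    · exact Subgroup.eq_of_le_of_card_ge hle (by rw [h1, hk])
  have hfr : frattini R = Subgroup.center R := by
    apply le_antisymm
    · apply Cfsg.Agent.Lib.Transfer.frattini_le_of_elementary (p := p)
      · intro x
        rw [hexp]
        exact one_mem _
      · exact hcm
    · rw [← hceq]
      exact Cfsg.Agent.Lib.Transfer.commutator_le_frattini hP
  refine ⟨⟨⟨hP, hfr, hceq⟩, hk⟩, ?_⟩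
  have h1 : Monoid.exponent R ∣ p := Monoid.exponent_dvd_of_forall_pow_eq_one hexp
  rcases (Nat.dvd_prime hp).1 h1 with h2 | h2
  · exfalso
    rw [Monoid.exp_eq_one_iff] at h2
    exact hnc fun x y => Subsingleton.elim _ _
  · exact h2

variable {p : ℕ} [Fact p.Prime]

/-- `qd p` is the product of `SL₂` and translations. -/
noncomputable def qdEquiv : Cfsg.qd p ≃ SL(2, ZMod p) × (ZMod p × ZMod p) where
  toFun M := by
    refine (⟨!![(M.1 : Matrix (Fin 3) (Fin 3) (ZMod p)) 0 0, (M.1 : Matrix (Fin 3) (Fin 3) (ZMod p)) 0 1;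
      (M.1 : Matrix (Fin 3) (Fin 3) (ZMod p)) 1 0, (M.1 : Matrix (Fin 3) (Fin 3) (ZMod p)) 1 1], ?_⟩,
      ((M.1 : Matrix (Fin 3) (Fin 3) (ZMod p)) 0 2, (M.1 : Matrix (Fin 3) (Fin 3) (ZMod p)) 1 2))
    obtain ⟨h20, h21, h22⟩ := qd_lastRow M.1 M.2
    have h := M.1.2
    rw [Matrix.det_fin_three, h20, h21, h22] at h
    rw [Matrix.det_fin_two_of]
    linear_combination h
  invFun A := by
    refine ⟨⟨!![(A.1 : Matrix (Fin 2) (Fin 2) (ZMod p)) 0 0, (A.1 : Matrix (Fin 2) (Fin 2) (ZMod p)) 0 1, A.2.1;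
      (A.1 : Matrix (Fin 2) (Fin 2) (ZMod p)) 1 0, (A.1 : Matrix (Fin 2) (Fin 2) (ZMod p)) 1 1, A.2.2; 0, 0, 1], ?_⟩, ?_⟩
    · have h := A.1.2
      rw [Matrix.det_fin_two] at h
      rw [Matrix.det_fin_three]
      simp only [Matrix.of_apply, Matrix.cons_val', Matrix.cons_val_zero, Matrix.cons_val_one,
        Matrix.cons_val, Matrix.cons_val_fin_one]
      linear_combination h
    · apply Subgroup.subset_closure
      refine ⟨?_, ?_, ?_⟩ <;> simp
  left_inv M := by
    obtain ⟨h20, h21, h22⟩ := qd_lastRow M.1 M.2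
    apply Subtype.ext
    apply Subtype.ext
    ext i j
    fin_cases i <;> fin_cases j <;> simp [h20, h21, h22]
  right_inv A := by
    apply Prod.ext
    · apply Subtype.ext
      ext i j
      fin_cases i <;> fin_cases j <;> simp
    · simp

theorem card_qd : Nat.card (Cfsg.qd p) = p ^ 3 * (p ^ 2 - 1) := by
  rw [Nat.card_congr qdEquiv, Nat.card_prod, Nat.card_prod, Nat.card_zmod,
    Cfsg.Agent.Lib.Classical.card_SL2_eq (F := ZMod p), ZMod.card]
  ring

/-- `unitri3 p` has `p³` elements. -/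
noncomputable def unitriEquiv : unitri3 p ≃ ZMod p × ZMod p × ZMod p where
  toFun M := ((M.1 : Matrix (Fin 3) (Fin 3) (ZMod p)) 0 1, (M.1 : Matrix (Fin 3) (Fin 3) (ZMod p)) 0 2,
    (M.1 : Matrix (Fin 3) (Fin 3) (ZMod p)) 1 2)
  invFun a := by
    refine ⟨⟨!![1, a.1, a.2.1; 0, 1, a.2.2; 0, 0, 1], ?_⟩, ?_⟩
    · rw [Matrix.det_fin_three]
      simp
    · refine ⟨?_, ?_, ?_, ?_, ?_, ?_⟩ <;> simp
  left_inv M := by
    obtain ⟨a1, a2, a3, a4, a5, a6⟩ := M.2
    apply Subtype.ext
    apply Subtype.ext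
    ext i j
    fin_cases i <;> fin_cases j <;> simp [a1, a2, a3, a4, a5, a6]
  right_inv a := by
    simp

theorem card_unitri3 : Nat.card (unitri3 p) = p ^ 3 := by
  rw [Nat.card_congr unitriEquiv, Nat.card_prod, Nat.card_prod, Nat.card_zmod]
  ring

/-- Let p be an odd prime. A Sylow p-subgroup of Qd(p), the split extension of an elementary abelian group of order p² by SL₂(p) acting naturally, is extraspecial of order p³ and exponent p. -/
theorem result (p : ℕ) [Fact p.Prime] (hp : p ≠ 2) (P : Sylow p ↥(Cfsg.qd p)) :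
    Cfsg.IsExtraspecial p ↥P ∧ Nat.card P = p ^ 3 ∧ Monoid.exponent ↥P = p := by
  classical
  have hpp : p.Prime := Fact.out
  have hfac : (Nat.card (Cfsg.qd p)).factorization p = 3 := by
    have hndvd : ¬ p ∣ p ^ 2 - 1 := by
      intro h
      have h1 : p ∣ p ^ 2 := dvd_pow_self p (by norm_num)
      have h2 : 1 ≤ p ^ 2 := Nat.one_le_pow _ _ hpp.pos
      have h3 : p ∣ 1 := by
        have := (Nat.dvd_sub h1 h)
        rwa [Nat.sub_sub_self h2] at this
      exact hpp.one_lt.ne' (Nat.dvd_one.1 h3)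
    have hne : p ^ 2 - 1 ≠ 0 := by
      have : 2 ≤ p := hpp.two_le
      have h4 : 4 ≤ p ^ 2 := by nlinarith
      omega
    rw [card_qd, Nat.factorization_mul (pow_ne_zero _ hpp.ne_zero) hne, Nat.factorization_pow]
    simp [hpp.factorization_self, Nat.factorization_eq_zero_of_not_dvd hndvd]
  have hcardP : Nat.card P = p ^ 3 := by
    rw [P.card_eq_multiplicity, hfac]
  -- the unitriangular Sylow subgroup
  let U : Subgroup (Cfsg.qd p) := (unitri3 p).subgroupOf (Cfsg.qd p)
  have hcardU : Nat.card U = p ^ 3 := by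
    have : Nat.card U = Nat.card (unitri3 p) :=
      Nat.card_congr (Subgroup.subgroupOfEquivOfLe (unitri3_le_qd p)).toEquiv
    rw [this, card_unitri3]
  let Us : Sylow p (Cfsg.qd p) := Sylow.ofCard U (by rw [hcardU, hfac])
  obtain ⟨g, hg⟩ := MulAction.exists_smul_eq (Cfsg.qd p) Us P
  have hP : (P : Subgroup (Cfsg.qd p)) = U.map (MulAut.conj g).toMonoidHom := by
    rw [← hg]
    rfl
  have hexp : ∀ x : (P : Subgroup (Cfsg.qd p)), x ^ p = 1 := by
    rintro ⟨x, hx⟩
    rw [hP] at hx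
    obtain ⟨u, hu, rfl⟩ := hx
    have hu1 : u ^ p = 1 := by
      apply Subtype.ext
      simpa using unitri3_pow_prime hp _ hu
    apply Subtype.ext
    show ((MulAut.conj g) u) ^ p = 1
    rw [← map_pow, hu1, map_one]
  have hnc : ¬ ∀ x y : (P : Subgroup (Cfsg.qd p)), x * y = y * x := by
    intro hall
    let x0 : Matrix (Fin 3) (Fin 3) (ZMod p) := !![1, 1, 0; 0, 1, 0; 0, 0, 1]
    let y0 : Matrix (Fin 3) (Fin 3) (ZMod p) := !![1, 0, 0; 0, 1, 1; 0, 0, 1]
    have hx0 : x0.det = 1 := by simp [x0, Matrix.det_fin_three]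
    have hy0 : y0.det = 1 := by simp [y0, Matrix.det_fin_three]
    let x1 : Matrix.SpecialLinearGroup (Fin 3) (ZMod p) := ⟨x0, hx0⟩
    let y1 : Matrix.SpecialLinearGroup (Fin 3) (ZMod p) := ⟨y0, hy0⟩
    have hx1 : x1 ∈ unitri3 p := by
      refine ⟨?_, ?_, ?_, ?_, ?_, ?_⟩ <;> simp [x1, x0]
    have hy1 : y1 ∈ unitri3 p := by
      refine ⟨?_, ?_, ?_, ?_, ?_, ?_⟩ <;> simp [y1, y0]
    let x2 : Cfsg.qd p := ⟨x1, unitri3_le_qd p hx1⟩
    let y2 : Cfsg.qd p := ⟨y1, unitri3_le_qd p hy1⟩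
    have hx2 : (MulAut.conj g) x2 ∈ (P : Subgroup (Cfsg.qd p)) := by
      rw [hP]; exact ⟨x2, hx1, rfl⟩
    have hy2 : (MulAut.conj g) y2 ∈ (P : Subgroup (Cfsg.qd p)) := by
      rw [hP]; exact ⟨y2, hy1, rfl⟩
    have h1 := congrArg Subtype.val (hall ⟨_, hx2⟩ ⟨_, hy2⟩)
    have h1' : (MulAut.conj g) x2 * (MulAut.conj g) y2 = (MulAut.conj g) y2 * (MulAut.conj g) x2 := h1
    rw [← map_mul, ← map_mul] at h1'
    have h2 : x2 * y2 = y2 * x2 := (MulAut.conj g).injective h1'
    have h3 : x0 * y0 = y0 * x0 := congrArg (fun z : Cfsg.qd p => ((z : Matrix.SpecialLinearGroup (Fin 3) (ZMod p)) : Matrix (Fin 3) (Fin 3) (ZMod p))) h2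
    have h4 := congrFun (congrFun h3 0) 2
    simp [x0, y0, Matrix.mul_apply, Fin.sum_univ_three] at h4
  obtain ⟨h1, h2⟩ := extraspecial_of_card_cube hcardP hnc hexp
  exact ⟨h1, hcardP, h2⟩

end Cfsg.Agent.S3074
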