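import Cfsg.Statements.S3075
import Mathlib
import Cfsg.Agent.Lib.OddLocal.Sup
-- import your own Cfsg.Agent.* helpers here

set_option autoImplicit false
open Cfsg

namespace Cfsg.Agent.S3075

set_option linter.unusedSectionVars false
set_option linter.unusedVariables false
set_option linter.unusedSimpArgs false

variable {N : Type*} [Group N] [Finite N] {p : ℕ} [Fact p.Prime]

open Matrix in
theorem exists_central_sl (F : Type*) [Field F] (h : ringChar F ≠ 2) :
    ∃ z : Matrix.SpecialLinearGroup (Fin 2) F, z ≠ 1 ∧ z * z = 1 ∧ ∀ g, g * z = z * g := by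
  refine ⟨⟨-1, by simp [Matrix.det_fin_two]⟩, ?_, ?_, ?_⟩
  · intro e
    have h1 := congrArg (fun m : Matrix.SpecialLinearGroup (Fin 2) F => m.1 0 0) e
    have h2 : (-1 : F) = 1 := by simpa using h1
    exact Ring.neg_one_ne_one_of_char_ne_two h h2
  · apply Subtype.ext
    change (-1 : Matrix (Fin 2) (Fin 2) F) * (-1) = 1
    simp
  · intro g
    apply Subtype.ext
    change g.1 * (-1 : Matrix (Fin 2) (Fin 2) F) = (-1) * g.1
    simp

open Matrix in
theorem not_comm_sl (F : Type*) [Field F] :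
    ∃ u v : Matrix.SpecialLinearGroup (Fin 2) F, u * v ≠ v * u := by
  refine ⟨⟨!![1, 1; 0, 1], by simp [Matrix.det_fin_two]⟩, ⟨!![1, 0; 1, 1], by simp [Matrix.det_fin_two]⟩, ?_⟩
  intro e
  have h1 : (!![1, 1; 0, 1] * !![1, 0; 1, 1] : Matrix (Fin 2) (Fin 2) F) = !![1, 0; 1, 1] * !![1, 1; 0, 1] :=
    congrArg Subtype.val e
  have h2 := congrFun (congrFun h1 0) 0
  simp [Matrix.mul_apply, Fin.sum_univ_two] at h2

/-- The abstract splitting: an element `t` inverting `A`, central modulo `A`, gives a complement. -/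
theorem split_of_inverts (hodd : p ≠ 2) (A : Subgroup N) [hAn : A.Normal]
    (hexp : ∀ a ∈ A, a ^ p = 1) (hcomm : ∀ a ∈ A, ∀ b ∈ A, a * b = b * a) {t : N}
    (hinv : ∀ a ∈ A, t * a * t⁻¹ = a⁻¹) (hcent : ∀ n : N, n * t * n⁻¹ * t⁻¹ ∈ A) :
    ∃ U : Subgroup N, A ⊓ U = ⊥ ∧ A ⊔ U = ⊤ := by
  have hpp : p.Prime := Fact.out
  have hpodd : Odd p := hpp.odd_of_ne_two hodd
  obtain ⟨m, hm⟩ := hpodd
  refine ⟨Subgroup.centralizer ({t} : Set N), ?_, ?_⟩
  · rw [eq_bot_iff]
    rintro a ⟨ha, hat⟩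
    have h1 : a * t = t * a := (Subgroup.mem_centralizer_singleton_iff.1 hat)
    have h2 : t * a * t⁻¹ = a := by rw [← h1]; group
    rw [hinv a ha] at h2
    have h3 : a ^ 2 = 1 := by
      rw [pow_two]
      nth_rewrite 1 [← h2]
      group
    have h4 : a = 1 := by
      have h5 := hexp a ha
      rw [hm, pow_succ, pow_mul, h3, one_pow, one_mul] at h5
      exact h5
    exact Subgroup.mem_bot.2 h4
  · rw [eq_top_iff]
    intro n _
    set d := n * t * n⁻¹ * t⁻¹ with hd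
    have hdA : d ∈ A := hcent n
    set c := d ^ (m + 1) with hc
    have hcA : c ∈ A := A.pow_mem hdA _
    have hc2 : c * c = d := by
      rw [hc, ← pow_add]
      have e : m + 1 + (m + 1) = p + 1 := by omega
      rw [e, pow_succ, hexp d hdA, one_mul]
    have hct : c * t * c⁻¹ = n * t * n⁻¹ := by
      have h1 : t * c⁻¹ * t⁻¹ = c := by
        have := hinv c⁻¹ (A.inv_mem hcA)
        rwa [inv_inv] at this
      calc c * t * c⁻¹ = c * (t * c⁻¹ * t⁻¹) * t := by group
        _ = c * c * t := by rw [h1]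
        _ = d * t := by rw [hc2]
        _ = n * t * n⁻¹ := by rw [hd]; group
    have hu : c⁻¹ * n ∈ Subgroup.centralizer ({t} : Set N) := by
      rw [Subgroup.mem_centralizer_singleton_iff]
      calc c⁻¹ * n * t = c⁻¹ * (n * t * n⁻¹) * n := by group
        _ = c⁻¹ * (c * t * c⁻¹) * n := by rw [hct]
        _ = t * (c⁻¹ * n) := by group
    have e : n = c * (c⁻¹ * n) := by group
    rw [e]
    exact Subgroup.mul_mem_sup hcA hu

/-- `t` central modulo `A` inverts `A` when `N / A` is not abelian. -/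
theorem inverts_of_central (hodd : p ≠ 2) (A : Subgroup N) [hAn : A.Normal]
    (hAcard : Nat.card A = p ^ 2)
    (hexp : ∀ a ∈ A, a ^ p = 1) (hcomm : ∀ a ∈ A, ∀ b ∈ A, a * b = b * a)
    (hAself : Subgroup.centralizer (A : Set N) = A) {t : N} (ht : t * t = 1) (htA : t ∉ A)
    (hcent : ∀ n : N, n * t * n⁻¹ * t⁻¹ ∈ A)
    (hna : ∃ u v : N, u * v * (v * u)⁻¹ ∉ A) :
    ∀ a ∈ A, t * a * t⁻¹ = a⁻¹ := by
  classical
  have hpp : p.Prime := Fact.out
  obtain ⟨m, hm⟩ := hpp.odd_of_ne_two hodd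
  have hsq : ∀ a ∈ A, a * a = 1 → a = 1 := by
    intro a ha h
    have h5 := hexp a ha
    rw [hm, pow_succ, pow_mul, pow_two, h, one_pow, one_mul] at h5
    exact h5
  have htinv : t⁻¹ = t := inv_eq_of_mul_eq_one_left ht
  have hφA : ∀ a ∈ A, t * a * t⁻¹ ∈ A := fun a ha => hAn.conj_mem a ha t
  have hφφ : ∀ a, t * (t * a * t⁻¹) * t⁻¹ = a := by
    intro a
    calc t * (t * a * t⁻¹) * t⁻¹ = (t * t) * a * (t⁻¹ * t⁻¹) := by group
      _ = a := by rw [htinv, ht]; group
  -- the two eigen-subgroups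
  let C : Subgroup N := A ⊓ Subgroup.centralizer ({t} : Set N)
  have hCmem : ∀ a, a ∈ C ↔ a ∈ A ∧ t * a * t⁻¹ = a := by
    intro a
    constructor
    · rintro ⟨h1, h2⟩
      refine ⟨h1, ?_⟩
      rw [← Subgroup.mem_centralizer_singleton_iff.1 h2]
      group
    · rintro ⟨h1, h2⟩
      refine ⟨h1, Subgroup.mem_centralizer_singleton_iff.2 ?_⟩
      calc a * t = (t * a * t⁻¹) * t := by rw [h2]
        _ = t * a := by group
  let I : Subgroup N :=
    { carrier := {a | a ∈ A ∧ t * a * t⁻¹ = a⁻¹}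
      one_mem' := ⟨A.one_mem, by simp⟩
      mul_mem' := by
        rintro a b ⟨ha, ha'⟩ ⟨hb, hb'⟩
        refine ⟨A.mul_mem ha hb, ?_⟩
        calc t * (a * b) * t⁻¹ = (t * a * t⁻¹) * (t * b * t⁻¹) := by group
          _ = a⁻¹ * b⁻¹ := by rw [ha', hb']
          _ = (a * b)⁻¹ := by
            rw [mul_inv_rev]
            have := hcomm a⁻¹ (A.inv_mem ha) b⁻¹ (A.inv_mem hb)
            exact this
      inv_mem' := by
        rintro a ⟨ha, ha'⟩
        refine ⟨A.inv_mem ha, ?_⟩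
        calc t * a⁻¹ * t⁻¹ = (t * a * t⁻¹)⁻¹ := by group
          _ = a⁻¹⁻¹ := by rw [ha'] }
  have hImem : ∀ a, a ∈ I ↔ a ∈ A ∧ t * a * t⁻¹ = a⁻¹ := fun a => Iff.rfl
  -- the two projections
  have hprojC : ∀ a ∈ A, a * (t * a * t⁻¹) ∈ C := by
    intro a ha
    rw [hCmem]
    refine ⟨A.mul_mem ha (hφA a ha), ?_⟩
    calc t * (a * (t * a * t⁻¹)) * t⁻¹ = (t * a * t⁻¹) * (t * (t * a * t⁻¹) * t⁻¹) := by group
      _ = (t * a * t⁻¹) * a := by rw [hφφ]
      _ = a * (t * a * t⁻¹) := hcomm _ (hφA a ha) _ ha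
  have hprojI : ∀ a ∈ A, a * (t * a * t⁻¹)⁻¹ ∈ I := by
    intro a ha
    rw [hImem]
    refine ⟨A.mul_mem ha (A.inv_mem (hφA a ha)), ?_⟩
    calc t * (a * (t * a * t⁻¹)⁻¹) * t⁻¹ = (t * a * t⁻¹) * (t * (t * a * t⁻¹) * t⁻¹)⁻¹ := by group
      _ = (t * a * t⁻¹) * a⁻¹ := by rw [hφφ]
      _ = (a * (t * a * t⁻¹)⁻¹)⁻¹ := by group
  by_cases hC : C = ⊥
  · intro a ha
    have h1 := hprojC a ha
    rw [hC] at h1
    have h2 := Subgroup.mem_bot.1 h1
    exact eq_inv_of_mul_eq_one_right h2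
  exfalso
  -- `I` is nontrivial
  have hI : I ≠ ⊥ := by
    intro e
    apply htA
    rw [← hAself, Subgroup.mem_centralizer_iff]
    intro a ha
    have h1 := hprojI a ha
    rw [e] at h1
    have h2 := Subgroup.mem_bot.1 h1
    have h3 : t * a * t⁻¹ = a := (mul_inv_eq_one.1 h2).symm
    calc a * t = (t * a * t⁻¹) * t := by rw [h3]
      _ = t * a := by group
  have hCI : C ⊓ I = ⊥ := by
    rw [eq_bot_iff]
    rintro a ⟨h1, h2⟩
    have h3 := ((hCmem a).1 h1).2
    have h4 := ((hImem a).1 h2).2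
    rw [h3] at h4
    apply hsq a ((hCmem a).1 h1).1
    nth_rewrite 1 [h4]
    group
  have hCA : C ≤ A := inf_le_left
  have hIA : I ≤ A := fun a h => h.1
  have hnorm : I ≤ Subgroup.normalizer (C : Set N) := by
    intro i hi
    rw [Subgroup.mem_normalizer_iff]
    intro a
    constructor
    · intro ha
      have haA := hCA ha
      have e : i * a * i⁻¹ = a := by
        rw [hcomm i hi.1 a haA]; group
      rwa [e]
    · intro ha
      have hA' : i * a * i⁻¹ ∈ A := hCA ha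
      have haA : a ∈ A := by
        have := hAn.conj_mem _ hA' i⁻¹
        have e : i⁻¹ * (i * a * i⁻¹) * i⁻¹⁻¹ = a := by group
        rwa [e] at this
      have e : i * a * i⁻¹ = a := by
        rw [hcomm i hi.1 a haA]; group
      rwa [e] at ha
  have hcard := Cfsg.Agent.Lib.OddLocal.card_sup_mul_card_inf hnorm
  rw [hCI, Subgroup.card_bot, mul_one] at hcard
  have hle : Nat.card ↥(C ⊔ I) ≤ p ^ 2 := by
    rw [← hAcard]
    exact Nat.card_mono (Set.toFinite _) (sup_le hCA hIA)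
  have hAp : IsPGroup p A := IsPGroup.of_card hAcard
  have hCd : p ∣ Nat.card C := by
    obtain ⟨k, hk⟩ := IsPGroup.iff_card.1 (hAp.to_le hCA)
    rw [hk]
    have hk0 : k ≠ 0 := by
      rintro rfl
      rw [pow_zero] at hk
      exact hC (Subgroup.card_eq_one.1 hk)
    exact dvd_pow_self p hk0
  have hId : p ∣ Nat.card I := by
    obtain ⟨k, hk⟩ := IsPGroup.iff_card.1 (hAp.to_le hIA)
    rw [hk]
    have hk0 : k ≠ 0 := by
      rintro rfl
      rw [pow_zero] at hk
      exact hI (Subgroup.card_eq_one.1 hk)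
    exact dvd_pow_self p hk0
  obtain ⟨x, hx⟩ := hCd
  obtain ⟨y, hy⟩ := hId
  have hx0 : x ≠ 0 := by
    rintro rfl
    rw [mul_zero] at hx
    exact Nat.card_pos.ne' hx
  have hy0 : y ≠ 0 := by
    rintro rfl
    rw [mul_zero] at hy
    exact Nat.card_pos.ne' hy
  have hxy : x * y ≤ 1 := by
    have h1 : p * x * (p * y) ≤ p ^ 2 := by
      rw [← hx, ← hy, ← hcard]
      exact hle
    have h2 : p ^ 2 * (x * y) ≤ p ^ 2 * 1 := by nlinarith
    exact Nat.le_of_mul_le_mul_left h2 (by have := hpp.pos; positivity)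
  have hx1 : x = 1 := by
    have : x ≤ x * y := Nat.le_mul_of_pos_right x (Nat.pos_of_ne_zero hy0)
    omega
  have hy1 : y = 1 := by
    have : y ≤ x * y := Nat.le_mul_of_pos_left y (Nat.pos_of_ne_zero hx0)
    omega
  have hCc : Nat.card C = p := by rw [hx, hx1, mul_one]
  have hIc : Nat.card I = p := by rw [hy, hy1, mul_one]
  -- invariance
  have hfm : ∀ (n : N), ∀ a ∈ A, t * (n * a * n⁻¹) * t⁻¹ = n * (t * a * t⁻¹) * n⁻¹ := by
    intro n a ha
    set d := n⁻¹ * t * n⁻¹⁻¹ * t⁻¹ with hd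
    have hdA : d ∈ A := hcent n⁻¹
    have e1 : t * n = n * d * t := by rw [hd]; group
    calc t * (n * a * n⁻¹) * t⁻¹ = (t * n) * a * (t * n)⁻¹ := by group
      _ = (n * d * t) * a * (n * d * t)⁻¹ := by rw [e1]
      _ = n * (d * (t * a * t⁻¹) * d⁻¹) * n⁻¹ := by group
      _ = n * (t * a * t⁻¹) * n⁻¹ := by
        rw [hcomm d hdA _ (hφA a ha)]; group
  have hCn : C.Normal := by
    refine ⟨fun a ha n => ?_⟩
    rw [hCmem] at ha ⊢
    refine ⟨hAn.conj_mem a ha.1 n, ?_⟩
    rw [hfm n a ha.1, ha.2]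
  have hIn : I.Normal := by
    refine ⟨fun a ha n => ?_⟩
    rw [hImem] at ha ⊢
    refine ⟨hAn.conj_mem a ha.1 n, ?_⟩
    rw [hfm n a ha.1, ha.2]
    group
  have key : ∀ (X : Subgroup N), X.Normal → Nat.card X = p → ∀ u v : N,
      u * v * (v * u)⁻¹ ∈ Subgroup.centralizer (X : Set N) := by
    intro X hXn hXc u v
    haveI := hXn
    have hXcyc : IsCyclic X := isCyclic_of_prime_card hXc
    have hAc : ∀ f g : MulAut X, f * g = g * f := by
      intro f g
      apply (IsCyclic.mulAutMulEquiv X).injective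
      rw [map_mul, map_mul, mul_comm]
    let φ : N →* MulAut X := MulAut.conjNormal
    have h1 : φ (u * v * (v * u)⁻¹) = 1 := by
      rw [map_mul, map_inv, map_mul, map_mul, hAc (φ u) (φ v), mul_inv_cancel]
    rw [Subgroup.mem_centralizer_iff]
    intro x hx
    have h2 : (φ (u * v * (v * u)⁻¹)) ⟨x, hx⟩ = ⟨x, hx⟩ := by rw [h1]; rfl
    have h3 : (u * v * (v * u)⁻¹) * x * (u * v * (v * u)⁻¹)⁻¹ = x := congrArg Subtype.val h2
    calc x * (u * v * (v * u)⁻¹) = ((u * v * (v * u)⁻¹) * x * (u * v * (v * u)⁻¹)⁻¹) * (u * v * (v * u)⁻¹) := by rw [h3]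
      _ = (u * v * (v * u)⁻¹) * x := by group
  obtain ⟨u, v, huv⟩ := hna
  apply huv
  rw [← hAself, Subgroup.mem_centralizer_iff]
  intro a ha
  have hC' := key C hCn hCc u v
  have hI' := key I hIn hIc u v
  set w := u * v * (v * u)⁻¹ with hw
  have h1 := Subgroup.mem_centralizer_iff.1 hC' _ (hprojC a ha)
  have h2 := Subgroup.mem_centralizer_iff.1 hI' _ (hprojI a ha)
  -- `a * a` commutes with `w`
  have h3 : (a * a) * w = w * (a * a) := by
    have e : a * a = (a * (t * a * t⁻¹)) * (a * (t * a * t⁻¹)⁻¹) := by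
      have := hcomm (t * a * t⁻¹) (hφA a ha) a ha
      calc a * a = a * ((t * a * t⁻¹) * (t * a * t⁻¹)⁻¹) * a := by group
        _ = a * (((t * a * t⁻¹) * (t * a * t⁻¹)⁻¹) * a) := by group
        _ = a * ((t * a * t⁻¹) * ((t * a * t⁻¹)⁻¹ * a)) := by group
        _ = a * ((t * a * t⁻¹) * (a * (t * a * t⁻¹)⁻¹)) := by
          rw [hcomm (t * a * t⁻¹)⁻¹ (A.inv_mem (hφA a ha)) a ha]
        _ = _ := by group
    rw [e]
    calc ((a * (t * a * t⁻¹)) * (a * (t * a * t⁻¹)⁻¹)) * w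
        = (a * (t * a * t⁻¹)) * ((a * (t * a * t⁻¹)⁻¹) * w) := by group
      _ = (a * (t * a * t⁻¹)) * (w * (a * (t * a * t⁻¹)⁻¹)) := by rw [← h2]
      _ = ((a * (t * a * t⁻¹)) * w) * (a * (t * a * t⁻¹)⁻¹) := by group
      _ = (w * (a * (t * a * t⁻¹))) * (a * (t * a * t⁻¹)⁻¹) := by rw [← h1]
      _ = _ := by group
  have h4 : Commute (a * a) w := h3
  have h5 : a = (a * a) ^ (m + 1) := by
    rw [← pow_two, ← pow_mul]
    have e : 2 * (m + 1) = p + 1 := by omega
    rw [e, pow_succ, hexp a ha, one_mul]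
  rw [h5]
  exact (h4.pow_left (m + 1)).eq

/-- Let p be an odd prime and N a finite group with a normal elementary abelian subgroup A of order p² that is its own centralizer in N, such that N/A is isomorphic to SL₂(p) (over any field F with p elements). Then N splits over A: some subgroup U of N satisfies A ∩ U = 1 and AU = N. -/
theorem result {N : Type*} [Group N] [Finite N] {p : ℕ} [Fact p.Prime] (hp : p ≠ 2)
    (A : Subgroup N) [A.Normal] (hAcomm : IsMulCommutative A) (hAcard : Nat.card A = p ^ 2) (hAexp : Monoid.exponent ↥A = p)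
    (hAself : Subgroup.centralizer (A : Set N) = A)
    {F : Type*} [Field F] [Fintype F] (hF : Fintype.card F = p) (e : N ⧸ A ≃* Matrix.SpecialLinearGroup (Fin 2) F) :
    ∃ U : Subgroup N, A ⊓ U = ⊥ ∧ A ⊔ U = ⊤ := by
  classical
  have hpp : p.Prime := Fact.out
  have hexp : ∀ a ∈ A, a ^ p = 1 := by
    intro a ha
    have h1 := Monoid.pow_exponent_eq_one (⟨a, ha⟩ : A)
    rw [hAexp] at h1
    exact congrArg Subtype.val h1
  have hcomm : ∀ a ∈ A, ∀ b ∈ A, a * b = b * a := by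
    intro a ha b hb
    have := hAcomm.is_comm.comm (⟨a, ha⟩ : A) ⟨b, hb⟩
    exact congrArg Subtype.val this
  have hchar : ringChar F ≠ 2 := by
    intro h
    have h1 := FiniteField.even_card_iff_char_two.1 h
    rw [hF] at h1
    have h2 : Even p := Nat.even_iff.2 h1
    exact hp ((Nat.Prime.even_iff hpp).1 h2)
  obtain ⟨z, hz1, hz2, hz3⟩ := exists_central_sl F hchar
  obtain ⟨u, v, huv⟩ := not_comm_sl F
  -- lift `z`.
  obtain ⟨b, hb⟩ := QuotientGroup.mk'_surjective A (e.symm z)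
  have hb' : ((b : N) : N ⧸ A) = e.symm z := hb
  have hb2 : b * b ∈ A := by
    rw [← QuotientGroup.eq_one_iff]
    change ((b : N) : N ⧸ A) * ((b : N) : N ⧸ A) = 1
    rw [hb', ← map_mul, hz2, map_one]
  obtain ⟨m, hm⟩ := hpp.odd_of_ne_two hp
  set t := b ^ p with ht
  have htt : t * t = 1 := by
    have h1 : (b * b) ^ p = 1 := hexp _ hb2
    rw [ht, ← (Commute.refl b).mul_pow]
    exact h1
  have hmkt : ((t : N) : N ⧸ A) = e.symm z := by
    rw [ht, QuotientGroup.mk_pow, hb', ← map_pow, hm, pow_succ, pow_mul, pow_two, hz2, one_pow, one_mul]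
  have htA : t ∉ A := by
    intro h
    have h1 : ((t : N) : N ⧸ A) = 1 := (QuotientGroup.eq_one_iff t).2 h
    rw [hmkt] at h1
    apply hz1
    have := congrArg e h1
    simpa using this
  have hcent : ∀ n : N, n * t * n⁻¹ * t⁻¹ ∈ A := by
    intro n
    rw [← QuotientGroup.eq_one_iff]
    change ((n : N) : N ⧸ A) * ((t : N) : N ⧸ A) * ((n : N) : N ⧸ A)⁻¹ * ((t : N) : N ⧸ A)⁻¹ = 1
    rw [hmkt]
    have h1 : ((n : N) : N ⧸ A) * e.symm z = e.symm z * ((n : N) : N ⧸ A) := by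
      apply e.injective
      simp only [map_mul, MulEquiv.apply_symm_apply]
      exact hz3 _
    rw [h1]
    group
  have hna : ∃ x y : N, x * y * (y * x)⁻¹ ∉ A := by
    obtain ⟨x, hx⟩ := QuotientGroup.mk'_surjective A (e.symm u)
    obtain ⟨y, hy⟩ := QuotientGroup.mk'_surjective A (e.symm v)
    have hx' : ((x : N) : N ⧸ A) = e.symm u := hx
    have hy' : ((y : N) : N ⧸ A) = e.symm v := hy
    refine ⟨x, y, ?_⟩
    intro h
    have h1 := (QuotientGroup.eq_one_iff _).2 h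
    rw [QuotientGroup.mk_mul, QuotientGroup.mk_inv, QuotientGroup.mk_mul, QuotientGroup.mk_mul, hx', hy'] at h1
    apply huv
    have h2 := congrArg e h1
    simp only [map_mul, map_inv, MulEquiv.apply_symm_apply, map_one] at h2
    exact mul_inv_eq_one.1 h2
  exact split_of_inverts hp A hexp hcomm
    (inverts_of_central hp A hAcard hexp hcomm hAself htt htA hcent hna) hcent

end Cfsg.Agent.S3075
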