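import Cfsg.Statements.S3082
import Cfsg.Agent.Lib.LocalEven2.GT4
-- import your own Cfsg.Agent.* helpers here

set_option autoImplicit false
open Cfsg

namespace Cfsg.Agent.S3082

/-- The Glauberman–Thompson normal p-complement criterion for strongly closed subgroups, p odd. Let G be a finite group, P a Sylow p-subgroup and D a subgroup of P strongly closed in P with respect to G. If N_G(Z(J(D))) has a normal p-complement (J(D) generated by the abelian subgroups of D of largest order), or N_G(Ω₁(Z(J_e(D)))) has one (J_e(D) generated by the elementary abelian subgroups of largest order), then G has a normal p-complement. -/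
theorem result {G : Type*} [Group G] [Finite G] {p : ℕ} [Fact p.Prime] (hp : p ≠ 2) (P : Sylow p G) (D : Subgroup G) (hD : Cfsg.IsStronglyClosed D (P : Subgroup G)) (h : Cfsg.HasNormalPComplement p ↥(Subgroup.normalizer ((Cfsg.centerThompsonAOf D) : Set G)) ∨ Cfsg.HasNormalPComplement p ↥(Subgroup.normalizer ((Cfsg.omegaOne p (Cfsg.centerThompsonOf p D)) : Set G))) : Cfsg.HasNormalPComplement p G := by
  classical
  rcases h with h | h
  · have he : ∀ x ∈ D, x ^ (p * Nat.card G) = 1 := fun x _ => by
      rw [mul_comm, pow_mul, pow_card_eq_one', one_pow]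
    rw [Cfsg.Agent.Lib.LocalEven2.centerThompsonA_eq D he] at h
    exact Cfsg.Agent.Lib.LocalEven2.gt_aux hp (dvd_mul_right p _) _ G P D hD h rfl
  · rw [Cfsg.Agent.Lib.LocalEven2.omegaOne_center_eq D p] at h
    exact Cfsg.Agent.Lib.LocalEven2.gt_aux hp dvd_rfl _ G P D hD h rfl

end Cfsg.Agent.S3082
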