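import Cfsg.Statements.S3087
import Mathlib
-- import your own Cfsg.Agent.* helpers here

set_option autoImplicit false
open Cfsg

namespace Cfsg.Agent.S3087

/-- The fixed points of a subgroup in the representation. -/
def fixSub {G V : Type*} [Group G] [AddCommGroup V] {p : ℕ} [Fact p.Prime] [Module (ZMod p) V]
    (ρ : Representation (ZMod p) G V) (K : Subgroup G) : Submodule (ZMod p) V where
  carrier := {v | ∀ k ∈ K, ρ k v = v}
  add_mem' := by
    intro a b ha hb k hk
    rw [map_add, ha k hk, hb k hk]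
  zero_mem' := by
    intro k _
    exact map_zero _
  smul_mem' := by
    intro c a ha k hk
    rw [map_smul, ha k hk]

theorem card_fixSub {G V : Type*} [Group G] [AddCommGroup V] {p : ℕ} [Fact p.Prime] [Module (ZMod p) V]
    (ρ : Representation (ZMod p) G V) (K : Subgroup G) :
    Nat.card {v : V // ∀ k ∈ K, ρ k v = v} = Nat.card (fixSub ρ K) := rfl

theorem card_fixSub_inf {G V : Type*} [Group G] [AddCommGroup V] {p : ℕ} [Fact p.Prime] [Module (ZMod p) V]
    (ρ : Representation (ZMod p) G V) (W : Submodule (ZMod p) V) (K : Subgroup G) :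
    Nat.card {w : W // ∀ k ∈ K, ρ k w = w} = Nat.card (fixSub ρ K ⊓ W : Submodule (ZMod p) V) := by
  apply Nat.card_congr
  exact {
    toFun := fun w => ⟨w.1.1, w.2, w.1.2⟩
    invFun := fun v => ⟨⟨v.1, v.2.2⟩, v.2.1⟩
    left_inv := fun w => rfl
    right_inv := fun v => rfl }

/-- `|X ∩ W| |Y| ≤ |X| |Y ∩ W|` for `Y ≤ X`. -/
theorem card_inf_mul_le {V : Type*} [AddCommGroup V] [Finite V] {p : ℕ} [Fact p.Prime] [Module (ZMod p) V]
    (X Y W : Submodule (ZMod p) V) (hYX : Y ≤ X) :
    Nat.card (X ⊓ W : Submodule (ZMod p) V) * Nat.card Y ≤ Nat.card X * Nat.card (Y ⊓ W : Submodule (ZMod p) V) := by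
  have h := Submodule.finrank_sup_add_finrank_inf_eq (X ⊓ W) Y
  have e : (X ⊓ W) ⊓ Y = Y ⊓ W := by
    apply le_antisymm
    · exact le_inf inf_le_right (inf_le_left.trans inf_le_right)
    · exact le_inf (le_inf (inf_le_left.trans hYX) inf_le_right) inf_le_left
  rw [e] at h
  have hle : Module.finrank (ZMod p) ↥((X ⊓ W) ⊔ Y : Submodule (ZMod p) V) ≤ Module.finrank (ZMod p) X :=
    Submodule.finrank_mono (sup_le inf_le_left hYX)
  have hcard : ∀ U : Submodule (ZMod p) V, Nat.card U = p ^ Module.finrank (ZMod p) U := by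
    intro U
    rw [Module.natCard_eq_pow_finrank (K := ZMod p), Nat.card_zmod]
  rw [hcard, hcard, hcard, hcard, ← pow_add, ← pow_add]
  apply Nat.pow_le_pow_right (Fact.out : p.Prime).pos
  omega

/-- Let p be a prime, G a finite group acting linearly on a finite vector space V over the field with p elements, W a G-invariant subspace, and A a subgroup of G with |A|·|C_V(A)| ≥ |B|·|C_V(B)| for every subgroup B of A. Then |A|·|C_W(A)| ≥ |B|·|C_W(B)| for every subgroup B of A that contains C_A(W); that is, the image of A in the group induced on W satisfies the same maximality condition. -/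
theorem result {G V : Type*} [Group G] [Finite G] [AddCommGroup V] [Finite V] (p : ℕ) [Fact p.Prime] [Module (ZMod p) V]
    (ρ : Representation (ZMod p) G V) (W : Submodule (ZMod p) V) (hW : ∀ g : G, ∀ w ∈ W, ρ g w ∈ W)
    (A : Subgroup G)
    (hP : ∀ B : Subgroup G, B ≤ A →
      Nat.card ↥B * Nat.card {v : V // ∀ b ∈ B, ρ b v = v} ≤ Nat.card ↥A * Nat.card {v : V // ∀ a ∈ A, ρ a v = v})
    (B : Subgroup G) (hBA : B ≤ A) (hCB : ∀ a ∈ A, (∀ w ∈ W, ρ a w = w) → a ∈ B) :
    Nat.card ↥B * Nat.card {w : W // ∀ b ∈ B, ρ b w = w} ≤ Nat.card ↥A * Nat.card {w : W // ∀ a ∈ A, ρ a w = w} := by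
  have h1 := hP B hBA
  rw [card_fixSub ρ B, card_fixSub ρ A] at h1
  rw [card_fixSub_inf ρ W B, card_fixSub_inf ρ W A]
  have hYX : fixSub ρ A ≤ fixSub ρ B := fun v hv k hk => hv k (hBA hk)
  have h2 := card_inf_mul_le (fixSub ρ B) (fixSub ρ A) W hYX
  have hpos : 0 < Nat.card (fixSub ρ A) := Nat.card_pos
  apply Nat.le_of_mul_le_mul_right _ hpos
  calc Nat.card B * Nat.card (fixSub ρ B ⊓ W : Submodule (ZMod p) V) * Nat.card (fixSub ρ A)
      = Nat.card B * (Nat.card (fixSub ρ B ⊓ W : Submodule (ZMod p) V) * Nat.card (fixSub ρ A)) := by ring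
    _ ≤ Nat.card B * (Nat.card (fixSub ρ B) * Nat.card (fixSub ρ A ⊓ W : Submodule (ZMod p) V)) :=
        Nat.mul_le_mul_left _ h2
    _ = (Nat.card B * Nat.card (fixSub ρ B)) * Nat.card (fixSub ρ A ⊓ W : Submodule (ZMod p) V) := by ring
    _ ≤ (Nat.card A * Nat.card (fixSub ρ A)) * Nat.card (fixSub ρ A ⊓ W : Submodule (ZMod p) V) :=
        Nat.mul_le_mul_right _ h1
    _ = _ := by ring

end Cfsg.Agent.S3087
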