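import Cfsg.Statements.S3155
import Mathlib

set_option autoImplicit false
open Cfsg

namespace Cfsg.Agent.S3155

theorem sq_ne (d : ZMod 4) : d * d ≠ -1 := by
  revert d; decide


/-- Let B be the direct product of three cyclic groups of order 4. Then the automorphism of B inverting every element is not the square of any automorphism of B. -/
theorem result {B : Type*} [CommGroup B] [Finite B] (hB : Nonempty (B ≃* Multiplicative (ZMod 4 × ZMod 4 × ZMod 4)))
    (τ : B ≃* B) : τ.trans τ ≠ MulEquiv.inv B := by
  classical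
  intro hτ
  obtain ⟨e⟩ := hB
  have hττ : ∀ b : B, τ (τ b) = b⁻¹ := fun b => by
    have := congrArg (fun f : B ≃* B => f b) hτ
    simpa using this
  let A := ZMod 4 × ZMod 4 × ZMod 4
  let φ : A →+ A := AddMonoidHom.mk' (fun a => Multiplicative.toAdd (e (τ (e.symm (Multiplicative.ofAdd a))))) (by
    intro a b
    simp [ofAdd_add, map_mul])
  have hφ : ∀ a, φ (φ a) = -a := by
    intro a
    show Multiplicative.toAdd (e (τ (e.symm (Multiplicative.ofAdd (Multiplicative.toAdd (e (τ (e.symm (Multiplicative.ofAdd a))))))))) = -a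
    simp [hττ]
  let ψ : A →ₗ[ZMod 4] A := φ.toZModLinearMap 4
  have hψ : ψ ∘ₗ ψ = (-1 : ZMod 4) • LinearMap.id := by
    apply LinearMap.ext
    intro x
    show φ (φ x) = (-1 : ZMod 4) • x
    rw [hφ]
    simp
  have hdet := congrArg LinearMap.det hψ
  rw [LinearMap.det_comp, LinearMap.det_smul] at hdet
  have hf : Module.finrank (ZMod 4) A = 3 := by
    haveI : Fact (1 < 4) := ⟨by norm_num⟩
    show Module.finrank (ZMod 4) (ZMod 4 × ZMod 4 × ZMod 4) = 3
    rw [Module.finrank_prod, Module.finrank_prod]
    simp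
  rw [hf] at hdet
  simp at hdet
  exact sq_ne _ (by rw [hdet]; decide)

end Cfsg.Agent.S3155
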