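import Cfsg.Statements.S3156
import Mathlib
import Cfsg.Agent.Lib.Components.SU3
import Cfsg.Agent.Lib.TwoFusion.U34Sylow

set_option autoImplicit false
open Cfsg

namespace Cfsg.Agent.S3156

open Cfsg.Agent.Lib.Components.SU3

/-- Field lemma: additive maps of order `3` preserving the norm on `𝔽₁₆` are trivial. -/
theorem auto_three_field {F : Type*} [Field F] [Fintype F] (hF : Fintype.card F = 16) (h2 : (2 : F) = 0)
    (A : F → F) (hA : ∀ x y, A (x + y) = A x + A y) (hA3 : ∀ x, A (A (A x)) = x)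
    (hN : ∀ x, A x ^ 5 = x ^ 5) : ∀ x, A x = x := by
  classical
  haveI : Fact (Nat.Prime 3) := ⟨Nat.prime_three⟩
  have hF' : Fintype.card F = 4 ^ 2 := by rw [hF]; norm_num
  have hneg : ∀ a : F, -a = a := fun a => by linear_combination (-a) * h2
  obtain ⟨W, hW⟩ : ∃ W : AddSubgroup F, ∀ y, y ∈ W ↔ A y = y :=
    ⟨{ carrier := {y | A y = y}
       add_mem' := fun {a b} ha hb => by
        have ha' : A a = a := ha
        have hb' : A b = b := hb
        show A (a + b) = a + b
        rw [hA, ha', hb']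
       zero_mem' := by
        show A 0 = 0
        have h := hA 0 0
        rw [add_zero] at h
        linear_combination -h
       neg_mem' := fun {a} ha => by
        rw [hneg]
        exact ha }, fun y => Iff.rfl⟩
  have hfib : ∀ z : F, z ≠ 0 → z ^ 4 = z → ∃ a b : F, a ≠ b ∧ a ∈ W ∧ b ∈ W ∧ a ^ 5 = z ∧ b ^ 5 = z := by
    intro z hz hz4
    have hcard : Nat.card {x : F // x ^ 5 = z} = 5 := Cfsg.Agent.S0754.result (q := 4) hF' z hz hz4
    let f : Function.End {x : F // x ^ 5 = z} := fun x => ⟨A x.1, by rw [hN, x.2]⟩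
    have hf : f ^ 3 ^ 1 = 1 := by
      funext x
      apply Subtype.ext
      exact hA3 x.1
    have hmod := Equiv.Perm.card_fixedPoints_modEq (p := 3) (n := 1) hf
    rw [← Nat.card_eq_fintype_card (α := {x : F // x ^ 5 = z}), hcard] at hmod
    have h1 : 1 < Fintype.card (Function.fixedPoints f) := by
      have : Fintype.card (Function.fixedPoints f) % 3 = 2 := by
        have := hmod.symm
        unfold Nat.ModEq at this
        omega
      omega
    obtain ⟨⟨a, ha⟩, ⟨b, hb⟩, hab⟩ := Fintype.one_lt_card_iff.mp h1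
    refine ⟨a.1, b.1, ?_, ?_, ?_, a.2, b.2⟩
    · intro h
      apply hab
      apply Subtype.ext
      exact Subtype.ext h
    · rw [hW]
      exact congrArg Subtype.val ha
    · rw [hW]
      exact congrArg Subtype.val hb
  -- a second norm
  obtain ⟨z₁, hz₁, hz₁', hz₁4⟩ : ∃ z : F, z ≠ 0 ∧ z ≠ 1 ∧ z ^ 4 = z := by
    by_contra hcon
    push Not at hcon
    have h1 := card_fixed (q := 4) hF' h2
    have key : ∀ x : {z : F // z ^ 4 = z}, x.1 = 0 ∨ x.1 = 1 := by
      intro x
      by_contra h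
      push Not at h
      exact hcon x.1 h.1 h.2 x.2
    have h3 : Nat.card {z : F // z ^ 4 = z} ≤ Nat.card Bool := by
      apply Nat.card_le_card_of_injective (fun z => decide (z.1 = 0))
      intro x y hxy
      apply Subtype.ext
      rcases key x with hx | hx <;> rcases key y with hy | hy
      · rw [hx, hy]
      · simp [hx, hy] at hxy
      · simp [hx, hy] at hxy
      · rw [hx, hy]
    rw [h1] at h3
    simp at h3
  obtain ⟨a, b, hab, haW, hbW, ha5, hb5⟩ := hfib 1 one_ne_zero (one_pow _)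
  obtain ⟨c, d, hcd, hcW, hdW, hc5, hd5⟩ := hfib z₁ hz₁ hz₁4
  have hne : ∀ u v : F, u ^ 5 ≠ v ^ 5 → u ≠ v := fun u v h he => h (by rw [he])
  have h00 : (0 : F) ^ 5 = 0 := by norm_num
  have hset : ({0, a, b, c, d} : Finset F) ⊆ Finset.univ.filter (· ∈ W) := by
    intro x hx
    simp only [Finset.mem_insert, Finset.mem_singleton] at hx
    refine Finset.mem_filter.mpr ⟨Finset.mem_univ _, ?_⟩
    rcases hx with rfl | rfl | rfl | rfl | rfl
    · exact W.zero_mem
    · exact haW
    · exact hbW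
    · exact hcW
    · exact hdW
  have h0a : (0 : F) ≠ a := hne _ _ (by rw [h00, ha5]; exact zero_ne_one)
  have h0b : (0 : F) ≠ b := hne _ _ (by rw [h00, hb5]; exact zero_ne_one)
  have h0c : (0 : F) ≠ c := hne _ _ (by rw [h00, hc5]; exact hz₁.symm)
  have h0d : (0 : F) ≠ d := hne _ _ (by rw [h00, hd5]; exact hz₁.symm)
  have hac : a ≠ c := hne _ _ (by rw [ha5, hc5]; exact hz₁'.symm)
  have had : a ≠ d := hne _ _ (by rw [ha5, hd5]; exact hz₁'.symm)
  have hbc : b ≠ c := hne _ _ (by rw [hb5, hc5]; exact hz₁'.symm)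
  have hbd : b ≠ d := hne _ _ (by rw [hb5, hd5]; exact hz₁'.symm)
  have h5 : ({0, a, b, c, d} : Finset F).card = 5 := by
    rw [Finset.card_insert_of_notMem, Finset.card_insert_of_notMem, Finset.card_insert_of_notMem,
      Finset.card_pair hcd]
    · simp only [Finset.mem_insert, Finset.mem_singleton]
      tauto
    · simp only [Finset.mem_insert, Finset.mem_singleton]
      tauto
    · simp only [Finset.mem_insert, Finset.mem_singleton]
      tauto
  have hW5 : 5 ≤ Nat.card W := by
    have h1 := Finset.card_le_card hset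
    rw [h5] at h1
    have h3 : (Finset.univ.filter (· ∈ W)).card = Nat.card W := by
      rw [Nat.card_eq_fintype_card, Fintype.card_subtype]
    omega
  have hdvd : Nat.card W ∣ 16 := by
    have := AddSubgroup.card_addSubgroup_dvd_card W
    rwa [Nat.card_eq_fintype_card (α := F), hF] at this
  have hmod3 : Nat.card W % 3 = 1 := by
    let f : Function.End F := A
    have hf : f ^ 3 ^ 1 = 1 := by
      funext x
      exact hA3 x
    have hmod := Equiv.Perm.card_fixedPoints_modEq (p := 3) (n := 1) hf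
    rw [hF] at hmod
    have h1 : Fintype.card (Function.fixedPoints f) = Nat.card W := by
      rw [← Nat.card_eq_fintype_card]
      apply Nat.card_congr
      exact Equiv.subtypeEquivRight (fun x => (hW x).symm)
    rw [h1] at hmod
    have := hmod.symm
    unfold Nat.ModEq at this
    omega
  have h16 : Nat.card W = 16 := by
    have hle := Nat.le_of_dvd (by norm_num) hdvd
    generalize Nat.card W = m at *
    interval_cases m <;> omega
  have htop : W = ⊤ := by
    apply AddSubgroup.eq_top_of_card_eq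
    rw [h16, Nat.card_eq_fintype_card, hF]
  intro x
  rw [← hW, htop]
  exact AddSubgroup.mem_top x

/-- There is no `S₃` of automorphisms. -/
theorem no_s3 {F : Type*} [Field F] [Fintype F] (hF : Fintype.card F = 16) (h2 : (2 : F) = 0)
    {X : Type*} [Group X] {aa cc : X → F} (h : SU3Coords 4 X aa cc) (ρ τ : X ≃* X)
    (h3 : ∀ x, ρ (ρ (ρ x)) = x) (ht : ∀ x, τ (τ x) = x) (hr : ∀ x, τ (ρ (τ (ρ x))) = x) :
    ∀ x, ρ x = x := by
  have hF' : Fintype.card F = 4 ^ 2 := by rw [hF]; norm_num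
  have hφ0 : ∀ φ : X ≃* X, ∀ x, aa x = 0 → aa (φ x) = 0 := by
    intro φ x hx
    rw [← h.sq_one_iff h2 hF', ← map_mul, (h.sq_one_iff h2 hF' x).2 hx, map_one]
  have hτz : ∀ z, aa z = 0 → τ z = z := fun z hz =>
    h.center_fixed h2 hF' τ 1 (fun x => by rw [ht]; simp) hz
  have hρz : ∀ z, aa z = 0 → ρ z = z := by
    intro z hz
    have h1 := hr z
    rw [hτz _ (hφ0 ρ _ hz), hτz _ (hφ0 ρ _ (hφ0 ρ _ hz))] at h1
    have h4 := h3 z
    rw [h1] at h4
    exact h4
  have hρa : ∀ x y, aa x = aa y → aa (ρ x) = aa (ρ y) := by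
    intro x y hxy
    have h1 : aa (x * y⁻¹) = 0 := by
      rw [h.aa_mul, h.aa_inv h2, hxy]
      linear_combination (aa y) * h2
    have h4 := hφ0 ρ _ h1
    rw [map_mul, h.aa_mul, map_inv, h.aa_inv h2] at h4
    linear_combination h4 - (aa (ρ y)) * h2
  choose ξ hξ using h.exists_aa h2 hF'
  obtain ⟨A, hA⟩ : ∃ A : F → F, ∀ x, A x = aa (ρ (ξ x)) := ⟨_, fun _ => rfl⟩
  have hAaa : ∀ x, A (aa x) = aa (ρ x) := by
    intro x
    rw [hA]
    exact hρa _ _ (hξ _)
  have hAadd : ∀ x y, A (x + y) = A x + A y := by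
    intro x y
    have h1 : x + y = aa (ξ x * ξ y) := by rw [h.aa_mul, hξ, hξ]
    rw [h1, hAaa, map_mul, h.aa_mul, hA, hA]
  have hA3 : ∀ x, A (A (A x)) = x := by
    intro x
    rw [hA x, hAaa, hAaa, h3, hξ]
  have hN : ∀ x, A x ^ 5 = x ^ 5 := by
    intro x
    have h1 : ρ (ξ x * ξ x) = ξ x * ξ x := hρz _ (h.aa_sq h2 _)
    have h4 := h.cc_sq h2 (ρ (ξ x))
    rw [← map_mul, h1, h.cc_sq h2, hξ] at h4
    rw [hA]
    exact h4.symm
  have hAid := auto_three_field hF h2 A hAadd hA3 hN
  have hρaa : ∀ x, aa (ρ x) = aa x := by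
    intro x
    rw [← hAaa, hAid]
  have hρρ : ∀ x, ρ (ρ x) = x := by
    intro x
    obtain ⟨c, hc⟩ : ∃ c, c = x⁻¹ * ρ x := ⟨_, rfl⟩
    have hc0 : aa c = 0 := by
      rw [hc, h.aa_mul, h.aa_inv h2, hρaa]
      linear_combination (aa x) * h2
    have hx : ρ x = x * c := by
      rw [hc, mul_inv_cancel_left]
    rw [hx, map_mul, hx, hρz c hc0, mul_assoc, (h.sq_one_iff h2 hF' c).2 hc0, mul_one]
  intro x
  have h1 := h3 x
  rw [hρρ (ρ x)] at h1
  exact h1

/-- Coordinates on Sylow subgroups of `PSU₃(4)`. -/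
theorem exists_coords_psu {F : Type*} [Field F] [Fintype F] (hF : Fintype.card F = 16)
    (S : Sylow 2 (Cfsg.PSU 3 F 4)) :
    ∃ aa cc : ↥(S : Subgroup (Cfsg.PSU 3 F 4)) → F, SU3Coords 4 ↥(S : Subgroup (Cfsg.PSU 3 F 4)) aa cc := by
  have hF' : Fintype.card F = 4 ^ 2 := by rw [hF]; norm_num
  have hc := Cfsg.Agent.Lib.TwoFusion.center_su34 hF
  let e : Cfsg.SU 3 F 4 ≃* Cfsg.PSU 3 F 4 :=
    (QuotientGroup.quotientBot.symm).trans (QuotientGroup.quotientMulEquivOfEq hc.symm)
  let P : Sylow 2 (Cfsg.SU 3 F 4) := S.comapOfInjective e.toMonoidHom e.injective (by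
    rw [MonoidHom.range_eq_top.mpr e.surjective]
    exact le_top)
  obtain ⟨aa, cc, h⟩ := exists_coords (n := 2) hF' (by norm_num) P
  let e' : ↥(S : Subgroup (Cfsg.PSU 3 F 4)) ≃* ↥(P : Subgroup (Cfsg.SU 3 F 4)) :=
    { toFun := fun x => ⟨e.symm x.1, by
        show e (e.symm x.1) ∈ (S : Subgroup (Cfsg.PSU 3 F 4))
        rw [e.apply_symm_apply]
        exact x.2⟩
      invFun := fun x => ⟨e x.1, x.2⟩
      left_inv := fun x => by
        apply Subtype.ext
        exact e.apply_symm_apply x.1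
      right_inv := fun x => by
        apply Subtype.ext
        exact e.symm_apply_apply x.1
      map_mul' := fun x y => by
        apply Subtype.ext
        exact map_mul e.symm x.1 y.1 }
  exact ⟨_, _, h.congr e'⟩


/-- If a finite group T is isomorphic to a Sylow 2-subgroup of the projective special unitary group of dimension 3 with parameter 4 (realised over the field with 16 elements), then no subgroup of the automorphism group of T is isomorphic to the symmetric group of degree 3. -/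
theorem result {T : Type*} [Group T] [Finite T] (hT : (∃ (F : Type) (_ : Field F) (_ : Fintype F), Fintype.card F = 16 ∧ ∃ S : Sylow 2 (Cfsg.PSU 3 F 4), Nonempty (T ≃* ↥(S : Subgroup (Cfsg.PSU 3 F 4))))) (H : Subgroup (MulAut T)) : ¬ Nonempty (↥H ≃* Equiv.Perm (Fin 3)) := by
  obtain ⟨F, _, _, hF, S, ⟨e⟩⟩ := hT
  rintro ⟨i⟩
  have hF' : Fintype.card F = 4 ^ 2 := by rw [hF]; norm_num
  have h2 : (2 : F) = 0 := char_two_of_card (n := 2) hF' (by norm_num)
  obtain ⟨aa, cc, hc⟩ := exists_coords_psu hF S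
  have hc' := hc.congr e
  obtain ⟨c, hc3⟩ : ∃ c : Equiv.Perm (Fin 3), c = finRotate 3 := ⟨_, rfl⟩
  obtain ⟨s, hs⟩ : ∃ s : Equiv.Perm (Fin 3), s = Equiv.swap 0 1 := ⟨_, rfl⟩
  have r1 : c * c * c = 1 := by rw [hc3]; decide
  have r2 : s * s = 1 := by rw [hs]; decide
  have r3 : s * c * s * c = 1 := by rw [hc3, hs]; decide
  have r4 : c ≠ 1 := by rw [hc3]; decide
  have key : ∀ a b : Equiv.Perm (Fin 3), ((i.symm (a * b) : H) : MulAut T) = (i.symm a : H).1 * (i.symm b : H).1 := by
    intro a b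
    rw [map_mul]
    rfl
  have hone : ((i.symm 1 : H) : MulAut T) = 1 := by
    rw [map_one]
    rfl
  have hρ3 : ∀ x, (i.symm c : H).1 ((i.symm c : H).1 ((i.symm c : H).1 x)) = x := by
    intro x
    have h1 : (i.symm c : H).1 * (i.symm c : H).1 * (i.symm c : H).1 = 1 := by
      rw [← key, ← key, r1, hone]
    exact DFunLike.congr_fun h1 x
  have hτ2 : ∀ x, (i.symm s : H).1 ((i.symm s : H).1 x) = x := by
    intro x
    have h1 : (i.symm s : H).1 * (i.symm s : H).1 = 1 := by
      rw [← key, r2, hone]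
    exact DFunLike.congr_fun h1 x
  have hrr : ∀ x, (i.symm s : H).1 ((i.symm c : H).1 ((i.symm s : H).1 ((i.symm c : H).1 x))) = x := by
    intro x
    have h1 : (i.symm s : H).1 * (i.symm c : H).1 * (i.symm s : H).1 * (i.symm c : H).1 = 1 := by
      rw [← key, ← key, ← key, r3, hone]
    exact DFunLike.congr_fun h1 x
  have hfin := no_s3 hF h2 hc' (i.symm c : H).1 (i.symm s : H).1 hρ3 hτ2 hrr
  apply r4
  have h1 : (i.symm c : H).1 = 1 := by
    ext x
    exact hfin x
  have h3 : i.symm c = 1 := Subtype.ext h1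
  have h4 := congrArg i h3
  simpa using h4

end Cfsg.Agent.S3156
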