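import Cfsg.Statements.S3157
import Mathlib
import Cfsg.Agent.Lib.TwoGroups.Present
import Cfsg.Agent.Lib.Classical.Card

set_option autoImplicit false
open Cfsg

namespace Cfsg.Agent.S3157

set_option linter.unusedSimpArgs false
set_option linter.unusedVariables false
set_option linter.unusedSectionVars false
set_option linter.style.haveILetI false

open scoped commutatorElement

section neumann

variable {T : Type*} [Group T] [Finite T] (ρ : T ≃* T)
  (h3 : ∀ x, ρ (ρ (ρ x)) = x) (hfp : ∀ y, ρ y = y → y = 1)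
include h3 hfp

theorem fpf_surj (x : T) : ∃ g, g⁻¹ * ρ g = x := by
  have hinj : Function.Injective (fun g : T => g⁻¹ * ρ g) := by
    intro g h hgh
    have h1 : g⁻¹ * ρ g = h⁻¹ * ρ h := hgh
    have h4 : ρ (h * g⁻¹) = h * g⁻¹ := by
      rw [map_mul, map_inv]
      calc ρ h * (ρ g)⁻¹ = h * (h⁻¹ * ρ h) * (ρ g)⁻¹ := by group
        _ = h * (g⁻¹ * ρ g) * (ρ g)⁻¹ := by rw [h1]
        _ = h * g⁻¹ := by group
    have h5 := hfp _ h4
    exact (mul_inv_eq_one.mp h5).symm
  exact (Finite.injective_iff_surjective.mp hinj) x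

theorem fpf_norm (x : T) : x * ρ x * ρ (ρ x) = 1 := by
  obtain ⟨g, rfl⟩ := fpf_surj ρ h3 hfp x
  simp only [map_mul, map_inv, h3]
  group

theorem fpf_comm (x : T) : x * ρ x = ρ x * x := by
  have h1 := fpf_norm ρ h3 hfp x⁻¹
  have h4 := fpf_norm ρ h3 hfp x
  simp only [map_inv] at h1
  have h5 := eq_inv_of_mul_eq_one_left h4
  have h6 := eq_inv_of_mul_eq_one_right h1
  rw [h5, h6]
  group

theorem fpf_J1 (a b : T) : ⁅(ρ b)⁻¹, ρ a⁆ = ⁅b, a * ρ a⁆ := by
  have hA := fpf_comm ρ h3 hfp a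
  have hB := fpf_comm ρ h3 hfp b
  have h1 := fpf_norm ρ h3 hfp (a * b)
  have h4 := fpf_comm ρ h3 hfp (a * b)
  have ha := eq_inv_of_mul_eq_one_left (fpf_norm ρ h3 hfp a)
  have hb := eq_inv_of_mul_eq_one_left (fpf_norm ρ h3 hfp b)
  rw [h4] at h1
  simp only [map_mul] at h1 h4
  have key : ρ a * ρ b * (a * b) = (b * ρ b) * (a * ρ a) := by
    rw [hb, ha, ← mul_inv_rev]
    exact eq_inv_of_mul_eq_one_left h1
  have hinv : (a * ρ a)⁻¹ = a⁻¹ * (ρ a)⁻¹ := by
    rw [hA, mul_inv_rev]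
  rw [commutatorElement_def, commutatorElement_def, hinv]
  calc (ρ b)⁻¹ * ρ a * ((ρ b)⁻¹)⁻¹ * (ρ a)⁻¹
      = (ρ b)⁻¹ * (ρ a * ρ b * (a * b)) * (a * b)⁻¹ * (ρ a)⁻¹ := by group
    _ = (ρ b)⁻¹ * ((b * ρ b) * (a * ρ a)) * (a * b)⁻¹ * (ρ a)⁻¹ := by rw [key]
    _ = (ρ b)⁻¹ * ((ρ b * b) * (a * ρ a)) * (a * b)⁻¹ * (ρ a)⁻¹ := by rw [hB]
    _ = b * (a * ρ a) * b⁻¹ * (a⁻¹ * (ρ a)⁻¹) := by group

theorem fpf_J2 (b w : T) : ⁅b, w⁆ = ⁅(ρ b)⁻¹, (ρ (ρ w))⁻¹⁆ := by
  have h1 := fpf_J1 ρ h3 hfp (ρ (w⁻¹)) b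
  have h4 : ρ (w⁻¹) * ρ (ρ (w⁻¹)) = w := by
    have h5 := fpf_norm ρ h3 hfp w⁻¹
    have h6 : ρ (w⁻¹) * ρ (ρ (w⁻¹)) = (w⁻¹)⁻¹ := by
      apply eq_inv_of_mul_eq_one_right
      rw [← mul_assoc]
      exact h5
    rw [h6, inv_inv]
  rw [h4] at h1
  rw [← h1]
  simp only [map_inv]

theorem fpf_J3 (b w : T) : ⁅b, w⁆ = ⁅ρ (ρ b), ρ w⁆ := by
  rw [fpf_J2 ρ h3 hfp b w, fpf_J2 ρ h3 hfp (ρ b)⁻¹ (ρ (ρ w))⁻¹]
  simp only [map_inv, inv_inv, h3]

theorem fpf_adj (u v : T) : ⁅ρ u, v⁆ = ⁅u, ρ v⁆ := by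
  rw [fpf_J3 ρ h3 hfp (ρ u) v, h3]

theorem fpf_central (u v y : T) : y * ⁅u, v⁆ = ⁅u, v⁆ * y := by
  obtain ⟨g, rfl⟩ := fpf_surj ρ h3 hfp y
  have hexp : ∀ a c d : T, ⁅a, c * d⁆ = ⁅a, c⁆ * (c * ⁅a, d⁆ * c⁻¹) := by
    intro a c d
    simp only [commutatorElement_def]
    group
  have h1 : ⁅ρ (ρ (ρ u)), g * v⁆ = ⁅ρ (ρ u), ρ (g * v)⁆ := fpf_adj ρ h3 hfp _ _
  rw [hexp, map_mul, hexp, ← fpf_adj ρ h3 hfp, ← fpf_adj ρ h3 hfp, h3] at h1
  have h4 := mul_left_cancel h1
  have h5 : g⁻¹ * ρ g * ⁅u, v⁆ * (ρ g)⁻¹ * g = ⁅u, v⁆ := by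
    have : ρ g * ⁅u, v⁆ * (ρ g)⁻¹ = g * ⁅u, v⁆ * g⁻¹ := h4.symm
    calc g⁻¹ * ρ g * ⁅u, v⁆ * (ρ g)⁻¹ * g = g⁻¹ * (ρ g * ⁅u, v⁆ * (ρ g)⁻¹) * g := by group
      _ = g⁻¹ * (g * ⁅u, v⁆ * g⁻¹) * g := by rw [this]
      _ = ⁅u, v⁆ := by group
  calc g⁻¹ * ρ g * ⁅u, v⁆ = (g⁻¹ * ρ g * ⁅u, v⁆ * (ρ g)⁻¹ * g) * (g⁻¹ * ρ g) := by group
    _ = ⁅u, v⁆ * (g⁻¹ * ρ g) := by rw [h5]

/-- Invariant subgroups have order one modulo three. -/
theorem card_inv_mod (H : Subgroup T) (hH : ∀ x ∈ H, ρ x ∈ H) : Nat.card H % 3 = 1 := by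
  classical
  haveI : Fact (Nat.Prime 3) := ⟨Nat.prime_three⟩
  haveI : Fintype H := Fintype.ofFinite _
  let f : Function.End H := fun x => ⟨ρ x.1, hH x.1 x.2⟩
  have hf : f ^ 3 ^ 1 = 1 := by
    funext x
    apply Subtype.ext
    exact h3 x.1
  have hmod := Equiv.Perm.card_fixedPoints_modEq (p := 3) (n := 1) hf
  have h1 : Fintype.card (Function.fixedPoints f) = 1 := by
    rw [Fintype.card_eq_one_iff]
    refine ⟨⟨1, ?_⟩, ?_⟩
    · apply Subtype.ext
      exact map_one ρ
    · rintro ⟨⟨y, hy⟩, hy2⟩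
      apply Subtype.ext
      apply Subtype.ext
      exact hfp y (congrArg Subtype.val hy2)
  rw [h1] at hmod
  rw [Nat.card_eq_fintype_card]
  exact hmod

end neumann

section facts

variable {T : Type*} [Group T] [Finite T] (ρ : T ≃* T)
  (h3 : ∀ x, ρ (ρ (ρ x)) = x) (hfp : ∀ y, ρ y = y → y = 1)
  (hT : Nat.card T = 64) (hna : ¬ IsMulCommutative T)
include h3 hfp hT hna

theorem card_cases (H : Subgroup T) (hH : ∀ x ∈ H, ρ x ∈ H) :
    Nat.card H = 1 ∨ Nat.card H = 4 ∨ Nat.card H = 16 ∨ Nat.card H = 64 := by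
  have h1 := card_inv_mod ρ h3 hfp H hH
  have h4 : Nat.card H ∣ 64 := by
    rw [← hT]
    exact Subgroup.card_subgroup_dvd_card H
  have h5 := Nat.le_of_dvd (by norm_num) h4
  generalize Nat.card H = m at *
  interval_cases m <;> omega

theorem center_inv (x : T) (hx : x ∈ Subgroup.center T) : ρ x ∈ Subgroup.center T := by
  rw [Subgroup.mem_center_iff] at hx ⊢
  intro g
  obtain ⟨h, rfl⟩ := ρ.surjective g
  rw [← map_mul, ← map_mul, hx]

theorem comm_mem_center (a b : T) : ⁅a, b⁆ ∈ Subgroup.center T := by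
  rw [Subgroup.mem_center_iff]
  intro g
  exact fpf_central ρ h3 hfp a b g

/-- The centre has order four. -/
theorem card_center : Nat.card (Subgroup.center T) = 4 := by
  classical
  haveI : Fact (Nat.Prime 2) := ⟨Nat.prime_two⟩
  have hp : IsPGroup 2 T := IsPGroup.of_card (n := 6) (by rw [hT]; norm_num)
  haveI : Nontrivial T := Finite.one_lt_card_iff_nontrivial.mp (by rw [hT]; norm_num)
  have hne : Nontrivial (Subgroup.center T) := hp.center_nontrivial
  have h1 : Nat.card (Subgroup.center T) ≠ 1 := by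
    have := Finite.one_lt_card_iff_nontrivial.mpr hne
    omega
  have hZT : Nat.card (Subgroup.center T) ≠ 64 := by
    intro h
    apply hna
    have h4 : Subgroup.center T = ⊤ := by
      apply Subgroup.eq_top_of_card_eq
      rw [h, hT]
    refine ⟨⟨fun a b => ?_⟩⟩
    have : a ∈ Subgroup.center T := by rw [h4]; trivial
    exact (Subgroup.mem_center_iff.mp this b).symm
  rcases card_cases ρ h3 hfp hT hna (Subgroup.center T) (center_inv ρ h3 hfp hT hna) with h | h | h | h
  · exact absurd h h1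
  · exact h
  · exfalso
    -- a noncentral element
    have hna' : ∃ a : T, a ∉ Subgroup.center T := by
      by_contra hcon
      push Not at hcon
      apply hna
      refine ⟨⟨fun a b => ?_⟩⟩
      exact (Subgroup.mem_center_iff.mp (hcon a) b).symm
    obtain ⟨a, ha⟩ := hna'
    let ad : T →* T :=
      { toFun := fun t => ⁅a, t⁆
        map_one' := by simp
        map_mul' := fun s t => by
          have hc := fun g => Subgroup.mem_center_iff.mp (comm_mem_center ρ h3 hfp hT hna a t) g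
          have hexp : ⁅a, s * t⁆ = ⁅a, s⁆ * (s * ⁅a, t⁆ * s⁻¹) := by
            simp only [commutatorElement_def]
            group
          rw [hexp, hc s]
          simp }
    have hker : ∀ t, t ∈ ad.ker ↔ a * t = t * a := by
      intro t
      rw [MonoidHom.mem_ker]
      show ⁅a, t⁆ = 1 ↔ _
      rw [commutatorElement_eq_one_iff_mul_comm]
    have hrange : ∀ x ∈ ad.range, ρ x ∈ ad.range := by
      rintro _ ⟨t, rfl⟩
      refine ⟨ρ (ρ t), ?_⟩
      show ⁅a, ρ (ρ t)⁆ = ρ ⁅a, t⁆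
      rw [← fpf_adj ρ h3 hfp, map_commutatorElement]
    have hr := card_cases ρ h3 hfp hT hna ad.range hrange
    have hrne : Nat.card ad.range ≠ 1 := by
      intro h1
      apply ha
      rw [Subgroup.mem_center_iff]
      intro g
      have h4 : ad g ∈ ad.range := ⟨g, rfl⟩
      have h5 := (Subgroup.card_eq_one.mp h1)
      rw [h5] at h4
      have h6 : a * g = g * a := (hker g).1 (MonoidHom.mem_ker.mpr ((Subgroup.mem_bot.mp h4)))
      exact h6.symm
    have h6 := Subgroup.card_mul_index ad.ker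
    rw [Subgroup.index_ker, hT] at h6
    have hZle : Subgroup.center T ≤ ad.ker := by
      intro z hz
      rw [hker]
      exact (Subgroup.mem_center_iff.mp hz a)
    have h7 : 16 < Nat.card ad.ker := by
      by_contra hle
      push Not at hle
      have he := Subgroup.eq_of_le_of_card_ge hZle (by rw [h]; exact hle)
      apply ha
      rw [he, hker]
    rcases hr with h8 | h8 | h8 | h8
    · exact hrne h8
    · rw [h8] at h6
      omega
    · rw [h8] at h6
      omega
    · rw [h8] at h6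
      omega
  · exact absurd h hZT

/-- Elements of the centre have square one. -/
theorem center_sq (z : T) (hz : z ∈ Subgroup.center T) : z * z = 1 := by
  classical
  haveI : Fact (Nat.Prime 2) := ⟨Nat.prime_two⟩
  have hcard := card_center ρ h3 hfp hT hna
  let E : Subgroup T :=
    { carrier := {y | y ∈ Subgroup.center T ∧ y * y = 1}
      one_mem' := ⟨Subgroup.one_mem _, one_mul 1⟩
      mul_mem' := fun {a b} ha hb => by
        refine ⟨Subgroup.mul_mem _ ha.1 hb.1, ?_⟩
        have hc := Subgroup.mem_center_iff.mp ha.1 b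
        calc a * b * (a * b) = a * (b * a) * b := by simp only [mul_assoc]
          _ = a * (a * b) * b := by rw [hc]
          _ = (a * a) * (b * b) := by simp only [mul_assoc]
          _ = 1 := by rw [ha.2, hb.2, one_mul]
      inv_mem' := fun {a} ha => by
        refine ⟨Subgroup.inv_mem _ ha.1, ?_⟩
        rw [← mul_inv_rev, ha.2, inv_one] }
  have hEinv : ∀ x ∈ E, ρ x ∈ E := by
    rintro x ⟨h1, h4⟩
    exact ⟨center_inv ρ h3 hfp hT hna x h1, by rw [← map_mul, h4, map_one]⟩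
  have hEcard := card_cases ρ h3 hfp hT hna E hEinv
  have hEle : E ≤ Subgroup.center T := fun x hx => hx.1
  have hEd : Nat.card E ∣ 4 := by
    rw [← hcard]
    exact Subgroup.card_dvd_of_le hEle
  have hE1 : Nat.card E ≠ 1 := by
    intro h1
    obtain ⟨t, ht⟩ := exists_prime_orderOf_dvd_card' (G := Subgroup.center T) 2 (by rw [hcard]; norm_num)
    have h4 : t.1 ∈ E := ⟨t.2, by
      have := pow_orderOf_eq_one t
      rw [ht, pow_two] at this
      exact congrArg Subtype.val this⟩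
    have h5 := Subgroup.card_eq_one.mp h1
    rw [h5] at h4
    have h6 : t = 1 := Subtype.ext (Subgroup.mem_bot.mp h4)
    rw [h6, orderOf_one] at ht
    omega
  have hE4 : Nat.card E = 4 := by
    rcases hEcard with h | h | h | h
    · exact absurd h hE1
    · exact h
    · rw [h] at hEd
      norm_num at hEd
    · rw [h] at hEd
      norm_num at hEd
  have heq : E = Subgroup.center T := Subgroup.eq_of_le_of_card_ge hEle (by rw [hE4, hcard])
  rw [← heq] at hz
  exact hz.2

/-- Squares are central. -/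
theorem sq_mem_center (a : T) : a * a ∈ Subgroup.center T := by
  rw [Subgroup.mem_center_iff]
  intro g
  have hc := Subgroup.mem_center_iff.mp (comm_mem_center ρ h3 hfp hT hna a g)
  have hz := center_sq ρ h3 hfp hT hna _ (comm_mem_center ρ h3 hfp hT hna a g)
  have h1 : a * g = ⁅a, g⁆ * (g * a) := by
    simp only [commutatorElement_def]
    group
  calc g * (a * a) = ⁅a, g⁆ * ⁅a, g⁆ * (g * (a * a)) := by rw [hz, one_mul]
    _ = ⁅a, g⁆ * (⁅a, g⁆ * (g * a)) * a := by simp only [mul_assoc]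
    _ = ⁅a, g⁆ * (a * g) * a := by rw [← h1]
    _ = (⁅a, g⁆ * a) * (g * a) := by simp only [mul_assoc]
    _ = (a * ⁅a, g⁆) * (g * a) := by rw [hc a]
    _ = a * (⁅a, g⁆ * (g * a)) := by simp only [mul_assoc]
    _ = a * (a * g) := by rw [← h1]
    _ = a * a * g := by simp only [mul_assoc]

/-- The square of a product. -/
theorem sq_mul (a b : T) : (a * b) * (a * b) = (a * a) * (b * b) * ⁅b, a⁆ := by
  have hc := Subgroup.mem_center_iff.mp (comm_mem_center ρ h3 hfp hT hna b a)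
  have h1 : b * a = ⁅b, a⁆ * (a * b) := by
    simp only [commutatorElement_def]
    group
  calc (a * b) * (a * b) = a * (b * a) * b := by simp only [mul_assoc]
    _ = a * (⁅b, a⁆ * (a * b)) * b := by rw [← h1]
    _ = (a * ⁅b, a⁆) * (a * b) * b := by simp only [mul_assoc]
    _ = (⁅b, a⁆ * a) * (a * b) * b := by rw [hc a]
    _ = ⁅b, a⁆ * ((a * a) * (b * b)) := by simp only [mul_assoc]
    _ = (a * a) * (b * b) * ⁅b, a⁆ := by rw [hc]

/-- The orbit structure on the centre. -/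
theorem center_orbit (z w : T) (hz : z ∈ Subgroup.center T) (hw : w ∈ Subgroup.center T) (hz1 : z ≠ 1)
    (hw1 : w ≠ 1) : w = z ∨ w = ρ z ∨ w = ρ (ρ z) := by
  classical
  by_contra hcon
  push Not at hcon
  obtain ⟨h1, h4, h5⟩ := hcon
  have hcard := card_center ρ h3 hfp hT hna
  have hz' := center_inv ρ h3 hfp hT hna z hz
  have hz'' := center_inv ρ h3 hfp hT hna _ hz'
  have hne1 : z ≠ ρ z := fun h => hz1 (hfp z h.symm)
  have hne2 : ρ z ≠ ρ (ρ z) := fun h => hne1 (ρ.injective h)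
  have hne3 : z ≠ ρ (ρ z) := fun h => by
    apply hz1
    apply hfp z
    have h6 : ρ z = ρ (ρ (ρ z)) := by rw [← h]
    rw [h3] at h6
    exact h6
  have hr1 : ρ z ≠ 1 := fun h => hz1 (ρ.injective (by rw [h, map_one]))
  have hr2 : ρ (ρ z) ≠ 1 := fun h => hr1 (ρ.injective (by rw [h, map_one]))
  let S : Finset T := {1, z, ρ z, ρ (ρ z), w}
  have hS : S.card = 5 := by
    rw [Finset.card_insert_of_notMem, Finset.card_insert_of_notMem, Finset.card_insert_of_notMem,
      Finset.card_pair (Ne.symm h5)]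
    · simp only [Finset.mem_insert, Finset.mem_singleton]
      push Not
      exact ⟨hne2, Ne.symm h4⟩
    · simp only [Finset.mem_insert, Finset.mem_singleton]
      push Not
      exact ⟨hne1, hne3, Ne.symm h1⟩
    · simp only [Finset.mem_insert, Finset.mem_singleton]
      push Not
      exact ⟨Ne.symm hz1, Ne.symm hr1, Ne.symm hr2, Ne.symm hw1⟩
  have hsub : (S : Set T) ⊆ (Subgroup.center T : Set T) := by
    intro x hx
    simp only [S, Finset.coe_insert, Finset.coe_singleton, Set.mem_insert_iff, Set.mem_singleton_iff] at hx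
    rcases hx with rfl | rfl | rfl | rfl | rfl
    · exact Subgroup.one_mem _
    · exact hz
    · exact hz'
    · exact hz''
    · exact hw
  haveI : Fintype T := Fintype.ofFinite T
  have h6 : S ⊆ Finset.univ.filter (· ∈ Subgroup.center T) := by
    intro x hx
    exact Finset.mem_filter.mpr ⟨Finset.mem_univ _, hsub hx⟩
  have h7 := Finset.card_le_card h6
  have h8 : (Finset.univ.filter (· ∈ Subgroup.center T)).card = Nat.card (Subgroup.center T) := by
    rw [Nat.card_eq_fintype_card, Fintype.card_subtype]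
  omega

end facts


theorem central_sq_aux {T : Type*} [Group T] (P V : T) (hV : ∀ g, g * V = V * g) :
    P * V * (P * V) = P * P * (V * V) := by
  calc P * V * (P * V) = P * (V * P) * V := by simp only [mul_assoc]
    _ = P * (P * V) * V := by rw [hV P]
    _ = P * P * (V * V) := by simp only [mul_assoc]

section invol

variable {T : Type*} [Group T] [Finite T] (ρ : T ≃* T)
  (h3 : ∀ x, ρ (ρ (ρ x)) = x) (hfp : ∀ y, ρ y = y → y = 1)
  (hT : Nat.card T = 64) (hna : ¬ IsMulCommutative T)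
  (x : T ≃* T) (hx2 : ∀ y, x (x y) = y) (hxr : ∀ y, x (ρ y) = ρ (ρ (x y)))
include h3 hfp hT hna

theorem comm_rho_right (u t : T) : ⁅u, ρ t⁆ = ρ (ρ ⁅u, t⁆) := by
  rw [map_commutatorElement, map_commutatorElement]
  exact fpf_J3 ρ h3 hfp u (ρ t)

theorem comm_rho_right2 (u t : T) : ⁅u, ρ (ρ t)⁆ = ρ ⁅u, t⁆ := by
  rw [map_commutatorElement]
  have h1 := fpf_J3 ρ h3 hfp u (ρ (ρ t))
  rw [h3] at h1
  rw [h1]
  exact fpf_adj ρ h3 hfp (ρ u) t

/-- The product of an orbit of an element of the centre. -/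
theorem center_prod (z : T) : z * ρ (ρ z) = (ρ z)⁻¹ := by
  have h1 := fpf_norm ρ h3 hfp z
  have h4 := fpf_comm ρ h3 hfp z
  rw [h4, mul_assoc] at h1
  exact eq_inv_of_mul_eq_one_right h1

include hx2 hxr

theorem exists_fixed_center :
    ∃ c₀, c₀ ∈ Subgroup.center T ∧ c₀ ≠ 1 ∧ x c₀ = c₀ ∧ ∀ z ∈ Subgroup.center T, x z = z → z = 1 ∨ z = c₀ := by
  classical
  have hcard := card_center ρ h3 hfp hT hna
  have hxZ : ∀ z ∈ Subgroup.center T, x z ∈ Subgroup.center T := by
    intro z hz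
    rw [Subgroup.mem_center_iff] at hz ⊢
    intro g
    obtain ⟨h, rfl⟩ := x.surjective g
    rw [← map_mul, ← map_mul, hz]
  obtain ⟨z₁, hz₁⟩ : ∃ z₁ : Subgroup.center T, z₁ ≠ 1 := by
    haveI : Nontrivial (Subgroup.center T) := Finite.one_lt_card_iff_nontrivial.mp (by rw [hcard]; norm_num)
    exact exists_ne 1
  have hz₁' : z₁.1 ≠ 1 := fun h => hz₁ (Subtype.ext h)
  have hx1 : x z₁.1 ≠ 1 := fun h => hz₁' (x.injective (by rw [h, map_one]))
  have key : ∃ c₀, c₀ ∈ Subgroup.center T ∧ c₀ ≠ 1 ∧ x c₀ = c₀ := by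
    rcases center_orbit ρ h3 hfp hT hna z₁.1 (x z₁.1) z₁.2 (hxZ _ z₁.2) hz₁' hx1 with h | h | h
    · exact ⟨z₁.1, z₁.2, hz₁', h⟩
    · refine ⟨ρ (ρ z₁.1), center_inv ρ h3 hfp hT hna _ (center_inv ρ h3 hfp hT hna _ z₁.2), ?_, ?_⟩
      · intro h0
        apply hz₁'
        have : ρ z₁.1 = 1 := ρ.injective (by rw [h0, map_one])
        exact ρ.injective (by rw [this, map_one])
      · rw [hxr, hxr, h, h3]
    · refine ⟨ρ z₁.1, center_inv ρ h3 hfp hT hna _ z₁.2, ?_, ?_⟩
      · intro h0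
        apply hz₁'
        exact ρ.injective (by rw [h0, map_one])
      · rw [hxr, h, h3]
  obtain ⟨c₀, hc, hc1, hcx⟩ := key
  refine ⟨c₀, hc, hc1, hcx, fun z hz hxz => ?_⟩
  by_contra hcon
  push Not at hcon
  obtain ⟨hz1, hzc⟩ := hcon
  have hne : ρ c₀ ≠ c₀ := fun h => hc1 (hfp _ h)
  rcases center_orbit ρ h3 hfp hT hna c₀ z hc hz hc1 hz1 with h | h | h
  · exact hzc h
  · rw [h, hxr, hcx] at hxz
    exact hne (ρ.injective hxz)
  · rw [h, hxr, hxr, hcx, h3] at hxz
    exact hne (ρ.injective hxz).symm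

/-- The subgroup of elements fixed modulo the centre. -/
theorem exists_W : ∃ W : Subgroup T, (∀ t, t ∈ W ↔ t * x t ∈ Subgroup.center T) ∧ Subgroup.center T ≤ W ∧
    4 ≤ Nat.card (W.map (QuotientGroup.mk' (Subgroup.center T))) := by
  classical
  have hcard := card_center ρ h3 hfp hT hna
  have hcomm : ∀ a b : T, ⁅a, b⁆ ∈ Subgroup.center T := comm_mem_center ρ h3 hfp hT hna
  have hsq : ∀ a : T, a * a ∈ Subgroup.center T := sq_mem_center ρ h3 hfp hT hna
  let q : T →* T ⧸ Subgroup.center T := QuotientGroup.mk' _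
  have hqcomm : ∀ u v : T ⧸ Subgroup.center T, u * v = v * u := by
    intro u v
    obtain ⟨s, rfl⟩ := QuotientGroup.mk_surjective u
    obtain ⟨t, rfl⟩ := QuotientGroup.mk_surjective v
    rw [← QuotientGroup.mk_mul, ← QuotientGroup.mk_mul, QuotientGroup.eq]
    have h1 : (s * t)⁻¹ * (t * s) = ⁅t⁻¹, s⁻¹⁆ := by
      simp only [commutatorElement_def]
      group
    rw [h1]
    exact hcomm _ _
  let Φ : T →* T ⧸ Subgroup.center T :=
    { toFun := fun t => q (t * x t)
      map_one' := by simp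
      map_mul' := fun s t => by
        have h1 : q (s * t * x (s * t)) = q s * q t * (q (x s) * q (x t)) := by
          simp only [map_mul]
        have h4 : q (s * x s) * q (t * x t) = q s * q (x s) * (q t * q (x t)) := by
          simp only [map_mul]
        show q (s * t * x (s * t)) = q (s * x s) * q (t * x t)
        rw [h1, h4, mul_assoc, mul_assoc, ← mul_assoc (q t), hqcomm (q t), mul_assoc (q (x s))] }
  have hker : ∀ t, t ∈ Φ.ker ↔ t * x t ∈ Subgroup.center T := by
    intro t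
    rw [MonoidHom.mem_ker]
    exact QuotientGroup.eq_one_iff _
  have hxZ : ∀ z ∈ Subgroup.center T, x z ∈ Subgroup.center T := by
    intro z hz
    rw [Subgroup.mem_center_iff] at hz ⊢
    intro g
    obtain ⟨h, rfl⟩ := x.surjective g
    rw [← map_mul, ← map_mul, hz]
  have hZker : Subgroup.center T ≤ Φ.ker := by
    intro z hz
    rw [hker]
    exact Subgroup.mul_mem _ hz (hxZ z hz)
  have hrange : Φ.range ≤ Φ.ker.map q := by
    rintro _ ⟨t, rfl⟩
    refine ⟨t * x t, ?_, rfl⟩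
    show t * x t ∈ Φ.ker
    rw [hker, map_mul, hx2]
    have h1 : t * x t * (x t * t) = (x t * x t) * (t * t) := by
      have h4 := Subgroup.mem_center_iff.mp (hsq (x t)) t
      calc t * x t * (x t * t) = t * (x t * x t) * t := by simp only [mul_assoc]
        _ = (x t * x t) * t * t := by rw [h4]
        _ = _ := by simp only [mul_assoc]
    rw [h1]
    exact Subgroup.mul_mem _ (hsq _) (hsq _)
  -- the counting
  have hcardm : Nat.card Φ.ker = Nat.card (Φ.ker.map q) * 4 := by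
    let g : Φ.ker →* T ⧸ Subgroup.center T := q.comp Φ.ker.subtype
    have hg := Subgroup.card_mul_index g.ker
    rw [Subgroup.index_ker] at hg
    have hgr : g.range = Φ.ker.map q := by
      rw [MonoidHom.range_comp, Subgroup.range_subtype]
    have hgk : Nat.card g.ker = 4 := by
      rw [← hcard]
      apply Nat.card_congr
      exact
        { toFun := fun y => ⟨y.1.1, (QuotientGroup.eq_one_iff _).1 y.2⟩
          invFun := fun z => ⟨⟨z.1, hZker z.2⟩, (QuotientGroup.eq_one_iff _).2 z.2⟩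
          left_inv := fun y => rfl
          right_inv := fun z => rfl }
    rw [hgr, hgk] at hg
    rw [← hg]
    ring
  have hm : 4 ≤ Nat.card (Φ.ker.map q) := by
    have h1 := Subgroup.card_mul_index Φ.ker
    rw [Subgroup.index_ker, hT, hcardm] at h1
    have h4 : Nat.card Φ.range ≤ Nat.card (Φ.ker.map q) := Subgroup.card_le_of_le hrange
    by_contra hlt
    push Not at hlt
    have h5 : Nat.card (Φ.ker.map q) * 4 * Nat.card Φ.range ≤ 3 * 4 * 3 :=
      Nat.mul_le_mul (Nat.mul_le_mul_right _ (by omega)) (by omega)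
    omega
  exact ⟨Φ.ker, hker, hZker, hm⟩

/-- There are involutions outside the centre. -/
theorem exists_singular : ∃ a, a ∉ Subgroup.center T ∧ a * a = 1 := by
  classical
  have hcard := card_center ρ h3 hfp hT hna
  obtain ⟨c₀, hc, hc1, hcx, hcu⟩ := exists_fixed_center ρ h3 hfp hT hna x hx2 hxr
  have hsq : ∀ a : T, a * a ∈ Subgroup.center T := sq_mem_center ρ h3 hfp hT hna
  have hz2 : ∀ z ∈ Subgroup.center T, z * z = 1 := center_sq ρ h3 hfp hT hna
  obtain ⟨W, hker, hZker, hm⟩ := exists_W ρ h3 hfp hT hna x hx2 hxr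
  let q : T →* T ⧸ Subgroup.center T := QuotientGroup.mk' _
  replace hm : 4 ≤ Nat.card (W.map q) := hm
  -- two independent elements
  obtain ⟨w₁, hw₁, w₂, hw₂, hw₁Z, hw₂Z, hw₁₂⟩ : ∃ w₁ ∈ W, ∃ w₂ ∈ W, q w₁ ≠ 1 ∧ q w₂ ≠ 1 ∧ q w₁ ≠ q w₂ := by
    haveI : Fintype (W.map q) := Fintype.ofFinite _
    have h1 : 2 < (Finset.univ : Finset (W.map q)).card := by
      rw [Finset.card_univ, ← Nat.card_eq_fintype_card]
      omega
    obtain ⟨u, v, t, -, -, -, huv, hut, hvt⟩ := Finset.two_lt_card_iff.mp h1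
    have hlift : ∀ y : W.map q, ∃ w ∈ W, q w = y.1 := fun y => y.2
    rcases eq_or_ne u.1 1 with hu | hu
    · obtain ⟨w₁, h1, h4⟩ := hlift v
      obtain ⟨w₂, h5, h6⟩ := hlift t
      refine ⟨w₁, h1, w₂, h5, ?_, ?_, ?_⟩
      · rw [h4]
        intro h
        exact huv (Subtype.ext (by rw [hu, h]))
      · rw [h6]
        intro h
        exact hut (Subtype.ext (by rw [hu, h]))
      · rw [h4, h6]
        intro h
        exact hvt (Subtype.ext h)
    · rcases eq_or_ne v.1 1 with hv | hv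
      · obtain ⟨w₁, h1, h4⟩ := hlift u
        obtain ⟨w₂, h5, h6⟩ := hlift t
        refine ⟨w₁, h1, w₂, h5, ?_, ?_, ?_⟩
        · rw [h4]
          exact hu
        · rw [h6]
          intro h
          exact hvt (Subtype.ext (by rw [hv, h]))
        · rw [h4, h6]
          intro h
          exact hut (Subtype.ext h)
      · obtain ⟨w₁, h1, h4⟩ := hlift u
        obtain ⟨w₂, h5, h6⟩ := hlift v
        refine ⟨w₁, h1, w₂, h5, ?_, ?_, ?_⟩
        · rw [h4]
          exact hu
        · rw [h6]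
          exact hv
        · rw [h4, h6]
          intro h
          exact huv (Subtype.ext h)
  have hqZ : ∀ t, q t = 1 ↔ t ∈ Subgroup.center T := fun t => QuotientGroup.eq_one_iff t
  have hw₁Z' : w₁ ∉ Subgroup.center T := fun h => hw₁Z ((hqZ _).2 h)
  have hw₂Z' : w₂ ∉ Subgroup.center T := fun h => hw₂Z ((hqZ _).2 h)
  -- squares of the elements of the kernel
  have hsqW : ∀ w ∈ W, w * w = 1 ∨ w * w = c₀ := by
    intro w hw
    apply hcu _ (hsq w)
    rw [hker] at hw
    -- `x w = w z`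
    obtain ⟨z, hzZ, hz⟩ : ∃ z ∈ Subgroup.center T, x w = w * z := by
      refine ⟨w⁻¹ * x w, ?_, by group⟩
      have h1 : w⁻¹ * x w = (w * w)⁻¹ * (w * x w) := by group
      rw [h1]
      exact Subgroup.mul_mem _ (Subgroup.inv_mem _ (hsq w)) hw
    rw [map_mul, hz]
    have h4 := Subgroup.mem_center_iff.mp hzZ w
    calc w * z * (w * z) = (w * (z * w)) * z := by simp only [mul_assoc]
      _ = (w * (w * z)) * z := by rw [h4]
      _ = w * w * (z * z) := by simp only [mul_assoc]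
      _ = w * w := by rw [hz2 z hzZ, mul_one]
  by_contra hcon
  push Not at hcon
  have hno : ∀ a, a * a = 1 → a ∈ Subgroup.center T := by
    intro a ha
    by_contra h
    exact hcon a h ha
  have hs1 : w₁ * w₁ = c₀ := by
    rcases hsqW w₁ hw₁ with h | h
    · exact absurd (hno _ h) hw₁Z'
    · exact h
  have hs2 : w₂ * w₂ = c₀ := by
    rcases hsqW w₂ hw₂ with h | h
    · exact absurd (hno _ h) hw₂Z'
    · exact h
  have hw12 : w₁ * w₂ ∉ Subgroup.center T := by
    intro h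
    apply hw₁₂
    have h1 := (hqZ _).2 h
    rw [map_mul] at h1
    have h4 : q w₂ * q w₂ = 1 := by
      rw [← map_mul, hs2]
      exact (hqZ _).2 hc
    calc q w₁ = q w₁ * q w₂ * q w₂ := by rw [mul_assoc, h4, mul_one]
      _ = q w₂ := by rw [h1, one_mul]
  have hs12 : (w₁ * w₂) * (w₁ * w₂) = c₀ := by
    rcases hsqW _ (Subgroup.mul_mem _ hw₁ hw₂) with h | h
    · exact absurd (hno _ h) hw12
    · exact h
  rw [sq_mul ρ h3 hfp hT hna, hs1, hs2, hz2 c₀ hc, one_mul] at hs12
  -- the element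
  have hv2 : (ρ w₁ * w₂) * (ρ w₁ * w₂) = 1 := by
    rw [sq_mul ρ h3 hfp hT hna, ← map_mul, hs1, hs2, comm_rho_right ρ h3 hfp hT hna, hs12]
    have h1 := fpf_norm ρ h3 hfp c₀
    have h4 := fpf_comm ρ h3 hfp c₀
    rw [← h4]
    exact h1
  have hv := hno _ hv2
  have h5 : c₀ = ρ c₀ := by
    have h6 : w₂ = (ρ w₁)⁻¹ * (ρ w₁ * w₂) := by group
    have h7 := Subgroup.mem_center_iff.mp hv
    calc c₀ = w₂ * w₂ := hs2.symm
      _ = (ρ w₁)⁻¹ * (ρ w₁ * w₂) * ((ρ w₁)⁻¹ * (ρ w₁ * w₂)) := by rw [← h6]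
      _ = (ρ w₁)⁻¹ * (ρ w₁)⁻¹ * ((ρ w₁ * w₂) * (ρ w₁ * w₂)) := central_sq_aux _ _ h7
      _ = ((ρ w₁) * (ρ w₁))⁻¹ := by
        rw [hv2, mul_one, mul_inv_rev]
      _ = (ρ (w₁ * w₁))⁻¹ := by rw [map_mul]
      _ = ρ c₀ := by
        rw [hs1]
        have h8 := hz2 _ (center_inv ρ h3 hfp hT hna c₀ hc)
        exact inv_eq_of_mul_eq_one_left h8
  exact hc1 (hfp c₀ h5.symm)

end invol

section field4

/-- The field with four elements. -/
inductive F4 : Type
  | o | e | w | v
  deriving DecidableEq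

namespace F4

instance : Fintype F4 := ⟨{o, e, w, v}, by intro x; cases x <;> simp⟩

def add : F4 → F4 → F4
  | o, y => y
  | x, o => x
  | e, e => o
  | e, w => v
  | e, v => w
  | w, e => v
  | w, w => o
  | w, v => e
  | v, e => w
  | v, w => e
  | v, v => o

def mul : F4 → F4 → F4
  | o, _ => o
  | _, o => o
  | e, y => y
  | x, e => x
  | w, w => v
  | w, v => e
  | v, w => e
  | v, v => w

def inv : F4 → F4
  | o => o
  | e => e
  | w => v
  | v => w

instance : Add F4 := ⟨add⟩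
instance : Zero F4 := ⟨o⟩
instance : One F4 := ⟨e⟩
instance : Mul F4 := ⟨mul⟩
instance : Neg F4 := ⟨id⟩
instance : Sub F4 := ⟨add⟩

instance : CommRing F4 where
  add_assoc := by decide
  zero_add := by decide
  add_zero := by decide
  add_comm := by decide
  neg_add_cancel := by decide
  mul_assoc := by decide
  one_mul := by decide
  mul_one := by decide
  left_distrib := by decide
  right_distrib := by decide
  zero_mul := by decide
  mul_zero := by decide
  mul_comm := by decide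
  nsmul := nsmulRec
  zsmul := zsmulRec
  sub_eq_add_neg := by decide

instance : Field F4 where
  inv := inv
  exists_pair_ne := ⟨o, e, by decide⟩
  mul_inv_cancel := by decide
  inv_zero := rfl
  nnqsmul := _
  qsmul := _

theorem card_eq : Fintype.card F4 = 4 := rfl

theorem card_eq' : Nat.card F4 = 4 := by
  rw [Nat.card_eq_fintype_card, card_eq]

end F4

open F4

/-- Functions on `𝔽₄`. -/
def tri {T : Type*} [One T] (a b c : T) : F4 → T
  | o => 1
  | e => a
  | w => b
  | v => c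

theorem tri_add {T : Type*} [Group T] {a b c : T} (hab : a * b = c) (hba : b * a = c)
    (hac : a * c = b) (hca : c * a = b) (hbc : b * c = a) (hcb : c * b = a)
    (ha : a * a = 1) (hb : b * b = 1) (hc : c * c = 1) (x y : F4) :
    tri a b c (x + y) = tri a b c x * tri a b c y := by
  cases x <;> cases y <;> first
    | exact (one_mul _).symm
    | exact (mul_one _).symm
    | exact ha.symm
    | exact hb.symm
    | exact hc.symm
    | exact hab.symm
    | exact hba.symm
    | exact hac.symm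
    | exact hca.symm
    | exact hbc.symm
    | exact hcb.symm

end field4

section unimat

/-- The unitriangular matrices. -/
def uniMat (α β γ : F4) : Matrix (Fin 3) (Fin 3) F4 := !![1, α, γ; 0, 1, β; 0, 0, 1]

theorem uniMat_mul (α β γ α' β' γ' : F4) :
    uniMat α β γ * uniMat α' β' γ' = uniMat (α + α') (β + β') (γ + γ' + α * β') := by
  ext i j
  fin_cases i <;> fin_cases j <;> simp [uniMat, Matrix.mul_apply, Fin.sum_univ_three] <;> ring

theorem uniMat_det (α β γ : F4) : (uniMat α β γ).det = 1 := by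
  rw [Matrix.det_fin_three]
  simp [uniMat]

/-- The unitriangular matrices as elements of the special linear group. -/
def uni (α β γ : F4) : Matrix.SpecialLinearGroup (Fin 3) F4 := ⟨uniMat α β γ, uniMat_det α β γ⟩

theorem uni_mul (α β γ α' β' γ' : F4) :
    uni α β γ * uni α' β' γ' = uni (α + α') (β + β') (γ + γ' + α * β') :=
  Subtype.ext (uniMat_mul _ _ _ _ _ _)

theorem uni_one : uni 0 0 0 = 1 := by
  apply Subtype.ext
  ext i j
  fin_cases i <;> fin_cases j <;> simp [uni, uniMat]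

theorem uni_inj {α β γ α' β' γ' : F4} (h : uni α β γ = uni α' β' γ') : α = α' ∧ β = β' ∧ γ = γ' := by
  have h1 : uniMat α β γ = uniMat α' β' γ' := congrArg Subtype.val h
  refine ⟨?_, ?_, ?_⟩
  · have := congrFun (congrFun h1 0) 1
    simpa [uniMat] using this
  · have := congrFun (congrFun h1 1) 2
    simpa [uniMat] using this
  · have := congrFun (congrFun h1 0) 2
    simpa [uniMat] using this

/-- The unitriangular group. -/
def uniSub : Subgroup (Matrix.SpecialLinearGroup (Fin 3) F4) where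
  carrier := {M | ∃ α β γ, M = uni α β γ}
  mul_mem' := by
    rintro _ _ ⟨α, β, γ, rfl⟩ ⟨α', β', γ', rfl⟩
    exact ⟨_, _, _, uni_mul _ _ _ _ _ _⟩
  one_mem' := ⟨0, 0, 0, uni_one.symm⟩
  inv_mem' := by
    rintro _ ⟨α, β, γ, rfl⟩
    refine ⟨α, β, γ + α * β, ?_⟩
    apply inv_eq_of_mul_eq_one_right
    rw [uni_mul, ← uni_one]
    congr 1
    · revert α; decide
    · revert β; decide
    · revert α β γ; decide

theorem card_uniSub : Nat.card uniSub = 64 := by
  have e : (F4 × F4 × F4) ≃ uniSub := Equiv.ofBijective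
    (fun p => ⟨uni p.1 p.2.1 p.2.2, _, _, _, rfl⟩)
    ⟨fun p p' h => by
        obtain ⟨h1, h4, h5⟩ := uni_inj (congrArg Subtype.val h)
        exact Prod.ext h1 (Prod.ext h4 h5),
      by
        rintro ⟨_, α, β, γ, rfl⟩
        exact ⟨(α, β, γ), rfl⟩⟩
  rw [← Nat.card_congr e, Nat.card_prod, Nat.card_prod, F4.card_eq']

theorem card_sl3 : Nat.card (Matrix.SpecialLinearGroup (Fin 3) F4) = 60480 := by
  have h := Cfsg.Agent.Lib.Classical.card_GL_eq_mul_card_SL (F := F4) (Fin 3)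
  rw [Matrix.card_GL_field, Fin.prod_univ_three, Nat.card_eq_fintype_card (α := F4), F4.card_eq] at h
  norm_num at h
  rw [Nat.card_eq_fintype_card]
  omega

/-- The image of the unitriangular group is a Sylow subgroup of `PSL₃(𝔽₄)`. -/
theorem exists_sylow_psl :
    ∃ S : Sylow 2 (Matrix.ProjectiveSpecialLinearGroup (Fin 3) F4),
      Nonempty (uniSub ≃* ↥(S : Subgroup (Matrix.ProjectiveSpecialLinearGroup (Fin 3) F4))) := by
  classical
  haveI : Fact (Nat.Prime 2) := ⟨Nat.prime_two⟩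
  let π : Matrix.SpecialLinearGroup (Fin 3) F4 →* Matrix.ProjectiveSpecialLinearGroup (Fin 3) F4 :=
    QuotientGroup.mk' _
  let ι : uniSub →* Matrix.ProjectiveSpecialLinearGroup (Fin 3) F4 := π.comp uniSub.subtype
  have hinj : Function.Injective ι := by
    rw [injective_iff_map_eq_one]
    rintro ⟨_, α, β, γ, rfl⟩ h
    have h1 : uni α β γ ∈ Subgroup.center (Matrix.SpecialLinearGroup (Fin 3) F4) :=
      (QuotientGroup.eq_one_iff _).1 h
    rw [Matrix.SpecialLinearGroup.mem_center_iff] at h1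
    obtain ⟨r, -, hr⟩ := h1
    have hm : Matrix.scalar (Fin 3) r = uniMat α β γ := hr
    have h00 := congrFun (congrFun hm 0) 0
    have h01 := congrFun (congrFun hm 0) 1
    have h12 := congrFun (congrFun hm 1) 2
    have h02 := congrFun (congrFun hm 0) 2
    simp [uniMat] at h00 h01 h12 h02
    apply Subtype.ext
    show uni α β γ = 1
    rw [← h01, ← h12, ← h02]
    exact uni_one
  have hcard : Nat.card ι.range = 64 := by
    rw [← Nat.card_congr (MonoidHom.ofInjective hinj).toEquiv]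
    exact card_uniSub
  have hp : IsPGroup 2 ι.range := IsPGroup.of_card (n := 6) (by rw [hcard]; norm_num)
  obtain ⟨Q, hQ⟩ := hp.exists_le_sylow
  obtain ⟨k, hk⟩ := (Q.isPGroup').exists_card_eq
  have hd : Nat.card (Q : Subgroup (Matrix.ProjectiveSpecialLinearGroup (Fin 3) F4)) ∣ 60480 := by
    have h1 := Subgroup.card_subgroup_dvd_card (Q : Subgroup (Matrix.ProjectiveSpecialLinearGroup (Fin 3) F4))
    have h4 : Nat.card (Matrix.ProjectiveSpecialLinearGroup (Fin 3) F4) ∣ 60480 := by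
      rw [← card_sl3]
      have := Subgroup.card_eq_card_quotient_mul_card_subgroup
        (Subgroup.center (Matrix.SpecialLinearGroup (Fin 3) F4))
      exact ⟨_, this⟩
    exact h1.trans h4
  have hk6 : k ≤ 6 := by
    by_contra hlt
    push Not at hlt
    have h7 : 2 ^ 7 ∣ 2 ^ k := pow_dvd_pow 2 hlt
    rw [hk] at hd
    have := h7.trans hd
    norm_num at this
  have hcQ : Nat.card (Q : Subgroup (Matrix.ProjectiveSpecialLinearGroup (Fin 3) F4)) ≤ 64 := by
    rw [hk]
    calc 2 ^ k ≤ 2 ^ 6 := Nat.pow_le_pow_right (by norm_num) hk6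
      _ = 64 := by norm_num
  have heq : ι.range = Q := Subgroup.eq_of_le_of_card_ge hQ (by rw [hcard]; exact hcQ)
  refine ⟨Q, ⟨?_⟩⟩
  rw [← heq]
  exact MonoidHom.ofInjective hinj

end unimat

section order8

/-- Non-abelian groups of order eight. -/
theorem d8_or_q8 {G : Type*} [Group G] [Finite G] (hG : Nat.card G = 8) (hnc : ¬ ∀ x y : G, x * y = y * x) :
    Nonempty (G ≃* DihedralGroup 4) ∨ Nonempty (G ≃* QuaternionGroup 2) := by
  classical
  haveI : Fact (Nat.Prime 2) := ⟨Nat.prime_two⟩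
  -- an element of order four
  obtain ⟨r, hr⟩ : ∃ r : G, orderOf r = 4 := by
    by_contra hcon
    push Not at hcon
    apply hnc
    have hord : ∀ g : G, g ^ 2 = 1 := by
      intro g
      have h1 : orderOf g ∣ 8 := by
        rw [← hG]
        exact orderOf_dvd_natCard g
      have h8 : orderOf g ≠ 8 := by
        intro h
        apply hnc
        haveI : IsCyclic G := isCyclic_of_orderOf_eq_card g (by rw [h, hG])
        exact fun a b => mul_comm' a b
      have h4 := hcon g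
      have h5 := Nat.le_of_dvd (by norm_num) h1
      have h6 : orderOf g ∣ 2 := by
        generalize orderOf g = m at *
        interval_cases m <;> first | omega | norm_num at h1 ⊢
      exact orderOf_dvd_iff_pow_eq_one.mp h6
    intro a b
    have hinv : ∀ g : G, g⁻¹ = g := fun g => inv_eq_of_mul_eq_one_left (by rw [← pow_two, hord])
    have h1 := hinv (a * b)
    rw [mul_inv_rev, hinv, hinv] at h1
    exact h1.symm
  have hH : Nat.card (Subgroup.zpowers r) = 4 := by rw [Nat.card_zpowers, hr]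
  have hidx : (Subgroup.zpowers r).index = 2 := by
    have h1 := Subgroup.card_mul_index (Subgroup.zpowers r)
    rw [hH, hG] at h1
    omega
  haveI hnorm : (Subgroup.zpowers r).Normal := Subgroup.normal_of_index_eq_two hidx
  obtain ⟨σ, hσ⟩ : ∃ σ : G, σ ∉ Subgroup.zpowers r := by
    by_contra hcon
    push Not at hcon
    have h1 : Subgroup.zpowers r = ⊤ := by
      ext g
      simp [hcon g]
    rw [h1, Subgroup.card_top, hG] at hH
    omega
  have hmemiff : ∀ g : G, g ∈ Subgroup.zpowers r → ∃ k, k < 4 ∧ g = r ^ k := by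
    intro g hg
    rw [Subgroup.mem_zpowers_iff] at hg
    obtain ⟨k, rfl⟩ := hg
    refine ⟨(k % 4).toNat, ?_, ?_⟩
    · omega
    · have h1 : r ^ k = r ^ (k % 4) := by
        have h0 := zpow_mod_orderOf r k
        rw [hr] at h0
        exact h0.symm
      rw [h1]
      have h4 : (0 : ℤ) ≤ k % 4 := Int.emod_nonneg _ (by norm_num)
      conv_lhs => rw [← Int.toNat_of_nonneg h4]
      rw [zpow_natCast]
  have hr4 : r ^ 4 = 1 := by rw [← hr]; exact pow_orderOf_eq_one r
  have hinvr : r⁻¹ = r ^ 3 := by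
    apply inv_eq_of_mul_eq_one_right
    rw [← pow_succ', hr4]
  have hr2 : r ^ 2 ≠ 1 := by
    intro h
    have := orderOf_dvd_of_pow_eq_one h
    rw [hr] at this
    norm_num at this
  -- the action of σ
  have hσr : σ * r * σ⁻¹ = r⁻¹ := by
    have h1 := hnorm.conj_mem r (Subgroup.mem_zpowers r) σ
    obtain ⟨k, hk, hk2⟩ := hmemiff _ h1
    have hord : orderOf (σ * r * σ⁻¹) = 4 := by
      rw [← hr]
      have : σ * r * σ⁻¹ = MulAut.conj σ r := rfl
      rw [this]
      exact MulEquiv.orderOf_eq _ _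
    rw [hk2] at hord
    interval_cases k
    · simp at hord
    · -- commutes: contradiction
      exfalso
      rw [pow_one] at hk2
      apply hnc
      have hcomm : ∀ g : G, g * r = r * g := by
        intro g
        by_cases hg : g ∈ Subgroup.zpowers r
        · obtain ⟨l, -, rfl⟩ := hmemiff g hg
          exact ((Commute.refl r).pow_left l)
        · have h4 : σ⁻¹ * g ∈ Subgroup.zpowers r := by
            rw [Subgroup.mul_mem_iff_of_index_two hidx]
            simp [hσ, hg]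
          obtain ⟨l, -, hl⟩ := hmemiff _ h4
          have hg' : g = σ * r ^ l := by
            rw [← hl]
            group
          have hσc : σ * r = r * σ := by
            rw [mul_inv_eq_iff_eq_mul] at hk2
            exact hk2
          rw [hg', mul_assoc, ((Commute.refl r).pow_left l).eq, ← mul_assoc, hσc, mul_assoc]
      have hform : ∀ g : G, (∃ l, g = r ^ l) ∨ (∃ l, g = σ * r ^ l) := by
        intro g
        by_cases hg : g ∈ Subgroup.zpowers r
        · obtain ⟨l, -, hl⟩ := hmemiff g hg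
          exact Or.inl ⟨l, hl⟩
        · have h4 : σ⁻¹ * g ∈ Subgroup.zpowers r := by
            rw [Subgroup.mul_mem_iff_of_index_two hidx]
            simp [hσ, hg]
          obtain ⟨l, -, hl⟩ := hmemiff _ h4
          exact Or.inr ⟨l, by rw [← hl]; group⟩
      have hcp : ∀ (g : G) (l : ℕ), g * r ^ l = r ^ l * g := fun g l =>
        (Commute.pow_right (show Commute g r from hcomm g) l).eq
      intro a b
      rcases hform a with ⟨l, rfl⟩ | ⟨l, rfl⟩ <;> rcases hform b with ⟨m, rfl⟩ | ⟨m, rfl⟩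
      · rw [hcp]
      · rw [← hcp]
      · rw [hcp]
      · calc σ * r ^ l * (σ * r ^ m) = σ * (r ^ l * σ) * r ^ m := by simp only [mul_assoc]
          _ = σ * (σ * r ^ l) * r ^ m := by rw [hcp σ l]
          _ = σ * σ * (r ^ l * r ^ m) := by simp only [mul_assoc]
          _ = σ * σ * (r ^ m * r ^ l) := by rw [← pow_add, ← pow_add, add_comm]
          _ = σ * (σ * r ^ m) * r ^ l := by simp only [mul_assoc]
          _ = σ * (r ^ m * σ) * r ^ l := by rw [hcp σ m]
          _ = σ * r ^ m * (σ * r ^ l) := by simp only [mul_assoc]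
    · exfalso
      have h5 : orderOf (r ^ 2) ∣ 2 := by
        apply orderOf_dvd_of_pow_eq_one
        rw [← pow_mul, hr4]
      rw [hord] at h5
      norm_num at h5
    · rw [hinvr]
      exact hk2
  have hσ2 : σ * σ ∈ Subgroup.zpowers r := by
    rw [← pow_two]
    exact Subgroup.sq_mem_of_index_two hidx σ
  have hσσ : σ * σ = 1 ∨ σ * σ = r ^ 2 := by
    obtain ⟨k, hk, hk2⟩ := hmemiff _ hσ2
    have h1 : σ * (σ * σ) * σ⁻¹ = σ * σ := by group
    rw [hk2, ← conj_pow, hσr, inv_pow] at h1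
    have h4 : r ^ (2 * k) = 1 := by
      rw [two_mul, pow_add]
      nth_rw 1 [← h1]
      group
    have h5 : 4 ∣ 2 * k := by
      rw [← hr]
      exact orderOf_dvd_of_pow_eq_one h4
    interval_cases k
    · left
      simpa using hk2
    · norm_num at h5
    · right
      exact hk2
    · norm_num at h5
  rcases hσσ with h | h
  · left
    exact Cfsg.Agent.Lib.TwoGroups.nonempty_mulEquiv_dihedral_of r σ hr h hσr hσ (by rw [hG])
  · right
    exact Cfsg.Agent.Lib.TwoGroups.nonempty_mulEquiv_quaternion_of r σ hr h hσr hσ (by rw [hG])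

end order8

section final

theorem rfl_tri_zero {T : Type*} [Group T] {A : F4 → T} {a b c : T} (hA : A = tri a b c) : A 0 = 1 := by
  rw [hA]; rfl

theorem comm_rel {T : Type*} [Group T] (u v z : T) (hz : ⁅u, v⁆ = z) (hzc : ∀ g, g * z = z * g)
    (hz2 : z * z = 1) : v * u = u * v * z := by
  have h1 : u * v = z * (v * u) := by
    rw [← hz]
    simp only [commutatorElement_def]
    group
  rw [h1, mul_assoc, hzc, ← mul_assoc z, hz2, one_mul]

variable {T : Type*} [Group T] [Finite T] (ρ : T ≃* T)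
  (h3 : ∀ x, ρ (ρ (ρ x)) = x) (hfp : ∀ y, ρ y = y → y = 1)
  (hT : Nat.card T = 64) (hna : ¬ IsMulCommutative T)
  (x : T ≃* T) (hx2 : ∀ y, x (x y) = y) (hxr : ∀ y, x (ρ y) = ρ (ρ (x y)))
include h3 hfp hT hna hx2 hxr

theorem fixed_group (C : Subgroup T) (hC : ∀ y : T, y ∈ C ↔ x y = y) :
    Nonempty (↥C ≃* DihedralGroup 4) ∨ Nonempty (↥C ≃* QuaternionGroup 2) := by
  classical
  obtain ⟨c₀, hc, hc1, hcx, hcu⟩ := exists_fixed_center ρ h3 hfp hT hna x hx2 hxr
  have hsq : ∀ a : T, a * a ∈ Subgroup.center T := sq_mem_center ρ h3 hfp hT hna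
  have hz2 : ∀ z ∈ Subgroup.center T, z * z = 1 := center_sq ρ h3 hfp hT hna
  obtain ⟨W, hker, hZker, hm⟩ := exists_W ρ h3 hfp hT hna x hx2 hxr
  let q : T →* T ⧸ Subgroup.center T := QuotientGroup.mk' _
  replace hm : 4 ≤ Nat.card (W.map q) := hm
  have hqZ : ∀ t, q t = 1 ↔ t ∈ Subgroup.center T := fun t => QuotientGroup.eq_one_iff t
  have hxZ : ∀ z ∈ Subgroup.center T, x z ∈ Subgroup.center T := by
    intro z hz
    rw [Subgroup.mem_center_iff] at hz ⊢
    intro g
    obtain ⟨h, rfl⟩ := x.surjective g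
    rw [← map_mul, ← map_mul, hz]
  -- injectivity of the product map
  have hprodinj : Function.Injective (fun p : C × C => p.1.1 * ρ p.2.1) := by
    rintro ⟨s, t⟩ ⟨s', t'⟩ h
    have h1 : s.1 * ρ t.1 = s'.1 * ρ t'.1 := h
    have h4 : s'.1⁻¹ * s.1 = ρ (t'.1 * t.1⁻¹) := by
      rw [map_mul, map_inv]
      calc s'.1⁻¹ * s.1 = s'.1⁻¹ * (s.1 * ρ t.1) * (ρ t.1)⁻¹ := by group
        _ = s'.1⁻¹ * (s'.1 * ρ t'.1) * (ρ t.1)⁻¹ := by rw [h1]
        _ = ρ t'.1 * (ρ t.1)⁻¹ := by group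
    have hu : s'.1⁻¹ * s.1 ∈ C := C.mul_mem (C.inv_mem s'.2) s.2
    have hv : t'.1 * t.1⁻¹ ∈ C := C.mul_mem t'.2 (C.inv_mem t.2)
    have h5 := (hC _).1 hu
    rw [h4, hxr, (hC _).1 hv] at h5
    have h6 := hfp _ (ρ.injective h5)
    rw [h6, map_one] at h4
    apply Prod.ext
    · apply Subtype.ext
      exact (inv_mul_eq_one.mp h4).symm
    · apply Subtype.ext
      exact (mul_inv_eq_one.mp h6).symm
  have hcle : Nat.card C * Nat.card C ≤ 64 := by
    rw [← hT, ← Nat.card_prod]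
    exact Nat.card_le_card_of_injective _ hprodinj
  -- lifts
  have hlift : ∀ w ∈ W, ∃ s ∈ C, q s = q w := by
    intro w hw
    have hw' := (hker w).1 hw
    obtain ⟨z, hzZ, hz⟩ : ∃ z ∈ Subgroup.center T, x w = w * z := by
      refine ⟨w⁻¹ * x w, ?_, by group⟩
      have h1 : w⁻¹ * x w = (w * w)⁻¹ * (w * x w) := by group
      rw [h1]
      exact Subgroup.mul_mem _ (Subgroup.inv_mem _ (hsq w)) hw'
    have hxz : x z = z := by
      have h1 := hx2 w
      rw [hz, map_mul, hz, mul_assoc] at h1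
      have h4 : z * x z = 1 := mul_left_cancel (h1.trans (mul_one w).symm)
      have h5 := inv_eq_of_mul_eq_one_right h4
      rw [← h5]
      exact inv_eq_of_mul_eq_one_left (hz2 z hzZ)
    rcases hcu z hzZ hxz with rfl | rfl
    · refine ⟨w, (hC w).2 (by rw [hz, mul_one]), rfl⟩
    · have hr := center_inv ρ h3 hfp hT hna z hzZ
      refine ⟨w * ρ z, (hC _).2 ?_, ?_⟩
      · rw [map_mul, hz, hxr, hcx, mul_assoc, center_prod ρ h3 hfp hT hna]
        rw [inv_eq_of_mul_eq_one_left (hz2 _ hr)]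
      · rw [map_mul, (hqZ _).2 hr, mul_one]
  -- lower bound
  have hcge : 8 ≤ Nat.card C := by
    let g : C →* T ⧸ Subgroup.center T := q.comp C.subtype
    have hg := Subgroup.card_mul_index g.ker
    rw [Subgroup.index_ker] at hg
    have hr : W.map q ≤ g.range := by
      rintro _ ⟨w, hw, rfl⟩
      obtain ⟨s, hs, hs2⟩ := hlift w hw
      exact ⟨⟨s, hs⟩, hs2⟩
    have hr4 : 4 ≤ Nat.card g.range := hm.trans (Subgroup.card_le_of_le hr)
    have hk2 : 2 ≤ Nat.card g.ker := by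
      haveI : Nontrivial g.ker := by
        refine ⟨⟨⟨⟨c₀, (hC _).2 hcx⟩, (hqZ _).2 hc⟩, 1, ?_⟩⟩
        intro h
        exact hc1 (congrArg (fun y : g.ker => (y.1.1 : T)) h)
      exact Finite.one_lt_card
    rw [← hg]
    exact Nat.mul_le_mul hk2 hr4
  have hc8 : Nat.card C = 8 := by
    have : Nat.card C ≤ 8 := by
      by_contra hlt
      push Not at hlt
      have : 9 * 9 ≤ Nat.card C * Nat.card C := Nat.mul_le_mul hlt hlt
      omega
    omega
  apply d8_or_q8 hc8
  intro hcomm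
  -- then `T` is abelian
  apply hna
  have hsurj : Function.Surjective (fun p : C × C => p.1.1 * ρ p.2.1) := by
    have hcard : Nat.card T ≤ Nat.card (C × C) := by
      rw [Nat.card_prod, hc8, hT]
    exact (hprodinj.bijective_of_nat_card_le hcard).2
  have hst : ∀ s t : C, s.1 * ρ t.1 = ρ t.1 * s.1 := by
    intro s t
    have h1 : ⁅s.1, t.1⁆ = 1 := by
      rw [commutatorElement_eq_one_iff_mul_comm]
      exact congrArg Subtype.val (hcomm s t)
    have h4 : ⁅s.1, ρ (ρ t.1)⁆ = 1 := by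
      rw [comm_rho_right2 ρ h3 hfp hT hna, h1, map_one]
    have h5 : x ⁅s.1, ρ t.1⁆ = 1 := by
      rw [map_commutatorElement, hxr, (hC _).1 s.2, (hC _).1 t.2, h4]
    have h6 : ⁅s.1, ρ t.1⁆ = 1 := x.injective (by rw [h5, map_one])
    exact (commutatorElement_eq_one_iff_mul_comm.mp h6)
  refine ⟨⟨fun a b => ?_⟩⟩
  obtain ⟨⟨s, t⟩, rfl⟩ := hsurj a
  obtain ⟨⟨s', t'⟩, rfl⟩ := hsurj b
  have h1 : s.1 * s'.1 = s'.1 * s.1 := congrArg Subtype.val (hcomm s s')
  have h4 : ρ t.1 * ρ t'.1 = ρ t'.1 * ρ t.1 := by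
    rw [← map_mul, ← map_mul]
    exact congrArg ρ (congrArg Subtype.val (hcomm t t'))
  show s.1 * ρ t.1 * (s'.1 * ρ t'.1) = s'.1 * ρ t'.1 * (s.1 * ρ t.1)
  calc s.1 * ρ t.1 * (s'.1 * ρ t'.1) = s.1 * (ρ t.1 * s'.1) * ρ t'.1 := by simp only [mul_assoc]
    _ = s.1 * (s'.1 * ρ t.1) * ρ t'.1 := by rw [hst s' t]
    _ = (s.1 * s'.1) * (ρ t.1 * ρ t'.1) := by simp only [mul_assoc]
    _ = (s'.1 * s.1) * (ρ t'.1 * ρ t.1) := by rw [h1, h4]
    _ = s'.1 * (s.1 * ρ t'.1) * ρ t.1 := by simp only [mul_assoc]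
    _ = s'.1 * (ρ t'.1 * s.1) * ρ t.1 := by rw [hst s t']
    _ = _ := by simp only [mul_assoc]

/-- The isomorphism with the unitriangular group. -/
theorem iso_uni : Nonempty (uniSub ≃* T) := by
  classical
  obtain ⟨a, haZ, ha⟩ := exists_singular ρ h3 hfp hT hna x hx2 hxr
  have hcomm : ∀ a b : T, ⁅a, b⁆ ∈ Subgroup.center T := comm_mem_center ρ h3 hfp hT hna
  have hsq : ∀ a : T, a * a ∈ Subgroup.center T := sq_mem_center ρ h3 hfp hT hna
  have hz2 : ∀ z ∈ Subgroup.center T, z * z = 1 := center_sq ρ h3 hfp hT hna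
  have hiz : ∀ z ∈ Subgroup.center T, z⁻¹ = z := fun z hz => inv_eq_of_mul_eq_one_left (hz2 z hz)
  -- commuting triple
  have hcomm_a : ∀ y : T, y * ρ y = ρ y * y := fpf_comm ρ h3 hfp
  have hrel : ∀ y : T, y * y = 1 → (y * ρ y = ρ (ρ y) ∧ ρ y * y = ρ (ρ y) ∧ y * ρ (ρ y) = ρ y ∧ ρ (ρ y) * y = ρ y ∧
      ρ y * ρ (ρ y) = y ∧ ρ (ρ y) * ρ y = y ∧ ρ y * ρ y = 1 ∧ ρ (ρ y) * ρ (ρ y) = 1) := by
    intro y hy
    have hr1 : ρ y * ρ y = 1 := by rw [← map_mul, hy, map_one]
    have hr2 : ρ (ρ y) * ρ (ρ y) = 1 := by rw [← map_mul, hr1, map_one]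
    have hiv : ∀ u : T, u * u = 1 → u⁻¹ = u := fun u hu => inv_eq_of_mul_eq_one_left hu
    have e1 : y * ρ y = ρ (ρ y) := by
      have h1 := eq_inv_of_mul_eq_one_left (fpf_norm ρ h3 hfp y)
      rw [h1, hiv _ hr2]
    have e2 : ρ y * ρ (ρ y) = y := by
      have h1 := eq_inv_of_mul_eq_one_left (fpf_norm ρ h3 hfp (ρ y))
      rw [h3] at h1
      rw [h1, hiv _ hy]
    have e3 : ρ (ρ y) * y = ρ y := by
      have h1 := eq_inv_of_mul_eq_one_left (fpf_norm ρ h3 hfp (ρ (ρ y)))
      simp only [h3] at h1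
      rw [h1, hiv _ hr1]
    have c1 := hcomm_a y
    have c2 := hcomm_a (ρ y)
    have c3 := hcomm_a (ρ (ρ y))
    rw [h3] at c3
    refine ⟨e1, by rw [← c1, e1], by rw [← c3, e3] , e3, e2, by rw [← c2, e2], hr1, hr2⟩
  -- the partner
  obtain ⟨b, hb, hba⟩ : ∃ b : T, b * b = 1 ∧ ⁅b, a⁆ ≠ 1 := by
    obtain ⟨t, ht⟩ : ∃ t : T, ⁅t, a⁆ ≠ 1 := by
      by_contra hcon
      push Not at hcon
      apply haZ
      rw [Subgroup.mem_center_iff]
      intro g
      exact commutatorElement_eq_one_iff_mul_comm.mp (hcon g)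
    by_cases htt : t * t = 1
    · exact ⟨t, htt, ht⟩
    · obtain ⟨ra1, ra2, ra3, ra4, ra5, ra6, ra7, ra8⟩ := hrel a ha
      have hcq := hcomm t a
      -- the three choices
      have key : ∀ y : T, y * y = 1 → y * a = a * y → t * t = ⁅t, y⁆ → ∃ b : T, b * b = 1 ∧ ⁅b, a⁆ ≠ 1 := by
        intro y hy hya hty
        refine ⟨t * y, ?_, ?_⟩
        · rw [sq_mul ρ h3 hfp hT hna, hy, mul_one, hty]
          have h1 : ⁅y, t⁆ = ⁅t, y⁆⁻¹ := (commutatorElement_inv t y).symm
          rw [h1, hiz _ (hcomm t y), hz2 _ (hcomm t y)]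
        · intro h
          apply ht
          rw [commutatorElement_eq_one_iff_mul_comm] at h ⊢
          have h4 : t * y * a = t * a * y := by rw [mul_assoc, hya, mul_assoc]
          have h5 : a * (t * y) = a * t * y := by rw [mul_assoc]
          rw [h4, h5] at h
          exact mul_right_cancel h
      have hne : t * t ≠ 1 := htt
      rcases center_orbit ρ h3 hfp hT hna ⁅t, a⁆ (t * t) (hcomm t a) (hsq t) ht hne with h | h | h
      · exact key a ha rfl h
      · exact key (ρ (ρ a)) ra8 (ra4.trans ra3.symm) (h.trans (comm_rho_right2 ρ h3 hfp hT hna t a).symm)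
      · exact key (ρ a) ra7 (ra2.trans ra1.symm) (h.trans (comm_rho_right ρ h3 hfp hT hna t a).symm)
  obtain ⟨c, hcdef⟩ : ∃ c, c = ⁅b, a⁆ := ⟨_, rfl⟩
  rw [← hcdef] at hba
  have hcZ : c ∈ Subgroup.center T := hcdef ▸ hcomm b a
  have hc2 : c * c = 1 := hz2 c hcZ
  obtain ⟨ra1, ra2, ra3, ra4, ra5, ra6, ra7, ra8⟩ := hrel a ha
  obtain ⟨rb1, rb2, rb3, rb4, rb5, rb6, rb7, rb8⟩ := hrel b hb
  obtain ⟨rc1, rc2, rc3, rc4, rc5, rc6, rc7, rc8⟩ := hrel c hc2
  obtain ⟨A, hA⟩ : ∃ A : F4 → T, A = tri a (ρ a) (ρ (ρ a)) := ⟨_, rfl⟩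
  obtain ⟨B, hB⟩ : ∃ B : F4 → T, B = tri b (ρ b) (ρ (ρ b)) := ⟨_, rfl⟩
  obtain ⟨C', hC'⟩ : ∃ C' : F4 → T, C' = tri c (ρ (ρ c)) (ρ c) := ⟨_, rfl⟩
  have hAadd : ∀ x y, A (x + y) = A x * A y := by
    rw [hA]; exact tri_add ra1 ra2 ra3 ra4 ra5 ra6 ha ra7 ra8
  have hBadd : ∀ x y, B (x + y) = B x * B y := by
    rw [hB]; exact tri_add rb1 rb2 rb3 rb4 rb5 rb6 hb rb7 rb8
  have hCadd : ∀ x y, C' (x + y) = C' x * C' y := by
    rw [hC']; exact tri_add rc3 rc4 rc1 rc2 rc6 rc5 hc2 rc8 rc7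
  have hCc : ∀ γ g, g * C' γ = C' γ * g := by
    have h1 : ρ c ∈ Subgroup.center T := center_inv ρ h3 hfp hT hna c hcZ
    have h2 : ρ (ρ c) ∈ Subgroup.center T := center_inv ρ h3 hfp hT hna _ h1
    intro γ g
    rw [hC']
    cases γ
    · show g * 1 = 1 * g
      rw [mul_one, one_mul]
    · exact Subgroup.mem_center_iff.mp hcZ g |>.symm ▸ rfl
    · exact Subgroup.mem_center_iff.mp h2 g |>.symm ▸ rfl
    · exact Subgroup.mem_center_iff.mp h1 g |>.symm ▸ rfl
  have hC2 : ∀ γ, C' γ * C' γ = 1 := by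
    intro γ
    rw [hC']
    cases γ
    · exact mul_one _
    · exact hc2
    · exact rc8
    · exact rc7
  have hB2 : ∀ γ, B γ * B γ = 1 := by
    intro γ
    rw [hB]
    cases γ
    · exact mul_one _
    · exact hb
    · exact rb7
    · exact rb8
  have hCinj : ∀ γ, C' γ = 1 → γ = 0 := by
    have h1 : ρ c ≠ 1 := fun h => hba (ρ.injective (by rw [h, map_one]))
    have h2 : ρ (ρ c) ≠ 1 := fun h => h1 (ρ.injective (by rw [h, map_one]))
    intro γ hγ
    rw [hC'] at hγ
    cases γ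
    · rfl
    · exact absurd hγ hba
    · exact absurd hγ h2
    · exact absurd hγ h1
  have hadj1 := fpf_adj ρ h3 hfp
  have hr1 := comm_rho_right ρ h3 hfp hT hna
  have hr2 := comm_rho_right2 ρ h3 hfp hT hna
  have htable : ∀ α β, ⁅B β, A α⁆ = C' (α * β) := by
    have t1 : ⁅b, a⁆ = c := hcdef.symm
    have t2 : ⁅b, ρ a⁆ = ρ (ρ c) := by rw [hr1, t1]
    have t3 : ⁅b, ρ (ρ a)⁆ = ρ c := by rw [hr2, t1]
    have t4 : ⁅ρ b, a⁆ = ρ (ρ c) := by rw [hadj1, t2]
    have t5 : ⁅ρ b, ρ a⁆ = ρ c := by rw [← map_commutatorElement, t1]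
    have t6 : ⁅ρ b, ρ (ρ a)⁆ = c := by rw [hadj1, h3, t1]
    have t7 : ⁅ρ (ρ b), a⁆ = ρ c := by rw [hadj1, t5]
    have t8 : ⁅ρ (ρ b), ρ a⁆ = c := by rw [hadj1, t6]
    have t9 : ⁅ρ (ρ b), ρ (ρ a)⁆ = ρ (ρ c) := by rw [← map_commutatorElement, t5]
    intro α β
    rw [hA, hB, hC']
    cases α <;> cases β <;> first
      | exact commutatorElement_one_left _
      | exact commutatorElement_one_right _
      | exact t1
      | exact t2
      | exact t3
      | exact t4
      | exact t5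
      | exact t6
      | exact t7
      | exact t8
      | exact t9
  have hAB : ∀ α β, A α * B β = B β * A α * C' (α * β) := fun α β =>
    comm_rel (B β) (A α) _ (htable α β) (hCc _) (hC2 _)
  obtain ⟨gg, hgg⟩ : ∃ gg : F4 → F4 → F4 → T, gg = fun α β γ => B β * A α * C' γ := ⟨_, rfl⟩
  have hggmul : ∀ α β γ α' β' γ', gg (α + α') (β + β') (γ + γ' + α * β') = gg α β γ * gg α' β' γ' := by
    intro α β γ α' β' γ'
    rw [hgg]
    show B (β + β') * A (α + α') * C' (γ + γ' + α * β') = B β * A α * C' γ * (B β' * A α' * C' γ')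
    rw [hAadd, hBadd, hCadd, hCadd]
    have hZ1 := hCc (α * β') (A α')
    have hZ2 := hCc (α * β') (C' γ * C' γ')
    calc B β * B β' * (A α * A α') * (C' γ * C' γ' * C' (α * β'))
        = B β * B β' * (A α * A α') * (C' (α * β') * (C' γ * C' γ')) := by rw [hZ2]
      _ = B β * (B β' * A α) * (A α' * C' (α * β')) * (C' γ * C' γ') := by simp only [mul_assoc]
      _ = B β * (B β' * A α) * (C' (α * β') * A α') * (C' γ * C' γ') := by rw [hZ1]
      _ = B β * (B β' * A α * C' (α * β')) * A α' * (C' γ * C' γ') := by simp only [mul_assoc]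
      _ = B β * (A α * B β') * A α' * (C' γ * C' γ') := by rw [hAB]
      _ = B β * A α * ((B β' * A α') * C' γ) * C' γ' := by simp only [mul_assoc]
      _ = B β * A α * (C' γ * (B β' * A α')) * C' γ' := by rw [hCc γ (B β' * A α')]
      _ = B β * A α * C' γ * (B β' * A α' * C' γ') := by simp only [mul_assoc]
  -- the homomorphism
  have hcoord : ∀ α β γ : F4, (uni α β γ).1 0 1 = α ∧ (uni α β γ).1 1 2 = β ∧ (uni α β γ).1 0 2 = γ := by
    intro α β γ
    refine ⟨?_, ?_, ?_⟩ <;> simp [uni, uniMat]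
  let f : uniSub →* T := 
    { toFun := fun M => gg (M.1.1 0 1) (M.1.1 1 2) (M.1.1 0 2)
      map_one' := by
        have h0 : (1 : uniSub).1.1 = (uni 0 0 0).1 := by rw [uni_one]; rfl
        have h1 : gg 0 0 0 = 1 := by
          rw [hgg]
          show B 0 * A 0 * C' 0 = 1
          rw [rfl_tri_zero hA, rfl_tri_zero hB, rfl_tri_zero hC', one_mul, one_mul]
        show gg ((1 : uniSub).1.1 0 1) ((1 : uniSub).1.1 1 2) ((1 : uniSub).1.1 0 2) = 1
        rw [h0, (hcoord 0 0 0).1, (hcoord 0 0 0).2.1, (hcoord 0 0 0).2.2, h1]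
      map_mul' := by
        rintro ⟨_, α, β, γ, rfl⟩ ⟨_, α', β', γ', rfl⟩
        show gg ((uni α β γ * uni α' β' γ').1 0 1) ((uni α β γ * uni α' β' γ').1 1 2) ((uni α β γ * uni α' β' γ').1 0 2) = 
          gg ((uni α β γ).1 0 1) ((uni α β γ).1 1 2) ((uni α β γ).1 0 2) * gg ((uni α' β' γ').1 0 1) ((uni α' β' γ').1 1 2) ((uni α' β' γ').1 0 2)
        rw [uni_mul, (hcoord _ _ _).1, (hcoord _ _ _).2.1, (hcoord _ _ _).2.2, (hcoord _ _ _).1, (hcoord _ _ _).2.1, (hcoord _ _ _).2.2,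
          (hcoord _ _ _).1, (hcoord _ _ _).2.1, (hcoord _ _ _).2.2, hggmul] }
  have hfinj : Function.Injective f := by
    rw [injective_iff_map_eq_one]
    rintro ⟨_, α, β, γ, rfl⟩ hM
    have h1 : gg α β γ = 1 := by
      have h2 : gg ((uni α β γ).1 0 1) ((uni α β γ).1 1 2) ((uni α β γ).1 0 2) = 1 := hM
      rwa [(hcoord _ _ _).1, (hcoord _ _ _).2.1, (hcoord _ _ _).2.2] at h2
    rw [hgg] at h1
    replace h1 : B β * A α * C' γ = 1 := h1
    have hAc : ∀ x y, A x * A y = A y * A x := fun x y => by rw [← hAadd, ← hAadd, add_comm]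
    -- `β = 0`
    have hβ : β = 0 := by
      apply hCinj
      have h2 := htable 1 β
      rw [one_mul] at h2
      rw [← h2, commutatorElement_eq_one_iff_mul_comm]
      have h5 : A α * C' γ = B β := by
        calc A α * C' γ = B β * (B β * A α * C' γ) := by simp only [← mul_assoc, hB2, one_mul]
          _ = B β := by rw [h1, mul_one]
      rw [← h5]
      calc A α * C' γ * A 1 = A α * (C' γ * A 1) := mul_assoc _ _ _
        _ = A α * (A 1 * C' γ) := by rw [hCc γ (A 1)]
        _ = (A α * A 1) * C' γ := (mul_assoc _ _ _).symm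
        _ = (A 1 * A α) * C' γ := by rw [hAc]
        _ = A 1 * (A α * C' γ) := mul_assoc _ _ _
    subst hβ
    rw [rfl_tri_zero hB, one_mul] at h1
    have hα : α = 0 := by
      apply hCinj
      have h2 := htable α 1
      rw [mul_one] at h2
      rw [← h2, commutatorElement_eq_one_iff_mul_comm]
      have h4 : A α = C' γ := by
        have h5 : A α * C' γ * C' γ = C' γ := by rw [h1, one_mul]
        rwa [mul_assoc, hC2, mul_one] at h5
      rw [h4, hCc]
    subst hα
    rw [rfl_tri_zero hA, one_mul] at h1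
    have hγ := hCinj γ h1
    subst hγ
    apply Subtype.ext
    exact uni_one
  have hfbij : Function.Bijective f := by
    apply hfinj.bijective_of_nat_card_le
    rw [hT, card_uniSub]
  exact ⟨MulEquiv.ofBijective f hfbij⟩

end final

theorem main_thm {T : Type*} [Group T] [Finite T] (hT : Nat.card T = 64) (hna : ¬ IsMulCommutative T) (ρ x : MulAut T) (hρ : orderOf ρ = 3) (hx : orderOf x = 2)
    (hxr : x * ρ * x⁻¹ = ρ⁻¹) (hfp : ∀ y : T, ρ y = y → y = 1) (C : Subgroup T) (hC : ∀ y : T, y ∈ C ↔ x y = y) :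
    (∃ (F : Type) (_ : Field F) (_ : Fintype F), Fintype.card F = 4 ∧
        ∃ S : Sylow 2 (Matrix.ProjectiveSpecialLinearGroup (Fin 3) F), Nonempty (T ≃* ↥(S : Subgroup (Matrix.ProjectiveSpecialLinearGroup (Fin 3) F)))) ∧
      (Nonempty (↥C ≃* DihedralGroup 4) ∨ Nonempty (↥C ≃* QuaternionGroup 2)) := by
  have hρ3 : ρ ^ 3 = 1 := by rw [← hρ]; exact pow_orderOf_eq_one ρ
  have hx2' : x ^ 2 = 1 := by rw [← hx]; exact pow_orderOf_eq_one x
  have h3 : ∀ y, ρ (ρ (ρ y)) = y := by
    intro y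
    have h1 : (ρ ^ 3) y = y := by rw [hρ3]; rfl
    exact h1
  have hx2 : ∀ y, x (x y) = y := by
    intro y
    have h1 : (x ^ 2) y = y := by rw [hx2']; rfl
    exact h1
  have hxr' : ∀ y, x (ρ y) = ρ (ρ (x y)) := by
    intro y
    have h1 : x * ρ = ρ⁻¹ * x := by
      rw [← hxr]; group
    have h4 : ρ⁻¹ = ρ * ρ := by
      apply inv_eq_of_mul_eq_one_right
      calc ρ * (ρ * ρ) = ρ ^ 3 := by simp only [pow_succ, pow_zero, one_mul, mul_assoc]
        _ = 1 := hρ3
    rw [h4] at h1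
    exact congrArg (fun f : MulAut T => f y) h1
  refine ⟨⟨F4, inferInstance, inferInstance, F4.card_eq, ?_⟩, fixed_group ρ h3 hfp hT hna x hx2 hxr' C hC⟩
  obtain ⟨e⟩ := iso_uni ρ h3 hfp hT hna x hx2 hxr'
  obtain ⟨S, ⟨e'⟩⟩ := exists_sylow_psl
  exact ⟨S, ⟨e.symm.trans e'⟩⟩


/-- Let T be a non-abelian group of order 64 admitting automorphisms ρ of order 3 and x of order 2 with x ρ x⁻¹ = ρ⁻¹ (so they generate a symmetric group of degree 3), where ρ fixes only the identity. Then T is isomorphic to a Sylow 2-subgroup of the projective special linear group of dimension 3 over the field with 4 elements, and the subgroup of fixed points of x is dihedral of order 8 or quaternion of order 8. -/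
theorem result {T : Type*} [Group T] [Finite T] (hT : Nat.card T = 64) (hna : ¬ IsMulCommutative T) (ρ x : MulAut T) (hρ : orderOf ρ = 3) (hx : orderOf x = 2)
    (hxr : x * ρ * x⁻¹ = ρ⁻¹) (hfp : ∀ y : T, ρ y = y → y = 1) (C : Subgroup T) (hC : ∀ y : T, y ∈ C ↔ x y = y) :
    (∃ (F : Type) (_ : Field F) (_ : Fintype F), Fintype.card F = 4 ∧
        ∃ S : Sylow 2 (Matrix.ProjectiveSpecialLinearGroup (Fin 3) F), Nonempty (T ≃* ↥(S : Subgroup (Matrix.ProjectiveSpecialLinearGroup (Fin 3) F)))) ∧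
      (Nonempty (↥C ≃* DihedralGroup 4) ∨ Nonempty (↥C ≃* QuaternionGroup 2)) := by
  exact main_thm hT hna ρ x hρ hx hxr hfp C hC

end Cfsg.Agent.S3157
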