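import Cfsg.Statements.S3171
import Mathlib
import Cfsg.Agent.Lib.Basic.Frattini
import Cfsg.Agent.Lib.Golay.M24Chain

set_option autoImplicit false
open Cfsg

namespace Cfsg.Agent.S3171

section modelV

/-- Upper unitriangular 5 × 5 matrices over the field with two elements, modulo the corner. -/
@[ext] structure V where
  (a12 a13 a14 a23 a24 a25 a34 a35 a45 : ZMod 2)
  deriving DecidableEq

namespace V

instance : Mul V := ⟨fun x y =>
  { a12 := x.a12 + y.a12
    a13 := x.a13 + y.a13 + x.a12 * y.a23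
    a14 := x.a14 + y.a14 + x.a12 * y.a24 + x.a13 * y.a34
    a23 := x.a23 + y.a23
    a24 := x.a24 + y.a24 + x.a23 * y.a34
    a25 := x.a25 + y.a25 + x.a23 * y.a35 + x.a24 * y.a45
    a34 := x.a34 + y.a34
    a35 := x.a35 + y.a35 + x.a34 * y.a45
    a45 := x.a45 + y.a45 }⟩

instance : One V := ⟨⟨0, 0, 0, 0, 0, 0, 0, 0, 0⟩⟩

instance : Inv V := ⟨fun x =>
  { a12 := x.a12
    a13 := x.a13 + x.a12 * x.a23
    a14 := x.a14 + x.a12 * x.a24 + (x.a13 + x.a12 * x.a23) * x.a34
    a23 := x.a23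
    a24 := x.a24 + x.a23 * x.a34
    a25 := x.a25 + x.a23 * x.a35 + (x.a24 + x.a23 * x.a34) * x.a45
    a34 := x.a34
    a35 := x.a35 + x.a34 * x.a45
    a45 := x.a45 }⟩

@[simp] theorem mul_a12 (x y : V) : (x * y).a12 = x.a12 + y.a12 := rfl
@[simp] theorem mul_a13 (x y : V) : (x * y).a13 = x.a13 + y.a13 + x.a12 * y.a23 := rfl
@[simp] theorem mul_a14 (x y : V) : (x * y).a14 = x.a14 + y.a14 + x.a12 * y.a24 + x.a13 * y.a34 := rfl
@[simp] theorem mul_a23 (x y : V) : (x * y).a23 = x.a23 + y.a23 := rfl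
@[simp] theorem mul_a24 (x y : V) : (x * y).a24 = x.a24 + y.a24 + x.a23 * y.a34 := rfl
@[simp] theorem mul_a25 (x y : V) : (x * y).a25 = x.a25 + y.a25 + x.a23 * y.a35 + x.a24 * y.a45 := rfl
@[simp] theorem mul_a34 (x y : V) : (x * y).a34 = x.a34 + y.a34 := rfl
@[simp] theorem mul_a35 (x y : V) : (x * y).a35 = x.a35 + y.a35 + x.a34 * y.a45 := rfl
@[simp] theorem mul_a45 (x y : V) : (x * y).a45 = x.a45 + y.a45 := rfl

def toP (x : V) : ZMod 2 × ZMod 2 × ZMod 2 × ZMod 2 × ZMod 2 × ZMod 2 × ZMod 2 × ZMod 2 × ZMod 2 :=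
  (x.a12, x.a13, x.a14, x.a23, x.a24, x.a25, x.a34, x.a35, x.a45)

def ofP (x : ZMod 2 × ZMod 2 × ZMod 2 × ZMod 2 × ZMod 2 × ZMod 2 × ZMod 2 × ZMod 2 × ZMod 2) : V :=
  ⟨x.1, x.2.1, x.2.2.1, x.2.2.2.1, x.2.2.2.2.1, x.2.2.2.2.2.1, x.2.2.2.2.2.2.1, x.2.2.2.2.2.2.2.1, x.2.2.2.2.2.2.2.2⟩

instance : Fintype V := Fintype.ofEquiv _ (⟨ofP, toP, fun _ => rfl, fun _ => rfl⟩ :
  ZMod 2 × ZMod 2 × ZMod 2 × ZMod 2 × ZMod 2 × ZMod 2 × ZMod 2 × ZMod 2 × ZMod 2 ≃ V)

theorem inv_mul (x : V) : x⁻¹ * x = 1 := by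
  revert x
  intro x
  obtain ⟨a, b, c, d, e, f, g, h, i⟩ := x
  revert a b c d e f g h i
  decide +kernel

instance : Group V := Group.ofLeftAxioms
  (fun x y z => by
    ext <;> simp only [mul_a12, mul_a13, mul_a14, mul_a23, mul_a24, mul_a25, mul_a34, mul_a35, mul_a45] <;> ring)
  (fun x => by
    show (1 : V) * x = x
    ext <;> simp only [mul_a12, mul_a13, mul_a14, mul_a23, mul_a24, mul_a25, mul_a34, mul_a35, mul_a45] <;>
      simp [show (1 : V).a12 = 0 from rfl, show (1 : V).a13 = 0 from rfl, show (1 : V).a14 = 0 from rfl,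
        show (1 : V).a23 = 0 from rfl, show (1 : V).a24 = 0 from rfl, show (1 : V).a25 = 0 from rfl,
        show (1 : V).a34 = 0 from rfl, show (1 : V).a35 = 0 from rfl, show (1 : V).a45 = 0 from rfl])
  inv_mul

theorem card : Fintype.card V = 512 := by decide +kernel

end V
end modelV

namespace V

/-- Elementary matrices. -/
def E12 : V := ⟨1, 0, 0, 0, 0, 0, 0, 0, 0⟩
def E13 : V := ⟨0, 1, 0, 0, 0, 0, 0, 0, 0⟩
def E14 : V := ⟨0, 0, 1, 0, 0, 0, 0, 0, 0⟩
def E23 : V := ⟨0, 0, 0, 1, 0, 0, 0, 0, 0⟩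
def E24 : V := ⟨0, 0, 0, 0, 1, 0, 0, 0, 0⟩
def E25 : V := ⟨0, 0, 0, 0, 0, 1, 0, 0, 0⟩
def E34 : V := ⟨0, 0, 0, 0, 0, 0, 1, 0, 0⟩
def E35 : V := ⟨0, 0, 0, 0, 0, 0, 0, 1, 0⟩
def E45 : V := ⟨0, 0, 0, 0, 0, 0, 0, 0, 1⟩

/-- A power with exponent in the field. -/
def pw (a : ZMod 2) (g : V) : V := if a = 1 then g else 1

theorem nf (x : V) : x = pw x.a25 E25 * pw x.a35 E35 * pw x.a45 E45 * pw x.a14 E14 * pw x.a24 E24 * pw x.a34 E34 *
    pw x.a13 E13 * pw x.a23 E23 * pw x.a12 E12 := by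
  obtain ⟨a, b, c, d, e, f, g, h, i⟩ := x
  revert a b c d e f g h i
  decide +kernel

theorem e13 : E13 = E12 * E23 * E12 * E23 := by decide +kernel
theorem e24 : E24 = E23 * E34 * E23 * E34 := by decide +kernel
theorem e35 : E35 = E34 * E45 * E34 * E45 := by decide +kernel
theorem e14 : E14 = E12 * E24 * E12 * E24 := by decide +kernel
theorem e25 : E25 = E23 * E35 * E23 * E35 := by decide +kernel

instance : Finite V := inferInstance

theorem natCard : Nat.card V = 2 ^ 9 := by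
  rw [Nat.card_eq_fintype_card, card]; norm_num

theorem isP : IsPGroup 2 V := IsPGroup.of_card natCard

instance : Group.IsNilpotent V := by
  haveI : Fact (Nat.Prime 2) := ⟨Nat.prime_two⟩
  exact isP.isNilpotent

theorem card_center_le (M : Subgroup V) (L : List V) (hL : ∀ g ∈ L, g ∈ M) (n : ℕ)
    (hc : (Finset.univ.filter fun z : V => ∀ g ∈ L, z * g = g * z).card ≤ n) :
    Nat.card (Subgroup.center M) ≤ n := by
  refine le_trans ?_ hc
  rw [← Nat.card_eq_finsetCard]
  refine Nat.card_le_card_of_injective (fun z : Subgroup.center M =>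
    (⟨z.1.1, ?_⟩ : (Finset.univ.filter fun z : V => ∀ g ∈ L, z * g = g * z : Finset V))) ?_
  · simp only [Finset.mem_filter, Finset.mem_univ, true_and]
    intro g hg
    have := Subgroup.mem_center_iff.1 z.2 ⟨g, hL g hg⟩
    exact (congrArg Subtype.val this).symm
  · intro a b h
    have := congrArg Subtype.val h
    exact Subtype.ext (Subtype.ext this)

theorem c1 : (Finset.univ.filter fun z : V => ∀ g ∈ [E12, E13, E23, E24], z * g = g * z).card ≤ 8 := by
  decide +kernel
theorem c2 : (Finset.univ.filter fun z : V => ∀ g ∈ [E12, E13, E24, E34], z * g = g * z).card ≤ 8 := by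
  decide +kernel
theorem c3 : (Finset.univ.filter fun z : V => ∀ g ∈ [E12, E13, E24, E23 * E34], z * g = g * z).card ≤ 8 := by
  decide +kernel
theorem c4 : (Finset.univ.filter fun z : V => ∀ g ∈ [E13, E23, E24, E34], z * g = g * z).card ≤ 8 := by
  decide +kernel
theorem c5 : (Finset.univ.filter fun z : V => ∀ g ∈ [E13, E23, E24, E12 * E34], z * g = g * z).card ≤ 8 := by
  decide +kernel
theorem c6 : (Finset.univ.filter fun z : V => ∀ g ∈ [E13, E12 * E23, E24], z * g = g * z).card ≤ 8 := by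
  decide +kernel

/-- The centre of a maximal subgroup is small. -/
theorem center_coatom (M : Subgroup V) (hM : IsCoatom M) : Nat.card (Subgroup.center M) ≤ 8 := by
  classical
  have hpr := Cfsg.Agent.Lib.Basic.index_prime_of_isCoatom_of_isNilpotent hM
  have hdvd : M.index ∣ Nat.card V := Subgroup.index_dvd_card M
  rw [natCard] at hdvd
  have h2 : M.index = 2 := (Nat.prime_dvd_prime_iff_eq hpr Nat.prime_two).1 (hpr.dvd_of_dvd_pow hdvd)
  obtain ⟨chi, hchi⟩ : ∃ chi : V → ZMod 2, ∀ x, chi x = if x ∈ M then 0 else 1 := ⟨_, fun _ => rfl⟩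
  have hmem : ∀ x, x ∈ M ↔ chi x = 0 := by
    intro x
    rw [hchi]
    split_ifs with h <;> simp [h]
  have hmul : ∀ x y, chi (x * y) = chi x + chi y := by
    intro x y
    rw [hchi, hchi, hchi]
    have := Subgroup.mul_mem_iff_of_index_two h2 (a := x) (b := y)
    by_cases hx : x ∈ M <;> by_cases hy : y ∈ M <;> simp [hx, hy, this]
    decide
  have hone : chi 1 = 0 := (hmem 1).1 M.one_mem
  have hpw : ∀ a g, chi (pw a g) = a * chi g := by
    intro a g
    unfold pw
    have : a = 0 ∨ a = 1 := by revert a; decide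
    rcases this with rfl | rfl
    · simp [hone]
    · simp
  have hcomm : ∀ a b, chi (a * b * a * b) = 0 := by
    intro a b
    simp only [hmul]
    generalize chi a = s
    generalize chi b = t
    revert s t
    decide
  have h13 : chi E13 = 0 := by rw [e13, hcomm]
  have h24 : chi E24 = 0 := by rw [e24, hcomm]
  have h35 : chi E35 = 0 := by rw [e35, hcomm]
  have h14 : chi E14 = 0 := by rw [e14, hcomm]
  have h25 : chi E25 = 0 := by rw [e25, hcomm]
  have hc01 : ∀ a : ZMod 2, a = 0 ∨ a = 1 := by decide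
  have h11 : (1 : ZMod 2) + 1 = 0 := by decide
  rcases hc01 (chi E12) with c12 | c12
  · rcases hc01 (chi E23) with c23 | c23
    · refine card_center_le M [E12, E13, E23, E24] ?_ 8 c1
      intro g hg
      simp only [List.mem_cons, List.not_mem_nil, or_false] at hg
      rcases hg with rfl | rfl | rfl | rfl <;> rw [hmem] <;> assumption
    · rcases hc01 (chi E34) with c34 | c34
      · refine card_center_le M [E12, E13, E24, E34] ?_ 8 c2
        intro g hg
        simp only [List.mem_cons, List.not_mem_nil, or_false] at hg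
        rcases hg with rfl | rfl | rfl | rfl <;> rw [hmem] <;> assumption
      · refine card_center_le M [E12, E13, E24, E23 * E34] ?_ 8 c3
        intro g hg
        simp only [List.mem_cons, List.not_mem_nil, or_false] at hg
        rcases hg with rfl | rfl | rfl | rfl
        · rw [hmem]; assumption
        · rw [hmem]; assumption
        · rw [hmem]; assumption
        · rw [hmem, hmul, c23, c34, h11]
  · rcases hc01 (chi E23) with c23 | c23
    · rcases hc01 (chi E34) with c34 | c34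
      · refine card_center_le M [E13, E23, E24, E34] ?_ 8 c4
        intro g hg
        simp only [List.mem_cons, List.not_mem_nil, or_false] at hg
        rcases hg with rfl | rfl | rfl | rfl <;> rw [hmem] <;> assumption
      · refine card_center_le M [E13, E23, E24, E12 * E34] ?_ 8 c5
        intro g hg
        simp only [List.mem_cons, List.not_mem_nil, or_false] at hg
        rcases hg with rfl | rfl | rfl | rfl
        · rw [hmem]; assumption
        · rw [hmem]; assumption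
        · rw [hmem]; assumption
        · rw [hmem, hmul, c12, c34, h11]
    · refine card_center_le M [E13, E12 * E23, E24] ?_ 8 c6
      intro g hg
      simp only [List.mem_cons, List.not_mem_nil, or_false] at hg
      rcases hg with rfl | rfl | rfl
      · rw [hmem]; assumption
      · rw [hmem, hmul, c12, c23, h11]
      · rw [hmem]; assumption

end V

/-- Upper unitriangular 3 × 3 matrices. -/
@[ext] structure W where
  (b23 b24 b34 : ZMod 2)
  deriving DecidableEq

namespace W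

instance : Mul W := ⟨fun x y => ⟨x.b23 + y.b23, x.b24 + y.b24 + x.b23 * y.b34, x.b34 + y.b34⟩⟩
instance : One W := ⟨⟨0, 0, 0⟩⟩
instance : Inv W := ⟨fun x => ⟨x.b23, x.b24 + x.b23 * x.b34, x.b34⟩⟩

@[simp] theorem mul_b23 (x y : W) : (x * y).b23 = x.b23 + y.b23 := rfl
@[simp] theorem mul_b24 (x y : W) : (x * y).b24 = x.b24 + y.b24 + x.b23 * y.b34 := rfl
@[simp] theorem mul_b34 (x y : W) : (x * y).b34 = x.b34 + y.b34 := rfl

instance : Fintype W := Fintype.ofEquiv _ (⟨fun x => ⟨x.1, x.2.1, x.2.2⟩, fun x => (x.b23, x.b24, x.b34),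
  fun _ => rfl, fun _ => rfl⟩ : ZMod 2 × ZMod 2 × ZMod 2 ≃ W)

instance : Group W := Group.ofLeftAxioms
  (fun x y z => by ext <;> simp only [mul_b23, mul_b24, mul_b34] <;> ring)
  (fun x => by
    show (1 : W) * x = x
    ext <;> simp only [mul_b23, mul_b24, mul_b34] <;>
      simp [show (1 : W).b23 = 0 from rfl, show (1 : W).b24 = 0 from rfl, show (1 : W).b34 = 0 from rfl])
  (fun x => by
    obtain ⟨a, b, c⟩ := x
    revert a b c
    decide +kernel)

theorem card : Fintype.card W = 8 := by decide +kernel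

end W

namespace V

/-- The middle block. -/
def rho : V →* W where
  toFun x := ⟨x.a23, x.a24, x.a34⟩
  map_one' := rfl
  map_mul' _ _ := rfl

@[simp] theorem rho_b23 (x : V) : (rho x).b23 = x.a23 := rfl
@[simp] theorem rho_b24 (x : V) : (rho x).b24 = x.a24 := rfl
@[simp] theorem rho_b34 (x : V) : (rho x).b34 = x.a34 := rfl

theorem rho_surj : Function.Surjective rho := by
  intro y
  exact ⟨⟨0, 0, 0, y.b23, y.b24, 0, y.b34, 0, 0⟩, rfl⟩

theorem card_ker : Nat.card rho.ker = 64 := by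
  have h1 := Subgroup.card_mul_index rho.ker
  have hW : Nat.card W = 8 := by rw [Nat.card_eq_fintype_card, W.card]
  rw [Subgroup.index_ker, MonoidHom.range_eq_top.2 rho_surj, Subgroup.card_top, natCard, hW] at h1
  omega

theorem ker_mul_self : ∀ a : V, rho a = 1 → a ^ 2 = 1 := by
  intro a
  obtain ⟨a, b, c, d, e, f, g, h, i⟩ := a
  revert a b c d e f g h i
  decide +kernel

theorem ker_comm (a b : V) (ha : rho a = 1) (hb : rho b = 1) : a * b = b * a := by
  have h1 : a.a23 = 0 := congrArg W.b23 ha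
  have h2 : a.a24 = 0 := congrArg W.b24 ha
  have h3 : a.a34 = 0 := congrArg W.b34 ha
  have h4 : b.a23 = 0 := congrArg W.b23 hb
  have h5 : b.a24 = 0 := congrArg W.b24 hb
  have h6 : b.a34 = 0 := congrArg W.b34 hb
  ext <;> simp [h1, h2, h3, h4, h5, h6] <;> ring

/-- The commutation condition on `a` in the kernel. -/
def C (a : V) (g : W) : Prop :=
  a.a12 * g.b23 = 0 ∧ g.b34 * a.a45 = 0 ∧ a.a12 * g.b24 + a.a13 * g.b34 = 0 ∧ g.b23 * a.a35 + g.b24 * a.a45 = 0

instance (a : V) (g : W) : Decidable (C a g) := by unfold C; infer_instance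

theorem C_of_comm (a x : V) (ha : rho a = 1) (h : a * x = x * a) : C a (rho x) := by
  have h1 : a.a23 = 0 := congrArg W.b23 ha
  have h2 : a.a24 = 0 := congrArg W.b24 ha
  have h3 : a.a34 = 0 := congrArg W.b34 ha
  have e13 := congrArg V.a13 h
  have e14 := congrArg V.a14 h
  have e25 := congrArg V.a25 h
  have e35 := congrArg V.a35 h
  simp only [mul_a13, mul_a14, mul_a25, mul_a35, h1, h2, h3, mul_zero, zero_mul, add_zero, zero_add] at e13 e14 e25 e35
  refine ⟨?_, ?_, ?_, ?_⟩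
  · simp only [rho_b23]
    linear_combination e13
  · simp only [rho_b34]
    linear_combination -e35
  · simp only [rho_b24, rho_b34]
    linear_combination e14
  · simp only [rho_b23, rho_b24]
    linear_combination -e25

theorem chk1 : ∀ g : W, g ≠ 1 → (Finset.univ.filter fun a : V => rho a = 1 ∧ C a g).card ≤ 16 := by
  decide +kernel

theorem chk2 : ∀ g g' : W, g ≠ 1 → g' ≠ 1 → g ≠ g' →
    (Finset.univ.filter fun a : V => rho a = 1 ∧ C a g ∧ C a g').card ≤ 8 := by
  decide +kernel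

/-- The unique abelian subgroup of order 64. -/
theorem eq_ker_of_abelian (A : Subgroup V) (hA : IsMulCommutative A) (hc : Nat.card A = 64) : A = rho.ker := by
  classical
  obtain ⟨f, hf⟩ : ∃ f : A →* W, f = rho.comp A.subtype := ⟨_, rfl⟩
  have hfa : ∀ a : A, f a = rho a.1 := by intro a; rw [hf]; rfl
  have h1 : Nat.card f.ker * Nat.card f.range = 64 := by
    have := Subgroup.card_mul_index f.ker
    rw [Subgroup.index_ker, hc] at this
    exact this
  have hcomm : ∀ a ∈ A, ∀ b ∈ A, a * b = b * a := by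
    intro a ha b hb
    have := hA.is_comm.comm (⟨a, ha⟩ : A) ⟨b, hb⟩
    exact congrArg Subtype.val this
  have kerb : ∀ F : Finset V, (∀ a ∈ A, rho a = 1 → a ∈ F) → Nat.card f.ker ≤ F.card := by
    intro F hF
    rw [← Nat.card_eq_finsetCard]
    refine Nat.card_le_card_of_injective (fun a : f.ker => (⟨a.1.1, hF _ a.1.2 ?_⟩ : F)) ?_
    · have := a.2
      rw [MonoidHom.mem_ker, hfa] at this
      exact this
    · intro a b h
      have h' := congrArg Subtype.val h
      exact Subtype.ext (Subtype.ext h')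
  by_cases hr : ∀ a ∈ A, rho a = 1
  · refine Subgroup.eq_of_le_of_card_ge (fun a ha => hr a ha) ?_
    rw [card_ker, hc]
  · exfalso
    push Not at hr
    obtain ⟨x, hxA, hx1⟩ := hr
    have hk1 : Nat.card f.ker ≤ 16 := by
      refine le_trans (kerb _ ?_) (chk1 (rho x) hx1)
      intro a ha ha1
      simp only [Finset.mem_filter, Finset.mem_univ, true_and]
      exact ⟨ha1, C_of_comm a x ha1 (hcomm a ha x hxA)⟩
    have hr4 : 4 ≤ Nat.card f.range := by
      by_contra h
      have : Nat.card f.range ≤ 3 := by omega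
      have h2 : Nat.card f.ker * Nat.card f.range ≤ 16 * 3 := Nat.mul_le_mul hk1 this
      omega
    obtain ⟨y, hyA, hy1, hy2⟩ : ∃ y ∈ A, rho y ≠ 1 ∧ rho x ≠ rho y := by
      by_contra h
      push Not at h
      have h2 : Nat.card f.range ≤ ({1, rho x} : Finset W).card := by
        rw [← Nat.card_eq_finsetCard]
        refine Nat.card_le_card_of_injective (fun w : f.range => (⟨w.1, ?_⟩ : ({1, rho x} : Finset W))) ?_
        · obtain ⟨a, ha⟩ := w.2
          rw [← ha, hfa]
          simp only [Finset.mem_insert, Finset.mem_singleton]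
          by_cases h3 : rho a.1 = 1
          · exact Or.inl h3
          · exact Or.inr (h a.1 a.2 h3).symm
        · intro a b hab
          have h' := congrArg Subtype.val hab
          exact Subtype.ext h'
      have h3 : ({1, rho x} : Finset W).card ≤ 2 := Finset.card_le_two
      omega
    have hk2 : Nat.card f.ker ≤ 8 := by
      refine le_trans (kerb _ ?_) (chk2 (rho x) (rho y) hx1 hy1 hy2)
      intro a ha ha1
      simp only [Finset.mem_filter, Finset.mem_univ, true_and]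
      exact ⟨ha1, C_of_comm a x ha1 (hcomm a ha x hxA), C_of_comm a y ha1 (hcomm a ha y hyA)⟩
    have hr8 : 8 ≤ Nat.card f.range := by
      by_contra h
      have : Nat.card f.range ≤ 7 := by omega
      have h2 : Nat.card f.ker * Nat.card f.range ≤ 8 * 7 := Nat.mul_le_mul hk2 this
      omega
    have hW : Nat.card W = 8 := by rw [Nat.card_eq_fintype_card, W.card]
    have htop : f.range = ⊤ := by
      apply Subgroup.eq_top_of_card_eq
      have := Subgroup.card_le_card_group f.range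
      omega
    have hmem : ∀ w : W, ∃ a ∈ A, rho a = w := by
      intro w
      have : w ∈ f.range := by rw [htop]; trivial
      obtain ⟨a, ha⟩ := this
      exact ⟨a.1, a.2, by rw [← ha, hfa]⟩
    obtain ⟨a, haA, ha⟩ := hmem ⟨1, 0, 0⟩
    obtain ⟨b, hbA, hb⟩ := hmem ⟨0, 0, 1⟩
    have h2 := congrArg V.a24 (hcomm a haA b hbA)
    have a23 : a.a23 = 1 := congrArg W.b23 ha
    have a34 : a.a34 = 0 := congrArg W.b34 ha
    have b23 : b.a23 = 0 := congrArg W.b23 hb
    have b34 : b.a34 = 1 := congrArg W.b34 hb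
    simp only [mul_a24, a23, a34, b23, b34, mul_one, mul_zero, add_zero] at h2
    have h3 : (1 : ZMod 2) = 0 := by linear_combination h2
    exact absurd h3 (by decide)

end V

/-- The properties in question. -/
def Q (S : Type*) [Group S] : Prop :=
  (∀ M : Subgroup S, IsCoatom M → Nat.card (Subgroup.center M) ≤ 8) ∧
    (∃ A : Subgroup S, Cfsg.IsElementaryAbelian 2 A ∧ Nat.card A = 64) ∧
    ∀ A B : Subgroup S, IsMulCommutative A → Nat.card A = 64 → IsMulCommutative B → Nat.card B = 64 → A = B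

theorem Q_V : Q V := by
  refine ⟨V.center_coatom, ⟨V.rho.ker, ⟨⟨⟨?_⟩⟩, ?_⟩, V.card_ker⟩, ?_⟩
  · rintro ⟨a, ha⟩ ⟨b, hb⟩
    exact Subtype.ext (V.ker_comm a b ha hb)
  · intro a ha
    exact V.ker_mul_self a ha
  · intro A B hA hcA hB hcB
    rw [V.eq_ker_of_abelian A hA hcA, V.eq_ker_of_abelian B hB hcB]

theorem comm_map {S S' : Type*} [Group S] [Group S'] (f : S →* S') (A : Subgroup S)
    (h : IsMulCommutative A) : IsMulCommutative (A.map f) := by
  refine ⟨⟨?_⟩⟩
  rintro ⟨_, a, ha, rfl⟩ ⟨_, b, hb, rfl⟩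
  apply Subtype.ext
  show f a * f b = f b * f a
  rw [← map_mul, ← map_mul]
  have := h.is_comm.comm (⟨a, ha⟩ : A) ⟨b, hb⟩
  exact congrArg (fun t : A => f t.1) this

/-- Transfer along an isomorphism. -/
theorem Q_of_equiv {S S' : Type*} [Group S] [Group S'] (e : S ≃* S') (h : Q S') : Q S := by
  obtain ⟨h1, ⟨A', hA', hcA'⟩, h3⟩ := h
  have hmapcard : ∀ A : Subgroup S, Nat.card (A.map e.toMonoidHom) = Nat.card A := by
    intro A
    exact Nat.card_congr (e.subgroupMap A).symm.toEquiv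
  refine ⟨?_, ⟨A'.map e.symm.toMonoidHom, ⟨?_, ?_⟩, ?_⟩, ?_⟩
  · intro M hM
    have hM' : IsCoatom (M.map e.toMonoidHom) := by
      have := (OrderIso.isCoatom_iff (e.mapSubgroup) M).2 hM
      exact this
    have h4 := h1 _ hM'
    have h5 : Nat.card (Subgroup.center M) = Nat.card (Subgroup.center (M.map e.toMonoidHom)) :=
      Nat.card_congr (Subgroup.centerCongr (e.subgroupMap M)).toEquiv
    rw [h5]
    exact h4
  · exact comm_map _ _ hA'.1
  · rintro _ ⟨a, ha, rfl⟩
    show (e.symm a) ^ 2 = 1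
    rw [← map_pow, hA'.2 a ha, map_one]
  · rw [← hcA']
    exact Nat.card_congr (e.symm.subgroupMap A').symm.toEquiv
  · intro A B hA hcA hB hcB
    apply Subgroup.map_injective (f := e.toMonoidHom) e.injective
    exact h3 _ _ (comm_map _ _ hA) (by rw [hmapcard, hcA]) (comm_map _ _ hB) (by rw [hmapcard, hcB])

/-- Upper unitriangular 5 × 5 matrices over the field with two elements. -/
@[ext] structure U where
  (a12 a13 a14 a15 a23 a24 a25 a34 a35 a45 : ZMod 2)
  deriving DecidableEq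

namespace U

instance : Mul U := ⟨fun x y =>
  { a12 := x.a12 + y.a12
    a13 := x.a13 + y.a13 + x.a12 * y.a23
    a14 := x.a14 + y.a14 + x.a12 * y.a24 + x.a13 * y.a34
    a15 := x.a15 + y.a15 + x.a12 * y.a25 + x.a13 * y.a35 + x.a14 * y.a45
    a23 := x.a23 + y.a23
    a24 := x.a24 + y.a24 + x.a23 * y.a34
    a25 := x.a25 + y.a25 + x.a23 * y.a35 + x.a24 * y.a45
    a34 := x.a34 + y.a34
    a35 := x.a35 + y.a35 + x.a34 * y.a45
    a45 := x.a45 + y.a45 }⟩

instance : One U := ⟨⟨0, 0, 0, 0, 0, 0, 0, 0, 0, 0⟩⟩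

instance : Inv U := ⟨fun x =>
  { a12 := x.a12
    a13 := x.a13 + x.a12 * x.a23
    a14 := x.a14 + x.a12 * x.a24 + (x.a13 + x.a12 * x.a23) * x.a34
    a15 := x.a15 + x.a12 * x.a25 + (x.a13 + x.a12 * x.a23) * x.a35 +
      (x.a14 + x.a12 * x.a24 + (x.a13 + x.a12 * x.a23) * x.a34) * x.a45
    a23 := x.a23
    a24 := x.a24 + x.a23 * x.a34
    a25 := x.a25 + x.a23 * x.a35 + (x.a24 + x.a23 * x.a34) * x.a45
    a34 := x.a34
    a35 := x.a35 + x.a34 * x.a45
    a45 := x.a45 }⟩

@[simp] theorem mul_a12 (x y : U) : (x * y).a12 = x.a12 + y.a12 := rfl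
@[simp] theorem mul_a13 (x y : U) : (x * y).a13 = x.a13 + y.a13 + x.a12 * y.a23 := rfl
@[simp] theorem mul_a14 (x y : U) : (x * y).a14 = x.a14 + y.a14 + x.a12 * y.a24 + x.a13 * y.a34 := rfl
@[simp] theorem mul_a15 (x y : U) :
    (x * y).a15 = x.a15 + y.a15 + x.a12 * y.a25 + x.a13 * y.a35 + x.a14 * y.a45 := rfl
@[simp] theorem mul_a23 (x y : U) : (x * y).a23 = x.a23 + y.a23 := rfl
@[simp] theorem mul_a24 (x y : U) : (x * y).a24 = x.a24 + y.a24 + x.a23 * y.a34 := rfl
@[simp] theorem mul_a25 (x y : U) : (x * y).a25 = x.a25 + y.a25 + x.a23 * y.a35 + x.a24 * y.a45 := rfl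
@[simp] theorem mul_a34 (x y : U) : (x * y).a34 = x.a34 + y.a34 := rfl
@[simp] theorem mul_a35 (x y : U) : (x * y).a35 = x.a35 + y.a35 + x.a34 * y.a45 := rfl
@[simp] theorem mul_a45 (x y : U) : (x * y).a45 = x.a45 + y.a45 := rfl

theorem inv_mul (x : U) : x⁻¹ * x = 1 := by
  obtain ⟨a, b, c, d, e, f, g, h, i, j⟩ := x
  revert a b c d e f g h i j
  decide +kernel

instance : Group U := Group.ofLeftAxioms
  (fun x y z => by
    ext <;> simp only [mul_a12, mul_a13, mul_a14, mul_a15, mul_a23, mul_a24, mul_a25, mul_a34, mul_a35, mul_a45] <;>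
      ring)
  (fun x => by
    show (1 : U) * x = x
    ext <;> simp only [mul_a12, mul_a13, mul_a14, mul_a15, mul_a23, mul_a24, mul_a25, mul_a34, mul_a35, mul_a45] <;>
      simp [show (1 : U).a12 = 0 from rfl, show (1 : U).a13 = 0 from rfl, show (1 : U).a14 = 0 from rfl,
        show (1 : U).a15 = 0 from rfl,
        show (1 : U).a23 = 0 from rfl, show (1 : U).a24 = 0 from rfl, show (1 : U).a25 = 0 from rfl,
        show (1 : U).a34 = 0 from rfl, show (1 : U).a35 = 0 from rfl, show (1 : U).a45 = 0 from rfl])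
  inv_mul

/-- Elementary matrices. -/
def E12 : U := ⟨1, 0, 0, 0, 0, 0, 0, 0, 0, 0⟩
def E13 : U := ⟨0, 1, 0, 0, 0, 0, 0, 0, 0, 0⟩
def E14 : U := ⟨0, 0, 1, 0, 0, 0, 0, 0, 0, 0⟩
def E15 : U := ⟨0, 0, 0, 1, 0, 0, 0, 0, 0, 0⟩
def E23 : U := ⟨0, 0, 0, 0, 1, 0, 0, 0, 0, 0⟩
def E24 : U := ⟨0, 0, 0, 0, 0, 1, 0, 0, 0, 0⟩
def E25 : U := ⟨0, 0, 0, 0, 0, 0, 1, 0, 0, 0⟩
def E34 : U := ⟨0, 0, 0, 0, 0, 0, 0, 1, 0, 0⟩
def E35 : U := ⟨0, 0, 0, 0, 0, 0, 0, 0, 1, 0⟩
def E45 : U := ⟨0, 0, 0, 0, 0, 0, 0, 0, 0, 1⟩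

theorem e13 : E13 = E12 * E23 * E12 * E23 := by decide +kernel
theorem e24 : E24 = E23 * E34 * E23 * E34 := by decide +kernel
theorem e35 : E35 = E34 * E45 * E34 * E45 := by decide +kernel
theorem e14 : E14 = E12 * E24 * E12 * E24 := by decide +kernel
theorem e25 : E25 = E23 * E35 * E23 * E35 := by decide +kernel
theorem e15 : E15 = E12 * E25 * E12 * E25 := by decide +kernel

/-- A power with exponent in the field. -/
def pw (a : ZMod 2) (g : U) : U := if a = 1 then g else 1

theorem nf (x : U) : x = pw x.a15 E15 * pw x.a25 E25 * pw x.a35 E35 * pw x.a45 E45 * pw x.a14 E14 * pw x.a24 E24 *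
    pw x.a34 E34 * pw x.a13 E13 * pw x.a23 E23 * pw x.a12 E12 := by
  obtain ⟨a, b, c, d, e, f, g, h, i, j⟩ := x
  revert a b c d e f g h i j
  decide +kernel

def toP (x : U) : ZMod 2 × ZMod 2 × ZMod 2 × ZMod 2 × ZMod 2 × ZMod 2 × ZMod 2 × ZMod 2 × ZMod 2 × ZMod 2 :=
  (x.a12, x.a13, x.a14, x.a15, x.a23, x.a24, x.a25, x.a34, x.a35, x.a45)

def ofP (x : ZMod 2 × ZMod 2 × ZMod 2 × ZMod 2 × ZMod 2 × ZMod 2 × ZMod 2 × ZMod 2 × ZMod 2 × ZMod 2) : U :=
  ⟨x.1, x.2.1, x.2.2.1, x.2.2.2.1, x.2.2.2.2.1, x.2.2.2.2.2.1, x.2.2.2.2.2.2.1, x.2.2.2.2.2.2.2.1,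
    x.2.2.2.2.2.2.2.2.1, x.2.2.2.2.2.2.2.2.2⟩

instance : Fintype U := Fintype.ofEquiv _ (⟨ofP, toP, fun _ => rfl, fun _ => rfl⟩ :
  ZMod 2 × ZMod 2 × ZMod 2 × ZMod 2 × ZMod 2 × ZMod 2 × ZMod 2 × ZMod 2 × ZMod 2 × ZMod 2 ≃ U)

theorem natCard : Nat.card U = 2 ^ 10 := by
  rw [Nat.card_eq_fintype_card]
  decide +kernel

/-- The projection to the quotient by the corner. -/
def pi : U →* V where
  toFun x := ⟨x.a12, x.a13, x.a14, x.a23, x.a24, x.a25, x.a34, x.a35, x.a45⟩
  map_one' := rfl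
  map_mul' _ _ := rfl

theorem pi_surj : Function.Surjective pi := by
  intro y
  exact ⟨⟨y.a12, y.a13, y.a14, 0, y.a23, y.a24, y.a25, y.a34, y.a35, y.a45⟩, rfl⟩

theorem center_of_gens (z : U) (h1 : z * E12 = E12 * z) (h2 : z * E23 = E23 * z) (h3 : z * E34 = E34 * z)
    (h4 : z * E45 = E45 * z) : pi z = 1 := by
  revert h1 h2 h3 h4
  obtain ⟨a, b, c, d, e, f, g, h, i, j⟩ := z
  revert a b c d e f g h i j
  decide +kernel

theorem corner_central (d : ZMod 2) (y : U) :
    (⟨0, 0, 0, d, 0, 0, 0, 0, 0, 0⟩ : U) * y = y * (⟨0, 0, 0, d, 0, 0, 0, 0, 0, 0⟩ : U) := by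
  ext <;> simp only [mul_a12, mul_a13, mul_a14, mul_a15, mul_a23, mul_a24, mul_a25, mul_a34, mul_a35, mul_a45] <;> ring

theorem center_eq_ker : Subgroup.center U = pi.ker := by
  ext z
  rw [Subgroup.mem_center_iff, MonoidHom.mem_ker]
  constructor
  · intro h
    exact center_of_gens z (h _).symm (h _).symm (h _).symm (h _).symm
  · intro h y
    have h1 : z = (⟨0, 0, 0, z.a15, 0, 0, 0, 0, 0, 0⟩ : U) := by
      have a := congrArg V.a12 h
      have b := congrArg V.a13 h
      have c := congrArg V.a14 h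
      have d := congrArg V.a23 h
      have e := congrArg V.a24 h
      have f := congrArg V.a25 h
      have g := congrArg V.a34 h
      have i := congrArg V.a35 h
      have j := congrArg V.a45 h
      ext
      · exact a
      · exact b
      · exact c
      · rfl
      · exact d
      · exact e
      · exact f
      · exact g
      · exact i
      · exact j
    rw [h1]
    exact (corner_central _ y).symm

end U

section data
def g12 : List ℕ := [12, 10, 4, 7, 2, 5, 21, 3, 8, 13, 1, 20, 0, 9, 14, 15, 16, 17, 22, 19, 11, 6, 18, 23]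
def g13 : List ℕ := [10, 12, 3, 2, 7, 5, 21, 4, 17, 9, 0, 20, 1, 13, 15, 14, 16, 8, 18, 19, 11, 6, 22, 23]
def g14 : List ℕ := [3, 4, 10, 0, 1, 5, 6, 12, 17, 9, 2, 20, 7, 13, 14, 15, 16, 8, 22, 23, 11, 21, 18, 19]
def g15 : List ℕ := [0, 1, 2, 3, 4, 16, 21, 7, 17, 13, 10, 20, 12, 9, 15, 14, 5, 8, 22, 23, 11, 6, 18, 19]
def g23 : List ℕ := [3, 7, 10, 0, 12, 5, 15, 1, 11, 9, 2, 8, 4, 13, 21, 6, 16, 20, 18, 19, 17, 14, 22, 23]
def g24 : List ℕ := [2, 12, 0, 10, 7, 5, 6, 4, 11, 9, 3, 8, 1, 13, 14, 15, 16, 20, 23, 22, 17, 21, 19, 18]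
def g25 : List ℕ := [0, 1, 2, 3, 4, 13, 15, 7, 11, 16, 10, 8, 12, 5, 21, 6, 9, 20, 23, 22, 17, 14, 19, 18]
def g34 : List ℕ := [7, 10, 4, 12, 2, 5, 6, 0, 19, 9, 1, 22, 3, 13, 14, 15, 16, 23, 20, 8, 18, 21, 11, 17]
def g35 : List ℕ := [0, 1, 2, 3, 4, 14, 9, 7, 19, 6, 10, 22, 12, 21, 5, 16, 15, 23, 20, 8, 18, 13, 11, 17]
def g45 : List ℕ := [0, 1, 2, 3, 4, 23, 11, 7, 15, 22, 10, 6, 12, 18, 17, 8, 19, 14, 13, 16, 21, 20, 9, 5]
end data

section act
open Cfsg.Agent.Lib.Golay

/-- A step of the action. -/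
def stp (a : ZMod 2) (l : List ℕ) (i : ℕ) : ℕ := if a = 1 then lk l i else i

def Tl (a b c d : ZMod 2) : List (ZMod 2 × List ℕ) := [(a, g15), (b, g25), (c, g35), (d, g45)]
def Kl (a b c : ZMod 2) : List (ZMod 2 × List ℕ) := [(a, g14), (b, g24), (c, g34)]
def Ll (a b : ZMod 2) : List (ZMod 2 × List ℕ) := [(a, g13), (b, g23)]
def Ml (a : ZMod 2) : List (ZMod 2 × List ℕ) := [(a, g12)]

/-- The steps for a matrix. -/
def steps (x : U) : List (ZMod 2 × List ℕ) :=
  Tl x.a15 x.a25 x.a35 x.a45 ++ (Kl x.a14 x.a24 x.a34 ++ (Ll x.a13 x.a23 ++ Ml x.a12))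

/-- The action on the 24 points, by numbers. -/
def actS (L : List (ZMod 2 × List ℕ)) (i : ℕ) : ℕ := L.foldr (fun s acc => stp s.1 s.2 acc) i

/-- The permutation of a step. -/
noncomputable def pwP (a : ZMod 2) (l : List ℕ) : Equiv.Perm GolayPt := if a = 1 then perm l else 1

/-- The permutation of a list of steps. -/
noncomputable def psiS (L : List (ZMod 2 × List ℕ)) : Equiv.Perm GolayPt :=
  L.foldr (fun s acc => pwP s.1 s.2 * acc) 1

theorem psiS_append (L₁ L₂ : List (ZMod 2 × List ℕ)) : psiS (L₁ ++ L₂) = psiS L₁ * psiS L₂ := by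
  induction L₁ with
  | nil => simp [psiS]
  | cons s L ih =>
    have h1 : psiS (s :: L ++ L₂) = pwP s.1 s.2 * psiS (L ++ L₂) := rfl
    have h2 : psiS (s :: L) = pwP s.1 s.2 * psiS L := rfl
    rw [h1, h2, ih, mul_assoc]

/-- The lists consist of permutations. -/
def allPerm (L : List (ZMod 2 × List ℕ)) : Bool := L.all fun s => isPerm s.2

theorem allPerm_iff {L : List (ZMod 2 × List ℕ)} (h : allPerm L = true) : ∀ s ∈ L, isPerm s.2 = true :=
  List.all_eq_true.1 h

/-- The check that two lists give the same permutation. -/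
def chk (L₁ L₂ : List (ZMod 2 × List ℕ)) : Bool :=
  allPerm L₁ && allPerm L₂ && (List.range 24).all fun p => Nat.beq (actS L₁ p) (actS L₂ p)

theorem actS_lt (L : List (ZMod 2 × List ℕ)) (hL : ∀ s ∈ L, isPerm s.2 = true) (i : ℕ) (hi : i < 24) :
    actS L i < 24 := by
  induction L with
  | nil => simpa [actS] using hi
  | cons s L ih =>
    have h1 := ih (fun t ht => hL t (List.mem_cons_of_mem _ ht))
    show stp s.1 s.2 (actS L i) < 24
    unfold stp
    split_ifs
    · exact isPerm_lt (hL s (List.mem_cons_self)) h1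
    · exact h1

theorem psiS_pt (L : List (ZMod 2 × List ℕ)) (hL : ∀ s ∈ L, isPerm s.2 = true) (i : ℕ) (hi : i < 24) :
    psiS L (pt i) = pt (actS L i) := by
  induction L with
  | nil => simp [psiS, actS]
  | cons s L ih =>
    have h1 := ih (fun t ht => hL t (List.mem_cons_of_mem _ ht))
    have h2 := actS_lt L (fun t ht => hL t (List.mem_cons_of_mem _ ht)) i hi
    have h3 : psiS (s :: L) = pwP s.1 s.2 * psiS L := rfl
    rw [h3, Equiv.Perm.mul_apply, h1]
    show pwP s.1 s.2 (pt (actS L i)) = pt (stp s.1 s.2 (actS L i))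
    unfold pwP stp
    split_ifs
    · exact perm_pt (hL s (List.mem_cons_self)) h2
    · rfl

theorem psiS_eq_of_chk {L₁ L₂ : List (ZMod 2 × List ℕ)} (h : chk L₁ L₂ = true) : psiS L₁ = psiS L₂ := by
  simp only [chk, Bool.and_eq_true, List.all_eq_true] at h
  obtain ⟨⟨h1, h2⟩, h3⟩ := h
  ext p
  rw [← pt_idx p, psiS_pt _ (allPerm_iff h1) _ (idx_lt p), psiS_pt _ (allPerm_iff h2) _ (idx_lt p),
    Nat.eq_of_beq_eq_true (h3 _ (List.mem_range.2 (idx_lt p)))]

theorem gens_ok : ∀ l ∈ [g15, g25, g35, g45, g14, g24, g34, g13, g23, g12], isPerm l = true ∧ autCheck l = true := by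
  decide +kernel

theorem steps_ok (x : U) (s : ZMod 2 × List ℕ) (hs : s ∈ steps x) : isPerm s.2 = true ∧ autCheck s.2 = true := by
  apply gens_ok
  simp only [steps, Tl, Kl, Ll, Ml, List.cons_append, List.nil_append, List.mem_cons, List.not_mem_nil, or_false] at hs ⊢
  rcases hs with rfl | rfl | rfl | rfl | rfl | rfl | rfl | rfl | rfl | rfl <;> simp

theorem psiS_mem (L : List (ZMod 2 × List ℕ)) (hL : ∀ s ∈ L, isPerm s.2 = true ∧ autCheck s.2 = true) :
    psiS L ∈ Cfsg.M24 := by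
  induction L with
  | nil => exact Subgroup.one_mem _
  | cons s L ih =>
    have h1 := ih (fun t ht => hL t (List.mem_cons_of_mem _ ht))
    have h3 : psiS (s :: L) = pwP s.1 s.2 * psiS L := rfl
    rw [h3]
    refine Subgroup.mul_mem _ ?_ h1
    unfold pwP
    split_ifs
    · have h4 := hL s (List.mem_cons_self)
      exact perm_mem_M24 h4.1 h4.2
    · exact Subgroup.one_mem _

/-- The map from the matrices to the Mathieu group. -/
noncomputable def psiF (x : U) : Equiv.Perm GolayPt := psiS (steps x)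

theorem psiF_pt (x : U) (i : ℕ) (hi : i < 24) : psiF x (pt i) = pt (actS (steps x) i) :=
  psiS_pt _ (fun s hs => (steps_ok x s hs).1) i hi

theorem psiF_mem (x : U) : psiF x ∈ Cfsg.M24 := psiS_mem _ (fun s hs => steps_ok x s hs)

theorem chkT : ∀ a b c d a' b' c' d' : ZMod 2,
    chk (Tl (a + a') (b + b') (c + c') (d + d')) (Tl a b c d ++ Tl a' b' c' d') = true := by
  decide +kernel

theorem chk45 : ∀ a b c d e f : ZMod 2,
    chk (Tl a b c 1 ++ (Kl a b c ++ (Ll d e ++ Ml f))) ((Kl a b c ++ (Ll d e ++ Ml f)) ++ steps U.E45) = true := by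
  decide +kernel

theorem chk34 : ∀ a b c d e f : ZMod 2,
    chk (Kl (a + d) (b + e) (c + 1) ++ (Ll d e ++ Ml f)) ((Kl a b c ++ (Ll d e ++ Ml f)) ++ steps U.E34) = true := by
  decide +kernel

theorem chk23 : ∀ d e f : ZMod 2,
    chk (Ll (d + f) (e + 1) ++ Ml f) ((Ll d e ++ Ml f) ++ steps U.E23) = true := by
  decide +kernel

theorem chk12 : ∀ f : ZMod 2, chk (Ml (f + 1)) (Ml f ++ steps U.E12) = true := by
  decide +kernel

theorem cancel_T {Ts Tt Tst R E : List (ZMod 2 × List ℕ)} (h1 : psiS (Tt ++ R) = psiS (R ++ E))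
    (h2 : psiS Tst = psiS (Ts ++ Tt)) : psiS (Tst ++ R) = psiS (Ts ++ R) * psiS E := by
  simp only [psiS_append] at *
  rw [h2, mul_assoc, h1, mul_assoc]

theorem prefix_eq {P A A' E : List (ZMod 2 × List ℕ)} (h : psiS A' = psiS A * psiS E) :
    psiS (P ++ A') = psiS (P ++ A) * psiS E := by
  simp only [psiS_append] at *
  rw [h, mul_assoc]

/-- Right multiplication by a generator. -/
theorem hom45 (x : U) : psiF (x * U.E45) = psiF x * psiF U.E45 := by
  have hs : steps (x * U.E45) = Tl (x.a15 + x.a14) (x.a25 + x.a24) (x.a35 + x.a34) (x.a45 + 1) ++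
      (Kl x.a14 x.a24 x.a34 ++ (Ll x.a13 x.a23 ++ Ml x.a12)) := by
    simp [steps, U.E45]
  unfold psiF
  rw [hs]
  exact cancel_T (psiS_eq_of_chk (chk45 x.a14 x.a24 x.a34 x.a13 x.a23 x.a12))
    (psiS_eq_of_chk (chkT x.a15 x.a25 x.a35 x.a45 x.a14 x.a24 x.a34 1))

theorem hom34 (x : U) : psiF (x * U.E34) = psiF x * psiF U.E34 := by
  have hs : steps (x * U.E34) = Tl x.a15 x.a25 x.a35 x.a45 ++
      (Kl (x.a14 + x.a13) (x.a24 + x.a23) (x.a34 + 1) ++ (Ll x.a13 x.a23 ++ Ml x.a12)) := by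
    simp [steps, U.E34]
  unfold psiF
  rw [hs]
  exact prefix_eq ((psiS_eq_of_chk (chk34 x.a14 x.a24 x.a34 x.a13 x.a23 x.a12)).trans (psiS_append _ _))

theorem hom23 (x : U) : psiF (x * U.E23) = psiF x * psiF U.E23 := by
  have hs : steps (x * U.E23) = Tl x.a15 x.a25 x.a35 x.a45 ++
      (Kl x.a14 x.a24 x.a34 ++ (Ll (x.a13 + x.a12) (x.a23 + 1) ++ Ml x.a12)) := by
    simp [steps, U.E23]
  unfold psiF
  rw [hs]
  have h := prefix_eq (P := Kl x.a14 x.a24 x.a34) ((psiS_eq_of_chk (chk23 x.a13 x.a23 x.a12)).trans (psiS_append _ _))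
  have h2 := prefix_eq (P := Tl x.a15 x.a25 x.a35 x.a45) h
  exact h2

theorem hom12 (x : U) : psiF (x * U.E12) = psiF x * psiF U.E12 := by
  have hs : steps (x * U.E12) = Tl x.a15 x.a25 x.a35 x.a45 ++
      (Kl x.a14 x.a24 x.a34 ++ (Ll x.a13 x.a23 ++ Ml (x.a12 + 1))) := by
    simp [steps, U.E12]
  unfold psiF
  rw [hs]
  have h := prefix_eq (P := Ll x.a13 x.a23) ((psiS_eq_of_chk (chk12 x.a12)).trans (psiS_append _ _))
  have h2 := prefix_eq (P := Kl x.a14 x.a24 x.a34) h
  have h3 := prefix_eq (P := Tl x.a15 x.a25 x.a35 x.a45) h2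
  exact h3

/-- The elements along which the map is multiplicative. -/
def Good (y : U) : Prop := ∀ x, psiF (x * y) = psiF x * psiF y

theorem psiF_one : psiF 1 = 1 := by
  apply psiS_eq_of_chk (L₂ := []) (by decide +kernel)

theorem good_one : Good 1 := by
  intro x
  rw [mul_one, psiF_one, mul_one]

theorem good_mul {a b : U} (ha : Good a) (hb : Good b) : Good (a * b) := by
  intro x
  have h1 : psiF (a * b) = psiF a * psiF b := hb a
  rw [← mul_assoc, hb, ha, h1, mul_assoc]

theorem good_pw {a : ZMod 2} {g : U} (hg : Good g) : Good (U.pw a g) := by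
  unfold U.pw
  split_ifs
  · exact hg
  · exact good_one

theorem good_all (y : U) : Good y := by
  have h12 : Good U.E12 := hom12
  have h23 : Good U.E23 := hom23
  have h34 : Good U.E34 := hom34
  have h45 : Good U.E45 := hom45
  have h13 : Good U.E13 := by
    rw [U.e13]; exact good_mul (good_mul (good_mul h12 h23) h12) h23
  have h24 : Good U.E24 := by
    rw [U.e24]; exact good_mul (good_mul (good_mul h23 h34) h23) h34
  have h35 : Good U.E35 := by
    rw [U.e35]; exact good_mul (good_mul (good_mul h34 h45) h34) h45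
  have h14 : Good U.E14 := by
    rw [U.e14]; exact good_mul (good_mul (good_mul h12 h24) h12) h24
  have h25 : Good U.E25 := by
    rw [U.e25]; exact good_mul (good_mul (good_mul h23 h35) h23) h35
  have h15 : Good U.E15 := by
    rw [U.e15]; exact good_mul (good_mul (good_mul h12 h25) h12) h25
  rw [U.nf y]
  exact good_mul (good_mul (good_mul (good_mul (good_mul (good_mul (good_mul (good_mul (good_mul
    (good_pw h15) (good_pw h25)) (good_pw h35)) (good_pw h45)) (good_pw h14)) (good_pw h24)) (good_pw h34))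
    (good_pw h13)) (good_pw h23)) (good_pw h12)

/-- The embedding into the Mathieu group. -/
noncomputable def psiH : U →* ↥Cfsg.M24 :=
  MonoidHom.mk' (fun x => ⟨psiF x, psiF_mem x⟩) (fun a b => Subtype.ext (good_all b a))

theorem inj_chk : ∀ a b c d e f g h i j : ZMod 2,
    (List.range 24).all (fun p => Nat.beq (actS (steps ⟨a, b, c, d, e, f, g, h, i, j⟩) p) p) = true →
      (⟨a, b, c, d, e, f, g, h, i, j⟩ : U) = 1 := by
  decide +kernel

theorem psiH_inj : Function.Injective psiH := by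
  rw [injective_iff_map_eq_one]
  intro x hx
  have h1 : psiF x = 1 := congrArg Subtype.val hx
  obtain ⟨a, b, c, d, e, f, g, h, i, j⟩ := x
  apply inj_chk
  rw [List.all_eq_true]
  intro p hp
  have hp' := List.mem_range.1 hp
  have h2 := psiF_pt ⟨a, b, c, d, e, f, g, h, i, j⟩ p hp'
  rw [h1] at h2
  have h3 : idx (pt p) = idx (pt (actS (steps ⟨a, b, c, d, e, f, g, h, i, j⟩) p)) := congrArg idx h2
  rw [idx_pt hp', idx_pt (actS_lt _ (fun s hs => (steps_ok _ s hs).1) p hp')] at h3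
  rw [← h3]
  exact Nat.beq_refl p

end act

section final

theorem M24_card : Nat.card ↥Cfsg.M24 = 244823040 := Cfsg.Agent.Lib.Golay.card_M24

/-- The range is a Sylow subgroup. -/
noncomputable def T0 : Sylow 2 ↥Cfsg.M24 :=
  haveI : Fact (Nat.Prime 2) := ⟨Nat.prime_two⟩
  IsPGroup.toSylow (P := psiH.range) (by
    apply IsPGroup.of_card (n := 10)
    rw [← U.natCard]
    exact (Nat.card_congr (MonoidHom.ofInjective psiH_inj).toEquiv).symm) (by
    have h1 : Nat.card psiH.range = 2 ^ 10 := by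
      rw [← U.natCard]
      exact (Nat.card_congr (MonoidHom.ofInjective psiH_inj).toEquiv).symm
    have h2 := Subgroup.card_mul_index psiH.range
    rw [h1, M24_card] at h2
    have h3 : psiH.range.index = 239085 := by omega
    rw [h3]
    norm_num)

theorem map_center_equiv {G H : Type*} [Group G] [Group H] (e : G ≃* H) :
    (Subgroup.center G).map e.toMonoidHom = Subgroup.center H := by
  ext y
  simp only [Subgroup.mem_map, Subgroup.mem_center_iff]
  constructor
  · rintro ⟨x, hx, rfl⟩ g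
    obtain ⟨g', rfl⟩ := e.surjective g
    show e g' * e x = e x * e g'
    rw [← map_mul, ← map_mul, hx]
  · intro hy
    refine ⟨e.symm y, ?_, by simp⟩
    intro g
    apply e.injective
    rw [map_mul, map_mul, MulEquiv.apply_symm_apply]
    exact hy _

theorem main_thm (P : Sylow 2 ↥Cfsg.M24) :
    (∀ M : Subgroup (↥(P : Subgroup ↥Cfsg.M24) ⧸ Subgroup.center ↥(P : Subgroup ↥Cfsg.M24)), IsCoatom M →
        Nat.card ↥(Subgroup.center ↥M) ≤ 8) ∧
      (∃ A : Subgroup (↥(P : Subgroup ↥Cfsg.M24) ⧸ Subgroup.center ↥(P : Subgroup ↥Cfsg.M24)),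
        Cfsg.IsElementaryAbelian 2 A ∧ Nat.card ↥A = 64) ∧
      ∀ A B : Subgroup (↥(P : Subgroup ↥Cfsg.M24) ⧸ Subgroup.center ↥(P : Subgroup ↥Cfsg.M24)),
        IsMulCommutative ↥A → Nat.card ↥A = 64 → IsMulCommutative ↥B → Nat.card ↥B = 64 → A = B := by
  haveI : Fact (Nat.Prime 2) := ⟨Nat.prime_two⟩
  have e1 : ↥(P : Subgroup ↥Cfsg.M24) ≃* U :=
    (Sylow.equiv P T0).trans (MulEquiv.subgroupCongr (IsPGroup.toSylow_coe _ _)) |>.trans (MonoidHom.ofInjective psiH_inj).symm
  have e2 : (↥(P : Subgroup ↥Cfsg.M24) ⧸ Subgroup.center ↥(P : Subgroup ↥Cfsg.M24)) ≃* (U ⧸ Subgroup.center U) :=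
    QuotientGroup.congr _ _ e1 (map_center_equiv e1)
  have e3 : (U ⧸ Subgroup.center U) ≃* V :=
    (QuotientGroup.quotientMulEquivOfEq U.center_eq_ker).trans (QuotientGroup.quotientKerEquivOfSurjective _ U.pi_surj)
  exact Q_of_equiv (e2.trans e3) Q_V

end final


/-- Let P be a Sylow 2-subgroup of the Mathieu group of degree 24 and S the quotient of P by its centre. Then the centre of every maximal subgroup of S has order at most 8; S has an elementary abelian subgroup of order 64; and S has only one abelian subgroup of order 64. -/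
theorem result (P : Sylow 2 ↥Cfsg.M24) :
    (∀ M : Subgroup (↥(P : Subgroup ↥Cfsg.M24) ⧸ Subgroup.center ↥(P : Subgroup ↥Cfsg.M24)), IsCoatom M →
        Nat.card ↥(Subgroup.center ↥M) ≤ 8) ∧
      (∃ A : Subgroup (↥(P : Subgroup ↥Cfsg.M24) ⧸ Subgroup.center ↥(P : Subgroup ↥Cfsg.M24)),
        Cfsg.IsElementaryAbelian 2 A ∧ Nat.card ↥A = 64) ∧
      ∀ A B : Subgroup (↥(P : Subgroup ↥Cfsg.M24) ⧸ Subgroup.center ↥(P : Subgroup ↥Cfsg.M24)),
        IsMulCommutative ↥A → Nat.card ↥A = 64 → IsMulCommutative ↥B → Nat.card ↥B = 64 → A = B := by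
  exact main_thm P

end Cfsg.Agent.S3171
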