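import Cfsg.Statements.S3175
import Cfsg.Agent.Lib.Basic.Frattini

set_option autoImplicit false
set_option linter.unusedSectionVars false
set_option linter.unusedVariables false
set_option linter.deprecated false
open Cfsg

namespace Cfsg.Agent.S3175

open scoped commutatorElement

theorem card_two_mul_le_of_lt {T : Type*} [Group T] [Finite T] {A B : Subgroup T} (h : A ≤ B) (hne : A ≠ B) :
    2 * Nat.card A ≤ Nat.card B := by
  have hd : Nat.card A ∣ Nat.card B := Subgroup.card_dvd_of_le h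
  obtain ⟨k, hk⟩ := hd
  have hpos : 0 < Nat.card B := Nat.card_pos
  have hA : 0 < Nat.card A := Nat.card_pos
  have hk1 : k ≠ 1 := by
    rintro rfl
    apply hne
    exact Subgroup.eq_of_le_of_card_ge h (by omega)
  have hk0 : k ≠ 0 := by
    rintro rfl
    omega
  have : 2 ≤ k := by omega
  calc 2 * Nat.card A ≤ k * Nat.card A := Nat.mul_le_mul_right _ this
    _ = Nat.card B := by rw [hk, mul_comm]

section TLevel

variable {T : Type*} [Group T] [Finite T]

theorem uc_succ {i : ℕ} {x : T} : x ∈ Subgroup.upperCentralSeries T (i + 1) ↔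
    ∀ y, x * y * x⁻¹ * y⁻¹ ∈ Subgroup.upperCentralSeries T i := by
  simp [Subgroup.mem_upperCentralSeries_succ_iff, commutatorElement_def]

theorem uc_mono (i : ℕ) : Subgroup.upperCentralSeries T i ≤ Subgroup.upperCentralSeries T (i + 1) := by
  intro x hx
  rw [uc_succ]
  intro y
  have h1 : y * x⁻¹ * y⁻¹ ∈ Subgroup.upperCentralSeries T i :=
    (inferInstance : (Subgroup.upperCentralSeries T i).Normal).conj_mem _ (inv_mem hx) y
  have : x * y * x⁻¹ * y⁻¹ = x * (y * x⁻¹ * y⁻¹) := by group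
  rw [this]
  exact mul_mem hx h1

theorem uc_monotone : Monotone (Subgroup.upperCentralSeries T) :=
  monotone_nat_of_le_succ uc_mono

theorem uc_eq_top_of_eq (hnil : Group.IsNilpotent T) {i : ℕ}
    (h : Subgroup.upperCentralSeries T i = Subgroup.upperCentralSeries T (i + 1)) : Subgroup.upperCentralSeries T i = ⊤ := by
  have key : ∀ k, Subgroup.upperCentralSeries T (i + k) = Subgroup.upperCentralSeries T i := by
    intro k
    induction k with
    | zero => rfl
    | succ k ih =>
      ext x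
      rw [show i + (k + 1) = (i + k) + 1 from rfl, uc_succ, ih, ← uc_succ, ← h]
  obtain ⟨n, hn⟩ := hnil.nilpotent'
  rw [eq_top_iff, ← hn, ← key n]
  exact uc_monotone (by omega)

theorem uc_cards (hT : IsPGroup 2 T) (ha : 2 ^ 14 ≤ Nat.card T)
    (hb : Nat.card ↥(Subgroup.upperCentralSeries T 4) = 16) :
    Nat.card ↥(Subgroup.upperCentralSeries T 0) = 1 ∧ Nat.card ↥(Subgroup.upperCentralSeries T 1) = 2 ∧
    Nat.card ↥(Subgroup.upperCentralSeries T 2) = 4 ∧ Nat.card ↥(Subgroup.upperCentralSeries T 3) = 8 := by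
  haveI : Fact (Nat.Prime 2) := ⟨Nat.prime_two⟩
  have hnil : Group.IsNilpotent T := hT.isNilpotent
  have hne : ∀ i, i ≤ 3 → Subgroup.upperCentralSeries T i ≠ Subgroup.upperCentralSeries T (i + 1) := by
    intro i hi h
    have h1 := uc_eq_top_of_eq hnil h
    have h2 : Subgroup.upperCentralSeries T i ≤ Subgroup.upperCentralSeries T 4 := uc_monotone (by omega)
    rw [h1, top_le_iff] at h2
    rw [h2, Subgroup.card_top] at hb
    omega
  have h0 : Nat.card ↥(Subgroup.upperCentralSeries T 0) = 1 := by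
    rw [Subgroup.upperCentralSeries_zero]
    exact Subgroup.card_bot
  have h01 := card_two_mul_le_of_lt (uc_mono 0) (hne 0 (by omega))
  have h12 := card_two_mul_le_of_lt (uc_mono 1) (hne 1 (by omega))
  have h23 := card_two_mul_le_of_lt (uc_mono 2) (hne 2 (by omega))
  have h34 := card_two_mul_le_of_lt (uc_mono 3) (hne 3 (by omega))
  simp only [zero_add, Nat.reduceAdd] at h01 h12 h23 h34
  omega

theorem normal_le_uc (hT : IsPGroup 2 T) :
    ∀ (i : ℕ) (K : Subgroup T), K.Normal → Nat.card K ≤ 2 ^ i → K ≤ Subgroup.upperCentralSeries T i := by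
  haveI : Fact (Nat.Prime 2) := ⟨Nat.prime_two⟩
  have hnil : Group.IsNilpotent T := hT.isNilpotent
  intro i
  induction i with
  | zero =>
    intro K _ h
    have : K = ⊥ := Subgroup.eq_bot_of_card_le K (by simpa using h)
    rw [this]
    exact bot_le
  | succ i ih =>
    intro K hK h
    have hk1 : ⁅K, (⊤ : Subgroup T)⁆ ≤ K := Subgroup.commutator_le_left K ⊤
    by_cases hKb : K = ⊥
    · rw [hKb]
      exact bot_le
    have hne : ⁅K, (⊤ : Subgroup T)⁆ ≠ K := by
      intro he
      apply hKb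
      obtain ⟨n, hn⟩ := Subgroup.nilpotent_iff_lowerCentralSeries.mp hnil
      have key : ∀ m, K ≤ (⊤ : Subgroup T).lowerCentralSeries m := by
        intro m
        induction m with
        | zero => exact le_top
        | succ m ihm =>
          rw [Subgroup.lowerCentralSeries_succ]
          calc K = ⁅K, (⊤ : Subgroup T)⁆ := he.symm
            _ ≤ _ := Subgroup.commutator_mono ihm le_rfl
      have := key n
      rw [hn] at this
      exact le_bot_iff.mp this
    have hc := card_two_mul_le_of_lt hk1 hne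
    have hc2 : Nat.card ↥(⁅K, (⊤ : Subgroup T)⁆) ≤ 2 ^ i := by
      rw [pow_succ] at h
      omega
    have h1 := ih _ inferInstance hc2
    intro x hx
    rw [uc_succ]
    intro y
    exact h1 (Subgroup.commutator_mem_commutator hx (Subgroup.mem_top y))

theorem two_rule {A B : Subgroup T} (hAB : A ≤ B) (hc : Nat.card B = 2 * Nat.card A) {x u : T}
    (hx : x ∈ B) (hxA : x ∉ A) (hu : u ∈ B) (huA : u ∉ A) : x⁻¹ * u ∈ A := by
  have hi : (A.subgroupOf B).index = 2 := by
    have h1 := Subgroup.card_mul_index (A.subgroupOf B)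
    have h2 : Nat.card ↥(A.subgroupOf B) = Nat.card A :=
      Nat.card_congr (Subgroup.subgroupOfEquivOfLe hAB).toEquiv
    rw [h2, hc, mul_comm 2] at h1
    exact Nat.eq_of_mul_eq_mul_left Nat.card_pos h1
  have h3 := Subgroup.mul_mem_iff_of_index_two hi (a := (⟨x, hx⟩ : B)⁻¹) (b := ⟨u, hu⟩)
  have h4 : (⟨x, hx⟩ : B)⁻¹ * ⟨u, hu⟩ ∈ A.subgroupOf B := by
    rw [h3, Subgroup.inv_mem_iff]
    simp [Subgroup.mem_subgroupOf, hxA, huA]
  simpa [Subgroup.mem_subgroupOf] using h4

theorem exists_not_mem_of_card_lt {A B : Subgroup T} (h : Nat.card A < Nat.card B) :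
    ∃ x ∈ B, x ∉ A := by
  by_contra hcon
  push Not at hcon
  have : B ≤ A := hcon
  have := Subgroup.card_le_of_le this
  omega

theorem index_centralizer_le {x : T} {A : Subgroup T} (h : ∀ t : T, t * x * t⁻¹ * x⁻¹ ∈ A) :
    (Subgroup.centralizer ({x} : Set T)).index ≤ Nat.card A := by
  rw [Subgroup.index_eq_card]
  let f : T ⧸ Subgroup.centralizer ({x} : Set T) → A := fun q => ⟨_, h q.out⟩
  refine Nat.card_le_card_of_injective f ?_
  intro p q hpq
  have h1 : p.out * x * p.out⁻¹ * x⁻¹ = q.out * x * q.out⁻¹ * x⁻¹ := congrArg Subtype.val hpq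
  have h2 : p.out * x * p.out⁻¹ = q.out * x * q.out⁻¹ := mul_right_cancel h1
  rw [← QuotientGroup.out_eq' p, ← QuotientGroup.out_eq' q, QuotientGroup.eq,
    Subgroup.mem_centralizer_singleton_iff]
  have h3 : p.out⁻¹ * q.out * x = x * (p.out⁻¹ * q.out) := by
    have : x * p.out⁻¹ * q.out = p.out⁻¹ * q.out * x := by
      calc x * p.out⁻¹ * q.out = p.out⁻¹ * (p.out * x * p.out⁻¹) * q.out := by group
        _ = p.out⁻¹ * (q.out * x * q.out⁻¹) * q.out := by rw [h2]
        _ = p.out⁻¹ * q.out * x := by group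
    rw [← this]
    group
  exact h3

theorem index_W_le (hT : IsPGroup 2 T) (ha : 2 ^ 14 ≤ Nat.card T)
    (hb : Nat.card ↥(Subgroup.upperCentralSeries T 4) = 16)
    (W : Subgroup T) (hW : W = Subgroup.centralizer ((Subgroup.upperCentralSeries T 3 : Subgroup T) : Set T)) :
    W.index ≤ 8 := by
  obtain ⟨h0, h1, h2, h3⟩ := uc_cards hT ha hb
  obtain ⟨x₂, hx₂, hx₂'⟩ := exists_not_mem_of_card_lt (A := Subgroup.upperCentralSeries T 1)
    (B := Subgroup.upperCentralSeries T 2) (by omega)
  obtain ⟨x₃, hx₃, hx₃'⟩ := exists_not_mem_of_card_lt (A := Subgroup.upperCentralSeries T 2)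
    (B := Subgroup.upperCentralSeries T 3) (by omega)
  have hc2 : (Subgroup.centralizer ({x₂} : Set T)).index ≤ Nat.card ↥(Subgroup.upperCentralSeries T 1) := by
    apply index_centralizer_le
    intro t
    have := (uc_succ.mp hx₂) t
    have h4 : t * x₂ * t⁻¹ * x₂⁻¹ = (x₂ * t * x₂⁻¹ * t⁻¹)⁻¹ := by group
    rw [h4]
    exact inv_mem this
  have hc3 : (Subgroup.centralizer ({x₃} : Set T)).index ≤ Nat.card ↥(Subgroup.upperCentralSeries T 2) := by
    apply index_centralizer_le
    intro t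
    have := (uc_succ.mp hx₃) t
    have h4 : t * x₃ * t⁻¹ * x₃⁻¹ = (x₃ * t * x₃⁻¹ * t⁻¹)⁻¹ := by group
    rw [h4]
    exact inv_mem this
  have hle : Subgroup.centralizer ({x₂} : Set T) ⊓ Subgroup.centralizer ({x₃} : Set T) ≤ W := by
    rintro t ⟨ht2, ht3⟩
    have ht2' : t * x₂ = x₂ * t := (Subgroup.mem_centralizer_singleton_iff.mp ht2)
    have ht3' : t * x₃ = x₃ * t := (Subgroup.mem_centralizer_singleton_iff.mp ht3)
    have hz1 : ∀ u ∈ Subgroup.upperCentralSeries T 1, t * u = u * t := by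
      intro u hu
      have := (uc_succ.mp hu) t
      rw [Subgroup.upperCentralSeries_zero, Subgroup.mem_bot] at this
      have h5 : u * t = t * u := by
        calc u * t = (u * t * u⁻¹ * t⁻¹) * (t * u) := by group
          _ = t * u := by rw [this, one_mul]
      exact h5.symm
    have hz2 : ∀ u ∈ Subgroup.upperCentralSeries T 2, t * u = u * t := by
      intro u hu
      by_cases hu1 : u ∈ Subgroup.upperCentralSeries T 1
      · exact hz1 u hu1
      · have h5 := two_rule (uc_mono 1) (by simp only [Nat.reduceAdd]; omega) hx₂ hx₂' hu hu1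
        have h6 := hz1 _ h5
        have h7 : u = x₂ * (x₂⁻¹ * u) := by group
        rw [h7, ← mul_assoc, ht2', mul_assoc, h6, ← mul_assoc, mul_assoc x₂]
    rw [hW, Subgroup.mem_centralizer_iff]
    intro u hu
    have hu : u ∈ Subgroup.upperCentralSeries T 3 := hu
    have hfin : t * u = u * t := by
      by_cases hu2 : u ∈ Subgroup.upperCentralSeries T 2
      · exact hz2 u hu2
      · have h5 := two_rule (uc_mono 2) (by simp only [Nat.reduceAdd]; omega) hx₃ hx₃' hu hu2
        have h6 := hz2 _ h5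
        have h7 : u = x₃ * (x₃⁻¹ * u) := by group
        rw [h7, ← mul_assoc, ht3', mul_assoc, h6, ← mul_assoc, mul_assoc x₃]
    exact hfin.symm
  have h5 : W.index ≤ (Subgroup.centralizer ({x₂} : Set T) ⊓ Subgroup.centralizer ({x₃} : Set T)).index :=
    Nat.le_of_dvd (Nat.pos_of_ne_zero Subgroup.index_ne_zero_of_finite) (Subgroup.index_dvd_of_le hle)
  have h6 := Subgroup.index_inf_le (H := Subgroup.centralizer ({x₂} : Set T)) (K := Subgroup.centralizer ({x₃} : Set T))
  calc W.index ≤ _ := h5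
    _ ≤ _ := h6
    _ ≤ 2 * 4 := Nat.mul_le_mul (by omega) (by omega)
    _ = 8 := rfl

theorem exists_fixed_mod (hnil : Group.IsNilpotent T) {N F : Subgroup T} [hN : N.Normal]
    (h : ¬ N ≤ F) : ∃ n ∈ N, n ∉ F ∧ ∀ t, n * t * n⁻¹ * t⁻¹ ∈ F := by
  classical
  obtain ⟨m, hm⟩ := hnil.nilpotent'
  have hex : ∃ i, ¬ (N ⊓ Subgroup.upperCentralSeries T i ≤ F) := ⟨m, by rwa [hm, inf_top_eq]⟩
  have hmin : ∀ j, j < Nat.find hex → N ⊓ Subgroup.upperCentralSeries T j ≤ F := by
    intro j hj
    by_contra hc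
    exact Nat.find_min hex hj hc
  have hsp := Nat.find_spec hex
  cases hi0 : Nat.find hex with
  | zero =>
    rw [hi0, Subgroup.upperCentralSeries_zero, inf_bot_eq] at hsp
    exact absurd bot_le hsp
  | succ j =>
    have hj : N ⊓ Subgroup.upperCentralSeries T j ≤ F := hmin j (by omega)
    rw [hi0] at hsp
    rw [SetLike.not_le_iff_exists] at hsp
    obtain ⟨n, ⟨hn1, hn2⟩, hn3⟩ := hsp
    refine ⟨n, hn1, hn3, fun t => hj ⟨?_, uc_succ.mp hn2 t⟩⟩
    have h1 : t * n⁻¹ * t⁻¹ ∈ N := hN.conj_mem _ (inv_mem hn1) t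
    have : n * t * n⁻¹ * t⁻¹ = n * (t * n⁻¹ * t⁻¹) := by group
    rw [this]
    exact mul_mem hn1 h1


theorem frattini_map_normal (W : Subgroup T) [W.Normal] : ((frattini ↥W).map W.subtype).Normal := by
  haveI : (frattini ↥W).Characteristic := frattini_characteristic
  infer_instance

theorem mem_frattini_of_coe (W : Subgroup T) (c : ℕ)
    (hF : (frattini ↥W).map W.subtype = Subgroup.upperCentralSeries T c) (y : ↥W) :
    (y : T) ∈ Subgroup.upperCentralSeries T c ↔ y ∈ frattini ↥W := by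
  constructor
  · intro h
    rw [← hF] at h
    obtain ⟨y', hy', hyy⟩ := h
    have : y' = y := Subtype.ext hyy
    exact this ▸ hy'
  · intro h
    rw [← hF]
    exact ⟨y, h, rfl⟩

theorem core_le (hT : IsPGroup 2 T) (W : Subgroup T) [hWn : W.Normal] (c : ℕ)
    (hF : (frattini ↥W).map W.subtype = Subgroup.upperCentralSeries T c)
    (M : Subgroup ↥W)
    (hM : ∀ z : ↥W, (z : T) ∈ Subgroup.upperCentralSeries T (c + 1) → z ∉ frattini ↥W → z ∉ M)
    (x : ↥W) (hx : ∀ t : T, MulAut.conjNormal t x ∈ M) : x ∈ frattini ↥W := by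
  haveI : Fact (Nat.Prime 2) := ⟨Nat.prime_two⟩
  have hnilT : Group.IsNilpotent T := hT.isNilpotent
  let N : Subgroup ↥W := ⨅ t : T, M.comap (MulAut.conjNormal t : MulAut ↥W).toMonoidHom
  have hNmem : ∀ y : ↥W, y ∈ N ↔ ∀ t : T, MulAut.conjNormal t y ∈ M := by
    intro y
    simp [N, Subgroup.mem_iInf]
  let Nh : Subgroup T := N.map W.subtype
  have hNh : Nh.Normal := by
    constructor
    rintro _ ⟨y, hy, rfl⟩ t
    refine ⟨MulAut.conjNormal t y, ?_, ?_⟩
    · rw [SetLike.mem_coe, hNmem] at hy ⊢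
      intro s
      have := hy (s * t)
      rwa [map_mul, MulAut.mul_apply] at this
    · simp
  by_contra hxF
  have hnle : ¬ Nh ≤ Subgroup.upperCentralSeries T c := by
    intro hle
    apply hxF
    rw [← mem_frattini_of_coe W c hF]
    exact hle ⟨x, (hNmem x).mpr hx, rfl⟩
  obtain ⟨n, ⟨y, hy, rfl⟩, hn2, hn3⟩ := exists_fixed_mod hnilT hnle
  have hy1 : (y : T) ∈ Subgroup.upperCentralSeries T (c + 1) := uc_succ.mpr hn3
  have hy2 : y ∉ frattini ↥W := by
    rw [← mem_frattini_of_coe W c hF]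
    exact hn2
  apply hM y hy1 hy2
  have := (hNmem y).mp hy 1
  simpa using this

/-- Bound on the Frattini index of `W`. -/
theorem frattini_index_le (hT : IsPGroup 2 T) (W : Subgroup T) [hWn : W.Normal] (hidx : W.index ≤ 8)
    (c : ℕ) (hF : (frattini ↥W).map W.subtype = Subgroup.upperCentralSeries T c)
    (hcard : Nat.card ↥(Subgroup.upperCentralSeries T (c + 1)) = 2 * Nat.card ↥(Subgroup.upperCentralSeries T c)) :
    (frattini ↥W).index ≤ 2 ^ 8 := by
  classical
  haveI : Fact (Nat.Prime 2) := ⟨Nat.prime_two⟩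
  have hnilT : Group.IsNilpotent T := hT.isNilpotent
  have hWp : IsPGroup 2 ↥W := hT.to_subgroup W
  haveI hnilW : Group.IsNilpotent ↥W := hWp.isNilpotent
  by_cases htop : frattini ↥W = ⊤
  · rw [htop, Subgroup.index_top]
    norm_num
  -- choice of the coatom
  have hMex : ∃ M : Subgroup ↥W, IsCoatom M ∧
      ∀ z : ↥W, (z : T) ∈ Subgroup.upperCentralSeries T (c + 1) → z ∉ frattini ↥W → z ∉ M := by
    by_cases hz : ∃ z₀ : ↥W, (z₀ : T) ∈ Subgroup.upperCentralSeries T (c + 1) ∧ z₀ ∉ frattini ↥W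
    · obtain ⟨z₀, hz₀, hz₀'⟩ := hz
      have hz₀'' := hz₀'
      rw [Cfsg.Agent.Lib.Basic.mem_frattini_iff] at hz₀'
      push Not at hz₀'
      obtain ⟨M, hM, hzM⟩ := hz₀'
      refine ⟨M, hM, ?_⟩
      intro z hz hz' hzm
      apply hzM
      have hnot : ∀ y : ↥W, y ∉ frattini ↥W → (y : T) ∉ Subgroup.upperCentralSeries T c := by
        intro y hy hy2
        exact hy ((mem_frattini_of_coe W c hF y).mp hy2)
      have h1 := two_rule (uc_mono c) hcard hz (hnot _ hz') hz₀ (hnot _ hz₀'')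
      have h2 : z⁻¹ * z₀ ∈ frattini ↥W := (mem_frattini_of_coe W c hF _).mp h1
      have h3 : z⁻¹ * z₀ ∈ M := frattini_le_coatom hM h2
      have h4 : z₀ = z * (z⁻¹ * z₀) := by group
      rw [h4]
      exact mul_mem hzm h3
    · push Not at hz
      obtain ⟨M, hM, -⟩ := Cfsg.Agent.Lib.Basic.exists_isCoatom_ge htop
      refine ⟨M, hM, ?_⟩
      intro z hz1 hz2
      exact absurd (hz z hz1) hz2
  obtain ⟨M, hMc, hM⟩ := hMex
  have hMn : M.Normal := Cfsg.Agent.Lib.Basic.isCoatom_normal_of_isNilpotent hMc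
  have hMi : M.index = 2 := by
    have h1 := Cfsg.Agent.Lib.Basic.index_prime_of_isCoatom_of_isNilpotent hMc
    obtain ⟨k, hk⟩ := hWp.index M
    rw [hk] at h1 ⊢
    have hk0 : k ≠ 0 := by
      rintro rfl
      simp at h1
      exact Nat.not_prime_one h1
    exact ((Nat.prime_dvd_prime_iff_eq Nat.prime_two h1).mp (dvd_pow_self 2 hk0)).symm
  letI : Fintype (T ⧸ W) := Fintype.ofFinite _
  let A : T → Subgroup ↥W := fun t => M.comap (MulAut.conjNormal t : MulAut ↥W).toMonoidHom
  let N : Subgroup ↥W := ⨅ q : T ⧸ W, A q.out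
  have hAi : ∀ t, (A t).index = 2 := by
    intro t
    rw [← hMi]
    exact Subgroup.index_comap_of_surjective M (MulAut.conjNormal t : MulAut ↥W).surjective
  have hNi : N.index ≤ 2 ^ 8 := by
    have h1 := Subgroup.index_iInf_le (fun q : T ⧸ W => A q.out)
    simp only [hAi, Finset.prod_const, Finset.card_univ] at h1
    refine h1.trans (Nat.pow_le_pow_right (by norm_num) ?_)
    rw [← Nat.card_eq_fintype_card]
    exact hidx
  have hNF : N ≤ frattini ↥W := by
    intro x hx
    apply core_le hT W c hF M hM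
    intro t
    obtain ⟨w₀, hw₀⟩ := QuotientGroup.mk_out_eq_mul W t
    have h1 : x ∈ A (QuotientGroup.mk t : T ⧸ W).out := (Subgroup.mem_iInf.mp hx) _
    have h2 : MulAut.conjNormal (t * (w₀ : T)) x ∈ M := by
      rw [← hw₀]
      exact h1
    rw [map_mul, MulAut.mul_apply] at h2
    have h3 : MulAut.conjNormal (w₀ : T) x = w₀ * x * w₀⁻¹ := by
      apply Subtype.ext
      simp
    rw [h3, map_mul, map_mul, map_inv] at h2
    have h4 := hMn.conj_mem _ h2 (MulAut.conjNormal t w₀)⁻¹
    have h5 : (MulAut.conjNormal t w₀)⁻¹ * (MulAut.conjNormal t w₀ * MulAut.conjNormal t x * (MulAut.conjNormal t w₀)⁻¹) * (MulAut.conjNormal t w₀)⁻¹⁻¹ = MulAut.conjNormal t x := by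
      group
    rwa [h5] at h4
  have h6 := Subgroup.index_dvd_of_le hNF
  have h7 : 0 < N.index := Nat.pos_of_ne_zero Subgroup.index_ne_zero_of_finite
  exact (Nat.le_of_dvd h7 h6).trans hNi

theorem frattini_eq (hT : IsPGroup 2 T) (ha : 2 ^ 14 ≤ Nat.card T)
    (hb : Nat.card ↥(Subgroup.upperCentralSeries T 4) = 16)
    (W : Subgroup T) (hW : W = Subgroup.centralizer ((Subgroup.upperCentralSeries T 3 : Subgroup T) : Set T))
    (hc : Nat.card ↥(frattini ↥W) ≤ 8) :
    (frattini ↥W).map W.subtype = Subgroup.upperCentralSeries T 3 := by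
  haveI : Fact (Nat.Prime 2) := ⟨Nat.prime_two⟩
  haveI hWn : W.Normal := by
    rw [hW]
    infer_instance
  haveI hFn := frattini_map_normal W
  obtain ⟨h0, h1, h2, h3⟩ := uc_cards hT ha hb
  have hidx := index_W_le hT ha hb W hW
  set F : Subgroup T := (frattini ↥W).map W.subtype with hFdef
  have hFcard : Nat.card F = Nat.card ↥(frattini ↥W) :=
    Subgroup.card_map_of_injective W.subtype_injective
  obtain ⟨c, hcF⟩ := (IsPGroup.iff_card).mp (hT.to_subgroup F)
  have hc3 : c ≤ 3 := by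
    by_contra hcon
    have h4 : 2 ^ 4 ≤ 2 ^ c := Nat.pow_le_pow_right (by norm_num) (by omega)
    rw [hFcard] at hcF
    omega
  have hcle := normal_le_uc hT c F hFn hcF.le
  have hWlb : 2 ^ 11 ≤ Nat.card W := by
    have := Subgroup.card_mul_index W
    have h5 : Nat.card W * W.index ≤ Nat.card W * 8 := Nat.mul_le_mul_left _ hidx
    omega
  have hWeq : Nat.card W = Nat.card ↥(frattini ↥W) * (frattini ↥W).index := (Subgroup.card_mul_index _).symm
  have hcard_all : ∀ d, d ≤ 3 → Nat.card ↥(Subgroup.upperCentralSeries T d) = 2 ^ d ∧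
      Nat.card ↥(Subgroup.upperCentralSeries T (d + 1)) = 2 * Nat.card ↥(Subgroup.upperCentralSeries T d) := by
    intro d hd
    interval_cases d <;> simp only [zero_add, Nat.reduceAdd, h0, h1, h2, h3, hb] <;> norm_num
  have hcard_uc := hcard_all c hc3
  have hFeq : F = Subgroup.upperCentralSeries T c :=
    Subgroup.eq_of_le_of_card_ge hcle (by rw [hcF, hcard_uc.1])
  have hbound := frattini_index_le hT W hidx c hFeq hcard_uc.2
  have hc' : c = 3 := by
    by_contra hne
    have hc2 : c ≤ 2 := by omega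
    have h4 : 2 ^ c ≤ 2 ^ 2 := Nat.pow_le_pow_right (by norm_num) hc2
    rw [hFcard] at hcF
    have h5 : Nat.card W ≤ 2 ^ 2 * 2 ^ 8 := by
      rw [hWeq, hcF]
      exact Nat.mul_le_mul h4 hbound
    omega
  rw [hFeq, hc']


theorem aut_fix_of {α : MulAut T} (hT : IsPGroup 2 T) (hα : Odd (orderOf α)) {a x : T} (hafix : α a = a)
    (h : α x = a * x) : a = 1 := by
  haveI : Fact (Nat.Prime 2) := ⟨Nat.prime_two⟩
  have hk : ∀ k : ℕ, (α ^ k) x = a ^ k * x := by
    intro k
    induction k with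
    | zero => simp
    | succ k ih =>
      rw [pow_succ', MulAut.mul_apply, ih, map_mul, h, map_pow, hafix, pow_succ]
      group
  have h1 := hk (orderOf α)
  rw [pow_orderOf_eq_one, MulAut.one_apply] at h1
  have h2 : a ^ orderOf α = 1 := by
    have : a ^ orderOf α * x = 1 * x := by rw [← h1, one_mul]
    exact mul_right_cancel this
  obtain ⟨j, hj⟩ := hT a
  have h3 : orderOf a ∣ 2 ^ j := orderOf_dvd_of_pow_eq_one hj
  have h4 : orderOf a ∣ orderOf α := orderOf_dvd_of_pow_eq_one h2
  have hco : Nat.Coprime (2 ^ j) (orderOf α) := Nat.Coprime.pow_left _ (Nat.coprime_two_left.mpr hα)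
  have h5 : orderOf a = 1 := Nat.eq_one_of_dvd_coprimes hco h3 h4
  exact orderOf_eq_one_iff.mp h5

theorem fix_step {α : MulAut T} (hT : IsPGroup 2 T) (hα : Odd (orderOf α)) {H K : Subgroup T} (hHK : H ≤ K)
    (hc : Nat.card K = 2 * Nat.card H) (hαK : ∀ x ∈ K, α x ∈ K)
    (hfix : ∀ x ∈ H, α x = x) : ∀ x ∈ K, α x = x := by
  intro x hx
  by_cases hxH : x ∈ H
  · exact hfix x hxH
  have hαx : α x ∉ H := by
    intro h
    have h1 := hfix _ h
    have h2 : α x = x := α.injective h1
    rw [h2] at h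
    exact hxH h
  have h3 := two_rule hHK hc (inv_mem hx) (fun h => hxH (by simpa using inv_mem h)) (inv_mem (hαK x hx))
    (fun h => hαx (by simpa using inv_mem h))
  have h4 : α x * x⁻¹ ∈ H := by
    have := inv_mem h3
    simpa using this
  have h5 := aut_fix_of hT hα (hfix _ h4) (a := α x * x⁻¹) (x := x) (by group)
  have h6 : α x = α x * x⁻¹ * x := by group
  rw [h6, h5, one_mul]

theorem uc_aut (α : MulAut T) : ∀ (i : ℕ) (x : T), x ∈ Subgroup.upperCentralSeries T i → α x ∈ Subgroup.upperCentralSeries T i := by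
  intro i
  induction i with
  | zero =>
    intro x hx
    rw [Subgroup.upperCentralSeries_zero, Subgroup.mem_bot] at hx ⊢
    rw [hx, map_one]
  | succ i ih =>
    intro x hx
    rw [uc_succ] at hx ⊢
    intro y
    have h1 := ih _ (hx (α.symm y))
    have h2 : α (x * α.symm y * x⁻¹ * (α.symm y)⁻¹) = α x * y * (α x)⁻¹ * y⁻¹ := by
      simp
    rwa [h2] at h1

theorem coatom_index_two {X : Type*} [Group X] [Finite X] (hX : IsPGroup 2 X) {M : Subgroup X}
    (hMc : IsCoatom M) : M.index = 2 := by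
  haveI : Fact (Nat.Prime 2) := ⟨Nat.prime_two⟩
  haveI hnil : Group.IsNilpotent X := hX.isNilpotent
  have h1 := Cfsg.Agent.Lib.Basic.index_prime_of_isCoatom_of_isNilpotent hMc
  obtain ⟨k, hk⟩ := hX.index M
  rw [hk] at h1 ⊢
  have hk0 : k ≠ 0 := by
    rintro rfl
    simp at h1
    exact Nat.not_prime_one h1
  exact ((Nat.prime_dvd_prime_iff_eq Nat.prime_two h1).mp (dvd_pow_self 2 hk0)).symm

set_option maxHeartbeats 2000000 in
theorem aut_eq_one (hT : IsPGroup 2 T) (ha : 2 ^ 14 ≤ Nat.card T)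
    (hb : Nat.card ↥(Subgroup.upperCentralSeries T 4) = 16)
    (W : Subgroup T) (hW : W = Subgroup.centralizer ((Subgroup.upperCentralSeries T 3 : Subgroup T) : Set T))
    (hc : Nat.card ↥(frattini ↥W) ≤ 8) (α : MulAut T) (hα : Odd (orderOf α)) : α = 1 := by
  classical
  haveI : Fact (Nat.Prime 2) := ⟨Nat.prime_two⟩
  have hnilT : Group.IsNilpotent T := hT.isNilpotent
  haveI hWn : W.Normal := by
    rw [hW]
    infer_instance
  obtain ⟨h0, h1, h2, h3⟩ := uc_cards hT ha hb
  have hF := frattini_eq hT ha hb W hW hc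
  have hWp : IsPGroup 2 ↥W := hT.to_subgroup W
  haveI hnilW : Group.IsNilpotent ↥W := hWp.isNilpotent
  have hidx := index_W_le hT ha hb W hW
  have hfix0 : ∀ x ∈ Subgroup.upperCentralSeries T 0, α x = x := by
    intro x hx
    rw [Subgroup.upperCentralSeries_zero, Subgroup.mem_bot] at hx
    rw [hx, map_one]
  have hfix1 := fix_step hT hα (uc_mono 0) (by simp only [zero_add]; omega) (uc_aut α _) hfix0
  have hfix2 := fix_step hT hα (uc_mono 1) (by simp only [Nat.reduceAdd]; omega) (uc_aut α _) hfix1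
  have hfix3 := fix_step hT hα (uc_mono 2) (by simp only [Nat.reduceAdd]; omega) (uc_aut α _) hfix2
  have hfix4 := fix_step hT hα (uc_mono 3) (by simp only [Nat.reduceAdd]; omega) (uc_aut α _) hfix3
  have hd : ∀ t : T, α t * t⁻¹ ∈ W := by
    intro t
    rw [hW, Subgroup.mem_centralizer_iff]
    intro u hu
    have hu : u ∈ Subgroup.upperCentralSeries T 3 := hu
    have hv : t⁻¹ * u * t ∈ Subgroup.upperCentralSeries T 3 := by
      have := (inferInstance : (Subgroup.upperCentralSeries T 3).Normal).conj_mem _ hu t⁻¹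
      simpa using this
    have h4 : α (t * (t⁻¹ * u * t) * t⁻¹) = u := by
      have : t * (t⁻¹ * u * t) * t⁻¹ = u := by group
      rw [this]
      exact hfix3 u hu
    rw [map_mul, map_mul, hfix3 _ hv, map_inv] at h4
    calc u * (α t * t⁻¹) = (α t * (t⁻¹ * u * t) * (α t)⁻¹) * (α t * t⁻¹) := by rw [h4]
      _ = α t * t⁻¹ * u := by group
  have hαW : ∀ w ∈ W, α w ∈ W := by
    intro w hw
    rw [hW, Subgroup.mem_centralizer_iff] at hw ⊢
    intro u hu
    have h4 := hw u hu
    have h5 := hfix3 u hu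
    calc u * α w = α u * α w := by rw [h5]
      _ = α (u * w) := (map_mul _ _ _).symm
      _ = α (w * u) := by rw [h4]
      _ = α w * α u := map_mul _ _ _
      _ = α w * u := by rw [h5]
  have hWlb : 2 ^ 11 ≤ Nat.card W := by
    have := Subgroup.card_mul_index W
    have h5 : Nat.card W * W.index ≤ Nat.card W * 8 := Nat.mul_le_mul_left _ hidx
    omega
  have hnle : ¬ W ≤ Subgroup.upperCentralSeries T 3 := by
    intro hle
    have := Subgroup.card_le_of_le hle
    omega
  obtain ⟨z₀, hz₀W, hz₀3, hz₀c⟩ := exists_fixed_mod hnilT hnle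
  have hz₀4 : z₀ ∈ Subgroup.upperCentralSeries T 4 := uc_succ.mpr hz₀c
  let zW : ↥W := ⟨z₀, hz₀W⟩
  have hzWF : zW ∉ frattini ↥W := fun h => hz₀3 ((mem_frattini_of_coe W 3 hF zW).mpr h)
  have hzWF' := hzWF
  rw [Cfsg.Agent.Lib.Basic.mem_frattini_iff] at hzWF'
  push Not at hzWF'
  obtain ⟨M₀, hM₀, hzM₀⟩ := hzWF'
  have hM₀i := coatom_index_two hWp hM₀
  let χ : ↥W →* ℤˣ := MonoidHom.mk' (fun x => if x ∈ M₀ then 1 else -1) (by
    intro a b
    have := Subgroup.mul_mem_iff_of_index_two hM₀i (a := a) (b := b)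
    by_cases ha' : a ∈ M₀ <;> by_cases hb' : b ∈ M₀ <;> simp [*])
  have hχz : χ zW = -1 := by
    change (if zW ∈ M₀ then (1 : ℤˣ) else -1) = -1
    rw [if_neg hzM₀]
  let αW : ↥W →* ↥W := (α.toMonoidHom.comp W.subtype).codRestrict W (fun x => hαW _ x.2)
  have hαWc : ∀ x : ↥W, ((αW x : ↥W) : T) = α x := fun x => rfl
  have hiter : ∀ (i : ℕ) (x : ↥W), (((⇑αW)^[i] x : ↥W) : T) = (α ^ i) (x : T) := by
    intro i
    induction i with
    | zero => intro x; simp
    | succ i ih =>
      intro x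
      rw [Function.iterate_succ_apply', hαWc, ih, pow_succ', MulAut.mul_apply]
  let m := orderOf α
  let χ' : ↥W →* ℤˣ := MonoidHom.mk' (fun x => ∏ i ∈ Finset.range m, χ ((⇑αW)^[i] x)) (by
    intro a b
    beta_reduce
    rw [← Finset.prod_mul_distrib]
    refine Finset.prod_congr rfl (fun i _ => ?_)
    rw [iterate_map_mul, map_mul])
  have hχ'def : ∀ x, χ' x = ∏ i ∈ Finset.range m, χ ((⇑αW)^[i] x) := fun x => rfl
  have hχ'α : ∀ x, χ' (αW x) = χ' x := by
    intro x
    rw [hχ'def, hχ'def]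
    let g : ℕ → ℤˣ := fun i => χ ((⇑αW)^[i] x)
    have hgm : g m = g 0 := by
      have : (⇑αW)^[m] x = x := by
        apply Subtype.ext
        rw [hiter, pow_orderOf_eq_one]
        rfl
      simp [g, this]
    have h4 : ∀ i, χ ((⇑αW)^[i] (αW x)) = g (i + 1) := by
      intro i
      simp only [g]
      rw [Function.iterate_succ_apply]
    simp only [h4]
    have h5 := Finset.prod_range_succ' g m
    have h6 := Finset.prod_range_succ g m
    rw [h6, hgm] at h5
    exact (mul_right_cancel h5).symm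
  have hzfix : αW zW = zW := Subtype.ext (hfix4 z₀ hz₀4)
  have hχ'z : χ' zW = -1 := by
    rw [hχ'def]
    have h4 : ∀ i, (⇑αW)^[i] zW = zW := by
      intro i
      exact Function.iterate_fixed hzfix i
    simp only [h4, Finset.prod_const, Finset.card_range, hχz]
    exact hα.neg_one_pow
  have hχ'Φ : ∀ φ ∈ frattini ↥W, χ' φ = 1 := by
    have h4 : frattini ↥W ≤ χ'.ker := by
      apply Cfsg.Agent.Lib.Basic.frattini_le_of_commutator_le_of_pow_mem Nat.prime_two
      · rw [commutator_def, Subgroup.commutator_le]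
        intro g₁ _ g₂ _
        rw [MonoidHom.mem_ker, commutatorElement_def]
        simp only [map_mul, map_inv]
        rw [mul_comm (χ' g₁) (χ' g₂)]
        group
      · intro x
        rw [MonoidHom.mem_ker, map_pow]
        exact Int.units_sq _
    intro φ hφ
    exact h4 hφ
  have hcore : ∀ x : ↥W, (∀ t : T, MulAut.conjNormal t x ∈ χ'.ker) → x ∈ frattini ↥W := by
    apply core_le hT W 3 hF χ'.ker
    intro z hz hzF hzk
    have hz3 : (z : T) ∉ Subgroup.upperCentralSeries T 3 := fun h =>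
      hzF ((mem_frattini_of_coe W 3 hF z).mp h)
    have h4 := two_rule (uc_mono 3) (by simp only [Nat.reduceAdd]; omega) hz hz3 hz₀4 hz₀3
    have h5 : z⁻¹ * zW ∈ frattini ↥W := (mem_frattini_of_coe W 3 hF _).mp h4
    have h6 := hχ'Φ _ h5
    rw [map_mul, map_inv, hχ'z, MonoidHom.mem_ker.mp hzk] at h6
    simp at h6
  have hinv : ∀ (t : T) (w : ↥W), χ' (MulAut.conjNormal t (αW w)) = χ' (MulAut.conjNormal t w) := by
    intro t w
    let s := α.symm t
    have h4 : MulAut.conjNormal t (αW w) = αW (MulAut.conjNormal s w) := by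
      apply Subtype.ext
      simp [hαWc, s]
    rw [h4, hχ'α]
    have hst : t = (α s * s⁻¹) * s := by
      simp [s]
    let e : ↥W := ⟨α s * s⁻¹, hd s⟩
    have h5 : MulAut.conjNormal t w = e * (MulAut.conjNormal s w) * e⁻¹ := by
      apply Subtype.ext
      have hs : α s = t := by simp [s]
      simp [e, hs]
      group
    rw [h5]
    simp only [map_mul, map_inv]
    rw [mul_comm (χ' e), mul_assoc, mul_inv_cancel, mul_one]
  have hWfix : ∀ w ∈ W, α w = w := by
    intro w hw
    let wW : ↥W := ⟨w, hw⟩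
    have h4 : αW wW * wW⁻¹ ∈ frattini ↥W := by
      apply hcore
      intro t
      rw [MonoidHom.mem_ker, map_mul, map_mul, map_inv, map_inv, hinv]
      exact mul_inv_cancel _
    have h5 : α w * w⁻¹ ∈ Subgroup.upperCentralSeries T 3 :=
      (mem_frattini_of_coe W 3 hF _).mpr h4
    have h6 := aut_fix_of hT hα (hfix3 _ h5) (a := α w * w⁻¹) (x := w) (by group)
    have h7 : α w = α w * w⁻¹ * w := by group
    rw [h7, h6, one_mul]
  ext t
  have h4 := aut_fix_of hT hα (hWfix _ (hd t)) (a := α t * t⁻¹) (x := t) (by group)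
  have h7 : α t = α t * t⁻¹ * t := by group
  rw [h7, h4, one_mul]
  rfl

set_option maxHeartbeats 2000000 in
theorem range_eq (hT : IsPGroup 2 T) (ha : 2 ^ 14 ≤ Nat.card T)
    (hb : Nat.card ↥(Subgroup.upperCentralSeries T 4) = 16)
    (W : Subgroup T) (hW : W = Subgroup.centralizer ((Subgroup.upperCentralSeries T 3 : Subgroup T) : Set T))
    (hc : Nat.card ↥(frattini ↥W) ≤ 8) (hd : ∀ U : Subgroup ↥W, U.index ≤ 16 → frattini ↥W ≤ U)
    (f : ↥W →* T) (hf : Function.Injective f) : f.range = W := by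
  classical
  haveI : Fact (Nat.Prime 2) := ⟨Nat.prime_two⟩
  haveI hWn : W.Normal := by
    rw [hW]
    infer_instance
  obtain ⟨h0, h1, h2, h3⟩ := uc_cards hT ha hb
  have hF := frattini_eq hT ha hb W hW hc
  have hWp : IsPGroup 2 ↥W := hT.to_subgroup W
  haveI hnilW : Group.IsNilpotent ↥W := hWp.isNilpotent
  have hidx := index_W_le hT ha hb W hW
  have hΦcard : Nat.card ↥(frattini ↥W) = 8 := by
    have : Nat.card ↥((frattini ↥W).map W.subtype) = Nat.card ↥(frattini ↥W) :=
      Subgroup.card_map_of_injective W.subtype_injective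
    rw [hF, h3] at this
    exact this.symm
  set Y : Subgroup T := (frattini ↥W).map f with hY
  have hYcard : Nat.card Y = 8 := by
    rw [hY, Subgroup.card_map_of_injective hf, hΦcard]
  have hW₁card : Nat.card f.range = Nat.card W :=
    Nat.card_congr (MonoidHom.ofInjective hf).toEquiv.symm
  let U : Subgroup ↥W := W.comap f
  have hUi : U.index ≤ 8 := by
    have h4 : U.index = W.relIndex f.range := Subgroup.index_comap W f
    rw [h4]
    refine (Nat.le_of_dvd ?_ (Subgroup.relIndex_dvd_index_of_normal W f.range)).trans hidx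
    exact Nat.pos_of_ne_zero Subgroup.index_ne_zero_of_finite
  have hYW : Y ≤ W := by
    rintro _ ⟨φ, hφ, rfl⟩
    exact hd U (by omega) hφ
  let U₂ : Subgroup ↥W := f.range.subgroupOf W
  have hU₂card : Nat.card U₂ = Nat.card ↥(W ⊓ f.range) := by
    have h4 : (f.range.subgroupOf W).map W.subtype = f.range ⊓ W := Subgroup.subgroupOf_map_subtype _ _
    have h5 : Nat.card ↥((f.range.subgroupOf W).map W.subtype) = Nat.card ↥(f.range.subgroupOf W) :=
      Subgroup.card_map_of_injective W.subtype_injective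
    rw [inf_comm, ← h4, h5]
  have hUcard : Nat.card U = Nat.card ↥(W ⊓ f.range) := by
    have h4 : (W.comap f).map f = f.range ⊓ W := Subgroup.map_comap_eq f W
    have h5 : Nat.card ↥((W.comap f).map f) = Nat.card ↥(W.comap f) :=
      Subgroup.card_map_of_injective hf
    rw [inf_comm, ← h4, h5]
  have hU₂i : U₂.index = U.index := by
    have h4 := Subgroup.card_mul_index U₂
    have h5 := Subgroup.card_mul_index U
    rw [hU₂card] at h4
    rw [hUcard, ← h4] at h5
    exact (Nat.eq_of_mul_eq_mul_left Nat.card_pos h5).symm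
  have hZW₁ : ∀ φ ∈ frattini ↥W, (φ : T) ∈ f.range := by
    intro φ hφ
    have := hd U₂ (by omega) hφ
    exact this
  by_cases hZY : Subgroup.upperCentralSeries T 3 ≤ Y
  · have hYZ : Subgroup.upperCentralSeries T 3 = Y :=
      Subgroup.eq_of_le_of_card_ge hZY (by rw [hYcard, h3])
    have hle : f.range ≤ W := by
      rintro _ ⟨w, rfl⟩
      apply hW.ge
      rw [Subgroup.mem_centralizer_iff]
      intro u hu
      have hu' : u ∈ Y := by
        rw [← hYZ]
        exact hu
      obtain ⟨φ, hφ, rfl⟩ := hu'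
      rw [← map_mul, ← map_mul]
      congr 1
      apply Subtype.ext
      have hφZ : (φ : T) ∈ Subgroup.upperCentralSeries T 3 :=
        (mem_frattini_of_coe W 3 hF φ).mpr hφ
      have hw := hW.le w.2
      rw [Subgroup.mem_centralizer_iff] at hw
      exact hw _ hφZ
    exact Subgroup.eq_of_le_of_card_ge hle (by rw [hW₁card])
  exfalso
  rw [SetLike.not_le_iff_exists] at hZY
  obtain ⟨z, hz3, hzY⟩ := hZY
  have hz3' := hz3
  rw [← hF] at hz3'
  obtain ⟨φ₀, hφ₀, rfl⟩ := hz3'
  let X : Subgroup T := W ⊓ f.range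
  have hXp : IsPGroup 2 ↥X := hT.to_subgroup X
  let Rx : Subgroup ↥X := (Subgroup.upperCentralSeries T 3 ⊓ Y).subgroupOf X
  have hmemR : ∀ x : ↥X, x ∈ Rx ↔ (x : T) ∈ Subgroup.upperCentralSeries T 3 ⊓ Y := fun x => Subgroup.mem_subgroupOf
  have hsq : ∀ x : ↥X, x ^ 2 ∈ Rx := by
    intro x
    rw [hmemR]
    obtain ⟨hx1, w, hw⟩ := x.2
    constructor
    · have h4 := Cfsg.Agent.Lib.Basic.pow_mem_frattini_of_isPGroup hWp (⟨x, hx1⟩ : ↥W)
      exact (mem_frattini_of_coe W 3 hF _).mpr h4
    · have h4 := Cfsg.Agent.Lib.Basic.pow_mem_frattini_of_isPGroup hWp w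
      refine ⟨_, h4, ?_⟩
      rw [map_pow, hw]
      rfl
  have hcm : ∀ a b : ↥X, ⁅a, b⁆ ∈ Rx := by
    intro a b
    rw [hmemR]
    have hab : ((⁅a, b⁆ : ↥X) : T) = ⁅(a : T), (b : T)⁆ := by
      simp only [commutatorElement_def, Subgroup.coe_mul, Subgroup.coe_inv]
    rw [hab]
    obtain ⟨ha1, w, hw⟩ := a.2
    obtain ⟨hb1, w', hw'⟩ := b.2
    have hle : commutator ↥W ≤ frattini ↥W := Cfsg.Agent.Lib.Basic.commutator_le_frattini_of_isNilpotent
    constructor
    · have h4 := hle (Subgroup.commutator_mem_commutator (Subgroup.mem_top (⟨a, ha1⟩ : ↥W)) (Subgroup.mem_top (⟨b, hb1⟩ : ↥W)))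
      have h5 := (mem_frattini_of_coe W 3 hF _).mpr h4
      have h6 : ((⁅(⟨a, ha1⟩ : ↥W), (⟨b, hb1⟩ : ↥W)⁆ : ↥W) : T) = ⁅(a : T), (b : T)⁆ := by
        simp only [commutatorElement_def, Subgroup.coe_mul, Subgroup.coe_inv]
      rwa [h6] at h5
    · have h4 := hle (Subgroup.commutator_mem_commutator (Subgroup.mem_top w) (Subgroup.mem_top w'))
      refine ⟨_, h4, ?_⟩
      rw [map_commutatorElement, hw, hw']
  have hfr : frattini ↥X ≤ Rx := by
    apply Cfsg.Agent.Lib.Basic.frattini_le_of_commutator_le_of_pow_mem Nat.prime_two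
    · rw [commutator_def, Subgroup.commutator_le]
      intro g₁ _ g₂ _
      exact hcm g₁ g₂
    · exact hsq
  let zX : ↥X := ⟨φ₀, φ₀.2, hZW₁ φ₀ hφ₀⟩
  have hzX : zX ∉ frattini ↥X := by
    intro h
    have := hfr h
    rw [hmemR] at this
    exact hzY this.2
  rw [Cfsg.Agent.Lib.Basic.mem_frattini_iff] at hzX
  push Not at hzX
  obtain ⟨Ux, hUx, hzUx⟩ := hzX
  have hUxi := coatom_index_two hXp hUx
  let Uh : Subgroup T := Ux.map X.subtype
  let Ut : Subgroup ↥W := Uh.subgroupOf W
  have hUhW : Uh ≤ W := by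
    rintro _ ⟨x, -, rfl⟩
    exact x.2.1
  have hUtcard : Nat.card Ut = Nat.card Ux := by
    have h4 : Nat.card Ut = Nat.card Uh := Nat.card_congr (Subgroup.subgroupOfEquivOfLe hUhW).toEquiv
    have h5 : Nat.card Uh = Nat.card Ux := Subgroup.card_map_of_injective X.subtype_injective
    rw [h4, h5]
  have hUti : Ut.index ≤ 16 := by
    have h4 := Subgroup.card_mul_index Ut
    have h5 := Subgroup.card_mul_index Ux
    have h6 := Subgroup.card_mul_index U₂
    rw [hUtcard] at h4
    rw [hUxi] at h5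
    rw [hU₂card] at h6
    have h7 : Nat.card ↥(W ⊓ f.range) = Nat.card X := rfl
    rw [h7, ← h5] at h6
    have h8 : Nat.card Ux * Ut.index = Nat.card Ux * (2 * U₂.index) := by
      rw [h4, ← h6, mul_assoc]
    have h9 := Nat.eq_of_mul_eq_mul_left Nat.card_pos h8
    omega
  have h10 := hd Ut hUti hφ₀
  obtain ⟨ux, hux, hux2⟩ := h10
  have h11 : ux = zX := Subtype.ext hux2
  exact hzUx (h11 ▸ hux)

end TLevel


/-- Let G be a finite group whose Sylow 2-subgroup T has order at least 2^14 and whose upper central series has fourth term of order 16; let W be the centralizer in T of the third term, and suppose the Frattini subgroup of W has order at most 8 and lies in every subgroup of W of index at most 16. Then the normalizer of T in G has a normal 2-complement, and W is weakly closed in T with respect to G. -/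
theorem result {G : Type*} [Group G] [Finite G]
    (T : Sylow 2 G) (ha : 2 ^ 14 ≤ Nat.card ↥(T : Subgroup G))
    (hb : Nat.card ↥(Subgroup.upperCentralSeries ↥(T : Subgroup G) 4) = 16)
    (W : Subgroup ↥(T : Subgroup G))
    (hW : W = Subgroup.centralizer ((Subgroup.upperCentralSeries ↥(T : Subgroup G) 3 : Subgroup ↥(T : Subgroup G)) : Set ↥(T : Subgroup G)))
    (hc : Nat.card ↥(frattini ↥W) ≤ 8)
    (hd : ∀ U : Subgroup ↥W, U.index ≤ 16 → frattini ↥W ≤ U) :
    Cfsg.HasNormalPComplement 2 ↥(Subgroup.normalizer ((T : Subgroup G) : Set G)) ∧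
      Cfsg.IsWeaklyClosed (W.map (T : Subgroup G).subtype) (T : Subgroup G) := by
  classical
  haveI : Fact (Nat.Prime 2) := ⟨Nat.prime_two⟩
  have hTp : IsPGroup 2 ↥(T : Subgroup G) := T.isPGroup'
  haveI : Finite ↥(T : Subgroup G) := inferInstance
  refine ⟨?_, ?_⟩
  · let N : Subgroup G := Subgroup.normalizer ((T : Subgroup G) : Set G)
    have hle : (T : Subgroup G) ≤ N := Subgroup.le_normalizer
    let P : Sylow 2 ↥N := T.subtype hle
    have hPc : (P : Subgroup ↥N) = (T : Subgroup G).subgroupOf N := rfl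
    haveI hPn : (P : Subgroup ↥N).Normal := by
      rw [hPc]
      exact Subgroup.normal_in_normalizer
    obtain ⟨K, hK⟩ := Subgroup.exists_left_complement'_of_coprime P.card_coprime_index
    refine ⟨P, K, ?_, hK⟩
    have hcentr : ∀ k ∈ K, ∀ x : G, x ∈ (T : Subgroup G) → (k : G) * x * (k : G)⁻¹ = x := by
      intro k hk x hx
      let α : MulAut ↥(T : Subgroup G) := (T : Subgroup G).normalizerMonoidHom k
      have hKodd : Odd (Nat.card K) := by
        have h1 : Nat.card K = (P : Subgroup ↥N).index := hK.index_eq_card.symm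
        have h2 := P.card_coprime_index
        have h3 : Nat.card ↥(P : Subgroup ↥N) = Nat.card ↥(T : Subgroup G) :=
          Nat.card_congr (Subgroup.subgroupOfEquivOfLe hle).toEquiv
        obtain ⟨n, hn⟩ := (IsPGroup.iff_card).mp hTp
        have hn0 : n ≠ 0 := by
          rintro rfl
          rw [hn] at ha
          norm_num at ha
        rw [h3, hn] at h2
        rw [h1]
        exact Nat.coprime_two_left.mp ((Nat.coprime_pow_left_iff (Nat.pos_of_ne_zero hn0) _ _).mp h2)
      have hkodd : Odd (orderOf (k : ↥N)) := by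
        have h1 : orderOf (⟨k, hk⟩ : K) ∣ Nat.card K := orderOf_dvd_natCard _
        have h2 : orderOf (⟨k, hk⟩ : K) = orderOf (k : ↥N) := Subgroup.orderOf_mk k hk
        rw [h2] at h1
        exact Odd.of_dvd_nat hKodd h1
      have hαodd : Odd (orderOf α) := Odd.of_dvd_nat hkodd (orderOf_map_dvd _ _)
      have h1 := aut_eq_one hTp ha hb W hW hc α hαodd
      have h2 := DFunLike.congr_fun h1 ⟨x, hx⟩
      exact congrArg Subtype.val h2
    constructor
    intro k hk g
    obtain ⟨⟨k₀, p⟩, hg⟩ := hK.2 g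
    have hg' : (k₀ : ↥N) * (p : ↥N) = g := hg
    have hp : (((p : ↥N) : G)) ∈ (T : Subgroup G) := p.2
    have h1 := hcentr k hk _ hp
    have h2 : (p : ↥N) * k * (p : ↥N)⁻¹ = k := by
      apply Subtype.ext
      have h3 : ((k : ↥N) : G) * ((p : ↥N) : G) = ((p : ↥N) : G) * ((k : ↥N) : G) := by
        calc ((k : ↥N) : G) * ((p : ↥N) : G) = (((k : ↥N) : G) * ((p : ↥N) : G) * ((k : ↥N) : G)⁻¹) * ((k : ↥N) : G) := by group
          _ = _ := by rw [h1]
      change ((p : ↥N) : G) * ((k : ↥N) : G) * ((p : ↥N) : G)⁻¹ = ((k : ↥N) : G)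
      rw [← h3]
      group
    rw [← hg']
    have h4 : (k₀ : ↥N) * (p : ↥N) * k * ((k₀ : ↥N) * (p : ↥N))⁻¹ = (k₀ : ↥N) * ((p : ↥N) * k * (p : ↥N)⁻¹) * (k₀ : ↥N)⁻¹ := by
      group
    rw [h4, h2]
    exact mul_mem (mul_mem k₀.2 hk) (inv_mem k₀.2)
  · refine ⟨Subgroup.map_subtype_le W, ?_⟩
    intro g hg
    let f₀ : ↥W →* G := (MulAut.conj g).toMonoidHom.comp ((T : Subgroup G).subtype.comp W.subtype)
    have hf₀ : ∀ x, f₀ x ∈ (T : Subgroup G) := fun x => hg ⟨((x : ↥(T : Subgroup G)) : G), ⟨x, x.2, rfl⟩, rfl⟩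
    let f : ↥W →* ↥(T : Subgroup G) := f₀.codRestrict (T : Subgroup G) hf₀
    have hfinj : Function.Injective f := by
      intro a b hab
      have h1 : f₀ a = f₀ b := congrArg Subtype.val hab
      have h2 : (MulAut.conj g) ((a : ↥(T : Subgroup G)) : G) = (MulAut.conj g) ((b : ↥(T : Subgroup G)) : G) := h1
      have h3 := (MulAut.conj g).injective h2
      exact Subtype.ext (Subtype.ext h3)
    have hr := range_eq hTp ha hb W hW hc hd f hfinj
    ext y
    constructor
    · rintro ⟨_, ⟨x, hx, rfl⟩, rfl⟩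
      have h1 : f ⟨x, hx⟩ ∈ f.range := ⟨_, rfl⟩
      rw [hr] at h1
      exact ⟨_, h1, rfl⟩
    · rintro ⟨x, hx, rfl⟩
      rw [SetLike.mem_coe, ← hr] at hx
      obtain ⟨w, rfl⟩ := hx
      exact ⟨_, ⟨w, w.2, rfl⟩, rfl⟩

end Cfsg.Agent.S3175
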