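import Cfsg.Statements.S3179
import Mathlib
import Cfsg.Agent.Lib.Suzuki.Star
import Cfsg.Agent.Lib.Suzuki.Action
import Cfsg.Agent.Lib.Classical.SL2Local
import Cfsg.Agent.Lib.Classical.SU2

set_option autoImplicit false
open Cfsg

namespace Cfsg.Agent.S3179

/-- A fixed-point-free action of a group of order nine. -/
theorem nine_dvd {Y : Type*} [Finite Y] (σ : Equiv.Perm Y) (h9 : σ ^ 9 = 1)
    (h3 : ∀ y, (σ ^ 3) y ≠ y) : 9 ∣ Nat.card Y := by
  classical
  by_cases hY : IsEmpty Y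
  · rw [Nat.card_of_isEmpty]; exact dvd_zero 9
  rw [not_isEmpty_iff] at hY
  obtain ⟨y₀⟩ := hY
  haveI : Fact (Nat.Prime 3) := ⟨Nat.prime_three⟩
  have hord : orderOf σ = 9 := by
    have : orderOf σ = 3 ^ (1 + 1) := by
      apply orderOf_eq_prime_pow
      · intro h
        have h5 : σ ^ 3 = 1 := by simpa using h
        exact h3 y₀ (by rw [h5]; rfl)
      · simpa using h9
    simpa using this
  have hfree : ∀ b : Y, MulAction.stabilizer (Subgroup.zpowers σ) b = ⊥ := by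
    intro b
    rw [eq_bot_iff]
    rintro ⟨u, hu⟩ hub
    rw [MulAction.mem_stabilizer_iff] at hub
    have hub' : u b = b := hub
    have hfin : IsOfFinOrder σ := isOfFinOrder_iff_pow_eq_one.mpr ⟨9, by norm_num, h9⟩
    obtain ⟨n, hn⟩ : ∃ n : ℕ, σ ^ n = u :=
      (Submonoid.mem_powers_iff _ _).mp ((hfin.mem_powers_iff_mem_zpowers).mpr hu)
    rw [Subgroup.mem_bot]
    apply Subtype.ext
    show u = 1
    have hiter : ∀ j : ℕ, (u ^ j) b = b := by
      intro j
      induction j with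
      | zero => rfl
      | succ j ih =>
        rw [pow_succ, Equiv.Perm.mul_apply, hub', ih]
    have hmod : ∀ k : ℕ, σ ^ k = σ ^ (k % 9) := by
      intro k
      conv_lhs => rw [← Nat.div_add_mod k 9, pow_add, pow_mul, h9, one_pow, one_mul]
    by_cases hr : n % 9 = 0
    · rw [← hn, hmod, hr, pow_zero]
    · exfalso
      have hex : ∀ r : ℕ, r < 9 → r ≠ 0 → ∃ j : ℕ, (r * j) % 9 = 3 := by
        intro r hr h0
        interval_cases r
        · exact absurd rfl h0
        · exact ⟨3, rfl⟩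
        · exact ⟨6, rfl⟩
        · exact ⟨1, rfl⟩
        · exact ⟨3, rfl⟩
        · exact ⟨6, rfl⟩
        · exact ⟨2, rfl⟩
        · exact ⟨3, rfl⟩
        · exact ⟨6, rfl⟩
      obtain ⟨j, hj⟩ := hex (n % 9) (Nat.mod_lt _ (by norm_num)) hr
      have h3' : (n * j) % 9 = 3 := by
        rw [← hj, Nat.mul_mod, Nat.mul_mod (n % 9) j, Nat.mod_mod]
      have h4 := hiter j
      rw [← hn, ← pow_mul, hmod, h3'] at h4
      exact h3 b h4
  have e := MulAction.selfEquivOrbitsQuotientProd hfree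
  rw [Nat.card_congr e, Nat.card_prod, Nat.card_zpowers, hord]
  exact dvd_mul_left _ _

theorem pow_nine_of_gl (g : GL (Fin 5) (ZMod 2)) (h9 : g ^ 9 = 1) : g ^ 3 = 1 := by
  classical
  -- the permutation of vectors
  obtain ⟨σ, hσ⟩ : ∃ σ : Equiv.Perm (Fin 5 → ZMod 2), ∀ v, σ v = (g : Matrix (Fin 5) (Fin 5) (ZMod 2)).mulVec v :=
    ⟨{ toFun := fun v => (g : Matrix (Fin 5) (Fin 5) (ZMod 2)).mulVec v
       invFun := fun v => ((g⁻¹ : GL (Fin 5) (ZMod 2)) : Matrix (Fin 5) (Fin 5) (ZMod 2)).mulVec v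
       left_inv := fun v => by
         show ((g⁻¹ : GL (Fin 5) (ZMod 2)) : Matrix (Fin 5) (Fin 5) (ZMod 2)).mulVec ((g : Matrix (Fin 5) (Fin 5) (ZMod 2)).mulVec v) = v
         rw [Matrix.mulVec_mulVec, ← Units.val_mul, inv_mul_cancel]
         simp
       right_inv := fun v => by
         show (g : Matrix (Fin 5) (Fin 5) (ZMod 2)).mulVec (((g⁻¹ : GL (Fin 5) (ZMod 2)) : Matrix (Fin 5) (Fin 5) (ZMod 2)).mulVec v) = v
         rw [Matrix.mulVec_mulVec, ← Units.val_mul, mul_inv_cancel]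
         simp }, fun v => rfl⟩
  have hpow : ∀ (k : ℕ) (v : Fin 5 → ZMod 2), (σ ^ k) v = ((g ^ k : GL (Fin 5) (ZMod 2)) : Matrix (Fin 5) (Fin 5) (ZMod 2)).mulVec v := by
    intro k v
    induction k generalizing v with
    | zero => simp
    | succ k ih =>
      rw [pow_succ, Equiv.Perm.mul_apply, ih, hσ, Matrix.mulVec_mulVec, pow_succ]
      rfl
  have hσ9 : σ ^ 9 = 1 := by
    ext v : 1
    rw [hpow, h9]
    simp
  -- the fixed points of the cube
  obtain ⟨C, hC⟩ : ∃ C : AddSubgroup (Fin 5 → ZMod 2), ∀ v, v ∈ C ↔ (σ ^ 3) v = v :=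
    ⟨{ carrier := {v | (σ ^ 3) v = v}
       add_mem' := by
         intro a b ha hb
         simp only [Set.mem_setOf_eq, hpow] at ha hb ⊢
         rw [Matrix.mulVec_add, ha, hb]
       zero_mem' := by
         simp only [Set.mem_setOf_eq, hpow]
         exact Matrix.mulVec_zero _
       neg_mem' := by
         intro a ha
         simp only [Set.mem_setOf_eq, hpow] at ha ⊢
         rw [Matrix.mulVec_neg, ha] }, fun v => Iff.rfl⟩
  have hcardV : Nat.card (Fin 5 → ZMod 2) = 32 := by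
    simp [Nat.card_eq_fintype_card, ZMod.card]
  have hCdvd : Nat.card C ∣ 32 := by
    rw [← hcardV]
    exact AddSubgroup.card_addSubgroup_dvd_card C
  -- the complement
  obtain ⟨τ, hτ⟩ : ∃ τ : Equiv.Perm {v : Fin 5 → ZMod 2 // ¬ (σ ^ 3) v = v}, ∀ v, ((τ v : {v : Fin 5 → ZMod 2 // ¬ (σ ^ 3) v = v}) : Fin 5 → ZMod 2) = σ v := by
    refine ⟨σ.subtypePerm ?_, fun v => rfl⟩
    intro x
    have hc : (σ ^ 3) (σ x) = σ ((σ ^ 3) x) := by
      rw [← Equiv.Perm.mul_apply, ← Equiv.Perm.mul_apply, ← pow_succ, ← pow_succ']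
    rw [hc]
    constructor
    · intro h1 h2
      exact h1 (by rw [h2])
    · intro h1 h2
      exact h1 (σ.injective h2)
  have hτpow : ∀ (k : ℕ) (v : {v : Fin 5 → ZMod 2 // ¬ (σ ^ 3) v = v}), (((τ ^ k) v : {v : Fin 5 → ZMod 2 // ¬ (σ ^ 3) v = v}) : Fin 5 → ZMod 2) = (σ ^ k) v := by
    intro k v
    induction k generalizing v with
    | zero => rfl
    | succ k ih =>
      rw [pow_succ τ k, Equiv.Perm.mul_apply, ih, hτ, pow_succ σ k, Equiv.Perm.mul_apply]
  have hdvd : 9 ∣ Nat.card {v : Fin 5 → ZMod 2 // ¬ (σ ^ 3) v = v} := by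
    apply nine_dvd τ
    · ext v : 2
      rw [hτpow, hσ9]
      rfl
    · intro y hy
      have := congrArg Subtype.val hy
      rw [hτpow] at this
      exact y.2 this
  have hcompl : Nat.card {v : Fin 5 → ZMod 2 // ¬ (σ ^ 3) v = v} + Nat.card C = 32 := by
    have e : Nat.card C = Nat.card {v : Fin 5 → ZMod 2 // (σ ^ 3) v = v} :=
      Nat.card_congr (Equiv.subtypeEquivRight hC)
    rw [e, ← hcardV]
    simp only [Nat.card_eq_fintype_card]
    rw [Fintype.card_subtype_compl]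
    have := Fintype.card_subtype_le (fun v : Fin 5 → ZMod 2 => (σ ^ 3) v = v)
    omega
  have hC32 : Nat.card C = 32 := by
    obtain ⟨k, hk⟩ := hdvd
    have hle : Nat.card C ≤ 32 := Nat.le_of_dvd (by norm_num) hCdvd
    have : Nat.card C ∈ Nat.divisors 32 := Nat.mem_divisors.mpr ⟨hCdvd, by norm_num⟩
    have hdiv : Nat.divisors 32 = {1, 2, 4, 8, 16, 32} := by decide +kernel
    rw [hdiv] at this
    simp only [Finset.mem_insert, Finset.mem_singleton] at this
    rcases this with h | h | h | h | h | h <;> rw [h] at hcompl <;> omega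
  have htop : ∀ v, (σ ^ 3) v = v := by
    intro v
    rw [← hC]
    have hCtop : C = ⊤ := by
      apply AddSubgroup.eq_top_of_card_eq
      rw [hC32, hcardV]
    rw [hCtop]
    trivial
  apply Units.ext
  rw [Units.val_one]
  ext i j
  have h1 := congrFun (htop (Pi.single j 1)) i
  rw [hpow] at h1
  rw [Matrix.mulVec_single_one] at h1
  simpa [Matrix.one_apply, Pi.single_apply, eq_comm] using h1

theorem lift_nine {H : Subgroup (GL (Fin 5) (ZMod 2))} {K : Subgroup ↥H} [K.Normal]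
    (x : ↥H ⧸ K) (h9 : x ^ 9 = 1) (h3 : x ^ 3 ≠ 1) : False := by
  haveI : Fact (Nat.Prime 3) := ⟨Nat.prime_three⟩
  have hord : orderOf x = 9 := by
    have : orderOf x = 3 ^ (1 + 1) := by
      apply orderOf_eq_prime_pow
      · simpa using h3
      · simpa using h9
    simpa using this
  obtain ⟨h, rfl⟩ := QuotientGroup.mk_surjective x
  have hdvd : orderOf (h : ↥H ⧸ K) ∣ orderOf h := by
    have := orderOf_map_dvd (QuotientGroup.mk' K) h
    exact this
  rw [hord] at hdvd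
  have hh : orderOf (h : GL (Fin 5) (ZMod 2)) = orderOf h := Subgroup.orderOf_coe h
  have hpos : orderOf (h : GL (Fin 5) (ZMod 2)) ≠ 0 := by
    exact (orderOf_pos _).ne'
  have h5 := orderOf_pow_orderOf_div (n := 9) hpos (by rw [hh]; exact hdvd)
  obtain ⟨g, hg⟩ : ∃ g, g = (h : GL (Fin 5) (ZMod 2)) ^ (orderOf (h : GL (Fin 5) (ZMod 2)) / 9) := ⟨_, rfl⟩
  rw [← hg] at h5
  have h9' : g ^ 9 = 1 := by
    rw [← h5]; exact pow_orderOf_eq_one g
  have h6 := pow_nine_of_gl g h9'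
  have := orderOf_dvd_of_pow_eq_one h6
  rw [h5] at this
  norm_num at this

theorem card_dvd {H : Subgroup (GL (Fin 5) (ZMod 2))} {K : Subgroup ↥H} [K.Normal] :
    Nat.card (↥H ⧸ K) ∣ 9999360 := by
  have h1 : Nat.card (GL (Fin 5) (ZMod 2)) = 9999360 := by
    rw [Matrix.card_GL_field, ZMod.card, Fin.prod_univ_five]
    norm_num
  rw [← h1]
  exact (Subgroup.card_quotient_dvd_card K).trans (Subgroup.card_subgroup_dvd_card H)

theorem odd_dvd {d c : ℕ} (hd : Odd d) (h : d ∣ c) (hc : c ∣ 9999360) : d ∣ 9765 := by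
  have h1 : d ∣ 2 ^ 10 * 9765 := by
    have : (2 : ℕ) ^ 10 * 9765 = 9999360 := by norm_num
    rw [this]
    exact h.trans hc
  have hcop : Nat.Coprime d (2 ^ 10) := (Nat.coprime_pow_right_iff (by norm_num) _ _).mpr (Nat.coprime_two_right.mpr hd)
  exact hcop.dvd_of_dvd_mul_left h1

/-- An element of order nine in `PSL₂(8)`. -/
theorem exists_nine {F : Type*} [Field F] [Fintype F] (hF : Fintype.card F = 8) :
    ∃ y : Matrix.ProjectiveSpecialLinearGroup (Fin 2) F, y ^ 9 = 1 ∧ y ^ 3 ≠ 1 := by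
  classical
  have h2 : (2 : F) = 0 := by
    have h1 : ringChar F = 2 := (FiniteField.even_card_iff_char_two).mpr (by rw [hF])
    haveI : CharP F 2 := ringChar.of_eq h1
    exact CharTwo.two_eq_zero
  have hneg : (-1 : F) = 1 := by linear_combination -h2
  -- a root of `x³ + x + 1`
  obtain ⟨b, hb⟩ : ∃ b : F, b ^ 3 = b + 1 := by
    obtain ⟨a, ha0, ha1⟩ : ∃ a : F, a ≠ 0 ∧ a ≠ 1 := by
      by_contra hc
      push Not at hc
      have hsub : (Finset.univ : Finset F) ⊆ {0, 1} := by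
        intro a _
        by_cases h : a = 0
        · simp [h]
        · simp [hc a h]
      have := Finset.card_le_card hsub
      have h3 := Finset.card_le_two (a := (0 : F)) (b := 1)
      rw [Finset.card_univ, hF] at this
      omega
    have hpow : a ^ 8 = a := by
      have := FiniteField.pow_card a
      rwa [hF] at this
    have hprod : a * (a + 1) * ((a ^ 3 + a + 1) * (a ^ 3 + a ^ 2 + 1)) = 0 := by
      linear_combination hpow + (a ^ 7 + a ^ 6 + 2 * a ^ 5 + 2 * a ^ 4 + a ^ 3 + a ^ 2 + a) * h2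
    have ha2 : a + 1 ≠ 0 := by
      intro h
      apply ha1
      linear_combination h - h2
    rcases mul_eq_zero.mp hprod with h | h
    · rcases mul_eq_zero.mp h with h | h
      · exact absurd h ha0
      · exact absurd h ha2
    · rcases mul_eq_zero.mp h with h | h
      · exact ⟨a, by linear_combination h - (a + 1) * h2⟩
      · have hc : a * a⁻¹ = 1 := mul_inv_cancel₀ ha0
        refine ⟨a⁻¹, ?_⟩
        linear_combination (a⁻¹) ^ 3 * h - (a ^ 2 * (a⁻¹) ^ 2 + a * a⁻¹ + 1) * hc - a⁻¹ * (a * a⁻¹ + 1) * hc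
          - (a⁻¹ + 1) * h2
  -- the matrix
  have hdet : (!![0, 1; 1, b] : Matrix (Fin 2) (Fin 2) F).det = 1 := by
    rw [Matrix.det_fin_two_of]
    linear_combination -h2
  obtain ⟨M, hM⟩ : ∃ M : Matrix.SpecialLinearGroup (Fin 2) F, (M : Matrix (Fin 2) (Fin 2) F) = !![0, 1; 1, b] :=
    ⟨⟨_, hdet⟩, rfl⟩
  have hP : ((M ^ 3 : Matrix.SpecialLinearGroup (Fin 2) F) : Matrix (Fin 2) (Fin 2) F) = !![b, 1 + b ^ 2; 1 + b ^ 2, 1 + b] := by
    rw [pow_succ, pow_two, Matrix.SpecialLinearGroup.coe_mul, Matrix.SpecialLinearGroup.coe_mul, hM]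
    ext i j
    fin_cases i <;> fin_cases j <;> simp [Matrix.mul_apply, Fin.sum_univ_two]
    · ring
    · ring
    · linear_combination hb + b * h2
  have hP9 : M ^ 9 = 1 := by
    apply Subtype.ext
    have e : M ^ 9 = M ^ 3 * M ^ 3 * M ^ 3 := by rw [← pow_add, ← pow_add]
    rw [e, Matrix.SpecialLinearGroup.coe_mul, Matrix.SpecialLinearGroup.coe_mul, hP,
      Matrix.SpecialLinearGroup.coe_one, Matrix.mul_fin_two]
    have e1 : b * b + (1 + b ^ 2) * (1 + b ^ 2) = 1 + b := by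
      linear_combination b * hb + 2 * b ^ 2 * h2
    have e2 : b * (1 + b ^ 2) + (1 + b ^ 2) * (1 + b) = 1 + b ^ 2 := by
      linear_combination b * (1 + b ^ 2) * h2
    have e3 : (1 + b ^ 2) * b + (1 + b) * (1 + b ^ 2) = 1 + b ^ 2 := by
      linear_combination b * (1 + b ^ 2) * h2
    have e4 : (1 + b ^ 2) * (1 + b ^ 2) + (1 + b) * (1 + b) = b := by
      linear_combination b * hb + (1 + b + 2 * b ^ 2) * h2
    rw [e1, e2, e3, e4, Matrix.mul_fin_two]
    have f1 : (1 + b) * b + (1 + b ^ 2) * (1 + b ^ 2) = 1 := by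
      linear_combination b * hb + (b + 2 * b ^ 2) * h2
    have f2 : (1 + b) * (1 + b ^ 2) + (1 + b ^ 2) * (1 + b) = 0 := by
      linear_combination (1 + b) * (1 + b ^ 2) * h2
    have f3 : (1 + b ^ 2) * b + b * (1 + b ^ 2) = 0 := by
      linear_combination b * (1 + b ^ 2) * h2
    have f4 : (1 + b ^ 2) * (1 + b ^ 2) + b * (1 + b) = 1 := by
      linear_combination b * hb + (b + 2 * b ^ 2) * h2
    rw [f1, f2, f3, f4]
    exact Matrix.one_fin_two.symm
  refine ⟨QuotientGroup.mk M, ?_, ?_⟩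
  · rw [← QuotientGroup.mk_pow, hP9]
    rfl
  · intro h
    rw [← QuotientGroup.mk_pow, QuotientGroup.eq_one_iff, Matrix.SpecialLinearGroup.mem_center_iff] at h
    obtain ⟨r, -, hr⟩ := h
    have h01 := congrFun (congrFun hr 0) 1
    rw [hP] at h01
    simp at h01
    have hb1 : (b + 1) * (b + 1) = 0 := by linear_combination -h01 + (b) * h2
    have hb2 : b = 1 := by
      have := mul_self_eq_zero.mp hb1
      linear_combination this - h2
    rw [hb2] at hb
    have : (1 : F) = 0 := by linear_combination -hb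
    exact one_ne_zero this


/-- Let X be a section of the general linear group GL(5, 2), that is, a quotient of a subgroup of it. If X is isomorphic to PSL(2, 2^n) for some n ≥ 2, to a Suzuki group over the field with 2^(2m+1) elements for some m ≥ 1, or to PSU(3, 2^n) for some n ≥ 2, then X is isomorphic to PSL(2, 4). -/
theorem result {H : Subgroup (GL (Fin 5) (ZMod 2))}
    {K : Subgroup ↥H} [K.Normal]
    (hX : (∃ (n : ℕ) (F : Type) (_ : Field F) (_ : Fintype F), 2 ≤ n ∧ Fintype.card F = 2 ^ n ∧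
        Nonempty (↥H ⧸ K ≃* Matrix.ProjectiveSpecialLinearGroup (Fin 2) F)) ∨
      (∃ (m : ℕ) (F : Type) (_ : Field F) (_ : Fintype F), 1 ≤ m ∧ Fintype.card F = 2 ^ (2 * m + 1) ∧
        Nonempty (↥H ⧸ K ≃* ↥(Cfsg.Lie.Sz F (2 ^ (m + 1))))) ∨
      (∃ (n : ℕ) (F : Type) (_ : Field F) (_ : Fintype F), 2 ≤ n ∧ Fintype.card F = 4 ^ n ∧
        Nonempty (↥H ⧸ K ≃* Cfsg.PSU 3 F (2 ^ n)))) :
    ∃ (F : Type) (_ : Field F) (_ : Fintype F), Fintype.card F = 4 ∧
      Nonempty (↥H ⧸ K ≃* Matrix.ProjectiveSpecialLinearGroup (Fin 2) F) := by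
  rcases hX with ⟨n, F, _, _, hn, hc, ⟨e⟩⟩ | ⟨m, F, _, _, hm, hc, ⟨e⟩⟩ | ⟨n, F, _, _, hn, hc, ⟨e⟩⟩
  · by_cases h2 : n = 2
    · subst h2
      exact ⟨F, _, _, by rw [hc]; norm_num, ⟨e⟩⟩
    exfalso
    by_cases h3 : n = 3
    · subst h3
      obtain ⟨y, hy9, hy3⟩ := exists_nine (F := F) (by rw [hc]; norm_num)
      apply lift_nine (H := H) (K := K) (e.symm y)
      · rw [← map_pow, hy9, map_one]
      · intro h
        apply hy3
        rw [← map_pow] at h
        exact (map_eq_one_iff e.symm e.symm.injective).mp h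
    have hcard : Nat.card (↥H ⧸ K) = 2 ^ n * ((2 ^ n) ^ 2 - 1) := by
      rw [Nat.card_congr e.toEquiv]
      exact Cfsg.Agent.Lib.Classical.card_psl2_even hc (by
        exact (Nat.even_pow.mpr ⟨even_two, by omega⟩))
    have hd := card_dvd (H := H) (K := K)
    rw [hcard] at hd
    have h4 : 4 ≤ n := by omega
    have hpos : 1 ≤ (2 ^ n) ^ 2 := Nat.one_le_pow _ _ (by positivity)
    have hev : Even ((2 ^ n) ^ 2) := Nat.even_pow.mpr ⟨Nat.even_pow.mpr ⟨even_two, by omega⟩, by norm_num⟩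
    have hodd : Odd ((2 ^ n) ^ 2 - 1) := Nat.Even.sub_odd hpos hev odd_one
    have h9 := odd_dvd hodd (dvd_mul_left _ _) hd
    have hle := Nat.le_of_dvd (by norm_num) h9
    have hn6 : n ≤ 6 := by
      by_contra hlt
      have h7 : 2 ^ 7 ≤ 2 ^ n := Nat.pow_le_pow_right (by norm_num) (by omega)
      have h8 : (2 ^ 7) ^ 2 ≤ (2 ^ n) ^ 2 := Nat.pow_le_pow_left h7 2
      omega
    interval_cases n <;> norm_num at h9
  · exfalso
    have hcard : Nat.card (↥H ⧸ K) = (2 ^ (2 * m + 1)) ^ 2 * ((2 ^ (2 * m + 1)) ^ 2 + 1) * (2 ^ (2 * m + 1) - 1) := by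
      rw [Nat.card_congr e.toEquiv, ← Nat.card_congr (Cfsg.Agent.Lib.Suzuki.szEquiv hc hm).toEquiv]
      exact Cfsg.Agent.Lib.Suzuki.card_Sz hc hm
    have hd := card_dvd (H := H) (K := K)
    rw [hcard] at hd
    have hev : Even ((2 ^ (2 * m + 1)) ^ 2) := Nat.even_pow.mpr ⟨Nat.even_pow.mpr ⟨even_two, by omega⟩, by norm_num⟩
    have hodd : Odd ((2 ^ (2 * m + 1)) ^ 2 + 1) := hev.add_one
    have h9 := odd_dvd hodd (Dvd.dvd.mul_right (dvd_mul_left _ _) _) hd
    have hle := Nat.le_of_dvd (by norm_num) h9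
    have hm2 : m ≤ 2 := by
      by_contra hlt
      have h7 : 2 ^ 7 ≤ 2 ^ (2 * m + 1) := Nat.pow_le_pow_right (by norm_num) (by omega)
      have h8 : (2 ^ 7) ^ 2 ≤ (2 ^ (2 * m + 1)) ^ 2 := Nat.pow_le_pow_left h7 2
      omega
    interval_cases m <;> norm_num at h9
  · exfalso
    have hF' : Fintype.card F = (2 ^ n) ^ 2 := by
      rw [hc, ← pow_mul, mul_comm, pow_mul]
      norm_num
    have hformula := Cfsg.Agent.Lib.Classical.card_psu hF' 3 (by omega)
    simp only [Finset.prod_range_succ, Finset.prod_range_zero] at hformula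
    norm_num [Nat.even_iff] at hformula
    have hd := card_dvd (H := H) (K := K)
    rw [Nat.card_congr e.toEquiv] at hd
    obtain ⟨c, hcc⟩ : ∃ c, c = Nat.card (Cfsg.PSU 3 F (2 ^ n)) := ⟨_, rfl⟩
    rw [← hcc] at hd hformula
    obtain ⟨q, hq⟩ : ∃ q, q = 2 ^ n := ⟨_, rfl⟩
    rw [← hq] at hformula
    have hq1 : 0 < q + 1 := by omega
    have hform2 : Nat.gcd 3 (q + 1) * c = q ^ 3 * ((q ^ 2 - 1) * (q ^ 3 + 1)) := by
      apply Nat.eq_of_mul_eq_mul_left hq1
      rw [← mul_assoc, mul_comm (q + 1), mul_assoc, hformula]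
      ring
    have hd3 : q ^ 3 + 1 ∣ 3 * 9999360 := by
      have h1 : q ^ 3 + 1 ∣ Nat.gcd 3 (q + 1) * c := by
        rw [hform2]
        exact Dvd.dvd.mul_left (dvd_mul_left _ _) _
      exact h1.trans (Nat.mul_dvd_mul (Nat.gcd_dvd_left _ _) hd)
    have hev : Even q := by
      rw [hq]; exact Nat.even_pow.mpr ⟨even_two, by omega⟩
    have hev3 : Even (q ^ 3) := Nat.even_pow.mpr ⟨hev, by norm_num⟩
    have hodd : Odd (q ^ 3 + 1) := hev3.add_one
    have hcop : Nat.Coprime (q ^ 3 + 1) (2 ^ 10) :=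
      (Nat.coprime_pow_right_iff (by norm_num) _ _).mpr (Nat.coprime_two_right.mpr hodd)
    have h9 : q ^ 3 + 1 ∣ 29295 := by
      have : 3 * 9999360 = 2 ^ 10 * 29295 := by norm_num
      rw [this] at hd3
      exact hcop.dvd_of_dvd_mul_left hd3
    have hle := Nat.le_of_dvd (by norm_num) h9
    have hn4 : n ≤ 4 := by
      by_contra hlt
      have h7 : 2 ^ 5 ≤ q := by
        rw [hq]
        exact Nat.pow_le_pow_right (by norm_num) (by omega)
      have h8 : (2 ^ 5) ^ 3 ≤ q ^ 3 := Nat.pow_le_pow_left h7 3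
      omega
    interval_cases n <;> subst hq <;> norm_num at h9

end Cfsg.Agent.S3179
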