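import Cfsg.Statements.S3180
import Mathlib
import Cfsg.Agent.Lib.Coprime.Sylow
import Cfsg.Agent.Lib.Components.ExtLayer

set_option autoImplicit false
open Cfsg

namespace Cfsg.Agent.S3180

theorem exists_isSylowOf_ge' {X : Type*} [Group X] [Finite X] {p : ℕ} [Fact p.Prime] {T H : Subgroup X}
    (hTH : T ≤ H) (hT : IsPGroup p T) : ∃ P, Cfsg.Agent.Lib.Coprime.IsSylowOf p P H ∧ T ≤ P := by
  have hca : Cfsg.Agent.Lib.Coprime.CoprimeAction (⊥ : Subgroup X) H :=
    ⟨by simp, by simp, Or.inl inferInstance⟩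
  obtain ⟨P, hP, -, hTP⟩ := hca.exists_invariant_sylow_ge hTH hT (by simp)
  exact ⟨P, hP, hTP⟩


/-- Let P be a Sylow p-subgroup of a finite group J and P₁ a subgroup of P that is weakly closed in P with respect to J. If J acts on a set and two points, each fixed by every element of P₁, lie in one J-orbit, then they lie in one orbit of the normalizer of P₁ in J. -/
theorem result {J : Type*} [Group J] [Finite J]
    {p : ℕ} [Fact p.Prime] (P : Sylow p J) (P₁ : Subgroup J) (hW : Cfsg.IsWeaklyClosed P₁ (P : Subgroup J))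
    {Ω : Type*} [MulAction J Ω] (x y : Ω) (hx : ∀ g ∈ P₁, g • x = x) (hy : ∀ g ∈ P₁, g • y = y)
    (hc : ∃ g : J, g • x = y) :
    ∃ g ∈ Subgroup.normalizer (P₁ : Set J), g • x = y := by
  classical
  obtain ⟨g, hg⟩ := hc
  have hP₁p : IsPGroup p ↥P₁ := P.isPGroup'.to_le hW.1
  set St : Subgroup J := MulAction.stabilizer J y with hSt
  have hP₁St : P₁ ≤ St := fun t ht => by rw [hSt, MulAction.mem_stabilizer_iff]; exact hy t ht
  set c₁ : Subgroup J := P₁.map (MulAut.conj g).toMonoidHom with hc₁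
  have hc₁St : c₁ ≤ St := by
    rintro _ ⟨t, ht, rfl⟩
    rw [hSt, MulAction.mem_stabilizer_iff]
    show (g * t * g⁻¹) • y = y
    rw [← hg, mul_smul, mul_smul, inv_smul_smul, hx t ht]
  have hc₁p : IsPGroup p ↥c₁ := hP₁p.map _
  obtain ⟨Q, hQ, hPQ⟩ := exists_isSylowOf_ge' hP₁St hP₁p
  obtain ⟨Q', hQ', hcQ'⟩ := exists_isSylowOf_ge' hc₁St hc₁p
  obtain ⟨h, hh, hQeq⟩ := hQ'.exists_conj hQ
  obtain ⟨R, hQR⟩ := hQ.isP.exists_le_sylow
  obtain ⟨k, hk⟩ := MulAction.exists_smul_eq J P R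
  have hmem : ∀ t : J, t ∈ Q → k⁻¹ * t * k ∈ (P : Subgroup J) := by
    intro t ht
    have : t ∈ (R : Subgroup J) := hQR ht
    rw [← hk, Sylow.coe_subgroup_smul, Subgroup.mem_pointwise_smul_iff_inv_smul_mem] at this
    simpa [MulAut.smul_def, MulAut.conj_apply, mul_assoc] using this
  have h1 : P₁.map (MulAut.conj k⁻¹).toMonoidHom ≤ (P : Subgroup J) := by
    rintro _ ⟨t, ht, rfl⟩
    have := hmem t (hPQ ht)
    simpa [MulAut.conj_apply] using this
  have h2 : P₁.map (MulAut.conj (k⁻¹ * h * g)).toMonoidHom ≤ (P : Subgroup J) := by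
    rintro _ ⟨t, ht, rfl⟩
    have h3 : h * (g * t * g⁻¹) * h⁻¹ ∈ Q := by
      rw [hQeq]
      exact ⟨g * t * g⁻¹, hcQ' ⟨t, ht, rfl⟩, rfl⟩
    have := hmem _ h3
    simpa [MulAut.conj_apply, mul_assoc] using this
  have e1 := hW.2 _ h1
  have e2 := hW.2 _ h2
  have n1 : k⁻¹ ∈ Subgroup.normalizer (P₁ : Set J) := Cfsg.Agent.Lib.Components.mem_normalizer_of_conj_eq' e1
  have n2 : k⁻¹ * h * g ∈ Subgroup.normalizer (P₁ : Set J) := Cfsg.Agent.Lib.Components.mem_normalizer_of_conj_eq' e2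
  refine ⟨h * g, ?_, ?_⟩
  · have : h * g = (k⁻¹)⁻¹ * (k⁻¹ * h * g) := by group
    rw [this]
    exact Subgroup.mul_mem _ (Subgroup.inv_mem _ n1) n2
  · rw [mul_smul, hg]
    exact hh

end Cfsg.Agent.S3180
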