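import Cfsg.Statements.S3183
import Mathlib
import Cfsg.Agent.Lib.Coprime.Sylow
import Cfsg.Agent.Lib.Components.Local2

set_option autoImplicit false
open Cfsg

namespace Cfsg.Agent.S3183

open Cfsg.Agent.Lib.Coprime in
theorem exists_isSylowOf_ge' {X : Type*} [Group X] [Finite X] {p : ℕ} [Fact p.Prime] {T H : Subgroup X}
    (hTH : T ≤ H) (hT : IsPGroup p T) : ∃ P, IsSylowOf p P H ∧ T ≤ P := by
  have hca : CoprimeAction (⊥ : Subgroup X) H :=
    ⟨by simp, by simp, Or.inl inferInstance⟩
  obtain ⟨P, hP, -, hTP⟩ := hca.exists_invariant_sylow_ge hTH hT (by simp)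
  exact ⟨P, hP, hTP⟩

theorem mem_Z {G : Type*} [Group G] {U : Subgroup G} {z : G} :
    z ∈ (Subgroup.center ↥U).map U.subtype ↔ z ∈ U ∧ ∀ u ∈ U, u * z = z * u := by
  constructor
  · rintro ⟨u, hu, rfl⟩
    refine ⟨u.2, fun v hv => ?_⟩
    have := (Subgroup.mem_center_iff.mp hu) ⟨v, hv⟩
    exact congrArg Subtype.val this
  · rintro ⟨hz, h⟩
    refine ⟨⟨z, hz⟩, ?_, rfl⟩
    rw [SetLike.mem_coe, Subgroup.mem_center_iff]
    rintro ⟨v, hv⟩
    exact Subtype.ext (h v hv)

theorem mem_of_sylow_le {G : Type*} [Group G] [Finite G] (W : Sylow 2 G) {C : Subgroup G}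
    (hW : (W : Subgroup G) ≤ C) {y : G} (hy : y ∈ Subgroup.normalizer (C : Set G))
    (hy2 : IsPGroup 2 (Subgroup.zpowers y)) : y ∈ C := by
  set Y := Subgroup.zpowers y with hY
  have hYC : Y ≤ Subgroup.normalizer (C : Set G) := by
    rw [hY, Subgroup.zpowers_le]; exact hy
  have h1 : C.relIndex (C ⊔ Y) = C.relIndex Y := Cfsg.Agent.Lib.Coprime.relIndex_sup_of_le_normalizer C Y hYC
  have h2 : C.relIndex Y ∣ Nat.card Y := Subgroup.relIndex_dvd_card C Y
  obtain ⟨k, hk⟩ := IsPGroup.iff_card.mp hy2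
  rw [hk] at h2
  have h3 : (W : Subgroup G).relIndex C * C.relIndex (C ⊔ Y) = (W : Subgroup G).relIndex (C ⊔ Y) :=
    Subgroup.relIndex_mul_relIndex _ _ _ hW le_sup_left
  have h4 : (W : Subgroup G).relIndex (C ⊔ Y) * (C ⊔ Y).index = (W : Subgroup G).index :=
    Subgroup.relIndex_mul_index (hW.trans le_sup_left)
  have h5 : ¬ 2 ∣ (W : Subgroup G).index := W.not_dvd_index
  have h6 : ¬ 2 ∣ C.relIndex Y := by
    intro h
    apply h5
    rw [← h4, ← h3, h1]
    exact Dvd.dvd.mul_right (Dvd.dvd.mul_left h _) _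
  have h7 : C.relIndex Y = 1 := by
    obtain ⟨j, -, hj⟩ := (Nat.dvd_prime_pow Nat.prime_two).mp h2
    rcases j with _ | j
    · simpa using hj
    · exfalso; apply h6; rw [hj, pow_succ]; exact Dvd.intro_left _ rfl
  have h8 : Y ≤ C := Subgroup.relIndex_eq_one.mp h7
  exact h8 (Subgroup.mem_zpowers y)

theorem lemmaA {G : Type*} [Group G] [Finite G]
    (hCI : ∀ S T : Sylow 2 G, S ≠ T → ∃ U : Sylow 2 G,
      (S : Subgroup G) ⊓ (T : Subgroup G) ≤ (Subgroup.center ↥(U : Subgroup G)).map (U : Subgroup G).subtype)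
    (S : Sylow 2 G) {x : G} (hx : x ∈ (S : Subgroup G)) (U : Sylow 2 G)
    (hU : (U : Subgroup G) ≤ Subgroup.centralizer ({x} : Set G)) :
    (S : Subgroup G) ≤ Subgroup.centralizer ({x} : Set G) := by
  haveI : Fact (Nat.Prime 2) := ⟨Nat.prime_two⟩
  by_contra hne
  set Cx := Subgroup.centralizer ({x} : Set G) with hCx
  set R := (S : Subgroup G) ⊓ Cx with hR
  have hRS : R < (S : Subgroup G) := by
    refine lt_of_le_of_ne inf_le_left ?_
    intro h
    apply hne
    rw [← h]; exact inf_le_right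
  have hRp : IsPGroup 2 R := S.isPGroup'.to_le inf_le_left
  have hxC : x ∈ Cx := by
    rw [hCx, Subgroup.mem_centralizer_singleton_iff]
  have hxR : x ∈ R := Subgroup.mem_inf.mpr ⟨hx, hxC⟩
  -- U as a Sylow subgroup of Cx
  have hUS : Cfsg.Agent.Lib.Coprime.IsSylowOf 2 (U : Subgroup G) Cx := by
    refine ⟨hU, U.isPGroup', ?_⟩
    intro h
    apply U.not_dvd_index
    have := Subgroup.relIndex_mul_index hU
    rw [← this]
    exact Dvd.dvd.mul_right h _
  obtain ⟨Q, hQ, hRQ⟩ := exists_isSylowOf_ge' (inf_le_right : R ≤ Cx) hRp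
  obtain ⟨g, -, hg⟩ := hUS.exists_conj hQ
  have hQcard : Nat.card Q = Nat.card (U : Subgroup G) := by
    rw [hg]
    exact Subgroup.card_map_of_injective (MulAut.conj g).injective
  obtain ⟨V, hQV⟩ := hQ.isP.exists_le_sylow
  have hQV' : Q = (V : Subgroup G) := by
    apply Subgroup.eq_of_le_of_card_ge hQV
    rw [hQcard, Sylow.card_eq_multiplicity V, Sylow.card_eq_multiplicity U]
  have hSV : S ≠ V := by
    rintro rfl
    apply hne
    rw [← hQV']
    exact hQ.le
  obtain ⟨W, hW⟩ := hCI S V hSV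
  have hRW : R ≤ (Subgroup.center ↥(W : Subgroup G)).map (W : Subgroup G).subtype := by
    refine le_trans (le_inf inf_le_left ?_) hW
    rw [← hQV']; exact hRQ
  -- W centralizes R
  have hWC : (W : Subgroup G) ≤ Subgroup.centralizer (R : Set G) := by
    intro w hw
    rw [Subgroup.mem_centralizer_iff]
    intro r hr
    exact ((mem_Z.mp (hRW hr)).2 w hw).symm
  obtain ⟨y, hy, hyR⟩ := SetLike.exists_of_lt (Cfsg.Agent.Lib.Components.lt_inf_normalizer S.isPGroup' hRS)
  obtain ⟨hyS, hyN⟩ := Subgroup.mem_inf.mp hy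
  have hyN' : y ∈ Subgroup.normalizer (Subgroup.centralizer (R : Set G) : Set G) := by
    rw [Subgroup.mem_normalizer_iff]
    intro t
    simp only [SetLike.mem_coe, Subgroup.mem_centralizer_iff]
    constructor
    · intro ht r hr
      have h1 : y⁻¹ * r * y ∈ R := by
        have := (Subgroup.mem_normalizer_iff.mp (Subgroup.inv_mem _ hyN) r).mp hr
        simpa using this
      have h2 := ht _ h1
      have h3 : r * (y * t * y⁻¹) = y * ((y⁻¹ * r * y) * t) * y⁻¹ := by group
      rw [h3, h2]; group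
    · intro ht r hr
      have h1 : y * r * y⁻¹ ∈ R := (Subgroup.mem_normalizer_iff.mp hyN r).mp hr
      have h2 := ht _ h1
      have h3 : y * r * y⁻¹ * (y * t * y⁻¹) = y * (r * t) * y⁻¹ := by group
      have h4 : y * t * y⁻¹ * (y * r * y⁻¹) = y * (t * r) * y⁻¹ := by group
      rw [h3, h4] at h2
      exact mul_left_cancel (mul_right_cancel h2)
  have hy2 : IsPGroup 2 (Subgroup.zpowers y) :=
    S.isPGroup'.to_le ((Subgroup.zpowers_le).mpr hyS)
  have hyC := mem_of_sylow_le W hWC hyN' hy2
  apply hyR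
  refine Subgroup.mem_inf.mpr ⟨hyS, ?_⟩
  rw [hCx, Subgroup.mem_centralizer_singleton_iff]
  have := Subgroup.mem_centralizer_iff.mp hyC x hxR
  exact this.symm


/-- Let G be a finite group in which the intersection of any two distinct Sylow 2-subgroups is contained in the centre of some Sylow 2-subgroup, and let S be a Sylow 2-subgroup. Then for every x in S the centralizer of x in S is a Sylow 2-subgroup of the centralizer of x in G (no 2-subgroup centralizing x is larger), and for every other Sylow 2-subgroup T the intersection S ∩ T lies in both the centre of S and the centre of T. -/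
theorem result {G : Type*} [Group G] [Finite G]
    (hCI : ∀ S T : Sylow 2 G, S ≠ T → ∃ U : Sylow 2 G,
      (S : Subgroup G) ⊓ (T : Subgroup G) ≤ (Subgroup.center ↥(U : Subgroup G)).map (U : Subgroup G).subtype)
    (S : Sylow 2 G) :
    (∀ x ∈ (S : Subgroup G), ∀ P : Subgroup G, IsPGroup 2 ↥P → P ≤ Subgroup.centralizer ({x} : Set G) →
        Nat.card ↥P ≤ Nat.card ↥((S : Subgroup G) ⊓ Subgroup.centralizer ({x} : Set G))) ∧
    (∀ T : Sylow 2 G, T ≠ S →
        (S : Subgroup G) ⊓ (T : Subgroup G) ≤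
          (Subgroup.center ↥(S : Subgroup G)).map (S : Subgroup G).subtype ⊓
            (Subgroup.center ↥(T : Subgroup G)).map (T : Subgroup G).subtype) := by
  classical
  haveI : Fact (Nat.Prime 2) := ⟨Nat.prime_two⟩
  have hZ : ∀ (T T' : Sylow 2 G), T ≠ T' → ∀ x, x ∈ (T : Subgroup G) → x ∈ (T' : Subgroup G) →
      ∀ (S' : Sylow 2 G), x ∈ (S' : Subgroup G) → (S' : Subgroup G) ≤ Subgroup.centralizer ({x} : Set G) := by
    intro T T' hne x hx hx' S' hS'
    obtain ⟨U, hU⟩ := hCI T T' hne
    have hxU := (mem_Z.mp (hU (Subgroup.mem_inf.mpr ⟨hx, hx'⟩)))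
    refine lemmaA hCI S' hS' U ?_
    intro u hu
    rw [Subgroup.mem_centralizer_singleton_iff]
    exact hxU.2 u hu
  constructor
  · intro x hx P hP hPC
    by_cases hxZ : (S : Subgroup G) ≤ Subgroup.centralizer ({x} : Set G)
    · rw [inf_eq_left.mpr hxZ]
      obtain ⟨T, hT⟩ := hP.exists_le_sylow
      rw [Sylow.card_eq_multiplicity S, ← Sylow.card_eq_multiplicity T]
      exact Subgroup.card_le_of_le hT
    · have hPx : IsPGroup 2 ↥(P ⊔ Subgroup.zpowers x) := by
        have hxp : IsPGroup 2 (Subgroup.zpowers x) :=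
          S.isPGroup'.to_le ((Subgroup.zpowers_le).mpr hx)
        refine IsPGroup.to_sup_of_normal_right' hP hxp ?_
        intro p hp
        have hpx : p * x = x * p := by
          have := hPC hp
          rwa [Subgroup.mem_centralizer_singleton_iff] at this
        have hcomm : ∀ t ∈ Subgroup.zpowers x, p * t = t * p := by
          intro t ht
          obtain ⟨k, rfl⟩ := Subgroup.mem_zpowers_iff.mp ht
          exact (Commute.zpow_right (show Commute p x from hpx) k).eq
        rw [Subgroup.mem_normalizer_iff]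
        intro t
        constructor
        · intro ht
          rw [hcomm t ht]; simpa using ht
        · intro ht
          have h := hcomm _ ht
          have e : p * t * p⁻¹ = t := mul_left_cancel (a := p) (by rw [h]; group)
          rw [e] at ht
          exact ht
      obtain ⟨T, hT⟩ := hPx.exists_le_sylow
      have hTS : T = S := by
        by_contra hne
        exact hxZ (hZ T S hne x (hT (Subgroup.mem_sup_right (Subgroup.mem_zpowers x))) hx S hx)
      rw [hTS] at hT
      exact Subgroup.card_le_of_le (le_inf (le_sup_left.trans hT) hPC)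
  · intro T hT x hx
    obtain ⟨hxS, hxT⟩ := Subgroup.mem_inf.mp hx
    refine Subgroup.mem_inf.mpr ⟨mem_Z.mpr ⟨hxS, ?_⟩, mem_Z.mpr ⟨hxT, ?_⟩⟩
    · intro u hu
      have := hZ T S hT x hxT hxS S hxS hu
      rwa [Subgroup.mem_centralizer_singleton_iff] at this
    · intro u hu
      have := hZ T S hT x hxT hxS T hxT hu
      rwa [Subgroup.mem_centralizer_singleton_iff] at this

end Cfsg.Agent.S3183
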