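import Cfsg.Statements.S3184
import Mathlib
import Cfsg.Agent.S0215
import Cfsg.Agent.Lib.Components.CentInt
import Cfsg.Agent.Lib.Components.Basic

set_option autoImplicit false
open Cfsg

namespace Cfsg.Agent.S3184

open Subgroup Cfsg.Agent.Lib.Components

/-- An element normalizing a Sylow subgroup fixes a characteristic cyclic subgroup's involution. -/
theorem fix_char {G : Type*} [Group G] [Finite G] (S : Sylow 2 G) (C : Subgroup ↥(S : Subgroup G))
    (hCh : C.Characteristic) (hCc : IsCyclic ↥C)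
    (c : ↥(S : Subgroup G)) (hc : c ∈ C) (hc2 : orderOf c = 2)
    (n : G) (hn : n ∈ normalizer ((S : Subgroup G) : Set G)) : n * (c : G) * n⁻¹ = c := by
  have hm : ∀ s : ↥(S : Subgroup G), n * (s : G) * n⁻¹ ∈ (S : Subgroup G) := fun s =>
    (mem_normalizer_iff.mp hn s).mp s.2
  have hm' : ∀ s : ↥(S : Subgroup G), n⁻¹ * (s : G) * n ∈ (S : Subgroup G) := fun s => by
    have := (mem_normalizer_iff.mp (inv_mem hn) s).mp s.2
    simpa using this
  obtain ⟨σ, hσ⟩ : ∃ σ : ↥(S : Subgroup G) ≃* ↥(S : Subgroup G), ∀ s, ((σ s : ↥(S : Subgroup G)) : G) = n * (s : G) * n⁻¹ :=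
    ⟨{ toFun := fun s => ⟨n * (s : G) * n⁻¹, hm s⟩
       invFun := fun s => ⟨n⁻¹ * (s : G) * n, hm' s⟩
       left_inv := fun s => by apply Subtype.ext; simp [mul_assoc]
       right_inv := fun s => by apply Subtype.ext; simp [mul_assoc]
       map_mul' := fun a b => by apply Subtype.ext; simp [mul_assoc] }, fun s => rfl⟩
  have h1 : σ c ∈ C := by
    have h2 := hCh.fixed σ
    have h3 : c ∈ C.comap σ.toMonoidHom := by
      rw [h2]; exact hc
    exact h3
  have hord : orderOf (σ c) = 2 := by
    rw [MulEquiv.orderOf_eq]; exact hc2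
  have h4 : (⟨σ c, h1⟩ : ↥C) = ⟨c, hc⟩ := by
    apply unique_involution_cyclic
    · rw [Subgroup.orderOf_mk]; exact hord
    · rw [Subgroup.orderOf_mk]; exact hc2
  have h5 : σ c = c := congrArg Subtype.val h4
  rw [← hσ, h5]

theorem main_zstar {G : Type*} [Group G] [Finite G] (hZ : ZStarFor G)
    (hCI : ∀ S T : Sylow 2 G, S ≠ T → ∃ U : Sylow 2 G,
      (S : Subgroup G) ⊓ (T : Subgroup G) ≤ (Subgroup.center ↥(U : Subgroup G)).map (U : Subgroup G).subtype)
    (S : Sylow 2 G) (C : Subgroup ↥(S : Subgroup G)) (hCh : C.Characteristic) (hCc : IsCyclic ↥C)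
    (c : ↥(S : Subgroup G)) (hc : c ∈ C) (hc2 : orderOf c = 2) :
    ∀ g : G, (QuotientGroup.mk (s := Cfsg.oddCore G) (g * (c : G) * g⁻¹)) =
      QuotientGroup.mk (s := Cfsg.oddCore G) (c : G) := by
  classical
  have hcG : orderOf (c : G) = 2 := by
    rw [Subgroup.orderOf_coe]; exact hc2
  have hcc : (c : G) * c = 1 := by
    have := pow_orderOf_eq_one (c : G)
    rw [hcG, pow_two] at this
    exact this
  -- intersections are central
  have hCI' : ∀ S T : Sylow 2 G, S ≠ T → ∃ U : Sylow 2 G,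
      ∀ d ∈ (S : Subgroup G) ⊓ (T : Subgroup G), d ∈ (U : Subgroup G) ∧
        ∀ u ∈ (U : Subgroup G), u * d = d * u := by
    intro S T hST
    obtain ⟨U, hU⟩ := hCI S T hST
    refine ⟨U, fun d hd => ?_⟩
    obtain ⟨z, hz, rfl⟩ := hU hd
    refine ⟨z.2, fun u hu => ?_⟩
    have := Subgroup.mem_center_iff.mp hz ⟨u, hu⟩
    exact congrArg Subtype.val this
  have hinter : ∀ S T : Sylow 2 G, S ≠ T → ∀ d ∈ (S : Subgroup G) ⊓ (T : Subgroup G),
      ∀ s ∈ (S : Subgroup G), s * d = d * s := fun S T hST =>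
    inter_central hCI' _ S T hST le_rfl
  -- normalizer fixes c
  have hNc : ∀ n ∈ normalizer ((S : Subgroup G) : Set G), n * (c : G) * n⁻¹ = c :=
    fix_char S C hCh hCc c hc hc2
  -- c is central in S
  have hScen : ∀ s ∈ (S : Subgroup G), s * (c : G) = c * s := by
    intro s hs
    have hsN : s ∈ normalizer ((S : Subgroup G) : Set G) := Subgroup.le_normalizer hs
    have := hNc s hsN
    calc s * (c : G) = (s * c * s⁻¹) * s := by group
      _ = c * s := by rw [this]
  -- isolated
  have hiso : ∀ g : G, g * (c : G) * g⁻¹ ∈ (S : Subgroup G) → g * (c : G) * g⁻¹ = c := by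
    intro g hg
    by_cases hgS : g • S = S
    · have hgN : g ∈ normalizer ((S : Subgroup G) : Set G) := by
        rw [mem_normalizer_iff]
        intro x
        have hmem := mem_smul_sylow' S g (g * x * g⁻¹)
        rw [hgS] at hmem
        have e : g⁻¹ * (g * x * g⁻¹) * g = x := by group
        rw [e] at hmem
        exact hmem.symm
      exact hNc g hgN
    · have h1 : g * (c : G) * g⁻¹ ∈ (S : Subgroup G) ⊓ ((g • S : Sylow 2 G) : Subgroup G) := by
        refine ⟨hg, (mem_smul_sylow' S g _).mpr ?_⟩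
        have e : g⁻¹ * (g * (c : G) * g⁻¹) * g = c := by group
        rw [e]; exact c.2
      have h2 := hinter S (g • S) (Ne.symm hgS) _ h1
      obtain ⟨n, hn, hne⟩ := burnside_central S hScen h2
      rw [← hne]
      exact hNc n hn
  -- apply the Z*-theorem
  obtain ⟨N, hNn, hNo, hN⟩ := hZ S c hcG c.2 hiso
  have hNle : N ≤ Cfsg.oddCore G := by
    apply le_pPrimeCore hNn
    exact Nat.coprime_two_right.mpr hNo
  have hinv : (c : G)⁻¹ = c := by
    rw [inv_eq_iff_mul_eq_one]; exact hcc
  intro g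
  rw [QuotientGroup.eq]
  apply hNle
  have h1 := inv_mem (hN g)
  have e : (g * (c : G) * g⁻¹)⁻¹ * c = ((c : G) * g * (c : G)⁻¹ * g⁻¹)⁻¹ := by
    simp only [mul_inv_rev, inv_inv, hinv, mul_assoc]
  rw [e]
  exact h1


/-- Let G be a finite group in which the intersection of any two distinct Sylow 2-subgroups is contained in the centre of some Sylow 2-subgroup, and let S be a Sylow 2-subgroup. If C is a nontrivial cyclic characteristic subgroup of S, then the involution of C is central modulo the largest normal subgroup of odd order of G: each of its conjugates has the same image in G/O(G). -/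
theorem result {G : Type*} [Group G] [Finite G]
    (hCI : ∀ S T : Sylow 2 G, S ≠ T → ∃ U : Sylow 2 G,
      (S : Subgroup G) ⊓ (T : Subgroup G) ≤ (Subgroup.center ↥(U : Subgroup G)).map (U : Subgroup G).subtype)
    (S : Sylow 2 G) (C : Subgroup ↥(S : Subgroup G)) (hC : C ≠ ⊥) (hCc : IsCyclic ↥C) (hCh : C.Characteristic)
    (c : ↥(S : Subgroup G)) (hc : c ∈ C) (hc2 : orderOf c = 2) :
    ∀ g : G, (QuotientGroup.mk (s := Cfsg.oddCore G) (g * (c : G) * g⁻¹)) =
      QuotientGroup.mk (s := Cfsg.oddCore G) (c : G) := by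
  exact main_zstar (fun P u => Cfsg.Agent.S0215.result P u) hCI S C hCh hCc c hc hc2

end Cfsg.Agent.S3184
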