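import Cfsg.Statements.S3190
import Mathlib
import Cfsg.Agent.Lib.Coprime.Abelian
import Cfsg.Agent.Lib.Components.Local
import Cfsg.Agent.Lib.Basic.Index2
import Cfsg.Agent.Lib.Basic.Nilpotent

set_option autoImplicit false
open Cfsg

namespace Cfsg.Agent.S3190

/-- Let p be an odd prime and, inside a finite group, let P be a p-subgroup normalized by a Klein four-group T. Let R be a subgroup of P, normal in P and normalized by T, such that P is the product of R with the centralizer of T in P. If T centralizes the centre of P, then T centralizes the centre of R. -/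
theorem result {X : Type*} [Group X] [Finite X]
    {p : ℕ} (hp : p.Prime) (hodd : Odd p) (P T R : Subgroup X) (hP : IsPGroup p ↥P) (hT : IsKleinFour ↥T)
    (hTP : T ≤ Subgroup.normalizer (P : Set X)) (hRP : R ≤ P) (hRn : (R.subgroupOf P).Normal)
    (hTR : T ≤ Subgroup.normalizer (R : Set X)) (hfac : R ⊔ (P ⊓ Subgroup.centralizer (T : Set X)) = P)
    (hZ : T ≤ Subgroup.centralizer (((Subgroup.center ↥P).map P.subtype : Subgroup X) : Set X)) :
    T ≤ Subgroup.centralizer (((Subgroup.center ↥R).map R.subtype : Subgroup X) : Set X) := by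
  classical
  haveI : Fact p.Prime := ⟨hp⟩
  set Z : Subgroup X := (Subgroup.center ↥R).map R.subtype with hZdef
  have hZR : Z ≤ R := Subgroup.map_subtype_le _
  have hZP : Z ≤ P := hZR.trans hRP
  have hZab : IsMulCommutative Z := by
    refine ⟨⟨?_⟩⟩
    rintro ⟨_, u, hu, rfl⟩ ⟨_, v, hv, rfl⟩
    apply Subtype.ext
    show (u : X) * v = v * u
    have := (Subgroup.mem_center_iff.mp hu) v
    exact (congrArg Subtype.val this).symm
  have hNZ : Subgroup.normalizer (R : Set X) ≤ Subgroup.normalizer (Z : Set X) :=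
    Cfsg.Agent.Lib.Basic.le_normalizer_map_of_characteristic (Subgroup.center ↥R)
  have hPNR : P ≤ Subgroup.normalizer (R : Set X) := by
    intro g hg
    rw [Subgroup.mem_normalizer_iff]
    intro r
    constructor
    · intro hr
      have h1 := hRn.conj_mem ⟨r, hRP hr⟩ (by rw [Subgroup.mem_subgroupOf]; exact hr) ⟨g, hg⟩
      rw [Subgroup.mem_subgroupOf] at h1
      exact h1
    · intro hr
      have h0 : r ∈ P := by
        have : g * r * g⁻¹ ∈ P := hRP hr
        have h2 : r = g⁻¹ * (g * r * g⁻¹) * g := by group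
        rw [h2]
        exact P.mul_mem (P.mul_mem (P.inv_mem hg) this) hg
      have h1 := hRn.conj_mem ⟨g * r * g⁻¹, hRP hr⟩ (by rw [Subgroup.mem_subgroupOf]; exact hr) ⟨g⁻¹, P.inv_mem hg⟩
      rw [Subgroup.mem_subgroupOf] at h1
      have h2 : g⁻¹ * (g * r * g⁻¹) * g⁻¹⁻¹ = r := by group
      have h3 : ((⟨g⁻¹, P.inv_mem hg⟩ * ⟨g * r * g⁻¹, hRP hr⟩ * (⟨g⁻¹, P.inv_mem hg⟩ : P)⁻¹ : P) : X) = g⁻¹ * (g * r * g⁻¹) * g⁻¹⁻¹ := rfl
      rw [h3, h2] at h1
      exact h1
  have hcard : Nat.Coprime (Nat.card T) (Nat.card Z) := by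
    rw [IsKleinFour.card_four]
    obtain ⟨k, hk⟩ := IsPGroup.iff_card.mp (hP.to_le hZP)
    rw [hk]
    have : Nat.Coprime 2 p := (Nat.coprime_two_left).mpr hodd
    exact Nat.Coprime.pow_right _ (by simpa [show (4:ℕ) = 2 ^ 2 by norm_num] using Nat.Coprime.pow_left 2 this)
  have hca : Cfsg.Agent.Lib.Coprime.CoprimeAction T Z :=
    ⟨hTR.trans hNZ, hcard, Or.inr (by
      haveI : Group.IsNilpotent Z := (hP.to_le hZP).isNilpotent
      infer_instance)⟩
  set W : Subgroup X := ⁅Z, T⁆ with hW
  have hWZ : W ≤ Z := hca.commutator_le_self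
  have hWbot : W = ⊥ := by
    by_contra hne
    have hPW : P ≤ Subgroup.normalizer (W : Set X) := by
      rw [← hfac]
      refine sup_le ?_ ?_
      · intro r hr
        rw [Subgroup.mem_normalizer_iff]
        intro w
        have hcomm : ∀ w ∈ W, r * w = w * r := by
          intro w hw
          obtain ⟨u, hu, hwu⟩ := hWZ hw
          have := (Subgroup.mem_center_iff.mp hu) ⟨r, hr⟩
          rw [← hwu]
          exact (congrArg Subtype.val this)
        constructor
        · intro hw
          rw [hcomm w hw]; simpa using hw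
        · intro hw
          have h := hcomm _ hw
          have e : r * w * r⁻¹ = w := mul_left_cancel (a := r) (by rw [h]; group)
          rw [e] at hw
          exact hw
      · exact Cfsg.Agent.Lib.Basic.le_normalizer_commutator (inf_le_left.trans (hPNR.trans hNZ))
          (inf_le_right.trans (Cfsg.Agent.Lib.Components.centralizer_le_normalizer' T))
    haveI hWn : (W.subgroupOf P).Normal := by
      refine ⟨fun x hx g => ?_⟩
      rw [Subgroup.mem_subgroupOf] at hx ⊢
      exact (Subgroup.mem_normalizer_iff.mp (hPW g.2) x).mp hx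
    haveI : Group.IsNilpotent P := hP.isNilpotent
    have hne' : W.subgroupOf P ≠ ⊥ := by
      intro h
      apply hne
      rw [Subgroup.subgroupOf_eq_bot] at h
      exact h.eq_bot_of_le (hWZ.trans hZP)
    have := Cfsg.Agent.Lib.Basic.normal_inf_center_ne_bot (W.subgroupOf P) hne'
    obtain ⟨w, hw, hw1⟩ := Subgroup.bot_or_exists_ne_one _ |>.resolve_left this
    obtain ⟨hw2, hw3⟩ := Subgroup.mem_inf.mp hw
    rw [Subgroup.mem_subgroupOf] at hw2
    have hbot := hca.commutator_inf_centralizer_eq_bot hZab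
    have hmem : (w : X) ∈ W ⊓ (Z ⊓ Subgroup.centralizer (T : Set X)) := by
      refine Subgroup.mem_inf.mpr ⟨hw2, Subgroup.mem_inf.mpr ⟨hWZ hw2, ?_⟩⟩
      rw [Subgroup.mem_centralizer_iff]
      intro t ht
      have := Subgroup.mem_centralizer_iff.mp (hZ ht) (w : X) ⟨w, hw3, rfl⟩
      exact this.symm
    rw [hbot, Subgroup.mem_bot] at hmem
    exact hw1 (Subtype.ext hmem)
  rw [hW, Subgroup.commutator_comm] at hWbot
  exact Subgroup.commutator_eq_bot_iff_le_centralizer.mp hWbot

end Cfsg.Agent.S3190
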