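import Cfsg.Statements.S3195
import Mathlib
import Cfsg.Agent.Lib.Invol.Basic
import Cfsg.Agent.Lib.Invol.BaerSuzuki
import Cfsg.Agent.Lib.Components.Basic

set_option autoImplicit false
open Cfsg

namespace Cfsg.Agent.S3195

open Cfsg.Agent.Lib.Invol

variable {G : Type*} [Group G]

/-- pairs of conjugate involutions with a 2-element product generate a 2-group -/
theorem isPGroup_pair [Finite G] {a b : G} (ha : a * a = 1) (hb : b * b = 1) {n : ℕ} (hn : (a * b) ^ (2 ^ n) = 1) :
    IsPGroup 2 (Subgroup.closure ({a, b} : Set G)) := by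
  rintro ⟨d, hd⟩
  rcases mem_closure_pair ha hb hd with ⟨k, rfl⟩ | ⟨k, rfl⟩
  · refine ⟨n, ?_⟩
    apply Subtype.ext
    show ((a * b) ^ k) ^ (2 ^ n) = 1
    rw [← zpow_natCast, ← zpow_mul, mul_comm, zpow_mul, zpow_natCast, hn, one_zpow]
  · refine ⟨1, ?_⟩
    apply Subtype.ext
    show (a * (a * b) ^ k) ^ (2 ^ 1) = 1
    rw [pow_one, pow_two]
    exact x_zpow_sq ha hb k

/-- The dihedral alternative: an involution outside `O_2` has a conjugate with product of odd order `≠ 1`. -/
theorem exists_odd_pair [Finite G] {x : G} (hx : x * x = 1) (hO : x ∉ Cfsg.pCore 2 G) :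
    ∃ t : G, IsConj x t ∧ Odd (orderOf (x * t)) ∧ x * t ≠ 1 := by
  classical
  haveI : Fact (Nat.Prime 2) := ⟨Nat.prime_two⟩
  by_contra hno
  push Not at hno
  apply hO
  set Δ : Set G := Group.conjugatesOfSet ({x} : Set G) with hΔ
  have hΔmem : ∀ a ∈ Δ, ∃ g : G, a = g * x * g⁻¹ := by
    intro a ha
    rw [hΔ, Group.mem_conjugatesOfSet_iff] at ha
    obtain ⟨b, hb, hab⟩ := ha
    rw [Set.mem_singleton_iff] at hb
    subst hb
    obtain ⟨c, hc⟩ := isConj_iff.mp hab
    exact ⟨c, hc.symm⟩
  have hΔc : ConjClosed Δ := by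
    intro a ha g
    obtain ⟨h, rfl⟩ := hΔmem a ha
    rw [hΔ, Group.mem_conjugatesOfSet_iff]
    refine ⟨x, rfl, ?_⟩
    rw [isConj_iff]
    exact ⟨g * h, by group⟩
  have hsq : ∀ a ∈ Δ, a * a = 1 := by
    intro a ha
    obtain ⟨g, rfl⟩ := hΔmem a ha
    have : g * x * g⁻¹ * (g * x * g⁻¹) = g * (x * x) * g⁻¹ := by group
    rw [this, hx]; simp
  have hP := isPGroup_closure_of_pairs 2 _ rfl Δ hΔc (by
    intro a ha b hb
    have ha2 := hsq a ha
    have hb2 := hsq b hb
    obtain ⟨g, rfl⟩ := hΔmem a ha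
    set a' := g * x * g⁻¹ with ha'
    set c := a' * b with hc
    obtain ⟨e, m, hm, hn⟩ := Nat.exists_eq_two_pow_mul_odd (orderOf_pos c).ne'
    set k : ℤ := -((2 ^ e : ℕ) : ℤ) with hk
    have h1 := conj_by_zpow ha2 hb2 k
    rw [← hc] at h1
    set w := c ^ (2 ^ (e + 1)) with hw
    have hwz : c ^ (-(2 * k)) = w := by
      rw [hw, ← zpow_natCast]
      congr 1
      rw [hk]; push_cast; ring
    rw [hwz] at h1
    -- T := g⁻¹ (a' * w) g is conjugate to x
    have hT : IsConj x (g⁻¹ * (a' * w) * g) := by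
      rw [isConj_iff]
      refine ⟨g⁻¹ * c ^ k * g, ?_⟩
      rw [← h1, ha']
      group
    have hprod : x * (g⁻¹ * (a' * w) * g) = g⁻¹ * w * g := by
      have : x = g⁻¹ * a' * g := by rw [ha']; group
      rw [this]
      have e1 : g⁻¹ * a' * g * (g⁻¹ * (a' * w) * g) = g⁻¹ * (a' * a') * w * g := by group
      rw [e1, ha2]; group
    have hwodd : Odd (orderOf w) := by
      have h3 : w ^ m = 1 := by
        rw [hw, ← pow_mul, pow_succ, mul_assoc, mul_comm 2 m, ← mul_assoc, ← hn, pow_mul, pow_orderOf_eq_one, one_pow]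
      have h4 : orderOf w ∣ m := orderOf_dvd_of_pow_eq_one h3
      exact Odd.of_dvd_nat hm h4
    have hconj : orderOf (g⁻¹ * w * g) = orderOf w := by
      have : g⁻¹ * w * g = MulAut.conj g⁻¹ w := by simp [MulAut.conj_apply]
      rw [this, MulEquiv.orderOf_eq]
    have h5 := hno _ hT (by rw [hprod, hconj]; exact hwodd)
    rw [hprod] at h5
    have h6 : w = 1 := by
      have : w = g * (g⁻¹ * w * g) * g⁻¹ := by group
      rw [this, h5]; group
    exact isPGroup_pair ha2 hb2 (n := e + 1) h6)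
  have hN : (Subgroup.closure Δ).Normal := Subgroup.normalClosure_normal
  have hle := Cfsg.Agent.Lib.Components.le_pCore hN hP
  refine hle (Subgroup.subset_closure ?_)
  rw [hΔ, Group.mem_conjugatesOfSet_iff]
  exact ⟨x, rfl, IsConj.refl _⟩

/-- The key commuting lemma. -/
theorem commute_of_lines {a b t s : G} (ha : a * a = 1) (hb : b * b = 1) (hab : a * b = b * a)
    (hbt : b * t = t * b) (hta : IsConj a t) (htt : t * t = 1) (hodd : Odd (orderOf (a * t))) (hodd' : Odd (orderOf (b * s)))
    (hs1 : b * s ≠ 1) (hss : s * s = 1)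
    (hline : ∀ d : G, d * b = b * d → s * (d * a * d⁻¹) = (d * a * d⁻¹) * s ∨ s * b = b * s ∨
      s * (d * (a * b) * d⁻¹) = (d * (a * b) * d⁻¹) * s)
    (c : G) (hc : c = a * t) (hcb : c * b = b * c) {d : G} (hd : d * a * d⁻¹ = t) (hdb : d * b = b * d) :
    s * (a * t) = (a * t) * s := by
  have hns : s * b ≠ b * s := by
    intro h
    -- b and s commute: (b s)^2 = 1, odd order
    apply hs1
    have h2 : (b * s) ^ 2 = 1 := by
      rw [pow_two]
      have : b * s * (b * s) = b * (s * b) * s := by group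
      rw [this, h]
      have : b * (b * s) * s = (b * b) * (s * s) := by group
      rw [this, hb, hss, one_mul]
    have h3 := orderOf_dvd_of_pow_eq_one h2
    have h4 : orderOf (b * s) = 1 := by
      have h5 : Nat.Coprime (orderOf (b * s)) 2 := Nat.coprime_two_right.mpr hodd'
      exact Nat.Coprime.eq_one_of_dvd h5 h3
    exact orderOf_eq_one_iff.mp h4
  -- elements
  have l1 := hline 1 (by simp)
  simp only [one_mul, inv_one, mul_one] at l1
  have l2 := hline d hdb
  rw [hd] at l2
  have hd2 : d * (a * b) * d⁻¹ = t * b := by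
    have : d * (a * b) * d⁻¹ = (d * a * d⁻¹) * (d * b * d⁻¹) := by group
    rw [this, hd, hdb]
    simp
  rw [hd2] at l2
  have hodd2 : ∀ {m : ℕ}, Odd m → (a * t * b) ^ m = (a * t) ^ m * b := by
    intro m hm
    have hcom : Commute (a * t) b := by
      show a * t * b = b * (a * t)
      rw [mul_assoc, ← hbt, ← mul_assoc, hab, mul_assoc]
    rw [hcom.mul_pow]
    obtain ⟨j, rfl⟩ := hm
    have : b ^ (2 * j + 1) = b := by
      rw [pow_succ, pow_mul, pow_two, hb, one_pow, one_mul]
    rw [this]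
  -- if s commutes with a * t * b then it commutes with b
  have hkey : s * (a * t * b) = (a * t * b) * s → False := by
    intro h
    apply hns
    have hm := hodd2 hodd
    rw [pow_orderOf_eq_one, one_mul] at hm
    have hcomm : Commute s (a * t * b) := h
    have := (hcomm.pow_right (orderOf (a * t))).eq
    rwa [hm] at this
  rcases l1 with l1 | l1 | l1
  · rcases l2 with l2 | l2 | l2
    · calc s * (a * t) = (s * a) * t := by group
        _ = (a * s) * t := by rw [l1]
        _ = a * (s * t) := by group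
        _ = a * (t * s) := by rw [l2]
        _ = a * t * s := by group
    · exact absurd l2 hns
    · exfalso
      apply hkey
      calc s * (a * t * b) = (s * a) * (t * b) := by group
        _ = a * (s * (t * b)) := by rw [l1]; group
        _ = a * ((t * b) * s) := by rw [l2]
        _ = a * t * b * s := by group
  · exact absurd l1 hns
  · rcases l2 with l2 | l2 | l2
    · exfalso
      apply hkey
      have e : a * t * b = a * b * t := by
        rw [mul_assoc, mul_assoc, hbt]
      rw [e]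
      calc s * (a * b * t) = (s * (a * b)) * t := by group
        _ = (a * b) * (s * t) := by rw [l1]; group
        _ = (a * b) * (t * s) := by rw [l2]
        _ = a * b * t * s := by group
    · exact absurd l2 hns
    · have e : a * t = (a * b) * (t * b) := by
        have : (a * b) * (t * b) = a * (b * t) * b := by group
        rw [this, hbt]
        have : a * (t * b) * b = a * t * (b * b) := by group
        rw [this, hb, mul_one]
      rw [e]
      calc s * ((a * b) * (t * b)) = (s * (a * b)) * (t * b) := by group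
        _ = (a * b) * (s * (t * b)) := by rw [l1]; group
        _ = (a * b) * ((t * b) * s) := by rw [l2]
        _ = (a * b) * (t * b) * s := by group

theorem inv_conj_eq {w g : G} (hw : w * w = 1) : w * g⁻¹ * w = (w * g * w)⁻¹ := by
  have hi : w⁻¹ = w := inv_eq_of_mul_eq_one_left hw
  rw [mul_inv_rev, mul_inv_rev, hi, mul_assoc]

theorem mul_conj_eq {w g h : G} (hw : w * w = 1) : w * (g * h) * w = (w * g * w) * (w * h * w) := by
  have : (w * g * w) * (w * h * w) = w * g * (w * w) * h * w := by group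
  rw [this, hw]; group

theorem conj_self_eq {w g : G} (hw : w * w = 1) (h : w * g * w = g) : w * g = g * w := by
  calc w * g = (w * g * w) * w := by
        rw [mul_assoc (w * g), hw, mul_one]
    _ = g * w := by rw [h]

/-- Conjugate element lemma. -/
theorem final_contra {e b b' u v : G} (he : e * e = 1) (hb : b * b = 1) (hb' : b' * b' = 1)
    (heb : e * b = b * e) (heb' : e * b' = b' * e)
    (huv : u * v = v * u) (h1 : e * u * e = u⁻¹) (h2 : e * v * e = v⁻¹) (h3 : b * u * b = u) (h4 : b * v * b = v⁻¹)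
    (h5 : b' * u * b' = u⁻¹) (h6 : b' * v * b' = v) :
    (((u * v) * e * (u * v)⁻¹) * e = e * ((u * v) * e * (u * v)⁻¹) → v ^ 8 = 1) ∧
    (((u * v) * e * (u * v)⁻¹) * b = b * ((u * v) * e * (u * v)⁻¹) → v ^ 4 = 1) ∧
    (((u * v) * e * (u * v)⁻¹) * b' = b' * ((u * v) * e * (u * v)⁻¹) → u ^ 4 = 1) := by
  have hcomm : Commute u v := huv
  obtain ⟨x, hx⟩ : ∃ x, x = u * v := ⟨_, rfl⟩
  rw [← hx]
  have hxx : x * x = u ^ 2 * v ^ 2 := by
    rw [hx, ← pow_two, hcomm.mul_pow]
  have hex : e * x * e = x⁻¹ := by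
    rw [hx, mul_conj_eq he, h1, h2, ← mul_inv_rev, huv]
  have hbx : b * x * b = u * v⁻¹ := by
    rw [hx, mul_conj_eq hb, h3, h4]
  have hbx' : b' * x * b' = u⁻¹ * v := by
    rw [hx, mul_conj_eq hb', h5, h6]
  have hy : x * e * x⁻¹ = x * x * e := by
    have h7 : e * x⁻¹ * e = x := by
      rw [inv_conj_eq he, hex, inv_inv]
    calc x * e * x⁻¹ = x * (e * x⁻¹ * e) * e := by
          have : x * (e * x⁻¹ * e) * e = x * e * x⁻¹ * (e * e) := by group
          rw [this, he, mul_one]
      _ = x * x * e := by rw [h7]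
  rw [hy]
  have hbxx : b * (x * x) * b = u ^ 2 * (v⁻¹) ^ 2 := by
    rw [mul_conj_eq hb, hbx, ← pow_two, (hcomm.inv_right).mul_pow]
  have hbxx' : b' * (x * x) * b' = (u⁻¹) ^ 2 * v ^ 2 := by
    rw [mul_conj_eq hb', hbx', ← pow_two, (hcomm.inv_left).mul_pow]
  refine ⟨?_, ?_, ?_⟩
  · intro h
    have h8 : x * x = x⁻¹ * x⁻¹ := by
      have e1 : x * x * e * e = x * x := by rw [mul_assoc, he, mul_one]
      have e2 : e * (x * x * e) = (e * x * e) * (e * x * e) := by
        rw [← mul_assoc, ← mul_conj_eq he]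
      rw [e1, e2, hex] at h
      exact h
    have h9 : x * x * (x * x) = 1 := by
      nth_rw 1 [h8]
      group
    -- apply conjugation by b
    have h10 : (b * (x * x) * b) * (b * (x * x) * b) = 1 := by
      rw [← mul_conj_eq hb, h9, mul_one, hb]
    rw [hbxx] at h10
    rw [hxx] at h9
    have h11 : Commute (u ^ 2) (v ^ 2) := (hcomm.pow_pow 2 2)
    have h12 : Commute (u ^ 2) ((v⁻¹) ^ 2) := ((hcomm.inv_right).pow_pow 2 2)
    have e3 : u ^ 2 * v ^ 2 * (u ^ 2 * v ^ 2) = (u ^ 2 * u ^ 2) * (v ^ 2 * v ^ 2) := by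
      rw [mul_assoc, ← mul_assoc (v ^ 2), ← h11.eq]; group
    have e4 : u ^ 2 * (v⁻¹) ^ 2 * (u ^ 2 * (v⁻¹) ^ 2) = (u ^ 2 * u ^ 2) * ((v⁻¹) ^ 2 * (v⁻¹) ^ 2) := by
      rw [mul_assoc, ← mul_assoc ((v⁻¹) ^ 2), ← h12.eq]; group
    rw [e3] at h9
    rw [e4] at h10
    have h13 : v ^ 2 * v ^ 2 = (v⁻¹) ^ 2 * (v⁻¹) ^ 2 := mul_left_cancel (h9.trans h10.symm)
    have : v ^ 8 = (v ^ 2 * v ^ 2) * (v ^ 2 * v ^ 2) := by group
    rw [this]
    nth_rw 1 [h13]
    group
  · intro h
    have h8 : x * x = b * (x * x) * b := by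
      -- x x e b = b x x e
      have e1 : b * (x * x * e) = (b * (x * x) * b) * (e * b) := by
        rw [heb]
        have : b * (x * x) * b * (b * e) = b * (x * x) * (b * b) * e := by group
        rw [this, hb]; group
      rw [e1] at h
      have e2 : x * x * e * b = (x * x) * (e * b) := by group
      rw [e2] at h
      exact mul_right_cancel h
    rw [hbxx, hxx] at h8
    have h9 : v ^ 2 = (v⁻¹) ^ 2 := mul_left_cancel h8
    have : v ^ 4 = v ^ 2 * v ^ 2 := by group
    rw [this]
    nth_rw 1 [h9]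
    group
  · intro h
    have h8 : x * x = b' * (x * x) * b' := by
      have e1 : b' * (x * x * e) = (b' * (x * x) * b') * (e * b') := by
        rw [heb']
        have : b' * (x * x) * b' * (b' * e) = b' * (x * x) * (b' * b') * e := by group
        rw [this, hb']; group
      rw [e1] at h
      have e2 : x * x * e * b' = (x * x) * (e * b') := by group
      rw [e2] at h
      exact mul_right_cancel h
    rw [hbxx', hxx] at h8
    have h9 : u ^ 2 = (u⁻¹) ^ 2 := mul_right_cancel h8
    have : u ^ 4 = u ^ 2 * u ^ 2 := by group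
    rw [this]
    nth_rw 1 [h9]
    group

theorem eq_one_of_odd_of_pow {x : G} {k : ℕ} (h : Odd (orderOf x)) (h' : x ^ (2 ^ k) = 1) : x = 1 := by
  have h1 : orderOf x ∣ 2 ^ k := orderOf_dvd_of_pow_eq_one h'
  have h2 : Nat.Coprime (orderOf x) (2 ^ k) := Nat.Coprime.pow_right k (Nat.coprime_two_right.mpr h)
  exact orderOf_eq_one_iff.mp (Nat.Coprime.eq_one_of_dvd h2 h1)

/-- involutions in a conjugate pair -/
theorem exists_conj_of_odd {a t : G} (ha : a * a = 1) (ht : t * t = 1) (hodd : Odd (orderOf (a * t))) :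
    ∃ k : ℕ, (a * t) ^ k * a * ((a * t) ^ k)⁻¹ = t := by
  obtain ⟨k, hk⟩ := hodd
  refine ⟨k, ?_⟩
  have h1 := Cfsg.Agent.Lib.Invol.conj_by_zpow ha ht (k : ℤ)
  rw [zpow_natCast] at h1
  rw [h1]
  have h2 : (a * t) ^ (-(2 * (k : ℤ))) = a * t := by
    have h3 : (a * t) ^ ((2 * k + 1 : ℕ) : ℤ) = 1 := by
      rw [zpow_natCast, ← hk, pow_orderOf_eq_one]
    have h4 : -(2 * (k : ℤ)) = 1 - ((2 * k + 1 : ℕ) : ℤ) := by push_cast; ring
    rw [h4, zpow_sub, h3]; simp
  rw [h2, ← mul_assoc, ha, one_mul]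


/-- Let A be a Klein four-subgroup of a finite group G. If every G-conjugate of every involution of A commutes with some involution of A (its centralizer meets A nontrivially), then A meets the largest normal 2-subgroup O₂(G) nontrivially. -/
theorem result {G : Type*} [Group G] [Finite G]
    (A : Subgroup G) (hA : IsKleinFour ↥A)
    (h : ∀ a ∈ A, a ≠ 1 → ∀ g : G, A ⊓ Subgroup.centralizer ({g * a * g⁻¹} : Set G) ≠ ⊥) :
    A ⊓ Cfsg.pCore 2 G ≠ ⊥ := by
  classical
  intro hbot
  have hcard : Nat.card A = 4 := IsKleinFour.card_four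
  have hsq : ∀ x ∈ A, x * x = 1 := by
    intro x hx
    have h1 := Monoid.pow_exponent_eq_one (⟨x, hx⟩ : A)
    rw [IsKleinFour.exponent_two] at h1
    have := congrArg Subtype.val h1
    simpa [pow_two] using this
  have hcm : ∀ x ∈ A, ∀ y ∈ A, x * y = y * x := by
    intro x hx y hy
    have h1 := hsq (x * y) (A.mul_mem hx hy)
    have h2 := hsq x hx
    have h3 := hsq y hy
    have h4 : (x * y)⁻¹ = x * y := inv_eq_of_mul_eq_one_left h1
    have hx' : x⁻¹ = x := inv_eq_of_mul_eq_one_left h2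
    have hy' : y⁻¹ = y := inv_eq_of_mul_eq_one_left h3
    rw [← h4, mul_inv_rev, hx', hy']
  have helem : ∀ a ∈ A, ∀ b ∈ A, a ≠ 1 → b ≠ 1 → a ≠ b → ∀ x ∈ A, x ≠ 1 → x = a ∨ x = b ∨ x = a * b := by
    intro a ha b hb ha1 hb1 hab x hx hx1
    let S : Finset G := {1, a, b, a * b}
    let F : Finset G := (A : Set G).toFinite.toFinset
    have hF : F.card = 4 := by
      have h9 : Nat.card A = (A : Set G).ncard := Nat.card_coe_set_eq _
      rw [← hcard, h9, Set.ncard_eq_toFinset_card _ (A : Set G).toFinite]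
    have hab1 : a * b ≠ 1 := by
      intro h
      apply hab
      have hb2 := hsq b hb
      calc a = a * (b * b) := by rw [hb2, mul_one]
        _ = (a * b) * b := by group
        _ = b := by rw [h, one_mul]
    have hSc : S.card = 4 := by
      have h1 : (1 : G) ∉ ({a, b, a * b} : Finset G) := by
        simp [ha1.symm, hb1.symm, hab1.symm]
      have h2 : a ∉ ({b, a * b} : Finset G) := by
        simp [hab, hb1]
      have h3 : b ∉ ({a * b} : Finset G) := by
        simp [ha1]
      rw [Finset.card_insert_of_notMem h1, Finset.card_insert_of_notMem h2, Finset.card_insert_of_notMem h3, Finset.card_singleton]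
    have hSF : S ⊆ F := by
      intro z hz
      simp only [S, Finset.mem_insert, Finset.mem_singleton] at hz
      simp only [F, Set.Finite.mem_toFinset, SetLike.mem_coe]
      rcases hz with rfl | rfl | rfl | rfl
      · exact A.one_mem
      · exact ha
      · exact hb
      · exact A.mul_mem ha hb
    have hEq : S = F := Finset.eq_of_subset_of_card_le hSF (by rw [hF, hSc])
    have hxF : x ∈ F := by
      simp only [F, Set.Finite.mem_toFinset, SetLike.mem_coe]; exact hx
    rw [← hEq] at hxF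
    simp only [S, Finset.mem_insert, Finset.mem_singleton] at hxF
    rcases hxF with h | h | h | h
    · exact absurd h hx1
    · exact Or.inl h
    · exact Or.inr (Or.inl h)
    · exact Or.inr (Or.inr h)
  have hpart : ∀ x ∈ A, x ≠ 1 → ∀ g : G, ∃ y ∈ A, y ≠ 1 ∧ y * (g * x * g⁻¹) = (g * x * g⁻¹) * y := by
    intro x hx hx1 g
    rcases Subgroup.bot_or_exists_ne_one (A ⊓ Subgroup.centralizer ({g * x * g⁻¹} : Set G)) with h0 | ⟨y, hy, hy1⟩
    · exact absurd h0 (h x hx hx1 g)
    · obtain ⟨hy2, hy3⟩ := Subgroup.mem_inf.mp hy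
      rw [Subgroup.mem_centralizer_singleton_iff] at hy3
      exact ⟨y, hy2, hy1, hy3⟩
  have hO : ∀ x ∈ A, x ≠ 1 → x ∉ Cfsg.pCore 2 G := by
    intro x hx hx1 hxO
    have : x ∈ A ⊓ Cfsg.pCore 2 G := Subgroup.mem_inf.mpr ⟨hx, hxO⟩
    rw [hbot, Subgroup.mem_bot] at this
    exact hx1 this
  -- the main step
  have hstep : ∀ x ∈ A, x ≠ 1 → ∃ t y : G, IsConj x t ∧ t * t = 1 ∧ Odd (orderOf (x * t)) ∧ x * t ≠ 1 ∧ y ∈ A ∧ y ≠ 1 ∧ y ≠ x ∧
      y * t = t * y := by
    intro x hx hx1
    obtain ⟨t, ht, hodd, hne⟩ := exists_odd_pair (hsq x hx) (hO x hx hx1)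
    obtain ⟨g, hg⟩ := isConj_iff.mp ht
    have htt : t * t = 1 := by
      rw [← hg]
      have : g * x * g⁻¹ * (g * x * g⁻¹) = g * (x * x) * g⁻¹ := by group
      rw [this, hsq x hx]; simp
    obtain ⟨y, hy, hy1, hyt⟩ := hpart x hx hx1 g
    rw [hg] at hyt
    refine ⟨t, y, ht, htt, hodd, hne, hy, hy1, ?_, hyt⟩
    rintro rfl
    apply hne
    have h2 : (y * t) ^ (2 ^ 1) = 1 := by
      rw [pow_one, pow_two]
      have : y * t * (y * t) = y * (t * y) * t := by group
      rw [this, ← hyt]
      have : y * (y * t) * t = (y * y) * (t * t) := by group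
      rw [this, hsq y hx, htt, one_mul]
    exact eq_one_of_odd_of_pow hodd h2
  -- A is nontrivial
  obtain ⟨a, ha, ha1⟩ : ∃ a ∈ A, a ≠ 1 := by
    rcases Subgroup.bot_or_exists_ne_one A with h0 | h0
    · rw [h0] at hcard
      simp at hcard
    · exact h0
  obtain ⟨t, b, hat, htt, hodd, hne, hb, hb1, hba, hbt⟩ := hstep a ha ha1
  obtain ⟨s, b', hbs, hss, hodd', hne', hb', hb'1, hb'b, hb's⟩ := hstep b hb hb1
  have haa := hsq a ha
  have hbb := hsq b hb
  have hb'b' := hsq b' hb'
  have hab : a * b = b * a := hcm a ha b hb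
  -- d
  obtain ⟨k, hk⟩ := exists_conj_of_odd haa htt hodd
  have hcb : (a * t) * b = b * (a * t) := by
    rw [mul_assoc, ← hbt, ← mul_assoc, hab, mul_assoc]
  have hdb : (a * t) ^ k * b = b * (a * t) ^ k := ((show Commute (a * t) b from hcb).pow_left k).eq
  -- lines
  have hline : ∀ d : G, d * b = b * d → s * (d * a * d⁻¹) = (d * a * d⁻¹) * s ∨ s * b = b * s ∨
      s * (d * (a * b) * d⁻¹) = (d * (a * b) * d⁻¹) * s := by
    intro d hd
    obtain ⟨g, hg⟩ := isConj_iff.mp hbs
    obtain ⟨z, hz, hz1, hzs⟩ := hpart b hb hb1 (d⁻¹ * g)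
    have hzs' : (d⁻¹ * g) * b * (d⁻¹ * g)⁻¹ = d⁻¹ * s * d := by
      rw [← hg]; group
    rw [hzs'] at hzs
    have hdz : s * (d * z * d⁻¹) = (d * z * d⁻¹) * s := by
      have e1 : s * (d * z * d⁻¹) = d * ((d⁻¹ * s * d) * z) * d⁻¹ := by group
      have e2 : (d * z * d⁻¹) * s = d * (z * (d⁻¹ * s * d)) * d⁻¹ := by group
      rw [e1, e2, hzs]
    rcases helem a ha b hb ha1 hb1 hba.symm z hz hz1 with rfl | rfl | rfl
    · exact Or.inl hdz
    · right; left
      have : d * z * d⁻¹ = z := by rw [hd]; group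
      rwa [this] at hdz
    · exact Or.inr (Or.inr hdz)
  have hsu : s * (a * t) = (a * t) * s := commute_of_lines haa hbb hab hbt hat htt hodd hodd' hne' hss hline
    (a * t) rfl hcb hk hdb
  set u := a * t with hu
  set v := b * s with hv
  have huv : u * v = v * u := by
    rw [hv, ← mul_assoc, hcb, mul_assoc, ← hsu, mul_assoc]
  have hbuu : b * u * b = u := by
    rw [← hcb, mul_assoc, hbb, mul_one]
  have hbvv : b * v * b = v⁻¹ := conj_mul_eq_inv hbb hss
  have hb'vv : b' * v * b' = v := by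
    have h1 : b' * b = b * b' := hcm b' hb' b hb
    rw [hv]
    calc b' * (b * s) * b' = (b' * b) * (s * b') := by group
      _ = (b * b') * (b' * s) := by rw [h1, hb's]
      _ = b * (b' * b') * s := by group
      _ = b * s := by rw [hb'b', mul_one]
  -- elements other than b invert u
  have hinv : ∀ x ∈ A, x ≠ 1 → x ≠ b → x * u * x = u⁻¹ := by
    intro x hx hx1 hxb
    have hau : a * u * a = u⁻¹ := conj_mul_eq_inv haa htt
    rcases helem a ha b hb ha1 hb1 hba.symm x hx hx1 with rfl | rfl | rfl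
    · exact hau
    · exact absurd rfl hxb
    · calc a * b * u * (a * b) = a * b * u * (b * a) := by rw [hab]
        _ = a * (b * u * b) * a := by group
        _ = u⁻¹ := by rw [hbuu, hau]
  have hb'u : b' * u * b' = u⁻¹ := hinv b' hb' hb'1 hb'b
  set e := b * b' with he
  have heA : e ∈ A := A.mul_mem hb hb'
  have he1 : e ≠ 1 := by
    intro h
    apply hb'b
    calc b' = (b * b) * b' := by rw [hbb, one_mul]
      _ = b * e := by rw [he]; group
      _ = b := by rw [h, mul_one]
  have heb : e ≠ b := by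
    intro h
    apply hb'1
    calc b' = (b * b) * b' := by rw [hbb, one_mul]
      _ = b * e := by rw [he]; group
      _ = 1 := by rw [h, hbb]
  have hee := hsq e heA
  have heu : e * u * e = u⁻¹ := hinv e heA he1 heb
  have hev : e * v * e = v⁻¹ := by
    have h1 : b' * b = b * b' := hcm b' hb' b hb
    calc e * v * e = b * b' * v * (b * b') := by rw [he]
      _ = b * b' * v * (b' * b) := by rw [h1]
      _ = b * (b' * v * b') * b := by group
      _ = v⁻¹ := by rw [hb'vv, hbvv]
  have ⟨f1, f2, f3⟩ := final_contra hee hbb hb'b' (hcm e heA b hb) (hcm e heA b' hb') huv heu hev hbuu hbvv hb'u hb'vv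
  obtain ⟨z, hz, hz1, hzy⟩ := hpart e heA he1 (u * v)
  rcases helem b hb b' hb' hb1 hb'1 hb'b.symm z hz hz1 with rfl | rfl | rfl
  · -- commutes with b
    have := f2 hzy.symm
    exact hne' (eq_one_of_odd_of_pow (k := 2) hodd' (by simpa using this))
  · have := f3 hzy.symm
    exact hne (eq_one_of_odd_of_pow (k := 2) hodd (by simpa using this))
  · have := f1 hzy.symm
    exact hne' (eq_one_of_odd_of_pow (k := 3) hodd' (by simpa using this))

end Cfsg.Agent.S3195
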