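import Cfsg.Statements.S3196
import Mathlib
import Cfsg.Agent.Lib.Components.Constr
import Cfsg.Agent.Lib.Invol.BaerSuzuki

set_option autoImplicit false
open Cfsg

namespace Cfsg.Agent.S3196

open Cfsg.Agent.Lib.Components

variable {G : Type*} [Group G] [Finite G]

/-- The axioms on the set `Δ` of generators of the members of `K`. -/
structure Ax (p : ℕ) (Δ : Set G) : Prop where
  ne : ∀ x ∈ Δ, x ≠ 1
  pow : ∀ x ∈ Δ, x ^ p = 1
  conj : ∀ x ∈ Δ, ∀ g : G, g * x * g⁻¹ ∈ Δ
  line : ∀ x ∈ Δ, ∀ y ∈ Δ, x * y = y * x → ∀ i j : ℤ, x ^ i * y ^ j ≠ 1 → x ^ i * y ^ j ∈ Δ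
  meet : ∀ x ∈ Δ, ∀ y ∈ Δ, x * y = y * x → y ∉ Subgroup.zpowers x → ∀ w ∈ Δ,
    ∃ i j : ℤ, x ^ i * y ^ j ≠ 1 ∧ (x ^ i * y ^ j) * w = w * (x ^ i * y ^ j)
  ex : ∃ x ∈ Δ, ∃ y ∈ Δ, x * y = y * x ∧ y ∉ Subgroup.zpowers x

variable {p : ℕ} [hp : Fact p.Prime] {Δ : Set G}

theorem comm_zpow_of {a w : G} (h : a * w = w * a) (k : ℤ) : a ^ k * w = w * a ^ k :=
  ((show Commute a w from h).zpow_left k).eq

/-- generators: a nonidentity element of `⟨x⟩` generates `⟨x⟩` -/
theorem Ax.gen (hΔ : Ax p Δ) {x a : G} (hx : x ∈ Δ) (ha : a ∈ Subgroup.zpowers x) (ha1 : a ≠ 1) :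
    x ∈ Subgroup.zpowers a := by
  have hord : orderOf x = p := orderOf_eq_prime (hΔ.pow x hx) (hΔ.ne x hx)
  have h1 : Nat.card (Subgroup.zpowers x) = p := by rw [Nat.card_zpowers, hord]
  have hle : Subgroup.zpowers a ≤ Subgroup.zpowers x := (Subgroup.zpowers_le).mpr ha
  have h2 : Subgroup.zpowers a = Subgroup.zpowers x := by
    apply Subgroup.eq_of_le_of_card_ge hle
    rw [h1, Nat.card_zpowers]
    have h3 : orderOf a ∣ Nat.card (Subgroup.zpowers x) := by
      have := Subgroup.orderOf_dvd_natCard (Subgroup.zpowers x) ha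
      exact this
    rw [h1] at h3
    rcases (Nat.dvd_prime hp.out).mp h3 with h4 | h4
    · exact absurd (orderOf_eq_one_iff.mp h4) ha1
    · exact h4.ge
  rw [h2]
  exact Subgroup.mem_zpowers x

/-- commuting with a nonidentity power implies commuting with `x` -/
theorem Ax.comm_of_power (hΔ : Ax p Δ) {x a w : G} (hx : x ∈ Δ) (ha : a ∈ Subgroup.zpowers x) (ha1 : a ≠ 1)
    (h : a * w = w * a) : x * w = w * x := by
  obtain ⟨k, rfl⟩ := Subgroup.mem_zpowers_iff.mp (hΔ.gen hx ha ha1)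
  exact comm_zpow_of h k

/-- the twisting lemma -/
theorem Ax.exists_twist (hΔ : Ax p Δ) {v y z : G} (hv : v ∈ Δ) (hy : y ∈ Δ) (hz : z ∈ Δ) (hvy : v * y = y * v)
    (hyv : y ∉ Subgroup.zpowers v) (hzy : y * z ≠ z * y) :
    ∃ y' ∈ Subgroup.zpowers y, (v * y') * z = z * (v * y') := by
  obtain ⟨i, j, hne, hg⟩ := hΔ.meet v hv y hy hvy hyv z hz
  set a := v ^ i with ha
  set b := y ^ j with hb
  have hab : Commute a b := ((show Commute v y from hvy).zpow_zpow i j)
  have ha1 : a ≠ 1 := by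
    intro h0
    rw [h0, one_mul] at hne hg
    exact hzy (hΔ.comm_of_power hy (Subgroup.zpow_mem_zpowers y j) hne hg)
  obtain ⟨k, hk⟩ := Subgroup.mem_zpowers_iff.mp (hΔ.gen hv (Subgroup.zpow_mem_zpowers v i) ha1)
  refine ⟨b ^ k, Subgroup.zpow_mem _ (Subgroup.zpow_mem_zpowers y j) k, ?_⟩
  have h2 : (a * b) ^ k = v * b ^ k := by
    rw [hab.mul_zpow, hk]
  rw [← h2]
  exact comm_zpow_of hg k

omit [Finite G] in
theorem zpowers_le_centralizer' {a b : G} (h : a * b = b * a) :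
    Subgroup.zpowers a ≤ Subgroup.centralizer (Subgroup.zpowers b : Set G) := by
  rw [Subgroup.zpowers_le, Subgroup.mem_centralizer_iff]
  intro t ht
  obtain ⟨k, rfl⟩ := Subgroup.mem_zpowers_iff.mp ht
  exact ((show Commute a b from h).zpow_right k).eq.symm

omit [Finite G] in
theorem conj_step {y z t y₁ : G} (hy₁ : y₁ = z⁻¹ * y * z) (h1 : y * t = t * y) (h2 : t * z = z * t) :
    y₁ * t = t * y₁ := by
  have ht : z⁻¹ * t * z = t := by rw [mul_assoc, h2]; group
  have h3 : (z⁻¹ * y * z) * (z⁻¹ * t * z) = (z⁻¹ * t * z) * (z⁻¹ * y * z) := by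
    calc (z⁻¹ * y * z) * (z⁻¹ * t * z) = z⁻¹ * (y * t) * z := by group
      _ = z⁻¹ * (t * y) * z := by rw [h1]
      _ = _ := by group
  rw [ht, ← hy₁] at h3
  exact h3

omit [Finite G] hp in
theorem conj_pow_central {e w f₀ : G} (h1 : e * f₀ = f₀ * e) (h2 : w * f₀ = f₀ * w)
    (h : e * w * e⁻¹ = w * f₀) (t : ℕ) : e ^ t * w * (e ^ t)⁻¹ = w * f₀ ^ t := by
  induction t with
  | zero => simp
  | succ n ih =>
    have h3 : e * f₀ ^ n * e⁻¹ = f₀ ^ n := by
      have : Commute e (f₀ ^ n) := (show Commute e f₀ from h1).pow_right n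
      rw [this.eq]; group
    calc e ^ (n + 1) * w * (e ^ (n + 1))⁻¹ = e * (e ^ n * w * (e ^ n)⁻¹) * e⁻¹ := by
          rw [pow_succ']; group
      _ = e * (w * f₀ ^ n) * e⁻¹ := by rw [ih]
      _ = (e * w * e⁻¹) * (e * f₀ ^ n * e⁻¹) := by group
      _ = w * f₀ * f₀ ^ n := by rw [h, h3]
      _ = w * f₀ ^ (n + 1) := by rw [pow_succ', mul_assoc]

theorem pgroup_of_central_comm {v w f : G} (hv : v ^ p = 1) (hw : w ^ p = 1) (hfv : v * f = f * v) (hfw : w * f = f * w)
    (h : v * w * v⁻¹ = w * f) : IsPGroup p (Subgroup.closure ({v, w} : Set G)) := by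
  classical
  have hf : f ^ p = 1 := by
    have h1 := conj_pow_central hfv hfw h p
    rw [hv] at h1
    simp only [one_mul, inv_one, mul_one] at h1
    have h2 : w * f ^ p = w * 1 := by rw [← h1, mul_one]
    exact mul_left_cancel h2
  have hwp : IsPGroup p (Subgroup.zpowers w) := isPGroup_zpowers_of_pow hw
  have hfp : IsPGroup p (Subgroup.zpowers f) := isPGroup_zpowers_of_pow hf
  have hvp : IsPGroup p (Subgroup.zpowers v) := isPGroup_zpowers_of_pow hv
  have hle : Subgroup.zpowers w ≤ Subgroup.normalizer (Subgroup.zpowers f : Set G) :=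
    (zpowers_le_centralizer' hfw).trans (Subgroup.centralizer_le_normalizer _)
  have hR : IsPGroup p ((Subgroup.zpowers w ⊔ Subgroup.zpowers f : Subgroup G) : Subgroup G) :=
    IsPGroup.to_sup_of_normal_right' hwp hfp hle
  set R : Subgroup G := Subgroup.zpowers w ⊔ Subgroup.zpowers f with hRdef
  have hvN : Subgroup.zpowers v ≤ Subgroup.normalizer (R : Set G) := by
    rw [Subgroup.zpowers_le]
    apply mem_normalizer_of_conj_eq'
    apply Subgroup.eq_of_le_of_card_ge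
    · rw [hRdef, Subgroup.map_sup, sup_le_iff, MonoidHom.map_zpowers, MonoidHom.map_zpowers]
      constructor
      · rw [Subgroup.zpowers_le]
        change v * w * v⁻¹ ∈ _
        rw [h]
        exact mul_mem ((le_sup_left : Subgroup.zpowers w ≤ _) (Subgroup.mem_zpowers w))
          ((le_sup_right : Subgroup.zpowers f ≤ _) (Subgroup.mem_zpowers f))
      · rw [Subgroup.zpowers_le]
        change v * f * v⁻¹ ∈ _
        rw [hfv]
        have : f * v * v⁻¹ = f := by group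
        rw [this]
        exact (le_sup_right : Subgroup.zpowers f ≤ _) (Subgroup.mem_zpowers f)
    · exact (Nat.card_congr ((MulAut.conj v).subgroupMap R).toEquiv).le
  have hS : IsPGroup p ((Subgroup.zpowers v ⊔ R : Subgroup G) : Subgroup G) :=
    IsPGroup.to_sup_of_normal_right' hvp hR hvN
  refine hS.to_le ?_
  rw [Subgroup.closure_le]
  rintro x (rfl | rfl)
  · exact (le_sup_left : Subgroup.zpowers x ≤ _) (Subgroup.mem_zpowers x)
  · exact (le_sup_right : R ≤ _) ((le_sup_left : Subgroup.zpowers x ≤ R) (Subgroup.mem_zpowers x))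

theorem Ax.twisted_pgroup (hΔ : Ax p Δ) {v w y z y' yb : G} (hv : v ∈ Δ) (hw : w ∈ Δ) (hy : y ∈ Δ) (hz : z ∈ Δ)
    (hyv : y * v = v * y) (hyw : y * w = w * y) (hvw : v * w ≠ w * v) (hzy : y * z ≠ z * y)
    (hy' : y' ∈ Subgroup.zpowers y) (hyb : yb ∈ Subgroup.zpowers y) (hyb1 : yb ≠ 1)
    (hz1 : (v * y') * z = z * (v * y')) (hz2 : (w * yb) * z = z * (w * yb)) :
    IsPGroup p (Subgroup.closure ({v, w} : Set G)) := by
  classical
  -- elements of ⟨y⟩
  have hcy : ∀ c ∈ Subgroup.zpowers y, ∀ t : G, y * t = t * y → c * t = t * c := by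
    intro c hc t ht
    obtain ⟨k, rfl⟩ := Subgroup.mem_zpowers_iff.mp hc
    exact comm_zpow_of ht k
  have hy'w : y' * w = w * y' := hcy y' hy' w hyw
  have hy'v : y' * v = v * y' := hcy y' hy' v hyv
  have hy'y : y' * y = y * y' := hcy y' hy' y rfl
  have hybw : yb * w = w * yb := hcy yb hyb w hyw
  have hybv : yb * v = v * yb := hcy yb hyb v hyv
  have hybi : yb⁻¹ ∈ Subgroup.zpowers y := Subgroup.inv_mem _ hyb
  obtain ⟨v₁, hv₁⟩ : ∃ v₁, v₁ = v * y' := ⟨_, rfl⟩
  rw [← hv₁] at hz1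
  have hv₁ne : v₁ ≠ 1 := by
    intro h0
    apply hvw
    rw [hv₁] at h0
    have h1 : v = y'⁻¹ := eq_inv_of_mul_eq_one_left h0
    have h2 : y'⁻¹ * w = w * y'⁻¹ := hcy _ (Subgroup.inv_mem _ hy') w hyw
    rw [h1]; exact h2
  obtain ⟨j₀, hj₀⟩ := Subgroup.mem_zpowers_iff.mp hy'
  have hv₁Δ : v₁ ∈ Δ := by
    have := hΔ.line v hv y hy hyv.symm 1 j₀ (by rw [zpow_one, hj₀, ← hv₁]; exact hv₁ne)
    rwa [zpow_one, hj₀, ← hv₁] at this
  have hv₁y : v₁ * y = y * v₁ := by
    rw [hv₁, mul_assoc, hy'y, ← mul_assoc, ← hyv, mul_assoc]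
  have hnot : v₁ ∉ Subgroup.zpowers z := by
    intro hmem
    have h1 := hΔ.comm_of_power hz hmem hv₁ne hv₁y
    exact hzy h1.symm
  obtain ⟨i, j, hne, hg⟩ := hΔ.meet z hz v₁ hv₁Δ hz1.symm hnot w hw
  have hab : Commute (z ^ i) (v₁ ^ j) := (show Commute z v₁ from hz1.symm).zpow_zpow i j
  have hv₁w : v₁ * w ≠ w * v₁ := by
    intro h0
    apply hvw
    have h1 : v * w * y' = w * v * y' := by
      calc v * w * y' = v * (y' * w) := by rw [hy'w, mul_assoc]
        _ = v₁ * w := by rw [hv₁, mul_assoc]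
        _ = w * v₁ := h0
        _ = w * v * y' := by rw [hv₁, mul_assoc]
    exact mul_right_cancel h1
  have ha1 : z ^ i ≠ 1 := by
    intro h0
    rw [h0, one_mul] at hne hg
    exact hv₁w (hΔ.comm_of_power hv₁Δ (Subgroup.zpow_mem_zpowers v₁ j) hne hg)
  obtain ⟨k, hk⟩ := Subgroup.mem_zpowers_iff.mp (hΔ.gen hz (Subgroup.zpow_mem_zpowers z i) ha1)
  have hgk : (z ^ i * v₁ ^ j) ^ k = z * (v₁ ^ j) ^ k := by rw [hab.mul_zpow, hk]
  have hgk2 := comm_zpow_of hg k
  rw [hgk] at hgk2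
  have hb₁ : (v₁ ^ j) ^ k = v ^ (j * k) * y' ^ (j * k) := by
    rw [← zpow_mul, hv₁, (show Commute v y' from hy'v.symm).mul_zpow]
  obtain ⟨e, he⟩ : ∃ e, e = v ^ (j * k) := ⟨_, rfl⟩
  obtain ⟨y₂, hy₂⟩ : ∃ y₂, y₂ = y' ^ (j * k) := ⟨_, rfl⟩
  rw [← he, ← hy₂] at hb₁
  have hy₂w : y₂ * w = w * y₂ := by
    rw [hy₂]; exact hcy _ (Subgroup.zpow_mem _ hy' _) w hyw
  rw [hb₁] at hgk2
  have hze : (z * e) * w = w * (z * e) := by
    have h1 : (z * e) * w * y₂ = w * (z * e) * y₂ := by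
      calc (z * e) * w * y₂ = (z * e) * (y₂ * w) := by rw [hy₂w, mul_assoc]
        _ = z * (e * y₂) * w := by group
        _ = w * (z * (e * y₂)) := hgk2
        _ = w * (z * e) * y₂ := by group
    exact mul_right_cancel h1
  have h1' : e * w * e⁻¹ = z⁻¹ * w * z := by
    calc e * w * e⁻¹ = z⁻¹ * ((z * e) * w) * e⁻¹ := by group
      _ = z⁻¹ * (w * (z * e)) * e⁻¹ := by rw [hze]
      _ = z⁻¹ * w * z := by group
  obtain ⟨Y', hY'⟩ : ∃ Y', Y' = z⁻¹ * yb * z := ⟨_, rfl⟩
  have h2' : (z⁻¹ * w * z) * Y' = w * yb := by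
    calc (z⁻¹ * w * z) * Y' = z⁻¹ * ((w * yb) * z) := by rw [hY']; group
      _ = z⁻¹ * (z * (w * yb)) := by rw [hz2]
      _ = w * yb := by group
  obtain ⟨d, hd⟩ : ∃ d, d = e * w⁻¹ * e⁻¹ * w := ⟨_, rfl⟩
  have hY'd : Y' = d * yb := by
    have h3 : (e * w * e⁻¹) * Y' = w * yb := by rw [h1']; exact h2'
    calc Y' = (e * w * e⁻¹)⁻¹ * ((e * w * e⁻¹) * Y') := by group
      _ = (e * w * e⁻¹)⁻¹ * (w * yb) := by rw [h3]
      _ = d * yb := by rw [hd]; group
  -- y commutes with d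
  have heC : e ∈ Subgroup.centralizer ({y} : Set G) := by
    rw [Subgroup.mem_centralizer_singleton_iff, he]
    exact comm_zpow_of hyv.symm _
  have hwC : w ∈ Subgroup.centralizer ({y} : Set G) := by
    rw [Subgroup.mem_centralizer_singleton_iff]; exact hyw.symm
  have hybC : yb ∈ Subgroup.centralizer ({y} : Set G) := by
    rw [Subgroup.mem_centralizer_singleton_iff]; exact hcy yb hyb y rfl
  have hdC : d ∈ Subgroup.centralizer ({y} : Set G) := by
    rw [hd]
    exact mul_mem (mul_mem (mul_mem heC (inv_mem hwC)) (inv_mem heC)) hwC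
  have hY'C : Y' ∈ Subgroup.centralizer ({y} : Set G) := by
    rw [hY'd]; exact mul_mem hdC hybC
  rw [Subgroup.mem_centralizer_singleton_iff] at hY'C
  obtain ⟨y₁, hy₁⟩ : ∃ y₁, y₁ = z⁻¹ * y * z := ⟨_, rfl⟩
  -- y = yb ^ m
  obtain ⟨m, hm⟩ := Subgroup.mem_zpowers_iff.mp (hΔ.gen hy hyb hyb1)
  obtain ⟨m', hm'⟩ := Subgroup.mem_zpowers_iff.mp hyb
  have hconj : ∀ c : ℤ, z⁻¹ * y ^ c * z = y₁ ^ c := by
    intro c
    have := conj_zpow (a := z⁻¹) (b := y) (i := c)
    rw [inv_inv] at this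
    rw [hy₁, this]
  have hconj' : ∀ c : ℤ, z⁻¹ * yb ^ c * z = Y' ^ c := by
    intro c
    have := conj_zpow (a := z⁻¹) (b := yb) (i := c)
    rw [inv_inv] at this
    rw [hY', this]
  have hy₁Y' : y₁ = Y' ^ m := by
    rw [← hconj' m, hm, hy₁]
  have hy₁y : y₁ * y = y * y₁ := by
    rw [hy₁Y']; exact comm_zpow_of hY'C m
  have hY'y₁ : Y' = y₁ ^ m' := by
    rw [← hconj m', hm', hY']
  -- y₁ commutes with v₁ and w₁
  have hy₁v₁ : y₁ * v₁ = v₁ * y₁ := conj_step hy₁ hv₁y.symm hz1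
  have hwyb : y * (w * yb) = (w * yb) * y := by
    have : yb * y = y * yb := hcy yb hyb y rfl
    rw [← mul_assoc, hyw, mul_assoc, mul_assoc, this]
  have hy₁w₁ : y₁ * (w * yb) = (w * yb) * y₁ := conj_step hy₁ hwyb hz2
  have hy₁cy : ∀ c ∈ Subgroup.zpowers y, y₁ * c = c * y₁ := by
    intro c hc
    exact (hcy c hc y₁ hy₁y.symm).symm
  have hy₁v : y₁ * v = v * y₁ := by
    have h3 : y₁ * v * y' = v * y₁ * y' := by
      calc y₁ * v * y' = y₁ * v₁ := by rw [hv₁, mul_assoc]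
        _ = v₁ * y₁ := hy₁v₁
        _ = v * (y' * y₁) := by rw [hv₁, mul_assoc]
        _ = v * y₁ * y' := by rw [← hy₁cy y' hy', mul_assoc]
    exact mul_right_cancel h3
  have hy₁w : y₁ * w = w * y₁ := by
    have h3 : y₁ * w * yb = w * y₁ * yb := by
      calc y₁ * w * yb = y₁ * (w * yb) := by rw [mul_assoc]
        _ = (w * yb) * y₁ := hy₁w₁
        _ = w * (yb * y₁) := by rw [mul_assoc]
        _ = w * y₁ * yb := by rw [← hy₁cy yb hyb, mul_assoc]
    exact mul_right_cancel h3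
  have hY'v : Y' * v = v * Y' := by rw [hY'y₁]; exact comm_zpow_of hy₁v m'
  have hY'w : Y' * w = w * Y' := by rw [hY'y₁]; exact comm_zpow_of hy₁w m'
  have hdeq : d = Y' * yb⁻¹ := by rw [hY'd]; group
  have hdv : d * v = v * d := by
    have h4 : yb⁻¹ * v = v * yb⁻¹ := hcy _ hybi v hyv
    rw [hdeq, mul_assoc, h4, ← mul_assoc, hY'v, mul_assoc]
  have hdw : d * w = w * d := by
    have h4 : yb⁻¹ * w = w * yb⁻¹ := hcy _ hybi w hyw
    rw [hdeq, mul_assoc, h4, ← mul_assoc, hY'w, mul_assoc]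
  have hde : d * e = e * d := by
    rw [he]
    exact ((show Commute v d from hdv.symm).zpow_left _).eq.symm
  -- d ≠ 1
  have hd1 : d ≠ 1 := by
    intro h0
    rw [h0, one_mul, hY'] at hY'd
    have h5 : yb * z = z * yb := by
      calc yb * z = z * (z⁻¹ * yb * z) := by group
        _ = z * yb := by rw [hY'd]
    have h6 : z * yb = yb * z := h5.symm
    have h7 : yb ∈ Subgroup.zpowers y := hyb
    apply hzy
    obtain ⟨c, hc⟩ := Subgroup.mem_zpowers_iff.mp (hΔ.gen hy hyb hyb1)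
    rw [← hc]
    exact comm_zpow_of h5 c
  have he1 : e ≠ 1 := by
    intro h0
    apply hd1
    rw [hd, h0]; group
  -- v = e ^ t
  have heV : e ∈ Subgroup.zpowers v := by rw [he]; exact Subgroup.zpow_mem_zpowers v _
  have hvE : v ∈ Subgroup.zpowers e := hΔ.gen hv heV he1
  obtain ⟨t, ht⟩ : ∃ t : ℕ, e ^ t = v := by
    have h8 : v ∈ Submonoid.powers e := by
      rwa [mem_powers_iff_mem_zpowers]
    obtain ⟨t, ht⟩ := h8
    exact ⟨t, ht⟩
  have he2 : e * w * e⁻¹ = w * d⁻¹ := by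
    rw [hd]; group
  have hf1 : e * d⁻¹ = d⁻¹ * e := by
    have := (show Commute d e from hde).inv_left
    exact this.eq.symm
  have hf2 : w * d⁻¹ = d⁻¹ * w := by
    have := (show Commute d w from hdw).inv_left
    exact this.eq.symm
  have h9 := conj_pow_central hf1 hf2 he2 t
  rw [ht] at h9
  refine pgroup_of_central_comm (hΔ.pow v hv) (hΔ.pow w hw) ?_ ?_ h9
  · exact ((show Commute (d⁻¹) v from ((show Commute d v from hdv).inv_left)).pow_left t).eq.symm
  · exact ((show Commute (d⁻¹) w from ((show Commute d w from hdw).inv_left)).pow_left t).eq.symm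

/-- the main step -/
theorem Ax.main_step (hΔ : Ax p Δ) {v w y z : G} (hv : v ∈ Δ) (hw : w ∈ Δ) (hy : y ∈ Δ) (hz : z ∈ Δ)
    (hyv : y * v = v * y) (hyw : y * w = w * y) (hvw : v * w ≠ w * v)
    (hnp : ¬ IsPGroup p (Subgroup.closure ({v, w} : Set G))) (hzy : y * z ≠ z * y) :
    z * v = v * z ∧ z * w = w * z := by
  have hnv : y ∉ Subgroup.zpowers v := by
    intro hmem
    apply hvw
    rcases eq_or_ne y 1 with h1 | h1
    · exact absurd h1 (hΔ.ne y hy)
    · exact hΔ.comm_of_power hv hmem h1 hyw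
  have hnw : y ∉ Subgroup.zpowers w := by
    intro hmem
    apply hvw
    exact (hΔ.comm_of_power hw hmem (hΔ.ne y hy) hyv).symm
  obtain ⟨y', hy', h1⟩ := hΔ.exists_twist hv hy hz hyv.symm hnv hzy
  obtain ⟨y'', hy'', h2⟩ := hΔ.exists_twist hw hy hz hyw.symm hnw hzy
  by_cases hy''1 : y'' = 1
  · by_cases hy'1 : y' = 1
    · rw [hy'1, mul_one] at h1
      rw [hy''1, mul_one] at h2
      exact ⟨h1.symm, h2.symm⟩
    · exfalso
      apply hnp
      rw [Set.pair_comm]
      exact hΔ.twisted_pgroup hw hv hy hz hyw hyv (fun h => hvw h.symm) hzy hy'' hy' hy'1 h2 h1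
  · exfalso
    apply hnp
    exact hΔ.twisted_pgroup hv hw hy hz hyv hyw hvw hzy hy' hy'' hy''1 h1 h2


/-- a non-`p`-group pair gives a radical element of `Δ` -/
theorem Ax.radical (hΔ : Ax p Δ) {v w : G} (hv : v ∈ Δ) (hw : w ∈ Δ)
    (hnp : ¬ IsPGroup p (Subgroup.closure ({v, w} : Set G))) :
    ∃ y ∈ Δ, ∀ z ∈ Δ, y * z = z * y := by
  have hvw : v * w ≠ w * v := by
    intro h
    apply hnp
    refine pgroup_of_central_comm (f := 1) (hΔ.pow v hv) (hΔ.pow w hw) (by simp) (by simp) ?_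
    rw [h]; group
  -- a partner of `v`
  obtain ⟨x₁, hx₁, hvx₁, hx₁v⟩ : ∃ x₁ ∈ Δ, v * x₁ = x₁ * v ∧ x₁ ∉ Subgroup.zpowers v := by
    obtain ⟨x₀, hx₀, y₀, hy₀, hc, hn⟩ := hΔ.ex
    obtain ⟨i, j, hne, hg⟩ := hΔ.meet x₀ hx₀ y₀ hy₀ hc hn v hv
    have hgΔ := hΔ.line x₀ hx₀ y₀ hy₀ hc i j hne
    by_cases hm : x₀ ^ i * y₀ ^ j ∈ Subgroup.zpowers v
    · have hvg : v ∈ Subgroup.zpowers (x₀ ^ i * y₀ ^ j) := hΔ.gen hv hm hne
      obtain ⟨k, hk⟩ := Subgroup.mem_zpowers_iff.mp hvg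
      have hx₀g : x₀ * (x₀ ^ i * y₀ ^ j) = (x₀ ^ i * y₀ ^ j) * x₀ := by
        have h1 : Commute x₀ (x₀ ^ i) := (Commute.refl x₀).zpow_right i
        have h2 : Commute x₀ (y₀ ^ j) := (show Commute x₀ y₀ from hc).zpow_right j
        exact (h1.mul_right h2).eq
      have hy₀g : y₀ * (x₀ ^ i * y₀ ^ j) = (x₀ ^ i * y₀ ^ j) * y₀ := by
        have h1 : Commute y₀ (x₀ ^ i) := (show Commute y₀ x₀ from hc.symm).zpow_right i
        have h2 : Commute y₀ (y₀ ^ j) := (Commute.refl y₀).zpow_right j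
        exact (h1.mul_right h2).eq
      have hvx₀ : v * x₀ = x₀ * v := by
        rw [← hk]; exact comm_zpow_of hx₀g.symm k
      have hvy₀ : v * y₀ = y₀ * v := by
        rw [← hk]; exact comm_zpow_of hy₀g.symm k
      by_cases hx₀m : x₀ ∈ Subgroup.zpowers v
      · refine ⟨y₀, hy₀, hvy₀, ?_⟩
        intro hy₀m
        apply hn
        have h3 : v ∈ Subgroup.zpowers x₀ := hΔ.gen hv hx₀m (hΔ.ne x₀ hx₀)
        exact (Subgroup.zpowers_le.mpr h3) hy₀m
      · exact ⟨x₀, hx₀, hvx₀, hx₀m⟩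
    · exact ⟨_, hgΔ, hg.symm, hm⟩
  obtain ⟨i, j, hne, hg⟩ := hΔ.meet v hv x₁ hx₁ hvx₁ hx₁v w hw
  have hyΔ := hΔ.line v hv x₁ hx₁ hvx₁ i j hne
  refine ⟨_, hyΔ, ?_⟩
  obtain ⟨y, hy⟩ : ∃ y, y = v ^ i * x₁ ^ j := ⟨_, rfl⟩
  rw [← hy] at hyΔ hg ⊢
  have hyv : y * v = v * y := by
    have h1 : Commute v (v ^ i) := (Commute.refl v).zpow_right i
    have h2 : Commute v (x₁ ^ j) := (show Commute v x₁ from hvx₁).zpow_right j
    rw [hy]
    exact (h1.mul_right h2).eq.symm
  intro z hz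
  by_contra hzy
  obtain ⟨hzv, hzw⟩ := hΔ.main_step hv hw hyΔ hz hyv hg hvw hnp hzy
  have hvy1 : v * y ≠ 1 := by
    intro h0
    apply hvw
    have h1 : v = y⁻¹ := eq_inv_of_mul_eq_one_left h0
    have h2 : Commute y w := hg
    rw [h1]
    exact h2.inv_left.eq
  have hvyΔ : v * y ∈ Δ := by
    have := hΔ.line v hv y hyΔ hyv.symm 1 1 (by simpa using hvy1)
    simpa using this
  have hzvy : z * (v * y) ≠ (v * y) * z := by
    intro h0
    apply hzy
    have h1 : v * (z * y) = v * (y * z) := by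
      calc v * (z * y) = (v * z) * y := by rw [mul_assoc]
        _ = (z * v) * y := by rw [hzv]
        _ = z * (v * y) := by rw [mul_assoc]
        _ = (v * y) * z := h0
        _ = v * (y * z) := by rw [mul_assoc]
    exact (mul_left_cancel h1).symm
  obtain ⟨_, h2⟩ := hΔ.main_step (y := z) (z := v * y) hv hw hz hvyΔ hzv hzw hvw hnp hzvy
  apply hvw
  have h3 : v * w * y = w * v * y := by
    calc v * w * y = v * (y * w) := by rw [hg, mul_assoc]
      _ = (v * y) * w := by rw [mul_assoc]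
      _ = w * (v * y) := h2
      _ = w * v * y := by rw [mul_assoc]
  exact mul_right_cancel h3

/-- the conjugation action on a conjugation closed set -/
@[reducible] def conjAct' (H : Subgroup G) (D : Set G) (hD : ∀ x ∈ D, ∀ g : G, g * x * g⁻¹ ∈ D) : MulAction H D where
  smul g x := ⟨(g : G) * x * (g : G)⁻¹, hD x x.2 g⟩
  one_smul x := by
    apply Subtype.ext
    change ((1 : H) : G) * (x : G) * ((1 : H) : G)⁻¹ = x
    simp
  mul_smul g h x := by
    apply Subtype.ext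
    change ((g * h : H) : G) * (x : G) * ((g * h : H) : G)⁻¹ = g * (h * x * (h : G)⁻¹) * (g : G)⁻¹
    simp only [Subgroup.coe_mul]
    group

/-- when all pairs generate `p`-groups: a central element via counting. -/
theorem Ax.central_of_pgroup (hΔ : Ax p Δ) (hN : IsPGroup p (Subgroup.closure Δ)) :
    ∃ y ∈ Δ, ∀ z ∈ Δ, y * z = z * y := by
  classical
  obtain ⟨x₀, hx₀, _⟩ := hΔ.ex
  -- family of commutative subgroups with nonidentity elements in Δ
  let F : Set (Subgroup G) := {B | (∀ b ∈ B, b ≠ 1 → b ∈ Δ) ∧ ∀ a ∈ B, ∀ b ∈ B, a * b = b * a}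
  have hF0 : Subgroup.zpowers x₀ ∈ F := by
    constructor
    · intro b hb hb1
      obtain ⟨k, rfl⟩ := Subgroup.mem_zpowers_iff.mp hb
      have := hΔ.line x₀ hx₀ x₀ hx₀ rfl k 0 (by simpa using hb1)
      simpa using this
    · intro a ha b hb
      obtain ⟨k, rfl⟩ := Subgroup.mem_zpowers_iff.mp ha
      obtain ⟨l, rfl⟩ := Subgroup.mem_zpowers_iff.mp hb
      exact ((Commute.refl x₀).zpow_zpow k l).eq
  obtain ⟨B, hle, hBmax⟩ := (Set.toFinite F).exists_le_maximal hF0
  have hBF : B ∈ F := hBmax.prop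
  have hx₀B : x₀ ∈ B := hle (Subgroup.mem_zpowers x₀)
  -- commuting elements of Δ are in B
  have hmax : ∀ x ∈ Δ, (∀ b ∈ B, b * x = x * b) → x ∈ B := by
    intro x hx hc
    have hle2 : Subgroup.zpowers x ≤ Subgroup.centralizer (B : Set G) := by
      rw [Subgroup.zpowers_le, Subgroup.mem_centralizer_iff]
      exact hc
    have hsup : ∀ u ∈ B ⊔ Subgroup.zpowers x, ∃ b ∈ B, ∃ k : ℤ, u = b * x ^ k := by
      intro u hu
      have hle3 : Subgroup.zpowers x ≤ Subgroup.normalizer (B : Set G) :=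
        hle2.trans (Subgroup.centralizer_le_normalizer _)
      obtain ⟨b, hb, c, hc', hbc⟩ := exists_mul_of_mem_sup_of_le_normalizer hle3 hu
      obtain ⟨k, rfl⟩ := Subgroup.mem_zpowers_iff.mp hc'
      exact ⟨b, hb, k, hbc⟩
    have hcomm : ∀ b ∈ B, ∀ k : ℤ, b * x ^ k = x ^ k * b := fun b hb k =>
      (((show Commute b x from hc b hb)).zpow_right k).eq
    have hnew : B ⊔ Subgroup.zpowers x ∈ F := by
      constructor
      · intro u hu hu1
        obtain ⟨b, hb, k, rfl⟩ := hsup u hu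
        by_cases hxk : x ^ k = 1
        · rw [hxk, mul_one] at hu1 ⊢
          exact hBF.1 b hb hu1
        · have hxkΔ : x ^ k ∈ Δ := by
            have := hΔ.line x hx x hx rfl k 0 (by simpa using hxk)
            simpa using this
          by_cases hb1 : b = 1
          · rw [hb1, one_mul]; exact hxkΔ
          · have := hΔ.line b (hBF.1 b hb hb1) (x ^ k) hxkΔ (hcomm b hb k) 1 1 (by simpa using hu1)
            simpa using this
      · intro u hu u' hu'
        obtain ⟨b, hb, k, rfl⟩ := hsup u hu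
        obtain ⟨b', hb', k', rfl⟩ := hsup u' hu'
        have h1 : Commute b b' := hBF.2 b hb b' hb'
        have h2 : Commute b (x ^ k') := hcomm b hb k'
        have h3 : Commute (x ^ k) b' := (hcomm b' hb' k).symm
        have h4 : Commute (x ^ k) (x ^ k') := (Commute.refl x).zpow_zpow k k'
        exact ((h1.mul_right h2).mul_left (h3.mul_right h4)).eq
    have := hBmax.le_of_ge hnew le_sup_left
    exact this ((le_sup_right : Subgroup.zpowers x ≤ _) (Subgroup.mem_zpowers x))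
  -- B is a p-group
  have hBp : IsPGroup p B := by
    intro b
    refine ⟨1, ?_⟩
    rw [pow_one]
    apply Subtype.ext
    by_cases hb1 : (b : G) = 1
    · simp [hb1]
    · simpa using hΔ.pow _ (hBF.1 _ b.2 hb1)
  -- the set Δ₁
  let Δ₁ : Set G := insert 1 Δ
  have hΔ₁ : ∀ x ∈ Δ₁, ∀ g : G, g * x * g⁻¹ ∈ Δ₁ := by
    rintro x (rfl | hx) g
    · left; group
    · right; exact hΔ.conj x hx g
  letI actB : MulAction B Δ₁ := conjAct' B Δ₁ hΔ₁
  have hcardB := hBp.card_modEq_card_fixedPoints (α := Δ₁)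
  -- the fixed points of B are B
  have hfix : Nat.card (MulAction.fixedPoints B Δ₁) = Nat.card B := by
    refine Nat.card_congr ?_
    refine Equiv.ofBijective (fun x => ⟨(x.1 : G), ?_⟩) ⟨?_, ?_⟩
    · obtain ⟨⟨x, hx⟩, hxf⟩ := x
      rw [MulAction.mem_fixedPoints] at hxf
      have hc : ∀ b ∈ B, b * x = x * b := by
        intro b hb
        have h1 := hxf ⟨b, hb⟩
        have h2 : b * x * b⁻¹ = x := congrArg Subtype.val h1
        calc b * x = (b * x * b⁻¹) * b := by group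
          _ = x * b := by rw [h2]
      rcases hx with rfl | hx
      · exact one_mem B
      · exact hmax x hx hc
    · intro x y hxy
      apply Subtype.ext
      apply Subtype.ext
      have h := congrArg (fun t : B => (t : G)) hxy
      exact h
    · rintro ⟨b, hb⟩
      have hbΔ₁ : b ∈ Δ₁ := by
        by_cases hb1 : b = 1
        · left; exact hb1
        · right; exact hBF.1 b hb hb1
      refine ⟨⟨⟨b, hbΔ₁⟩, ?_⟩, rfl⟩
      rw [MulAction.mem_fixedPoints]
      rintro ⟨c, hc⟩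
      apply Subtype.ext
      change c * b * c⁻¹ = b
      rw [hBF.2 c hc b hb]; group
  have hdvdB : p ∣ Nat.card B := by
    have hne : Nontrivial B := ⟨⟨x₀, hx₀B⟩, 1, fun h => hΔ.ne x₀ hx₀ (congrArg Subtype.val h)⟩
    obtain ⟨k, hk⟩ := IsPGroup.iff_card.mp hBp
    have hk0 : k ≠ 0 := by
      rintro rfl
      rw [pow_zero] at hk
      have := (Nat.card_eq_one_iff_unique.mp hk).1
      exact not_subsingleton B this
    rw [hk]
    exact dvd_pow_self p hk0
  have hdvd : p ∣ Nat.card Δ₁ := by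
    have h1 := hcardB
    rw [hfix] at h1
    exact (Nat.modEq_zero_iff_dvd.mp (h1.trans (Nat.modEq_zero_iff_dvd.mpr hdvdB)))
  -- now the action of N
  letI actN : MulAction (Subgroup.closure Δ) Δ₁ := conjAct' _ Δ₁ hΔ₁
  have h1fix : (⟨1, Or.inl rfl⟩ : Δ₁) ∈ MulAction.fixedPoints (Subgroup.closure Δ) Δ₁ := by
    rw [MulAction.mem_fixedPoints]
    intro g
    apply Subtype.ext
    change (g : G) * 1 * (g : G)⁻¹ = 1
    group
  obtain ⟨b, hb, hne⟩ := hN.exists_fixed_point_of_prime_dvd_card_of_fixed_point Δ₁ hdvd h1fix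
  obtain ⟨⟨b, hbΔ⟩, rfl⟩ : ∃ b' : Δ₁, b' = b := ⟨b, rfl⟩
  rw [MulAction.mem_fixedPoints] at hb
  rcases hbΔ with rfl | hbΔ
  · exact absurd rfl hne
  · refine ⟨b, hbΔ, ?_⟩
    intro z hz
    have h1 := hb ⟨z, Subgroup.subset_closure hz⟩
    have h2 : z * b * z⁻¹ = b := congrArg Subtype.val h1
    calc b * z = (z * b * z⁻¹) * z := by rw [h2]
      _ = z * b := by group

/-- Existence of a radical element. -/
theorem Ax.exists_radical (hΔ : Ax p Δ) : ∃ y ∈ Δ, ∀ z ∈ Δ, y * z = z * y := by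
  classical
  by_cases hall : ∀ v ∈ Δ, ∀ w ∈ Δ, IsPGroup p (Subgroup.closure ({v, w} : Set G))
  · refine hΔ.central_of_pgroup ?_
    exact Cfsg.Agent.Lib.Invol.isPGroup_closure_of_pairs p _ rfl Δ hΔ.conj hall
  · push Not at hall
    obtain ⟨v, hv, w, hw, hnp⟩ := hall
    exact hΔ.radical hv hw hnp

/-- A radical element lies in the `p`-core. -/
theorem Ax.zpowers_le_pCore (hΔ : Ax p Δ) {y : G} (hy : y ∈ Δ) (hc : ∀ z ∈ Δ, y * z = z * y) :
    Subgroup.zpowers y ≤ Cfsg.pCore p G := by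
  classical
  let D : Set G := Set.range (fun g : G => g * y * g⁻¹)
  have hDc : ∀ a ∈ D, ∀ g : G, g * a * g⁻¹ ∈ D := by
    rintro _ ⟨h, rfl⟩ g
    exact ⟨g * h, by simp only; group⟩
  have hDΔ : ∀ a ∈ D, a ∈ Δ := by
    rintro _ ⟨h, rfl⟩
    exact hΔ.conj y hy h
  have hpairs : ∀ a ∈ D, ∀ b ∈ D, IsPGroup p (Subgroup.closure ({a, b} : Set G)) := by
    rintro _ ⟨g, rfl⟩ b hb
    refine pgroup_of_central_comm (f := 1) (hΔ.pow _ (hDΔ _ ⟨g, rfl⟩)) (hΔ.pow _ (hDΔ _ hb)) (by simp) (by simp) ?_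
    have h1 := hc (g⁻¹ * b * g) (by
      have := hΔ.conj b (hDΔ b hb) g⁻¹
      simpa using this)
    have h2 : (g * y * g⁻¹) * b = b * (g * y * g⁻¹) := by
      calc (g * y * g⁻¹) * b = g * (y * (g⁻¹ * b * g)) * g⁻¹ := by group
        _ = g * ((g⁻¹ * b * g) * y) * g⁻¹ := by rw [h1]
        _ = _ := by group
    rw [h2]; group
  have hp1 : IsPGroup p (Subgroup.closure D) :=
    Cfsg.Agent.Lib.Invol.isPGroup_closure_of_pairs p _ rfl D hDc hpairs
  have hnorm : (Subgroup.closure D).Normal := by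
    constructor
    intro n hn g
    induction hn using Subgroup.closure_induction with
    | mem x hx => exact Subgroup.subset_closure (hDc x hx g)
    | one => simp
    | mul x y _ _ hx hy =>
      have : g * (x * y) * g⁻¹ = (g * x * g⁻¹) * (g * y * g⁻¹) := by group
      rw [this]; exact mul_mem hx hy
    | inv x _ hx =>
      have : g * x⁻¹ * g⁻¹ = (g * x * g⁻¹)⁻¹ := by group
      rw [this]; exact inv_mem hx
  have h2 : Subgroup.closure D ≤ Cfsg.pCore p G := le_pCore hnorm hp1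
  rw [Subgroup.zpowers_le]
  apply h2
  apply Subgroup.subset_closure
  exact ⟨1, by group⟩


/-- Let p be a prime and K a set of subgroups of order p of a finite group G, closed under conjugation, such that at least two distinct members of K commute elementwise, and whenever two distinct members X, Y of K commute: every subgroup of order p of the group XY they generate belongs to K, and every member W of K has centralizer meeting XY nontrivially. Then some member V of K commutes elementwise with every member of K and lies in O_p(G); in particular G is not simple. -/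
theorem result {G : Type*} [Group G] [Finite G]
    {p : ℕ} (hp : p.Prime) (K : Set (Subgroup G)) (hK : ∀ X ∈ K, Nat.card ↥X = p)
    (hKc : ∀ X ∈ K, ∀ g : G, X.map (MulAut.conj g).toMonoidHom ∈ K)
    (hex : ∃ X ∈ K, ∃ Y ∈ K, X ≠ Y ∧ ∀ x ∈ X, ∀ y ∈ Y, x * y = y * x)
    (ha : ∀ X ∈ K, ∀ Y ∈ K, X ≠ Y → (∀ x ∈ X, ∀ y ∈ Y, x * y = y * x) →
      ∀ Z : Subgroup G, Z ≤ X ⊔ Y → Nat.card ↥Z = p → Z ∈ K)
    (hb : ∀ X ∈ K, ∀ Y ∈ K, X ≠ Y → (∀ x ∈ X, ∀ y ∈ Y, x * y = y * x) →
      ∀ W ∈ K, (X ⊔ Y) ⊓ Subgroup.centralizer (W : Set G) ≠ ⊥) :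
    (∃ V ∈ K, (∀ W ∈ K, ∀ v ∈ V, ∀ w ∈ W, v * w = w * v) ∧ V ≤ Cfsg.pCore p G) ∧ ¬ IsSimpleGroup G := by
  classical
  haveI : Fact p.Prime := ⟨hp⟩
  have hcgen : ∀ X ∈ K, ∀ x ∈ X, x ≠ 1 → X = Subgroup.zpowers x := by
    intro X hX x hx hx1
    symm
    apply Subgroup.eq_of_le_of_card_ge (Subgroup.zpowers_le.mpr hx)
    rw [hK X hX, Nat.card_zpowers]
    have h1 : orderOf x ∣ Nat.card X := Subgroup.orderOf_dvd_natCard X hx
    rw [hK X hX] at h1
    rcases (Nat.dvd_prime hp).mp h1 with h2 | h2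
    · exact absurd (orderOf_eq_one_iff.mp h2) hx1
    · exact h2.ge
  let Δ : Set G := {x | x ≠ 1 ∧ Subgroup.zpowers x ∈ K}
  have hΔpow : ∀ x ∈ Δ, x ^ p = 1 := by
    rintro x ⟨_, hx⟩
    have h1 := hK _ hx
    rw [Nat.card_zpowers] at h1
    rw [← h1]; exact pow_orderOf_eq_one x
  have hpow_one : ∀ x y : G, x ^ p = 1 → y ^ p = 1 → x * y = y * x → ∀ i j : ℤ, (x ^ i * y ^ j) ^ p = 1 := by
    intro x y hx hy hxy i j
    have hc : Commute (x ^ i) (y ^ j) := (show Commute x y from hxy).zpow_zpow i j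
    rw [hc.mul_pow]
    have h1 : (x ^ i) ^ p = 1 := by
      rw [← zpow_natCast, ← zpow_mul, mul_comm, zpow_mul, zpow_natCast, hx, one_zpow]
    have h2 : (y ^ j) ^ p = 1 := by
      rw [← zpow_natCast, ← zpow_mul, mul_comm, zpow_mul, zpow_natCast, hy, one_zpow]
    rw [h1, h2, one_mul]
  have hAx : Ax p Δ := by
    constructor
    · rintro x ⟨h, _⟩; exact h
    · exact hΔpow
    · rintro x ⟨hx1, hx⟩ g
      refine ⟨?_, ?_⟩
      · intro h0
        apply hx1
        have : x = g⁻¹ * (g * x * g⁻¹) * g := by group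
        rw [this, h0]; group
      · have h1 := hKc _ hx g
        rw [MonoidHom.map_zpowers] at h1
        exact h1
    · intro x hx y hy hxy i j hne
      refine ⟨hne, ?_⟩
      by_cases hXY : Subgroup.zpowers x = Subgroup.zpowers y
      · have hmem : x ^ i * y ^ j ∈ Subgroup.zpowers x := by
          refine mul_mem (Subgroup.zpow_mem_zpowers x i) ?_
          rw [hXY]; exact Subgroup.zpow_mem_zpowers y j
        rw [← hcgen _ hx.2 _ hmem hne]
        exact hx.2
      · refine ha _ hx.2 _ hy.2 hXY ?_ _ ?_ ?_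
        · intro a ha' b hb'
          obtain ⟨k, rfl⟩ := Subgroup.mem_zpowers_iff.mp ha'
          obtain ⟨l, rfl⟩ := Subgroup.mem_zpowers_iff.mp hb'
          exact ((show Commute x y from hxy).zpow_zpow k l).eq
        · rw [Subgroup.zpowers_le]
          exact mul_mem ((le_sup_left : Subgroup.zpowers x ≤ _) (Subgroup.zpow_mem_zpowers x i))
            ((le_sup_right : Subgroup.zpowers y ≤ _) (Subgroup.zpow_mem_zpowers y j))
        · rw [Nat.card_zpowers]
          exact orderOf_eq_prime (hpow_one x y (hΔpow x hx) (hΔpow y hy) hxy i j) hne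
    · intro x hx y hy hxy hn w hw
      have hXY : Subgroup.zpowers x ≠ Subgroup.zpowers y := by
        intro h
        apply hn
        rw [h]; exact Subgroup.mem_zpowers y
      have hcXY : ∀ a ∈ Subgroup.zpowers x, ∀ b ∈ Subgroup.zpowers y, a * b = b * a := by
        intro a ha' b hb'
        obtain ⟨k, rfl⟩ := Subgroup.mem_zpowers_iff.mp ha'
        obtain ⟨l, rfl⟩ := Subgroup.mem_zpowers_iff.mp hb'
        exact ((show Commute x y from hxy).zpow_zpow k l).eq
      have h1 := hb _ hx.2 _ hy.2 hXY hcXY _ hw.2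
      obtain ⟨g, hg, hg1⟩ := (Subgroup.bot_or_exists_ne_one _).resolve_left h1
      have hle : Subgroup.zpowers y ≤ Subgroup.normalizer (Subgroup.zpowers x : Set G) :=
        (zpowers_le_centralizer' hxy.symm).trans (Subgroup.centralizer_le_normalizer _)
      obtain ⟨a, ha', b, hb', hab⟩ := exists_mul_of_mem_sup_of_le_normalizer hle hg.1
      obtain ⟨i, rfl⟩ := Subgroup.mem_zpowers_iff.mp ha'
      obtain ⟨j, rfl⟩ := Subgroup.mem_zpowers_iff.mp hb'
      refine ⟨i, j, ?_, ?_⟩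
      · rw [← hab]; exact hg1
      · rw [← hab]
        exact (Subgroup.mem_centralizer_iff.mp hg.2 w (Subgroup.mem_zpowers w)).symm
    · obtain ⟨X, hX, Y, hY, hXY, hc⟩ := hex
      have hXcard : 1 < Nat.card X := by rw [hK X hX]; exact hp.one_lt
      have hYcard : 1 < Nat.card Y := by rw [hK Y hY]; exact hp.one_lt
      obtain ⟨x, hx, hx1⟩ : ∃ x ∈ X, x ≠ 1 := by
        rcases Subgroup.bot_or_exists_ne_one X with h | h
        · rw [h] at hXcard; simp at hXcard
        · exact h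
      obtain ⟨y, hy, hy1⟩ : ∃ y ∈ Y, y ≠ 1 := by
        rcases Subgroup.bot_or_exists_ne_one Y with h | h
        · rw [h] at hYcard; simp at hYcard
        · exact h
      have hXe := hcgen X hX x hx hx1
      have hYe := hcgen Y hY y hy hy1
      refine ⟨x, ⟨hx1, hXe ▸ hX⟩, y, ⟨hy1, hYe ▸ hY⟩, hc x hx y hy, ?_⟩
      intro hm
      apply hXY
      rw [← hXe] at hm
      rw [hcgen X hX y hm hy1, hYe]
  obtain ⟨y, hy, hrad⟩ := hAx.exists_radical
  have hV := hAx.zpowers_le_pCore hy hrad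
  have hcore : (∃ V ∈ K, (∀ W ∈ K, ∀ v ∈ V, ∀ w ∈ W, v * w = w * v) ∧ V ≤ Cfsg.pCore p G) := by
    refine ⟨Subgroup.zpowers y, hy.2, ?_, hV⟩
    intro W hW v hv w hw
    obtain ⟨k, rfl⟩ := Subgroup.mem_zpowers_iff.mp hv
    by_cases hw1 : w = 1
    · rw [hw1]; simp
    · have hWe := hcgen W hW w hw hw1
      have hwΔ : w ∈ Δ := ⟨hw1, hWe ▸ hW⟩
      exact comm_zpow_of (hrad w hwΔ) k
  refine ⟨hcore, ?_⟩
  intro hsimple
  have hnorm : (Cfsg.pCore p G).Normal := inferInstance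
  have hy1 : y ≠ 1 := hy.1
  have htop : Cfsg.pCore p G = ⊤ := by
    rcases hsimple.eq_bot_or_eq_top_of_normal _ hnorm with h | h
    · exfalso
      apply hy1
      have := hV (Subgroup.mem_zpowers y)
      rw [h] at this
      simpa using this
    · exact h
  have hGp : IsPGroup p G := by
    have h1 : IsPGroup p (Cfsg.pCore p G) := pCore_isPGroup
    rw [htop] at h1
    exact h1.of_equiv Subgroup.topEquiv
  have hnt : Nontrivial G := hsimple.1
  have hcen : Subgroup.center G = ⊤ := by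
    rcases hsimple.eq_bot_or_eq_top_of_normal _ (inferInstance : (Subgroup.center G).Normal) with h | h
    · exfalso
      haveI : Nontrivial G := hnt
      exact absurd h (by
        have := hGp.center_nontrivial
        exact (Subgroup.nontrivial_iff_ne_bot _).mp this)
    · exact h
  obtain ⟨X, hX, Y, hY, hXY, _⟩ := hex
  have hctr : ∀ Z ∈ K, Z = ⊤ := by
    intro Z hZ
    have hZn : Z.Normal := by
      constructor
      intro n hn g
      have h2 : g ∈ Subgroup.center G := by rw [hcen]; trivial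
      have h3 : n * g = g * n := Subgroup.mem_center_iff.mp h2 n
      rw [← h3]
      simpa using hn
    rcases hsimple.eq_bot_or_eq_top_of_normal Z hZn with h | h
    · exfalso
      have := hK Z hZ
      rw [h] at this
      simp at this
      exact hp.one_lt.ne this
    · exact h
  exact hXY (by rw [hctr X hX, hctr Y hY])

end Cfsg.Agent.S3196
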