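import Cfsg.Statements.S3200
import Mathlib
import Cfsg.Agent.Lib.Char.Burnside
import Cfsg.Agent.Lib.Basic.Hall
import Cfsg.Agent.Lib.OddLocal.Sup

set_option autoImplicit false
open Cfsg

namespace Cfsg.Agent.S3200

universe u

/-- abelian 2-complement, abstractly -/
def HasAbComp (H : Type*) [Group H] : Prop :=
  ∃ C : Subgroup H, (∀ a ∈ C, ∀ b ∈ C, a * b = b * a) ∧ Odd (Nat.card C) ∧ ∃ k : ℕ, C.index = 2 ^ k

theorem hasAbComp_quotient {H : Type*} [Group H] [Finite H] (N : Subgroup H) [N.Normal] (h : HasAbComp H) :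
    HasAbComp (H ⧸ N) := by
  obtain ⟨C, hc, hodd, k, hk⟩ := h
  refine ⟨C.map (QuotientGroup.mk' N), ?_, ?_, ?_⟩
  · rintro _ ⟨a, ha, rfl⟩ _ ⟨b, hb, rfl⟩
    rw [← map_mul, ← map_mul, hc a ha b hb]
  · have h1 : Nat.card (C.map (QuotientGroup.mk' N)) ∣ Nat.card C := Subgroup.card_map_dvd _ _
    exact Odd.of_dvd_nat hodd h1
  · have h1 : (C.map (QuotientGroup.mk' N)).index ∣ C.index :=
      Subgroup.index_map_dvd C (QuotientGroup.mk'_surjective N)
    rw [hk] at h1
    obtain ⟨j, _, hj⟩ := (Nat.dvd_prime_pow Nat.prime_two).mp h1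
    exact ⟨j, hj⟩

theorem hasAbComp_normal {H : Type*} [Group H] [Finite H] (N : Subgroup H) [hN : N.Normal] (h : HasAbComp H) :
    HasAbComp N := by
  obtain ⟨C, hc, hodd, k, hk⟩ := h
  refine ⟨C.subgroupOf N, ?_, ?_, ?_⟩
  · intro a ha b hb
    exact Subtype.ext (hc _ ha _ hb)
  · have h1 : Nat.card (C.subgroupOf N) ∣ Nat.card C := by
      rw [← Subgroup.card_map_of_injective N.subtype_injective, Subgroup.subgroupOf_map_subtype]
      exact Subgroup.card_dvd_of_le inf_le_left
    exact Odd.of_dvd_nat hodd h1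
  · change ∃ k : ℕ, C.relIndex N = 2 ^ k
    have h1 := Cfsg.Agent.Lib.OddLocal.card_sup_mul_card_inf_of_normal N C hN
    have h2 : Nat.card C * C.relIndex (N ⊔ C) = Nat.card ↥(N ⊔ C) :=
      Cfsg.Agent.Lib.OddLocal.card_mul_relIndex le_sup_right
    have h3 : Nat.card ↥(C ⊓ N) * C.relIndex N = Nat.card N := by
      have h4 := Cfsg.Agent.Lib.OddLocal.card_mul_relIndex (inf_le_right : C ⊓ N ≤ N)
      rwa [Subgroup.inf_relIndex_right] at h4
    have h5 : C.relIndex (N ⊔ C) = C.relIndex N := by
      have hpos1 : 0 < Nat.card C := Nat.card_pos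
      have hpos2 : 0 < Nat.card ↥(C ⊓ N) := Nat.card_pos
      rw [inf_comm N C, ← h2, ← h3] at h1
      have h6 : (Nat.card C * Nat.card ↥(C ⊓ N)) * C.relIndex (N ⊔ C) = (Nat.card C * Nat.card ↥(C ⊓ N)) * C.relIndex N := by
        calc _ = Nat.card C * C.relIndex (N ⊔ C) * Nat.card ↥(C ⊓ N) := by ring
          _ = _ := h1
          _ = _ := by ring
      exact Nat.eq_of_mul_eq_mul_left (Nat.mul_pos hpos1 hpos2) h6
    have h7 : C.relIndex (N ⊔ C) ∣ C.index := by
      rw [← Subgroup.relIndex_mul_index (le_sup_right : C ≤ N ⊔ C)]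
      exact dvd_mul_right _ _
    rw [hk] at h7
    obtain ⟨j, _, hj⟩ := (Nat.dvd_prime_pow Nat.prime_two).mp h7
    exact ⟨j, by rw [← h5, hj]⟩

theorem isSolvable_of_hasAbComp.{v} : ∀ (n : ℕ) (H : Type v) [Group H] [Finite H], Nat.card H = n → HasAbComp H →
    Group.IsSolvable H := by
  intro n
  induction n using Nat.strong_induction_on with
  | _ n ih =>
  intro H _ _ hn hab
  classical
  by_cases hnt : Nontrivial H
  · by_cases hex : ∃ N : Subgroup H, N.Normal ∧ N ≠ ⊥ ∧ N ≠ ⊤
    · obtain ⟨N, hN, hN1, hN2⟩ := hex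
      have hlt1 : Nat.card N < n := by
        rw [← hn]
        have h1 := N.card_mul_index
        have h2 : N.index ≠ 1 := fun h => hN2 (Subgroup.index_eq_one.mp h)
        have h3 : N.index ≠ 0 := Subgroup.index_ne_zero_of_finite
        have h4 : 0 < Nat.card N := Nat.card_pos
        have h5 : 2 ≤ N.index := by omega
        nlinarith
      have hlt2 : Nat.card (H ⧸ N) < n := by
        rw [← hn]
        have h1 := N.card_mul_index
        have h2 : Nat.card N ≠ 1 := fun h => hN1 (Subgroup.eq_bot_of_card_eq N h)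
        have h3 : N.index ≠ 0 := Subgroup.index_ne_zero_of_finite
        have h4 : 0 < Nat.card N := Nat.card_pos
        have h5 : 2 ≤ Nat.card N := by omega
        have h6 : Nat.card (H ⧸ N) = N.index := rfl
        rw [h6]
        have h7 : 0 < N.index := Nat.pos_of_ne_zero h3
        nlinarith
      haveI := ih _ hlt1 N rfl (hasAbComp_normal N hab)
      haveI := ih _ hlt2 (H ⧸ N) rfl (hasAbComp_quotient N hab)
      exact Group.isSolvable_of_ker_le_range N.subtype (QuotientGroup.mk' N) (by simp)
    · push Not at hex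
      haveI hS : IsSimpleGroup H := ⟨fun N hN => by
        by_cases h : N = ⊥
        · exact Or.inl h
        · exact Or.inr (hex N hN h)⟩
      obtain ⟨C, hc, hodd, k, hk⟩ := hab
      by_cases hC : C = ⊥
      · have hcard : Nat.card H = 2 ^ k := by
          rw [hC, Subgroup.index_bot] at hk; exact hk
        have : IsPGroup 2 H := IsPGroup.of_card hcard
        haveI := this.isNilpotent
        infer_instance
      · obtain ⟨g, hg, hg1⟩ := (Subgroup.bot_or_exists_ne_one C).resolve_left hC
        have hle : C ≤ Subgroup.centralizer ({g} : Set H) := by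
          intro c hc'
          rw [Subgroup.mem_centralizer_singleton_iff]
          exact hc c hc' g hg
        have hdvd : (Subgroup.centralizer ({g} : Set H)).index ∣ C.index := Subgroup.index_dvd_of_le hle
        rw [hk] at hdvd
        obtain ⟨j, _, hj⟩ := (Nat.dvd_prime_pow Nat.prime_two).mp hdvd
        have hp := Cfsg.Agent.Lib.Char.prime_card_of_class_prime_pow 2 j Nat.prime_two g hg1 hj
        have hpg : IsPGroup (Nat.card H) H := IsPGroup.of_card (n := 1) (by simp)
        haveI : Fact (Nat.card H).Prime := ⟨hp⟩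
        haveI := hpg.isNilpotent
        infer_instance
  · rw [not_nontrivial_iff_subsingleton] at hnt
    infer_instance

theorem hasAbComp_of_complement {H : Type*} [Group H] [Finite H]
    (S : Sylow 2 H) (C : Subgroup H) (hC : IsMulCommutative ↥C) (hSC : Subgroup.IsComplement' (S : Subgroup H) C) :
    HasAbComp H := by
  have h1 := hSC.card_mul_card
  refine ⟨C, ?_, ?_, ?_⟩
  · intro a ha b hb
    have := hC.is_comm.comm ⟨a, ha⟩ ⟨b, hb⟩
    exact congrArg Subtype.val this
  · have h2 := S.card_mul_index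
    have h3 : 0 < Nat.card (S : Subgroup H) := Nat.card_pos
    have h4 : Nat.card C = (S : Subgroup H).index := by
      have : Nat.card (S : Subgroup H) * Nat.card C = Nat.card (S : Subgroup H) * (S : Subgroup H).index := by
        rw [h1, h2]
      exact Nat.eq_of_mul_eq_mul_left h3 this
    rw [h4]
    have := S.not_dvd_index
    exact Nat.odd_iff.mpr (by omega)
  · have h2 := C.card_mul_index
    have h3 : 0 < Nat.card C := Nat.card_pos
    have h4 : C.index = Nat.card (S : Subgroup H) := by
      have : Nat.card C * C.index = Nat.card C * Nat.card (S : Subgroup H) := by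
        rw [h2, ← h1, mul_comm]
      exact Nat.eq_of_mul_eq_mul_left h3 this
    obtain ⟨k, hk⟩ := IsPGroup.iff_card.mp S.isPGroup'
    exact ⟨k, by rw [h4, hk]⟩

theorem complement_of_hasAbComp {H : Type*} [Group H] [Finite H] (P : Sylow 2 H) (D : Subgroup H)
    (hodd : Odd (Nat.card D)) (hidx : ∃ k : ℕ, D.index = 2 ^ k) :
    Subgroup.IsComplement' (P : Subgroup H) D := by
  obtain ⟨k, hk⟩ := hidx
  have h1 := D.card_mul_index
  rw [hk] at h1
  have h2 := P.card_eq_multiplicity
  have hfac : (Nat.card H).factorization 2 = k := by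
    rw [← h1, Nat.factorization_mul (Nat.card_pos.ne') (by positivity), Nat.Prime.factorization_pow Nat.prime_two]
    have : (Nat.card D).factorization 2 = 0 := by
      apply Nat.factorization_eq_zero_of_not_dvd
      rcases hodd with ⟨m, hm⟩
      omega
    simp [this]
  rw [hfac] at h2
  apply Subgroup.isComplement'_of_coprime
  · rw [h2, ← h1, mul_comm]
  · rw [h2]
    apply Nat.Coprime.pow_left
    exact (Nat.coprime_two_left.mpr hodd)


/-- Let H be a finite group in which a Sylow 2-subgroup has an abelian complement (an abelian subgroup meeting it trivially whose product with it is all of H). Then H is solvable, and every subgroup and every quotient group of H again has a Sylow 2-subgroup with an abelian complement. -/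
theorem result {H : Type*} [Group H] [Finite H]
    (S : Sylow 2 H) (C : Subgroup H) (hC : IsMulCommutative ↥C) (hSC : Subgroup.IsComplement' (S : Subgroup H) C) :
    Group.IsSolvable H ∧
    (∀ L : Subgroup H, ∃ (P : Sylow 2 ↥L) (D : Subgroup ↥L), IsMulCommutative ↥D ∧ Subgroup.IsComplement' (P : Subgroup ↥L) D) ∧
    (∀ (N : Subgroup H) [N.Normal], ∃ (P : Sylow 2 (H ⧸ N)) (D : Subgroup (H ⧸ N)),
      IsMulCommutative ↥D ∧ Subgroup.IsComplement' (P : Subgroup (H ⧸ N)) D) := by
  classical
  have hab := hasAbComp_of_complement S C hC hSC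
  have hsol := isSolvable_of_hasAbComp _ H rfl hab
  obtain ⟨C', hc', hodd, k, hk⟩ := hab
  refine ⟨hsol, ?_, ?_⟩
  · intro L
    haveI : Group.IsSolvable L := inferInstance
    obtain ⟨P⟩ : Nonempty (Sylow 2 L) := inferInstance
    have hL0 : Nat.card L ≠ 0 := Nat.card_pos.ne'
    have hco : (ordCompl[2] (Nat.card L)).Coprime (ordProj[2] (Nat.card L)) := by
      apply Nat.Coprime.pow_right
      exact (Nat.coprime_ordCompl Nat.prime_two hL0).symm
    obtain ⟨D, hD⟩ := Cfsg.Agent.Lib.Basic.hall_exists _ (ordCompl[2] (Nat.card L)) (ordProj[2] (Nat.card L)) rfl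
      (by rw [mul_comm]; exact (Nat.ordProj_mul_ordCompl_eq_self _ _).symm) hco
    have hDodd : Odd (Nat.card D) := by
      rw [hD]
      exact Nat.odd_iff.mpr (by
        have := Nat.not_dvd_ordCompl Nat.prime_two hL0
        omega)
    have hmapcard : Nat.card (D.map L.subtype) = Nat.card D := Subgroup.card_map_of_injective L.subtype_injective
    have hcop : (Nat.card C').Coprime C'.index := by
      rw [hk]
      apply Nat.Coprime.pow_right
      exact (Nat.coprime_two_right.mpr hodd)
    have hcop2 : (Nat.card (D.map L.subtype)).Coprime C'.index := by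
      rw [hk, hmapcard]
      apply Nat.Coprime.pow_right
      exact (Nat.coprime_two_right.mpr hDodd)
    obtain ⟨g, hg⟩ := Cfsg.Agent.Lib.Basic.hall_le_conj _ C' (D.map L.subtype) rfl hcop hcop2
    refine ⟨P, D, ?_, ?_⟩
    · refine ⟨⟨?_⟩⟩
      rintro ⟨a, ha⟩ ⟨b, hb⟩
      apply Subtype.ext
      apply Subtype.ext
      have h1 := hg (Subgroup.mem_map_of_mem L.subtype ha)
      have h2 := hg (Subgroup.mem_map_of_mem L.subtype hb)
      obtain ⟨a', ha', hae⟩ := h1
      obtain ⟨b', hb', hbe⟩ := h2
      change ((a : L) : H) * ((b : L) : H) = ((b : L) : H) * ((a : L) : H)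
      have hae' : (a : H) = g * a' * g⁻¹ := hae.symm
      have hbe' : (b : H) = g * b' * g⁻¹ := hbe.symm
      rw [hae', hbe']
      have h3 := hc' a' ha' b' hb'
      calc g * a' * g⁻¹ * (g * b' * g⁻¹) = g * (a' * b') * g⁻¹ := by group
        _ = g * (b' * a') * g⁻¹ := by rw [h3]
        _ = _ := by group
    · apply complement_of_hasAbComp P D hDodd
      have hPcard := P.card_eq_multiplicity
      refine ⟨(Nat.card L).factorization 2, ?_⟩
      have h1 := D.card_mul_index
      rw [hD] at h1
      have h2 : ordCompl[2] (Nat.card L) * 2 ^ (Nat.card L).factorization 2 = Nat.card L := by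
        rw [mul_comm]; exact Nat.ordProj_mul_ordCompl_eq_self _ _
      have hpos : 0 < ordCompl[2] (Nat.card L) := Nat.ordCompl_pos 2 hL0
      exact Nat.eq_of_mul_eq_mul_left hpos (h1.trans h2.symm)
  · intro N _
    obtain ⟨P⟩ : Nonempty (Sylow 2 (H ⧸ N)) := inferInstance
    obtain ⟨D, hc, hodd', hidx⟩ := hasAbComp_quotient N (⟨C', hc', hodd, k, hk⟩ : HasAbComp H)
    refine ⟨P, D, ⟨⟨?_⟩⟩, complement_of_hasAbComp P D hodd' hidx⟩
    rintro ⟨a, ha⟩ ⟨b, hb⟩
    exact Subtype.ext (hc a ha b hb)

end Cfsg.Agent.S3200
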