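import Cfsg.Statements.S3201
import Mathlib
import Cfsg.Agent.Lib.Components.QuatQuot
import Cfsg.Agent.Lib.Transfer.Rank

set_option autoImplicit false
open Cfsg

namespace Cfsg.Agent.S3201

open Cfsg.Agent.Lib.Components QuaternionGroup Subgroup

theorem aux {S : Type*} [Group S] [Finite S] (hS : IsPGroup 2 S) {ι : Type*}
    (C' : ι → Subgroup S) [hN : ∀ i, (C' i).Normal] (hle : ∀ i, C' i ≤ center S)
    (hi2 : ∀ i, ∀ z ∈ center S, z ^ 2 ∈ C' i) (hex : ∀ i, ∃ z ∈ center S, z ∉ C' i)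
    (hint : ∀ x ∈ center S, (∀ i, x ∈ C' i) → x = 1)
    (hnc : ∀ i, ¬ IsMulCommutative (S ⧸ C' i)) (huniq : ∀ i, ∃! x : S ⧸ C' i, orderOf x = 2) (i₀ : ι) :
    ∃ Q : Subgroup S, Cfsg.IsInternalDirectProduct (C' i₀) Q ⊤ ∧ ¬ IsMulCommutative Q ∧ ∃! x : Q, orderOf x = 2 := by
  haveI : Fact (Nat.Prime 2) := ⟨Nat.prime_two⟩
  have hZ2 : ∀ z ∈ center S, z ^ 2 = 1 := fun z hz => hint _ (pow_mem hz 2) (fun i => hi2 i z hz)
  have hinvol : ∀ i, ∀ z ∈ center S, z ∉ C' i → orderOf (QuotientGroup.mk z : S ⧸ C' i) = 2 := by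
    intro i z hz hzi
    refine orderOf_eq_prime ?_ ?_
    · rw [← QuotientGroup.mk_pow, QuotientGroup.eq_one_iff]; exact hi2 i z hz
    · rwa [Ne, QuotientGroup.eq_one_iff]
  have hsq : ∀ i, ∀ g : S, (QuotientGroup.mk g : S ⧸ C' i) ^ 2 = 1 → g ∈ center S := by
    intro i g hg
    by_cases hgi : g ∈ C' i
    · exact hle i hgi
    · have h1 : orderOf (QuotientGroup.mk g : S ⧸ C' i) = 2 :=
        orderOf_eq_prime hg (by rwa [Ne, QuotientGroup.eq_one_iff])
      obtain ⟨z, hz, hzi⟩ := hex i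
      have h2 := (huniq i).unique h1 (hinvol i z hz hzi)
      rw [QuotientGroup.eq] at h2
      have h4 : g = z * (g⁻¹ * z)⁻¹ := by group
      rw [h4]
      exact mul_mem hz (inv_mem (hle i h2))
  have hclaim : ∀ g h : S, g ∉ center S → h ∉ center S → g ^ 2 ∈ center S → h ^ 2 ∈ center S → g ^ 2 = h ^ 2 := by
    intro g h hg hh hg2 hh2
    have h1 : (g ^ 2)⁻¹ * h ^ 2 = 1 := by
      apply hint _ (mul_mem (inv_mem hg2) hh2)
      intro i
      have h2 : g ^ 2 ∉ C' i := by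
        intro h3
        apply hg
        apply hsq i
        rw [← QuotientGroup.mk_pow, QuotientGroup.eq_one_iff]; exact h3
      have h3 : h ^ 2 ∉ C' i := by
        intro h3
        apply hh
        apply hsq i
        rw [← QuotientGroup.mk_pow, QuotientGroup.eq_one_iff]; exact h3
      have h4 := (huniq i).unique (hinvol i _ hg2 h2) (hinvol i _ hh2 h3)
      rwa [QuotientGroup.eq] at h4
    exact (inv_mul_eq_one.1 h1)
  obtain ⟨m, ⟨φ⟩⟩ := quaternion_of_existsUnique (hS.to_quotient _) (hnc i₀) (huniq i₀)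
  have hm : m ≠ 0 := by
    rintro rfl
    apply hnc i₀
    haveI : IsCyclic (QuaternionGroup (2 ^ 0)) := by simpa using quaternionGroup_one_isCyclic
    refine ⟨⟨fun u v => φ.injective ?_⟩⟩
    rw [map_mul, map_mul]
    exact mul_comm' _ _
  obtain ⟨k, rfl⟩ : ∃ k, m = k + 1 := ⟨m - 1, by omega⟩
  haveI : NeZero (2 ^ (k + 1)) := ⟨by positivity⟩
  have hne1 : (a ((2 ^ (k + 1) : ℕ) : ZMod (2 * 2 ^ (k + 1))) : QuaternionGroup (2 ^ (k + 1))) ≠ 1 := by
    intro h
    have h1 := xa_sq (n := 2 ^ (k + 1)) 0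
    have h2 := orderOf_xa (n := 2 ^ (k + 1)) 0
    have h3 : (xa 0 : QuaternionGroup (2 ^ (k + 1))) ^ 2 = 1 := by rw [h1]; exact h
    have h4 := orderOf_dvd_of_pow_eq_one h3
    rw [h2] at h4
    omega
  have h2N : ((2 ^ (k + 1) : ℕ) : ZMod (2 * 2 ^ (k + 1))) + ((2 ^ (k + 1) : ℕ) : ZMod (2 * 2 ^ (k + 1))) = 0 := by
    rw [← Nat.cast_add, ← two_mul]
    exact ZMod.natCast_self _
  have hgood : ∀ g : S, φ (QuotientGroup.mk g) ^ 2 = a ((2 ^ (k + 1) : ℕ) : ZMod (2 * 2 ^ (k + 1))) →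
      g ∉ center S ∧ g ^ 2 ∈ center S := by
    intro g hg
    constructor
    · intro hgc
      apply hne1
      rw [← hg, ← map_pow, ← QuotientGroup.mk_pow, hZ2 g hgc]
      simp
    · have hne : (QuotientGroup.mk (g ^ 2) : S ⧸ C' i₀) ≠ 1 := by
        intro h
        apply hne1
        rw [← hg, ← map_pow, ← QuotientGroup.mk_pow, h, map_one]
      have h1 : orderOf (QuotientGroup.mk (g ^ 2) : S ⧸ C' i₀) = 2 := by
        refine orderOf_eq_prime ?_ hne
        apply φ.injective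
        rw [map_pow, QuotientGroup.mk_pow, map_pow, hg, map_one, pow_two, a_mul_a, h2N, a_zero]
      obtain ⟨z, hz, hzi⟩ := hex i₀
      have h2 := (huniq i₀).unique h1 (hinvol i₀ z hz hzi)
      rw [QuotientGroup.eq] at h2
      have h4 : g ^ 2 = z * ((g ^ 2)⁻¹ * z)⁻¹ := by group
      rw [h4]
      exact mul_mem hz (inv_mem (hle i₀ h2))
  obtain ⟨x, hx⟩ := QuotientGroup.mk_surjective (φ.symm (a 1))
  obtain ⟨y, hy⟩ := QuotientGroup.mk_surjective (φ.symm (xa 0))
  have hφx : φ (QuotientGroup.mk x) = a 1 := by rw [hx]; simp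
  have hφy : φ (QuotientGroup.mk y) = xa 0 := by rw [hy]; simp
  have hyg := hgood y (by rw [hφy]; exact xa_sq 0)
  have hxyg := hgood (x * y) (by
    rw [QuotientGroup.mk_mul, map_mul, hφx, hφy, a_mul_xa]; exact xa_sq _)
  have hpg := hgood (x ^ (2 ^ k)) (by
    rw [QuotientGroup.mk_pow, map_pow, hφx, a_one_pow, pow_two, a_mul_a, ← Nat.cast_add, ← two_mul, pow_succ']
    )
  have hr1 : (x * y) ^ 2 = y ^ 2 := hclaim _ _ hxyg.1 hyg.1 hxyg.2 hyg.2
  have hr2 : (x ^ (2 ^ k)) ^ 2 = y ^ 2 := hclaim _ _ hpg.1 hyg.1 hpg.2 hyg.2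
  have hr3 : x * y * x = y := by
    rw [pow_two, pow_two] at hr1
    have h1 : x * y * x * y = y * y := by rw [← hr1]; group
    exact mul_right_cancel h1
  have hr4 : x ^ (2 ^ (k + 1)) = y * y := by
    rw [← pow_two, ← hr2, ← pow_mul, pow_succ]
  have hr5 : x ^ (2 * 2 ^ (k + 1)) = 1 := by
    rw [pow_mul', hr4, ← pow_two]
    exact hZ2 _ hyg.2
  have hne2 : NeZero (2 * 2 ^ (k + 1)) := ⟨by positivity⟩
  have hyx : y * x * y⁻¹ = x⁻¹ := by
    have h1 : y * x = x⁻¹ * y := by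
      calc y * x = (x⁻¹ * (x * y * x)) := by group
        _ = x⁻¹ * y := by rw [hr3]
    rw [h1]; group
  obtain ⟨P, hP⟩ : ∃ P : ZMod (2 * 2 ^ (k + 1)) → S, P = fun i => x ^ i.val := ⟨_, rfl⟩
  have hPv : ∀ i, P i = x ^ i.val := fun i => by rw [hP]
  have hadd : ∀ i j : ZMod (2 * 2 ^ (k + 1)), P (i + j) = P i * P j := by
    intro i j
    rw [hPv, hPv, hPv, ZMod.val_add, ← pow_add, ← pow_eq_pow_mod _ hr5]
  have hzero : P 0 = 1 := by rw [hPv]; simp
  have hneg : ∀ i : ZMod (2 * 2 ^ (k + 1)), P (-i) = (P i)⁻¹ := by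
    intro i
    have := hadd (-i) i
    rw [neg_add_cancel, hzero] at this
    exact eq_inv_of_mul_eq_one_left this.symm
  have hsub : ∀ i j : ZMod (2 * 2 ^ (k + 1)), P (j - i) = (P i)⁻¹ * P j := by
    intro i j
    rw [sub_eq_add_neg, add_comm, hadd, hneg]
  have hconj : ∀ i : ZMod (2 * 2 ^ (k + 1)), P i * y = y * (P i)⁻¹ := by
    intro i
    have h5 : y * P i * y⁻¹ = (P i)⁻¹ := by
      rw [hPv, ← conj_pow, hyx, inv_pow]
    have h6 : y * (P i)⁻¹ * y⁻¹ = P i := by
      have h7 := congrArg (fun t => t⁻¹) h5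
      simp only [mul_inv_rev, inv_inv] at h7
      rw [mul_assoc]
      exact h7
    calc P i * y = (y * (P i)⁻¹ * y⁻¹) * y := by rw [h6]
      _ = y * (P i)⁻¹ := by group
  have hPm : P ((2 ^ (k + 1) : ℕ) : ZMod (2 * 2 ^ (k + 1))) = y * y := by
    rw [hPv, ZMod.val_natCast, Nat.mod_eq_of_lt (by have : 0 < 2 ^ (k + 1) := by positivity
                                                    omega), hr4]
  obtain ⟨ψ, hψa, hψx⟩ : ∃ ψ : QuaternionGroup (2 ^ (k + 1)) →* S, (∀ i, ψ (a i) = P i) ∧ (∀ i, ψ (xa i) = y * P i) := by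
    refine ⟨{ toFun := fun w => match w with
                | QuaternionGroup.a i => P i
                | QuaternionGroup.xa i => y * P i
              map_one' := hzero
              map_mul' := ?_ }, fun i => rfl, fun i => rfl⟩
    rintro (i | i) (j | j)
    · change P (i + j) = P i * P j
      exact hadd i j
    · change y * P (j - i) = P i * (y * P j)
      rw [hsub, ← mul_assoc (P i) y, hconj]; group
    · change y * P (i + j) = y * P i * P j
      rw [hadd, mul_assoc]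
    · change P (((2 ^ (k + 1) : ℕ) : ZMod (2 * 2 ^ (k + 1))) + j - i) = y * P i * (y * P j)
      rw [sub_eq_add_neg, hadd, hadd, hneg, hPm]
      have h8 : y * P i * (y * P j) = y * (P i * y) * P j := by group
      rw [h8, hconj]
      have h9 : P j * (P i)⁻¹ = (P i)⁻¹ * P j := by
        rw [← hneg, ← hadd, ← hadd, add_comm]
      calc y * y * P j * (P i)⁻¹ = y * y * (P j * (P i)⁻¹) := by group
        _ = y * y * ((P i)⁻¹ * P j) := by rw [h9]
        _ = y * (y * (P i)⁻¹) * P j := by group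
  have hφψ : ∀ w, φ (QuotientGroup.mk (ψ w)) = w := by
    rintro (i | i)
    · rw [hψa, hPv, QuotientGroup.mk_pow, map_pow, hφx, a_one_pow]
      simp
    · rw [hψx, hPv, QuotientGroup.mk_mul, QuotientGroup.mk_pow, map_mul, map_pow, hφx, hφy, a_one_pow, xa_mul_a]
      simp
  have hψinj : Function.Injective ψ := by
    intro w₁ w₂ h
    rw [← hφψ w₁, ← hφψ w₂, h]
  obtain ⟨e, he⟩ : ∃ e : ψ.range ≃* S ⧸ C' i₀, ∀ w : QuaternionGroup (2 ^ (k + 1)), e ⟨ψ w, w, rfl⟩ = φ.symm w :=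
    ⟨(MonoidHom.ofInjective hψinj).symm.trans φ.symm, fun w => by
      have : (MonoidHom.ofInjective hψinj).symm ⟨ψ w, w, rfl⟩ = w :=
        (MonoidHom.ofInjective hψinj).symm_apply_apply w
      simp only [MulEquiv.trans_apply, this]⟩
  refine ⟨ψ.range, ⟨le_top, le_top, ?_, ?_, ?_⟩, ?_, ?_⟩
  · intro u hu v _
    exact ((mem_center_iff.1 (hle i₀ hu)) v).symm
  · rw [eq_bot_iff]
    rintro u ⟨hu, w, rfl⟩
    have h1 : (QuotientGroup.mk (ψ w) : S ⧸ C' i₀) = 1 := (QuotientGroup.eq_one_iff _).2 hu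
    have h2 := hφψ w
    rw [h1, map_one] at h2
    rw [← h2, map_one]
    exact one_mem _
  · rw [eq_top_iff]
    intro g _
    obtain ⟨w, hw⟩ : ∃ w, φ.symm w = (QuotientGroup.mk g : S ⧸ C' i₀) := φ.symm.surjective _
    have h1 : (QuotientGroup.mk (ψ w) : S ⧸ C' i₀) = QuotientGroup.mk g := by
      apply φ.injective
      rw [hφψ, ← hw]; simp
    rw [QuotientGroup.eq] at h1
    have h2 : g = ψ w * ((ψ w)⁻¹ * g) := by group
    rw [h2]
    exact mul_mem (mem_sup_right ⟨w, rfl⟩) (mem_sup_left h1)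
  · rintro ⟨⟨h⟩⟩
    apply hnc i₀
    refine ⟨⟨fun u v => e.symm.injective ?_⟩⟩
    rw [map_mul, map_mul]
    exact h _ _
  · obtain ⟨z, hz, hzu⟩ := huniq i₀
    refine ⟨e.symm z, ?_, ?_⟩
    · change orderOf (e.symm z) = 2
      rw [MulEquiv.orderOf_eq]; exact hz
    · intro u hu
      have h1 : orderOf (e u) = 2 := by
        rw [MulEquiv.orderOf_eq]; exact hu
      rw [← hzu _ h1]
      simp


/-- Let S be a finite 2-group whose centre Z(S) has n ≥ 2 distinct maximal subgroups C₁, …, Cₙ with trivial intersection such that each quotient S/Cᵢ is a non-abelian group with exactly one involution (a generalized quaternion group). Then S is the internal direct product of an elementary abelian subgroup and a non-abelian subgroup with exactly one involution. -/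
theorem result {S : Type*} [Group S] [Finite S]
    (hS : IsPGroup 2 S) (n : ℕ) (hn : 2 ≤ n) (C : Fin n → Subgroup ↥(Subgroup.center S))
    (hCmax : ∀ i, IsCoatom (C i)) (hCinj : Function.Injective C) (hCint : ⨅ i, C i = ⊥)
    (hCq : ∀ i, ∃ (_ : ((C i).map (Subgroup.center S).subtype).Normal),
      ¬ IsMulCommutative (S ⧸ (C i).map (Subgroup.center S).subtype) ∧
      ∃! x : S ⧸ (C i).map (Subgroup.center S).subtype, orderOf x = 2) :
    ∃ E Q : Subgroup S, Cfsg.IsInternalDirectProduct E Q ⊤ ∧ Cfsg.IsElementaryAbelian 2 E ∧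
      ¬ IsMulCommutative ↥Q ∧ ∃! x : ↥Q, orderOf x = 2 := by
  have hN : ∀ i, ((C i).map (Subgroup.center S).subtype).Normal := fun i => (hCq i).elim (fun h _ => h)
  have hZp : IsPGroup 2 (Subgroup.center S) := hS.to_subgroup _
  haveI : Fact (Nat.Prime 2) := ⟨Nat.prime_two⟩
  have hle : ∀ i, (C i).map (Subgroup.center S).subtype ≤ Subgroup.center S := fun i => Subgroup.map_subtype_le _
  have hmem : ∀ i, ∀ z (hz : z ∈ Subgroup.center S), z ∈ (C i).map (Subgroup.center S).subtype ↔ (⟨z, hz⟩ : Subgroup.center S) ∈ C i := by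
    intro i z hz
    constructor
    · rintro ⟨w, hw, rfl⟩
      exact hw
    · intro h
      exact ⟨⟨z, hz⟩, h, rfl⟩
  have hi2 : ∀ (i : Fin n), ∀ z ∈ Subgroup.center S, z ^ 2 ∈ (C i).map (Subgroup.center S).subtype := fun i z hz => by
    have h5 := Cfsg.Agent.Lib.Transfer.pow_mem_of_isCoatom hZp (hCmax i) ⟨z, hz⟩
    exact (hmem i _ (pow_mem hz 2)).2 h5
  have hint : ∀ x ∈ Subgroup.center S, (∀ i, x ∈ (C i).map (Subgroup.center S).subtype) → x = 1 := fun x hx hxi => by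
    have h5 : (⟨x, hx⟩ : Subgroup.center S) ∈ ⨅ i, C i := by
      rw [Subgroup.mem_iInf]
      exact fun i => (hmem i x hx).1 (hxi i)
    rw [hCint, Subgroup.mem_bot] at h5
    exact congrArg Subtype.val h5
  obtain ⟨Q, h1, h2, h3⟩ := aux hS (fun i => (C i).map (Subgroup.center S).subtype) hle hi2
    (fun i => by
      obtain ⟨u, hu⟩ := SetLike.exists_not_mem_of_ne_top _ (hCmax i).1 rfl
      exact ⟨u.1, u.2, fun h => hu ((hmem i _ u.2).1 h)⟩)
    hint
    (fun i => (hCq i).choose_spec.1) (fun i => (hCq i).choose_spec.2) ⟨0, by omega⟩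
  refine ⟨_, Q, h1, ⟨⟨⟨?_⟩⟩, ?_⟩, h2, h3⟩
  · intro u v
    apply Subtype.ext
    exact ((Subgroup.mem_center_iff.1 (hle _ u.2)) v).symm
  · intro u hu
    exact hint _ (pow_mem (hle _ hu) 2) (fun i => hi2 i u (hle _ hu))

end Cfsg.Agent.S3201
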