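import Cfsg.Statements.S3202
import Mathlib
import Cfsg.Agent.Lib.Components.QuatQuot

set_option autoImplicit false
open Cfsg

namespace Cfsg.Agent.S3202

open Cfsg.Agent.Lib.Components QuaternionGroup Subgroup
open scoped commutatorElement

theorem main_aux {S : Type*} [Group S] [Finite S] (hS : IsPGroup 2 S) (Dm : Subgroup S) [Dm.Normal]
    (hDc : Dm ≤ center S) (hnc : ¬ IsMulCommutative (S ⧸ Dm)) (huniq : ∃! x : S ⧸ Dm, orderOf x = 2) :
    IsCyclic (commutator S) ∧ commutator S ≠ ⊥ := by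
  obtain ⟨n, ⟨φ⟩⟩ := quaternion_of_existsUnique (hS.to_quotient Dm) hnc huniq
  obtain ⟨x, hx⟩ := QuotientGroup.mk_surjective (φ.symm (a 1))
  obtain ⟨y, hy⟩ := QuotientGroup.mk_surjective (φ.symm (xa 0))
  have hφx : φ (QuotientGroup.mk x) = a 1 := by rw [hx]; simp
  have hφy : φ (QuotientGroup.mk y) = xa 0 := by rw [hy]; simp
  have hcentral : ∀ d ∈ Dm, ∀ g : S, d * g = g * d := fun d hd g =>
    ((mem_center_iff.1 (hDc hd)) g).symm
  have hrep : ∀ g : S, ∃ (e i : ℕ) (d : S), d ∈ Dm ∧ g = y ^ e * x ^ i * d := by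
    intro g
    rcases hg : φ (QuotientGroup.mk g) with i | i
    · refine ⟨0, i.val, (y ^ 0 * x ^ i.val)⁻¹ * g, ?_, by group⟩
      rw [← QuotientGroup.eq_one_iff]
      apply φ.injective
      simp [hφx, hg, a_one_pow]
    · refine ⟨1, i.val, (y ^ 1 * x ^ i.val)⁻¹ * g, ?_, by group⟩
      rw [← QuotientGroup.eq_one_iff]
      apply φ.injective
      have h5 : φ ((QuotientGroup.mk ((y ^ 1 * x ^ i.val)⁻¹ * g) : S ⧸ Dm)) = (φ (QuotientGroup.mk y) * (φ (QuotientGroup.mk x)) ^ i.val)⁻¹ * φ (QuotientGroup.mk g) := by simp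
      rw [h5, hφx, hφy, hg, a_one_pow]
      simp [xa_mul_a]
  obtain ⟨d₀, hd₀⟩ : ∃ d₀, d₀ = y * x * y⁻¹ * x := ⟨_, rfl⟩
  have hd₀m : d₀ ∈ Dm := by
    rw [← QuotientGroup.eq_one_iff, hd₀]
    apply φ.injective
    have h2 : ((2 ^ n : ℕ) : ZMod (2 * 2 ^ n)) + ((2 ^ n : ℕ) : ZMod (2 * 2 ^ n)) = 0 := by
      rw [← Nat.cast_add, ← two_mul]
      exact ZMod.natCast_self _
    have h3 : (xa 0 : QuaternionGroup (2 ^ n))⁻¹ = xa (((2 ^ n : ℕ) : ZMod (2 * 2 ^ n))) := by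
      apply inv_eq_of_mul_eq_one_right
      rw [xa_mul_xa, sub_zero, h2, a_zero]
    have h4 : φ ((QuotientGroup.mk (y * x * y⁻¹ * x) : S ⧸ Dm)) = φ (QuotientGroup.mk y) * φ (QuotientGroup.mk x) * (φ (QuotientGroup.mk y))⁻¹ * φ (QuotientGroup.mk x) := by simp
    rw [h4, hφx, hφy, h3, xa_mul_a, xa_mul_xa, a_mul_a, map_one]
    rw [← a_zero]
    congr 1
    have h6 : ((2 ^ n : ℕ) : ZMod (2 * 2 ^ n)) + ((2 ^ n : ℕ) : ZMod (2 * 2 ^ n)) - (0 + 1) + 1 = ((2 ^ n : ℕ) : ZMod (2 * 2 ^ n)) + ((2 ^ n : ℕ) : ZMod (2 * 2 ^ n)) := by ring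
    rw [h6, h2]
  obtain ⟨c, hc⟩ : ∃ c, c = x * y * x⁻¹ * y⁻¹ := ⟨_, rfl⟩
  have hyx : y * x * y⁻¹ = d₀ * x⁻¹ := by
    rw [hd₀]; group
  have hc2 : c = x * x * d₀⁻¹ := by
    have h7 : y * x⁻¹ * y⁻¹ = x * d₀⁻¹ := by
      have h8 : y * x⁻¹ * y⁻¹ = (y * x * y⁻¹)⁻¹ := by group
      rw [h8, hyx]
      group
    have h9 : c = x * (y * x⁻¹ * y⁻¹) := by rw [hc]; group
    rw [h9, h7]; group
  have hci : ∀ d ∈ Dm, ∀ g : S, d⁻¹ * g = g * d⁻¹ := fun d hd g => hcentral d⁻¹ (inv_mem hd) g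
  have hxc : Commute x c := by
    change x * c = c * x
    rw [hc2]
    calc x * (x * x * d₀⁻¹) = x * x * x * d₀⁻¹ := by group
      _ = x * x * (x * d₀⁻¹) := by group
      _ = x * x * (d₀⁻¹ * x) := by rw [hci d₀ hd₀m x]
      _ = x * x * d₀⁻¹ * x := by group
  have hyc : y * c * y⁻¹ = c⁻¹ := by
    have h10 : y * d₀⁻¹ * y⁻¹ = d₀⁻¹ := by
      rw [← hci d₀ hd₀m y]; group
    have h11 : y * c * y⁻¹ = (y * x * y⁻¹) * (y * x * y⁻¹) * (y * d₀⁻¹ * y⁻¹) := by
      rw [hc2]; group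
    rw [h11, h10, hyx, hc2]
    have h12 : d₀ * x⁻¹ = x⁻¹ * d₀ := hcentral d₀ hd₀m _
    calc d₀ * x⁻¹ * (d₀ * x⁻¹) * d₀⁻¹ = d₀ * x⁻¹ * (x⁻¹ * d₀) * d₀⁻¹ := by rw [h12]
      _ = (x * x * d₀⁻¹)⁻¹ := by group
  have hconjy : ∀ e : ℕ, ∃ k : ℤ, y ^ e * c * (y ^ e)⁻¹ = c ^ k := by
    intro e
    induction e with
    | zero => exact ⟨1, by simp⟩
    | succ e ih =>
      obtain ⟨k, hk⟩ := ih
      refine ⟨-k, ?_⟩
      have h13 : y ^ (e + 1) * c * (y ^ (e + 1))⁻¹ = y * (y ^ e * c * (y ^ e)⁻¹) * y⁻¹ := by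
        rw [pow_succ']; group
      rw [h13, hk, ← conj_zpow, hyc, inv_zpow, zpow_neg]
  have hconj : ∀ g : S, ∃ k : ℤ, g * c * g⁻¹ = c ^ k := by
    intro g
    obtain ⟨e, i, d, hd, rfl⟩ := hrep g
    obtain ⟨k, hk⟩ := hconjy e
    refine ⟨k, ?_⟩
    have h14 : x ^ i * c * (x ^ i)⁻¹ = c := by
      have := (hxc.pow_left i).eq
      rw [this]; group
    have h15 : d * c * d⁻¹ = c := by
      rw [hcentral d hd c]; group
    calc y ^ e * x ^ i * d * c * (y ^ e * x ^ i * d)⁻¹ = y ^ e * (x ^ i * (d * c * d⁻¹) * (x ^ i)⁻¹) * (y ^ e)⁻¹ := by group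
      _ = c ^ k := by rw [h15, h14, hk]
  have hT : (zpowers c).Normal := by
    constructor
    intro t ht g
    obtain ⟨m, rfl⟩ := mem_zpowers_iff.1 ht
    obtain ⟨k, hk⟩ := hconj g
    rw [← conj_zpow, hk, ← zpow_mul]
    exact zpow_mem (mem_zpowers c) _ 
  have hle : commutator S ≤ zpowers c := by
    rw [_root_.commutator_def, Subgroup.commutator_le]
    intro g₁ _ g₂ _
    rw [← QuotientGroup.eq_one_iff]
    have hcT : (QuotientGroup.mk' (zpowers c)) c = 1 := by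
      rw [QuotientGroup.mk'_apply, QuotientGroup.eq_one_iff]; exact mem_zpowers c
    obtain ⟨π, hπ⟩ : ∃ π, π = QuotientGroup.mk' (zpowers c) := ⟨_, rfl⟩
    rw [← hπ] at hcT
    have hxy : Commute (π x) (π y) := by
      rw [← commutatorElement_eq_one_iff_commute, ← map_commutatorElement, commutatorElement_def, ← hc]
      exact hcT
    have hdg : ∀ d ∈ Dm, ∀ g : S, Commute (π d) (π g) := fun d hd g =>
      Commute.map (show Commute d g from hcentral d hd g) π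
    have hgg : Commute (π g₁) (π g₂) := by
      obtain ⟨e, i, d, hd, rfl⟩ := hrep g₁
      obtain ⟨f, j, d', hd', rfl⟩ := hrep g₂
      simp only [map_mul, map_pow]
      have a1 : Commute ((π y) ^ e) ((π y) ^ f) := (Commute.refl _).pow_pow _ _
      have a2 : Commute ((π y) ^ e) ((π x) ^ j) := hxy.symm.pow_pow _ _
      have a3 : Commute ((π x) ^ i) ((π y) ^ f) := hxy.pow_pow _ _
      have a4 : Commute ((π x) ^ i) ((π x) ^ j) := (Commute.refl _).pow_pow _ _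
      have a5 : ∀ g : S, Commute (π d) (π g) := hdg d hd
      have a6 : ∀ g : S, Commute (π d') (π g) := hdg d' hd'
      have a7 : ∀ (g : S) (k : ℕ), Commute (π d) ((π g) ^ k) := fun g k => (a5 g).pow_right k
      have a8 : ∀ (g : S) (k : ℕ), Commute (π d') ((π g) ^ k) := fun g k => (a6 g).pow_right k
      refine Commute.mul_left (Commute.mul_left ?_ ?_) ?_
      · exact Commute.mul_right (Commute.mul_right a1 a2) (a8 y e).symm
      · exact Commute.mul_right (Commute.mul_right a3 a4) (a8 x i).symm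
      · exact Commute.mul_right (Commute.mul_right (a7 y f) (a7 x j)) (a5 d')
    have h := commutatorElement_eq_one_iff_commute.2 hgg
    rw [← map_commutatorElement, hπ] at h
    exact h
  refine ⟨Subgroup.isCyclic_of_le hle, ?_⟩
  intro hbot
  apply hnc
  refine ⟨⟨?_⟩⟩
  intro a₁ b₁
  obtain ⟨a₂, rfl⟩ := QuotientGroup.mk_surjective a₁
  obtain ⟨b₂, rfl⟩ := QuotientGroup.mk_surjective b₁
  have h16 : ⁅a₂, b₂⁆ ∈ commutator S := by
    rw [_root_.commutator_def]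
    exact Subgroup.commutator_mem_commutator (mem_top _) (mem_top _)
  rw [hbot, mem_bot] at h16
  have h17 : a₂ * b₂ = b₂ * a₂ := commutatorElement_eq_one_iff_mul_comm.1 h16
  rw [← QuotientGroup.mk_mul, h17, QuotientGroup.mk_mul]


/-- Let S be a finite 2-group of 2-rank exactly 2 and D a maximal subgroup of the centre of S such that S/D is a non-abelian group with exactly one involution (a generalized quaternion group). Then S has a nontrivial cyclic characteristic subgroup. -/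
theorem result {S : Type*} [Group S]
    [Finite S] (hS : IsPGroup 2 S) (hr2 : Cfsg.PRankLE 2 2 S) (hr1 : ¬ Cfsg.PRankLE 2 1 S)
    (D : Subgroup ↥(Subgroup.center S)) (hD : IsCoatom D)
    (hq : ∃ (_ : (D.map (Subgroup.center S).subtype).Normal),
      ¬ IsMulCommutative (S ⧸ D.map (Subgroup.center S).subtype) ∧
      ∃! x : S ⧸ D.map (Subgroup.center S).subtype, orderOf x = 2) :
    ∃ C : Subgroup S, C ≠ ⊥ ∧ IsCyclic ↥C ∧ C.Characteristic := by
  obtain ⟨hN, hnc, huniq⟩ := hq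
  obtain ⟨h1, h2⟩ := main_aux hS _ (Subgroup.map_subtype_le D) hnc huniq
  exact ⟨commutator S, h2, h1, inferInstance⟩

end Cfsg.Agent.S3202
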