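import Cfsg.Statements.S3208
import Mathlib
import Cfsg.Agent.Lib.Coprime.Sylow
import Cfsg.Agent.Lib.Components.Local2

set_option autoImplicit false
open Cfsg

namespace Cfsg.Agent.S3208

theorem conj_centralizes {G : Type*} [Group G] {T : Subgroup G} {j x : G} (hj : orderOf j = 2) (hjT : j ∈ T)
    (hchar : ((Subgroup.zpowers j).subgroupOf T).Characteristic)
    (hx : x ∈ Subgroup.normalizer (T : Set G)) : x * j * x⁻¹ = j := by
  have hxT : ∀ t : G, t ∈ T ↔ x * t * x⁻¹ ∈ T := fun t => by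
    have := Subgroup.mem_normalizer_iff.mp hx t
    simpa using this
  -- conjugation automorphism of T
  let φ : T ≃* T :=
    { toFun := fun t => ⟨x * t * x⁻¹, (hxT t).mp t.2⟩
      invFun := fun t => ⟨x⁻¹ * t * x, by
        rw [hxT]; simpa [mul_assoc] using t.2⟩
      left_inv := fun t => by ext; simp [mul_assoc]
      right_inv := fun t => by ext; simp [mul_assoc]
      map_mul' := fun a b => by ext; simp [mul_assoc] }
  have hc := (Subgroup.characteristic_iff_map_eq.mp hchar) φ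
  have hmem : (⟨j, hjT⟩ : T) ∈ (Subgroup.zpowers j).subgroupOf T := by
    rw [Subgroup.mem_subgroupOf]; exact Subgroup.mem_zpowers j
  have h1 : φ ⟨j, hjT⟩ ∈ (Subgroup.zpowers j).subgroupOf T := by
    rw [← hc]; exact ⟨_, hmem, rfl⟩
  rw [Subgroup.mem_subgroupOf] at h1
  have h2 : x * j * x⁻¹ ∈ Subgroup.zpowers j := h1
  -- zpowers j = {1, j}
  have hj2 : j ^ 2 = 1 := by rw [← hj]; exact pow_orderOf_eq_one j
  obtain ⟨k, hk⟩ := Subgroup.mem_zpowers_iff.mp h2
  rcases Int.emod_two_eq_zero_or_one k with h | h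
  · have : j ^ k = 1 := by
      obtain ⟨m, rfl⟩ : (2:ℤ) ∣ k := Int.dvd_of_emod_eq_zero h
      rw [zpow_mul]; simp [hj2]
    rw [this] at hk
    exfalso
    have : j = 1 := by
      have := hk.symm
      have h3 : x * j = x := by
        have := congrArg (· * x) this
        simpa [mul_assoc] using this
      simpa using h3
    rw [this] at hj; simp at hj
  · have : j ^ k = j := by
      have hk' : k = 2 * (k / 2) + 1 := by omega
      rw [hk', zpow_add, zpow_mul]; simp [hj2]
    rw [← hk, this]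

theorem exists_isSylowOf_ge' {X : Type*} [Group X] [Finite X] {p : ℕ} [Fact p.Prime] {T H : Subgroup X}
    (hTH : T ≤ H) (hT : IsPGroup p T) : ∃ P, Cfsg.Agent.Lib.Coprime.IsSylowOf p P H ∧ T ≤ P := by
  have hca : Cfsg.Agent.Lib.Coprime.CoprimeAction (⊥ : Subgroup X) H :=
    ⟨by simp, by simp, Or.inl inferInstance⟩
  obtain ⟨P, hP, -, hTP⟩ := hca.exists_invariant_sylow_ge hTH hT (by simp)
  exact ⟨P, hP, hTP⟩


/-- Let j be an involution of a finite group G, H a subgroup of G, and T a Sylow 2-subgroup of H ∩ C_G(j) containing j such that ⟨j⟩ is a characteristic subgroup of T. Then T is a Sylow 2-subgroup of H. -/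
theorem result {G : Type*} [Group G] [Finite G]
    (j : G) (hj : orderOf j = 2) (H T : Subgroup G) (hT : T ≤ H ⊓ Subgroup.centralizer ({j} : Set G)) (h2 : IsPGroup 2 ↥T)
    (hSyl : ¬ 2 ∣ T.relIndex (H ⊓ Subgroup.centralizer ({j} : Set G))) (hjT : j ∈ T)
    (hchar : ((Subgroup.zpowers j).subgroupOf T).Characteristic) :
    ¬ 2 ∣ T.relIndex H := by
  classical
  intro hdvd
  haveI : Fact (Nat.Prime 2) := ⟨Nat.prime_two⟩
  have hTH : T ≤ H := hT.trans inf_le_left
  obtain ⟨P, hP, hTP⟩ := exists_isSylowOf_ge' hTH h2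
  have hlt : T < P := by
    refine lt_of_le_of_ne hTP ?_
    rintro rfl
    exact hP.not_dvd hdvd
  obtain ⟨x, hx, hxT⟩ := SetLike.exists_of_lt (Cfsg.Agent.Lib.Components.lt_inf_normalizer hP.isP hlt)
  have hxP := (Subgroup.mem_inf.mp hx).1
  have hxN := (Subgroup.mem_inf.mp hx).2
  have hc := conj_centralizes hj hjT hchar hxN
  -- T ⊓ centralizer is all; Q := P ⊓ N(T) ⊓ C(j) ⊓ H
  have hQ : IsPGroup 2 ↥(P ⊓ Subgroup.centralizer ({j} : Set G)) := hP.isP.to_le inf_le_left
  have hT2 : T ≤ P ⊓ Subgroup.centralizer ({j} : Set G) := le_inf hTP (hT.trans inf_le_right)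
  have hle : P ⊓ Subgroup.centralizer ({j} : Set G) ≤ H ⊓ Subgroup.centralizer ({j} : Set G) :=
    inf_le_inf_right _ hP.le
  have heq := Cfsg.Agent.Lib.Coprime.eq_of_isPGroup_of_not_dvd_relIndex hT2 hle hQ hSyl
  apply hxT
  rw [← heq]
  refine Subgroup.mem_inf.mpr ⟨hxP, ?_⟩
  rw [Subgroup.mem_centralizer_singleton_iff]
  calc x * j = x * j * x⁻¹ * x := by group
    _ = j * x := by rw [hc]

end Cfsg.Agent.S3208
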