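import Cfsg.Statements.S3209
import Mathlib
import Cfsg.Agent.Lib.Components.SL2Pair
import Cfsg.Agent.Lib.Components.Quasi

set_option autoImplicit false
open Cfsg

namespace Cfsg.Agent.S3209

open Cfsg.Agent.Lib.Components

open Cfsg.Agent.Lib.Components.SL2


/-- Let L₁ ≅ SL₂(q₁) and L₂ ≅ SL₂(q₂), q₁ and q₂ odd, be elementwise-commuting subgroups of a finite group meeting in ⟨j⟩ for an involution j. Then L₁L₂ has exactly two conjugacy classes of involutions: the central involution j, and one further class (there is an involution x ≠ j in L₁L₂, and every involution of L₁L₂ other than j is conjugate to x by an element of L₁L₂). -/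
theorem result {G : Type*} [Group G] [Finite G]
    {F₁ : Type*} [Field F₁] [Fintype F₁] {F₂ : Type*} [Field F₂] [Fintype F₂]
    (hF₁ : Odd (Fintype.card F₁)) (hF₂ : Odd (Fintype.card F₂)) (L₁ L₂ : Subgroup G)
    (e₁ : ↥L₁ ≃* Matrix.SpecialLinearGroup (Fin 2) F₁) (e₂ : ↥L₂ ≃* Matrix.SpecialLinearGroup (Fin 2) F₂)
    (hc : ∀ x ∈ L₁, ∀ y ∈ L₂, x * y = y * x) (j : G) (hj : orderOf j = 2) (hm : L₁ ⊓ L₂ = Subgroup.zpowers j) :
    ∃ x ∈ L₁ ⊔ L₂, orderOf x = 2 ∧ x ≠ j ∧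
      ∀ y ∈ L₁ ⊔ L₂, orderOf y = 2 → y = j ∨ ∃ g ∈ L₁ ⊔ L₂, g * x * g⁻¹ = y := by
  have hjm : j ∈ L₁ ⊓ L₂ := by rw [hm]; exact Subgroup.mem_zpowers j
  have hj1 : j ∈ L₁ := hjm.1
  have hj2 : j ∈ L₂ := hjm.2
  have hjj : j * j = 1 := by rw [← pow_two, ← hj]; exact pow_orderOf_eq_one j
  have hne : j ≠ 1 := by
    intro h
    rw [h, orderOf_one] at hj
    omega
  obtain ⟨l₁, hl₁, hl₁s⟩ := side_c hF₁ L₁ e₁ j hj1 hj
  obtain ⟨l₂, hl₂, hl₂s⟩ := side_c hF₂ L₂ e₂ j hj2 hj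
  have hxx : (l₁ * l₂) * (l₁ * l₂) = 1 := by
    calc (l₁ * l₂) * (l₁ * l₂) = l₁ * (l₂ * l₁) * l₂ := by group
      _ = l₁ * (l₁ * l₂) * l₂ := by rw [hc l₁ hl₁ l₂ hl₂]
      _ = (l₁ * l₁) * (l₂ * l₂) := by group
      _ = 1 := by rw [hl₁s, hl₂s, hjj]
  have hnot : ∀ u : G, u ∈ L₁ → l₂ ≠ u := by
    intro u hu h
    rw [← h] at hu
    have h3 : l₂ ∈ L₁ ⊓ L₂ := ⟨hu, hl₂⟩
    rw [hm] at h3
    rcases mem_zpowers_invol hj h3 with h4 | h4
    · rw [h4] at hl₂s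
      exact hne (by rw [← hl₂s]; simp)
    · rw [h4, hjj] at hl₂s
      exact hne hl₂s.symm
  have hx1 : l₁ * l₂ ≠ 1 := by
    intro h
    exact hnot l₁⁻¹ (inv_mem hl₁) (eq_inv_of_mul_eq_one_right h)
  have hxj : l₁ * l₂ ≠ j := by
    intro h
    apply hnot (l₁⁻¹ * j) (mul_mem (inv_mem hl₁) hj1)
    rw [← h]; group
  haveI : Fact (Nat.Prime 2) := ⟨Nat.prime_two⟩
  refine ⟨l₁ * l₂, mul_mem (Subgroup.mem_sup_left hl₁) (Subgroup.mem_sup_right hl₂),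
    orderOf_eq_prime (by rw [pow_two]; exact hxx) hx1, hxj, ?_⟩
  intro y hy hyo
  have hnorm : L₂ ≤ Subgroup.normalizer (L₁ : Set G) := by
    intro b hb
    rw [Subgroup.mem_normalizer_iff]
    intro h
    constructor
    · intro hh
      have : b * h * b⁻¹ = h := by rw [← hc h hh b hb]; group
      rwa [this]
    · intro hh
      have h3 : b * h * b⁻¹ * b = b * h := by group
      have h4 := hc _ hh b hb
      have h5 : b * (b * h * b⁻¹) = b * h := h4.symm.trans h3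
      have h6 := mul_left_cancel h5
      rwa [← h6]
  obtain ⟨a, ha, b, hb, rfl⟩ := exists_mul_of_mem_sup_of_le_normalizer hnorm hy
  have hcab : a * b = b * a := hc a ha b hb
  have hsq : (a * a) * (b * b) = 1 := by
    have h3 : (a * b) ^ 2 = 1 := by rw [← hyo]; exact pow_orderOf_eq_one _
    rw [pow_two] at h3
    rw [← h3]
    calc (a * a) * (b * b) = a * (a * b) * b := by group
      _ = a * (b * a) * b := by rw [hcab]
      _ = (a * b) * (a * b) := by group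
  have hmemaa : a * a ∈ L₁ ⊓ L₂ := by
    refine Subgroup.mem_inf.2 ⟨mul_mem ha ha, ?_⟩
    have : a * a = (b * b)⁻¹ := eq_inv_of_mul_eq_one_left hsq
    rw [this]
    exact inv_mem (mul_mem hb hb)
  rw [hm] at hmemaa
  have hy1 : a * b ≠ 1 := by
    intro h
    rw [h, orderOf_one] at hyo
    omega
  rcases mem_zpowers_invol hj hmemaa with h3 | h3
  · left
    have h4 : b * b = 1 := by rw [h3, one_mul] at hsq; exact hsq
    rcases side_b hF₁ L₁ e₁ j hj1 hj a ha h3 with h5 | h5 <;>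
      rcases side_b hF₂ L₂ e₂ j hj2 hj b hb h4 with h6 | h6 <;> rw [h5, h6] at hy1 ⊢
    · exact absurd (one_mul 1) hy1
    · exact one_mul _
    · exact mul_one _
    · exact absurd hjj hy1
  · right
    have h4 : b * b = j := by
      have h5 : j * (b * b) = 1 := by rw [← h3]; exact hsq
      have h6 : b * b = j⁻¹ := eq_inv_of_mul_eq_one_right h5
      rw [h6]
      exact inv_eq_of_mul_eq_one_left hjj
    obtain ⟨c₁, hc₁, hc₁a⟩ := side_d hF₁ L₁ e₁ j hj1 hj l₁ a hl₁ ha hl₁s h3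
    obtain ⟨c₂, hc₂, hc₂b⟩ := side_d hF₂ L₂ e₂ j hj2 hj l₂ b hl₂ hb hl₂s h4
    refine ⟨c₁ * c₂, mul_mem (Subgroup.mem_sup_left hc₁) (Subgroup.mem_sup_right hc₂), ?_⟩
    rw [← hc₁a, ← hc₂b]
    have h5 : c₂ * l₁ = l₁ * c₂ := (hc l₁ hl₁ c₂ hc₂).symm
    have hB : c₂ * l₂ * c₂⁻¹ ∈ L₂ := mul_mem (mul_mem hc₂ hl₂) (inv_mem hc₂)
    calc c₁ * c₂ * (l₁ * l₂) * (c₁ * c₂)⁻¹ = c₁ * (c₂ * l₁) * l₂ * c₂⁻¹ * c₁⁻¹ := by group
      _ = c₁ * (l₁ * c₂) * l₂ * c₂⁻¹ * c₁⁻¹ := by rw [h5]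
      _ = c₁ * l₁ * ((c₂ * l₂ * c₂⁻¹) * c₁⁻¹) := by group
      _ = c₁ * l₁ * (c₁⁻¹ * (c₂ * l₂ * c₂⁻¹)) := by rw [hc c₁⁻¹ (inv_mem hc₁) _ hB]
      _ = c₁ * l₁ * c₁⁻¹ * (c₂ * l₂ * c₂⁻¹) := by group

end Cfsg.Agent.S3209
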