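import Cfsg.Statements.S3210
import Mathlib
import Cfsg.Agent.Lib.Components.SL2Pair
import Cfsg.Agent.Lib.Components.Quasi
import Cfsg.Agent.Lib.Classical.Card

set_option autoImplicit false
open Cfsg

namespace Cfsg.Agent.S3210

open Cfsg.Agent.Lib.Components Cfsg.Agent.Lib.Components.SL2 Subgroup

section aux

variable {G : Type*} [Group G]

theorem norm_of_comm {L₁ L₂ : Subgroup G} (hc : ∀ x ∈ L₁, ∀ y ∈ L₂, x * y = y * x) :
    L₂ ≤ normalizer (L₁ : Set G) := by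
  intro b hb
  rw [mem_normalizer_iff]
  intro h
  constructor
  · intro hh
    have : b * h * b⁻¹ = h := by rw [← hc h hh b hb]; group
    rwa [this]
  · intro hh
    have h3 : b * h * b⁻¹ * b = b * h := by group
    have h4 := hc _ hh b hb
    have h5 : b * (b * h * b⁻¹) = b * h := h4.symm.trans h3
    have h6 := mul_left_cancel h5
    rwa [← h6]

theorem sup_le_norm {L₁ L₂ : Subgroup G} (hc : ∀ x ∈ L₁, ∀ y ∈ L₂, x * y = y * x) :
    L₁ ⊔ L₂ ≤ normalizer (L₁ : Set G) :=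
  sup_le Subgroup.le_normalizer (norm_of_comm hc)

variable {F : Type*} [Field F] [Fintype F]

/-- the projection on the second factor -/
def pr {L₁ L₂ : Subgroup G} (e₂ : ↥L₂ ≃* Matrix.SpecialLinearGroup (Fin 2) F) (W : Subgroup G) :
    Subgroup (Matrix.SpecialLinearGroup (Fin 2) F) :=
  ((L₁ ⊔ W).subgroupOf L₂).map e₂.toMonoidHom

theorem le_of_pr {L₁ L₂ : Subgroup G} (hF : Odd (Fintype.card F)) (e₂ : ↥L₂ ≃* Matrix.SpecialLinearGroup (Fin 2) F)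
    (hc : ∀ x ∈ L₁, ∀ y ∈ L₂, x * y = y * x) {j : G} (hj : orderOf j = 2) (hjL : j ∈ L₁) (hjL2 : j ∈ L₂)
    {W : Subgroup G} (hW : W ≤ L₁ ⊔ L₂) (h : ∀ a ∈ pr (L₁ := L₁) e₂ W, a = 1 ∨ a = mI) : W ≤ L₁ := by
  intro y hy
  obtain ⟨l, hl, m, hm, rfl⟩ := exists_mul_of_mem_sup_of_le_normalizer (norm_of_comm hc) (hW hy)
  have h1 : (⟨m, hm⟩ : L₂) ∈ (L₁ ⊔ W).subgroupOf L₂ := by
    rw [mem_subgroupOf]
    have h2 : m = l⁻¹ * (l * m) := by group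
    change m ∈ L₁ ⊔ W
    rw [h2]
    exact mul_mem (mem_sup_left (inv_mem hl)) (mem_sup_right hy)
  have h3 := h _ (mem_map_of_mem _ h1)
  refine mul_mem hl ?_
  rcases h3 with h3 | h3
  · have h4 : (⟨m, hm⟩ : L₂) = 1 := e₂.injective (by rw [map_one]; exact h3)
    have h5 : m = 1 := congrArg Subtype.val h4
    rw [h5]; exact one_mem _
  · have h4 : (⟨m, hm⟩ : L₂) = ⟨j, hjL2⟩ := e₂.injective (by rw [side_a hF L₂ e₂ j hjL2 hj]; exact h3)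
    have h5 : m = j := congrArg Subtype.val h4
    rw [h5]; exact hjL

theorem proj {L₁ L₂ : Subgroup G} (hF : Odd (Fintype.card F)) (e₂ : ↥L₂ ≃* Matrix.SpecialLinearGroup (Fin 2) F)
    (hc : ∀ x ∈ L₁, ∀ y ∈ L₂, x * y = y * x) {j : G} (hj : orderOf j = 2) (hm : L₁ ⊓ L₂ = zpowers j)
    {Y Z : Subgroup G} (hY : Y ≤ L₁ ⊔ L₂) (hZ : Z ≤ L₁ ⊔ L₂) (hYZ : ∀ y ∈ Y, ∀ z ∈ Z, y * z = z * y)
    (hgen : ∀ x ∈ L₁ ⊔ L₂, ∃ y ∈ Y, ∃ z ∈ Z, x = y * z) : Y ≤ L₁ ∨ Z ≤ L₁ := by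
  have h2 := two_ne_zero_of_odd hF
  have hjm : j ∈ L₁ ⊓ L₂ := by rw [hm]; exact mem_zpowers j
  have hjL : j ∈ L₁ := (mem_inf.1 hjm).1
  have hjL2 : j ∈ L₂ := (mem_inf.1 hjm).2
  have hYn : Y ≤ normalizer (L₁ : Set G) := hY.trans (sup_le_norm hc)
  have hZn : Z ≤ normalizer (L₁ : Set G) := hZ.trans (sup_le_norm hc)
  have hdec : ∀ x ∈ L₁ ⊔ L₂, ∃ a ∈ L₁, ∃ b ∈ L₂, x = a * b := fun x hx =>
    exists_mul_of_mem_sup_of_le_normalizer (norm_of_comm hc) hx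
  have hcen : ∀ c ∈ L₁, ∀ c' ∈ L₂, c = c' → c = 1 ∨ c = j := by
    intro c hc1 c' hc2 hcc
    rw [← hcc] at hc2
    have h3 : c ∈ L₁ ⊓ L₂ := mem_inf.2 ⟨hc1, hc2⟩
    rw [hm] at h3
    exact mem_zpowers_invol hj h3
  have hfac := factor_central h2 (pr (L₁ := L₁) e₂ Y) (pr (L₁ := L₁) e₂ Z) ?_ ?_
  · rcases hfac with h3 | h3
    · exact Or.inl (le_of_pr hF e₂ hc hj hjL hjL2 hY h3)
    · exact Or.inr (le_of_pr hF e₂ hc hj hjL hjL2 hZ h3)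
  · intro g
    have hm0 : ((e₂.symm g : L₂) : G) ∈ L₁ ⊔ L₂ := mem_sup_right (e₂.symm g).2
    obtain ⟨y, hy, z, hz, hyz⟩ := hgen _ hm0
    obtain ⟨l₁, hl₁, m₁, hm₁, rfl⟩ := hdec y (hY hy)
    obtain ⟨l₂, hl₂, m₂, hm₂, rfl⟩ := hdec z (hZ hz)
    have hε : ((e₂.symm g : L₂) : G) = (l₁ * l₂ * m₁) * m₂ := by
      rw [hyz]
      calc l₁ * m₁ * (l₂ * m₂) = l₁ * (m₁ * l₂) * m₂ := by group
        _ = l₁ * (l₂ * m₁) * m₂ := by rw [hc l₂ hl₂ m₁ hm₁]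
        _ = _ := by group
    have hεL2 : l₁ * l₂ ∈ L₂ := by
      have h3 : l₁ * l₂ = ((e₂.symm g : L₂) : G) * (m₁ * m₂)⁻¹ := by
        rw [hε]; group
      rw [h3]
      exact mul_mem (e₂.symm g).2 (inv_mem (mul_mem hm₁ hm₂))
    refine ⟨e₂ ⟨l₁ * l₂ * m₁, mul_mem hεL2 hm₁⟩, mem_map_of_mem _ ?_, e₂ ⟨m₂, hm₂⟩, mem_map_of_mem _ ?_, ?_⟩
    · rw [mem_subgroupOf]
      change l₁ * l₂ * m₁ ∈ L₁ ⊔ Y
      have h3 : l₁ * l₂ * m₁ = l₁ * l₂ * l₁⁻¹ * (l₁ * m₁) := by group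
      rw [h3]
      exact mul_mem (mem_sup_left (mul_mem (mul_mem hl₁ hl₂) (inv_mem hl₁))) (mem_sup_right hy)
    · rw [mem_subgroupOf]
      change m₂ ∈ L₁ ⊔ Z
      have h3 : m₂ = l₂⁻¹ * (l₂ * m₂) := by group
      rw [h3]
      exact mul_mem (mem_sup_left (inv_mem hl₂)) (mem_sup_right hz)
    · rw [← map_mul]
      have h3 : (⟨l₁ * l₂ * m₁, mul_mem hεL2 hm₁⟩ : L₂) * ⟨m₂, hm₂⟩ = e₂.symm g := by
        apply Subtype.ext
        exact hε.symm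
      rw [h3]; simp
  · rintro _ ⟨⟨m, hm'⟩, hmA, rfl⟩ _ ⟨⟨m', hm''⟩, hmB, rfl⟩
    have hmA' : m ∈ L₁ ⊔ Y := hmA
    have hmB' : m' ∈ L₁ ⊔ Z := hmB
    obtain ⟨l, hl, y, hy, hly⟩ := exists_mul_of_mem_sup_of_le_normalizer hYn hmA'
    obtain ⟨l', hl', z, hz, hlz⟩ := exists_mul_of_mem_sup_of_le_normalizer hZn hmB'
    change m = l * y at hly
    change m' = l' * z at hlz
    have hyz := hYZ y hy z hz
    have hy' : y = l⁻¹ * m := by rw [hly]; group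
    have hz' : z = l'⁻¹ * m' := by rw [hlz]; group
    rw [hy', hz'] at hyz
    have hcomm1 : m * l'⁻¹ = l'⁻¹ * m := (hc _ (inv_mem hl') m hm').symm
    have hcomm2 : m' * l⁻¹ = l⁻¹ * m' := (hc _ (inv_mem hl) m' hm'').symm
    have h3 : (l⁻¹ * l'⁻¹) * (m * m') = (l'⁻¹ * l⁻¹) * (m' * m) := by
      calc (l⁻¹ * l'⁻¹) * (m * m') = l⁻¹ * (l'⁻¹ * m) * m' := by group
        _ = l⁻¹ * (m * l'⁻¹) * m' := by rw [hcomm1]
        _ = l⁻¹ * m * (l'⁻¹ * m') := by group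
        _ = l'⁻¹ * m' * (l⁻¹ * m) := hyz
        _ = l'⁻¹ * (m' * l⁻¹) * m := by group
        _ = l'⁻¹ * (l⁻¹ * m') * m := by rw [hcomm2]
        _ = _ := by group
    obtain ⟨c, hcdef⟩ : ∃ c, c = (l⁻¹ * l'⁻¹)⁻¹ * (l'⁻¹ * l⁻¹) := ⟨_, rfl⟩
    have hcL1 : c ∈ L₁ := by
      rw [hcdef]
      exact mul_mem (inv_mem (mul_mem (inv_mem hl) (inv_mem hl'))) (mul_mem (inv_mem hl') (inv_mem hl))
    have h4 : m * m' = c * (m' * m) := by
      rw [hcdef]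
      calc m * m' = (l⁻¹ * l'⁻¹)⁻¹ * ((l⁻¹ * l'⁻¹) * (m * m')) := by group
        _ = _ := by rw [h3]; group
    have h5 : c = (m * m') * (m' * m)⁻¹ := by rw [h4]; group
    have hcL2 : c ∈ L₂ := by
      rw [h5]
      exact mul_mem (mul_mem hm' hm'') (inv_mem (mul_mem hm'' hm'))
    change e₂ ⟨m, hm'⟩ * e₂ ⟨m', hm''⟩ = e₂ ⟨m', hm''⟩ * e₂ ⟨m, hm'⟩ ∨ e₂ ⟨m, hm'⟩ * e₂ ⟨m', hm''⟩ = mI * (e₂ ⟨m', hm''⟩ * e₂ ⟨m, hm'⟩)
    rcases hcen c hcL1 c hcL2 rfl with h6 | h6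
    · left
      rw [← map_mul, ← map_mul]
      congr 1
      apply Subtype.ext
      rw [h6, one_mul] at h4
      exact h4
    · right
      rw [← side_a hF L₂ e₂ j hjL2 hj, ← map_mul, ← map_mul, ← map_mul]
      congr 1
      apply Subtype.ext
      rw [h6] at h4
      exact h4

theorem card_sl2 : Nat.card (Matrix.SpecialLinearGroup (Fin 2) F) = Fintype.card F * (Fintype.card F ^ 2 - 1) := by
  classical
  have h1 := Cfsg.Agent.Lib.Classical.card_GL_eq_mul_card_SL (F := F) (Fin 2)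
  rw [Matrix.card_GL_field, Nat.card_eq_fintype_card (α := F)] at h1
  have hq : 1 < Fintype.card F := Fintype.one_lt_card
  obtain ⟨q, hqdef⟩ : ∃ q, q = Fintype.card F := ⟨_, rfl⟩
  rw [← hqdef] at h1 hq ⊢
  have h3 : q ^ 2 - q = (q - 1) * q := by
    zify [show q ≤ q ^ 2 from Nat.le_self_pow (by norm_num) q, show 1 ≤ q by omega]
    ring
  have h4 : (q - 1) * Nat.card (Matrix.SpecialLinearGroup (Fin 2) F) = (q - 1) * (q * (q ^ 2 - 1)) := by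
    rw [← h1]
    simp only [Fin.prod_univ_two, Fin.val_zero, Fin.val_one, pow_zero, pow_one, h3, Fintype.card_fin]
    ring
  exact Nat.eq_of_mul_eq_mul_left (by omega) h4

theorem card_eq_of_sl {F' : Type*} [Field F'] [Fintype F']
    (h : Nat.card (Matrix.SpecialLinearGroup (Fin 2) F) = Nat.card (Matrix.SpecialLinearGroup (Fin 2) F')) :
    Fintype.card F = Fintype.card F' := by
  rw [card_sl2, card_sl2] at h
  have hq : 1 < Fintype.card F := Fintype.one_lt_card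
  have hq' : 1 < Fintype.card F' := Fintype.one_lt_card
  obtain ⟨q, hqdef⟩ : ∃ q, q = Fintype.card F := ⟨_, rfl⟩
  obtain ⟨q', hqdef'⟩ : ∃ q, q = Fintype.card F' := ⟨_, rfl⟩
  rw [← hqdef] at h hq ⊢
  rw [← hqdef'] at h hq' ⊢
  have h1 : 1 ≤ q ^ 2 := Nat.one_le_pow _ _ (by omega)
  have h2 : 1 ≤ q' ^ 2 := Nat.one_le_pow _ _ (by omega)
  zify [h1, h2] at h
  have hq1 : (1 : ℤ) < q := by exact_mod_cast hq
  have hq2 : (1 : ℤ) < q' := by exact_mod_cast hq'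
  have h3 : ((q : ℤ) - q') * (q ^ 2 + q * q' + q' ^ 2 - 1) = 0 := by linear_combination h
  rcases mul_eq_zero.1 h3 with h4 | h4
  · have : (q : ℤ) = q' := by linarith
    exact_mod_cast this
  · nlinarith

end aux


/-- Let G be a finite group with subgroups L₁ ≅ SL₂(q₁) and L₂ ≅ SL₂(q₂), q₁ and q₂ odd prime powers, which commute elementwise and meet in ⟨j⟩ for an involution j, and suppose L₁L₂ has index 2 in C_G(j). Then every element n of C_G(j) outside L₁L₂ either normalizes both L₁ and L₂, or conjugates L₁ onto L₂; in the second case q₁ = q₂ and there is an element n′ of C_G(j) outside L₁L₂ conjugating L₁ onto L₂ with n′² ∈ ⟨j⟩. -/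
theorem result {G : Type*} [Group G] [Finite G]
    {F₁ : Type*} [Field F₁] [Fintype F₁] {F₂ : Type*} [Field F₂] [Fintype F₂]
    (hF₁ : Odd (Fintype.card F₁)) (hF₂ : Odd (Fintype.card F₂)) (L₁ L₂ : Subgroup G)
    (e₁ : ↥L₁ ≃* Matrix.SpecialLinearGroup (Fin 2) F₁) (e₂ : ↥L₂ ≃* Matrix.SpecialLinearGroup (Fin 2) F₂)
    (hc : ∀ x ∈ L₁, ∀ y ∈ L₂, x * y = y * x) (j : G) (hj : orderOf j = 2) (hm : L₁ ⊓ L₂ = Subgroup.zpowers j)
    (hle : L₁ ⊔ L₂ ≤ Subgroup.centralizer ({j} : Set G)) (hi : (L₁ ⊔ L₂).relIndex (Subgroup.centralizer ({j} : Set G)) = 2) (n : G) (hn : n ∈ Subgroup.centralizer ({j} : Set G)) (hn' : n ∉ L₁ ⊔ L₂) :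
    (L₁.map (MulAut.conj n).toMonoidHom = L₁ ∧ L₂.map (MulAut.conj n).toMonoidHom = L₂) ∨
      (L₁.map (MulAut.conj n).toMonoidHom = L₂ ∧ Fintype.card F₁ = Fintype.card F₂ ∧
        ∃ n' ∈ Subgroup.centralizer ({j} : Set G), n' ∉ L₁ ⊔ L₂ ∧ L₁.map (MulAut.conj n').toMonoidHom = L₂ ∧ n' ^ 2 ∈ Subgroup.zpowers j) := by
  have hjm : j ∈ L₁ ⊓ L₂ := by rw [hm]; exact mem_zpowers j
  have hj1 : j ∈ L₁ := (mem_inf.1 hjm).1
  have hj2 : j ∈ L₂ := (mem_inf.1 hjm).2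
  have hjj : j * j = 1 := by rw [← pow_two, ← hj]; exact pow_orderOf_eq_one j
  have hjne : j ≠ 1 := by
    intro h
    rw [h, orderOf_one] at hj
    omega
  have hc' : ∀ x ∈ L₂, ∀ y ∈ L₁, x * y = y * x := fun x hx y hy => (hc y hy x hx).symm
  have hm' : L₂ ⊓ L₁ = zpowers j := by rw [inf_comm]; exact hm
  have hidx : ((L₁ ⊔ L₂).subgroupOf (centralizer ({j} : Set G))).index = 2 := hi
  haveI hnormal := Subgroup.normal_of_index_eq_two hidx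
  have hconjX : ∀ x ∈ L₁ ⊔ L₂, n * x * n⁻¹ ∈ L₁ ⊔ L₂ := by
    intro x hx
    have h1 : (⟨x, hle hx⟩ : centralizer ({j} : Set G)) ∈ (L₁ ⊔ L₂).subgroupOf (centralizer ({j} : Set G)) := hx
    exact hnormal.conj_mem _ h1 ⟨n, hn⟩
  have hconjX' : ∀ x ∈ L₁ ⊔ L₂, n⁻¹ * x * n ∈ L₁ ⊔ L₂ := by
    intro x hx
    have h1 : (⟨x, hle hx⟩ : centralizer ({j} : Set G)) ∈ (L₁ ⊔ L₂).subgroupOf (centralizer ({j} : Set G)) := hx
    have h3 := hnormal.conj_mem _ h1 (⟨n, hn⟩ : centralizer ({j} : Set G))⁻¹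
    have h4 : (⟨n, hn⟩ : centralizer ({j} : Set G))⁻¹ * ⟨x, hle hx⟩ * (⟨n, hn⟩ : centralizer ({j} : Set G))⁻¹⁻¹ ∈ (L₁ ⊔ L₂).subgroupOf (centralizer ({j} : Set G)) := h3
    rw [mem_subgroupOf] at h4
    simpa using h4
  have hnn : n * n ∈ L₁ ⊔ L₂ := by
    have h1 := (Subgroup.mul_mem_iff_of_index_two hidx (a := ⟨n, hn⟩) (b := ⟨n, hn⟩)).2 (Iff.refl _)
    exact h1
  obtain ⟨Y, hYdef⟩ : ∃ Y, Y = L₁.map (MulAut.conj n).toMonoidHom := ⟨_, rfl⟩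
  obtain ⟨Z, hZdef⟩ : ∃ Z, Z = L₂.map (MulAut.conj n).toMonoidHom := ⟨_, rfl⟩
  have hYm : ∀ l ∈ L₁, n * l * n⁻¹ ∈ Y := fun l hl => by
    rw [hYdef]; exact ⟨l, hl, rfl⟩
  have hZm : ∀ l ∈ L₂, n * l * n⁻¹ ∈ Z := fun l hl => by
    rw [hZdef]; exact ⟨l, hl, rfl⟩
  have hYe : ∀ y ∈ Y, ∃ l ∈ L₁, n * l * n⁻¹ = y := fun y hy => by
    rw [hYdef] at hy
    obtain ⟨l, hl, rfl⟩ := hy
    exact ⟨l, hl, rfl⟩
  have hZe : ∀ y ∈ Z, ∃ l ∈ L₂, n * l * n⁻¹ = y := fun y hy => by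
    rw [hZdef] at hy
    obtain ⟨l, hl, rfl⟩ := hy
    exact ⟨l, hl, rfl⟩
  have hY : Y ≤ L₁ ⊔ L₂ := fun y hy => by
    obtain ⟨l, hl, rfl⟩ := hYe y hy
    exact hconjX l (mem_sup_left hl)
  have hZ : Z ≤ L₁ ⊔ L₂ := fun y hy => by
    obtain ⟨l, hl, rfl⟩ := hZe y hy
    exact hconjX l (mem_sup_right hl)
  have hYZ : ∀ y ∈ Y, ∀ z ∈ Z, y * z = z * y := fun y hy z hz => by
    obtain ⟨l, hl, rfl⟩ := hYe y hy
    obtain ⟨m, hm₁, rfl⟩ := hZe z hz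
    calc n * l * n⁻¹ * (n * m * n⁻¹) = n * (l * m) * n⁻¹ := by group
      _ = n * (m * l) * n⁻¹ := by rw [hc l hl m hm₁]
      _ = _ := by group
  have hgen : ∀ x ∈ L₁ ⊔ L₂, ∃ y ∈ Y, ∃ z ∈ Z, x = y * z := fun x hx => by
    obtain ⟨a, ha, b, hb, hab⟩ := exists_mul_of_mem_sup_of_le_normalizer (norm_of_comm hc) (hconjX' x hx)
    refine ⟨n * a * n⁻¹, hYm a ha, n * b * n⁻¹, hZm b hb, ?_⟩
    calc x = n * (n⁻¹ * x * n) * n⁻¹ := by group
      _ = n * (a * b) * n⁻¹ := by rw [hab]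
      _ = _ := by group
  have D1 := proj hF₂ e₂ hc hj hm hY hZ hYZ hgen
  have D2 := proj hF₁ e₁ hc' hj hm' (by rw [sup_comm]; exact hY) (by rw [sup_comm]; exact hZ) hYZ
    (by rw [sup_comm]; exact hgen)
  have hcard : ∀ L : Subgroup G, Nat.card (L.map (MulAut.conj n).toMonoidHom) = Nat.card L := fun L =>
    Nat.card_congr (L.equivMapOfInjective _ (MulAut.conj n).injective).toEquiv.symm
  have hcY : Nat.card Y = Nat.card L₁ := by rw [hYdef]; exact hcard L₁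
  have hcZ : Nat.card Z = Nat.card L₂ := by rw [hZdef]; exact hcard L₂
  obtain ⟨l₁, hl₁, hl₁s⟩ := side_c hF₁ L₁ e₁ j hj1 hj
  obtain ⟨l₂, hl₂, hl₂s⟩ := side_c hF₂ L₂ e₂ j hj2 hj
  have hconjne : ∀ u : G, u * u = j → ¬ (n * u * n⁻¹ ∈ L₁ ⊓ L₂) := by
    intro u hu h
    rw [hm] at h
    have h3 : (n * u * n⁻¹) * (n * u * n⁻¹) = 1 := by
      rcases mem_zpowers_invol hj h with h4 | h4 <;> rw [h4]
      · simp
      · exact hjj
    have h4 : n * j * n⁻¹ = 1 := by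
      rw [← h3, ← hu]; group
    apply hjne
    have h5 : j = n⁻¹ * (n * j * n⁻¹) * n := by group
    rw [h5, h4]; group
  have hYnot : ¬ (Y ≤ L₁ ∧ Y ≤ L₂) := fun h =>
    hconjne l₁ hl₁s (mem_inf.2 ⟨h.1 (hYm l₁ hl₁), h.2 (hYm l₁ hl₁)⟩)
  have hZnot : ¬ (Z ≤ L₁ ∧ Z ≤ L₂) := fun h =>
    hconjne l₂ hl₂s (mem_inf.2 ⟨h.1 (hZm l₂ hl₂), h.2 (hZm l₂ hl₂)⟩)
  have heq : ∀ {A B : Subgroup G}, A ≤ B → Nat.card B ≤ Nat.card A → A = B := fun h1 h3 =>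
    Subgroup.eq_of_le_of_card_ge h1 h3
  rcases D1 with D1 | D1 <;> rcases D2 with D2 | D2
  · exact absurd ⟨D1, D2⟩ hYnot
  · left
    rw [← hYdef, ← hZdef]
    exact ⟨heq D1 hcY.ge, heq D2 hcZ.ge⟩
  · right
    have hle1 : Nat.card L₂ ≤ Nat.card L₁ := by
      rw [← hcZ]; exact Subgroup.card_le_of_le D1
    have hle2 : Nat.card L₁ ≤ Nat.card L₂ := by
      rw [← hcY]; exact Subgroup.card_le_of_le D2
    have hYL : Y = L₂ := heq D2 (by rw [hcY]; exact hle1)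
    have hZL : Z = L₁ := heq D1 (by rw [hcZ]; exact hle2)
    refine ⟨by rw [← hYdef]; exact hYL, ?_, ?_⟩
    · apply card_eq_of_sl
      rw [← Nat.card_congr e₁.toEquiv, ← Nat.card_congr e₂.toEquiv]
      omega
    · obtain ⟨a, ha, b, hb, hab⟩ := exists_mul_of_mem_sup_of_le_normalizer (norm_of_comm hc) hnn
      refine ⟨n * a⁻¹, mul_mem hn (inv_mem (hle (mem_sup_left ha))), ?_, ?_, ?_⟩
      · intro h
        apply hn'
        have h3 : n = (n * a⁻¹) * a := by group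
        rw [h3]
        exact mul_mem h (mem_sup_left ha)
      · rw [← hYL, hYdef]
        ext x
        constructor
        · rintro ⟨l, hl, rfl⟩
          refine ⟨a⁻¹ * l * a, mul_mem (mul_mem (inv_mem ha) hl) ha, ?_⟩
          simp only [MulEquiv.coe_toMonoidHom, MulAut.conj_apply]
          group
        · rintro ⟨l, hl, rfl⟩
          refine ⟨a * l * a⁻¹, mul_mem (mul_mem ha hl) (inv_mem ha), ?_⟩
          simp only [MulEquiv.coe_toMonoidHom, MulAut.conj_apply]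
          group
      · obtain ⟨a', ha'⟩ : ∃ a', a' = n * a * n⁻¹ := ⟨_, rfl⟩
        obtain ⟨b', hb'⟩ : ∃ b', b' = n * b * n⁻¹ := ⟨_, rfl⟩
        have ha'L : a' ∈ L₂ := by
          rw [← hYL, ha']; exact hYm a ha
        have hb'L : b' ∈ L₁ := by
          rw [← hZL, hb']; exact hZm b hb
        have h1 : a' * b' = a * b := by
          rw [ha', hb']
          calc n * a * n⁻¹ * (n * b * n⁻¹) = n * (a * b) * n⁻¹ := by group
            _ = n * (n * n) * n⁻¹ := by rw [hab]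
            _ = n * n := by group
            _ = a * b := hab
        have h3 : b' * a' = a * b := by rw [← h1]; exact hc b' hb'L a' ha'L
        obtain ⟨ε, hε⟩ : ∃ ε, ε = a⁻¹ * b' := ⟨_, rfl⟩
        have hε1 : ε ∈ L₁ := by rw [hε]; exact mul_mem (inv_mem ha) hb'L
        have hε2 : ε = b * a'⁻¹ := by
          rw [hε]
          calc a⁻¹ * b' = a⁻¹ * (b' * a') * a'⁻¹ := by group
            _ = a⁻¹ * (a * b) * a'⁻¹ := by rw [h3]
            _ = b * a'⁻¹ := by group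
        have hε3 : ε ∈ L₂ := by rw [hε2]; exact mul_mem hb (inv_mem ha'L)
        have hεm : ε ∈ zpowers j := by
          rw [← hm]; exact mem_inf.2 ⟨hε1, hε3⟩
        have hfinal : (n * a⁻¹) ^ 2 = ε := by
          have hcb : a * b = b * a := hc a ha b hb
          have hb2 : b = ε * a' := by rw [hε2]; group
          have hcε : ε * a' = a' * ε := hc ε hε1 a' ha'L
          rw [pow_two]
          calc n * a⁻¹ * (n * a⁻¹) = (n * a⁻¹ * n⁻¹) * (n * n) * a⁻¹ := by group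
            _ = (n * a⁻¹ * n⁻¹) * (a * b) * a⁻¹ := by rw [hab]
            _ = (n * a⁻¹ * n⁻¹) * (b * a) * a⁻¹ := by rw [hcb]
            _ = (n * a⁻¹ * n⁻¹) * b := by group
            _ = (n * a⁻¹ * n⁻¹) * (a' * ε) := by rw [hb2, hcε]
            _ = ε := by rw [ha']; group
        rw [hfinal]
        exact hεm
  · exact absurd ⟨D1, D2⟩ hZnot

end Cfsg.Agent.S3210
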