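import Cfsg.Statements.S3213
import Mathlib

set_option autoImplicit false
open Cfsg

namespace Cfsg.Agent.S3213

section sl
open Matrix

theorem sl25 : ∀ x : SpecialLinearGroup (Fin 2) (ZMod 5), x ^ 3 = 1 → x ≠ 1 →
    ∃ g : SpecialLinearGroup (Fin 2) (ZMod 5), (x * (g * x * g⁻¹)) ^ 10 = 1 ∧ x * (g * x * g⁻¹) ≠ 1 := by
  decide +kernel

/-- The statement for any field with five elements. -/
theorem slK {K : Type*} [Field K] [Fintype K] (hK : Fintype.card K = 5)
    (x : SpecialLinearGroup (Fin 2) K) (h3 : x ^ 3 = 1) (h1 : x ≠ 1) :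
    ∃ g : SpecialLinearGroup (Fin 2) K, (x * (g * x * g⁻¹)) ^ 10 = 1 ∧ x * (g * x * g⁻¹) ≠ 1 := by
  classical
  haveI : Fact (Nat.Prime 5) := ⟨by norm_num⟩
  obtain σ := ZMod.ringEquivOfPrime K (p := 5) (by norm_num) hK
  -- the two maps between the groups
  let m : SpecialLinearGroup (Fin 2) (ZMod 5) →* SpecialLinearGroup (Fin 2) K :=
    SpecialLinearGroup.map (σ : ZMod 5 →+* K)
  let n : SpecialLinearGroup (Fin 2) K →* SpecialLinearGroup (Fin 2) (ZMod 5) :=
    SpecialLinearGroup.map (σ.symm : K →+* ZMod 5)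
  have hmn : ∀ y, m (n y) = y := by
    intro y
    ext i j
    simp [m, n, SpecialLinearGroup.map_apply_coe]
  have hnm : ∀ y, n (m y) = y := by
    intro y
    ext i j
    simp [m, n, SpecialLinearGroup.map_apply_coe]
  have hn3 : (n x) ^ 3 = 1 := by rw [← map_pow, h3, map_one]
  have hn1 : n x ≠ 1 := by
    intro h
    apply h1
    rw [← hmn x, h, map_one]
  obtain ⟨g, hg1, hg2⟩ := sl25 _ hn3 hn1
  refine ⟨m g, ?_, ?_⟩
  · have := congrArg m hg1
    simpa [map_mul, map_inv, map_pow, hmn] using this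
  · intro h
    apply hg2
    have := congrArg n h
    simpa [map_mul, map_inv, hnm] using this

end sl

section lin
open Matrix

variable {F : Type*} [Field F]

/-- The form. -/
def B (v w : Fin 2 ⊕ Fin 2 → F) : F := v ⬝ᵥ (J (Fin 2) F).mulVec w

theorem B_add_left (u v w : Fin 2 ⊕ Fin 2 → F) : B (u + v) w = B u w + B v w := by
  simp [B, add_dotProduct]

theorem B_add_right (u v w : Fin 2 ⊕ Fin 2 → F) : B u (v + w) = B u v + B u w := by
  simp [B, mulVec_add, dotProduct_add]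

theorem B_smul_left (a : F) (v w : Fin 2 ⊕ Fin 2 → F) : B (a • v) w = a * B v w := by
  simp [B, smul_dotProduct]

theorem B_smul_right (a : F) (v w : Fin 2 ⊕ Fin 2 → F) : B v (a • w) = a * B v w := by
  simp [B, mulVec_smul, dotProduct_smul]

theorem B_sub_left (u v w : Fin 2 ⊕ Fin 2 → F) : B (u - v) w = B u w - B v w := by
  simp [B, sub_dotProduct]

theorem B_sub_right (u v w : Fin 2 ⊕ Fin 2 → F) : B u (v - w) = B u v - B u w := by
  simp [B, mulVec_sub, dotProduct_sub]

theorem B_anti (v w : Fin 2 ⊕ Fin 2 → F) : B v w = - B w v := by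
  unfold B
  rw [dotProduct_mulVec, ← mulVec_transpose, J_transpose, dotProduct_comm, neg_mulVec, dotProduct_neg]

theorem B_self (h2 : (2 : F) ≠ 0) (v : Fin 2 ⊕ Fin 2 → F) : B v v = 0 := by
  have h := B_anti v v
  have h3 : (2 : F) * B v v = 0 := by linear_combination h
  exact (mul_eq_zero.1 h3).resolve_left h2

theorem B_nondeg (v : Fin 2 ⊕ Fin 2 → F) (hv : v ≠ 0) : ∃ w, B v w ≠ 0 := by
  obtain ⟨i, hi⟩ : ∃ i, v i ≠ 0 := by
    by_contra h
    push Not at h
    exact hv (funext h)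
  refine ⟨-(J (Fin 2) F).mulVec (Pi.single i 1), ?_⟩
  have : B v (-(J (Fin 2) F).mulVec (Pi.single i 1)) = v i := by
    unfold B
    rw [mulVec_neg, mulVec_mulVec, J_squared, neg_mulVec, neg_neg, one_mulVec, dotProduct_single, mul_one]
  rw [this]
  exact hi

/-- Isometries. -/
theorem B_iso {G : Matrix (Fin 2 ⊕ Fin 2) (Fin 2 ⊕ Fin 2) F} (hG : G ∈ symplecticGroup (Fin 2) F)
    (v w : Fin 2 ⊕ Fin 2 → F) : B (G.mulVec v) (G.mulVec w) = B v w := by
  have h := SymplecticGroup.mem_iff'.1 hG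
  unfold B
  rw [← vecMul_transpose G v, ← dotProduct_mulVec, mulVec_mulVec, mulVec_mulVec, h]

/-- The transvection. -/
def T (c : F) (e v : Fin 2 ⊕ Fin 2 → F) : Fin 2 ⊕ Fin 2 → F := v + (c * B v e) • e

theorem T_conj {G H A : Matrix (Fin 2 ⊕ Fin 2) (Fin 2 ⊕ Fin 2) F} (hG : G ∈ symplecticGroup (Fin 2) F)
    (hGH : G * H = 1) {c : F} {e : Fin 2 ⊕ Fin 2 → F} (hA : ∀ v, A.mulVec v = T c e v) :
    ∀ v, (G * A * H).mulVec v = T c (G.mulVec e) v := by
  intro v
  rw [← mulVec_mulVec, ← mulVec_mulVec, hA, T, mulVec_add, mulVec_smul, mulVec_mulVec, hGH, one_mulVec, T,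
    ← B_iso hG (H.mulVec v) e, mulVec_mulVec, hGH, one_mulVec]

/-- The product of two transvections with the same coefficient, if its tenth power is trivial. -/
theorem T3 (h2 : (2 : F) ≠ 0) (h3 : (3 : F) = 0) (sq : ∀ a : F, a ≠ 0 → a * a = 1)
    {A A' : Matrix (Fin 2 ⊕ Fin 2) (Fin 2 ⊕ Fin 2) F} {c : F} {e e' : Fin 2 ⊕ Fin 2 → F}
    (hc : c ≠ 0) (hA : ∀ v, A.mulVec v = T c e v) (hA' : ∀ v, A'.mulVec v = T c e' v)
    (h10 : (A * A') ^ 10 = 1) : A * A' = 1 := by
  obtain ⟨R, hR⟩ : ∃ R, R = A * A' := ⟨_, rfl⟩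
  rw [← hR] at h10 ⊢
  have hRv : ∀ v, R.mulVec v = T c e (T c e' v) := by
    intro v
    rw [hR, ← mulVec_mulVec, hA', hA]
  by_cases hs : B e e' = 0
  · have hs' : B e' e = 0 := by rw [B_anti, hs, neg_zero]
    -- M
    have hM : ∀ v, R.mulVec v = v + ((c * B v e') • e' + (c * B v e) • e) := by
      intro v
      rw [hRv]
      unfold T
      rw [B_add_left, B_smul_left, hs']
      simp only [mul_zero, add_zero]
      rw [add_assoc]
    have hMe : ∀ v, B ((c * B v e') • e' + (c * B v e) • e) e = 0 := by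
      intro v
      rw [B_add_left, B_smul_left, B_smul_left, hs', B_self h2]
      simp
    have hMe' : ∀ v, B ((c * B v e') • e' + (c * B v e) • e) e' = 0 := by
      intro v
      rw [B_add_left, B_smul_left, B_smul_left, hs, B_self h2]
      simp
    have hRM : ∀ v, R.mulVec ((c * B v e') • e' + (c * B v e) • e) =
        (c * B v e') • e' + (c * B v e) • e := by
      intro v
      rw [hM, hMe, hMe']
      simp
    have hpow : ∀ k : ℕ, ∀ v, (R ^ k).mulVec v = v + (k : F) • ((c * B v e') • e' + (c * B v e) • e) := by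
      intro k v
      induction k with
      | zero => simp
      | succ k ih =>
        rw [pow_succ', ← mulVec_mulVec, ih, mulVec_add, mulVec_smul, hRM, hM]
        push_cast
        rw [add_smul, one_smul]
        abel
    have h10' : (10 : F) = 1 := by linear_combination 3 * h3
    apply Matrix.mulVec_injective
    funext v
    have h4 := hpow 10 v
    rw [h10, one_mulVec] at h4
    have h5 : ((c * B v e') • e' + (c * B v e) • e) = 0 := by
      have : ((10 : ℕ) : F) = 1 := by push_cast; exact h10'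
      rw [this, one_smul] at h4
      exact left_eq_add.1 h4
    rw [hM, h5, add_zero, one_mulVec]
  · exfalso
    obtain ⟨t, ht⟩ : ∃ t, t = c * B e e' := ⟨_, rfl⟩
    have ht0 : t ≠ 0 := by rw [ht]; exact mul_ne_zero hc hs
    have htt := sq t ht0
    have hB1 : c * B e' e = -t := by rw [B_anti, ht]; ring
    have Re : R.mulVec e = t • e' := by
      rw [hRv]
      unfold T
      rw [B_add_left, B_smul_left, B_self h2, ← ht]
      have h6 : c * (t * B e' e) = -1 := by
        rw [mul_left_comm, hB1]; linear_combination -htt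
      rw [zero_add, h6, neg_smul, one_smul]
      abel
    have Re' : R.mulVec e' = e' - t • e := by
      rw [hRv]
      unfold T
      rw [B_self h2, mul_zero, zero_smul, add_zero, hB1, neg_smul, sub_eq_add_neg]
    have s2 : R.mulVec (t • e') = t • e' - e := by
      rw [mulVec_smul, Re', smul_sub, smul_smul, htt, one_smul]
    have s3 : R.mulVec (t • e' - e) = -e := by
      rw [mulVec_sub, s2, Re]
      abel
    have r3 : (R ^ 3).mulVec e = -e := by
      have : R ^ 3 = R * (R * R) := by simp only [pow_succ, pow_zero, one_mul, mul_assoc]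
      rw [this, ← mulVec_mulVec, ← mulVec_mulVec, Re, s2, s3]
    have r9 : (R ^ 9).mulVec e = -e := by
      have : R ^ 9 = R ^ 3 * (R ^ 3 * R ^ 3) := by rw [← pow_add, ← pow_add]
      rw [this, ← mulVec_mulVec, ← mulVec_mulVec, r3, mulVec_neg, r3, neg_neg, r3]
    have r10 : (R ^ 10).mulVec e = - (t • e') := by
      rw [pow_succ', ← mulVec_mulVec, r9, mulVec_neg, Re]
    rw [h10, one_mulVec] at r10
    apply hs
    rw [r10]
    have : B (-(t • e')) e' = - (t * B e' e') := by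
      rw [← neg_smul, B_smul_left]; ring
    rw [this, B_self h2]
    simp

/-- A symplectic matrix whose fixed space has codimension at most one is a transvection. -/
theorem exists_transvection {A : Matrix (Fin 2 ⊕ Fin 2) (Fin 2 ⊕ Fin 2) F} [Fintype F]
    (hA : A ∈ symplecticGroup (Fin 2) F) (h2 : (2 : F) ≠ 0) (hne : A ≠ 1)
    (hd : 3 ≤ Module.finrank F ↥(LinearMap.ker (toLin' A - LinearMap.id))) :
    ∃ (c : F) (e : Fin 2 ⊕ Fin 2 → F), c ≠ 0 ∧ e ≠ 0 ∧ ∀ v, A.mulVec v = T c e v := by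
  obtain ⟨N, hN⟩ : ∃ N : (Fin 2 ⊕ Fin 2 → F) →ₗ[F] (Fin 2 ⊕ Fin 2 → F), N = toLin' A - LinearMap.id := ⟨_, rfl⟩
  rw [← hN] at hd
  have hNv : ∀ v, N v = A.mulVec v - v := by
    intro v
    rw [hN]; simp
  have hrn := LinearMap.finrank_range_add_finrank_ker N
  have hV : Module.finrank F (Fin 2 ⊕ Fin 2 → F) = 4 := by simp
  have hr : Module.finrank F ↥(LinearMap.range N) ≤ 1 := by omega
  obtain ⟨e₀, he₀⟩ := finrank_le_one_iff.1 hr
  obtain ⟨e, he⟩ : ∃ e, e = (e₀ : Fin 2 ⊕ Fin 2 → F) := ⟨_, rfl⟩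
  have hae : ∀ v, ∃ a : F, N v = a • e := by
    intro v
    obtain ⟨a, ha⟩ := he₀ ⟨N v, LinearMap.mem_range_self N v⟩
    refine ⟨a, ?_⟩
    have := congrArg Subtype.val ha
    simp only [Submodule.coe_smul] at this
    rw [he, this]
  choose a ha using hae
  obtain ⟨t, ht⟩ : ∃ t, N t ≠ 0 := by
    by_contra h
    push Not at h
    apply hne
    apply Matrix.mulVec_injective
    funext v
    have := h v
    rw [hNv, sub_eq_zero] at this
    rw [this, one_mulVec]
  have he0 : e ≠ 0 := by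
    rintro rfl
    apply ht
    rw [ha, smul_zero]
  have hAv : ∀ v, A.mulVec v = v + a v • e := by
    intro v
    rw [← ha, hNv]; abel
  have key : ∀ v w, a v * B e w + a w * B v e = 0 := by
    intro v w
    have h := B_iso hA v w
    rw [hAv, hAv, B_add_left, B_add_right, B_add_right, B_smul_left, B_smul_right, B_smul_right,
      B_smul_left, B_self h2] at h
    linear_combination h
  obtain ⟨w₀, hw₀⟩ := B_nondeg e he0
  obtain ⟨c, hc⟩ : ∃ c, c = - a w₀ / B e w₀ := ⟨_, rfl⟩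
  have hav : ∀ v, a v = c * B v e := by
    intro v
    have h := key v w₀
    rw [hc]
    field_simp
    linear_combination h
  refine ⟨c, e, ?_, he0, ?_⟩
  · rintro rfl
    apply ht
    rw [ha, hav]
    simp
  · intro v
    rw [hAv, hav, T]

theorem finrank_ker_comp_le' {V : Type*} [AddCommGroup V] [Module F V] [FiniteDimensional F V]
    (f g : V →ₗ[F] V) :
    Module.finrank F ↥(LinearMap.ker (g ∘ₗ f)) ≤
      Module.finrank F ↥(LinearMap.ker f) + Module.finrank F ↥(LinearMap.ker g) := by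
  have h := LinearMap.finrank_range_add_finrank_ker (f.domRestrict (LinearMap.ker (g ∘ₗ f)))
  have h1 : Module.finrank F ↥(LinearMap.range (f.domRestrict (LinearMap.ker (g ∘ₗ f)))) ≤
      Module.finrank F ↥(LinearMap.ker g) := by
    apply Submodule.finrank_mono
    rintro _ ⟨⟨x, hx⟩, rfl⟩
    simpa using hx
  have h2 : Module.finrank F ↥(LinearMap.ker (f.domRestrict (LinearMap.ker (g ∘ₗ f)))) ≤
      Module.finrank F ↥(LinearMap.ker f) := by
    rw [LinearMap.ker_domRestrict]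
    have h3 := Submodule.finrank_map_subtype_eq (LinearMap.ker (g ∘ₗ f))
      (Submodule.comap (LinearMap.ker (g ∘ₗ f)).subtype (LinearMap.ker f))
    rw [← h3]
    apply Submodule.finrank_mono
    rintro _ ⟨x, hx, rfl⟩
    simpa using hx
  omega

end lin

section final
open Matrix

theorem main_thm {F : Type*} [Field F] [Fintype F] (hF : Fintype.card F = 3)
    {K : Type*} [Field K] [Fintype K] (hK : Fintype.card K = 5)
    (φ : Matrix.SpecialLinearGroup (Fin 2) K →* ↥(Matrix.symplecticGroup (Fin 2) F)) (hφ : Function.Injective φ)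
    (x : Matrix.SpecialLinearGroup (Fin 2) K) (hx : orderOf x = 3) :
    Module.finrank F ↥(LinearMap.ker (Matrix.toLin' ((φ x : Matrix (Fin 2 ⊕ Fin 2) (Fin 2 ⊕ Fin 2) F)) - LinearMap.id)) = 2 ∧
      ∀ v w : Fin 2 ⊕ Fin 2 → F, (φ x : Matrix (Fin 2 ⊕ Fin 2) (Fin 2 ⊕ Fin 2) F).mulVec v = v →
        (φ x : Matrix (Fin 2 ⊕ Fin 2) (Fin 2 ⊕ Fin 2) F).mulVec w = w →
          dotProduct v ((Matrix.J (Fin 2) F).mulVec w) = 0 := by
  have h3F : (3 : F) = 0 := by
    have h := Nat.cast_card_eq_zero F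
    rw [hF] at h
    simpa using h
  have h2F : (2 : F) ≠ 0 := by
    intro h
    apply one_ne_zero (α := F)
    linear_combination h3F - h
  have sq : ∀ a : F, a ≠ 0 → a * a = 1 := by
    intro a ha
    have h := FiniteField.pow_card_sub_one_eq_one a ha
    rw [hF] at h
    rw [← pow_two]
    exact h
  have hx3 : x ^ 3 = 1 := by rw [← hx, pow_orderOf_eq_one]
  have hx1 : x ≠ 1 := by
    rintro rfl
    simp at hx
  have hcoe : ∀ a b, ((φ (a * b)) : Matrix (Fin 2 ⊕ Fin 2) (Fin 2 ⊕ Fin 2) F) =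
      (φ a : Matrix (Fin 2 ⊕ Fin 2) (Fin 2 ⊕ Fin 2) F) * (φ b : Matrix (Fin 2 ⊕ Fin 2) (Fin 2 ⊕ Fin 2) F) := by
    intro a b
    rw [map_mul]; rfl
  have hcoe1 : ((φ 1) : Matrix (Fin 2 ⊕ Fin 2) (Fin 2 ⊕ Fin 2) F) = 1 := by
    rw [map_one]; rfl
  have hcoepow : ∀ (a) (k : ℕ), ((φ (a ^ k)) : Matrix (Fin 2 ⊕ Fin 2) (Fin 2 ⊕ Fin 2) F) =
      (φ a : Matrix (Fin 2 ⊕ Fin 2) (Fin 2 ⊕ Fin 2) F) ^ k := by
    intro a k
    induction k with
    | zero => simp [hcoe1]
    | succ k ih => rw [pow_succ, hcoe, ih, pow_succ]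
  have hinj1 : ∀ a, ((φ a) : Matrix (Fin 2 ⊕ Fin 2) (Fin 2 ⊕ Fin 2) F) = 1 → a = 1 := by
    intro a ha
    apply hφ
    rw [map_one]
    exact Subtype.ext ha
  obtain ⟨A, hAdef⟩ : ∃ A, A = (φ x : Matrix (Fin 2 ⊕ Fin 2) (Fin 2 ⊕ Fin 2) F) := ⟨_, rfl⟩
  rw [← hAdef]
  have memA : A ∈ symplecticGroup (Fin 2) F := by rw [hAdef]; exact (φ x).2
  have hA1 : A ≠ 1 := by
    intro h
    exact hx1 (hinj1 x (hAdef ▸ h))
  have hA3 : A ^ 3 = 1 := by
    rw [hAdef, ← hcoepow, hx3, hcoe1]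
  obtain ⟨N, hN⟩ : ∃ N : (Fin 2 ⊕ Fin 2 → F) →ₗ[F] (Fin 2 ⊕ Fin 2 → F), N = toLin' A - LinearMap.id := ⟨_, rfl⟩
  rw [← hN]
  have hNv : ∀ v, N v = A.mulVec v - v := by
    intro v
    rw [hN]; simp
  have hAAA : ∀ v, A.mulVec (A.mulVec (A.mulVec v)) = v := by
    intro v
    rw [mulVec_mulVec, mulVec_mulVec]
    have : A * A * A = A ^ 3 := by simp only [pow_succ, pow_zero, one_mul]
    rw [this, hA3, one_mulVec]
  have hN3 : ∀ v, N (N (N v)) = 0 := by
    intro v
    rw [hNv, hNv, hNv, mulVec_sub, mulVec_sub, mulVec_sub, hAAA]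
    funext i
    simp only [Pi.sub_apply, Pi.zero_apply]
    linear_combination ((A *ᵥ v) i - (A *ᵥ A *ᵥ v) i) * h3F
  have hV : Module.finrank F (Fin 2 ⊕ Fin 2 → F) = 4 := by simp
  have hlow : 2 ≤ Module.finrank F ↥(LinearMap.ker N) := by
    have h1 := finrank_ker_comp_le' (N ∘ₗ N) N
    have h2 := finrank_ker_comp_le' N N
    have h3 : LinearMap.ker (N ∘ₗ (N ∘ₗ N)) = ⊤ := by
      rw [LinearMap.ker_eq_top]
      apply LinearMap.ext
      intro v
      simpa using hN3 v
    rw [h3, finrank_top, hV] at h1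
    omega
  have hup : ¬ 3 ≤ Module.finrank F ↥(LinearMap.ker N) := by
    intro hd
    rw [hN] at hd
    obtain ⟨c, e, hc, he, hT⟩ := exists_transvection memA h2F hA1 hd
    obtain ⟨g, hg1, hg2⟩ := slK hK x hx3 hx1
    have hGH : (φ g : Matrix (Fin 2 ⊕ Fin 2) (Fin 2 ⊕ Fin 2) F) * (φ g⁻¹ : Matrix (Fin 2 ⊕ Fin 2) (Fin 2 ⊕ Fin 2) F) = 1 := by
      rw [← hcoe, mul_inv_cancel, hcoe1]
    have hT' := T_conj (φ g).2 hGH hT
    have hR : ((φ (x * (g * x * g⁻¹))) : Matrix (Fin 2 ⊕ Fin 2) (Fin 2 ⊕ Fin 2) F) =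
        A * ((φ g : Matrix (Fin 2 ⊕ Fin 2) (Fin 2 ⊕ Fin 2) F) * A * (φ g⁻¹ : Matrix (Fin 2 ⊕ Fin 2) (Fin 2 ⊕ Fin 2) F)) := by
      rw [hcoe, hcoe, hcoe, hAdef]
    have h10 : (A * ((φ g : Matrix (Fin 2 ⊕ Fin 2) (Fin 2 ⊕ Fin 2) F) * A * (φ g⁻¹ : Matrix (Fin 2 ⊕ Fin 2) (Fin 2 ⊕ Fin 2) F))) ^ 10 = 1 := by
      rw [← hR, ← hcoepow, hg1, hcoe1]
    have h4 := T3 h2F h3F sq hc hT hT' h10
    apply hg2
    apply hinj1
    rw [hR, h4]
  have hd2 : Module.finrank F ↥(LinearMap.ker N) = 2 := by omega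
  refine ⟨hd2, ?_⟩
  intro v w hv hw
  by_contra hne
  apply hup
  have hne' : B v w ≠ 0 := hne
  -- a vector moved by A
  obtain ⟨t, ht⟩ : ∃ t, N t ≠ 0 := by
    by_contra h
    push Not at h
    apply hA1
    apply Matrix.mulVec_injective
    funext u
    have := h u
    rw [hNv, sub_eq_zero] at this
    rw [this, one_mulVec]
  have hNvv : N v = 0 := by rw [hNv, hv, sub_self]
  have hNww : N w = 0 := by rw [hNv, hw, sub_self]
  obtain ⟨u, hu⟩ : ∃ u, u = t - (B t w / B v w) • v + (B t v / B v w) • w := ⟨_, rfl⟩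
  have hB1 : B w v = - B v w := B_anti w v
  have huw : B u w = 0 := by
    rw [hu, B_add_left, B_sub_left, B_smul_left, B_smul_left, B_self h2F]
    field_simp
    ring
  have huv : B u v = 0 := by
    rw [hu, B_add_left, B_sub_left, B_smul_left, B_smul_left, B_self h2F, hB1]
    field_simp
    ring
  have hNu : N u = N t := by
    rw [hu, map_add, map_sub, map_smul, map_smul, hNvv, hNww]
    simp
  have hinv : ∀ y, B y v = 0 → B y w = 0 → B (N y) v = 0 ∧ B (N y) w = 0 := by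
    intro y h1 h2
    have h3 := B_iso memA y v
    have h4 := B_iso memA y w
    rw [hv] at h3
    rw [hw] at h4
    rw [hNv, B_sub_left, B_sub_left, h3, h4, h1, h2]
    simp
  obtain ⟨h1v, h1w⟩ := hinv u huv huw
  obtain ⟨h2v, h2w⟩ := hinv _ h1v h1w
  -- the last nonzero term
  obtain ⟨r, hr0, hNr, hrv, hrw⟩ : ∃ r, r ≠ 0 ∧ N r = 0 ∧ B r v = 0 ∧ B r w = 0 := by
    by_cases h : N (N u) = 0
    · exact ⟨N u, by rw [hNu]; exact ht, h, h1v, h1w⟩
    · exact ⟨N (N u), h, hN3 u, h2v, h2w⟩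
  have hvK : v ∈ LinearMap.ker N := hNvv
  have hwK : w ∈ LinearMap.ker N := hNww
  have hrK : r ∈ LinearMap.ker N := hNr
  have hli : LinearIndependent F ![(⟨v, hvK⟩ : ↥(LinearMap.ker N)), ⟨w, hwK⟩, ⟨r, hrK⟩] := by
    rw [Fintype.linearIndependent_iff]
    intro g hg
    rw [Fin.sum_univ_three] at hg
    have hg' : g 0 • v + g 1 • w + g 2 • r = 0 := by
      have := congrArg Subtype.val hg
      simpa using this
    have hh1 : B (g 0 • v + g 1 • w + g 2 • r) w = 0 := by
      rw [hg']; simp [B]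
    rw [B_add_left, B_add_left, B_smul_left, B_smul_left, B_smul_left, hrw, B_self h2F] at hh1
    have g0 : g 0 = 0 := by
      have : g 0 * B v w = 0 := by linear_combination hh1
      exact (mul_eq_zero.1 this).resolve_right hne'
    have hh2 : B (g 0 • v + g 1 • w + g 2 • r) v = 0 := by
      rw [hg']; simp [B]
    rw [B_add_left, B_add_left, B_smul_left, B_smul_left, B_smul_left, hrv, B_self h2F, hB1] at hh2
    have g1 : g 1 = 0 := by
      have : g 1 * B v w = 0 := by linear_combination -hh2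
      exact (mul_eq_zero.1 this).resolve_right hne'
    have g2 : g 2 = 0 := by
      rw [g0, g1, zero_smul, zero_smul, zero_add, zero_add] at hg'
      exact (smul_eq_zero.1 hg').resolve_right hr0
    intro i
    fin_cases i
    · exact g0
    · exact g1
    · exact g2
  have := hli.fintype_card_le_finrank
  simpa using this

end final


/-- Let F be the field with 3 elements and K the field with 5 elements. For every injective homomorphism φ from SL₂(K) into the symplectic group Sp₄(F) (4 × 4 matrices g with g J gᵀ = J for the standard alternating matrix J) and every element x of order 3 of SL₂(K), the vectors of F⁴ fixed by φ(x) form a 2-dimensional subspace that is totally isotropic for the alternating form defined by J. -/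
theorem result {F : Type*} [Field F] [Fintype F] (hF : Fintype.card F = 3)
    {K : Type*} [Field K] [Fintype K] (hK : Fintype.card K = 5)
    (φ : Matrix.SpecialLinearGroup (Fin 2) K →* ↥(Matrix.symplecticGroup (Fin 2) F)) (hφ : Function.Injective φ)
    (x : Matrix.SpecialLinearGroup (Fin 2) K) (hx : orderOf x = 3) :
    Module.finrank F ↥(LinearMap.ker (Matrix.toLin' ((φ x : Matrix (Fin 2 ⊕ Fin 2) (Fin 2 ⊕ Fin 2) F)) - LinearMap.id)) = 2 ∧
      ∀ v w : Fin 2 ⊕ Fin 2 → F, (φ x : Matrix (Fin 2 ⊕ Fin 2) (Fin 2 ⊕ Fin 2) F).mulVec v = v →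
        (φ x : Matrix (Fin 2 ⊕ Fin 2) (Fin 2 ⊕ Fin 2) F).mulVec w = w →
          dotProduct v ((Matrix.J (Fin 2) F).mulVec w) = 0 := by
  exact main_thm hF hK φ hφ x hx

end Cfsg.Agent.S3213
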