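import Cfsg.Statements.S3215
import Mathlib
import Cfsg.Agent.Lib.OddLocal.FrobComp
import Cfsg.Agent.Lib.OddLocal.Sup
import Cfsg.Agent.Lib.OddLocal.Basic
import Cfsg.Agent.Lib.OddLocal.HallHigman
import Cfsg.Agent.Lib.OddLocal.PGroup
import Cfsg.Agent.Lib.Coprime.PGroup
import Cfsg.Agent.Lib.LocalEven.PClosed
import Cfsg.Agent.Lib.Basic.Solv1
import Cfsg.Agent.Lib.Components.Basic
import Cfsg.Agent.Lib.Basic.Core

set_option autoImplicit false
open Cfsg

namespace Cfsg.Agent.S3215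

open Subgroup Cfsg Cfsg.Agent.Lib Cfsg.Agent.Lib.Components
open scoped commutatorElement

section aux
variable {H : Type*} [Group H] [Finite H]

/-- Step A: involution centralizers are 2-groups. -/
theorem centralizer_isPGroup (hsol : Group.IsSolvable H) (hO : Cfsg.oddCore H = ⊥)
    (hI : ∀ t : H, orderOf t = 2 → Cfsg.HasNormalPComplement 2 ↥(Subgroup.centralizer ({t} : Set H)))
    (t : H) (ht : orderOf t = 2) : IsPGroup 2 ↥(Subgroup.centralizer ({t} : Set H)) := by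
  haveI : Fact (Nat.Prime 2) := ⟨Nat.prime_two⟩
  haveI := hsol
  obtain ⟨P, R, hRn, hc⟩ := hI t ht
  -- the image of R in H
  obtain ⟨R', hR'⟩ : ∃ R' : Subgroup H, R' = R.map (Subgroup.centralizer ({t} : Set H)).subtype := ⟨_, rfl⟩
  have hcardR : Nat.card R' = Nat.card R := by
    rw [hR']; exact Subgroup.card_map_of_injective (Subgroup.subtype_injective _)
  have hcop : (Nat.card R).Coprime 2 := by
    rw [← hc.index_eq_card]
    exact ((Nat.Prime.coprime_iff_not_dvd Nat.prime_two).2 P.not_dvd_index).symm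
  have hY : IsPGroup 2 (pCore 2 H) := pCore_isPGroup
  have hYn : (pCore 2 H).Normal := inferInstance
  have hR'Y : ∀ x, x ∈ R' → x ∈ pCore 2 H → x = 1 := by
    intro x hx hy
    have h1 : orderOf x ∣ Nat.card R' := Subgroup.orderOf_dvd_natCard R' hx
    obtain ⟨k, hk⟩ := (IsPGroup.iff_orderOf.mp hY) ⟨x, hy⟩
    rw [Subgroup.orderOf_mk] at hk
    rw [hcardR, hk] at h1
    have h2 : (2 ^ k).Coprime (Nat.card R) := (Nat.Coprime.pow_left k hcop.symm)
    have h3 := Nat.Coprime.eq_one_of_dvd h2 h1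
    rw [← hk] at h3
    exact orderOf_eq_one_iff.mp h3
  have hRcen : R' ≤ centralizer (pCore 2 H : Set H) := by
    apply Cfsg.Agent.Lib.OddLocal.thompson_AxB 2 (pCore 2 H) R' (zpowers t) hY
    · exact IsPGroup.of_card (n := 1) (by rw [Nat.card_zpowers, ht, pow_one])
    · rw [hcardR]; exact hcop
    · rw [Subgroup.normalizer_eq_top]; exact le_top
    · rw [Subgroup.normalizer_eq_top]; exact le_top
    · intro a ha b hb
      obtain ⟨i, rfl⟩ := Subgroup.mem_zpowers_iff.mp hb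
      rw [hR'] at ha
      obtain ⟨a', -, rfl⟩ := ha
      have h1 : (a' : H) * t = t * a' := Subgroup.mem_centralizer_singleton_iff.mp a'.2
      exact (Commute.zpow_right (show Commute (a' : H) t from h1) i)
    · intro a ha x hx hb
      have hxC : x ∈ centralizer ({t} : Set H) := by
        rw [Subgroup.mem_centralizer_singleton_iff]
        exact (hb t (Subgroup.mem_zpowers t)).symm
      have h1 : a * x * a⁻¹ * x⁻¹ ∈ R' := by
        rw [hR'] at ha ⊢
        obtain ⟨a', ha', rfl⟩ := ha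
        refine ⟨a' * (⟨x, hxC⟩ * a'⁻¹ * (⟨x, hxC⟩ : ↥(centralizer ({t} : Set H)))⁻¹), R.mul_mem ha' ?_, ?_⟩
        · have := hRn.conj_mem _ (R.inv_mem ha') ⟨x, hxC⟩
          exact this
        · simp [mul_assoc]
      have h2 : a * x * a⁻¹ * x⁻¹ ∈ pCore 2 H := by
        have := hYn.conj_mem x hx a
        exact (pCore 2 H).mul_mem this ((pCore 2 H).inv_mem hx)
      have h3 := hR'Y _ h1 h2
      have h4 : a * x * a⁻¹ = x := by
        rw [mul_inv_eq_one] at h3; exact h3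
      rw [mul_inv_eq_iff_eq_mul] at h4
      exact h4
  have hRY : R' ≤ pCore 2 H := hRcen.trans (OddLocal.centralizer_pCore_le hO)
  have hRbot : R = ⊥ := by
    rw [eq_bot_iff]
    intro r hr
    have h1 := hR'Y (r : H) (by rw [hR']; exact ⟨r, hr, rfl⟩) (hRY (by rw [hR']; exact ⟨r, hr, rfl⟩))
    exact Subtype.ext h1
  subst hRbot
  have hPt : (P : Subgroup ↥(centralizer ({t} : Set H))) = ⊤ := by
    have h1 := hc.card_mul_card
    simp only [Subgroup.card_bot, one_mul] at h1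
    exact Subgroup.eq_top_of_card_eq _ h1
  rw [IsPGroup.iff_orderOf]
  intro g
  have h1 := (IsPGroup.iff_orderOf.mp P.isPGroup') ⟨g, by rw [hPt]; trivial⟩
  simpa [Subgroup.orderOf_mk] using h1

/-- An element of odd order commuting with a nontrivial 2-element is trivial. -/
theorem eq_one_of_commute (hC : ∀ t : H, orderOf t = 2 → IsPGroup 2 ↥(Subgroup.centralizer ({t} : Set H)))
    {x y : H} (hx : (orderOf x).Coprime 2) (hy : ∃ k, orderOf y = 2 ^ k) (hy1 : y ≠ 1) (hxy : x * y = y * x) :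
    x = 1 := by
  haveI : Fact (Nat.Prime 2) := ⟨Nat.prime_two⟩
  obtain ⟨k, hk⟩ := hy
  obtain ⟨u, hu, hxu⟩ : ∃ u : H, orderOf u = 2 ∧ x * u = u * x := by
    have hk0 : k ≠ 0 := by
      rintro rfl
      rw [pow_zero, orderOf_eq_one_iff] at hk
      exact hy1 hk
    obtain ⟨j, rfl⟩ := Nat.exists_eq_succ_of_ne_zero hk0
    refine ⟨y ^ 2 ^ j, ?_, ?_⟩
    · apply orderOf_eq_prime
      · rw [← pow_mul, ← pow_succ, ← hk, pow_orderOf_eq_one]
      · intro h
        have := orderOf_dvd_of_pow_eq_one h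
        rw [hk] at this
        have := Nat.le_of_dvd (by positivity) this
        rw [Nat.succ_eq_add_one, pow_succ] at this
        have h2 : 0 < 2 ^ j := by positivity
        omega
    · exact (Commute.pow_right (show Commute x y from hxy) _)
  have hxC : x ∈ centralizer ({u} : Set H) := Subgroup.mem_centralizer_singleton_iff.mpr hxu
  obtain ⟨m, hm⟩ := (IsPGroup.iff_orderOf.mp (hC u hu)) ⟨x, hxC⟩
  rw [Subgroup.orderOf_mk] at hm
  rw [hm] at hx
  have : m = 0 := by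
    by_contra h
    have h2 := Nat.Coprime.eq_one_of_dvd hx.symm (dvd_pow_self 2 h)
    omega
  subst this
  rw [pow_zero, orderOf_eq_one_iff] at hm
  exact hm


/-- Lemma D: a 2-element outside `Y` commuting mod `Y` with an odd-order element. -/
theorem eq_one_of_comm_mod (hC : ∀ t : H, orderOf t = 2 → IsPGroup 2 ↥(Subgroup.centralizer ({t} : Set H)))
    (Y : Subgroup H) [hYn : Y.Normal] (hY : IsPGroup 2 Y)
    {t f : H} (ht : ∃ k, orderOf t = 2 ^ k) (htY : t ∉ Y) (hf : (orderOf f).Coprime 2)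
    (hcomm : t * f * t⁻¹ * f⁻¹ ∈ Y) : f = 1 := by
  haveI : Fact (Nat.Prime 2) := ⟨Nat.prime_two⟩
  obtain ⟨A, hA⟩ : ∃ A : Subgroup H, A = zpowers f := ⟨_, rfl⟩
  have hcA : Nat.card A = orderOf f := by rw [hA, Nat.card_zpowers]
  have hfA : f ∈ A := by rw [hA]; exact Subgroup.mem_zpowers f
  have hact : Coprime.CoprimeAction A Y :=
    Coprime.coprimeAction_of_isPGroup hY (by rw [hcA]; exact hf) (by rw [Subgroup.normalizer_eq_top]; exact le_top)
  obtain ⟨B, hB⟩ : ∃ B : Subgroup H, B = A.map (MulAut.conj t).toMonoidHom := ⟨_, rfl⟩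
  have hBle : B ≤ Y ⊔ A := by
    rw [hB, hA, Subgroup.map_le_iff_le_comap, Subgroup.zpowers_le]
    have h1 : t * f * t⁻¹ = (t * f * t⁻¹ * f⁻¹) * f := by group
    change t * f * t⁻¹ ∈ Y ⊔ zpowers f
    rw [h1]
    exact (Y ⊔ zpowers f).mul_mem (Subgroup.mem_sup_left hcomm) (Subgroup.mem_sup_right (Subgroup.mem_zpowers f))
  have hcB : Nat.card B = Nat.card A := by
    rw [hB]; exact Subgroup.card_map_of_injective (MulAut.conj t).injective
  obtain ⟨y, hy, hBy⟩ := hact.exists_conj_eq hBle hcB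
  have hmem : t * f * t⁻¹ ∈ A.map (MulAut.conj y).toMonoidHom := by
    rw [← hBy, hB]; exact ⟨f, hfA, rfl⟩
  obtain ⟨a, haA, ha⟩ := hmem
  have ha' : y * a * y⁻¹ = t * f * t⁻¹ := ha
  obtain ⟨n, hn⟩ : ∃ n : H, n = y⁻¹ * t := ⟨_, rfl⟩
  have h1 : n * f * n⁻¹ = a := by
    rw [hn]
    calc y⁻¹ * t * f * (y⁻¹ * t)⁻¹ = y⁻¹ * (t * f * t⁻¹) * y := by group
      _ = y⁻¹ * (y * a * y⁻¹) * y := by rw [ha']
      _ = a := by group
  have h2 : n * f * n⁻¹ * f⁻¹ ∈ A := by rw [h1]; exact A.mul_mem haA (A.inv_mem hfA)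
  have h3 : n * f * n⁻¹ * f⁻¹ ∈ Y := by
    have e1 : n * f * n⁻¹ * f⁻¹ = y⁻¹ * (t * f * t⁻¹ * f⁻¹) * (f * y * f⁻¹) := by rw [hn]; group
    rw [e1]
    exact Y.mul_mem (Y.mul_mem (Y.inv_mem hy) hcomm) (hYn.conj_mem y hy f)
  have h4 : n * f * n⁻¹ * f⁻¹ = 1 := by
    have h5 : orderOf (n * f * n⁻¹ * f⁻¹) ∣ Nat.card A := Subgroup.orderOf_dvd_natCard A h2
    obtain ⟨k, hk⟩ := (IsPGroup.iff_orderOf.mp hY) ⟨_, h3⟩
    rw [Subgroup.orderOf_mk] at hk
    rw [hcA, hk] at h5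
    have h6 := Nat.Coprime.eq_one_of_dvd (Nat.Coprime.pow_left k hf.symm) h5
    rw [← hk] at h6
    exact orderOf_eq_one_iff.mp h6
  have h5 : f * n = n * f := by
    have h6 : n * f * n⁻¹ = f := by rw [mul_inv_eq_one] at h4; exact h4
    rw [mul_inv_eq_iff_eq_mul] at h6
    exact h6.symm
  have hn2 : ∃ k, orderOf n = 2 ^ k := by
    have hS : IsPGroup 2 ↥(Y ⊔ zpowers t) := by
      apply hY.to_sup_of_normal_left
      obtain ⟨k, hk⟩ := ht
      exact IsPGroup.of_card (n := k) (by rw [Nat.card_zpowers, hk])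
    have hnS : n ∈ Y ⊔ zpowers t := by
      rw [hn]
      exact (Y ⊔ zpowers t).mul_mem (Subgroup.mem_sup_left (Y.inv_mem hy))
        (Subgroup.mem_sup_right (Subgroup.mem_zpowers t))
    obtain ⟨k, hk⟩ := (IsPGroup.iff_orderOf.mp hS) ⟨n, hnS⟩
    rw [Subgroup.orderOf_mk] at hk
    exact ⟨k, hk⟩
  have hn1 : n ≠ 1 := by
    intro h
    rw [hn, inv_mul_eq_one] at h
    exact htY (h ▸ hy)
  exact eq_one_of_commute hC hf hn2 hn1 h5

/-- Odd `q`-subgroups are cyclic. -/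
theorem isCyclic_of_oddP (hsol : Group.IsSolvable H) (hO : Cfsg.oddCore H = ⊥)
    (hC : ∀ t : H, orderOf t = 2 → IsPGroup 2 ↥(Subgroup.centralizer ({t} : Set H)))
    {q : ℕ} [Fact q.Prime] (hq : q ≠ 2) (Q : Subgroup H) (hQ : IsPGroup q Q) : IsCyclic Q := by
  haveI : Fact (Nat.Prime 2) := ⟨Nat.prime_two⟩
  haveI := hsol
  have hqp : q.Prime := Fact.out
  by_cases hYb : pCore 2 H = ⊥
  · have h1 := OddLocal.centralizer_pCore_le hO
    rw [hYb] at h1
    have h2 : Q = ⊥ := by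
      rw [eq_bot_iff]
      intro x _
      apply h1
      rw [Subgroup.mem_centralizer_iff]
      intro g hg
      have : g = 1 := hg
      simp [this]
    rw [h2]
    infer_instance
  · have hcard : (Nat.card Q).Coprime 2 := by
      obtain ⟨k, hk⟩ := IsPGroup.iff_card.mp hQ
      rw [hk]
      exact Nat.Coprime.pow_left _ ((Nat.coprime_primes hqp Nat.prime_two).2 hq)
    have hfpf : ∀ h ∈ Q, h ≠ 1 → pCore 2 H ⊓ centralizer {h} = ⊥ := by
      intro h hh hh1
      rw [eq_bot_iff]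
      rintro y ⟨hy, hyc⟩
      by_contra hy1
      have hy1' : y ≠ 1 := hy1
      apply hh1
      apply eq_one_of_commute hC (x := h) (y := y)
      · exact Nat.Coprime.coprime_dvd_left (Subgroup.orderOf_dvd_natCard Q hh) hcard
      · obtain ⟨k, hk⟩ := (IsPGroup.iff_orderOf.mp (pCore_isPGroup (p := 2) (G := H))) ⟨y, hy⟩
        rw [Subgroup.orderOf_mk] at hk
        exact ⟨k, hk⟩
      · exact hy1'
      · exact (Subgroup.mem_centralizer_singleton_iff.mp hyc).symm
    rcases OddLocal.cyclic_or_quaternion_of_fpf hYb hQ hfpf with h | ⟨n, ⟨e⟩⟩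
    · exact h
    · exfalso
      have h1 := Nat.card_congr e.toEquiv
      haveI : NeZero (2 ^ n) := ⟨by positivity⟩
      rw [Nat.card_eq_fintype_card (α := QuaternionGroup (2 ^ n)), QuaternionGroup.card] at h1
      rw [h1] at hcard
      have : (2 : ℕ).Coprime 2 := Nat.Coprime.coprime_dvd_left (⟨2 * 2 ^ n, by ring⟩ : 2 ∣ 4 * 2 ^ n) hcard
      norm_num at this

/-- The Fitting subgroup of `H/O₂(H)` has odd order. -/
theorem fitting_quot_odd :
    (Nat.card (fittingSubgroup (H ⧸ pCore 2 H))).Coprime 2 := by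
  haveI : Fact (Nat.Prime 2) := ⟨Nat.prime_two⟩
  have h1 : fittingSubgroup (H ⧸ pCore 2 H) ≤ pPrimeCore 2 (H ⧸ pCore 2 H) := by
    rw [Basic.fittingSubgroup_eq_iSup_pCore]
    refine iSup_le fun q => ?_
    haveI : Fact (q : ℕ).Prime := ⟨q.2⟩
    by_cases hq : (q : ℕ) = 2
    · rw [hq, LocalEven.pCore_quotient (p := 2) (pCore 2 H) pCore_isPGroup]
      have : (pCore 2 H).map (QuotientGroup.mk' (pCore 2 H)) = ⊥ := by
        rw [eq_bot_iff, Subgroup.map_le_iff_le_comap]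
        intro y hy
        simpa [Subgroup.mem_comap] using hy
      rw [this]
      exact bot_le
    · exact OddLocal.pCore_le_pPrimeCore_of_ne (p := 2) hq
  exact Nat.Coprime.coprime_dvd_left (Subgroup.card_dvd_of_le h1) (coprime_card_pPrimeCore 2)

/-- The Fitting subgroup of `H/O₂(H)` is cyclic. -/
theorem fitting_quot_cyclic (hsol : Group.IsSolvable H) (hO : Cfsg.oddCore H = ⊥)
    (hC : ∀ t : H, orderOf t = 2 → IsPGroup 2 ↥(Subgroup.centralizer ({t} : Set H))) :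
    IsCyclic (fittingSubgroup (H ⧸ pCore 2 H)) := by
  haveI : Fact (Nat.Prime 2) := ⟨Nat.prime_two⟩
  haveI : IsZGroup (fittingSubgroup (H ⧸ pCore 2 H)) := by
    refine ⟨fun q hq P => ?_⟩
    haveI : Fact q.Prime := ⟨hq⟩
    by_cases hq2 : q = 2
    · subst hq2
      have h1 : Nat.card P ∣ Nat.card (fittingSubgroup (H ⧸ pCore 2 H)) := Subgroup.card_subgroup_dvd_card _
      obtain ⟨k, hk⟩ := IsPGroup.iff_card.mp P.isPGroup'
      have h2 := Nat.Coprime.coprime_dvd_left h1 (fitting_quot_odd (H := H))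
      rw [hk] at h2
      have hk0 : k = 0 := by
        by_contra h
        have h3 := Nat.Coprime.eq_one_of_dvd h2.symm (dvd_pow_self 2 h)
        omega
      subst hk0
      rw [pow_zero] at hk
      exact isCyclic_of_card_dvd_prime (p := 2) (by rw [hk]; exact one_dvd _)
    · obtain ⟨U, hU⟩ : ∃ U : Subgroup (H ⧸ pCore 2 H), U = (P : Subgroup _).map (fittingSubgroup (H ⧸ pCore 2 H)).subtype := ⟨_, rfl⟩
      have hUp : IsPGroup q U := by
        rw [hU]; exact P.isPGroup'.map _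
      obtain ⟨S, hS⟩ := hUp.exists_le_sylow
      obtain ⟨Q, hQ⟩ := Sylow.mapSurjective_surjective (QuotientGroup.mk'_surjective (pCore 2 H)) q S
      have hQc : IsCyclic (Q : Subgroup H) := isCyclic_of_oddP hsol hO hC hq2 Q Q.isPGroup'
      have hSc : IsCyclic (S : Subgroup (H ⧸ pCore 2 H)) := by
        rw [← hQ, Sylow.coe_mapSurjective]
        exact isCyclic_of_surjective _ (MonoidHom.subgroupMap_surjective _ _)
      have hUc : IsCyclic U := Subgroup.isCyclic_of_le hS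
      rw [hU] at hUc
      exact isCyclic_of_surjective (Subgroup.equivMapOfInjective (P : Subgroup _) (fittingSubgroup (H ⧸ pCore 2 H)).subtype (Subgroup.subtype_injective _)).symm
        (Subgroup.equivMapOfInjective (P : Subgroup _) _ (Subgroup.subtype_injective _)).symm.surjective
  haveI : Group.IsNilpotent (fittingSubgroup (H ⧸ pCore 2 H)) := Basic.fittingSubgroup_isNilpotent
  infer_instance

/-- A normal odd subgroup lies in any odd subgroup of 2-power index. -/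
theorem normal_odd_le {G : Type*} [Group G] [Finite G] (N X : Subgroup G) [hN : N.Normal]
    (hNc : (Nat.card N).Coprime 2) (hXc : (Nat.card X).Coprime 2) (hidx : ∃ k : ℕ, X.index = 2 ^ k) : N ≤ X := by
  obtain ⟨k, hk⟩ := hidx
  have h1 := OddLocal.card_sup_mul_card_inf_of_normal N X hN
  have h2 : (Nat.card ↥(N ⊔ X)).Coprime 2 :=
    Nat.Coprime.coprime_dvd_left (Dvd.intro _ h1) (Nat.Coprime.mul_left hNc hXc)
  have hle : X ≤ N ⊔ X := le_sup_right
  have h3 : X.relIndex (N ⊔ X) ∣ 2 ^ k := by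
    rw [← hk]; exact Subgroup.relIndex_dvd_index_of_le hle
  have h4 : X.relIndex (N ⊔ X) * Nat.card X = Nat.card ↥(N ⊔ X) := by
    rw [mul_comm]; exact OddLocal.card_mul_relIndex hle
  have h5 : (X.relIndex (N ⊔ X)).Coprime 2 := Nat.Coprime.coprime_dvd_left (Dvd.intro _ h4) h2
  have h6 : X.relIndex (N ⊔ X) = 1 := Nat.Coprime.eq_one_of_dvd (Nat.Coprime.pow_right k h5) h3
  have h7 : (N ⊔ X) ≤ X := Subgroup.relIndex_eq_one.mp h6
  exact le_sup_left.trans h7

end aux


/-- Let H be a finite solvable group with no nontrivial normal subgroup of odd order in which the centralizer of every involution has a normal 2-complement. Let X be a Hall 2'-subgroup of H (odd order, index a power of 2) and Y = O₂(H). Then no non-identity element of X commutes with a non-identity element of Y (so for X ≠ 1 the group XY is a Frobenius group with kernel Y), every Sylow subgroup of X is cyclic, XY is normal in H, and H/XY is a cyclic 2-group. -/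
theorem result {H : Type*} [Group H] [Finite H] (hsol : Group.IsSolvable H)
    (hO : Cfsg.oddCore H = ⊥)
    (hI : ∀ t : H, orderOf t = 2 → Cfsg.HasNormalPComplement 2 ↥(Subgroup.centralizer ({t} : Set H)))
    (X : Subgroup H) (hXodd : Odd (Nat.card X)) (hXidx : ∃ k : ℕ, X.index = 2 ^ k) :
    (∀ x ∈ X, x ≠ 1 → ∀ y ∈ Cfsg.pCore 2 H, y ≠ 1 → x * y ≠ y * x) ∧
      (∀ (p : ℕ) [Fact p.Prime] (P : Sylow p ↥X), IsCyclic ↥(P : Subgroup ↥X)) ∧
      (X ⊔ Cfsg.pCore 2 H).Normal ∧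
      ∀ hN : (X ⊔ Cfsg.pCore 2 H).Normal, IsCyclic (H ⧸ (X ⊔ Cfsg.pCore 2 H)) ∧ IsPGroup 2 (H ⧸ (X ⊔ Cfsg.pCore 2 H)) := by
  haveI : Fact (Nat.Prime 2) := ⟨Nat.prime_two⟩
  haveI := hsol
  have hC := centralizer_isPGroup hsol hO hI
  have hXc : (Nat.card X).Coprime 2 := by
    exact Nat.coprime_two_right.mpr hXodd
  have hY : IsPGroup 2 (pCore 2 H) := pCore_isPGroup
  obtain ⟨k, hk⟩ := hXidx
  have part1 : ∀ x ∈ X, x ≠ 1 → ∀ y ∈ Cfsg.pCore 2 H, y ≠ 1 → x * y ≠ y * x := by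
    intro x hx hx1 y hy hy1 hxy
    apply hx1
    apply eq_one_of_commute hC (x := x) (y := y)
    · exact Nat.Coprime.coprime_dvd_left (Subgroup.orderOf_dvd_natCard X hx) hXc
    · obtain ⟨k, hk⟩ := (IsPGroup.iff_orderOf.mp hY) ⟨y, hy⟩
      rw [Subgroup.orderOf_mk] at hk
      exact ⟨k, hk⟩
    · exact hy1
    · exact hxy
  have part2 : ∀ (p : ℕ) [Fact p.Prime] (P : Sylow p ↥X), IsCyclic ↥(P : Subgroup ↥X) := by
    intro p _ P
    by_cases hp : p = 2
    · subst hp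
      obtain ⟨j, hj⟩ := IsPGroup.iff_card.mp P.isPGroup'
      have h1 : Nat.card P ∣ Nat.card X := Subgroup.card_subgroup_dvd_card _
      have h2 := Nat.Coprime.coprime_dvd_left h1 hXc
      rw [hj] at h2
      have hj0 : j = 0 := by
        by_contra h
        have h3 := Nat.Coprime.eq_one_of_dvd h2.symm (dvd_pow_self 2 h)
        omega
      subst hj0
      rw [pow_zero] at hj
      exact isCyclic_of_card_dvd_prime (p := 2) (by rw [hj]; exact one_dvd _)
    · have h1 : IsCyclic ((P : Subgroup X).map X.subtype) :=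
        isCyclic_of_oddP hsol hO hC hp _ (P.isPGroup'.map _)
      exact isCyclic_of_surjective (Subgroup.equivMapOfInjective (P : Subgroup _) X.subtype (Subgroup.subtype_injective _)).symm
        (Subgroup.equivMapOfInjective (P : Subgroup _) _ (Subgroup.subtype_injective _)).symm.surjective
  obtain ⟨π, hπ⟩ : ∃ π : H →* H ⧸ pCore 2 H, π = QuotientGroup.mk' (pCore 2 H) := ⟨_, rfl⟩
  have hπs : Function.Surjective π := by rw [hπ]; exact QuotientGroup.mk'_surjective _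
  have hπk : ∀ x, π x = 1 ↔ x ∈ pCore 2 H := by
    intro x; rw [hπ]; exact QuotientGroup.eq_one_iff x
  obtain ⟨F, hF⟩ : ∃ F : Subgroup (H ⧸ pCore 2 H), F = fittingSubgroup (H ⧸ pCore 2 H) := ⟨_, rfl⟩
  have hFn : F.Normal := by rw [hF]; haveI := Basic.fittingSubgroup_characteristic (G := H ⧸ pCore 2 H); exact Subgroup.normal_of_characteristic _
  have hFc : (Nat.card F).Coprime 2 := by rw [hF]; exact fitting_quot_odd
  have hFcy : IsCyclic F := by rw [hF]; exact fitting_quot_cyclic hsol hO hC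
  have hCF : centralizer (F : Set (H ⧸ pCore 2 H)) ≤ F := by
    rw [hF]; exact Basic.centralizer_fittingSubgroup_le
  obtain ⟨Xb, hXb⟩ : ∃ Xb : Subgroup (H ⧸ pCore 2 H), Xb = X.map π := ⟨_, rfl⟩
  have hXbc : (Nat.card Xb).Coprime 2 := by
    rw [hXb]; exact Nat.Coprime.coprime_dvd_left (Subgroup.card_map_dvd _ _) hXc
  have hXbi : ∃ j : ℕ, Xb.index = 2 ^ j := by
    have h1 : Xb.index ∣ 2 ^ k := by rw [hXb, ← hk]; exact Subgroup.index_map_dvd _ hπs
    obtain ⟨j, -, hj⟩ := (Nat.dvd_prime_pow Nat.prime_two).1 h1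
    exact ⟨j, hj⟩
  have hFX : F ≤ Xb := normal_odd_le F Xb hFc hXbc hXbi
  -- commutators lie in F
  have hcomm : ∀ a b : H ⧸ pCore 2 H, a * b * a⁻¹ * b⁻¹ ∈ F := by
    intro a b
    apply hCF
    rw [Subgroup.mem_centralizer_iff]
    intro f hf
    have hab : ∀ u v : MulAut F, u * v = v * u := fun u v =>
      (IsCyclic.mulAutMulEquiv F).injective (by simp [mul_comm])
    have h1 : MulAut.conjNormal (H := F) (a * b * a⁻¹ * b⁻¹) = 1 := by
      simp only [map_mul, map_inv]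
      rw [hab (MulAut.conjNormal (H := F) a) (MulAut.conjNormal (H := F) b)]
      group
    have h4 := congrArg (fun u : MulAut F => ((u ⟨f, hf⟩ : F) : H ⧸ pCore 2 H)) h1
    simp only [MulAut.conjNormal_apply, MulAut.one_apply] at h4
    rw [mul_inv_eq_iff_eq_mul] at h4
    exact h4.symm
  have hFab : ∀ u ∈ F, ∀ v ∈ F, u * v = v * u := by
    intro u hu v hv
    letI := IsCyclic.commGroup (α := F)
    have h := mul_comm (⟨u, hu⟩ : F) ⟨v, hv⟩
    exact congrArg Subtype.val h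
  -- X ⊔ Y is normal: the preimage of Xb
  have hcomap : X ⊔ pCore 2 H = Xb.comap π := by
    have h1 : π.ker = pCore 2 H := by
      ext x; rw [MonoidHom.mem_ker]; exact hπk x
    rw [hXb, Subgroup.comap_map_eq, h1]
  have hXbn : Xb.Normal := by
    refine ⟨fun n hn g => ?_⟩
    have h1 : g * n * g⁻¹ = (g * n * g⁻¹ * n⁻¹) * n := by group
    rw [h1]
    exact Xb.mul_mem (hFX (hcomm _ _)) hn
  have hMn : (X ⊔ pCore 2 H).Normal := by
    rw [hcomap]; exact hXbn.comap π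
  refine ⟨part1, part2, hMn, fun hN => ?_⟩
  have hMmem : ∀ x, π x ∈ Xb ↔ x ∈ X ⊔ pCore 2 H := by
    intro x; rw [hcomap]; rfl
  -- 2-group
  have hp2 : IsPGroup 2 (H ⧸ (X ⊔ pCore 2 H)) := by
    have h1 : (X ⊔ pCore 2 H).index ∣ 2 ^ k := by
      rw [← hk]; exact Subgroup.index_dvd_of_le le_sup_left
    obtain ⟨j, -, hj⟩ := (Nat.dvd_prime_pow Nat.prime_two).1 h1
    exact IsPGroup.of_card (n := j) (by rw [← Subgroup.index_eq_card, hj])
  refine ⟨?_, hp2⟩
  -- commutativity of the quotient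
  have hab : ∀ a b : H ⧸ (X ⊔ pCore 2 H), a * b = b * a := by
    intro a b
    obtain ⟨a, rfl⟩ := QuotientGroup.mk_surjective a
    obtain ⟨b, rfl⟩ := QuotientGroup.mk_surjective b
    have h1 : a * b * a⁻¹ * b⁻¹ ∈ X ⊔ pCore 2 H := by
      rw [← hMmem]
      apply hFX
      have : π (a * b * a⁻¹ * b⁻¹) = π a * π b * (π a)⁻¹ * (π b)⁻¹ := by simp
      rw [this]
      exact hcomm _ _
    have h2 : ((a * b * a⁻¹ * b⁻¹ : H) : H ⧸ (X ⊔ pCore 2 H)) = 1 := (QuotientGroup.eq_one_iff _).mpr h1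
    simp only [QuotientGroup.mk_mul, QuotientGroup.mk_inv] at h2
    rw [mul_inv_eq_one, mul_inv_eq_iff_eq_mul] at h2
    simpa using h2
  apply OddLocal.isCyclic_of_comm_uniqueP hp2 hab
  -- lifting involutions
  have hlift : ∀ w : H ⧸ (X ⊔ pCore 2 H), orderOf w = 2 → ∃ t : H, ((t : H) : H ⧸ (X ⊔ pCore 2 H)) = w ∧
      ∀ f ∈ F, π t * f * (π t)⁻¹ = f⁻¹ := by
    intro w hw
    obtain ⟨g, rfl⟩ := QuotientGroup.mk_surjective w
    obtain ⟨a, m, hm, ham⟩ := Nat.exists_eq_two_pow_mul_odd (orderOf_pos g).ne'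
    have htw : ((g ^ m : H) : H ⧸ (X ⊔ pCore 2 H)) = g := by
      obtain ⟨l, hl⟩ := hm
      have h2 : ((g : H ⧸ (X ⊔ pCore 2 H))) ^ 2 = 1 := by
        have := pow_orderOf_eq_one (g : H ⧸ (X ⊔ pCore 2 H))
        rwa [hw] at this
      rw [QuotientGroup.mk_pow, hl, pow_succ, pow_mul, h2, one_pow, one_mul]
    have hto : orderOf (g ^ m) = 2 ^ a := by
      rw [orderOf_pow_of_dvd hm.pos.ne' (ham ▸ Dvd.intro_left _ rfl), ham]
      exact Nat.mul_div_cancel _ hm.pos
    refine ⟨g ^ m, htw, ?_⟩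
    obtain ⟨t, ht⟩ : ∃ t, t = g ^ m := ⟨_, rfl⟩
    rw [← ht] at hto htw ⊢
    have htY : t ∉ pCore 2 H := by
      intro h
      have h1 : t ∈ X ⊔ pCore 2 H := Subgroup.mem_sup_right h
      have h2 : ((t : H) : H ⧸ (X ⊔ pCore 2 H)) = 1 := (QuotientGroup.eq_one_iff _).mpr h1
      rw [htw] at h2
      rw [h2, orderOf_one] at hw
      omega
    have ht2 : π t * π t = 1 := by
      have h1 : t * t ∈ X ⊔ pCore 2 H := by
        rw [← QuotientGroup.eq_one_iff]
        rw [QuotientGroup.mk_mul, htw, ← pow_two]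
        have := pow_orderOf_eq_one (g : H ⧸ (X ⊔ pCore 2 H))
        rwa [hw] at this
      have h2 : π (t * t) ∈ Xb := (hMmem _).mpr h1
      have h3 : orderOf (π (t * t)) ∣ Nat.card Xb := Subgroup.orderOf_dvd_natCard Xb h2
      have h4 : orderOf (π (t * t)) ∣ 2 ^ a := by
        apply orderOf_dvd_of_pow_eq_one
        rw [← map_pow, ← pow_two, ← pow_mul, mul_comm, pow_mul, ← hto, pow_orderOf_eq_one, one_pow, map_one]
      have h5 : orderOf (π (t * t)) = 1 :=
        Nat.Coprime.eq_one_of_dvd (Nat.Coprime.pow_right a (Nat.Coprime.coprime_dvd_left h3 hXbc)) h4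
      rw [orderOf_eq_one_iff, map_mul] at h5
      exact h5
    intro f hf
    obtain ⟨e, he⟩ : ∃ e, e = f * (π t * f * (π t)⁻¹) := ⟨_, rfl⟩
    have heF : e ∈ F := by
      rw [he]; exact F.mul_mem hf (hFn.conj_mem f hf _)
    have hti : (π t)⁻¹ = π t := by
      rw [inv_eq_iff_mul_eq_one]; exact ht2
    have hecomm : π t * e * (π t)⁻¹ = e := by
      have h1 : π t * e * (π t)⁻¹ = (π t * f * (π t)⁻¹) * f := by
        rw [he, hti]
        calc π t * (f * (π t * f * π t)) * π t = π t * f * π t * (π t * π t) * f * (π t * π t) := by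
              simp [ht2, mul_assoc]
          _ = _ := by simp [ht2, mul_assoc]
      rw [h1, he]
      exact hFab _ (hFn.conj_mem f hf _) _ hf
    rw [hXb] at hFX
    obtain ⟨x, hxX, hxe⟩ := hFX heF
    have hx1 : x = 1 := by
      apply eq_one_of_comm_mod hC (pCore 2 H) hY ⟨a, hto⟩ htY
        (Nat.Coprime.coprime_dvd_left (Subgroup.orderOf_dvd_natCard X hxX) hXc)
      rw [← hπk]
      simp only [map_mul, map_inv, hxe]
      rw [hecomm, mul_inv_cancel]
    have he1 : e = 1 := by rw [← hxe, hx1, map_one]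
    rw [he] at he1
    exact eq_inv_of_mul_eq_one_right he1
  have huniq : ∀ w₁ w₂ : H ⧸ (X ⊔ pCore 2 H), orderOf w₁ = 2 → orderOf w₂ = 2 → w₁ = w₂ := by
    intro w₁ w₂ h₁ h₂
    obtain ⟨t₁, rfl, hinv₁⟩ := hlift w₁ h₁
    obtain ⟨t₂, rfl, hinv₂⟩ := hlift w₂ h₂
    have h3 : π t₁ * π t₂ ∈ centralizer (F : Set (H ⧸ pCore 2 H)) := by
      rw [Subgroup.mem_centralizer_iff]
      intro f hf
      have h4 := hinv₂ f hf
      have h5 := hinv₁ f⁻¹ (F.inv_mem hf)
      have h6 : π t₁ * π t₂ * f * (π t₁ * π t₂)⁻¹ = f := by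
        calc π t₁ * π t₂ * f * (π t₁ * π t₂)⁻¹ = π t₁ * (π t₂ * f * (π t₂)⁻¹) * (π t₁)⁻¹ := by group
          _ = π t₁ * f⁻¹ * (π t₁)⁻¹ := by rw [h4]
          _ = f := by rw [h5, inv_inv]
      rw [mul_inv_eq_iff_eq_mul] at h6
      exact h6.symm
    have h4 : π (t₁ * t₂) ∈ Xb := by
      rw [map_mul]; exact hFX (hCF h3)
    have h5 := (hMmem _).mp h4
    have h6 : ((t₁ * t₂ : H) : H ⧸ (X ⊔ pCore 2 H)) = 1 := (QuotientGroup.eq_one_iff _).mpr h5
    rw [QuotientGroup.mk_mul] at h6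
    have h7 : ((t₂ : H ⧸ (X ⊔ pCore 2 H))) ^ 2 = 1 := by
      have := pow_orderOf_eq_one (t₂ : H ⧸ (X ⊔ pCore 2 H))
      rwa [h₂] at this
    have h8 : ((t₁ : H ⧸ (X ⊔ pCore 2 H))) = (t₂ : H ⧸ (X ⊔ pCore 2 H))⁻¹ := eq_inv_of_mul_eq_one_left h6
    rw [h8, inv_eq_iff_mul_eq_one, ← pow_two, h7]
  intro K₁ K₂ h₁ h₂
  have hgen : ∀ K : Subgroup (H ⧸ (X ⊔ pCore 2 H)), Nat.card K = 2 → ∃ w, orderOf w = 2 ∧ K = zpowers w := by
    intro K hK
    obtain ⟨w, hw⟩ := exists_prime_orderOf_dvd_card' (G := K) 2 (by rw [hK])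
    refine ⟨w, by rw [Subgroup.orderOf_coe]; exact hw, ?_⟩
    symm
    apply Subgroup.eq_of_le_of_card_ge
    · rw [Subgroup.zpowers_le]; exact w.2
    · rw [Nat.card_zpowers, hK, Subgroup.orderOf_coe, hw]
  obtain ⟨w₁, hw₁, rfl⟩ := hgen K₁ h₁
  obtain ⟨w₂, hw₂, rfl⟩ := hgen K₂ h₂
  rw [huniq w₁ w₂ hw₁ hw₂]

end Cfsg.Agent.S3215
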