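import Cfsg.Statements.S3224
import Mathlib
import Cfsg.Agent.Lib.Transfer.MaxClass2
import Cfsg.Agent.Lib.Transfer.MaxClass
import Cfsg.Agent.Lib.TwoGroups.Present

set_option autoImplicit false
open Cfsg

namespace Cfsg.Agent.S3224

/-- number theory: square roots of one mod a power of two -/
theorem sq_roots_aux (m : ℕ) (k : ℤ) (h : (2 : ℤ) ^ (m + 2) ∣ k ^ 2 - 1) :
    (2 : ℤ) ^ (m + 1) ∣ k - 1 ∨ (2 : ℤ) ^ (m + 1) ∣ k + 1 := by
  have hodd : Odd k := by
    by_contra hne
    rw [Int.not_odd_iff_even] at hne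
    have h1 : (2 : ℤ) ∣ k ^ 2 - 1 := Dvd.dvd.trans (dvd_pow_self 2 (by omega)) h
    have h2 : (2 : ℤ) ∣ k ^ 2 := Dvd.dvd.trans hne.two_dvd (dvd_pow_self k (by norm_num))
    have h3 : (2 : ℤ) ∣ 1 := by
      have := dvd_sub h2 h1
      simpa using this
    omega
  obtain ⟨t, rfl⟩ := hodd
  have h1 : (2 * t + 1) ^ 2 - 1 = 2 ^ 2 * (t * (t + 1)) := by ring
  rw [h1, pow_add, mul_comm ((2 : ℤ) ^ m)] at h
  have h2 : (2 : ℤ) ^ m ∣ t * (t + 1) := (mul_dvd_mul_iff_left (by norm_num)).mp h
  have hp : Prime (2 : ℤ) := Int.prime_two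
  by_cases ht : (2 : ℤ) ∣ t
  · have h3 : ¬ (2 : ℤ) ∣ t + 1 := by omega
    have h4 := hp.pow_dvd_of_dvd_mul_right m h3 h2
    left
    have : 2 * t + 1 - 1 = 2 * t := by ring
    rw [this, pow_succ']
    exact mul_dvd_mul_left 2 h4
  · have h4 := hp.pow_dvd_of_dvd_mul_left m ht h2
    right
    have : 2 * t + 1 + 1 = 2 * (t + 1) := by ring
    rw [this, pow_succ']
    exact mul_dvd_mul_left 2 h4


/-- A finite 2-group containing an involution whose centralizer has order 4 is dihedral, quasi-dihedral (semidihedral), or of order 4. -/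
theorem result {S : Type*} [Group S] [Finite S] (hS : IsPGroup 2 S)
    (x : S) (hx : orderOf x = 2) (hC : Nat.card ↥(Subgroup.centralizer ({x} : Set S)) = 4) :
    (∃ n : ℕ, Nonempty (S ≃* DihedralGroup n)) ∨ Cfsg.IsQuasiDihedral S ∨ Nat.card S = 4 := by
  classical
  haveI : Fact (Nat.Prime 2) := ⟨Nat.prime_two⟩
  obtain ⟨n, hn⟩ := IsPGroup.iff_card.mp hS
  set A := Subgroup.centralizer ({x} : Set S) with hA
  have hxA : x ∈ A := by
    rw [hA, Subgroup.mem_centralizer_singleton_iff]
  have h4n : 4 ≤ 2 ^ n := by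
    rw [← hn, ← hC]
    exact Subgroup.card_le_card_group _
  have hn2 : 2 ≤ n := by
    by_contra hlt
    have : n = 0 ∨ n = 1 := by omega
    rcases this with rfl | rfl <;> omega
  rcases Nat.lt_or_ge 2 n with hn3 | hn3
  swap
  · right; right
    have : n = 2 := by omega
    rw [hn, this]; norm_num
  have hC' : Nat.card A = 2 ^ 2 := by rw [hC]; norm_num
  have hAcomm : ∀ a ∈ A, ∀ b ∈ A, a * b = b * a := by
    intro a ha b hb
    have h1 := (IsPGroup.isMulCommutative_of_card_eq_prime_sq (p := 2) (G := A) hC').is_comm.comm ⟨a, ha⟩ ⟨b, hb⟩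
    exact congrArg Subtype.val h1
  have hCA : Subgroup.centralizer (A : Set S) = A := by
    apply le_antisymm
    · intro g hg
      rw [hA, Subgroup.mem_centralizer_singleton_iff]
      exact ((Subgroup.mem_centralizer_iff.mp hg) x hxA).symm
    · intro a ha
      rw [Subgroup.mem_centralizer_iff]
      intro b hb
      exact hAcomm b hb a ha
  have hclass := Cfsg.Agent.Lib.Transfer.class_of_self_centralizing (p := 2) n S hn A hC' hCA
  obtain ⟨C, hcyc, hidx⟩ := Cfsg.Agent.Lib.Transfer.exists_cyclic_index_two n S hn3 hn hclass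
  obtain ⟨m, rfl⟩ : ∃ m, n = m + 3 := ⟨n - 3, by omega⟩
  have hCcard : Nat.card C = 2 ^ (m + 2) := by
    have h1 := C.card_mul_index
    rw [hidx, hn, show 2 ^ (m + 3) = 2 ^ (m + 2) * 2 by ring] at h1
    exact Nat.eq_of_mul_eq_mul_right (by norm_num) h1
  obtain ⟨c0, hc0⟩ := IsCyclic.exists_generator (α := C)
  obtain ⟨c, hcdef⟩ : ∃ c : S, c = (c0 : S) := ⟨_, rfl⟩
  have hCz : C = Subgroup.zpowers c := by
    apply le_antisymm
    · intro y hy
      obtain ⟨k, hk⟩ := Subgroup.mem_zpowers_iff.mp (hc0 ⟨y, hy⟩)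
      refine Subgroup.mem_zpowers_iff.mpr ⟨k, ?_⟩
      rw [hcdef]
      have := congrArg Subtype.val hk
      simpa using this
    · rw [Subgroup.zpowers_le, hcdef]
      exact c0.2
  have hco : orderOf c = 2 ^ (m + 2) := by
    rw [← Nat.card_zpowers, ← hCz, hCcard]
  have hCn : C.Normal := Subgroup.normal_of_index_eq_two hidx
  have hx2 : x * x = 1 := by rw [← pow_two, ← hx]; exact pow_orderOf_eq_one x
  have hxinv : x⁻¹ = x := inv_eq_of_mul_eq_one_left hx2
  have hdvd : ∀ i : ℤ, c ^ i = 1 ↔ (2 : ℤ) ^ (m + 2) ∣ i := by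
    intro i
    rw [← orderOf_dvd_iff_zpow_eq_one, hco]
    push_cast
    rfl
  have hctop : c ^ ((2 : ℤ) ^ (m + 2)) = 1 := (hdvd _).mpr (dvd_refl _)
  -- `x ∉ C`
  have hxC : x ∉ C := by
    intro hm
    have huniq : ∀ y ∈ C, y * y = 1 → y ≠ 1 → y = c ^ ((2 : ℤ) ^ (m + 1)) := by
      intro y hy hy2 hy1
      rw [hCz] at hy
      obtain ⟨i, rfl⟩ := Subgroup.mem_zpowers_iff.mp hy
      rw [← zpow_add, hdvd, ← two_mul, pow_succ, mul_comm] at hy2
      have h2 : (2 : ℤ) ^ (m + 1) ∣ i := (mul_dvd_mul_iff_left (two_ne_zero)).mp hy2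
      obtain ⟨t, rfl⟩ := h2
      rcases Int.even_or_odd' t with ⟨s, rfl | rfl⟩
      · exfalso
        apply hy1
        rw [hdvd]
        exact ⟨s, by ring⟩
      · rw [show (2 : ℤ) ^ (m + 1) * (2 * s + 1) = 2 ^ (m + 2) * s + 2 ^ (m + 1) by ring, zpow_add, zpow_mul, hctop, one_zpow, one_mul]
    have hx1 : x ≠ 1 := by
      intro h0
      rw [h0, orderOf_one] at hx
      omega
    have hcentral : ∀ g : S, g * x * g⁻¹ = x := by
      intro g
      have h1 : g * x * g⁻¹ ∈ C := hCn.conj_mem x hm g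
      have h2 : (g * x * g⁻¹) * (g * x * g⁻¹) = 1 := by
        calc (g * x * g⁻¹) * (g * x * g⁻¹) = g * (x * x) * g⁻¹ := by group
          _ = 1 := by rw [hx2]; group
      have h3 : g * x * g⁻¹ ≠ 1 := by
        intro h0
        apply hx1
        have : x = g⁻¹ * (g * x * g⁻¹) * g := by group
        rw [this, h0]; group
      rw [huniq _ h1 h2 h3, huniq x hm hx2 hx1]
    have htopA : A = ⊤ := by
      rw [eq_top_iff]
      intro g _
      rw [hA, Subgroup.mem_centralizer_singleton_iff]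
      calc g * x = (g * x * g⁻¹) * g := by group
        _ = x * g := by rw [hcentral]
    rw [htopA, Subgroup.card_top, hn] at hC
    have : 2 ^ (m + 3) = 8 * 2 ^ m := by ring
    have h8 : 0 < 2 ^ m := by positivity
    omega
  have hxz : x ∉ Subgroup.zpowers c := by rw [← hCz]; exact hxC
  -- the exponent
  have hcC : c ∈ C := by rw [hCz]; exact Subgroup.mem_zpowers c
  obtain ⟨k, hk⟩ : ∃ k : ℤ, c ^ k = x * c * x⁻¹ := by
    have h1 := hCn.conj_mem c hcC x
    rw [hCz] at h1
    exact Subgroup.mem_zpowers_iff.mp h1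
  have hk2 : (2 : ℤ) ^ (m + 2) ∣ k ^ 2 - 1 := by
    rw [← hdvd, zpow_sub, zpow_one, pow_two, zpow_mul, hk]
    have h1 := conj_zpow (a := x) (b := c) (i := k)
    rw [hxinv] at h1 ⊢
    rw [hxinv] at hk
    rw [h1, hk]
    have : x * (x * c * x) * x = c := by
      calc x * (x * c * x) * x = (x * x) * c * (x * x) := by group
        _ = c := by rw [hx2]; group
    rw [this]; group
  -- small card fact
  have hcontra : ∀ d ∈ C, d * x = x * d → 4 ≤ orderOf d → False := by
    intro d hd hdx h4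
    have hle : Subgroup.zpowers d ≤ A := by
      rw [Subgroup.zpowers_le, hA, Subgroup.mem_centralizer_singleton_iff]
      exact hdx
    have heq : Subgroup.zpowers d = A := Subgroup.eq_of_le_of_card_ge hle (by
      rw [Nat.card_zpowers, hC]; exact h4)
    apply hxC
    have h5 : x ∈ Subgroup.zpowers d := by rw [heq]; exact hxA
    exact (Subgroup.zpowers_le.mpr hd) h5
  have hcx : x * c * x⁻¹ = c → c * x = x * c := by
    intro h0
    calc c * x = (x * c * x⁻¹) * x := by rw [h0]
      _ = x * c := by group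
  have h4c : 4 ≤ orderOf c := by
    rw [hco]
    have : 2 ^ (m + 2) = 4 * 2 ^ m := by ring
    have h8 : 0 < 2 ^ m := by positivity
    omega
  have hcard2 : Nat.card S = 2 * 2 ^ (m + 2) := by rw [hn]; ring
  by_cases hkp : (2 : ℤ) ^ (m + 1) ∣ k + 1
  · obtain ⟨s, hs⟩ := hkp
    rcases Int.even_or_odd' s with ⟨u, rfl | rfl⟩
    · left
      have h1 : c ^ (k + 1) = 1 := by
        rw [hdvd, hs]
        exact ⟨u, by ring⟩
      have h2 : x * c * x⁻¹ = c⁻¹ := by
        rw [← hk]
        rw [zpow_add, zpow_one] at h1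
        exact eq_inv_of_mul_eq_one_left h1
      haveI : NeZero (2 ^ (m + 2)) := ⟨by positivity⟩
      exact ⟨2 ^ (m + 2), Cfsg.Agent.Lib.TwoGroups.nonempty_mulEquiv_dihedral_of c x hco hx2 h2 hxz hcard2⟩
    · rcases Nat.eq_zero_or_pos m with rfl | hm
      · exfalso
        refine hcontra c hcC (hcx ?_) h4c
        rw [← hk]
        have h1 : c ^ (k - 1) = 1 := by
          rw [hdvd]
          have : k - 1 = (k + 1) - 2 := by ring
          rw [this, hs]
          exact ⟨u, by ring⟩
        rw [zpow_sub, zpow_one] at h1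
        exact mul_inv_eq_one.mp h1
      · right; left
        refine ⟨m + 2, by omega, ?_, c, x, hco, hx, ?_⟩
        · rw [hn]
        · rw [← hk]
          have h1 : (2 ^ (m + 2 - 1) - 1 : ℕ) = (2 ^ (m + 1) - 1 : ℕ) := by
            congr 2
          rw [h1, ← zpow_natCast]
          have h2 : c ^ k = c ^ ((2 : ℤ) ^ (m + 1) - 1) := by
            have h3 : k = 2 ^ (m + 2) * u + (2 ^ (m + 1) - 1) := by
              have h4 : (2 : ℤ) ^ (m + 2) = 2 * 2 ^ (m + 1) := by ring
              rw [h4]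
              linarith
            rw [h3, zpow_add, zpow_mul, hctop, one_zpow, one_mul]
          rw [h2]
          congr 1
          rw [Nat.cast_sub Nat.one_le_two_pow]
          push_cast
          rfl
  · exfalso
    have hk1 : (2 : ℤ) ^ (m + 1) ∣ k - 1 := (sq_roots_aux m k hk2).resolve_right hkp
    have hm : m ≠ 0 := by
      rintro rfl
      apply hkp
      have : k + 1 = (k - 1) + 2 := by ring
      rw [this]
      exact dvd_add hk1 (by norm_num)
    refine hcontra (c * c) (mul_mem hcC hcC) ?_ ?_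
    · have h1 : x * (c * c) * x⁻¹ = c * c := by
        have h2 : x * (c * c) * x⁻¹ = (x * c * x⁻¹) * (x * c * x⁻¹) := by group
        rw [h2, ← hk, ← zpow_add]
        have h3 : k + k = (2 * (k - 1)) + 2 := by ring
        have h4 : c ^ (2 * (k - 1)) = 1 := by
          rw [hdvd, pow_succ']
          exact mul_dvd_mul_left 2 hk1
        rw [h3, zpow_add, h4, one_mul]
        exact zpow_two c
      calc c * c * x = (x * (c * c) * x⁻¹) * x := by rw [h1]
        _ = x * (c * c) := by group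
    · rw [← pow_two, orderOf_pow_of_dvd (by norm_num) (by rw [hco]; exact Dvd.intro_left (2 ^ (m + 1)) (by ring)), hco]
      have h5 : 2 ^ (m + 2) / 2 = 2 ^ (m + 1) := by
        rw [show 2 ^ (m + 2) = 2 * 2 ^ (m + 1) by ring]
        simp
      rw [h5]
      obtain ⟨t, rfl⟩ : ∃ t, m = t + 1 := ⟨m - 1, by omega⟩
      have : 2 ^ (t + 1 + 1) = 4 * 2 ^ t := by ring
      have h8 : 0 < 2 ^ t := by positivity
      omega

end Cfsg.Agent.S3224
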