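import Cfsg.Statements.S3225
import Mathlib

set_option autoImplicit false
open Cfsg

namespace Cfsg.Agent.S3225

/-- the sign homomorphism of an index two subgroup -/
noncomputable def signHom {H : Type*} [Group H] (M : Subgroup H) (h : M.index = 2) : H →* ℤˣ := by
  classical
  exact MonoidHom.mk' (fun y => if y ∈ M then 1 else -1) (by
    intro a b
    by_cases ha : a ∈ M <;> by_cases hb : b ∈ M <;>
      simp [Subgroup.mul_mem_iff_of_index_two h, ha, hb])

theorem signHom_mem {H : Type*} [Group H] (M : Subgroup H) (h : M.index = 2) {y : H} (hy : y ∈ M) :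
    signHom M h y = 1 := by
  classical
  simp [signHom, hy]

theorem signHom_not_mem {H : Type*} [Group H] (M : Subgroup H) (h : M.index = 2) {y : H} (hy : y ∉ M) :
    signHom M h y = -1 := by
  classical
  simp [signHom, hy]


/-- Let G be a finite group of even order with no subgroup of index 2, S a Sylow 2-subgroup of G and M a subgroup of index 2 in S such that, for some n ≥ 1, every element of S outside M has order greater than 2^(n−1). Then every element of S of order 2ⁿ is conjugate in G to an element of M. -/
theorem result {G : Type*} [Group G] [Finite G] (hev : Even (Nat.card G))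
    (hG : ∀ H : Subgroup G, H.index ≠ 2) (S : Sylow 2 G) (M : Subgroup G) (hMS : M ≤ (S : Subgroup G)) (hM : M.relIndex (S : Subgroup G) = 2)
    (n : ℕ) (hn : 1 ≤ n) (hord : ∀ y ∈ (S : Subgroup G), y ∉ M → 2 ^ (n - 1) < orderOf y)
    (x : G) (hx : x ∈ (S : Subgroup G)) (hxn : orderOf x = 2 ^ n) :
    ∃ g : G, g * x * g⁻¹ ∈ M := by
  classical
  by_contra hno
  push Not at hno
  set H : Subgroup G := (S : Subgroup G) with hH
  set M' : Subgroup H := M.subgroupOf H with hM'
  have hM'2 : M'.index = 2 := hM
  let ϕ : H →* ℤˣ := signHom M' hM'2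
  let τ : G →* ℤˣ := ϕ.transfer
  haveI : Fintype (Quotient (MulAction.orbitRel (Subgroup.zpowers x) (G ⧸ H))) := Fintype.ofFinite _
  have key : ∀ (y : H) (m : ℕ) (c : G), (y : G) = c⁻¹ * x ^ m * c → m ∣ 2 ^ n → ϕ y = (-1) ^ m := by
    intro y m c hy hmd
    obtain ⟨j, hjn, hj⟩ := (Nat.dvd_prime_pow Nat.prime_two).mp hmd
    rcases j with _ | j
    · rw [pow_zero] at hj
      subst hj
      rw [pow_one]
      apply signHom_not_mem
      rw [hM', Subgroup.mem_subgroupOf, hy, pow_one]
      have := hno c⁻¹
      rwa [inv_inv] at this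
    · have hev : Even m := by
        rw [hj]; exact (Nat.even_pow' (by omega)).mpr even_two
      rw [hev.neg_one_pow]
      apply signHom_mem
      rw [hM', Subgroup.mem_subgroupOf]
      by_contra hyM
      have h2 := hord _ y.2 hyM
      have h3 : ((y : G)) ^ 2 ^ (n - 1) = 1 := by
        have h4 := conj_pow (a := c⁻¹) (b := x ^ m) (i := 2 ^ (n - 1))
        rw [inv_inv] at h4
        rw [hy, h4, ← pow_mul, hj]
        have h5 : 2 ^ (j + 1) * 2 ^ (n - 1) = 2 ^ n * 2 ^ j := by
          rw [← pow_add, ← pow_add]
          congr 1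
          omega
        rw [h5, pow_mul, ← hxn, pow_orderOf_eq_one]
        group
      have h6 := orderOf_le_of_pow_eq_one (by positivity) h3
      omega
  have hτ : τ x = -1 := by
    have h1 : τ x = _ := MonoidHom.transfer_eq_prod_quotient_orbitRel_zpowers_quot ϕ x
    rw [h1]
    have hterm : ∀ q : Quotient (MulAction.orbitRel (Subgroup.zpowers x) (G ⧸ H)),
        ϕ ⟨q.out.out⁻¹ * x ^ Function.minimalPeriod (x • ·) q.out * q.out.out,
            QuotientGroup.out_conj_pow_minimalPeriod_mem H x q.out⟩ =
          (-1) ^ Function.minimalPeriod (x • ·) q.out := by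
      intro q
      refine key _ _ _ rfl ?_
      apply Function.IsPeriodicPt.minimalPeriod_dvd
      change (x • ·)^[2 ^ n] q.out = q.out
      rw [smul_iterate, ← hxn, pow_orderOf_eq_one]
      exact one_smul _ _
    simp_rw [hterm]
    rw [Finset.prod_pow_eq_pow_sum, ← Subgroup.index_eq_sum_minimalPeriod]
    apply Odd.neg_one_pow
    have : ¬ 2 ∣ H.index := S.not_dvd_index
    exact Nat.odd_iff.mpr (by omega)
  have hidx : τ.ker.index = 2 := by
    rw [Subgroup.index_ker]
    have h1 : τ.range = ⊤ := by
      ext u
      simp only [Subgroup.mem_top, iff_true]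
      rcases Int.units_eq_one_or u with rfl | rfl
      · exact one_mem _
      · exact ⟨x, hτ⟩
    rw [h1, Subgroup.card_top]
    simp
  exact hG _ hidx

end Cfsg.Agent.S3225
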