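import Cfsg.Statements.S3246
import Mathlib
import Cfsg.Agent.Lib.Components.Local2
import Cfsg.Agent.Lib.Components.Signal
import Cfsg.Agent.Lib.Basic.Nilpotent
import Cfsg.Agent.Lib.Coprime.Sylow

set_option autoImplicit false
open Cfsg

namespace Cfsg.Agent.S3246

open Subgroup Cfsg.Agent.Lib.Components

theorem ptype_of_constrained {X : Type*} [Group X] [Finite X] {p : ℕ} [Fact p.Prime]
    (h : Cfsg.IsPConstrained p X) (h2 : Cfsg.pPrimeCore p X = ⊥) : IsPType p X := by
  refine ⟨?_, h2⟩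
  have h3 := isPConstrained_iff_layer_quotient.mp h
  exact layer_eq_bot_of_mulEquiv ((QuotientGroup.quotientMulEquivOfEq h2).trans QuotientGroup.quotientBot) h3

theorem normalizer_zpowers_eq {G : Type*} [Group G] [Finite G] {a : G} (ha : orderOf a = 2) :
    normalizer ((zpowers a : Subgroup G) : Set G) = centralizer ({a} : Set G) := by
  have haa : a * a = 1 := by
    have := pow_orderOf_eq_one a
    rwa [ha, pow_two] at this
  have ha1 : a ≠ 1 := by
    rintro rfl
    simp at ha
  have hmem : ∀ x ∈ zpowers a, x = 1 ∨ x = a := by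
    intro x hx
    obtain ⟨k, rfl⟩ := hx
    have h1 := zpow_mod_orderOf a k
    have h2 : ((k % 2 : ℤ)) = 0 ∨ ((k % 2 : ℤ)) = 1 := by omega
    show a ^ k = 1 ∨ a ^ k = a
    rw [← h1, ha]
    rcases h2 with h2 | h2
    · left
      norm_cast
      rw [h2]; simp
    · right
      norm_cast
      rw [h2]; simp
  apply le_antisymm
  · intro g hg
    rw [mem_centralizer_singleton_iff]
    have h1 := (mem_normalizer_iff.mp hg a).mp (mem_zpowers a)
    have h2 : g * a * g⁻¹ = a := by
      rcases hmem _ h1 with h | h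
      · exfalso
        apply ha1
        have : g⁻¹ * (g * a * g⁻¹) * g = g⁻¹ * 1 * g := by rw [h]
        simpa [mul_assoc] using this
      · exact h
    calc g * a = (g * a * g⁻¹) * g := by group
      _ = a * g := by rw [h2]
  · intro g hg
    rw [mem_centralizer_singleton_iff] at hg
    rw [mem_normalizer_iff]
    have hc : g * a * g⁻¹ = a := by rw [hg]; group
    intro x
    constructor
    · intro hx
      rcases hmem x hx with rfl | rfl
      · simpa using one_mem _
      · rw [hc]; exact hx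
    · intro hx
      rcases hmem _ hx with h | h
      · have : x = 1 := by
          have e : g⁻¹ * (g * x * g⁻¹) * g = g⁻¹ * 1 * g := by rw [h]
          simpa [mul_assoc] using e
        rw [this]; exact one_mem _
      · have : x = a := by
          have e : g * x * g⁻¹ = g * a * g⁻¹ := by rw [h, hc]
          exact mul_left_cancel (mul_right_cancel e)
        rw [this]; exact mem_zpowers a

/-- All 2-locals have `F* = O₂`. -/
theorem all_local {G : Type*} [Group G] [Finite G]
    (h : (∀ M : Subgroup G, Cfsg.IsMaximalTwoLocal M → Cfsg.IsPConstrained 2 ↥M ∧ Cfsg.oddCore ↥M = ⊥) ∨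
      (∀ t : G, orderOf t = 2 → Cfsg.IsPConstrained 2 ↥(Subgroup.centralizer ({t} : Set G)) ∧
        Cfsg.oddCore ↥(Subgroup.centralizer ({t} : Set G)) = ⊥))
    (T : Subgroup G) (hT : IsPGroup 2 T) (hT1 : T ≠ ⊥) : IsPType 2 ↥(normalizer (T : Set G)) := by
  haveI : Fact (Nat.Prime 2) := ⟨Nat.prime_two⟩
  rcases h with h | h
  · obtain ⟨𝓛, h𝓛⟩ : ∃ 𝓛 : Set (Subgroup G), 𝓛 = {N | Cfsg.IsTwoLocal N ∧ normalizer (T : Set G) ≤ N} := ⟨_, rfl⟩
    have hmem : normalizer (T : Set G) ∈ 𝓛 := by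
      rw [h𝓛]
      exact ⟨⟨T, hT, hT1, rfl⟩, le_rfl⟩
    obtain ⟨M, hTM, hM⟩ := Set.Finite.exists_le_maximal (Set.toFinite 𝓛) hmem
    have hM1 : Cfsg.IsMaximalTwoLocal M := by
      have hMm : M ∈ 𝓛 := hM.1
      rw [h𝓛] at hMm
      refine ⟨hMm.1, fun N hN hMN => ?_⟩
      have hNm : N ∈ 𝓛 := by
        rw [h𝓛]
        exact ⟨hN, hTM.trans hMN⟩
      exact le_antisymm (hM.2 hNm hMN) hMN
    obtain ⟨h1, h2⟩ := h M hM1
    have hp : IsPType 2 ↥M := ptype_of_constrained h1 h2
    have hTle : T ≤ M := le_normalizer.trans hTM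
    have h3 := isPType_normalizer hp (P := T.subgroupOf M) (isPGroup_subgroupOf hT)
    have h4 := isPType_congr (normalizerSubgroupOfEquiv hTle) h3
    have h5 : M.subgroupOf (normalizer (T : Set G)) = ⊤ := by
      rw [Subgroup.subgroupOf_eq_top]
      exact hTM
    exact isPType_congr ((MulEquiv.subgroupCongr h5).trans Subgroup.topEquiv) h4
  · exact isPType_normalizer_of_centralizers
      (fun t ht => ptype_of_constrained (h t ht).1 (h t ht).2) hT hT1

/-- The key lemma. -/
theorem key {G : Type*} [Group G] [Finite G] (S : Sylow 2 G) {a : G}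
    (hC : IsPType 2 ↥(centralizer ({a} : Set G)))
    (hind : ((S : Subgroup G) ⊓ centralizer ({a} : Set G)).relIndex (S : Subgroup G) ≤ 2)
    {X : Subgroup G} (hXo : Odd (Nat.card X)) (hXS : (S : Subgroup G) ≤ normalizer (X : Set G)) :
    X ⊓ centralizer ({a} : Set G) = ⊥ := by
  haveI : Fact (Nat.Prime 2) := ⟨Nat.prime_two⟩
  classical
  obtain ⟨K, hK⟩ : ∃ K : Subgroup G, K = centralizer ({a} : Set G) := ⟨_, rfl⟩
  rw [← hK] at hC hind ⊢
  obtain ⟨Q, hQd⟩ : ∃ Q : Subgroup G, Q = (Cfsg.pCore 2 ↥K).map K.subtype := ⟨_, rfl⟩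
  have hQp : IsPGroup 2 Q := by
    rw [hQd]
    exact (pCore_isPGroup (p := 2)).map _
  have hQK : Q ≤ K := by
    rw [hQd]
    exact map_subtype_le _
  have hQn : ∀ k ∈ K, ∀ q ∈ Q, k * q * k⁻¹ ∈ Q := by
    intro k hk q hq
    rw [hQd] at hq ⊢
    obtain ⟨q', hq', rfl⟩ := hq
    have hnor : (Cfsg.pCore 2 ↥K).Normal := inferInstance
    exact ⟨_, hnor.conj_mem q' hq' ⟨k, hk⟩, rfl⟩
  have hQc : ∀ y ∈ K, (∀ q ∈ Q, y * q = q * y) → y ∈ Q := by
    intro y hy hq
    have hgf := isPType_iff.mp hC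
    have h1 : (⟨y, hy⟩ : ↥K) ∈ centralizer ((Cfsg.pCore 2 ↥K : Subgroup _) : Set ↥K) := by
      rw [mem_centralizer_iff]
      intro q' hq'
      have h2 := hq q'.1 (by rw [hQd]; exact ⟨q', hq', rfl⟩)
      exact Subtype.ext h2.symm
    have h3 : (⟨y, hy⟩ : ↥K) ∈ Cfsg.pCore 2 ↥K := by
      rw [← hgf] at h1 ⊢
      exact centralizer_gfit_le h1
    rw [hQd]
    exact ⟨_, h3, rfl⟩
  obtain ⟨S₀, hS₀⟩ : ∃ S₀ : Subgroup G, S₀ = (S : Subgroup G) ⊓ K := ⟨_, rfl⟩
  rw [← hS₀] at hind
  have hS₀S : S₀ ≤ S := by rw [hS₀]; exact inf_le_left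
  have hS₀K : S₀ ≤ K := by rw [hS₀]; exact inf_le_right
  have hS₀N : S₀ ≤ normalizer (Q : Set G) := by
    intro k hk
    rw [mem_normalizer_iff]
    intro q
    constructor
    · exact hQn k (hS₀K hk) q
    · intro h
      have := hQn k⁻¹ (K.inv_mem (hS₀K hk)) _ h
      simpa [mul_assoc] using this
  have hLp : IsPGroup 2 (S₀ ⊔ Q : Subgroup G) :=
    IsPGroup.to_sup_of_normal_right' (S.isPGroup'.to_le hS₀S) hQp hS₀N
  obtain ⟨R, hR⟩ := hLp.exists_le_sylow
  have hcardL : Nat.card (S₀ ⊔ Q : Subgroup G) ≤ Nat.card (S : Subgroup G) := by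
    have h1 := Subgroup.card_le_of_le hR
    have h2 : Nat.card (R : Subgroup G) = Nat.card (S : Subgroup G) := by
      rw [Sylow.card_eq_multiplicity, Sylow.card_eq_multiplicity]
    omega
  have hrel : S₀.relIndex (Q : Subgroup G) ≤ 2 := by
    have h1 := Cfsg.Agent.Lib.Coprime.card_mul_relIndex (le_sup_left : S₀ ≤ S₀ ⊔ Q)
    have h2 := Cfsg.Agent.Lib.Coprime.card_mul_relIndex hS₀S
    have hpos : 0 < Nat.card S₀ := Nat.card_pos
    have h3 : S₀.relIndex (S₀ ⊔ Q : Subgroup G) ≤ 2 := by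
      by_contra hcon
      push Not at hcon
      have : Nat.card S₀ * 3 ≤ Nat.card S₀ * S₀.relIndex (S₀ ⊔ Q : Subgroup G) :=
        Nat.mul_le_mul_left _ hcon
      have h4 : Nat.card S₀ * S₀.relIndex (S : Subgroup G) ≤ Nat.card S₀ * 2 :=
        Nat.mul_le_mul_left _ hind
      omega
    have hne : S₀.relIndex (S₀ ⊔ Q : Subgroup G) ≠ 0 := by
      intro h0
      rw [h0, mul_zero] at h1
      exact absurd h1.symm (Nat.card_pos).ne'
    exact (relIndex_le_of_le_right le_sup_right hne).trans h3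
  have hXQ : X ⊓ Q = ⊥ := by
    have hc : (Nat.card X).Coprime 2 := Nat.coprime_two_right.mpr hXo
    rw [inf_comm]
    exact inf_eq_bot_of_isPGroup_of_coprime hQp hc
  rw [eq_bot_iff]
  rintro y ⟨hyX, hyK⟩
  have hyK' : y ∈ K := hyK
  have hcomm0 : ∀ q ∈ Q, q ∈ S₀ → y * q = q * y := by
    intro q hq hqS
    have h1 : y * q * y⁻¹ * q⁻¹ ∈ X ⊓ Q := by
      refine ⟨?_, Q.mul_mem (hQn y hyK' q hq) (Q.inv_mem hq)⟩
      have hqN := hXS (hS₀S hqS)
      have h2 := (mem_normalizer_iff.mp hqN y⁻¹).mp (X.inv_mem hyX)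
      have e : y * q * y⁻¹ * q⁻¹ = y * (q * y⁻¹ * q⁻¹) := by group
      rw [e]
      exact X.mul_mem hyX h2
    rw [hXQ] at h1
    have h2 : y * q * y⁻¹ * q⁻¹ = 1 := h1
    have h3 : y * q * y⁻¹ = q := by
      rwa [mul_inv_eq_one] at h2
    rwa [mul_inv_eq_iff_eq_mul] at h3
  have hy2 : Odd (orderOf y) := by
    have h1 : orderOf (⟨y, hyX⟩ : ↥X) ∣ Nat.card X := orderOf_dvd_natCard _
    rw [Subgroup.orderOf_mk] at h1
    exact Odd.of_dvd_nat hXo h1
  have hcomm : ∀ q ∈ Q, y * q = q * y := by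
    intro q hq
    by_cases hqS : q ∈ S₀
    · exact hcomm0 q hq hqS
    have hne1 : (S₀.subgroupOf Q).index ≠ 1 := by
      intro h1
      rw [Subgroup.index_eq_one] at h1
      have : (⟨q, hq⟩ : ↥Q) ∈ S₀.subgroupOf Q := by rw [h1]; trivial
      exact hqS this
    have hne0 : (S₀.subgroupOf Q).index ≠ 0 := Subgroup.index_ne_zero_of_finite
    have h2 : (S₀.subgroupOf Q).index = 2 := by
      have : (S₀.subgroupOf Q).index ≤ 2 := hrel
      omega
    have hq' := hQn y hyK' q hq
    have hq'S : y * q * y⁻¹ ∉ S₀ := by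
      intro h
      have h3 := hcomm0 _ hq' h
      have h4 : y * q * y⁻¹ = q := by
        have h5 : y * (y * q * y⁻¹) * y⁻¹ = y * q * y⁻¹ := by rw [h3]; group
        have h6 : y * (q) * y⁻¹ = q := by
          exact (mul_left_cancel (mul_right_cancel (by simpa [mul_assoc] using h5 : y * (y * q * y⁻¹) * y⁻¹ = y * q * y⁻¹))) 
        exact h6
      rw [h4] at h
      exact hqS h
    have h3 : (⟨q, hq⟩ : ↥Q)⁻¹ * ⟨y * q * y⁻¹, hq'⟩ ∈ S₀.subgroupOf Q := by
      rw [Subgroup.mul_mem_iff_of_index_two h2]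
      constructor
      · intro h
        exact absurd (by simpa [mem_subgroupOf] using h) hqS
      · intro h
        exact absurd (by simpa [mem_subgroupOf] using h) hq'S
    obtain ⟨c, hc⟩ : ∃ c, c = q⁻¹ * (y * q * y⁻¹) := ⟨_, rfl⟩
    have hcS : c ∈ S₀ := by
      rw [hc]
      exact h3
    have hcQ : c ∈ Q := by
      rw [hc]
      exact Q.mul_mem (Q.inv_mem hq) hq'
    have hyc := hcomm0 c hcQ hcS
    have hyq : y * q * y⁻¹ = q * c := by rw [hc]; group
    have hpow : ∀ n : ℕ, y ^ n * q * (y ^ n)⁻¹ = q * c ^ n := by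
      intro n
      induction n with
      | zero => simp
      | succ n ih =>
        have hcn : y * c ^ n = c ^ n * y := (Commute.pow_right (show Commute y c from hyc) n)
        calc y ^ (n + 1) * q * (y ^ (n + 1))⁻¹ = y * (y ^ n * q * (y ^ n)⁻¹) * y⁻¹ := by
              rw [pow_succ']; group
          _ = y * (q * c ^ n) * y⁻¹ := by rw [ih]
          _ = (y * q * y⁻¹) * (y * c ^ n * y⁻¹) := by group
          _ = (q * c) * (c ^ n * y * y⁻¹) := by rw [hyq, hcn]
          _ = q * c ^ (n + 1) := by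
              rw [pow_succ']; group
    have h4 := hpow (orderOf y)
    rw [pow_orderOf_eq_one] at h4
    have h5 : c ^ orderOf y = 1 := by
      have : q * c ^ orderOf y = q := by
        rw [← h4]; group
      simpa using this
    have h6 : c = 1 := by
      obtain ⟨k, hk⟩ := hQp ⟨c, hcQ⟩
      have hk' : c ^ 2 ^ k = 1 := congrArg Subtype.val hk
      have h7 : orderOf c ∣ 2 ^ k := orderOf_dvd_of_pow_eq_one hk'
      have h8 : orderOf c ∣ orderOf y := orderOf_dvd_of_pow_eq_one h5
      have h9 : Nat.Coprime (2 ^ k) (orderOf y) := Nat.Coprime.pow_left k (Nat.coprime_two_left.mpr hy2)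
      have h10 : orderOf c = 1 := Nat.eq_one_of_dvd_coprimes h9 h7 h8
      exact orderOf_eq_one_iff.mp h10
    rw [h6, mul_one] at hyq
    rwa [mul_inv_eq_iff_eq_mul] at hyq
  have hyQ := hQc y hyK' hcomm
  have h1 : y ∈ X ⊓ Q := ⟨hyX, hyQ⟩
  rw [hXQ] at h1
  exact h1


/-- Index at most two from a two-coset property. -/
theorem index_le_two {P : Type*} [Group P] [Finite P] (H : Subgroup P)
    (hH : ∀ s s' : P, s ∉ H → s' ∉ H → s⁻¹ * s' ∈ H) : H.index ≤ 2 := by
  by_cases htop : H = ⊤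
  · rw [htop, Subgroup.index_top]
    norm_num
  · obtain ⟨s₀, hs₀⟩ : ∃ s₀, s₀ ∉ H := by
      by_contra hcon
      push Not at hcon
      exact htop (Subgroup.eq_top_iff' H |>.mpr hcon)
    have : H.index = 2 := by
      rw [Subgroup.index_eq_two_iff]
      refine ⟨s₀, fun b => ?_⟩
      by_cases hb : b ∈ H
      · right
        refine ⟨hb, fun h => hs₀ ?_⟩
        have := H.mul_mem (H.inv_mem hb) h
        simpa using this
      · left
        refine ⟨?_, hb⟩
        have := hH b⁻¹ s₀ (fun h => hb (by simpa using H.inv_mem h)) hs₀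
        simpa using this
    omega

/-- A large normal elementary abelian subgroup contains a normal-like noncyclic subgroup `E`
all of whose elements have at most two conjugates under `S`. -/
theorem exists_E {G : Type*} [Group G] [Finite G] (S : Sylow 2 G) {W : Subgroup G}
    (hWS : W ≤ S) (hWN : (S : Subgroup G) ≤ normalizer (W : Set G))
    (hW2 : ∀ x ∈ W, x * x = 1) (hW4 : 4 < Nat.card W) :
    ∃ E : Subgroup G, E ≤ W ∧ 2 < Nat.card E ∧ ∀ e ∈ E,
      ((S : Subgroup G) ⊓ centralizer ({e} : Set G)).relIndex (S : Subgroup G) ≤ 2 := by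
  haveI : Fact (Nat.Prime 2) := ⟨Nat.prime_two⟩
  classical
  have hSp : IsPGroup 2 ↥(S : Subgroup G) := S.isPGroup'
  haveI hnil : Group.IsNilpotent ↥(S : Subgroup G) := hSp.isNilpotent
  have hW'n : (W.subgroupOf (S : Subgroup G)).Normal := by
    exact (normal_subgroupOf_iff_le_normalizer hWS).mpr hWN
  have hW'ne : W.subgroupOf (S : Subgroup G) ≠ ⊥ := by
    intro h
    have h1 : W = ⊥ := by
      rw [eq_bot_iff]
      intro x hx
      have h2 : (⟨x, hWS hx⟩ : ↥(S : Subgroup G)) ∈ W.subgroupOf (S : Subgroup G) := hx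
      rw [h] at h2
      have h3 : (⟨x, hWS hx⟩ : ↥(S : Subgroup G)) = 1 := h2
      exact congrArg Subtype.val h3
    rw [h1, Subgroup.card_bot] at hW4
    omega
  have h1 := Cfsg.Agent.Lib.Basic.normal_inf_center_ne_bot (W.subgroupOf (S : Subgroup G)) hW'ne
  obtain ⟨z₀, hz₀⟩ := Subgroup.ne_bot_iff_exists_ne_one.mp h1
  obtain ⟨z, hzm⟩ : ∃ z : ↥(S : Subgroup G), z = (z₀ : ↥(S : Subgroup G)) := ⟨_, rfl⟩
  have hzW : (z : G) ∈ W := by
    rw [hzm]
    exact z₀.2.1
  have hzC : z ∈ center ↥(S : Subgroup G) := by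
    rw [hzm]
    exact z₀.2.2
  have hz1 : z ≠ 1 := by
    rw [hzm]
    intro h
    exact hz₀ (Subtype.ext h)
  have hzz : z * z = 1 := Subtype.ext (hW2 _ hzW)
  have hZmem : ∀ c ∈ zpowers z, c = 1 ∨ c = z := by
    intro c hc
    obtain ⟨k, rfl⟩ := hc
    rcases Int.even_or_odd' k with ⟨m, rfl | rfl⟩
    · left
      show z ^ (2 * m) = 1
      rw [zpow_mul, zpow_two, hzz, one_zpow]
    · right
      show z ^ (2 * m + 1) = z
      rw [zpow_add, zpow_mul, zpow_two, hzz, one_zpow, one_mul, zpow_one]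
  have hZn : (zpowers z).Normal := by
    constructor
    intro n hn g
    rcases hZmem n hn with rfl | rfl
    · simpa using one_mem _
    · have := Subgroup.mem_center_iff.mp hzC g
      rw [this]
      simpa using mem_zpowers n
  have hPbar : IsPGroup 2 (↥(S : Subgroup G) ⧸ zpowers z) :=
    hSp.to_quotient _
  haveI hnilbar : Group.IsNilpotent (↥(S : Subgroup G) ⧸ zpowers z) := hPbar.isNilpotent
  have hWbn : ((W.subgroupOf (S : Subgroup G)).map (QuotientGroup.mk' (zpowers z))).Normal :=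
    Subgroup.Normal.map hW'n _ (QuotientGroup.mk'_surjective _)
  have hZcard : Nat.card (zpowers z) ≤ 2 := by
    rw [Nat.card_zpowers]
    apply orderOf_le_of_pow_eq_one (by norm_num)
    rw [pow_two]; exact hzz
  have hW'card : Nat.card (W.subgroupOf (S : Subgroup G)) = Nat.card W :=
    Nat.card_congr (subgroupOfEquivOfLe hWS).toEquiv
  have hWbne : (W.subgroupOf (S : Subgroup G)).map (QuotientGroup.mk' (zpowers z)) ≠ ⊥ := by
    intro h
    have h2 : W.subgroupOf (S : Subgroup G) ≤ zpowers z := by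
      intro x hx
      have h3 : QuotientGroup.mk' (zpowers z) x ∈ (W.subgroupOf (S : Subgroup G)).map (QuotientGroup.mk' (zpowers z)) :=
        ⟨x, hx, rfl⟩
      rw [h] at h3
      exact (QuotientGroup.eq_one_iff x).mp h3
    have h3 := Subgroup.card_le_of_le h2
    omega
  have h2 := Cfsg.Agent.Lib.Basic.normal_inf_center_ne_bot _ hWbne
  obtain ⟨wb, hwb⟩ := Subgroup.ne_bot_iff_exists_ne_one.mp h2
  obtain ⟨b, hbW, hbe⟩ := wb.2.1
  have hbC : QuotientGroup.mk' (zpowers z) b ∈ center (↥(S : Subgroup G) ⧸ zpowers z) := by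
    rw [hbe]
    exact wb.2.2
  have hbZ : b ∉ zpowers z := by
    intro h
    apply hwb
    apply Subtype.ext
    show ((wb : (↥(S : Subgroup G) ⧸ zpowers z))) = 1
    rw [← hbe]
    exact (QuotientGroup.eq_one_iff b).mpr h
  obtain ⟨D, hD⟩ : ∃ D : Subgroup ↥(S : Subgroup G), D =
      (center (↥(S : Subgroup G) ⧸ zpowers z)).comap (QuotientGroup.mk' (zpowers z)) ⊓
        W.subgroupOf (S : Subgroup G) := ⟨_, rfl⟩
  have hzD : z ∈ D := by
    rw [hD]
    refine ⟨?_, hzW⟩
    show QuotientGroup.mk' (zpowers z) z ∈ center (↥(S : Subgroup G) ⧸ zpowers z)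
    have : QuotientGroup.mk' (zpowers z) z = 1 := (QuotientGroup.eq_one_iff z).mpr (mem_zpowers z)
    rw [this]
    exact one_mem _
  have hbD : b ∈ D := by
    rw [hD]
    exact ⟨hbC, hbW⟩
  refine ⟨D.map (S : Subgroup G).subtype, ?_, ?_, ?_⟩
  · rintro _ ⟨x, hx, rfl⟩
    rw [hD] at hx
    exact hx.2
  · rw [Subgroup.card_map_of_injective (S : Subgroup G).subtype_injective]
    haveI : Fintype ↥D := Fintype.ofFinite _
    have hfin : ({⟨1, one_mem _⟩, ⟨z, hzD⟩, ⟨b, hbD⟩} : Finset ↥D).card = 3 := by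
      rw [Finset.card_eq_three]
      refine ⟨⟨1, one_mem _⟩, ⟨z, hzD⟩, ⟨b, hbD⟩, ?_, ?_, ?_, rfl⟩
      · intro h
        exact hz1 (congrArg Subtype.val h).symm
      · intro h
        apply hbZ
        have : (1 : ↥(S : Subgroup G)) = b := congrArg Subtype.val h
        rw [← this]
        exact one_mem _
      · intro h
        apply hbZ
        have : z = b := congrArg Subtype.val h
        rw [← this]
        exact mem_zpowers z
    have h3 := Finset.card_le_univ ({⟨1, one_mem _⟩, ⟨z, hzD⟩, ⟨b, hbD⟩} : Finset ↥D)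
    rw [hfin] at h3
    rw [Nat.card_eq_fintype_card]
    omega
  · rintro _ ⟨x, hx, rfl⟩
    rw [hD] at hx
    have hxC : QuotientGroup.mk' (zpowers z) x ∈ center (↥(S : Subgroup G) ⧸ zpowers z) := hx.1
    show ((S : Subgroup G) ⊓ centralizer ({(x : G)} : Set G)).relIndex (S : Subgroup G) ≤ 2
    apply index_le_two
    -- the two-coset property
    have hstep : ∀ s : ↥(S : Subgroup G), s ∉ ((S : Subgroup G) ⊓ centralizer ({(x : G)} : Set G)).subgroupOf (S : Subgroup G) →
        x⁻¹ * (s * x * s⁻¹) = z := by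
      intro s hs
      have h3 : QuotientGroup.mk' (zpowers z) (s * x * s⁻¹) = QuotientGroup.mk' (zpowers z) x := by
        rw [map_mul, map_mul, map_inv]
        have := Subgroup.mem_center_iff.mp hxC (QuotientGroup.mk' (zpowers z) s)
        rw [this]
        group
      have h4 : x⁻¹ * (s * x * s⁻¹) ∈ zpowers z := by
        have h5 : (QuotientGroup.mk x : ↥(S : Subgroup G) ⧸ zpowers z) = QuotientGroup.mk (s * x * s⁻¹) := h3.symm
        exact QuotientGroup.eq.mp h5
      rcases hZmem _ h4 with h | h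
      · exfalso
        apply hs
        rw [Subgroup.mem_subgroupOf]
        refine ⟨s.2, ?_⟩
        apply mem_centralizer_singleton_iff.mpr
        have h6 : s * x * s⁻¹ = x := by
          have := congrArg (fun w => x * w) h
          simpa using this
        have h7 : s * x = x * s := by
          rwa [mul_inv_eq_iff_eq_mul] at h6
        exact congrArg Subtype.val h7
      · exact h
    intro s s' hs hs'
    have h3 := hstep s hs
    have h4 := hstep s' hs'
    have h5 : s * x * s⁻¹ = s' * x * s'⁻¹ := by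
      have := h3.trans h4.symm
      exact mul_left_cancel this
    rw [Subgroup.mem_subgroupOf]
    refine ⟨(s⁻¹ * s').2, ?_⟩
    apply mem_centralizer_singleton_iff.mpr
    have h6 : s⁻¹ * s' * x = x * (s⁻¹ * s') := by
      have h7 : s' * x = s * x * s⁻¹ * s' := by
        rw [h5]; group
      calc s⁻¹ * s' * x = s⁻¹ * (s' * x) := by group
        _ = s⁻¹ * (s * x * s⁻¹ * s') := by rw [h7]
        _ = x * (s⁻¹ * s') := by group
    exact congrArg Subtype.val h6


/-- Let G be a finite group whose Sylow 2-subgroup S has a self-centralizing normal subgroup of rank at least 3. Suppose that either every maximal 2-local subgroup of G is 2-constrained with no nontrivial normal subgroup of odd order, or the centralizer of every involution of G is 2-constrained with no nontrivial normal subgroup of odd order. Then S normalizes no nontrivial subgroup of G of odd order and every 2-local subgroup of G is 2-constrained. -/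
theorem result {G : Type*} [Group G] [Finite G]
    (S : Sylow 2 G) (A : Subgroup G) (hA : Cfsg.IsSCN (S : Subgroup G) A) (hA3 : ¬ Cfsg.PRankLE 2 2 ↥A)
    (h : (∀ M : Subgroup G, Cfsg.IsMaximalTwoLocal M → Cfsg.IsPConstrained 2 ↥M ∧ Cfsg.oddCore ↥M = ⊥) ∨
      (∀ t : G, orderOf t = 2 → Cfsg.IsPConstrained 2 ↥(Subgroup.centralizer ({t} : Set G)) ∧
        Cfsg.oddCore ↥(Subgroup.centralizer ({t} : Set G)) = ⊥)) :
    (∀ X : Subgroup G, Odd (Nat.card ↥X) → (S : Subgroup G) ≤ Subgroup.normalizer (X : Set G) → X = ⊥) ∧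
      (∀ T : Subgroup G, IsPGroup 2 ↥T → T ≠ ⊥ → Cfsg.IsPConstrained 2 ↥(Subgroup.normalizer (T : Set G))) := by
  classical
  haveI : Fact (Nat.Prime 2) := ⟨Nat.prime_two⟩
  have hlocal := all_local h
  refine ⟨?_, fun T hT h1 => (hlocal T hT h1).isPConstrained⟩
  intro X hXo hXS
  obtain ⟨hAS, hSN, hSA⟩ := hA
  have hAab : ∀ x ∈ A, ∀ y ∈ A, x * y = y * x := by
    intro x hx y hy
    have h1 : y ∈ (S : Subgroup G) ⊓ centralizer (A : Set G) := by rw [hSA]; exact hy
    exact (mem_centralizer_iff.mp h1.2 x hx)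
  obtain ⟨W, hWd⟩ : ∃ W : Subgroup G, ∀ x, x ∈ W ↔ x ∈ A ∧ x * x = 1 :=
    ⟨{ carrier := {x | x ∈ A ∧ x * x = 1}
       mul_mem' := by
         rintro x y ⟨hx, hxx⟩ ⟨hy, hyy⟩
         refine ⟨A.mul_mem hx hy, ?_⟩
         calc x * y * (x * y) = x * (y * x) * y := by group
           _ = x * (x * y) * y := by rw [hAab y hy x hx]
           _ = (x * x) * (y * y) := by group
           _ = 1 := by rw [hxx, hyy, one_mul]
       one_mem' := ⟨one_mem _, by simp⟩
       inv_mem' := by
         rintro x ⟨hx, hxx⟩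
         refine ⟨A.inv_mem hx, ?_⟩
         have h1 : x⁻¹ = x := by
           rw [inv_eq_iff_mul_eq_one]; exact hxx
         rw [h1]; exact hxx }, fun x => Iff.rfl⟩
  have hWA : W ≤ A := fun x hx => ((hWd x).mp hx).1
  have hW2 : ∀ x ∈ W, x * x = 1 := fun x hx => ((hWd x).mp hx).2
  have hWS : W ≤ (S : Subgroup G) := hWA.trans hAS
  have hWN : (S : Subgroup G) ≤ normalizer (W : Set G) := by
    intro s hs
    rw [mem_normalizer_iff]
    intro x
    have hsN := hSN hs
    have e : ∀ u : G, (s * u * s⁻¹) * (s * u * s⁻¹) = s * (u * u) * s⁻¹ := fun u => by group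
    constructor
    · intro hx
      rw [hWd] at hx ⊢
      refine ⟨(mem_normalizer_iff.mp hsN x).mp hx.1, ?_⟩
      rw [e, hx.2]; group
    · intro hx
      rw [hWd] at hx ⊢
      refine ⟨(mem_normalizer_iff.mp hsN x).mpr hx.1, ?_⟩
      have h1 := hx.2
      rw [e] at h1
      have h2 : s⁻¹ * (s * (x * x) * s⁻¹) * s = s⁻¹ * 1 * s := by rw [h1]
      simpa [mul_assoc] using h2
  have hW4 : 4 < Nat.card W := by
    unfold Cfsg.PRankLE at hA3
    push Not at hA3
    obtain ⟨A₀, hA₀c, hA₀e, hA₀l⟩ := hA3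
    have h1 : A₀.map A.subtype ≤ W := by
      rintro _ ⟨x, hx, rfl⟩
      rw [hWd]
      refine ⟨x.2, ?_⟩
      have := hA₀e x hx
      rw [pow_two] at this
      exact congrArg Subtype.val this
    have h2 := Subgroup.card_le_of_le h1
    rw [Subgroup.card_map_of_injective A.subtype_injective] at h2
    norm_num at hA₀l
    omega
  obtain ⟨E, hEW, hE2, hEi⟩ := exists_E S hWS hWN hW2 hW4
  have hEa : Cfsg.IsElementaryAbelian 2 E := by
    refine ⟨⟨⟨fun a b => Subtype.ext (hAab _ (hWA (hEW a.2)) _ (hWA (hEW b.2)))⟩⟩, ?_⟩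
    intro a ha
    rw [pow_two]
    exact hW2 a (hEW ha)
  have hX2 : ¬ 2 ∣ Nat.card X := by
    rw [← even_iff_two_dvd, Nat.not_even_iff_odd]
    exact hXo
  have h1 := le_iSup_centralizer_hyperplane hEa hX2 ((hEW.trans hWS).trans hXS)
  rw [eq_bot_iff]
  refine h1.trans (iSup_le ?_)
  rintro ⟨B, hBE, hBi⟩
  have hBne : B ≠ ⊥ := by
    rintro rfl
    rw [Subgroup.relIndex_bot_left] at hBi
    omega
  obtain ⟨e, he⟩ := Subgroup.ne_bot_iff_exists_ne_one.mp hBne
  have he1 : (e : G) ≠ 1 := fun h => he (Subtype.ext h)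
  have heE : (e : G) ∈ E := hBE e.2
  have heo : orderOf (e : G) = 2 :=
    orderOf_eq_prime (by rw [pow_two]; exact hW2 _ (hEW heE)) he1
  have hC : IsPType 2 ↥(centralizer ({(e : G)} : Set G)) := by
    have hT : IsPGroup 2 (zpowers (e : G)) := by
      apply IsPGroup.of_card (n := 1)
      rw [Nat.card_zpowers, heo, pow_one]
    have hT1 : zpowers (e : G) ≠ ⊥ := by
      intro h
      apply he1
      have : (e : G) ∈ zpowers (e : G) := mem_zpowers _
      rw [h] at this
      exact this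
    have h2 := hlocal _ hT hT1
    rw [normalizer_zpowers_eq heo] at h2
    exact h2
  have h3 := key S hC (hEi _ heE) hXo hXS
  intro y hy
  have hy2 : y ∈ X ⊓ centralizer ({(e : G)} : Set G) :=
    ⟨hy.1, mem_centralizer_singleton_iff.mpr ((mem_centralizer_iff.mp hy.2 e e.2).symm)⟩
  rw [h3] at hy2
  exact hy2

end Cfsg.Agent.S3246
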