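import Cfsg.Statements.S3265
import Mathlib

set_option autoImplicit false
open Cfsg

namespace Cfsg.Agent.S3265

section
open Equiv Equiv.Perm

variable {Ω : Type*} [Fintype Ω] [DecidableEq Ω]

theorem odd_of_periods (g : Perm Ω) (h : ∀ u, ∃ m, Odd m ∧ (g ^ m) u = u) : Odd (orderOf g) := by
  choose m hm hgm using h
  have hM : Odd (∏ u, m u) :=
    Finset.prod_induction _ Odd (fun _ _ => Odd.mul) odd_one (fun u _ => hm u)
  have h1 : g ^ (∏ u, m u) = 1 := by
    ext u
    obtain ⟨k, hk⟩ := Finset.dvd_prod_of_mem m (Finset.mem_univ u)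
    rw [hk, pow_mul]
    have : ∀ j, ((g ^ m u) ^ j) u = u := by
      intro j
      induction j with
      | zero => simp
      | succ j ih => rw [pow_succ, Perm.mul_apply, hgm, ih]
    simpa using this k
  exact Odd.of_dvd_nat hM (orderOf_dvd_of_pow_eq_one h1)

theorem odd_comm' (a b : Perm Ω) (h : Odd (orderOf (a * b))) : Odd (orderOf (b * a)) := by
  have : b * a = (MulAut.conj b) (a * b) := by simp [MulAut.conj_apply, mul_assoc]
  rw [this, MulEquiv.orderOf_eq]; exact h

/-- Multiplying an odd-order permutation by a three-cycle through two of its fixed points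
keeps the order odd. -/
theorem odd_mul_cycle (w : Perm Ω) (hw : Odd (orderOf w)) (p q r : Ω) (hpq : p ≠ q) (hpr : p ≠ r)
    (hqr : q ≠ r) (hq : w q = q) (hr : w r = r) :
    Odd (orderOf (w * (swap p q * swap q r))) := by
  obtain ⟨g, hg⟩ : ∃ g, g = w * (swap p q * swap q r) := ⟨_, rfl⟩
  rw [← hg]
  have gp : g p = q := by
    rw [hg]; simp [Perm.mul_apply, swap_apply_of_ne_of_ne, hpr, hpq, hq]
  have gq : g q = r := by
    rw [hg]; simp [Perm.mul_apply, swap_apply_of_ne_of_ne, hqr, hr, hqr.symm, hpr.symm]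
  have gr : g r = w p := by
    rw [hg]; simp [Perm.mul_apply, swap_apply_of_ne_of_ne]
  have gu : ∀ u, u ≠ p → u ≠ q → u ≠ r → g u = w u := by
    intro u h1 h2 h3
    rw [hg]; simp [Perm.mul_apply, swap_apply_of_ne_of_ne, h1, h2, h3]
  -- the period of p
  have hN0 : 0 < orderOf w := orderOf_pos w
  have hwN : w ^ orderOf w = 1 := pow_orderOf_eq_one w
  have hex : ∃ i, 0 < i ∧ (w ^ i) p = p := ⟨orderOf w, hN0, by simp [hwN]⟩
  classical
  obtain ⟨L, hL0, hLp, hLmin⟩ : ∃ L, 0 < L ∧ (w ^ L) p = p ∧ ∀ i, 0 < i → i < L → (w ^ i) p ≠ p := by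
    refine ⟨Nat.find hex, (Nat.find_spec hex).1, (Nat.find_spec hex).2, ?_⟩
    intro i hi hi2 h
    exact Nat.find_min hex hi2 ⟨hi, h⟩
  have hLt : ∀ t, (w ^ (L * t)) p = p := by
    intro t
    induction t with
    | zero => simp
    | succ t ih => rw [Nat.mul_succ, pow_add, Perm.mul_apply, hLp, ih]
  have hmod : ∀ i, (w ^ (i % L)) p = (w ^ i) p := by
    intro i
    conv_rhs => rw [← Nat.mod_add_div i L, pow_add, Perm.mul_apply, hLt]
  have hLodd : Odd L := by
    have h0 : orderOf w % L = 0 := by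
      by_contra hne
      have h1 := hmod (orderOf w)
      rw [hwN] at h1
      exact hLmin _ (Nat.pos_of_ne_zero hne) (Nat.mod_lt _ hL0) (by simpa using h1)
    exact Odd.of_dvd_nat hw (Nat.dvd_of_mod_eq_zero h0)
  have wq : ∀ i, (w ^ i) q = q := by
    intro i
    induction i with
    | zero => simp
    | succ i ih => rw [pow_succ, Perm.mul_apply, hq, ih]
  have wr : ∀ i, (w ^ i) r = r := by
    intro i
    induction i with
    | zero => simp
    | succ i ih => rw [pow_succ, Perm.mul_apply, hr, ih]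
  have ne_q : ∀ i, (w ^ i) p ≠ q := by
    intro i h
    apply hpq
    apply (w ^ i).injective
    rw [h, wq]
  have ne_r : ∀ i, (w ^ i) p ≠ r := by
    intro i h
    apply hpr
    apply (w ^ i).injective
    rw [h, wr]
  -- iterates from r
  have git : ∀ i, i + 1 ≤ L → (g ^ (i + 1)) r = (w ^ (i + 1)) p := by
    intro i
    induction i with
    | zero =>
      intro _
      simpa using gr
    | succ i ih =>
      intro hi
      rw [pow_succ' g (i + 1), Perm.mul_apply, ih (by omega),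
        gu _ (hLmin _ (by omega) (by omega)) (ne_q _) (ne_r _), ← Perm.mul_apply, ← pow_succ' w]
  have hgK : (g ^ (L + 2)) p = p := by
    rw [pow_add, Perm.mul_apply, pow_two, Perm.mul_apply, gp, gq]
    obtain ⟨i, rfl⟩ : ∃ i, L = i + 1 := ⟨L - 1, by omega⟩
    rw [git i le_rfl, hLp]
  have hcyc : ∀ j, (g ^ (L + 2)) ((g ^ j) p) = (g ^ j) p := by
    intro j
    rw [← Perm.mul_apply, ← pow_add, add_comm, pow_add, Perm.mul_apply, hgK]
  have hKodd : Odd (L + 2) := by
    rcases hLodd with ⟨s, hs⟩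
    exact ⟨s + 1, by omega⟩
  apply odd_of_periods
  intro u
  by_cases hu : (u = q ∨ u = r) ∨ ∃ i, u = (w ^ i) p
  · refine ⟨L + 2, hKodd, ?_⟩
    rcases hu with (rfl | rfl) | ⟨i, rfl⟩
    · have := hcyc 1
      simpa [gp] using this
    · have := hcyc 2
      simpa [pow_two, Perm.mul_apply, gp, gq] using this
    · rw [← hmod i]
      by_cases h0 : i % L = 0
      · rw [h0]; simpa using hgK
      · obtain ⟨k, hk⟩ : ∃ k, i % L = k + 1 := ⟨i % L - 1, by omega⟩
        have hlt := Nat.mod_lt i hL0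
        rw [hk, ← git k (by omega)]
        have := hcyc (k + 1 + 2)
        rw [pow_add g (k + 1) 2, Perm.mul_apply, pow_two, Perm.mul_apply, gp, gq] at this
        exact this
  · push Not at hu
    obtain ⟨⟨h1, h2⟩, h3⟩ := hu
    refine ⟨orderOf w, hw, ?_⟩
    -- trajectory avoids p q r
    have hback : ∀ n, (w ^ (orderOf w * n - n)) * (w ^ n) = 1 := by
      intro n
      rw [← pow_add, Nat.sub_add_cancel (Nat.le_mul_of_pos_left _ hN0), pow_mul, hwN, one_pow]
    have hav : ∀ n, (w ^ n) u ≠ p ∧ (w ^ n) u ≠ q ∧ (w ^ n) u ≠ r := by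
      intro n
      have hbk : ∀ t, (w ^ n) u = t → u = (w ^ (orderOf w * n - n)) t := by
        intro t ht
        rw [← ht, ← Perm.mul_apply, hback]; rfl
      refine ⟨?_, ?_, ?_⟩
      · intro h
        exact h3 _ (hbk _ h)
      · intro h
        apply h1
        rw [hbk _ h, wq]
      · intro h
        apply h2
        rw [hbk _ h, wr]
    have hit : ∀ n, (g ^ n) u = (w ^ n) u := by
      intro n
      induction n with
      | zero => simp
      | succ n ih =>
        obtain ⟨h4, h5, h6⟩ := hav n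
        rw [pow_succ', Perm.mul_apply, ih, gu _ h4 h5 h6, ← Perm.mul_apply, ← pow_succ']
    rw [hit, hwN]; rfl

end
section
open Equiv Equiv.Perm

variable {Ω : Type*} [Fintype Ω] [DecidableEq Ω]

/-- A solution of the local problem. -/
def Sol (S : Finset Ω) (x y z : Perm Ω) : Prop :=
  (∀ u, z (z u) = u) ∧ (∀ u, u ∉ S → z u = u) ∧ z.support.card = x.support.card ∧
    Odd (orderOf (x * z)) ∧ Odd (orderOf (z * y))

theorem cm (g : Perm Ω) {a b : Ω} (ha : g a = a) (hb : g b = b) : Commute (swap a b) g := by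
  have h := Equiv.swap_apply_apply g a b
  rw [ha, hb] at h
  show swap a b * g = g * swap a b
  conv_lhs => rw [h]
  simp [mul_assoc]

theorem inv_add (g : Perm Ω) (hg : ∀ u, g (g u) = u) {a b : Ω} (ha : g a = a) (hb : g b = b) :
    ∀ u, (g * swap a b) ((g * swap a b) u) = u := by
  intro u
  have h : (g * swap a b) * (g * swap a b) = g * g := by
    rw [(cm g ha hb).mul_mul_mul_comm]; simp
  rw [← Perm.mul_apply, h, Perm.mul_apply, hg]

theorem card_add (g : Perm Ω) {a b : Ω} (hab : a ≠ b) (ha : g a = a) (hb : g b = b) :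
    (g * swap a b).support.card = g.support.card + 2 := by
  have hd : Disjoint g (swap a b) := by
    intro u
    by_cases h1 : u = a
    · left; rw [h1, ha]
    by_cases h2 : u = b
    · left; rw [h2, hb]
    right; exact swap_apply_of_ne_of_ne h1 h2
  rw [hd.card_support_mul, card_support_swap hab]

theorem rem_a (x : Perm Ω) (hx : ∀ u, x (x u) = u) {a b : Ω} (h : x a = b) :
    (x * swap a b) a = a := by
  simp [Perm.mul_apply, ← h, hx]

theorem rem_b (x : Perm Ω) (hx : ∀ u, x (x u) = u) {a b : Ω} (h : x a = b) :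
    (x * swap a b) b = b := by
  simp [Perm.mul_apply, h]

theorem rem_o (x : Perm Ω) {a b u : Ω} (h1 : u ≠ a) (h2 : u ≠ b) :
    (x * swap a b) u = x u := by
  simp [Perm.mul_apply, swap_apply_of_ne_of_ne h1 h2]

theorem rem_mul (x : Perm Ω) (a b : Ω) : (x * swap a b) * swap a b = x := by
  simp [mul_assoc]

theorem rem_inv (x : Perm Ω) (hx : ∀ u, x (x u) = u) {a b : Ω} (h : x a = b) :
    ∀ u, (x * swap a b) ((x * swap a b) u) = u := by
  intro u
  have hb : x b = a := by rw [← h, hx]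
  have hc : Commute (swap a b) x := by
    have h2 := Equiv.swap_apply_apply x a b
    rw [h, hb, swap_comm] at h2
    show swap a b * x = x * swap a b
    conv_lhs => rw [h2]
    simp [mul_assoc]
  have h3 : (x * swap a b) * (x * swap a b) = x * x := by
    rw [hc.mul_mul_mul_comm]; simp
  rw [← Perm.mul_apply, h3, Perm.mul_apply, hx]

theorem rem_card (x : Perm Ω) (hx : ∀ u, x (x u) = u) {a b : Ω} (hab : a ≠ b) (h : x a = b) :
    (x * swap a b).support.card + 2 = x.support.card := by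
  have := card_add (x * swap a b) hab (rem_a x hx h) (rem_b x hx h)
  rw [rem_mul] at this
  omega

theorem rot (p q r : Ω) (hpq : p ≠ q) (hpr : p ≠ r) (hqr : q ≠ r) :
    swap p q * swap q r = swap r p * swap p q := by
  ext u
  simp only [Perm.mul_apply, swap_apply_def]
  split_ifs <;> simp_all

/-- Move: an edge of `x` only and an edge of `y` only. -/
theorem move_d (S : Finset Ω) (x y z' : Perm Ω) {a b c d : Ω}
    (hx : ∀ u, x (x u) = u) (hy : ∀ u, y (y u) = u)
    (hab : a ≠ b) (xa : x a = b) (ya : y a = a) (hcd : c ≠ d) (yc : y c = d) (xc : x c = c)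
    (haS : a ∈ S) (hcS : c ∈ S)
    (hz : ∀ u, z' (z' u) = u) (za : z' a = a) (zc : z' c = c) (hzS : ∀ u, u ∉ S → z' u = u)
    (hcard : z'.support.card = (x * swap a b).support.card)
    (h1 : Odd (orderOf ((x * swap a b) * z'))) (h2 : Odd (orderOf (z' * (y * swap c d)))) :
    ∃ z, Sol S x y z := by
  have hac : a ≠ c := by
    rintro rfl
    exact hab (xc.symm.trans xa)
  have hbc : b ≠ c := by
    rintro rfl
    have := hx a
    rw [xa, xc] at this
    exact hab this.symm
  have had : a ≠ d := by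
    rintro rfl
    exact hac (y.injective (ya.trans yc.symm))
  have x'a := rem_a x hx xa
  have x'c : (x * swap a b) c = c := by rw [rem_o x hac.symm hbc.symm, xc]
  have y'c := rem_a y hy yc
  have y'a : (y * swap c d) a = a := by rw [rem_o y hac had, ya]
  refine ⟨z' * swap a c, inv_add z' hz za zc, ?_, ?_, ?_, ?_⟩
  · intro u hu
    have h3 : u ≠ a := fun h => hu (h ▸ haS)
    have h4 : u ≠ c := fun h => hu (h ▸ hcS)
    rw [rem_o z' h3 h4, hzS u hu]
  · rw [card_add z' hac za zc, hcard, rem_card x hx hab xa]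
  · apply odd_comm'
    have e : (z' * swap a c) * x = (z' * (x * swap a b)) * (swap a c * swap a b) := by
      conv_lhs => rw [← rem_mul x a b]
      exact (cm _ x'a x'c).mul_mul_mul_comm _ _
    rw [e, swap_comm a c, rot c a b hac.symm hbc.symm hab]
    refine odd_mul_cycle _ (odd_comm' _ _ h1) b c a hbc hab.symm hac.symm ?_ ?_
    · rw [Perm.mul_apply, x'c, zc]
    · rw [Perm.mul_apply, x'a, za]
  · have e : (z' * swap a c) * y = (z' * (y * swap c d)) * (swap a c * swap c d) := by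
      conv_lhs => rw [← rem_mul y c d]
      exact (cm _ y'a y'c).mul_mul_mul_comm _ _
    rw [e, rot a c d hac had hcd]
    refine odd_mul_cycle _ h2 d a c had.symm hcd.symm hac ?_ ?_
    · rw [Perm.mul_apply, y'a, za]
    · rw [Perm.mul_apply, y'c, zc]

/-- Move: a common edge. -/
theorem move_edge (S : Finset Ω) (x y z' : Perm Ω) {a b : Ω}
    (hx : ∀ u, x (x u) = u) (hy : ∀ u, y (y u) = u)
    (hab : a ≠ b) (xa : x a = b) (ya : y a = b)
    (haS : a ∈ S) (hbS : b ∈ S)
    (hz : ∀ u, z' (z' u) = u) (za : z' a = a) (zb : z' b = b) (hzS : ∀ u, u ∉ S → z' u = u)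
    (hcard : z'.support.card = (x * swap a b).support.card)
    (h1 : Odd (orderOf ((x * swap a b) * z'))) (h2 : Odd (orderOf (z' * (y * swap a b)))) :
    ∃ z, Sol S x y z := by
  refine ⟨z' * swap a b, inv_add z' hz za zb, ?_, ?_, ?_, ?_⟩
  · intro u hu
    have h3 : u ≠ a := fun h => hu (h ▸ haS)
    have h4 : u ≠ b := fun h => hu (h ▸ hbS)
    rw [rem_o z' h3 h4, hzS u hu]
  · rw [card_add z' hab za zb, hcard, rem_card x hx hab xa]
  · have e : x * (z' * swap a b) = (x * swap a b) * z' := by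
      conv_lhs => rw [← rem_mul x a b]
      rw [(cm _ za zb).mul_mul_mul_comm]; simp
    rw [e]; exact h1
  · have e : (z' * swap a b) * y = z' * (y * swap a b) := by
      conv_lhs => rw [← rem_mul y a b]
      rw [(cm _ (rem_a y hy ya) (rem_b y hy ya)).mul_mul_mul_comm]; simp
    rw [e]; exact h2

end

section
open Equiv Equiv.Perm

variable {Ω : Type*} [Fintype Ω] [DecidableEq Ω]

theorem vf_swap {m : ℕ} (f : Fin m → Ω) (hf : Function.Injective f) (i j : Fin m) :
    viaEmbeddingHom (⟨f, hf⟩ : Fin m ↪ Ω) (swap i j) = swap (f i) (f j) := by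
  ext u
  rw [viaEmbeddingHom_apply]
  by_cases hu : u ∈ Set.range f
  · obtain ⟨t, rfl⟩ := hu
    have := viaEmbedding_apply (swap i j) (⟨f, hf⟩ : Fin m ↪ Ω) t
    simp only [Function.Embedding.coeFn_mk] at this
    rw [this, hf.swap_apply]
  · have := viaEmbedding_apply_of_notMem (swap i j) (⟨f, hf⟩ : Fin m ↪ Ω) u (by simpa using hu)
    rw [this, swap_apply_of_ne_of_ne]
    · intro h; exact hu ⟨i, h.symm⟩
    · intro h; exact hu ⟨j, h.symm⟩

theorem id_e (v0 v1 v2 v3 v4 v5 : Ω) (hf : Function.Injective ![v0, v1, v2, v3, v4, v5]) :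
    swap v1 v2 * swap v3 v4 * (swap v0 v5 * swap v4 v5 * swap v2 v3 * swap v0 v1) =
      (swap v0 v2 * swap v2 v4) * (swap v5 v3 * swap v3 v1) := by
  have key : swap (1 : Fin 6) 2 * swap 3 4 * (swap 0 5 * swap 4 5 * swap 2 3 * swap 0 1) =
      (swap 0 2 * swap 2 4) * (swap 5 3 * swap 3 1) := by decide +kernel
  have := congrArg (viaEmbeddingHom (⟨_, hf⟩ : Fin 6 ↪ Ω)) key
  simp only [map_mul, vf_swap] at this
  exact this

theorem id_4fx (a b c d u : Ω) (hf : Function.Injective ![a, b, c, d, u]) :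
    swap c d * swap a b * (swap a c * swap b u) =
      (swap u a * swap a d) * (swap d c * swap c b) := by
  have key : swap (2 : Fin 5) 3 * swap 0 1 * (swap 0 2 * swap 1 4) =
      (swap 4 0 * swap 0 3) * (swap 3 2 * swap 2 1) := by decide +kernel
  have := congrArg (viaEmbeddingHom (⟨_, hf⟩ : Fin 5 ↪ Ω)) key
  simp only [map_mul, vf_swap] at this
  exact this

theorem id_4fy (a b c d u : Ω) (hf : Function.Injective ![a, b, c, d, u]) :
    swap d a * swap b c * (swap a c * swap b u) =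
      (swap u c * swap c d) * (swap d a * swap a b) := by
  have key : swap (3 : Fin 5) 0 * swap 1 2 * (swap 0 2 * swap 1 4) =
      (swap 4 2 * swap 2 3) * (swap 3 0 * swap 0 1) := by decide +kernel
  have := congrArg (viaEmbeddingHom (⟨_, hf⟩ : Fin 5 ↪ Ω)) key
  simp only [map_mul, vf_swap] at this
  exact this

theorem id_4ex (a b c d u u' : Ω) (hf : Function.Injective ![a, b, c, d, u, u']) :
    swap c d * swap a b * (swap u u' * (swap a c * swap b u * swap d u')) =
      (swap u a * swap a d) * (swap u' c * swap c b) := by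
  have key : swap (2 : Fin 6) 3 * swap 0 1 * (swap 4 5 * (swap 0 2 * swap 1 4 * swap 3 5)) =
      (swap 4 0 * swap 0 3) * (swap 5 2 * swap 2 1) := by decide +kernel
  have := congrArg (viaEmbeddingHom (⟨_, hf⟩ : Fin 6 ↪ Ω)) key
  simp only [map_mul, vf_swap] at this
  exact this

theorem id_4ey (a b c d u u' : Ω) (hf : Function.Injective ![a, b, c, d, u, u']) :
    swap d a * swap b c * (swap u u' * (swap a c * swap b u * swap d u')) =
      (swap u' a * swap a b) * (swap u c * swap c d) := by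
  have key : swap (3 : Fin 6) 0 * swap 1 2 * (swap 4 5 * (swap 0 2 * swap 1 4 * swap 3 5)) =
      (swap 5 0 * swap 0 1) * (swap 4 2 * swap 2 3) := by decide +kernel
  have := congrArg (viaEmbeddingHom (⟨_, hf⟩ : Fin 6 ↪ Ω)) key
  simp only [map_mul, vf_swap] at this
  exact this

theorem fix_step (g : Perm Ω) {a b u : Ω} (hu : g u = u) (h1 : u ≠ a) (h2 : u ≠ b) :
    (g * swap a b) u = u := by
  rw [rem_o g h1 h2, hu]

/-- Two three-cycles. -/
theorem odd_two_cycles (w : Perm Ω) (hw : Odd (orderOf w)) (p q r p' q' r' : Ω)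
    (hpq : p ≠ q) (hpr : p ≠ r) (hqr : q ≠ r) (hpq' : p' ≠ q') (hpr' : p' ≠ r') (hqr' : q' ≠ r')
    (hq : w q = q) (hr : w r = r) (hq' : w q' = q') (hr' : w r' = r')
    (h1 : q' ≠ p) (h2 : q' ≠ q) (h3 : q' ≠ r) (h4 : r' ≠ p) (h5 : r' ≠ q) (h6 : r' ≠ r) :
    Odd (orderOf (w * ((swap p q * swap q r) * (swap p' q' * swap q' r')))) := by
  rw [← mul_assoc]
  refine odd_mul_cycle _ (odd_mul_cycle w hw p q r hpq hpr hqr hq hr) p' q' r' hpq' hpr' hqr' ?_ ?_
  · simp only [Perm.mul_apply]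
    rw [swap_apply_of_ne_of_ne h2 h3, swap_apply_of_ne_of_ne h1 h2, hq']
  · simp only [Perm.mul_apply]
    rw [swap_apply_of_ne_of_ne h5 h6, swap_apply_of_ne_of_ne h4 h5, hr']

/-- Removing two edges. -/
theorem two_rem (x : Perm Ω) (hx : ∀ u, x (x u) = u) {a b c d : Ω} (hab : a ≠ b) (hac : a ≠ c)
    (had : a ≠ d) (hbc : b ≠ c) (hbd : b ≠ d) (hcd : c ≠ d) (xa : x a = b) (xc : x c = d) :
    (∀ u, (x * swap a b * swap c d) ((x * swap a b * swap c d) u) = u) ∧
    (x * swap a b * swap c d) a = a ∧ (x * swap a b * swap c d) b = b ∧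
    (x * swap a b * swap c d) c = c ∧ (x * swap a b * swap c d) d = d ∧
    (x * swap a b * swap c d).support.card + 4 = x.support.card ∧
    (∀ u, u ≠ a → u ≠ b → u ≠ c → u ≠ d → (x * swap a b * swap c d) u = x u) ∧
    (x * swap a b * swap c d) * (swap c d * swap a b) = x := by
  have h1 := rem_inv x hx xa
  have h2 : (x * swap a b) c = d := by rw [rem_o x hac.symm hbc.symm, xc]
  refine ⟨rem_inv _ h1 h2, fix_step _ (rem_a x hx xa) hac had, fix_step _ (rem_b x hx xa) hbc hbd,
    rem_a _ h1 h2, rem_b _ h1 h2, ?_, ?_, ?_⟩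
  · have h3 := rem_card _ h1 hcd h2
    have h4 := rem_card x hx hab xa
    omega
  · intro u h3 h4 h5 h6
    rw [rem_o _ h5 h6, rem_o _ h3 h4]
  · simp [mul_assoc]

/-- Move: a long alternating cycle. -/
theorem move_e (S : Finset Ω) (x y z' : Perm Ω) (v0 v1 v2 v3 v4 v5 : Ω)
    (hf : Function.Injective ![v0, v1, v2, v3, v4, v5])
    (hx : ∀ u, x (x u) = u) (hy : ∀ u, y (y u) = u)
    (x1 : x v1 = v2) (x3 : x v3 = v4) (y0 : y v0 = v1) (y2 : y v2 = v3) (y4 : y v4 = v5)
    (h1S : v1 ∈ S) (h2S : v2 ∈ S) (h3S : v3 ∈ S) (h4S : v4 ∈ S)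
    (hz : ∀ u, z' (z' u) = u) (z1 : z' v1 = v1) (z2 : z' v2 = v2) (z3 : z' v3 = v3) (z4 : z' v4 = v4)
    (hzS : ∀ u, u ∉ S → z' u = u)
    (hcard : z'.support.card = (x * swap v1 v2 * swap v3 v4).support.card)
    (h1 : Odd (orderOf ((x * swap v1 v2 * swap v3 v4) * z')))
    (h2 : Odd (orderOf (z' * (y * swap v0 v1 * swap v2 v3 * swap v4 v5 * swap v0 v5)))) :
    ∃ z, Sol S x y z := by
  have n01 : v0 ≠ v1 := hf.ne (a₁ := 0) (a₂ := 1) (by decide)
  have n02 : v0 ≠ v2 := hf.ne (a₁ := 0) (a₂ := 2) (by decide)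
  have n03 : v0 ≠ v3 := hf.ne (a₁ := 0) (a₂ := 3) (by decide)
  have n04 : v0 ≠ v4 := hf.ne (a₁ := 0) (a₂ := 4) (by decide)
  have n05 : v0 ≠ v5 := hf.ne (a₁ := 0) (a₂ := 5) (by decide)
  have n12 : v1 ≠ v2 := hf.ne (a₁ := 1) (a₂ := 2) (by decide)
  have n13 : v1 ≠ v3 := hf.ne (a₁ := 1) (a₂ := 3) (by decide)
  have n14 : v1 ≠ v4 := hf.ne (a₁ := 1) (a₂ := 4) (by decide)
  have n15 : v1 ≠ v5 := hf.ne (a₁ := 1) (a₂ := 5) (by decide)
  have n23 : v2 ≠ v3 := hf.ne (a₁ := 2) (a₂ := 3) (by decide)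
  have n24 : v2 ≠ v4 := hf.ne (a₁ := 2) (a₂ := 4) (by decide)
  have n25 : v2 ≠ v5 := hf.ne (a₁ := 2) (a₂ := 5) (by decide)
  have n34 : v3 ≠ v4 := hf.ne (a₁ := 3) (a₂ := 4) (by decide)
  have n35 : v3 ≠ v5 := hf.ne (a₁ := 3) (a₂ := 5) (by decide)
  have n45 : v4 ≠ v5 := hf.ne (a₁ := 4) (a₂ := 5) (by decide)
  obtain ⟨xi, xf1, xf2, xf3, xf4, xc, -, xe⟩ := two_rem x hx n12 n13 n14 n23 n24 n34 x1 x3
  -- the new y
  have yi1 := rem_inv y hy y0
  have y12 : (y * swap v0 v1) v2 = v3 := by rw [rem_o y n02.symm n12.symm, y2]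
  have yi2 := rem_inv _ yi1 y12
  have y24 : (y * swap v0 v1 * swap v2 v3) v4 = v5 := by
    rw [rem_o _ n24.symm n34.symm, rem_o y n04.symm n14.symm, y4]
  have yi3 := rem_inv _ yi2 y24
  have y3_1 : (y * swap v0 v1 * swap v2 v3 * swap v4 v5) v1 = v1 :=
    fix_step _ (fix_step _ (rem_b y hy y0) n12 n13) n14 n15
  have y3_2 : (y * swap v0 v1 * swap v2 v3 * swap v4 v5) v2 = v2 :=
    fix_step _ (rem_a _ yi1 y12) n24 n25
  have y3_3 : (y * swap v0 v1 * swap v2 v3 * swap v4 v5) v3 = v3 :=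
    fix_step _ (rem_b _ yi1 y12) n34 n35
  have y3_4 : (y * swap v0 v1 * swap v2 v3 * swap v4 v5) v4 = v4 := rem_a _ yi2 y24
  have y'1 : (y * swap v0 v1 * swap v2 v3 * swap v4 v5 * swap v0 v5) v1 = v1 :=
    fix_step _ y3_1 n01.symm n15
  have y'2 : (y * swap v0 v1 * swap v2 v3 * swap v4 v5 * swap v0 v5) v2 = v2 :=
    fix_step _ y3_2 n02.symm n25
  have y'3 : (y * swap v0 v1 * swap v2 v3 * swap v4 v5 * swap v0 v5) v3 = v3 :=
    fix_step _ y3_3 n03.symm n35
  have y'4 : (y * swap v0 v1 * swap v2 v3 * swap v4 v5 * swap v0 v5) v4 = v4 :=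
    fix_step _ y3_4 n04.symm n45
  have z12_3 : (z' * swap v1 v2) v3 = v3 := fix_step _ z3 n13.symm n23.symm
  have z12_4 : (z' * swap v1 v2) v4 = v4 := fix_step _ z4 n14.symm n24.symm
  refine ⟨z' * swap v1 v2 * swap v3 v4, inv_add _ (inv_add z' hz z1 z2) z12_3 z12_4, ?_, ?_, ?_, ?_⟩
  · intro u hu
    have e1 : u ≠ v1 := fun h => hu (h ▸ h1S)
    have e2 : u ≠ v2 := fun h => hu (h ▸ h2S)
    have e3 : u ≠ v3 := fun h => hu (h ▸ h3S)
    have e4 : u ≠ v4 := fun h => hu (h ▸ h4S)
    exact fix_step _ (fix_step _ (hzS u hu) e1 e2) e3 e4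
  · rw [card_add _ n34 z12_3 z12_4, card_add _ n12 z1 z2, hcard]
    omega
  · have e : x * (z' * swap v1 v2 * swap v3 v4) = (x * swap v1 v2 * swap v3 v4) * z' := by
      conv_lhs => rw [← xe]
      rw [mul_assoc z', ((cm z' z3 z4).mul_left (cm z' z1 z2)).mul_mul_mul_comm]
      simp [mul_assoc]
    rw [e]; exact h1
  · have hye : (y * swap v0 v1 * swap v2 v3 * swap v4 v5 * swap v0 v5) *
        (swap v0 v5 * swap v4 v5 * swap v2 v3 * swap v0 v1) = y := by
      simp [mul_assoc]
    have e : (z' * swap v1 v2 * swap v3 v4) * y =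
        (z' * (y * swap v0 v1 * swap v2 v3 * swap v4 v5 * swap v0 v5)) *
          (swap v1 v2 * swap v3 v4 * (swap v0 v5 * swap v4 v5 * swap v2 v3 * swap v0 v1)) := by
      conv_lhs => rw [← hye]
      rw [mul_assoc z', ((cm _ y'1 y'2).mul_left (cm _ y'3 y'4)).mul_mul_mul_comm]
    rw [e, id_e v0 v1 v2 v3 v4 v5 hf]
    refine odd_two_cycles _ h2 v0 v2 v4 v5 v3 v1 n02 n04 n24 n35.symm n15.symm n13.symm ?_ ?_ ?_ ?_
      n03.symm n23.symm n34 n01.symm n12 n14
    · rw [Perm.mul_apply, y'2, z2]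
    · rw [Perm.mul_apply, y'4, z4]
    · rw [Perm.mul_apply, y'3, z3]
    · rw [Perm.mul_apply, y'1, z1]

end

section
open Equiv Equiv.Perm

variable {Ω : Type*} [Fintype Ω] [DecidableEq Ω]

/-- Move: a four-cycle, with a fixed point of the smaller solution. -/
theorem move_4f (S : Finset Ω) (x y z' : Perm Ω) (a b c d u : Ω)
    (hf : Function.Injective ![a, b, c, d, u])
    (hx : ∀ u, x (x u) = u) (hy : ∀ u, y (y u) = u)
    (xa : x a = b) (xc : x c = d) (yb : y b = c) (yd : y d = a)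
    (haS : a ∈ S) (hbS : b ∈ S) (hcS : c ∈ S) (hdS : d ∈ S) (huS : u ∈ S)
    (hz : ∀ u, z' (z' u) = u) (za : z' a = a) (zb : z' b = b) (zc : z' c = c) (zd : z' d = d)
    (zu : z' u = u) (hzS : ∀ u, u ∉ S → z' u = u)
    (hcard : z'.support.card = (x * swap a b * swap c d).support.card)
    (h1 : Odd (orderOf ((x * swap a b * swap c d) * z')))
    (h2 : Odd (orderOf (z' * (y * swap b c * swap d a)))) :
    ∃ z, Sol S x y z := by
  have nab : a ≠ b := hf.ne (a₁ := 0) (a₂ := 1) (by decide)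
  have nac : a ≠ c := hf.ne (a₁ := 0) (a₂ := 2) (by decide)
  have nad : a ≠ d := hf.ne (a₁ := 0) (a₂ := 3) (by decide)
  have nau : a ≠ u := hf.ne (a₁ := 0) (a₂ := 4) (by decide)
  have nbc : b ≠ c := hf.ne (a₁ := 1) (a₂ := 2) (by decide)
  have nbd : b ≠ d := hf.ne (a₁ := 1) (a₂ := 3) (by decide)
  have nbu : b ≠ u := hf.ne (a₁ := 1) (a₂ := 4) (by decide)
  have ncd : c ≠ d := hf.ne (a₁ := 2) (a₂ := 3) (by decide)
  have ncu : c ≠ u := hf.ne (a₁ := 2) (a₂ := 4) (by decide)
  have ndu : d ≠ u := hf.ne (a₁ := 3) (a₂ := 4) (by decide)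
  obtain ⟨xi, xfa, xfb, xfc, xfd, xcd, -, xe⟩ := two_rem x hx nab nac nad nbc nbd ncd xa xc
  obtain ⟨yi, yfb, yfc, yfd, yfa, ycd, -, ye⟩ :=
    two_rem y hy nbc nbd nab.symm ncd nac.symm nad.symm yb yd
  have zb' : (z' * swap a c) b = b := fix_step _ zb nab.symm nbc
  have zu' : (z' * swap a c) u = u := fix_step _ zu nau.symm ncu.symm
  have eZ : z' * swap a c * swap b u = z' * (swap a c * swap b u) := mul_assoc _ _ _
  refine ⟨z' * swap a c * swap b u, inv_add _ (inv_add z' hz za zc) zb' zu', ?_, ?_, ?_, ?_⟩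
  · intro t ht
    have e1 : t ≠ a := fun h => ht (h ▸ haS)
    have e2 : t ≠ b := fun h => ht (h ▸ hbS)
    have e3 : t ≠ c := fun h => ht (h ▸ hcS)
    have e4 : t ≠ u := fun h => ht (h ▸ huS)
    exact fix_step _ (fix_step _ (hzS t ht) e1 e3) e2 e4
  · rw [card_add _ nbu zb' zu', card_add _ nac za zc, hcard]
    omega
  · have e : x * (z' * swap a c * swap b u) =
        ((x * swap a b * swap c d) * z') * (swap c d * swap a b * (swap a c * swap b u)) := by
      conv_lhs => rw [← xe]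
      rw [eZ, ((cm z' zc zd).mul_left (cm z' za zb)).mul_mul_mul_comm]
    rw [e, id_4fx a b c d u hf]
    refine odd_two_cycles _ h1 u a d d c b nau.symm ndu.symm nad ncd.symm nbd.symm nbc.symm
      ?_ ?_ ?_ ?_ ncu nac.symm ncd nbu nab.symm nbd
    · rw [Perm.mul_apply, za, xfa]
    · rw [Perm.mul_apply, zd, xfd]
    · rw [Perm.mul_apply, zc, xfc]
    · rw [Perm.mul_apply, zb, xfb]
  · apply odd_comm'
    have e : y * (z' * swap a c * swap b u) =
        ((y * swap b c * swap d a) * z') * (swap d a * swap b c * (swap a c * swap b u)) := by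
      conv_lhs => rw [← ye]
      rw [eZ, ((cm z' zd za).mul_left (cm z' zb zc)).mul_mul_mul_comm]
    rw [e, id_4fy a b c d u hf]
    refine odd_two_cycles _ (odd_comm' _ _ h2) u c d d a b ncu.symm ndu.symm ncd nad.symm nbd.symm nab
      ?_ ?_ ?_ ?_ nau nac nad nbu nbc nbd
    · rw [Perm.mul_apply, zc, yfc]
    · rw [Perm.mul_apply, zd, yfd]
    · rw [Perm.mul_apply, za, yfa]
    · rw [Perm.mul_apply, zb, yfb]

/-- Move: a four-cycle, with an edge of the smaller solution. -/
theorem move_4e (S : Finset Ω) (x y z' : Perm Ω) (a b c d u u' : Ω)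
    (hf : Function.Injective ![a, b, c, d, u, u'])
    (hx : ∀ u, x (x u) = u) (hy : ∀ u, y (y u) = u)
    (xa : x a = b) (xc : x c = d) (yb : y b = c) (yd : y d = a)
    (haS : a ∈ S) (hbS : b ∈ S) (hcS : c ∈ S) (hdS : d ∈ S) (huS : u ∈ S) (hu'S : u' ∈ S)
    (hz : ∀ u, z' (z' u) = u) (za : z' a = a) (zb : z' b = b) (zc : z' c = c) (zd : z' d = d)
    (zu : z' u = u') (hzS : ∀ u, u ∉ S → z' u = u)
    (hcard : z'.support.card = (x * swap a b * swap c d).support.card)
    (h1 : Odd (orderOf ((x * swap a b * swap c d) * z')))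
    (h2 : Odd (orderOf (z' * (y * swap b c * swap d a)))) :
    ∃ z, Sol S x y z := by
  have nab : a ≠ b := hf.ne (a₁ := 0) (a₂ := 1) (by decide)
  have nac : a ≠ c := hf.ne (a₁ := 0) (a₂ := 2) (by decide)
  have nad : a ≠ d := hf.ne (a₁ := 0) (a₂ := 3) (by decide)
  have nau : a ≠ u := hf.ne (a₁ := 0) (a₂ := 4) (by decide)
  have nau' : a ≠ u' := hf.ne (a₁ := 0) (a₂ := 5) (by decide)
  have nbc : b ≠ c := hf.ne (a₁ := 1) (a₂ := 2) (by decide)
  have nbd : b ≠ d := hf.ne (a₁ := 1) (a₂ := 3) (by decide)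
  have nbu : b ≠ u := hf.ne (a₁ := 1) (a₂ := 4) (by decide)
  have nbu' : b ≠ u' := hf.ne (a₁ := 1) (a₂ := 5) (by decide)
  have ncd : c ≠ d := hf.ne (a₁ := 2) (a₂ := 3) (by decide)
  have ncu : c ≠ u := hf.ne (a₁ := 2) (a₂ := 4) (by decide)
  have ncu' : c ≠ u' := hf.ne (a₁ := 2) (a₂ := 5) (by decide)
  have ndu : d ≠ u := hf.ne (a₁ := 3) (a₂ := 4) (by decide)
  have ndu' : d ≠ u' := hf.ne (a₁ := 3) (a₂ := 5) (by decide)
  have nuu' : u ≠ u' := hf.ne (a₁ := 4) (a₂ := 5) (by decide)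
  obtain ⟨xi, xfa, xfb, xfc, xfd, xcd, -, xe⟩ := two_rem x hx nab nac nad nbc nbd ncd xa xc
  obtain ⟨yi, yfb, yfc, yfd, yfa, ycd, -, ye⟩ :=
    two_rem y hy nbc nbd nab.symm ncd nac.symm nad.symm yb yd
  have z1i := rem_inv z' hz zu
  have z1u := rem_a z' hz zu
  have z1u' := rem_b z' hz zu
  have z1a : (z' * swap u u') a = a := fix_step _ za nau nau'
  have z1b : (z' * swap u u') b = b := fix_step _ zb nbu nbu'
  have z1c : (z' * swap u u') c = c := fix_step _ zc ncu ncu'
  have z1d : (z' * swap u u') d = d := fix_step _ zd ndu ndu'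
  have z2b : (z' * swap u u' * swap a c) b = b := fix_step _ z1b nab.symm nbc
  have z2u : (z' * swap u u' * swap a c) u = u := fix_step _ z1u nau.symm ncu.symm
  have z2d : (z' * swap u u' * swap a c) d = d := fix_step _ z1d nad.symm ncd.symm
  have z2u' : (z' * swap u u' * swap a c) u' = u' := fix_step _ z1u' nau'.symm ncu'.symm
  have z3d : (z' * swap u u' * swap a c * swap b u) d = d := fix_step _ z2d nbd.symm ndu
  have z3u' : (z' * swap u u' * swap a c * swap b u) u' = u' := fix_step _ z2u' nbu'.symm nuu'.symm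
  have eZ : z' * swap u u' * swap a c * swap b u * swap d u' =
      z' * (swap u u' * (swap a c * swap b u * swap d u')) := by simp only [mul_assoc]
  refine ⟨z' * swap u u' * swap a c * swap b u * swap d u',
    inv_add _ (inv_add _ (inv_add _ z1i z1a z1c) z2b z2u) z3d z3u', ?_, ?_, ?_, ?_⟩
  · intro t ht
    have e1 : t ≠ a := fun h => ht (h ▸ haS)
    have e2 : t ≠ b := fun h => ht (h ▸ hbS)
    have e3 : t ≠ c := fun h => ht (h ▸ hcS)
    have e4 : t ≠ d := fun h => ht (h ▸ hdS)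
    have e5 : t ≠ u := fun h => ht (h ▸ huS)
    have e6 : t ≠ u' := fun h => ht (h ▸ hu'S)
    exact fix_step _ (fix_step _ (fix_step _ (fix_step _ (hzS t ht) e5 e6) e1 e3) e2 e5) e4 e6
  · rw [card_add _ ndu' z3d z3u', card_add _ nbu z2b z2u, card_add _ nac z1a z1c]
    have h3 := rem_card z' hz nuu' zu
    omega
  · have e : x * (z' * swap u u' * swap a c * swap b u * swap d u') =
        ((x * swap a b * swap c d) * z') *
          (swap c d * swap a b * (swap u u' * (swap a c * swap b u * swap d u'))) := by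
      conv_lhs => rw [← xe]
      rw [eZ, ((cm z' zc zd).mul_left (cm z' za zb)).mul_mul_mul_comm]
    rw [e, id_4ex a b c d u u' hf]
    refine odd_two_cycles _ h1 u a d u' c b nau.symm ndu.symm nad ncu'.symm nbu'.symm nbc.symm
      ?_ ?_ ?_ ?_ ncu nac.symm ncd nbu nab.symm nbd
    · rw [Perm.mul_apply, za, xfa]
    · rw [Perm.mul_apply, zd, xfd]
    · rw [Perm.mul_apply, zc, xfc]
    · rw [Perm.mul_apply, zb, xfb]
  · apply odd_comm'
    have e : y * (z' * swap u u' * swap a c * swap b u * swap d u') =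
        ((y * swap b c * swap d a) * z') *
          (swap d a * swap b c * (swap u u' * (swap a c * swap b u * swap d u'))) := by
      conv_lhs => rw [← ye]
      rw [eZ, ((cm z' zd za).mul_left (cm z' zb zc)).mul_mul_mul_comm]
    rw [e, id_4ey a b c d u u' hf]
    refine odd_two_cycles _ (odd_comm' _ _ h2) u' a b u c d nau'.symm nbu'.symm nab ncu.symm ndu.symm ncd
      ?_ ?_ ?_ ?_ ncu' nac.symm nbc.symm ndu' nad.symm nbd.symm
    · rw [Perm.mul_apply, za, yfa]
    · rw [Perm.mul_apply, zb, yfb]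
    · rw [Perm.mul_apply, zc, yfc]
    · rw [Perm.mul_apply, zd, yfd]

end

section
open Equiv Equiv.Perm

variable {Ω : Type*} [Fintype Ω] [DecidableEq Ω]

theorem ss_a {a c d : Ω} (b : Ω) (h1 : a ≠ c) (h2 : a ≠ d) : (swap a b * swap c d) a = b := by
  rw [Perm.mul_apply, swap_apply_of_ne_of_ne h1 h2, swap_apply_left]

theorem ss_b {b c d : Ω} (a : Ω) (h1 : b ≠ c) (h2 : b ≠ d) : (swap a b * swap c d) b = a := by
  rw [Perm.mul_apply, swap_apply_of_ne_of_ne h1 h2, swap_apply_right]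

theorem ss_c {a b d : Ω} (c : Ω) (h1 : d ≠ a) (h2 : d ≠ b) : (swap a b * swap c d) c = d := by
  rw [Perm.mul_apply, swap_apply_left, swap_apply_of_ne_of_ne h1 h2]

theorem ss_d {a b c : Ω} (d : Ω) (h1 : c ≠ a) (h2 : c ≠ b) : (swap a b * swap c d) d = c := by
  rw [Perm.mul_apply, swap_apply_right, swap_apply_of_ne_of_ne h1 h2]

theorem ss_o {a b c d u : Ω} (h1 : u ≠ a) (h2 : u ≠ b) (h3 : u ≠ c) (h4 : u ≠ d) :
    (swap a b * swap c d) u = u := by
  rw [Perm.mul_apply, swap_apply_of_ne_of_ne h3 h4, swap_apply_of_ne_of_ne h1 h2]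

/-- Two fixed-point-free involutions on four points, different. -/
theorem four_struct (S : Finset Ω) (x y : Perm Ω) (hx : ∀ u, x (x u) = u) (hy : ∀ u, y (y u) = u)
    (hxS : ∀ u, u ∉ S → x u = u) (hyS : ∀ u, u ∉ S → y u = u) (hS : S.card = 4)
    (hkx : x.support.card = 4) (hky : y.support.card = 4) (hne : x ≠ y) (a : Ω) (ha : a ∈ S) :
    ∃ c, a ≠ x a ∧ a ≠ y a ∧ a ≠ c ∧ x a ≠ y a ∧ x a ≠ c ∧ y a ≠ c ∧
      (∀ u, u ∈ S ↔ u = a ∨ u = x a ∨ u = c ∨ u = y a) ∧ x c = y a ∧ y c = x a ∧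
      x = swap a (x a) * swap c (y a) ∧ y = swap a (y a) * swap (x a) c := by
  have hsup : ∀ g : Perm Ω, (∀ u, u ∉ S → g u = u) → g.support.card = 4 → ∀ u ∈ S, g u ≠ u := by
    intro g hg hk u hu
    have h1 : g.support ⊆ S := by
      intro t ht
      by_contra h
      exact (Perm.mem_support.1 ht) (hg t h)
    have h2 := Finset.eq_of_subset_of_card_le h1 (by omega)
    rw [← h2] at hu
    exact Perm.mem_support.1 hu
  have hmem : ∀ g : Perm Ω, (∀ u, g (g u) = u) → (∀ u, u ∉ S → g u = u) → g.support.card = 4 →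
      ∀ u ∈ S, g u ∈ S := by
    intro g hg hgS hk u hu
    by_contra h
    have h1 := hgS _ h
    rw [hg] at h1
    exact hsup g hgS hk u hu h1.symm
  have hxf := hsup x hxS hkx
  have hyf := hsup y hyS hky
  have hxm := hmem x hx hxS hkx
  have hym := hmem y hy hyS hky
  -- no common edge
  have hnc : ∀ u ∈ S, x u ≠ y u := by
    intro u hu hxy
    have hvS := hxm u hu
    have hvne := hxf u hu
    have hc : (((S.erase u).erase (x u))).card = 2 := by
      rw [Finset.card_erase_of_mem (by simp [Finset.mem_erase, hvS, hvne]),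
        Finset.card_erase_of_mem hu, hS]
    obtain ⟨p, q, hpq, hT⟩ := Finset.card_eq_two.1 hc
    have hTm : ∀ t, t ∈ S → t = u ∨ t = x u ∨ t = p ∨ t = q := by
      intro t ht
      by_cases h1 : t = u
      · exact Or.inl h1
      by_cases h2 : t = x u
      · exact Or.inr (Or.inl h2)
      have : t ∈ (S.erase u).erase (x u) := by simp [Finset.mem_erase, h1, h2, ht]
      rw [hT] at this
      simp only [Finset.mem_insert, Finset.mem_singleton] at this
      tauto
    have hpS : p ∈ (S.erase u).erase (x u) := by rw [hT]; simp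
    have hqS : q ∈ (S.erase u).erase (x u) := by rw [hT]; simp
    simp only [Finset.mem_erase] at hpS hqS
    have key : ∀ g : Perm Ω, (∀ t, g (g t) = t) → (∀ t ∈ S, g t ≠ t) → (∀ t ∈ S, g t ∈ S) →
        g u = x u → g p = q := by
      intro g hg hgf hgm hgu
      rcases hTm _ (hgm p hpS.2.2) with h | h | h | h
      · exfalso
        apply hpS.1
        have := hg p
        rw [h, hgu] at this
        exact this.symm
      · exfalso
        apply hpS.2.1
        have := hg p
        rw [h, ← hgu, hg] at this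
        exact this.symm
      · exact absurd h (hgf p hpS.2.2)
      · exact h
    have hxp := key x hx hxf hxm rfl
    have hyp := key y hy hyf hym hxy.symm
    apply hne
    ext t
    by_cases ht : t ∈ S
    · rcases hTm t ht with h | h | h | h
      · rw [h]; exact hxy
      · rw [h, hx, hxy, hy]
      · rw [h, hxp, hyp]
      · have hxq : x q = p := by rw [← hxp, hx]
        have hyq : y q = p := by rw [← hyp, hy]
        rw [h, hxq, hyq]
    · rw [hxS t ht, hyS t ht]
  have hab := hxf a ha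
  have had := hyf a ha
  have hbd := hnc a ha
  have hbS := hxm a ha
  have hdS := hym a ha
  have hc : (((S.erase a).erase (x a)).erase (y a)).card = 1 := by
    rw [Finset.card_erase_of_mem (by simp [Finset.mem_erase, hdS, had, hbd.symm]),
      Finset.card_erase_of_mem (by simp [Finset.mem_erase, hbS, hab]),
      Finset.card_erase_of_mem ha, hS]
  obtain ⟨c, hT⟩ := Finset.card_eq_one.1 hc
  have hcS : c ∈ ((S.erase a).erase (x a)).erase (y a) := by rw [hT]; simp
  simp only [Finset.mem_erase] at hcS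
  obtain ⟨hcd, hcb, hca, hcSS⟩ := hcS
  have hTm : ∀ t, t ∈ S → t = a ∨ t = x a ∨ t = c ∨ t = y a := by
    intro t ht
    by_cases h1 : t = a
    · exact Or.inl h1
    by_cases h2 : t = x a
    · exact Or.inr (Or.inl h2)
    by_cases h3 : t = y a
    · exact Or.inr (Or.inr (Or.inr h3))
    have : t ∈ ((S.erase a).erase (x a)).erase (y a) := by simp [Finset.mem_erase, h1, h2, h3, ht]
    rw [hT] at this
    simp only [Finset.mem_singleton] at this
    exact Or.inr (Or.inr (Or.inl this))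
  have xc : x c = y a := by
    rcases hTm _ (hxm c hcSS) with h | h | h | h
    · exfalso; apply hcb
      have := hx c
      rw [h] at this
      exact this.symm
    · exfalso; apply hca
      exact x.injective h
    · exact absurd h (hxf c hcSS)
    · exact h
  have yc : y c = x a := by
    rcases hTm _ (hym c hcSS) with h | h | h | h
    · exfalso; apply hcd
      have := hy c
      rw [h] at this
      exact this.symm
    · exact h
    · exact absurd h (hyf c hcSS)
    · exfalso; apply hca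
      exact y.injective h
  refine ⟨c, hab.symm, had.symm, hca.symm, hbd, hcb.symm, hcd.symm, ?_, xc, yc, ?_, ?_⟩
  · intro u
    constructor
    · exact hTm u
    · rintro (rfl | rfl | rfl | rfl)
      · exact ha
      · exact hbS
      · exact hcSS
      · exact hdS
  · ext t
    by_cases ht : t ∈ S
    · rcases hTm t ht with h | h | h | h
      · rw [h, ss_a (x a) hca.symm had.symm]
      · rw [h, hx, ss_b a hcb.symm hbd]
      · rw [h, xc, ss_c c had hbd.symm]
      · have hxd : x (y a) = c := by rw [← xc, hx]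
        rw [h, hxd, ss_d (y a) hca hcb]
    · have h1 : t ≠ a := fun h => ht (h ▸ ha)
      have h2 : t ≠ x a := fun h => ht (h ▸ hbS)
      have h3 : t ≠ c := fun h => ht (h ▸ hcSS)
      have h4 : t ≠ y a := fun h => ht (h ▸ hdS)
      rw [hxS t ht, ss_o h1 h2 h3 h4]
  · ext t
    by_cases ht : t ∈ S
    · rcases hTm t ht with h | h | h | h
      · rw [h, ss_a (y a) hab.symm hca.symm]
      · have hyb : y (x a) = c := by rw [← yc, hy]
        rw [h, hyb, ss_c (x a) hca hcd]
      · rw [h, yc, ss_d c hab hbd]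
      · rw [h, hy, ss_b a hbd.symm hcd.symm]
    · have h1 : t ≠ a := fun h => ht (h ▸ ha)
      have h2 : t ≠ x a := fun h => ht (h ▸ hbS)
      have h3 : t ≠ c := fun h => ht (h ▸ hcSS)
      have h4 : t ≠ y a := fun h => ht (h ▸ hdS)
      rw [hyS t ht, ss_o h1 h4 h2 h3]

end

section
open Equiv Equiv.Perm

variable {Ω : Type*} [Fintype Ω] [DecidableEq Ω]

theorem vf_support_card {m : ℕ} (f : Fin m → Ω) (hf : Function.Injective f) (e : Perm (Fin m)) :
    (viaEmbeddingHom (⟨f, hf⟩ : Fin m ↪ Ω) e).support.card = e.support.card := by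
  have h : (viaEmbeddingHom (⟨f, hf⟩ : Fin m ↪ Ω) e).support = e.support.map ⟨f, hf⟩ := by
    ext u
    simp only [Perm.mem_support, Finset.mem_map, Function.Embedding.coeFn_mk]
    rw [viaEmbeddingHom_apply]
    constructor
    · intro hu
      by_cases hr : u ∈ Set.range f
      · obtain ⟨t, rfl⟩ := hr
        refine ⟨t, ?_, rfl⟩
        intro h1
        apply hu
        have := viaEmbedding_apply e (⟨f, hf⟩ : Fin m ↪ Ω) t
        simp only [Function.Embedding.coeFn_mk] at this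
        rw [this, h1]
      · exact absurd (viaEmbedding_apply_of_notMem e (⟨f, hf⟩ : Fin m ↪ Ω) u (by simpa using hr)) hu
    · rintro ⟨t, ht, rfl⟩ h1
      apply ht
      have := viaEmbedding_apply e (⟨f, hf⟩ : Fin m ↪ Ω) t
      simp only [Function.Embedding.coeFn_mk] at this
      rw [this] at h1
      exact hf h1
  rw [h, Finset.card_map]

theorem model8 (S : Finset Ω) (x y : Perm Ω) (f : Fin 8 → Ω) (hf : Function.Injective f)
    (hfS : ∀ i, f i ∈ S) (x₀ y₀ z₀ : Perm (Fin 8))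
    (ex : x = viaEmbeddingHom (⟨f, hf⟩ : Fin 8 ↪ Ω) x₀)
    (ey : y = viaEmbeddingHom (⟨f, hf⟩ : Fin 8 ↪ Ω) y₀)
    (hz : z₀ * z₀ = 1) (h8x : x.support.card = 8) (h8z : z₀.support.card = 8)
    (h1 : (x₀ * z₀) ^ 3 = 1) (h2 : (z₀ * y₀) ^ 3 = 1) : ∃ z, Sol S x y z := by
  refine ⟨viaEmbeddingHom (⟨f, hf⟩ : Fin 8 ↪ Ω) z₀, ?_, ?_, ?_, ?_, ?_⟩
  · intro u
    rw [← Perm.mul_apply, ← map_mul, hz, map_one]; rfl
  · intro u hu
    rw [viaEmbeddingHom_apply]
    apply viaEmbedding_apply_of_notMem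
    rintro ⟨i, hi⟩
    apply hu
    rw [← hi]
    exact hfS i
  · rw [vf_support_card, h8z, h8x]
  · rw [ex, ← map_mul]
    refine Odd.of_dvd_nat (by decide : Odd 3) (orderOf_dvd_of_pow_eq_one ?_)
    rw [← map_pow, h1, map_one]
  · rw [ey, ← map_mul]
    refine Odd.of_dvd_nat (by decide : Odd 3) (orderOf_dvd_of_pow_eq_one ?_)
    rw [← map_pow, h2, map_one]

/-- The eight-point model of a pair of four-cycles. -/
theorem base_two_four (S : Finset Ω) (x y : Perm Ω) (a b c d a' b' c' d' : Ω)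
    (hf : Function.Injective ![a, b, c, d, a', b', c', d'])
    (hfS : ∀ i, (![a, b, c, d, a', b', c', d'] : Fin 8 → Ω) i ∈ S)
    (ex : x = swap a' b' * swap c' d' * (swap c d * swap a b))
    (ey : y = swap a' d' * swap b' c' * (swap d a * swap b c))
    (h8x : x.support.card = 8) : ∃ z, Sol S x y z := by
  refine model8 S x y _ hf hfS (swap 4 5 * swap 6 7 * (swap 2 3 * swap 0 1))
    (swap 4 7 * swap 5 6 * (swap 3 0 * swap 1 2)) (swap 0 1 * swap 2 4 * swap 3 7 * swap 5 6) ?_ ?_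
    (by decide +kernel) h8x (by decide +kernel) (by decide +kernel) (by decide +kernel)
  · simp only [map_mul, vf_swap]; exact ex
  · simp only [map_mul, vf_swap]; exact ey

/-- The eight-point model of an eight-cycle. -/
theorem base_eight (S : Finset Ω) (x y : Perm Ω) (v1 v2 v3 v4 v5 p q v0 : Ω)
    (hf : Function.Injective ![v1, v2, v3, v4, v5, p, q, v0])
    (hfS : ∀ i, (![v1, v2, v3, v4, v5, p, q, v0] : Fin 8 → Ω) i ∈ S)
    (ex : x = swap v5 p * swap q v0 * (swap v3 v4 * swap v1 v2))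
    (ey : y = swap v5 v0 * swap p q * (swap v0 v5 * swap v4 v5 * swap v2 v3 * swap v0 v1))
    (h8x : x.support.card = 8) : ∃ z, Sol S x y z := by
  refine model8 S x y _ hf hfS (swap 4 5 * swap 6 7 * (swap 2 3 * swap 0 1))
    (swap 4 7 * swap 5 6 * (swap 7 4 * swap 3 4 * swap 1 2 * swap 7 0))
    (swap 0 1 * swap 3 4 * swap 5 7 * swap 6 2) ?_ ?_
    (by decide +kernel) h8x (by decide +kernel) (by decide +kernel) (by decide +kernel)
  · simp only [map_mul, vf_swap]; exact ex
  · simp only [map_mul, vf_swap]; exact ey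

end

section
open Equiv Equiv.Perm

variable {Ω : Type*} [Fintype Ω] [DecidableEq Ω]

theorem inj5 {a b c d e : Ω} (h1 : a ≠ b) (h2 : a ≠ c) (h3 : a ≠ d) (h4 : a ≠ e) (h5 : b ≠ c) (h6 : b ≠ d)
    (h7 : b ≠ e) (h8 : c ≠ d) (h9 : c ≠ e) (h10 : d ≠ e) : Function.Injective ![a, b, c, d, e] := by
  intro i j hij
  fin_cases i <;> fin_cases j <;>
    first | rfl | (exact absurd hij (by assumption)) | (exact absurd hij.symm (by assumption))

theorem inj6 {a b c d e f : Ω} (h1 : a ≠ b) (h2 : a ≠ c) (h3 : a ≠ d) (h4 : a ≠ e) (h4' : a ≠ f)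
    (h5 : b ≠ c) (h6 : b ≠ d) (h7 : b ≠ e) (h7' : b ≠ f) (h8 : c ≠ d) (h9 : c ≠ e) (h9' : c ≠ f)
    (h10 : d ≠ e) (h10' : d ≠ f) (h11 : e ≠ f) : Function.Injective ![a, b, c, d, e, f] := by
  intro i j hij
  fin_cases i <;> fin_cases j <;>
    first | rfl | (exact absurd hij (by assumption)) | (exact absurd hij.symm (by assumption))

theorem inj8 {a b c d e f g h : Ω} (h1 : a ≠ b) (h2 : a ≠ c) (h3 : a ≠ d) (h4 : b ≠ c) (h5 : b ≠ d)
    (h6 : c ≠ d) (h7 : e ≠ f) (h8 : e ≠ g) (h9 : e ≠ h) (h10 : f ≠ g) (h11 : f ≠ h) (h12 : g ≠ h)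
    (hea : a ≠ e) (heb : b ≠ e) (hec : c ≠ e) (hed : d ≠ e)
    (hfa : a ≠ f) (hfb : b ≠ f) (hfc : c ≠ f) (hfd : d ≠ f)
    (hga : a ≠ g) (hgb : b ≠ g) (hgc : c ≠ g) (hgd : d ≠ g)
    (hha : a ≠ h) (hhb : b ≠ h) (hhc : c ≠ h) (hhd : d ≠ h) :
    Function.Injective ![a, b, c, d, e, f, g, h] := by
  intro i j hij
  fin_cases i <;> fin_cases j <;>
    first | rfl | (exact absurd hij (by assumption)) | (exact absurd hij.symm (by assumption))

/-- The exceptional situation contains a four-cycle, with all points in the set. -/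
theorem has4_of_exc (S : Finset Ω) (x y : Perm Ω) (hx : ∀ u, x (x u) = u) (hy : ∀ u, y (y u) = u)
    (hxS : ∀ u, u ∉ S → x u = u) (hyS : ∀ u, u ∉ S → y u = u) (hS : S.card = 4)
    (hkx : x.support.card = 4) (hky : y.support.card = 4) (hne : x ≠ y) :
    ∃ a b c d, a ≠ b ∧ a ≠ c ∧ a ≠ d ∧ b ≠ c ∧ b ≠ d ∧ c ≠ d ∧ a ∈ S ∧ b ∈ S ∧ c ∈ S ∧ d ∈ S ∧
      x a = b ∧ x c = d ∧ y b = c ∧ y d = a := by
  obtain ⟨a, ha⟩ : S.Nonempty := by
    rw [← Finset.card_pos]; omega
  obtain ⟨c, h1, h2, h3, h4, h5, h6, hm, xc, yc, -, -⟩ :=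
    four_struct S x y hx hy hxS hyS hS hkx hky hne a ha
  refine ⟨a, x a, c, y a, h1, h3, h2, h5, h4, h6.symm, ha, (hm _).2 (by simp), (hm _).2 (by simp),
    (hm _).2 (by simp), rfl, xc, ?_, hy a⟩
  rw [← yc, hy]

theorem no_exc (S : Finset Ω) (g : Perm Ω) (hg : ∀ u, u ∉ S → g u = u) (b : Ω) (hb : b ∈ S)
    (hgb : g b = b) : g.support.card < S.card := by
  apply Finset.card_lt_card
  refine ⟨?_, ?_⟩
  · intro t ht
    by_contra h
    exact (Perm.mem_support.1 ht) (hg t h)
  · intro h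
    exact (Perm.mem_support.1 (h hb)) hgb

/-- The case of an exceptional remainder after a four-cycle. -/
theorem step_two_four (S S' : Finset Ω) (x y x' y' : Perm Ω) (a b c d u : Ω)
    (nab : a ≠ b) (nac : a ≠ c) (nad : a ≠ d) (nbc : b ≠ c) (nbd : b ≠ d) (ncd : c ≠ d)
    (haS : a ∈ S) (hbS : b ∈ S) (hcS : c ∈ S) (hdS : d ∈ S)
    (hS' : ∀ t, t ∈ S' → t ∈ S ∧ t ≠ a ∧ t ≠ b ∧ t ≠ c ∧ t ≠ d)
    (hx : ∀ u, x' (x' u) = u) (hy : ∀ u, y' (y' u) = u)
    (hxS : ∀ u, u ∉ S' → x' u = u) (hyS : ∀ u, u ∉ S' → y' u = u) (hS : S'.card = 4)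
    (hkx : x'.support.card = 4) (hky : y'.support.card = 4) (hne : x' ≠ y') (hu : u ∈ S')
    (xe : x' * (swap c d * swap a b) = x) (ye : y' * (swap d a * swap b c) = y)
    (hc : x'.support.card + 4 = x.support.card) : ∃ z, Sol S x y z := by
  obtain ⟨c', h1, h2, h3, h4, h5, h6, hm, -, -, ex, ey⟩ :=
    four_struct S' x' y' hx hy hxS hyS hS hkx hky hne u hu
  have m2 := hS' _ ((hm (x' u)).2 (by simp))
  have m3 := hS' _ ((hm c').2 (by simp))
  have m4 := hS' _ ((hm (y' u)).2 (by simp))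
  have m1 := hS' _ hu
  have hf := inj8 nab nac nad nbc nbd ncd h1 h3 h2 h5 h4 h6.symm
    m1.2.1.symm m1.2.2.1.symm m1.2.2.2.1.symm m1.2.2.2.2.symm
    m2.2.1.symm m2.2.2.1.symm m2.2.2.2.1.symm m2.2.2.2.2.symm
    m3.2.1.symm m3.2.2.1.symm m3.2.2.2.1.symm m3.2.2.2.2.symm
    m4.2.1.symm m4.2.2.1.symm m4.2.2.2.1.symm m4.2.2.2.2.symm
  refine base_two_four S x y a b c d u (x' u) c' (y' u) hf ?_ ?_ ?_ (by omega)
  · intro i
    fin_cases i
    · exact haS
    · exact hbS
    · exact hcS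
    · exact hdS
    · exact m1.1
    · exact m2.1
    · exact m3.1
    · exact m4.1
  · rw [← ex]; exact xe.symm
  · rw [← ey]; exact ye.symm

/-- Facts on the new `y` of the long cycle move. -/
theorem y_e_facts (y : Perm Ω) (hy : ∀ u, y (y u) = u) (v0 v1 v2 v3 v4 v5 : Ω)
    (hf : Function.Injective ![v0, v1, v2, v3, v4, v5])
    (y0 : y v0 = v1) (y2 : y v2 = v3) (y4 : y v4 = v5) :
    (∀ u, (y * swap v0 v1 * swap v2 v3 * swap v4 v5 * swap v0 v5)
      ((y * swap v0 v1 * swap v2 v3 * swap v4 v5 * swap v0 v5) u) = u) ∧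
    (y * swap v0 v1 * swap v2 v3 * swap v4 v5 * swap v0 v5) v1 = v1 ∧
    (y * swap v0 v1 * swap v2 v3 * swap v4 v5 * swap v0 v5) v2 = v2 ∧
    (y * swap v0 v1 * swap v2 v3 * swap v4 v5 * swap v0 v5) v3 = v3 ∧
    (y * swap v0 v1 * swap v2 v3 * swap v4 v5 * swap v0 v5) v4 = v4 ∧
    (y * swap v0 v1 * swap v2 v3 * swap v4 v5 * swap v0 v5) v5 = v0 ∧
    (y * swap v0 v1 * swap v2 v3 * swap v4 v5 * swap v0 v5).support.card + 4 = y.support.card ∧
    (∀ u, u ≠ v0 → u ≠ v1 → u ≠ v2 → u ≠ v3 → u ≠ v4 → u ≠ v5 →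
      (y * swap v0 v1 * swap v2 v3 * swap v4 v5 * swap v0 v5) u = y u) ∧
    (y * swap v0 v1 * swap v2 v3 * swap v4 v5 * swap v0 v5) *
        (swap v0 v5 * swap v4 v5 * swap v2 v3 * swap v0 v1) = y := by
  have n01 : v0 ≠ v1 := hf.ne (a₁ := 0) (a₂ := 1) (by decide)
  have n02 : v0 ≠ v2 := hf.ne (a₁ := 0) (a₂ := 2) (by decide)
  have n03 : v0 ≠ v3 := hf.ne (a₁ := 0) (a₂ := 3) (by decide)
  have n04 : v0 ≠ v4 := hf.ne (a₁ := 0) (a₂ := 4) (by decide)
  have n05 : v0 ≠ v5 := hf.ne (a₁ := 0) (a₂ := 5) (by decide)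
  have n12 : v1 ≠ v2 := hf.ne (a₁ := 1) (a₂ := 2) (by decide)
  have n13 : v1 ≠ v3 := hf.ne (a₁ := 1) (a₂ := 3) (by decide)
  have n14 : v1 ≠ v4 := hf.ne (a₁ := 1) (a₂ := 4) (by decide)
  have n15 : v1 ≠ v5 := hf.ne (a₁ := 1) (a₂ := 5) (by decide)
  have n23 : v2 ≠ v3 := hf.ne (a₁ := 2) (a₂ := 3) (by decide)
  have n24 : v2 ≠ v4 := hf.ne (a₁ := 2) (a₂ := 4) (by decide)
  have n25 : v2 ≠ v5 := hf.ne (a₁ := 2) (a₂ := 5) (by decide)
  have n34 : v3 ≠ v4 := hf.ne (a₁ := 3) (a₂ := 4) (by decide)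
  have n35 : v3 ≠ v5 := hf.ne (a₁ := 3) (a₂ := 5) (by decide)
  have n45 : v4 ≠ v5 := hf.ne (a₁ := 4) (a₂ := 5) (by decide)
  have yi1 := rem_inv y hy y0
  have y12 : (y * swap v0 v1) v2 = v3 := by rw [rem_o y n02.symm n12.symm, y2]
  have yi2 := rem_inv _ yi1 y12
  have y24 : (y * swap v0 v1 * swap v2 v3) v4 = v5 := by
    rw [rem_o _ n24.symm n34.symm, rem_o y n04.symm n14.symm, y4]
  have yi3 := rem_inv _ yi2 y24
  have y3_0 : (y * swap v0 v1 * swap v2 v3 * swap v4 v5) v0 = v0 :=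
    fix_step _ (fix_step _ (rem_a y hy y0) n02 n03) n04 n05
  have y3_5 : (y * swap v0 v1 * swap v2 v3 * swap v4 v5) v5 = v5 := rem_b _ yi2 y24
  have y3_1 : (y * swap v0 v1 * swap v2 v3 * swap v4 v5) v1 = v1 :=
    fix_step _ (fix_step _ (rem_b y hy y0) n12 n13) n14 n15
  have y3_2 : (y * swap v0 v1 * swap v2 v3 * swap v4 v5) v2 = v2 :=
    fix_step _ (rem_a _ yi1 y12) n24 n25
  have y3_3 : (y * swap v0 v1 * swap v2 v3 * swap v4 v5) v3 = v3 :=
    fix_step _ (rem_b _ yi1 y12) n34 n35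
  have y3_4 : (y * swap v0 v1 * swap v2 v3 * swap v4 v5) v4 = v4 := rem_a _ yi2 y24
  refine ⟨inv_add _ yi3 y3_0 y3_5, fix_step _ y3_1 n01.symm n15, fix_step _ y3_2 n02.symm n25,
    fix_step _ y3_3 n03.symm n35, fix_step _ y3_4 n04.symm n45, ?_, ?_, ?_, ?_⟩
  · rw [Perm.mul_apply, swap_apply_right, y3_0]
  · have h1 := card_add _ n05 y3_0 y3_5
    have h2 := rem_card _ yi2 n45 y24
    have h3 := rem_card _ yi1 n23 y12
    have h4 := rem_card y hy n01 y0
    omega
  · intro u e0 e1 e2 e3 e4 e5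
    rw [rem_o _ e0 e5, rem_o _ e4 e5, rem_o _ e2 e3, rem_o _ e0 e1]
  · simp [mul_assoc]

/-- The case of an exceptional remainder after a long cycle move. -/
theorem step_eight (S S' : Finset Ω) (x y x' y' : Perm Ω) (v0 v1 v2 v3 v4 v5 : Ω)
    (n12 : v1 ≠ v2) (n13 : v1 ≠ v3) (n14 : v1 ≠ v4) (n23 : v2 ≠ v3) (n24 : v2 ≠ v4) (n34 : v3 ≠ v4)
    (h1S : v1 ∈ S) (h2S : v2 ∈ S) (h3S : v3 ∈ S) (h4S : v4 ∈ S)
    (hS' : ∀ t, t ∈ S' → t ∈ S ∧ t ≠ v1 ∧ t ≠ v2 ∧ t ≠ v3 ∧ t ≠ v4)
    (hx : ∀ u, x' (x' u) = u) (hy : ∀ u, y' (y' u) = u)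
    (hxS : ∀ u, u ∉ S' → x' u = u) (hyS : ∀ u, u ∉ S' → y' u = u) (hS : S'.card = 4)
    (hkx : x'.support.card = 4) (hky : y'.support.card = 4) (hne : x' ≠ y') (hv5 : v5 ∈ S')
    (hy5 : y' v5 = v0)
    (xe : x' * (swap v3 v4 * swap v1 v2) = x)
    (ye : y' * (swap v0 v5 * swap v4 v5 * swap v2 v3 * swap v0 v1) = y)
    (hc : x'.support.card + 4 = x.support.card) : ∃ z, Sol S x y z := by
  obtain ⟨q, h1, h2, h3, h4, h5, h6, hm, -, -, ex, ey⟩ :=
    four_struct S' x' y' hx hy hxS hyS hS hkx hky hne v5 hv5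
  rw [hy5] at h2 h4 h6 ex ey hm
  have m2 := hS' _ ((hm (x' v5)).2 (by simp))
  have m3 := hS' _ ((hm q).2 (by simp))
  have m4 := hS' _ ((hm v0).2 (by simp))
  have m1 := hS' _ hv5
  have hf := inj8 n12 n13 n14 n23 n24 n34 h1 h3 h2 h5 h4 h6.symm
    m1.2.1.symm m1.2.2.1.symm m1.2.2.2.1.symm m1.2.2.2.2.symm
    m2.2.1.symm m2.2.2.1.symm m2.2.2.2.1.symm m2.2.2.2.2.symm
    m3.2.1.symm m3.2.2.1.symm m3.2.2.2.1.symm m3.2.2.2.2.symm
    m4.2.1.symm m4.2.2.1.symm m4.2.2.2.1.symm m4.2.2.2.2.symm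
  refine base_eight S x y v1 v2 v3 v4 v5 (x' v5) q v0 hf ?_ ?_ ?_ (by omega)
  · intro i
    fin_cases i
    · exact h1S
    · exact h2S
    · exact h3S
    · exact h4S
    · exact m1.1
    · exact m2.1
    · exact m3.1
    · exact m4.1
  · rw [← ex]; exact xe.symm
  · rw [← ey]; exact ye.symm

end

section
open Equiv Equiv.Perm

variable {Ω : Type*} [Fintype Ω] [DecidableEq Ω]

theorem card_lt_of_sub {S S' : Finset Ω} {a : Ω} (ha : a ∈ S) (ha' : a ∉ S') (h : ∀ t, t ∈ S' → t ∈ S) :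
    S'.card < S.card :=
  Finset.card_lt_card ⟨h, fun h2 => ha' (h2 ha)⟩

theorem main_ind : ∀ (n : ℕ) (S : Finset Ω), S.card = n → ∀ x y : Perm Ω,
    (∀ u, x (x u) = u) → (∀ u, y (y u) = u) → (∀ u, u ∉ S → x u = u) → (∀ u, u ∉ S → y u = u) →
    x.support.card = y.support.card → ¬ (S.card = 4 ∧ x.support.card = 4 ∧ x ≠ y) →
    ∃ z, Sol S x y z := by
  intro n
  induction n using Nat.strong_induction_on with
  | _ n IH =>
  intro S hSn x y hx hy hxS hyS hk hexc
  have xm : ∀ u, x u ≠ u → u ∈ S := fun u hu => by_contra fun h => hu (hxS u h)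
  have ym : ∀ u, y u ≠ u → u ∈ S := fun u hu => by_contra fun h => hu (hyS u h)
  have xm2 : ∀ u, x u ≠ u → x u ∈ S := fun u hu => xm _ (by rw [hx]; exact hu.symm)
  have ym2 : ∀ u, y u ≠ u → y u ∈ S := fun u hu => ym _ (by rw [hy]; exact hu.symm)
  have hxx : x * x = 1 := by ext u; simp [Perm.mul_apply, hx]
  by_cases hodd : Odd (orderOf (x * y))
  · refine ⟨x, hx, hxS, rfl, ?_, hodd⟩
    rw [hxx, orderOf_one]; exact odd_one
  -- different supports
  by_cases hsupp : x.support = y.support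
  swap
  · obtain ⟨a, ha⟩ : (x.support \ y.support).Nonempty := by
      rw [Finset.sdiff_nonempty]
      intro hsub
      exact hsupp (Finset.eq_of_subset_of_card_le hsub (by omega))
    obtain ⟨c, hc⟩ : (y.support \ x.support).Nonempty := by
      rw [← Finset.card_pos, ← Finset.card_sdiff_comm hk, Finset.card_pos]; exact ⟨a, ha⟩
    simp only [Finset.mem_sdiff, Perm.mem_support, not_not] at ha hc
    obtain ⟨ha1, ya⟩ := ha
    obtain ⟨hc1, xc⟩ := hc
    have haS := xm a ha1
    have hcS := ym c hc1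
    have hbS := xm2 a ha1
    have hdS := ym2 c hc1
    have hmem : ∀ t, t ∉ (S.erase a).erase c → t = c ∨ t = a ∨ t ∉ S := by
      intro t ht
      simp only [Finset.mem_erase, not_and_or, not_not] at ht
      tauto
    have hac : a ≠ c := by
      rintro rfl
      exact ha1 xc
    have hbc : x a ≠ c := by
      intro h
      have := hx a
      rw [h, xc] at this
      exact hac this.symm
    have x'a := rem_a x hx (rfl : x a = x a)
    have x'b := rem_b x hx (rfl : x a = x a)
    have y'c := rem_a y hy (rfl : y c = y c)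
    have had : a ≠ y c := by
      intro h
      have := hy c
      rw [← h, ya] at this
      exact hac this
    have x'S : ∀ u, u ∉ (S.erase a).erase c → (x * swap a (x a)) u = u := by
      intro u hu
      rcases hmem u hu with rfl | rfl | h
      · rw [rem_o x hac.symm hbc.symm, xc]
      · exact x'a
      · rw [rem_o x (u := u) (a := a) (b := x a) (fun h2 => h (h2 ▸ haS)) (fun h2 => h (h2 ▸ hbS)), hxS u h]
    have y'S : ∀ u, u ∉ (S.erase a).erase c → (y * swap c (y c)) u = u := by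
      intro u hu
      rcases hmem u hu with rfl | rfl | h
      · exact y'c
      · rw [rem_o y hac had, ya]
      · rw [rem_o y (u := u) (a := c) (b := y c) (fun h2 => h (h2 ▸ hcS)) (fun h2 => h (h2 ▸ hdS)), hyS u h]
    have hlt : ((S.erase a).erase c).card < n := by
      rw [← hSn]
      exact card_lt_of_sub haS (by simp [Finset.mem_erase]) (fun t ht => by
        simp only [Finset.mem_erase] at ht; exact ht.2.2)
    have hbS' : x a ∈ (S.erase a).erase c := by
      simp only [Finset.mem_erase]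
      exact ⟨hbc, Ne.symm ha1 |>.symm, hbS⟩
    have hnoe := no_exc _ _ x'S _ hbS' x'b
    have cx := rem_card x hx (Ne.symm ha1) (rfl : x a = x a)
    have cy := rem_card y hy (Ne.symm hc1) (rfl : y c = y c)
    obtain ⟨z', hz, hzS', hcard, h1, h2⟩ := IH _ hlt _ rfl _ _ (rem_inv x hx rfl) (rem_inv y hy rfl)
      x'S y'S (by omega) (by omega)
    exact move_d S x y z' hx hy (Ne.symm ha1) rfl ya (Ne.symm hc1) rfl xc haS hcS hz
      (hzS' a (by simp [Finset.mem_erase])) (hzS' c (by simp [Finset.mem_erase]))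
      (fun u hu => hzS' u (by
        simp only [Finset.mem_erase, not_and_or]; exact Or.inr (Or.inr hu))) hcard h1 h2
  have hiff : ∀ u, x u = u ↔ y u = u := by
    intro u
    have := Finset.ext_iff.1 hsupp u
    simp only [Perm.mem_support, ne_eq, not_iff_not] at this
    exact this
  -- a four-cycle
  by_cases h4 : ∃ a b c d, a ≠ b ∧ a ≠ c ∧ a ≠ d ∧ b ≠ c ∧ b ≠ d ∧ c ≠ d ∧
      x a = b ∧ x c = d ∧ y b = c ∧ y d = a
  · obtain ⟨a, b, c, d, nab, nac, nad, nbc, nbd, ncd, xa, xc, yb, yd⟩ := h4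
    have haS : a ∈ S := xm a (by rw [xa]; exact nab.symm)
    have hbS : b ∈ S := by rw [← xa]; exact xm2 a (by rw [xa]; exact nab.symm)
    have hcS : c ∈ S := xm c (by rw [xc]; exact ncd.symm)
    have hdS : d ∈ S := by rw [← xc]; exact xm2 c (by rw [xc]; exact ncd.symm)
    obtain ⟨xi, xfa, xfb, xfc, xfd, xcd, xo, xe⟩ := two_rem x hx nab nac nad nbc nbd ncd xa xc
    obtain ⟨yi, yfb, yfc, yfd, yfa, ycd, yo, ye⟩ :=
      two_rem y hy nbc nbd nab.symm ncd nac.symm nad.symm yb yd
    obtain ⟨S', hS'⟩ : ∃ S', S' = (((S.erase a).erase b).erase c).erase d := ⟨_, rfl⟩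
    have hS'm : ∀ t, t ∈ S' ↔ t ≠ d ∧ t ≠ c ∧ t ≠ b ∧ t ≠ a ∧ t ∈ S := by
      intro t; rw [hS']; simp only [Finset.mem_erase]
    have hScard : S'.card + 4 = S.card := by
      rw [hS', Finset.card_erase_of_mem (by simp [Finset.mem_erase, hdS, nad.symm, nbd.symm, ncd.symm]),
        Finset.card_erase_of_mem (by simp [Finset.mem_erase, hcS, nac.symm, nbc.symm]),
        Finset.card_erase_of_mem (by simp [Finset.mem_erase, hbS, nab.symm]),
        Finset.card_erase_of_mem haS]
      have h1 : 2 ≤ S.card := by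
        have := Finset.card_le_card (show ({a, b} : Finset Ω) ⊆ S by
          intro t; simp only [Finset.mem_insert, Finset.mem_singleton]; rintro (rfl | rfl) <;> assumption)
        rwa [Finset.card_pair nab] at this
      have h2 : 4 ≤ S.card := by
        have := Finset.card_le_card (show ({a, b, c, d} : Finset Ω) ⊆ S by
          intro t; simp only [Finset.mem_insert, Finset.mem_singleton]
          rintro (rfl | rfl | rfl | rfl) <;> assumption)
        rwa [Finset.card_insert_of_notMem (by simp [nab, nac, nad]),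
          Finset.card_insert_of_notMem (by simp [nbc, nbd]), Finset.card_pair ncd] at this
      omega
    have hmem : ∀ t, t ∉ S' → t = d ∨ t = c ∨ t = b ∨ t = a ∨ t ∉ S := by
      intro t ht
      rw [hS'm] at ht
      tauto
    have x'S : ∀ u, u ∉ S' → (x * swap a b * swap c d) u = u := by
      intro u hu
      rcases hmem u hu with rfl | rfl | rfl | rfl | h
      · exact xfd
      · exact xfc
      · exact xfb
      · exact xfa
      · rw [xo u (fun h2 => h (h2 ▸ haS)) (fun h2 => h (h2 ▸ hbS)) (fun h2 => h (h2 ▸ hcS))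
          (fun h2 => h (h2 ▸ hdS)), hxS u h]
    have y'S : ∀ u, u ∉ S' → (y * swap b c * swap d a) u = u := by
      intro u hu
      rcases hmem u hu with rfl | rfl | rfl | rfl | h
      · exact yfd
      · exact yfc
      · exact yfb
      · exact yfa
      · rw [yo u (fun h2 => h (h2 ▸ hbS)) (fun h2 => h (h2 ▸ hcS)) (fun h2 => h (h2 ▸ hdS))
          (fun h2 => h (h2 ▸ haS)), hyS u h]
    have hS'sub : ∀ t, t ∈ S' → t ∈ S ∧ t ≠ a ∧ t ≠ b ∧ t ≠ c ∧ t ≠ d := by
      intro t ht
      rw [hS'm] at ht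
      tauto
    -- the remainder is not empty
    obtain ⟨u, hu⟩ : S'.Nonempty := by
      rw [Finset.nonempty_iff_ne_empty]
      intro h0
      apply hexc
      rw [h0] at hScard
      refine ⟨by simpa using hScard.symm, ?_, ?_⟩
      · have : (x * swap a b * swap c d) = 1 := by
          ext t
          exact x'S t (by simp [h0])
        rw [this] at xcd
        simpa using xcd.symm
      · intro hxy
        rw [hxy] at xa
        have := hy a
        rw [xa] at this
        have h5 := (y.injective (yd.trans this.symm))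
        exact nbd h5.symm
    by_cases hE : S'.card = 4 ∧ (x * swap a b * swap c d).support.card = 4 ∧
        (x * swap a b * swap c d) ≠ (y * swap b c * swap d a)
    · obtain ⟨e1, e2, e3⟩ := hE
      exact step_two_four S S' x y _ _ a b c d u nab nac nad nbc nbd ncd haS hbS hcS hdS hS'sub xi yi x'S y'S
        e1 e2 (by omega) e3 hu xe ye xcd
    · have hlt : S'.card < n := by omega
      obtain ⟨z', hz, hzS', hcard, h1, h2⟩ := IH _ hlt S' rfl _ _ xi yi x'S y'S (by omega) hE
      have hSub : ∀ t, t ∉ S → z' t = t := fun t ht => hzS' t (fun h => ht (hS'sub t h).1)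
      have za := hzS' a (by rw [hS'm]; simp)
      have zb := hzS' b (by rw [hS'm]; simp)
      have zc := hzS' c (by rw [hS'm]; simp)
      have zd := hzS' d (by rw [hS'm]; simp)
      obtain ⟨huS, hua, hub, huc, hud⟩ := hS'sub u hu
      by_cases zu : z' u = u
      · exact move_4f S x y z' a b c d u (inj5 nab nac nad hua.symm nbc nbd hub.symm ncd huc.symm hud.symm)
          hx hy xa xc yb yd haS hbS hcS hdS huS hz za zb zc zd zu hSub hcard h1 h2
      · have hu'S' : z' u ∈ S' := by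
          by_contra h
          have := hzS' _ h
          rw [hz] at this
          exact zu this.symm
        obtain ⟨hu'S, hu'a, hu'b, hu'c, hu'd⟩ := hS'sub _ hu'S'
        exact move_4e S x y z' a b c d u (z' u)
          (inj6 nab nac nad hua.symm hu'a.symm nbc nbd hub.symm hu'b.symm ncd huc.symm hu'c.symm
            hud.symm hu'd.symm (Ne.symm zu))
          hx hy xa xc yb yd haS hbS hcS hdS huS hu'S hz za zb zc zd rfl hSub hcard h1 h2
  -- a common fixed point
  by_cases hv : ∃ v, v ∈ S ∧ x v = v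
  · obtain ⟨v, hvS, xv⟩ := hv
    have yv := (hiff v).1 xv
    have hmem : ∀ t, t ∉ S.erase v → t = v ∨ t ∉ S := by
      intro t ht
      simp only [Finset.mem_erase, not_and_or, not_not] at ht
      tauto
    have x'S : ∀ u, u ∉ S.erase v → x u = u := by
      intro u hu
      rcases hmem u hu with rfl | h
      · exact xv
      · exact hxS u h
    have y'S : ∀ u, u ∉ S.erase v → y u = u := by
      intro u hu
      rcases hmem u hu with rfl | h
      · exact yv
      · exact hyS u h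
    have hlt : (S.erase v).card < n := by
      rw [← hSn]
      exact Finset.card_erase_lt_of_mem hvS
    obtain ⟨z', hz, hzS', hcard, h1, h2⟩ := IH _ hlt _ rfl x y hx hy x'S y'S hk (by
      rintro ⟨e1, e2, e3⟩
      obtain ⟨a, b, c, d, h1, h2, h3, h4', h5, h6, -, -, -, -, h7, h8, h9, h10⟩ :=
        has4_of_exc _ x y hx hy x'S y'S e1 e2 (by omega) e3
      exact h4 ⟨a, b, c, d, h1, h2, h3, h4', h5, h6, h7, h8, h9, h10⟩)
    exact ⟨z', hz, fun u hu => hzS' u (by
      simp only [Finset.mem_erase, not_and_or]; exact Or.inr hu), hcard, h1, h2⟩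
  push Not at hv
  have hyf : ∀ v, v ∈ S → y v ≠ v := fun v hv' h => hv v hv' ((hiff v).2 h)
  -- a common edge
  by_cases he : ∃ a, a ∈ S ∧ x a = y a
  · obtain ⟨a, haS, hea⟩ := he
    have hab : a ≠ x a := (hv a haS).symm
    have hbS : x a ∈ S := xm2 a (hv a haS)
    have ya : y a = x a := hea.symm
    have hmem : ∀ t, t ∉ (S.erase a).erase (x a) → t = x a ∨ t = a ∨ t ∉ S := by
      intro t ht
      simp only [Finset.mem_erase, not_and_or, not_not] at ht
      tauto
    have x'S : ∀ u, u ∉ (S.erase a).erase (x a) → (x * swap a (x a)) u = u := by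
      intro u hu
      rcases hmem u hu with rfl | rfl | h
      · exact rem_b x hx rfl
      · exact rem_a x hx rfl
      · rw [rem_o x (u := u) (a := a) (b := x a) (fun h2 => h (h2 ▸ haS)) (fun h2 => h (h2 ▸ hbS)), hxS u h]
    have y'S : ∀ u, u ∉ (S.erase a).erase (x a) → (y * swap a (x a)) u = u := by
      intro u hu
      rcases hmem u hu with rfl | rfl | h
      · exact rem_b y hy ya
      · exact rem_a y hy ya
      · rw [rem_o y (u := u) (a := a) (b := x a) (fun h2 => h (h2 ▸ haS)) (fun h2 => h (h2 ▸ hbS)), hyS u h]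
    have hlt : ((S.erase a).erase (x a)).card < n := by
      rw [← hSn]
      exact card_lt_of_sub haS (by simp [Finset.mem_erase]) (fun t ht => by
        simp only [Finset.mem_erase] at ht; exact ht.2.2)
    have cx := rem_card x hx hab (rfl : x a = x a)
    have cy := rem_card y hy hab ya
    obtain ⟨z', hz, hzS', hcard, h1, h2⟩ := IH _ hlt _ rfl _ _ (rem_inv x hx rfl) (rem_inv y hy ya)
      x'S y'S (by omega) (by
        rintro ⟨e1, e2, e3⟩
        obtain ⟨p, q, r, s, h1, h2, h3, h4', h5, h6, m1, m2, m3, m4, h7, h8, h9, h10⟩ :=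
          has4_of_exc _ _ _ (rem_inv x hx rfl) (rem_inv y hy ya) x'S y'S e1 e2 (by omega) e3
        simp only [Finset.mem_erase] at m1 m2 m3 m4
        rw [rem_o x m1.2.1 m1.1] at h7
        rw [rem_o x m3.2.1 m3.1] at h8
        rw [rem_o y m2.2.1 m2.1] at h9
        rw [rem_o y m4.2.1 m4.1] at h10
        exact h4 ⟨p, q, r, s, h1, h2, h3, h4', h5, h6, h7, h8, h9, h10⟩)
    exact move_edge S x y z' hx hy hab rfl ya haS hbS hz
      (hzS' a (by simp [Finset.mem_erase])) (hzS' _ (by simp [Finset.mem_erase]))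
      (fun u hu => hzS' u (by
        simp only [Finset.mem_erase, not_and_or]; exact Or.inr (Or.inr hu))) hcard h1 h2
  push Not at he
  -- long cycles
  obtain ⟨v1, h1S⟩ : S.Nonempty := by
    rw [Finset.nonempty_iff_ne_empty]
    intro h0
    apply hodd
    have hx1 : x = 1 := by ext t; exact hxS t (by simp [h0])
    have hy1 : y = 1 := by ext t; exact hyS t (by simp [h0])
    rw [hx1, hy1]; simp
  obtain ⟨v2, x1⟩ : ∃ v2, x v1 = v2 := ⟨_, rfl⟩
  have x2 : x v2 = v1 := by rw [← x1, hx]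
  have n12 : v1 ≠ v2 := by rw [← x1]; exact (hv v1 h1S).symm
  have h2S : v2 ∈ S := by rw [← x1]; exact xm2 _ (hv v1 h1S)
  obtain ⟨v3, y2⟩ : ∃ v3, y v2 = v3 := ⟨_, rfl⟩
  have y3 : y v3 = v2 := by rw [← y2, hy]
  have n23 : v2 ≠ v3 := by rw [← y2]; exact (hyf v2 h2S).symm
  have h3S : v3 ∈ S := by rw [← y2]; exact ym2 _ (hyf v2 h2S)
  obtain ⟨v4, x3⟩ : ∃ v4, x v3 = v4 := ⟨_, rfl⟩
  have x4 : x v4 = v3 := by rw [← x3, hx]
  have n34 : v3 ≠ v4 := by rw [← x3]; exact (hv v3 h3S).symm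
  have h4S : v4 ∈ S := by rw [← x3]; exact xm2 _ (hv v3 h3S)
  obtain ⟨v5, y4⟩ : ∃ v5, y v4 = v5 := ⟨_, rfl⟩
  have y5 : y v5 = v4 := by rw [← y4, hy]
  have n45 : v4 ≠ v5 := by rw [← y4]; exact (hyf v4 h4S).symm
  have h5S : v5 ∈ S := by rw [← y4]; exact ym2 _ (hyf v4 h4S)
  obtain ⟨v0, y1⟩ : ∃ v0, y v1 = v0 := ⟨_, rfl⟩
  have y0 : y v0 = v1 := by rw [← y1, hy]
  have n01 : v0 ≠ v1 := by rw [← y1]; exact hyf v1 h1S
  have h0S : v0 ∈ S := by rw [← y1]; exact ym2 _ (hyf v1 h1S)
  have n13 : v1 ≠ v3 := by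
    rintro rfl
    exact he v2 h2S (by rw [x2, y2])
  have n24 : v2 ≠ v4 := by
    rintro rfl
    exact n13 (x2.symm.trans x4)
  have n35 : v3 ≠ v5 := by
    rintro rfl
    exact n24 (y3.symm.trans y5)
  have n14 : v1 ≠ v4 := by
    rintro rfl
    exact n23 (x1.symm.trans x4)
  have n25 : v2 ≠ v5 := by
    rintro rfl
    exact n34 (y2.symm.trans y5)
  have n15 : v1 ≠ v5 := by
    rintro rfl
    exact h4 ⟨v1, v2, v3, v4, n12, n13, n14, n23, n24, n34, x1, x3, y2, y4⟩
  have n02 : v0 ≠ v2 := by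
    rintro rfl
    exact he v1 h1S (by rw [x1, y1])
  have n03 : v0 ≠ v3 := by
    rintro rfl
    exact n12 (y.injective (y1.trans y2.symm))
  have n04 : v0 ≠ v4 := by
    rintro rfl
    exact n15 (y0.symm.trans y4)
  have n05 : v0 ≠ v5 := by
    rintro rfl
    exact n14 (y.injective (y1.trans y4.symm))
  have hf := inj6 n01 n02 n03 n04 n05 n12 n13 n14 n15 n23 n24 n25 n34 n35 n45
  obtain ⟨xi, xf1, xf2, xf3, xf4, xcd, xo, xe⟩ := two_rem x hx n12 n13 n14 n23 n24 n34 x1 x3
  obtain ⟨yi, yf1, yf2, yf3, yf4, y'5, ycd, yo, ye⟩ := y_e_facts y hy v0 v1 v2 v3 v4 v5 hf y0 y2 y4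
  obtain ⟨S', hS'⟩ : ∃ S', S' = (((S.erase v1).erase v2).erase v3).erase v4 := ⟨_, rfl⟩
  have hS'm : ∀ t, t ∈ S' ↔ t ≠ v4 ∧ t ≠ v3 ∧ t ≠ v2 ∧ t ≠ v1 ∧ t ∈ S := by
    intro t; rw [hS']; simp only [Finset.mem_erase]
  have hScard : S'.card + 4 = S.card := by
    rw [hS', Finset.card_erase_of_mem (by simp [Finset.mem_erase, h4S, n14.symm, n24.symm, n34.symm]),
      Finset.card_erase_of_mem (by simp [Finset.mem_erase, h3S, n13.symm, n23.symm]),
      Finset.card_erase_of_mem (by simp [Finset.mem_erase, h2S, n12.symm]),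
      Finset.card_erase_of_mem h1S]
    have h2 : 4 ≤ S.card := by
      have := Finset.card_le_card (show ({v1, v2, v3, v4} : Finset Ω) ⊆ S by
        intro t; simp only [Finset.mem_insert, Finset.mem_singleton]
        rintro (rfl | rfl | rfl | rfl) <;> assumption)
      rwa [Finset.card_insert_of_notMem (by simp [n12, n13, n14]),
        Finset.card_insert_of_notMem (by simp [n23, n24]), Finset.card_pair n34] at this
    omega
  have hmem : ∀ t, t ∉ S' → t = v4 ∨ t = v3 ∨ t = v2 ∨ t = v1 ∨ t ∉ S := by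
    intro t ht
    rw [hS'm] at ht
    tauto
  have x'S : ∀ u, u ∉ S' → (x * swap v1 v2 * swap v3 v4) u = u := by
    intro u hu
    rcases hmem u hu with rfl | rfl | rfl | rfl | h
    · exact xf4
    · exact xf3
    · exact xf2
    · exact xf1
    · rw [xo u (fun h2 => h (h2 ▸ h1S)) (fun h2 => h (h2 ▸ h2S)) (fun h2 => h (h2 ▸ h3S))
        (fun h2 => h (h2 ▸ h4S)), hxS u h]
  have y'S : ∀ u, u ∉ S' → (y * swap v0 v1 * swap v2 v3 * swap v4 v5 * swap v0 v5) u = u := by
    intro u hu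
    rcases hmem u hu with rfl | rfl | rfl | rfl | h
    · exact yf4
    · exact yf3
    · exact yf2
    · exact yf1
    · rw [yo u (fun h2 => h (h2 ▸ h0S)) (fun h2 => h (h2 ▸ h1S)) (fun h2 => h (h2 ▸ h2S))
        (fun h2 => h (h2 ▸ h3S)) (fun h2 => h (h2 ▸ h4S)) (fun h2 => h (h2 ▸ h5S)), hyS u h]
  have hS'sub : ∀ t, t ∈ S' → t ∈ S ∧ t ≠ v1 ∧ t ≠ v2 ∧ t ≠ v3 ∧ t ≠ v4 := by
    intro t ht
    rw [hS'm] at ht
    tauto
  by_cases hE : S'.card = 4 ∧ (x * swap v1 v2 * swap v3 v4).support.card = 4 ∧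
      (x * swap v1 v2 * swap v3 v4) ≠ (y * swap v0 v1 * swap v2 v3 * swap v4 v5 * swap v0 v5)
  · obtain ⟨e1, e2, e3⟩ := hE
    have hv5 : v5 ∈ S' := by
      rw [hS'm]
      exact ⟨n45.symm, n35.symm, n25.symm, n15.symm, h5S⟩
    exact step_eight S S' x y _ _ v0 v1 v2 v3 v4 v5 n12 n13 n14 n23 n24 n34 h1S h2S h3S h4S hS'sub
      xi yi x'S y'S e1 e2 (by omega) e3 hv5 y'5 xe ye xcd
  · have hlt : S'.card < n := by omega
    obtain ⟨z', hz, hzS', hcard, h1, h2⟩ := IH _ hlt S' rfl _ _ xi yi x'S y'S (by omega) hE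
    have hSub : ∀ t, t ∉ S → z' t = t := fun t ht => hzS' t (fun h => ht (hS'sub t h).1)
    have z1 := hzS' v1 (by rw [hS'm]; simp)
    have z2 := hzS' v2 (by rw [hS'm]; simp)
    have z3 := hzS' v3 (by rw [hS'm]; simp)
    have z4 := hzS' v4 (by rw [hS'm]; simp)
    exact move_e S x y z' v0 v1 v2 v3 v4 v5 hf hx hy x1 x3 y0 y2 y4 h1S h2S h3S h4S hz z1 z2 z3 z4
      hSub hcard h1 h2

end

section
open Equiv Equiv.Perm

/-- A graph in which any two distinct vertices are adjacent or have a common neighbour, and not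
complete, is connected of diameter two. -/
theorem connected_diam_two {V : Type*} [Finite V] [Nonempty V] (G : SimpleGraph V)
    (h : ∀ x y, x ≠ y → G.Adj x y ∨ ∃ z, G.Adj x z ∧ G.Adj z y)
    (hn : ∃ x y, x ≠ y ∧ ¬ G.Adj x y) : G.Connected ∧ G.diam = 2 := by
  have hp : G.Preconnected := by
    intro x y
    by_cases hxy : x = y
    · subst hxy; exact SimpleGraph.Reachable.refl _
    · rcases h x y hxy with ha | ⟨z, h1, h2⟩
      · exact ha.reachable
      · exact h1.reachable.trans h2.reachable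
  have hc : G.Connected := ⟨hp⟩
  refine ⟨hc, ?_⟩
  have hne : G.ediam ≠ ⊤ := SimpleGraph.connected_iff_ediam_ne_top.mp hc
  apply le_antisymm
  · obtain ⟨u, v, huv⟩ := G.exists_dist_eq_diam
    rw [← huv]
    by_cases hxy : u = v
    · subst hxy; simp
    · rcases h u v hxy with ha | ⟨z, h1, h2⟩
      · have := SimpleGraph.dist_le (SimpleGraph.Walk.cons ha SimpleGraph.Walk.nil)
        simp at this
        omega
      · have := SimpleGraph.dist_le (SimpleGraph.Walk.cons h1 (SimpleGraph.Walk.cons h2 SimpleGraph.Walk.nil))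
        simp at this
        omega
  · obtain ⟨x, y, hxy, hna⟩ := hn
    have h1 : G.dist x y ≤ G.diam := SimpleGraph.dist_le_diam hne
    have h2 : G.dist x y ≠ 0 := fun h0 => hxy ((hc.dist_eq_zero_iff).1 h0)
    have h3 : G.dist x y ≠ 1 := fun h0 => hna (SimpleGraph.dist_eq_one_iff_adj.1 h0)
    omega

variable {Ω : Type*} [Fintype Ω] [DecidableEq Ω]

theorem invol_cycleType (g : Perm Ω) (hg : g * g = 1) :
    2 * Multiset.card g.cycleType = g.support.card := by
  have hall : ∀ b ∈ g.cycleType, b = 2 := by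
    intro b hb
    have h1 : b ∣ orderOf g := by
      rw [← Perm.lcm_cycleType]
      exact Multiset.dvd_lcm hb
    have h2 : orderOf g ∣ 2 := orderOf_dvd_of_pow_eq_one (by rw [pow_two, hg])
    have h3 := Nat.le_of_dvd (by norm_num) (h1.trans h2)
    have h4 := Perm.two_le_of_mem_cycleType hb
    omega
  have h := Multiset.eq_replicate_card.2 hall
  rw [← Perm.sum_cycleType]
  conv_rhs => rw [h]
  rw [Multiset.sum_replicate]
  simp [mul_comm]

theorem isConj_of_invol (g h : Perm Ω) (hg : g * g = 1) (hh : h * h = 1)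
    (hc : g.support.card = h.support.card) : IsConj g h := by
  rw [Perm.isConj_iff_cycleType_eq]
  have h1 := invol_cycleType g hg
  have h2 := invol_cycleType h hh
  have h3 : Multiset.card g.cycleType = Multiset.card h.cycleType := by omega
  have hallg : ∀ b ∈ g.cycleType, b = 2 := by
    intro b hb
    have h1 : b ∣ orderOf g := by
      rw [← Perm.lcm_cycleType]
      exact Multiset.dvd_lcm hb
    have h2 : orderOf g ∣ 2 := orderOf_dvd_of_pow_eq_one (by rw [pow_two, hg])
    have h3 := Nat.le_of_dvd (by norm_num) (h1.trans h2)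
    have h4 := Perm.two_le_of_mem_cycleType hb
    omega
  have hallh : ∀ b ∈ h.cycleType, b = 2 := by
    intro b hb
    have h1 : b ∣ orderOf h := by
      rw [← Perm.lcm_cycleType]
      exact Multiset.dvd_lcm hb
    have h2 : orderOf h ∣ 2 := orderOf_dvd_of_pow_eq_one (by rw [pow_two, hh])
    have h3 := Nat.le_of_dvd (by norm_num) (h1.trans h2)
    have h4 := Perm.two_le_of_mem_cycleType hb
    omega
  rw [Multiset.eq_replicate_card.2 hallg, Multiset.eq_replicate_card.2 hallh, h3]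

end

section
open Equiv Equiv.Perm

theorem order_two_swaps {Ω : Type*} [Fintype Ω] [DecidableEq Ω] {p q r s : Ω} (h1 : p ≠ q) (h2 : p ≠ r)
    (h3 : p ≠ s) (h4 : q ≠ r) (h5 : q ≠ s) (h6 : r ≠ s) : orderOf (swap p q * swap r s) = 2 := by
  haveI : Fact (Nat.Prime 2) := ⟨Nat.prime_two⟩
  apply orderOf_eq_prime
  · have hc : Commute (swap p q) (swap r s) := cm (swap r s) (swap_apply_of_ne_of_ne h2 h3)
      (swap_apply_of_ne_of_ne h4 h5)
    rw [hc.mul_pow]
    simp [pow_two]
  · intro h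
    have := congrArg (fun g : Perm Ω => g p) h
    simp only [Perm.mul_apply, swap_apply_of_ne_of_ne h2 h3, swap_apply_left, Perm.one_apply] at this
    exact h1 this.symm

theorem main_thm (n : ℕ) (hn : 5 ≤ n) (t : Perm (Fin n)) (ht : orderOf t = 2) :
    (SimpleGraph.fromRel fun x y : {x : Perm (Fin n) // IsConj t x} =>
        Odd (orderOf (x.1 * y.1))).Connected ∧
      (SimpleGraph.fromRel fun x y : {x : Perm (Fin n) // IsConj t x} =>
        Odd (orderOf (x.1 * y.1))).diam = 2 := by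
  haveI : Nonempty {x : Perm (Fin n) // IsConj t x} := ⟨⟨t, IsConj.refl t⟩⟩
  have htt : t * t = 1 := by
    rw [← pow_two, ← ht, pow_orderOf_eq_one]
  have hinv : ∀ g, IsConj t g → g * g = 1 := by
    intro g hg
    obtain ⟨c, hc⟩ := isConj_iff.1 hg
    rw [← hc]
    calc c * t * c⁻¹ * (c * t * c⁻¹) = c * (t * t) * c⁻¹ := by group
      _ = 1 := by rw [htt]; simp
  have hcard : ∀ g, IsConj t g → g.support.card = t.support.card := by
    intro g hg
    rw [← Perm.sum_cycleType, ← Perm.sum_cycleType, (Perm.isConj_iff_cycleType_eq.1 hg)]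
  have hpt : ∀ g : Perm (Fin n), g * g = 1 → ∀ u, g (g u) = u := by
    intro g hg u
    rw [← Perm.mul_apply, hg]; rfl
  apply connected_diam_two
  · rintro ⟨x, hx⟩ ⟨y, hy⟩ hxy
    have hne : x ≠ y := fun h => hxy (Subtype.ext h)
    obtain ⟨z, hz, -, hzc, h1, h2⟩ := main_ind _ (Finset.univ : Finset (Fin n)) rfl x y
      (hpt x (hinv x hx)) (hpt y (hinv y hy)) (fun u hu => absurd (Finset.mem_univ u) hu)
      (fun u hu => absurd (Finset.mem_univ u) hu) (by rw [hcard x hx, hcard y hy]) (by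
        rintro ⟨e, -⟩
        simp only [Finset.card_univ, Fintype.card_fin] at e
        omega)
    have hzz : z * z = 1 := by ext u; simp [Perm.mul_apply, hz]
    have hzconj : IsConj t z := isConj_of_invol t z htt hzz (by rw [hzc, hcard x hx])
    by_cases hzx : z = x
    · left
      rw [SimpleGraph.fromRel_adj]
      refine ⟨hxy, Or.inl ?_⟩
      rw [hzx] at h2
      exact h2
    by_cases hzy : z = y
    · left
      rw [SimpleGraph.fromRel_adj]
      refine ⟨hxy, Or.inl ?_⟩
      rw [hzy] at h1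
      exact h1
    right
    refine ⟨⟨z, hzconj⟩, ?_, ?_⟩
    · rw [SimpleGraph.fromRel_adj]
      exact ⟨fun h => hzx (congrArg Subtype.val h).symm, Or.inl h1⟩
    · rw [SimpleGraph.fromRel_adj]
      exact ⟨fun h => hzy (congrArg Subtype.val h), Or.inl h2⟩
  · -- a non-adjacent pair
    have ht1 : t ≠ 1 := by
      rintro rfl
      simp at ht
    obtain ⟨a, ha⟩ : ∃ a, t a ≠ a := by
      by_contra h
      push Not at h
      exact ht1 (by ext u; simp [h])
    have key : ∃ y, IsConj t y ∧ orderOf (t * y) = 2 := by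
      by_cases hb : ∃ b, b ≠ a ∧ b ≠ t a ∧ t b ≠ b
      · obtain ⟨b, hb1, hb2, hb3⟩ := hb
        have hta : t (t a) = a := hpt t htt a
        have htb : t (t b) = b := hpt t htt b
        have h1 : a ≠ t b := by
          intro h
          apply hb2
          rw [h, htb]
        have h2 : t a ≠ t b := fun h => hb1 (t.injective h).symm
        refine ⟨swap (t a) b * t * swap (t a) b, ?_, ?_⟩
        · apply isConj_iff.2
          exact ⟨swap (t a) b, by simp⟩
        · have e : t * (swap (t a) b * t * swap (t a) b) = swap a (t b) * swap (t a) b := by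
            have h3 := Equiv.swap_apply_apply t (t a) b
            rw [hta] at h3
            rw [h3]
            have : t⁻¹ = t := by
              rw [inv_eq_iff_mul_eq_one]; exact htt
            rw [this]
            simp only [mul_assoc]
          rw [e]
          exact order_two_swaps h1 ha.symm hb1.symm h2.symm hb3 (Ne.symm hb2)
      · push Not at hb
        have htswap : t = swap a (t a) := by
          ext u
          by_cases h1 : u = a
          · rw [h1]; simp
          by_cases h2 : u = t a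
          · rw [h2, swap_apply_right, hpt t htt a]
          · rw [hb u h1 h2, swap_apply_of_ne_of_ne h1 h2]
        obtain ⟨c, hc, d, hd, hcd⟩ : ∃ c ∈ (Finset.univ \ {a, t a} : Finset (Fin n)), ∃ d ∈ (Finset.univ \ {a, t a} : Finset (Fin n)), c ≠ d := by
          apply Finset.one_lt_card.1
          have h2 : ({a, t a} : Finset (Fin n)).card ≤ 2 := Finset.card_le_two
          rw [Finset.card_univ_diff, Fintype.card_fin]
          omega
        simp only [Finset.mem_sdiff, Finset.mem_univ, true_and, Finset.mem_insert, Finset.mem_singleton,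
          not_or] at hc hd
        refine ⟨swap c d, ?_, ?_⟩
        · rw [htswap]
          exact Perm.isConj_swap ha.symm hcd
        · rw [htswap]
          exact order_two_swaps ha.symm (Ne.symm hc.1) (Ne.symm hd.1) (Ne.symm hc.2) (Ne.symm hd.2) hcd
    obtain ⟨y, hy, hy2⟩ := key
    refine ⟨⟨t, IsConj.refl t⟩, ⟨y, hy⟩, ?_, ?_⟩
    · intro h
      have h3 : t = y := congrArg Subtype.val h
      rw [← h3, htt] at hy2
      simp at hy2
    · rw [SimpleGraph.fromRel_adj]
      rintro ⟨-, h | h⟩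
      · have h3 : Odd (orderOf (t * y)) := h
        rw [hy2] at h3
        exact absurd h3 (by decide)
      · have h3 : Odd (orderOf (t * y)) := odd_comm' _ _ h
        rw [hy2] at h3
        exact absurd h3 (by decide)

end


/-- Let n ≥ 5 and let X be a conjugacy class of involutions of the symmetric group of degree n. The graph on X joining two distinct involutions whose product has odd order is connected and has diameter exactly 2. -/
theorem result (n : ℕ) (hn : 5 ≤ n) (t : Equiv.Perm (Fin n)) (ht : orderOf t = 2) :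
    (SimpleGraph.fromRel fun x y : {x : Equiv.Perm (Fin n) // IsConj t x} =>
        Odd (orderOf (x.1 * y.1))).Connected ∧
      (SimpleGraph.fromRel fun x y : {x : Equiv.Perm (Fin n) // IsConj t x} =>
        Odd (orderOf (x.1 * y.1))).diam = 2 := by
  exact main_thm n hn t ht

end Cfsg.Agent.S3265
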