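import Cfsg.Statements.S3266
import Mathlib

set_option autoImplicit false
open Cfsg

namespace Cfsg.Agent.S3266

set_option linter.unusedSimpArgs false
set_option linter.unusedVariables false
set_option linter.unusedSectionVars false
set_option linter.style.haveILetI false

section graph

/-- A graph in which any two distinct vertices are adjacent or have a common neighbour, and not
complete, is connected of diameter two. -/
theorem connected_diam_two {V : Type*} [Finite V] [Nonempty V] (G : SimpleGraph V)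
    (h : ∀ x y, x ≠ y → G.Adj x y ∨ ∃ z, G.Adj x z ∧ G.Adj z y)
    (hn : ∃ x y, x ≠ y ∧ ¬ G.Adj x y) : G.Connected ∧ G.diam = 2 := by
  have hp : G.Preconnected := by
    intro x y
    by_cases hxy : x = y
    · subst hxy; exact SimpleGraph.Reachable.refl _
    · rcases h x y hxy with ha | ⟨z, h1, h2⟩
      · exact ha.reachable
      · exact h1.reachable.trans h2.reachable
  have hc : G.Connected := ⟨hp⟩
  refine ⟨hc, ?_⟩
  have hne : G.ediam ≠ ⊤ := SimpleGraph.connected_iff_ediam_ne_top.mp hc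
  apply le_antisymm
  · obtain ⟨u, v, huv⟩ := G.exists_dist_eq_diam
    rw [← huv]
    by_cases hxy : u = v
    · subst hxy; simp
    · rcases h u v hxy with ha | ⟨z, h1, h2⟩
      · have := SimpleGraph.dist_le (SimpleGraph.Walk.cons ha SimpleGraph.Walk.nil)
        simp at this
        omega
      · have := SimpleGraph.dist_le (SimpleGraph.Walk.cons h1 (SimpleGraph.Walk.cons h2 SimpleGraph.Walk.nil))
        simp at this
        omega
  · obtain ⟨x, y, hxy, hna⟩ := hn
    have h1 : G.dist x y ≤ G.diam := SimpleGraph.dist_le_diam hne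
    have h2 : G.dist x y ≠ 0 := fun h0 => hxy ((hc.dist_eq_zero_iff).1 h0)
    have h3 : G.dist x y ≠ 1 := fun h0 => hna (SimpleGraph.dist_eq_one_iff_adj.1 h0)
    omega

end graph

section matrices

variable {F : Type*} [Field F]

local notation "SL₂" => Matrix.SpecialLinearGroup (Fin 2) F
local notation "PSL₂" => Matrix.ProjectiveSpecialLinearGroup (Fin 2) F

/-- The quotient map. -/
noncomputable abbrev π : SL₂ →* PSL₂ := QuotientGroup.mk' (Subgroup.center SL₂)

theorem π_surj (x : PSL₂) : ∃ A : SL₂, π A = x := QuotientGroup.mk'_surjective _ x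

theorem det_eq (A : SL₂) : A.1 0 0 * A.1 1 1 - A.1 0 1 * A.1 1 0 = 1 := by
  have := A.2
  rwa [Matrix.det_fin_two] at this

theorem mul_00 (A B : SL₂) : (A * B).1 0 0 = A.1 0 0 * B.1 0 0 + A.1 0 1 * B.1 1 0 := by
  simp [Matrix.mul_apply, Fin.sum_univ_two]

theorem mul_01 (A B : SL₂) : (A * B).1 0 1 = A.1 0 0 * B.1 0 1 + A.1 0 1 * B.1 1 1 := by
  simp [Matrix.mul_apply, Fin.sum_univ_two]

theorem mul_10 (A B : SL₂) : (A * B).1 1 0 = A.1 1 0 * B.1 0 0 + A.1 1 1 * B.1 1 0 := by
  simp [Matrix.mul_apply, Fin.sum_univ_two]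

theorem mul_11 (A B : SL₂) : (A * B).1 1 1 = A.1 1 0 * B.1 0 1 + A.1 1 1 * B.1 1 1 := by
  simp [Matrix.mul_apply, Fin.sum_univ_two]

theorem sl_ext {A B : SL₂} (h00 : A.1 0 0 = B.1 0 0) (h01 : A.1 0 1 = B.1 0 1) (h10 : A.1 1 0 = B.1 1 0)
    (h11 : A.1 1 1 = B.1 1 1) : A = B := by
  apply Subtype.ext
  ext i j
  fin_cases i <;> fin_cases j <;> assumption

/-- A matrix of `SL₂` from its entries. -/
def mk2 (a b c d : F) (h : a * d - b * c = 1) : SL₂ :=
  ⟨!![a, b; c, d], by rw [Matrix.det_fin_two]; simpa using h⟩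

@[simp] theorem mk2_00 (a b c d : F) (h : a * d - b * c = 1) : (mk2 a b c d h).1 0 0 = a := by simp [mk2]
@[simp] theorem mk2_01 (a b c d : F) (h : a * d - b * c = 1) : (mk2 a b c d h).1 0 1 = b := by simp [mk2]
@[simp] theorem mk2_10 (a b c d : F) (h : a * d - b * c = 1) : (mk2 a b c d h).1 1 0 = c := by simp [mk2]
@[simp] theorem mk2_11 (a b c d : F) (h : a * d - b * c = 1) : (mk2 a b c d h).1 1 1 = d := by simp [mk2]

theorem center_iff (A : SL₂) : A ∈ Subgroup.center SL₂ ↔
    A.1 0 1 = 0 ∧ A.1 1 0 = 0 ∧ A.1 0 0 = A.1 1 1 := by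
  rw [Matrix.SpecialLinearGroup.mem_center_iff]
  constructor
  · rintro ⟨r, hr, h⟩
    have h01 : A.1 0 1 = 0 := by rw [← h]; simp
    have h10 : A.1 1 0 = 0 := by rw [← h]; simp
    have h00 : A.1 0 0 = r := by rw [← h]; simp
    have h11 : A.1 1 1 = r := by rw [← h]; simp
    exact ⟨h01, h10, h00.trans h11.symm⟩
  · rintro ⟨h01, h10, h⟩
    have hd := det_eq A
    rw [h01, h10, ← h] at hd
    refine ⟨A.1 0 0, ?_, ?_⟩
    · simp only [Fintype.card_fin]
      rw [pow_two]
      linear_combination hd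
    · ext i j
      fin_cases i <;> fin_cases j <;> simp [h01, h10, h]

theorem π_eq_one_iff (A : SL₂) : π A = 1 ↔ A ∈ Subgroup.center SL₂ :=
  QuotientGroup.eq_one_iff A

/-- A lift of an involution has trace zero. -/
theorem trace_of_order_two (A : SL₂) (hA : orderOf (π A) = 2) : A.1 0 0 + A.1 1 1 = 0 := by
  have h1 : π (A * A) = 1 := by
    have h0 := pow_orderOf_eq_one (π A)
    rw [hA, pow_two] at h0
    rwa [map_mul]
  rw [π_eq_one_iff, center_iff, mul_01, mul_10, mul_00, mul_11] at h1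
  obtain ⟨h01, h10, h⟩ := h1
  by_contra hne
  have e1 : A.1 0 1 = 0 := by
    have : A.1 0 1 * (A.1 0 0 + A.1 1 1) = 0 := by linear_combination h01
    exact (mul_eq_zero.mp this).resolve_right hne
  have e2 : A.1 1 0 = 0 := by
    have : A.1 1 0 * (A.1 0 0 + A.1 1 1) = 0 := by linear_combination h10
    exact (mul_eq_zero.mp this).resolve_right hne
  have e3 : A.1 0 0 = A.1 1 1 := by
    have : (A.1 0 0 - A.1 1 1) * (A.1 0 0 + A.1 1 1) = 0 := by linear_combination h
    exact sub_eq_zero.mp ((mul_eq_zero.mp this).resolve_right hne)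
  have h2 : π A = 1 := (π_eq_one_iff A).2 ((center_iff A).2 ⟨e1, e2, e3⟩)
  rw [h2, orderOf_one] at hA
  omega

/-- A trace-zero matrix which is not central has an involution as image. -/
theorem order_two_of_trace (A : SL₂) (h0 : A.1 0 0 + A.1 1 1 = 0) (h1 : A ∉ Subgroup.center SL₂) :
    orderOf (π A) = 2 := by
  haveI : Fact (Nat.Prime 2) := ⟨Nat.prime_two⟩
  apply orderOf_eq_prime
  · rw [pow_two, ← map_mul, π_eq_one_iff, center_iff, mul_01, mul_10, mul_00, mul_11]
    have hd := det_eq A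
    refine ⟨by linear_combination A.1 0 1 * h0, by linear_combination A.1 1 0 * h0, ?_⟩
    linear_combination (A.1 0 0 - A.1 1 1) * h0
  · rw [Ne, π_eq_one_iff]
    exact h1


variable [Fintype F]

theorem order_one_of_central (M : SL₂) (h : M ∈ Subgroup.center SL₂) (hM : ¬ Odd (orderOf (π M))) : False := by
  rw [(π_eq_one_iff _).2 h, orderOf_one] at hM
  exact hM odd_one

/-- If the image of `M` has even order, a power of `M` is a non-central element of trace zero. -/
theorem exists_W (M : SL₂) (hM : ¬ Odd (orderOf (π M))) :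
    ∃ W : SL₂, W.1 0 0 + W.1 1 1 = 0 ∧ W ∉ Subgroup.center SL₂ ∧ M * W = W * M := by
  classical
  haveI : Finite PSL₂ := inferInstance
  have hne : orderOf (π M) ≠ 0 := (orderOf_pos _).ne'
  have hev : 2 ∣ orderOf (π M) := (Nat.not_odd_iff_even.mp hM).two_dvd
  have h2 := orderOf_pow_orderOf_div hne hev
  rw [← map_pow] at h2
  refine ⟨M ^ (orderOf (π M) / 2), trace_of_order_two _ h2, ?_, (Commute.refl M).pow_right _⟩
  intro hc
  rw [(π_eq_one_iff _).2 hc, orderOf_one] at h2
  omega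

theorem commute_eqs (M W : SL₂) (h0 : W.1 0 0 + W.1 1 1 = 0) (h : M * W = W * M) :
    M.1 0 1 * W.1 1 0 - W.1 0 1 * M.1 1 0 = 0 ∧
    W.1 0 1 * (M.1 0 0 - M.1 1 1) - 2 * W.1 0 0 * M.1 0 1 = 0 ∧
    2 * W.1 0 0 * M.1 1 0 - W.1 1 0 * (M.1 0 0 - M.1 1 1) = 0 := by
  have e00 := congrArg (fun X : SL₂ => X.1 0 0) h
  have e01 := congrArg (fun X : SL₂ => X.1 0 1) h
  have e10 := congrArg (fun X : SL₂ => X.1 1 0) h
  simp only [mul_00, mul_01, mul_10] at e00 e01 e10
  have hw : W.1 1 1 = - W.1 0 0 := by linear_combination h0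
  rw [hw] at e01 e10
  refine ⟨by linear_combination e00, by linear_combination e01, by linear_combination e10⟩

/-- The algebra behind the even order case. -/
theorem alg_ne_two (h2 : (2 : F) ≠ 0) (m1 m2 m3 m4 u v t : F) (R1 : m2 * t - v * m3 = 0)
    (R2 : v * (m1 - m4) - 2 * u * m2 = 0) (R3 : 2 * u * m3 - t * (m1 - m4) = 0)
    (R4 : u ^ 2 + v * t + 1 = 0) (hm : m1 * m4 - m2 * m3 = 1) (hnc : ¬ (m2 = 0 ∧ m3 = 0 ∧ m1 = m4)) :
    ∃ β : F, β ≠ 0 ∧ (m1 + m4) ^ 2 + β ^ 2 = 4 := by
  refine ⟨(m1 - m4) * u + m2 * t + m3 * v, ?_, ?_⟩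
  · intro hβ
    apply hnc
    have e1 : 2 * (m1 - m4) = 0 := by
      linear_combination (-2 * u) * hβ + 2 * (m1 - m4) * R4 - t * R2 + v * R3
    have e2 : 4 * m2 = 0 := by
      linear_combination (-2 * v) * hβ + 4 * m2 * R4 + 2 * u * R2 - 2 * v * R1
    have e3 : 4 * m3 = 0 := by
      linear_combination (-2 * t) * hβ + 4 * m3 * R4 - 2 * u * R3 + 2 * t * R1
    have h4 : (4 : F) ≠ 0 := by
      have : (4 : F) = 2 * 2 := by norm_num
      rw [this]
      exact mul_ne_zero h2 h2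
    refine ⟨(mul_eq_zero.mp e2).resolve_left h4, (mul_eq_zero.mp e3).resolve_left h4, ?_⟩
    exact sub_eq_zero.mp ((mul_eq_zero.mp e1).resolve_left h2)
  · linear_combination ((m1 - m4) ^ 2 + 4 * m2 * m3) * R4 + 4 * hm + (m2 * t - v * m3) * R1 +
      (2 * u * m3 - t * (m1 - m4)) * R2

/-- Even order, characteristic not two. -/
theorem even_order_ne_two (h2 : (2 : F) ≠ 0) (M : SL₂) (hM : ¬ Odd (orderOf (π M))) :
    ∃ β : F, β ≠ 0 ∧ (M.1 0 0 + M.1 1 1) ^ 2 + β ^ 2 = 4 := by
  obtain ⟨W, h0, hW, hc⟩ := exists_W M hM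
  obtain ⟨R1, R2, R3⟩ := commute_eqs M W h0 hc
  have hd := det_eq W
  have hm := det_eq M
  have hw : W.1 1 1 = - W.1 0 0 := by linear_combination h0
  rw [hw] at hd
  have R4 : W.1 0 0 ^ 2 + W.1 0 1 * W.1 1 0 + 1 = 0 := by linear_combination -hd
  refine alg_ne_two h2 _ _ _ _ _ _ _ R1 R2 R3 R4 hm ?_
  intro hc'
  exact order_one_of_central M ((center_iff M).2 hc') hM

/-- Even order, characteristic two. -/
theorem even_order_two (h2 : (2 : F) = 0) (M : SL₂) (hM : ¬ Odd (orderOf (π M))) :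
    M.1 0 0 + M.1 1 1 = 0 := by
  obtain ⟨W, h0, hW, hc⟩ := exists_W M hM
  obtain ⟨R1, R2, R3⟩ := commute_eqs M W h0 hc
  have hw : W.1 1 1 = W.1 0 0 := by linear_combination h0 - W.1 0 0 * h2
  have hD : M.1 0 0 = M.1 1 1 := by
    by_cases hv : W.1 0 1 = 0
    · by_cases ht : W.1 1 0 = 0
      · exact absurd ((center_iff W).2 ⟨hv, ht, hw.symm⟩) hW
      · have : W.1 1 0 * (M.1 0 0 - M.1 1 1) = 0 := by
          linear_combination -R3 + W.1 0 0 * M.1 1 0 * h2
        exact sub_eq_zero.mp ((mul_eq_zero.mp this).resolve_left ht)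
    · have : W.1 0 1 * (M.1 0 0 - M.1 1 1) = 0 := by
        linear_combination R2 + W.1 0 0 * M.1 0 1 * h2
      exact sub_eq_zero.mp ((mul_eq_zero.mp this).resolve_left hv)
  rw [hD]
  linear_combination M.1 1 1 * h2

end matrices


section squares

variable {F : Type*} [Field F] [Fintype F]

theorem ringChar_ne_two (h2 : (2 : F) ≠ 0) : ringChar F ≠ 2 := by
  intro h
  apply h2
  have := ringChar.Nat.cast_ringChar (R := F)
  rw [h] at this
  exact_mod_cast this

theorem ringChar_eq_two (h2 : (2 : F) = 0) : ringChar F = 2 := by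
  have h1 : ringChar F ∣ 2 := (ringChar.spec F 2).1 (by exact_mod_cast h2)
  rcases (Nat.dvd_prime Nat.prime_two).1 h1 with h | h
  · exact absurd h (CharP.ringChar_ne_one)
  · exact h

theorem isSquare_mul_of_not (x y : F) (h2 : (2 : F) ≠ 0) (hx : ¬ IsSquare x) (hy : ¬ IsSquare y) : IsSquare (x * y) := by
  classical
  have hx0 : x ≠ 0 := fun h => hx (h ▸ IsSquare.zero)
  have hy0 : y ≠ 0 := fun h => hy (h ▸ IsSquare.zero)
  rw [← quadraticChar_one_iff_isSquare (mul_ne_zero hx0 hy0), map_mul,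
    quadraticChar_neg_one_iff_not_isSquare.2 hx, quadraticChar_neg_one_iff_not_isSquare.2 hy]
  norm_num

theorem isSquare_of_mul (x y : F) (hy : y ≠ 0) (hxy : IsSquare (x * y)) (hys : IsSquare y) : IsSquare x := by
  obtain ⟨r, hr⟩ := hxy
  obtain ⟨s, hs⟩ := hys
  have hs0 : s ≠ 0 := fun h => hy (by rw [hs, h, mul_zero])
  have h1 : x * (s * s) = r * r := by rw [← hs]; exact hr
  refine ⟨r / s, ?_⟩
  field_simp
  linear_combination h1

/-- The quadratic `a ↦ a² - 2 c a + 1`. -/
def psi (cc x : F) : F := x ^ 2 - 2 * cc * x + 1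

/-- The conic parametrization. -/
noncomputable def hh (cc : F) (p : Fˣ) : F := cc + ((p : F) - (1 - cc ^ 2) * (p : F)⁻¹) * 2⁻¹

theorem psi_hh (h2 : (2 : F) ≠ 0) (cc : F) (p : Fˣ) :
    psi cc (hh cc p) = (((p : F) + (1 - cc ^ 2) * (p : F)⁻¹) * 2⁻¹) ^ 2 := by
  have hp : (p : F) ≠ 0 := p.ne_zero
  unfold psi hh
  field_simp
  ring

theorem hh_surj (h2 : (2 : F) ≠ 0) (cc : F) (hS : 1 - cc ^ 2 ≠ 0) (hall : ∀ a, IsSquare (psi cc a)) :
    Function.Surjective (hh cc) := by
  intro a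
  obtain ⟨y, hy⟩ := hall a
  unfold psi at hy
  have hp : y + (a - cc) ≠ 0 := by
    intro h0
    apply hS
    have : (y + (a - cc)) * (y - (a - cc)) = 1 - cc ^ 2 := by linear_combination -hy
    rw [← this, h0, zero_mul]
  refine ⟨Units.mk0 _ hp, ?_⟩
  unfold hh
  simp only [Units.val_mk0]
  have hS' : 1 - cc ^ 2 = (y + (a - cc)) * (y - (a - cc)) := by linear_combination hy
  rw [hS']
  field_simp
  ring

theorem not_all_square (h2 : (2 : F) ≠ 0) (cc : F) (hS : 1 - cc ^ 2 ≠ 0) : ¬ ∀ a, IsSquare (psi cc a) := by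
  classical
  intro hall
  have h1 := Fintype.card_le_of_surjective _ (hh_surj h2 cc hS hall)
  rw [Fintype.card_units] at h1
  have h3 : 0 < Fintype.card F := Fintype.card_pos
  omega

theorem exists_hh_ne (hF : 4 ≤ Fintype.card F) (h2 : (2 : F) ≠ 0) (cc : F) : ∃ p : Fˣ, hh cc p ≠ 0 := by
  classical
  by_contra hcon
  push Not at hcon
  have hc : 2 < Fintype.card Fˣ := by
    rw [Fintype.card_units]
    omega
  obtain ⟨p, q, r, hpq, hpr, hqr⟩ := Fintype.two_lt_card_iff.1 hc
  have key : ∀ u : Fˣ, (u : F) ^ 2 + 2 * cc * u - (1 - cc ^ 2) = 0 := by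
    intro u
    have h0 := hcon u
    have hu : (u : F) ≠ 0 := u.ne_zero
    unfold hh at h0
    field_simp at h0
    linear_combination h0
  have hne : ∀ u v : Fˣ, u ≠ v → (u : F) + v + 2 * cc = 0 := by
    intro u v huv
    have h1 : ((u : F) - v) * ((u : F) + v + 2 * cc) = 0 := by linear_combination key u - key v
    rcases mul_eq_zero.mp h1 with h3 | h3
    · exact absurd (Units.ext (sub_eq_zero.mp h3)) huv
    · exact h3
  have e1 := hne p q hpq
  have e2 := hne p r hpr
  apply hqr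
  apply Units.ext
  linear_combination e1 - e2

/-- The choice of parameters in the case `-1` not a square. -/
theorem exists_pair (hF : 4 ≤ Fintype.card F) (h2 : (2 : F) ≠ 0) (hi : ¬ IsSquare (-1 : F)) (cc : F)
    (hcc : ¬ IsSquare (cc ^ 2 - 1)) :
    ∃ a t : F, a ≠ 0 ∧ t ≠ 0 ∧ ¬ IsSquare (psi cc a * psi cc (t ^ 2 / a)) := by
  by_contra hcon
  push Not at hcon
  have hS : 1 - cc ^ 2 ≠ 0 := by
    intro h0
    apply hcc
    have : cc ^ 2 - 1 = 0 := by linear_combination -h0
    rw [this]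
    exact IsSquare.zero
  have hnz : ∀ a, psi cc a ≠ 0 := by
    intro a h0
    apply hcc
    unfold psi at h0
    refine ⟨a - cc, ?_⟩
    linear_combination -h0
  have hS2 : IsSquare (1 - cc ^ 2) := by
    have := isSquare_mul_of_not _ _ h2 hi hcc
    convert this using 1
    ring
  -- comparison with `ψ 1`
  have hmul : psi cc 1 * psi cc (-1) = 4 * (1 - cc ^ 2) := by
    unfold psi
    ring
  have hall : ∀ a, a ≠ 0 → IsSquare (psi cc a * psi cc 1) := by
    intro a ha
    by_cases hsq : IsSquare a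
    · obtain ⟨r, hr⟩ := hsq
      have hr0 : r ≠ 0 := fun h => ha (by rw [hr, h, mul_zero])
      have := hcon a r ha hr0
      have e : r ^ 2 / a = 1 := by
        rw [hr]
        field_simp
      rwa [e] at this
    · have hs := isSquare_mul_of_not _ _ h2 hi hsq
      obtain ⟨r, hr⟩ := hs
      have hr0 : r ≠ 0 := by
        intro h
        rw [h, mul_zero] at hr
        exact ha (by simpa using hr)
      have := hcon a r ha hr0
      have e : r ^ 2 / a = -1 := by
        rw [pow_two, ← hr]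
        field_simp
      rw [e] at this
      -- now use the product `ψ 1 ψ (-1)`
      have h3 : IsSquare (psi cc a * psi cc (-1) * (psi cc 1 * psi cc (-1))) := by
        rw [hmul]
        apply this.mul
        exact (IsSquare.mul ⟨2, by norm_num⟩ hS2)
      apply isSquare_of_mul _ (psi cc (-1) * psi cc (-1)) (mul_ne_zero (hnz _) (hnz _)) _ ⟨_, rfl⟩
      convert h3 using 1
      ring
  by_cases h1 : IsSquare (psi cc 1)
  · apply not_all_square h2 cc hS
    intro a
    by_cases ha : a = 0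
    · subst ha
      refine ⟨1, ?_⟩
      unfold psi
      ring
    · exact isSquare_of_mul _ _ (hnz 1) (hall a ha) h1
  · obtain ⟨p, hp⟩ := exists_hh_ne hF h2 cc
    apply h1
    have h3 := hall _ hp
    rw [mul_comm] at h3
    refine isSquare_of_mul _ _ (hnz _) h3 ?_
    rw [psi_hh h2]
    exact ⟨_, pow_two _⟩

/-- The choice of coefficients in the case `-1` not a square. -/
theorem exists_coeffs (hF : 4 ≤ Fintype.card F) (h2 : (2 : F) ≠ 0) (hi : ¬ IsSquare (-1 : F)) (cc : F)
    (hcc : ¬ IsSquare (cc ^ 2 - 1)) :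
    ∃ α β γ : F, α ^ 2 + β ^ 2 + 2 * cc * α * β + γ ^ 2 * (1 - cc ^ 2) = 1 ∧
      IsSquare ((α + cc * β) ^ 2 - 1) ∧ IsSquare ((cc * α + β) ^ 2 - 1) := by
  obtain ⟨a, t, ha, ht, hn⟩ := exists_pair hF h2 hi cc hcc
  have hS : 1 - cc ^ 2 ≠ 0 := by
    intro h0
    apply hcc
    have : cc ^ 2 - 1 = 0 := by linear_combination -h0
    rw [this]
    exact IsSquare.zero
  obtain ⟨ω, hω⟩ := isSquare_mul_of_not _ _ h2 hi hn
  obtain ⟨S, hSdef⟩ : ∃ S, S = 1 - cc ^ 2 := ⟨_, rfl⟩
  rw [← hSdef] at hS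
  have hv : t / a ≠ 0 := div_ne_zero ht ha
  obtain ⟨v, hvdef⟩ : ∃ v, v = t / a := ⟨_, rfl⟩
  rw [← hvdef] at hv
  obtain ⟨P, hP⟩ : ∃ P, P = (t + t⁻¹) * 2⁻¹ := ⟨_, rfl⟩
  obtain ⟨R, hR⟩ : ∃ R, R = (v + v⁻¹) * 2⁻¹ := ⟨_, rfl⟩
  have e1 : (P - cc * R) * S⁻¹ + cc * ((R - cc * P) * S⁻¹) = P := by
    rw [hSdef] at hS ⊢
    field_simp
    ring
  have e2 : cc * ((P - cc * R) * S⁻¹) + (R - cc * P) * S⁻¹ = R := by
    rw [hSdef] at hS ⊢
    field_simp
    ring
  refine ⟨(P - cc * R) * S⁻¹, (R - cc * P) * S⁻¹, ω * (2 * t)⁻¹ * S⁻¹, ?_, ?_, ?_⟩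
  · rw [← hSdef]
    have hk : S - P ^ 2 - R ^ 2 + 2 * cc * P * R = -(psi cc a * psi cc (t ^ 2 / a)) * ((2 * t)⁻¹) ^ 2 := by
      have hat : a = t / v := by
        rw [hvdef]
        field_simp
      have hb : t ^ 2 / a = t * v := by
        rw [hvdef]
        field_simp
      rw [hb, hat, hP, hR, hSdef]
      unfold psi
      field_simp
      ring
    have hw : ω ^ 2 = -(psi cc a * psi cc (t ^ 2 / a)) := by
      rw [pow_two, ← hω]
      ring
    have hW : (ω * (2 * t)⁻¹) ^ 2 = S - P ^ 2 - R ^ 2 + 2 * cc * P * R := by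
      rw [hk, mul_pow, hw]
    obtain ⟨W, hWdef⟩ : ∃ W, W = ω * (2 * t)⁻¹ := ⟨_, rfl⟩
    rw [← hWdef] at hW ⊢
    field_simp
    linear_combination S * hW - (P ^ 2 + R ^ 2 - 2 * cc * P * R) * hSdef
  · rw [e1, hP]
    refine ⟨(t - t⁻¹) * 2⁻¹, ?_⟩
    field_simp
    ring
  · rw [e2, hR]
    refine ⟨(v - v⁻¹) * 2⁻¹, ?_⟩
    field_simp
    ring

end squares

section final

variable {F : Type*} [Field F] [Fintype F]

local notation "SL₂" => Matrix.SpecialLinearGroup (Fin 2) F
local notation "PSL₂" => Matrix.ProjectiveSpecialLinearGroup (Fin 2) F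

theorem exists_form (a b c d : F) (h0 : a + d = 0) (hd : a * d - b * c = 1) (hnc : ¬ (b = 0 ∧ c = 0 ∧ a = d)) :
    ∃ x y : F, c * x ^ 2 + (d - a) * x * y - b * y ^ 2 = 1 := by
  have hdd : d = -a := by linear_combination h0
  subst hdd
  have hA : a ^ 2 + b * c + 1 = 0 := by linear_combination -hd
  by_cases h2 : (2 : F) = 0
  · have hr := ringChar_eq_two h2
    have hneg : ∀ z : F, -z = z := by
      intro z
      linear_combination -z * h2
    have hsub : -a - a = 0 := by linear_combination -a * h2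
    by_cases hc : c = 0
    · have hb : b ≠ 0 := by
        intro hb
        apply hnc
        refine ⟨hb, hc, ?_⟩
        rw [hneg]
      obtain ⟨y, hy⟩ := FiniteField.isSquare_of_char_two hr (b⁻¹)
      refine ⟨0, y, ?_⟩
      have : b * (y * y) = 1 := by
        rw [← hy]
        field_simp
      rw [hneg, hc, sub_self] at *
      have hb2 : - b = b := hneg b
      linear_combination this - 2 * b * y ^ 2 * 0 + (- b * y ^ 2) * h2 
    · obtain ⟨x, hx⟩ := FiniteField.isSquare_of_char_two hr (c⁻¹)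
      refine ⟨x, 0, ?_⟩
      have : c * (x * x) = 1 := by
        rw [← hx]
        field_simp
      linear_combination this
  · have hodd := FiniteField.odd_card_of_char_ne_two (ringChar_ne_two h2)
    by_cases hc : c = 0
    · have ha : a ≠ 0 := by
        intro ha
        rw [ha, hc] at hA
        simp at hA
      refine ⟨-(1 + b) * (2 * a)⁻¹, 1, ?_⟩
      rw [hc]
      field_simp
      ring
    · obtain ⟨X, y, h⟩ := FiniteField.exists_root_sum_quadratic (R := F)
        (f := Polynomial.C c * Polynomial.X ^ 2 + Polynomial.C 0 * Polynomial.X + Polynomial.C 0)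
        (g := Polynomial.C c⁻¹ * Polynomial.X ^ 2 + Polynomial.C 0 * Polynomial.X + Polynomial.C (-1))
        (Polynomial.degree_quadratic hc) (Polynomial.degree_quadratic (inv_ne_zero hc)) hodd
      simp at h
      have hi : c * c⁻¹ = 1 := mul_inv_cancel₀ hc
      obtain ⟨i, hidef⟩ : ∃ i, i = c⁻¹ := ⟨_, rfl⟩
      rw [← hidef] at h hi
      refine ⟨X + a * i * y, y, ?_⟩
      linear_combination h + (2 * a * X * y + a ^ 2 * i * y ^ 2 + b * y ^ 2) * hi - y ^ 2 * i * hA

/-- The standard element of trace zero. -/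
def J : SL₂ := mk2 0 (-1) 1 0 (by ring)

theorem conj_J (A : SL₂) (h0 : A.1 0 0 + A.1 1 1 = 0) (h1 : A ∉ Subgroup.center SL₂) : IsConj (π (J (F := F))) (π A) := by
  have hnc : ¬ (A.1 0 1 = 0 ∧ A.1 1 0 = 0 ∧ A.1 0 0 = A.1 1 1) := fun h => h1 ((center_iff A).2 h)
  have hd := det_eq A
  obtain ⟨x, y, h⟩ := exists_form _ _ _ _ h0 hd hnc
  have hdet : x * (A.1 1 0 * x + A.1 1 1 * y) - (A.1 0 0 * x + A.1 0 1 * y) * y = 1 := by
    linear_combination h
  obtain ⟨g, hg⟩ : ∃ g : SL₂, g = mk2 x (A.1 0 0 * x + A.1 0 1 * y) y (A.1 1 0 * x + A.1 1 1 * y) hdet := ⟨_, rfl⟩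
  have hgJ : g * J = A * g := by
    have hA : A.1 0 0 * A.1 0 0 + A.1 0 1 * A.1 1 0 + 1 = 0 := by
      have hw : A.1 1 1 = - A.1 0 0 := by linear_combination h0
      rw [hw] at hd
      linear_combination -hd
    have hB : A.1 1 1 * A.1 1 1 + A.1 0 1 * A.1 1 0 + 1 = 0 := by
      have hw : A.1 0 0 = - A.1 1 1 := by linear_combination h0
      rw [hw] at hd
      linear_combination -hd
    apply sl_ext
    · simp [mul_00, hg, J]
    · simp [mul_01, hg, J]
      linear_combination -x * hA - A.1 0 1 * y * h0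
    · simp [mul_10, hg, J]
    · simp [mul_11, hg, J]
      linear_combination -A.1 1 0 * x * h0 - y * hB
  rw [isConj_iff]
  refine ⟨π g, ?_⟩
  rw [← map_mul, ← map_inv, ← map_mul, mul_inv_eq_of_eq_mul hgJ]

/-- Oddness: characteristic not two. -/
theorem odd_of_trace_sq (h2 : (2 : F) ≠ 0) (M : SL₂) (h : (M.1 0 0 + M.1 1 1) ^ 2 = 4) : Odd (orderOf (π M)) := by
  by_contra hM
  obtain ⟨β, hβ, he⟩ := even_order_ne_two h2 M hM
  rw [h] at he
  apply hβ
  have : β ^ 2 = 0 := by linear_combination he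
  exact pow_eq_zero_iff (by norm_num) |>.1 this

theorem odd_of_trace_square (h2 : (2 : F) ≠ 0) (hi : ¬ IsSquare (-1 : F)) (M : SL₂)
    (h : IsSquare ((M.1 0 0 + M.1 1 1) ^ 2 - 4)) : Odd (orderOf (π M)) := by
  by_contra hM
  obtain ⟨β, hβ, he⟩ := even_order_ne_two h2 M hM
  obtain ⟨w, hw⟩ := h
  apply hi
  refine ⟨w * β⁻¹, ?_⟩
  field_simp
  linear_combination hw - he

theorem odd_of_trace_ne (h2 : (2 : F) = 0) (M : SL₂) (h : M.1 0 0 + M.1 1 1 ≠ 0) : Odd (orderOf (π M)) := by
  by_contra hM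
  exact h (even_order_two h2 M hM)

theorem trace_comm (A B : SL₂) : (A * B).1 0 0 + (A * B).1 1 1 = (B * A).1 0 0 + (B * A).1 1 1 := by
  simp only [mul_00, mul_11]
  ring

/-- The element `α A + β B + γ [A, B]`. -/
theorem exists_C (h2 : (2 : F) ≠ 0) (A B : SL₂) (hA : A.1 0 0 + A.1 1 1 = 0) (hB : B.1 0 0 + B.1 1 1 = 0)
    (cc : F) (hcc : 2 * cc = -((A * B).1 0 0 + (A * B).1 1 1)) (α β γ : F)
    (hdet : α ^ 2 + β ^ 2 + 2 * cc * α * β + γ ^ 2 * (1 - cc ^ 2) = 1) :
    ∃ C : SL₂, C.1 0 0 + C.1 1 1 = 0 ∧ (A * C).1 0 0 + (A * C).1 1 1 = -2 * (α + cc * β) ∧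
      (C * B).1 0 0 + (C * B).1 1 1 = -2 * (cc * α + β) := by
  have hdA := det_eq A
  have hdB := det_eq B
  simp only [mul_00, mul_11] at hcc
  have hwA : A.1 1 1 = - A.1 0 0 := by linear_combination hA
  have hwB : B.1 1 1 = - B.1 0 0 := by linear_combination hB
  rw [hwA] at hdA hcc
  rw [hwB] at hdB hcc
  obtain ⟨a, ha⟩ : ∃ a, a = A.1 0 0 := ⟨_, rfl⟩
  obtain ⟨b, hb⟩ : ∃ b, b = A.1 0 1 := ⟨_, rfl⟩
  obtain ⟨c, hc⟩ : ∃ c, c = A.1 1 0 := ⟨_, rfl⟩
  obtain ⟨e, he⟩ : ∃ e, e = B.1 0 0 := ⟨_, rfl⟩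
  obtain ⟨f, hf⟩ : ∃ f, f = B.1 0 1 := ⟨_, rfl⟩
  obtain ⟨g, hg⟩ : ∃ g, g = B.1 1 0 := ⟨_, rfl⟩
  rw [← ha, ← hb, ← hc] at hdA
  rw [← he, ← hf, ← hg] at hdB
  rw [← ha, ← hb, ← hc, ← he, ← hf, ← hg] at hcc
  obtain ⟨h, hh'⟩ : ∃ h, 2 * h = b * g - c * f := ⟨(b * g - c * f) * 2⁻¹, by field_simp⟩
  have HA : a ^ 2 + b * c + 1 = 0 := by linear_combination -hdA
  have HB : e ^ 2 + f * g + 1 = 0 := by linear_combination -hdB
  have Hc : 2 * cc + 2 * a * e + b * g + c * f = 0 := by linear_combination hcc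
  have Hh : 2 * h - b * g + c * f = 0 := by linear_combination hh'
  have HP : cc + h + a * e + c * f = 0 := by
    have : 2 * (cc + h + a * e + c * f) = 0 := by linear_combination Hc + Hh
    exact (mul_eq_zero.mp this).resolve_left h2
  have HQ : cc - h + a * e + b * g = 0 := by
    have : 2 * (cc - h + a * e + b * g) = 0 := by linear_combination Hc - Hh
    exact (mul_eq_zero.mp this).resolve_left h2
  obtain ⟨C11, hC11⟩ : ∃ x, x = α * a + β * e + γ * h := ⟨_, rfl⟩
  obtain ⟨C12, hC12⟩ : ∃ x, x = α * b + β * f + γ * (a * f - b * e) := ⟨_, rfl⟩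
  obtain ⟨C21, hC21⟩ : ∃ x, x = α * c + β * g + γ * (c * e - a * g) := ⟨_, rfl⟩
  have hdetC : C11 * (-C11) - C12 * C21 = 1 := by
    rw [hC11, hC12, hC21]
    linear_combination hdet - α ^ 2 * HA - β ^ 2 * HB - α * β * Hc - α * γ * a * Hh - β * γ * e * Hh +
      γ ^ 2 * ((cc - h) * HP - (a * e + c * f) * HQ + (e ^ 2 + f * g) * HA - HB)
  refine ⟨mk2 C11 C12 C21 (-C11) hdetC, by simp, ?_, ?_⟩
  · simp only [mul_00, mul_11, mk2_00, mk2_01, mk2_10, mk2_11, hwA, ← ha, ← hb, ← hc]
    rw [hC11, hC12, hC21]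
    linear_combination 2 * α * HA + β * Hc + γ * a * Hh
  · simp only [mul_00, mul_11, mk2_00, mk2_01, mk2_10, mk2_11, hwB, ← he, ← hf, ← hg]
    rw [hC11, hC12, hC21]
    linear_combination α * Hc + 2 * β * HB + γ * e * Hh


theorem two_forms (b c f g : F) (h1 : ¬ (b = 0 ∧ c = 0)) (h2 : ¬ (f = 0 ∧ g = 0)) :
    ∃ v w : F, b * w + c * v ≠ 0 ∧ f * w + g * v ≠ 0 := by
  obtain ⟨v₁, w₁, e1⟩ : ∃ v w : F, b * w + c * v ≠ 0 := by
    by_cases hb : b = 0
    · refine ⟨1, 0, ?_⟩
      have hc : c ≠ 0 := fun hc => h1 ⟨hb, hc⟩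
      simpa using hc
    · exact ⟨0, 1, by simpa using hb⟩
  obtain ⟨v₂, w₂, e2⟩ : ∃ v w : F, f * w + g * v ≠ 0 := by
    by_cases hb : f = 0
    · refine ⟨1, 0, ?_⟩
      have hc : g ≠ 0 := fun hc => h2 ⟨hb, hc⟩
      simpa using hc
    · exact ⟨0, 1, by simpa using hb⟩
  by_cases h3 : f * w₁ + g * v₁ = 0
  · by_cases h4 : b * w₂ + c * v₂ = 0
    · refine ⟨v₁ + v₂, w₁ + w₂, ?_, ?_⟩
      · intro h
        apply e1
        linear_combination h - h4
      · intro h
        apply e2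
        linear_combination h - h3
    · exact ⟨v₂, w₂, h4, e2⟩
  · exact ⟨v₁, w₁, e1, h3⟩

theorem trace_zero_not_central (h2 : (2 : F) ≠ 0) (C : SL₂) (h0 : C.1 0 0 + C.1 1 1 = 0) :
    C ∉ Subgroup.center SL₂ := by
  intro hc
  obtain ⟨h01, h10, h⟩ := (center_iff C).1 hc
  have hd := det_eq C
  rw [h01, ← h] at hd
  rw [← h] at h0
  have h3 : 2 * C.1 0 0 = 0 := by linear_combination h0
  have h4 := (mul_eq_zero.mp h3).resolve_left h2
  rw [h4] at hd
  simp at hd

/-- The common neighbour. -/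
theorem exists_neighbor (hF : 4 ≤ Fintype.card F) (A B : SL₂) (hA : A.1 0 0 + A.1 1 1 = 0)
    (hB : B.1 0 0 + B.1 1 1 = 0) (hAc : A ∉ Subgroup.center SL₂) (hBc : B ∉ Subgroup.center SL₂)
    (hn : ¬ Odd (orderOf (π A * π B))) :
    ∃ C : SL₂, C.1 0 0 + C.1 1 1 = 0 ∧ C ∉ Subgroup.center SL₂ ∧ Odd (orderOf (π A * π C)) ∧
      Odd (orderOf (π C * π B)) := by
  simp only [← map_mul] at hn ⊢
  by_cases h2 : (2 : F) = 0
  · -- characteristic two
    have hnegw : ∀ z : F, z + z = 0 := fun z => by linear_combination z * h2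
    have hA1 : ¬ (A.1 0 1 = 0 ∧ A.1 1 0 = 0) := by
      rintro ⟨h1, h3⟩
      apply hAc
      refine (center_iff A).2 ⟨h1, h3, ?_⟩
      linear_combination hA - A.1 1 1 * h2
    have hB1 : ¬ (B.1 0 1 = 0 ∧ B.1 1 0 = 0) := by
      rintro ⟨h1, h3⟩
      apply hBc
      refine (center_iff B).2 ⟨h1, h3, ?_⟩
      linear_combination hB - B.1 1 1 * h2
    obtain ⟨v, w, e1, e2⟩ := two_forms _ _ _ _ hA1 hB1
    obtain ⟨u, hu⟩ := FiniteField.isSquare_of_char_two (ringChar_eq_two h2) (1 + v * w)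
    have hdet : u * u - v * w = 1 := by linear_combination -hu
    refine ⟨mk2 u v w u hdet, ?_, ?_, ?_, ?_⟩
    · simp [hnegw]
    · intro hc
      obtain ⟨h01, h10, -⟩ := (center_iff _).1 hc
      simp at h01 h10
      apply e1
      rw [h01, h10]
      ring
    · apply odd_of_trace_ne h2
      simp only [mul_00, mul_11, mk2_00, mk2_01, mk2_10, mk2_11]
      intro h
      apply e1
      linear_combination h - u * hA
    · apply odd_of_trace_ne h2
      simp only [mul_00, mul_11, mk2_00, mk2_01, mk2_10, mk2_11]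
      intro h
      apply e2
      linear_combination h - u * hB
  · obtain ⟨cc, hcc⟩ : ∃ cc : F, 2 * cc = -((A * B).1 0 0 + (A * B).1 1 1) :=
      ⟨-((A * B).1 0 0 + (A * B).1 1 1) * 2⁻¹, by field_simp⟩
    by_cases hi : IsSquare (-1 : F)
    · obtain ⟨i, hi⟩ := hi
      have h1c : 1 + cc ≠ 0 := by
        intro h0
        apply hn
        apply odd_of_trace_sq h2
        have : (A * B).1 0 0 + (A * B).1 1 1 = 2 := by
          linear_combination hcc - 2 * h0
        rw [this]
        norm_num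
      obtain ⟨C, hC0, hC1, hC2⟩ := exists_C h2 A B hA hB cc hcc (1 + cc)⁻¹ (1 + cc)⁻¹ (i * (1 + cc)⁻¹) (by
        field_simp
        linear_combination (-(1 - cc ^ 2)) * hi)
      have e : (1 + cc)⁻¹ + cc * (1 + cc)⁻¹ = 1 := by
        field_simp
      have e' : cc * (1 + cc)⁻¹ + (1 + cc)⁻¹ = 1 := by
        field_simp
        ring
      refine ⟨C, hC0, trace_zero_not_central h2 C hC0, odd_of_trace_sq h2 _ ?_, odd_of_trace_sq h2 _ ?_⟩
      · rw [hC1, e]
        norm_num
      · rw [hC2, e']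
        norm_num
    · have hnt : ¬ IsSquare (cc ^ 2 - 1) := by
        rintro ⟨r, hr⟩
        apply hn
        apply odd_of_trace_square h2 hi
        refine ⟨2 * r, ?_⟩
        have : (A * B).1 0 0 + (A * B).1 1 1 = -(2 * cc) := by rw [hcc]; ring
        rw [this]
        linear_combination 4 * hr
      obtain ⟨α, β, γ, hd, hs1, hs2⟩ := exists_coeffs hF h2 hi cc hnt
      obtain ⟨C, hC0, hC1, hC2⟩ := exists_C h2 A B hA hB cc hcc α β γ hd
      refine ⟨C, hC0, trace_zero_not_central h2 C hC0, odd_of_trace_square h2 hi _ ?_,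
        odd_of_trace_square h2 hi _ ?_⟩
      · rw [hC1]
        obtain ⟨r, hr⟩ := hs1
        refine ⟨2 * r, ?_⟩
        linear_combination 4 * hr
      · rw [hC2]
        obtain ⟨r, hr⟩ := hs2
        refine ⟨2 * r, ?_⟩
        linear_combination 4 * hr

/-- A non-adjacent pair. -/
theorem exists_even_pair (hF : 4 ≤ Fintype.card F) :
    ∃ A B : SL₂, A.1 0 0 + A.1 1 1 = 0 ∧ B.1 0 0 + B.1 1 1 = 0 ∧ A ∉ Subgroup.center SL₂ ∧ B ∉ Subgroup.center SL₂ ∧
      (A * B).1 0 0 + (A * B).1 1 1 = 0 ∧ (A * B) ∉ Subgroup.center SL₂ := by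
  by_cases h2 : (2 : F) = 0
  · have hw : ∃ w : F, w ≠ 0 ∧ w ≠ 1 := by
      by_contra hcon
      push Not at hcon
      have hc : 2 < Fintype.card F := by omega
      obtain ⟨p, q, r, hpq, hpr, hqr⟩ := Fintype.two_lt_card_iff.1 hc
      have hall : ∀ z : F, z = 0 ∨ z = 1 := by
        intro z
        by_cases hz : z = 0
        · exact Or.inl hz
        · exact Or.inr (hcon z hz)
      rcases hall p with rfl | rfl <;> rcases hall q with rfl | rfl <;> rcases hall r with rfl | rfl <;>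
        simp_all
    obtain ⟨w, hw0, hw1⟩ := hw
    refine ⟨mk2 1 1 0 1 (by ring), mk2 1 w 0 1 (by ring), ?_, ?_, ?_, ?_, ?_, ?_⟩
    · simpa using by linear_combination h2
    · simpa using by linear_combination h2
    · intro hc
      obtain ⟨h01, -, -⟩ := (center_iff _).1 hc
      simp at h01
    · intro hc
      obtain ⟨h01, -, -⟩ := (center_iff _).1 hc
      simp at h01
      exact hw0 h01
    · simp only [mul_00, mul_11, mk2_00, mk2_01, mk2_10, mk2_11]
      linear_combination h2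
    · intro hc
      obtain ⟨h01, -, -⟩ := (center_iff _).1 hc
      simp only [mul_01, mk2_00, mk2_01, mk2_10, mk2_11] at h01
      apply hw1
      linear_combination h01 - h2
  · have hodd := FiniteField.odd_card_of_char_ne_two (ringChar_ne_two h2)
    obtain ⟨x, y, h⟩ := FiniteField.exists_root_sum_quadratic (R := F)
        (f := Polynomial.C 1 * Polynomial.X ^ 2 + Polynomial.C 0 * Polynomial.X + Polynomial.C 0)
        (g := Polynomial.C 1 * Polynomial.X ^ 2 + Polynomial.C 0 * Polynomial.X + Polynomial.C 1)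
        (Polynomial.degree_quadratic one_ne_zero) (Polynomial.degree_quadratic one_ne_zero) hodd
    simp at h
    have hxy : ¬ (x = 0 ∧ y = 0) := by
      rintro ⟨rfl, rfl⟩
      simp at h
    have hdet : x * (-x) - y * y = 1 := by linear_combination -h
    refine ⟨J, mk2 x y y (-x) hdet, ?_, ?_, ?_, ?_, ?_, ?_⟩
    · simp [J]
    · simp
    · exact trace_zero_not_central h2 _ (by simp [J])
    · exact trace_zero_not_central h2 _ (by simp)
    · simp [mul_00, mul_11, J]
    · intro hc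
      obtain ⟨h01, -, h⟩ := (center_iff _).1 hc
      simp [mul_00, mul_11, mul_01, J] at h01 h
      apply hxy
      refine ⟨h01, ?_⟩
      have : 2 * y = 0 := by linear_combination -h
      exact (mul_eq_zero.mp this).resolve_left h2

theorem main_thm (hF : 4 ≤ Fintype.card F)
    (t : PSL₂) (ht : orderOf t = 2) :
    (SimpleGraph.fromRel fun x y : {x : PSL₂ // IsConj t x} =>
        Odd (orderOf (x.1 * y.1))).Connected ∧
      (SimpleGraph.fromRel fun x y : {x : PSL₂ // IsConj t x} =>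
        Odd (orderOf (x.1 * y.1))).diam = 2 := by
  haveI : Nonempty {x : PSL₂ // IsConj t x} := ⟨⟨t, IsConj.refl t⟩⟩
  -- the class consists of all images of trace zero elements
  obtain ⟨A₀, hA₀⟩ := π_surj t
  have hA₀2 : orderOf (π A₀) = 2 := by rw [hA₀, ht]
  have hnc : ∀ A : SL₂, orderOf (π A) = 2 → A ∉ Subgroup.center SL₂ := by
    intro A h hc
    rw [(π_eq_one_iff _).2 hc, orderOf_one] at h
    omega
  have hconj : ∀ A : SL₂, A.1 0 0 + A.1 1 1 = 0 → A ∉ Subgroup.center SL₂ → IsConj t (π A) := by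
    intro A h0 h1
    have e1 := conj_J A h0 h1
    have e2 := conj_J A₀ (trace_of_order_two A₀ hA₀2) (hnc _ hA₀2)
    rw [← hA₀]
    exact e2.symm.trans e1
  have hord : ∀ x : {x : PSL₂ // IsConj t x}, orderOf x.1 = 2 := by
    intro x
    obtain ⟨g, hg⟩ := isConj_iff.1 x.2
    have e : orderOf (g * t * g⁻¹) = orderOf t := by
      have : g * t * g⁻¹ = MulAut.conj g t := rfl
      rw [this]
      exact MulEquiv.orderOf_eq _ _
    rw [← hg, e, ht]
  apply connected_diam_two
  · intro x y hxy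
    rw [SimpleGraph.fromRel_adj]
    by_cases hodd : Odd (orderOf (x.1 * y.1))
    · left
      exact ⟨hxy, Or.inl hodd⟩
    · right
      obtain ⟨A, hA⟩ := π_surj x.1
      obtain ⟨B, hB⟩ := π_surj y.1
      have hA2 : orderOf (π A) = 2 := by rw [hA, hord]
      have hB2 : orderOf (π B) = 2 := by rw [hB, hord]
      rw [← hA, ← hB] at hodd
      obtain ⟨C, hC0, hC1, h1, h3⟩ := exists_neighbor hF A B (trace_of_order_two A hA2) (trace_of_order_two B hB2)
        (hnc _ hA2) (hnc _ hB2) hodd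
      refine ⟨⟨π C, hconj C hC0 hC1⟩, ?_, ?_⟩
      · rw [SimpleGraph.fromRel_adj]
        refine ⟨?_, Or.inl ?_⟩
        · intro h
          have h4 : π C = x.1 := (congrArg Subtype.val h).symm
          rw [h4, ← hA] at h3
          exact hodd h3
        · show Odd (orderOf (x.1 * π C))
          rw [← hA]
          exact h1
      · rw [SimpleGraph.fromRel_adj]
        refine ⟨?_, Or.inl ?_⟩
        · intro h
          have h4 : π C = y.1 := congrArg Subtype.val h
          rw [h4, ← hB] at h1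
          exact hodd h1
        · show Odd (orderOf (π C * y.1))
          rw [← hB]
          exact h3
  · obtain ⟨A, B, hA, hB, hAc, hBc, hAB, hABc⟩ := exists_even_pair hF
    have hxy2 : orderOf (π (A * B)) = 2 := order_two_of_trace _ hAB hABc
    refine ⟨⟨π A, hconj A hA hAc⟩, ⟨π B, hconj B hB hBc⟩, ?_, ?_⟩
    · intro h
      have h4 : π A = π B := congrArg Subtype.val h
      have h5 := order_two_of_trace A hA hAc
      rw [map_mul, ← h4, ← pow_two] at hxy2
      have h6 := pow_orderOf_eq_one (π A)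
      rw [h5] at h6
      rw [h6, orderOf_one] at hxy2
      omega
    · rw [SimpleGraph.fromRel_adj]
      rintro ⟨-, h | h⟩
      · change Odd (orderOf (π A * π B)) at h
        rw [← map_mul, hxy2] at h
        exact absurd h (by decide)
      · change Odd (orderOf (π B * π A)) at h
        have h5 := order_two_of_trace A hA hAc
        have h6 := order_two_of_trace B hB hBc
        have e : π B * π A = (π (A * B))⁻¹ := by
          have e1 : (π A)⁻¹ = π A := by
            have := pow_orderOf_eq_one (π A)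
            rw [h5, pow_two] at this
            exact inv_eq_of_mul_eq_one_left this
          have e2 : (π B)⁻¹ = π B := by
            have := pow_orderOf_eq_one (π B)
            rw [h6, pow_two] at this
            exact inv_eq_of_mul_eq_one_left this
          rw [map_mul, mul_inv_rev, e1, e2]
        rw [e, orderOf_inv, hxy2] at h
        exact absurd h (by decide)

end final


/-- Let F be a finite field with at least 4 elements and let X be a conjugacy class of involutions of PSL(2, F). The graph on X joining two distinct involutions whose product has odd order is connected and has diameter exactly 2. -/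
theorem result {F : Type*} [Field F] [Fintype F] (hF : 4 ≤ Fintype.card F)
    (t : Matrix.ProjectiveSpecialLinearGroup (Fin 2) F) (ht : orderOf t = 2) :
    (SimpleGraph.fromRel fun x y : {x : Matrix.ProjectiveSpecialLinearGroup (Fin 2) F // IsConj t x} =>
        Odd (orderOf (x.1 * y.1))).Connected ∧
      (SimpleGraph.fromRel fun x y : {x : Matrix.ProjectiveSpecialLinearGroup (Fin 2) F // IsConj t x} =>
        Odd (orderOf (x.1 * y.1))).diam = 2 := by
  exact main_thm hF t ht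

end Cfsg.Agent.S3266
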