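import Cfsg.Statements.S3269
import Mathlib
import Cfsg.Agent.S0215
import Cfsg.Agent.Lib.Components.CentInt
import Cfsg.Agent.Lib.Components.Basic

set_option autoImplicit false
open Cfsg

namespace Cfsg.Agent.S3269

open Subgroup Cfsg.Agent.Lib.Components

theorem zmod_two_zero {m : ℕ} (hm : m ≠ 0) (i : ZMod (2 * m)) (h : i + i = 0) :
    i = 0 ∨ i = (m : ZMod (2 * m)) := by
  haveI : NeZero m := ⟨hm⟩
  haveI : NeZero (2 * m) := ⟨by omega⟩
  have hv : i = (i.val : ZMod (2 * m)) := (ZMod.natCast_zmod_val i).symm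
  have hlt : i.val < 2 * m := ZMod.val_lt i
  have h1 : ((i.val + i.val : ℕ) : ZMod (2 * m)) = 0 := by
    push_cast
    rw [← hv]; exact h
  have h2 : 2 * m ∣ i.val + i.val := (ZMod.natCast_eq_zero_iff _ _).mp h1
  obtain ⟨k, hk⟩ := h2
  have hk2 : i.val = m * k := by
    have : 2 * i.val = 2 * (m * k) := by
      rw [← mul_assoc, ← hk]; ring
    omega
  have hk3 : k < 2 := by
    by_contra hcon
    push Not at hcon
    have : m * 2 ≤ m * k := Nat.mul_le_mul_left m hcon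
    omega
  interval_cases k
  · left
    rw [hv, hk2]; simp
  · right
    rw [hv, hk2]; simp

open QuaternionGroup in
theorem qg_inv {m : ℕ} (hm : m ≠ 0) (x : QuaternionGroup m) (hx : x * x = 1) :
    x = 1 ∨ x = a (m : ZMod (2 * m)) := by
  haveI : NeZero m := ⟨hm⟩
  haveI : NeZero (2 * m) := ⟨by omega⟩
  cases x with
  | a i =>
    rw [a_mul_a, one_def, a.injEq] at hx
    rcases zmod_two_zero hm i hx with rfl | rfl
    · left; rw [one_def]
    · right; rfl
  | xa i =>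
    exfalso
    rw [xa_mul_xa, one_def, a.injEq] at hx
    have h1 : (m : ZMod (2 * m)) = 0 := by
      rw [← hx]; ring
    have h2 : 2 * m ∣ m := (ZMod.natCast_eq_zero_iff _ _).mp h1
    have := Nat.le_of_dvd (Nat.pos_of_ne_zero hm) h2
    omega

open QuaternionGroup in
theorem qg_cen {m : ℕ} (hm : 2 ≤ m) (x : QuaternionGroup m) (hx : ∀ y, x * y = y * x) :
    x = 1 ∨ x = a (m : ZMod (2 * m)) := by
  have hm0 : m ≠ 0 := by omega
  haveI : NeZero m := ⟨hm0⟩
  haveI : NeZero (2 * m) := ⟨by omega⟩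
  have htwo : ((2 : ℕ) : ZMod (2 * m)) ≠ 0 := by
    intro h1
    have h2 : 2 * m ∣ 2 := (ZMod.natCast_eq_zero_iff _ _).mp h1
    have := Nat.le_of_dvd (by norm_num) h2
    omega
  cases x with
  | a i =>
    have h1 := hx (xa 0)
    rw [a_mul_xa, xa_mul_a, xa.injEq] at h1
    have h2 : i + i = 0 := by linear_combination -h1
    rcases zmod_two_zero hm0 i h2 with rfl | rfl
    · left; rw [one_def]
    · right; rfl
  | xa i =>
    exfalso
    have h1 := hx (a 1)
    rw [a_mul_xa, xa_mul_a, xa.injEq] at h1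
    apply htwo
    push_cast
    linear_combination h1

open QuaternionGroup in
theorem qg_na {m : ℕ} (hm : 2 ≤ m) :
    (a 1 : QuaternionGroup m) * xa 0 ≠ xa 0 * a 1 := by
  intro h
  have hm0 : m ≠ 0 := by omega
  haveI : NeZero m := ⟨hm0⟩
  haveI : NeZero (2 * m) := ⟨by omega⟩
  have htwo : ((2 : ℕ) : ZMod (2 * m)) ≠ 0 := by
    intro h1
    have h2 : 2 * m ∣ 2 := (ZMod.natCast_eq_zero_iff _ _).mp h1
    have := Nat.le_of_dvd (by norm_num) h2
    omega
  rw [a_mul_xa, xa_mul_a, xa.injEq] at h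
  apply htwo
  push_cast
  linear_combination -h

theorem exists_proj {G : Type*} [Group G] {A B T : Subgroup G}
    (h : Cfsg.IsInternalDirectProduct A B T) :
    ∃ (p : ↥T →* ↥A) (p' : ↥T →* ↥B), (∀ s : ↥T, (s : G) = (p s : G) * (p' s : G)) ∧
      (∀ s : ↥T, (s : G) ∈ A → (p s : G) = s) ∧ (∀ s : ↥T, (s : G) ∈ B → (p s : G) = 1) ∧
      (∀ s : ↥T, (s : G) ∈ A → (p' s : G) = 1) ∧ (∀ s : ↥T, (s : G) ∈ B → (p' s : G) = s) := by
  obtain ⟨hA, hB, hc, hi, hs⟩ := h
  have hcomm : ∀ (a : ↥A) (b : ↥B), Commute (Subgroup.inclusion hA a) (Subgroup.inclusion hB b) := by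
    intro a b
    apply Subtype.ext
    exact hc a a.2 b b.2
  obtain ⟨μ, hμd⟩ : ∃ μ : ↥A × ↥B →* ↥T, ∀ x, ((μ x : ↥T) : G) = (x.1 : G) * (x.2 : G) :=
    ⟨MonoidHom.noncommCoprod (Subgroup.inclusion hA) (Subgroup.inclusion hB) hcomm, fun x => rfl⟩
  have hμ : Function.Bijective μ := by
    constructor
    · rw [injective_iff_map_eq_one]
      rintro ⟨a, b⟩ hab
      have h1 : (a : G) * b = 1 := by
        have := congrArg Subtype.val hab
        rwa [hμd] at this
      have h2 : (a : G) = (b : G)⁻¹ := eq_inv_of_mul_eq_one_left h1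
      have h3 : (a : G) ∈ A ⊓ B := Subgroup.mem_inf.mpr ⟨a.2, by rw [h2]; exact B.inv_mem b.2⟩
      rw [hi] at h3
      have h4 : (a : G) = 1 := h3
      have h5 : (b : G) = 1 := by rw [h4, one_mul] at h1; exact h1
      apply Prod.ext
      · exact Subtype.ext h4
      · exact Subtype.ext h5
    · intro s
      have hs' : (s : G) ∈ A ⊔ B := by rw [hs]; exact s.2
      have hBN : B ≤ normalizer (A : Set G) := by
        intro b hb
        rw [mem_normalizer_iff]
        intro a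
        have e : ∀ a : G, a ∈ A → b * a * b⁻¹ = a := fun a ha => by
          rw [← hc a ha b hb]; group
        constructor
        · intro ha
          rw [e a ha]; exact ha
        · intro ha
          have e3 := hc _ ha _ (B.inv_mem hb)
          have e2 : a = b * a * b⁻¹ := by
            calc a = b⁻¹ * (b * a * b⁻¹) * b := by group
              _ = (b * a * b⁻¹) * b⁻¹ * b := by rw [← e3]
              _ = b * a * b⁻¹ := by group
          rw [e2]; exact ha
      obtain ⟨a, ha, b, hb, hab⟩ := exists_mul_of_mem_sup_of_le_normalizer hBN hs'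
      exact ⟨(⟨a, ha⟩, ⟨b, hb⟩), Subtype.ext (by rw [hμd]; exact hab.symm)⟩
  obtain ⟨e, he⟩ : ∃ e : ↥A × ↥B ≃* ↥T, ∀ x, ((e x : ↥T) : G) = (x.1 : G) * (x.2 : G) :=
    ⟨MulEquiv.ofBijective μ hμ, hμd⟩
  have hsymm : ∀ (s : ↥T), (s : G) = ((e.symm s).1 : G) * ((e.symm s).2 : G) := by
    intro s
    rw [← he, MulEquiv.apply_symm_apply]
  have hA' : ∀ s : ↥T, (s : G) ∈ A → ((e.symm s).1 : G) = s ∧ ((e.symm s).2 : G) = 1 := by
    intro s hsA
    have : e.symm s = (⟨s, hsA⟩, 1) := by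
      rw [MulEquiv.symm_apply_eq]
      apply Subtype.ext
      rw [he]; simp
    rw [this]; simp
  have hB' : ∀ s : ↥T, (s : G) ∈ B → ((e.symm s).1 : G) = 1 ∧ ((e.symm s).2 : G) = s := by
    intro s hsB
    have : e.symm s = (1, ⟨s, hsB⟩) := by
      rw [MulEquiv.symm_apply_eq]
      apply Subtype.ext
      rw [he]; simp
    rw [this]; simp
  exact ⟨(MonoidHom.fst _ _).comp e.symm.toMonoidHom, (MonoidHom.snd _ _).comp e.symm.toMonoidHom,
    hsymm, fun s hs => (hA' s hs).1, fun s hs => (hB' s hs).1, fun s hs => (hA' s hs).2,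
    fun s hs => (hB' s hs).2⟩


/-- Claim A: if the direct factor `A` of `S` (with the same order as `Q`) has its involution `t`
with a nontrivial projection to `Q` and `t ≠ z`, contradiction. -/
theorem claimA {G : Type*} [Group G] [Finite G] {S Q R A B : Subgroup G} {z t : G}
    (hS : IsPGroup 2 S)
    (p : ↥S →* ↥Q) (p' : ↥S →* ↥R)
    (hpp : ∀ s : ↥S, (s : G) = (p s : G) * (p' s : G))
    (hpR : ∀ s : ↥S, (s : G) ∈ R → (p s : G) = 1)
    (hQR : ∀ a ∈ Q, ∀ b ∈ R, a * b = b * a)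
    (hQS : Q ≤ S) (hRS : R ≤ S) (hAS : A ≤ S) (hBS : B ≤ S)
    (hzz : z * z = 1) 
    (hQcen : ∀ x ∈ Q, (∀ y ∈ Q, x * y = y * x) → x = 1 ∨ x = z)
    (hAB : ∀ a ∈ A, ∀ b ∈ B, a * b = b * a)
    (hfac : ∀ s ∈ S, ∃ a ∈ A, ∃ b ∈ B, s = a * b)
    (hcard : Nat.card A = Nat.card Q)
    (htA : t ∈ A) (ht1 : t ≠ 1) (htt : t * t = 1) (hAinv : ∀ x ∈ A, x * x = 1 → x = 1 ∨ x = t)
    (hAna : ∃ a ∈ A, ∃ b ∈ A, a * b ≠ b * a)
    (s : ↥S) (hs : (s : G) = t) (hps : (p s : G) ≠ 1) (htz : t ≠ z) (hpz : (p s : G) = z) : False := by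
  classical
  -- the projection of t to R is nontrivial
  have hp's : (p' s : G) ≠ 1 := by
    intro h
    have := hpp s
    rw [h, mul_one, hs, hpz] at this
    exact htz this
  -- every nontrivial element of A has t as a power
  have hpow : ∀ x : ↥S, (x : G) ∈ A → (x : G) ≠ 1 → ∃ k : ℕ, x ^ k = s := by
    intro x hxA hx1
    have hex : ∃ k : ℕ, x ^ 2 ^ k = 1 := hS x
    classical
    have hm := Nat.find_spec hex
    obtain ⟨k, hk⟩ : ∃ k, k = Nat.find hex := ⟨_, rfl⟩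
    rw [← hk] at hm
    have hk0 : k ≠ 0 := by
      rintro rfl
      apply hx1
      have : x = 1 := by simpa using hm
      rw [this]; rfl
    obtain ⟨j, rfl⟩ : ∃ j, k = j + 1 := Nat.exists_eq_succ_of_ne_zero hk0
    have hmin : x ^ 2 ^ j ≠ 1 := by
      have := Nat.find_min hex (m := j) (by omega)
      exact this
    refine ⟨2 ^ j, ?_⟩
    have hy : ((x ^ 2 ^ j : ↥S) : G) * ((x ^ 2 ^ j : ↥S) : G) = 1 := by
      have : x ^ 2 ^ j * x ^ 2 ^ j = 1 := by
        rw [← pow_add, ← hm]; congr 1; ring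
      exact congrArg Subtype.val this
    have hyA : ((x ^ 2 ^ j : ↥S) : G) ∈ A := by
      rw [Subgroup.coe_pow]; exact A.pow_mem hxA _
    rcases hAinv _ hyA hy with h | h
    · exact absurd (Subtype.ext h) hmin
    · apply Subtype.ext
      rw [h, hs]
  -- `t` is central in `A`
  have htc : ∀ x ∈ A, x * t = t * x := by
    intro x hx
    have h1 : (x * t * x⁻¹) * (x * t * x⁻¹) = 1 := by
      calc (x * t * x⁻¹) * (x * t * x⁻¹) = x * (t * t) * x⁻¹ := by group
        _ = 1 := by rw [htt]; group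
    have h2 := hAinv _ (A.mul_mem (A.mul_mem hx htA) (A.inv_mem hx)) h1
    have h3 : x * t * x⁻¹ = t := by
      rcases h2 with h2 | h2
      · exfalso; apply ht1
        have : x * t * x⁻¹ * x = 1 * x := by rw [h2]
        simpa using this
      · exact h2
    calc x * t = (x * t * x⁻¹) * x := by group
      _ = t * x := by rw [h3]
  -- `p` is injective on A
  have hinj : ∀ x : ↥S, (x : G) ∈ A → p x = 1 → (x : G) = 1 := by
    intro x hxA hx
    by_contra hx1
    obtain ⟨k, hk⟩ := hpow x hxA hx1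
    apply hps
    rw [← hk, map_pow, hx, one_pow]; rfl
  have hinj' : ∀ x : ↥S, (x : G) ∈ A → p' x = 1 → (x : G) = 1 := by
    intro x hxA hx
    by_contra hx1
    obtain ⟨k, hk⟩ := hpow x hxA hx1
    apply hp's
    rw [← hk, map_pow, hx, one_pow]; rfl
  -- `p` maps A onto Q
  have hsurj : ∀ q ∈ Q, ∃ a : ↥S, (a : G) ∈ A ∧ (p a : G) = q := by
    intro q hq
    have hfinj : Function.Injective (fun a : ↥A => p (Subgroup.inclusion hAS a)) := by
      intro a b hab
      have h1 : p (Subgroup.inclusion hAS a * (Subgroup.inclusion hAS b)⁻¹) = 1 := by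
        rw [map_mul, map_inv]
        exact mul_inv_eq_one.mpr hab
      have h2 := hinj _ (by
        show (a : G) * (b : G)⁻¹ ∈ A
        exact A.mul_mem a.2 (A.inv_mem b.2)) h1
      have h3 : (a : G) * (b : G)⁻¹ = 1 := h2
      exact Subtype.ext (mul_inv_eq_one.mp h3)
    have hbij := Function.Injective.bijective_of_nat_card_le hfinj (le_of_eq hcard.symm)
    obtain ⟨a, ha⟩ := hbij.2 ⟨q, hq⟩
    exact ⟨Subgroup.inclusion hAS a, a.2, congrArg Subtype.val ha⟩
  -- R commutes with A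
  have hRA : ∀ y ∈ R, ∀ a ∈ A, y * a = a * y := by
    intro y hy a ha
    obtain ⟨a₀, ha₀, c, hc, hyd⟩ := hfac y (hRS hy)
    have hpc : (p ⟨c, hBS hc⟩ : G) = 1 ∨ (p ⟨c, hBS hc⟩ : G) = z := by
      apply hQcen _ (p _).2
      intro q hq
      obtain ⟨a', ha', hpa⟩ := hsurj q hq
      have h1 : (⟨c, hBS hc⟩ : ↥S) * a' = a' * ⟨c, hBS hc⟩ := by
        apply Subtype.ext
        exact (hAB _ ha' _ hc).symm
      have h2 := congrArg (fun w => ((p w : ↥Q) : G)) h1
      simp only [map_mul, Subgroup.coe_mul, hpa] at h2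
      exact h2
    have hpy : (p ⟨a₀, hAS ha₀⟩ : G) * (p ⟨c, hBS hc⟩ : G) = 1 := by
      have h1 := hpR ⟨y, hRS hy⟩ hy
      have h2 : (⟨y, hRS hy⟩ : ↥S) = ⟨a₀, hAS ha₀⟩ * ⟨c, hBS hc⟩ := Subtype.ext hyd
      rw [h2, map_mul] at h1
      exact h1
    have ha₀c : ∀ x ∈ A, x * a₀ = a₀ * x := by
      rcases hpc with h | h
      · rw [h, mul_one] at hpy
        have h1 := hinj ⟨a₀, hAS ha₀⟩ ha₀ (Subtype.ext hpy)
        have h2 : a₀ = 1 := h1
        intro x _
        rw [h2]; simp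
      · rw [h] at hpy
        have h1 : (p ⟨a₀, hAS ha₀⟩ : G) = z := by
          have : (p ⟨a₀, hAS ha₀⟩ : G) = z⁻¹ := eq_inv_of_mul_eq_one_left hpy
          rw [this]
          exact inv_eq_of_mul_eq_one_left hzz
        have h2 : p (⟨a₀, hAS ha₀⟩ * s⁻¹) = 1 := by
          rw [map_mul, map_inv]
          apply mul_inv_eq_one.mpr
          apply Subtype.ext
          rw [h1, hpz]
        have h3 := hinj _ (by
          show a₀ * (s : G)⁻¹ ∈ A
          rw [hs]
          exact A.mul_mem ha₀ (A.inv_mem htA)) h2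
        have h4 : a₀ * (s : G)⁻¹ = 1 := h3
        have h5 : a₀ = t := by
          rw [← hs]; exact mul_inv_eq_one.mp h4
        rw [h5]
        exact htc
    rw [hyd]
    calc a₀ * c * a = a₀ * (c * a) := by group
      _ = a₀ * (a * c) := by rw [hAB a ha c hc]
      _ = (a₀ * a) * c := by group
      _ = (a * a₀) * c := by rw [ha₀c a ha]
      _ = a * (a₀ * c) := by group
  obtain ⟨a₁, ha₁, a₂, ha₂, hne⟩ := hAna
  apply hne
  obtain ⟨x₁, hx₁⟩ : ∃ x₁ : ↥S, x₁ = ⟨a₁, hAS ha₁⟩ := ⟨_, rfl⟩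
  obtain ⟨x₂, hx₂⟩ : ∃ x₂ : ↥S, x₂ = ⟨a₂, hAS ha₂⟩ := ⟨_, rfl⟩
  have hx₁A : (x₁ : G) ∈ A := by rw [hx₁]; exact ha₁
  have hx₂A : (x₂ : G) ∈ A := by rw [hx₂]; exact ha₂
  have hcomm : (p' x₁ : G) * (p' x₂ : G) = (p' x₂ : G) * (p' x₁ : G) := by
    have h1 := hRA _ (p' x₁).2 _ hx₂A
    rw [hpp x₂] at h1
    have h2 := hQR _ (p x₂).2 _ (p' x₁).2
    have h3 : (p x₂ : G) * ((p' x₁ : G) * (p' x₂ : G)) = (p x₂ : G) * ((p' x₂ : G) * (p' x₁ : G)) := by
      calc (p x₂ : G) * ((p' x₁ : G) * (p' x₂ : G))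
          = ((p x₂ : G) * (p' x₁ : G)) * (p' x₂ : G) := by group
        _ = ((p' x₁ : G) * (p x₂ : G)) * (p' x₂ : G) := by rw [h2]
        _ = (p' x₁ : G) * ((p x₂ : G) * (p' x₂ : G)) := by group
        _ = (p x₂ : G) * (p' x₂ : G) * (p' x₁ : G) := h1
        _ = (p x₂ : G) * ((p' x₂ : G) * (p' x₁ : G)) := by group
    exact mul_left_cancel h3
  have h1 : p' (x₁ * x₂ * (x₂ * x₁)⁻¹) = 1 := by
    rw [map_mul, map_inv, map_mul, map_mul]
    apply mul_inv_eq_one.mpr
    exact Subtype.ext hcomm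
  have h2 := hinj' _ (by
    show (x₁ : G) * x₂ * ((x₂ : G) * x₁)⁻¹ ∈ A
    exact A.mul_mem (A.mul_mem hx₁A hx₂A) (A.inv_mem (A.mul_mem hx₂A hx₁A))) h1
  have h3 : (x₁ * x₂ : ↥S) = x₂ * x₁ := by
    apply mul_inv_eq_one.mp
    exact Subtype.ext h2
  have h4 := congrArg Subtype.val h3
  rw [hx₁, hx₂] at h4
  exact h4


theorem exists_conj_center {G : Type*} [Group G] {S : Subgroup G} {n : G}
    (hn : n ∈ normalizer (S : Set G)) :
    ∃ σ : ↥(center ↥S) ≃* ↥(center ↥S), ∀ x : ↥(center ↥S), (((σ x : ↥(center ↥S)) : ↥S) : G) = n * ((x : ↥S) : G) * n⁻¹ := by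
  have hm : ∀ s : ↥S, n * (s : G) * n⁻¹ ∈ S := fun s =>
    (mem_normalizer_iff.mp hn s).mp s.2
  have hm' : ∀ s : ↥S, n⁻¹ * (s : G) * n ∈ S := fun s => by
    have := (mem_normalizer_iff.mp (inv_mem hn) s).mp s.2
    simpa using this
  obtain ⟨τ, hτ⟩ : ∃ τ : ↥S ≃* ↥S, ∀ s, ((τ s : ↥S) : G) = n * (s : G) * n⁻¹ :=
    ⟨{ toFun := fun s => ⟨n * (s : G) * n⁻¹, hm s⟩
       invFun := fun s => ⟨n⁻¹ * (s : G) * n, hm' s⟩
       left_inv := fun s => by apply Subtype.ext; simp [mul_assoc]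
       right_inv := fun s => by apply Subtype.ext; simp [mul_assoc]
       map_mul' := fun a b => by apply Subtype.ext; simp [mul_assoc] }, fun s => rfl⟩
  exact ⟨Subgroup.centerCongr τ, fun x => hτ _⟩

open scoped IsMulCommutative in
theorem main_q {G : Type*} [Group G] [Finite G] (hZ : ZStarFor G) (S : Sylow 2 G) {Q R : Subgroup G}
    (hQR : Cfsg.IsInternalDirectProduct Q R (S : Subgroup G)) (z : G) (hzQ : z ∈ Q) (hz1 : z ≠ 1)
    (hzz : z * z = 1) (hQinv : ∀ x ∈ Q, x * x = 1 → x = 1 ∨ x = z)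
    (hQcen : ∀ x ∈ Q, (∀ y ∈ Q, x * y = y * x) → x = 1 ∨ x = z)
    (hQna : ∃ a ∈ Q, ∃ b ∈ Q, a * b ≠ b * a)
    (hR : ∀ r ∈ R, orderOf r = 2 → ∀ s ∈ R, r * s = s * r) : ¬ IsSimpleGroup G := by
  classical
  intro hsimple
  obtain ⟨p, p', hpp, hpQ, hpR, hp'Q, hp'R⟩ := exists_proj hQR
  obtain ⟨hQS, hRS, hcomm, hinf, hsup⟩ := hQR
  -- z is central in Q
  have hzc : ∀ x ∈ Q, x * z = z * x := by
    intro x hx
    have h1 : (x * z * x⁻¹) * (x * z * x⁻¹) = 1 := by
      calc (x * z * x⁻¹) * (x * z * x⁻¹) = x * (z * z) * x⁻¹ := by group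
        _ = 1 := by rw [hzz]; group
    have h2 := hQinv _ (Q.mul_mem (Q.mul_mem hx hzQ) (Q.inv_mem hx)) h1
    have h3 : x * z * x⁻¹ = z := by
      rcases h2 with h2 | h2
      · exfalso; apply hz1
        have : x * z * x⁻¹ * x = 1 * x := by rw [h2]
        simpa using this
      · exact h2
    calc x * z = (x * z * x⁻¹) * x := by group
      _ = z * x := by rw [h3]
  -- all involutions of `S` are central
  have hinvc : ∀ t ∈ (S : Subgroup G), t * t = 1 → ∀ s ∈ (S : Subgroup G), s * t = t * s := by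
    intro t ht htt s hs
    have ht1 := hpp ⟨t, ht⟩
    have hs1 := hpp ⟨s, hs⟩
    obtain ⟨q, hq⟩ : ∃ q : G, q = (p ⟨t, ht⟩ : G) := ⟨_, rfl⟩
    obtain ⟨r, hr⟩ : ∃ r : G, r = (p' ⟨t, ht⟩ : G) := ⟨_, rfl⟩
    obtain ⟨q', hq'⟩ : ∃ q' : G, q' = (p ⟨s, hs⟩ : G) := ⟨_, rfl⟩
    obtain ⟨r', hr'⟩ : ∃ r' : G, r' = (p' ⟨s, hs⟩ : G) := ⟨_, rfl⟩
    have hqQ : q ∈ Q := by rw [hq]; exact (p _).2
    have hrR : r ∈ R := by rw [hr]; exact (p' _).2
    have hq'Q : q' ∈ Q := by rw [hq']; exact (p _).2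
    have hr'R : r' ∈ R := by rw [hr']; exact (p' _).2
    rw [← hq, ← hr] at ht1
    rw [← hq', ← hr'] at hs1
    have ht2 : t = q * r := ht1
    have hs2 : s = q' * r' := hs1
    have h1 : (q * q) * (r * r) = 1 := by
      calc (q * q) * (r * r) = q * (q * r) * r := by group
        _ = q * (r * q) * r := by rw [hcomm q hqQ r hrR]
        _ = (q * r) * (q * r) := by group
        _ = 1 := by rw [← ht2]; exact htt
    have h2 : q * q = (r * r)⁻¹ := eq_inv_of_mul_eq_one_left h1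
    have h3 : q * q ∈ Q ⊓ R := Subgroup.mem_inf.mpr ⟨Q.mul_mem hqQ hqQ, by
      rw [h2]; exact R.inv_mem (R.mul_mem hrR hrR)⟩
    rw [hinf] at h3
    have h4 : q * q = 1 := h3
    have h5 : r * r = 1 := by rw [h4, one_mul] at h1; exact h1
    have hqc : q' * q = q * q' := by
      rcases hQinv q hqQ h4 with h | h
      · rw [h]; simp
      · rw [h]; exact hzc q' hq'Q
    have hrc : r' * r = r * r' := by
      by_cases h : r = 1
      · rw [h]; simp
      · have hr2 : orderOf r = 2 := orderOf_eq_prime (by rw [pow_two]; exact h5) h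
        exact (hR r hrR hr2 r' hr'R).symm
    rw [ht2, hs2]
    calc q' * r' * (q * r) = q' * (r' * q) * r := by group
      _ = q' * (q * r') * r := by rw [hcomm q hqQ r' hr'R]
      _ = (q' * q) * (r' * r) := by group
      _ = (q * q') * (r * r') := by rw [hqc, hrc]
      _ = q * (q' * r) * r' := by group
      _ = q * (r * q') * r' := by rw [hcomm q' hq'Q r hrR]
      _ = q * r * (q' * r') := by group
  have hzS : z ∈ (S : Subgroup G) := hQS hzQ
  -- the commutative group and the orbit of z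
  haveI : Fintype ↥(center ↥(S : Subgroup G)) := Fintype.ofFinite _
  obtain ⟨zA, hzA⟩ : ∃ zA : ↥(center ↥(S : Subgroup G)), ((zA : ↥(S : Subgroup G)) : G) = z :=
    ⟨⟨⟨z, hzS⟩, Subgroup.mem_center_iff.mpr (fun s => Subtype.ext (hinvc z hzS hzz s s.2))⟩, rfl⟩
  obtain ⟨O, hO⟩ : ∃ O : Finset ↥(center ↥(S : Subgroup G)), ∀ x, x ∈ O ↔
      ∃ n ∈ normalizer (((S : Subgroup G)) : Set G), ((x : ↥(S : Subgroup G)) : G) = n * z * n⁻¹ :=
    ⟨Finset.univ.filter (fun x => ∃ n ∈ normalizer (((S : Subgroup G)) : Set G),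
      ((x : ↥(S : Subgroup G)) : G) = n * z * n⁻¹), fun x => by simp⟩
  obtain ⟨v, hv⟩ : ∃ v : ↥(center ↥(S : Subgroup G)), v = ∏ x ∈ O, x := ⟨_, rfl⟩
  -- v is fixed by the normalizer
  have hvfix : ∀ n ∈ normalizer (((S : Subgroup G)) : Set G),
      n * ((v : ↥(S : Subgroup G)) : G) * n⁻¹ = v := by
    intro n hn
    obtain ⟨σ, hσ⟩ := exists_conj_center hn
    have h1 : σ v = v := by
      rw [hv, map_prod]
      apply Finset.prod_equiv σ.toEquiv
      · intro x
        rw [hO, hO]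
        constructor
        · rintro ⟨m, hm, hx⟩
          refine ⟨n * m, mul_mem hn hm, ?_⟩
          show (((σ x : ↥(center ↥(S : Subgroup G))) : ↥(S : Subgroup G)) : G) = _
          rw [hσ, hx]; group
        · rintro ⟨m, hm, hx⟩
          refine ⟨n⁻¹ * m, mul_mem (inv_mem hn) hm, ?_⟩
          have hx' : (((σ x : ↥(center ↥(S : Subgroup G))) : ↥(S : Subgroup G)) : G) = _ := hx
          rw [hσ] at hx'
          calc ((x : ↥(S : Subgroup G)) : G) = n⁻¹ * (n * ((x : ↥(S : Subgroup G)) : G) * n⁻¹) * n := by group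
            _ = n⁻¹ * (m * z * m⁻¹) * n := by rw [hx']
            _ = _ := by group
      · intro x _
        rfl
    rw [← hσ, h1]
  -- elements of O are involutions
  have hOinv : ∀ x ∈ O, x * x = 1 := by
    intro x hx
    obtain ⟨n, _, hxn⟩ := (hO x).mp hx
    apply Subtype.ext
    apply Subtype.ext
    show ((x : ↥(S : Subgroup G)) : G) * ((x : ↥(S : Subgroup G)) : G) = 1
    rw [hxn]
    calc n * z * n⁻¹ * (n * z * n⁻¹) = n * (z * z) * n⁻¹ := by group
      _ = 1 := by rw [hzz]; group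
  have hvv : v * v = 1 := by
    rw [hv, ← Finset.prod_mul_distrib]
    exact Finset.prod_eq_one hOinv
  -- Claim A
  have hclaim : ∀ x ∈ O, x ≠ zA → (p (x : ↥(S : Subgroup G)) : G) = 1 := by
    intro x hx hxz
    by_contra hne
    obtain ⟨n, hn, hxn⟩ := (hO x).mp hx
    have hxx := hOinv x hx
    have hxx' : ((x : ↥(S : Subgroup G)) : G) * ((x : ↥(S : Subgroup G)) : G) = 1 :=
      congrArg (fun w : ↥(center ↥(S : Subgroup G)) => ((w : ↥(S : Subgroup G)) : G)) hxx
    have hpx : (p (x : ↥(S : Subgroup G)) : G) * (p (x : ↥(S : Subgroup G)) : G) = 1 := by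
      have h1 : (x : ↥(S : Subgroup G)) * (x : ↥(S : Subgroup G)) = 1 := Subtype.ext hxx'
      have h2 := congrArg (fun w => ((p w : ↥Q) : G)) h1
      simpa using h2
    have hpxz : (p (x : ↥(S : Subgroup G)) : G) = z := by
      rcases hQinv _ (p _).2 hpx with h | h
      · exact absurd h hne
      · exact h
    have hm : ∀ s ∈ (S : Subgroup G), n * s * n⁻¹ ∈ (S : Subgroup G) := fun s hs =>
      (mem_normalizer_iff.mp hn s).mp hs
    have hm' : ∀ s ∈ (S : Subgroup G), n⁻¹ * s * n ∈ (S : Subgroup G) := fun s hs => by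
      have := (mem_normalizer_iff.mp (inv_mem hn) s).mp hs
      simpa using this
    have hmemA : ∀ a, a ∈ Q.map (MulAut.conj n).toMonoidHom ↔ n⁻¹ * a * n ∈ Q := by
      intro a
      constructor
      · rintro ⟨q, hq, rfl⟩
        simpa [mul_assoc] using hq
      · intro h
        exact ⟨_, h, by simp [mul_assoc]⟩
    have hmemB : ∀ a, a ∈ R.map (MulAut.conj n).toMonoidHom ↔ n⁻¹ * a * n ∈ R := by
      intro a
      constructor
      · rintro ⟨q, hq, rfl⟩
        simpa [mul_assoc] using hq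
      · intro h
        exact ⟨_, h, by simp [mul_assoc]⟩
    refine claimA (A := Q.map (MulAut.conj n).toMonoidHom) (B := R.map (MulAut.conj n).toMonoidHom)
      (t := ((x : ↥(S : Subgroup G)) : G)) (z := z) S.isPGroup' p p' hpp hpR hcomm hQS hRS ?_ ?_ hzz hQcen
      ?_ ?_ ?_ ?_ ?_ hxx' ?_ ?_ (x : ↥(S : Subgroup G)) rfl hne ?_ hpxz
    · rintro _ ⟨q, hq, rfl⟩
      exact hm q (hQS hq)
    · rintro _ ⟨q, hq, rfl⟩
      exact hm q (hRS hq)
    · rintro _ ⟨q, hq, rfl⟩ _ ⟨r, hr, rfl⟩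
      simp only [MulEquiv.coe_toMonoidHom, MulAut.conj_apply]
      calc n * q * n⁻¹ * (n * r * n⁻¹) = n * (q * r) * n⁻¹ := by group
        _ = n * (r * q) * n⁻¹ := by rw [hcomm q hq r hr]
        _ = n * r * n⁻¹ * (n * q * n⁻¹) := by group
    · intro s hs
      have h1 : n⁻¹ * s * n ∈ Q ⊔ R := by rw [hsup]; exact hm' s hs
      have h2 := hpp ⟨_, hm' s hs⟩
      refine ⟨n * (p ⟨_, hm' s hs⟩ : G) * n⁻¹, (hmemA _).mpr ?_, n * (p' ⟨_, hm' s hs⟩ : G) * n⁻¹, (hmemB _).mpr ?_, ?_⟩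
      · have e : n⁻¹ * (n * (p ⟨_, hm' s hs⟩ : G) * n⁻¹) * n = (p ⟨_, hm' s hs⟩ : G) := by group
        rw [e]; exact (p _).2
      · have e : n⁻¹ * (n * (p' ⟨_, hm' s hs⟩ : G) * n⁻¹) * n = (p' ⟨_, hm' s hs⟩ : G) := by group
        rw [e]; exact (p' _).2
      · have h3 : n⁻¹ * s * n = (p ⟨_, hm' s hs⟩ : G) * (p' ⟨_, hm' s hs⟩ : G) := h2
        calc s = n * (n⁻¹ * s * n) * n⁻¹ := by group
          _ = n * ((p ⟨_, hm' s hs⟩ : G) * (p' ⟨_, hm' s hs⟩ : G)) * n⁻¹ := congrArg (fun w => n * w * n⁻¹) h3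
          _ = _ := by group
    · exact Subgroup.card_map_of_injective (MulAut.conj n).injective
    · rw [hxn]
      exact ⟨z, hzQ, rfl⟩
    · rw [hxn]
      intro h
      apply hz1
      have : n⁻¹ * (n * z * n⁻¹) * n = n⁻¹ * 1 * n := by rw [h]
      simpa [mul_assoc] using this
    · intro y hy hyy
      have h1 := (hmemA y).mp hy
      have h2 : (n⁻¹ * y * n) * (n⁻¹ * y * n) = 1 := by
        calc (n⁻¹ * y * n) * (n⁻¹ * y * n) = n⁻¹ * (y * y) * n := by group
          _ = 1 := by rw [hyy]; group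
      rcases hQinv _ h1 h2 with h | h
      · left
        have : n * (n⁻¹ * y * n) * n⁻¹ = n * 1 * n⁻¹ := by rw [h]
        simpa [mul_assoc] using this
      · right
        rw [hxn, ← h]; group
    · obtain ⟨a, ha, b, hb, hab⟩ := hQna
      refine ⟨_, ⟨a, ha, rfl⟩, _, ⟨b, hb, rfl⟩, ?_⟩
      intro h
      apply hab
      simp only [MulEquiv.coe_toMonoidHom, MulAut.conj_apply] at h
      have h1 : n * (a * b) * n⁻¹ = n * (b * a) * n⁻¹ := by
        calc n * (a * b) * n⁻¹ = n * a * n⁻¹ * (n * b * n⁻¹) := by group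
          _ = n * b * n⁻¹ * (n * a * n⁻¹) := h
          _ = _ := by group
      exact mul_left_cancel (mul_right_cancel h1)
    · intro h
      apply hxz
      apply Subtype.ext
      apply Subtype.ext
      rw [hzA]; exact h
  -- projection of v
  have hzAO : zA ∈ O := (hO zA).mpr ⟨1, one_mem _, by rw [hzA]; group⟩
  obtain ⟨φ, hφ⟩ : ∃ φ : ↥(center ↥(S : Subgroup G)) →* ↥Q, ∀ x, φ x = p (x : ↥(S : Subgroup G)) :=
    ⟨p.comp (center ↥(S : Subgroup G)).subtype, fun _ => rfl⟩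
  have hφv : (φ v : G) = z := by
    have h1 : ∏ x ∈ O.erase zA, x ∈ φ.ker := by
      apply Subgroup.prod_mem
      intro x hx
      rw [Finset.mem_erase] at hx
      rw [MonoidHom.mem_ker, hφ]
      exact Subtype.ext (hclaim x hx.2 hx.1)
    have h2 : v = zA * ∏ x ∈ O.erase zA, x := by
      rw [hv]
      exact (Finset.mul_prod_erase O (fun x => x) hzAO).symm
    rw [h2, map_mul, MonoidHom.mem_ker.mp h1, mul_one, hφ]
    have h3 := hpQ (zA : ↥(S : Subgroup G)) (by rw [hzA]; exact hzQ)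
    rw [h3, hzA]
  have hvne : ((v : ↥(S : Subgroup G)) : G) ≠ 1 := by
    intro h
    have h1 : v = 1 := by
      apply Subtype.ext
      apply Subtype.ext
      exact h
    rw [h1, map_one] at hφv
    exact hz1 hφv.symm
  have hvv' : ((v : ↥(S : Subgroup G)) : G) * ((v : ↥(S : Subgroup G)) : G) = 1 :=
    congrArg (fun w : ↥(center ↥(S : Subgroup G)) => ((w : ↥(S : Subgroup G)) : G)) hvv
  have hvord : orderOf ((v : ↥(S : Subgroup G)) : G) = 2 :=
    orderOf_eq_prime (by rw [pow_two]; exact hvv') hvne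
  have hvS : ((v : ↥(S : Subgroup G)) : G) ∈ (S : Subgroup G) := (v : ↥(S : Subgroup G)).2
  have hvc : ∀ s ∈ (S : Subgroup G), s * ((v : ↥(S : Subgroup G)) : G) = ((v : ↥(S : Subgroup G)) : G) * s :=
    hinvc _ hvS hvv'
  have hiso : ∀ g : G, g * ((v : ↥(S : Subgroup G)) : G) * g⁻¹ ∈ (S : Subgroup G) →
      g * ((v : ↥(S : Subgroup G)) : G) * g⁻¹ = v := by
    intro g hg
    have h1 : (g * ((v : ↥(S : Subgroup G)) : G) * g⁻¹) * (g * ((v : ↥(S : Subgroup G)) : G) * g⁻¹) = 1 := by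
      calc _ = g * (((v : ↥(S : Subgroup G)) : G) * ((v : ↥(S : Subgroup G)) : G)) * g⁻¹ := by group
        _ = 1 := by rw [hvv']; group
    obtain ⟨n, hn, hne⟩ := burnside_central S hvc (hinvc _ hg h1)
    rw [← hne]
    exact hvfix n hn
  obtain ⟨N, hNn, hNo, hN⟩ := hZ S _ hvord hvS hiso
  rcases hsimple.eq_bot_or_eq_top_of_normal N hNn with h | h
  · -- v central
    have hvcen : ((v : ↥(S : Subgroup G)) : G) ∈ center G := by
      rw [Subgroup.mem_center_iff]
      intro g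
      have h1 := hN g
      rw [h] at h1
      have h2 : ((v : ↥(S : Subgroup G)) : G) * g * ((v : ↥(S : Subgroup G)) : G)⁻¹ * g⁻¹ = 1 := h1
      have h3 : ((v : ↥(S : Subgroup G)) : G) * g * ((v : ↥(S : Subgroup G)) : G)⁻¹ = g := by
        rwa [mul_inv_eq_one] at h2
      have h4 : ((v : ↥(S : Subgroup G)) : G) * g = g * ((v : ↥(S : Subgroup G)) : G) := by
        rwa [mul_inv_eq_iff_eq_mul] at h3
      exact h4.symm
    rcases hsimple.eq_bot_or_eq_top_of_normal (center G) inferInstance with h5 | h5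
    · rw [h5] at hvcen
      exact hvne hvcen
    · obtain ⟨a, _, b, _, hab⟩ := hQna
      apply hab
      have ha : a ∈ center G := by rw [h5]; trivial
      exact (Subgroup.mem_center_iff.mp ha b).symm
  · rw [h, Subgroup.card_top] at hNo
    have h1 := orderOf_dvd_natCard ((v : ↥(S : Subgroup G)) : G)
    rw [hvord] at h1
    exact (Nat.not_even_iff_odd.mpr hNo) (even_iff_two_dvd.mpr h1)

theorem main_final {G : Type*} [Group G] [Finite G] (hZ : ZStarFor G)
    (S : Sylow 2 G) (Q R : Subgroup G) (hQR : Cfsg.IsInternalDirectProduct Q R (S : Subgroup G))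
    (n : ℕ) (hn : 1 ≤ n) (eQ : ↥Q ≃* QuaternionGroup (2 ^ n))
    (hR : ∀ r ∈ R, orderOf r = 2 → ∀ s ∈ R, r * s = s * r) :
    ¬ IsSimpleGroup G := by
  have hm : 2 ≤ 2 ^ n := by
    calc 2 = 2 ^ 1 := by norm_num
      _ ≤ 2 ^ n := Nat.pow_le_pow_right (by norm_num) hn
  have hm0 : 2 ^ n ≠ 0 := by omega
  obtain ⟨z₀, hz₀⟩ : ∃ z₀ : QuaternionGroup (2 ^ n), z₀ = QuaternionGroup.a ((2 ^ n : ℕ) : ZMod (2 * 2 ^ n)) := ⟨_, rfl⟩
  have hz₀1 : z₀ ≠ 1 := by
    rw [hz₀, QuaternionGroup.one_def, Ne, QuaternionGroup.a.injEq]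
    intro h1
    haveI : NeZero (2 * 2 ^ n) := ⟨by omega⟩
    have h2 : 2 * 2 ^ n ∣ 2 ^ n := (ZMod.natCast_eq_zero_iff _ _).mp h1
    have := Nat.le_of_dvd (Nat.pos_of_ne_zero hm0) h2
    omega
  have hz₀z₀ : z₀ * z₀ = 1 := by
    rw [hz₀, QuaternionGroup.a_mul_a, QuaternionGroup.one_def, QuaternionGroup.a.injEq, ← Nat.cast_add]
    have : 2 ^ n + 2 ^ n = 2 * 2 ^ n := by ring
    rw [this]
    exact ZMod.natCast_self _
  refine main_q hZ S hQR ((eQ.symm z₀ : ↥Q) : G) (eQ.symm z₀).2 ?_ ?_ ?_ ?_ ?_ hR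
  · intro h
    apply hz₀1
    have h1 : eQ.symm z₀ = 1 := Subtype.ext h
    simpa using h1
  · have : eQ.symm z₀ * eQ.symm z₀ = 1 := by
      rw [← map_mul, hz₀z₀, map_one]
    exact congrArg Subtype.val this
  · intro x hx hxx
    have h1 : (⟨x, hx⟩ : ↥Q) * ⟨x, hx⟩ = 1 := Subtype.ext hxx
    have h2 : eQ ⟨x, hx⟩ * eQ ⟨x, hx⟩ = 1 := by rw [← map_mul, h1, map_one]
    rcases qg_inv hm0 _ h2 with h | h
    · left
      have : (⟨x, hx⟩ : ↥Q) = 1 := by simpa using h
      exact congrArg Subtype.val this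
    · right
      have : (⟨x, hx⟩ : ↥Q) = eQ.symm z₀ := by
        rw [MulEquiv.eq_symm_apply, h, hz₀]
      exact congrArg Subtype.val this
  · intro x hx hc
    have h2 : ∀ y, eQ ⟨x, hx⟩ * y = y * eQ ⟨x, hx⟩ := by
      intro y
      have h3 : y = eQ (eQ.symm y) := by simp
      rw [h3, ← map_mul, ← map_mul]
      congr 1
      exact Subtype.ext (hc _ (eQ.symm y).2)
    rcases qg_cen hm _ h2 with h | h
    · left
      have : (⟨x, hx⟩ : ↥Q) = 1 := by simpa using h
      exact congrArg Subtype.val this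
    · right
      have : (⟨x, hx⟩ : ↥Q) = eQ.symm z₀ := by
        rw [MulEquiv.eq_symm_apply, h, hz₀]
      exact congrArg Subtype.val this
  · refine ⟨_, (eQ.symm (QuaternionGroup.a 1)).2, _, (eQ.symm (QuaternionGroup.xa 0)).2, ?_⟩
    intro h
    apply qg_na hm
    have h1 : eQ.symm (QuaternionGroup.a 1) * eQ.symm (QuaternionGroup.xa 0) = eQ.symm (QuaternionGroup.xa 0) * eQ.symm (QuaternionGroup.a 1) :=
      Subtype.ext h
    rw [← map_mul, ← map_mul] at h1
    exact eQ.symm.injective h1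


/-- Let G be a finite group whose Sylow 2-subgroup S is an internal direct product Q × R with Q generalized quaternion (of order at least 8) and R a subgroup all of whose involutions are central in R. Then G is not simple. In particular no finite simple group has a Sylow 2-subgroup that is a direct product of one or more generalized quaternion groups. -/
theorem result {G : Type*} [Group G] [Finite G]
    (S : Sylow 2 G) (Q R : Subgroup G) (hQR : Cfsg.IsInternalDirectProduct Q R (S : Subgroup G))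
    (n : ℕ) (hn : 1 ≤ n) (eQ : ↥Q ≃* QuaternionGroup (2 ^ n))
    (hR : ∀ r ∈ R, orderOf r = 2 → ∀ s ∈ R, r * s = s * r) :
    ¬ IsSimpleGroup G := by
  exact main_final (fun P u => Cfsg.Agent.S0215.result P u) S Q R hQR n hn eQ hR

end Cfsg.Agent.S3269
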