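import Cfsg.Statements.S3276
import Mathlib
import Cfsg.Agent.Lib.Invol.Basic

set_option autoImplicit false
open Cfsg

namespace Cfsg.Agent.S3276

open Cfsg.Agent.Lib.Invol in
theorem two_invols {G : Type*} [Group G] [Finite G] {x y' : G} (hx : x * x = 1) (hy : y' * y' = 1) (hnc : ¬ IsConj x y') :
    ∃ t : G, orderOf t = 2 ∧ Commute t x ∧ Commute y' t := by
  set c := x * y' with hc
  have hpos : 0 < orderOf c := orderOf_pos c
  have hxi : x⁻¹ = x := inv_eq_of_mul_eq_one_left hx
  have hyi : y'⁻¹ = y' := inv_eq_of_mul_eq_one_left hy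
  rcases Nat.even_or_odd' (orderOf c) with ⟨k, hk | hk⟩
  · -- even
    have hkpos : 0 < k := by omega
    have hc2 : c ^ k * c ^ k = 1 := by
      rw [← pow_add, ← two_mul, ← hk, pow_orderOf_eq_one]
    have hinv : (c ^ k)⁻¹ = c ^ k := inv_eq_of_mul_eq_one_left hc2
    have hne : c ^ k ≠ 1 := pow_ne_one_of_lt_orderOf (by omega) (by omega)
    refine ⟨c ^ k, orderOf_eq_two_of_mul_self hc2 hne, ?_, ?_⟩
    · have h1 : x * c * x⁻¹ = c⁻¹ := by
        rw [hxi, hc]
        exact conj_mul_eq_inv hx hy
      have h2 : x * c ^ k * x⁻¹ = (c ^ k)⁻¹ := by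
        rw [← conj_pow, h1, inv_pow]
      rw [hinv] at h2
      show c ^ k * x = x * c ^ k
      calc c ^ k * x = (x * c ^ k * x⁻¹) * x := by rw [h2]
        _ = x * c ^ k := by group
    · have h1 : y' * c * y'⁻¹ = c⁻¹ := by
        rw [hyi, hc, mul_inv_rev, hxi, hyi, mul_assoc, mul_assoc, hy, mul_one]
      have h2 : y' * c ^ k * y'⁻¹ = (c ^ k)⁻¹ := by
        rw [← conj_pow, h1, inv_pow]
      rw [hinv] at h2
      show y' * c ^ k = c ^ k * y'
      calc y' * c ^ k = (y' * c ^ k * y'⁻¹) * y' := by group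
        _ = c ^ k * y' := by rw [h2]
  · -- odd
    exfalso
    apply hnc
    rw [isConj_iff]
    refine ⟨c ^ (k : ℤ), ?_⟩
    have h1 := conj_by_zpow hx hy (k : ℤ)
    rw [h1]
    have h2 : c ^ (-(2 * (k : ℤ))) = c := by
      have h3 : c ^ ((2 * k + 1 : ℕ) : ℤ) = 1 := by
        rw [zpow_natCast, ← hk, pow_orderOf_eq_one]
      have h4 : -(2 * (k : ℤ)) = 1 - ((2 * k + 1 : ℕ) : ℤ) := by push_cast; ring
      rw [h4, zpow_sub, h3]; simp
    rw [h2, hc, ← mul_assoc, hx, one_mul]

theorem card_le_two {A : Type*} [Group A] [Finite A] {H : Subgroup A} (a : A) (h : ∀ e ∈ H, e = 1 ∨ e = a) :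
    Nat.card H ≤ 2 := by
  classical
  have h1 : (H : Set A) ⊆ (({1, a} : Finset A) : Set A) := by
    intro e he
    simpa using h e he
  have h2 := Set.ncard_le_ncard h1 (Finset.finite_toSet _)
  rw [Set.ncard_coe_finset] at h2
  have h3 : Nat.card H = (H : Set A).ncard := Nat.card_coe_set_eq _
  rw [h3]
  exact h2.trans Finset.card_le_two


/-- Let x and y be commuting, non-conjugate involutions of a finite group G, and suppose that for every involution u commuting with x, each conjugate of y that commutes with u also commutes with y. Then the normal closure of y is a proper, normal, elementary abelian 2-subgroup of G; and if y is the only involution of that normal closure commuting with x, it has order at most 4. -/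
theorem result {G : Type*} [Group G] [Finite G] (x y : G) (hx : orderOf x = 2) (hy : orderOf y = 2)
    (hxy : Commute x y) (hnc : ¬ IsConj x y)
    (hstar : ∀ u : G, orderOf u = 2 → Commute u x → ∀ g : G, Commute (g * y * g⁻¹) u → Commute (g * y * g⁻¹) y) :
    Subgroup.normalClosure ({y} : Set G) ≠ ⊤ ∧ Cfsg.IsElementaryAbelian 2 (Subgroup.normalClosure ({y} : Set G)) ∧
      ((∀ u ∈ Subgroup.normalClosure ({y} : Set G), orderOf u = 2 → Commute u x → u = y) →
        Nat.card ↥(Subgroup.normalClosure ({y} : Set G)) ≤ 4) := by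
  classical
  have hx1 : x * x = 1 := Cfsg.Agent.Lib.Invol.mul_self_of_orderOf_eq_two hx
  have hy1 : y * y = 1 := Cfsg.Agent.Lib.Invol.mul_self_of_orderOf_eq_two hy
  -- all conjugates commute with y
  have hcy : ∀ g : G, Commute (g * y * g⁻¹) y := by
    intro g
    have hy' : (g * y * g⁻¹) * (g * y * g⁻¹) = 1 := by
      have : (g * y * g⁻¹) * (g * y * g⁻¹) = g * (y * y) * g⁻¹ := by group
      rw [this, hy1]; simp
    have hnc' : ¬ IsConj x (g * y * g⁻¹) := by
      intro h
      apply hnc
      have h2 : IsConj (g * y * g⁻¹) y := by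
        rw [isConj_comm, isConj_iff]
        exact ⟨g, rfl⟩
      exact h.trans h2
    obtain ⟨t, ht, htx, hyt⟩ := two_invols hx1 hy' hnc'
    exact hstar t ht htx g hyt
  have hcc : ∀ g h : G, (g * y * g⁻¹) * (h * y * h⁻¹) = (h * y * h⁻¹) * (g * y * g⁻¹) := by
    intro g h
    have := (hcy (h⁻¹ * g)).eq
    have e1 : (g * y * g⁻¹) * (h * y * h⁻¹) = h * (((h⁻¹ * g) * y * (h⁻¹ * g)⁻¹) * y) * h⁻¹ := by group
    have e2 : (h * y * h⁻¹) * (g * y * g⁻¹) = h * (y * ((h⁻¹ * g) * y * (h⁻¹ * g)⁻¹)) * h⁻¹ := by group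
    rw [e1, e2, this]
  set D : Set G := Group.conjugatesOfSet ({y} : Set G) with hD
  have hDmem : ∀ a ∈ D, ∃ g : G, a = g * y * g⁻¹ := by
    intro a ha
    rw [hD, Group.mem_conjugatesOfSet_iff] at ha
    obtain ⟨b, hb, hab⟩ := ha
    rw [Set.mem_singleton_iff] at hb
    subst hb
    obtain ⟨c, hc⟩ := isConj_iff.mp hab
    exact ⟨c, hc.symm⟩
  have hDcomm : ∀ a ∈ D, ∀ b ∈ D, a * b = b * a := by
    intro a ha b hb
    obtain ⟨g, rfl⟩ := hDmem a ha
    obtain ⟨h, rfl⟩ := hDmem b hb
    exact hcc g h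
  set E : Subgroup G := Subgroup.normalClosure ({y} : Set G) with hE
  have hEcl : E = Subgroup.closure D := rfl
  have hE1 : E ≤ Subgroup.centralizer D := by
    rw [hEcl, Subgroup.closure_le]
    intro a ha
    rw [SetLike.mem_coe, Subgroup.mem_centralizer_iff]
    intro b hb
    exact hDcomm b hb a ha
  have hE2 : ∀ a ∈ E, ∀ b ∈ E, a * b = b * a := by
    intro a ha b hb
    have h3 : E ≤ Subgroup.centralizer (E : Set G) := by
      conv_lhs => rw [hEcl]
      rw [Subgroup.closure_le]
      intro c hc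
      rw [SetLike.mem_coe, Subgroup.mem_centralizer_iff]
      intro d hd
      exact (Subgroup.mem_centralizer_iff.mp (hE1 hd) c hc).symm
    exact (Subgroup.mem_centralizer_iff.mp (h3 hb) a ha).symm ▸ rfl
  have hE3 : ∀ a ∈ E, a * a = 1 := by
    intro a ha
    rw [hEcl] at ha
    induction ha using Subgroup.closure_induction with
    | mem a ha =>
      obtain ⟨g, rfl⟩ := hDmem a ha
      have : (g * y * g⁻¹) * (g * y * g⁻¹) = g * (y * y) * g⁻¹ := by group
      rw [this, hy1]; simp
    | one => simp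
    | mul a b ha hb iha ihb =>
      have hc := hE2 a ha b hb
      calc a * b * (a * b) = a * (b * a) * b := by group
        _ = a * (a * b) * b := by rw [hc]
        _ = (a * a) * (b * b) := by group
        _ = 1 := by rw [iha, ihb, one_mul]
    | inv a ha iha =>
      rw [← mul_inv_rev, iha, inv_one]
  have hyE : y ∈ E := Subgroup.subset_normalClosure (by simp)
  refine ⟨?_, ⟨⟨⟨?_⟩⟩, ?_⟩, ?_⟩
  · intro htop
    have hcentral : ∀ g : G, g * y = y * g := by
      intro g
      apply hE2 g (by rw [htop]; trivial) y hyE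
    have hxz : x ∈ Subgroup.zpowers y := by
      have h4 : E ≤ Subgroup.zpowers y := by
        rw [hEcl, Subgroup.closure_le]
        intro a ha
        obtain ⟨g, rfl⟩ := hDmem a ha
        rw [hcentral g]
        simpa using Subgroup.mem_zpowers y
      exact h4 (by rw [htop]; trivial)
    obtain ⟨k, hk⟩ := Subgroup.mem_zpowers_iff.mp hxz
    rcases Int.emod_two_eq_zero_or_one k with h | h
    · have h1 : y ^ k = 1 := by
        obtain ⟨m, rfl⟩ : (2 : ℤ) ∣ k := Int.dvd_of_emod_eq_zero h
        rw [zpow_mul, zpow_two, hy1, one_zpow]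
      rw [h1] at hk
      rw [← hk] at hx
      simp at hx
    · have h1 : y ^ k = y := by
        have hk' : k = 2 * (k / 2) + 1 := by omega
        rw [hk', zpow_add, zpow_mul, zpow_two, hy1, one_zpow]; simp
      rw [h1] at hk
      exact hnc (hk ▸ IsConj.refl _)
  · rintro ⟨a, ha⟩ ⟨b, hb⟩
    exact Subtype.ext (hE2 a ha b hb)
  · intro a ha
    rw [pow_two]; exact hE3 a ha
  · intro honly
    haveI hEn : E.Normal := Subgroup.normalClosure_normal
    -- the map e ↦ e · (x e x⁻¹)
    let φ : E →* E :=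
      { toFun := fun e => ⟨e * (x * e * x⁻¹), E.mul_mem e.2 (hEn.conj_mem _ e.2 x)⟩
        map_one' := by ext; simp
        map_mul' := by
          rintro ⟨a, ha⟩ ⟨b, hb⟩
          apply Subtype.ext
          show a * b * (x * (a * b) * x⁻¹) = a * (x * a * x⁻¹) * (b * (x * b * x⁻¹))
          have hcomm := hE2 b hb (x * a * x⁻¹) (hEn.conj_mem _ ha x)
          calc a * b * (x * (a * b) * x⁻¹) = a * (b * (x * a * x⁻¹)) * (x * b * x⁻¹) := by group
            _ = a * ((x * a * x⁻¹) * b) * (x * b * x⁻¹) := by rw [hcomm]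
            _ = a * (x * a * x⁻¹) * (b * (x * b * x⁻¹)) := by group }
    have hfix : ∀ e : E, Commute (e : G) x → e = 1 ∨ e = ⟨y, hyE⟩ := by
      intro e he
      by_cases h1 : e = 1
      · exact Or.inl h1
      · right
        apply Subtype.ext
        apply honly e e.2 _ he
        apply Cfsg.Agent.Lib.Invol.orderOf_eq_two_of_mul_self (hE3 e e.2)
        intro h2
        exact h1 (Subtype.ext h2)
    have hker : Nat.card φ.ker ≤ 2 := by
      apply card_le_two ⟨y, hyE⟩
      intro e he
      apply hfix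
      rw [MonoidHom.mem_ker] at he
      have h1 : (e : G) * (x * e * x⁻¹) = 1 := congrArg Subtype.val he
      have h2 : x * (e : G) * x⁻¹ = e := by
        have h3 := hE3 e e.2
        calc x * (e : G) * x⁻¹ = (e * e) * (x * e * x⁻¹) := by rw [h3, one_mul]
          _ = e * (e * (x * e * x⁻¹)) := by group
          _ = e := by rw [h1, mul_one]
      show (e : G) * x = x * e
      rw [← h2]
      calc (x * (e : G) * x⁻¹) * x = x * e := by group
        _ = x * (x * e * x⁻¹) := by
          rw [h2]
    have hrange : Nat.card φ.range ≤ 2 := by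
      apply card_le_two ⟨y, hyE⟩
      rintro _ ⟨e, rfl⟩
      apply hfix
      show Commute ((e : G) * (x * e * x⁻¹)) x
      have hxi : x⁻¹ = x := inv_eq_of_mul_eq_one_left hx1
      have h5 := hE2 e e.2 (x * e * x⁻¹) (hEn.conj_mem _ e.2 x)
      show (e : G) * (x * e * x⁻¹) * x = x * ((e : G) * (x * e * x⁻¹))
      rw [hxi]
      rw [hxi] at h5
      calc (e : G) * (x * e * x) * x = e * x * e * (x * x) := by group
        _ = e * x * e := by rw [hx1, mul_one]
        _ = (x * x) * e * x * e := by rw [hx1, one_mul]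
        _ = x * ((x * e * x) * e) := by group
        _ = x * ((e : G) * (x * e * x)) := by rw [h5]
    have h6 := φ.ker.card_mul_index
    rw [Subgroup.index_ker] at h6
    rw [← h6]
    exact Nat.mul_le_mul hker hrange

end Cfsg.Agent.S3276
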