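import Cfsg.Statements.S3279
import Mathlib
import Cfsg.Agent.Lib.Components.InvFour
import Cfsg.Agent.S3277

set_option autoImplicit false
open Cfsg

namespace Cfsg.Agent.S3279

open Subgroup Cfsg.Agent.Lib.Components Cfsg.Agent.S3277
open scoped Pointwise

variable {G : Type*} [Group G]

theorem inv_three [Finite G] {x : G}
    (h3 : Nat.card {u : ↥(centralizer ({x} : Set G)) // orderOf u = 2} ≤ 3) {y w : G}
    (hx : orderOf x = 2) (hyC : y * x = x * y) (hy : orderOf y = 2) (hyx : y ≠ x) (hwC : w * x = x * w)
    (hw : orderOf w = 2) : w = x ∨ w = y ∨ w = x * y := by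
  classical
  by_contra hcon
  push Not at hcon
  obtain ⟨h1, h2, h3'⟩ := hcon
  have hx2 : x ^ 2 = 1 := by rw [← hx]; exact pow_orderOf_eq_one _
  have hy2 : y ^ 2 = 1 := by rw [← hy]; exact pow_orderOf_eq_one _
  have hxy2 : (x * y) ^ 2 = 1 := by
    have hc : Commute x y := hyC.symm
    rw [hc.mul_pow, hx2, hy2, one_mul]
  have hxy1 : x * y ≠ 1 := by
    intro h
    apply hyx
    have hxi : x⁻¹ = x := inv_eq_of_mul_eq_one_left (by rw [← sq, hx2])
    have := eq_inv_of_mul_eq_one_right h
    rw [this, hxi]
  have hy1 : y ≠ 1 := by rintro rfl; simp at hy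
  have hx1 : x ≠ 1 := by rintro rfl; simp at hx
  have hxyord : orderOf (x * y) = 2 := ord2 hxy2 hxy1
  have hs : ({x, y, x * y, w} : Finset G).card = 4 := by
    rw [Finset.card_insert_of_notMem, Finset.card_insert_of_notMem, Finset.card_insert_of_notMem,
      Finset.card_singleton]
    · simp only [Finset.mem_singleton]; exact fun h => h3' h.symm
    · simp only [Finset.mem_insert, Finset.mem_singleton, not_or]
      exact ⟨fun h => by
        apply hx1
        have : x * y = 1 * y := by rw [one_mul]; exact h.symm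
        exact mul_right_cancel this, fun h => h2 h.symm⟩
    · simp only [Finset.mem_insert, Finset.mem_singleton, not_or]
      exact ⟨hyx.symm, fun h => by
        apply hy1
        have : x * y = x * 1 := by rw [mul_one]; exact h.symm
        exact mul_left_cancel this, fun h => h1 h.symm⟩
  have hC : ∀ a : G, a * x = x * a → a ∈ centralizer ({x} : Set G) := fun a ha =>
    mem_centralizer_singleton_iff.mpr ha
  have hinj : Function.Injective (fun g : {g : G // g * x = x * g ∧ orderOf g = 2} =>
      (⟨⟨g.1, hC g.1 g.2.1⟩, by rw [Subgroup.orderOf_mk]; exact g.2.2⟩ :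
        {u : ↥(centralizer ({x} : Set G)) // orderOf u = 2})) := by
    intro a b hab
    have := congrArg (fun u => ((u.1 : ↥(centralizer ({x} : Set G))) : G)) hab
    exact Subtype.ext this
  have hcardS := Nat.card_le_card_of_injective _ hinj
  have hcs : Nat.card {g : G // g * x = x * g ∧ orderOf g = 2} =
      ({g : G | g * x = x * g ∧ orderOf g = 2} : Set G).ncard := Nat.card_coe_set_eq _
  rw [hcs] at hcardS
  have hsub : (({x, y, x * y, w} : Finset G) : Set G) ⊆ {g : G | g * x = x * g ∧ orderOf g = 2} := by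
    intro a ha
    simp only [Finset.coe_insert, Finset.coe_singleton, Set.mem_insert_iff, Set.mem_singleton_iff] at ha
    rcases ha with rfl | rfl | rfl | rfl
    · exact ⟨rfl, hx⟩
    · exact ⟨hyC, hy⟩
    · refine ⟨?_, hxyord⟩
      rw [mul_assoc, hyC, ← mul_assoc]
    · exact ⟨hwC, hw⟩
  have h5 := Set.ncard_le_ncard hsub (Set.toFinite _)
  rw [Set.ncard_coe_finset, hs] at h5
  omega

theorem pgroup_of_comm [Finite G] {a b : G} (ha : orderOf a = 2) (hb : orderOf b = 2) (hc : a * b = b * a) :
    IsPGroup 2 (zpowers a ⊔ zpowers b : Subgroup G) := by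
  have h1 : IsPGroup 2 (zpowers a) := IsPGroup.of_card (n := 1) (by rw [Nat.card_zpowers, ha, pow_one])
  have h2 : IsPGroup 2 (zpowers b) := IsPGroup.of_card (n := 1) (by rw [Nat.card_zpowers, hb, pow_one])
  refine IsPGroup.to_sup_of_normal_left' h1 h2 ?_
  rw [zpowers_le]
  rw [mem_normalizer_iff]
  intro h
  constructor
  · intro hh
    obtain ⟨k, rfl⟩ := Subgroup.mem_zpowers_iff.mp hh
    have hcomm : Commute b a := hc.symm
    have : b * a ^ k * b⁻¹ = a ^ k := by
      rw [(hcomm.zpow_right k).eq, mul_inv_cancel_right]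
    rw [this]
    exact hh
  · intro hh
    obtain ⟨k, hk⟩ := Subgroup.mem_zpowers_iff.mp hh
    have hcomm : Commute b a := hc.symm
    have : h = b⁻¹ * (a ^ k) * b := by rw [hk]; group
    rw [this]
    have h3 : b⁻¹ * a ^ k * b = a ^ k := by
      rw [mul_assoc, ((hcomm.zpow_right k).eq).symm, inv_mul_cancel_left]
    rw [h3]
    exact zpow_mem (mem_zpowers a) k

theorem no_second_inv [IsSimpleGroup G] (hc : ∀ a b : G, a * b = b * a) {x y : G} (hx : orderOf x = 2)
    (hy : orderOf y = 2) : x = y := by
  have hn : (zpowers x).Normal := ⟨fun n hn g => by rw [hc g n, mul_inv_cancel_right]; exact hn⟩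
  have hy1 : y ≠ 1 := by rintro rfl; simp at hy
  have hx1 : x ≠ 1 := by rintro rfl; simp at hx
  rcases IsSimpleGroup.eq_bot_or_eq_top_of_normal _ hn with h | h
  · exact absurd (Subgroup.zpowers_eq_bot.mp h) hx1
  · have hym : y ∈ zpowers x := by rw [h]; trivial
    obtain ⟨k, hk⟩ := Subgroup.mem_zpowers_iff.mp hym
    rw [← zpow_mod_orderOf, hx] at hk
    have h4 : k % ((2 : ℕ) : ℤ) = 0 ∨ k % ((2 : ℕ) : ℤ) = 1 := by omega
    rcases h4 with h | h
    · rw [h, zpow_zero] at hk; exact absurd hk.symm hy1
    · rw [h, zpow_one] at hk; exact hk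

/-- If all conjugates of `z` commute with `z` in a simple group then `G` is commutative. -/
theorem comm_of_conj_comm [IsSimpleGroup G] {z : G} (hz : z ^ 2 = 1) (hz1 : z ≠ 1)
    (h : ∀ g : G, Commute (g * z * g⁻¹) z) : ∀ a b : G, a * b = b * a := by
  have hE := isElementaryAbelian_normalClosure hz h
  have hzm : z ∈ normalClosure ({z} : Set G) := subset_normalClosure rfl
  have hn : (normalClosure ({z} : Set G)).Normal := normalClosure_normal
  rcases IsSimpleGroup.eq_bot_or_eq_top_of_normal _ hn with h1 | h1
  · rw [h1] at hzm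
    exact absurd (Subgroup.mem_bot.mp hzm) hz1
  · intro a b
    have ha : a ∈ normalClosure ({z} : Set G) := by rw [h1]; trivial
    have hb : b ∈ normalClosure ({z} : Set G) := by rw [h1]; trivial
    exact comm_of_exp2 hE.2 ha hb


theorem mem_of_cube {C : Subgroup G} {s : G} {k : ℕ} (hs : s ^ (2 ^ k) = 1) (h : s ^ 3 ∈ C) [Finite G] : s ∈ C := by
  by_cases h1 : s = 1
  · rw [h1]; exact C.one_mem
  have hord : orderOf s ∣ 2 ^ k := orderOf_dvd_of_pow_eq_one hs
  obtain ⟨j, -, hj⟩ := (Nat.dvd_prime_pow Nat.prime_two).1 hord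
  have hcop : Nat.Coprime 3 (orderOf s) := by
    rw [hj]; exact Nat.Coprime.pow_right _ (by norm_num)
  have h1lt : 1 < orderOf s := by
    have h0 : 0 < orderOf s := by rw [hj]; positivity
    have h2 : orderOf s ≠ 1 := fun h => h1 (orderOf_eq_one_iff.mp h)
    omega
  obtain ⟨m, -, hm⟩ := Nat.exists_mul_mod_eq_one_of_coprime hcop h1lt
  have h2 : s = (s ^ 3) ^ m := by
    rw [← pow_mul, ← pow_mod_orderOf, hm, pow_one]
  rw [h2]
  exact pow_mem h m

theorem exists_normalizing {S R : Subgroup G} [Finite G] (hp : IsPGroup 2 S) (hlt : R < S) :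
    ∃ g ∈ S, g ∉ R ∧ g ∈ normalizer (R : Set G) := by
  haveI : Group.IsNilpotent S := hp.isNilpotent
  have hcond := Group.normalizerCondition_of_isNilpotent (G := S)
  have hlt' : R.subgroupOf S < ⊤ := by
    rw [lt_top_iff_ne_top]
    intro htop
    apply hlt.not_ge
    intro t ht
    have : (⟨t, ht⟩ : S) ∈ R.subgroupOf S := by rw [htop]; trivial
    exact this
  obtain ⟨g, hgN, hgR⟩ := SetLike.exists_of_lt (hcond _ hlt')
  refine ⟨g, g.2, hgR, ?_⟩
  rw [mem_normalizer_iff]
  intro c
  constructor
  · intro hc
    exact (mem_normalizer_iff.mp hgN ⟨c, hlt.le hc⟩).1 hc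
  · intro hc
    have h0 : c ∈ S := by
      have : c = (g : G)⁻¹ * ((g : G) * c * (g : G)⁻¹) * (g : G) := by group
      rw [this]
      exact S.mul_mem (S.mul_mem (S.inv_mem g.2) (hlt.le hc)) g.2
    exact (mem_normalizer_iff.mp hgN ⟨c, h0⟩).2 hc

theorem two_central [Finite G] [IsSimpleGroup G] (x : G) (hx : orderOf x = 2)
    (h3 : Nat.card {u : ↥(centralizer ({x} : Set G)) // orderOf u = 2} ≤ 3) :
    ∃ S : Sylow 2 G, (S : Subgroup G) ≤ centralizer ({x} : Set G) := by
  classical
  haveI : Fact (Nat.Prime 2) := ⟨Nat.prime_two⟩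
  by_contra hcon
  push Not at hcon
  have hxC : ∀ a : G, a ∈ centralizer ({x} : Set G) ↔ a * x = x * a := fun a => mem_centralizer_singleton_iff
  have hx2 : x ^ 2 = 1 := by rw [← hx]; exact pow_orderOf_eq_one _
  have hxi : x⁻¹ = x := inv_eq_of_mul_eq_one_left (by rw [← sq, hx2])
  obtain ⟨R, ⟨hRC, hRp⟩, hRmax⟩ := Set.exists_max_image
    {Q : Subgroup G | Q ≤ centralizer ({x} : Set G) ∧ IsPGroup 2 Q} (fun Q => Nat.card Q) (Set.toFinite _)
    ⟨⊥, bot_le, IsPGroup.of_bot⟩
  have hRmax' : ∀ Q : Subgroup G, Q ≤ centralizer ({x} : Set G) → IsPGroup 2 Q → Nat.card Q ≤ Nat.card R :=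
    fun Q h1 h2 => hRmax Q ⟨h1, h2⟩
  have hxp : IsPGroup 2 (zpowers x) := IsPGroup.of_card (n := 1) (by rw [Nat.card_zpowers, hx, pow_one])
  have hxN : x ∈ normalizer (R : Set G) := by
    rw [mem_normalizer_iff]
    intro c
    constructor
    · intro hc
      have : x * c * x⁻¹ = c := by
        rw [← (hxC c).1 (hRC hc), mul_inv_cancel_right]
      rwa [this]
    · intro hc
      have hd := (hxC _).1 (hRC hc)
      have : c = x * c * x⁻¹ := by
        calc c = x⁻¹ * (x * c * x⁻¹ * x) := by group
          _ = x⁻¹ * (x * (x * c * x⁻¹)) := by rw [hd]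
          _ = x * c * x⁻¹ := by group
      rw [this]; exact hc
  have hxR : x ∈ R := by
    have hsup : IsPGroup 2 (R ⊔ zpowers x : Subgroup G) :=
      IsPGroup.to_sup_of_normal_left' hRp hxp (by rw [zpowers_le]; exact hxN)
    have hle : R ⊔ zpowers x ≤ centralizer ({x} : Set G) :=
      sup_le hRC (by rw [zpowers_le]; exact (hxC x).2 rfl)
    have heq := Subgroup.eq_of_le_of_card_ge (le_sup_left : R ≤ R ⊔ zpowers x) (hRmax' _ hle hsup)
    rw [heq]
    exact (le_sup_right : zpowers x ≤ R ⊔ zpowers x) (mem_zpowers x)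
  obtain ⟨S, hRS⟩ := hRp.exists_le_sylow
  have hSC := hcon S
  have hRinf : R = (S : Subgroup G) ⊓ centralizer ({x} : Set G) :=
    Subgroup.eq_of_le_of_card_ge (le_inf hRS hRC)
      (hRmax' _ inf_le_right (S.isPGroup'.to_le inf_le_left))
  have hlt : R < (S : Subgroup G) := by
    refine lt_of_le_of_ne hRS ?_
    intro he
    exact hSC (he ▸ hRC)
  obtain ⟨g, hgS, hgR, hgN⟩ := exists_normalizing S.isPGroup' hlt
  have hgC : g ∉ centralizer ({x} : Set G) := by
    intro h
    apply hgR
    rw [hRinf]
    exact ⟨hgS, h⟩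
  have hN : ∀ r ∈ R, g * r * g⁻¹ ∈ R := fun r hr => (mem_normalizer_iff.mp hgN r).1 hr
  obtain ⟨y, hy⟩ : ∃ y, y = g * x * g⁻¹ := ⟨_, rfl⟩
  have hyR : y ∈ R := by rw [hy]; exact hN x hxR
  have hyc : y * x = x * y := (hxC y).1 (hRC hyR)
  have hord : ∀ (a : G) (c : G), orderOf a = 2 → orderOf (c * a * c⁻¹) = 2 := by
    intro a c ha
    have ha2 : a ^ 2 = 1 := by rw [← ha]; exact pow_orderOf_eq_one _
    refine ord2 (by rw [conj_pow, ha2]; group) ?_
    intro h
    have : a = 1 := by
      have e : a = c⁻¹ * (c * a * c⁻¹) * c := by group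
      rw [e, h]; group
    rw [this] at ha; simp at ha
  have hyord : orderOf y = 2 := by rw [hy]; exact hord x g hx
  have hyx : y ≠ x := by
    intro h
    apply hgC
    rw [hxC]
    have : g * x * g⁻¹ = x := by rw [← hy]; exact h
    calc g * x = g * x * g⁻¹ * g := by group
      _ = x * g := by rw [this]
  have hJ : ∀ w : G, w * x = x * w → orderOf w = 2 → w = x ∨ w = y ∨ w = x * y :=
    fun w h1 h2 => inv_three h3 hx hyc hyord hyx h1 h2
  obtain ⟨z, hz⟩ : ∃ z, z = x * y := ⟨_, rfl⟩
  rw [← hz] at hJ
  have hy2 : y ^ 2 = 1 := by rw [← hyord]; exact pow_orderOf_eq_one _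
  have hyy : y * y = 1 := by rw [← sq, hy2]
  have hxx : x * x = 1 := by rw [← sq, hx2]
  have hzc : z * x = x * z := by rw [hz, mul_assoc, hyc, ← mul_assoc]
  have hz2 : z ^ 2 = 1 := by
    rw [hz, (show Commute x y from hyc.symm).mul_pow, hx2, hy2, one_mul]
  have hz1 : z ≠ 1 := by
    rw [hz]
    intro h
    apply hyx
    have := eq_inv_of_mul_eq_one_right h
    rw [this, hxi]
  have hzord : orderOf z = 2 := ord2 hz2 hz1
  have hzx : z ≠ x := by
    intro h
    rw [hz] at h
    have hy1 : y ≠ 1 := by rintro rfl; simp at hyord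
    apply hy1
    have : x * y = x * 1 := by rw [mul_one]; exact h
    exact mul_left_cancel this
  have hzy : z ≠ y := by
    intro h
    rw [hz] at h
    have hx1 : x ≠ 1 := by rintro rfl; simp at hx
    apply hx1
    have : x * y = 1 * y := by rw [one_mul]; exact h
    exact mul_right_cancel this
  obtain ⟨kg, hkg⟩ := S.isPGroup' ⟨g, hgS⟩
  have hkg' : g ^ (2 ^ kg) = 1 := by
    have := congrArg Subtype.val hkg
    simpa using this
  have hgy : g * y * g⁻¹ = x := by
    have h1 : (g * y * g⁻¹) * x = x * (g * y * g⁻¹) := (hxC _).1 (hRC (hN y hyR))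
    rcases hJ _ h1 (hord y g hyord) with h | h | h
    · exact h
    · exfalso; apply hyx
      have : g * y * g⁻¹ = g * x * g⁻¹ := by rw [h, ← hy]
      exact mul_left_cancel (mul_right_cancel this)
    · exfalso
      have e1 : g * z * g⁻¹ = x := by
        have e2 : g * z * g⁻¹ = (g * x * g⁻¹) * (g * y * g⁻¹) := by rw [hz]; group
        rw [e2, ← hy, h, hz]
        calc y * (x * y) = y * (y * x) := by rw [hyc]
          _ = (y * y) * x := by group
          _ = x := by rw [hyy, one_mul]
      have hg3 : g ^ 3 ∈ centralizer ({x} : Set G) := by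
        rw [hxC]
        have e3 : g ^ 3 * x = g * (g * (g * x * g⁻¹) * g⁻¹) * g⁻¹ * g ^ 3 := by
          simp only [pow_succ, pow_zero, one_mul]; group
        rw [e3, ← hy, h, e1]
      exact hgC (mem_of_cube hkg' hg3)
  have hgz : g * z * g⁻¹ = z := by
    have e2 : g * z * g⁻¹ = (g * x * g⁻¹) * (g * y * g⁻¹) := by rw [hz]; group
    rw [e2, ← hy, hgy, hz, hyc]
  have hRz : R ≤ centralizer ({z} : Set G) := by
    intro r hr
    rw [mem_centralizer_singleton_iff]
    have hrx : r * x = x * r := (hxC r).1 (hRC hr)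
    have hrxc : r * x * r⁻¹ = x := by rw [hrx, mul_inv_cancel_right]
    have hry : r * y * r⁻¹ ∈ R := R.mul_mem (R.mul_mem hr hyR) (R.inv_mem hr)
    have h1 : (r * y * r⁻¹) * x = x * (r * y * r⁻¹) := (hxC _).1 (hRC hry)
    have hrzc : r * z * r⁻¹ = x * (r * y * r⁻¹) := by
      rw [hz]
      calc r * (x * y) * r⁻¹ = (r * x * r⁻¹) * (r * y * r⁻¹) := by group
        _ = x * (r * y * r⁻¹) := by rw [hrxc]
    rcases hJ _ h1 (hord y r hyord) with h | h | h
    · exfalso; apply hyx
      have e : y = r⁻¹ * (r * y * r⁻¹) * r := by group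
      rw [e, h]
      calc r⁻¹ * x * r = r⁻¹ * (x * r) := by group
        _ = r⁻¹ * (r * x) := by rw [hrx]
        _ = x := by group
    · rw [h] at hrzc
      rw [← hz] at hrzc
      calc r * z = r * z * r⁻¹ * r := by group
        _ = z * r := by rw [hrzc]
    · exfalso
      have hrS : r ∈ (S : Subgroup G) := hRS hr
      have hsS : r * g ∈ (S : Subgroup G) := (S : Subgroup G).mul_mem hrS hgS
      obtain ⟨k, hk⟩ := S.isPGroup' ⟨r * g, hsS⟩
      have hk' : (r * g) ^ (2 ^ k) = 1 := by
        have := congrArg Subtype.val hk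
        simpa using this
      have hrzc2 : r * z * r⁻¹ = y := by
        rw [hrzc, h, hz]
        calc x * (x * y) = (x * x) * y := by group
          _ = y := by rw [hxx, one_mul]
      have hs3 : (r * g) ^ 3 ∈ centralizer ({x} : Set G) := by
        rw [hxC]
        have e3 : (r * g) ^ 3 * x
            = (r * g) * ((r * g) * ((r * g) * x * (r * g)⁻¹) * (r * g)⁻¹) * (r * g)⁻¹ * (r * g) ^ 3 := by
          simp only [pow_succ, pow_zero, one_mul]; group
        have s1 : (r * g) * x * (r * g)⁻¹ = z := by
          calc (r * g) * x * (r * g)⁻¹ = r * (g * x * g⁻¹) * r⁻¹ := by group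
            _ = z := by rw [← hy, h]
        have s2 : (r * g) * z * (r * g)⁻¹ = y := by
          calc (r * g) * z * (r * g)⁻¹ = r * (g * z * g⁻¹) * r⁻¹ := by group
            _ = y := by rw [hgz, hrzc2]
        have s3 : (r * g) * y * (r * g)⁻¹ = x := by
          calc (r * g) * y * (r * g)⁻¹ = r * (g * y * g⁻¹) * r⁻¹ := by group
            _ = x := by rw [hgy, hrxc]
        rw [e3, s1, s2, s3]
      have hsC := mem_of_cube hk' hs3
      have hsx := (hxC _).1 hsC
      have s1 : (r * g) * x * (r * g)⁻¹ = z := by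
        calc (r * g) * x * (r * g)⁻¹ = r * (g * x * g⁻¹) * r⁻¹ := by group
          _ = z := by rw [← hy, h]
      apply hzx
      rw [← s1, hsx, mul_inv_cancel_right]
  have hgzC : g ∈ centralizer ({z} : Set G) := by
    rw [mem_centralizer_singleton_iff]
    calc g * z = g * z * g⁻¹ * g := by group
      _ = z * g := by rw [hgz]
  have hgzp : IsPGroup 2 (zpowers g) := by
    have hord2 : orderOf g ∣ 2 ^ kg := orderOf_dvd_of_pow_eq_one hkg'
    obtain ⟨j, -, hj⟩ := (Nat.dvd_prime_pow Nat.prime_two).1 hord2
    exact IsPGroup.of_card (n := j) (by rw [Nat.card_zpowers, hj])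
  have hzconj : ¬ IsConj x z := by
    intro hc
    obtain ⟨h, hh⟩ := isConj_iff.mp hc
    have hsup : IsPGroup 2 (R ⊔ zpowers g : Subgroup G) :=
      IsPGroup.to_sup_of_normal_left' hRp hgzp (by rw [zpowers_le]; exact hgN)
    have hle : R ⊔ zpowers g ≤ centralizer ({z} : Set G) :=
      sup_le hRz (by rw [zpowers_le]; exact hgzC)
    have hmapC : (R ⊔ zpowers g).map (MulAut.conj h⁻¹).toMonoidHom ≤ centralizer ({x} : Set G) := by
      rintro _ ⟨n, hn, rfl⟩
      rw [hxC]
      have hnz := mem_centralizer_singleton_iff.mp (hle hn)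
      simp only [MulEquiv.coe_toMonoidHom, MulAut.conj_apply]
      rw [← hh] at hnz
      calc h⁻¹ * n * h⁻¹⁻¹ * x = h⁻¹ * (n * (h * x * h⁻¹)) * h := by group
        _ = h⁻¹ * (h * x * h⁻¹ * n) * h := by rw [hnz]
        _ = x * (h⁻¹ * n * h⁻¹⁻¹) := by group
    have hcard := hRmax' _ hmapC (hsup.map _)
    rw [Subgroup.card_map_of_injective (MulAut.conj h⁻¹).injective] at hcard
    have heq := Subgroup.eq_of_le_of_card_ge (le_sup_left : R ≤ R ⊔ zpowers g) hcard
    apply hgR
    rw [heq]
    exact (le_sup_right : zpowers g ≤ R ⊔ zpowers g) (mem_zpowers g)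
  have hJx : ∀ w : G, orderOf w = 2 → Commute w x → w = x ∨ w = y ∨ w = z :=
    fun w h1 h2 => hJ w h2.eq h1
  have hJy : ∀ w : G, orderOf w = 2 → Commute w y → w = x ∨ w = y ∨ w = z := by
    intro w hw hcw
    have h1 : (g⁻¹ * w * g) * x = x * (g⁻¹ * w * g) := by
      have h2 : w * (g * x * g⁻¹) = (g * x * g⁻¹) * w := by rw [← hy]; exact hcw.eq
      calc g⁻¹ * w * g * x = g⁻¹ * (w * (g * x * g⁻¹)) * g := by group
        _ = g⁻¹ * ((g * x * g⁻¹) * w) * g := by rw [h2]
        _ = x * (g⁻¹ * w * g) := by group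
    have h3' := hord w g⁻¹ hw
    rw [inv_inv] at h3'
    have e : w = g * (g⁻¹ * w * g) * g⁻¹ := by group
    rcases hJ _ h1 h3' with h | h | h
    · right; left; rw [e, h, ← hy]
    · left; rw [e, h, hgy]
    · right; right; rw [e, h, hgz]
  have hcc := commute_conj_of_three hx hzord hJx hJy (isConj_iff.mpr ⟨g, hy.symm⟩) hzconj
  have hcomm := comm_of_conj_comm hz2 hz1 hcc
  exact hgC ((hxC g).2 (hcomm g x))

theorem all_conj [Finite G] [IsSimpleGroup G] (x : G) (hx : orderOf x = 2)
    (h3 : Nat.card {u : ↥(centralizer ({x} : Set G)) // orderOf u = 2} ≤ 3)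
    (S : Sylow 2 G) (hS : (S : Subgroup G) ≤ centralizer ({x} : Set G)) :
    ∀ u v : G, orderOf u = 2 → orderOf v = 2 → IsConj u v := by
  classical
  haveI : Fact (Nat.Prime 2) := ⟨Nat.prime_two⟩
  have hxC : ∀ a : G, a ∈ centralizer ({x} : Set G) ↔ a * x = x * a := fun a => mem_centralizer_singleton_iff
  have hx2 : x ^ 2 = 1 := by rw [← hx]; exact pow_orderOf_eq_one _
  have hxi : x⁻¹ = x := inv_eq_of_mul_eq_one_left (by rw [← sq, hx2])
  have hxx : x * x = 1 := by rw [← sq, hx2]
  have hx1 : x ≠ 1 := by rintro rfl; simp at hx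
  have hord : ∀ (a : G) (c : G), orderOf a = 2 → orderOf (c * a * c⁻¹) = 2 := by
    intro a c ha
    have ha2 : a ^ 2 = 1 := by rw [← ha]; exact pow_orderOf_eq_one _
    refine ord2 (by rw [conj_pow, ha2]; group) ?_
    intro h
    have : a = 1 := by
      have e : a = c⁻¹ * (c * a * c⁻¹) * c := by group
      rw [e, h]; group
    rw [this] at ha; simp at ha
  -- every 2-subgroup is conjugate into `C(x)`
  have hconjS : ∀ Q : Subgroup G, IsPGroup 2 Q → ∃ g : G, ∀ a ∈ Q, g⁻¹ * a * g ∈ (S : Subgroup G) := by
    intro Q hQ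
    obtain ⟨T, hT⟩ := hQ.exists_le_sylow
    obtain ⟨g, hg⟩ := MulAction.exists_smul_eq G S T
    refine ⟨g, fun a ha => ?_⟩
    have h1 : a ∈ T := hT ha
    rw [← hg, mem_smul_sylow] at h1
    exact h1
  have hinvS : ∀ u : G, orderOf u = 2 → ∃ g : G, (g⁻¹ * u * g) * x = x * (g⁻¹ * u * g) := by
    intro u hu
    have hz' : IsPGroup 2 (zpowers u) := IsPGroup.of_card (n := 1) (by rw [Nat.card_zpowers, hu, pow_one])
    obtain ⟨g, hg⟩ := hconjS _ hz'
    exact ⟨g, (hxC _).1 (hS (hg u (mem_zpowers u)))⟩
  by_cases hy : ∃ y : G, y * x = x * y ∧ orderOf y = 2 ∧ y ≠ x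
  swap
  · push Not at hy
    have hall : ∀ u : G, orderOf u = 2 → IsConj x u := by
      intro u hu
      obtain ⟨g, hg⟩ := hinvS u hu
      have h1 := hord u g⁻¹ hu
      rw [inv_inv] at h1
      have h2 := by_contra (fun h => h (hy _ hg h1))
      exact isConj_iff.mpr ⟨g, by rw [← (show g⁻¹ * u * g = x from h2)]; group⟩
    intro u v hu hv
    exact (hall u hu).symm.trans (hall v hv)
  obtain ⟨y, hyc, hyord, hyx⟩ := hy
  have hJ : ∀ w : G, w * x = x * w → orderOf w = 2 → w = x ∨ w = y ∨ w = x * y :=
    fun w h1 h2 => inv_three h3 hx hyc hyord hyx h1 h2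
  have hy2 : y ^ 2 = 1 := by rw [← hyord]; exact pow_orderOf_eq_one _
  have hyy : y * y = 1 := by rw [← sq, hy2]
  have hy1 : y ≠ 1 := by rintro rfl; simp at hyord
  obtain ⟨z, hz⟩ : ∃ z, z = x * y := ⟨_, rfl⟩
  rw [← hz] at hJ
  have hz2 : z ^ 2 = 1 := by
    rw [hz, (show Commute x y from hyc.symm).mul_pow, hx2, hy2, one_mul]
  have hz1 : z ≠ 1 := by
    rw [hz]
    intro h
    apply hyx
    have := eq_inv_of_mul_eq_one_right h
    rw [this, hxi]
  have hzord : orderOf z = 2 := ord2 hz2 hz1
  have hzx : z ≠ x := by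
    intro h
    rw [hz] at h
    apply hy1
    have : x * y = x * 1 := by rw [mul_one]; exact h
    exact mul_left_cancel this
  have hzy : z ≠ y := by
    intro h
    rw [hz] at h
    apply hx1
    have : x * y = 1 * y := by rw [one_mul]; exact h
    exact mul_right_cancel this
  have hzxc : z * x = x * z := by rw [hz, mul_assoc, hyc, ← mul_assoc]
  have hzy' : z * y = x := by rw [hz, mul_assoc, hyy, mul_one]
  have hyz : y * z = x := by rw [hz, ← mul_assoc, hyc, mul_assoc, hyy, mul_one]
  have hzyc : z * y = y * z := by rw [hzy', hyz]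
  have hxz : x * z = y := by rw [hz, ← mul_assoc, hxx, one_mul]
  have hzx' : z * x = y := by rw [hzxc, hxz]
  -- all involutions are conjugate to `x`, `y` or `z`
  have hcov : ∀ u : G, orderOf u = 2 → ∃ g : G, (u = g * x * g⁻¹ ∨ u = g * y * g⁻¹ ∨ u = g * z * g⁻¹) := by
    intro u hu
    obtain ⟨g, hg⟩ := hinvS u hu
    have h1 := hord u g⁻¹ hu
    rw [inv_inv] at h1
    refine ⟨g, ?_⟩
    have e : u = g * (g⁻¹ * u * g) * g⁻¹ := by group
    rcases hJ _ hg h1 with h | h | h
    · left; rwa [h] at e
    · right; left; rwa [h] at e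
    · right; right; rwa [h] at e
  -- the involutions commuting with a conjugate of `x`
  have hJconj : ∀ (h b w : G), b * (h * x * h⁻¹) = (h * x * h⁻¹) * b → orderOf b = 2 → b ≠ h * x * h⁻¹ →
      w * (h * x * h⁻¹) = (h * x * h⁻¹) * w → orderOf w = 2 →
      w = h * x * h⁻¹ ∨ w = b ∨ w = (h * x * h⁻¹) * b := by
    intro h b w hb hbo hbne hw hwo
    have conjc : ∀ a : G, a * (h * x * h⁻¹) = (h * x * h⁻¹) * a → (h⁻¹ * a * h) * x = x * (h⁻¹ * a * h) := by
      intro a ha
      calc h⁻¹ * a * h * x = h⁻¹ * (a * (h * x * h⁻¹)) * h := by group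
        _ = h⁻¹ * ((h * x * h⁻¹) * a) * h := by rw [ha]
        _ = x * (h⁻¹ * a * h) := by group
    have o1 := hord b h⁻¹ hbo
    have o2 := hord w h⁻¹ hwo
    rw [inv_inv] at o1 o2
    have ne : h⁻¹ * b * h ≠ x := by
      intro e
      apply hbne
      rw [← e]; group
    rcases inv_three h3 hx (conjc b hb) o1 ne (conjc w hw) o2 with e | e | e
    · left
      rw [← e]; group
    · right; left
      calc w = h * (h⁻¹ * w * h) * h⁻¹ := by group
        _ = h * (h⁻¹ * b * h) * h⁻¹ := by rw [e]
        _ = b := by group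
    · right; right
      calc w = h * (h⁻¹ * w * h) * h⁻¹ := by group
        _ = h * (x * (h⁻¹ * b * h)) * h⁻¹ := by rw [e]
        _ = h * x * h⁻¹ * b := by group
  have hne_comm : (∀ a b : G, a * b = b * a) → False := by
    intro hc
    exact hyx (no_second_inv hc hyord hx)
  by_cases hcy : IsConj x y
  · by_cases hcz : IsConj x z
    · -- one class
      have hall : ∀ u : G, orderOf u = 2 → IsConj x u := by
        intro u hu
        obtain ⟨g, hg⟩ := hcov u hu
        rcases hg with h | h | h
        · exact isConj_iff.mpr ⟨g, h.symm⟩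
        · exact hcy.trans (isConj_iff.mpr ⟨g, h.symm⟩)
        · exact hcz.trans (isConj_iff.mpr ⟨g, h.symm⟩)
      intro u v hu hv
      exact (hall u hu).symm.trans (hall v hv)
    · -- the class of `z` commutes
      exfalso
      obtain ⟨h, hh⟩ := isConj_iff.mp hcy
      have hJx : ∀ w : G, orderOf w = 2 → Commute w x → w = x ∨ w = y ∨ w = z :=
        fun w h1 h2 => hJ w h2.eq h1
      have hJy : ∀ w : G, orderOf w = 2 → Commute w y → w = x ∨ w = y ∨ w = z := by
        intro w hw hcw
        have e := hJconj h x w (by rw [hh]; exact hyc.symm) hx (by rw [hh]; exact hyx.symm)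
          (by rw [hh]; exact hcw.eq) hw
        rw [hh] at e
        rcases e with e | e | e
        · exact Or.inr (Or.inl e)
        · exact Or.inl e
        · right; right; rw [e, hyc, ← hz]
      exact hne_comm (comm_of_conj_comm hz2 hz1 (commute_conj_of_three hx hzord hJx hJy hcy hcz))
  · by_cases hcz : IsConj x z
    · exfalso
      obtain ⟨h, hh⟩ := isConj_iff.mp hcz
      have hJx : ∀ w : G, orderOf w = 2 → Commute w x → w = x ∨ w = z ∨ w = y := by
        intro w h1 h2
        rcases hJ w h2.eq h1 with e | e | e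
        · exact Or.inl e
        · exact Or.inr (Or.inr e)
        · exact Or.inr (Or.inl e)
      have hJy : ∀ w : G, orderOf w = 2 → Commute w z → w = x ∨ w = z ∨ w = y := by
        intro w hw hcw
        have e := hJconj h x w (by rw [hh]; exact hzxc.symm) hx (by rw [hh]; exact hzx.symm)
          (by rw [hh]; exact hcw.eq) hw
        rw [hh] at e
        rcases e with e | e | e
        · exact Or.inr (Or.inl e)
        · exact Or.inl e
        · right; right; rw [e, hzx']
      exact hne_comm (comm_of_conj_comm hy2 hy1 (commute_conj_of_three hx hyord hJx hJy hcz hcy))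
    · -- the bipartite case
      exfalso
      -- products of commuting elements outside the class of `x`
      have hprod : ∀ p q : G, orderOf p = 2 → ¬ IsConj x p → orderOf q = 2 → ¬ IsConj x q → p ≠ q →
          p * q = q * p → ∃ h : G, p * q = h * x * h⁻¹ := by
        intro p q hp hpc hq hqc hpq hcomm
        obtain ⟨g, hg⟩ := hconjS _ (pgroup_of_comm hp hq hcomm)
        have hpS := (hxC _).1 (hS (hg p ((le_sup_left : zpowers p ≤ zpowers p ⊔ zpowers q) (mem_zpowers p))))
        have hqS := (hxC _).1 (hS (hg q ((le_sup_right : zpowers q ≤ zpowers p ⊔ zpowers q) (mem_zpowers q))))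
        have op := hord p g⁻¹ hp
        have oq := hord q g⁻¹ hq
        rw [inv_inv] at op oq
        have ep : g * (g⁻¹ * p * g) * g⁻¹ = p := by group
        have eq' : g * (g⁻¹ * q * g) * g⁻¹ = q := by group
        have hpnx : g⁻¹ * p * g ≠ x := by
          intro e
          apply hpc
          exact isConj_iff.mpr ⟨g, by rw [← e, ep]⟩
        have hqnx : g⁻¹ * q * g ≠ x := by
          intro e
          apply hqc
          exact isConj_iff.mpr ⟨g, by rw [← e, eq']⟩
        have hne : g⁻¹ * p * g ≠ g⁻¹ * q * g := by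
          intro e
          apply hpq
          have := mul_left_cancel (mul_right_cancel e)
          exact this
        refine ⟨g, ?_⟩
        have hprod' : g⁻¹ * (p * q) * g = x := by
          have e1 : g⁻¹ * (p * q) * g = (g⁻¹ * p * g) * (g⁻¹ * q * g) := by group
          rw [e1]
          rcases hJ _ hpS op with e | e | e
          · exact absurd e hpnx
          · rcases hJ _ hqS oq with e' | e' | e'
            · exact absurd e' hqnx
            · exact absurd (e.trans e'.symm) hne
            · rw [e, e', hyz]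
          · rcases hJ _ hqS oq with e' | e' | e'
            · exact absurd e' hqnx
            · rw [e, e', hzy']
            · exact absurd (e.trans e'.symm) hne
        rw [← hprod']; group
      -- the key property
      have hkey : ∀ p q r : G, orderOf p = 2 → ¬ IsConj x p → orderOf q = 2 → ¬ IsConj x q → p ≠ q →
          p * q = q * p → orderOf r = 2 → ¬ IsConj x r → r ≠ p → r ≠ q → r * p = p * r ∨ r * q = q * r := by
        intro p q r hp hpc hq hqc hpq hcomm hr hrc hrp hrq
        obtain ⟨h, hh⟩ := hprod p q hp hpc hq hqc hpq hcomm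
        have hp2 : p ^ 2 = 1 := by rw [← hp]; exact pow_orderOf_eq_one _
        have hpp : p * p = 1 := by rw [← sq, hp2]
        have hup : p * (p * q) = (p * q) * p := by
          rw [mul_assoc, ← hcomm, ← mul_assoc]
        have huinv : (p * q) * p = q := by rw [hcomm, mul_assoc, hpp, mul_one]
        have hJu : ∀ w : G, w * (p * q) = (p * q) * w → orderOf w = 2 → w = p * q ∨ w = p ∨ w = q := by
          intro w hw hwo
          rw [hh] at hw
          have hpne : p ≠ h * x * h⁻¹ := by
            rw [← hh]
            intro e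
            have : p * 1 = p * q := by rw [mul_one]; exact e
            have h1 := mul_left_cancel this
            rw [← h1] at hq
            simp at hq
          have e := hJconj h p w (by rw [← hh]; exact hup) hp hpne hw hwo
          rw [← hh, huinv] at e
          exact e
        have huconj : IsConj x (p * q) := isConj_iff.mpr ⟨h, hh.symm⟩
        have hu2 : (p * q) ^ 2 = 1 := by rw [hh, conj_pow, hx2]; group
        have hr2 : r ^ 2 = 1 := by rw [← hr]; exact pow_orderOf_eq_one _
        have hodd : ¬ Odd (orderOf ((p * q) * r)) := by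
          intro hO
          obtain ⟨s, -, hs⟩ := exists_midpoint hu2 hr2 hO
          exact hrc (huconj.trans (isConj_iff.mpr ⟨s, hs⟩))
        obtain ⟨w, hw, hwu, hwr⟩ := exists_commuting_involution hu2 hr2 (Nat.not_odd_iff_even.mp hodd)
          (orderOf_pos _).ne'
        rcases hJu w hwu.eq hw with e | e | e
        · exfalso
          have hru : r * (p * q) = (p * q) * r := by
            rw [e] at hwr
            exact hwr.symm.eq
          rcases hJu r hru hr with e' | e' | e'
          · apply hrc; rw [e']; exact huconj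
          · exact hrp e'
          · exact hrq e'
        · left
          rw [e] at hwr
          exact hwr.symm.eq
        · right
          rw [e] at hwr
          exact hwr.symm.eq
      -- the two parts
      obtain ⟨N, hNdef⟩ : ∃ N : Set G, N = {q | orderOf q = 2 ∧ ¬ IsConj x q ∧ q ≠ y ∧ q * y = y * q} := ⟨_, rfl⟩
      obtain ⟨M, hMdef⟩ : ∃ M : Set G, M = insert y {p | orderOf p = 2 ∧ ¬ IsConj x p ∧ p * y ≠ y * p} := ⟨_, rfl⟩
      have hcross : ∀ a ∈ M, ∀ q ∈ N, a * q = q * a := by
        intro a ha q hq
        rw [hNdef] at hq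
        obtain ⟨hqo, hqc, hqy, hqcy⟩ := hq
        rw [hMdef] at ha
        rcases ha with rfl | ⟨hao, hac, hany⟩
        · exact hqcy.symm
        · have hne1 : a ≠ y := by
            rintro rfl
            exact hany rfl
          have hne2 : a ≠ q := by
            rintro rfl
            exact hany hqcy
          rcases hkey y q a hyord hcy hqo hqc hqy.symm hqcy.symm hao hac hne1 hne2 with h | h
          · exact absurd h hany
          · exact h
      have hzN : z ∈ N := by
        rw [hNdef]
        exact ⟨hzord, hcz, hzy, hzyc⟩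
      have hyM : y ∈ closure M := subset_closure (by rw [hMdef]; exact Set.mem_insert _ _)
      have hS2cent : closure N ≤ centralizer ((closure M : Subgroup G) : Set G) := by
        rw [closure_le]
        intro q hq
        rw [SetLike.mem_coe, mem_centralizer_iff]
        intro a ha
        have hle : closure M ≤ centralizer ({q} : Set G) := by
          rw [closure_le]
          intro b hb
          rw [SetLike.mem_coe, mem_centralizer_singleton_iff]
          exact hcross b hb q hq
        have := mem_centralizer_singleton_iff.mp (hle ha)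
        exact this
      have hsup : closure M ⊔ closure N = ⊤ := by
        have hn : (normalClosure ({y} : Set G)).Normal := normalClosure_normal
        have hym : y ∈ normalClosure ({y} : Set G) := subset_normalClosure rfl
        have htop : normalClosure ({y} : Set G) = ⊤ := by
          rcases IsSimpleGroup.eq_bot_or_eq_top_of_normal _ hn with h1 | h1
          · rw [h1] at hym
            exact absurd (Subgroup.mem_bot.mp hym) hy1
          · exact h1
        rw [eq_top_iff, ← htop]
        show closure (Group.conjugatesOfSet ({y} : Set G)) ≤ _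
        rw [closure_le]
        intro c hc
        rw [Group.mem_conjugatesOfSet_iff] at hc
        obtain ⟨a, ha, hac⟩ := hc
        rw [Set.mem_singleton_iff] at ha
        subst ha
        obtain ⟨g, hg⟩ := isConj_iff.mp hac
        have hco : orderOf c = 2 := by rw [← hg]; exact hord a g hyord
        have hcc : ¬ IsConj x c := by
          intro hxc
          exact hcy (hxc.trans (isConj_iff.mpr ⟨g, hg⟩).symm)
        by_cases hcc1 : c = a
        · rw [hcc1]
          exact (le_sup_left : closure M ≤ _) hyM
        by_cases hcc2 : c * a = a * c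
        · apply (le_sup_right : closure N ≤ _)
          apply Subgroup.subset_closure
          rw [hNdef]
          exact ⟨hco, hcc, hcc1, hcc2⟩
        · apply (le_sup_left : closure M ≤ _)
          apply Subgroup.subset_closure
          rw [hMdef]
          exact Or.inr ⟨hco, hcc, hcc2⟩
      have hnorm : (closure M).Normal := by
        rw [← normalizer_eq_top_iff, eq_top_iff, ← hsup]
        refine sup_le Subgroup.le_normalizer ?_
        intro q hq
        rw [mem_normalizer_iff]
        intro c
        have hc1 := mem_centralizer_iff.mp (hS2cent hq)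
        constructor
        · intro hc
          have := hc1 c hc
          rw [← this, mul_inv_cancel_right]
          exact hc
        · intro hc
          have h1 : q * c * q⁻¹ = c := by
            have h2 := hc1 _ hc
            have h3 : q * c = c * q := by
              have h4 : q * c * q⁻¹ * q = q * (q * c * q⁻¹) := h2
              have h5 : q * c * q⁻¹ * q = q * c := by group
              rw [h5] at h4
              have h6 : c = q * c * q⁻¹ := mul_left_cancel h4
              calc q * c = (q * c * q⁻¹) * q := by group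
                _ = c * q := by rw [← h6]
            rw [h3, mul_inv_cancel_right]
          rwa [h1] at hc
      have htop : closure M = ⊤ := by
        rcases IsSimpleGroup.eq_bot_or_eq_top_of_normal _ hnorm with h1 | h1
        · rw [h1] at hyM
          exact absurd (Subgroup.mem_bot.mp hyM) hy1
        · exact h1
      have hzcent : z ∈ center G := by
        rw [mem_center_iff]
        intro g
        have h1 := mem_centralizer_iff.mp (hS2cent (subset_closure hzN)) g (by rw [htop]; trivial)
        exact h1.symm ▸ rfl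
      have hctop : center G = ⊤ := by
        rcases IsSimpleGroup.eq_bot_or_eq_top_of_normal _ (inferInstance : (center G).Normal) with h1 | h1
        · rw [h1] at hzcent
          exact absurd (Subgroup.mem_bot.mp hzcent) hz1
        · exact h1
      apply hne_comm
      intro a b
      have ha : a ∈ center G := by rw [hctop]; trivial
      exact (mem_center_iff.mp ha b).symm


/-- Let G be a finite simple group and x an involution of G whose centralizer contains at most three involutions. Then C_G(x) contains a Sylow 2-subgroup of G, and all involutions of G are conjugate. -/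
theorem result {G : Type*} [Group G] [Finite G] [IsSimpleGroup G] (x : G) (hx : orderOf x = 2)
    (h3 : Nat.card {u : ↥(Subgroup.centralizer ({x} : Set G)) // orderOf u = 2} ≤ 3) :
    (∃ S : Sylow 2 G, (S : Subgroup G) ≤ Subgroup.centralizer ({x} : Set G)) ∧
      ∀ u v : G, orderOf u = 2 → orderOf v = 2 → IsConj u v := by
  obtain ⟨S, hS⟩ := two_central x hx h3
  exact ⟨⟨S, hS⟩, all_conj x hx h3 S hS⟩

end Cfsg.Agent.S3279
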