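import Cfsg.Statements.S3299
import Mathlib
import Cfsg.Agent.Lib.Components.Transv

set_option autoImplicit false
open Cfsg

namespace Cfsg.Agent.S3299

open Subgroup Cfsg.Agent.Lib.Components Cfsg.Agent.Lib.TwoFusion


/-- Let G be a finite group with no nontrivial 2-group quotient (O^2(G) = G), z an involution of G with H = C_G(z), and suppose E = O_2(H) is extraspecial with C_G(E) ≤ E and of order 2^(2n+1) with n ≥ 2. Then E is contained in every normal subgroup of H of index 2. -/
theorem result {G : Type*} [Group G] [Finite G] (hres : Cfsg.pResidual 2 G = ⊤) (z : G) (hz : orderOf z = 2)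
    (E : Subgroup G) (hE : E = (Cfsg.pCore 2 ↥(Subgroup.centralizer ({z} : Set G))).map (Subgroup.centralizer ({z} : Set G)).subtype)
    (hext : Cfsg.IsExtraspecial 2 ↥E) (hcent : Subgroup.centralizer (E : Set G) ≤ E) (n : ℕ) (hn : 2 ≤ n) (hcard : Nat.card ↥E = 2 ^ (2 * n + 1))
    (K : Subgroup G) (hKH : K ≤ Subgroup.centralizer ({z} : Set G))
    (hKn : ∀ h ∈ Subgroup.centralizer ({z} : Set G), K.map (MulAut.conj h).toMonoidHom = K)
    (hKi : K.relIndex (Subgroup.centralizer ({z} : Set G)) = 2) : E ≤ K := by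
  classical
  obtain ⟨hES, hC, hN⟩ := setting_of_pCore z hz E hE hext hcent
  have hKi' : (K.subgroupOf (centralizer ({z} : Set G))).index = 2 := hKi
  let ψ : ↥(centralizer ({z} : Set G)) →* ℤˣ := MonoidHom.mk'
    (fun h => if h ∈ K.subgroupOf (centralizer ({z} : Set G)) then 1 else -1) (by
      intro a b
      by_cases ha : a ∈ K.subgroupOf (centralizer ({z} : Set G)) <;>
      by_cases hb : b ∈ K.subgroupOf (centralizer ({z} : Set G)) <;>
      simp [ha, hb, Subgroup.mul_mem_iff_of_index_two hKi'])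
  have hA : IsPGroup 2 ℤˣ := by
    intro u
    exact ⟨1, by rw [pow_one]; exact Int.units_sq u⟩
  have hneg : orderOf (-1 : ℤˣ) = 2 := orderOf_eq_prime (by simp) (by decide)
  have h8 : 8 < Nat.card E := by
    rw [hcard]
    calc 8 < 2 ^ 4 := by norm_num
      _ ≤ 2 ^ (2 * n + 1) := Nat.pow_le_pow_right (by norm_num) (by omega)
  intro e he
  have heH : e ∈ centralizer ({z} : Set G) := mem_centralizer_singleton_iff.mpr (hES.z_central e he)
  have h1 := kills_extraspecial hres hES hC hN h8 hA ψ (-1) hneg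
    (fun b _ => Int.units_eq_one_or b) e he heH
  by_contra h2
  have h3 : (⟨e, heH⟩ : ↥(centralizer ({z} : Set G))) ∉ K.subgroupOf (centralizer ({z} : Set G)) := h2
  have h4 : ψ ⟨e, heH⟩ = -1 := if_neg h3
  rw [h4] at h1
  exact absurd h1 (by decide)

end Cfsg.Agent.S3299
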