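import Cfsg.Statements.S3305
import Mathlib
import Cfsg.Agent.Lib.Coprime.Sylow
import Cfsg.Agent.Lib.Components.PComp2

set_option autoImplicit false
open Cfsg

namespace Cfsg.Agent.S3305

open Cfsg.Agent.Lib.Coprime

theorem exists_isSylowOf_ge' {G : Type*} [Group G] [Finite G] {p : ℕ} [Fact p.Prime] {T H : Subgroup G}
    (hTH : T ≤ H) (hT : IsPGroup p T) : ∃ P, IsSylowOf p P H ∧ T ≤ P := by
  have hca : CoprimeAction (⊥ : Subgroup G) H :=
    ⟨by simp, by simp, Or.inl inferInstance⟩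
  obtain ⟨P, hP, -, hTP⟩ := hca.exists_invariant_sylow_ge hTH hT (by simp)
  exact ⟨P, hP, hTP⟩

/-- lifting a Sylow subgroup of a quotient through a given `p`-subgroup of the preimage -/
theorem exists_lift {G : Type*} [Group G] [Finite G] {p : ℕ} [Fact p.Prime] (H : Subgroup G) [H.Normal] (Sb : Sylow p (G ⧸ H)) {Q : Subgroup G}
    (hQp : IsPGroup p Q) (hQ : Q ≤ (Sb : Subgroup (G ⧸ H)).comap (QuotientGroup.mk' H)) :
    ∃ S : Sylow p G, Q ≤ (S : Subgroup G) ∧ (S : Subgroup G).map (QuotientGroup.mk' H) = (Sb : Subgroup (G ⧸ H)) := by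
  have hsurj : Function.Surjective (QuotientGroup.mk' H) := QuotientGroup.mk'_surjective H
  obtain ⟨Q₁, hQ₁, hQQ₁⟩ := exists_isSylowOf_ge' hQ hQp
  have hidx : ¬ p ∣ Q₁.index := by
    rw [← Subgroup.relIndex_mul_index hQ₁.le, Subgroup.index_comap_of_surjective _ hsurj]
    intro h
    rcases (Nat.Prime.dvd_mul Fact.out).mp h with h | h
    · exact hQ₁.not_dvd h
    · exact Sb.not_dvd_index h
  let S : Sylow p G := hQ₁.isP.toSylow hidx
  have hS : (S : Subgroup G) = Q₁ := rfl
  refine ⟨S, by rw [hS]; exact hQQ₁, ?_⟩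
  have hle : (S : Subgroup G).map (QuotientGroup.mk' H) ≤ (Sb : Subgroup (G ⧸ H)) := by
    rw [hS, Subgroup.map_le_iff_le_comap]
    exact hQ₁.le
  have h2 := (S.mapSurjective hsurj).is_maximal' Sb.isPGroup' (by
    rw [Sylow.coe_mapSurjective]; exact hle)
  rw [Sylow.coe_mapSurjective] at h2
  exact h2.symm


/-- If any two distinct Sylow 2-subgroups of the finite group G intersect in a cyclic group, then the same holds in every quotient group G/H, H a normal subgroup of G. -/
theorem result {G : Type*} [Group G] [Finite G]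
    (hC : ∀ S T : Sylow 2 G, S ≠ T → IsCyclic ↥((S : Subgroup G) ⊓ (T : Subgroup G))) (H : Subgroup G) [H.Normal] :
    ∀ S T : Sylow 2 (G ⧸ H), S ≠ T → IsCyclic ↥((S : Subgroup (G ⧸ H)) ⊓ (T : Subgroup (G ⧸ H))) := by
  classical
  intro Sb Tb hne
  haveI : Fact (Nat.Prime 2) := ⟨Nat.prime_two⟩
  have hsurj : Function.Surjective (QuotientGroup.mk' H) := QuotientGroup.mk'_surjective H
  set Db := (Sb : Subgroup (G ⧸ H)) ⊓ (Tb : Subgroup (G ⧸ H)) with hDb
  set W := Db.comap (QuotientGroup.mk' H) with hW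
  have hWm : W.map (QuotientGroup.mk' H) = Db := Subgroup.map_comap_eq_self_of_surjective hsurj _
  have hDp : IsPGroup 2 Db := Sb.isPGroup'.to_le inf_le_left
  obtain ⟨P⟩ : Nonempty (Sylow 2 W) := inferInstance
  set Q := (P : Subgroup W).map W.subtype with hQ
  have hQm := Cfsg.Agent.Lib.Components.map_sylow_of_isPGroup (QuotientGroup.mk' H) (W := W) (by rw [hWm]; exact hDp) P
  rw [hWm] at hQm
  have hQp : IsPGroup 2 Q := P.isPGroup'.map _
  have hQW : Q ≤ W := Subgroup.map_subtype_le _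
  have hQS : Q ≤ (Sb : Subgroup (G ⧸ H)).comap (QuotientGroup.mk' H) := hQW.trans (Subgroup.comap_mono inf_le_left)
  have hQT : Q ≤ (Tb : Subgroup (G ⧸ H)).comap (QuotientGroup.mk' H) := hQW.trans (Subgroup.comap_mono inf_le_right)
  obtain ⟨S, hS1, hS2⟩ := exists_lift H Sb hQp hQS
  obtain ⟨T, hT1, hT2⟩ := exists_lift H Tb hQp hQT
  have hST : S ≠ T := by
    rintro rfl
    apply hne
    apply Sylow.ext
    rw [← hS2, ← hT2]
  have hcyc := hC S T hST
  have hmap : ((S : Subgroup G) ⊓ (T : Subgroup G)).map (QuotientGroup.mk' H) = Db := by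
    apply le_antisymm
    · rw [hDb, ← hS2, ← hT2]
      exact Subgroup.map_inf_le _ _ _
    · rw [← hQm]
      exact Subgroup.map_mono (le_inf hS1 hT1)
  rw [← hmap]
  exact isCyclic_of_surjective _ ((QuotientGroup.mk' H).subgroupMap_surjective _)

end Cfsg.Agent.S3305
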