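import Cfsg.Statements.S3303
import Mathlib
import Cfsg.Agent.S3305
import Cfsg.Agent.Lib.Components.PComp2
import Cfsg.Agent.Lib.Basic.Solv1
import Cfsg.Agent.Lib.TwoGroups.AutChain

set_option autoImplicit false
open Cfsg

namespace Cfsg.Agent.S3303

theorem core_case {Y : Type*} [Group Y] [Finite Y] (hs : Group.IsSolvable Y) (hO : Cfsg.pPrimeCore 2 Y = ⊥)
    (hC : ∀ S T : Sylow 2 Y, S ≠ T → IsCyclic ↥((S : Subgroup Y) ⊓ (T : Subgroup Y))) :
    ∃ P : Sylow 2 Y, (P : Subgroup Y).Normal := by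
  classical
  haveI : Fact (Nat.Prime 2) := ⟨Nat.prime_two⟩
  obtain ⟨P⟩ : Nonempty (Sylow 2 Y) := inferInstance
  refine ⟨P, ?_⟩
  by_contra hne
  -- there is a second Sylow subgroup
  obtain ⟨T, hT⟩ : ∃ T : Sylow 2 Y, T ≠ P := by
    by_contra hall
    push Not at hall
    apply hne
    refine ⟨fun x hx g => ?_⟩
    have h1 : g • P = P := hall _
    have h2 : g * x * g⁻¹ ∈ ((g • P : Sylow 2 Y) : Subgroup Y) := by
      rw [Sylow.coe_subgroup_smul]
      exact ⟨x, hx, rfl⟩
    rwa [h1] at h2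
  have hcyc := hC T P hT
  set Q := Cfsg.pCore 2 Y with hQ
  have hQn : Q.Normal := Cfsg.pCore_normal 2 Y
  have hQp : IsPGroup 2 Q := Cfsg.Agent.Lib.Components.pCore_isPGroup
  have hQle : ∀ S : Sylow 2 Y, Q ≤ (S : Subgroup Y) := fun S => hQp.le_sylow_of_normal S
  have hQc : IsCyclic Q := by
    have hinj : Function.Injective (Subgroup.inclusion (le_inf (hQle T) (hQle P))) := Subgroup.inclusion_injective _
    exact isCyclic_of_injective _ hinj
  have hF : Cfsg.fittingSubgroup Y = Q := Cfsg.Agent.Lib.Components.fitting_eq_pCore hO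
  have hCQ : Subgroup.centralizer (Q : Set Y) ≤ Q := by
    have := Cfsg.Agent.Lib.Basic.centralizer_fittingSubgroup_le (G := Y)
    rwa [hF] at this
  have hAut := Cfsg.Agent.Lib.TwoGroups.isPGroup_mulAut_of_cyclic hQc hQp
  have hY : IsPGroup 2 Y := by
    intro y
    obtain ⟨a, ha⟩ := hAut (MulAut.conjNormal y)
    have h1 : y ^ 2 ^ a ∈ Subgroup.centralizer (Q : Set Y) := by
      rw [Subgroup.mem_centralizer_iff]
      intro q hq
      have h2 := congrArg (fun φ : MulAut Q => ((φ ⟨q, hq⟩ : Q) : Y)) ha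
      simp only [← map_pow, MulAut.conjNormal_apply, MulAut.one_apply] at h2
      have h3 : y ^ 2 ^ a * q * (y ^ 2 ^ a)⁻¹ = q := h2
      calc q * y ^ 2 ^ a = (y ^ 2 ^ a * q * (y ^ 2 ^ a)⁻¹) * y ^ 2 ^ a := by rw [h3]
        _ = y ^ 2 ^ a * q := by group
    have h2 := hQp ⟨_, hCQ h1⟩
    obtain ⟨b, hb⟩ := h2
    refine ⟨a + b, ?_⟩
    rw [pow_add, pow_mul]
    exact congrArg Subtype.val hb
  apply hT
  apply Sylow.ext
  have h1 := T.is_maximal' (Q := ⊤) (hY.of_equiv Subgroup.topEquiv.symm) le_top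
  have h2 := P.is_maximal' (Q := ⊤) (hY.of_equiv Subgroup.topEquiv.symm) le_top
  rw [← h1, h2]


/-- Let G be a finite solvable group in which the intersection of any two distinct Sylow 2-subgroups is cyclic. Then G/O(G) has a normal Sylow 2-subgroup, where O(G) is the largest normal subgroup of odd order. -/
theorem result {G : Type*} [Group G] [Finite G] (hs : Group.IsSolvable G)
    (hC : ∀ S T : Sylow 2 G, S ≠ T → IsCyclic ↥((S : Subgroup G) ⊓ (T : Subgroup G))) :
    ∃ P : Sylow 2 (G ⧸ Cfsg.oddCore G), (P : Subgroup (G ⧸ Cfsg.oddCore G)).Normal := by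
  classical
  haveI : Fact (Nat.Prime 2) := ⟨Nat.prime_two⟩
  exact core_case inferInstance (Cfsg.Agent.Lib.Components.pPrimeCore_quotient_eq_bot 2)
    (Cfsg.Agent.S3305.result hC (Cfsg.oddCore G))

end Cfsg.Agent.S3303
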