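import Cfsg.Statements.S3313
import Mathlib
import Cfsg.Agent.Lib.Known.Conj
import Cfsg.Agent.Lib.Components.BW
import Cfsg.Agent.Lib.Components.Layer
import Cfsg.Agent.Lib.TwoFusion.Extraspecial
import Cfsg.Agent.Lib.Basic.Extra2
import Cfsg.Agent.Lib.Basic.Core

set_option autoImplicit false
open Cfsg

namespace Cfsg.Agent.S3313

set_option linter.unusedVariables false
set_option linter.unusedSectionVars false
set_option linter.unnecessarySimpa false
set_option linter.unusedSimpArgs false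

section Helpers

open Subgroup
open scoped Pointwise

section Inv

variable {G : Type*} [Group G] [Finite G]

theorem sq_eq_one_of_order {x : G} (h : orderOf x = 2) : x ^ 2 = 1 := by
  rw [← h]; exact pow_orderOf_eq_one x

theorem inv_eq_of_order {x : G} (h : orderOf x = 2) : x⁻¹ = x := by
  have := sq_eq_one_of_order h
  rw [pow_two] at this
  exact inv_eq_of_mul_eq_one_left this

theorem order_two_iff {x : G} : orderOf x = 2 ↔ x ^ 2 = 1 ∧ x ≠ 1 := by
  constructor
  · intro h
    refine ⟨sq_eq_one_of_order h, ?_⟩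
    rintro rfl
    simp at h
  · rintro ⟨h1, h2⟩
    haveI : Fact (Nat.Prime 2) := ⟨Nat.prime_two⟩
    exact orderOf_eq_prime h1 h2

/-- `u` inverts `u * v`. -/
theorem conj_mul_eq {u v : G} (hu : u⁻¹ = u) (hv : v⁻¹ = v) : u * (u * v) * u⁻¹ = (u * v)⁻¹ := by
  rw [mul_inv_rev, hu, hv]
  have : u * u = 1 := by
    nth_rw 1 [← hu]; exact inv_mul_cancel u
  rw [← mul_assoc, this, one_mul]

theorem conj_pow_mul_eq {u v : G} (hu : u⁻¹ = u) (hv : v⁻¹ = v) (k : ℕ) :
    u * (u * v) ^ k * u⁻¹ = ((u * v)⁻¹) ^ k := by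
  rw [← conj_mul_eq hu hv, conj_pow]

/-- Involutions with a product of odd order are conjugate. -/
theorem isConj_of_odd {u v : G} (hu : u⁻¹ = u) (hv : v⁻¹ = v) (hodd : Odd (orderOf (u * v))) :
    IsConj u v := by
  obtain ⟨k, hk⟩ := hodd
  rw [isConj_iff]
  refine ⟨(u * v) ^ k, ?_⟩
  have h1 : (u * v) ^ (2 * k + 1) = 1 := by rw [← hk]; exact pow_orderOf_eq_one _
  have h2 : (u * v) ^ k * u = u * ((u * v)⁻¹) ^ k := by
    have := conj_pow_mul_eq hu hv k
    -- `u * w^k * u = w^{-k}`, so `w^k * u = u * w^{-k}`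
    have huu : u * u = 1 := by
      nth_rw 1 [← hu]; exact inv_mul_cancel u
    rw [hu] at this
    calc (u * v) ^ k * u = u * (u * (u * v) ^ k * u) := by
          rw [← mul_assoc, ← mul_assoc, huu, one_mul]
      _ = _ := by rw [this]
  have h3 : ((u * v) ^ k)⁻¹ = ((u * v)⁻¹) ^ k := (inv_pow _ _).symm
  rw [h2, h3, mul_assoc, ← pow_add]
  have h4 : ((u * v)⁻¹) ^ (k + k) = u * v := by
    have h5 : (u * v) ^ (2 * k) * (u * v) = 1 := by rw [← pow_succ]; exact h1
    have h6 : ((u * v) ^ (2 * k))⁻¹ = u * v := inv_eq_of_mul_eq_one_right h5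
    rw [inv_pow, ← two_mul, h6]
  rw [h4]
  have huu : u * u = 1 := by
    nth_rw 1 [← hu]; exact inv_mul_cancel u
  rw [← mul_assoc, huu, one_mul]

/-- The involution of a cyclic group of even order. -/
noncomputable def invol (w : G) : G := w ^ (orderOf w / 2)

theorem invol_order {w : G} (h0 : 0 < orderOf w) (he : Even (orderOf w)) : orderOf (invol w) = 2 := by
  obtain ⟨k, hk⟩ := he
  have hk2 : orderOf w / 2 = k := by omega
  rw [invol, hk2, order_two_iff]
  constructor
  · rw [← pow_mul, mul_comm, two_mul, ← hk]; exact pow_orderOf_eq_one w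
  · intro h
    have := orderOf_dvd_of_pow_eq_one h
    have := Nat.le_of_dvd (by omega) this
    omega

theorem invol_mem (w : G) : invol w ∈ zpowers w := by
  rw [invol]; exact npow_mem_zpowers w _

/-- A cyclic group has at most one involution. -/
theorem invol_eq_of_mem {w x : G} (h0 : 0 < orderOf w) (he : Even (orderOf w)) (hx : orderOf x = 2)
    (hxw : x ∈ zpowers w) : invol w = x := by
  obtain ⟨k, hk⟩ := he
  have hk2 : orderOf w / 2 = k := by omega
  obtain ⟨j, rfl⟩ := (mem_powers_iff_mem_zpowers.mpr hxw)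
  simp only at hx ⊢
  have h1 : (w ^ j) ^ 2 = 1 := sq_eq_one_of_order hx
  have h2 : orderOf w ∣ j * 2 := by
    apply orderOf_dvd_of_pow_eq_one
    rw [pow_mul]; exact h1
  rw [hk, ← two_mul, mul_comm j] at h2
  have h3 : k ∣ j := Nat.dvd_of_mul_dvd_mul_left (by norm_num) h2
  obtain ⟨l, rfl⟩ := h3
  have hodd : Odd l := by
    rw [← Nat.not_even_iff_odd]
    rintro ⟨m, rfl⟩
    apply (order_two_iff.mp hx).2
    have : k * (m + m) = orderOf w * m := by rw [hk]; ring
    rw [this, pow_mul, pow_orderOf_eq_one, one_pow]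
  obtain ⟨m, rfl⟩ := hodd
  rw [invol, hk2]
  have : k * (2 * m + 1) = orderOf w * m + k := by rw [hk]; ring
  rw [this, pow_add, pow_mul, pow_orderOf_eq_one, one_pow, one_mul]

theorem invol_conj (g w : G) : invol (g * w * g⁻¹) = g * invol w * g⁻¹ := by
  have h : orderOf (g * w * g⁻¹) = orderOf w := (MulAut.conj g).orderOf_eq w
  rw [invol, invol, h, conj_pow]

theorem orderOf_of_isConj {x y : G} (h : IsConj x y) : orderOf x = orderOf y := by
  obtain ⟨c, rfl⟩ := isConj_iff.mp h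
  exact ((MulAut.conj c).orderOf_eq x).symm

end Inv

section Thompson

variable {G : Type*} [Group G] [Finite G]

/-- A conjugacy class, as a finset. -/
noncomputable def cls (z : G) : Finset G := (Set.toFinite {x : G | IsConj x z}).toFinset

theorem mem_cls {z x : G} : x ∈ cls z ↔ IsConj x z := by simp [cls]

/-- The Thompson count. -/
noncomputable def fib (z t x : G) : Finset (G × G) :=
  (Set.toFinite {p : G × G | IsConj p.1 z ∧ IsConj p.2 t ∧ x ∈ zpowers (p.1 * p.2)}).toFinset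

theorem mem_fib {z t x : G} {p : G × G} :
    p ∈ fib z t x ↔ IsConj p.1 z ∧ IsConj p.2 t ∧ x ∈ zpowers (p.1 * p.2) := by simp [fib]

theorem card_cls (z : G) : (cls z).card * Nat.card (centralizer ({z} : Set G)) = Nat.card G := by
  rw [← Cfsg.Agent.Lib.Known.card_carrier_mul_card_centralizer z]
  congr 1
  rw [cls, ← Set.ncard_eq_toFinset_card _ _, ← Nat.card_coe_set_eq]
  have : {x : G | IsConj x z} = (ConjClasses.mk z).carrier := by
    ext x
    rw [Set.mem_setOf_eq, ConjClasses.mem_carrier_iff_mk_eq, ConjClasses.mk_eq_mk_iff_isConj]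
  rw [this]

theorem card_fib_conj (z t x g : G) : (fib z t (g * x * g⁻¹)).card = (fib z t x).card := by
  classical
  refine Finset.card_nbij' (fun p => (g⁻¹ * p.1 * g, g⁻¹ * p.2 * g)) (fun p => (g * p.1 * g⁻¹, g * p.2 * g⁻¹)) ?_ ?_ ?_ ?_
  · intro p hp
    have hp' := mem_fib.mp (Finset.mem_coe.mp hp)
    apply Finset.mem_coe.mpr
    apply mem_fib.mpr
    refine ⟨?_, ?_, ?_⟩
    · refine IsConj.trans ?_ hp'.1
      rw [isConj_iff]
      exact ⟨g, by group⟩
    · refine IsConj.trans ?_ hp'.2.1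
      rw [isConj_iff]
      exact ⟨g, by group⟩
    · have h := hp'.2.2
      obtain ⟨k, hk⟩ := Subgroup.mem_zpowers_iff.mp h
      refine Subgroup.mem_zpowers_iff.mpr ⟨k, ?_⟩
      have h1 : g⁻¹ * p.1 * g * (g⁻¹ * p.2 * g) = g⁻¹ * (p.1 * p.2) * g⁻¹⁻¹ := by group
      simp only
      rw [h1, conj_zpow, hk]
      group
  · intro p hp
    have hp' := mem_fib.mp (Finset.mem_coe.mp hp)
    apply Finset.mem_coe.mpr
    apply mem_fib.mpr
    refine ⟨?_, ?_, ?_⟩
    · refine IsConj.trans ?_ hp'.1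
      rw [isConj_iff]
      exact ⟨g⁻¹, by group⟩
    · refine IsConj.trans ?_ hp'.2.1
      rw [isConj_iff]
      exact ⟨g⁻¹, by group⟩
    · have h := hp'.2.2
      obtain ⟨k, hk⟩ := Subgroup.mem_zpowers_iff.mp h
      refine Subgroup.mem_zpowers_iff.mpr ⟨k, ?_⟩
      have h1 : g * p.1 * g⁻¹ * (g * p.2 * g⁻¹) = g * (p.1 * p.2) * g⁻¹ := by group
      simp only
      rw [h1, conj_zpow, hk]
  · intro p _
    simp only
    ext <;> simp <;> group
  · intro p _
    simp only
    ext <;> simp <;> group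

/-- **Thompson's order formula.** -/
theorem thompson_formula {z t : G} (hz : orderOf z = 2) (ht : orderOf t = 2) (hzt : ¬ IsConj z t)
    (hcl : ∀ x : G, orderOf x = 2 → IsConj x z ∨ IsConj x t) :
    Nat.card G = (fib z t z).card * Nat.card (centralizer ({t} : Set G)) +
      (fib z t t).card * Nat.card (centralizer ({z} : Set G)) := by
  classical
  have hP : ∀ p ∈ cls z ×ˢ cls t, 0 < orderOf (p.1 * p.2) ∧ Even (orderOf (p.1 * p.2)) := by
    intro p hp
    rw [Finset.mem_product, mem_cls, mem_cls] at hp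
    refine ⟨orderOf_pos _, ?_⟩
    rw [← Nat.not_odd_iff_even]
    intro hodd
    have h1 : IsConj p.1 p.2 := isConj_of_odd
      (inv_eq_of_order ((orderOf_of_isConj hp.1).trans hz))
      (inv_eq_of_order ((orderOf_of_isConj hp.2).trans ht)) hodd
    exact hzt (hp.1.symm.trans (h1.trans hp.2))
  have h1 := Finset.card_eq_sum_card_fiberwise (f := fun p : G × G => invol (p.1 * p.2))
    (s := cls z ×ˢ cls t) (t := cls z ∪ cls t) (by
      intro p hp
      have hp2 := hP p hp
      rcases hcl _ (invol_order hp2.1 hp2.2) with h | h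
      · exact Finset.mem_coe.mpr (Finset.mem_union_left _ (mem_cls.mpr h))
      · exact Finset.mem_coe.mpr (Finset.mem_union_right _ (mem_cls.mpr h)))
  have hdisj : Disjoint (cls z) (cls t) := by
    rw [Finset.disjoint_left]
    intro x hx hx'
    rw [mem_cls] at hx hx'
    exact hzt (hx.symm.trans hx')
  rw [Finset.sum_union hdisj] at h1
  have hfilter : ∀ x, orderOf x = 2 →
      ((cls z ×ˢ cls t).filter (fun p : G × G => invol (p.1 * p.2) = x)) = fib z t x := by
    intro x hx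
    ext p
    rw [Finset.mem_filter, mem_fib, Finset.mem_product, mem_cls, mem_cls]
    constructor
    · rintro ⟨⟨h1, h2⟩, h3⟩
      refine ⟨h1, h2, ?_⟩
      rw [← h3]
      exact invol_mem _
    · rintro ⟨h1, h2, h3⟩
      have hp2 := hP p (by rw [Finset.mem_product, mem_cls, mem_cls]; exact ⟨h1, h2⟩)
      exact ⟨⟨h1, h2⟩, invol_eq_of_mem hp2.1 hp2.2 hx h3⟩
  have hsz : ∑ x ∈ cls z, ((cls z ×ˢ cls t).filter (fun p : G × G => invol (p.1 * p.2) = x)).card =
      (cls z).card * (fib z t z).card := by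
    rw [Finset.sum_congr rfl (g := fun _ => (fib z t z).card), Finset.sum_const, smul_eq_mul]
    intro x hx
    have hx1 := mem_cls.mp hx
    rw [hfilter x ((orderOf_of_isConj hx1).trans hz)]
    obtain ⟨c, rfl⟩ := isConj_iff.mp hx1.symm
    exact card_fib_conj _ _ _ _
  have hst : ∑ x ∈ cls t, ((cls z ×ˢ cls t).filter (fun p : G × G => invol (p.1 * p.2) = x)).card =
      (cls t).card * (fib z t t).card := by
    rw [Finset.sum_congr rfl (g := fun _ => (fib z t t).card), Finset.sum_const, smul_eq_mul]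
    intro x hx
    have hx1 := mem_cls.mp hx
    rw [hfilter x ((orderOf_of_isConj hx1).trans ht)]
    obtain ⟨c, rfl⟩ := isConj_iff.mp hx1.symm
    exact card_fib_conj _ _ _ _
  rw [hsz, hst, Finset.card_product] at h1
  have h2 := card_cls z
  have h3 := card_cls t
  have hpos : 0 < Nat.card G := Nat.card_pos
  apply Nat.eq_of_mul_eq_mul_left hpos
  calc Nat.card G * Nat.card G = ((cls z).card * Nat.card (centralizer ({z} : Set G))) *
        ((cls t).card * Nat.card (centralizer ({t} : Set G))) := by rw [h2, h3]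
    _ = ((cls z).card * (cls t).card) * (Nat.card (centralizer ({z} : Set G)) * Nat.card (centralizer ({t} : Set G))) := by ring
    _ = ((cls z).card * Nat.card (centralizer ({z} : Set G))) * ((fib z t z).card * Nat.card (centralizer ({t} : Set G))) +
        ((cls t).card * Nat.card (centralizer ({t} : Set G))) * ((fib z t t).card * Nat.card (centralizer ({z} : Set G))) := by
      rw [h1]
      ring
    _ = _ := by
      rw [h2, h3]
      ring

end Thompson

section A5

abbrev A5 := alternatingGroup (Fin 5)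

theorem a5_inv_count : (Finset.univ.filter (fun a : A5 => a ^ 2 = 1 ∧ a ≠ 1)).card = 15 := by
  decide +kernel

theorem a5_centr : ∀ a : A5, a ^ 2 = 1 → a ≠ 1 →
    (Finset.univ.filter (fun b : A5 => a * b = b * a)).card = 4 ∧
      ∀ b : A5, a * b = b * a → b ^ 2 = 1 := by
  decide +kernel

theorem a5_pairs : (Finset.univ.filter (fun p : A5 × A5 => p.1 ^ 2 = 1 ∧ p.1 ≠ 1 ∧ p.2 ^ 2 = 1 ∧ p.2 ≠ 1 ∧
    ((p.1 * p.2) ^ 2 ≠ 1 ∨ p.1 = p.2))).card = 195 := by
  decide +kernel

theorem a5_orders : ∀ g : A5, g ^ 2 = 1 ∨ g ^ 3 = 1 ∨ g ^ 5 = 1 := by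
  decide +kernel

theorem a5_card : Nat.card A5 = 60 := by
  rw [Nat.card_eq_fintype_card]
  decide +kernel

theorem a5_odd_iff (y : A5) : Odd (orderOf y) ↔ (y ^ 2 ≠ 1 ∨ y = 1) := by
  constructor
  · intro h
    by_contra hcon
    push Not at hcon
    have h1 : orderOf y ∣ 2 := orderOf_dvd_of_pow_eq_one hcon.1
    have h2 : orderOf y = 2 := by
      rcases (Nat.dvd_prime Nat.prime_two).mp h1 with h3 | h3
      · exact absurd (orderOf_eq_one_iff.mp h3) hcon.2
      · exact h3
    rw [h2] at h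
    exact absurd h (by decide)
  · intro h
    rcases h with h | rfl
    · rcases a5_orders y with h1 | h1 | h1
      · exact absurd h1 h
      · have h2 := orderOf_dvd_of_pow_eq_one h1
        have h3 : Odd 3 := by decide
        exact h3.of_dvd_nat h2
      · have h2 := orderOf_dvd_of_pow_eq_one h1
        have h3 : Odd 5 := by decide
        exact h3.of_dvd_nat h2
    · simp

variable {G : Type*} [Group G] [Finite G]

/-- Facts on a copy of `A₅`. -/
structure A5Facts (B : Subgroup G) : Prop where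
  card : Nat.card B = 60
  invs : Set.ncard {x : G | x ∈ B ∧ x ^ 2 = 1 ∧ x ≠ 1} = 15
  centr_card : ∀ a ∈ B, a ^ 2 = 1 → a ≠ 1 → Nat.card (B ⊓ centralizer ({a} : Set G) : Subgroup G) = 4
  centr_sq : ∀ a ∈ B, a ^ 2 = 1 → a ≠ 1 → ∀ b ∈ B, a * b = b * a → b ^ 2 = 1
  pairs : Set.ncard {p : G × G | p.1 ∈ B ∧ p.2 ∈ B ∧ p.1 ^ 2 = 1 ∧ p.1 ≠ 1 ∧ p.2 ^ 2 = 1 ∧ p.2 ≠ 1 ∧
    Odd (orderOf (p.1 * p.2))} = 195

theorem a5Facts {B : Subgroup G} (e : B ≃* A5) : A5Facts B := by
  classical
  -- the embedding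
  let ψ : A5 →* G := B.subtype.comp e.symm.toMonoidHom
  have hψ : Function.Injective ψ := B.subtype_injective.comp e.symm.injective
  have hrange : ∀ x : G, x ∈ B ↔ ∃ a : A5, ψ a = x := by
    intro x
    constructor
    · intro hx
      exact ⟨e ⟨x, hx⟩, by simp [ψ]⟩
    · rintro ⟨a, rfl⟩
      exact (e.symm a).2
  have hψ1 : ∀ a : A5, ψ a = 1 ↔ a = 1 := fun a => map_eq_one_iff ψ hψ
  have hψ2 : ∀ a : A5, (ψ a) ^ 2 = 1 ↔ a ^ 2 = 1 := by
    intro a
    rw [← map_pow, hψ1]
  have hψ3 : ∀ a b : A5, ψ a * ψ b = ψ b * ψ a ↔ a * b = b * a := by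
    intro a b
    rw [← map_mul, ← map_mul]
    exact hψ.eq_iff
  refine ⟨?_, ?_, ?_, ?_, ?_⟩
  · rw [Nat.card_congr e.toEquiv, a5_card]
  · have h1 : {x : G | x ∈ B ∧ x ^ 2 = 1 ∧ x ≠ 1} =
        ψ '' ((Finset.univ.filter (fun a : A5 => a ^ 2 = 1 ∧ a ≠ 1) : Finset A5) : Set A5) := by
      ext x
      simp only [Set.mem_setOf_eq, Set.mem_image, Finset.coe_filter, Finset.mem_univ, true_and]
      constructor
      · rintro ⟨hx, hx2, hx1⟩
        obtain ⟨a, rfl⟩ := (hrange x).mp hx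
        exact ⟨a, ⟨(hψ2 a).mp hx2, fun h => hx1 ((hψ1 a).mpr h)⟩, rfl⟩
      · rintro ⟨a, ⟨h2, h1⟩, rfl⟩
        exact ⟨(hrange _).mpr ⟨a, rfl⟩, (hψ2 a).mpr h2, fun h => h1 ((hψ1 a).mp h)⟩
    rw [h1, Set.ncard_image_of_injective _ hψ, Set.ncard_coe_finset, a5_inv_count]
  · intro a ha ha2 ha1
    obtain ⟨a', rfl⟩ := (hrange a).mp ha
    have ha2' := (hψ2 a').mp ha2
    have ha1' : a' ≠ 1 := fun h => ha1 ((hψ1 a').mpr h)
    have h := (a5_centr a' ha2' ha1').1
    rw [← h, ← Set.ncard_coe_finset, ← Nat.card_coe_set_eq]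
    have h1 : ((B ⊓ centralizer ({ψ a'} : Set G) : Subgroup G) : Set G) =
        ψ '' ((Finset.univ.filter (fun b : A5 => a' * b = b * a') : Finset A5) : Set A5) := by
      ext x
      simp only [Set.mem_image, Finset.coe_filter, Finset.mem_univ, true_and, SetLike.mem_coe,
        Subgroup.mem_inf, Subgroup.mem_centralizer_singleton_iff, Set.mem_setOf_eq]
      constructor
      · rintro ⟨hx, hx2⟩
        obtain ⟨b, rfl⟩ := (hrange x).mp hx
        exact ⟨b, ((hψ3 b a').mp hx2).symm, rfl⟩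
      · rintro ⟨b, hb, rfl⟩
        exact ⟨(hrange _).mpr ⟨b, rfl⟩, ((hψ3 b a').mpr hb.symm)⟩
    have h2 : Nat.card (B ⊓ centralizer ({ψ a'} : Set G) : Subgroup G) =
        Nat.card ((B ⊓ centralizer ({ψ a'} : Set G) : Subgroup G) : Set G) := rfl
    rw [h2, h1, Nat.card_coe_set_eq, Set.ncard_image_of_injective _ hψ, Nat.card_coe_set_eq]
  · intro a ha ha2 ha1 b hb hab
    obtain ⟨a', rfl⟩ := (hrange a).mp ha
    obtain ⟨b', rfl⟩ := (hrange b).mp hb
    exact (hψ2 b').mpr ((a5_centr a' ((hψ2 a').mp ha2) (fun h => ha1 ((hψ1 a').mpr h))).2 b' ((hψ3 a' b').mp hab))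
  · have h1 : {p : G × G | p.1 ∈ B ∧ p.2 ∈ B ∧ p.1 ^ 2 = 1 ∧ p.1 ≠ 1 ∧ p.2 ^ 2 = 1 ∧ p.2 ≠ 1 ∧
        Odd (orderOf (p.1 * p.2))} =
        (Prod.map ψ ψ) '' ((Finset.univ.filter (fun p : A5 × A5 => p.1 ^ 2 = 1 ∧ p.1 ≠ 1 ∧ p.2 ^ 2 = 1 ∧ p.2 ≠ 1 ∧
          ((p.1 * p.2) ^ 2 ≠ 1 ∨ p.1 = p.2)) : Finset (A5 × A5)) : Set (A5 × A5)) := by
      have hord : ∀ a b : A5, orderOf (ψ a * ψ b) = orderOf (a * b) := by
        intro a b
        rw [← map_mul]
        exact orderOf_injective ψ hψ _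
      have hodd : ∀ a b : A5, a ^ 2 = 1 → (Odd (orderOf (ψ a * ψ b)) ↔ ((a * b) ^ 2 ≠ 1 ∨ a = b)) := by
        intro a b ha
        rw [hord, a5_odd_iff]
        have : a * b = 1 ↔ a = b := by
          have ha' : a⁻¹ = a := by
            rw [pow_two] at ha
            exact inv_eq_of_mul_eq_one_left ha
          rw [mul_eq_one_iff_eq_inv, ← ha', inv_inj, ha']
        rw [this]
      ext ⟨x, y⟩
      simp only [Set.mem_setOf_eq, Set.mem_image, Finset.coe_filter, Finset.mem_univ, true_and,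
        Prod.exists, Prod.map_apply, Prod.mk.injEq]
      constructor
      · rintro ⟨hx, hy, hx2, hx1, hy2, hy1, ho⟩
        obtain ⟨a, rfl⟩ := (hrange x).mp hx
        obtain ⟨b, rfl⟩ := (hrange y).mp hy
        have ha2 := (hψ2 a).mp hx2
        exact ⟨a, b, ⟨ha2, fun h => hx1 ((hψ1 a).mpr h), (hψ2 b).mp hy2, fun h => hy1 ((hψ1 b).mpr h),
          (hodd a b ha2).mp ho⟩, rfl, rfl⟩
      · rintro ⟨a, b, ⟨ha2, ha1, hb2, hb1, ho⟩, rfl, rfl⟩
        exact ⟨(hrange _).mpr ⟨a, rfl⟩, (hrange _).mpr ⟨b, rfl⟩, (hψ2 a).mpr ha2, fun h => ha1 ((hψ1 a).mp h),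
          (hψ2 b).mpr hb2, fun h => hb1 ((hψ1 b).mp h), (hodd a b ha2).mpr ho⟩
    rw [h1, Set.ncard_image_of_injective _ (Function.Injective.prodMap hψ hψ), Set.ncard_coe_finset, a5_pairs]

end A5

section TSide

variable {G : Type*} [Group G] [Finite G] {t : G} {V B : Subgroup G}

theorem decomp (hVB : Cfsg.IsInternalDirectProduct V B (centralizer ({t} : Set G))) {x : G}
    (hx : x ∈ centralizer ({t} : Set G)) : ∃ a ∈ V, ∃ b ∈ B, x = a * b := by
  obtain ⟨h1, h2, h3, h4, h5⟩ := hVB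
  have hn : V ≤ normalizer (B : Set G) := by
    have key : ∀ a ∈ V, ∀ b ∈ B, a * b * a⁻¹ ∈ B := by
      intro a ha b hb
      have : a * b * a⁻¹ = b := by rw [h3 a ha b hb]; group
      rwa [this]
    intro a ha
    rw [Subgroup.mem_normalizer_iff]
    intro b
    refine ⟨key a ha b, fun hb => ?_⟩
    have h6 := key a⁻¹ (V.inv_mem ha) _ hb
    have h7 : a⁻¹ * (a * b * a⁻¹) * a⁻¹⁻¹ = b := by group
    rwa [h7] at h6
  have h6 : x ∈ ((V : Set G) * (B : Set G)) := by
    rw [← Subgroup.coe_mul_of_left_le_normalizer_right V B hn, h5]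
    exact hx
  obtain ⟨a, ha, b, hb, rfl⟩ := Set.mem_mul.mp h6
  exact ⟨a, ha, b, hb, rfl⟩

theorem decomp_unique (hVB : Cfsg.IsInternalDirectProduct V B (centralizer ({t} : Set G)))
    {a a' b b' : G} (ha : a ∈ V) (ha' : a' ∈ V) (hb : b ∈ B) (hb' : b' ∈ B) (h : a * b = a' * b') :
    a = a' ∧ b = b' := by
  obtain ⟨h1, h2, h3, h4, h5⟩ := hVB
  have h6 : a'⁻¹ * a = b' * b⁻¹ := by
    rw [inv_mul_eq_iff_eq_mul, ← mul_assoc, eq_mul_inv_iff_mul_eq]
    exact h
  have h7 : a'⁻¹ * a ∈ V ⊓ B := ⟨V.mul_mem (V.inv_mem ha') ha, by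
    rw [h6]; exact B.mul_mem hb' (B.inv_mem hb)⟩
  rw [h4, Subgroup.mem_bot] at h7
  constructor
  · rw [inv_mul_eq_one] at h7
    exact h7.symm
  · rw [h7] at h6
    exact (mul_inv_eq_one.mp h6.symm).symm

theorem card_centralizer_t (hVB : Cfsg.IsInternalDirectProduct V B (centralizer ({t} : Set G))) :
    Nat.card (centralizer ({t} : Set G)) = Nat.card V * Nat.card B := by
  have h1 := Cfsg.Agent.Lib.Components.BW.card_setmul V B
  have h2 : ((V : Set G) * (B : Set G)) = (centralizer ({t} : Set G) : Set G) := by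
    ext x
    constructor
    · rintro ⟨a, ha, b, hb, rfl⟩
      exact Subgroup.mul_mem _ (hVB.1 ha) (hVB.2.1 hb)
    · intro hx
      obtain ⟨a, ha, b, hb, rfl⟩ := decomp hVB hx
      exact Set.mul_mem_mul ha hb
  rw [h2, hVB.2.2.2.1, Subgroup.card_bot, mul_one] at h1
  exact h1

/-- `u` and `v` commute with any involution of `⟨u v⟩`. -/
theorem comm_of_mem_zpowers {u v x : G} (hu : u⁻¹ = u) (hv : v⁻¹ = v) (hx : x⁻¹ = x)
    (hxm : x ∈ zpowers (u * v)) : u * x = x * u ∧ v * x = x * v := by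
  obtain ⟨k, rfl⟩ := Subgroup.mem_zpowers_iff.mp hxm
  have h1 : u * (u * v) * u⁻¹ = (u * v)⁻¹ := conj_mul_eq hu hv
  have h2 : v * (u * v) * v⁻¹ = (u * v)⁻¹ := by
    calc v * (u * v) * v⁻¹ = v * u := by group
      _ = (u * v)⁻¹ := by rw [mul_inv_rev, hv, hu]
  constructor
  · have h3 : u * (u * v) ^ k * u⁻¹ = ((u * v) ^ k)⁻¹ := by
      rw [← conj_zpow, h1, inv_zpow]
    rw [hx] at h3
    exact (mul_inv_eq_iff_eq_mul.mp h3)
  · have h3 : v * (u * v) ^ k * v⁻¹ = ((u * v) ^ k)⁻¹ := by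
      rw [← conj_zpow, h2, inv_zpow]
    rw [hx] at h3
    exact (mul_inv_eq_iff_eq_mul.mp h3)

end TSide

section TCount

variable {G : Type*} [Group G] [Finite G] {z t : G} {V B : Subgroup G}

theorem zpow_invol {a : G} (ha : a ^ 2 = 1) (k : ℤ) : a ^ k = 1 ∨ a ^ k = a := by
  rcases Int.even_or_odd' k with ⟨j, rfl | rfl⟩
  · left
    rw [zpow_mul, zpow_ofNat, ha, one_zpow]
  · right
    rw [zpow_add, zpow_mul, zpow_ofNat, ha, one_zpow, one_mul, zpow_one]

/-- The count of pairs with `t ∈ ⟨u v⟩`. -/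
theorem fib_t_card (hz : orderOf z = 2) (ht : orderOf t = 2) (hzt : ¬ IsConj z t)
    (hVB : Cfsg.IsInternalDirectProduct V B (centralizer ({t} : Set G)))
    (hV2 : ∀ v ∈ V, v ^ 2 = 1) (htV : t ∈ V) (hF : A5Facts B)
    (hBz : ∀ x ∈ B, orderOf x = 2 → IsConj x z)
    (hCt : ∀ x ∈ centralizer ({t} : Set G), orderOf x = 2 → x ∉ B → IsConj x t) :
    (fib z t t).card = 195 := by
  classical
  obtain ⟨ht2, ht1⟩ := order_two_iff.mp ht
  have hcomm := hVB.2.2.1
  have htB : ∀ b ∈ B, t * b = b * t := hcomm t htV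
  have hset : ((fib z t t : Finset (G × G)) : Set (G × G)) = (fun q : G × G => (q.1, t * q.2)) ''
      {p : G × G | p.1 ∈ B ∧ p.2 ∈ B ∧ p.1 ^ 2 = 1 ∧ p.1 ≠ 1 ∧ p.2 ^ 2 = 1 ∧ p.2 ≠ 1 ∧
        Odd (orderOf (p.1 * p.2))} := by
    ext ⟨u, v⟩
    rw [Finset.mem_coe, mem_fib]
    simp only [Set.mem_image, Set.mem_setOf_eq, Prod.exists, Prod.mk.injEq]
    constructor
    · rintro ⟨hu, hv, hm⟩
      have hu2 := (orderOf_of_isConj hu).trans hz
      have hv2 := (orderOf_of_isConj hv).trans ht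
      have huc := comm_of_mem_zpowers (inv_eq_of_order hu2) (inv_eq_of_order hv2) (inv_eq_of_order ht) hm
      have huC : u ∈ centralizer ({t} : Set G) := Subgroup.mem_centralizer_singleton_iff.mpr huc.1
      have hvC : v ∈ centralizer ({t} : Set G) := Subgroup.mem_centralizer_singleton_iff.mpr huc.2
      have huB : u ∈ B := by
        by_contra hno
        exact hzt (hu.symm.trans (hCt u huC hu2 hno))
      obtain ⟨a, ha, b, hb, rfl⟩ := decomp hVB hvC
      have hab := hcomm a ha b hb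
      have hab' : Commute a b := hab
      have ha2 := hV2 a ha
      have hb2 : b ^ 2 = 1 := by
        have h1 := (order_two_iff.mp hv2).1
        rw [hab'.mul_pow, ha2, one_mul] at h1
        exact h1
      have hua : Commute a (u * b) := by
        show a * (u * b) = (u * b) * a
        rw [← mul_assoc, hcomm a ha u huB, mul_assoc, hcomm a ha b hb, mul_assoc]
      have huv : u * (a * b) = a * (u * b) := by
        rw [← mul_assoc, ← hcomm a ha u huB, mul_assoc]
      rw [huv] at hm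
      obtain ⟨k, hk⟩ := Subgroup.mem_zpowers_iff.mp hm
      rw [hua.mul_zpow] at hk
      have hk' : a ^ k * (u * b) ^ k = t * 1 := by rw [hk, mul_one]
      obtain ⟨h1, h2⟩ := decomp_unique hVB (V.zpow_mem ha k) htV
        (B.zpow_mem (B.mul_mem huB hb) k) B.one_mem hk'
      have hat : a = t := by
        rcases zpow_invol ha2 k with h3 | h3
        · rw [h3] at h1
          exact absurd h1.symm ht1
        · rw [← h3, h1]
      subst hat
      have hkodd : Odd k := by
        rw [← Int.not_even_iff_odd]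
        intro he
        obtain ⟨j, rfl⟩ := he
        apply ht1
        rw [← h1, ← two_mul, zpow_mul, zpow_ofNat, ha2, one_zpow]
      have hodd : Odd (orderOf (u * b)) := by
        rw [← Nat.not_even_iff_odd]
        intro he
        have h3 : ((orderOf (u * b) : ℕ) : ℤ) ∣ k := orderOf_dvd_iff_zpow_eq_one.mpr h2
        have h4 : (2 : ℤ) ∣ (orderOf (u * b) : ℤ) := by
          exact_mod_cast he.two_dvd
        exact (Int.not_even_iff_odd.mpr hkodd) (even_iff_two_dvd.mpr (h4.trans h3))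
      have hb1 : b ≠ 1 := by
        rintro rfl
        rw [mul_one, hu2] at hodd
        exact absurd hodd (by decide)
      obtain ⟨hu3, hu4⟩ := order_two_iff.mp hu2
      exact ⟨u, b, ⟨huB, hb, hu3, hu4, hb2, hb1, hodd⟩, rfl, rfl⟩
    · rintro ⟨u', b, ⟨huB, hb, hu2, hu1, hb2, hb1, hodd⟩, rfl, rfl⟩
      have htb : Commute t b := htB b hb
      refine ⟨hBz _ huB (order_two_iff.mpr ⟨hu2, hu1⟩), ?_, ?_⟩
      · apply hCt
        · exact (centralizer ({t} : Set G)).mul_mem (hVB.1 htV) (hVB.2.1 hb)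
        · rw [order_two_iff]
          refine ⟨?_, ?_⟩
          · rw [htb.mul_pow, ht2, hb2, one_mul]
          · intro h
            have h1 : t = b⁻¹ := eq_inv_of_mul_eq_one_left h
            have h2 : t ∈ V ⊓ B := ⟨htV, h1 ▸ B.inv_mem hb⟩
            rw [hVB.2.2.2.1, Subgroup.mem_bot] at h2
            exact ht1 h2
        · intro h
          have h1 : t ∈ B := by
            have := B.mul_mem h (B.inv_mem hb)
            simpa using this
          have h2 : t ∈ V ⊓ B := ⟨htV, h1⟩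
          rw [hVB.2.2.2.1, Subgroup.mem_bot] at h2
          exact ht1 h2
      · have huv : u' * (t * b) = t * (u' * b) := by
          rw [← mul_assoc, ← htB u' huB, mul_assoc]
        rw [huv]
        have hty : Commute t (u' * b) := by
          show t * (u' * b) = (u' * b) * t
          rw [← mul_assoc, htB u' huB, mul_assoc, htB b hb, mul_assoc]
        obtain ⟨j, hj⟩ := hodd
        have h3 : (t * (u' * b)) ^ orderOf (u' * b) = t := by
          rw [hty.mul_pow, pow_orderOf_eq_one, mul_one, hj, pow_succ, pow_mul, ht2, one_pow, one_mul]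
        have h4 := npow_mem_zpowers (t * (u' * b)) (orderOf (u' * b))
        rwa [h3] at h4
  have hinj : Function.Injective (fun q : G × G => (q.1, t * q.2)) := by
    rintro ⟨a, b⟩ ⟨c, d⟩ h
    simp only [Prod.mk.injEq, mul_right_inj] at h
    exact Prod.ext h.1 h.2
  rw [← Set.ncard_coe_finset, hset, Set.ncard_image_of_injective _ hinj, hF.pairs]

/-- The centraliser of an involution of `B` in `C(t)`. -/
theorem D_facts (hVB : Cfsg.IsInternalDirectProduct V B (centralizer ({t} : Set G)))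
    (hV : Nat.card V = 4) (hV2 : ∀ v ∈ V, v ^ 2 = 1) (hF : A5Facts B) {z₁ : G} (hz₁ : z₁ ∈ B)
    (hz₁2 : z₁ ^ 2 = 1) (hz₁1 : z₁ ≠ 1) :
    Nat.card (centralizer ({t} : Set G) ⊓ centralizer ({z₁} : Set G) : Subgroup G) = 16 ∧
      ∀ x ∈ (centralizer ({t} : Set G) ⊓ centralizer ({z₁} : Set G) : Subgroup G), x ^ 2 = 1 := by
  have hcomm := hVB.2.2.1
  have hdec : ∀ x ∈ (centralizer ({t} : Set G) ⊓ centralizer ({z₁} : Set G) : Subgroup G),
      ∃ a ∈ V, ∃ b ∈ B ⊓ centralizer ({z₁} : Set G), x = a * b := by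
    intro x hx
    obtain ⟨hx1, hx2⟩ := Subgroup.mem_inf.mp hx
    obtain ⟨a, ha, b, hb, rfl⟩ := decomp hVB hx1
    refine ⟨a, ha, b, Subgroup.mem_inf.mpr ⟨hb, ?_⟩, rfl⟩
    rw [Subgroup.mem_centralizer_singleton_iff] at hx2 ⊢
    have h1 : a * (b * z₁) = a * (z₁ * b) := by
      rw [← mul_assoc, hx2, ← mul_assoc, ← mul_assoc, hcomm a ha z₁ hz₁]
    exact mul_left_cancel h1
  constructor
  · have hM := hF.centr_card z₁ hz₁ hz₁2 hz₁1
    let f : V × ↥(B ⊓ centralizer ({z₁} : Set G) : Subgroup G) →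
        ↥(centralizer ({t} : Set G) ⊓ centralizer ({z₁} : Set G) : Subgroup G) := fun q =>
      ⟨(q.1 : G) * (q.2 : G), Subgroup.mem_inf.mpr ⟨(centralizer ({t} : Set G)).mul_mem (hVB.1 q.1.2) (hVB.2.1 (Subgroup.mem_inf.mp q.2.2).1), by
        rw [Subgroup.mem_centralizer_singleton_iff]
        have h2 := Subgroup.mem_centralizer_singleton_iff.mp (Subgroup.mem_inf.mp q.2.2).2
        rw [mul_assoc, h2, ← mul_assoc, hcomm _ q.1.2 z₁ hz₁, mul_assoc]⟩⟩
    have hf : Function.Bijective f := by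
      constructor
      · rintro ⟨a, b⟩ ⟨c, d⟩ h
        have h1 := congrArg Subtype.val h
        obtain ⟨h2, h3⟩ := decomp_unique hVB a.2 c.2 (Subgroup.mem_inf.mp b.2).1 (Subgroup.mem_inf.mp d.2).1 h1
        exact Prod.ext (Subtype.ext h2) (Subtype.ext h3)
      · rintro ⟨x, hx⟩
        obtain ⟨a, ha, b, hb, rfl⟩ := hdec x hx
        exact ⟨(⟨a, ha⟩, ⟨b, hb⟩), rfl⟩
    rw [← Nat.card_congr (Equiv.ofBijective f hf), Nat.card_prod, hV, hM]
  · intro x hx
    obtain ⟨a, ha, b, hb, rfl⟩ := hdec x hx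
    have hb' := Subgroup.mem_inf.mp hb
    have hb2 := hF.centr_sq z₁ hz₁ hz₁2 hz₁1 b hb'.1 (Subgroup.mem_centralizer_singleton_iff.mp hb'.2).symm
    have hab : Commute a b := hcomm a ha b hb'.1
    rw [hab.mul_pow, hV2 a ha, hb2, one_mul]

end TCount

section Main

variable {G : Type*} [Group G] [Finite G]

/-- Commuting involutions: extension of an elementary abelian subgroup by one involution. -/
theorem ea_sup {A : Subgroup G} {u : G} (hAc : ∀ a ∈ A, ∀ b ∈ A, a * b = b * a)
    (hA2 : ∀ a ∈ A, a ^ 2 = 1) (hu : u ^ 2 = 1) (huA : ∀ a ∈ A, u * a = a * u) :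
    (∀ a ∈ A ⊔ zpowers u, ∀ b ∈ A ⊔ zpowers u, a * b = b * a) ∧ ∀ a ∈ A ⊔ zpowers u, a ^ 2 = 1 := by
  have hz1 : ∀ w ∈ zpowers u, ∀ a ∈ A, w * a = a * w := by
    intro w hw a ha
    have h1 : zpowers u ≤ centralizer ({a} : Set G) := by
      rw [Subgroup.zpowers_le, Subgroup.mem_centralizer_singleton_iff]
      exact huA a ha
    exact Subgroup.mem_centralizer_singleton_iff.mp (h1 hw)
  have hz2 : ∀ w ∈ zpowers u, ∀ w' ∈ zpowers u, w * w' = w' * w := by
    intro w hw w' hw'
    obtain ⟨i, rfl⟩ := Subgroup.mem_zpowers_iff.mp hw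
    obtain ⟨j, rfl⟩ := Subgroup.mem_zpowers_iff.mp hw'
    rw [← zpow_add, ← zpow_add, add_comm]
  have h1 : ∀ a ∈ A, A ⊔ zpowers u ≤ centralizer ({a} : Set G) := by
    intro a ha
    refine sup_le ?_ ?_
    · intro b hb
      exact Subgroup.mem_centralizer_singleton_iff.mpr (hAc b hb a ha)
    · intro w hw
      exact Subgroup.mem_centralizer_singleton_iff.mpr (hz1 w hw a ha)
  have h2 : ∀ w ∈ zpowers u, A ⊔ zpowers u ≤ centralizer ({w} : Set G) := by
    intro w hw
    refine sup_le ?_ ?_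
    · intro b hb
      exact Subgroup.mem_centralizer_singleton_iff.mpr (hz1 w hw b hb).symm
    · intro w' hw'
      exact Subgroup.mem_centralizer_singleton_iff.mpr (hz2 w' hw' w hw)
  have h3 : ∀ a ∈ A ⊔ zpowers u, ∀ b ∈ A ⊔ zpowers u, a * b = b * a := by
    intro a ha b hb
    have h4 : A ⊔ zpowers u ≤ centralizer ({a} : Set G) := by
      refine sup_le ?_ ?_
      · intro c hc
        exact Subgroup.mem_centralizer_singleton_iff.mpr (Subgroup.mem_centralizer_singleton_iff.mp (h1 c hc ha)).symm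
      · intro w hw
        exact Subgroup.mem_centralizer_singleton_iff.mpr (Subgroup.mem_centralizer_singleton_iff.mp (h2 w hw ha)).symm
    exact (Subgroup.mem_centralizer_singleton_iff.mp (h4 hb)).symm
  refine ⟨h3, ?_⟩
  let R : Subgroup G :=
    { carrier := {x | x ∈ A ⊔ zpowers u ∧ x ^ 2 = 1}
      one_mem' := ⟨Subgroup.one_mem _, one_pow 2⟩
      mul_mem' := by
        rintro a b ⟨ha, ha2⟩ ⟨hb, hb2⟩
        refine ⟨Subgroup.mul_mem _ ha hb, ?_⟩
        have hab : Commute a b := h3 a ha b hb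
        rw [hab.mul_pow, ha2, hb2, one_mul]
      inv_mem' := by
        rintro a ⟨ha, ha2⟩
        exact ⟨Subgroup.inv_mem _ ha, by rw [inv_pow, ha2, inv_one]⟩ }
  have hle : A ⊔ zpowers u ≤ R := by
    refine sup_le ?_ ?_
    · intro a ha
      exact ⟨Subgroup.mem_sup_left ha, hA2 a ha⟩
    · intro w hw
      refine ⟨Subgroup.mem_sup_right hw, ?_⟩
      obtain ⟨i, rfl⟩ := Subgroup.mem_zpowers_iff.mp hw
      rw [← zpow_natCast, ← zpow_mul, mul_comm, zpow_mul, zpow_natCast, hu, one_zpow]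
  intro a ha
  exact (hle ha).2

/-- All the data of the counting argument. -/
structure Data (z t : G) (Q V B : Subgroup G) : Prop where
  hz : orderOf z = 2
  ht : orderOf t = 2
  hzt : ¬ IsConj z t
  hcl : ∀ x : G, orderOf x = 2 → IsConj x z ∨ IsConj x t
  hQC : Q ≤ centralizer ({z} : Set G)
  hQn : centralizer ({z} : Set G) ≤ normalizer (Q : Set G)
  hzQ : z ∈ Q
  hsq : ∀ a ∈ Q, a * a = 1 ∨ a * a = z
  hCcard : Nat.card (centralizer ({z} : Set G)) = 1920
  hQcard : Nat.card Q = 32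
  hi : Set.ncard {u : G | u ∈ Q ∧ u ^ 2 = 1} = 12
  hrank : ∀ A : Subgroup G, A ≤ Q → (∀ a ∈ A, ∀ b ∈ A, a * b = b * a) → (∀ a ∈ A, a ^ 2 = 1) →
    Nat.card A ≤ 4
  hQz : ∀ x ∈ Q, orderOf x = 2 → IsConj x z
  hCz : ∀ x ∈ centralizer ({z} : Set G), orderOf x = 2 → x ∉ Q → IsConj x t
  hVB : Cfsg.IsInternalDirectProduct V B (centralizer ({t} : Set G))
  hV : Nat.card V = 4
  hV2 : ∀ v ∈ V, v ^ 2 = 1
  htV : t ∈ V
  hF : A5Facts B
  hBz : ∀ x ∈ B, orderOf x = 2 → IsConj x z
  hCt : ∀ x ∈ centralizer ({t} : Set G), orderOf x = 2 → x ∉ B → IsConj x t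

variable {z t : G} {Q V B : Subgroup G}

/-- The involutions of `C(z) ∖ Q`. -/
theorem J_props (d : Data z t Q V B) {v : G} (hv : IsConj v t) (hvz : z * v = v * z) :
    v ∈ centralizer ({z} : Set G) ∧ orderOf v = 2 ∧ v ∉ Q := by
  have hv2 := (orderOf_of_isConj hv).trans d.ht
  refine ⟨Subgroup.mem_centralizer_singleton_iff.mpr hvz.symm, hv2, ?_⟩
  intro hvQ
  exact d.hzt ((d.hQz v hvQ hv2).symm.trans hv)

/-- The centraliser of `v` in `C(z)`. -/
theorem E_facts (d : Data z t Q V B) {v : G} (hv : IsConj v t) (hvz : z * v = v * z) :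
    Nat.card (centralizer ({z} : Set G) ⊓ centralizer ({v} : Set G) : Subgroup G) = 16 ∧
      ∀ x ∈ (centralizer ({z} : Set G) ⊓ centralizer ({v} : Set G) : Subgroup G), x ^ 2 = 1 := by
  obtain ⟨g, rfl⟩ := isConj_iff.mp hv.symm
  obtain ⟨z₁, hz₁⟩ : ∃ z₁, z₁ = g⁻¹ * z * g := ⟨_, rfl⟩
  have hzz₁ : z = g * z₁ * g⁻¹ := by rw [hz₁]; group
  subst hzz₁
  have hz₁conj : IsConj z₁ (g * z₁ * g⁻¹) := isConj_iff.mpr ⟨g, rfl⟩
  have hz₁2 : orderOf z₁ = 2 := (orderOf_of_isConj hz₁conj).trans d.hz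
  have hz₁t : z₁ * t = t * z₁ := by
    have h1 : g * (z₁ * t) * g⁻¹ = g * (t * z₁) * g⁻¹ := by
      calc g * (z₁ * t) * g⁻¹ = (g * z₁ * g⁻¹) * (g * t * g⁻¹) := by group
        _ = (g * t * g⁻¹) * (g * z₁ * g⁻¹) := hvz
        _ = _ := by group
    exact mul_left_cancel (mul_right_cancel h1)
  have hz₁B : z₁ ∈ B := by
    by_contra hno
    have h1 := d.hCt z₁ (Subgroup.mem_centralizer_singleton_iff.mpr hz₁t) hz₁2 hno
    exact d.hzt (hz₁conj.symm.trans h1)
  obtain ⟨h1, h2⟩ := order_two_iff.mp hz₁2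
  obtain ⟨h3, h4⟩ := D_facts d.hVB d.hV d.hV2 d.hF hz₁B h1 h2
  have hmap : (centralizer ({g * z₁ * g⁻¹} : Set G) ⊓ centralizer ({g * t * g⁻¹} : Set G) : Subgroup G) =
      (centralizer ({t} : Set G) ⊓ centralizer ({z₁} : Set G) : Subgroup G).map (MulAut.conj g).toMonoidHom := by
    ext x
    have hconj : ∀ a : G, x ∈ centralizer ({g * a * g⁻¹} : Set G) ↔ g⁻¹ * x * g ∈ centralizer ({a} : Set G) := by
      intro a
      rw [Subgroup.mem_centralizer_singleton_iff, Subgroup.mem_centralizer_singleton_iff]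
      constructor
      · intro h
        calc g⁻¹ * x * g * a = g⁻¹ * (x * (g * a * g⁻¹)) * g := by group
          _ = g⁻¹ * ((g * a * g⁻¹) * x) * g := by rw [h]
          _ = _ := by group
      · intro h
        calc x * (g * a * g⁻¹) = g * ((g⁻¹ * x * g) * a) * g⁻¹ := by group
          _ = g * (a * (g⁻¹ * x * g)) * g⁻¹ := by rw [h]
          _ = _ := by group
    rw [Subgroup.mem_inf, hconj, hconj, Subgroup.mem_map]
    constructor
    · rintro ⟨h5, h6⟩
      exact ⟨g⁻¹ * x * g, Subgroup.mem_inf.mpr ⟨h6, h5⟩, by simp [MulAut.conj_apply]; group⟩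
    · rintro ⟨y, hy, rfl⟩
      have hy' := Subgroup.mem_inf.mp hy
      have h7 : g⁻¹ * ((MulAut.conj g).toMonoidHom y) * g = y := by
        simp [MulAut.conj_apply]; group
      rw [h7]
      exact ⟨hy'.2, hy'.1⟩
  rw [hmap]
  constructor
  · rw [Subgroup.card_map_of_injective (MulAut.conj g).injective]
    exact h3
  · rintro x ⟨y, hy, rfl⟩
    have h5 := h4 y hy
    change (g * y * g⁻¹) ^ 2 = 1
    rw [conj_pow, h5]
    group

/-- The centraliser of `v` in `Q`. -/
theorem F_facts (d : Data z t Q V B) {v : G} (hv : IsConj v t) (hvz : z * v = v * z) :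
    Nat.card (Q ⊓ centralizer ({v} : Set G) : Subgroup G) = 4 ∧
      ∀ x ∈ (Q ⊓ centralizer ({v} : Set G) : Subgroup G), x ^ 2 = 1 := by
  obtain ⟨hE1, hE2⟩ := E_facts d hv hvz
  obtain ⟨hvC, -, -⟩ := J_props d hv hvz
  obtain ⟨E, hE⟩ : ∃ E : Subgroup G, E = centralizer ({z} : Set G) ⊓ centralizer ({v} : Set G) := ⟨_, rfl⟩
  rw [← hE] at hE1 hE2
  have hFE : Q ⊓ centralizer ({v} : Set G) ≤ E := by
    rw [hE]
    exact inf_le_inf_right _ d.hQC
  have hF2 : ∀ x ∈ (Q ⊓ centralizer ({v} : Set G) : Subgroup G), x ^ 2 = 1 := fun x hx => hE2 x (hFE hx)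
  refine ⟨?_, hF2⟩
  have hle4 : Nat.card (Q ⊓ centralizer ({v} : Set G) : Subgroup G) ≤ 4 := by
    apply d.hrank _ inf_le_left _ hF2
    intro a ha b hb
    have h1 := hF2 (a * b) (Subgroup.mul_mem _ ha hb)
    have h2 := hF2 a ha
    have h3 := hF2 b hb
    rw [pow_two] at h1 h2 h3
    have ha' : a⁻¹ = a := inv_eq_of_mul_eq_one_left h2
    have hb' : b⁻¹ = b := inv_eq_of_mul_eq_one_left h3
    have hab : (a * b)⁻¹ = a * b := inv_eq_of_mul_eq_one_left h1
    rw [mul_inv_rev, ha', hb'] at hab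
    exact hab.symm
  have hEC : E ≤ centralizer ({z} : Set G) := hE ▸ inf_le_left
  have hEn : E ≤ normalizer (Q : Set G) := hEC.trans d.hQn
  have h1 := Cfsg.Agent.Lib.Components.BW.card_setmul E Q
  rw [← Subgroup.coe_mul_of_left_le_normalizer_right E Q hEn] at h1
  have hinf : E ⊓ Q = Q ⊓ centralizer ({v} : Set G) := by
    rw [hE]
    apply le_antisymm
    · exact le_inf inf_le_right (inf_le_left.trans inf_le_right)
    · exact le_inf (le_inf (inf_le_left.trans d.hQC) inf_le_right) inf_le_left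
  rw [hinf, hE1, d.hQcard] at h1
  have hsup : E ⊔ Q ≤ centralizer ({z} : Set G) := sup_le hEC d.hQC
  have hdvd : Nat.card (E ⊔ Q : Subgroup G) ∣ 1920 := d.hCcard ▸ Subgroup.card_dvd_of_le hsup
  have h2 : Nat.card ((E ⊔ Q : Subgroup G) : Set G) = Nat.card (E ⊔ Q : Subgroup G) := rfl
  rw [h2] at h1
  have hd2 : Nat.card (E ⊔ Q : Subgroup G) ∣ 512 := ⟨_, h1.symm⟩
  have hd3 : Nat.card (E ⊔ Q : Subgroup G) ∣ 128 := by
    have := Nat.dvd_gcd hdvd hd2
    simpa using this
  have hd4 := Nat.le_of_dvd (by norm_num) hd3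
  by_contra hne
  have hlt : Nat.card (Q ⊓ centralizer ({v} : Set G) : Subgroup G) ≤ 3 := by omega
  have := Nat.mul_le_mul hd4 hlt
  omega

/-- The Hall--Janko dichotomy: the pairs counted for `z`. -/
theorem key_z (d : Data z t Q V B) {v u : G} (hv : IsConj v t) (hvz : z * v = v * z) (huQ : u ∈ Q)
    (hu2 : u ^ 2 = 1) (hu1 : u ≠ 1) (huv : u * v ≠ v * u) : z ∈ zpowers (u * v) := by
  obtain ⟨hF1, hF2⟩ := F_facts d hv hvz
  obtain ⟨hvC, hv2, hvQ⟩ := J_props d hv hvz
  have hu3 : u⁻¹ = u := by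
    rw [pow_two] at hu2
    exact inv_eq_of_mul_eq_one_left hu2
  have hv3 := inv_eq_of_order hv2
  obtain ⟨y, hy⟩ : ∃ y, y = (u * v) ^ 2 := ⟨_, rfl⟩
  have hyQ : y ∈ Q := by
    have h1 : y = u * (v * u * v⁻¹) := by
      rw [hy, hv3, pow_two]; group
    rw [h1]
    exact Q.mul_mem huQ ((Subgroup.mem_normalizer_iff.mp (d.hQn hvC) u).mp huQ)
  have hym : y ∈ zpowers (u * v) := by
    rw [hy]; exact npow_mem_zpowers _ _
  rcases d.hsq y hyQ with h1 | h1
  · by_cases hyz : y = z
    · rw [← hyz]; exact hym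
    exfalso
    have hyi : y⁻¹ = y := inv_eq_of_mul_eq_one_left h1
    obtain ⟨hyu, hyv⟩ := comm_of_mem_zpowers hu3 hv3 hyi hym
    have hy1 : y ≠ 1 := by
      intro h
      rw [hy, pow_two] at h
      apply huv
      have h2 : (u * v)⁻¹ = u * v := inv_eq_of_mul_eq_one_left h
      rw [mul_inv_rev, hu3, hv3] at h2
      exact h2.symm
    have hyF : y ∈ (Q ⊓ centralizer ({v} : Set G) : Subgroup G) :=
      Subgroup.mem_inf.mpr ⟨hyQ, Subgroup.mem_centralizer_singleton_iff.mpr hyv.symm⟩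
    have hzF : z ∈ (Q ⊓ centralizer ({v} : Set G) : Subgroup G) :=
      Subgroup.mem_inf.mpr ⟨d.hzQ, Subgroup.mem_centralizer_singleton_iff.mpr hvz⟩
    have huF : u ∉ (Q ⊓ centralizer ({v} : Set G) : Subgroup G) := by
      intro h
      exact huv (Subgroup.mem_centralizer_singleton_iff.mp (Subgroup.mem_inf.mp h).2)
    have hzc : ∀ x ∈ Q, z * x = x * z := fun x hx =>
      (Subgroup.mem_centralizer_singleton_iff.mp (d.hQC hx)).symm
    obtain ⟨hz2, hz1⟩ := order_two_iff.mp d.hz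
    -- the subgroups
    have hA0c : ∀ a ∈ zpowers z, ∀ b ∈ zpowers z, a * b = b * a := by
      intro a ha b hb
      obtain ⟨i, rfl⟩ := Subgroup.mem_zpowers_iff.mp ha
      obtain ⟨j, rfl⟩ := Subgroup.mem_zpowers_iff.mp hb
      rw [← zpow_add, ← zpow_add, add_comm]
    have hA02 : ∀ a ∈ zpowers z, a ^ 2 = 1 := by
      intro a ha
      obtain ⟨i, rfl⟩ := Subgroup.mem_zpowers_iff.mp ha
      rw [← zpow_natCast, ← zpow_mul, mul_comm, zpow_mul, zpow_natCast, hz2, one_zpow]
    have hy2 : y ^ 2 = 1 := by rw [pow_two]; exact h1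
    have hA0y : ∀ a ∈ zpowers z, y * a = a * y := by
      intro a ha
      have h2 : zpowers z ≤ centralizer ({y} : Set G) := by
        rw [Subgroup.zpowers_le, Subgroup.mem_centralizer_singleton_iff]
        exact hzc y hyQ
      exact (Subgroup.mem_centralizer_singleton_iff.mp (h2 ha)).symm
    obtain ⟨hA1c, hA12⟩ := ea_sup hA0c hA02 hy2 hA0y
    have hA1F : zpowers z ⊔ zpowers y ≤ Q ⊓ centralizer ({v} : Set G) := by
      refine sup_le ?_ ?_
      · rw [Subgroup.zpowers_le]; exact hzF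
      · rw [Subgroup.zpowers_le]; exact hyF
    have hA1u : ∀ a ∈ zpowers z ⊔ zpowers y, u * a = a * u := by
      intro a ha
      have h2 : zpowers z ⊔ zpowers y ≤ centralizer ({u} : Set G) := by
        refine sup_le ?_ ?_
        · rw [Subgroup.zpowers_le, Subgroup.mem_centralizer_singleton_iff]
          exact hzc u huQ
        · rw [Subgroup.zpowers_le, Subgroup.mem_centralizer_singleton_iff]
          exact hyu.symm
      exact (Subgroup.mem_centralizer_singleton_iff.mp (h2 ha)).symm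
    obtain ⟨hA2c, hA22⟩ := ea_sup hA1c hA12 hu2 hA1u
    have hA2Q : (zpowers z ⊔ zpowers y) ⊔ zpowers u ≤ Q := by
      refine sup_le (hA1F.trans inf_le_left) ?_
      rw [Subgroup.zpowers_le]; exact huQ
    have h4 := d.hrank _ hA2Q hA2c hA22
    -- cardinalities
    have hc0 : Nat.card (zpowers z) = 2 := by rw [Nat.card_zpowers]; exact d.hz
    have hyn0 : y ∉ zpowers z := by
      intro h
      obtain ⟨i, hi⟩ := Subgroup.mem_zpowers_iff.mp h
      rcases zpow_invol hz2 i with h5 | h5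
      · rw [← hi, h5] at hy1; exact hy1 rfl
      · rw [← hi, h5] at hyz; exact hyz rfl
    have hlt : ∀ A : Subgroup G, ∀ x : G, x ∉ A → Nat.card A < Nat.card (A ⊔ zpowers x : Subgroup G) := by
      intro A x hx
      have h5 : A ≤ A ⊔ zpowers x := le_sup_left
      refine lt_of_le_of_ne (Nat.le_of_dvd Nat.card_pos (Subgroup.card_dvd_of_le h5)) ?_
      intro h6
      have h7 := Subgroup.eq_of_le_of_card_ge h5 h6.ge
      apply hx
      rw [h7]
      exact Subgroup.mem_sup_right (mem_zpowers x)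
    have hc1 := hlt (zpowers z) y hyn0
    rw [hc0] at hc1
    have hc2 := hlt (zpowers z ⊔ zpowers y) u (fun h => huF (hA1F h))
    -- the order of a subgroup of `Q` is a power of two
    have hdv : Nat.card (zpowers z ⊔ zpowers y : Subgroup G) ∣ 32 := by
      have := Subgroup.card_dvd_of_le (hA1F.trans inf_le_left)
      rwa [d.hQcard] at this
    have hc3 : Nat.card (zpowers z ⊔ zpowers y : Subgroup G) ≠ 3 := by
      intro h
      rw [h] at hdv
      omega
    omega
  · have h2 : z = (u * v) ^ 4 := by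
      rw [← h1, hy, ← pow_add]
    rw [h2]
    exact npow_mem_zpowers _ _

end Main

section Count

variable {G : Type*} [Group G] [Finite G] {z t : G} {Q V B : Subgroup G}

/-- Characterisation of the pairs counted for `z`. -/
theorem fib_z_iff (d : Data z t Q V B) {u v : G} :
    (u, v) ∈ fib z t z ↔ (IsConj v t ∧ z * v = v * z) ∧ u ∈ Q ∧ u ^ 2 = 1 ∧ u ≠ 1 ∧ u * v ≠ v * u := by
  rw [mem_fib]
  simp only
  obtain ⟨hz2, hz1⟩ := order_two_iff.mp d.hz
  constructor
  · rintro ⟨hu, hv, hm⟩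
    have hu2 := (orderOf_of_isConj hu).trans d.hz
    have hv2 := (orderOf_of_isConj hv).trans d.ht
    have hu3 := inv_eq_of_order hu2
    have hv3 := inv_eq_of_order hv2
    have huc := comm_of_mem_zpowers hu3 hv3 (inv_eq_of_order d.hz) hm
    have huC : u ∈ centralizer ({z} : Set G) := Subgroup.mem_centralizer_singleton_iff.mpr huc.1
    have huQ : u ∈ Q := by
      by_contra hno
      exact d.hzt (hu.symm.trans (d.hCz u huC hu2 hno))
    have hvQ : v ∉ Q := by
      intro h
      exact d.hzt ((d.hQz v h hv2).symm.trans hv)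
    obtain ⟨hu4, hu5⟩ := order_two_iff.mp hu2
    refine ⟨⟨hv, huc.2.symm⟩, huQ, hu4, hu5, ?_⟩
    intro hcomm
    -- then `u * v` is an involution and `z = u * v`
    have hcomm' : Commute u v := hcomm
    have hw2 : (u * v) ^ 2 = 1 := by
      rw [hcomm'.mul_pow, hu4, (order_two_iff.mp hv2).1, one_mul]
    obtain ⟨k, hk⟩ := Subgroup.mem_zpowers_iff.mp hm
    rcases zpow_invol hw2 k with h | h
    · rw [← hk] at hz1
      exact hz1 h
    · rw [h] at hk
      apply hvQ
      have h3 : v = u⁻¹ * z := by rw [← hk]; group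
      rw [h3]
      exact Q.mul_mem (Q.inv_mem huQ) d.hzQ
  · rintro ⟨⟨hv, hvz⟩, huQ, hu2, hu1, huv⟩
    exact ⟨d.hQz u huQ (order_two_iff.mpr ⟨hu2, hu1⟩), hv, key_z d hv hvz huQ hu2 hu1 huv⟩

/-- The elements `u`. -/
noncomputable def IQ (Q : Subgroup G) : Finset G := (Set.toFinite {u : G | u ∈ Q ∧ u ^ 2 = 1 ∧ u ≠ 1}).toFinset

theorem mem_IQ {u : G} : u ∈ IQ Q ↔ u ∈ Q ∧ u ^ 2 = 1 ∧ u ≠ 1 := by simp [IQ]

theorem card_IQ (d : Data z t Q V B) : (IQ Q).card = 11 := by
  have h1 : {u : G | u ∈ Q ∧ u ^ 2 = 1} = insert 1 ((IQ Q : Finset G) : Set G) := by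
    ext u
    simp only [Set.mem_setOf_eq, Set.mem_insert_iff, Finset.mem_coe, mem_IQ]
    constructor
    · rintro ⟨h2, h3⟩
      by_cases h4 : u = 1
      · exact Or.inl h4
      · exact Or.inr ⟨h2, h3, h4⟩
    · rintro (rfl | ⟨h2, h3, -⟩)
      · exact ⟨Q.one_mem, one_pow 2⟩
      · exact ⟨h2, h3⟩
  have h2 := d.hi
  rw [h1, Set.ncard_insert_of_notMem (by simp [mem_IQ]), Set.ncard_coe_finset] at h2
  omega

/-- The count of `u`, for a fixed `v`. -/
theorem card_inner (d : Data z t Q V B) {v : G} (hv : IsConj v t) (hvz : z * v = v * z) [DecidableEq G]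
    [DecidablePred fun u : G => u * v ≠ v * u] :
    ((IQ Q).filter (fun u : G => u * v ≠ v * u)).card = 8 := by
  classical
  obtain ⟨hF1, hF2⟩ := F_facts d hv hvz
  have h1 := Finset.card_filter_add_card_filter_not (s := IQ Q) (fun u : G => u * v = v * u)
  have h2 : ((IQ Q).filter (fun u : G => u * v = v * u)) =
      (Cfsg.Agent.Lib.Components.BW.fs (Q ⊓ centralizer ({v} : Set G) : Subgroup G)).erase 1 := by
    ext u
    rw [Finset.mem_filter, mem_IQ, Finset.mem_erase, Cfsg.Agent.Lib.Components.BW.mem_fs,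
      Subgroup.mem_inf, Subgroup.mem_centralizer_singleton_iff]
    constructor
    · rintro ⟨⟨h3, h4, h5⟩, h6⟩
      exact ⟨h5, h3, h6⟩
    · rintro ⟨h3, h4, h5⟩
      exact ⟨⟨h4, hF2 u (Subgroup.mem_inf.mpr ⟨h4, Subgroup.mem_centralizer_singleton_iff.mpr h5⟩), h3⟩, h5⟩
  have h3 : ((Cfsg.Agent.Lib.Components.BW.fs (Q ⊓ centralizer ({v} : Set G) : Subgroup G)).erase 1).card = 3 := by
    rw [Finset.card_erase_of_mem (Cfsg.Agent.Lib.Components.BW.mem_fs.mpr (Subgroup.one_mem _)),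
      Cfsg.Agent.Lib.Components.BW.card_fs, hF1]
  rw [h2, h3, card_IQ d] at h1
  have h4 : ((IQ Q).filter (fun u : G => u * v ≠ v * u)) = ((IQ Q).filter (fun u : G => ¬ u * v = v * u)) := rfl
  rw [h4]
  omega

/-- The involutions of `C(z) ∖ Q`, as a finset. -/
noncomputable def JJ (z t : G) : Finset G := (Set.toFinite {v : G | IsConj v t ∧ z * v = v * z}).toFinset

theorem mem_JJ {v : G} : v ∈ JJ z t ↔ IsConj v t ∧ z * v = v * z := by simp [JJ]

/-- Conjugation invariance of the commuting count. -/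
theorem card_JJ_conj (z t g : G) : (JJ (g * z * g⁻¹) t).card = (JJ z t).card := by
  refine Finset.card_nbij' (fun v => g⁻¹ * v * g) (fun v => g * v * g⁻¹) ?_ ?_ ?_ ?_
  · intro v hv
    have hv' := mem_JJ.mp (Finset.mem_coe.mp hv)
    apply Finset.mem_coe.mpr
    apply mem_JJ.mpr
    refine ⟨IsConj.trans (isConj_iff.mpr ⟨g, by group⟩) hv'.1, ?_⟩
    have h1 := hv'.2
    calc z * (g⁻¹ * v * g) = g⁻¹ * ((g * z * g⁻¹) * v) * g := by group
      _ = g⁻¹ * (v * (g * z * g⁻¹)) * g := by rw [h1]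
      _ = _ := by group
  · intro v hv
    have hv' := mem_JJ.mp (Finset.mem_coe.mp hv)
    apply Finset.mem_coe.mpr
    apply mem_JJ.mpr
    refine ⟨IsConj.trans (isConj_iff.mpr ⟨g⁻¹, by group⟩) hv'.1, ?_⟩
    have h1 := hv'.2
    calc (g * z * g⁻¹) * (g * v * g⁻¹) = g * (z * v) * g⁻¹ := by group
      _ = g * (v * z) * g⁻¹ := by rw [h1]
      _ = _ := by group
  · intro v _
    simp only
    group
  · intro v _
    simp only
    group

/-- Double counting of commuting pairs. -/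
theorem card_double (z t : G) : (cls z).card * (JJ z t).card = (cls t).card * (JJ t z).card := by
  classical
  have h1 := Finset.sum_card_bipartiteAbove_eq_sum_card_bipartiteBelow (s := cls z) (t := cls t)
    (fun x y : G => x * y = y * x)
  have h2 : ∀ x ∈ cls z, (Finset.bipartiteAbove (fun x y : G => x * y = y * x) (cls t) x).card = (JJ z t).card := by
    intro x hx
    obtain ⟨g, rfl⟩ := isConj_iff.mp (mem_cls.mp hx).symm
    rw [← card_JJ_conj z t g]
    congr 1
    ext y
    rw [Finset.mem_bipartiteAbove, mem_cls, mem_JJ]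
  have h3 : ∀ y ∈ cls t, (Finset.bipartiteBelow (fun x y : G => x * y = y * x) (cls z) y).card = (JJ t z).card := by
    intro y hy
    obtain ⟨g, rfl⟩ := isConj_iff.mp (mem_cls.mp hy).symm
    rw [← card_JJ_conj t z g]
    congr 1
    ext x
    rw [Finset.mem_bipartiteBelow, mem_cls, mem_JJ]
    constructor
    · rintro ⟨h4, h5⟩
      exact ⟨h4, h5.symm⟩
    · rintro ⟨h4, h5⟩
      exact ⟨h4, h5.symm⟩
  rw [Finset.sum_congr rfl h2, Finset.sum_congr rfl h3, Finset.sum_const, Finset.sum_const,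
    smul_eq_mul, smul_eq_mul] at h1
  exact h1

theorem card_JJ_tz (d : Data z t Q V B) : (JJ t z).card = 15 := by
  rw [← d.hF.invs, ← Set.ncard_coe_finset]
  congr 1
  ext x
  simp only [Finset.mem_coe, mem_JJ, Set.mem_setOf_eq]
  constructor
  · rintro ⟨h1, h2⟩
    have h3 := (orderOf_of_isConj h1).trans d.hz
    have hxB : x ∈ B := by
      by_contra hno
      exact d.hzt (h1.symm.trans (d.hCt x (Subgroup.mem_centralizer_singleton_iff.mpr h2.symm) h3 hno))
    obtain ⟨h4, h5⟩ := order_two_iff.mp h3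
    exact ⟨hxB, h4, h5⟩
  · rintro ⟨h1, h2, h3⟩
    refine ⟨d.hBz x h1 (order_two_iff.mpr ⟨h2, h3⟩), ?_⟩
    exact d.hVB.2.2.1 t d.htV x h1

theorem card_Ct (d : Data z t Q V B) : Nat.card (centralizer ({t} : Set G)) = 240 := by
  rw [card_centralizer_t d.hVB, d.hV, d.hF.card]

theorem card_JJ_zt (d : Data z t Q V B) : (JJ z t).card = 120 := by
  have h1 := card_double z t
  rw [card_JJ_tz d] at h1
  have h2 := card_cls z
  have h3 := card_cls t
  rw [d.hCcard] at h2
  rw [card_Ct d] at h3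
  have h4 : (cls t).card = 8 * (cls z).card := by omega
  rw [h4] at h1
  have hpos : 0 < (cls z).card := by
    by_contra h
    have h5 : (cls z).card = 0 := by omega
    rw [h5] at h2
    have : 0 < Nat.card G := Nat.card_pos
    omega
  have h5 : (cls z).card * (JJ z t).card = (cls z).card * 120 := by
    rw [h1]; ring
  exact Nat.eq_of_mul_eq_mul_left hpos h5

theorem card_fib_z (d : Data z t Q V B) : (fib z t z).card = 960 := by
  classical
  have h1 := Finset.card_eq_sum_card_fiberwise (f := fun p : G × G => p.2) (s := fib z t z) (t := JJ z t)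
    (by
      rintro ⟨u, v⟩ hp
      have := (fib_z_iff d).mp (Finset.mem_coe.mp hp)
      exact Finset.mem_coe.mpr (mem_JJ.mpr this.1))
  have h2 : ∀ v ∈ JJ z t, ((fib z t z).filter (fun p : G × G => p.2 = v)).card = 8 := by
    intro v hv
    have hv' := mem_JJ.mp hv
    rw [← card_inner d hv'.1 hv'.2]
    refine Finset.card_nbij' (fun p => p.1) (fun u => (u, v)) ?_ ?_ ?_ ?_
    · rintro ⟨u, w⟩ hp
      have hp' := Finset.mem_filter.mp (Finset.mem_coe.mp hp)
      simp only at hp'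
      obtain ⟨h3, rfl⟩ := hp'
      have h4 := (fib_z_iff d).mp h3
      apply Finset.mem_coe.mpr
      rw [Finset.mem_filter, mem_IQ]
      exact ⟨⟨h4.2.1, h4.2.2.1, h4.2.2.2.1⟩, h4.2.2.2.2⟩
    · intro u hu
      have hu' := Finset.mem_filter.mp (Finset.mem_coe.mp hu)
      have h3 := mem_IQ.mp hu'.1
      apply Finset.mem_coe.mpr
      rw [Finset.mem_filter]
      exact ⟨(fib_z_iff d).mpr ⟨hv', h3.1, h3.2.1, h3.2.2, hu'.2⟩, rfl⟩
    · rintro ⟨u, w⟩ hp
      have hp' := Finset.mem_filter.mp (Finset.mem_coe.mp hp)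
      simp only at hp'
      rw [hp'.2]
    · intro u _
      rfl
  rw [Finset.sum_congr rfl h2, Finset.sum_const, smul_eq_mul, card_JJ_zt d] at h1
  exact h1

/-- The abstract order computation. -/
theorem order_of_data (d : Data z t Q V B) : Nat.card G = 604800 := by
  have h1 := thompson_formula d.hz d.ht d.hzt d.hcl
  rw [card_fib_z d, fib_t_card d.hz d.ht d.hzt d.hVB d.hV2 d.htV d.hF d.hBz d.hCt, card_Ct d, d.hCcard] at h1
  omega

end Count

section Extract

open Cfsg

variable {E : Type*} [Group E] [Finite E]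

/-- An automorphism of order five of an extraspecial group of order 32. -/
theorem extr_mod5 (hE : IsExtraspecial 2 E) (hc : Nat.card E = 32) (σ : E ≃* E) (hσ : σ ^ 5 = 1)
    (hσ1 : σ ≠ 1) : Nat.card {x : E // x ^ 2 = 1} = 12 ∧ PRankLE 2 2 E := by
  classical
  haveI := Fintype.ofFinite E
  haveI : Fact (Nat.Prime 5) := ⟨by norm_num⟩
  have hσpow : ∀ x : E, (σ ^ 5) x = x := by rw [hσ]; exact fun x => rfl
  have hσpow' : ∀ x : E, σ (σ (σ (σ (σ x)))) = x := hσpow
  -- fixed points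
  let H : Subgroup E :=
    { carrier := {x | σ x = x}
      one_mem' := map_one σ
      mul_mem' := by
        intro a b ha hb
        show σ (a * b) = a * b
        rw [map_mul, show σ a = a from ha, show σ b = b from hb]
      inv_mem' := by
        intro a ha
        show σ a⁻¹ = a⁻¹
        rw [map_inv, show σ a = a from ha] }
  have hHmem : ∀ x, x ∈ H ↔ σ x = x := fun x => Iff.rfl
  -- the action on `E`
  let f : Function.End E := fun x => σ x
  have hf : f ^ 5 ^ 1 = 1 := by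
    funext x
    exact hσpow' x
  have hmod := Equiv.Perm.card_fixedPoints_modEq (p := 5) (n := 1) hf
  have hcardfix : Fintype.card (Function.fixedPoints f) = Nat.card H := by
    rw [← Nat.card_eq_fintype_card]
    apply Nat.card_congr
    exact Equiv.subtypeEquivRight (fun x => Iff.rfl)
  rw [hcardfix, ← Nat.card_eq_fintype_card, hc] at hmod
  have hdvd : Nat.card H ∣ 32 := hc ▸ Subgroup.card_subgroup_dvd_card H
  have hH2 : Nat.card H = 2 := by
    have h32 : Nat.card H ≠ 32 := by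
      intro h
      apply hσ1
      have htop : H = ⊤ := Subgroup.eq_top_of_card_eq H (by rw [h, hc])
      ext x
      have : x ∈ H := by rw [htop]; trivial
      exact this
    have h1 : Nat.card H ≤ 32 := Nat.le_of_dvd (by norm_num) hdvd
    have hm : 32 % 5 = Nat.card H % 5 := hmod
    interval_cases h : Nat.card H <;> first | rfl | omega | (exfalso; revert hdvd; decide)
  -- the action on the square roots of one
  let f' : Function.End {x : E // x ^ 2 = 1} := fun x => ⟨σ x.1, by rw [← map_pow, x.2, map_one]⟩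
  have hf' : f' ^ 5 ^ 1 = 1 := by
    funext x
    apply Subtype.ext
    exact hσpow' x.1
  have hmod' := Equiv.Perm.card_fixedPoints_modEq (p := 5) (n := 1) hf'
  have hcardfix' : Fintype.card (Function.fixedPoints f') = Nat.card H := by
    rw [← Nat.card_eq_fintype_card]
    apply Nat.card_congr
    refine ⟨fun x => ⟨x.1.1, ?_⟩, fun x => ⟨⟨x.1, ?_⟩, ?_⟩, ?_, ?_⟩
    · exact congrArg Subtype.val x.2
    · -- elements of `H` have square one
      have h1 : ((x : H) ^ Nat.card H : H) = 1 := pow_card_eq_one'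
      rw [hH2] at h1
      have h2 := congrArg Subtype.val h1
      simpa using h2
    · apply Subtype.ext
      exact x.2
    · intro x; rfl
    · intro x; rfl
  rw [hcardfix', hH2, ← Nat.card_eq_fintype_card] at hmod'
  have hmod2 : Nat.card {x : E // x ^ 2 = 1} % 5 = 2 := hmod'
  have hn : Nat.card E = 2 ^ (2 * 2 + 1) := by rw [hc]; norm_num
  rcases Cfsg.Agent.Lib.Basic.extraspecial2_rank_cases hE 2 hn with ⟨h1, -, -⟩ | ⟨h1, h2, -⟩
  · have h3 : Nat.card {x : E // x ^ 2 = 1} = 20 := h1.trans (by norm_num)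
    omega
  · have h3 : Nat.card {x : E // x ^ 2 = 1} = 12 := h1.trans (by norm_num)
    exact ⟨h3, h2⟩

variable {G : Type*} [Group G] [Finite G]

/-- The extraction of the data. -/
theorem data_of_hyps {z t : G} (hz : orderOf z = 2) (ht : orderOf t = 2)
    (hzt : ¬ IsConj z t) (hcl : ∀ x : G, orderOf x = 2 → IsConj x z ∨ IsConj x t)
    (hex : IsExtraspecial 2 ↥(generalizedFittingSubgroup ↥(centralizer ({z} : Set G))))
    (hQ : Nat.card ↥(pCore 2 ↥(centralizer ({z} : Set G))) = 32)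
    (K : Subgroup G) (hK : Nonempty (↥K ≃* alternatingGroup (Fin 5)))
    (hKC : K ⊔ (pCore 2 ↥(centralizer ({z} : Set G))).map (centralizer ({z} : Set G)).subtype = centralizer ({z} : Set G))
    (hKQ : K ⊓ (pCore 2 ↥(centralizer ({z} : Set G))).map (centralizer ({z} : Set G)).subtype = ⊥)
    (hQz : ∀ x ∈ (pCore 2 ↥(centralizer ({z} : Set G))).map (centralizer ({z} : Set G)).subtype, orderOf x = 2 → IsConj x z)
    (hCz : ∀ x ∈ centralizer ({z} : Set G), orderOf x = 2 →
      x ∉ (pCore 2 ↥(centralizer ({z} : Set G))).map (centralizer ({z} : Set G)).subtype → IsConj x t)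
    (V B : Subgroup G) (hVB : IsInternalDirectProduct V B (centralizer ({t} : Set G)))
    (hV : Nat.card ↥V = 4) (hV2 : ∀ v ∈ V, v ^ 2 = 1) (htV : t ∈ V) (hB : Nonempty (↥B ≃* alternatingGroup (Fin 5)))
    (hBz : ∀ x ∈ B, orderOf x = 2 → IsConj x z)
    (hCt : ∀ x ∈ centralizer ({t} : Set G), orderOf x = 2 → x ∉ B → IsConj x t) :
    Data z t ((pCore 2 ↥(centralizer ({z} : Set G))).map (centralizer ({z} : Set G)).subtype) V B := by
  classical
  haveI : Fact (Nat.Prime 2) := ⟨Nat.prime_two⟩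
  obtain ⟨C, hC⟩ : ∃ C : Subgroup G, C = centralizer ({z} : Set G) := ⟨_, rfl⟩
  rw [← hC] at hex hQ hKC hKQ hQz hCz ⊢
  have hzC : z ∈ C := by
    rw [hC, Subgroup.mem_centralizer_singleton_iff]
  obtain ⟨O, hO⟩ : ∃ O : Subgroup ↥C, O = pCore 2 ↥C := ⟨_, rfl⟩
  rw [← hO] at hQ hKC hKQ hQz hCz ⊢
  haveI hOn : O.Normal := hO ▸ Cfsg.Agent.Lib.Basic.pCore_normal 2
  -- `F* = O`
  have hFO : generalizedFittingSubgroup ↥C = O := by
    apply le_antisymm
    · rw [hO]
      exact Cfsg.Agent.Lib.Basic.le_pCore Cfsg.Agent.Lib.Components.gfit_normal hex.1.1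
    · rw [hO]
      exact (Cfsg.Agent.Lib.Basic.pCore_le_fittingSubgroup 2).trans Cfsg.Agent.Lib.Components.fitting_le_gfit
  rw [hFO] at hex
  have hOcent : centralizer (O : Set ↥C) ≤ O := by
    rw [← hFO]
    exact Cfsg.Agent.Lib.Components.centralizer_gfit_le
  -- `z` lies in `O`
  obtain ⟨z', hz'⟩ : ∃ z' : ↥C, (z' : G) = z := ⟨⟨z, hzC⟩, rfl⟩
  have hz'c : ∀ x : ↥C, x * z' = z' * x := by
    intro x
    apply Subtype.ext
    have h1 : (x : G) ∈ centralizer ({z} : Set G) := hC ▸ x.2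
    rw [Subgroup.coe_mul, Subgroup.coe_mul, hz']
    exact Subgroup.mem_centralizer_singleton_iff.mp h1
  have hz'O : z' ∈ O := by
    have hord : orderOf z' = 2 := by
      have h1 : orderOf (z' : G) = orderOf z' := Subgroup.orderOf_coe z'
      rw [← h1, hz']; exact hz
    have hnorm : (zpowers z').Normal := by
      constructor
      intro n hn g
      obtain ⟨k, rfl⟩ := Subgroup.mem_zpowers_iff.mp hn
      have h1 : g * z' ^ k * g⁻¹ = z' ^ k := by
        have h2 : Commute g z' := hz'c g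
        rw [(h2.zpow_right k).eq]; group
      rw [h1]
      exact ⟨k, rfl⟩
    have hp : IsPGroup 2 (zpowers z') := by
      apply IsPGroup.of_card (n := 1)
      rw [Nat.card_zpowers, hord, pow_one]
    have h1 := Cfsg.Agent.Lib.Basic.le_pCore hnorm hp
    rw [hO]
    exact h1 (mem_zpowers z')
  -- the ambient embedding
  let ι : ↥O →* G := C.subtype.comp O.subtype
  have hι : Function.Injective ι := C.subtype_injective.comp O.subtype_injective
  have hrange : O.map C.subtype = ι.range := by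
    ext x
    constructor
    · rintro ⟨y, hy, rfl⟩
      exact ⟨⟨y, hy⟩, rfl⟩
    · rintro ⟨y, rfl⟩
      exact ⟨y, y.2, rfl⟩
  have hES : Cfsg.Agent.Lib.TwoFusion.ES (O.map C.subtype) z := by
    refine Cfsg.Agent.Lib.TwoFusion.ES.of_extraspecial hex ι hι hrange (t₀ := ⟨z', hz'O⟩) hz' ?_ ?_
    · intro s
      apply Subtype.ext
      exact hz'c _
    · intro h
      have h1 : z' = 1 := congrArg Subtype.val h
      have h2 : z = 1 := by rw [← hz', h1]; rfl
      rw [h2, orderOf_one] at hz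
      omega
  have hQcard : Nat.card (O.map C.subtype : Subgroup G) = 32 := by
    rw [Subgroup.card_map_of_injective C.subtype_injective, hQ]
  have hQn : C ≤ normalizer ((O.map C.subtype : Subgroup G) : Set G) := by
    have h1 := Subgroup.le_normalizer_map (H := O) C.subtype
    have h2 : normalizer (O : Set ↥C) = ⊤ := Subgroup.normalizer_eq_top_iff.mpr hOn
    rw [h2, ← MonoidHom.range_eq_map, Subgroup.range_subtype] at h1
    exact h1
  -- the element of order five
  obtain ⟨e⟩ := hK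
  have hKcard : Nat.card K = 60 := by rw [Nat.card_congr e.toEquiv, a5_card]
  haveI : Fact (Nat.Prime 5) := ⟨by norm_num⟩
  obtain ⟨f₀, hf₀⟩ := exists_prime_orderOf_dvd_card' (G := K) 5 (by rw [hKcard]; norm_num)
  have hKle : K ≤ C := by
    rw [← hKC]; exact le_sup_left
  obtain ⟨f', hf'⟩ : ∃ f' : ↥C, (f' : G) = (f₀ : G) := ⟨⟨f₀, hKle f₀.2⟩, rfl⟩
  have hf'5 : f' ^ 5 = 1 := by
    apply Subtype.ext
    rw [Subgroup.coe_pow, hf', Subgroup.coe_one]
    have h1 := pow_orderOf_eq_one f₀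
    rw [hf₀] at h1
    have h2 := congrArg Subtype.val h1
    simpa using h2
  have hσ1 : (MulAut.conjNormal f' : ↥O ≃* ↥O) ≠ 1 := by
    intro h
    have h1 : f' ∈ centralizer (O : Set ↥C) := by
      rw [Subgroup.mem_centralizer_iff]
      intro x hx
      have h2 := congrArg (fun σ : ↥O ≃* ↥O => ((σ ⟨x, hx⟩ : ↥O) : ↥C)) h
      simp only [MulAut.conjNormal_apply, MulAut.one_apply] at h2
      rw [mul_inv_eq_iff_eq_mul] at h2
      exact h2.symm
    have h3 : (f₀ : G) ∈ K ⊓ O.map C.subtype := ⟨f₀.2, ⟨f', hOcent h1, hf'⟩⟩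
    rw [hKQ, Subgroup.mem_bot] at h3
    have h4 : f₀ = 1 := Subtype.ext h3
    rw [h4, orderOf_one] at hf₀
    omega
  have hσ5 : (MulAut.conjNormal f' : ↥O ≃* ↥O) ^ 5 = 1 := by
    rw [← map_pow, hf'5, map_one]
  obtain ⟨hi, hr⟩ := extr_mod5 hex hQ _ hσ5 hσ1
  -- the assembly
  refine ⟨hz, ht, hzt, hcl, ?_, ?_, ?_, ?_, ?_, hQcard, ?_, ?_, hQz, ?_, hVB, hV, hV2, htV, ?_, hBz, hCt⟩
  · rw [← hC]; exact Subgroup.map_subtype_le _
  · rw [← hC]; exact hQn
  · exact ⟨z', hz'O, hz'⟩
  · exact hES.sq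
  · -- the order of `C(z)`
    rw [← hC]
    have h1 := Cfsg.Agent.Lib.Components.BW.card_setmul K (O.map C.subtype)
    have hKn : K ≤ normalizer ((O.map C.subtype : Subgroup G) : Set G) := hKle.trans hQn
    rw [← Subgroup.coe_mul_of_left_le_normalizer_right K _ hKn, hKC, hKQ, Subgroup.card_bot, mul_one,
      hKcard, hQcard] at h1
    exact h1
  · -- the number of square roots of one
    rw [← hi, ← Nat.card_coe_set_eq]
    let φ : {x : ↥O // x ^ 2 = 1} → ({u : G | u ∈ O.map C.subtype ∧ u ^ 2 = 1} : Set G) := fun x =>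
      ⟨ι x.1, ⟨x.1.1, x.1.2, rfl⟩, by rw [← map_pow, x.2, map_one]⟩
    have hφ : Function.Bijective φ := by
      constructor
      · intro a b hab
        have h1 := congrArg Subtype.val hab
        exact Subtype.ext (hι h1)
      · rintro ⟨u, ⟨y, hy, rfl⟩, hu2⟩
        refine ⟨⟨⟨y, hy⟩, ?_⟩, ?_⟩
        · apply Subtype.ext
          apply Subtype.ext
          simpa using hu2
        · rfl
    exact (Nat.card_congr (Equiv.ofBijective φ hφ)).symm
  · -- the rank
    intro A hA hAc hA2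
    have hr' := hr (A.comap ι) ⟨⟨fun a b => Subtype.ext (hι (by
        have h1 := hAc _ a.2 _ b.2
        simpa [map_mul] using h1))⟩⟩ (fun a ha => hι (by
        have h1 := hA2 _ ha
        simpa [map_pow] using h1))
    have h1 : (A.comap ι).map ι = A := Subgroup.map_comap_eq_self (hrange ▸ hA)
    have h2 : Nat.card (A.comap ι : Subgroup ↥O) = Nat.card A := by
      rw [← Subgroup.card_map_of_injective hι, h1]
    rw [h2] at hr'
    simpa using hr'
  · rw [← hC]; exact hCz
  · exact a5Facts (Classical.choice hB)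

end Extract


end Helpers


/-- The order of a simple group with the involution pattern of the Hall–Janko group. Let G be a non-abelian finite simple group with exactly two conjugacy classes of involutions, represented by z and t, such that: F*(C_G(z)) is an extraspecial 2-group; Q = O₂(C_G(z)) has order 32 and C_G(z) is the semidirect product of Q by a subgroup isomorphic to A₅; every involution of Q is conjugate to z and every other involution of C_G(z) is conjugate to t; C_G(t) is an internal direct product V × B with V a four-group containing t and B ≅ A₅; every involution of B is conjugate to z and every other involution of C_G(t) is conjugate to t. Then |G| = 604800. -/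
theorem result {G : Type*} [Group G] [Finite G]
    [IsSimpleGroup G] (hna : ¬ IsMulCommutative G) (z t : G) (hz : orderOf z = 2) (ht : orderOf t = 2)
    (hzt : ¬ IsConj z t) (hcl : ∀ x : G, orderOf x = 2 → IsConj x z ∨ IsConj x t)
    (hex : Cfsg.IsExtraspecial 2 ↥(Cfsg.generalizedFittingSubgroup ↥(Subgroup.centralizer ({z} : Set G))))
    (hQ : Nat.card ↥(Cfsg.pCore 2 ↥(Subgroup.centralizer ({z} : Set G))) = 32)
    (K : Subgroup G) (hK : Nonempty (↥K ≃* alternatingGroup (Fin 5)))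
    (hKC : K ⊔ (Cfsg.pCore 2 ↥(Subgroup.centralizer ({z} : Set G))).map (Subgroup.centralizer ({z} : Set G)).subtype = Subgroup.centralizer ({z} : Set G))
    (hKQ : K ⊓ (Cfsg.pCore 2 ↥(Subgroup.centralizer ({z} : Set G))).map (Subgroup.centralizer ({z} : Set G)).subtype = ⊥)
    (hQz : ∀ x ∈ (Cfsg.pCore 2 ↥(Subgroup.centralizer ({z} : Set G))).map (Subgroup.centralizer ({z} : Set G)).subtype, orderOf x = 2 → IsConj x z)
    (hCz : ∀ x ∈ Subgroup.centralizer ({z} : Set G), orderOf x = 2 →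
      x ∉ (Cfsg.pCore 2 ↥(Subgroup.centralizer ({z} : Set G))).map (Subgroup.centralizer ({z} : Set G)).subtype → IsConj x t)
    (V B : Subgroup G) (hVB : Cfsg.IsInternalDirectProduct V B (Subgroup.centralizer ({t} : Set G)))
    (hV : Nat.card ↥V = 4) (hV2 : ∀ v ∈ V, v ^ 2 = 1) (htV : t ∈ V) (hB : Nonempty (↥B ≃* alternatingGroup (Fin 5)))
    (hBz : ∀ x ∈ B, orderOf x = 2 → IsConj x z)
    (hCt : ∀ x ∈ Subgroup.centralizer ({t} : Set G), orderOf x = 2 → x ∉ B → IsConj x t) :
    Nat.card G = 604800 := by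
  exact order_of_data (data_of_hyps hz ht hzt hcl hex hQ K hK hKC hKQ hQz hCz V B hVB hV hV2 htV hB hBz hCt)

end Cfsg.Agent.S3313
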