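import Cfsg.Statements.S3315
import Mathlib
import Cfsg.Agent.Lib.Components.SU3

set_option autoImplicit false
open Cfsg

namespace Cfsg.Agent.S3315

/-- Let S be a Sylow 2-subgroup of SU₃(2ⁿ), n ≥ 2 (realised over the field with 4ⁿ elements). If a finite 2-group R contains a subgroup S' of index 2 isomorphic to S, then the centre of S' is contained in the centre of R. -/
theorem result {R : Type*} [Group R] [Finite R]
    (hR : IsPGroup 2 R) (n : ℕ) (hn : 2 ≤ n) {F : Type*} [Field F] [Fintype F] (hF : Fintype.card F = 4 ^ n)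
    (P : Sylow 2 ↥(Cfsg.SU 3 F (2 ^ n))) (S' : Subgroup R) (hS : Nonempty (↥S' ≃* ↥(P : Subgroup ↥(Cfsg.SU 3 F (2 ^ n)))))
    (hidx : S'.index = 2) :
    (Subgroup.center ↥S').map S'.subtype ≤ Subgroup.center R := by
  classical
  have hF' : Fintype.card F = (2 ^ n) ^ 2 := by
    rw [hF, ← pow_mul, mul_comm, pow_mul]
    norm_num
  have h2 : (2 : F) = 0 := Cfsg.Agent.Lib.Components.SU3.char_two_of_card hF' rfl
  obtain ⟨aa, cc, hc⟩ := Cfsg.Agent.Lib.Components.SU3.exists_coords hF' rfl P
  obtain ⟨e⟩ := hS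
  have hc' := hc.congr e
  haveI hnorm : S'.Normal := Subgroup.normal_of_index_eq_two hidx
  intro z hz
  obtain ⟨z', hz', rfl⟩ := hz
  have hz0 : aa (e z') = 0 := hc'.aa_of_central h2 hF' (fun y => by
    have := (Subgroup.mem_center_iff.mp hz') y
    exact this.symm)
  -- conjugation by an element outside
  have key : ∀ t : R, t ∉ S' → t * (z' : R) * t⁻¹ = z' := by
    intro t ht
    have hts : t ^ 2 ∈ S' := Subgroup.sq_mem_of_index_two hidx t
    let τ : ↥S' ≃* ↥S' := MulAut.conjNormal t
    have hτ : ∀ x : ↥S', ((τ x : ↥S') : R) = t * x * t⁻¹ := fun x => MulAut.conjNormal_apply t x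
    have h3 := hc'.center_fixed h2 hF' τ ⟨t ^ 2, hts⟩ (fun x => by
      apply Subtype.ext
      rw [hτ, hτ]
      push_cast
      rw [pow_two, mul_inv_rev]
      simp only [mul_assoc]) hz0
    have h4 := congrArg (Subtype.val) h3
    rw [hτ] at h4
    exact h4
  rw [Subgroup.mem_center_iff]
  intro r
  by_cases hr : r ∈ S'
  · have := (Subgroup.mem_center_iff.mp hz') ⟨r, hr⟩
    exact congrArg Subtype.val this
  · have h5 := key r hr
    show r * (z' : R) = (z' : R) * r
    rw [mul_inv_eq_iff_eq_mul] at h5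
    exact h5

end Cfsg.Agent.S3315
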