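import Cfsg.Statements.S3335
import Mathlib

set_option autoImplicit false
open Cfsg

namespace Cfsg.Agent.S3335

open Equiv

section ub

universe u

variable {Q : Type u} [Group Q]

/-- The relations. -/
structure Rels (x : ℕ → Q) (N : ℕ) : Prop where
  h0 : 0 < N → x 0 ^ 3 = 1
  h1 : ∀ i, 1 ≤ i → i < N → x i ^ 2 = 1
  h2 : ∀ i, i + 1 < N → (x i * x (i + 1)) ^ 3 = 1
  h3 : ∀ i j, i + 1 < j → j < N → (x i * x j) ^ 2 = 1

/-- Descending products. -/
def Dk (x : ℕ → Q) (N : ℕ) : ℕ → Q
  | 0 => 1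
  | k + 1 => Dk x N k * x (N - k)

/-- Descending products `x N * ... * x m`. -/
def Dm (x : ℕ → Q) (N m : ℕ) : Q := Dk x N (N + 1 - m)

lemma Dm_top (x : ℕ → Q) (N : ℕ) : Dm x N (N + 1) = 1 := by
  simp [Dm, Dk]

lemma Dm_succ (x : ℕ → Q) (N m : ℕ) (hm : m ≤ N) : Dm x N m = Dm x N (m + 1) * x m := by
  unfold Dm
  rw [show N + 1 - m = (N + 1 - (m + 1)) + 1 by omega, Dk]
  congr 2
  omega

lemma aux1 {a u : Q} (hu : u * u = 1) (h : a * u * (a * u) = 1) : u * a = a⁻¹ * u := by
  have h1 : a * (u * a) * u = 1 := by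
    rw [← h]
    group
  have h2 : u⁻¹ = u := inv_eq_of_mul_eq_one_left hu
  calc u * a = a⁻¹ * (a * (u * a) * u) * u⁻¹ := by group
    _ = a⁻¹ * u := by rw [h1, h2, mul_one]

lemma aux2 {a u : Q} (hu : u * u = 1) (h : a * u * (a * u) = 1) : u * a⁻¹ = a * u := by
  have h1 := aux1 hu h
  calc u * a⁻¹ = a * (a⁻¹ * u) * a⁻¹ := by group
    _ = a * (u * a) * a⁻¹ := by rw [h1]
    _ = a * u := by group

lemma aux3 {a b : Q} (hb : b * b = 1) (h : (a * b) ^ 3 = 1) : b * a * b = a⁻¹ * b * a⁻¹ := by
  have h1 : a * (b * a * b) * (a * b) = 1 := by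
    rw [← h]
    simp only [pow_succ, pow_zero, one_mul, mul_assoc]
  have h2 : b⁻¹ = b := inv_eq_of_mul_eq_one_left hb
  calc b * a * b = a⁻¹ * (a * (b * a * b) * (a * b)) * b⁻¹ * a⁻¹ := by group
    _ = a⁻¹ * b * a⁻¹ := by rw [h1, h2, mul_one]

lemma aux4 {a b : Q} (hb : b * b = 1) (h : (a * b) ^ 3 = 1) : b * a⁻¹ * b = a * b * a := by
  have h1 := aux3 hb h
  have h2 : b⁻¹ = b := inv_eq_of_mul_eq_one_left hb
  have h3 := congrArg (fun z => z⁻¹) h1
  simp only [mul_inv_rev, inv_inv, h2] at h3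
  simpa [mul_assoc] using h3

section rels

variable {x : ℕ → Q} {N : ℕ} (hR : Rels x (N + 1))

include hR

lemma inv_eq (i : ℕ) (h1 : 1 ≤ i) (h2 : i ≤ N) : x i * x i = 1 := by
  have := hR.h1 i h1 (by omega)
  rwa [pow_two] at this

lemma comm_far (i j : ℕ) (h1 : 1 ≤ i) (hij : i + 1 < j) (hj : j ≤ N) : x i * x j = x j * x i := by
  have h := hR.h3 i j hij (by omega)
  have hi := inv_eq hR i h1 (by omega)
  have hj' := inv_eq hR j (by omega) hj
  rw [pow_two] at h
  have h4 : x i * x j * (x j * x i) = 1 := by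
    calc x i * x j * (x j * x i) = x i * (x j * x j) * x i := by group
      _ = 1 := by rw [hj', mul_one, hi]
  exact mul_left_cancel (h.trans h4.symm)

lemma inv_far (j : ℕ) (hj2 : 2 ≤ j) (hj : j ≤ N) : x j * x 0 = (x 0)⁻¹ * x j := by
  have h := hR.h3 0 j (by omega) (by omega)
  have hj' := inv_eq hR j (by omega) hj
  rw [pow_two] at h
  exact aux1 hj' h

lemma inv_far' (j : ℕ) (hj2 : 2 ≤ j) (hj : j ≤ N) : x j * (x 0)⁻¹ = x 0 * x j := by
  have h := hR.h3 0 j (by omega) (by omega)
  have hj' := inv_eq hR j (by omega) hj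
  rw [pow_two] at h
  exact aux2 hj' h

lemma braid (i : ℕ) (h1 : 1 ≤ i) (h2 : i + 1 ≤ N) : x (i + 1) * x i * x (i + 1) = x i * x (i + 1) * x i := by
  have h := hR.h2 i (by omega)
  have hi := inv_eq hR i h1 (by omega)
  have hj := inv_eq hR (i + 1) (by omega) h2
  have h3 := aux3 hj h
  have h4 : (x i)⁻¹ = x i := inv_eq_of_mul_eq_one_left hi
  rwa [h4] at h3

lemma D_comm (a : ℕ) (ha : 1 ≤ a) : ∀ (k m : ℕ), N + 1 - m = k → a + 1 < m → m ≤ N + 1 →
    Dm x N m * x a = x a * Dm x N m := by
  intro k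
  induction k with
  | zero =>
    intro m hk _ hm
    have : m = N + 1 := by omega
    subst this
    rw [Dm_top]
    simp
  | succ k ih =>
    intro m hk ham hm
    rw [Dm_succ x N m (by omega)]
    have h1 := ih (m + 1) (by omega) (by omega) (by omega)
    calc Dm x N (m + 1) * x m * x a = Dm x N (m + 1) * (x m * x a) := by group
      _ = Dm x N (m + 1) * (x a * x m) := by rw [comm_far hR a m ha ham (by omega)]
      _ = (Dm x N (m + 1) * x a) * x m := by group
      _ = x a * (Dm x N (m + 1) * x m) := by rw [h1]; group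

lemma D_x0 : ∀ (k m : ℕ), N + 1 - m = k → 2 ≤ m → m ≤ N + 1 →
    (Dm x N m * x 0 = x 0 * Dm x N m ∧ Dm x N m * (x 0)⁻¹ = (x 0)⁻¹ * Dm x N m) ∨
    (Dm x N m * x 0 = (x 0)⁻¹ * Dm x N m ∧ Dm x N m * (x 0)⁻¹ = x 0 * Dm x N m) := by
  intro k
  induction k with
  | zero =>
    intro m hk _ hm
    have : m = N + 1 := by omega
    subst this
    rw [Dm_top]
    left
    simp
  | succ k ih =>
    intro m hk hm2 hm
    rw [Dm_succ x N m (by omega)]
    have e1 := inv_far hR m hm2 (by omega)
    have e2 := inv_far' hR m hm2 (by omega)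
    rcases ih (m + 1) (by omega) (by omega) (by omega) with ⟨h1, h2⟩ | ⟨h1, h2⟩
    · right
      constructor
      · calc Dm x N (m + 1) * x m * x 0 = Dm x N (m + 1) * (x m * x 0) := by group
          _ = (Dm x N (m + 1) * (x 0)⁻¹) * x m := by rw [e1]; group
          _ = (x 0)⁻¹ * (Dm x N (m + 1) * x m) := by rw [h2]; group
      · calc Dm x N (m + 1) * x m * (x 0)⁻¹ = Dm x N (m + 1) * (x m * (x 0)⁻¹) := by group
          _ = (Dm x N (m + 1) * x 0) * x m := by rw [e2]; group
          _ = x 0 * (Dm x N (m + 1) * x m) := by rw [h1]; group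
    · left
      constructor
      · calc Dm x N (m + 1) * x m * x 0 = Dm x N (m + 1) * (x m * x 0) := by group
          _ = (Dm x N (m + 1) * (x 0)⁻¹) * x m := by rw [e1]; group
          _ = x 0 * (Dm x N (m + 1) * x m) := by rw [h2]; group
      · calc Dm x N (m + 1) * x m * (x 0)⁻¹ = Dm x N (m + 1) * (x m * (x 0)⁻¹) := by group
          _ = (Dm x N (m + 1) * x 0) * x m := by rw [e2]; group
          _ = (x 0)⁻¹ * (Dm x N (m + 1) * x m) := by rw [h1]; group

lemma D_shift (k : ℕ) (hk : k ≤ N) : ∀ (d m : ℕ), k - 1 - m = d → 1 ≤ m → m < k →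
    Dm x N m * x k = x (k - 1) * Dm x N m := by
  intro d
  induction d with
  | zero =>
    intro m hd hm hmk
    have hk' : k = m + 1 := by omega
    subst hk'
    simp only [Nat.add_sub_cancel]
    rw [Dm_succ x N m (by omega), Dm_succ x N (m + 1) (by omega)]
    have h1 := D_comm hR m hm _ (m + 2) rfl (by omega) (by omega)
    have h2 := braid hR m hm hk
    calc Dm x N (m + 1 + 1) * x (m + 1) * x m * x (m + 1)
        = Dm x N (m + 2) * (x (m + 1) * x m * x (m + 1)) := by group
      _ = (Dm x N (m + 2) * x m) * (x (m + 1) * x m) := by rw [h2]; group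
      _ = x m * (Dm x N (m + 1 + 1) * x (m + 1) * x m) := by rw [h1]; group
  | succ d ih =>
    intro m hd hm hmk
    rw [Dm_succ x N m (by omega)]
    have h1 := ih (m + 1) (by omega) (by omega) (by omega)
    calc Dm x N (m + 1) * x m * x k = Dm x N (m + 1) * (x m * x k) := by group
      _ = (Dm x N (m + 1) * x k) * x m := by rw [comm_far hR m k hm (by omega) hk]; group
      _ = x (k - 1) * (Dm x N (m + 1) * x m) := by rw [h1]; group

/-- The coset representatives. -/
def Rep (x : ℕ → Q) (N : ℕ) (r : Q) : Prop :=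
  (∃ m, 1 ≤ m ∧ m ≤ N + 1 ∧ r = Dm x N m) ∨ r = Dm x N 1 * x 0 ∨ r = Dm x N 1 * (x 0)⁻¹

lemma step (H : Subgroup Q) (hH : ∀ i, i < N → x i ∈ H) (r : Q) (hr : Rep x N r) (k : ℕ) (hk : k ≤ N) :
    ∃ h ∈ H, ∃ r', Rep x N r' ∧ r * x k = h * r' := by
  have hx3 : x 0 * x 0 = (x 0)⁻¹ := by
    have h := hR.h0 (by omega)
    rw [eq_inv_iff_mul_eq_one, ← h]
    simp only [pow_succ, pow_zero, one_mul]
  rcases hr with ⟨m, hm1, hmN, rfl⟩ | rfl | rfl
  · rcases Nat.eq_zero_or_pos k with rfl | hk0
    · rcases Nat.lt_or_ge m 2 with hm2 | hm2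
      · have : m = 1 := by omega
        subst this
        exact ⟨1, H.one_mem, _, Or.inr (Or.inl rfl), by simp⟩
      · have h0 : x 0 ∈ H := hH 0 (by omega)
        rcases D_x0 hR _ m rfl hm2 hmN with ⟨h1, -⟩ | ⟨h1, -⟩
        · exact ⟨x 0, h0, _, Or.inl ⟨m, hm1, hmN, rfl⟩, h1⟩
        · exact ⟨(x 0)⁻¹, H.inv_mem h0, _, Or.inl ⟨m, hm1, hmN, rfl⟩, h1⟩
    · rcases lt_trichotomy m k with hlt | heq | hgt
      · refine ⟨x (k - 1), hH _ (by omega), _, Or.inl ⟨m, hm1, hmN, rfl⟩, ?_⟩
        exact D_shift hR k hk _ m rfl hm1 hlt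
      · subst heq
        refine ⟨1, H.one_mem, _, Or.inl ⟨m + 1, by omega, by omega, rfl⟩, ?_⟩
        rw [Dm_succ x N m hk, one_mul, mul_assoc, inv_eq hR m hm1 hk, mul_one]
      · rcases Nat.lt_or_ge (k + 1) m with h1 | h1
        · refine ⟨x k, hH _ (by omega), _, Or.inl ⟨m, hm1, hmN, rfl⟩, ?_⟩
          exact D_comm hR k hk0 _ m rfl h1 hmN
        · have : m = k + 1 := by omega
          subst this
          refine ⟨1, H.one_mem, _, Or.inl ⟨k, hk0, by omega, rfl⟩, ?_⟩
          rw [one_mul, ← Dm_succ x N k hk]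
  · rcases Nat.eq_zero_or_pos k with rfl | hk0
    · refine ⟨1, H.one_mem, _, Or.inr (Or.inr rfl), ?_⟩
      rw [one_mul, mul_assoc, hx3]
    · rcases Nat.lt_or_ge k 2 with hk2 | hk2
      · have : k = 1 := by omega
        subst this
        have h0 : x 0 ∈ H := hH 0 (by omega)
        have hb := aux3 (inv_eq hR 1 (by omega) hk) (hR.h2 0 (by omega))
        have e : Dm x N 1 * x 0 * x 1 = Dm x N 2 * (x 1 * x 0 * x 1) := by
          rw [Dm_succ x N 1 hk]
          group
        rw [e, hb]
        rcases D_x0 hR _ 2 rfl (by omega) (by omega) with ⟨-, h1⟩ | ⟨-, h1⟩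
        · refine ⟨(x 0)⁻¹, H.inv_mem h0, _, Or.inr (Or.inr rfl), ?_⟩
          rw [Dm_succ x N 1 hk]
          calc Dm x N 2 * ((x 0)⁻¹ * x 1 * (x 0)⁻¹) = (Dm x N 2 * (x 0)⁻¹) * x 1 * (x 0)⁻¹ := by group
            _ = (x 0)⁻¹ * (Dm x N (1 + 1) * x 1 * (x 0)⁻¹) := by rw [h1]; group
        · refine ⟨x 0, h0, _, Or.inr (Or.inr rfl), ?_⟩
          rw [Dm_succ x N 1 hk]
          calc Dm x N 2 * ((x 0)⁻¹ * x 1 * (x 0)⁻¹) = (Dm x N 2 * (x 0)⁻¹) * x 1 * (x 0)⁻¹ := by group
            _ = x 0 * (Dm x N (1 + 1) * x 1 * (x 0)⁻¹) := by rw [h1]; group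
      · refine ⟨x (k - 1), hH _ (by omega), _, Or.inr (Or.inr rfl), ?_⟩
        have h1 := D_shift hR k hk _ 1 rfl (by omega) (by omega)
        have h2 := inv_far' hR k hk2 hk
        calc Dm x N 1 * x 0 * x k = Dm x N 1 * (x 0 * x k) := by group
          _ = (Dm x N 1 * x k) * (x 0)⁻¹ := by rw [← h2]; group
          _ = x (k - 1) * (Dm x N 1 * (x 0)⁻¹) := by rw [h1]; group
  · rcases Nat.eq_zero_or_pos k with rfl | hk0
    · refine ⟨1, H.one_mem, _, Or.inl ⟨1, le_refl _, by omega, rfl⟩, ?_⟩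
      group
    · rcases Nat.lt_or_ge k 2 with hk2 | hk2
      · have : k = 1 := by omega
        subst this
        have h0 : x 0 ∈ H := hH 0 (by omega)
        have hb := aux4 (inv_eq hR 1 (by omega) hk) (hR.h2 0 (by omega))
        have e : Dm x N 1 * (x 0)⁻¹ * x 1 = Dm x N 2 * (x 1 * (x 0)⁻¹ * x 1) := by
          rw [Dm_succ x N 1 hk]
          group
        rw [e, hb]
        rcases D_x0 hR _ 2 rfl (by omega) (by omega) with ⟨h1, -⟩ | ⟨h1, -⟩
        · refine ⟨x 0, h0, _, Or.inr (Or.inl rfl), ?_⟩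
          rw [Dm_succ x N 1 hk]
          calc Dm x N 2 * (x 0 * x 1 * x 0) = (Dm x N 2 * x 0) * x 1 * x 0 := by group
            _ = x 0 * (Dm x N (1 + 1) * x 1 * x 0) := by rw [h1]; group
        · refine ⟨(x 0)⁻¹, H.inv_mem h0, _, Or.inr (Or.inl rfl), ?_⟩
          rw [Dm_succ x N 1 hk]
          calc Dm x N 2 * (x 0 * x 1 * x 0) = (Dm x N 2 * x 0) * x 1 * x 0 := by group
            _ = (x 0)⁻¹ * (Dm x N (1 + 1) * x 1 * x 0) := by rw [h1]; group
      · refine ⟨x (k - 1), hH _ (by omega), _, Or.inr (Or.inl rfl), ?_⟩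
        have h1 := D_shift hR k hk _ 1 rfl (by omega) (by omega)
        have h2 := inv_far hR k hk2 hk
        calc Dm x N 1 * (x 0)⁻¹ * x k = Dm x N 1 * ((x 0)⁻¹ * x k) := by group
          _ = (Dm x N 1 * x k) * x 0 := by rw [← h2]; group
          _ = x (k - 1) * (Dm x N 1 * x 0) := by rw [h1]; group

end rels

lemma fact_arith (N : ℕ) : (N + 2).factorial / 2 * (N + 3) ≤ (N + 3).factorial / 2 := by
  have h2 : 2 ∣ (N + 2).factorial := Nat.dvd_factorial (by norm_num) (by omega)
  obtain ⟨b, hb⟩ := h2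
  rw [hb, Nat.factorial_succ (N + 2), hb]
  rw [Nat.mul_div_cancel_left _ (by norm_num : 0 < 2)]
  have : (N + 2 + 1) * (2 * b) = 2 * ((N + 3) * b) := by ring
  rw [this, Nat.mul_div_cancel_left _ (by norm_num : 0 < 2), mul_comm]

/-- The upper bound for the order. -/
theorem ub : ∀ (N : ℕ) (Q : Type u) [Group Q] (x : ℕ → Q), Rels x N →
    Subgroup.closure (x '' {i | i < N}) = ⊤ → Finite Q ∧ Nat.card Q ≤ (N + 2).factorial / 2 := by
  intro N
  induction N with
  | zero =>
    intro Q _ x _ hgen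
    have hs : Subsingleton Q := by
      have h1 : (⊥ : Subgroup Q) = ⊤ := by
        rw [← hgen]
        simp
      refine ⟨fun a b => ?_⟩
      have ha : a ∈ (⊥ : Subgroup Q) := h1 ▸ Subgroup.mem_top a
      have hb : b ∈ (⊥ : Subgroup Q) := h1 ▸ Subgroup.mem_top b
      rw [Subgroup.mem_bot] at ha hb
      rw [ha, hb]
    refine ⟨inferInstance, ?_⟩
    rw [Nat.card_of_subsingleton (1 : Q)]
    decide
  | succ N ih =>
    intro Q _ x hR hgen
    classical
    set H : Subgroup Q := Subgroup.closure (x '' {i | i < N}) with hHdef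
    have hH : ∀ i, i < N → x i ∈ H := fun i hi => Subgroup.subset_closure ⟨i, hi, rfl⟩
    let x' : ℕ → H := fun i => if h : i < N then ⟨x i, hH i h⟩ else 1
    have hx' : ∀ i, i < N → ((x' i : H) : Q) = x i := by
      intro i hi
      simp [x', hi]
    have hR' : Rels x' N := by
      constructor
      · intro h
        apply Subtype.ext
        show ((x' 0 : H) : Q) ^ 3 = 1
        rw [hx' 0 h]
        exact hR.h0 (by omega)
      · intro i h1 h2
        apply Subtype.ext
        show ((x' i : H) : Q) ^ 2 = 1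
        rw [hx' i h2]
        exact hR.h1 i h1 (by omega)
      · intro i h
        apply Subtype.ext
        show (((x' i : H) : Q) * ((x' (i + 1) : H) : Q)) ^ 3 = 1
        rw [hx' i (by omega), hx' (i + 1) h]
        exact hR.h2 i (by omega)
      · intro i j hij hj
        apply Subtype.ext
        show (((x' i : H) : Q) * ((x' j : H) : Q)) ^ 2 = 1
        rw [hx' i (by omega), hx' j hj]
        exact hR.h3 i j hij (by omega)
    have hgen' : Subgroup.closure (x' '' {i | i < N}) = ⊤ := by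
      have h1 := Subgroup.closure_closure_coe_preimage (k := x '' {i | i < N})
      rw [← h1]
      congr 1
      ext y
      constructor
      · rintro ⟨i, hi, rfl⟩
        show ((x' i : H) : Q) ∈ x '' {i | i < N}
        rw [hx' i hi]
        exact ⟨i, hi, rfl⟩
      · rintro ⟨i, hi, hy⟩
        refine ⟨i, hi, ?_⟩
        apply Subtype.ext
        rw [hx' i hi]
        exact hy
    obtain ⟨hfin, hcard⟩ := ih H x' hR' hgen'
    have hT : ∀ q : Q, ∃ h ∈ H, ∃ r, Rep x N r ∧ q = h * r := by
      intro q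
      have hq : q ∈ Subgroup.closure (x '' {i | i < N + 1}) := by
        rw [hgen]
        trivial
      induction hq using Subgroup.closure_induction_right with
      | one =>
        exact ⟨1, H.one_mem, 1, Or.inl ⟨N + 1, by omega, le_refl _, (Dm_top x N).symm⟩, by simp⟩
      | mul_right q _ g hg ih' =>
        obtain ⟨k, hk, rfl⟩ := hg
        obtain ⟨h, hh, r, hr, rfl⟩ := ih'
        obtain ⟨h', hh', r', hr', e⟩ := step hR H hH r hr k (by simpa [Nat.lt_succ_iff] using hk)
        exact ⟨h * h', H.mul_mem hh hh', r', hr', by rw [mul_assoc, e, mul_assoc]⟩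
      | mul_inv_cancel q _ g hg ih' =>
        obtain ⟨k, hk, rfl⟩ := hg
        have hk' : k ≤ N := by simpa [Nat.lt_succ_iff] using hk
        obtain ⟨h, hh, r, hr, rfl⟩ := ih'
        rcases Nat.eq_zero_or_pos k with rfl | hk0
        · have hx3 : (x 0)⁻¹ = x 0 * x 0 := by
            have h3 := hR.h0 (by omega)
            rw [inv_eq_iff_mul_eq_one, ← h3]
            simp only [pow_succ, pow_zero, one_mul, mul_assoc]
          obtain ⟨h', hh', r', hr', e⟩ := step hR H hH r hr 0 (by omega)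
          obtain ⟨h'', hh'', r'', hr'', e'⟩ := step hR H hH r' hr' 0 (by omega)
          refine ⟨h * h' * h'', H.mul_mem (H.mul_mem hh hh') hh'', r'', hr'', ?_⟩
          rw [hx3]
          calc h * r * (x 0 * x 0) = h * (r * x 0) * x 0 := by group
            _ = h * h' * (r' * x 0) := by rw [e]; group
            _ = h * h' * h'' * r'' := by rw [e']; group
        · have hxi : (x k)⁻¹ = x k := inv_eq_of_mul_eq_one_left (inv_eq hR k hk0 hk')
          rw [hxi]
          obtain ⟨h', hh', r', hr', e⟩ := step hR H hH r hr k hk'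
          exact ⟨h * h', H.mul_mem hh hh', r', hr', by rw [mul_assoc, e, mul_assoc]⟩
    let R : Fin (N + 3) → Q := fun j =>
      if (j : ℕ) ≤ N then Dm x N (j + 1) else if (j : ℕ) = N + 1 then Dm x N 1 * x 0 else Dm x N 1 * (x 0)⁻¹
    let f : H × Fin (N + 3) → Q := fun p => (p.1 : Q) * R p.2
    have hf : Function.Surjective f := by
      intro q
      obtain ⟨h, hh, r, hr, rfl⟩ := hT q
      rcases hr with ⟨m, hm1, hmN, rfl⟩ | rfl | rfl
      · refine ⟨(⟨h, hh⟩, ⟨m - 1, by omega⟩), ?_⟩
        show h * R ⟨m - 1, _⟩ = _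
        simp only [R]
        rw [if_pos (by simp; omega)]
        simp only [Nat.sub_add_cancel hm1]
      · refine ⟨(⟨h, hh⟩, ⟨N + 1, by omega⟩), ?_⟩
        show h * R ⟨N + 1, _⟩ = _
        simp [R]
      · refine ⟨(⟨h, hh⟩, ⟨N + 2, by omega⟩), ?_⟩
        show h * R ⟨N + 2, _⟩ = _
        simp [R]
    refine ⟨Finite.of_surjective f hf, ?_⟩
    have h1 := Nat.card_le_card_of_surjective f hf
    rw [Nat.card_prod, Nat.card_fin] at h1
    calc Nat.card Q ≤ Nat.card H * (N + 3) := h1
      _ ≤ (N + 2).factorial / 2 * (N + 3) := Nat.mul_le_mul_right _ hcard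
      _ ≤ (N + 3).factorial / 2 := fact_arith N

end ub

section perm

variable {α : Type*} [DecidableEq α] [Fintype α]

lemma swap_comm_disj {a b c d : α} (hab : a ≠ b) (hcd : c ≠ d) (hac : a ≠ c) (had : a ≠ d) (hbc : b ≠ c) (hbd : b ≠ d) :
    swap a b * swap c d = swap c d * swap a b := by
  have : Perm.Disjoint (swap a b) (swap c d) := Equiv.Perm.disjoint_swap_swap (by simp [*])
  exact this.commute

lemma sq_disj {a b c d : α} (hab : a ≠ b) (hcd : c ≠ d) (hac : a ≠ c) (had : a ≠ d) (hbc : b ≠ c) (hbd : b ≠ d) :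
    (swap a b * swap c d) ^ 2 = 1 := by
  rw [pow_two, mul_assoc, ← mul_assoc (swap c d), ← swap_comm_disj hab hcd hac had hbc hbd]
  simp

lemma cube_chain {a b c : α} (hab : a ≠ b) (hbc : b ≠ c) (hac : a ≠ c) : (swap a b * swap b c) ^ 3 = 1 := by
  rw [swap_comm a b]
  have h := Equiv.Perm.isThreeCycle_swap_mul_swap_same (a := b) (b := a) (c := c) hab.symm hbc hac
  have h3 := h.orderOf
  rw [← h3]
  exact pow_orderOf_eq_one _

/-- The generators. -/
def gp (p : ℕ → α) (a : ℕ) : Perm α := swap (p 0) (p 1) * swap (p (a + 1)) (p (a + 2))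

variable {n : ℕ} {p : ℕ → α}

lemma rels_gp (hp : ∀ i j, i < n → j < n → i ≠ j → p i ≠ p j) (hn : 3 ≤ n) : Rels (gp p) (n - 2) := by
  have hne : ∀ {i j}, i < n → j < n → i ≠ j → p i ≠ p j := fun hi hj h => hp _ _ hi hj h
  have h01 : p 0 ≠ p 1 := hne (by omega) (by omega) (by norm_num)
  have hg0 : ∀ j, j + 2 < n → gp p 0 * gp p j = swap (p 0) (p 2) * swap (p (j + 1)) (p (j + 2)) := by
    intro j hj
    have h1 : swap (p 0) (p 1) * swap (p 1) (p 2) * swap (p 0) (p 1) = swap (p 0) (p 2) := by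
      rw [swap_comm (p 0) (p 1), swap_comm (p 1) (p 2)]
      rw [Equiv.swap_mul_swap_mul_swap (x := p 2) (y := p 1) (z := p 0) (hne (by omega) (by omega) (by norm_num))
        (hne (by omega) (by omega) (by norm_num))]
    simp only [gp]
    calc swap (p 0) (p 1) * swap (p (0 + 1)) (p (0 + 2)) * (swap (p 0) (p 1) * swap (p (j + 1)) (p (j + 2)))
        = (swap (p 0) (p 1) * swap (p 1) (p 2) * swap (p 0) (p 1)) * swap (p (j + 1)) (p (j + 2)) := by
          simp only [mul_assoc, zero_add]
      _ = _ := by rw [h1]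
  have hgf : ∀ i j, 1 ≤ i → i + 2 < n → j + 2 < n → gp p i * gp p j = swap (p (i + 1)) (p (i + 2)) * swap (p (j + 1)) (p (j + 2)) := by
    intro i j hi hin hjn
    have hc := swap_comm_disj (a := p (i + 1)) (b := p (i + 2)) (c := p 0) (d := p 1)
      (hne (by omega) (by omega) (by omega)) h01 (hne (by omega) (by omega) (by omega)) (hne (by omega) (by omega) (by omega))
      (hne (by omega) (by omega) (by omega)) (hne (by omega) (by omega) (by omega))
    simp only [gp]
    calc swap (p 0) (p 1) * swap (p (i + 1)) (p (i + 2)) * (swap (p 0) (p 1) * swap (p (j + 1)) (p (j + 2)))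
        = swap (p 0) (p 1) * (swap (p (i + 1)) (p (i + 2)) * swap (p 0) (p 1)) * swap (p (j + 1)) (p (j + 2)) := by
          simp only [mul_assoc]
      _ = swap (p 0) (p 1) * swap (p 0) (p 1) * swap (p (i + 1)) (p (i + 2)) * swap (p (j + 1)) (p (j + 2)) := by
          rw [hc]
          simp only [mul_assoc]
      _ = _ := by simp
  constructor
  · intro h
    simp only [gp]
    exact cube_chain h01 (hne (by omega) (by omega) (by norm_num)) (hne (by omega) (by omega) (by norm_num))
  · intro i h1 h2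
    simp only [gp]
    exact sq_disj h01 (hne (by omega) (by omega) (by omega)) (hne (by omega) (by omega) (by omega))
      (hne (by omega) (by omega) (by omega)) (hne (by omega) (by omega) (by omega)) (hne (by omega) (by omega) (by omega))
  · intro i h
    rcases Nat.eq_zero_or_pos i with rfl | hi
    · rw [hg0 (0 + 1) (by omega)]
      exact cube_chain (hne (by omega) (by omega) (by norm_num)) (hne (by omega) (by omega) (by norm_num))
        (hne (by omega) (by omega) (by norm_num))
    · rw [hgf i (i + 1) hi (by omega) (by omega)]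
      exact cube_chain (hne (by omega) (by omega) (by omega)) (hne (by omega) (by omega) (by omega))
        (hne (by omega) (by omega) (by omega))
  · intro i j hij hj
    rcases Nat.eq_zero_or_pos i with rfl | hi
    · rw [hg0 j (by omega)]
      exact sq_disj (hne (by omega) (by omega) (by norm_num)) (hne (by omega) (by omega) (by omega))
        (hne (by omega) (by omega) (by omega)) (hne (by omega) (by omega) (by omega)) (hne (by omega) (by omega) (by omega))
        (hne (by omega) (by omega) (by omega))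
    · rw [hgf i j hi (by omega) (by omega)]
      exact sq_disj (hne (by omega) (by omega) (by omega)) (hne (by omega) (by omega) (by omega))
        (hne (by omega) (by omega) (by omega)) (hne (by omega) (by omega) (by omega)) (hne (by omega) (by omega) (by omega))
        (hne (by omega) (by omega) (by omega))

lemma gp_apply_fix (hp : ∀ i j, i < n → j < n → i ≠ j → p i ≠ p j) (a k : ℕ) (hk : k < n) (ha : a + 2 < n) (h0 : k ≠ 0) (h1 : k ≠ 1)
    (h2 : k ≠ a + 1) (h3 : k ≠ a + 2) : gp p a (p k) = p k := by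
  show swap (p 0) (p 1) (swap (p (a + 1)) (p (a + 2)) (p k)) = p k
  rw [swap_apply_of_ne_of_ne (hp _ _ hk (by omega) h2) (hp _ _ hk (by omega) h3),
    swap_apply_of_ne_of_ne (hp _ _ hk (by omega) h0) (hp _ _ hk (by omega) h1)]

lemma gp_apply_down (hp : ∀ i j, i < n → j < n → i ≠ j → p i ≠ p j) (a : ℕ) (ha : a + 2 < n) (ha1 : 1 ≤ a) :
    gp p a (p (a + 2)) = p (a + 1) := by
  show swap (p 0) (p 1) (swap (p (a + 1)) (p (a + 2)) (p (a + 2))) = p (a + 1)
  rw [swap_apply_right, swap_apply_of_ne_of_ne (hp _ _ (by omega) (by omega) (by omega)) (hp _ _ (by omega) (by omega) (by omega))]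

lemma gp_zero_two (hp : ∀ i j, i < n → j < n → i ≠ j → p i ≠ p j) (hn : 3 ≤ n) : gp p 0 (p 2) = p 0 := by
  show swap (p 0) (p 1) (swap (p (0 + 1)) (p (0 + 2)) (p 2)) = p 0
  simp

lemma gp_zero_zero (hp : ∀ i j, i < n → j < n → i ≠ j → p i ≠ p j) (hn : 3 ≤ n) : gp p 0 (p 0) = p 1 := by
  show swap (p 0) (p 1) (swap (p (0 + 1)) (p (0 + 2)) (p 0)) = p 1
  rw [swap_apply_of_ne_of_ne (hp _ _ (by omega) (by omega) (by omega)) (hp _ _ (by omega) (by omega) (by omega)), swap_apply_left]

/-- The lower bound. -/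
theorem lb (hp : ∀ i j, i < n → j < n → i ≠ j → p i ≠ p j) (hn : 3 ≤ n) : ∀ M : ℕ, M + 2 ≤ n →
    (M + 2).factorial / 2 ≤ Nat.card (Subgroup.closure (gp p '' {i | i < M})) := by
  classical
  intro M
  induction M with
  | zero =>
    intro _
    have : 0 < Nat.card (Subgroup.closure (gp p '' {i | i < 0})) := Nat.card_pos
    have h2 : (0 + 2).factorial / 2 = 1 := by decide
    omega
  | succ M ih =>
    intro hM
    have hB := ih (by omega)
    set A : Subgroup (Perm α) := Subgroup.closure (gp p '' {i | i < M + 1}) with hA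
    set B : Subgroup (Perm α) := Subgroup.closure (gp p '' {i | i < M}) with hBdef
    have hBA : B ≤ A := Subgroup.closure_mono (Set.image_mono (fun i (hi : i < M) => (by
      show i < M + 1
      omega)))
    have hgA : ∀ a, a < M + 1 → gp p a ∈ A := fun a ha => Subgroup.subset_closure ⟨a, ha, rfl⟩
    set q := p (M + 2) with hq
    have hBfix : ∀ b ∈ B, b q = q := by
      have h1 : B ≤ MulAction.stabilizer (Perm α) q := by
        rw [hBdef, Subgroup.closure_le]
        rintro _ ⟨a, ha, rfl⟩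
        have ha' : a < M := ha
        show gp p a (p (M + 2)) = p (M + 2)
        exact gp_apply_fix hp a (M + 2) (by omega) (by omega) (by omega) (by omega) (by omega) (by omega)
      exact fun b hb => h1 hb
    -- the orbit
    have horb : ∀ j, j ≤ M + 2 → ∃ s ∈ A, s q = p j := by
      have h1 : ∀ d, d ≤ M → ∃ s ∈ A, s q = p (M + 2 - d) := by
        intro d
        induction d with
        | zero =>
          intro _
          exact ⟨1, A.one_mem, rfl⟩
        | succ d ihd =>
          intro hd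
          obtain ⟨s, hs, hsq⟩ := ihd (by omega)
          refine ⟨gp p (M - d) * s, A.mul_mem (hgA _ (by omega)) hs, ?_⟩
          show gp p (M - d) (s q) = _
          rw [hsq, show M + 2 - d = M - d + 2 by omega, gp_apply_down hp (M - d) (by omega) (by omega)]
          congr 1
          omega
      obtain ⟨s2, hs2, hs2q⟩ := h1 M le_rfl
      rw [show M + 2 - M = 2 by omega] at hs2q
      have h0 : ∃ s ∈ A, s q = p 0 := ⟨gp p 0 * s2, A.mul_mem (hgA 0 (by omega)) hs2, by
        show gp p 0 (s2 q) = _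
        rw [hs2q, gp_zero_two hp hn]⟩
      obtain ⟨s0, hs0, hs0q⟩ := h0
      have h11 : ∃ s ∈ A, s q = p 1 := ⟨gp p 0 * s0, A.mul_mem (hgA 0 (by omega)) hs0, by
        show gp p 0 (s0 q) = _
        rw [hs0q, gp_zero_zero hp hn]⟩
      intro j hj
      rcases Nat.lt_or_ge j 2 with hj2 | hj2
      · have : j = 0 ∨ j = 1 := by omega
        rcases this with rfl | rfl
        · exact ⟨s0, hs0, hs0q⟩
        · exact h11
      · obtain ⟨s, hs, hsq⟩ := h1 (M + 2 - j) (by omega)
        rw [show M + 2 - (M + 2 - j) = j by omega] at hsq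
        exact ⟨s, hs, hsq⟩
    -- counting
    let O := MulAction.orbit A q
    have hOcard : M + 3 ≤ Nat.card O := by
      let f : Fin (M + 3) → O := fun j => ⟨p j, by
        obtain ⟨s, hs, hsq⟩ := horb j (by omega)
        exact ⟨⟨s, hs⟩, hsq⟩⟩
      have hf : Function.Injective f := by
        intro a b hab
        have h1 : p a = p b := congrArg Subtype.val hab
        by_contra hne
        exact hp a b (by omega) (by omega) (fun h => hne (Fin.ext h)) h1
      have := Nat.card_le_card_of_injective f hf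
      simpa using this
    have hSt : Nat.card B ≤ Nat.card (MulAction.stabilizer A q) := by
      let f : B → MulAction.stabilizer A q := fun b => ⟨⟨b, hBA b.2⟩, hBfix b b.2⟩
      have hf : Function.Injective f := by
        intro a b hab
        have h1 := congrArg (fun z : MulAction.stabilizer A q => ((z : A) : Perm α)) hab
        exact Subtype.ext h1
      exact Nat.card_le_card_of_injective f hf
    have hcardA : Nat.card A = Nat.card (MulAction.stabilizer A q) * Nat.card O := by
      have h1 := Subgroup.card_mul_index (MulAction.stabilizer A q)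
      rw [MulAction.index_stabilizer] at h1
      rw [← h1]
      congr 1
    have h2 : 2 ∣ (M + 2).factorial := Nat.dvd_factorial (by norm_num) (by omega)
    obtain ⟨b, hb⟩ := h2
    have hfac : (M + 1 + 2).factorial / 2 = (M + 2).factorial / 2 * (M + 3) := by
      rw [Nat.factorial_succ (M + 2), hb, Nat.mul_div_cancel_left _ (by norm_num : 0 < 2)]
      have : (M + 2 + 1) * (2 * b) = 2 * ((M + 3) * b) := by ring
      rw [this, Nat.mul_div_cancel_left _ (by norm_num : 0 < 2), mul_comm]
    rw [hfac, hcardA]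
    exact Nat.mul_le_mul (hB.trans hSt) hOcard

end perm



/-- A presentation of the alternating group of degree n ≥ 3 on generators x_1, …, x_{n−2} (indexed here by 0, …, n−3): the first generator cubes to 1, every other generator squares to 1, the product of two consecutive generators has order dividing 3, and the product of two generators at distance at least 2 has order dividing 2. The group so presented is isomorphic to the alternating group of degree n. -/
theorem result (n : ℕ) (hn : 3 ≤ n) :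
    Nonempty (PresentedGroup
      ({g : FreeGroup (Fin (n - 2)) | ∃ i : Fin (n - 2), i.val = 0 ∧ g = FreeGroup.of i ^ 3} ∪
       {g | ∃ i : Fin (n - 2), 1 ≤ i.val ∧ g = FreeGroup.of i ^ 2} ∪
       {g | ∃ i j : Fin (n - 2), j.val = i.val + 1 ∧ g = (FreeGroup.of i * FreeGroup.of j) ^ 3} ∪
       {g | ∃ i j : Fin (n - 2), i.val + 1 < j.val ∧ g = (FreeGroup.of i * FreeGroup.of j) ^ 2})
      ≃* alternatingGroup (Fin n)) := by
  classical
  set rels : Set (FreeGroup (Fin (n - 2))) := ({g : FreeGroup (Fin (n - 2)) | ∃ i : Fin (n - 2), i.val = 0 ∧ g = FreeGroup.of i ^ 3} ∪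
       {g | ∃ i : Fin (n - 2), 1 ≤ i.val ∧ g = FreeGroup.of i ^ 2} ∪
       {g | ∃ i j : Fin (n - 2), j.val = i.val + 1 ∧ g = (FreeGroup.of i * FreeGroup.of j) ^ 3} ∪
       {g | ∃ i j : Fin (n - 2), i.val + 1 < j.val ∧ g = (FreeGroup.of i * FreeGroup.of j) ^ 2}) with hrels
  -- upper bound
  let x : ℕ → PresentedGroup rels := fun i => if h : i < n - 2 then PresentedGroup.of ⟨i, h⟩ else 1
  have hx : ∀ i (h : i < n - 2), x i = PresentedGroup.of ⟨i, h⟩ := fun i h => by simp [x, h]
  have hRx : Rels x (n - 2) := by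
    constructor
    · intro h
      rw [hx 0 h]
      exact PresentedGroup.one_of_mem (rels := rels) (x := FreeGroup.of (⟨0, h⟩ : Fin (n - 2)) ^ 3)
        (Or.inl (Or.inl (Or.inl ⟨_, rfl, rfl⟩)))
    · intro i h1 h2
      rw [hx i h2]
      exact PresentedGroup.one_of_mem (rels := rels) (x := FreeGroup.of (⟨i, h2⟩ : Fin (n - 2)) ^ 2)
        (Or.inl (Or.inl (Or.inr ⟨_, h1, rfl⟩)))
    · intro i h
      rw [hx i (by omega), hx (i + 1) h]
      exact PresentedGroup.one_of_mem (rels := rels)
        (x := (FreeGroup.of (⟨i, by omega⟩ : Fin (n - 2)) * FreeGroup.of (⟨i + 1, h⟩ : Fin (n - 2))) ^ 3)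
        (Or.inl (Or.inr ⟨_, _, rfl, rfl⟩))
    · intro i j hij hj
      rw [hx i (by omega), hx j hj]
      exact PresentedGroup.one_of_mem (rels := rels)
        (x := (FreeGroup.of (⟨i, by omega⟩ : Fin (n - 2)) * FreeGroup.of (⟨j, hj⟩ : Fin (n - 2))) ^ 2)
        (Or.inr ⟨_, _, hij, rfl⟩)
  have hgenx : Subgroup.closure (x '' {i | i < n - 2}) = ⊤ := by
    rw [← PresentedGroup.closure_range_of rels]
    congr 1
    ext g
    constructor
    · rintro ⟨i, hi, rfl⟩
      have hi' : i < n - 2 := hi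
      rw [hx i hi']
      exact ⟨_, rfl⟩
    · rintro ⟨i, rfl⟩
      exact ⟨i.1, i.2, hx i.1 i.2⟩
  obtain ⟨hfin, hcard⟩ := ub (n - 2) _ x hRx hgenx
  rw [show n - 2 + 2 = n by omega] at hcard
  -- the map
  haveI : NeZero n := ⟨by omega⟩
  let p : ℕ → Fin n := fun k => Fin.ofNat n k
  have hpv : ∀ k, k < n → ((p k : Fin n) : ℕ) = k := fun k hk => by
    simp [p, Fin.ofNat, Nat.mod_eq_of_lt hk]
  have hp : ∀ i j, i < n → j < n → i ≠ j → p i ≠ p j := by
    intro i j hi hj hij h
    apply hij
    have := congrArg Fin.val h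
    rwa [hpv i hi, hpv j hj] at this
  have hR := rels_gp hp hn
  have heven : ∀ a, a + 2 < n → gp p a ∈ alternatingGroup (Fin n) := by
    intro a ha
    rw [Equiv.Perm.mem_alternatingGroup]
    show Equiv.Perm.sign (swap (p 0) (p 1) * swap (p (a + 1)) (p (a + 2))) = 1
    rw [map_mul, Equiv.Perm.sign_swap (hp _ _ (by omega) (by omega) (by omega)),
      Equiv.Perm.sign_swap (hp _ _ (by omega) (by omega) (by omega))]
    norm_num
  let f : Fin (n - 2) → alternatingGroup (Fin n) := fun i => ⟨gp p i.1, heven i.1 (by omega)⟩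
  have hval : ∀ r ∈ rels, FreeGroup.lift f r = 1 := by
    rintro r ((((⟨i, hi, rfl⟩ | ⟨i, hi, rfl⟩) | ⟨i, j, hij, rfl⟩) | ⟨i, j, hij, rfl⟩))
    · simp only [map_pow, FreeGroup.lift_apply_of]
      apply Subtype.ext
      show gp p i.1 ^ 3 = 1
      rw [hi]
      exact hR.h0 (by have := i.2; omega)
    · simp only [map_pow, FreeGroup.lift_apply_of]
      apply Subtype.ext
      show gp p i.1 ^ 2 = 1
      exact hR.h1 i.1 hi i.2
    · simp only [map_pow, map_mul, FreeGroup.lift_apply_of]
      apply Subtype.ext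
      show (gp p i.1 * gp p j.1) ^ 3 = 1
      rw [hij]
      exact hR.h2 i.1 (by have := j.2; omega)
    · simp only [map_pow, map_mul, FreeGroup.lift_apply_of]
      apply Subtype.ext
      show (gp p i.1 * gp p j.1) ^ 2 = 1
      exact hR.h3 i.1 j.1 hij j.2
  let ρ : PresentedGroup rels →* alternatingGroup (Fin n) := PresentedGroup.toGroup hval
  have hρ : ∀ i, ρ (PresentedGroup.of i) = f i := fun i => PresentedGroup.toGroup.of hval
  have hAcard : Nat.card (alternatingGroup (Fin n)) = n.factorial / 2 := by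
    haveI : Nontrivial (Fin n) := Fin.nontrivial_iff_two_le.mpr (by omega)
    have h2 := two_mul_nat_card_alternatingGroup (α := Fin n)
    have h3 : Nat.card (Equiv.Perm (Fin n)) = n.factorial := by
      rw [Nat.card_eq_fintype_card, Fintype.card_perm, Fintype.card_fin]
    omega
  have hsurj : Function.Surjective ρ := by
    -- the closure of generators
    set S : Subgroup (Perm (Fin n)) := Subgroup.closure (gp p '' {i | i < n - 2}) with hS
    have hSle : S ≤ alternatingGroup (Fin n) := by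
      rw [hS, Subgroup.closure_le]
      rintro _ ⟨a, ha, rfl⟩
      have ha' : a < n - 2 := ha
      exact heven a (by omega)
    have hScard := lb hp hn (n - 2) (by omega)
    rw [show n - 2 + 2 = n by omega, ← hS, ← hAcard] at hScard
    have hSeq : S = alternatingGroup (Fin n) := Subgroup.eq_of_le_of_card_ge hSle hScard
    have hle : S ≤ ρ.range.map (alternatingGroup (Fin n)).subtype := by
      rw [hS, Subgroup.closure_le]
      rintro _ ⟨a, ha, rfl⟩
      have ha' : a < n - 2 := ha
      exact ⟨f ⟨a, ha'⟩, ⟨_, hρ ⟨a, ha'⟩⟩, rfl⟩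
    intro σ
    have h1 : (σ : Perm (Fin n)) ∈ S := by
      rw [hSeq]
      exact σ.2
    obtain ⟨τ, ⟨g, hg⟩, hτ⟩ := hle h1
    refine ⟨g, ?_⟩
    rw [hg]
    exact Subtype.ext hτ
  have hbij := hsurj.bijective_of_nat_card_le (by rw [hAcard]; exact hcard)
  exact ⟨MulEquiv.ofBijective ρ hbij⟩

end Cfsg.Agent.S3335
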