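import Cfsg.Statements.S3349


set_option autoImplicit false
open Cfsg

namespace Cfsg.Agent.S3349

---IMPORTS
open scoped commutatorElement


/-- Let Q be a finite extraspecial p-group and α an automorphism of Q fixing every element of some maximal abelian subgroup of Q. Then the order of α is a power of p. -/
theorem result {Q : Type*} [Group Q] [Finite Q]
    (p : ℕ) [Fact p.Prime] (hQ : Cfsg.IsExtraspecial p Q) (α : MulAut Q)
    (A : Subgroup Q) (hA : IsMulCommutative A) (hmax : ∀ B : Subgroup Q, A ≤ B → IsMulCommutative B → B = A)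
    (hfix : ∀ a ∈ A, α a = a) :
    ∃ k : ℕ, orderOf α = p ^ k := by
  classical
  have hp : p.Prime := Fact.out
  have hcentr : ∀ y : Q, (∀ a ∈ A, y * a = a * y) → y ∈ A := by
    intro y hy
    have hB : Subgroup.closure ((A : Set Q) ∪ {y}) = A := by
      apply hmax
      · intro a ha
        exact Subgroup.subset_closure (Or.inl ha)
      · apply Subgroup.isMulCommutative_closure
        rintro a (ha | ha) b (hb | hb)
        · have := hA.is_comm.comm ⟨a, ha⟩ ⟨b, hb⟩
          exact congrArg Subtype.val this
        · rw [Set.mem_singleton_iff.mp hb]; exact (hy a ha).symm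
        · rw [Set.mem_singleton_iff.mp ha]; exact hy b hb
        · rw [Set.mem_singleton_iff.mp ha, Set.mem_singleton_iff.mp hb]
    have : y ∈ Subgroup.closure ((A : Set Q) ∪ {y}) := Subgroup.subset_closure (by simp)
    rwa [hB] at this
  have hcomm : ∀ x y : Q, ⁅x, y⁆ ∈ Subgroup.center Q := by
    intro x y
    have hsp : Cfsg.IsSpecial p Q := hQ.1
    have hcc : commutator Q = Subgroup.center Q := hsp.2.2
    rw [← hcc, commutator_def]
    exact Subgroup.commutator_mem_commutator (Subgroup.mem_top x) (Subgroup.mem_top y)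
  have hzA : ∀ z ∈ Subgroup.center Q, z ∈ A := by
    intro z hz
    exact hcentr z fun a _ => (Subgroup.mem_center_iff.mp hz a).symm
  have hb : ∀ x : Q, x⁻¹ * α x ∈ A := by
    intro x
    apply hcentr
    intro a ha
    have hc := hzA _ (hcomm x a)
    have h1 := hfix _ hc
    rw [commutatorElement_def] at h1
    simp only [map_mul, map_inv, hfix a ha] at h1
    have h2 : α x * a * (α x)⁻¹ = x * a * x⁻¹ := by
      have := congrArg (· * a) h1
      simpa using this
    have h3 : α x * a = x * a * x⁻¹ * α x := by
      rw [← h2]; group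
    calc x⁻¹ * α x * a = x⁻¹ * (α x * a) := by group
      _ = a * (x⁻¹ * α x) := by rw [h3]; group
  have hpow : ∀ (n : ℕ) (x : Q), (α ^ n) x = x * (x⁻¹ * α x) ^ n := by
    intro n x
    induction n with
    | zero => simp
    | succ n ih =>
      rw [pow_succ', MulAut.mul_apply, ih, map_mul, map_pow, hfix _ (hb x), pow_succ' (x⁻¹ * α x),
        ← mul_assoc x, ← mul_assoc x, mul_inv_cancel]
      simp
  obtain ⟨m, hm⟩ := IsPGroup.iff_card.mp (hQ.1.1.to_subgroup A)
  have h1 : α ^ (Nat.card A) = 1 := by
    ext x
    rw [hpow]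
    have : (x⁻¹ * α x) ^ (Nat.card A) = 1 := by
      have := pow_card_eq_one' (x := (⟨_, hb x⟩ : A))
      exact congrArg Subtype.val this
    rw [this]; simp
  have h2 : orderOf α ∣ p ^ m := by
    rw [← hm]; exact orderOf_dvd_of_pow_eq_one h1
  obtain ⟨k, -, hk⟩ := (Nat.dvd_prime_pow hp).mp h2
  exact ⟨k, hk⟩

end Cfsg.Agent.S3349
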