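import Cfsg.Statements.S3376
import Mathlib
import Cfsg.Agent.Lib.Basic.Nilpotent
import Cfsg.Agent.Lib.Basic.CoprimeAction2

set_option autoImplicit false
open Cfsg

namespace Cfsg.Agent.S3376

section Helpers

theorem fact3 : (162 : ℕ).factorization 3 = 4 := by
  have h1 : 3 ^ 4 ∣ 162 := by norm_num
  have h2 : ¬ 3 ^ 5 ∣ 162 := by norm_num
  have hp : Nat.Prime 3 := by norm_num
  have h3 := (hp.pow_dvd_iff_le_factorization (by norm_num : (162 : ℕ) ≠ 0)).mp h1
  have h4 := (hp.pow_dvd_iff_le_factorization (by norm_num : (162 : ℕ) ≠ 0)).not.mp h2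
  omega

theorem fact2 : (162 : ℕ).factorization 2 = 1 := by
  have h1 : 2 ^ 1 ∣ 162 := by norm_num
  have h2 : ¬ 2 ^ 2 ∣ 162 := by norm_num
  have hp : Nat.Prime 2 := by norm_num
  have h3 := (hp.pow_dvd_iff_le_factorization (by norm_num : (162 : ℕ) ≠ 0)).mp h1
  have h4 := (hp.pow_dvd_iff_le_factorization (by norm_num : (162 : ℕ) ≠ 0)).not.mp h2
  omega

theorem cycleType_aux (π : Equiv.Perm (Fin 9)) (h3 : orderOf π = 3) (hf : ∀ x, π x ≠ x) :
    π.cycleType = Multiset.replicate 3 3 := by
  obtain ⟨n, hn⟩ := Equiv.Perm.cycleType_prime_order (by rw [h3]; norm_num : (orderOf π).Prime)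
  have hsum := Equiv.Perm.sum_cycleType π
  have hsup : π.support = Finset.univ := by
    ext x
    simp [Equiv.Perm.mem_support, hf x]
  rw [hn, h3, hsup, Multiset.sum_replicate] at hsum
  simp at hsum
  have hn2 : n + 1 = 3 := by omega
  rw [hn, h3, hn2]

def sigma9 : Equiv.Perm (Fin 9) :=
  Equiv.swap (0 : Fin 9) 1 * Equiv.swap 1 2 * Equiv.swap 3 4 * Equiv.swap 4 5 * Equiv.swap 6 7 * Equiv.swap 7 8

theorem sigma9_type : sigma9.cycleType = Multiset.replicate 3 3 := by
  apply cycleType_aux
  · apply orderOf_eq_prime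
    · decide
    · decide
  · decide

theorem card_cent : Nat.card (Subgroup.centralizer ({sigma9} : Set (Equiv.Perm (Fin 9)))) = 162 := by
  rw [Equiv.Perm.nat_card_centralizer, sigma9_type]
  simp [Multiset.toFinset_replicate, Multiset.count_replicate]
  decide

theorem main_aux {G : Type*} [Group G] [Finite G] (hG : Nat.card G = 162)
    (S : Sylow 3 G) (T : Sylow 2 G) (J : Subgroup G) [hJn : J.Normal] (hJcomm : IsMulCommutative J)
    (hJexp : ∀ a ∈ J, a ^ 3 = 1) (hJcard : Nat.card J = 27)
    (Z : Subgroup G) (hZ : Z = (S : Subgroup G) ⊓ Subgroup.centralizer ((S : Subgroup G) : Set G)) (hZcard : Nat.card Z = 3)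
    (hZT : Z ≤ Subgroup.centralizer ((T : Subgroup G) : Set G))
    (hST : (S : Subgroup G) ⊓ Subgroup.centralizer ((T : Subgroup G) : Set G) ≠ S) :
    Nonempty (G ≃* Subgroup.centralizer ({sigma9} : Set (Equiv.Perm (Fin 9)))) := by
  classical
  haveI h3p : Fact (Nat.Prime 3) := ⟨by norm_num⟩
  haveI h2p : Fact (Nat.Prime 2) := ⟨Nat.prime_two⟩
  have hS81 : Nat.card (S : Subgroup G) = 81 := by
    have h1 := S.card_eq_multiplicity
    rw [hG, fact3] at h1
    rw [h1]; norm_num
  have hT2 : Nat.card (T : Subgroup G) = 2 := by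
    have h1 := T.card_eq_multiplicity
    rw [hG, fact2] at h1
    rw [h1]; norm_num
  -- the involution
  obtain ⟨t', ht'⟩ : ∃ x : (T : Subgroup G), x ≠ 1 := by
    have : Nontrivial (T : Subgroup G) := by
      rw [← Finite.one_lt_card_iff_nontrivial, hT2]
      norm_num
    exact exists_ne 1
  set t : G := (t' : G) with htdef
  have htT : t ∈ (T : Subgroup G) := t'.2
  have ht1 : t ≠ 1 := fun h => ht' (Subtype.ext h)
  have ht'2 : t' * t' = 1 := by
    have h1 := pow_card_eq_one' (x := t')
    rw [hT2, pow_two] at h1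
    exact h1
  have ht2 : t * t = 1 := congrArg Subtype.val ht'2
  have htinv : t⁻¹ = t := inv_eq_of_mul_eq_one_left ht2
  have hTmem : ∀ τ ∈ (T : Subgroup G), τ = 1 ∨ τ = t := by
    intro τ hτ
    have hord : orderOf t' = 2 := orderOf_eq_prime (by rw [pow_two]; exact ht'2) ht'
    have htop : Subgroup.zpowers t' = ⊤ := by
      apply Subgroup.eq_top_of_card_eq
      rw [Nat.card_zpowers, hord, hT2]
    have hm : (⟨τ, hτ⟩ : (T : Subgroup G)) ∈ Subgroup.zpowers t' := by rw [htop]; trivial
    obtain ⟨k, hk⟩ := hm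
    have h4 : t' ^ k = t' ^ (k % 2) := by
      have := zpow_mod_orderOf t' k
      rw [hord] at this
      exact_mod_cast this.symm
    have h5 : k % 2 = 0 ∨ k % 2 = 1 := by omega
    have h6 : (⟨τ, hτ⟩ : (T : Subgroup G)) = t' ^ (k % 2) := by
      rw [← h4]; exact hk.symm
    rcases h5 with h | h
    · left
      rw [h, zpow_zero] at h6
      exact congrArg Subtype.val h6
    · right
      rw [h, zpow_one] at h6
      exact congrArg Subtype.val h6
  -- `S` has index two
  have hSidx : (S : Subgroup G).index = 2 := by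
    have h1 := (S : Subgroup G).card_mul_index
    rw [hS81, hG] at h1
    omega
  haveI hSn : (S : Subgroup G).Normal := Subgroup.normal_of_index_eq_two hSidx
  have htS : t ∉ (S : Subgroup G) := by
    intro h
    have h1 := Subgroup.orderOf_dvd_natCard _ h
    rw [hS81, orderOf_eq_prime (by rw [pow_two]; exact ht2) ht1] at h1
    omega
  have hdich : ∀ g, g ∈ (S : Subgroup G) ∨ g * t ∈ (S : Subgroup G) := by
    intro g
    by_cases hg : g ∈ (S : Subgroup G)
    · exact Or.inl hg
    · right
      rw [Subgroup.mul_mem_iff_of_index_two hSidx]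
      exact iff_of_false hg htS
  -- the central element
  have hZnt : Nontrivial Z := by
    rw [← Finite.one_lt_card_iff_nontrivial, hZcard]
    norm_num
  obtain ⟨z', hz'⟩ := exists_ne (1 : Z)
  set z : G := (z' : G) with hzdef
  have hzZ : z ∈ Z := z'.2
  have hz1 : z ≠ 1 := fun h => hz' (Subtype.ext h)
  have hzS : z ∈ (S : Subgroup G) := by
    have := hzZ
    rw [hZ] at this
    exact this.1
  have hzcS : ∀ s ∈ (S : Subgroup G), s * z = z * s := by
    intro s hs
    have := hzZ
    rw [hZ] at this
    exact Subgroup.mem_centralizer_iff.mp this.2 s hs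
  have hzt : t * z = z * t := Subgroup.mem_centralizer_iff.mp (hZT hzZ) t htT
  have hzc : ∀ g, g * z = z * g := by
    intro g
    rcases hdich g with h | h
    · exact hzcS g h
    · have h1 := hzcS _ h
      calc g * z = g * z * (t * t) := by rw [ht2, mul_one]
        _ = g * (z * t) * t := by group
        _ = g * (t * z) * t := by rw [hzt]
        _ = (g * t) * z * t := by group
        _ = z * (g * t) * t := by rw [h1]
        _ = z * g * (t * t) := by group
        _ = z * g := by rw [ht2, mul_one]
  -- `J ≤ S`, `Z ≤ J`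
  have hJp : IsPGroup 3 J := IsPGroup.of_card (n := 3) (by rw [hJcard]; norm_num)
  have hJS : J ≤ (S : Subgroup G) := hJp.le_sylow_of_normal S
  have hZc : IsMulCommutative Z := by
    refine ⟨⟨fun a b => Subtype.ext ?_⟩⟩
    have ha : (a : G) ∈ (S : Subgroup G) ⊓ Subgroup.centralizer ((S : Subgroup G) : Set G) := hZ ▸ a.2
    have hb : (b : G) ∈ (S : Subgroup G) ⊓ Subgroup.centralizer ((S : Subgroup G) : Set G) := hZ ▸ b.2
    exact Subgroup.mem_centralizer_iff.mp hb.2 a ha.1
  have hZJ : Z ≤ J := by
    have h1 : J ≤ Subgroup.centralizer (Z : Set G) := by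
      intro a ha
      rw [Subgroup.mem_centralizer_iff]
      intro b hb
      rw [hZ] at hb
      exact (Subgroup.mem_centralizer_iff.mp hb.2 a (hJS ha)).symm
    have hA := Cfsg.Agent.Lib.Basic.isMulCommutative_sup_of_commute h1
    have hAS : J ⊔ Z ≤ (S : Subgroup G) := sup_le hJS (by rw [hZ]; exact inf_le_left)
    have hd1 : Nat.card (J ⊔ Z : Subgroup G) ∣ 81 := hS81 ▸ Subgroup.card_dvd_of_le hAS
    have hd2 : 27 ∣ Nat.card (J ⊔ Z : Subgroup G) := hJcard ▸ Subgroup.card_dvd_of_le le_sup_left
    have hpos : 0 < Nat.card (J ⊔ Z : Subgroup G) := Nat.card_pos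
    have hcases : Nat.card (J ⊔ Z : Subgroup G) = 27 ∨ Nat.card (J ⊔ Z : Subgroup G) = 81 := by
      obtain ⟨k, hk⟩ := hd2
      have hle := Nat.le_of_dvd (by norm_num) hd1
      have hk3 : k ≤ 3 := by omega
      interval_cases k
      · omega
      · left; omega
      · exfalso
        rw [hk] at hd1
        norm_num at hd1
      · right; omega
    rcases hcases with h | h
    · have h2 : J = J ⊔ Z := Subgroup.eq_of_le_of_card_ge le_sup_left (by rw [h, hJcard])
      rw [h2]
      exact le_sup_right
    · exfalso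
      have h2 : J ⊔ Z = (S : Subgroup G) := Subgroup.eq_of_le_of_card_ge hAS (by rw [h, hS81])
      have h3 : (S : Subgroup G) ≤ Z := by
        intro s hs
        rw [hZ]
        refine Subgroup.mem_inf.mpr ⟨hs, ?_⟩
        rw [Subgroup.mem_centralizer_iff]
        intro y hy
        rw [← h2] at hs hy
        have := hA.is_comm.comm (⟨y, hy⟩ : (J ⊔ Z : Subgroup G)) ⟨s, hs⟩
        exact congrArg Subtype.val this
      have h4 := Subgroup.card_le_of_le h3
      rw [hS81, hZcard] at h4
      omega
  have hzJ : z ∈ J := hZJ hzZ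
  -- the character
  letI : CommGroup J := { (inferInstance : Group J) with mul_comm := fun a b => hJcomm.is_comm.comm a b }
  have hJ3 : ∀ a : J, a ^ 3 = 1 := fun a => Subtype.ext (by simpa using hJexp a a.2)
  have hexp : Monoid.exponent J ∣ 3 := Monoid.exponent_dvd_of_forall_pow_eq_one hJ3
  haveI : NeZero (Monoid.exponent J) := ⟨Monoid.exponent_ne_zero_of_finite⟩
  obtain ⟨φ, hφ⟩ := CommGroup.exists_apply_ne_one_of_hasEnoughRootsOfUnity J ℂ
    (a := ⟨z, hzJ⟩) (fun h => hz1 (congrArg Subtype.val h))
  let c : MulAut J := MulAut.conjNormal t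
  have hcc : ∀ a : J, c (c a) = a := by
    intro a
    apply Subtype.ext
    change t * (t * (a : G) * t⁻¹) * t⁻¹ = a
    rw [htinv]
    calc t * (t * (a : G) * t) * t = (t * t) * a * (t * t) := by group
      _ = a := by rw [ht2]; group
  have hcz : c ⟨z, hzJ⟩ = ⟨z, hzJ⟩ := by
    apply Subtype.ext
    change t * z * t⁻¹ = z
    rw [hzt]
    group
  let f : J →* ℂˣ := φ * φ.comp c.toMonoidHom
  have hfc : ∀ a, f (c a) = f a := by
    intro a
    change φ (c a) * φ (c (c a)) = φ a * φ (c a)
    rw [hcc, mul_comm]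
  have hφ3 : φ ⟨z, hzJ⟩ ^ 3 = 1 := by rw [← map_pow, hJ3, map_one]
  have hfz : f ⟨z, hzJ⟩ ≠ 1 := by
    intro h
    change φ ⟨z, hzJ⟩ * φ (c ⟨z, hzJ⟩) = 1 at h
    rw [hcz] at h
    apply hφ
    calc φ ⟨z, hzJ⟩ = φ ⟨z, hzJ⟩ ^ 3 * (φ ⟨z, hzJ⟩ * φ ⟨z, hzJ⟩)⁻¹ := by
          rw [pow_succ, pow_two]; group
      _ = 1 := by rw [hφ3, h]; simp
  have hf3 : ∀ a, f a ^ 3 = 1 := fun a => by rw [← map_pow, hJ3, map_one]
  -- the kernel has order nine
  have hW9 : Nat.card f.ker = 9 := by
    have h1 := Subgroup.card_eq_card_quotient_mul_card_subgroup f.ker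
    rw [Nat.card_congr (QuotientGroup.quotientKerEquivRange f).toEquiv, hJcard] at h1
    have hle : f.range ≤ rootsOfUnity 3 ℂ := by
      rintro _ ⟨a, rfl⟩
      rw [mem_rootsOfUnity]
      exact hf3 a
    have h2 : Nat.card f.range ≤ 3 := by
      calc Nat.card f.range ≤ Nat.card (rootsOfUnity 3 ℂ) := Subgroup.card_le_of_le hle
        _ ≤ 3 := card_rootsOfUnity ℂ 3
    haveI : Finite f.range := Finite.of_surjective f.rangeRestrict f.rangeRestrict_surjective
    have h3 : 1 < Nat.card f.range := by
      rw [Finite.one_lt_card_iff_nontrivial]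
      exact ⟨⟨⟨f ⟨z, hzJ⟩, ⟨_, rfl⟩⟩, 1, fun h => hfz (congrArg Subtype.val h)⟩⟩
    have h4 : Nat.card f.range = 2 ∨ Nat.card f.range = 3 := by omega
    rcases h4 with h | h <;> rw [h] at h1 <;> omega
  let W : Subgroup G := f.ker.map J.subtype
  have hWmem : ∀ g, g ∈ W ↔ ∃ h : g ∈ J, f ⟨g, h⟩ = 1 := by
    intro g
    constructor
    · rintro ⟨a, ha, rfl⟩
      exact ⟨a.2, ha⟩
    · rintro ⟨h, hf⟩
      exact ⟨⟨g, h⟩, hf, rfl⟩
  have hWcard : Nat.card W = 9 := by
    rw [← hW9]
    exact Subgroup.card_map_of_injective J.subtype_injective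
  have hWJ : W ≤ J := by
    intro g hg
    exact ((hWmem g).mp hg).1
  have hWt : ∀ w ∈ W, t * w * t ∈ W := by
    intro w hw
    obtain ⟨h, hf⟩ := (hWmem w).mp hw
    have h1 : t * w * t ∈ J := by
      have := hJn.conj_mem w h t
      rwa [htinv] at this
    refine (hWmem _).mpr ⟨h1, ?_⟩
    have h2 : (⟨t * w * t, h1⟩ : J) = c ⟨w, h⟩ := by
      apply Subtype.ext
      change t * w * t = t * w * t⁻¹
      rw [htinv]
    rw [h2, hfc, hf]
  have hzW : z ∉ W := by
    intro h
    obtain ⟨h1, h2⟩ := (hWmem z).mp h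
    exact hfz h2
  have htJ : t ∉ J := by
    intro h
    have h1 := hJexp t h
    have h2 : t ^ 2 = 1 := by rw [pow_two]; exact ht2
    have h3 : t = 1 := by
      calc t = t ^ 3 * (t ^ 2)⁻¹ := by
            rw [pow_succ, pow_two]; group
        _ = 1 := by rw [h1, h2]; group
    exact ht1 h3
  -- the subgroup of index nine
  let H : Subgroup G :=
    { carrier := {g | g ∈ W ∨ g * t ∈ W}
      mul_mem' := by
        rintro a b (ha | ha) (hb | hb)
        · exact Or.inl (W.mul_mem ha hb)
        · right
          rw [mul_assoc]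
          exact W.mul_mem ha hb
        · right
          have h1 : a * b * t = (a * t) * (t * b * t) := by
            calc a * b * t = a * (t * t) * b * t := by rw [ht2, mul_one]
              _ = _ := by group
          rw [h1]
          exact W.mul_mem ha (hWt b hb)
        · left
          have h1 : a * b = (a * t) * (t * (b * t) * t) := by
            calc a * b = a * (t * t) * b * (t * t) := by rw [ht2, mul_one, mul_one]
              _ = _ := by group
          rw [h1]
          exact W.mul_mem ha (hWt _ hb)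
      one_mem' := Or.inl W.one_mem
      inv_mem' := by
        rintro a (ha | ha)
        · exact Or.inl (W.inv_mem ha)
        · right
          have h1 : a⁻¹ * t = t * (a * t)⁻¹ * t := by
            calc a⁻¹ * t = (t * t) * a⁻¹ * t := by rw [ht2, one_mul]
              _ = t * (t⁻¹ * a⁻¹) * t := by rw [htinv]; group
              _ = _ := by group
          rw [h1]
          exact hWt _ (W.inv_mem ha) }
  have hHmem : ∀ g, g ∈ H ↔ g ∈ W ∨ g * t ∈ W := fun g => Iff.rfl
  have hHcard : Nat.card H = 18 := by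
    let F : W ⊕ W → H := fun x => match x with
      | Sum.inl w => ⟨w, Or.inl w.2⟩
      | Sum.inr w => ⟨w * t, Or.inr (by rw [mul_assoc, ht2, mul_one]; exact w.2)⟩
    have hF : Function.Bijective F := by
      constructor
      · rintro (a | a) (b | b) h
        · have h1 : (a : G) = b := congrArg (fun x : H => (x : G)) h
          rw [Subtype.ext h1]
        · exfalso
          have h1 : (a : G) = b * t := congrArg (fun x : H => (x : G)) h
          apply htJ
          have h2 : t = (b : G)⁻¹ * a := by rw [h1]; group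
          rw [h2]
          exact J.mul_mem (J.inv_mem (hWJ b.2)) (hWJ a.2)
        · exfalso
          have h1 : (a : G) * t = b := congrArg (fun x : H => (x : G)) h
          apply htJ
          have h2 : t = (a : G)⁻¹ * b := by rw [← h1]; group
          rw [h2]
          exact J.mul_mem (J.inv_mem (hWJ a.2)) (hWJ b.2)
        · have h1 : (a : G) * t = b * t := congrArg (fun x : H => (x : G)) h
          rw [Subtype.ext (mul_right_cancel h1)]
      · rintro ⟨g, hg | hg⟩
        · exact ⟨Sum.inl ⟨g, hg⟩, rfl⟩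
        · refine ⟨Sum.inr ⟨g * t, hg⟩, Subtype.ext ?_⟩
          change g * t * t = g
          rw [mul_assoc, ht2, mul_one]
    rw [← Nat.card_congr (Equiv.ofBijective F hF), Nat.card_sum, hWcard]
  have hzH : z ∉ H := by
    rintro (h | h)
    · exact hzW h
    · apply htJ
      have h2 : t = z⁻¹ * (z * t) := by group
      rw [h2]
      exact J.mul_mem (J.inv_mem hzJ) (hWJ h)
  have hQcard : Nat.card (G ⧸ H) = 9 := by
    have h1 := Subgroup.card_eq_card_quotient_mul_card_subgroup H
    rw [hG, hHcard] at h1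
    omega
  -- faithfulness
  have hcore : H.normalCore = ⊥ := by
    by_contra hne
    haveI hNn : H.normalCore.Normal := Subgroup.normalCore_normal H
    set N := H.normalCore with hN
    have hNH : N ≤ H := Subgroup.normalCore_le H
    by_cases hNS : N ⊓ (S : Subgroup G) = ⊥
    · -- `N` is generated by the central involution `t`
      obtain ⟨n, hn, hn1⟩ := (Subgroup.bot_or_exists_ne_one N).resolve_left hne
      have hnS : n ∉ (S : Subgroup G) := fun h => by
        have : n ∈ N ⊓ (S : Subgroup G) := ⟨hn, h⟩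
        rw [hNS] at this
        exact hn1 this
      have hcom : ∀ s ∈ (S : Subgroup G), s * n = n * s := by
        intro s hs
        have h1 : s * n * s⁻¹ * n⁻¹ ∈ N := N.mul_mem (hNn.conj_mem n hn s) (N.inv_mem hn)
        have h2 : s * n * s⁻¹ * n⁻¹ ∈ (S : Subgroup G) := by
          have h3 := hSn.conj_mem s⁻¹ ((S : Subgroup G).inv_mem hs) n
          have h4 : s * n * s⁻¹ * n⁻¹ = s * (n * s⁻¹ * n⁻¹) := by group
          rw [h4]
          exact (S : Subgroup G).mul_mem hs h3
        have h5 : s * n * s⁻¹ * n⁻¹ ∈ N ⊓ (S : Subgroup G) := ⟨h1, h2⟩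
        rw [hNS, Subgroup.mem_bot] at h5
        calc s * n = (s * n * s⁻¹ * n⁻¹) * (n * s) := by group
          _ = n * s := by rw [h5, one_mul]
      have hn2 : n * n = 1 := by
        have h1 : n * n ∈ (S : Subgroup G) := by
          rw [Subgroup.mul_mem_iff_of_index_two hSidx]
        have h2 : n * n ∈ N ⊓ (S : Subgroup G) := ⟨N.mul_mem hn hn, h1⟩
        rw [hNS, Subgroup.mem_bot] at h2
        exact h2
      have htn : t * n ∈ (S : Subgroup G) := by
        rw [Subgroup.mul_mem_iff_of_index_two hSidx]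
        exact iff_of_false htS hnS
      have hnt : n * t = t * n := by
        have h1 : (t * n) * n = n * (t * n) := hcom _ htn
        have h2 : t * n * n = t := by rw [mul_assoc, hn2, mul_one]
        rw [h2] at h1
        calc n * t = n * (t * n) * n := by rw [mul_assoc n, mul_assoc t, hn2, mul_one]
          _ = t * n := by rw [← h1]
      have h2 : (t * n) * (t * n) = 1 := by
        calc (t * n) * (t * n) = t * (n * t) * n := by group
          _ = t * (t * n) * n := by rw [hnt]
          _ = (t * t) * (n * n) := by group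
          _ = 1 := by rw [ht2, hn2, one_mul]
      have h3 : t * n = 1 := by
        by_contra hne1
        have h4 := Subgroup.orderOf_dvd_natCard _ htn
        rw [hS81, orderOf_eq_prime (by rw [pow_two]; exact h2) hne1] at h4
        omega
      have h4 : n = t := by
        have : n = t⁻¹ * (t * n) := by group
        rw [this, h3, mul_one, htinv]
      apply hST
      apply le_antisymm inf_le_left
      intro s hs
      refine Subgroup.mem_inf.mpr ⟨hs, ?_⟩
      rw [Subgroup.mem_centralizer_iff]
      intro τ hτ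
      rcases hTmem τ hτ with rfl | rfl
      · simp
      · rw [← h4]
        exact (hcom s hs).symm
    · -- `N` contains `Z`
      haveI : (N ⊓ (S : Subgroup G)).Normal := inferInstance
      let U : Subgroup (S : Subgroup G) := (N ⊓ (S : Subgroup G)).subgroupOf (S : Subgroup G)
      haveI hU : U.Normal := inferInstance
      have hUb : ¬ U ≤ ⊥ := by
        intro h
        apply hNS
        rw [eq_bot_iff]
        intro y hy
        have h1 : (⟨y, hy.2⟩ : (S : Subgroup G)) ∈ U := by
          rw [Subgroup.mem_subgroupOf]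
          exact hy
        have h2 := h h1
        rw [Subgroup.mem_bot] at h2 ⊢
        exact congrArg Subtype.val h2
      obtain ⟨x, hxU, hxb, hxc⟩ := Cfsg.Agent.Lib.Basic.exists_central_mod_of_isPGroup
        S.isPGroup' ⊥ U hUb
      have hxN : (x : G) ∈ N := ((Subgroup.mem_subgroupOf).mp hxU).1
      have hxZ : (x : G) ∈ Z := by
        rw [hZ]
        refine Subgroup.mem_inf.mpr ⟨x.2, ?_⟩
        rw [Subgroup.mem_centralizer_iff]
        intro y hy
        have h1 := hxc ⟨y, hy⟩
        rw [Subgroup.mem_bot, commutatorElement_eq_one_iff_commute] at h1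
        exact congrArg Subtype.val h1.symm.eq
      have hx1 : x ≠ 1 := fun h => hxb (by rw [h]; exact Subgroup.one_mem _)
      -- `Z` is generated by `x`
      have hzx : z ∈ N := by
        let x' : Z := ⟨x, hxZ⟩
        have hx'1 : x' ≠ 1 := fun h => hx1 (Subtype.ext (congrArg (fun y : Z => (y : G)) h))
        have hZ3 : ∀ y : Z, y ∈ Subgroup.zpowers x' := by
          intro y
          have h3 : x' ^ 3 = 1 := by
            have := pow_card_eq_one' (x := x')
            rwa [hZcard] at this
          have hord : orderOf x' = 3 := orderOf_eq_prime h3 hx'1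
          have htop : Subgroup.zpowers x' = ⊤ := by
            apply Subgroup.eq_top_of_card_eq
            rw [Nat.card_zpowers, hord, hZcard]
          rw [htop]
          trivial
        obtain ⟨k, hk⟩ := hZ3 z'
        have h5 : z = (x : G) ^ k := by
          have := congrArg Subtype.val hk
          simpa using this.symm
        rw [h5]
        exact N.zpow_mem hxN k
      exact hzH (hNH hzx)
  have hφinj : Function.Injective (MulAction.toPermHom G (G ⧸ H)) := by
    rw [injective_iff_map_eq_one]
    intro g hg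
    have h1 : g ∈ (MulAction.toPermHom G (G ⧸ H)).ker := hg
    rw [← Subgroup.normalCore_eq_ker, hcore, Subgroup.mem_bot] at h1
    exact h1
  let e : (G ⧸ H) ≃ Fin 9 := Finite.equivFinOfCardEq hQcard
  let ψ : G →* Equiv.Perm (Fin 9) := (e.permCongrHom.toMonoidHom).comp (MulAction.toPermHom G (G ⧸ H))
  have hψ : Function.Injective ψ := e.permCongrHom.injective.comp hφinj
  have hzord : orderOf z = 3 := by
    apply orderOf_eq_prime _ hz1
    exact hJexp z hzJ
  have hπord : orderOf (ψ z) = 3 := by
    rw [orderOf_injective ψ hψ, hzord]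
  have hπf : ∀ x, ψ z x ≠ x := by
    intro x hx
    have h1 : (MulAction.toPermHom G (G ⧸ H) z) (e.symm x) = e.symm x := by
      have h2 : ψ z x = e ((MulAction.toPermHom G (G ⧸ H) z) (e.symm x)) := rfl
      rw [h2] at hx
      exact e.eq_symm_apply.mpr hx
    obtain ⟨g, hg⟩ := QuotientGroup.mk_surjective (e.symm x)
    rw [← hg] at h1
    have h3 : z • ((g : G ⧸ H)) = (g : G ⧸ H) := h1
    rw [MulAction.Quotient.smul_mk, QuotientGroup.eq] at h3
    apply hzH
    have h4 : (z • g)⁻¹ * g = z⁻¹ := by
      rw [smul_eq_mul, mul_inv_rev]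
      calc g⁻¹ * z⁻¹ * g = g⁻¹ * (z⁻¹ * g) := by group
        _ = g⁻¹ * (g * z⁻¹) := by
            congr 1
            have := hzc g
            calc z⁻¹ * g = z⁻¹ * (g * z) * z⁻¹ := by group
              _ = z⁻¹ * (z * g) * z⁻¹ := by rw [this]
              _ = g * z⁻¹ := by group
        _ = z⁻¹ := by group
    rw [h4] at h3
    simpa using H.inv_mem h3
  have hconj : IsConj (ψ z) sigma9 := by
    rw [Equiv.Perm.isConj_iff_cycleType_eq, cycleType_aux _ hπord hπf, sigma9_type]
  obtain ⟨d, hd⟩ := isConj_iff.mp hconj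
  let ψ' : G →* Equiv.Perm (Fin 9) := (MulAut.conj d).toMonoidHom.comp ψ
  have hψ' : Function.Injective ψ' := (MulAut.conj d).injective.comp hψ
  have hψz : ψ' z = sigma9 := hd
  have hle : ψ'.range ≤ Subgroup.centralizer ({sigma9} : Set (Equiv.Perm (Fin 9))) := by
    rintro _ ⟨g, rfl⟩
    rw [Subgroup.mem_centralizer_singleton_iff, ← hψz, ← map_mul, ← map_mul, hzc]
  have hrange : ψ'.range = Subgroup.centralizer ({sigma9} : Set (Equiv.Perm (Fin 9))) := by
    apply Subgroup.eq_of_le_of_card_ge hle
    rw [card_cent, Nat.card_congr (MonoidHom.ofInjective hψ').toEquiv.symm, hG]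
  exact ⟨(MonoidHom.ofInjective hψ').trans (MulEquiv.subgroupCongr hrange)⟩

end Helpers


/-- Let G be a group of order 162 = 3⁴·2 with Sylow 3-subgroup S and Sylow 2-subgroup T, having an elementary abelian normal subgroup J of order 27, such that Z = Z(S) has order 3, Z centralizes T, and C_S(T) ≠ S. Then G is isomorphic to the centralizer in Sym(9) of a product of three disjoint 3-cycles. -/
theorem result {G : Type*} [Group G] [Finite G] (hG : Nat.card G = 162)
    (S : Sylow 3 G) (T : Sylow 2 G) (J : Subgroup G) [hJn : J.Normal] (hJcomm : IsMulCommutative J)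
    (hJexp : ∀ a ∈ J, a ^ 3 = 1) (hJcard : Nat.card J = 27)
    (Z : Subgroup G) (hZ : Z = (S : Subgroup G) ⊓ Subgroup.centralizer ((S : Subgroup G) : Set G)) (hZcard : Nat.card Z = 3)
    (hZT : Z ≤ Subgroup.centralizer ((T : Subgroup G) : Set G))
    (hST : (S : Subgroup G) ⊓ Subgroup.centralizer ((T : Subgroup G) : Set G) ≠ S) :
    Nonempty (G ≃* Subgroup.centralizer ({Equiv.swap (0 : Fin 9) 1 * Equiv.swap 1 2 * Equiv.swap 3 4 * Equiv.swap 4 5 * Equiv.swap 6 7 * Equiv.swap 7 8} : Set (Equiv.Perm (Fin 9)))) := by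
  exact main_aux hG S T J hJcomm hJexp hJcard Z hZ hZcard hZT hST

end Cfsg.Agent.S3376
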