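import Cfsg.Statements.S3377
import Mathlib
import Cfsg.Agent.Lib.Recog.CosetA5

set_option autoImplicit false
open Cfsg

namespace Cfsg.Agent.S3377

open Cfsg.Agent.Lib.Recog

/-- Elements of alternating group generating. -/
def ga : alternatingGroup (Fin 5) := ⟨Equiv.swap 1 4 * Equiv.swap 4 2, Equiv.Perm.mem_alternatingGroup.mpr (by decide)⟩
def gb : alternatingGroup (Fin 5) := ⟨Equiv.swap 0 1 * Equiv.swap 1 2 * Equiv.swap 2 3 * Equiv.swap 3 4, Equiv.Perm.mem_alternatingGroup.mpr (by decide)⟩

lemma ga3 : ga ^ 3 = 1 := by decide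
lemma gb5 : gb ^ 5 = 1 := by decide
lemma gab2 : (ga * gb) ^ 2 = 1 := by decide
lemma ga1 : ga ≠ 1 := by decide
lemma gb1 : gb ≠ 1 := by decide
lemma gab1 : ga * gb ≠ 1 := by decide

/-- A subgroup containing the two generators is everything. -/
lemma gen_top (K : Subgroup (alternatingGroup (Fin 5))) (ha : ga ∈ K) (hb : gb ∈ K) : K = ⊤ := by
  have hcard : Nat.card (alternatingGroup (Fin 5)) = 60 := by
    rw [Nat.card_eq_fintype_card]
    decide +kernel
  have h3 : 3 ∣ Nat.card K := by
    have h9 : orderOf ga = 3 := orderOf_eq_prime ga3 ga1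
    have h10 := Subgroup.orderOf_dvd_natCard K ha
    rwa [h9] at h10
  have h5 : 5 ∣ Nat.card K := by
    haveI : Fact (Nat.Prime 5) := ⟨by norm_num⟩
    have h9 : orderOf gb = 5 := orderOf_eq_prime gb5 gb1
    have h10 := Subgroup.orderOf_dvd_natCard K hb
    rwa [h9] at h10
  have h2 : 2 ∣ Nat.card K := by
    have h9 : orderOf (ga * gb) = 2 := orderOf_eq_prime gab2 gab1
    have h10 := Subgroup.orderOf_dvd_natCard K (K.mul_mem ha hb)
    rwa [h9] at h10
  have h30 : 30 ∣ Nat.card K := by
    have h6 : 6 ∣ Nat.card K := Nat.Coprime.mul_dvd_of_dvd_of_dvd (by norm_num : Nat.Coprime 2 3) h2 h3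
    exact Nat.Coprime.mul_dvd_of_dvd_of_dvd (by norm_num : Nat.Coprime 6 5) h6 h5
  have hd : Nat.card K * K.index = 60 := by
    rw [Subgroup.card_mul_index, hcard]
  obtain ⟨m, hm⟩ := h30
  rw [hm, mul_assoc] at hd
  have hm2 : m * K.index = 2 := by omega
  have hi : K.index = 1 ∨ K.index = 2 := by
    have : K.index ∣ 2 := Dvd.intro_left _ hm2
    exact (Nat.dvd_prime Nat.prime_two).mp this
  rcases hi with hi | hi
  · exact Subgroup.index_eq_one.mp hi
  · haveI := Subgroup.normal_of_index_eq_two hi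
    haveI : IsSimpleGroup (alternatingGroup (Fin 5)) := alternatingGroup.isSimpleGroup (by simp)
    rcases (inferInstance : K.Normal).eq_bot_or_eq_top with h | h
    · exfalso
      rw [h] at ha
      exact ga1 (by simpa using ha)
    · exact h



/-- The alternating group of degree 5 has the presentation ⟨x, y | x³ = 1, y⁵ = 1, (xy)² = 1⟩: the group so presented is isomorphic to Alt(5). -/
theorem result :
    Nonempty (PresentedGroup ({FreeGroup.of (0 : Fin 2) ^ 3, FreeGroup.of (1 : Fin 2) ^ 5,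
        (FreeGroup.of (0 : Fin 2) * FreeGroup.of 1) ^ 2} : Set (FreeGroup (Fin 2))) ≃* alternatingGroup (Fin 5)) := by
  classical
  set rels : Set (FreeGroup (Fin 2)) := {FreeGroup.of (0 : Fin 2) ^ 3, FreeGroup.of (1 : Fin 2) ^ 5,
        (FreeGroup.of (0 : Fin 2) * FreeGroup.of 1) ^ 2} with hrels
  let x : PresentedGroup rels := PresentedGroup.of 0
  let y : PresentedGroup rels := PresentedGroup.of 1
  have hx : x ^ 3 = 1 := PresentedGroup.one_of_mem (rels := rels) (x := FreeGroup.of (0 : Fin 2) ^ 3) (by simp [hrels])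
  have hy : y ^ 5 = 1 := PresentedGroup.one_of_mem (rels := rels) (x := FreeGroup.of (1 : Fin 2) ^ 5) (by simp [hrels])
  have hxy : (x * y) ^ 2 = 1 := PresentedGroup.one_of_mem (rels := rels) (x := (FreeGroup.of (0 : Fin 2) * FreeGroup.of 1) ^ 2) (by simp [hrels])
  have hgen : Subgroup.closure ({x, y} : Set (PresentedGroup rels)) = ⊤ := by
    rw [← PresentedGroup.closure_range_of rels]
    congr 1
    ext g
    constructor
    · rintro (rfl | hg)
      · exact ⟨0, rfl⟩
      · rw [Set.mem_singleton_iff] at hg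
        subst hg
        exact ⟨1, rfl⟩
    · rintro ⟨i, rfl⟩
      fin_cases i
      · exact Or.inl rfl
      · exact Or.inr rfl
  obtain ⟨hfin, hcard⟩ := a5_card_le x y hx hy hxy hgen
  have hval : ∀ r ∈ rels, FreeGroup.lift (![ga, gb]) r = 1 := by
    intro r hr
    rcases hr with rfl | rfl | rfl
    · simp [ga3]
    · simp [gb5]
    · simp [gab2]
  let ρ : PresentedGroup rels →* alternatingGroup (Fin 5) := PresentedGroup.toGroup hval
  have hρx : ρ x = ga := PresentedGroup.toGroup.of hval
  have hρy : ρ y = gb := PresentedGroup.toGroup.of hval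
  have hsurj : Function.Surjective ρ := by
    rw [← MonoidHom.range_eq_top]
    exact gen_top _ ⟨x, hρx⟩ ⟨y, hρy⟩
  have hcard' : Nat.card (alternatingGroup (Fin 5)) = 60 := by
    rw [Nat.card_eq_fintype_card]
    decide +kernel
  have hbij := hsurj.bijective_of_nat_card_le (by rw [hcard']; exact hcard)
  exact ⟨MulEquiv.ofBijective ρ hbij⟩

end Cfsg.Agent.S3377
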