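import Cfsg.Statements.S3385
import Cfsg.Agent.Lib.Misc19.Sims3H

set_option autoImplicit false
open Cfsg

namespace Cfsg.Agent.S3385



/-- Sims' Theorem on primitive groups with a suborbit of length 3. Let G be a finite group acting faithfully and primitively on a set Ω, and suppose the stabilizer of a point a has an orbit of length 3 on Ω. Then the stabilizer of a has order 2^k · 3 for some k ≤ 4. -/
theorem result {G : Type*} [Group G] [Finite G] {Ω : Type*} [MulAction G Ω] [FaithfulSMul G Ω]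
    (hprim : MulAction.IsPreprimitive G Ω) (a b : Ω)
    (h3 : Nat.card (MulAction.orbit (MulAction.stabilizer G a) b) = 3) :
    ∃ k : ℕ, k ≤ 4 ∧ Nat.card ↥(MulAction.stabilizer G a) = 2 ^ k * 3 := by

  classical
  let D : Cfsg.Agent.Misc19.Sims3.SD G Ω := ⟨a, b, hprim, h3⟩
  have hbd : Nat.card (Cfsg.Agent.Misc19.Sims3.HH G a b) ≤ 16 :=
    Cfsg.Agent.Misc19.Sims3.SD.bound D
  haveI : Fact (Nat.Prime 2) := ⟨Nat.prime_two⟩
  have hP : IsPGroup 2 (Cfsg.Agent.Misc19.Sims3.HH G a b) := fun k => by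
    obtain ⟨n, hn⟩ := Cfsg.Agent.Misc19.Sims3.SD.H_two (D := D)
      (Cfsg.Agent.Misc19.Sims3.SD.arc_base D) k.1 k.2
    exact ⟨n, Subtype.ext (by simpa using hn)⟩
  obtain ⟨n, hn⟩ := IsPGroup.iff_card.mp hP
  have hc := Cfsg.Agent.Misc19.Sims3.card_orbit_mul_HH (G := G) a b
  rw [h3] at hc
  have hn4 : n ≤ 4 := by
    by_contra h
    have h5 : 2 ^ 5 ≤ 2 ^ n := Nat.pow_le_pow_right (by norm_num) (by omega)
    rw [hn] at hbd
    omega
  exact ⟨n, hn4, by rw [← hc, hn]; ring⟩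

end Cfsg.Agent.S3385
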