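import Cfsg.Statements.S3389
import Mathlib

set_option autoImplicit false
open Cfsg

namespace Cfsg.Agent.S3389

open MulAction
set_option linter.style.haveILetI false

/-- part 1: the centre acts freely on the fixed point set of any element -/
lemma center_dvd {G Ω : Type*} [Group G] [Finite G] [Fintype Ω] [MulAction G Ω]
    [FaithfulSMul G Ω] [IsPretransitive G Ω] (g : G) :
    Nat.card (Subgroup.center G) ∣ Nat.card (fixedBy Ω g) := by
  classical
  let Z := Subgroup.center G
  let F : SubMulAction Z Ω :=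
    { carrier := fixedBy Ω g
      smul_mem' := by
        rintro ⟨z, hz⟩ x hx
        have hx' : g • x = x := hx
        show g • (z • x) = z • x
        rw [← mul_smul, (Subgroup.mem_center_iff.mp hz g), mul_smul, hx'] }
  have hfree : ∀ b : F, stabilizer Z b = ⊥ := by
    intro b
    rw [Subgroup.eq_bot_iff_forall]
    rintro ⟨z, hz⟩ hzb
    have hzb' : z • (b : Ω) = b := by
      have := congrArg Subtype.val hzb
      exact this
    apply Subtype.ext
    show z = 1
    apply FaithfulSMul.eq_of_smul_eq_smul (α := Ω)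
    intro ω
    obtain ⟨h, rfl⟩ := IsPretransitive.exists_smul_eq (M := G) (b : Ω) ω
    rw [one_smul, ← mul_smul, (Subgroup.mem_center_iff.mp hz h).symm, mul_smul, hzb']
  have hequiv := selfEquivOrbitsQuotientProd (G := Z) (X := F) hfree
  have h1 : Nat.card F = Nat.card (Quotient (orbitRel Z F)) * Nat.card Z := by
    rw [Nat.card_congr hequiv, Nat.card_prod]
  have h2 : Nat.card F = Nat.card (fixedBy Ω g) := rfl
  rw [← h2, h1]
  exact dvd_mul_left _ _

/-- Burnside for an orbit. -/
lemma sum_fix_orbit {H Ω : Type*} [Group H] [Fintype H] [MulAction H Ω] [DecidableEq Ω] (x : Ω)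
    (O : Finset Ω) (hO : ∀ y, y ∈ O ↔ y ∈ orbit H x) :
    ∑ u : H, (O.filter (fun y => u • y = y)).card = Fintype.card H := by
  classical
  have h1 : ∑ u : H, (O.filter (fun y => u • y = y)).card =
      ∑ y ∈ O, (Finset.univ.filter (fun u : H => u • y = y)).card := by
    simp only [Finset.card_filter]
    rw [Finset.sum_comm]
  rw [h1]
  have hcard : ∀ y ∈ O, (Finset.univ.filter (fun u : H => u • y = y)).card * O.card = Fintype.card H := by
    intro y hy
    have hy' := (hO y).mp hy
    have horb : orbit H y = orbit H x := orbit_eq_iff.mpr hy'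
    have h2 : Nat.card (orbit H y) = O.card := by
      have h6 : orbit H x = (O : Set Ω) := by
        ext z
        simp [hO z]
      rw [horb, h6, Nat.card_coe_set_eq, Set.ncard_coe_finset]
    have h3 : (stabilizer H y).index = O.card := by
      rw [index_stabilizer, ← Nat.card_coe_set_eq]
      exact h2
    have h4 : Nat.card (stabilizer H y) = (Finset.univ.filter (fun u : H => u • y = y)).card := by
      rw [Nat.card_eq_fintype_card, Fintype.card_subtype]
      rfl
    rw [← h4, ← h3, Subgroup.card_mul_index, Nat.card_eq_fintype_card]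
  by_cases hne : O.card = 0
  · exfalso
    have : x ∈ O := (hO x).mpr (mem_orbit_self x)
    exact (Finset.card_ne_zero_of_mem this) hne
  have h5 : ∀ y ∈ O, (Finset.univ.filter (fun u : H => u • y = y)).card = Fintype.card H / O.card := by
    intro y hy
    rw [← hcard y hy]
    exact (Nat.mul_div_cancel _ (Nat.pos_of_ne_zero hne)).symm
  rw [Finset.sum_congr rfl h5, Finset.sum_const, smul_eq_mul]
  have := hcard x ((hO x).mpr (mem_orbit_self x))
  rw [← this, Nat.mul_div_cancel _ (Nat.pos_of_ne_zero hne), mul_comm]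

lemma two_mul_orbit_le {H Ω : Type*} [Group H] [Finite H] [MulAction H Ω] [DecidableEq Ω] (x : Ω)
    (O : Finset Ω) (hO : ∀ y, y ∈ O ↔ y ∈ orbit H x) (u : H) (hu : u ≠ 1) (hux : u • x = x) :
    2 * O.card ≤ Nat.card H := by
  have h6 : orbit H x = (O : Set Ω) := by
    ext z
    simp [hO z]
  have h3 : (stabilizer H x).index = O.card := by
    rw [index_stabilizer, h6, Set.ncard_coe_finset]
  have h4 : 2 ≤ Nat.card (stabilizer H x) := by
    haveI : Nontrivial (stabilizer H x) :=
      ⟨⟨⟨u, hux⟩, 1, fun h => hu (congrArg Subtype.val h)⟩⟩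
    exact Finite.one_lt_card
  rw [← Subgroup.card_mul_index (stabilizer H x), h3]
  exact Nat.mul_le_mul_right _ h4

lemma even_aux {G Ω : Type*} [Group G] [Finite G] [Fintype Ω] [MulAction G Ω]
    [IsPretransitive G Ω]
    (hfix : ∀ g : G, g ≠ 1 → Nat.card (fixedBy Ω g) ≤ 2) (g : G) (hg : g ≠ 1)
    (hg2 : Nat.card (fixedBy Ω g) = 2) : 2 ∣ Nat.card G := by
  classical
  obtain ⟨⟨a, ha⟩, ⟨b, hb⟩, hab, -⟩ := Nat.card_eq_two_iff.mp hg2
  have hab' : a ≠ b := fun h => hab (Subtype.ext h)
  have hga : g • a = a := ha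
  have hgb : g • b = b := hb
  obtain ⟨h, hh⟩ := IsPretransitive.exists_smul_eq (M := G) a b
  set b' := h⁻¹ • a with hb'
  have hha : h⁻¹ • b = a := by rw [← hh, inv_smul_smul]
  have hgc1 : (h⁻¹ * g * h) • a = a := by
    rw [mul_smul, mul_smul, hh, hgb, hha]
  have hgc2 : (h⁻¹ * g * h) • b' = b' := by
    rw [mul_smul, mul_smul, hb', smul_inv_smul, hga]
  have hne : h⁻¹ * g * h ≠ 1 := by
    intro h1
    apply hg
    have : g = h * (h⁻¹ * g * h) * h⁻¹ := by group
    rw [this, h1]
    group
  haveI := Fintype.ofFinite G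
  let H : Subgroup G := stabilizer G a
  haveI : Fintype H := Fintype.ofFinite _
  have hb'a : b' ≠ a := by
    intro h1
    rw [hb', inv_smul_eq_iff] at h1
    rw [hh] at h1
    exact hab' h1
  have claim : b' ∈ orbit H b := by
    by_contra hnot
    let Δ : Finset Ω := Finset.univ.filter (· ∈ orbit H b)
    let Δ' : Finset Ω := Finset.univ.filter (· ∈ orbit H b')
    have hΔ : ∀ y, y ∈ Δ ↔ y ∈ orbit H b := by
      intro y; simp [Δ]
    have hΔ' : ∀ y, y ∈ Δ' ↔ y ∈ orbit H b' := by
      intro y; simp [Δ']
    have hdisj : ∀ y, y ∈ Δ → y ∈ Δ' → False := by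
      intro y hy hy'
      have h1 := (hΔ y).mp hy
      have h2 := (hΔ' y).mp hy'
      apply hnot
      have h3 : orbit H y = orbit H b := orbit_eq_iff.mpr h1
      have h4 : orbit H y = orbit H b' := orbit_eq_iff.mpr h2
      rw [← h3, h4]
      exact mem_orbit_self _
    have haΔ : a ∉ Δ := by
      intro hmem
      obtain ⟨u, hu⟩ := (hΔ a).mp hmem
      have hu1 : (u : G) • a = a := u.2
      have hu2 : (u : G) • b = a := hu
      rw [← hu1] at hu2
      exact hab' (smul_left_cancel _ hu2).symm
    have haΔ' : a ∉ Δ' := by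
      intro hmem
      obtain ⟨u, hu⟩ := (hΔ' a).mp hmem
      have hu1 : (u : G) • a = a := u.2
      have hu2 : (u : G) • b' = a := hu
      rw [← hu1] at hu2
      exact hb'a (smul_left_cancel _ hu2)
    have hs1 := sum_fix_orbit (H := H) b Δ hΔ
    have hs2 := sum_fix_orbit (H := H) b' Δ' hΔ'
    have hc1 : 2 * Δ.card ≤ Nat.card H :=
      two_mul_orbit_le (H := H) b Δ hΔ ⟨g, hga⟩ (fun h1 => hg (congrArg Subtype.val h1)) hgb
    have hc2 : 2 * Δ'.card ≤ Nat.card H :=
      two_mul_orbit_le (H := H) b' Δ' hΔ' ⟨h⁻¹ * g * h, hgc1⟩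
        (fun h1 => hne (congrArg Subtype.val h1)) hgc2
    rw [Nat.card_eq_fintype_card] at hc1 hc2
    -- the bound
    have hbound : ∀ u : H, u ≠ 1 →
        (Δ.filter (fun y => u • y = y)).card + (Δ'.filter (fun y => u • y = y)).card ≤ 1 := by
      intro u hu
      have hu' : (u : G) ≠ 1 := fun h1 => hu (Subtype.ext h1)
      have h1 := hfix (u : G) hu'
      rw [Nat.card_coe_set_eq] at h1
      have hua : (u : G) • a = a := u.2
      let T : Finset Ω := insert a ((Δ.filter (fun y => u • y = y)) ∪ (Δ'.filter (fun y => u • y = y)))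
      have hT : (T : Set Ω) ⊆ fixedBy Ω (u : G) := by
        intro y hy
        have hy' : y ∈ T := hy
        simp only [T, Finset.mem_insert, Finset.mem_union, Finset.mem_filter] at hy'
        rcases hy' with rfl | ⟨-, h2⟩ | ⟨-, h2⟩
        · exact hua
        · exact h2
        · exact h2
      have h2 := Set.ncard_le_ncard hT (Set.toFinite _)
      rw [Set.ncard_coe_finset] at h2
      have h3 : T.card = 1 + ((Δ.filter (fun y => u • y = y)).card + (Δ'.filter (fun y => u • y = y)).card) := by
        simp only [T]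
        rw [Finset.card_insert_of_notMem, Finset.card_union_of_disjoint]
        · ring
        · rw [Finset.disjoint_left]
          intro y hy hy'
          exact hdisj y (Finset.mem_filter.mp hy).1 (Finset.mem_filter.mp hy').1
        · intro hmem
          rcases Finset.mem_union.mp hmem with h4 | h4
          · exact haΔ (Finset.mem_filter.mp h4).1
          · exact haΔ' (Finset.mem_filter.mp h4).1
      omega
    have hsum : ∑ u : H, ((Δ.filter (fun y => u • y = y)).card + (Δ'.filter (fun y => u • y = y)).card)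
        = Fintype.card H + Fintype.card H := by
      rw [Finset.sum_add_distrib, hs1, hs2]
    have h1mem : (1 : H) ∈ (Finset.univ : Finset H) := Finset.mem_univ _
    rw [← Finset.add_sum_erase _ _ h1mem] at hsum
    have hone : (Δ.filter (fun y => (1 : H) • y = y)).card + (Δ'.filter (fun y => (1 : H) • y = y)).card
        = Δ.card + Δ'.card := by
      simp
    rw [hone] at hsum
    have hrest : ∑ u ∈ (Finset.univ : Finset H).erase 1,
        ((Δ.filter (fun y => u • y = y)).card + (Δ'.filter (fun y => u • y = y)).card)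
        ≤ ((Finset.univ : Finset H).erase 1).card * 1 := by
      apply Finset.sum_le_card_nsmul
      intro u hu
      exact hbound u (Finset.ne_of_mem_erase hu)
    rw [Finset.card_erase_of_mem h1mem, Finset.card_univ, mul_one] at hrest
    have hpos : 0 < Fintype.card H := Fintype.card_pos
    omega
  obtain ⟨x, hx⟩ := claim
  have hx1 : (x : G) • a = a := x.2
  have hx2 : (x : G) • b = b' := hx
  let y : G := h * x
  have hy1 : y • a = b := by
    show (h * x) • a = b
    rw [mul_smul, hx1, hh]
  have hy2 : y • b = a := by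
    show (h * x) • b = a
    rw [mul_smul, hx2, hb', smul_inv_smul]
  have hyy : ∀ m : ℕ, y ^ (2 * m) • a = a := by
    intro m
    induction m with
    | zero => simp
    | succ m ih =>
      rw [Nat.mul_succ, pow_add, mul_smul, pow_two, mul_smul, hy1, hy2, ih]
  have hev : 2 ∣ orderOf y := by
    by_contra hodd
    obtain ⟨m, hm⟩ := Nat.odd_iff.mpr (Nat.two_dvd_ne_zero.mp hodd)
    have h1 : y ^ (2 * m + 1) = 1 := by rw [← hm]; exact pow_orderOf_eq_one y
    have h2 : y ^ (2 * m + 1) • a = b := by
      rw [pow_succ', mul_smul, hyy, hy1]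
    rw [h1, one_smul] at h2
    exact hab' h2
  exact hev.trans (orderOf_dvd_natCard y)

lemma sylow_aux {G Ω : Type*} [Group G] [Finite G] [Fintype Ω] [MulAction G Ω]
    (k : ℕ) (hfix : ∀ g : G, g ≠ 1 → Nat.card (fixedBy Ω g) ≤ k) (p : ℕ) (hp : p.Prime) (hkp : k < p)
    (α : Ω) (h1 : p ∣ Nat.card (stabilizer G α)) (h2 : p ∣ (stabilizer G α).index) : False := by
  classical
  haveI : Fact p.Prime := ⟨hp⟩
  let H : Subgroup G := stabilizer G α
  obtain ⟨Q⟩ : Nonempty (Sylow p H) := inferInstance
  let P : Subgroup G := Q.1.map H.subtype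
  have hPp : IsPGroup p P := Q.2.map H.subtype
  obtain ⟨S, hS⟩ := hPp.exists_le_sylow
  have hPH : P ≤ H := by
    rintro _ ⟨x, -, rfl⟩
    exact x.2
  by_cases hPS : P = S
  · have hSH : (S : Subgroup G) ≤ H := hPS ▸ hPH
    have := Subgroup.relIndex_mul_index hSH
    exact S.not_dvd_index (this ▸ Dvd.dvd.mul_left h2 _)
  · -- nontrivial element of `P`
    obtain ⟨e, heP, he1⟩ : ∃ e ∈ P, e ≠ 1 := by
      have h3 : p ∣ Nat.card Q := Q.dvd_card_of_dvd_card h1
      obtain ⟨x, hx⟩ := exists_prime_orderOf_dvd_card' (G := Q) p h3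
      refine ⟨((x : H) : G), Subgroup.mem_map_of_mem _ x.2, ?_⟩
      intro h4
      have h5 : x = 1 := Subtype.ext (Subtype.ext h4)
      rw [h5, orderOf_one] at hx
      exact hp.one_lt.ne hx
    have hlt : P < S := lt_of_le_of_ne hS hPS
    have hP' : P.subgroupOf S < ⊤ := by
      refine lt_of_le_of_ne le_top ?_
      intro h3
      apply hPS
      apply le_antisymm hS
      intro x hx
      have : (⟨x, hx⟩ : S) ∈ P.subgroupOf S := by rw [h3]; trivial
      exact this
    haveI hnil : Group.IsNilpotent S := S.isPGroup'.isNilpotent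
    have hnc := Group.normalizerCondition_of_isNilpotent (G := S) _ hP'
    obtain ⟨⟨y, hyS⟩, hyn, hyP⟩ := SetLike.exists_of_lt hnc
    have hyP' : y ∉ P := fun h3 => hyP h3
    have hynorm : ∀ u ∈ P, y⁻¹ * u * y ∈ P := by
      intro u hu
      have h3 := Subgroup.mem_normalizer_iff''.mp hyn ⟨u, hS hu⟩
      have h4 : (⟨u, hS hu⟩ : S) ∈ P.subgroupOf S := hu
      have h5 := h3.mp h4
      exact h5
    -- the `p`-group generated
    let N : Subgroup G := Subgroup.normalizer (P : Set G) ⊓ S
    have hNp : IsPGroup p N := S.isPGroup'.to_le inf_le_right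
    have hnfix : ∀ n ∈ N, n • α ∈ fixedBy Ω e := by
      intro n hn
      have h3 : n⁻¹ * e * n ∈ P := (Subgroup.mem_normalizer_iff''.mp hn.1 e).mp heP
      have h4 : (n⁻¹ * e * n) • α = α := hPH h3
      show e • n • α = n • α
      calc e • n • α = n • (n⁻¹ * e * n) • α := by simp [mul_smul]
        _ = n • α := by rw [h4]
    have horb : orbit N α ⊆ fixedBy Ω e := by
      rintro _ ⟨n, rfl⟩
      exact hnfix n n.2
    obtain ⟨m, hm⟩ := hNp.card_orbit α
    have hle : Nat.card (orbit N α) ≤ k := by
      refine le_trans ?_ (hfix e he1)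
      rw [Nat.card_coe_set_eq, Nat.card_coe_set_eq]
      exact Set.ncard_le_ncard horb (Set.toFinite _)
    have hm0 : m = 0 := by
      by_contra hm1
      have h3 : p ≤ p ^ m := Nat.le_self_pow hm1 p
      omega
    rw [hm0, pow_zero] at hm
    have hNH : N ≤ H := by
      intro n hn
      have h3 : (⟨n, hn⟩ : N) • α ∈ orbit N α := mem_orbit _ _
      have h4 : α ∈ orbit N α := mem_orbit_self _
      have h5 : Nat.card (orbit N α) = 1 := hm
      obtain ⟨a, ha⟩ := Nat.card_eq_one_iff_unique.mp h5 |>.2
      have h6 := (Nat.card_eq_one_iff_unique.mp h5).1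
      have h7 : (⟨_, h3⟩ : orbit N α) = ⟨_, h4⟩ := h6.elim _ _
      exact congrArg Subtype.val h7
    have hQle : (Q : Subgroup H) ≤ N.subgroupOf H := by
      intro x hx
      have h3 : (x : G) ∈ P := Subgroup.mem_map_of_mem _ hx
      refine ⟨Subgroup.le_normalizer h3, hS h3⟩
    have hNp' : IsPGroup p (N.subgroupOf H) := hNp.comap_of_injective H.subtype Subtype.val_injective
    have heq := Q.is_maximal' hNp' hQle
    have hyN : y ∈ N := by
      refine ⟨?_, hyS⟩
      show y ∈ Subgroup.normalizer (P : Set G)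
      rw [Subgroup.mem_normalizer_iff'']
      intro u
      constructor
      · exact hynorm u
      · intro hu
        have huS : u ∈ (S : Subgroup G) := by
          have h5 : y⁻¹ * u * y ∈ (S : Subgroup G) := hS hu
          have h6 : u = y * (y⁻¹ * u * y) * y⁻¹ := by group
          rw [h6]
          exact mul_mem (mul_mem hyS h5) (inv_mem hyS)
        have h3 := Subgroup.mem_normalizer_iff''.mp hyn ⟨u, huS⟩
        exact h3.mpr hu
    apply hyP'
    have h3 : (⟨y, hNH hyN⟩ : H) ∈ N.subgroupOf H := hyN
    rw [heq] at h3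
    exact Subgroup.mem_map_of_mem _ h3


/-- Let G be a finite group acting faithfully and transitively on a finite set Ω with fixity k ≥ 1: every non-identity element fixes at most k points and some non-identity element fixes exactly k points. Then |Z(G)| divides k; if k = 2 then |G| is even; and for every prime p > k dividing |G| and every point α, either p does not divide |G_α| or G_α contains a Sylow p-subgroup of G. -/
theorem result {G : Type*} [Group G] [Finite G] {Ω : Type*} [Fintype Ω] [MulAction G Ω] [FaithfulSMul G Ω]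
    (htr : MulAction.IsPretransitive G Ω) (k : ℕ) (hk : 1 ≤ k)
    (hfix : ∀ g : G, g ≠ 1 → Nat.card (MulAction.fixedBy Ω g) ≤ k) (hex : ∃ g : G, g ≠ 1 ∧ Nat.card (MulAction.fixedBy Ω g) = k) :
    Nat.card (Subgroup.center G) ∣ k ∧ (k = 2 → 2 ∣ Nat.card G) ∧
      ∀ (p : ℕ), p.Prime → k < p → p ∣ Nat.card G → ∀ α : Ω,
        ¬ p ∣ Nat.card (MulAction.stabilizer G α) ∨ ¬ p ∣ (MulAction.stabilizer G α).index := by
  haveI := htr
  refine ⟨?_, ?_, ?_⟩
  · obtain ⟨g, -, hg⟩ := hex
    rw [← hg]
    exact center_dvd g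
  · rintro rfl
    obtain ⟨g, hg1, hg2⟩ := hex
    exact even_aux hfix g hg1 hg2
  · intro p hp hkp _ α
    by_contra hc
    push Not at hc
    exact sylow_aux k hfix p hp hkp α hc.1 hc.2

end Cfsg.Agent.S3389
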