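import Cfsg.Statements.S3391
import Cfsg.Agent.Lib.Suzuki.Fixity

set_option autoImplicit false
open Cfsg

namespace Cfsg.Agent.S3391

open Cfsg.Agent.Lib.Suzuki

/-- The orbit of a fixed point under a subgroup moving it within the fixed points. -/
theorem orbit_bound {G Ω : Type*} [Group G] [Finite G] [Finite Ω] [MulAction G Ω] (α₀ : Ω) (g : G) (K : Subgroup G)
    (hK : ∀ x ∈ K, x⁻¹ * g * x ∈ MulAction.stabilizer G α₀) (hfix : Nat.card (MulAction.fixedBy Ω g) ≤ 2) :
    Nat.card K ≤ 2 * Nat.card (K ⊓ MulAction.stabilizer G α₀ : Subgroup G) := by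
  classical
  have h1 := Subgroup.card_eq_card_quotient_mul_card_subgroup (MulAction.stabilizer K α₀)
  have h2 : Nat.card (K ⧸ MulAction.stabilizer K α₀) = Nat.card (MulAction.orbit K α₀) :=
    (Nat.card_congr (MulAction.orbitEquivQuotientStabilizer K α₀)).symm
  have h3 : Nat.card (MulAction.orbit K α₀) ≤ Nat.card (MulAction.fixedBy Ω g) := by
    refine Nat.card_le_card_of_injective (fun y => ⟨y.1, ?_⟩) ?_
    · obtain ⟨y, hy⟩ := y
      obtain ⟨x, rfl⟩ := hy
      have h4 := hK x x.2
      rw [MulAction.mem_stabilizer_iff, mul_smul, mul_smul, inv_smul_eq_iff] at h4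
      exact h4
    · intro a b e
      have e' : (a : Ω) = b := congrArg (fun z : MulAction.fixedBy Ω g => (z : Ω)) e
      exact Subtype.ext e'
  have h5 : Nat.card (MulAction.stabilizer K α₀) = Nat.card (K ⊓ MulAction.stabilizer G α₀ : Subgroup G) := by
    apply Nat.card_congr
    exact
      { toFun := fun x => ⟨x.1.1, x.1.2, x.2⟩
        invFun := fun x => ⟨⟨x.1, x.2.1⟩, x.2.2⟩
        left_inv := fun x => rfl
        right_inv := fun x => rfl }
  rw [h1, h2, h5]
  exact Nat.mul_le_mul_right _ (h3.trans hfix)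

theorem fixH_map {A B : Type*} [Group A] [Group B] {H : Subgroup A} (hf : FixH H) (E : A ≃* B) :
    FixH (H.map E.toMonoidHom) := by
  intro g hg K hK
  have h1 := hf (E.symm g) (by simpa using hg) (K.comap E.toMonoidHom) (by
    intro x hx
    have h2 := hK (E x) hx
    obtain ⟨y, hy, e⟩ := h2
    have e2 : y = x⁻¹ * E.symm g * x := by
      apply E.injective
      have : E y = (E x)⁻¹ * g * E x := e
      rw [this]
      simp
    rw [← e2]
    exact hy)
  have e1 : Nat.card (K.comap E.toMonoidHom) = Nat.card K := by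
    apply Nat.card_congr
    exact
      { toFun := fun x => ⟨E x.1, x.2⟩
        invFun := fun x => ⟨E.symm x.1, by
          show E (E.symm x.1) ∈ K
          simp⟩
        left_inv := fun x => by
          apply Subtype.ext
          simp
        right_inv := fun x => by
          apply Subtype.ext
          simp }
  have e2 : Nat.card (K.comap E.toMonoidHom ⊓ H : Subgroup A) = Nat.card (K ⊓ H.map E.toMonoidHom : Subgroup B) := by
    apply Nat.card_congr
    exact
      { toFun := fun x => ⟨E x.1, x.2.1, ⟨x.1, x.2.2, rfl⟩⟩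
        invFun := fun x => ⟨E.symm x.1, by
          obtain ⟨x, h5, y, hy, e⟩ := x
          refine ⟨?_, ?_⟩
          · show E (E.symm x) ∈ K
            simpa using h5
          · have : E.symm x = y := by
              rw [← e]
              simp
            rw [this]
            exact hy⟩
        left_inv := fun x => by
          apply Subtype.ext
          simp
        right_inv := fun x => by
          apply Subtype.ext
          simp }
  rw [e1, e2] at h1
  exact h1


/-- Let q = 2^{2m+1} ≥ 8 and let G be isomorphic to the Suzuki group Sz(q). If G acts faithfully and transitively on a finite set Ω with fixity 2 (every non-identity element fixes at most two points, and some fixes exactly two), then either |Ω| = q² + 1 and the action is 2-transitive, or |Ω| = q²(q² + 1) and the point stabilizers have order q − 1. -/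
theorem result {G : Type*} [Group G] [Finite G] (F : Type) [Field F] [Fintype F] (m : ℕ) (hm : 1 ≤ m) (hF : Fintype.card F = 2 ^ (2 * m + 1))
    (e : G ≃* ↥(Cfsg.Lie.Sz F (2 ^ (m + 1)))) {Ω : Type*} [Fintype Ω] [MulAction G Ω] [FaithfulSMul G Ω] (htr : MulAction.IsPretransitive G Ω)
    (hfix : ∀ g : G, g ≠ 1 → Nat.card (MulAction.fixedBy Ω g) ≤ 2) (hex : ∃ g : G, g ≠ 1 ∧ Nat.card (MulAction.fixedBy Ω g) = 2) :
    (Fintype.card Ω = Fintype.card F ^ 2 + 1 ∧ MulAction.IsMultiplyPretransitive G Ω 2) ∨
    (Fintype.card Ω = Fintype.card F ^ 2 * (Fintype.card F ^ 2 + 1) ∧ ∀ α : Ω, Nat.card (MulAction.stabilizer G α) = Fintype.card F - 1) := by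
  classical
  letI : Fintype F := inferInstance
  set E : G ≃* Cfsg.Sz F m := e.trans (szEquiv hF hm).symm with hE
  obtain ⟨g₀, hg₀, hg₀2⟩ := hex
  have hnon : (MulAction.fixedBy Ω g₀).Nonempty := by
    by_contra hne
    rw [Set.not_nonempty_iff_eq_empty] at hne
    rw [hne] at hg₀2
    simp at hg₀2
  obtain ⟨α₀, hα₀⟩ := hnon
  set H₀ := MulAction.stabilizer G α₀ with hH₀
  set H := H₀.map E.toMonoidHom with hH
  have hf₀ : FixH H₀ := by
    intro g hg K hK
    exact orbit_bound α₀ g K hK (hfix g hg)
  have hf : FixH H := fixH_map hf₀ E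
  have hbot : H ≠ ⊥ := by
    intro h
    apply hg₀
    have h1 : g₀ ∈ H₀ := hα₀
    have h2 : E g₀ ∈ H := ⟨g₀, h1, rfl⟩
    rw [h, Subgroup.mem_bot] at h2
    simpa using h2
  have htop : H ≠ ⊤ := by
    intro h
    have h2 : H₀ = ⊤ := by
      rw [eq_top_iff]
      intro x _
      have h3 : E x ∈ H := by
        rw [h]
        exact Subgroup.mem_top _
      obtain ⟨y, hy, e⟩ := h3
      have : y = x := E.injective e
      rwa [← this]
    have h3 : ∀ β : Ω, β = α₀ := by
      intro β
      obtain ⟨x, rfl⟩ := MulAction.exists_smul_eq G α₀ β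
      have : x ∈ H₀ := by
        rw [h2]
        exact Subgroup.mem_top _
      exact this
    have h4 : Nat.card (MulAction.fixedBy Ω g₀) ≤ 1 := by
      rw [Nat.card_coe_set_eq]
      rw [Set.ncard_le_one (Set.toFinite _)]
      intro a _ b _
      rw [h3 a, h3 b]
    omega
  have horbit : ∀ α : Ω, Nat.card (MulAction.stabilizer G α) * Fintype.card Ω = Nat.card G := by
    intro α
    have h1 := Subgroup.card_mul_index (MulAction.stabilizer G α)
    rw [MulAction.index_stabilizer, MulAction.orbit_eq_univ, Set.ncard_univ, Nat.card_eq_fintype_card (α := Ω)] at h1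
    exact h1
  have hcardG : Nat.card G = (2 ^ (2 * m + 1)) ^ 2 * ((2 ^ (2 * m + 1)) ^ 2 + 1) * (2 ^ (2 * m + 1) - 1) := by
    rw [Nat.card_congr E.toEquiv, card_Sz hF hm]
  have hcardH : Nat.card H = Nat.card H₀ :=
    (Nat.card_congr (H₀.equivMapOfInjective _ E.injective).toEquiv).symm
  have hq : 0 < 2 ^ (2 * m + 1) - 1 := by
    have : 1 < 2 ^ (2 * m + 1) := Nat.one_lt_two_pow (by omega)
    omega
  rcases fixity_core hF hm hf hbot htop with ⟨p, hp, hHp⟩ | hcard
  · left
    haveI := finite_Sz hF hm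
    constructor
    · have h1 := Subgroup.card_mul_index (MulAction.stabilizer (Cfsg.Sz F m) p)
      rw [MulAction.index_stabilizer, ← hHp] at h1
      have h2 : MulAction.orbit (Cfsg.Sz F m) p = Cfsg.suzukiOvoid F m := by
        rw [← orbit_pinf hF hm]
        apply MulAction.orbit_eq_iff.mpr
        rw [orbit_pinf hF hm]
        exact hp
      have h3 : (Cfsg.suzukiOvoid F m).ncard = Fintype.card F ^ 2 + 1 := by
        rw [← Nat.card_coe_set_eq, ovoid_card m]
      rw [h2, h3, hcardH] at h1
      have h4 := horbit α₀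
      rw [hcardG] at h4
      rw [card_Sz hF hm, ← h4, ← hH₀] at h1
      have hpos : 0 < Nat.card H₀ := Nat.card_pos
      exact (Nat.eq_of_mul_eq_mul_left hpos h1).symm
    · rw [MulAction.is_two_pretransitive_iff]
      intro a b c d hab hcd
      obtain ⟨x₁, rfl⟩ := MulAction.exists_smul_eq G α₀ a
      obtain ⟨x₂, rfl⟩ := MulAction.exists_smul_eq G α₀ b
      obtain ⟨x₃, rfl⟩ := MulAction.exists_smul_eq G α₀ c
      obtain ⟨x₄, rfl⟩ := MulAction.exists_smul_eq G α₀ d
      have hiff : ∀ x y : G, x • α₀ = y • α₀ ↔ E x • p = E y • p := by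
        intro x y
        have e1 : x • α₀ = y • α₀ ↔ y⁻¹ * x ∈ H₀ := by
          rw [MulAction.mem_stabilizer_iff, mul_smul, inv_smul_eq_iff]
        have e2 : y⁻¹ * x ∈ H₀ ↔ E (y⁻¹ * x) ∈ H := by
          constructor
          · intro h
            exact ⟨_, h, rfl⟩
          · rintro ⟨z, hz, e⟩
            have : z = y⁻¹ * x := E.injective e
            rwa [← this]
        rw [e1, e2, hHp, MulAction.mem_stabilizer_iff, map_mul, map_inv, mul_smul, inv_smul_eq_iff]
      have h1 : E x₁ • p ≠ E x₂ • p := fun h => hab ((hiff _ _).mpr h)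
      have h2 : E x₃ • p ≠ E x₄ • p := fun h => hcd ((hiff _ _).mpr h)
      obtain ⟨g', h3, h4⟩ := exists_pair hF hm (smul_mem_ovoid hF _ hp) (smul_mem_ovoid hF _ hp) h1
        (smul_mem_ovoid hF _ hp) (smul_mem_ovoid hF _ hp) h2
      refine ⟨E.symm g', ?_, ?_⟩
      · rw [← mul_smul, hiff, map_mul, MulEquiv.apply_symm_apply, mul_smul]
        exact h3
      · rw [← mul_smul, hiff, map_mul, MulEquiv.apply_symm_apply, mul_smul]
        exact h4
  · right
    rw [hcardH] at hcard
    have h4 := horbit α₀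
    rw [hcardG, ← hH₀, hcard, mul_comm] at h4
    have h5 : Fintype.card Ω = (2 ^ (2 * m + 1)) ^ 2 * ((2 ^ (2 * m + 1)) ^ 2 + 1) :=
      Nat.eq_of_mul_eq_mul_right hq h4
    refine ⟨by rw [h5, hF], ?_⟩
    intro α
    have h6 := horbit α
    rw [hcardG, h5, mul_comm] at h6
    rw [hF]
    have hpos : 0 < (2 ^ (2 * m + 1)) ^ 2 * ((2 ^ (2 * m + 1)) ^ 2 + 1) := by positivity
    exact Nat.eq_of_mul_eq_mul_left hpos h6

end Cfsg.Agent.S3391
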