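import Cfsg.Statements.S3495


set_option autoImplicit false
open Cfsg

namespace Cfsg.Agent.S3495

---IMPORTS
open MulAction


/-- Let a finite group G act faithfully and primitively on a finite set Ω with non-trivial point stabilizers, each acting primitively on every one of its orbits (an extremely primitive group), and suppose G has an elementary abelian normal p-subgroup N acting regularly on Ω (affine type). Then every non-trivial subgroup M of a point stabilizer G_α that is normal in G_α has the same orbits on Ω as G_α, and normalizes no subgroup of N other than 1 and N. -/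
theorem result {G : Type*} [Group G] [Finite G] {Ω : Type*} [Fintype Ω] [MulAction G Ω] [FaithfulSMul G Ω] (hprim : MulAction.IsPreprimitive G Ω) (hH : ∀ α : Ω, MulAction.stabilizer G α ≠ ⊥) (hep : ∀ (α : Ω) (ω : Ω), MulAction.IsPreprimitive (MulAction.stabilizer G α) (MulAction.orbit (MulAction.stabilizer G α) ω))
    (N : Subgroup G) [N.Normal] (hNc : IsMulCommutative N) (p : ℕ) (hp : p.Prime) (hNp : ∀ n ∈ N, n ^ p = 1)
    (hNtr : MulAction.IsPretransitive N Ω) (hNreg : ∀ ω : Ω, MulAction.stabilizer N ω = ⊥) (α : Ω) (M : Subgroup G) (hM : M ≠ ⊥) (hMle : M ≤ MulAction.stabilizer G α)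
    (hMn : MulAction.stabilizer G α ≤ Subgroup.normalizer (M : Set G)) :
    (∀ ω : Ω, MulAction.orbit M ω = MulAction.orbit (MulAction.stabilizer G α) ω) ∧
    (∀ L : Subgroup G, L ≤ N → M ≤ Subgroup.normalizer (L : Set G) → L = ⊥ ∨ L = N) := by
  classical
  have hcommN : ∀ a ∈ N, ∀ b ∈ N, a * b = b * a := by
    intro a ha b hb
    exact congrArg Subtype.val (hNc.is_comm.comm ⟨a, ha⟩ ⟨b, hb⟩)
  have hreg : ∀ a ∈ N, ∀ b ∈ N, a • α = b • α → a = b := by
    intro a ha b hb h
    have h1 : (⟨a⁻¹ * b, N.mul_mem (N.inv_mem ha) hb⟩ : N) ∈ stabilizer N α := by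
      rw [mem_stabilizer_iff]
      show (a⁻¹ * b) • α = α
      rw [mul_smul, ← h, inv_smul_smul]
    rw [hNreg α, Subgroup.mem_bot] at h1
    have h2 : a⁻¹ * b = 1 := congrArg Subtype.val h1
    exact (inv_mul_eq_one.mp h2)
  have hN1 : ∀ x : G, (∀ ω : Ω, x • ω = ω) → x = 1 := by
    intro x hx
    apply FaithfulSMul.eq_of_smul_eq_smul (α := Ω)
    intro ω; rw [hx, one_smul]
  -- normal subgroups inside N
  have hF1 : ∀ L : Subgroup G, L ≤ N → L.Normal → L = ⊥ ∨ L = N := by
    intro L hL hLn
    by_cases hfix : fixedPoints L Ω = Set.univ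
    · left
      rw [Subgroup.eq_bot_iff_forall]
      intro x hx
      apply hN1
      intro ω
      have : ω ∈ fixedPoints L Ω := by rw [hfix]; trivial
      exact this ⟨x, hx⟩
    · right
      have htr : IsPretransitive L Ω := IsQuasiPreprimitive.isPretransitive_of_normal hfix
      apply le_antisymm hL
      intro n hn
      obtain ⟨l, hl⟩ := htr.exists_smul_eq α (n • α)
      have hl' : (l : G) • α = n • α := hl
      rw [← hreg _ (hL l.2) _ hn hl']
      exact l.2
  have hdec : ∀ g : G, ∃ n ∈ N, ∃ h ∈ stabilizer G α, g = n * h := by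
    intro g
    obtain ⟨n, hn⟩ := hNtr.exists_smul_eq α (g • α)
    have hn' : (n : G) • α = g • α := hn
    refine ⟨n, n.2, (n : G)⁻¹ * g, ?_, by group⟩
    rw [mem_stabilizer_iff, mul_smul, ← hn', inv_smul_smul]
  have hF3 : ∀ L : Subgroup G, L ≤ N → (∀ h ∈ stabilizer G α, ∀ l ∈ L, h * l * h⁻¹ ∈ L) → L.Normal := by
    intro L hL hnorm
    refine ⟨fun l hl g => ?_⟩
    obtain ⟨n, hn, h, hh, rfl⟩ := hdec g
    have h1 := hnorm h hh l hl
    have h2 : n * h * l * (n * h)⁻¹ = n * (h * l * h⁻¹) * n⁻¹ := by group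
    rw [h2, hcommN n hn _ (hL h1), mul_inv_cancel_right]
    exact h1
  have hMfix : ∀ m ∈ M, m • α = α := fun m hm => hMle hm
  have hMnorm : ∀ h ∈ stabilizer G α, ∀ m ∈ M, h * m * h⁻¹ ∈ M := by
    intro h hh m hm
    exact (Subgroup.mem_normalizer_iff.mp (hMn hh) m).mp hm
  -- C_N(M) is trivial
  let C : Subgroup G := N ⊓ Subgroup.centralizer (M : Set G)
  have hCnormal : C.Normal := by
    apply hF3 C inf_le_left
    rintro h hh l ⟨hl1, hl2⟩
    refine ⟨(inferInstance : N.Normal).conj_mem l hl1 h, ?_⟩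
    replace hl2 : l ∈ Subgroup.centralizer (M : Set G) := hl2
    show h * l * h⁻¹ ∈ Subgroup.centralizer (M : Set G)
    rw [Subgroup.mem_centralizer_iff] at hl2 ⊢
    intro m hm
    have h1 : h⁻¹ * m * h ∈ M := by
      have := hMnorm h⁻¹ (Subgroup.inv_mem _ hh) m hm
      simpa using this
    have h2 := hl2 _ h1
    calc m * (h * l * h⁻¹) = h * ((h⁻¹ * m * h) * l) * h⁻¹ := by group
      _ = h * (l * (h⁻¹ * m * h)) * h⁻¹ := by rw [h2]
      _ = h * l * h⁻¹ * m := by group
  have hCbot : C = ⊥ := by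
    refine (hF1 C inf_le_left hCnormal).resolve_right ?_
    intro hCN
    apply hM
    rw [Subgroup.eq_bot_iff_forall]
    intro m hm
    apply hN1
    intro ω
    obtain ⟨n, hn⟩ := hNtr.exists_smul_eq α ω
    have hn' : (n : G) • α = ω := hn
    have hnC : (n : G) ∈ C := by rw [hCN]; exact n.2
    have hc : m * n = n * m := (Subgroup.mem_centralizer_iff.mp hnC.2 m hm)
    rw [← hn', ← mul_smul, hc, mul_smul, hMfix m hm]
  have hF5 : ∀ n ∈ N, (∀ m ∈ M, m • (n • α) = n • α) → n = 1 := by
    intro n hn hfix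
    have : n ∈ C := by
      refine ⟨hn, ?_⟩
      show n ∈ Subgroup.centralizer (M : Set G)
      rw [Subgroup.mem_centralizer_iff]
      intro m hm
      have h1 : (m * n * m⁻¹) • α = n • α := by
        have hm' : m⁻¹ • α = α := by
          have := hMfix m⁻¹ (M.inv_mem hm)
          exact this
        rw [mul_smul, hm', mul_smul, hfix m hm]
      have h2 := hreg _ ((inferInstance : N.Normal).conj_mem n hn m) _ hn h1
      calc m * n = (m * n * m⁻¹) * m := by group
        _ = n * m := by rw [h2]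
    rw [hCbot, Subgroup.mem_bot] at this
    exact this
  -- orbits
  have horb : ∀ ω : Ω, orbit M ω = orbit (stabilizer G α) ω := by
    intro ω
    apply Set.Subset.antisymm
    · rintro _ ⟨m, rfl⟩
      exact ⟨⟨m, hMle m.2⟩, rfl⟩
    by_cases hω : ω = α
    · subst hω
      rintro _ ⟨h, rfl⟩
      have h1 : (h : G) • ω = ω := h.2
      have : (h : stabilizer G ω) • ω = ω := h1
      show (h : stabilizer G ω) • ω ∈ _
      rw [this]
      exact mem_orbit_self ω
    · obtain ⟨n, hn⟩ := hNtr.exists_smul_eq α ω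
      have hn' : (n : G) • α = ω := hn
      have hn1 : (n : G) ≠ 1 := by
        intro h
        rw [h, one_smul] at hn'
        exact hω hn'.symm
      have hmove : ∃ m ∈ M, m • ω ≠ ω := by
        by_contra hcon
        push Not at hcon
        exact hn1 (hF5 n n.2 (by rw [hn']; exact hcon))
      obtain ⟨m, hm, hmω⟩ := hmove
      let M' : Subgroup (stabilizer G α) := M.subgroupOf (stabilizer G α)
      haveI hM'n : M'.Normal := by
        refine ⟨fun x hx g => ?_⟩
        rw [Subgroup.mem_subgroupOf] at hx ⊢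
        exact hMnorm g g.2 x hx
      have hprim' := hep α ω
      have hfix : fixedPoints M' (orbit (stabilizer G α) ω) ≠ Set.univ := by
        intro hfix
        have h1 : (⟨ω, mem_orbit_self ω⟩ : orbit (stabilizer G α) ω) ∈ fixedPoints M' (orbit (stabilizer G α) ω) := by
          rw [hfix]; trivial
        have h2 := h1 ⟨⟨m, hMle hm⟩, by rw [Subgroup.mem_subgroupOf]; exact hm⟩
        exact hmω (congrArg Subtype.val h2)
      have htr : IsPretransitive M' (orbit (stabilizer G α) ω) :=
        IsQuasiPreprimitive.isPretransitive_of_normal hfix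
      rintro y hy
      obtain ⟨k, hk⟩ := htr.exists_smul_eq ⟨ω, mem_orbit_self ω⟩ ⟨y, hy⟩
      have hk' : ((k : stabilizer G α) : G) • ω = y := congrArg Subtype.val hk
      refine ⟨⟨_, Subgroup.mem_subgroupOf.mp k.2⟩, hk'⟩
  refine ⟨horb, ?_⟩
  intro L hL hLM
  apply hF1 L hL
  apply hF3 L hL
  intro h hh l hl
  have h1 : h • (l • α) ∈ orbit M (l • α) := by
    rw [horb]
    exact ⟨⟨h, hh⟩, rfl⟩
  obtain ⟨m, hm⟩ := h1
  have hm' : (m : G) • (l • α) = h • (l • α) := hm
  have h2 : (h * l * h⁻¹) • α = ((m : G) * l * (m : G)⁻¹) • α := by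
    have hm1 : ((m : G))⁻¹ • α = α := hMfix _ (M.inv_mem m.2)
    have hh1 : h⁻¹ • α = α := (Subgroup.inv_mem _ hh : h⁻¹ ∈ stabilizer G α)
    rw [mul_smul, mul_smul, hh1, mul_smul, mul_smul, hm1, hm']
  have h3 := hreg _ ((inferInstance : N.Normal).conj_mem l (hL hl) h) _ ((inferInstance : N.Normal).conj_mem l (hL hl) m) h2
  rw [h3]
  exact (Subgroup.mem_normalizer_iff.mp (hLM m.2) l).mp hl

end Cfsg.Agent.S3495
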