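import Cfsg.Statements.S3498
import Mathlib
import Cfsg.Agent.Lib.Basic.Conj

set_option autoImplicit false
open Cfsg

namespace Cfsg.Agent.S3498

open Subgroup Cfsg.Agent.Lib.Basic
open scoped Pointwise
set_option linter.style.haveILetI false


/-- A maximal subgroup of a finite almost simple group does not have prime order. Here G is almost simple in the sense that it has a non-abelian simple normal subgroup T with trivial centralizer. -/
theorem result {G : Type*} [Group G] [Finite G] (T : Subgroup G) [T.Normal] (hT : IsSimpleGroup T) (hTc : ¬ IsMulCommutative T)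
    (hC : Subgroup.centralizer (T : Set G) = ⊥) (H : Subgroup G) (hmax : IsCoatom H) : ¬ (Nat.card H).Prime := by
  classical
  intro hr
  set r := Nat.card H with hrdef
  haveI hfr : Fact r.Prime := ⟨hr⟩
  haveI : Fact (Nat.card H).Prime := ⟨hr⟩
  have hHcomm : ∀ a ∈ H, ∀ b ∈ H, a * b = b * a := by
    intro a ha b hb
    haveI : IsCyclic H := isCyclic_of_prime_card (p := Nat.card H) rfl
    have h1 := (IsCyclic.isMulCommutative (α := H)).is_comm.comm ⟨a, ha⟩ ⟨b, hb⟩
    exact congrArg Subtype.val h1
  have hHbot : H ≠ ⊥ := by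
    intro h
    rw [h, Subgroup.card_bot] at hrdef
    rw [hrdef] at hr
    exact Nat.not_prime_one hr
  have hTH : ¬ T ≤ H := fun h =>
    hTc ⟨⟨fun a b => Subtype.ext (hHcomm a (h a.2) b (h b.2))⟩⟩
  have hdich : ∀ U : Subgroup G, H ≤ U ∨ H ⊓ U = ⊥ := by
    intro U
    rcases eq_bot_or_eq_top_of_prime_card (U.subgroupOf H) with h | h
    · right
      rw [Subgroup.subgroupOf_eq_bot] at h
      exact disjoint_iff.mp h.symm
    · left
      exact Subgroup.subgroupOf_eq_top.mp h
  have hHn : ¬ H.Normal := by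
    intro hN
    rcases hdich T with hle | hdisj
    · have h1 : (H.subgroupOf T).Normal := inferInstance
      rcases h1.eq_bot_or_eq_top with h2 | h2
      · apply hHbot
        rw [Subgroup.subgroupOf_eq_bot] at h2
        have h3 := disjoint_iff.mp h2
        rwa [inf_eq_left.mpr hle] at h3
      · exact hTH (Subgroup.subgroupOf_eq_top.mp h2)
    · have hcomm := Subgroup.commute_of_normal_of_disjoint H T hN inferInstance (disjoint_iff.mpr hdisj)
      have h1 : H ≤ centralizer (T : Set G) := by
        intro x hx y hy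
        exact (hcomm x y hx hy).symm
      rw [hC] at h1
      exact hHbot (le_bot_iff.mp h1)
  have hnorm : normalizer (H : Set G) = H := by
    by_contra h
    have hlt : H < normalizer (H : Set G) := lt_of_le_of_ne le_normalizer (Ne.symm h)
    exact hHn (normalizer_eq_top_iff.mp (hmax.2 _ hlt))
  have hHp : IsPGroup r H := IsPGroup.of_card (n := 1) (by rw [pow_one])
  obtain ⟨S, hS⟩ := hHp.exists_le_sylow
  have hHS : H = S := by
    by_contra hne
    have hlt : H < S := lt_of_le_of_ne hS hne
    have hP' : H.subgroupOf S < ⊤ := by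
      refine lt_of_le_of_ne le_top ?_
      intro h3
      exact hne (le_antisymm hS (Subgroup.subgroupOf_eq_top.mp h3))
    haveI hnil : Group.IsNilpotent S := S.isPGroup'.isNilpotent
    have hnc := Group.normalizerCondition_of_isNilpotent (G := S) _ hP'
    obtain ⟨⟨y, hyS⟩, hyn, hyP⟩ := SetLike.exists_of_lt hnc
    have hyN : y ∈ normalizer (H : Set G) := by
      rw [mem_normalizer_iff'']
      intro u
      constructor
      · intro hu
        have h3 := mem_normalizer_iff''.mp hyn ⟨u, hS hu⟩
        exact h3.mp hu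
      · intro hu
        have huS : u ∈ (S : Subgroup G) := by
          have h5 : y⁻¹ * u * y ∈ (S : Subgroup G) := hS hu
          have h6 : u = y * (y⁻¹ * u * y) * y⁻¹ := by group
          rw [h6]
          exact mul_mem (mul_mem hyS h5) (inv_mem hyS)
        have h3 := mem_normalizer_iff''.mp hyn ⟨u, huS⟩
        exact h3.mpr hu
    rw [hnorm] at hyN
    exact hyP hyN
  have hb : normalizer ((S : Subgroup G) : Set G) ≤ centralizer ((S : Subgroup G) : Set G) := by
    rw [← hHS, hnorm]
    intro x hx y hy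
    exact hHcomm y hy x hx
  have hcompl := MonoidHom.ker_transferSylow_isComplement' S hb
  have hnd := MonoidHom.not_dvd_card_ker_transferSylow S hb
  set f := MonoidHom.transferSylow S hb with hf
  set K := f.ker with hK
  haveI hKn : K.Normal := MonoidHom.normal_ker _
  have hTK : T ≤ K := by
    have h1 : (K.subgroupOf T).Normal := inferInstance
    rcases h1.eq_bot_or_eq_top with h2 | h2
    · exfalso
      apply hTc
      refine ⟨⟨fun a b => ?_⟩⟩
      have hcomS : ∀ u v : (S : Subgroup G), u * v = v * u := by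
        rintro ⟨u, hu⟩ ⟨v, hv⟩
        apply Subtype.ext
        exact hHcomm u (hHS ▸ hu) v (hHS ▸ hv)
      have hmem : (a * b * a⁻¹ * b⁻¹ : T) ∈ K.subgroupOf T := by
        show f ((a * b * a⁻¹ * b⁻¹ : T) : G) = 1
        have : ((a * b * a⁻¹ * b⁻¹ : T) : G) = a * b * (a : G)⁻¹ * (b : G)⁻¹ := rfl
        rw [this, map_mul, map_mul, map_mul, map_inv, map_inv, hcomS (f a) (f b)]
        group
      rw [h2] at hmem
      have h3 : a * b * a⁻¹ * b⁻¹ = 1 := hmem
      calc a * b = (a * b * a⁻¹ * b⁻¹) * (b * a) := by group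
        _ = b * a := by rw [h3, one_mul]
    · exact Subgroup.subgroupOf_eq_top.mp h2
  have hnT : ¬ r ∣ Nat.card T := fun h => hnd (h.trans (Subgroup.card_dvd_of_le hTK))
  have hdisjK : Disjoint K H := hHS ▸ hcompl.disjoint
  have hdisjTH : T ⊓ H = ⊥ := by
    rw [eq_bot_iff]
    intro x hx
    exact (Subgroup.disjoint_def.mp hdisjK) (hTK hx.1) hx.2
  have hsup : H ⊔ T = ⊤ := by
    apply hmax.2
    refine lt_of_le_of_ne le_sup_left ?_
    intro h
    apply hTH
    rw [h]
    exact le_sup_right
  -- a prime dividing `|T|`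
  have hT1 : Nat.card T ≠ 1 := Finite.one_lt_card.ne'
  obtain ⟨p, hp, hpT⟩ := Nat.exists_prime_and_dvd hT1
  haveI hfp : Fact p.Prime := ⟨hp⟩
  obtain ⟨P⟩ : Nonempty (Sylow p T) := inferInstance
  set Q : Subgroup G := (P : Subgroup T).map T.subtype with hQ
  have hfrat : normalizer (Q : Set G) ⊔ T = ⊤ := P.normalizer_sup_eq_top
  have hrG : r ∣ Nat.card G := Subgroup.card_subgroup_dvd_card H
  have hrindex : r ∣ T.index := by
    rw [← Subgroup.index_mul_card T] at hrG
    exact (hfr.out.dvd_mul.mp hrG).resolve_right hnT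
  have hrN : r ∣ Nat.card (normalizer (Q : Set G)) := by
    have h1 : T.relIndex (normalizer (Q : Set G)) = T.index := by
      rw [← Subgroup.relIndex_sup_right, hfrat, Subgroup.relIndex_top_right]
    rw [← h1] at hrindex
    exact hrindex.trans (Subgroup.relIndex_dvd_card _ _)
  obtain ⟨x, hx⟩ := exists_prime_orderOf_dvd_card' (G := normalizer (Q : Set G)) r hrN
  have hxG : orderOf (x : G) = r := by
    rw [Subgroup.orderOf_coe, hx]
  have hScard : Nat.card (S : Subgroup G) = r ^ (Nat.card G).factorization r := S.card_eq_multiplicity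
  rw [← hHS] at hScard
  have hXcard : Nat.card (zpowers (x : G)) = r ^ (Nat.card G).factorization r := by
    rw [Nat.card_zpowers, hxG]
    exact hScard
  let X : Sylow r G := Sylow.ofCard (zpowers (x : G)) hXcard
  obtain ⟨g, hg⟩ := MulAction.exists_smul_eq G S X
  have hgX : MulAut.conj g • (S : Subgroup G) = zpowers (x : G) := by
    have h1 : ((g • S : Sylow r G) : Subgroup G) = (X : Subgroup G) := by rw [hg]
    rwa [Sylow.coe_subgroup_smul, Sylow.coe_ofCard] at h1
  set Q' : Subgroup G := MulAut.conj g⁻¹ • Q with hQ'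
  have hQ'mem : ∀ u, u ∈ Q' ↔ g * u * g⁻¹ ∈ Q := by
    intro u
    rw [hQ', mem_conj_smul, inv_inv]
  have hHnorm : H ≤ normalizer (Q' : Set G) := by
    intro h hh
    have h1 : g * h * g⁻¹ ∈ normalizer (Q : Set G) := by
      have h2 : g * h * g⁻¹ ∈ zpowers (x : G) := by
        rw [← hgX, conj_mem_conj_smul, ← hHS]
        exact hh
      obtain ⟨i, hi⟩ := Subgroup.mem_zpowers_iff.mp h2
      rw [← hi]
      exact zpow_mem x.2 i
    rw [mem_normalizer_iff]
    intro u
    rw [hQ'mem, hQ'mem]
    have h2 := (mem_normalizer_iff.mp h1) (g * u * g⁻¹)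
    rw [h2]
    have h3 : g * h * g⁻¹ * (g * u * g⁻¹) * (g * h * g⁻¹)⁻¹ = g * (h * u * h⁻¹) * g⁻¹ := by group
    rw [h3]
  have hQT : Q ≤ T := by
    rintro _ ⟨y, -, rfl⟩
    exact y.2
  have hQ'T : Q' ≤ T := by
    intro u hu
    have h1 := hQT ((hQ'mem u).mp hu)
    have h2 := (inferInstance : T.Normal).conj_mem _ h1 g⁻¹
    have h3 : g⁻¹ * (g * u * g⁻¹) * g⁻¹⁻¹ = u := by group
    rwa [h3] at h2
  have hPne : (P : Subgroup T) ≠ ⊥ := by
    intro h
    have h1 : p ∣ Nat.card P := P.dvd_card_of_dvd_card hpT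
    have h2 : Nat.card (P : Subgroup T) = 1 := by rw [h, Subgroup.card_bot]
    rw [h2] at h1
    exact hp.one_lt.ne' (Nat.dvd_one.mp h1)
  have hQne : Q ≠ ⊥ := by
    intro h
    apply hPne
    exact (Subgroup.map_eq_bot_iff_of_injective _ T.subtype_injective).mp h
  have hQ'ne : Q' ≠ ⊥ := by
    intro h
    apply hQne
    rw [Subgroup.eq_bot_iff_forall] at h ⊢
    intro u hu
    have h1 : g⁻¹ * u * g ∈ Q' := by
      rw [hQ'mem]
      have : g * (g⁻¹ * u * g) * g⁻¹ = u := by group
      rwa [this]
    have h2 := h _ h1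
    have : u = g * (g⁻¹ * u * g) * g⁻¹ := by group
    rw [this, h2]
    group
  have hQ'H : ¬ Q' ≤ H := by
    intro h
    apply hQ'ne
    rw [eq_bot_iff]
    intro u hu
    rw [← hdisjTH]
    exact ⟨hQ'T hu, h hu⟩
  have hsup' : H ⊔ Q' = ⊤ := by
    apply hmax.2
    refine lt_of_le_of_ne le_sup_left ?_
    intro h
    apply hQ'H
    rw [h]
    exact le_sup_right
  have hnormtop : normalizer (Q' : Set G) = ⊤ := by
    rw [eq_top_iff, ← hsup']
    exact sup_le hHnorm le_normalizer
  haveI hQ'n : Q'.Normal := normalizer_eq_top_iff.mp hnormtop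
  have h1 : (Q'.subgroupOf T).Normal := inferInstance
  have hQ'p : IsPGroup p Q' := by
    have h2 : IsPGroup p Q := (P.isPGroup').map T.subtype
    have h3 := h2.map (MulAut.conj g⁻¹).toMonoidHom
    rw [hQ', conj_smul_eq_map]
    exact h3
  rcases h1.eq_bot_or_eq_top with h2 | h2
  · apply hQ'ne
    rw [Subgroup.subgroupOf_eq_bot] at h2
    have h3 := disjoint_iff.mp h2
    rwa [inf_eq_left.mpr hQ'T] at h3
  · have hTQ' : T ≤ Q' := Subgroup.subgroupOf_eq_top.mp h2
    have hTp : IsPGroup p T := hQ'p.to_le hTQ'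
    haveI hcn := hTp.center_nontrivial
    have h3 : (center T).Normal := inferInstance
    rcases h3.eq_bot_or_eq_top with h4 | h4
    · rw [h4] at hcn
      exact not_subsingleton _ (inferInstance : Subsingleton (⊥ : Subgroup T))
    · apply hTc
      refine ⟨⟨fun a b => ?_⟩⟩
      have : a ∈ center T := by rw [h4]; trivial
      exact (mem_center_iff.mp this b).symm

end Cfsg.Agent.S3498
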