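import Cfsg.Statements.S3504


set_option autoImplicit false
open Cfsg

namespace Cfsg.Agent.S3504

---IMPORTS
open Equiv.Perm
theorem der_type {n : ℕ} (g : Equiv.Perm (Fin n)) (h1 : (orderOf g).Prime) (h2 : ∀ i, g i ≠ i) :
    orderOf g ∣ n ∧ g.cycleType = Multiset.replicate (n / orderOf g) (orderOf g) := by
  obtain ⟨k, hk⟩ := cycleType_prime_order h1
  have hs : g.cycleType.sum = n := by
    rw [sum_cycleType]
    have : g.support = Finset.univ := by
      ext i; simp [h2 i]
    rw [this]; simp
  rw [hk] at hs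
  simp only [Multiset.sum_replicate, smul_eq_mul] at hs
  have hd : orderOf g ∣ n := Dvd.intro_left (k + 1) hs
  refine ⟨hd, ?_⟩
  rw [hk]
  congr 1
  exact (Nat.div_eq_of_eq_mul_left h1.pos hs.symm).symm

theorem der_exists {n : ℕ} (hn : 0 < n) (r : ℕ) (hr : r.Prime) (hd : r ∣ n) :
    ∃ g : Equiv.Perm (Fin n), (orderOf g) = r ∧ (∀ i, g i ≠ i) := by
  obtain ⟨g, hg⟩ := (Equiv.Perm.exists_with_cycleType_iff (Fin n) (m := Multiset.replicate (n / r) r)).mpr (by
    constructor
    · simpa using Nat.div_mul_le_self n r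
    · intro a ha
      rw [Multiset.eq_of_mem_replicate ha]
      exact hr.two_le)
  have hne : n / r ≠ 0 := by
    have := Nat.div_pos (Nat.le_of_dvd hn hd) hr.pos
    omega
  refine ⟨g, ?_, ?_⟩
  · rw [← lcm_cycleType, hg]
    exact Nat.dvd_antisymm (Multiset.lcm_dvd.mpr (fun b hb => by rw [Multiset.eq_of_mem_replicate hb]))
      (Multiset.dvd_lcm (Multiset.mem_replicate.mpr ⟨hne, rfl⟩))
  · have hs : g.support.card = n := by
      rw [← sum_cycleType, hg]
      simp [Nat.div_mul_cancel hd]
    have hs2 : g.support = Finset.univ := by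
      apply Finset.eq_univ_of_card
      simpa using hs
    intro i
    have : i ∈ g.support := by rw [hs2]; simp
    simpa using this


/-- For n ≥ 5, the fixed-point-free permutations of prime order in the symmetric group of degree n form a single conjugacy class if and only if n is a prime power. -/
theorem result (n : ℕ) (hn : 5 ≤ n) :
    Nat.card {c : ConjClasses (Equiv.Perm (Fin n)) // ∃ g : Equiv.Perm (Fin n), ConjClasses.mk g = c ∧ (orderOf g).Prime ∧ ∀ i : Fin n, g i ≠ i} = 1 ↔ IsPrimePow n := by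
  classical
  have hn0 : 0 < n := by omega
  choose! G hG1 hG2 using (fun r (h : r ∈ n.primeFactors) =>
    der_exists hn0 r (Nat.prime_of_mem_primeFactors h) (Nat.dvd_of_mem_primeFactors h))
  let f : n.primeFactors → {c : ConjClasses (Equiv.Perm (Fin n)) // ∃ g : Equiv.Perm (Fin n), ConjClasses.mk g = c ∧ (orderOf g).Prime ∧ ∀ i : Fin n, g i ≠ i} :=
    fun r => ⟨ConjClasses.mk (G r), G r, rfl, by rw [hG1 r r.2]; exact Nat.prime_of_mem_primeFactors r.2, hG2 r r.2⟩
  have hf : Function.Bijective f := by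
    constructor
    · intro r s hrs
      have h1 : ConjClasses.mk (G r) = ConjClasses.mk (G s) := congrArg Subtype.val hrs
      rw [ConjClasses.mk_eq_mk_iff_isConj] at h1
      have h2 : orderOf (G r) = orderOf (G s) := by
        rw [← lcm_cycleType, ← lcm_cycleType, isConj_iff_cycleType_eq.mp h1]
      rw [hG1 r r.2, hG1 s s.2] at h2
      exact Subtype.ext h2
    · rintro ⟨c, g, rfl, hg1, hg2⟩
      obtain ⟨hd, ht⟩ := der_type g hg1 hg2
      have hmem : orderOf g ∈ n.primeFactors := Nat.mem_primeFactors.mpr ⟨hg1, hd, by omega⟩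
      refine ⟨⟨_, hmem⟩, Subtype.ext ?_⟩
      show ConjClasses.mk (G (orderOf g)) = ConjClasses.mk g
      rw [ConjClasses.mk_eq_mk_iff_isConj, isConj_iff_cycleType_eq, ht,
        (der_type _ (by rw [hG1 _ hmem]; exact hg1) (hG2 _ hmem)).2, hG1 _ hmem]
  rw [← Nat.card_congr (Equiv.ofBijective f hf), isPrimePow_iff_card_primeFactors_eq_one,
    Nat.card_eq_fintype_card, Fintype.card_coe]

end Cfsg.Agent.S3504
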