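import Cfsg.Statements.S3508


set_option autoImplicit false
open Cfsg

namespace Cfsg.Agent.S3508

---IMPORTS
open MulAction

theorem affine_iter_bound {p : ℕ} [hpf : Fact p.Prime] {V : Type*} [AddCommGroup V] [Module (ZMod p) V] [Finite V]
    (A : V →ₗ[ZMod p] V) (b : V) (s : ℕ)
    (h1 : (fun x => A x + b)^[p ^ (s + 1)] = id) (h2 : (fun x => A x + b)^[p ^ s] ≠ id) :
    p ^ s ≤ Module.finrank (ZMod p) V := by
  classical
  let f : V → V := fun x => A x + b
  let T : Module.End (ZMod p) (V × ZMod p) :=
    { toFun := fun w => (A w.1 + w.2 • b, w.2)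
      map_add' := by
        intro x y
        refine Prod.ext ?_ rfl
        show A (x.1 + y.1) + (x.2 + y.2) • b = (A x.1 + x.2 • b) + (A y.1 + y.2 • b)
        rw [map_add, add_smul]; abel
      map_smul' := by
        intro c x
        refine Prod.ext ?_ rfl
        show A (c • x.1) + (c * x.2) • b = c • (A x.1 + x.2 • b)
        rw [map_smul, mul_smul, smul_add] }
  have hT : ∀ w : V × ZMod p, T w = (A w.1 + w.2 • b, w.2) := fun _ => rfl
  have hTk : ∀ (k : ℕ) (v : V), (T ^ k) (v, 1) = (f^[k] v, 1) := by
    intro k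
    induction k with
    | zero => intro v; simp
    | succ k ih =>
      intro v
      rw [pow_succ, Module.End.mul_apply, Function.iterate_succ_apply]
      have : T (v, 1) = (f v, 1) := by
        rw [hT]; simp [f]
      rw [this, ih]
  have hone : ∀ k : ℕ, f^[k] = id → T ^ k = 1 := by
    intro k hk
    apply LinearMap.ext
    rintro ⟨v, c⟩
    have hdec : ((v, c) : V × ZMod p) = (v, 1) + (c - 1) • ((0 : V), (1 : ZMod p)) := by
      ext
      · simp
      · simp
    show (T ^ k) (v, c) = (v, c)
    conv_lhs => rw [hdec]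
    rw [map_add, map_smul, hTk, hTk, hk]
    simpa using hdec.symm
  -- the nilpotent part
  have : Nontrivial (V × ZMod p) := ⟨⟨(0, 0), (0, 1), by simp [Prod.ext_iff]⟩⟩
  have : Module.Finite (ZMod p) (V × ZMod p) := Module.Finite.of_finite
  have : CharP (Module.End (ZMod p) (V × ZMod p)) p :=
    charP_of_injective_algebraMap (algebraMap (ZMod p) (Module.End (ZMod p) (V × ZMod p))).injective p
  have hsub : ∀ k : ℕ, (T - 1) ^ p ^ k = T ^ p ^ k - 1 := by
    intro k
    rw [sub_pow_char_pow_of_commute p k (Commute.one_right T), one_pow]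
  have hnil : IsNilpotent (T - 1) := ⟨p ^ (s + 1), by rw [hsub, hone _ h1, sub_self]⟩
  have hchar := (LinearMap.isNilpotent_iff_charpoly _).mp hnil
  have hcayley := LinearMap.aeval_self_charpoly (T - 1)
  rw [hchar] at hcayley
  simp only [map_pow, Polynomial.aeval_X] at hcayley
  have hfr : Module.finrank (ZMod p) (V × ZMod p) = Module.finrank (ZMod p) V + 1 := by
    rw [Module.finrank_prod]; simp
  by_contra hcon
  push Not at hcon
  apply h2
  have h3 : (T - 1) ^ p ^ s = 0 := pow_eq_zero_of_le (by omega) hcayley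
  rw [hsub, sub_eq_zero] at h3
  funext v
  have h4 := hTk (p ^ s) v
  rw [h3] at h4
  have h5 := congrArg Prod.fst h4
  simpa using h5.symm

theorem comm_bound {K : Type*} [CommGroup K] [Finite K] (p : ℕ) [Fact p.Prime] (hexp : ∀ x : K, x ^ p = 1)
    (φ : K →* K) (b : K) (s m : ℕ) (hm : Nat.card K = p ^ m)
    (h1 : (fun x => φ x * b)^[p ^ (s + 1)] = id) (h2 : (fun x => φ x * b)^[p ^ s] ≠ id) : p ^ s ≤ m := by
  letI : Module (ZMod p) (Additive K) := AddCommGroup.zmodModule (n := p) (by
    intro x
    exact hexp (Additive.toMul x))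
  have hfr : Module.finrank (ZMod p) (Additive K) = m := by
    haveI : Fintype (Additive K) := Fintype.ofFinite _
    have h1 : Fintype.card (Additive K) = p ^ m := by
      rw [← hm, ← Nat.card_eq_fintype_card]; rfl
    have h2 := Module.card_eq_pow_finrank (K := ZMod p) (V := Additive K)
    rw [h1, ZMod.card] at h2
    exact (Nat.pow_right_injective (Fact.out : p.Prime).two_le h2).symm
  rw [← hfr]
  exact affine_iter_bound ((MonoidHom.toAdditive φ).toZModLinearMap p) (Additive.ofMul b) s h1 h2

theorem two_pow_gt : ∀ m : ℕ, 3 ≤ m → m < 2 ^ (m - 1) := by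
  intro m hm
  induction m, hm using Nat.le_induction with
  | base => norm_num
  | succ m hm ih =>
    have : m + 1 - 1 = (m - 1) + 1 := by omega
    rw [this, pow_succ]; omega

theorem three_pow_gt : ∀ m : ℕ, 2 ≤ m → m < 3 ^ (m - 1) := by
  intro m hm
  induction m, hm using Nat.le_induction with
  | base => norm_num
  | succ m hm ih =>
    have : m + 1 - 1 = (m - 1) + 1 := by omega
    rw [this, pow_succ]; omega


/-- Let a finite group G act faithfully on a set Ω with p ^ m points (p prime) and have an elementary abelian normal p-subgroup N acting regularly on Ω (so G is a group of affine transformations of an m-dimensional space over the field with p elements). If G contains an element of order p ^ r with r ≥ 1, then p ^ (r − 1) ≤ m. In particular an element of order p ^ m forces m ≤ 2, and m ≤ 1 when p is odd. -/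
theorem result {G : Type*} [Group G] [Finite G] {Ω : Type*} [Fintype Ω] [MulAction G Ω] [FaithfulSMul G Ω] (p m : ℕ) (hp : p.Prime) (hcard : Fintype.card Ω = p ^ m)
    (N : Subgroup G) [N.Normal] (hNc : IsMulCommutative N) (hNp : ∀ n ∈ N, n ^ p = 1)
    (hNtr : MulAction.IsPretransitive N Ω) (hNreg : ∀ ω : Ω, MulAction.stabilizer N ω = ⊥)
    (g : G) (r : ℕ) (hr : 1 ≤ r) (hg : orderOf g = p ^ r) :
    p ^ (r - 1) ≤ m ∧ (r = m → m ≤ 2 ∧ (2 < p → m ≤ 1)) := by
  classical
  haveI hpf : Fact p.Prime := ⟨hp⟩
  have main : p ^ (r - 1) ≤ m := by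
    obtain ⟨s, rfl⟩ : ∃ s, r = s + 1 := ⟨r - 1, by omega⟩
    simp only [Nat.add_sub_cancel]
    letI cg : CommGroup N := { (inferInstance : Group N) with mul_comm := hNc.is_comm.comm }
    haveI : Nonempty Ω := by
      rw [← Fintype.card_pos_iff, hcard]; exact pow_pos hp.pos _
    obtain ⟨ω₀⟩ := ‹Nonempty Ω›
    -- the coordinate map
    let π : N → Ω := fun v => (v : G) • ω₀
    have hπsurj : Function.Surjective π := by
      intro ω
      obtain ⟨n, hn⟩ := hNtr.exists_smul_eq ω₀ ω
      exact ⟨n, hn⟩
    have hπinj : Function.Injective π := by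
      intro u v huv
      have h1 : v⁻¹ * u ∈ stabilizer N ω₀ := by
        rw [mem_stabilizer_iff, mul_smul]
        apply inv_smul_eq_iff.mpr
        exact huv
      rw [hNreg ω₀, Subgroup.mem_bot] at h1
      exact (inv_mul_eq_one.mp h1).symm
    have hcardN : Nat.card N = p ^ m := by
      rw [← hcard, ← Nat.card_eq_fintype_card]
      exact Nat.card_congr (Equiv.ofBijective π ⟨hπinj, hπsurj⟩)
    obtain ⟨b, hb⟩ := hNtr.exists_smul_eq ω₀ (g • ω₀)
    have hb' : (b : G) • ω₀ = g • ω₀ := hb
    let A0 : N →* N := (MulAut.conjNormal g).toMonoidHom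
    have hAcoe : ∀ v : N, ((A0 v : N) : G) = g * v * g⁻¹ := by
      intro v; rfl
    have hπf : ∀ v, π (A0 v * b) = g • π v := by
      intro v
      show ((A0 v * b : N) : G) • ω₀ = g • (v : G) • ω₀
      have : ((A0 v * b : N) : G) = ((A0 v : N) : G) * b := rfl
      rw [this, hAcoe, mul_smul, hb', ← mul_smul, ← mul_smul]
      simp
    have hiter : ∀ (k : ℕ) (v : N), π ((fun x => A0 x * b)^[k] v) = g ^ k • π v := by
      intro k
      induction k with
      | zero => intro v; simp
      | succ k ih =>
        intro v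
        rw [Function.iterate_succ_apply', hπf, ih, pow_succ', mul_smul]
    apply comm_bound (K := N) p (fun x => Subtype.ext (hNp _ x.2)) A0 b s m hcardN
    · funext v
      apply hπinj
      rw [hiter, ← hg, pow_orderOf_eq_one, one_smul]; rfl
    · intro hid
      have hne : g ^ p ^ s ≠ 1 := by
        intro h
        have := orderOf_dvd_of_pow_eq_one h
        rw [hg] at this
        have := (Nat.pow_dvd_pow_iff_le_right hp.one_lt).mp this
        omega
      apply hne
      apply FaithfulSMul.eq_of_smul_eq_smul (α := Ω)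
      intro ω
      obtain ⟨v, rfl⟩ := hπsurj ω
      rw [← hiter, hid, one_smul]; rfl
  refine ⟨main, ?_⟩
  intro hrm
  subst hrm
  constructor
  · by_contra hcon
    have h3 := two_pow_gt r (by omega)
    have h4 := Nat.pow_le_pow_left hp.two_le (r - 1)
    omega
  · intro hp2
    by_contra hcon
    have h3 := three_pow_gt r (by omega)
    have h4 := Nat.pow_le_pow_left (show 3 ≤ p from hp2) (r - 1)
    omega

end Cfsg.Agent.S3508
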