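import Cfsg.Statements.S3511


set_option autoImplicit false
open Cfsg

namespace Cfsg.Agent.S3511




/-- Let a finite group G act faithfully on a set Ω. If every element of G of square-free order has a regular cycle (an orbit of the cyclic group it generates with trivial stabilizer), then every element of G has a regular cycle. -/
theorem result {G : Type*} [Group G] [Finite G] {Ω : Type*} [MulAction G Ω] [FaithfulSMul G Ω]
    (h : ∀ g : G, Squarefree (orderOf g) → ∃ ω : Ω, MulAction.stabilizer (Subgroup.zpowers g) ω = ⊥) (g : G) :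
    ∃ ω : Ω, MulAction.stabilizer (Subgroup.zpowers g) ω = ⊥ := by
  classical
  set n := orderOf g with hn
  have hn0 : n ≠ 0 := (orderOf_pos g).ne'
  set r := ∏ p ∈ n.primeFactors, p with hr
  have hrd : r ∣ n := Nat.prod_primeFactors_dvd n
  have hr0 : r ≠ 0 := fun h => hn0 (by simpa [h] using hrd)
  have hsf : Squarefree r := by
    refine Finset.squarefree_prod_of_pairwise_isCoprime (fun p hp q hq hpq => ?_) (fun p hp => ?_)
    · simp only [Function.onFun, ← Nat.coprime_iff_isRelPrime]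
      exact (Nat.coprime_primes (Nat.prime_of_mem_primeFactors hp) (Nat.prime_of_mem_primeFactors hq)).2 hpq
    · exact (Nat.prime_of_mem_primeFactors hp).prime.squarefree
  set d := n / r with hd
  have hd0 : d ≠ 0 := by
    intro h
    have := Nat.div_mul_cancel hrd
    rw [← hd, h, zero_mul] at this
    exact hn0 this.symm
  have hordh : orderOf (g ^ d) = r := by
    rw [orderOf_pow_of_dvd hd0 (Nat.div_dvd_of_dvd hrd), ← hn, hd, Nat.div_div_self hrd hn0]
  obtain ⟨ω, hω⟩ := h (g ^ d) (by rw [hordh]; exact hsf)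
  refine ⟨ω, ?_⟩
  rw [Subgroup.eq_bot_iff_forall]
  rintro ⟨x, hx⟩ hxs
  by_contra hx1
  have hx1' : x ≠ 1 := fun h => hx1 (by apply Subtype.ext; simpa using h)
  rw [Subgroup.mem_zpowers_iff] at hx
  obtain ⟨k, rfl⟩ := hx
  have hxfix : (g ^ k) • ω = ω := hxs
  -- prime q dividing order of x
  set m := orderOf (g ^ k) with hm
  have hm1 : m ≠ 1 := fun h => hx1' (orderOf_eq_one_iff.mp h)
  obtain ⟨q, hq, hqm⟩ := Nat.exists_prime_and_dvd hm1
  have hm0 : m ≠ 0 := (orderOf_pos _).ne'
  have hmn : m ∣ n := by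
    rw [hn, hm]
    exact orderOf_dvd_of_mem_zpowers (Subgroup.mem_zpowers_iff.mpr ⟨k, rfl⟩)
  set y := (g ^ k) ^ (m / q) with hy
  have hmq0 : m / q ≠ 0 := by
    intro h
    have := Nat.div_mul_cancel hqm
    rw [h, zero_mul] at this
    exact hm0 this.symm
  have hyord : orderOf y = q := by
    rw [hy, orderOf_pow_of_dvd hmq0 (Nat.div_dvd_of_dvd hqm), ← hm, Nat.div_div_self hqm hm0]
  have hyfix : y • ω = ω := by
    have : (g ^ k) ∈ MulAction.stabilizer G ω := hxfix
    exact (MulAction.stabilizer G ω).pow_mem this _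
  have hqn : q ∣ n := hqm.trans hmn
  have hqr : q ∣ r := by
    rw [hr]
    apply Finset.dvd_prod_of_mem
    exact Nat.mem_primeFactors.mpr ⟨hq, hqn, hn0⟩
  -- y is in ⟨g^d⟩
  have hy_mem : y ∈ Subgroup.zpowers (g ^ d) := by
    have hy_g : y ∈ Subgroup.zpowers g := by
      rw [hy, ← zpow_natCast, ← zpow_mul]
      exact Subgroup.mem_zpowers_iff.mpr ⟨_, rfl⟩
    obtain ⟨j, hj⟩ := Subgroup.mem_zpowers_iff.mp hy_g
    -- y^q = 1 → n ∣ j q
    have hyq : y ^ q = 1 := by rw [← hyord]; exact pow_orderOf_eq_one y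
    have h1 : g ^ (j * q) = 1 := by
      rw [zpow_mul, hj, zpow_natCast, hyq]
    have h2 : (n : ℤ) ∣ j * q := orderOf_dvd_iff_zpow_eq_one.mpr h1
    have hnq : n = (n / q) * q := (Nat.div_mul_cancel hqn).symm
    have h3 : ((n / q : ℕ) : ℤ) ∣ j := by
      have h4 : (((n / q : ℕ) : ℤ) * (q : ℤ)) ∣ j * q := by
        rw [← Nat.cast_mul, ← hnq]; exact h2
      exact (mul_dvd_mul_iff_right (by exact_mod_cast hq.ne_zero)).mp h4
    obtain ⟨l, hl⟩ := h3
    -- n/q = d * (r/q)
    have hnqd : n / q = d * (r / q) := by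
      have e1 : n = d * r := (Nat.div_mul_cancel hrd).symm
      conv_lhs => rw [e1]
      exact Nat.mul_div_assoc d hqr
    rw [Subgroup.mem_zpowers_iff]
    refine ⟨((r / q : ℕ) : ℤ) * l, ?_⟩
    rw [← hj, hl, hnqd, ← zpow_natCast g d, ← zpow_mul]
    congr 1
    push_cast
    ring
  have : (⟨y, hy_mem⟩ : Subgroup.zpowers (g ^ d)) ∈ MulAction.stabilizer (Subgroup.zpowers (g ^ d)) ω := hyfix
  rw [hω, Subgroup.mem_bot] at this
  have hy1 : y = 1 := by simpa using congrArg Subtype.val this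
  rw [hy1, orderOf_one] at hyord
  exact hq.one_lt.ne hyord

end Cfsg.Agent.S3511
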