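import Cfsg.Statements.S3514


set_option autoImplicit false
open Cfsg

namespace Cfsg.Agent.S3514

open scoped Pointwise

lemma relIndex_sup_of_mul {G : Type*} [Group G] (A B : Subgroup G)
    (h : (↑(A ⊔ B) : Set G) = (A : Set G) * (B : Set G)) : B.relIndex (A ⊔ B) = B.relIndex A := by
  have hle : A ≤ A ⊔ B := le_sup_left
  let f : A ⧸ B.subgroupOf A → (↥(A ⊔ B)) ⧸ B.subgroupOf (A ⊔ B) :=
    Quotient.map' (Subgroup.inclusion hle) (by
      intro a a' haa
      rw [QuotientGroup.leftRel_apply] at *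
      simpa [Subgroup.mem_subgroupOf] using haa)
  have hf : Function.Bijective f := by
    constructor
    · intro x y
      induction x using QuotientGroup.induction_on with | _ a => ?_
      induction y using QuotientGroup.induction_on with | _ b => ?_
      intro hxy
      rw [QuotientGroup.eq] at *
      simp only [f, Quotient.map'_mk''] at hxy
      have := QuotientGroup.eq.mp hxy
      simpa [Subgroup.mem_subgroupOf] using this
    · intro y
      induction y using QuotientGroup.induction_on with | _ t => ?_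
      have ht : (t : G) ∈ (↑(A ⊔ B) : Set G) := t.2
      rw [h] at ht
      obtain ⟨a, ha, b, hb, hab⟩ := ht
      refine ⟨QuotientGroup.mk ⟨a, ha⟩, ?_⟩
      simp only [f, Quotient.map'_mk'']
      apply QuotientGroup.eq.mpr
      simp only [Subgroup.mem_subgroupOf]
      have : (Subgroup.inclusion hle ⟨a, ha⟩)⁻¹ * t = (⟨b, Subgroup.mem_sup_right hb⟩ : ↥(A ⊔ B)) := by
        apply Subtype.ext
        simp [← hab]
      rw [this]
      exact hb
  exact (Nat.card_congr (Equiv.ofBijective f hf)).symm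

lemma orbit_card {p : ℕ} [Fact p.Prime] {V : Type*} [AddCommGroup V] [Module (ZMod p) V] [Finite V]
    (S : Subgroup (V ≃ₗ[ZMod p] V)) (v : V) :
    Nat.card {u : V | ∃ h ∈ S, h v = u} = (MulAction.stabilizer (V ≃ₗ[ZMod p] V) v).relIndex S := by
  have h1 := MulAction.index_stabilizer (G := S) (x := v)
  have h2 : MulAction.stabilizer S v = (MulAction.stabilizer (V ≃ₗ[ZMod p] V) v).subgroupOf S := by
    ext x
    simp only [Subgroup.mem_subgroupOf, MulAction.mem_stabilizer_iff]
    rfl
  have h3 : {u : V | ∃ h ∈ S, h v = u} = MulAction.orbit S v := by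
    ext u
    simp only [Set.mem_ofPred_eq, MulAction.mem_orbit_iff]
    constructor
    · rintro ⟨h, hS, rfl⟩
      exact ⟨⟨h, hS⟩, rfl⟩
    · rintro ⟨⟨h, hS⟩, rfl⟩
      exact ⟨h, hS, rfl⟩
  rw [h3, Subgroup.relIndex, ← h2, h1, Nat.card_coe_set_eq]


/-- Let p be a prime, V a finite vector space over the field with p elements, and H a group of linear transformations of V all of whose orbits on V have size coprime to p. (i) Every normal subgroup K of H has all its orbits on V of size coprime to p. (ii) If N is a group of linear transformations of V of order coprime to p that is normalized by H, then the group generated by N and H has all its orbits on V of size coprime to p. -/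
theorem result (p : ℕ) [Fact p.Prime] {V : Type*} [AddCommGroup V] [Module (ZMod p) V] [Finite V]
    (H : Subgroup (V ≃ₗ[ZMod p] V)) (hH : ∀ v : V, ¬ p ∣ Nat.card {u : V | ∃ h ∈ H, h v = u}) :
    (∀ K : Subgroup (V ≃ₗ[ZMod p] V), K ≤ H → H ≤ Subgroup.normalizer (K : Set (V ≃ₗ[ZMod p] V)) →
        ∀ v : V, ¬ p ∣ Nat.card {u : V | ∃ k ∈ K, k v = u}) ∧
    (∀ N : Subgroup (V ≃ₗ[ZMod p] V), ¬ p ∣ Nat.card N → H ≤ Subgroup.normalizer (N : Set (V ≃ₗ[ZMod p] V)) →
        ∀ v : V, ¬ p ∣ Nat.card {u : V | ∃ x ∈ N ⊔ H, x v = u}) := by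
  classical
  have hp : p.Prime := Fact.out
  refine ⟨?_, ?_⟩
  · intro K hKH hN v
    have hv := hH v
    rw [orbit_card] at hv ⊢
    set Y := MulAction.stabilizer (V ≃ₗ[ZMod p] V) v
    intro hdvd
    apply hv
    set B := Y ⊓ H
    have hBn : B ≤ Subgroup.normalizer (K : Set (V ≃ₗ[ZMod p] V)) := inf_le_right.trans hN
    have hcoe : (↑(K ⊔ B) : Set (V ≃ₗ[ZMod p] V)) = (K : Set (V ≃ₗ[ZMod p] V)) * (B : Set (V ≃ₗ[ZMod p] V)) :=
      Subgroup.coe_mul_of_right_le_normalizer_left K B hBn
    have h1 := relIndex_sup_of_mul K B hcoe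
    have h2 : B.relIndex K = Y.relIndex K := by
      rw [← Subgroup.inf_relIndex_right B K, ← Subgroup.inf_relIndex_right Y K]
      congr 1
      ext x
      simp only [Subgroup.mem_inf, B]
      constructor
      · rintro ⟨⟨a, _⟩, c⟩; exact ⟨a, c⟩
      · rintro ⟨a, c⟩; exact ⟨⟨a, hKH c⟩, c⟩
    have hle1 : B ≤ K ⊔ B := le_sup_right
    have hle2 : K ⊔ B ≤ H := sup_le hKH inf_le_right
    have h3 := Subgroup.relIndex_mul_relIndex B (K ⊔ B) H hle1 hle2
    have h4 : B.relIndex H = Y.relIndex H := Subgroup.inf_relIndex_right Y H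
    rw [← h4, ← h3, h1, h2]
    exact Dvd.dvd.mul_right hdvd _
  · intro N hNp hN v
    have hv := hH v
    rw [orbit_card] at hv ⊢
    set Y := MulAction.stabilizer (V ≃ₗ[ZMod p] V) v
    intro hdvd
    set T := N ⊔ H
    have hcoe : (↑(N ⊔ H) : Set (V ≃ₗ[ZMod p] V)) = (N : Set (V ≃ₗ[ZMod p] V)) * (H : Set (V ≃ₗ[ZMod p] V)) :=
      Subgroup.coe_mul_of_right_le_normalizer_left N H hN
    have h1 : H.relIndex T = H.relIndex N := relIndex_sup_of_mul N H hcoe
    have h2 : H.relIndex N ∣ Nat.card N := Subgroup.relIndex_dvd_card H N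
    have h3 : Y.relIndex T ∣ (Y ⊓ H).relIndex T := Subgroup.relIndex_dvd_of_le_left T inf_le_left
    have h4 := Subgroup.relIndex_mul_relIndex (Y ⊓ H) H T inf_le_right le_sup_right
    have h5 : (Y ⊓ H).relIndex H = Y.relIndex H := Subgroup.inf_relIndex_right Y H
    rw [← h4, h5, h1] at h3
    rcases (Nat.Prime.dvd_mul hp).mp (hdvd.trans h3) with h6 | h6
    · exact hv h6
    · exact hNp (h6.trans h2)

end Cfsg.Agent.S3514
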