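import Cfsg.Statements.S3515
import Cfsg.Agent.Lib.Recog.Affine

set_option autoImplicit false
open Cfsg

namespace Cfsg.Agent.S3515

open Cfsg.Agent.Lib.Recog
theorem z2_cases : ∀ x : Fin 2 → ZMod 2, x = 0 ∨ x = ![1, 0] ∨ x = ![0, 1] ∨ x = ![1, 1] := by decide


/-- Every primitive affine permutation group of degree p² is 3-closed. Let p be a prime and G a group of permutations of the plane V = F_p² consisting of affine maps x ↦ Ax + b, containing all translations, and acting primitively on V. Then any permutation σ of V that agrees on every triple of points with some element of G (σ preserves every G-orbit on ordered triples) already lies in G. -/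
theorem result (p : ℕ) [Fact p.Prime] (G : Subgroup (Equiv.Perm (Fin 2 → ZMod p)))
    (haff : (G : Set (Equiv.Perm (Fin 2 → ZMod p))) ⊆ {τ : Equiv.Perm (Fin 2 → ZMod p) | ∃ (A : (Fin 2 → ZMod p) ≃ₗ[ZMod p] (Fin 2 → ZMod p)) (b : Fin 2 → ZMod p), ∀ x, τ x = A x + b})
    (htrans : ∀ b : Fin 2 → ZMod p, ∃ g ∈ G, ∀ x, g x = x + b) (hprim : MulAction.IsPreprimitive G (Fin 2 → ZMod p))
    (σ : Equiv.Perm (Fin 2 → ZMod p)) (hσ : (∀ t : Fin 3 → (Fin 2 → ZMod p), ∃ g ∈ G, ∀ i, σ (t i) = g (t i))) : σ ∈ G := by
  classical
  let e₁ : Fin 2 → ZMod p := ![1, 0]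
  let e₂ : Fin 2 → ZMod p := ![0, 1]
  obtain ⟨g, hg, hgt⟩ := hσ ![0, e₁, e₂]
  have h0 := hgt 0
  have h1 := hgt 1
  have h2 := hgt 2
  simp only [Matrix.cons_val_zero, Matrix.cons_val_one, Matrix.cons_val] at h0 h1 h2
  suffices hs : σ = g by rw [hs]; exact hg
  by_cases hp : p = 2
  · subst hp
    have hcases := z2_cases
    have hag : ∀ x : Fin 2 → ZMod 2, x ≠ ![1, 1] → σ x = g x := by
      intro x hx
      rcases hcases x with rfl | rfl | rfl | rfl
      · exact h0
      · exact h1
      · exact h2
      · exact absurd rfl hx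
    ext1 x
    by_cases hx : x = ![1, 1]
    · by_contra hne
      obtain ⟨v, hv⟩ := g.surjective (σ x)
      have hvx : v ≠ ![1, 1] := by
        intro hvx
        rw [hvx, ← hx] at hv
        exact hne hv.symm
      rw [← hag v hvx] at hv
      have := σ.injective hv
      rw [this, hx] at hvx
      exact hvx rfl
    · exact hag x hx
  · have hcol := collinear_of_triple (p := p) σ (G : Set _) haff hσ
    obtain ⟨A, b, hA⟩ := affine_of_collinear hp σ hcol
    obtain ⟨B, b', hB⟩ := haff hg
    have hb : b = b' := by
      have := h0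
      rw [hA, hB] at this
      simpa using this
    subst hb
    have hAB : A = B := by
      apply LinearEquiv.toLinearMap_injective
      apply (Pi.basisFun (ZMod p) (Fin 2)).ext
      intro i
      have hbas : ∀ i : Fin 2, (Pi.basisFun (ZMod p) (Fin 2)) i = ![e₁, e₂] i := by
        intro i
        funext j
        fin_cases i <;> fin_cases j <;> simp [e₁, e₂]
      rw [hbas]
      fin_cases i
      · have := h1
        rw [hA, hB] at this
        simpa using this
      · have := h2
        rw [hA, hB] at this
        simpa using this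
    ext1 x
    rw [hA, hB, hAB]

end Cfsg.Agent.S3515
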