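import Cfsg.Statements.S3516
import Cfsg.Agent.Lib.Recog.Affine

set_option autoImplicit false
open Cfsg

namespace Cfsg.Agent.S3516

open Cfsg.Agent.Lib.Recog


/-- Let p be an odd prime, d ≥ 3, and G a group of affine permutations x ↦ Ax + b of V = F_p^d containing all translations and all maps x ↦ Ax with A of determinant 1. Then the 3-closure of G is the full affine group: a permutation σ of V agrees on every triple of points with some element of G if and only if σ is an affine map. -/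
theorem result (p : ℕ) [Fact p.Prime] (hp : p ≠ 2) (d : ℕ) (hd : 3 ≤ d) (G : Subgroup (Equiv.Perm (Fin d → ZMod p)))
    (haff : (G : Set (Equiv.Perm (Fin d → ZMod p))) ⊆ {τ : Equiv.Perm (Fin d → ZMod p) | ∃ (A : (Fin d → ZMod p) ≃ₗ[ZMod p] (Fin d → ZMod p)) (b : Fin d → ZMod p), ∀ x, τ x = A x + b})
    (htrans : ∀ b : Fin d → ZMod p, ∃ g ∈ G, ∀ x, g x = x + b)
    (hsl : ∀ A : (Fin d → ZMod p) ≃ₗ[ZMod p] (Fin d → ZMod p), LinearMap.det (A : (Fin d → ZMod p) →ₗ[ZMod p] (Fin d → ZMod p)) = 1 → ∃ g ∈ G, ∀ x, g x = A x)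
    (σ : Equiv.Perm (Fin d → ZMod p)) :
    (∀ t : Fin 3 → (Fin d → ZMod p), ∃ g ∈ G, ∀ i, σ (t i) = g (t i)) ↔ σ ∈ {τ : Equiv.Perm (Fin d → ZMod p) | ∃ (A : (Fin d → ZMod p) ≃ₗ[ZMod p] (Fin d → ZMod p)) (b : Fin d → ZMod p), ∀ x, τ x = A x + b} := by
  classical
  constructor
  · intro h
    have hcol := collinear_of_triple (p := p) σ (G : Set _) haff h
    exact affine_of_collinear hp σ hcol
  · rintro ⟨A, b, hA⟩ t
    -- the plane spanned by the triple
    let s : Finset (Fin d → ZMod p) := {t 1 - t 0, t 2 - t 0}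
    let W : Submodule (ZMod p) (Fin d → ZMod p) := Submodule.span (ZMod p) (s : Set (Fin d → ZMod p))
    have hW : W ≠ ⊤ := by
      intro htop
      have h1 : Module.finrank (ZMod p) W ≤ 2 := by
        exact le_trans (finrank_span_finset_le_card (R := ZMod p) s) Finset.card_le_two
      have h2 : Module.finrank (ZMod p) W = d := by
        rw [htop, finrank_top]; simp
      omega
    obtain ⟨f, hf1, hf2⟩ : ∃ f : Module.Dual (ZMod p) (Fin d → ZMod p), f ≠ 0 ∧ W ≤ LinearMap.ker f := by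
      obtain ⟨f, hf⟩ := Submodule.exists_le_ker_of_lt_top W (lt_top_iff_ne_top.mpr hW)
      exact ⟨f, hf.1, hf.2⟩
    obtain ⟨v, hv⟩ : ∃ v, f v = 1 := by
      obtain ⟨u, hu⟩ : ∃ u, f u ≠ 0 := by
        by_contra hcon
        push Not at hcon
        exact hf1 (LinearMap.ext hcon)
      refine ⟨(f u)⁻¹ • u, ?_⟩
      rw [map_smul, smul_eq_mul, inv_mul_cancel₀ hu]
    set δ : ZMod p := LinearMap.det (A : (Fin d → ZMod p) →ₗ[ZMod p] (Fin d → ZMod p)) with hδ
    have hδ0 : δ ≠ 0 := by
      have := (LinearEquiv.isUnit_det' A)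
      exact this.ne_zero
    set c : ZMod p := δ⁻¹ - 1 with hc
    let f' : Module.Dual (ZMod p) (Fin d → ZMod p) := f
    let v' : Fin d → ZMod p := c • v
    have hfv : f' v' = c := by simp [f', v', hv]
    have hunit : IsUnit (1 + f' v') := by
      rw [hfv, hc]
      simp only [add_sub_cancel]
      exact (isUnit_iff_ne_zero.mpr (inv_ne_zero hδ0))
    let C := LinearEquiv.dilatransvection hunit
    have hCapp : ∀ x, C x = x + f' x • v' := by
      intro x
      exact LinearEquiv.dilatransvection.apply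
    have hCdet : LinearMap.det (C : (Fin d → ZMod p) →ₗ[ZMod p] (Fin d → ZMod p)) = δ⁻¹ := by
      rw [LinearEquiv.dilatransvection.coe_toLinearMap, LinearMap.transvection.det, hfv, hc]
      ring
    let B : (Fin d → ZMod p) ≃ₗ[ZMod p] (Fin d → ZMod p) := C.trans A
    have hBdet : LinearMap.det (B : (Fin d → ZMod p) →ₗ[ZMod p] (Fin d → ZMod p)) = 1 := by
      have : (B : (Fin d → ZMod p) →ₗ[ZMod p] (Fin d → ZMod p)) = (A : (Fin d → ZMod p) →ₗ[ZMod p] (Fin d → ZMod p)) ∘ₗ (C : (Fin d → ZMod p) →ₗ[ZMod p] (Fin d → ZMod p)) := rfl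
      rw [this, LinearMap.det_comp, hCdet, ← hδ, mul_inv_cancel₀ hδ0]
    obtain ⟨g₁, hg₁, hg₁'⟩ := hsl B hBdet
    obtain ⟨g₂, hg₂, hg₂'⟩ := htrans (σ (t 0) - B (t 0))
    refine ⟨g₂ * g₁, G.mul_mem hg₂ hg₁, ?_⟩
    have hfix : ∀ x ∈ W, C x = x := by
      intro x hx
      have : f x = 0 := hf2 hx
      rw [hCapp]
      simp [f', this]
    have hkey : ∀ i, B (t i) - B (t 0) = A (t i) - A (t 0) := by
      intro i
      have hmem : t i - t 0 ∈ W := by
        fin_cases i
        · simp
        · exact Submodule.subset_span (by simp [s])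
        · exact Submodule.subset_span (by simp [s])
      have h1 := hfix _ hmem
      have h2 : B (t i - t 0) = A (t i - t 0) := by
        show A (C (t i - t 0)) = _
        rw [h1]
      simpa using h2
    intro i
    rw [Equiv.Perm.mul_apply, hg₁', hg₂', hA]
    rw [hA] 
    have := hkey i
    calc A (t i) + b = (A (t i) - A (t 0)) + (A (t 0) + b) := by abel
      _ = (B (t i) - B (t 0)) + (A (t 0) + b) := by rw [this]
      _ = B (t i) + (A (t 0) + b - B (t 0)) := by abel

end Cfsg.Agent.S3516
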