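import Cfsg.Statements.S3517
import Mathlib

set_option autoImplicit false
open Cfsg

namespace Cfsg.Agent.S3517

open Module
set_option linter.style.haveILetI false

lemma sumExtend_inl {K V ι : Type*} [DivisionRing K] [AddCommGroup V] [Module K V] {v : ι → V}
    (hs : LinearIndependent K v) (i : ι) : Basis.sumExtend hs (Sum.inl i) = v i := by
  classical
  simp [Basis.sumExtend]
  rfl

lemma exists_linearEquiv_of_indep {K V ι : Type*} [Field K] [AddCommGroup V] [Module K V]
    [FiniteDimensional K V] [Fintype ι] {v w : ι → V}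
    (hv : LinearIndependent K v) (hw : LinearIndependent K w) :
    ∃ A : V ≃ₗ[K] V, ∀ i, A (v i) = w i := by
  classical
  set bv := Basis.sumExtend hv
  set bw := Basis.sumExtend hw
  haveI : Finite (ι ⊕ Basis.sumExtendIndex hv) := Module.Finite.finite_basis bv
  haveI : Finite (ι ⊕ Basis.sumExtendIndex hw) := Module.Finite.finite_basis bw
  haveI : Finite (Basis.sumExtendIndex hv) := Finite.of_injective (Sum.inr : _ → ι ⊕ _) Sum.inr_injective
  haveI : Finite (Basis.sumExtendIndex hw) := Finite.of_injective (Sum.inr : _ → ι ⊕ _) Sum.inr_injective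
  have h1 := Module.finrank_eq_nat_card_basis bv
  have h2 := Module.finrank_eq_nat_card_basis bw
  rw [Nat.card_sum] at h1 h2
  have h3 : Nat.card (Basis.sumExtendIndex hv) = Nat.card (Basis.sumExtendIndex hw) := by omega
  haveI := Fintype.ofFinite (Basis.sumExtendIndex hv)
  haveI := Fintype.ofFinite (Basis.sumExtendIndex hw)
  rw [Nat.card_eq_fintype_card, Nat.card_eq_fintype_card] at h3
  let e := Fintype.equivOfCardEq h3
  refine ⟨bv.equiv bw (Equiv.sumCongr (Equiv.refl _) e), fun i => ?_⟩
  have := bv.equiv_apply (Sum.inl i) bw (Equiv.sumCongr (Equiv.refl _) e)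
  rw [sumExtend_inl] at this
  rw [this]
  simp [bw, sumExtend_inl]

lemma exists_single {K V : Type*} [Field K] [AddCommGroup V] [Module K V]
    [FiniteDimensional K V] {x y : V} (hx : x ≠ 0) (hy : y ≠ 0) :
    ∃ A : V ≃ₗ[K] V, A x = y := by
  obtain ⟨A, hA⟩ := exists_linearEquiv_of_indep (K := K) (ι := Unit) (v := fun _ => x) (w := fun _ => y)
    (LinearIndependent.of_subsingleton () hx) (LinearIndependent.of_subsingleton () hy)
  exact ⟨A, hA ()⟩

lemma pair_indep {d : ℕ} {x y : Fin d → ZMod 2} (hx : x ≠ 0) (hy : y ≠ 0) (hxy : x ≠ y) :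
    LinearIndependent (ZMod 2) ![x, y] := by
  rw [LinearIndependent.pair_iff]
  intro s t hst
  have hz : ∀ z : ZMod 2, z = 0 ∨ z = 1 := by decide
  rcases hz s with rfl | rfl <;> rcases hz t with rfl | rfl
  · exact ⟨rfl, rfl⟩
  · exfalso; apply hy; simpa using hst
  · exfalso; apply hx; simpa using hst
  · exfalso
    apply hxy
    have h1 : x + y = 0 := by simpa using hst
    funext i
    have h2 := congrFun h1 i
    simp only [Pi.add_apply, Pi.zero_apply] at h2
    revert h2
    generalize x i = a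
    generalize y i = b
    revert a b
    decide


/-- For d ≥ 3, the 3-closure of the affine group AGL_d(2) acting on F_2^d is the full symmetric group: every permutation of F_2^d agrees on every ordered triple of points with some affine map (AGL_d(2) is 3-transitive). -/
theorem result (d : ℕ) (hd : 3 ≤ d) (σ : Equiv.Perm (Fin d → ZMod 2)) (t : Fin 3 → (Fin d → ZMod 2)) :
    ∃ (A : (Fin d → ZMod 2) ≃ₗ[ZMod 2] (Fin d → ZMod 2)) (b : Fin d → ZMod 2), ∀ i, σ (t i) = A (t i) + b := by
  classical
  set u := t 1 - t 0 with hu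
  set v := t 2 - t 0 with hv
  set u' := σ (t 1) - σ (t 0) with hu'
  set v' := σ (t 2) - σ (t 0) with hv'
  have hu0 : u = 0 ↔ u' = 0 := by
    rw [hu, hu', sub_eq_zero, sub_eq_zero, σ.injective.eq_iff]
  have hv0 : v = 0 ↔ v' = 0 := by
    rw [hv, hv', sub_eq_zero, sub_eq_zero, σ.injective.eq_iff]
  have huv : u = v ↔ u' = v' := by
    rw [hu, hv, hu', hv', sub_left_inj, sub_left_inj, σ.injective.eq_iff]
  have key : ∃ A : (Fin d → ZMod 2) ≃ₗ[ZMod 2] (Fin d → ZMod 2), A u = u' ∧ A v = v' := by
    by_cases h1 : u = 0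
    · have h1' := hu0.mp h1
      by_cases h2 : v = 0
      · have h2' := hv0.mp h2
        exact ⟨LinearEquiv.refl _ _, by simp [h1, h1'], by simp [h2, h2']⟩
      · have h2' : v' ≠ 0 := fun h => h2 (hv0.mpr h)
        obtain ⟨A, hA⟩ := exists_single (K := ZMod 2) h2 h2'
        exact ⟨A, by simp [h1, h1'], hA⟩
    · have h1' : u' ≠ 0 := fun h => h1 (hu0.mpr h)
      by_cases h2 : v = 0
      · have h2' := hv0.mp h2
        obtain ⟨A, hA⟩ := exists_single (K := ZMod 2) h1 h1'
        exact ⟨A, hA, by simp [h2, h2']⟩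
      · have h2' : v' ≠ 0 := fun h => h2 (hv0.mpr h)
        by_cases h3 : u = v
        · have h3' := huv.mp h3
          obtain ⟨A, hA⟩ := exists_single (K := ZMod 2) h1 h1'
          exact ⟨A, hA, by rw [← h3, hA, h3']⟩
        · have h3' : u' ≠ v' := fun h => h3 (huv.mpr h)
          obtain ⟨A, hA⟩ := exists_linearEquiv_of_indep (pair_indep h1 h2 h3) (pair_indep h1' h2' h3')
          exact ⟨A, hA 0, hA 1⟩
  obtain ⟨A, hA1, hA2⟩ := key
  refine ⟨A, σ (t 0) - A (t 0), ?_⟩
  intro i
  fin_cases i
  · simp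
  · show σ (t 1) = A (t 1) + (σ (t 0) - A (t 0))
    have : A (t 1) = A (t 0) + u' := by
      rw [← hA1, hu, map_sub]; abel
    rw [this, hu']; abel
  · show σ (t 2) = A (t 2) + (σ (t 0) - A (t 0))
    have : A (t 2) = A (t 0) + v' := by
      rw [← hA2, hv, map_sub]; abel
    rw [this, hv']; abel

end Cfsg.Agent.S3517
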