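import Cfsg.Statements.S3518
import Cfsg.Agent.Lib.Recog.Affine

set_option autoImplicit false
open Cfsg

namespace Cfsg.Agent.S3518

open Polynomial

variable {p : ℕ} [hpf : Fact p.Prime]

lemma sum_pow_top : ∑ x : ZMod p, x ^ (p - 1) = -1 := by
  classical
  have h1 : ∀ x : ZMod p, x ^ (p - 1) = 1 - (if x = 0 then 1 else 0) := by
    intro x
    by_cases hx : x = 0
    · subst hx
      have : p - 1 ≠ 0 := by
        have := (Fact.out : p.Prime).two_le
        omega
      simp [zero_pow this]
    · simp [hx, ZMod.pow_card_sub_one_eq_one hx]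
  simp_rw [h1]
  rw [Finset.sum_sub_distrib]
  simp

lemma sum_eval_top (g : (ZMod p)[X]) (hg : g.natDegree ≤ p - 1) :
    ∑ x : ZMod p, g.eval x = - g.coeff (p - 1) := by
  have hp := (Fact.out : p.Prime).two_le
  have h1 : g.natDegree < (p - 1) + 1 := by omega
  have h2 : ∀ x : ZMod p, g.eval x = ∑ i ∈ Finset.range ((p - 1) + 1), g.coeff i * x ^ i :=
    fun x => Polynomial.eval_eq_sum_range' h1 x
  simp_rw [h2]
  rw [Finset.sum_comm]
  simp_rw [← Finset.mul_sum]
  rw [Finset.sum_range_succ, sum_pow_top]
  have h3 : ∑ i ∈ Finset.range (p - 1), g.coeff i * ∑ x : ZMod p, x ^ i = 0 := by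
    refine Finset.sum_eq_zero (fun i hi => ?_)
    have := FiniteField.sum_pow_lt_card_sub_one (K := ZMod p) i (by
      rw [ZMod.card]
      exact Finset.mem_range.mp hi)
    rw [this, mul_zero]
  rw [h3]
  ring

lemma coeff_linear_pow (s t : ZMod p) (j i : ℕ) (hi : i ≤ j) :
    ((C s + C t * X) ^ j).coeff i = (j.choose i : ZMod p) * s ^ (j - i) * t ^ i := by
  rw [add_comm, add_pow]
  rw [Polynomial.finset_sum_coeff]
  rw [Finset.sum_eq_single i]
  · have h1 : (C t * X) ^ i * (C s) ^ (j - i) * ((j.choose i : ℕ) : (ZMod p)[X]) =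
        C (t ^ i * s ^ (j - i) * (j.choose i : ZMod p)) * X ^ i := by
      have hc : ((j.choose i : ℕ) : (ZMod p)[X]) = C ((j.choose i : ℕ) : ZMod p) := (C_eq_natCast _).symm
      rw [hc, mul_pow, ← C_pow, ← C_pow, C_mul, C_mul]
      ring
    rw [h1, coeff_C_mul_X_pow]
    simp
    ring
  · intro m _ hm
    have h1 : (C t * X) ^ m * (C s) ^ (j - m) * ((j.choose m : ℕ) : (ZMod p)[X]) =
        C (t ^ m * s ^ (j - m) * (j.choose m : ZMod p)) * X ^ m := by
      have hc : ((j.choose m : ℕ) : (ZMod p)[X]) = C ((j.choose m : ℕ) : ZMod p) := (C_eq_natCast _).symm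
      rw [hc, mul_pow, ← C_pow, ← C_pow, C_mul, C_mul]
      ring
    rw [h1, coeff_C_mul_X_pow]
    simp [Ne.symm hm]
  · intro h
    exfalso
    apply h
    exact Finset.mem_range.mpr (by omega)

/-- The moments vanish. -/
lemma moments (σ : ZMod p → ZMod p) (U : Finset (ZMod p))
    (hU : ∀ u ∈ U, Function.Injective (fun x => σ x - u * x)) (a b : ℕ)
    (h1 : a + b < U.card) (h2 : a + b < p - 1) :
    ∑ x : ZMod p, σ x ^ a * x ^ b = 0 := by
  classical
  set j := a + b with hj
  let P : (ZMod p)[X] := ∑ x : ZMod p, (C (σ x) + C (-x) * X) ^ j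
  have hdeg : P.natDegree ≤ j := by
    apply Polynomial.natDegree_sum_le_of_forall_le
    intro x _
    apply (natDegree_pow_le).trans
    have : (C (σ x) + C (-x) * X).natDegree ≤ 1 := by
      rw [add_comm]
      exact natDegree_linear_le
    nlinarith
  have heval : ∀ u ∈ U, P.eval u = 0 := by
    intro u hu
    simp only [P, eval_finset_sum, eval_pow, eval_add, eval_C, eval_mul, eval_X]
    have hb : Function.Bijective (fun x => σ x - u * x) := (hU u hu).bijective_of_finite
    have h3 : ∀ x : ZMod p, (σ x + -x * u) ^ j = (fun y : ZMod p => y ^ j) (σ x - u * x) := by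
      intro x
      show _ = (σ x - u * x) ^ j
      congr 1
      ring
    simp_rw [h3]
    rw [hb.sum_comp (fun y : ZMod p => y ^ j)]
    exact FiniteField.sum_pow_lt_card_sub_one (K := ZMod p) j (by rw [ZMod.card]; exact h2)
  have hP : P = 0 := Polynomial.eq_zero_of_natDegree_lt_card_of_eval_eq_zero' P U heval (by omega)
  have hc : P.coeff b = 0 := by rw [hP]; simp
  simp only [P, Polynomial.finset_sum_coeff] at hc
  have hbj : b ≤ j := by omega
  simp_rw [coeff_linear_pow _ _ j b hbj] at hc
  have hja : j - b = a := by omega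
  rw [hja] at hc
  have h3 : ∑ x : ZMod p, ((j.choose b : ZMod p) * σ x ^ a * (-x) ^ b) =
      (j.choose b : ZMod p) * (-1) ^ b * ∑ x : ZMod p, σ x ^ a * x ^ b := by
    rw [Finset.mul_sum]
    refine Finset.sum_congr rfl (fun x _ => ?_)
    rw [neg_pow]
    ring
  rw [h3] at hc
  have h4 : (j.choose b : ZMod p) ≠ 0 := by
    rw [Ne, ZMod.natCast_eq_zero_iff]
    intro hd
    have hcop := Nat.Prime.coprime_choose_of_lt (Fact.out : p.Prime) (show j < p by omega) hbj
    have h5 := Nat.Coprime.eq_one_of_dvd hcop hd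
    exact (Fact.out : p.Prime).one_lt.ne' h5
  have h5 : ((-1 : ZMod p)) ^ b ≠ 0 := pow_ne_zero _ (by simp)
  exact (mul_eq_zero.mp hc).resolve_left (mul_ne_zero h4 h5)

/-- Few directions: the map is affine. -/
theorem affine_of_moments (hodd : p ≠ 2) (σ : Equiv.Perm (ZMod p)) (U : Finset (ZMod p))
    (hU : ∀ u ∈ U, Function.Injective (fun x => σ x - u * x)) (hcard : p + 1 ≤ 2 * U.card) :
    ∃ a b : ZMod p, ∀ x, σ x = a * x + b := by
  classical
  have hp := (Fact.out : p.Prime).two_le
  have hp3 : 3 ≤ p := by omega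
  have hpodd : p % 2 = 1 := by
    rcases (Fact.out : p.Prime).eq_two_or_odd with h | h
    · exact absurd h hodd
    · exact h
  let f : (ZMod p)[X] := Lagrange.interpolate Finset.univ id (fun x => σ x)
  have hf : ∀ x : ZMod p, f.eval x = σ x := by
    intro x
    have := Lagrange.eval_interpolate_at_node (s := Finset.univ) (v := (id : ZMod p → ZMod p)) (i := x)
      (fun x => σ x) (Set.injOn_id _) (Finset.mem_univ x)
    exact this
  have hdeg : f.natDegree ≤ p - 1 := by
    have h1 := Lagrange.degree_interpolate_lt (s := Finset.univ) (v := (id : ZMod p → ZMod p))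
      (fun x => σ x) (Set.injOn_id _)
    rw [Finset.card_univ, ZMod.card] at h1
    by_cases hf0 : f = 0
    · rw [hf0]; simp
    · have := (Polynomial.natDegree_lt_iff_degree_lt hf0).mpr h1
      omega
  by_cases hd : f.natDegree ≤ 1
  · refine ⟨f.coeff 1, f.coeff 0, fun x => ?_⟩
    rw [← hf x]
    conv_lhs => rw [Polynomial.eq_X_add_C_of_natDegree_le_one hd]
    simp
  · exfalso
    push Not at hd
    set d := f.natDegree with hd'
    have hf0 : f ≠ 0 := by
      intro h
      rw [h] at hd'
      simp at hd'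
      omega
    set a := (p - 1) / d with ha
    set b := (p - 1) % d with hb
    have hab : a * d + b = p - 1 := by
      rw [ha, hb, mul_comm]
      exact Nat.div_add_mod _ _
    have hbd : b < d := Nat.mod_lt _ (by omega)
    have ha1 : 1 ≤ a := Nat.div_pos hdeg (by omega)
    have hsmall : 2 * (a + b) ≤ p - 1 := by
      rcases eq_or_lt_of_le (show 2 ≤ d from hd) with h2 | h3
      · have hb0 : b = 0 := by
          rw [← h2] at hab hbd
          omega
        rw [← h2] at hab
        omega
      · rcases eq_or_lt_of_le ha1 with h1 | h2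
        · rw [← h1] at hab
          omega
        · rw [← hab]
          nlinarith
    have hM := moments (fun x => σ x) U hU a b (by omega) (by omega)
    let g : (ZMod p)[X] := f ^ a * X ^ b
    have hg : g.natDegree = p - 1 := by
      simp only [g]
      rw [natDegree_mul (pow_ne_zero _ hf0) (pow_ne_zero _ X_ne_zero), natDegree_pow, natDegree_X_pow]
      exact hab
    have hsum := sum_eval_top g hg.le
    have h3 : ∑ x : ZMod p, g.eval x = ∑ x : ZMod p, σ x ^ a * x ^ b := by
      refine Finset.sum_congr rfl (fun x _ => ?_)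
      simp only [g, eval_mul, eval_pow, eval_X, hf]
    rw [h3, hM] at hsum
    have h4 : g.coeff (p - 1) = f.leadingCoeff ^ a := by
      rw [← hg]
      show g.leadingCoeff = _
      simp only [g]
      rw [leadingCoeff_mul, leadingCoeff_pow, leadingCoeff_X_pow, mul_one]
    rw [h4] at hsum
    have h5 : f.leadingCoeff ^ a ≠ 0 := pow_ne_zero _ (leadingCoeff_ne_zero.mpr hf0)
    apply h5
    have := hsum
    rw [eq_neg_iff_add_eq_zero, zero_add] at this
    exact this


/-- Closures of subgroups of the one-dimensional affine group. Let p be a prime and G a group of permutations of F_p lying in the affine group AGL₁(p) = {x ↦ ax + b, a ≠ 0} and containing all translations. (1) If G is a proper subgroup of AGL₁(p), then G is 2-closed: a permutation of F_p agreeing on every ordered pair of points with some element of G lies in G. (2) Every permutation of F_p agrees on every ordered pair with some element of AGL₁(p) (the 2-closure of AGL₁(p) is the symmetric group). (3) AGL₁(p) is 3-closed: a permutation agreeing on every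 ordered triple with some affine map is affine. -/
theorem result (p : ℕ) [Fact p.Prime] (G : Subgroup (Equiv.Perm (ZMod p))) (hG : G ≤ Cfsg.affineGroup (ZMod p))
    (htrans : ∀ b : ZMod p, ∃ g ∈ G, ∀ x, g x = x + b) :
    (G ≠ Cfsg.affineGroup (ZMod p) → ∀ σ : Equiv.Perm (ZMod p), (∀ t : Fin 2 → ZMod p, ∃ g ∈ G, ∀ i, σ (t i) = g (t i)) → σ ∈ G) ∧
    (∀ σ : Equiv.Perm (ZMod p), (∀ t : Fin 2 → ZMod p, ∃ g ∈ Cfsg.affineGroup (ZMod p), ∀ i, σ (t i) = g (t i))) ∧
    (∀ σ : Equiv.Perm (ZMod p), (∀ t : Fin 3 → ZMod p, ∃ g ∈ Cfsg.affineGroup (ZMod p), ∀ i, σ (t i) = g (t i)) → σ ∈ Cfsg.affineGroup (ZMod p)) := by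
  classical
  have hp := (Fact.out : p.Prime).two_le
  refine ⟨?_, ?_, ?_⟩
  · intro hne σ hσ
    -- the multiplier subgroup
    let φ : (ZMod p)ˣ →* Equiv.Perm (ZMod p) := MulAction.toPermHom (ZMod p)ˣ (ZMod p)
    have hφ : ∀ (u : (ZMod p)ˣ) (x : ZMod p), φ u x = (u : ZMod p) * x := fun u x => rfl
    let C' : Subgroup (ZMod p)ˣ := G.comap φ
    have hC' : C' ≠ ⊤ := by
      intro htop
      apply hne
      apply le_antisymm hG
      rintro τ ⟨a, b, hτ⟩
      have h1 : φ a ∈ G := by
        have : a ∈ C' := by rw [htop]; exact Subgroup.mem_top a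
        exact this
      obtain ⟨g, hg, hgb⟩ := htrans b
      have h2 : τ = g * φ a := by
        ext x
        simp only [Equiv.Perm.coe_mul, Function.comp_apply, hgb, hφ, hτ]
      rw [h2]
      exact G.mul_mem hg h1
    -- slopes
    have hslope : ∀ x y : ZMod p, x ≠ y → ∃ a ∈ C', σ x - σ y = (a : ZMod p) * (x - y) := by
      intro x y hxy
      obtain ⟨g, hg, hgt⟩ := hσ ![x, y]
      obtain ⟨a, b, hab⟩ := hG hg
      have h0 := hgt 0
      have h1 := hgt 1
      simp only [Matrix.cons_val_zero, Matrix.cons_val_one] at h0 h1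
      refine ⟨a, ?_, ?_⟩
      · show φ a ∈ G
        obtain ⟨g', hg', hg'b⟩ := htrans (-b)
        have h2 : φ a = g' * g := by
          ext z
          simp only [Equiv.Perm.coe_mul, Function.comp_apply, hg'b, hφ, hab]
          ring
        rw [h2]
        exact G.mul_mem hg' hg
      · rw [h0, h1, hab, hab]
        ring
    let U : Finset (ZMod p) := Finset.univ.filter fun u => ¬ ∃ a ∈ C', (a : ZMod p) = u
    have hU : ∀ u ∈ U, Function.Injective (fun x => σ x - u * x) := by
      intro u hu x y hxy
      by_contra hne'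
      obtain ⟨a, ha, hs⟩ := hslope x y hne'
      have hu' : ¬ ∃ a ∈ C', (a : ZMod p) = u := (Finset.mem_filter.mp hu).2
      apply hu'
      refine ⟨a, ha, ?_⟩
      have h1 : x - y ≠ 0 := sub_ne_zero.mpr hne'
      have h2 : (a : ZMod p) * (x - y) = u * (x - y) := by
        rw [← hs]
        simp only at hxy
        linear_combination hxy
      exact mul_right_cancel₀ h1 h2
    -- counting
    have hk : 2 * Nat.card C' ≤ p - 1 := by
      have h1 := Subgroup.card_mul_index C'
      rw [Nat.card_eq_fintype_card (α := (ZMod p)ˣ), ZMod.card_units] at h1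
      have h2 : C'.index ≠ 1 := fun h => hC' (Subgroup.index_eq_one.mp h)
      have h3 : C'.index ≠ 0 := Subgroup.index_ne_zero_of_finite
      have h4 : 2 ≤ C'.index := by omega
      nlinarith
    have hk1 : 1 ≤ Nat.card C' := Nat.card_pos
    have hcardU : Nat.card C' + U.card = p := by
      have h1 := Finset.card_filter_add_card_filter_not (s := (Finset.univ : Finset (ZMod p))) (fun u : ZMod p => ∃ a ∈ C', (a : ZMod p) = u)
      rw [Finset.card_univ, ZMod.card] at h1
      have h2 : (Finset.univ.filter fun u : ZMod p => ∃ a ∈ C', (a : ZMod p) = u).card = Nat.card C' := by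
        rw [Nat.card_eq_fintype_card, ← Finset.card_univ]
        symm
        apply Finset.card_bij (fun (a : C') _ => ((a : (ZMod p)ˣ) : ZMod p))
        · intro a _
          simp only [Finset.mem_filter, Finset.mem_univ, true_and]
          exact ⟨a, a.2, rfl⟩
        · intro a _ b _ h
          exact Subtype.ext (Units.ext h)
        · intro u hu
          simp only [Finset.mem_filter, Finset.mem_univ, true_and] at hu
          obtain ⟨a, ha, rfl⟩ := hu
          exact ⟨⟨a, ha⟩, Finset.mem_univ _, rfl⟩
      rw [h2] at h1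
      exact h1
    have hodd : p ≠ 2 := by
      intro h
      omega
    obtain ⟨a, b, hab⟩ := affine_of_moments hodd σ U hU (by omega)
    obtain ⟨g, hg, hgt⟩ := hσ ![0, 1]
    obtain ⟨a', b', hab'⟩ := hG hg
    have h0 := hgt 0
    have h1 := hgt 1
    simp only [Matrix.cons_val_zero, Matrix.cons_val_one] at h0 h1
    rw [hab, hab'] at h0 h1
    have hb : b = b' := by simpa using h0
    have ha : a = a' := by
      rw [hb] at h1
      simpa using h1
    have : σ = g := by
      ext x
      rw [hab, hab', ha, hb]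
    rw [this]
    exact hg
  · intro σ t
    by_cases h01 : t 0 = t 1
    · refine ⟨Equiv.addRight (σ (t 0) - t 0), ⟨1, σ (t 0) - t 0, fun x => ?_⟩, ?_⟩
      · simp
      · rw [Fin.forall_fin_two]
        constructor
        · simp
        · simp [← h01]
    · have h1 : t 0 - t 1 ≠ 0 := sub_ne_zero.mpr h01
      have h2 : σ (t 0) - σ (t 1) ≠ 0 := sub_ne_zero.mpr (fun h => h01 (σ.injective h))
      let a : ZMod p := (σ (t 0) - σ (t 1)) * (t 0 - t 1)⁻¹
      have ha : a ≠ 0 := mul_ne_zero h2 (inv_ne_zero h1)
      let u : (ZMod p)ˣ := Units.mk0 a ha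
      let b : ZMod p := σ (t 0) - a * t 0
      let τ : Equiv.Perm (ZMod p) := (Units.mulLeft u).trans (Equiv.addRight b)
      refine ⟨τ, ⟨u, b, fun x => ?_⟩, ?_⟩
      · rfl
      · have hτ : ∀ x, τ x = a * x + b := fun x => rfl
        have h3 : a * (t 0 - t 1) = σ (t 0) - σ (t 1) := by
          simp only [a]
          rw [mul_assoc, inv_mul_cancel₀ h1, mul_one]
        rw [Fin.forall_fin_two]
        constructor
        · simp [hτ, b]
        · rw [hτ]
          simp only [b]
          linear_combination h3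
  · intro σ hσ
    have h1 : ∀ c : ZMod p, σ c = (σ 1 - σ 0) * c + σ 0 := by
      intro c
      obtain ⟨g, hg, hgt⟩ := hσ ![0, 1, c]
      obtain ⟨a, b, hab⟩ := hg
      have h0 := hgt 0
      have h1 := hgt 1
      have h2 := hgt 2
      simp only [Matrix.cons_val_zero, Matrix.cons_val_one, Matrix.cons_val] at h0 h1 h2
      rw [h0, h1, h2, hab, hab, hab]
      ring
    have ha : σ 1 - σ 0 ≠ 0 := by
      rw [sub_ne_zero]
      intro h
      exact one_ne_zero (σ.injective h)
    exact ⟨Units.mk0 _ ha, σ 0, h1⟩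

end Cfsg.Agent.S3518
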