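import Cfsg.Statements.S3546
import Cfsg.Agent.Lib.Recog.PermBasic

set_option autoImplicit false
open Cfsg

namespace Cfsg.Agent.S3546

open MulAction Cfsg.Agent.Lib.Recog

lemma closure_normal {G Ω : Type*} [Group G] [MulAction G Ω] :
    (Subgroup.closure {g : G | ∀ ω : Ω, g • ω ≠ ω}).Normal := by
  constructor
  intro x hx g
  induction hx using Subgroup.closure_induction with
  | mem x hx =>
    apply Subgroup.subset_closure
    intro ω hω
    apply hx (g⁻¹ • ω)
    have : g • x • g⁻¹ • ω = ω := by
      simpa [mul_smul] using hω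
    calc x • g⁻¹ • ω = g⁻¹ • (g • x • g⁻¹ • ω) := by rw [inv_smul_smul]
      _ = g⁻¹ • ω := by rw [this]
  | one => simp
  | mul x y _ _ hx hy =>
    have : g * (x * y) * g⁻¹ = (g * x * g⁻¹) * (g * y * g⁻¹) := by group
    rw [this]
    exact Subgroup.mul_mem _ hx hy
  | inv x _ hx =>
    have : g * x⁻¹ * g⁻¹ = (g * x * g⁻¹)⁻¹ := by group
    rw [this]
    exact Subgroup.inv_mem _ hx

lemma isPretransitive_closure {G Ω : Type*} [Group G] [Finite G] [MulAction G Ω] [Finite Ω]
    (htrans : IsPretransitive G Ω) :
    IsPretransitive ↥(Subgroup.closure {g : G | ∀ ω : Ω, g • ω ≠ ω}) Ω := by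
  haveI := closure_normal (G := G) (Ω := Ω)
  exact isPretransitive_of_normal_of_derangements _ (fun g hg => Subgroup.subset_closure hg)

/-- An element outside the subgroup generated by the derangements fixes exactly one point. -/
lemma card_fixedBy_of_not_mem {G Ω : Type*} [Group G] [Finite G] [MulAction G Ω] [Finite Ω]
    [Nonempty Ω] (htrans : IsPretransitive G Ω) (g : G)
    (hg : g ∉ Subgroup.closure {g : G | ∀ ω : Ω, g • ω ≠ ω}) : Nat.card (fixedBy Ω g) = 1 := by
  haveI := isPretransitive_closure (G := G) (Ω := Ω) htrans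
  have h := card_fixedBy_eq_one_of_coset (Ω := Ω) (Subgroup.closure {g : G | ∀ ω : Ω, g • ω ≠ ω}) g (by
    intro d hd
    by_contra hc
    push Not at hc
    apply hg
    have h1 : g * d ∈ Subgroup.closure {g : G | ∀ ω : Ω, g • ω ≠ ω} := Subgroup.subset_closure hc
    have h2 : g = (g * d) * d⁻¹ := by group
    rw [h2]
    exact Subgroup.mul_mem _ h1 (Subgroup.inv_mem _ hd)) 1 (Subgroup.one_mem _)
  simpa using h


/-- Let G act faithfully and transitively on a finite set and let D be the subgroup of G generated by the derangements (the elements fixing no point). Then D is itself transitive, and D contains every element of G whose number of fixed points is different from 1. -/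
theorem result {G Ω : Type*} [Group G] [Finite G] [MulAction G Ω] [FaithfulSMul G Ω] [Finite Ω]
    (htrans : MulAction.IsPretransitive G Ω) :
    MulAction.IsPretransitive ↥(Subgroup.closure {g : G | ∀ ω : Ω, g • ω ≠ ω}) Ω ∧
    ∀ g : G, Nat.card (MulAction.fixedBy Ω g) ≠ 1 → g ∈ Subgroup.closure {g : G | ∀ ω : Ω, g • ω ≠ ω} := by
  refine ⟨isPretransitive_closure htrans, ?_⟩
  intro g hg
  rcases isEmpty_or_nonempty Ω with hΩ | hΩ
  · have : g = 1 := by
      apply FaithfulSMul.eq_of_smul_eq_smul (α := Ω)
      intro ω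
      exact (hΩ.false ω).elim
    rw [this]
    exact Subgroup.one_mem _
  · by_contra hc
    exact hg (card_fixedBy_of_not_mem htrans g hc)

end Cfsg.Agent.S3546
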