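import Cfsg.Statements.S3547
import Cfsg.Agent.S3546

set_option autoImplicit false
open Cfsg

namespace Cfsg.Agent.S3547

open MulAction

lemma card_fixedBy_prod {G Ω : Type*} [Group G] [MulAction G Ω] (g : G) :
    Nat.card (fixedBy (Ω × Ω) g) = Nat.card (fixedBy Ω g) * Nat.card (fixedBy Ω g) := by
  rw [← Nat.card_prod]
  apply Nat.card_congr
  exact
    { toFun := fun x => (⟨x.1.1, congrArg Prod.fst x.2⟩, ⟨x.1.2, congrArg Prod.snd x.2⟩)
      invFun := fun y => ⟨(y.1.1, y.2.1), Prod.ext y.1.2 y.2.2⟩
      left_inv := fun x => rfl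
      right_inv := fun y => rfl }

lemma burnside_pairs {G Ω : Type*} [Group G] [Fintype G] [MulAction G Ω] [Finite Ω] :
    ∑ g : G, Nat.card (fixedBy Ω g) * Nat.card (fixedBy Ω g) =
      Nat.card (orbitRel.Quotient G (Ω × Ω)) * Fintype.card G := by
  classical
  letI := Fintype.ofFinite Ω
  have h := MulAction.sum_card_fixedBy_eq_card_orbits_mul_card_group G (Ω × Ω)
  simp_rw [← card_fixedBy_prod]
  simpa [Nat.card_eq_fintype_card] using h


/-- Let G act faithfully and transitively on a finite set Ω, let D be the subgroup generated by the derangements, and let r_G and r_D be the numbers of orbits of G and of D on ordered pairs of points (the permutation ranks). Then r_D − 1 = (r_G − 1)·[G : D]. -/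
theorem result {G Ω : Type*} [Group G] [Finite G] [MulAction G Ω] [FaithfulSMul G Ω] [Finite Ω]
    (htrans : MulAction.IsPretransitive G Ω) :
    Nat.card (MulAction.orbitRel.Quotient ↥(Subgroup.closure {g : G | ∀ ω : Ω, g • ω ≠ ω}) (Ω × Ω)) - 1 =
      (Nat.card (MulAction.orbitRel.Quotient G (Ω × Ω)) - 1) * (Subgroup.closure {g : G | ∀ ω : Ω, g • ω ≠ ω}).index := by
  classical
  rcases isEmpty_or_nonempty Ω with hΩ | hΩ
  · have h1 : Nat.card (orbitRel.Quotient G (Ω × Ω)) = 0 := by
      have : IsEmpty (orbitRel.Quotient G (Ω × Ω)) := by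
        constructor
        intro x
        induction x using Quotient.inductionOn with | _ a => exact hΩ.false a.1
      exact Nat.card_of_isEmpty
    have h2 : Nat.card (orbitRel.Quotient ↥(Subgroup.closure {g : G | ∀ ω : Ω, g • ω ≠ ω}) (Ω × Ω)) = 0 := by
      have : IsEmpty (orbitRel.Quotient ↥(Subgroup.closure {g : G | ∀ ω : Ω, g • ω ≠ ω}) (Ω × Ω)) := by
        constructor
        intro x
        induction x using Quotient.inductionOn with | _ a => exact hΩ.false a.1
      exact Nat.card_of_isEmpty
    rw [h1, h2]; simp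
  · set D := Subgroup.closure {g : G | ∀ ω : Ω, g • ω ≠ ω} with hD
    letI := Fintype.ofFinite G
    letI := Fintype.ofFinite D
    have hG := burnside_pairs (G := G) (Ω := Ω)
    have hDb := burnside_pairs (G := D) (Ω := Ω)
    set rG := Nat.card (orbitRel.Quotient G (Ω × Ω))
    set rD := Nat.card (orbitRel.Quotient D (Ω × Ω))
    -- split the sum over G
    have hsplit : ∑ g : G, Nat.card (fixedBy Ω g) * Nat.card (fixedBy Ω g) =
        ∑ d : D, Nat.card (fixedBy Ω d) * Nat.card (fixedBy Ω d) + (Fintype.card G - Fintype.card D) := by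
      have h1 : ∑ g : G, Nat.card (fixedBy Ω g) * Nat.card (fixedBy Ω g) =
          ∑ g ∈ Finset.univ.filter (· ∈ D), Nat.card (fixedBy Ω g) * Nat.card (fixedBy Ω g) +
          ∑ g ∈ Finset.univ.filter (· ∉ D), Nat.card (fixedBy Ω g) * Nat.card (fixedBy Ω g) :=
        (Finset.sum_filter_add_sum_filter_not _ _ _).symm
      have h2 : ∑ g ∈ Finset.univ.filter (· ∈ D), Nat.card (fixedBy Ω g) * Nat.card (fixedBy Ω g) =
          ∑ d : D, Nat.card (fixedBy Ω d) * Nat.card (fixedBy Ω d) := by
        symm
        apply Finset.sum_bij (fun (d : D) _ => (d : G))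
        · intro d _; simp
        · intro a _ b _ h; exact Subtype.ext h
        · intro b hb
          simp only [Finset.mem_filter, Finset.mem_univ, true_and] at hb
          exact ⟨⟨b, hb⟩, Finset.mem_univ _, rfl⟩
        · intro d _
          have : Nat.card (fixedBy Ω d) = Nat.card (fixedBy Ω (d : G)) := rfl
          rw [this]
      have h3 : ∑ g ∈ Finset.univ.filter (· ∉ D), Nat.card (fixedBy Ω g) * Nat.card (fixedBy Ω g) =
          Fintype.card G - Fintype.card D := by
        have h4 : ∀ g ∈ Finset.univ.filter (· ∉ D), Nat.card (fixedBy Ω g) * Nat.card (fixedBy Ω g) = 1 := by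
          intro g hg
          simp only [Finset.mem_filter, Finset.mem_univ, true_and] at hg
          rw [Cfsg.Agent.S3546.card_fixedBy_of_not_mem htrans g hg]
        rw [Finset.sum_congr rfl h4, Finset.sum_const, smul_eq_mul, mul_one]
        have h5 : (Finset.univ.filter (· ∉ D)).card + (Finset.univ.filter (· ∈ D)).card = Fintype.card G := by
          rw [add_comm]
          exact Finset.card_filter_add_card_filter_not _
        have h6 : (Finset.univ.filter (· ∈ D)).card = Fintype.card D := by
          rw [Fintype.card_subtype]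
        omega
      rw [h1, h2, h3]
    have hcard : Fintype.card G = D.index * Fintype.card D := by
      have := D.card_mul_index
      rw [Nat.card_eq_fintype_card, Nat.card_eq_fintype_card] at this
      rw [← this, mul_comm]
    have hposD : 0 < Fintype.card D := Fintype.card_pos
    have hrG : 1 ≤ rG := by
      have : Nonempty (orbitRel.Quotient G (Ω × Ω)) := ⟨Quotient.mk _ (Classical.arbitrary _)⟩
      exact Nat.succ_le_of_lt Nat.card_pos
    have hrD : 1 ≤ rD := by
      have : Nonempty (orbitRel.Quotient D (Ω × Ω)) := ⟨Quotient.mk _ (Classical.arbitrary _)⟩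
      exact Nat.succ_le_of_lt Nat.card_pos
    have hle : Fintype.card D ≤ Fintype.card G := by
      rw [hcard]
      exact Nat.le_mul_of_pos_left _ (Nat.pos_of_ne_zero (Subgroup.index_ne_zero_of_finite))
    have key : rG * Fintype.card G = rD * Fintype.card D + (Fintype.card G - Fintype.card D) := by
      rw [← hG, ← hDb, hsplit]
    -- conclude
    have h7 : (rD - 1) * Fintype.card D = (rG - 1) * D.index * Fintype.card D := by
      clear_value rG rD
      obtain ⟨a, rfl⟩ : ∃ a, rG = a + 1 := ⟨rG - 1, by omega⟩
      obtain ⟨b, rfl⟩ : ∃ b, rD = b + 1 := ⟨rD - 1, by omega⟩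
      simp only [Nat.add_sub_cancel]
      have h8 : (a + 1) * Fintype.card G = a * Fintype.card G + Fintype.card G := by ring
      have h9 : (b + 1) * Fintype.card D = b * Fintype.card D + Fintype.card D := by ring
      rw [h8, h9] at key
      have h10 : a * Fintype.card G = b * Fintype.card D := by omega
      rw [mul_assoc, ← hcard, h10]
    exact Nat.eq_of_mul_eq_mul_right hposD h7

end Cfsg.Agent.S3547
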