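import Cfsg.Statements.S3548
import Cfsg.Agent.Lib.Recog.Deranged
import Cfsg.Agent.S3546

set_option autoImplicit false
open Cfsg

namespace Cfsg.Agent.S3548

open MulAction Cfsg.Agent.Lib.Recog



/-- Let G act faithfully and transitively on a finite set with n ≥ 2 points and let D be the subgroup generated by the derangements. Then the index of D in G divides n − 1, and if it equals n − 1 then n is a prime power. -/
theorem result {G Ω : Type*} [Group G] [Finite G] [MulAction G Ω] [FaithfulSMul G Ω] [Finite Ω]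
    (htrans : MulAction.IsPretransitive G Ω) (hΩ : 2 ≤ Nat.card Ω) :
    (Subgroup.closure {g : G | ∀ ω : Ω, g • ω ≠ ω}).index ∣ Nat.card Ω - 1 ∧
    ((Subgroup.closure {g : G | ∀ ω : Ω, g • ω ≠ ω}).index = Nat.card Ω - 1 → IsPrimePow (Nat.card Ω)) := by
  classical
  haveI := Cfsg.Agent.S3546.closure_normal (G := G) (Ω := Ω)
  haveI := Cfsg.Agent.S3546.isPretransitive_closure (G := G) (Ω := Ω) htrans
  have hfix : ∀ g : G, ∀ b c : Ω, b ≠ c → g • b = b → g • c = c →
      g ∈ Subgroup.closure {g : G | ∀ ω : Ω, g • ω ≠ ω} := by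
    intro g b c hbc hb hc
    apply (Cfsg.Agent.S3546.result htrans).2
    intro h
    have h1 : Nat.card (fixedBy Ω g) = 1 := h
    rw [Nat.card_eq_one_iff_unique] at h1
    have := h1.1.elim ⟨b, hb⟩ ⟨c, hc⟩
    exact hbc (congrArg Subtype.val this)
  exact ⟨index_dvd_card_sub_one _ hfix, isPrimePow_of_index_eq _ hfix hΩ⟩

end Cfsg.Agent.S3548
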