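import Cfsg.Statements.S3549
import Cfsg.Agent.Lib.Recog.Deranged
import Cfsg.Agent.S3546

set_option autoImplicit false
open Cfsg

namespace Cfsg.Agent.S3549

open MulAction Cfsg.Agent.Lib.Recog
open scoped Pointwise

lemma index_dvd_of_fixed {G X : Type*} [Group G] [Finite G] [MulAction G X] [Finite X] [Nonempty X]
    (D : Subgroup G) [D.Normal] (htr : ∀ x y : X, ∃ d ∈ D, d • x = y)
    (hfp : ∀ g : G, g ∉ D → ∃ x : X, g • x = x) : D.index ∣ Nat.card X - 1 := by
  haveI : IsPretransitive D X := by
    constructor
    intro x y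
    obtain ⟨d, hd, h⟩ := htr x y
    exact ⟨⟨d, hd⟩, h⟩
  have hone : ∀ g : G, g ∉ D → Nat.card (fixedBy X g) = 1 := by
    intro g hg
    have h1 := card_fixedBy_eq_one_of_coset (Ω := X) D g (by
      intro d hd
      apply hfp
      intro h
      apply hg
      have h2 : g = (g * d) * d⁻¹ := by group
      rw [h2]
      exact D.mul_mem h (D.inv_mem hd)) 1 (Subgroup.one_mem _)
    simpa using h1
  apply index_dvd_card_sub_one (G := G) (Ω := X) D
  intro g b c hbc hb hc
  by_contra hg
  have h1 := hone g hg
  rw [Nat.card_eq_one_iff_unique] at h1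
  have := h1.1.elim ⟨b, hb⟩ ⟨c, hc⟩
  exact hbc (congrArg Subtype.val this)



/-- Let G act faithfully, transitively but imprimitively on a finite set with n points, and let D be the subgroup generated by the derangements. Then the index of D in G is at most √n − 1. -/
theorem result {G Ω : Type*} [Group G] [Finite G] [MulAction G Ω] [FaithfulSMul G Ω] [Finite Ω]
    (htrans : MulAction.IsPretransitive G Ω) (himp : ¬ MulAction.IsPreprimitive G Ω) :
    ((Subgroup.closure {g : G | ∀ ω : Ω, g • ω ≠ ω}).index : ℝ) ≤ Real.sqrt (Nat.card Ω) - 1 := by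
  classical
  haveI hDn := Cfsg.Agent.S3546.closure_normal (G := G) (Ω := Ω)
  haveI hDt := Cfsg.Agent.S3546.isPretransitive_closure (G := G) (Ω := Ω) htrans
  set D := Subgroup.closure {g : G | ∀ ω : Ω, g • ω ≠ ω} with hD
  have hfix : ∀ g : G, ∀ b c : Ω, b ≠ c → g • b = b → g • c = c → g ∈ D := by
    intro g b c hbc hb hc
    apply (Cfsg.Agent.S3546.result htrans).2
    intro h
    have h1 : Nat.card (fixedBy Ω g) = 1 := h
    rw [Nat.card_eq_one_iff_unique] at h1
    have := h1.1.elim ⟨b, hb⟩ ⟨c, hc⟩
    exact hbc (congrArg Subtype.val this)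
  -- get a nontrivial block
  have hblock : ∃ B : Set Ω, IsBlock G B ∧ ¬ IsTrivialBlock B := by
    by_contra hc
    push Not at hc
    exact himp { toIsPretransitive := htrans, isTrivialBlock_of_isBlock := fun {B} hB => hc B hB }
  obtain ⟨B, hB, hBt⟩ := hblock
  have hBns : ¬ B.Subsingleton := fun h => hBt (Or.inl h)
  have hBnu : B ≠ Set.univ := fun h => hBt (Or.inr h)
  obtain ⟨a, ha, a', ha', haa'⟩ : ∃ a ∈ B, ∃ a' ∈ B, a ≠ a' := by
    rw [Set.not_subsingleton_iff] at hBns
    exact hBns
  have hBne : B.Nonempty := ⟨a, ha⟩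
  let S : Subgroup G := stabilizer G B
  have hmul := hB.ncard_block_mul_ncard_orbit_eq hBne
  have hSi : S.index = (orbit G B).ncard := index_stabilizer G B
  -- block rule
  have hblk : ∀ (g : G) (x : Ω), x ∈ B → g • x ∈ B → g ∈ S := by
    intro g x hx hgx
    show g • B = B
    have := (isBlock_iff_smul_eq_of_nonempty.mp hB) (g := g)
    exact this ⟨g • x, Set.smul_mem_smul_set hx, hgx⟩
  have hSact : ∀ (g : S) (x : Ω), x ∈ B → (g : G) • x ∈ B := by
    intro g x hx
    have : (g : G) • B = B := g.2
    rw [← this]
    exact Set.smul_mem_smul_set hx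
  -- the index equals
  have hsup : D ⊔ S = ⊤ := by
    rw [eq_top_iff]
    have h1 := sup_stabilizer_eq_top (Ω := Ω) D a
    rw [← h1]
    refine sup_le_sup le_rfl ?_
    exact hB.stabilizer_le ha
  have hrel : D.relIndex S = D.index := by
    have h1 := Subgroup.relIndex_sup_left S D
    rw [hsup, Subgroup.relIndex_top_right] at h1
    exact h1.symm
  -- first divisibility: action of `S` on `B`
  let B' : SubMulAction S Ω :=
    { carrier := B
      smul_mem' := fun g x hx => hSact g x hx }
  have hcardB' : Nat.card B' = B.ncard := rfl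
  have hdiv1 : D.index ∣ B.ncard - 1 := by
    haveI hN : (D.subgroupOf S).Normal := Subgroup.Normal.subgroupOf hDn S
    haveI : IsPretransitive (D.subgroupOf S) B' := by
      constructor
      rintro ⟨x, hx⟩ ⟨y, hy⟩
      obtain ⟨d, hd⟩ := hDt.exists_smul_eq x y
      have hdS : (d : G) ∈ S := by
        apply hblk (d : G) x hx
        have : (d : G) • x = y := hd
        rw [this]
        exact hy
      refine ⟨⟨⟨d, hdS⟩, ?_⟩, ?_⟩
      · rw [Subgroup.mem_subgroupOf]
        exact d.2
      · apply Subtype.ext
        exact hd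
    have := index_dvd_card_sub_one (G := S) (Ω := B') (D.subgroupOf S) (by
      intro g b c hbc hb hc
      rw [Subgroup.mem_subgroupOf]
      apply hfix (g : G) b c
      · intro h
        exact hbc (Subtype.ext h)
      · exact congrArg Subtype.val hb
      · exact congrArg Subtype.val hc)
    have h3 : (D.subgroupOf S).index = D.index := hrel
    rw [h3, hcardB'] at this
    exact this
  -- second divisibility: action on cosets
  have hdiv2 : D.index ∣ S.index - 1 := by
    haveI : Finite (G ⧸ S) := inferInstance
    haveI : Nonempty (G ⧸ S) := inferInstance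
    apply index_dvd_of_fixed (G := G) (X := G ⧸ S) D
    · intro x y
      induction x using QuotientGroup.induction_on with | _ x => ?_
      induction y using QuotientGroup.induction_on with | _ y => ?_
      obtain ⟨d, hd⟩ := hDt.exists_smul_eq (x • a) (y • a)
      refine ⟨d, d.2, ?_⟩
      have hd' : ((d : G) * x) • a = y • a := by rw [mul_smul]; exact hd
      rw [MulAction.Quotient.smul_mk]
      rw [smul_eq_mul, QuotientGroup.eq]
      apply hblk _ a ha
      rw [mul_smul, ← hd', inv_smul_smul]
      exact ha
    · intro g hg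
      have h3 : ∃ ω : Ω, g • ω = ω := by
        by_contra hc
        push Not at hc
        exact hg (Subgroup.subset_closure hc)
      obtain ⟨ω, hω⟩ := h3
      obtain ⟨x, hx⟩ := htrans.exists_smul_eq a ω
      refine ⟨(x : G ⧸ S), ?_⟩
      rw [MulAction.Quotient.smul_mk, smul_eq_mul, QuotientGroup.eq]
      apply hblk _ a ha
      have : ((g * x)⁻¹ * x) • a = a := by
        rw [mul_smul, hx, inv_smul_eq_iff, mul_smul, hx, hω]
      rw [this]
      exact ha
  -- numerics
  have hb2 : 2 ≤ B.ncard := by
    have : ({a, a'} : Set Ω) ⊆ B := by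
      intro x hx
      rcases hx with rfl | rfl
      · exact ha
      · exact ha'
    have h2 := Set.ncard_le_ncard this (Set.toFinite B)
    rw [Set.ncard_pair haa'] at h2
    exact h2
  have hc2 : 2 ≤ S.index := by
    have h1 : S.index ≠ 1 := by
      intro h
      rw [Subgroup.index_eq_one] at h
      apply hBnu
      ext x
      simp only [Set.mem_univ, iff_true]
      obtain ⟨g, hg⟩ := htrans.exists_smul_eq a x
      have hgS : g ∈ S := by rw [h]; exact Subgroup.mem_top g
      have : g • B = B := hgS
      rw [← this, ← hg]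
      exact Set.smul_mem_smul_set ha
    have h2 : S.index ≠ 0 := Subgroup.index_ne_zero_of_finite
    omega
  have hm1 : D.index + 1 ≤ B.ncard := by
    have := Nat.le_of_dvd (by omega) hdiv1
    omega
  have hm2 : D.index + 1 ≤ S.index := by
    have := Nat.le_of_dvd (by omega) hdiv2
    omega
  have hn : Nat.card Ω = B.ncard * S.index := by rw [hSi, hmul]
  have hfinal : (D.index + 1) * (D.index + 1) ≤ Nat.card Ω := by
    rw [hn]
    exact Nat.mul_le_mul hm1 hm2
  have h1 : ((D.index : ℝ) + 1) ≤ Real.sqrt (Nat.card Ω) := by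
    apply Real.le_sqrt_of_sq_le
    have : (((D.index + 1) * (D.index + 1) : ℕ) : ℝ) ≤ (Nat.card Ω : ℝ) := by
      exact_mod_cast hfinal
    push_cast at this
    nlinarith
  linarith

end Cfsg.Agent.S3549
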