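import Cfsg.Statements.S3560
import Mathlib

set_option autoImplicit false
open Cfsg

namespace Cfsg.Agent.S3560

open MulAction Equiv
open scoped Pointwise

section ham

variable {ι X : Type*} [Fintype ι] [DecidableEq ι] [DecidableEq X]

/-- Hamming isometries. -/
def hamG (ι X : Type*) [Fintype ι] [DecidableEq X] : Subgroup (Perm (ι → X)) where
  carrier := {g | ∀ u v, hammingDist (g u) (g v) = hammingDist u v}
  mul_mem' := by
    intro a b ha hb u v
    show hammingDist (a (b u)) (a (b v)) = _
    rw [ha, hb]
  one_mem' := fun _ _ => rfl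
  inv_mem' := by
    intro a ha u v
    have := ha (a⁻¹ u) (a⁻¹ v)
    simpa using this.symm

/-- Coordinatewise permutations. -/
def coord (σ : ι → Perm X) : Perm (ι → X) where
  toFun u i := σ i (u i)
  invFun u i := (σ i).symm (u i)
  left_inv u := by
    funext i
    simp
  right_inv u := by
    funext i
    simp

omit [Fintype ι] [DecidableEq ι] [DecidableEq X] in
@[simp] lemma coord_apply (σ : ι → Perm X) (u : ι → X) (i : ι) : coord σ u i = σ i (u i) := rfl

omit [DecidableEq ι] in
lemma coord_mem (σ : ι → Perm X) : coord σ ∈ hamG ι X := by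
  intro u v
  unfold hammingDist
  congr 1
  ext i
  simp

/-- Permuting the coordinates. -/
def swapC (π : Perm ι) : Perm (ι → X) where
  toFun u i := u (π⁻¹ i)
  invFun u i := u (π i)
  left_inv u := by
    funext i
    simp
  right_inv u := by
    funext i
    simp

omit [Fintype ι] [DecidableEq ι] [DecidableEq X] in
@[simp] lemma swapC_apply (π : Perm ι) (u : ι → X) (i : ι) : swapC π u i = u (π⁻¹ i) := rfl

omit [DecidableEq ι] in
lemma swapC_mem (π : Perm ι) : swapC π ∈ hamG ι X := by
  intro u v
  classical
  unfold hammingDist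
  apply Finset.card_bij (fun i _ => π⁻¹ i)
  · intro i hi
    have h1 := (Finset.mem_filter.mp hi).2
    exact Finset.mem_filter.mpr ⟨Finset.mem_univ _, h1⟩
  · intro a _ b _ hab
    exact π⁻¹.injective hab
  · intro b hb
    refine ⟨π b, ?_, by simp⟩
    have h1 := (Finset.mem_filter.mp hb).2
    refine Finset.mem_filter.mpr ⟨Finset.mem_univ _, ?_⟩
    show u (π⁻¹ (π b)) ≠ v (π⁻¹ (π b))
    simpa using h1

lemma dist_update (u : ι → X) (i : ι) (a : X) (h : u i ≠ a) : hammingDist u (Function.update u i a) = 1 := by
  unfold hammingDist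
  rw [Finset.card_eq_one]
  refine ⟨i, ?_⟩
  ext j
  simp only [Finset.mem_filter, Finset.mem_univ, true_and, Finset.mem_singleton]
  constructor
  · intro hj
    by_contra hne
    apply hj
    rw [Function.update_of_ne hne]
  · rintro rfl
    rw [Function.update_self]
    exact h

lemma dist_erase (u o : ι → X) (i : ι) (h : u i ≠ o i) :
    hammingDist (Function.update u i (o i)) o + 1 = hammingDist u o := by
  unfold hammingDist
  have : (Finset.univ.filter fun j => Function.update u i (o i) j ≠ o j) =
      (Finset.univ.filter fun j => u j ≠ o j).erase i := by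
    ext j
    simp only [Finset.mem_filter, Finset.mem_univ, true_and, Finset.mem_erase]
    constructor
    · intro hj
      have hne : j ≠ i := by
        rintro rfl
        apply hj
        rw [Function.update_self]
      refine ⟨hne, ?_⟩
      rwa [Function.update_of_ne hne] at hj
    · rintro ⟨hne, hj⟩
      rwa [Function.update_of_ne hne]
  rw [this, Finset.card_erase_of_mem (by simpa using h)]
  have hpos : 0 < (Finset.univ.filter fun j => u j ≠ o j).card :=
    Finset.card_pos.mpr ⟨i, by simpa using h⟩
  omega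

lemma single_of_dist (w o : ι → X) (h : hammingDist w o = 1) : ∃ i, w i ≠ o i ∧ w = Function.update o i (w i) := by
  unfold hammingDist at h
  obtain ⟨i, hi⟩ := Finset.card_eq_one.mp h
  have h1 : ∀ j, w j ≠ o j ↔ j = i := by
    intro j
    have := Finset.ext_iff.mp hi j
    simpa using this
  refine ⟨i, (h1 i).mpr rfl, ?_⟩
  funext j
  by_cases hj : j = i
  · subst hj
    rw [Function.update_self]
  · rw [Function.update_of_ne hj]
    by_contra hc
    exact hj ((h1 j).mp hc)

/-- Primitivity of the Hamming isometry group. -/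
theorem prim_ham (x₀ : X) (hX : ∀ a b : X, ∃ c, c ≠ a ∧ c ≠ b) : IsPreprimitive (hamG ι X) (ι → X) := by
  have hsmul : ∀ (g : hamG ι X) (u : ι → X), g • u = (g : Perm (ι → X)) u := fun _ _ => rfl
  haveI htr : IsPretransitive (hamG ι X) (ι → X) := by
    constructor
    intro u v
    refine ⟨⟨coord (fun i => swap (u i) (v i)), coord_mem _⟩, ?_⟩
    funext i
    show swap (u i) (v i) (u i) = v i
    simp
  set o : ι → X := fun _ => x₀ with ho
  apply IsPreprimitive.of_isTrivialBlock_base o
  intro B hoB hB
  by_cases hsub : B.Subsingleton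
  · left
    exact hsub
  right
  have hst : ∀ (g : Perm (ι → X)) (_ : g ∈ hamG ι X) (p : ι → X), p ∈ B → g p ∈ B → ∀ w, g w ∈ B ↔ w ∈ B := by
    intro g hg p hp hgp w
    have h1 : ((⟨g, hg⟩ : hamG ι X) • B) = B := by
      apply isBlock_iff_smul_eq_of_nonempty.mp hB
      exact ⟨g p, Set.smul_mem_smul_set (a := (⟨g, hg⟩ : hamG ι X)) hp, hgp⟩
    constructor
    · intro hw
      rw [← h1] at hw
      have : (⟨g, hg⟩ : hamG ι X) • w ∈ (⟨g, hg⟩ : hamG ι X) • B := hw
      exact (Set.smul_mem_smul_set_iff).mp this
    · intro hw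
      rw [← h1]
      exact Set.smul_mem_smul_set (a := (⟨g, hg⟩ : hamG ι X)) hw
  obtain ⟨v, hvB, hvo⟩ : ∃ v ∈ B, v ≠ o := by
    rw [Set.not_subsingleton_iff] at hsub
    obtain ⟨a, ha, b, hb, hab⟩ := hsub
    by_cases h : a = o
    · exact ⟨b, hb, fun h' => hab (h.trans h'.symm)⟩
    · exact ⟨a, ha, h⟩
  -- step 1: a vector of weight one
  have hstep1 : ∃ w ∈ B, hammingDist w o = 1 := by
    obtain ⟨i, hi⟩ : ∃ i, v i ≠ x₀ := by
      by_contra hc
      push Not at hc
      exact hvo (funext hc)
    obtain ⟨b, hb1, hb2⟩ := hX (v i) x₀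
    let s : ι → Perm X := Function.update (fun _ => 1) i (swap (v i) b)
    have hgo : coord s o = o := by
      funext j
      show s j x₀ = x₀
      by_cases hj : j = i
      · subst hj
        simp only [s, Function.update_self]
        exact swap_apply_of_ne_of_ne (Ne.symm hi) (Ne.symm hb2)
      · simp only [s, Function.update_of_ne hj]
        rfl
    have hgv : coord s v = Function.update v i b := by
      funext j
      show s j (v j) = _
      by_cases hj : j = i
      · subst hj
        simp [s]
      · simp only [s, Function.update_of_ne hj]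
        rfl
    have hv' : coord s v ∈ B := (hst _ (coord_mem s) o hoB (by rw [hgo]; exact hoB) v).mpr hvB
    let t := coord (fun j => swap (v j) x₀)
    have htv : t v = o := by
      funext j
      show swap (v j) x₀ (v j) = x₀
      simp
    have htv' : t (coord s v) ∈ B := (hst t (coord_mem _) v hvB (by rw [htv]; exact hoB) _).mpr hv'
    refine ⟨_, htv', ?_⟩
    have h1 : hammingDist (t (coord s v)) (t v) = hammingDist (coord s v) v := coord_mem _ _ _
    rw [htv] at h1
    rw [h1, hgv, hammingDist_comm]
    exact dist_update v i b (Ne.symm hb1)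
  obtain ⟨w, hwB, hw1⟩ := hstep1
  -- step 2: all the vectors of weight one
  have hstep2 : ∀ w', hammingDist w' o = 1 → w' ∈ B := by
    intro w' hw'
    obtain ⟨i₁, hc1, hw⟩ := single_of_dist w o hw1
    obtain ⟨i₂, hc2, hw2⟩ := single_of_dist w' o hw'
    set c := w i₁ with hc
    set c' := w' i₂ with hc'
    let h : Perm (ι → X) := coord (fun _ => swap c c') * swapC (swap i₁ i₂)
    have hh : h ∈ hamG ι X := (hamG ι X).mul_mem (coord_mem _) (swapC_mem _)
    have hho : h o = o := by
      funext j
      show swap c c' x₀ = x₀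
      exact swap_apply_of_ne_of_ne (Ne.symm hc1) (Ne.symm hc2)
    have hhw : h w = w' := by
      funext j
      show swap c c' (w ((swap i₁ i₂)⁻¹ j)) = w' j
      rw [hw, hw2, swap_inv]
      by_cases hj : j = i₂
      · subst hj
        simp
      · have hj' : swap i₁ i₂ j ≠ i₁ := by
          intro h3
          apply hj
          have := congrArg (swap i₁ i₂) h3
          simpa using this
        rw [Function.update_of_ne hj', Function.update_of_ne hj]
        exact swap_apply_of_ne_of_ne (Ne.symm hc1) (Ne.symm hc2)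
    have := (hst h hh o hoB (by rw [hho]; exact hoB) w).mpr hwB
    rwa [hhw] at this
  -- step 3: everything
  have hstep3 : ∀ (k : ℕ) (u : ι → X), hammingDist u o = k → u ∈ B := by
    intro k
    induction k with
    | zero =>
      intro u hu
      rw [hammingDist_eq_zero] at hu
      rw [hu]
      exact hoB
    | succ k ih =>
      intro u hu
      obtain ⟨i, hi⟩ : ∃ i, u i ≠ o i := by
        by_contra hc
        push Not at hc
        have : u = o := funext hc
        rw [this, hammingDist_self] at hu
        omega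
      have h1 := dist_erase u o i hi
      have hu'B := ih (Function.update u i (o i)) (by omega)
      set u' := Function.update u i (o i) with hu'
      let t := coord (fun j => swap (u' j) x₀)
      have htu' : t u' = o := by
        funext j
        show swap (u' j) x₀ (u' j) = x₀
        simp
      have h2 : hammingDist (t u) (t u') = hammingDist u u' := coord_mem _ _ _
      rw [htu', hu'] at h2
      rw [dist_update u i (o i) hi] at h2
      have h3 := hstep2 _ h2
      exact (hst t (coord_mem _) u' hu'B (by rw [htu']; exact hoB) u).mp h3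
  ext u
  simp only [Set.mem_univ, iff_true]
  exact hstep3 _ u rfl

/-- The Hamming graph is not homogeneous under its isometries. -/
theorem not_two_ham (x₀ c : X) (hc : c ≠ x₀) {i₁ i₂ : ι} (hi : i₁ ≠ i₂) :
    ¬ ∀ a b c d : ι → X, a ≠ b → c ≠ d → ∃ g ∈ hamG ι X, g a = c ∧ g b = d := by
  intro h
  set o : ι → X := fun _ => x₀ with ho
  set a := Function.update o i₁ c with ha
  set b := Function.update a i₂ c with hb
  have hoa : hammingDist o a = 1 := dist_update o i₁ c (Ne.symm hc)
  have hao : o ≠ a := by
    intro h'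
    rw [← h', hammingDist_self] at hoa
    omega
  have hab1 : a i₂ = x₀ := by
    rw [ha, Function.update_of_ne (Ne.symm hi)]
  have hob : o ≠ b := by
    intro h'
    have := congrFun h' i₂
    rw [hb, Function.update_self] at this
    exact hc this.symm
  obtain ⟨g, hg, hg1, hg2⟩ := h o a o b hao hob
  have h1 := hg o a
  rw [hg1, hg2, hoa] at h1
  have h2 : hammingDist o b = 2 := by
    have h3 := dist_erase b o i₂ (by
      rw [hb, Function.update_self]
      exact hc)
    have h4 : Function.update b i₂ (o i₂) = a := by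
      funext j
      by_cases hj : j = i₂
      · subst hj
        rw [Function.update_self, hab1]
      · rw [Function.update_of_ne hj, hb, Function.update_of_ne hj]
    rw [h4, hammingDist_comm a o, hoa] at h3
    rw [hammingDist_comm]
    omega
  omega

end ham

/-- Transfer to `Fin n`. -/
theorem transfer_fin {Ω K : Type*} [Fintype Ω] [Group K] (G : Subgroup (Perm Ω)) (ρ : K →* Perm Ω)
    (hρ : Function.Injective ρ) (hRG : ρ.range ≤ G)
    (htr : ∀ a b : Ω, ∃ x : K, ρ x a = b) (hsr : ∀ (x : K) (a : Ω), ρ x a = a → x = 1)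
    (hprim : IsPreprimitive G Ω)
    (hnot : ¬ ∀ a b c d : Ω, a ≠ b → c ≠ d → ∃ g ∈ G, g a = c ∧ g b = d) :
    ∃ (n : ℕ) (G R : Subgroup (Equiv.Perm (Fin n))), R ≤ G ∧ Nonempty (↥R ≃* K) ∧
      MulAction.IsPretransitive ↥R (Fin n) ∧ (∀ a : Fin n, MulAction.stabilizer ↥R a = ⊥) ∧
      MulAction.IsPreprimitive ↥G (Fin n) ∧ ¬ MulAction.IsMultiplyPretransitive ↥G (Fin n) 2 := by
  classical
  let n := Fintype.card Ω
  let ε : Ω ≃ Fin n := Fintype.equivFin Ω
  let φ : Perm Ω ≃* Perm (Fin n) := ε.permCongrHom
  have hφ : ∀ (g : Perm Ω) (a : Fin n), φ g a = ε (g (ε.symm a)) := fun _ _ => rfl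
  let G' : Subgroup (Perm (Fin n)) := G.map φ.toMonoidHom
  let R' : Subgroup (Perm (Fin n)) := ρ.range.map φ.toMonoidHom
  refine ⟨n, G', R', Subgroup.map_mono hRG, ?_, ?_, ?_, ?_, ?_⟩
  · let e1 : ρ.range ≃* R' := Subgroup.equivMapOfInjective _ _ φ.injective
    exact ⟨e1.symm.trans (MonoidHom.ofInjective hρ).symm⟩
  · constructor
    intro a b
    obtain ⟨x, hx⟩ := htr (ε.symm a) (ε.symm b)
    refine ⟨⟨φ (ρ x), ⟨ρ x, ⟨x, rfl⟩, rfl⟩⟩, ?_⟩
    show φ (ρ x) a = b
    rw [hφ, hx]
    simp
  · intro a
    rw [Subgroup.eq_bot_iff_forall]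
    rintro ⟨_, _, ⟨x, rfl⟩, rfl⟩ hg
    have h1 : φ (ρ x) a = a := hg
    rw [hφ] at h1
    have h2 : ρ x (ε.symm a) = ε.symm a := by
      apply ε.injective
      rw [h1]
      simp
    have h3 := hsr x _ h2
    subst h3
    apply Subtype.ext
    simp
  · let ψ : G → G' := fun g => ⟨φ g, ⟨g, g.2, rfl⟩⟩
    let f : Ω →ₑ[ψ] Fin n :=
      { toFun := ε
        map_smul' := by
          intro g a
          show ε (g.1 a) = (φ g.1) (ε a)
          rw [hφ]
          simp }
    exact IsPreprimitive.of_surjective (f := f) ε.surjective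
  · intro h2
    apply hnot
    intro a b c d hab hcd
    obtain ⟨g, hg1, hg2⟩ := (MulAction.is_two_pretransitive_iff (G := G') (α := Fin n)).mp h2
      (show ε a ≠ ε b from fun h => hab (ε.injective h)) (show ε c ≠ ε d from fun h => hcd (ε.injective h))
    obtain ⟨g₀, hg₀, hg₀e⟩ := g.2
    refine ⟨g₀, hg₀, ?_, ?_⟩
    · have h3 : (g : Perm (Fin n)) (ε a) = ε c := hg1
      rw [← hg₀e] at h3
      have h4 : ε (g₀ (ε.symm (ε a))) = ε c := h3
      simpa using h4
    · have h3 : (g : Perm (Fin n)) (ε b) = ε d := hg2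
      rw [← hg₀e] at h3
      have h4 : ε (g₀ (ε.symm (ε b))) = ε d := h3
      simpa using h4



/-- Let K be a finite group isomorphic to a direct product of r ≥ 2 groups all of the same order m ≥ 3. Then K is not a B-group: there is a primitive but not doubly transitive permutation group (on some finite set) containing a regular subgroup isomorphic to K. -/
theorem result {K : Type*} [Group K] [Finite K] {ι : Type*} [Fintype ι] (F : ι → Type*) [∀ i, Group (F i)]
    (hr : 2 ≤ Fintype.card ι) (m : ℕ) (hm : 3 ≤ m) (hcard : ∀ i, Nat.card (F i) = m) (e : K ≃* (∀ i, F i)) :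
    ∃ (n : ℕ) (G R : Subgroup (Equiv.Perm (Fin n))), R ≤ G ∧ Nonempty (↥R ≃* K) ∧
      MulAction.IsPretransitive ↥R (Fin n) ∧ (∀ a : Fin n, MulAction.stabilizer ↥R a = ⊥) ∧
      MulAction.IsPreprimitive ↥G (Fin n) ∧ ¬ MulAction.IsMultiplyPretransitive ↥G (Fin n) 2 := by
  classical
  have hm0 : m ≠ 0 := by omega
  haveI : ∀ i, Finite (F i) := fun i => Nat.finite_of_card_ne_zero (by rw [hcard i]; exact hm0)
  let e' : ∀ i, F i ≃ Fin m := fun i => Finite.equivFinOfCardEq (hcard i)
  let Xb : Fin m := ⟨0, by omega⟩
  let ρ : K →* Perm (ι → Fin m) :=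
    { toFun := fun x => coord (fun i => (e' i).symm.trans ((Equiv.mulLeft ((e x) i)).trans (e' i)))
      map_one' := by
        apply Equiv.ext
        intro u
        funext i
        simp
      map_mul' := by
        intro x y
        apply Equiv.ext
        intro u
        funext i
        simp [mul_assoc] }
  have hρa : ∀ (x : K) (u : ι → Fin m) (i : ι), ρ x u i = e' i ((e x) i * (e' i).symm (u i)) := fun _ _ _ => rfl
  have hsr : ∀ (x : K) (a : ι → Fin m), ρ x a = a → x = 1 := by
    intro x a hx
    apply e.injective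
    rw [map_one]
    funext i
    have h1 := congrFun hx i
    rw [hρa] at h1
    have h2 := (e' i).symm_apply_apply ((e x) i * (e' i).symm (a i))
    rw [h1] at h2
    have h3 : (e x) i * (e' i).symm (a i) = (e' i).symm (a i) := h2.symm
    simpa using h3
  have hρ : Function.Injective ρ := by
    rw [injective_iff_map_eq_one]
    intro x hx
    apply hsr x (fun _ => Xb)
    rw [hx]
    rfl
  have hRG : ρ.range ≤ hamG ι (Fin m) := by
    rintro _ ⟨x, rfl⟩
    exact coord_mem _
  have htr : ∀ a b : ι → Fin m, ∃ x : K, ρ x a = b := by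
    intro a b
    refine ⟨e.symm (fun i => (e' i).symm (b i) * ((e' i).symm (a i))⁻¹), ?_⟩
    funext i
    rw [hρa]
    simp
  have hX : ∀ a b : Fin m, ∃ c, c ≠ a ∧ c ≠ b := by
    intro a b
    by_contra hc
    push Not at hc
    have h3 : Fintype.card (Fin m) ≤ ({a, b} : Finset (Fin m)).card := by
      apply Finset.card_le_card
      intro c _
      by_cases hca : c = a
      · simp [hca]
      · simp [hc c hca]
    have h4 : ({a, b} : Finset (Fin m)).card ≤ 2 := Finset.card_le_two
    rw [Fintype.card_fin] at h3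
    omega
  obtain ⟨i₁, i₂, hi⟩ := Fintype.exists_pair_of_one_lt_card (by omega : 1 < Fintype.card ι)
  obtain ⟨c, hc, -⟩ := hX Xb Xb
  exact transfer_fin (hamG ι (Fin m)) ρ hρ hRG htr hsr (prim_ham Xb hX) (not_two_ham Xb c hc hi)

end Cfsg.Agent.S3560
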