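import Cfsg.Statements.S3573


set_option autoImplicit false
open Cfsg

namespace Cfsg.Agent.S3573

---IMPORTS
open Equiv.Perm

theorem exists_inv_subset {n : ℕ} (σ : Equiv.Perm (Fin n)) {r t : ℕ}
    (h : σ.cycleType = Multiset.replicate t r) (a b : ℕ) (ha : a ≤ t) (hb : b ≤ n - t * r) :
    ∃ s : Finset (Fin n), s.card = r * a + b ∧ s.image σ = s := by
  classical
  have hcardC : σ.cycleFactorsFinset.card = t := by
    have h1 := congrArg Multiset.card h
    rw [cycleType_def] at h1
    simpa using h1
  have hcardr : ∀ c ∈ σ.cycleFactorsFinset, c.support.card = r := by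
    intro c hc
    have h1 : c.support.card ∈ σ.cycleType := by
      rw [cycleType_def]
      exact Multiset.mem_map.mpr ⟨c, hc, rfl⟩
    rw [h] at h1
    exact Multiset.eq_of_mem_replicate h1
  obtain ⟨C', hC', hC'card⟩ := Finset.exists_subset_card_eq (s := σ.cycleFactorsFinset) (n := a) (by omega)
  let U : Finset (Fin n) := C'.biUnion support
  have hUcard : U.card = r * a := by
    rw [Finset.card_biUnion]
    · rw [Finset.sum_congr rfl (fun c hc => hcardr c (hC' hc))]
      simp [hC'card, mul_comm]
    · intro c hc d hd hcd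
      have := cycleFactorsFinset_pairwise_disjoint σ (hC' hc) (hC' hd) hcd
      exact (disjoint_iff_disjoint_support.mp this)
  have hUsupp : U ⊆ σ.support := by
    intro x hx
    obtain ⟨c, hc, hxc⟩ := Finset.mem_biUnion.mp hx
    exact mem_cycleFactorsFinset_support_le (hC' hc) hxc
  have hsumt : σ.support.card = t * r := by
    rw [← sum_cycleType, h]; simp
  have hFcard : (σ.supportᶜ).card = n - t * r := by
    rw [Finset.card_compl, hsumt]; simp
  obtain ⟨B, hB, hBcard⟩ := Finset.exists_subset_card_eq (s := σ.supportᶜ) (n := b) (by omega)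
  have hdisj : Disjoint U B := by
    rw [Finset.disjoint_left]
    intro x hx hxB
    have := hB hxB
    rw [Finset.mem_compl] at this
    exact this (hUsupp hx)
  refine ⟨U ∪ B, ?_, ?_⟩
  · rw [Finset.card_union_of_disjoint hdisj, hUcard, hBcard]
  · apply Finset.eq_of_subset_of_card_le
    · intro y hy
      obtain ⟨x, hx, rfl⟩ := Finset.mem_image.mp hy
      rcases Finset.mem_union.mp hx with hx | hx
      · obtain ⟨c, hc, hxc⟩ := Finset.mem_biUnion.mp hx
        have h1 := (mem_cycleFactorsFinset_iff.mp (hC' hc)).2 x hxc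
        rw [← h1]
        exact Finset.mem_union_left _ (Finset.mem_biUnion.mpr ⟨c, hc, apply_mem_support.mpr hxc⟩)
      · have : σ x = x := by
          have := hB hx
          rw [Finset.mem_compl, mem_support, not_not] at this
          exact this
        rw [this]
        exact Finset.mem_union_right _ hx
    · rw [Finset.card_image_of_injective _ σ.injective]

theorem inv_subset_mod {n : ℕ} (σ : Equiv.Perm (Fin n)) {r t : ℕ} [Fact r.Prime]
    (h : σ.cycleType = Multiset.replicate t r) (hσ : σ ^ r = 1) (s : Finset (Fin n)) (hs : s.image σ = s) :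
    ∃ j, j ≤ n - t * r ∧ s.card ≡ j [MOD r] := by
  classical
  have hmem : ∀ x ∈ s, σ x ∈ s := by
    intro x hx
    rw [← hs]
    exact Finset.mem_image_of_mem σ hx
  let f : Function.End s := fun x => ⟨σ x, hmem x x.2⟩
  have hfk : ∀ (k : ℕ) (x : s), ((f ^ k) x : Fin n) = (σ ^ k) x := by
    intro k
    induction k with
    | zero => intro x; rfl
    | succ k ih =>
      intro x
      rw [pow_succ, pow_succ]
      show ((f ^ k) (f x) : Fin n) = (σ ^ k) (σ x)
      rw [ih]
  have hf1 : f ^ r ^ 1 = 1 := by
    rw [pow_one]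
    funext x
    apply Subtype.ext
    rw [hfk, hσ]; rfl
  have hmod := card_fixedPoints_modEq hf1
  rw [Fintype.card_coe] at hmod
  refine ⟨_, ?_, hmod⟩
  have hsum : σ.cycleType.sum = t * r := by
    rw [h]; simp
  have h1 := card_fixedPoints σ
  rw [hsum] at h1
  simp only [Fintype.card_fin] at h1
  rw [← h1]
  apply Fintype.card_le_of_injective (fun x : Function.fixedPoints f => (⟨(x.1 : Fin n), ?_⟩ : Function.fixedPoints σ))
  · intro x y hxy
    apply Subtype.ext
    apply Subtype.ext
    exact congrArg (fun z : Function.fixedPoints σ => (z : Fin n)) hxy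
  · have hx : f x.1 = x.1 := x.2
    exact congrArg Subtype.val hx

theorem exists_type {n : ℕ} (r u : ℕ) (hr : r.Prime) (hu : u ≠ 0) (hun : u * r ≤ n) :
    ∃ σ : Equiv.Perm (Fin n), σ.cycleType = Multiset.replicate u r ∧ orderOf σ = r := by
  obtain ⟨g, hg⟩ := (Equiv.Perm.exists_with_cycleType_iff (Fin n) (m := Multiset.replicate u r)).mpr (by
    constructor
    · simpa using hun
    · intro a ha
      rw [Multiset.eq_of_mem_replicate ha]
      exact hr.two_le)
  refine ⟨g, hg, ?_⟩
  rw [← lcm_cycleType, hg]
  exact Nat.dvd_antisymm (Multiset.lcm_dvd.mpr (fun b hb => by rw [Multiset.eq_of_mem_replicate hb]))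
      (Multiset.dvd_lcm (Multiset.mem_replicate.mpr ⟨hu, rfl⟩))

theorem type_of_order {n : ℕ} (σ : Equiv.Perm (Fin n)) (r : ℕ) (hr : r.Prime) (hσ : orderOf σ = r) :
    ∃ t, σ.cycleType = Multiset.replicate t r ∧ t * r ≤ n := by
  obtain ⟨k, hk⟩ := cycleType_prime_order (σ := σ) (by rw [hσ]; exact hr)
  rw [hσ] at hk
  refine ⟨k + 1, hk, ?_⟩
  have := sum_cycleType_le σ
  rw [hk] at this
  simp only [Multiset.sum_replicate, smul_eq_mul, Fintype.card_fin] at this
  exact this

theorem le_of_dvd_choose {n k r : ℕ} (hr : r.Prime) (hk : k ≤ n) (h : r ∣ Nat.choose n k) : r ≤ n := by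
  have h1 : Nat.choose n k ∣ n.factorial := by
    rw [← Nat.choose_mul_factorial_mul_factorial hk, mul_assoc]
    exact Nat.dvd_mul_right _ _
  exact (Nat.Prime.dvd_factorial hr).mp (h.trans h1)


/-- Let 1 ≤ k with 2k < n and consider the symmetric group of degree n acting on the k-subsets of an n-set. Let r be a prime dividing the number C(n,k) of k-subsets. If r is odd, then every permutation of order r fixes some k-subset if and only if r ≤ k and the remainder of k modulo r is at most the remainder of n modulo r. If r = 2, then every involution fixes some k-subset if and only if k is even or n is odd. -/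
theorem result (n k : ℕ) (hk : 1 ≤ k) (hkn : 2 * k < n) (r : ℕ) (hr : r.Prime) (hrd : r ∣ Nat.choose n k) :
    (r ≠ 2 → ((∀ σ : Equiv.Perm (Fin n), orderOf σ = r → ∃ s : Finset (Fin n), s.card = k ∧ s.image σ = s) ↔
      (r ≤ k ∧ k % r ≤ n % r))) ∧
    (r = 2 → ((∀ σ : Equiv.Perm (Fin n), orderOf σ = 2 → ∃ s : Finset (Fin n), s.card = k ∧ s.image σ = s) ↔
      (Even k ∨ Odd n))) := by
  classical
  have hkn' : k ≤ n := by omega
  refine ⟨?_, ?_⟩
  · intro _
    haveI : Fact r.Prime := ⟨hr⟩
    have hrn : r ≤ n := le_of_dvd_choose hr hkn' hrd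
    constructor
    · intro hall
      have hu : n / r ≠ 0 := by
        have := Nat.div_pos hrn hr.pos
        omega
      obtain ⟨σ, hσ, hσo⟩ := exists_type (n := n) r (n / r) hr hu (Nat.div_mul_le_self n r)
      obtain ⟨s, hs, hsi⟩ := hall σ hσo
      obtain ⟨j, hj, hjm⟩ := inv_subset_mod σ hσ (by rw [← hσo]; exact pow_orderOf_eq_one σ) s hsi
      have hjn : n - n / r * r = n % r := by
        have := Nat.div_add_mod' n r
        omega
      rw [hjn] at hj
      have hnr : n % r < r := Nat.mod_lt _ hr.pos
      have h1 : k % r = j := by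
        have h2 : k % r = j % r := by rw [← hs]; exact hjm
        rw [h2, Nat.mod_eq_of_lt (by omega)]
      have hle : k % r ≤ n % r := by omega
      refine ⟨?_, hle⟩
      by_contra hlt
      push Not at hlt
      -- Lucas
      rw [Nat.mod_eq_of_lt hlt] at hle
      have hl := Choose.choose_modEq_choose_mod_mul_choose_div_nat (p := r) (n := n) (k := k)
      rw [Nat.mod_eq_of_lt hlt, Nat.div_eq_of_lt hlt, Nat.choose_zero_right, mul_one] at hl
      have hd : r ∣ Nat.choose (n % r) k := by
        have := (Nat.modEq_zero_iff_dvd.mpr hrd).symm.trans hl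
        exact Nat.modEq_zero_iff_dvd.mp this.symm
      have := le_of_dvd_choose hr hle hd
      omega
    · rintro ⟨hrk, hmod⟩ σ hσ
      obtain ⟨t, ht, htn⟩ := type_of_order σ r hr hσ
      by_cases hvt : k / r ≤ t
      · obtain ⟨s, hs, hsi⟩ := exists_inv_subset σ ht (k / r) (k % r) hvt (by
          have h1 : t ≤ n / r := (Nat.le_div_iff_mul_le hr.pos).mpr htn
          have h2 := Nat.div_add_mod' n r
          have h3 : t * r ≤ n / r * r := Nat.mul_le_mul_right r h1
          omega)
        exact ⟨s, by rw [hs]; exact Nat.div_add_mod k r, hsi⟩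
      · push Not at hvt
        have h1 : r * t ≤ k := by
          have h2 := Nat.div_mul_le_self k r
          have h3 : t * r ≤ k / r * r := Nat.mul_le_mul_right r hvt.le
          rw [mul_comm]; omega
        obtain ⟨s, hs, hsi⟩ := exists_inv_subset σ ht t (k - r * t) le_rfl (by
          have : t * r = r * t := mul_comm _ _
          omega)
        exact ⟨s, by rw [hs]; omega, hsi⟩
  · intro hr2
    subst hr2
    haveI : Fact (Nat.Prime 2) := ⟨Nat.prime_two⟩
    constructor
    · intro hall
      by_contra hcon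
      push Not at hcon
      rw [Nat.not_even_iff_odd, Nat.not_odd_iff_even] at hcon
      obtain ⟨hk1, hn1⟩ := hcon
      have hu : n / 2 ≠ 0 := by omega
      obtain ⟨σ, hσ, hσo⟩ := exists_type (n := n) 2 (n / 2) Nat.prime_two hu (Nat.div_mul_le_self n 2)
      obtain ⟨s, hs, hsi⟩ := hall σ hσo
      obtain ⟨j, hj, hjm⟩ := inv_subset_mod σ hσ (by rw [← hσo]; exact pow_orderOf_eq_one σ) s hsi
      have hj0 : j = 0 := by
        obtain ⟨c, hc⟩ := hn1
        omega
      rw [hj0, hs] at hjm
      obtain ⟨c, hc⟩ := hk1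
      unfold Nat.ModEq at hjm
      omega
    · intro hcase σ hσ
      obtain ⟨t, ht, htn⟩ := type_of_order σ 2 Nat.prime_two hσ
      have ht2 : t * 2 ≤ n := htn
      by_cases hvt : k / 2 ≤ t
      · have hb : k % 2 ≤ n - t * 2 := by
          rcases hcase with ⟨c, hc⟩ | ⟨c, hc⟩
          · omega
          · omega
        obtain ⟨s, hs, hsi⟩ := exists_inv_subset σ ht (k / 2) (k % 2) hvt hb
        exact ⟨s, by rw [hs]; exact Nat.div_add_mod k 2, hsi⟩
      · push Not at hvt
        obtain ⟨s, hs, hsi⟩ := exists_inv_subset σ ht t (k - 2 * t) le_rfl (by omega)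
        exact ⟨s, by rw [hs]; omega, hsi⟩

end Cfsg.Agent.S3573
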