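import Cfsg.Statements.S3575
import Cfsg.Agent.Lib.Perm.PartFixB
import Mathlib

set_option autoImplicit false
open Cfsg

namespace Cfsg.Agent.S3575

/-- Let a, b ≥ 2 and consider the symmetric group of degree a·b acting on the partitions of an (a·b)-set into b parts of size a (encoded as maps onto a b-element set all of whose fibres have a elements; a permutation fixes such a partition when it permutes the fibres). Let r be a prime dividing the number (ab)!/((a!)^b·b!) of such partitions, and let ℓ and k be the remainders of a and b modulo r. Then every permutation of order r fixes some such partition if and only if r ≤ a and one of the following holds: ℓ = 0; or k = 0 and ℓ = 1; or ℓ and k are non-zero, k·ℓ < r, and either b < r or (k + r)·ℓ ≤ k·a + r. -/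
theorem result (a b : ℕ) (ha : 2 ≤ a) (hb : 2 ≤ b) (r : ℕ) (hr : r.Prime)
    (hrd : r ∣ (a * b).factorial / (a.factorial ^ b * b.factorial)) :
    (∀ σ : Equiv.Perm (Fin (a * b)), orderOf σ = r →
        ∃ f : Fin (a * b) → Fin b, (∀ j : Fin b, Nat.card {x : Fin (a * b) // f x = j} = a) ∧
          ∃ π : Equiv.Perm (Fin b), ∀ x : Fin (a * b), f (σ x) = π (f x)) ↔
      (r ≤ a ∧ (a % r = 0 ∨ (b % r = 0 ∧ a % r = 1) ∨
        (a % r ≠ 0 ∧ b % r ≠ 0 ∧ (b % r) * (a % r) < r ∧ (b < r ∨ (b % r + r) * (a % r) ≤ (b % r) * a + r)))) := by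
  classical
  haveI : Fact r.Prime := ⟨hr⟩
  have hrab : r ≤ a * b := by
    have h1 : b.uniformBell a * a.factorial ^ b * b.factorial = (b * a).factorial :=
      Nat.uniformBell_mul_eq b (by omega)
    have h2 : (a * b).factorial / (a.factorial ^ b * b.factorial) = b.uniformBell a := by
      rw [Nat.uniformBell_eq_div b (by omega), mul_comm a b]
    rw [h2] at hrd
    have h3 : r ∣ (a * b).factorial := by
      rw [mul_comm a b, ← h1, mul_assoc]
      exact Dvd.dvd.mul_right hrd _
    exact (hr.dvd_factorial).1 h3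
  constructor
  · intro hL
    apply Cfsg.Agent.Lib.Perm.PartFixB.arith_forward hr ha hb hrab
    intro c hc hcr
    obtain ⟨σ, hord, hfix⟩ := Cfsg.Agent.Lib.Perm.PartFixB.exists_perm (N := a * b) (c := c) (r := r) hc hcr
    obtain ⟨f, hfib, π, heq⟩ := hL σ hord
    have hσ : σ ^ r = 1 := hord ▸ pow_orderOf_eq_one σ
    have hfib' : ∀ j, (Finset.univ.filter (fun x => f x = j)).card = a := by
      intro j
      have h5 := hfib j
      rw [Nat.card_eq_fintype_card, Fintype.card_subtype] at h5
      exact h5
    obtain ⟨B, h1, h2, h3, h4⟩ := Cfsg.Agent.Lib.Perm.PartFixB.necess (by omega) σ hσ f π hfib' heq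
    rw [Fintype.card_fin] at h1 h2
    rw [hfix] at h3 h4
    exact ⟨B, h1, h2, h3, h4⟩
  · intro hR σ hord
    have hσ : σ ^ r = 1 := hord ▸ pow_orderOf_eq_one σ
    have hm := Cfsg.Agent.Lib.Perm.PartFixA.fix_modEq σ hσ
    rw [Fintype.card_fin] at hm
    have hle : Cfsg.Agent.Lib.Perm.PartFixA.fixCard σ ≤ a * b := by
      have := Finset.card_le_univ (Finset.univ.filter (fun x => σ x = x))
      rw [Fintype.card_fin] at this
      exact this
    obtain ⟨B, h1, h2, h3, h4⟩ := Cfsg.Agent.Lib.Perm.PartFixB.arith_back hr ha hR _ hm.symm hle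
    obtain ⟨β, _, _, f, π, hc, hfib, heq⟩ := Cfsg.Agent.Lib.Perm.PartFixB.has_part a r b (Fin (a * b)) σ hσ
      (by simp) B h1 h2 h3 h4
    let e : β ≃ Fin b := Fintype.equivFinOfCardEq hc
    refine ⟨fun x => e (f x), ?_, e.permCongr π, ?_⟩
    · intro j
      rw [Nat.card_eq_fintype_card, Fintype.card_subtype]
      refine Eq.trans ?_ (hfib (e.symm j))
      congr 1
      ext x
      simp [Equiv.eq_symm_apply]
    · intro x
      simp [heq]

end Cfsg.Agent.S3575
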