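import Mathlib
import Cfsg.Statements.S3599
-- import your own Cfsg.Agent.* helpers here

set_option autoImplicit false
set_option linter.unusedSimpArgs false
set_option linter.unusedVariables false
set_option linter.unusedSectionVars false
set_option linter.style.haveILetI false
set_option linter.unnecessarySimpa false
open Cfsg

namespace Cfsg.Agent.S3599

/-- The data of a Frobenius-like group `V ⋊ C_q` with `V` irreducible of exponent `p`. -/
structure Frob (p q : ℕ) where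
  K : Type
  [grp : Group K]
  [fin : Fintype K]
  V : Subgroup K
  norm : V.Normal
  exp_p : ∀ v ∈ V, v ^ p = 1
  ne : ∃ v ∈ V, v ≠ 1
  exp_q : ∀ x, x ∉ V → x ^ q = 1
  ne_top : ∃ x, x ∉ V
  irr : ∀ x, x ∉ V → ∀ U : Subgroup K, U ≤ V → (∀ u ∈ U, x * u * x⁻¹ ∈ U) → U = ⊥ ∨ U = V
  fpf : ∀ x, x ∉ V → ∀ v ∈ V, x * v * x⁻¹ = v → v = 1
  max : ∀ x, x ∉ V → ∀ H : Subgroup K, V ≤ H → x ∈ H → H = ⊤

attribute [instance] Frob.grp Frob.fin

/-- The affine group of a field. -/
@[ext] structure Aff (F : Type) [Field F] where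
  b : F
  c : Fˣ

namespace Aff

variable {F : Type} [Field F]

instance : Mul (Aff F) := ⟨fun x y => ⟨x.b + x.c * y.b, x.c * y.c⟩⟩
instance : One (Aff F) := ⟨⟨0, 1⟩⟩
instance : Inv (Aff F) := ⟨fun x => ⟨-(((x.c⁻¹ : Fˣ) : F) * x.b), x.c⁻¹⟩⟩

@[simp] theorem mul_b (x y : Aff F) : (x * y).b = x.b + x.c * y.b := rfl
@[simp] theorem mul_c (x y : Aff F) : (x * y).c = x.c * y.c := rfl
@[simp] theorem one_b : (1 : Aff F).b = 0 := rfl
@[simp] theorem one_c : (1 : Aff F).c = 1 := rfl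
@[simp] theorem inv_b (x : Aff F) : (x⁻¹).b = -(((x.c⁻¹ : Fˣ) : F) * x.b) := rfl
@[simp] theorem inv_c (x : Aff F) : (x⁻¹).c = x.c⁻¹ := rfl

instance : Group (Aff F) := Group.ofLeftAxioms
  (by
    intro x y z
    ext <;> simp [mul_add, mul_assoc, add_assoc])
  (by
    intro x
    ext <;> simp)
  (by
    intro x
    ext <;> simp)

/-- The linear part. -/
def cHom : Aff F →* Fˣ := ⟨⟨Aff.c, rfl⟩, fun _ _ => rfl⟩

@[simp] theorem cHom_apply (x : Aff F) : cHom x = x.c := rfl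

theorem pow_c (x : Aff F) (n : ℕ) : (x ^ n).c = x.c ^ n := map_pow cHom x n

theorem pow_b (x : Aff F) (n : ℕ) : (x ^ n).b = (∑ i ∈ Finset.range n, ((x.c : F)) ^ i) * x.b := by
  induction n with
  | zero => simp
  | succ n ih =>
    rw [pow_succ, mul_b, ih, pow_c, Finset.sum_range_succ, add_mul, Units.val_pow_eq_pow_val]

/-- The subgroup `V₀ ⋊ C`. -/
def KK (V₀ : AddSubgroup F) (C : Subgroup Fˣ) (h : ∀ c ∈ C, ∀ x ∈ V₀, (c : F) * x ∈ V₀) : Subgroup (Aff F) where
  carrier := {x | x.b ∈ V₀ ∧ x.c ∈ C}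
  mul_mem' := fun {x y} hx hy => ⟨V₀.add_mem hx.1 (h _ hx.2 _ hy.1), C.mul_mem hx.2 hy.2⟩
  one_mem' := ⟨V₀.zero_mem, C.one_mem⟩
  inv_mem' := fun {x} hx => ⟨V₀.neg_mem (h _ (C.inv_mem hx.2) _ hx.1), C.inv_mem hx.2⟩

end Aff

open Aff in
theorem exists_frob {p q : ℕ} (hp : p.Prime) (hq : q.Prime) (hpq : p ≠ q) : Nonempty (Frob p q) := by
  classical
  haveI : Fact p.Prime := ⟨hp⟩
  haveI : Fact q.Prime := ⟨hq⟩
  let F := GaloisField p (q - 1)
  haveI : Fintype F := Fintype.ofFinite F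
  have hq1 : q - 1 ≠ 0 := by
    have := hq.two_le
    omega
  have hcard : Nat.card F = p ^ (q - 1) := GaloisField.card p (q - 1) hq1
  have hdvd : q ∣ Nat.card Fˣ := by
    rw [Nat.card_units, hcard]
    have h1 : ((p : ZMod q)) ≠ 0 := by
      intro h
      rw [ZMod.natCast_eq_zero_iff] at h
      exact hpq ((Nat.prime_dvd_prime_iff_eq hq hp).1 h).symm
    have h2 := ZMod.pow_card_sub_one_eq_one h1
    have h3 : ((p ^ (q - 1) - 1 : ℕ) : ZMod q) = 0 := by
      rw [Nat.cast_sub (Nat.one_le_pow _ _ hp.pos), Nat.cast_pow, h2]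
      simp
    exact (ZMod.natCast_eq_zero_iff _ _).1 h3
  obtain ⟨u, hu⟩ := exists_prime_orderOf_dvd_card' (G := Fˣ) q hdvd
  let C : Subgroup Fˣ := Subgroup.zpowers u
  have hCcard : Nat.card C = q := by rw [Nat.card_zpowers, hu]
  have hu1 : u ≠ 1 := by
    rintro rfl
    rw [orderOf_one] at hu
    exact hq.one_lt.ne hu
  -- a minimal `u`-stable additive subgroup
  haveI : Finite (AddSubgroup F) := Finite.of_injective (fun A => (A : Set F)) SetLike.coe_injective
  let S : Set (AddSubgroup F) := {A | A ≠ ⊥ ∧ ∀ x ∈ A, (u : F) * x ∈ A}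
  have hS : S.Nonempty := ⟨⊤, top_ne_bot, fun _ _ => AddSubgroup.mem_top _⟩
  obtain ⟨V₀, ⟨hV₀, hV₀s⟩, hmin⟩ := (wellFounded_lt (α := AddSubgroup F)).has_min S hS
  have hC : ∀ c ∈ C, ∀ x ∈ V₀, (c : F) * x ∈ V₀ := by
    intro c hc x hx
    have hc' : c ∈ Submonoid.powers u := mem_powers_iff_mem_zpowers.2 hc
    obtain ⟨n, rfl⟩ := hc'
    clear hc
    show ((u ^ n : Fˣ) : F) * x ∈ V₀
    induction n with
    | zero => simpa using hx
    | succ n ih =>
      have := hV₀s _ ih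
      rw [pow_succ', Units.val_mul, mul_assoc]
      exact this
  have hCq : ∀ c ∈ C, c ^ q = 1 := by
    intro c hc
    have := pow_card_eq_one' (G := C) (x := ⟨c, hc⟩)
    rw [hCcard] at this
    exact congrArg Subtype.val this
  have hCgen : ∀ c ∈ C, c ≠ 1 → ∀ d ∈ C, ∃ n : ℕ, d = c ^ n := by
    intro c hc hc1 d hd
    haveI : Fact (Nat.card C).Prime := by rw [hCcard]; exact ⟨hq⟩
    have h1 : Subgroup.zpowers (⟨c, hc⟩ : C) = ⊤ :=
      zpowers_eq_top_of_prime_card (p := Nat.card C) rfl (fun h => hc1 (congrArg Subtype.val h))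
    have h2 : (⟨d, hd⟩ : C) ∈ Subgroup.zpowers (⟨c, hc⟩ : C) := by rw [h1]; trivial
    have h3 : (⟨d, hd⟩ : C) ∈ Submonoid.powers (⟨c, hc⟩ : C) := mem_powers_iff_mem_zpowers.2 h2
    obtain ⟨n, hn⟩ := h3
    refine ⟨n, ?_⟩
    have := congrArg Subtype.val hn
    simpa using this.symm
  haveI : Finite (Aff F) := Finite.of_injective (fun x : Aff F => (x.b, x.c)) (by
    intro x y h
    exact Aff.ext (congrArg Prod.fst h) (congrArg Prod.snd h))
  let K := KK V₀ C hC
  let π : K →* Fˣ := cHom.comp K.subtype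
  have hπ : ∀ x : K, π x = (x : Aff F).c := fun _ => rfl
  let V : Subgroup K := π.ker
  have hmemV : ∀ x : K, x ∈ V ↔ (x : Aff F).c = 1 := fun x => by
    show π x = 1 ↔ _
    rfl
  have hcC : ∀ x : K, (x : Aff F).c ∈ C := fun x => x.2.2
  have hbV : ∀ x : K, (x : Aff F).b ∈ V₀ := fun x => x.2.1
  have hext : ∀ x y : K, (x : Aff F).b = (y : Aff F).b → (x : Aff F).c = (y : Aff F).c → x = y := by
    intro x y h1 h2
    exact Subtype.ext (Aff.ext h1 h2)
  have hconj : ∀ (x v : K), v ∈ V → ((x * v * x⁻¹ : K) : Aff F).b = ((x : Aff F).c : F) * (v : Aff F).b := by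
    intro x v hv
    have h1 := (hmemV v).1 hv
    show ((x : Aff F) * (v : Aff F) * (x : Aff F)⁻¹).b = _
    simp only [mul_b, mul_c, inv_b, h1, mul_one]
    have h2 : ((x : Aff F).c : F) * ((((x : Aff F).c⁻¹ : Fˣ) : F) * (x : Aff F).b) = (x : Aff F).b := by
      rw [← mul_assoc, ← Units.val_mul, mul_inv_cancel, Units.val_one, one_mul]
    rw [mul_neg, h2]
    ring
  refine ⟨{ K := K, fin := Fintype.ofFinite K, V := V, norm := MonoidHom.normal_ker π, exp_p := ?_, ne := ?_,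
            exp_q := ?_, ne_top := ?_, irr := ?_, fpf := ?_, max := ?_ }⟩
  · -- exponent p
    intro v hv
    have h1 := (hmemV v).1 hv
    apply hext
    · show ((v : Aff F) ^ p).b = 0
      rw [pow_b, h1]
      simp
    · show ((v : Aff F) ^ p).c = 1
      rw [pow_c, h1, one_pow]
  · -- nontrivial
    obtain ⟨a, ha⟩ := (AddSubgroup.ne_bot_iff_exists_ne_zero).1 hV₀
    have hb₀ : (a : F) ∈ V₀ := a.2
    have hb₀0 : (a : F) ≠ 0 := fun h => ha (Subtype.ext h)
    obtain ⟨b₀, hb₀', hb₀0'⟩ : ∃ b₀ : F, b₀ ∈ V₀ ∧ b₀ ≠ 0 := ⟨a, hb₀, hb₀0⟩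
    clear hb₀ hb₀0
    rename' hb₀' => hb₀, hb₀0' => hb₀0
    refine ⟨⟨⟨b₀, 1⟩, hb₀, C.one_mem⟩, (hmemV _).2 rfl, ?_⟩
    intro h
    exact hb₀0 (congrArg (fun x : K => (x : Aff F).b) h)
  · -- outside: exponent q
    intro x hx
    have h1 : (x : Aff F).c ≠ 1 := fun h => hx ((hmemV x).2 h)
    have h2 := hCq _ (hcC x)
    apply hext
    · show ((x : Aff F) ^ q).b = 0
      rw [pow_b]
      have h3 : ((x : Aff F).c : F) - 1 ≠ 0 := by
        intro h
        apply h1
        ext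
        simpa [sub_eq_zero] using h
      have h4 : (∑ i ∈ Finset.range q, ((x : Aff F).c : F) ^ i) * (((x : Aff F).c : F) - 1) = 0 := by
        rw [geom_sum_mul, ← Units.val_pow_eq_pow_val, h2]
        simp
      rw [(mul_eq_zero.1 h4).resolve_right h3, zero_mul]
    · show ((x : Aff F) ^ q).c = 1
      rw [pow_c, h2]
  · -- not everything
    refine ⟨⟨⟨0, u⟩, V₀.zero_mem, Subgroup.mem_zpowers u⟩, ?_⟩
    intro h
    exact hu1 ((hmemV _).1 h)
  · -- irreducible
    intro x hx U hUV hUs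
    have h1 : (x : Aff F).c ≠ 1 := fun h => hx ((hmemV x).2 h)
    have hc1 : ∀ w ∈ U, (w : Aff F).c = 1 := fun w hw => (hmemV w).1 (hUV hw)
    let A : AddSubgroup F :=
      { carrier := {y | ∃ w ∈ U, (w : Aff F).b = y}
        add_mem' := by
          rintro _ _ ⟨w₁, hw₁, rfl⟩ ⟨w₂, hw₂, rfl⟩
          refine ⟨w₁ * w₂, U.mul_mem hw₁ hw₂, ?_⟩
          show ((w₁ : Aff F) * (w₂ : Aff F)).b = _
          rw [mul_b, hc1 w₁ hw₁]
          simp
        zero_mem' := ⟨1, U.one_mem, rfl⟩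
        neg_mem' := by
          rintro _ ⟨w, hw, rfl⟩
          refine ⟨w⁻¹, U.inv_mem hw, ?_⟩
          show ((w : Aff F)⁻¹).b = _
          rw [inv_b, hc1 w hw]
          simp }
    have hAc : ∀ y ∈ A, ((x : Aff F).c : F) * y ∈ A := by
      rintro _ ⟨w, hw, rfl⟩
      exact ⟨x * w * x⁻¹, hUs w hw, hconj x w (hUV hw)⟩
    have hAu : ∀ y ∈ A, (u : F) * y ∈ A := by
      obtain ⟨n, hn⟩ := hCgen _ (hcC x) h1 u (Subgroup.mem_zpowers u)
      intro y hy
      rw [hn]
      clear hn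
      induction n with
      | zero => simpa using hy
      | succ n ih =>
        rw [pow_succ', Units.val_mul, mul_assoc]
        exact hAc _ ih
    have hAV : A ≤ V₀ := by
      rintro _ ⟨w, hw, rfl⟩
      exact hbV w
    by_cases hA : A = ⊥
    · left
      rw [eq_bot_iff]
      intro w hw
      have h2 : (w : Aff F).b ∈ A := ⟨w, hw, rfl⟩
      rw [hA, AddSubgroup.mem_bot] at h2
      rw [Subgroup.mem_bot]
      exact hext _ _ h2 (hc1 w hw)
    · right
      have h2 : A = V₀ := by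
        by_contra hne
        exact hmin A ⟨hA, hAu⟩ (lt_of_le_of_ne hAV hne)
      apply le_antisymm hUV
      intro v hv
      have h3 : (v : Aff F).b ∈ A := by rw [h2]; exact hbV v
      obtain ⟨w, hw, hwb⟩ := h3
      have : v = w := hext _ _ hwb.symm (((hmemV v).1 hv).trans (hc1 w hw).symm)
      rw [this]
      exact hw
  · -- fixed-point-free
    intro x hx v hv h
    have h1 : (x : Aff F).c ≠ 1 := fun h => hx ((hmemV x).2 h)
    have h2 := hconj x v hv
    rw [h] at h2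
    have h3 : (((x : Aff F).c : F) - 1) * (v : Aff F).b = 0 := by
      rw [sub_mul, one_mul, ← h2, sub_self]
    have h4 : ((x : Aff F).c : F) - 1 ≠ 0 := by
      intro h
      apply h1
      ext
      simpa [sub_eq_zero] using h
    exact hext _ _ ((mul_eq_zero.1 h3).resolve_left h4) ((hmemV v).1 hv)
  · -- maximal
    intro x hx H hVH hxH
    have h1 : (x : Aff F).c ≠ 1 := fun h => hx ((hmemV x).2 h)
    rw [eq_top_iff]
    intro y _
    obtain ⟨n, hn⟩ := hCgen _ (hcC x) h1 _ (hcC y)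
    have h2 : y * (x ^ n)⁻¹ ∈ V := by
      rw [hmemV]
      show ((y : Aff F) * ((x : Aff F) ^ n)⁻¹).c = 1
      rw [mul_c, inv_c, pow_c, hn, mul_inv_cancel]
    have h3 := H.mul_mem (hVH h2) (H.pow_mem hxH n)
    simpa using h3

namespace Frob

variable {p q : ℕ} (D : Frob p q) (hp : p.Prime) (hq : q.Prime) (hpq : p ≠ q)

include hp hq hpq in
theorem mem_of_pow_mem {x : D.K} {N : Subgroup D.K} {m n : ℕ} (hc : m.Coprime n) (hx : x ^ n = 1) (hm : x ^ m ∈ N) : x ∈ N := by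
  have h1 : orderOf x ∣ n := orderOf_dvd_of_pow_eq_one hx
  obtain ⟨k, hk⟩ := exists_pow_eq_self_of_coprime (Nat.Coprime.coprime_dvd_right h1 hc)
  rw [← hk]
  exact N.pow_mem hm k

include hp hq hpq in
theorem order_cases (x : D.K) : orderOf x = 1 ∨ orderOf x = p ∨ orderOf x = q := by
  by_cases hx : x ∈ D.V
  · rcases (Nat.dvd_prime hp).1 (orderOf_dvd_of_pow_eq_one (D.exp_p x hx)) with h | h
    · exact Or.inl h
    · exact Or.inr (Or.inl h)
  · rcases (Nat.dvd_prime hq).1 (orderOf_dvd_of_pow_eq_one (D.exp_q x hx)) with h | h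
    · exact Or.inl h
    · exact Or.inr (Or.inr h)

include hp hq hpq in
theorem exists_order (r : ℕ) (hr : r = 1 ∨ r = p ∨ r = q) : ∃ x : D.K, orderOf x = r := by
  haveI : Fact p.Prime := ⟨hp⟩
  haveI : Fact q.Prime := ⟨hq⟩
  rcases hr with rfl | rfl | rfl
  · exact ⟨1, orderOf_one⟩
  · obtain ⟨v, hv, hv1⟩ := D.ne
    exact ⟨v, orderOf_eq_prime (D.exp_p v hv) hv1⟩
  · obtain ⟨x, hx⟩ := D.ne_top
    have h1 : x ≠ 1 := fun h => hx (h ▸ D.V.one_mem)
    exact ⟨x, orderOf_eq_prime (D.exp_q x hx) h1⟩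

include hp hq hpq in
theorem mem_V_of_pow {x : D.K} (hx : x ^ p = 1) : x ∈ D.V := by
  by_contra hxV
  have h1 := D.exp_q x hxV
  have h2 : x ∈ (⊥ : Subgroup D.K) := D.mem_of_pow_mem hp hq hpq (m := p) (n := q)
    ((Nat.coprime_primes hp hq).2 hpq) h1 (by rw [hx]; exact Subgroup.one_mem _)
  exact hxV (by rw [Subgroup.mem_bot] at h2; rw [h2]; exact D.V.one_mem)

include hp hq hpq in
theorem section_eq {H N : Subgroup D.K} (hNH : N ≤ H) (hnorm : ∀ h ∈ H, ∀ n ∈ N, h * n * h⁻¹ ∈ N)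
    {y z : D.K} (hy : y ∈ H) (hyN : y ∉ N) (hyp : y ^ p ∈ N) (hz : z ∈ H) (hzN : z ∉ N) (hzq : z ^ q ∈ N) :
    H = ⊤ ∧ N = ⊥ := by
  have hV := D.norm
  have hc := (Nat.coprime_primes hp hq).2 hpq
  have hyV : y ∈ D.V := by
    by_contra h
    exact hyN (D.mem_of_pow_mem hp hq hpq hc (D.exp_q y h) hyp)
  have hzV : z ∉ D.V := by
    intro h
    exact hzN (D.mem_of_pow_mem hp hq hpq hc.symm (D.exp_p z h) hzq)
  have hy1 : y ≠ 1 := fun h => hyN (h ▸ N.one_mem)
  have hU : H ⊓ D.V = D.V := by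
    rcases D.irr z hzV (H ⊓ D.V) inf_le_right (fun u hu => ⟨H.mul_mem (H.mul_mem hz hu.1) (H.inv_mem hz),
      hV.conj_mem u hu.2 z⟩) with h | h
    · exfalso
      have : y ∈ H ⊓ D.V := ⟨hy, hyV⟩
      rw [h, Subgroup.mem_bot] at this
      exact hy1 this
    · exact h
  have hVH : D.V ≤ H := by
    rw [← hU]
    exact inf_le_left
  have hHtop : H = ⊤ := D.max z hzV H hVH hz
  refine ⟨hHtop, ?_⟩
  have hNV : N ⊓ D.V = ⊥ := by
    rcases D.irr z hzV (N ⊓ D.V) inf_le_right (fun u hu => ⟨hnorm z hz u hu.1, hV.conj_mem u hu.2 z⟩) with h | h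
    · exact h
    · exfalso
      have : y ∈ N ⊓ D.V := by rw [h]; exact hyV
      exact hyN this.1
  rw [eq_bot_iff]
  intro n hn
  by_cases hnV : n ∈ D.V
  · have : n ∈ N ⊓ D.V := ⟨hn, hnV⟩
    rwa [hNV] at this
  · exfalso
    obtain ⟨v, hv, hv1⟩ := D.ne
    have h1 : n * v * n⁻¹ * v⁻¹ ∈ N ⊓ D.V := by
      constructor
      · have h2 : v * n⁻¹ * v⁻¹ ∈ N := hnorm v (hVH hv) n⁻¹ (N.inv_mem hn)
        have h3 : n * (v * n⁻¹ * v⁻¹) ∈ N := N.mul_mem hn h2
        have h4 : n * v * n⁻¹ * v⁻¹ = n * (v * n⁻¹ * v⁻¹) := by group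
        rwa [h4]
      · exact D.V.mul_mem (hV.conj_mem v hv n) (D.V.inv_mem hv)
    rw [hNV, Subgroup.mem_bot] at h1
    have h2 : n * v * n⁻¹ = v := by
      calc n * v * n⁻¹ = n * v * n⁻¹ * v⁻¹ * v := by group
        _ = v := by rw [h1, one_mul]
    exact hv1 (D.fpf n hnV v hv h2)

end Frob

section Family

variable {ι : Type} [Fintype ι] [DecidableEq ι] {P Q : ι → ℕ} (D : ∀ j, Frob (P j) (Q j))
  (hP : ∀ j, (P j).Prime) (hQ : ∀ j, (Q j).Prime) (hPQ : ∀ j, P j ≠ Q j)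
  (hne : ∀ i j, i ≠ j → P i ≠ P j ∧ P i ≠ Q j ∧ Q i ≠ P j ∧ Q i ≠ Q j)

/-- The direct product. -/
abbrev PiK {ι : Type} {P Q : ι → ℕ} (D : ∀ j, Frob (P j) (Q j)) : Type := ∀ j, (D j).K

include hP hQ hPQ hne in
theorem coprime_prime_order {i j : ι} (hij : i ≠ j) (a : (D i).K) {r : ℕ} (hr : r = P j ∨ r = Q j) :
    (orderOf a).Coprime r := by
  have h := hne i j hij
  rcases (D i).order_cases (hP i) (hQ i) (hPQ i) a with h1 | h1 | h1 <;> rw [h1]
  · exact Nat.coprime_one_left _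
  · rcases hr with rfl | rfl
    · exact (Nat.coprime_primes (hP i) (hP j)).2 h.1
    · exact (Nat.coprime_primes (hP i) (hQ j)).2 h.2.1
  · rcases hr with rfl | rfl
    · exact (Nat.coprime_primes (hQ i) (hP j)).2 h.2.2.1
    · exact (Nat.coprime_primes (hQ i) (hQ j)).2 h.2.2.2

include hP hQ hPQ hne in
theorem coprime_orders {i j : ι} (hij : i ≠ j) (a : (D i).K) (b : (D j).K) : (orderOf a).Coprime (orderOf b) := by
  rcases (D j).order_cases (hP j) (hQ j) (hPQ j) b with h1 | h1 | h1 <;> rw [h1]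
  · exact Nat.coprime_one_right _
  · exact coprime_prime_order D hP hQ hPQ hne hij a (Or.inl rfl)
  · exact coprime_prime_order D hP hQ hPQ hne hij a (Or.inr rfl)

include hP hQ hPQ hne in
theorem orderOf_eq_prod (x : PiK D) : orderOf x = ∏ j, orderOf (x j) := by
  rw [Pi.orderOf]
  apply Finset.lcm_eq_prod
  intro i _ j _ hij
  exact coprime_orders D hP hQ hPQ hne hij (x i) (x j)

include hP hQ hPQ hne in
theorem exists_pow_eq_single (x : PiK D) (j : ι) : ∃ e : ℕ, x ^ e = Pi.mulSingle j (x j) := by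
  let n := ∏ i ∈ Finset.univ.erase j, orderOf (x i)
  have hc : (orderOf (x j)).Coprime n := by
    apply Nat.Coprime.prod_right
    intro i hi
    exact (coprime_orders D hP hQ hPQ hne (Finset.ne_of_mem_erase hi) (x i) (x j)).symm
  let e := (Nat.chineseRemainder hc 1 0 : ℕ)
  have he1 : e ≡ 1 [MOD orderOf (x j)] := (Nat.chineseRemainder hc 1 0).2.1
  have he2 : e ≡ 0 [MOD n] := (Nat.chineseRemainder hc 1 0).2.2
  refine ⟨e, ?_⟩
  funext i
  by_cases hi : i = j
  · subst hi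
    simp only [Pi.pow_apply, Pi.mulSingle_eq_same]
    have := pow_eq_pow_iff_modEq.2 he1
    simpa using this
  · simp only [Pi.pow_apply, Pi.mulSingle_eq_of_ne hi]
    have h1 : orderOf (x i) ∣ n := Finset.dvd_prod_of_mem _ (Finset.mem_erase.2 ⟨hi, Finset.mem_univ _⟩)
    have h2 : n ∣ e := (Nat.modEq_zero_iff_dvd).1 he2
    exact orderOf_dvd_iff_pow_eq_one.1 (h1.trans h2)

theorem mem_of_forall_single (L : Subgroup (PiK D)) (x : PiK D)
    (h : ∀ i, (Pi.mulSingle i (x i) : PiK D) ∈ L) : x ∈ L := by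
  have key : ∀ t : Finset ι, (fun i => if i ∈ t then x i else 1 : PiK D) ∈ L := by
    intro t
    induction t using Finset.induction_on with
    | empty =>
      have : (fun i => if i ∈ (∅ : Finset ι) then x i else 1 : PiK D) = 1 := by
        funext i
        simp
      rw [this]
      exact L.one_mem
    | insert a t ha ih =>
      have : (fun i => if i ∈ insert a t then x i else 1 : PiK D) =
          (fun i => if i ∈ t then x i else 1 : PiK D) * (Pi.mulSingle a (x a) : PiK D) := by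
        funext i
        by_cases hi : i = a
        · subst hi
          simp [ha]
        · simp [hi, Pi.mulSingle_eq_of_ne hi]
      rw [this]
      exact L.mul_mem ih (h a)
  have := key Finset.univ
  simpa using this

theorem mulSingle_pow_aux (j : ι) (a : (D j).K) (n : ℕ) :
    (Pi.mulSingle j a : PiK D) ^ n = Pi.mulSingle j (a ^ n) :=
  (MonoidHom.map_pow (MonoidHom.mulSingle (fun j => (D j).K) j) a n).symm

include hP hQ hPQ hne in
theorem critical_core (H N : Subgroup (PiK D)) (hNH : N ≤ H) (hnorm : ∀ h ∈ H, ∀ n ∈ N, h * n * h⁻¹ ∈ N)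
    (hex : ∀ j (r : ℕ), r = P j ∨ r = Q j → ∃ h ∈ H, h ∉ N ∧ h ^ r ∈ N) : H = ⊤ ∧ N = ⊥ := by
  have hpow : ∀ (L : Subgroup (PiK D)) (x : PiK D) (j : ι), x ∈ L → (Pi.mulSingle j (x j) : PiK D) ∈ L := by
    intro L x j hx
    obtain ⟨e, he⟩ := exists_pow_eq_single D hP hQ hPQ hne x j
    rw [← he]
    exact L.pow_mem hx e
  have key : ∀ j (r : ℕ), r = P j ∨ r = Q j → ∃ y : (D j).K, (Pi.mulSingle j y : PiK D) ∈ H ∧
      (Pi.mulSingle j y : PiK D) ∉ N ∧ (Pi.mulSingle j (y ^ r) : PiK D) ∈ N := by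
    intro j r hr
    obtain ⟨h, hH, hN, hrN⟩ := hex j r hr
    have h1 : (Pi.mulSingle j (h j) : PiK D) ∉ N := by
      intro hjN
      apply hN
      apply mem_of_forall_single D
      intro i
      by_cases hi : i = j
      · subst hi
        exact hjN
      · have h2 := hpow N (h ^ r) i hrN
        have h3 : (Pi.mulSingle i ((h ^ r) i) : PiK D) = (Pi.mulSingle i (h i) : PiK D) ^ r := by
          rw [mulSingle_pow_aux]
          rfl
        rw [h3] at h2
        have hc := coprime_prime_order D hP hQ hPQ hne hi (h i) hr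
        have h4 : (Pi.mulSingle i (h i) : PiK D) ^ (orderOf (h i)) = 1 := by
          rw [mulSingle_pow_aux, pow_orderOf_eq_one, Pi.mulSingle_one]
        obtain ⟨k, hk⟩ := exists_pow_eq_self_of_coprime
          (Nat.Coprime.coprime_dvd_right (orderOf_dvd_of_pow_eq_one h4) hc.symm)
        rw [← hk]
        exact N.pow_mem h2 k
    refine ⟨h j, hpow H h j hH, h1, ?_⟩
    have h2 := hpow N (h ^ r) j hrN
    exact h2
  have fact : ∀ j, H.comap (MonoidHom.mulSingle (fun j => (D j).K) j) = ⊤ ∧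
      N.comap (MonoidHom.mulSingle (fun j => (D j).K) j) = ⊥ := by
    intro j
    obtain ⟨y, hy1, hy2, hy3⟩ := key j (P j) (Or.inl rfl)
    obtain ⟨z, hz1, hz2, hz3⟩ := key j (Q j) (Or.inr rfl)
    refine (D j).section_eq (hP j) (hQ j) (hPQ j) (y := y) (z := z) (Subgroup.comap_mono hNH) ?_ hy1 hy2 hy3 hz1 hz2 hz3
    intro h hh n hn
    have := hnorm _ hh _ hn
    show (MonoidHom.mulSingle (fun j => (D j).K) j) (h * n * h⁻¹) ∈ N
    rwa [map_mul, map_mul, map_inv]
  constructor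
  · rw [eq_top_iff]
    intro x _
    apply mem_of_forall_single D
    intro i
    have : x i ∈ H.comap (MonoidHom.mulSingle (fun j => (D j).K) i) := by
      rw [(fact i).1]
      trivial
    exact this
  · rw [eq_bot_iff]
    intro n hn
    rw [Subgroup.mem_bot]
    funext i
    have : n i ∈ N.comap (MonoidHom.mulSingle (fun j => (D j).K) i) := hpow N n i hn
    rw [(fact i).2, Subgroup.mem_bot] at this
    exact this

include hP hQ hPQ hne in
theorem spectrum :
    Set.range (orderOf : PiK D → ℕ) = {m : ℕ | ∃ c : ι → ℕ, (∀ j, c j = 1 ∨ c j = P j ∨ c j = Q j) ∧ m = ∏ j, c j} := by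
  ext m
  constructor
  · rintro ⟨x, rfl⟩
    exact ⟨fun j => orderOf (x j), fun j => (D j).order_cases (hP j) (hQ j) (hPQ j) (x j),
      orderOf_eq_prod D hP hQ hPQ hne x⟩
  · rintro ⟨c, hc, rfl⟩
    choose x hx using fun j => (D j).exists_order (hP j) (hQ j) (hPQ j) (c j) (hc j)
    refine ⟨x, ?_⟩
    rw [orderOf_eq_prod D hP hQ hPQ hne x]
    exact Finset.prod_congr rfl (fun j _ => hx j)

include hP hQ hPQ hne in
theorem closed_of_P (j : ι) {r : ℕ} (hr : P j = r) (x y : PiK D) (hx : x ^ r = 1) (hy : y ^ r = 1) : (x * y) ^ r = 1 := by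
  subst hr
  have hone : ∀ (z : PiK D), z ^ (P j) = 1 → ∀ i, i ≠ j → z i = 1 := by
    intro z hz i hi
    have h1 : (z i) ^ (P j) = 1 := congrFun hz i
    have h2 : orderOf (z i) ∣ P j := orderOf_dvd_of_pow_eq_one h1
    have h3 := coprime_prime_order D hP hQ hPQ hne hi (z i) (Or.inl rfl)
    have h4 : orderOf (z i) = 1 := Nat.Coprime.eq_one_of_dvd h3 h2
    exact orderOf_eq_one_iff.1 h4
  funext i
  by_cases hi : i = j
  · subst hi
    have h1 : x i ∈ (D i).V := (D i).mem_V_of_pow (hP i) (hQ i) (hPQ i) (congrFun hx i)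
    have h2 : y i ∈ (D i).V := (D i).mem_V_of_pow (hP i) (hQ i) (hPQ i) (congrFun hy i)
    exact (D i).exp_p _ ((D i).V.mul_mem h1 h2)
  · show (x i * y i) ^ P j = 1
    rw [hone x hx i hi, hone y hy i hi, mul_one, one_pow]

include hP hQ hPQ in
theorem not_closed_of_Q (j : ι) {r : ℕ} (hr : Q j = r) : ∃ x y : PiK D, x ^ r = 1 ∧ y ^ r = 1 ∧ (x * y) ^ r ≠ 1 := by
  subst hr
  obtain ⟨u, hu⟩ := (D j).ne_top
  obtain ⟨v, hv, hv1⟩ := (D j).ne
  have hw : v * u⁻¹ ∉ (D j).V := by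
    intro h
    apply hu
    have := (D j).V.mul_mem ((D j).V.inv_mem h) hv
    have h2 : (v * u⁻¹)⁻¹ * v = u := by group
    rwa [h2] at this
  refine ⟨Pi.mulSingle j (v * u⁻¹), Pi.mulSingle j u, ?_, ?_, ?_⟩
  · rw [mulSingle_pow_aux, (D j).exp_q _ hw, Pi.mulSingle_one]
  · rw [mulSingle_pow_aux, (D j).exp_q _ hu, Pi.mulSingle_one]
  · have h1 : (Pi.mulSingle j (v * u⁻¹) * Pi.mulSingle j u : PiK D) = Pi.mulSingle j v := by
      rw [← Pi.mulSingle_mul]
      congr 1
      group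
    rw [h1, mulSingle_pow_aux]
    intro h
    have h2 := congrFun h j
    simp only [Pi.mulSingle_eq_same, Pi.one_apply] at h2
    have h3 : v ^ P j = 1 := (D j).exp_p v hv
    have h4 : v ∈ (⊥ : Subgroup (D j).K) := (D j).mem_of_pow_mem (hP j) (hQ j) (hPQ j)
      (m := Q j) (n := P j) ((Nat.coprime_primes (hQ j) (hP j)).2 (hPQ j).symm) h3 (by rw [h2]; exact Subgroup.one_mem _)
    exact hv1 (by rwa [Subgroup.mem_bot] at h4)

end Family

/-- A finite group is critical with respect to a set Ω of natural numbers when its set of element orders is Ω while no proper section H/N (H a subgroup, N normal in H, (H, N) ≠ (whole group, 1)) has Ω as its set of element orders. Let s ≥ 1 and let p(j,0), p(j,1) (j < s) be 2s pairwise distinct primes, and let Ω be the set of all products c(0)·…·c(s−1) with each c(j) ∈ {1, p(j,0), p(j,1)}. Then there are 2^s pairwise non-isomorphic finite groups critical with respect to Ω. -/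
theorem result (s : ℕ) (hs : 1 ≤ s) (p : Fin s → Fin 2 → ℕ)
    (hp : ∀ j i, (p j i).Prime) (hinj : ∀ j i j' i', p j i = p j' i' → j = j' ∧ i = i') :
    ∃ (G : Fin (2 ^ s) → Type) (_ : ∀ a, Group (G a)) (_ : ∀ a, Fintype (G a)),
      (∀ a b, a ≠ b → ¬ Nonempty (G a ≃* G b)) ∧
      ∀ a, Set.range (orderOf : (G a) → ℕ) = {m : ℕ | ∃ c : Fin s → ℕ, (∀ j, c j = 1 ∨ c j = p j 0 ∨ c j = p j 1) ∧ m = ∏ j, c j} ∧
      ∀ (H : Subgroup (G a)) (N : Subgroup ↥H) [N.Normal], (H ≠ ⊤ ∨ N ≠ ⊥) → Set.range (orderOf : (↥H ⧸ N) → ℕ) ≠ {m : ℕ | ∃ c : Fin s → ℕ, (∀ j, c j = 1 ∨ c j = p j 0 ∨ c j = p j 1) ∧ m = ∏ j, c j} := by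
  classical
  -- the bits
  let bit : Fin (2 ^ s) → Fin s → Fin 2 := fun a j => if a.val.testBit j.val then 1 else 0
  let P : Fin (2 ^ s) → Fin s → ℕ := fun a j => p j (bit a j)
  let Q : Fin (2 ^ s) → Fin s → ℕ := fun a j => p j (bit a j + 1)
  have hbit : ∀ x : Fin 2, x + 1 ≠ x := by decide
  have hPQ : ∀ a j, P a j ≠ Q a j := by
    intro a j h
    exact hbit _ (hinj _ _ _ _ h).2.symm
  have hne : ∀ a i j, i ≠ j → P a i ≠ P a j ∧ P a i ≠ Q a j ∧ Q a i ≠ P a j ∧ Q a i ≠ Q a j := by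
    intro a i j hij
    refine ⟨fun h => hij (hinj _ _ _ _ h).1, fun h => hij (hinj _ _ _ _ h).1, fun h => hij (hinj _ _ _ _ h).1,
      fun h => hij (hinj _ _ _ _ h).1⟩
  have hP : ∀ a j, (P a j).Prime := fun a j => hp _ _
  have hQ : ∀ a j, (Q a j).Prime := fun a j => hp _ _
  let D : ∀ a j, Frob (P a j) (Q a j) := fun a j => Classical.choice (exists_frob (hP a j) (hQ a j) (hPQ a j))
  have hset : ∀ a, {m : ℕ | ∃ c : Fin s → ℕ, (∀ j, c j = 1 ∨ c j = p j 0 ∨ c j = p j 1) ∧ m = ∏ j, c j} =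
      {m : ℕ | ∃ c : Fin s → ℕ, (∀ j, c j = 1 ∨ c j = P a j ∨ c j = Q a j) ∧ m = ∏ j, c j} := by
    intro a
    have h2 : ∀ x : Fin 2, (x = 0 ∧ x + 1 = 1) ∨ (x = 1 ∧ x + 1 = 0) := by decide
    have h3 : ∀ (j : Fin s) (t : ℕ), (t = 1 ∨ t = p j 0 ∨ t = p j 1) ↔ (t = 1 ∨ t = P a j ∨ t = Q a j) := by
      intro j t
      show _ ↔ (t = 1 ∨ t = p j (bit a j) ∨ t = p j (bit a j + 1))
      generalize bit a j = y
      have h0 : (0 : Fin 2) + 1 = 1 := rfl
      have h1 : (1 : Fin 2) + 1 = 0 := rfl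
      rcases h2 y with ⟨rfl, -⟩ | ⟨rfl, -⟩
      · rw [h0]
      · rw [h1]
        tauto
    ext m
    simp only [Set.mem_setOf_eq, h3]
  refine ⟨fun a => ∀ j, (D a j).K, fun a => Pi.group, fun a => inferInstance, ?_, ?_⟩
  · -- non-isomorphic
    intro a b hab ⟨φ⟩
    have hex : ∃ j : Fin s, bit a j ≠ bit b j := by
      by_contra hno
      push Not at hno
      apply hab
      apply Fin.ext
      apply Nat.eq_of_testBit_eq
      intro i
      by_cases hi : i < s
      · have h1 := hno ⟨i, hi⟩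
        simp only [bit] at h1
        by_cases h3 : (a : ℕ).testBit i <;> by_cases h4 : (b : ℕ).testBit i <;> simp_all
      · have h5 : ∀ c : Fin (2 ^ s), (c : ℕ).testBit i = false := fun c =>
          Nat.testBit_eq_false_of_lt (lt_of_lt_of_le c.2 (Nat.pow_le_pow_right (by norm_num) (by omega)))
        rw [h5, h5]
    obtain ⟨j, hj⟩ := hex
    have h2 : ∀ x y : Fin 2, x ≠ y → x = y + 1 := by decide
    have hPb : P a j = Q b j := by
      show p j (bit a j) = p j (bit b j + 1)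
      rw [← h2 _ _ hj]
    have hcl := closed_of_P (D a) (hP a) (hQ a) (hPQ a) (hne a) j (r := P a j) rfl
    obtain ⟨x, y, hx, hy, hxy⟩ := not_closed_of_Q (D b) (hP b) (hQ b) (hPQ b) j (r := P a j) hPb.symm
    apply hxy
    have h3 := hcl (φ.symm x) (φ.symm y) (by rw [← map_pow, hx, map_one]) (by rw [← map_pow, hy, map_one])
    rw [← map_mul, ← map_pow] at h3
    have h4 := congrArg φ h3
    simpa using h4
  · intro a
    rw [hset a]
    refine ⟨spectrum (D a) (hP a) (hQ a) (hPQ a) (hne a), ?_⟩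
    intro H N _ hHN hrange
    have hex : ∀ j (r : ℕ), r = P a j ∨ r = Q a j → ∃ h ∈ H, h ∉ N.map H.subtype ∧ h ^ r ∈ N.map H.subtype := by
      intro j r hr
      have hr' : r ∈ Set.range (orderOf : (↥H ⧸ N) → ℕ) := by
        rw [hrange]
        refine ⟨Function.update (fun _ => 1) j r, ?_, ?_⟩
        · intro i
          by_cases hi : i = j
          · subst hi
            rw [Function.update_self]
            rcases hr with h | h
            · exact Or.inr (Or.inl h)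
            · exact Or.inr (Or.inr h)
          · rw [Function.update_of_ne hi]
            exact Or.inl rfl
        · rw [Finset.prod_update_of_mem (Finset.mem_univ j)]
          simp
      obtain ⟨g, hg⟩ := hr'
      obtain ⟨h, rfl⟩ := QuotientGroup.mk_surjective g
      have hrp : r.Prime := by
        rcases hr with rfl | rfl
        · exact hP a j
        · exact hQ a j
      have h1 : ((h : ↥H ⧸ N)) ^ r = 1 := by
        rw [← hg]
        exact pow_orderOf_eq_one _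
      have h2 : (h : ↥H ⧸ N) ≠ 1 := by
        intro h3
        rw [h3, orderOf_one] at hg
        exact hrp.one_lt.ne hg
      rw [← QuotientGroup.mk_pow, QuotientGroup.eq_one_iff] at h1
      rw [Ne, QuotientGroup.eq_one_iff] at h2
      refine ⟨h, h.2, ?_, ?_⟩
      · rintro ⟨n, hn, hnh⟩
        apply h2
        have : n = h := Subtype.ext hnh
        rwa [← this]
      · exact ⟨_, h1, by simp⟩
    obtain ⟨h1, h2⟩ := critical_core (D a) (hP a) (hQ a) (hPQ a) (hne a) H (N.map H.subtype)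
      (by
        rintro _ ⟨n, _, rfl⟩
        exact n.2)
      (by
        rintro h hh _ ⟨n, hn, rfl⟩
        haveI : N.Normal := inferInstance
        exact ⟨⟨h, hh⟩ * n * ⟨h, hh⟩⁻¹, ‹N.Normal›.conj_mem n hn ⟨h, hh⟩, by simp⟩)
      hex
    rcases hHN with hH | hN
    · exact hH h1
    · apply hN
      rw [eq_bot_iff]
      intro n hn
      have : ((n : ↥H) : (∀ j, (D a j).K)) ∈ N.map H.subtype := ⟨n, hn, rfl⟩
      rw [h2, Subgroup.mem_bot] at this
      rw [Subgroup.mem_bot]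
      exact Subtype.ext this

end Cfsg.Agent.S3599
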