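import Cfsg.Statements.S3619
import Mathlib

set_option autoImplicit false
open Cfsg

namespace Cfsg.Agent.S3619

open MulAction SubMulAction
open scoped Pointwise

/-- Block dichotomy for a Jordan set. -/
lemma block_dichotomy {G Ω : Type*} [Group G] [MulAction G Ω] (Γ : Set Ω)
    (hJ : IsPretransitive ↥(fixingSubgroup G Γᶜ) ↥(ofFixingSubgroup G Γᶜ))
    {B : Set Ω} (hB : IsBlock G B) {x : Ω} (hxB : x ∈ B) (hxΓ : x ∈ Γ) : Γ ⊆ B ∨ B ⊆ Γ := by
  by_contra hc
  push Not at hc
  obtain ⟨h1, h2⟩ := hc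
  obtain ⟨y, hyΓ, hyB⟩ := Set.not_subset.mp h1
  obtain ⟨z, hzB, hzΓ⟩ := Set.not_subset.mp h2
  have hx' : x ∈ ofFixingSubgroup G Γᶜ := by
    show x ∉ Γᶜ
    simpa using hxΓ
  have hy' : y ∈ ofFixingSubgroup G Γᶜ := by
    show y ∉ Γᶜ
    simpa using hyΓ
  obtain ⟨h, hh⟩ := hJ.exists_smul_eq ⟨x, hx'⟩ ⟨y, hy'⟩
  have hhx : (h : G) • x = y := congrArg Subtype.val hh
  have hhz : (h : G) • z = z := (mem_fixingSubgroup_iff G).mp h.2 z hzΓ
  have hne : ((h : G) • B).Nonempty ∧ True := ⟨⟨y, hhx ▸ Set.smul_mem_smul_set hxB⟩, trivial⟩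
  have hblock := (isBlock_iff_smul_eq_of_nonempty.mp hB) (g := (h : G))
    ⟨z, by
      have : z ∈ (h : G) • B := by
        rw [← hhz]
        exact Set.smul_mem_smul_set hzB
      exact this, hzB⟩
  apply hyB
  rw [← hblock, ← hhx]
  exact Set.smul_mem_smul_set hxB

/-- The kernel of the action on the translates of a block. -/
def blockKernel {G Ω : Type*} [Group G] [MulAction G Ω] (B : Set Ω) : Subgroup G :=
  ⨅ g : G, stabilizer G (g • B)

lemma mem_blockKernel {G Ω : Type*} [Group G] [MulAction G Ω] (B : Set Ω) (k : G) :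
    k ∈ blockKernel B ↔ ∀ g : G, k • (g • B) = g • B := by
  simp only [blockKernel, Subgroup.mem_iInf, mem_stabilizer_iff]

lemma blockKernel_normal {G Ω : Type*} [Group G] [MulAction G Ω] (B : Set Ω) :
    (blockKernel (G := G) B).Normal := by
  constructor
  intro k hk a
  rw [mem_blockKernel] at hk ⊢
  intro g
  have := hk (a⁻¹ * g)
  rw [mul_smul] at this
  calc (a * k * a⁻¹) • g • B = a • k • (a⁻¹ • g • B) := by simp only [mul_smul]
    _ = a • (a⁻¹ • g • B) := by rw [this]
    _ = g • B := by rw [smul_inv_smul]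

/-- If `Γ` lies in a block `B`, then the pointwise stabilizer of the complement preserves the system. -/
lemma fixing_le_blockKernel {G Ω : Type*} [Group G] [MulAction G Ω] (Γ : Set Ω) {B : Set Ω}
    (hB : IsBlock G B) (hΓB : Γ ⊆ B) (h : G) (hh : h ∈ fixingSubgroup G Γᶜ) : h ∈ blockKernel B := by
  rw [mem_blockKernel]
  intro g
  by_cases hg : g • B = B
  · rw [hg]
    by_cases hΓ : Γ.Nonempty
    · obtain ⟨x, hx⟩ := hΓ
      apply (isBlock_iff_smul_eq_of_nonempty.mp hB)
      by_cases hhx : h • x ∈ Γ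
      · exact ⟨h • x, Set.smul_mem_smul_set (hΓB hx), hΓB hhx⟩
      · have h2 : h • (h • x) = h • x := (mem_fixingSubgroup_iff G).mp hh _ hhx
        have h3 : h • x = x := smul_left_cancel h h2
        rw [h3] at hhx
        exact absurd hx hhx
    · ext y
      constructor
      · rintro ⟨z, hz, rfl⟩
        have hzΓ : z ∉ Γ := fun h' => hΓ ⟨z, h'⟩
        have : h • z = z := (mem_fixingSubgroup_iff G).mp hh z hzΓ
        simpa [this] using hz
      · intro hy
        have hyΓ : y ∉ Γ := fun h' => hΓ ⟨y, h'⟩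
        have : h • y = y := (mem_fixingSubgroup_iff G).mp hh y hyΓ
        exact ⟨y, hy, this⟩
  · have hdis : Disjoint (g • B) B := by
      have := hB (g₁ := g) (g₂ := 1) (by rwa [one_smul])
      rwa [one_smul] at this
    have hfix : ∀ y ∈ g • B, h • y = y := by
      intro y hy
      apply (mem_fixingSubgroup_iff G).mp hh
      intro hyΓ
      exact Set.disjoint_left.mp hdis hy (hΓB hyΓ)
    ext y
    constructor
    · rintro ⟨z, hz, rfl⟩
      show h • z ∈ _
      rw [hfix z hz]
      exact hz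
    · intro hy
      exact ⟨y, hy, hfix y hy⟩

/-- Quasiprimitive + Jordan set with a primitive group: primitive. -/
theorem isPreprimitive_of_quasi {G Ω : Type*} [Group G] [MulAction G Ω] [FaithfulSMul G Ω] [Finite Ω]
    (hqp : ∀ N : Subgroup G, N.Normal → N ≠ ⊥ → IsPretransitive ↥N Ω)
    (Γ : Set Ω) (hΓ1 : 1 < Γ.ncard)
    (hJ : IsPretransitive ↥(fixingSubgroup G Γᶜ) ↥(ofFixingSubgroup G Γᶜ))
    (hJp : IsPreprimitive ↥(fixingSubgroup G Γᶜ) ↥(ofFixingSubgroup G Γᶜ)) :
    IsPreprimitive G Ω := by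
  classical
  obtain ⟨a, ha, b, hb, hab⟩ := (Set.one_lt_ncard (Set.toFinite Γ)).mp hΓ1
  have hHne : fixingSubgroup G Γᶜ ≠ ⊥ := by
    intro hbot
    have ha' : a ∈ ofFixingSubgroup G Γᶜ := by
      show a ∉ Γᶜ
      simpa using ha
    have hb' : b ∈ ofFixingSubgroup G Γᶜ := by
      show b ∉ Γᶜ
      simpa using hb
    obtain ⟨h, hh⟩ := hJ.exists_smul_eq ⟨a, ha'⟩ ⟨b, hb'⟩
    have hall : ∀ x ∈ fixingSubgroup G Γᶜ, x = 1 := by
      rw [hbot]
      intro x hx
      exact hx
    have h1 : (h : G) = 1 := hall _ h.2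
    have h2 : (h : G) • a = b := congrArg Subtype.val hh
    rw [h1, one_smul] at h2
    exact hab h2
  have hGne : (⊤ : Subgroup G) ≠ ⊥ := by
    intro h
    apply hHne
    rw [eq_bot_iff, ← h]
    exact le_top
  have htr : IsPretransitive G Ω := by
    have := hqp ⊤ inferInstance hGne
    constructor
    intro x y
    obtain ⟨g, hg⟩ := this.exists_smul_eq x y
    exact ⟨g, hg⟩
  refine { toIsPretransitive := htr, isTrivialBlock_of_isBlock := ?_ }
  intro B hB
  by_contra hB'
  unfold IsTrivialBlock at hB'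
  push Not at hB'
  obtain ⟨hBs, hBu⟩ := hB'
  obtain ⟨x, hx, y, hy, hxy⟩ := hBs
  -- translate
  obtain ⟨g, hg⟩ := htr.exists_smul_eq x a
  have hB2 : IsBlock G (g • B) := hB.translate g
  have ha2 : a ∈ g • B := hg ▸ Set.smul_mem_smul_set hx
  have hns : ¬ (g • B).Subsingleton := by
    intro h
    apply hxy
    have := h (Set.smul_mem_smul_set (a := g) hx) (Set.smul_mem_smul_set (a := g) hy)
    exact smul_left_cancel g this
  have hnu : g • B ≠ Set.univ := by
    intro h
    apply hBu
    have : B = g⁻¹ • (g • B) := by simp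
    rw [this, h]
    simp
  have hkey : Γ ⊆ g • B := by
    rcases block_dichotomy Γ hJ hB2 ha2 ha with h | h
    · exact h
    · have hB3 : IsBlock ↥(fixingSubgroup G Γᶜ) (g • B) := hB2.subgroup
      have hB4 : IsBlock ↥(fixingSubgroup G Γᶜ) (Subtype.val ⁻¹' (g • B) : Set (ofFixingSubgroup G Γᶜ)) :=
        hB3.subtype_val_preimage
      rcases hJp.isTrivialBlock_of_isBlock hB4 with h5 | h5
      · exfalso
        apply hns
        intro u hu v hv
        have hu' : u ∈ ofFixingSubgroup G Γᶜ := by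
          show u ∉ Γᶜ
          simpa using h hu
        have hv' : v ∈ ofFixingSubgroup G Γᶜ := by
          show v ∉ Γᶜ
          simpa using h hv
        have hu2 : (⟨u, hu'⟩ : ofFixingSubgroup G Γᶜ) ∈ (Subtype.val ⁻¹' (g • B) : Set (ofFixingSubgroup G Γᶜ)) := hu
        have hv2 : (⟨v, hv'⟩ : ofFixingSubgroup G Γᶜ) ∈ (Subtype.val ⁻¹' (g • B) : Set (ofFixingSubgroup G Γᶜ)) := hv
        exact congrArg Subtype.val (h5 hu2 hv2)
      · intro u hu
        have hu' : u ∈ ofFixingSubgroup G Γᶜ := by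
          show u ∉ Γᶜ
          simpa using hu
        have : (⟨u, hu'⟩ : ofFixingSubgroup G Γᶜ) ∈ (Subtype.val ⁻¹' (g • B) : Set (ofFixingSubgroup G Γᶜ)) := by
          rw [h5]
          trivial
        exact this
  -- the kernel
  have hKn := blockKernel_normal (G := G) (g • B)
  have hKne : blockKernel (G := G) (g • B) ≠ ⊥ := by
    intro hbot
    apply hHne
    rw [eq_bot_iff, ← hbot]
    intro h hh
    exact fixing_le_blockKernel Γ hB2 hkey h hh
  have hKt := hqp _ hKn hKne
  obtain ⟨z, hz⟩ : ∃ z, z ∉ g • B := by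
    by_contra hc
    push Not at hc
    exact hnu (Set.eq_univ_of_forall hc)
  obtain ⟨k, hk⟩ := hKt.exists_smul_eq a z
  have h1 : (k : G) • ((1 : G) • (g • B)) = (1 : G) • (g • B) := ((mem_blockKernel _ _).mp k.2) 1
  rw [one_smul] at h1
  apply hz
  have hk' : (k : G) • a = z := hk
  rw [← hk']
  have h3 : (k : G) • a ∈ (k : G) • (g • B) := Set.smul_mem_smul_set ha2
  rwa [h1] at h3



/-- Let G act faithfully on a finite set in such a way that every non-trivial normal subgroup of G is transitive (G is quasiprimitive). Let Γ be a subset with more than one point and not the whole set, such that the pointwise stabilizer of the complement of Γ acts transitively on Γ (a Jordan set). If that pointwise stabilizer acts primitively on Γ, then G is k-fold transitive where k is one more than the number of points outside Γ (the Jordan set is a trivial one). -/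
theorem result {G Ω : Type*} [Group G] [Finite G] [MulAction G Ω] [FaithfulSMul G Ω] [Finite Ω]
    (hqp : ∀ N : Subgroup G, N.Normal → N ≠ ⊥ → MulAction.IsPretransitive ↥N Ω)
    (Γ : Set Ω) (hΓ1 : 1 < Γ.ncard) (hΓ2 : Γ.ncard < Nat.card Ω)
    (hJ : MulAction.IsPretransitive ↥(fixingSubgroup G Γᶜ) ↥(SubMulAction.ofFixingSubgroup G Γᶜ))
    (hJp : MulAction.IsPreprimitive ↥(fixingSubgroup G Γᶜ) ↥(SubMulAction.ofFixingSubgroup G Γᶜ)) :
    MulAction.IsMultiplyPretransitive G Ω (Nat.card Ω - Γ.ncard + 1) := by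
  haveI := hJp
  have hprim := isPreprimitive_of_quasi hqp Γ hΓ1 hJ hJp
  have hcompl : Γᶜ.ncard + Γ.ncard = Nat.card Ω := by
    rw [add_comm]
    exact Set.ncard_add_ncard_compl Γ
  set n := Γᶜ.ncard - 1 with hn
  have hsn : Γᶜ.ncard = n + 1 := by omega
  have hsn' : n + 2 < Nat.card Ω := by omega
  have := hprim.isMultiplyPreprimitive hsn hsn' hJp
  have h2 : Nat.card Ω - Γ.ncard + 1 = n + 2 := by omega
  rw [h2]
  exact this.isMultiplyPretransitive

end Cfsg.Agent.S3619
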