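import Cfsg.Statements.S3620
import Mathlib
import Cfsg.Agent.Lib.Recog.JordanAlt
import Cfsg.Agent.S3619

set_option autoImplicit false
open Cfsg

namespace Cfsg.Agent.S3620

open MulAction SubMulAction Cfsg.Agent.Lib.Recog
open scoped Pointwise

/-- Primitive + Jordan: 2-transitive. -/
lemma two_trans_of_jordan {G D : Type*} [Group G] [MulAction G D] [Fintype D] [DecidableEq D]
    (hprim : IsPreprimitive G D) (Γ : Finset D) (hJ : IsJ G Γ) (hm2 : 2 ≤ Γ.card) (hsz : 2 * Γ.card < Fintype.card D) :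
    IsMultiplyPretransitive G D 2 := by
  classical
  set s : Set D := (Γ : Set D)ᶜ with hs
  have hcompl : (Γ : Set D).ncard + s.ncard = Nat.card D := Set.ncard_add_ncard_compl _
  have hΓc : (Γ : Set D).ncard = Γ.card := Set.ncard_coe_finset Γ
  rw [hΓc, Nat.card_eq_fintype_card] at hcompl
  set n := s.ncard - 1 with hn
  have hsn : s.ncard = n + 1 := by omega
  have hsn' : n + 2 < Nat.card D := by
    rw [Nat.card_eq_fintype_card]
    omega
  have hs_trans : IsPretransitive ↥(fixingSubgroup G s) ↥(ofFixingSubgroup G s) := by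
    constructor
    rintro ⟨x, hx⟩ ⟨y, hy⟩
    have hx' : x ∈ Γ := by
      have h0 : x ∉ s := hx
      simpa [hs] using h0
    have hy' : y ∈ Γ := by
      have h0 : y ∉ s := hy
      simpa [hs] using h0
    obtain ⟨g, hg, hgx⟩ := hJ x hx' y hy'
    refine ⟨⟨g, (mem_fixingSubgroup_iff G).mpr (fun z hz => hg z (by simpa [hs] using hz))⟩, ?_⟩
    exact Subtype.ext hgx
  exact hprim.is_two_pretransitive hsn hsn' hs_trans

/-- The primitive case: the group contains the alternating group. -/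
theorem alt_of_primitive {G Ω : Type*} [Group G] [Fintype G] [MulAction G Ω] [Fintype Ω] [DecidableEq Ω]
    (hprim : IsPreprimitive G Ω) (Γ : Finset Ω) (hJ : IsJ G Γ) (hm2 : 2 ≤ Γ.card) (hsz : 2 * Γ.card < Fintype.card Ω)
    (σ : Equiv.Perm Ω) (hσ : Equiv.Perm.sign σ = 1) : ∃ x : G, (MulAction.toPerm x : Equiv.Perm Ω) = σ := by
  classical
  have h2 := two_trans_of_jordan hprim Γ hJ hm2 hsz
  obtain ⟨u, hu, v, hv, huv⟩ := Finset.one_lt_card.mp (by omega : 1 < Γ.card)
  obtain ⟨σ₀, hσ₀, hσ₀u⟩ := hJ u hu v hv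
  obtain ⟨g, hgu, hg⟩ := exists_translate_one Γ hJ h2 hm2 hsz u hu
  have hgi : g⁻¹ • u = u := by rw [inv_smul_eq_iff, hgu]
  set τ := g * σ₀ * g⁻¹ with hτ
  have hτfix : ∀ z, z ∉ {d | g⁻¹ • d ∈ Γ} → τ • z = z := by
    intro z hz
    simp only [hτ, mul_smul]
    rw [hσ₀ _ hz, smul_inv_smul]
  have hτu : τ • u ≠ u := by
    simp only [hτ, mul_smul]
    rw [hgi, hσ₀u]
    intro h
    rw [← hgu] at h
    exact huv (smul_left_cancel g h).symm
  have hPQ : ∀ d, d ∈ (Γ : Set Ω) → d ∈ {d | g⁻¹ • d ∈ Γ} → d = u := by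
    intro d hd hd'
    have h1 := hg (g⁻¹ • d) hd' (by rwa [smul_inv_smul])
    rw [inv_smul_eq_iff, hgu] at h1
    exact h1
  obtain ⟨h3, -⟩ := comm_three_cycle (G := G) (Γ : Set Ω) {d | g⁻¹ • d ∈ Γ} u hu (by
    show g⁻¹ • u ∈ Γ
    rw [hgi]; exact hu) hPQ (σ := σ₀) (τ := τ) (fun z hz => hσ₀ z hz) hτfix (by rw [hσ₀u]; exact huv.symm) hτu
  let R : Subgroup (Equiv.Perm Ω) := (MulAction.toPermHom G Ω).range
  let φ : G → ↥R := (MulAction.toPermHom G Ω).rangeRestrict
  let f : Ω →ₑ[φ] Ω := { toFun := id, map_smul' := fun _ _ => rfl }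
  have hRp : IsPreprimitive ↥R Ω := IsPreprimitive.of_surjective (f := f) Function.surjective_id
  have hA := Equiv.Perm.alternatingGroup_le_of_isPreprimitive_of_isThreeCycle_mem hRp h3
    ⟨σ₀ * τ * σ₀⁻¹ * τ⁻¹, rfl⟩
  obtain ⟨x, hx⟩ := hA (Equiv.Perm.mem_alternatingGroup.mpr hσ)
  exact ⟨x, hx⟩

/-- The imprimitive case is impossible. -/
theorem no_cover {G Ω D : Type*} [Group G] [Fintype G] [MulAction G Ω] [MulAction G D] [Fintype Ω] [Fintype D]
    [DecidableEq Ω] [DecidableEq D] (π : Ω → D) (hπ : ∀ (g : G) (z : Ω), π (g • z) = g • π z)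
    (hsurj : Function.Surjective π) (hfib : ∀ j : D, ∃ x x' : Ω, x ≠ x' ∧ π x = j ∧ π x' = j)
    (hfaith : ∀ g : G, (∀ d : D, g • d = d) → g = 1) (hprimD : IsPreprimitive G D) (Γ : Finset D)
    (hJΩ : ∀ x y : Ω, π x ∈ Γ → π y ∈ Γ → ∃ h : G, (∀ z, π z ∉ Γ → h • z = z) ∧ h • x = y)
    (hm2 : 2 ≤ Γ.card) (hsz : 2 * Γ.card < Fintype.card D)
    (hqp : ∀ N : Subgroup G, N.Normal → N ≠ ⊥ → IsPretransitive ↥N Ω) : False := by
  classical
  have hJ : IsJ G Γ := by
    intro x hx y hy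
    obtain ⟨x', rfl⟩ := hsurj x
    obtain ⟨y', rfl⟩ := hsurj y
    obtain ⟨h, hh, hhx⟩ := hJΩ x' y' hx hy
    refine ⟨h, fun d hd => ?_, ?_⟩
    · obtain ⟨z, rfl⟩ := hsurj d
      rw [← hπ, hh z hd]
    · rw [← hπ, hhx]
  have h2 := two_trans_of_jordan hprimD Γ hJ hm2 hsz
  obtain ⟨u, hu, v, hv, huv⟩ := Finset.one_lt_card.mp (by omega : 1 < Γ.card)
  obtain ⟨x₀, rfl⟩ := hsurj u
  obtain ⟨x₁, rfl⟩ := hsurj v
  obtain ⟨σ₀, hσ₀, hσ₀u⟩ := hJΩ x₀ x₁ hu hv
  set u := π x₀ with hudef
  set v := π x₁ with hvdef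
  have hσ₀uD : σ₀ • u = v := by rw [hudef, ← hπ, hσ₀u]
  have hσ₀D : ∀ d, d ∉ (Γ : Set D) → σ₀ • d = d := by
    intro d hd
    obtain ⟨z, rfl⟩ := hsurj d
    rw [← hπ, hσ₀ z hd]
  obtain ⟨g, hgu, hg⟩ := exists_translate_one Γ hJ h2 hm2 hsz u hu
  have hgi : g⁻¹ • u = u := by rw [inv_smul_eq_iff, hgu]
  set τ := g * σ₀ * g⁻¹ with hτ
  have hτΩ : ∀ z, π z ∉ {d | g⁻¹ • d ∈ Γ} → τ • z = z := by
    intro z hz
    simp only [hτ, mul_smul]
    have h1 : π (g⁻¹ • z) ∉ Γ := by
      rw [hπ]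
      exact hz
    rw [hσ₀ _ h1, smul_inv_smul]
  have hτD : ∀ d, d ∉ {d | g⁻¹ • d ∈ Γ} → τ • d = d := by
    intro d hd
    obtain ⟨z, rfl⟩ := hsurj d
    rw [← hπ, hτΩ z hd]
  have hτu : τ • u ≠ u := by
    simp only [hτ, mul_smul]
    rw [hgi, hσ₀uD]
    intro h
    rw [← hgu] at h
    exact huv (smul_left_cancel g h).symm
  have hPQ : ∀ d, d ∈ (Γ : Set D) → d ∈ {d | g⁻¹ • d ∈ Γ} → d = u := by
    intro d hd hd'
    have h1 := hg (g⁻¹ • d) hd' (by rwa [smul_inv_smul])
    rw [inv_smul_eq_iff, hgu] at h1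
    exact h1
  obtain ⟨hc3, hcfix⟩ := comm_three_cycle (G := G) (Γ : Set D) {d | g⁻¹ • d ∈ Γ} u hu (by
    show g⁻¹ • u ∈ Γ
    rw [hgi]; exact hu) hPQ (σ := σ₀) (τ := τ) hσ₀D hτD (by rw [hσ₀uD]; exact huv.symm) hτu
  set c := σ₀ * τ * σ₀⁻¹ * τ⁻¹ with hc
  have hgood : ∀ z : Ω, (MulAction.toPerm c : Equiv.Perm D) (π z) = π z → c • z = z := by
    intro z hz
    obtain ⟨h1, h2', h3⟩ := hcfix _ hz
    exact comm_fix hπ (Γ : Set D) {d | g⁻¹ • d ∈ Γ} u hPQ (σ := σ₀) (τ := τ) (fun z hz => hσ₀ z hz) hτΩ z h1 h2' h3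
  -- the image contains the alternating group
  let R : Subgroup (Equiv.Perm D) := (MulAction.toPermHom G D).range
  let φ : G → ↥R := (MulAction.toPermHom G D).rangeRestrict
  let f : D →ₑ[φ] D := { toFun := id, map_smul' := fun _ _ => rfl }
  have hRp : IsPreprimitive ↥R D := IsPreprimitive.of_surjective (f := f) Function.surjective_id
  have hA := Equiv.Perm.alternatingGroup_le_of_isPreprimitive_of_isThreeCycle_mem hRp hc3 ⟨c, rfl⟩
  have h5 : 5 ≤ Nat.card D := by
    rw [Nat.card_eq_fintype_card]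
    omega
  -- lifts of 3-cycles
  have hL : ∀ ρ : Equiv.Perm D, ρ.IsThreeCycle → ∃ a : G, (MulAction.toPerm a : Equiv.Perm D) = ρ ∧
      ∀ z : Ω, ρ (π z) = π z → a • z = z := by
    intro ρ hρ
    have hconj := alternatingGroup.isThreeCycle_isConj h5
      (σ := ⟨MulAction.toPerm c, hc3.mem_alternatingGroup⟩) (τ := ⟨ρ, hρ.mem_alternatingGroup⟩) hc3 hρ
    obtain ⟨ψ, hψ⟩ := isConj_iff.mp hconj
    obtain ⟨b, hb⟩ := hA ψ.2
    have hψ' : (ψ : Equiv.Perm D) * MulAction.toPerm c * (ψ : Equiv.Perm D)⁻¹ = ρ := congrArg Subtype.val hψ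
    have hb' : ∀ d : D, b • d = (ψ : Equiv.Perm D) d := fun d => DFunLike.congr_fun hb d
    have hρd : ∀ d, ρ d = b • c • b⁻¹ • d := by
      intro d
      have hbi : (ψ : Equiv.Perm D)⁻¹ d = b⁻¹ • d := by
        rw [Equiv.Perm.inv_eq_iff_eq, ← hb', smul_inv_smul]
      rw [← hψ']
      simp only [Equiv.Perm.coe_mul, Function.comp_apply]
      rw [hbi, ← hb']
      rfl
    refine ⟨b * c * b⁻¹, ?_, ?_⟩
    · ext d
      rw [hρd]
      simp [mul_smul]
    · intro z hz
      have h1 : c • (b⁻¹ • z) = b⁻¹ • z := by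
        apply hgood
        show c • π (b⁻¹ • z) = π (b⁻¹ • z)
        rw [hπ]
        have := hρd (π z)
        rw [hz] at this
        have h9 : b⁻¹ • π z = c • b⁻¹ • π z := by
          rw [inv_smul_eq_iff]
          exact this
        exact h9.symm
      simp only [mul_smul]
      rw [h1, smul_inv_smul]
  -- even elements fixing a block
  have hM : ∀ e : G, Equiv.Perm.sign (MulAction.toPerm e : Equiv.Perm D) = 1 → ∀ z : Ω, e • π z = π z → e • z = z := by
    intro e he z hez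
    set j := π z with hj
    let E : Subgroup (Equiv.Perm D) :=
      { carrier := {ρ | ∃ a : G, (MulAction.toPerm a : Equiv.Perm D) = ρ ∧ ∀ w : Ω, π w = j → a • w = w}
        one_mem' := ⟨1, by ext d; simp, fun w _ => one_smul _ _⟩
        mul_mem' := by
          rintro _ _ ⟨a, rfl, ha⟩ ⟨b, rfl, hb⟩
          refine ⟨a * b, by ext d; simp [mul_smul], fun w hw => ?_⟩
          rw [mul_smul, hb w hw, ha w hw]
        inv_mem' := by
          rintro _ ⟨a, rfl, ha⟩
          refine ⟨a⁻¹, by ext d; simp, fun w hw => ?_⟩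
          rw [inv_smul_eq_iff, ha w hw] }
    have h3E : ∀ ρ : Equiv.Perm D, ρ.IsThreeCycle → ρ j = j → ρ ∈ E := by
      intro ρ hρ hρj
      obtain ⟨a, ha, ha'⟩ := hL ρ hρ
      refine ⟨a, ha, fun w hw => ha' w ?_⟩
      rw [hw, hρj]
    let p : D → Prop := fun d => d ≠ j
    have hρ₀j : (MulAction.toPerm e : Equiv.Perm D) j = j := hez
    have h₁ : ∀ x, p ((MulAction.toPerm e : Equiv.Perm D) x) ↔ p x := by
      intro x
      simp only [p, ne_eq, not_iff_not]
      constructor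
      · intro h
        apply (MulAction.toPerm e : Equiv.Perm D).injective
        rw [h, hρ₀j]
      · rintro rfl
        exact hρ₀j
    have h₂ : ∀ x, (MulAction.toPerm e : Equiv.Perm D) x ≠ x → p x := by
      intro x hx h
      rw [h] at hx
      exact hx hρ₀j
    set ρ₁ := (MulAction.toPerm e : Equiv.Perm D).subtypePerm h₁ with hρ₁
    have hs : Equiv.Perm.sign ρ₁ = 1 := by
      rw [hρ₁, Equiv.Perm.sign_subtypePerm _ h₁ h₂, he]
    have hcl : ρ₁ ∈ Subgroup.closure {σ : Equiv.Perm {d // p d} | σ.IsThreeCycle} := by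
      rw [Equiv.Perm.closure_three_cycles_eq_alternating]
      exact Equiv.Perm.mem_alternatingGroup.mpr hs
    have hE : ∀ ρ ∈ Subgroup.closure {σ : Equiv.Perm {d // p d} | σ.IsThreeCycle},
        Equiv.Perm.ofSubtype ρ ∈ E := by
      intro ρ hρ
      induction hρ using Subgroup.closure_induction with
      | mem ρ hρ =>
        apply h3E
        · show (Equiv.Perm.ofSubtype ρ).cycleType = _
          rw [Equiv.Perm.cycleType_ofSubtype]
          exact hρ
        · exact Equiv.Perm.ofSubtype_apply_of_not_mem ρ (by simp [p])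
      | one => rw [map_one]; exact E.one_mem
      | mul x y _ _ hx hy => rw [map_mul]; exact E.mul_mem hx hy
      | inv x _ hx => rw [map_inv]; exact E.inv_mem hx
    have h4 := hE ρ₁ hcl
    rw [hρ₁, Equiv.Perm.ofSubtype_subtypePerm h₁ h₂] at h4
    obtain ⟨a, ha, ha'⟩ := h4
    have hae : a = e := by
      have h5' : a⁻¹ * e = 1 := by
        apply hfaith
        intro d
        rw [mul_smul, inv_smul_eq_iff]
        have := DFunLike.congr_fun ha d
        exact this.symm
      exact (inv_mul_eq_one.mp h5').symm ▸ rfl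
    rw [← hae]
    exact ha' z rfl
  -- the even subgroup is transitive
  let ψ : G →* ℤˣ := Equiv.Perm.sign.comp (MulAction.toPermHom G D)
  have hEne : ψ.ker ≠ ⊥ := by
    intro hbot
    have h1 : c ∈ ψ.ker := by
      rw [MonoidHom.mem_ker]
      exact hc3.sign
    rw [hbot, Subgroup.mem_bot] at h1
    have h6 := hc3.card_support
    rw [h1] at h6
    have h7 : (MulAction.toPerm (1 : G) : Equiv.Perm D) = 1 := by ext d; simp
    rw [h7] at h6
    simp at h6
  have htr := hqp ψ.ker inferInstance hEne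
  obtain ⟨x, x', hxx, hx, hx'⟩ := hfib u
  obtain ⟨e, he⟩ := htr.exists_smul_eq x x'
  have he' : (e : G) • x = x' := he
  have hej : (e : G) • π x = π x := by
    rw [← hπ, he', hx, hx']
  have := hM e (MonoidHom.mem_ker.mp e.2) x hej
  rw [he'] at this
  exact hxx this.symm



/-- Let G act faithfully on a finite set in such a way that every non-trivial normal subgroup of G is transitive (G is quasiprimitive). Let Γ be a subset with more than one point and fewer than half of the points, such that the pointwise stabilizer of the complement of Γ acts transitively on Γ. Then G induces every even permutation of the set (G is the alternating or the symmetric group). -/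
theorem result {G Ω : Type*} [Group G] [Finite G] [MulAction G Ω] [FaithfulSMul G Ω] [Fintype Ω] [DecidableEq Ω]
    (hqp : ∀ N : Subgroup G, N.Normal → N ≠ ⊥ → MulAction.IsPretransitive ↥N Ω)
    (Γ : Set Ω) (hΓ1 : 1 < Γ.ncard) (hΓ2 : 2 * Γ.ncard < Fintype.card Ω)
    (hJ : MulAction.IsPretransitive ↥(fixingSubgroup G Γᶜ) ↥(SubMulAction.ofFixingSubgroup G Γᶜ)) :
    ∀ σ : Equiv.Perm Ω, Equiv.Perm.sign σ = 1 → ∃ x : G, (MulAction.toPerm x : Equiv.Perm Ω) = σ := by
  classical
  letI := Fintype.ofFinite G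
  have hfinΓ : Γ.Finite := Set.toFinite Γ
  set Γf : Finset Ω := hfinΓ.toFinset with hΓf
  have hmemΓ : ∀ x, x ∈ Γf ↔ x ∈ Γ := fun x => hfinΓ.mem_toFinset
  have hcardΓ : Γ.ncard = Γf.card := Set.ncard_eq_toFinset_card Γ hfinΓ
  have hJ' : IsJ G Γf := by
    intro x hx y hy
    have hx' : x ∈ ofFixingSubgroup G Γᶜ := by
      show x ∉ Γᶜ
      simpa using (hmemΓ x).mp hx
    have hy' : y ∈ ofFixingSubgroup G Γᶜ := by
      show y ∉ Γᶜ
      simpa using (hmemΓ y).mp hy
    obtain ⟨h, hh⟩ := hJ.exists_smul_eq ⟨x, hx'⟩ ⟨y, hy'⟩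
    refine ⟨h, fun z hz => (mem_fixingSubgroup_iff G).mp h.2 z ?_, congrArg Subtype.val hh⟩
    simpa [hmemΓ] using hz
  have hcardΓ2 : 2 ≤ Γf.card := by omega
  obtain ⟨u₀, hu₀, v₀, hv₀, huv₀⟩ := Finset.one_lt_card.mp (by omega : 1 < Γf.card)
  have hfixne : ∃ h : G, h ∈ fixingSubgroup G Γᶜ ∧ h ≠ 1 := by
    obtain ⟨h, hh, hhu⟩ := hJ' u₀ hu₀ v₀ hv₀
    refine ⟨h, (mem_fixingSubgroup_iff G).mpr (fun z hz => hh z (by simpa [hmemΓ] using hz)), ?_⟩
    rintro rfl
    rw [one_smul] at hhu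
    exact huv₀ hhu
  haveI : Nontrivial G := by
    obtain ⟨h, -, hne⟩ := hfixne
    exact ⟨⟨h, 1, hne⟩⟩
  haveI : Nontrivial Ω := ⟨⟨u₀, v₀, huv₀⟩⟩
  have htop : IsPretransitive G Ω := by
    have := hqp ⊤ inferInstance top_ne_bot
    constructor
    intro x y
    obtain ⟨g, hg⟩ := this.exists_smul_eq x y
    exact ⟨g, hg⟩
  haveI := htop
  by_cases hprim : IsPreprimitive G Ω
  · exact alt_of_primitive hprim Γf hJ' hcardΓ2 (by omega)
  exfalso
  -- a maximal subgroup above a point stabilizer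
  have hnc : ¬ IsCoatom (stabilizer G u₀) := fun h => hprim ((isCoatom_stabilizer_iff_preprimitive G u₀).mp h)
  have hnetop : stabilizer G u₀ ≠ ⊤ := by
    intro h
    have h1 : v₀ = u₀ := by
      obtain ⟨g, hg⟩ := htop.exists_smul_eq u₀ v₀
      have : g ∈ stabilizer G u₀ := by rw [h]; trivial
      rw [← hg]
      exact this
    exact huv₀ h1.symm
  obtain ⟨S', hS'1, hS'2⟩ : ∃ S' : Subgroup G, stabilizer G u₀ < S' ∧ S' ≠ ⊤ := by
    by_contra hc
    push Not at hc
    exact hnc ⟨hnetop, fun K hK => hc K hK⟩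
  obtain ⟨S, hS, hS'S⟩ : ∃ S : Subgroup G, IsCoatom S ∧ S' ≤ S := by
    rcases eq_top_or_exists_le_coatom S' with h | h
    · exact absurd h hS'2
    · exact h
  obtain ⟨s, hsS', hsstab⟩ := Set.exists_of_ssubset hS'1
  have hsS : s ∈ S := hS'S hsS'
  have hstabS : stabilizer G u₀ ≤ S := hS'1.le.trans hS'S
  -- the quotient
  let D := G ⧸ S
  haveI : Fintype D := Fintype.ofFinite _
  haveI hDtr : IsPretransitive G D := inferInstance
  haveI : Nontrivial D := by
    obtain ⟨t, ht⟩ : ∃ t : G, t ∉ S := by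
      by_contra hc
      push Not at hc
      exact hS.1 (eq_top_iff.mpr fun x _ => hc x)
    refine ⟨⟨((1 : G) : G ⧸ S), ((t : G) : G ⧸ S), ?_⟩⟩
    intro h
    rw [QuotientGroup.eq] at h
    apply ht
    simpa using h
  have hprimD : IsPreprimitive G D := by
    rw [← isCoatom_stabilizer_iff_preprimitive G ((1 : G) : G ⧸ S)]
    rw [MulAction.stabilizer_quotient]
    exact hS
  have hex : ∀ z : Ω, ∃ g : G, g • u₀ = z := fun z => htop.exists_smul_eq u₀ z
  let π : Ω → D := fun z => ((Classical.choose (hex z) : G) : G ⧸ S)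
  have hπspec : ∀ (g : G), π (g • u₀) = (g : G ⧸ S) := by
    intro g
    have h1 := Classical.choose_spec (hex (g • u₀))
    show ((Classical.choose (hex (g • u₀)) : G) : G ⧸ S) = _
    rw [QuotientGroup.eq]
    apply hstabS
    have h2 : (Classical.choose (hex (g • u₀)))⁻¹ • (g • u₀) = u₀ := by
      rw [inv_smul_eq_iff]
      exact h1.symm
    rw [mem_stabilizer_iff, mul_smul]
    exact h2
  have hπ : ∀ (g : G) (z : Ω), π (g • z) = g • π z := by
    intro g z
    obtain ⟨a, rfl⟩ := hex z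
    rw [← mul_smul, hπspec, hπspec]
    rfl
  have hsurj : Function.Surjective π := by
    intro j
    induction j using QuotientGroup.induction_on with
    | _ g => exact ⟨g • u₀, hπspec g⟩
  have hfib : ∀ j : D, ∃ x x' : Ω, x ≠ x' ∧ π x = j ∧ π x' = j := by
    intro j
    induction j using QuotientGroup.induction_on with
    | _ g =>
      refine ⟨g • u₀, (g * s) • u₀, ?_, hπspec g, ?_⟩
      · intro h
        rw [mul_smul] at h
        have := smul_left_cancel g h
        exact hsstab this.symm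
      · rw [hπspec, QuotientGroup.eq]
        simpa [mul_inv_rev, mul_assoc] using S.inv_mem hsS
  have hfaith : ∀ g : G, (∀ d : D, g • d = d) → g = 1 := by
    by_contra hc
    push Not at hc
    obtain ⟨g, hg, hne⟩ := hc
    let K : Subgroup G := (toPermHom G D).ker
    have hK : K ≠ ⊥ := by
      intro hb
      have : g ∈ K := by
        rw [MonoidHom.mem_ker]
        ext d
        exact hg d
      rw [hb, Subgroup.mem_bot] at this
      exact hne this
    have htr := hqp K inferInstance hK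
    obtain ⟨j1, j2, hj⟩ := exists_pair_ne D
    obtain ⟨x, rfl⟩ := hsurj j1
    obtain ⟨y, rfl⟩ := hsurj j2
    obtain ⟨k, hk⟩ := htr.exists_smul_eq x y
    apply hj
    rw [← hk]
    show π x = π ((k : G) • x)
    rw [hπ]
    have := (MonoidHom.mem_ker.mp k.2)
    exact (DFunLike.congr_fun this (π x)).symm
  have hblock : ∀ j : D, IsBlock G (π ⁻¹' {j}) := by
    intro j
    let f : Ω →ₑ[(id : G → G)] D := { toFun := π, map_smul' := hπ }
    exact (IsBlock.singleton (G := G) (a := j)).preimage f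
  have hnotin : ∀ j : D, ¬ (Γ ⊆ π ⁻¹' {j}) := by
    intro j hsub
    have hle := Cfsg.Agent.S3619.fixing_le_blockKernel (G := G) Γ (hblock j) hsub
    obtain ⟨h, hh, hne⟩ := hfixne
    have hk : Cfsg.Agent.S3619.blockKernel (G := G) (π ⁻¹' {j}) ≠ ⊥ := by
      intro hb
      have := hle h hh
      rw [hb, Subgroup.mem_bot] at this
      exact hne this
    have htr := hqp _ (Cfsg.Agent.S3619.blockKernel_normal _) hk
    obtain ⟨j', hj'⟩ := exists_ne j
    obtain ⟨x, rfl⟩ := hsurj j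
    obtain ⟨y, rfl⟩ := hsurj j'
    obtain ⟨k, hk'⟩ := htr.exists_smul_eq x y
    have h1 := (Cfsg.Agent.S3619.mem_blockKernel _ _).mp k.2 1
    rw [one_smul] at h1
    have h2 : (k : G) • x ∈ ((k : G) • (π ⁻¹' {π x})) := Set.smul_mem_smul_set rfl
    rw [h1] at h2
    have h3 : π ((k : G) • x) = π x := h2
    have h4 : (k : G) • x = y := hk'
    rw [h4] at h3
    exact hj' h3
  have hsat : ∀ x ∈ Γ, ∀ z, π z = π x → z ∈ Γ := by
    intro x hx z hz
    rcases Cfsg.Agent.S3619.block_dichotomy Γ hJ (hblock (π x)) (x := x) rfl hx with h | h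
    · exact absurd h (hnotin _)
    · exact h hz
  set Γb : Finset D := Γf.image π with hΓb
  have hmemb : ∀ z, π z ∈ Γb ↔ z ∈ Γ := by
    intro z
    constructor
    · intro h
      obtain ⟨x, hx, hxz⟩ := Finset.mem_image.mp h
      exact hsat x ((hmemΓ x).mp hx) z hxz.symm
    · intro h
      exact Finset.mem_image_of_mem _ ((hmemΓ z).mpr h)
  let d := (Finset.univ.filter (fun z => π z = ((1 : G) : G ⧸ S))).card
  have hfibcard : ∀ j : D, (Finset.univ.filter (fun z => π z = j)).card = d := by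
    intro j
    obtain ⟨g, hg⟩ := hDtr.exists_smul_eq ((1 : G) : G ⧸ S) j
    symm
    apply Finset.card_bij (fun z _ => g • z)
    · intro z hz
      simp only [Finset.mem_filter, Finset.mem_univ, true_and] at hz ⊢
      rw [hπ, hz, hg]
    · intro a _ b _ hab
      exact smul_left_cancel g hab
    · intro b hb
      simp only [Finset.mem_filter, Finset.mem_univ, true_and] at hb
      refine ⟨g⁻¹ • b, ?_, smul_inv_smul g b⟩
      simp only [Finset.mem_filter, Finset.mem_univ, true_and]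
      rw [hπ, hb, ← hg, inv_smul_smul]
  have hcardΩ : Fintype.card Ω = Fintype.card D * d := by
    have := Finset.card_eq_sum_card_fiberwise (s := Finset.univ) (t := Finset.univ) (f := π) (fun x _ => Finset.mem_coe.mpr (Finset.mem_univ _))
    rw [Finset.card_univ] at this
    rw [this, Finset.sum_congr rfl (fun j _ => hfibcard j)]
    simp
  have hcardΓb : Γf.card = Γb.card * d := by
    have := Finset.card_eq_sum_card_fiberwise (s := Γf) (t := Γb) (f := π) (fun x hx => Finset.mem_coe.mpr (Finset.mem_image_of_mem _ (Finset.mem_coe.mp hx)))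
    rw [this]
    have h2 : ∀ j ∈ Γb, (Γf.filter (fun z => π z = j)).card = d := by
      intro j hj
      rw [← hfibcard j]
      congr 1
      ext z
      simp only [Finset.mem_filter, Finset.mem_univ, true_and, and_iff_right_iff_imp]
      intro hz
      rw [hmemΓ, ← hmemb, hz]
      exact hj
    rw [Finset.sum_congr rfl h2]
    simp
  have hszb : 2 * Γb.card < Fintype.card D := by
    have h1 : 2 * (Γb.card * d) < Fintype.card D * d := by
      rw [← hcardΓb, ← hcardΩ]
      omega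
    have h2 : (2 * Γb.card) * d < Fintype.card D * d := by
      rw [mul_assoc]
      exact h1
    exact Nat.lt_of_mul_lt_mul_right h2
  have hm2b : 2 ≤ Γb.card := by
    by_contra hc
    have hle : Γb.card ≤ 1 := by omega
    have hu := Finset.card_le_one.mp hle
    apply hnotin (π u₀)
    intro z hz
    exact hu _ (Finset.mem_image_of_mem _ ((hmemΓ z).mpr hz)) _ (Finset.mem_image_of_mem _ hu₀)
  refine no_cover π hπ hsurj hfib hfaith hprimD Γb ?_ hm2b hszb hqp
  intro x y hx hy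
  obtain ⟨h, hh, hxy⟩ := hJ' x ((hmemΓ x).mpr ((hmemb x).mp hx)) y ((hmemΓ y).mpr ((hmemb y).mp hy))
  refine ⟨h, fun z hz => hh z ?_, hxy⟩
  intro hzΓ
  exact hz ((hmemb z).mpr ((hmemΓ z).mp hzΓ))

end Cfsg.Agent.S3620
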