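import Cfsg.Statements.S3626
import Cfsg.Agent.Lib.Ree.Spec4

set_option autoImplicit false
open Cfsg

namespace Cfsg.Agent.S3626




/-- Let R be the small Ree group over the field with q = 3^(2m+1) ≥ 27 elements. Then there are finite groups of arbitrarily large order with exactly the same set of element orders as R × R × R. -/
theorem result {K : Type*} [Field K] [Fintype K] {m : ℕ} (hm : 1 ≤ m) (hK : Fintype.card K = 3 ^ (2 * m + 1)) (N : ℕ) :
    ∃ (H : Type) (_ : Group H) (_ : Fintype H), N < Fintype.card H ∧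
      Set.range (orderOf : H → ℕ) = Set.range (orderOf : ↥(Cfsg.Lie.twistedG2 K (3 ^ m)) × ↥(Cfsg.Lie.twistedG2 K (3 ^ m)) × ↥(Cfsg.Lie.twistedG2 K (3 ^ m)) → ℕ) := by
  open Cfsg.Agent.Lib.Chev Cfsg.Agent.Lib.Chev.TwG2 Cfsg.Agent.Lib.Ree in
  haveI : Fact (Nat.Prime 3) := ⟨Nat.prime_three⟩
  obtain ⟨hchar, f, hf3, hsq, hAA, hfin, ⟨D⟩⟩ := exists_setup hm hK
  rw [← hAA]
  obtain ⟨s, hs⟩ : ∃ s : K →+* K, ∀ x, s x = x ^ 3 :=
    ⟨frobenius _ 3, fun x => frobenius_def 3 x⟩
  have hspec := D.spec_iff s hs N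
  obtain ⟨x₀, hx, hd, hxa⟩ := D.toCtx.exists_x₀
  obtain ⟨y₁, y₂, h1, h2, h3, h4, h5, h6, h7, h8, h9⟩ := D.T3_main hx hd hxa
  have hor := D.orders_iff hx hd hxa h1 h2 h3 h4 h9
  have hq8 := D.toCtx.hq8
  have e2 : (Fintype.card K + 1) / 2 = 2 * wq K := by
    unfold wq
    omega
  rw [e2] at hspec
  have hco : Set.range (orderOf : FF s N × ↥((TT f).AA JJ) × ↥((TT f).AA JJ) → ℕ) =
      Set.range (orderOf : ↥((TT f).AA JJ) × ↥((TT f).AA JJ) × ↥((TT f).AA JJ) → ℕ) := by
    apply spec_cube (M₁ := Nat.card ↥(Subgroup.centralizer {y₁})) (M₂ := Nat.card ↥(Subgroup.centralizer {y₂}))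
    · intro a
      rcases (hspec (orderOf a)).mp ⟨a, rfl⟩ with h | h | h | h
      · exact (hor _).mpr (Or.inl h)
      · exact (hor _).mpr (Or.inr (Or.inl h))
      · exact (hor _).mpr (Or.inr (Or.inr (Or.inl h)))
      · exact (hor _).mpr (Or.inr (Or.inr (Or.inr (Or.inl h))))
    · intro g
      rcases (hor (orderOf g)).mp ⟨g, rfl⟩ with h | h | h | h | h | h
      · exact Or.inl ((hspec _).mpr (Or.inl h))
      · exact Or.inl ((hspec _).mpr (Or.inr (Or.inl h)))
      · exact Or.inl ((hspec _).mpr (Or.inr (Or.inr (Or.inl h))))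
      · exact Or.inl ((hspec _).mpr (Or.inr (Or.inr (Or.inr h))))
      · exact Or.inr (Or.inl h)
      · exact Or.inr (Or.inr h)
    · intro d hd
      rcases hd with h | h
      · exact (hor d).mpr (Or.inr (Or.inr (Or.inr (Or.inr (Or.inl h)))))
      · exact (hor d).mpr (Or.inr (Or.inr (Or.inr (Or.inr (Or.inr h)))))
  obtain ⟨H, i1, i2, h10, h11⟩ := exists_small (FF s N × ↥((TT f).AA JJ) × ↥((TT f).AA JJ))
  refine ⟨H, i1, i2, ?_, by rw [h11, hco]⟩
  rw [h10, Nat.card_prod]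
  have hcF : N + 1 ≤ Nat.card (FF s N) := by
    classical
    have hinj : Function.Injective (fun i : Fin (N + 1) => (⟨Pi.single i 1, 1⟩ : FF s N)) := by
      intro i j hij
      have h12 := congrFun (congrArg AffG.v hij) i
      by_contra hne
      simp only [Pi.single_eq_same, Pi.single_eq_of_ne hne] at h12
      exact one_ne_zero h12
    have := Nat.card_le_card_of_injective _ hinj
    simpa using this
  have hpos : 0 < Nat.card (↥((TT f).AA JJ) × ↥((TT f).AA JJ)) := Nat.card_pos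
  nlinarith

end Cfsg.Agent.S3626
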