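import Cfsg.Statements.S3660
import Mathlib
import Cfsg.Agent.Lib.Classical.SL2Order

set_option autoImplicit false
open Cfsg

namespace Cfsg.Agent.S3660

open scoped MatrixGroups

/-- A copy of `Fin n` without its arithmetic. -/
def Car (n : ℕ) : Type := Fin n

instance (n : ℕ) : Fintype (Car n) := inferInstanceAs (Fintype (Fin n))

/-- Edges of a semidirect product with an elementary abelian 2-group on which only involutions have fixed points. -/
lemma edge_of_semidirect {N Y : Type*} [CommGroup N] [Group Y] (φ : Y →* MulAut N)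
    (h2 : ∀ v : N, v ^ 2 = 1) (hfix : ∀ (g : Y) (v : N), v ≠ 1 → φ g v = v → g ^ 2 = 1)
    {p q : ℕ} (hp : p.Prime) (hq : q.Prime) (hpq : p ≠ q) (x : N ⋊[φ] Y) (hx : orderOf x = p * q) :
    orderOf x.right = p * q := by
  set o := orderOf x.right with ho
  have hodvd : o ∣ p * q := by
    rw [← hx]
    exact orderOf_map_dvd (SemidirectProduct.rightHom (φ := φ)) x
  set z := x ^ o with hz
  have hzr : z.right = 1 := by
    have : (SemidirectProduct.rightHom (φ := φ)) (x ^ o) = (SemidirectProduct.rightHom (φ := φ) x) ^ o := map_pow _ _ _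
    rw [SemidirectProduct.rightHom_eq_right] at this
    rw [hz, this, ho]
    exact pow_orderOf_eq_one _
  have hcomm : z * x = x * z := ((Commute.refl x).pow_left o)
  have hl := congrArg SemidirectProduct.left hcomm
  rw [SemidirectProduct.mul_left, SemidirectProduct.mul_left, hzr] at hl
  simp only [map_one, MulAut.one_apply] at hl
  have hfixz : φ x.right z.left = z.left := by
    have h3 : z.left * x.left = x.left * z.left := mul_comm _ _
    rw [h3] at hl
    exact (mul_left_cancel hl).symm
  have hzz : z * z = 1 := by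
    apply SemidirectProduct.ext
    · rw [SemidirectProduct.mul_left, hzr]
      simp only [map_one, MulAut.one_apply, SemidirectProduct.one_left]
      rw [← pow_two]
      exact h2 _
    · rw [SemidirectProduct.mul_right, hzr]
      simp
  by_contra hne
  have hw : z.left ≠ 1 := by
    intro hw
    have h1 : z = 1 := SemidirectProduct.ext hw hzr
    have h4 : orderOf x ∣ o := orderOf_dvd_of_pow_eq_one h1
    rw [hx] at h4
    exact hne (Nat.dvd_antisymm hodvd h4)
  have hg2 := hfix _ _ hw hfixz
  have ho2 : o ∣ 2 := orderOf_dvd_of_pow_eq_one hg2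
  have h4 : x ^ (o * 2) = 1 := by
    rw [pow_mul, pow_two]
    exact hzz
  have h5 : p * q ∣ o * 2 := by
    rw [← hx]
    exact orderOf_dvd_of_pow_eq_one h4
  have h6 : p * q ∣ 2 * 2 := h5.trans (Nat.mul_dvd_mul_right ho2 2)
  have hp2 : p ∣ 2 ^ 2 := by
    rw [pow_two]
    exact (Dvd.intro _ rfl).trans h6
  have hq2 : q ∣ 2 ^ 2 := by
    rw [pow_two]
    exact (Dvd.intro_left _ rfl).trans h6
  have hp3 := (Nat.prime_dvd_prime_iff_eq hp Nat.prime_two).mp (hp.dvd_of_dvd_pow hp2)
  have hq3 := (Nat.prime_dvd_prime_iff_eq hq Nat.prime_two).mp (hq.dvd_of_dvd_pow hq2)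
  exact hpq (hp3.trans hq3.symm)

lemma sl_inv_mulVec {F : Type*} [Field F] (g : SL(2, F)) (u : Fin 2 → F) :
    ((g⁻¹ : SL(2, F)) : Matrix (Fin 2) (Fin 2) F).mulVec ((g : Matrix (Fin 2) (Fin 2) F).mulVec u) = u := by
  rw [Matrix.mulVec_mulVec, ← Matrix.SpecialLinearGroup.coe_mul, inv_mul_cancel, Matrix.SpecialLinearGroup.coe_one,
    Matrix.one_mulVec]

lemma sl_mulVec_inv {F : Type*} [Field F] (g : SL(2, F)) (u : Fin 2 → F) :
    (g : Matrix (Fin 2) (Fin 2) F).mulVec (((g⁻¹ : SL(2, F)) : Matrix (Fin 2) (Fin 2) F).mulVec u) = u := by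
  rw [Matrix.mulVec_mulVec, ← Matrix.SpecialLinearGroup.coe_mul, mul_inv_cancel, Matrix.SpecialLinearGroup.coe_one,
    Matrix.one_mulVec]

/-- The linear action on a power of the natural module. -/
noncomputable def phi (F : Type*) [Field F] (k : ℕ) :
    SL(2, F) →* MulAut (Multiplicative (Fin k → Fin 2 → F)) where
  toFun g :=
    { toFun := fun v => Multiplicative.ofAdd (fun i => (g : Matrix (Fin 2) (Fin 2) F).mulVec (Multiplicative.toAdd v i))
      invFun := fun v => Multiplicative.ofAdd (fun i => ((g⁻¹ : SL(2, F)) : Matrix (Fin 2) (Fin 2) F).mulVec (Multiplicative.toAdd v i))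
      left_inv := by
        intro v
        apply Multiplicative.toAdd.injective
        funext i
        exact sl_inv_mulVec g _
      right_inv := by
        intro v
        apply Multiplicative.toAdd.injective
        funext i
        exact sl_mulVec_inv g _
      map_mul' := by
        intro v w
        apply Multiplicative.toAdd.injective
        funext i
        simp [Matrix.mulVec_add] }
  map_one' := by
    apply MulEquiv.ext
    intro v
    apply Multiplicative.toAdd.injective
    funext i
    show ((1 : SL(2, F)) : Matrix (Fin 2) (Fin 2) F).mulVec (Multiplicative.toAdd v i) = Multiplicative.toAdd v i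
    rw [Matrix.SpecialLinearGroup.coe_one, Matrix.one_mulVec]
  map_mul' := by
    intro g h
    apply MulEquiv.ext
    intro v
    apply Multiplicative.toAdd.injective
    funext i
    show ((g * h : SL(2, F)) : Matrix (Fin 2) (Fin 2) F).mulVec (Multiplicative.toAdd v i) =
      (g : Matrix (Fin 2) (Fin 2) F).mulVec ((h : Matrix (Fin 2) (Fin 2) F).mulVec (Multiplicative.toAdd v i))
    rw [Matrix.SpecialLinearGroup.coe_mul, Matrix.mulVec_mulVec]

lemma phi_apply {F : Type*} [Field F] {k : ℕ} (g : SL(2, F)) (v : Multiplicative (Fin k → Fin 2 → F)) (i : Fin k) :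
    Multiplicative.toAdd (phi F k g v) i = (g : Matrix (Fin 2) (Fin 2) F).mulVec (Multiplicative.toAdd v i) := rfl

/-- The basic construction, with a generic conclusion. -/
theorem large_of_char_two {F : Type*} [Field F] [Fintype F] [CharP F 2] (N : ℕ) :
    ∃ (H : Type) (_ : Group H) (_ : Finite H), N < Nat.card H ∧
      ((∀ p : ℕ, p.Prime → (p ∣ Nat.card (SL(2, F)) ↔ p ∣ Nat.card H)) ∧
      (∀ p q : ℕ, p.Prime → q.Prime → p ≠ q → ((∃ g : SL(2, F), orderOf g = p * q) ↔ (∃ g : H, orderOf g = p * q)))) := by
  classical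
  let V := Multiplicative (Fin N → Fin 2 → F)
  let X := V ⋊[phi F N] SL(2, F)
  have hXc : Nat.card X = Nat.card V * Nat.card (SL(2, F)) := by
    rw [Nat.card_congr SemidirectProduct.equivProd, Nat.card_prod]
  have hVc : Nat.card V = (Fintype.card F ^ 2) ^ N := by
    show Nat.card (Multiplicative (Fin N → Fin 2 → F)) = _
    rw [Nat.card_congr Multiplicative.toAdd, Nat.card_eq_fintype_card, Fintype.card_fun, Fintype.card_fun]
    simp
  have hF2 : 2 ≤ Fintype.card F := Fintype.one_lt_card
  have hSLpos : 0 < Nat.card (SL(2, F)) := Nat.card_pos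
  have hlarge : N < Nat.card X := by
    rw [hXc, hVc]
    have h1 : 2 ^ N ≤ (Fintype.card F ^ 2) ^ N := by
      apply Nat.pow_le_pow_left
      nlinarith
    have h2 : N < 2 ^ N := Nat.lt_two_pow_self
    nlinarith
  have hinv2 : (2 : F) = 0 := CharTwo.two_eq_zero
  have h2SL : 2 ∣ Nat.card (SL(2, F)) := by
    let t : SL(2, F) := ⟨!![1, 1; 0, 1], by simp [Matrix.det_fin_two]⟩
    have ht : t ^ 2 = 1 := by
      rw [pow_two]
      apply Subtype.ext
      show (t : Matrix (Fin 2) (Fin 2) F) * (t : Matrix (Fin 2) (Fin 2) F) = 1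
      ext i j
      fin_cases i <;> fin_cases j <;> simp [t, Matrix.mul_apply, Fin.sum_univ_two, hinv2]
      exact CharTwo.add_self_eq_zero (1 : F)
    have hne : t ≠ 1 := by
      intro h
      have := congrArg (fun m : SL(2, F) => (m : Matrix (Fin 2) (Fin 2) F) 0 1) h
      simp [t] at this
    have h3 : orderOf t = 2 := orderOf_eq_prime ht hne
    have h4 := orderOf_dvd_natCard t
    rwa [h3] at h4
  have hedge : ∀ p q : ℕ, p.Prime → q.Prime → p ≠ q → ((∃ g : SL(2, F), orderOf g = p * q) ↔ (∃ g : X, orderOf g = p * q)) := by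
    intro p q hp hq hpq
    constructor
    · rintro ⟨g, hg⟩
      refine ⟨SemidirectProduct.inr g, ?_⟩
      rw [orderOf_injective (SemidirectProduct.inr (φ := phi F N)) SemidirectProduct.inr_injective g, hg]
    · rintro ⟨x, hx⟩
      refine ⟨x.right, edge_of_semidirect (phi F N) ?_ ?_ hp hq hpq x hx⟩
      · intro v
        rw [pow_two]
        apply Multiplicative.toAdd.injective
        funext i j
        show (Multiplicative.toAdd v i j) + (Multiplicative.toAdd v i j) = 0
        exact CharTwo.add_self_eq_zero _
      · intro g v hv hfix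
        have hne : ∃ i, Multiplicative.toAdd v i ≠ 0 := by
          by_contra hc
          push Not at hc
          apply hv
          apply Multiplicative.toAdd.injective
          funext i
          exact hc i
        obtain ⟨i, hi⟩ := hne
        set u := Multiplicative.toAdd v i with hu
        have hgu : (g : Matrix (Fin 2) (Fin 2) F).mulVec u = u := by
          rw [hu, ← phi_apply, hfix]
        have hc := Cfsg.Agent.Lib.Classical.cayley_two (g : Matrix (Fin 2) (Fin 2) F) g.2
        have h1 := congrArg (fun m : Matrix (Fin 2) (Fin 2) F => m.mulVec u) hc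
        simp only [Matrix.add_mulVec, Matrix.sub_mulVec, Matrix.one_mulVec, Matrix.zero_mulVec, pow_two,
          ← Matrix.mulVec_mulVec, hgu, Algebra.algebraMap_eq_smul_one, Matrix.smul_mulVec, Matrix.one_mulVec] at h1
        have h2 : (g : Matrix (Fin 2) (Fin 2) F).trace • u = 0 := by
          have h3 : u - (g : Matrix (Fin 2) (Fin 2) F).trace • u + u = (2 : F) • u - (g : Matrix (Fin 2) (Fin 2) F).trace • u := by
            rw [two_smul]
            abel
          rw [h3, hinv2, zero_smul, zero_sub, neg_eq_zero] at h1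
          exact h1
        have ht0 : (g : Matrix (Fin 2) (Fin 2) F).trace = 0 := by
          by_contra hne0
          exact hi ((smul_eq_zero.mp h2).resolve_left hne0)
        rw [ht0, map_zero, zero_mul, sub_zero] at hc
        apply Subtype.ext
        show ((g ^ 2 : SL(2, F)) : Matrix (Fin 2) (Fin 2) F) = 1
        rw [Matrix.SpecialLinearGroup.coe_pow]
        have h5 := eq_neg_of_add_eq_zero_left hc
        rw [h5, CharTwo.neg_eq]
  haveI : Finite X := Finite.of_equiv (V × SL(2, F)) SemidirectProduct.equivProd.symm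
  let e : X ≃ Car (Nat.card X) := Finite.equivFin X
  let _ : Group (Car (Nat.card X)) := e.symm.group
  let e' : X ≃* Car (Nat.card X) := (e.symm.mulEquiv).symm
  have hc' : Nat.card (Car (Nat.card X)) = Nat.card X := Nat.card_congr e.symm
  refine ⟨Car (Nat.card X), inferInstance, inferInstance, ?_, ?_, ?_⟩
  · rw [hc']
    exact hlarge
  · intro p hp
    rw [hc', hXc]
    constructor
    · intro h
      exact h.trans (Dvd.intro_left _ rfl)
    · intro h
      rcases (Nat.Prime.dvd_mul hp).mp h with h1 | h1
      · rw [hVc] at h1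
        have h3 : p ∣ Fintype.card F := by
          have := hp.dvd_of_dvd_pow h1
          exact hp.dvd_of_dvd_pow this
        obtain ⟨n, -, hn⟩ := FiniteField.card F 2
        rw [hn] at h3
        have := (Nat.prime_dvd_prime_iff_eq hp Nat.prime_two).mp (hp.dvd_of_dvd_pow h3)
        rw [this]
        exact h2SL
      · exact h1
  · intro p q hp hq hpq
    rw [hedge p q hp hq hpq]
    constructor
    · rintro ⟨a, ha⟩
      exact ⟨e' a, by rw [MulEquiv.orderOf_eq, ha]⟩
    · rintro ⟨a, ha⟩
      exact ⟨e'.symm a, by rw [MulEquiv.orderOf_eq, ha]⟩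

/-- In characteristic two the centre of `SL₂` is trivial. -/
noncomputable def pslEquivSL (F : Type*) [Field F] [CharP F 2] :
    Matrix.ProjectiveSpecialLinearGroup (Fin 2) F ≃* SL(2, F) := by
  have h : Subgroup.center (SL(2, F)) = ⊥ := by
    rw [Subgroup.eq_bot_iff_forall]
    intro A hA
    obtain ⟨r, hr, hrA⟩ := Matrix.SpecialLinearGroup.mem_center_iff.mp hA
    have hr1 : r = 1 := by
      have h1 : (r + 1) ^ 2 = 0 := by
        have h2 : (r + 1) ^ 2 = r ^ 2 + 1 + (2 : F) * r := by ring
        rw [Fintype.card_fin] at hr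
        rw [h2, hr, CharTwo.two_eq_zero, zero_mul, add_zero]
        exact CharTwo.add_self_eq_zero _
      have h3 : r + 1 = 0 := by simpa using h1
      have h4 := eq_neg_of_add_eq_zero_left h3
      rw [h4, CharTwo.neg_eq]
    apply Subtype.ext
    rw [← hrA, hr1]
    simp
  exact (QuotientGroup.quotientMulEquivOfEq h).trans QuotientGroup.quotientBot



/-- The prime graph of a finite group has the prime divisors of its order as vertices, two distinct primes p, q being joined when the group has an element of order pq; two groups have the same prime graph when they have the same prime divisors and the same joined pairs. Let F be a finite field of characteristic 2 with at least 4 elements. Then there are finite groups of arbitrarily large order with the same prime graph as PSL(2,F); in particular PSL(2,F) is not determined by its prime graph. -/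
theorem result {F : Type*} [Field F] [Fintype F] [CharP F 2] (hF : 4 ≤ Fintype.card F) (N : ℕ) :
    ∃ (H : Type) (_ : Group H) (_ : Finite H), N < Nat.card H ∧
      ((∀ p : ℕ, p.Prime → (p ∣ Nat.card (Matrix.ProjectiveSpecialLinearGroup (Fin 2) F) ↔ p ∣ Nat.card H)) ∧
      (∀ p q : ℕ, p.Prime → q.Prime → p ≠ q → ((∃ g : (Matrix.ProjectiveSpecialLinearGroup (Fin 2) F), orderOf g = p * q) ↔ (∃ g : H, orderOf g = p * q)))) := by
  obtain ⟨H, _, _, hN, hp, he⟩ := large_of_char_two (F := F) N
  refine ⟨H, inferInstance, inferInstance, hN, ?_, ?_⟩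
  · intro p hpr
    rw [Nat.card_congr (pslEquivSL F).toEquiv]
    exact hp p hpr
  · intro p q hpr hqr hpq
    rw [← he p q hpr hqr hpq]
    constructor
    · rintro ⟨a, ha⟩
      exact ⟨pslEquivSL F a, by rw [MulEquiv.orderOf_eq, ha]⟩
    · rintro ⟨a, ha⟩
      exact ⟨(pslEquivSL F).symm a, by rw [MulEquiv.orderOf_eq, ha]⟩

end Cfsg.Agent.S3660
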