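import Cfsg.Statements.S3670
import Cfsg.Agent.Lib.Components.U33Con
import Cfsg.Agent.Lib.Components.U33H
import Cfsg.Agent.Lib.Components.U33ChkR1
import Cfsg.Agent.Lib.Components.U33ChkR2
import Cfsg.Agent.Lib.Components.U33ChkR3
import Cfsg.Agent.Lib.Components.U33ChkR4
import Cfsg.Agent.Lib.Components.U33ChkC1
import Cfsg.Agent.Lib.Components.U33ChkC2
import Cfsg.Agent.Lib.Components.U33ChkS1
import Cfsg.Agent.Lib.Components.U33ChkS2
import Cfsg.Agent.Lib.Components.U33ChkS3

set_option autoImplicit false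
open Cfsg

namespace Cfsg.Agent.S3670

open Cfsg.Agent Cfsg.Agent.Lib.Components

/-- The character degree graph of a finite group has as vertices the primes dividing some irreducible complex character degree, two distinct primes being joined when their product divides some irreducible character degree; two groups have the same character degree graph when they have the same vertices and the same joined pairs. Let F be the field with 9 elements and L = PSU(3,3) realised over F (order 6048). There is a finite solvable group of order 6048 with the same character degree graph as L; so L is not determined by its order together with its character degree graph. -/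
theorem result {F : Type*} [Field F] [Fintype F] (hF : Fintype.card F = 9) :
    ∃ (H : Type) (_ : Group H) (_ : Fintype H), Group.IsSolvable H ∧ Nat.card H = 6048 ∧ Cfsg.degreePrimes H = Cfsg.degreePrimes (Cfsg.PSU 3 F 3) ∧ Cfsg.degreeGraph H = Cfsg.degreeGraph (Cfsg.PSU 3 F 3) := by
  classical
  have hF' : Fintype.card F = 3 ^ 2 := by rw [hF]; norm_num
  have hR : ∀ i < U33.N, U33.chkR i = true := by
    have h1 := Lib.KnownSimple.Lab.allI_join (y := 1512) Lib.KnownSimple.Lab.allI_start
      U33.chkR_part1 rfl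
    have h2 := Lib.KnownSimple.Lab.allI_join (y := 3024) h1 U33.chkR_part2 rfl
    have h3 := Lib.KnownSimple.Lab.allI_join (y := 4536) h2 U33.chkR_part3 rfl
    exact Lib.KnownSimple.Lab.allI_join (y := 6048) h3 U33.chkR_part4 rfl
  have hC : ∀ i < U33.N, U33.chkC i = true := by
    have h1 := Lib.KnownSimple.Lab.allI_join (y := 3024) Lib.KnownSimple.Lab.allI_start
      U33.chkC_part1 rfl
    exact Lib.KnownSimple.Lab.allI_join (y := 6048) h1 U33.chkC_part2 rfl
  have hT : ∀ i < U33.N, U33.chkT i = true :=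
    Lib.KnownSimple.Lab.allI_join (y := 6048) Lib.KnownSimple.Lab.allI_start U33.chkT_all rfl
  obtain ⟨a, b, c, ha, ha1, hb, hb1, hc, hc1⟩ :=
    U33.psu_irr hF hC hR hT U33.sumA_eq U33.sumB_val U33.sumC_val
  obtain ⟨χ, hχ, hχ1⟩ := U33H.HH_irr
  have hcP : Nat.card (Cfsg.PSU 3 F 3) = 6048 := by
    have h := Lib.KnownSimple.LabSU.card_psu (n := 3) hF' (by norm_num)
    have e1 : (3 : ℕ) ^ (3 * (3 - 1) / 2) * ∏ i ∈ Finset.range 3,
        (if Even i then (3 : ℕ) ^ (i + 1) + 1 else 3 ^ (i + 1) - 1) = 24192 := by decide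
    have e2 : Nat.gcd 3 (3 + 1) = 1 := by decide
    rw [e1, e2] at h
    omega
  have D1 := U33H.degree_data U33H.HH_card
    ⟨42, ⟨⟨χ, hχ⟩, Lib.Char.charDegree_eq hχ1⟩, by norm_num⟩
    ⟨42, ⟨⟨χ, hχ⟩, Lib.Char.charDegree_eq hχ1⟩, by norm_num⟩
    ⟨42, ⟨⟨χ, hχ⟩, Lib.Char.charDegree_eq hχ1⟩, by norm_num⟩
  have D2 := U33H.degree_data hcP
    ⟨6, ⟨⟨a, ha⟩, Lib.Char.charDegree_eq (by show a 1 = _; rw [ha1]; norm_num)⟩, by norm_num⟩
    ⟨14, ⟨⟨b, hb⟩, Lib.Char.charDegree_eq (by show b 1 = _; rw [hb1]; norm_num)⟩, by norm_num⟩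
    ⟨21, ⟨⟨c, hc⟩, Lib.Char.charDegree_eq (by show c 1 = _; rw [hc1]; norm_num)⟩, by norm_num⟩
  refine ⟨U33H.HH, inferInstance, inferInstance, U33H.HH_solvable, U33H.HH_card, ?_, ?_⟩
  · rw [D1.1, D2.1]
  · apply SimpleGraph.ext
    funext p q
    exact propext ((D1.2 p q).trans (D2.2 p q).symm)

end Cfsg.Agent.S3670
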