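import Cfsg.Statements.S3678
import Mathlib
import Cfsg.Agent.S3660
import Cfsg.Agent.Lib.Classical.SmallIso
import Cfsg.Agent.Lib.Classical.Transfer

set_option autoImplicit false
open Cfsg

namespace Cfsg.Agent.S3678

open scoped MatrixGroups

/-- A table for `SL₂(7)`. -/
lemma sl7_table : ∀ a b c d : ZMod 7, a * d - b * c = 1 →
    (((!![a, b; c, d]) ^ 4 = 1 ∨ (!![a, b; c, d]) ^ 4 = -1) ∨ ((!![a, b; c, d]) ^ 3 = 1 ∨ (!![a, b; c, d]) ^ 3 = -1) ∨
      ((!![a, b; c, d]) ^ 7 = 1 ∨ (!![a, b; c, d]) ^ 7 = -1)) := by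
  decide +kernel

lemma mem_center_of {F : Type*} [CommRing F] (A : SL(2, F)) (h : (A : Matrix (Fin 2) (Fin 2) F) = 1 ∨ (A : Matrix (Fin 2) (Fin 2) F) = -1) :
    A ∈ Subgroup.center (SL(2, F)) := by
  rw [Matrix.SpecialLinearGroup.mem_center_iff]
  rcases h with h | h
  · refine ⟨1, by simp, ?_⟩
    rw [h]
    simp
  · refine ⟨-1, by simp, ?_⟩
    rw [h]
    ext i j
    by_cases hij : i = j
    · subst hij
      simp
    · simp [hij, Matrix.one_apply]

lemma mk_pow_eq_one {F : Type*} [CommRing F] (A : SL(2, F)) (n : ℕ) (hn : A ^ n ∈ Subgroup.center (SL(2, F))) :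
    (QuotientGroup.mk A : Matrix.ProjectiveSpecialLinearGroup (Fin 2) F) ^ n = 1 := by
  rw [← QuotientGroup.mk_pow, QuotientGroup.eq_one_iff]
  exact hn

lemma sl7_sl (A : SL(2, ZMod 7)) : (((A ^ 4 : SL(2, ZMod 7)) : Matrix (Fin 2) (Fin 2) (ZMod 7)) = 1 ∨
      ((A ^ 4 : SL(2, ZMod 7)) : Matrix (Fin 2) (Fin 2) (ZMod 7)) = -1) ∨
    (((A ^ 3 : SL(2, ZMod 7)) : Matrix (Fin 2) (Fin 2) (ZMod 7)) = 1 ∨
      ((A ^ 3 : SL(2, ZMod 7)) : Matrix (Fin 2) (Fin 2) (ZMod 7)) = -1) ∨
    (((A ^ 7 : SL(2, ZMod 7)) : Matrix (Fin 2) (Fin 2) (ZMod 7)) = 1 ∨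
      ((A ^ 7 : SL(2, ZMod 7)) : Matrix (Fin 2) (Fin 2) (ZMod 7)) = -1) := by
  have hM := A.2
  rw [Matrix.det_fin_two] at hM
  have ht := sl7_table _ _ _ _ hM
  rw [← Matrix.eta_fin_two (A : Matrix (Fin 2) (Fin 2) (ZMod 7))] at ht
  simpa only [Matrix.SpecialLinearGroup.coe_pow] using ht

lemma psl7_table (g : Matrix.ProjectiveSpecialLinearGroup (Fin 2) (ZMod 7)) : g ^ 4 = 1 ∨ g ^ 3 = 1 ∨ g ^ 7 = 1 := by
  induction g using QuotientGroup.induction_on with
  | _ A =>
    have ht := sl7_sl A
    have key := mk_pow_eq_one A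
    rcases ht with h | h | h
    · exact Or.inl (key _ (mem_center_of _ h))
    · exact Or.inr (Or.inl (key _ (mem_center_of _ h)))
    · exact Or.inr (Or.inr (key _ (mem_center_of _ h)))

/-- Commuting with an involution in characteristic two. -/
lemma sq_of_commute_invol {F : Type*} [Field F] [CharP F 2] (g u : SL(2, F)) (hc : g * u = u * g) (hu : u ^ 2 = 1)
    (hne : u ≠ 1) : g ^ 2 = 1 := by
  have h2 : (2 : F) = 0 := CharTwo.two_eq_zero
  have hm : (u : Matrix (Fin 2) (Fin 2) F) * (u : Matrix (Fin 2) (Fin 2) F) = 1 := by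
    rw [← Matrix.SpecialLinearGroup.coe_mul, ← pow_two, hu, Matrix.SpecialLinearGroup.coe_one]
  have hdetu := u.2
  rw [Matrix.det_fin_two] at hdetu
  have hdetg := g.2
  rw [Matrix.det_fin_two] at hdetg
  have h00 := congrFun (congrFun hm 0) 0
  have h01 := congrFun (congrFun hm 0) 1
  have h10 := congrFun (congrFun hm 1) 0
  have h11 := congrFun (congrFun hm 1) 1
  simp [Matrix.mul_apply, Fin.sum_univ_two] at h00 h01 h10 h11
  have hcm : (g : Matrix (Fin 2) (Fin 2) F) * (u : Matrix (Fin 2) (Fin 2) F) =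
      (u : Matrix (Fin 2) (Fin 2) F) * (g : Matrix (Fin 2) (Fin 2) F) := by
    rw [← Matrix.SpecialLinearGroup.coe_mul, ← Matrix.SpecialLinearGroup.coe_mul, hc]
  have c01 := congrFun (congrFun hcm 0) 1
  have c10 := congrFun (congrFun hcm 1) 0
  simp [Matrix.mul_apply, Fin.sum_univ_two] at c01 c10
  set a := (g : Matrix (Fin 2) (Fin 2) F) 0 0 with ha
  set b := (g : Matrix (Fin 2) (Fin 2) F) 0 1 with hb
  set c := (g : Matrix (Fin 2) (Fin 2) F) 1 0 with hc'
  set d := (g : Matrix (Fin 2) (Fin 2) F) 1 1 with hd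
  set e := (u : Matrix (Fin 2) (Fin 2) F) 0 0 with he
  set f := (u : Matrix (Fin 2) (Fin 2) F) 0 1 with hf
  set h := (u : Matrix (Fin 2) (Fin 2) F) 1 0 with hh
  set i := (u : Matrix (Fin 2) (Fin 2) F) 1 1 with hi
  have one_of_sq : ∀ x : F, x * x = 1 → x = 1 := by
    intro x hx
    have h3 : (x + 1) * (x + 1) = 0 := by linear_combination hx + (x + 1) * h2
    have h4 : x + 1 = 0 := by simpa using h3
    linear_combination h4 - h2
  have hei : e + i = 0 := by
    by_contra hne0
    have hf0 : f = 0 := by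
      have : f * (e + i) = 0 := by linear_combination h01
      exact (mul_eq_zero.mp this).resolve_right hne0
    have hh0 : h = 0 := by
      have : h * (e + i) = 0 := by linear_combination h10
      exact (mul_eq_zero.mp this).resolve_right hne0
    rw [hf0] at h00
    rw [hh0] at h11
    have h5 := one_of_sq e (by simpa using h00)
    have h6 := one_of_sq i (by simpa using h11)
    apply hne0
    rw [h5, h6]
    linear_combination h2
  have hfh : f ≠ 0 ∨ h ≠ 0 := by
    by_contra hcon
    push Not at hcon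
    obtain ⟨hf0, hh0⟩ := hcon
    rw [hf0] at h00
    rw [hh0] at h11
    have h5 := one_of_sq e (by simpa using h00)
    have h6 := one_of_sq i (by simpa using h11)
    apply hne
    apply Subtype.ext
    show (u : Matrix (Fin 2) (Fin 2) F) = 1
    ext x y
    fin_cases x <;> fin_cases y
    · simpa using h5
    · simpa using hf0
    · simpa using hh0
    · simpa using h6
  have had : a + d = 0 := by
    rcases hfh with hf1 | hh1
    · have : f * (a + d) = 0 := by linear_combination c01 + b * hei + (f * d - b * i) * h2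
      exact (mul_eq_zero.mp this).resolve_left hf1
    · have : h * (a + d) = 0 := by linear_combination (-1 : F) * c10 + c * hei + (d * h - c * i) * h2
      exact (mul_eq_zero.mp this).resolve_left hh1
  have hC := Cfsg.Agent.Lib.Classical.cayley_two (g : Matrix (Fin 2) (Fin 2) F) g.2
  have ht : (g : Matrix (Fin 2) (Fin 2) F).trace = 0 := by
    rw [Matrix.trace_fin_two]
    exact had
  rw [ht, map_zero, zero_mul, sub_zero] at hC
  apply Subtype.ext
  show ((g ^ 2 : SL(2, F)) : Matrix (Fin 2) (Fin 2) F) = 1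
  rw [Matrix.SpecialLinearGroup.coe_pow]
  have h5 := eq_neg_of_add_eq_zero_left hC
  rw [h5, CharTwo.neg_eq]

/-- No edges in the prime graph of `SL₂(8)`. -/
lemma no_edge_eight {F : Type*} [Field F] [Fintype F] [CharP F 2] (hF : Fintype.card F = 8) {p q : ℕ} (hp : p.Prime)
    (hq : q.Prime) (hpq : p ≠ q) (g : SL(2, F)) (hg : orderOf g = p * q) : False := by
  have two_dvd : ∀ {n : ℕ}, p * q ∣ n ^ 2 → n.Prime → False := by
    intro n h hn
    have h1 : p ∣ n ^ 2 := (Dvd.intro _ rfl).trans h
    have h2 : q ∣ n ^ 2 := (Dvd.intro_left _ rfl).trans h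
    have h3 := (Nat.prime_dvd_prime_iff_eq hp hn).mp (hp.dvd_of_dvd_pow h1)
    have h4 := (Nat.prime_dvd_prime_iff_eq hq hn).mp (hq.dvd_of_dvd_pow h2)
    exact hpq (h3.trans h4.symm)
  by_cases h2 : 2 ∣ p * q
  · obtain ⟨m, hm⟩ := h2
    have hpos : 0 < p * q := Nat.mul_pos hp.pos hq.pos
    have hm0 : 0 < m := by omega
    have hu : (g ^ m) ^ 2 = 1 := by
      rw [← pow_mul, mul_comm, ← hm, ← hg]
      exact pow_orderOf_eq_one g
    have hne : g ^ m ≠ 1 := by
      intro h
      have := orderOf_dvd_of_pow_eq_one h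
      rw [hg] at this
      have := Nat.le_of_dvd hm0 this
      omega
    have hg2 := sq_of_commute_invol g (g ^ m) (by rw [← pow_succ', ← pow_succ]) hu hne
    have h3 := orderOf_dvd_of_pow_eq_one hg2
    rw [hg] at h3
    exact two_dvd (n := 2) (h3.trans (by norm_num)) Nat.prime_two
  · have hcop : Nat.Coprime (orderOf g) 2 := by
      rw [hg]
      exact ((Nat.Prime.coprime_iff_not_dvd Nat.prime_two).mpr h2).symm
    rcases Cfsg.Agent.Lib.Classical.sl_two_semisimple_order_dvd g hcop with h | h
    · rw [hF, hg] at h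
      exact two_dvd (n := 7) (h.trans (by norm_num)) (by norm_num)
    · rw [hF, hg] at h
      exact two_dvd (n := 3) (h.trans (by norm_num)) (by norm_num)



/-- The prime graph of a finite group has the prime divisors of its order as vertices, two distinct primes p, q being joined when the group has an element of order pq; two groups have the same prime graph when they have the same prime divisors and the same joined pairs. Let F be the field with 7 elements. There are finite groups of arbitrarily large order with the same prime graph as PSL(2,F) (the graph on {2, 3, 7} with no edges, which is also the prime graph of PSL(2,8)). -/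
theorem result {F : Type*} [Field F] [Fintype F] (hF : Fintype.card F = 7) (N : ℕ) :
    ∃ (H : Type) (_ : Group H) (_ : Finite H), N < Nat.card H ∧
      ((∀ p : ℕ, p.Prime → (p ∣ Nat.card (Matrix.ProjectiveSpecialLinearGroup (Fin 2) F) ↔ p ∣ Nat.card H)) ∧
      (∀ p q : ℕ, p.Prime → q.Prime → p ≠ q → ((∃ g : (Matrix.ProjectiveSpecialLinearGroup (Fin 2) F), orderOf g = p * q) ↔ (∃ g : H, orderOf g = p * q)))) := by
  classical
  haveI : Fact (Nat.Prime 7) := ⟨by norm_num⟩
  haveI : CharP F 7 := charP_of_card_eq_prime hF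
  let e : ZMod 7 ≃+* F := ZMod.ringEquivOfPrime F (by norm_num) hF
  let E := Cfsg.Agent.Lib.Classical.pslCongr (n := Fin 2) e
  have horder : ∀ g : Matrix.ProjectiveSpecialLinearGroup (Fin 2) F, g ^ 4 = 1 ∨ g ^ 3 = 1 ∨ g ^ 7 = 1 := by
    intro g
    rcases psl7_table (E.symm g) with h | h | h
    · left
      apply E.symm.injective
      rw [map_pow, h, map_one]
    · right; left
      apply E.symm.injective
      rw [map_pow, h, map_one]
    · right; right
      apply E.symm.injective
      rw [map_pow, h, map_one]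
  have hcard7 : Nat.card (Matrix.ProjectiveSpecialLinearGroup (Fin 2) F) = 168 := by
    have h := Cfsg.Agent.Lib.Classical.card_PSL_two_mul (F := F)
    rw [Nat.card_eq_fintype_card (α := F), hF] at h
    generalize Nat.card (Matrix.ProjectiveSpecialLinearGroup (Fin 2) F) = x at h ⊢
    norm_num at h
    omega
  -- the field with eight elements
  let K := GaloisField 2 3
  haveI : Fintype K := Fintype.ofFinite K
  have hK : Fintype.card K = 8 := by
    rw [← Nat.card_eq_fintype_card, GaloisField.card 2 3 (by norm_num)]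
    norm_num
  have hcard8 : Nat.card (SL(2, K)) = 504 := by
    have h := Cfsg.Agent.Lib.Classical.card_SL_two (F := K)
    rw [Nat.card_eq_fintype_card (α := K), hK] at h
    generalize Nat.card (SL(2, K)) = x at h ⊢
    norm_num at h
    omega
  obtain ⟨H, _, _, hN, hp, he⟩ := Cfsg.Agent.S3660.large_of_char_two (F := K) N
  refine ⟨H, inferInstance, inferInstance, hN, ?_, ?_⟩
  · intro p hpr
    rw [← hp p hpr, hcard7, hcard8]
    constructor
    · intro h
      exact h.trans (by norm_num)
    · intro h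
      have h1 : p ∣ 2 ^ 3 * (3 * 7) * 3 := by
        have : (2 ^ 3 * (3 * 7) * 3 : ℕ) = 504 := by norm_num
        rw [this]
        exact h
      rcases (Nat.Prime.dvd_mul hpr).mp h1 with h2 | h2
      · exact h2.trans (by norm_num)
      · exact h2.trans (by norm_num)
  · intro p q hpr hqr hpq
    rw [← he p q hpr hqr hpq]
    constructor
    · rintro ⟨g, hg⟩
      exfalso
      have two_dvd : ∀ {n : ℕ}, p * q ∣ n ^ 2 → n.Prime → False := by
        intro n h hn
        have h1 : p ∣ n ^ 2 := (Dvd.intro _ rfl).trans h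
        have h2 : q ∣ n ^ 2 := (Dvd.intro_left _ rfl).trans h
        have h3 := (Nat.prime_dvd_prime_iff_eq hpr hn).mp (hpr.dvd_of_dvd_pow h1)
        have h4 := (Nat.prime_dvd_prime_iff_eq hqr hn).mp (hqr.dvd_of_dvd_pow h2)
        exact hpq (h3.trans h4.symm)
      rcases horder g with h | h | h
      · have h1 := orderOf_dvd_of_pow_eq_one h
        rw [hg] at h1
        exact two_dvd (n := 2) h1 Nat.prime_two
      · have h1 := orderOf_dvd_of_pow_eq_one h
        rw [hg] at h1
        exact two_dvd (n := 3) (h1.trans (by norm_num)) (by norm_num)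
      · have h1 := orderOf_dvd_of_pow_eq_one h
        rw [hg] at h1
        exact two_dvd (n := 7) (h1.trans (by norm_num)) (by norm_num)
    · rintro ⟨g, hg⟩
      exact (no_edge_eight hK hpr hqr hpq g hg).elim

end Cfsg.Agent.S3678
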