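import Cfsg.Statements.S3683
import Mathlib
import Cfsg.Agent.Lib.Recog.Prim

set_option autoImplicit false
open Cfsg

namespace Cfsg.Agent.S3683

open MulAction

set_option linter.style.haveILetI false


/-- Let a finite group G act faithfully and primitively on a set Ω, and suppose the stabilizer of a point a fixes a second point b ≠ a (a suborbit of length 1 other than {a}). Then the stabilizer of a is trivial and G is cyclic of prime order. -/
theorem result {G Ω : Type*} [Group G] [Finite G] [MulAction G Ω] [FaithfulSMul G Ω] [Finite Ω]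
    (hprim : MulAction.IsPreprimitive G Ω) (a b : Ω) (hab : a ≠ b) (hfix : ∀ g : G, g • a = a → g • b = b) :
    MulAction.stabilizer G a = ⊥ ∧ IsCyclic G ∧ (Nat.card G).Prime := by
  haveI := hprim
  haveI : Nontrivial Ω := ⟨⟨a, b, hab⟩⟩
  haveI hpt : IsPretransitive G Ω := hprim.toIsPretransitive
  have hco : IsCoatom (stabilizer G a) := (isCoatom_stabilizer_iff_preprimitive G a).mpr hprim
  have hle : stabilizer G a ≤ stabilizer G b := fun g hg => hfix g hg
  obtain ⟨g, hg⟩ := IsPretransitive.exists_smul_eq (M := G) a b
  have hgnot : g ∉ stabilizer G a := by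
    intro hga
    apply hab
    have : g • a = a := hga
    rw [← hg, this]
  -- `G_a = G_b`
  have hcard := Cfsg.Agent.Lib.Recog.card_stabilizer_eq (G := G) a b
  have heq : stabilizer G a = stabilizer G b :=
    Subgroup.eq_of_le_of_card_ge hle (le_of_eq hcard.symm)
  -- `g` normalizes `G_a`
  have hgn : g ∈ Subgroup.normalizer (stabilizer G a : Set G) := by
    rw [Subgroup.mem_normalizer_iff'']
    intro h
    have key : g⁻¹ * h * g ∈ stabilizer G a ↔ h ∈ stabilizer G b := by
      rw [mem_stabilizer_iff, mem_stabilizer_iff, ← hg, mul_smul, mul_smul, inv_smul_eq_iff]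
    rw [key, heq]
  have hlt : stabilizer G a < Subgroup.normalizer (stabilizer G a : Set G) := by
    refine lt_of_le_of_ne Subgroup.le_normalizer ?_
    intro h
    apply hgnot
    rw [h]
    exact hgn
  have htop : Subgroup.normalizer (stabilizer G a : Set G) = ⊤ := hco.2 _ hlt
  haveI hnorm : (stabilizer G a).Normal := Subgroup.normalizer_eq_top_iff.mp htop
  have hbot : stabilizer G a = ⊥ :=
    Cfsg.Agent.Lib.Recog.normal_le_stabilizer_eq_bot (stabilizer G a) a le_rfl
  refine ⟨hbot, ?_⟩
  rw [hbot] at hco
  exact Cfsg.Agent.Lib.Recog.isCyclic_prime_of_isCoatom_bot hco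

end Cfsg.Agent.S3683
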