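import Cfsg.Statements.S3684
import Mathlib
import Cfsg.Agent.Lib.Recog.Prim

set_option autoImplicit false
open Cfsg

namespace Cfsg.Agent.S3684

open MulAction

set_option linter.style.haveILetI false


/-- Let a finite group G act faithfully and primitively on a set Ω, and suppose the stabilizer of a point a has an orbit of length 2. Then the stabilizer of a has order 2 and G is isomorphic to the dihedral group of order 2p for some prime p. -/
theorem result {G Ω : Type*} [Group G] [Finite G] [MulAction G Ω] [FaithfulSMul G Ω] [Finite Ω]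
    (hprim : MulAction.IsPreprimitive G Ω) (a b : Ω) (h2 : Nat.card (MulAction.orbit (MulAction.stabilizer G a) b) = 2) :
    Nat.card (MulAction.stabilizer G a) = 2 ∧ ∃ p : ℕ, p.Prime ∧ Nonempty (G ≃* DihedralGroup p) := by
  classical
  haveI := hprim
  haveI hpt : IsPretransitive G Ω := hprim.toIsPretransitive
  set H := stabilizer G a with hH
  set L := stabilizer G b with hL
  set K := H ⊓ L with hK
  have hKH : K ≤ H := inf_le_left
  have hKL : K ≤ L := inf_le_right
  have hrel : K.relIndex H = 2 := by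
    have h1 : stabilizer H b = K.subgroupOf H := by
      ext ⟨x, hx⟩
      simp only [mem_stabilizer_iff, Subgroup.mem_subgroupOf, hK, Subgroup.mem_inf, hL]
      constructor
      · intro h; exact ⟨hx, h⟩
      · intro h; exact h.2
    rw [Subgroup.relIndex, ← h1, index_stabilizer, ← Nat.card_coe_set_eq]
    exact h2
  have hidx : H.index = L.index := by
    rw [index_stabilizer_of_transitive, index_stabilizer_of_transitive]
  have hHidx : H.index ≠ 0 := Subgroup.index_ne_zero_of_finite
  have hrel' : K.relIndex L = 2 := by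
    have h1 := Subgroup.relIndex_mul_index hKH
    have h2 := Subgroup.relIndex_mul_index hKL
    rw [hrel] at h1
    rw [← hidx, ← h1] at h2
    exact Nat.eq_of_mul_eq_mul_right (Nat.pos_of_ne_zero hHidx) h2
  have hcard : Nat.card H = Nat.card L := Cfsg.Agent.Lib.Recog.card_stabilizer_eq a b
  have hab : a ≠ b := by
    rintro rfl
    have : K = H := inf_idem H
    rw [this, Subgroup.relIndex_self] at hrel
    omega
  haveI : Nontrivial Ω := ⟨⟨a, b, hab⟩⟩
  have hco : IsCoatom H := (isCoatom_stabilizer_iff_preprimitive G a).mpr hprim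
  have hLH : ¬ L ≤ H := by
    intro h
    have h1 : L = H := Subgroup.eq_of_le_of_card_ge h (le_of_eq hcard)
    have : K = H := by rw [hK, h1]; exact inf_idem H
    rw [this, Subgroup.relIndex_self] at hrel
    omega
  have hsup : H ⊔ L = ⊤ := by
    apply hco.2
    refine lt_of_le_of_ne le_sup_left ?_
    intro h
    apply hLH
    rw [h]
    exact le_sup_right
  have hnK1 : H ≤ Subgroup.normalizer (K : Set G) :=
    (Subgroup.normal_subgroupOf_iff_le_normalizer hKH).mp (Subgroup.normal_of_index_eq_two hrel)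
  have hnK2 : L ≤ Subgroup.normalizer (K : Set G) :=
    (Subgroup.normal_subgroupOf_iff_le_normalizer hKL).mp (Subgroup.normal_of_index_eq_two hrel')
  have hnK : Subgroup.normalizer (K : Set G) = ⊤ := by
    rw [eq_top_iff, ← hsup]
    exact sup_le hnK1 hnK2
  haveI hKn : K.Normal := Subgroup.normalizer_eq_top_iff.mp hnK
  have hKbot : K = ⊥ := Cfsg.Agent.Lib.Recog.normal_le_stabilizer_eq_bot K a hKH
  have hH2 : Nat.card H = 2 := by
    rw [hKbot, Subgroup.relIndex_bot_left] at hrel
    exact hrel
  have hL2 : Nat.card L = 2 := hcard ▸ hH2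
  refine ⟨hH2, ?_⟩
  obtain ⟨⟨s, hsH⟩, hs1, hsu⟩ := (Nat.card_eq_two_iff' (1 : H)).mp hH2
  obtain ⟨⟨t, htL⟩, ht1, htu⟩ := (Nat.card_eq_two_iff' (1 : L)).mp hL2
  have hs1' : s ≠ 1 := fun h => hs1 (Subtype.ext h)
  have ht1' : t ≠ 1 := fun h => ht1 (Subtype.ext h)
  have hHm : ∀ x ∈ H, x ≠ 1 → x = s := by
    intro x hx hx1
    have := hsu ⟨x, hx⟩ (fun h => hx1 (congrArg Subtype.val h))
    exact congrArg Subtype.val this
  have hLm : ∀ x ∈ L, x ≠ 1 → x = t := by
    intro x hx hx1
    have := htu ⟨x, hx⟩ (fun h => hx1 (congrArg Subtype.val h))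
    exact congrArg Subtype.val this
  have hss : s * s = 1 := by
    have h1 : (⟨s, hsH⟩ : H) ^ Nat.card H = 1 := pow_card_eq_one'
    rw [hH2] at h1
    have h2 := congrArg Subtype.val h1
    simpa [pow_two] using h2
  have htt : t * t = 1 := by
    have h1 : (⟨t, htL⟩ : L) ^ Nat.card L = 1 := pow_card_eq_one'
    rw [hL2] at h1
    have h2 := congrArg Subtype.val h1
    simpa [pow_two] using h2
  have hsinv : s⁻¹ = s := inv_eq_of_mul_eq_one_left hss
  have htinv : t⁻¹ = t := inv_eq_of_mul_eq_one_left htt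
  have hcl : Subgroup.closure {s, t} = ⊤ := by
    rw [eq_top_iff, ← hsup, sup_le_iff]
    constructor
    · intro x hx
      by_cases hx1 : x = 1
      · rw [hx1]; exact one_mem _
      · rw [hHm x hx hx1]; exact Subgroup.subset_closure (by simp)
    · intro x hx
      by_cases hx1 : x = 1
      · rw [hx1]; exact one_mem _
      · rw [hLm x hx hx1]; exact Subgroup.subset_closure (by simp)
  set r := s * t with hr
  have hsn : s ∉ Subgroup.zpowers r := by
    intro hmem
    have htm : t ∈ Subgroup.zpowers r := by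
      have := mul_mem (inv_mem hmem) (Subgroup.mem_zpowers r)
      simpa [hr] using this
    have htop : Subgroup.zpowers r = ⊤ := by
      rw [eq_top_iff, ← hcl, Subgroup.closure_le]
      rintro x (rfl | rfl)
      · exact hmem
      · exact htm
    have hcomm : ∀ x y : G, x * y = y * x := by
      intro x y
      have hx : x ∈ Subgroup.zpowers r := by rw [htop]; trivial
      have hy : y ∈ Subgroup.zpowers r := by rw [htop]; trivial
      obtain ⟨i, rfl⟩ := Subgroup.mem_zpowers_iff.mp hx
      obtain ⟨j, rfl⟩ := Subgroup.mem_zpowers_iff.mp hy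
      exact ((Commute.refl r).zpow_zpow i j).eq
    haveI hHn : H.Normal := ⟨fun x hx g => by rw [hcomm g x, mul_assoc, mul_inv_cancel, mul_one]; exact hx⟩
    have := Cfsg.Agent.Lib.Recog.normal_le_stabilizer_eq_bot H a le_rfl
    rw [this, Subgroup.card_bot] at hH2
    omega
  obtain ⟨e⟩ := Cfsg.Agent.Lib.Recog.nonempty_mulEquiv_dihedral s t hss htt hcl hsn
  have hcardG : Nat.card G = 2 * orderOf r := by
    rw [Nat.card_congr e.toEquiv]
    have hne : NeZero (orderOf r) := ⟨(orderOf_pos r).ne'⟩
    exact DihedralGroup.nat_card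
  refine ⟨orderOf r, ?_, ⟨e⟩⟩
  have hn0 : orderOf r ≠ 0 := (orderOf_pos r).ne'
  have hn1 : orderOf r ≠ 1 := by
    intro h
    have hr1 : r = 1 := orderOf_eq_one_iff.mp h
    have hst : s = t := by
      have : s * t = t * t := by rw [← hr, hr1, htt]
      exact mul_right_cancel this
    have hsK : s ∈ K := ⟨hsH, hst ▸ htL⟩
    rw [hKbot] at hsK
    exact hs1' hsK
  rw [Nat.prime_def]
  refine ⟨by omega, ?_⟩
  intro m hm
  by_contra hc
  push Not at hc
  obtain ⟨hm1, hmn⟩ := hc
  obtain ⟨k, hk⟩ := hm
  have hm0 : m ≠ 0 := by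
    rintro rfl
    rw [zero_mul] at hk
    exact hn0 hk
  set P := Subgroup.zpowers (r ^ m) with hP
  have hcardP : Nat.card P = k := by
    rw [hP, Nat.card_zpowers, orderOf_pow_of_dvd hm0 ⟨k, hk⟩, hk]
    exact Nat.mul_div_cancel_left k (Nat.pos_of_ne_zero hm0)
  have hconj : ∀ g ∈ ({s, t} : Set G), g * g = 1 ∧ g * r * g⁻¹ = r⁻¹ := by
    have hrinv : r⁻¹ = t * s := by rw [hr, mul_inv_rev, hsinv, htinv]
    rintro x (rfl | rfl)
    · refine ⟨hss, ?_⟩
      rw [hrinv, hsinv, hr, ← mul_assoc, hss, one_mul]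
    · refine ⟨htt, ?_⟩
      rw [hrinv, htinv, hr, mul_assoc, mul_assoc, htt, mul_one]
  have hforward : ∀ g ∈ ({s, t} : Set G), ∀ x ∈ P, g * x * g⁻¹ ∈ P := by
    intro g hg x hx
    obtain ⟨i, rfl⟩ := Subgroup.mem_zpowers_iff.mp hx
    have h1 : g * (r ^ m) ^ i * g⁻¹ = ((g * r * g⁻¹) ^ m) ^ i := by
      have := map_zpow (MulAut.conj g) (r ^ m) i
      rw [map_pow] at this
      simpa [MulAut.conj_apply] using this
    rw [h1, (hconj g hg).2, inv_pow, inv_zpow]
    exact inv_mem (zpow_mem (Subgroup.mem_zpowers _) i)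
  have hPnorm : Subgroup.normalizer (P : Set G) = ⊤ := by
    rw [eq_top_iff, ← hcl, Subgroup.closure_le]
    intro g hg
    rw [SetLike.mem_coe, Subgroup.mem_normalizer_iff]
    intro x
    refine ⟨hforward g hg x, fun h2 => ?_⟩
    have h3 := hforward g hg _ h2
    have hginv : g⁻¹ = g := inv_eq_of_mul_eq_one_left (hconj g hg).1
    have h4 : g * (g * x * g⁻¹) * g⁻¹ = x := by
      rw [hginv]
      calc g * (g * x * g) * g = (g * g) * x * (g * g) := by group
        _ = x := by rw [(hconj g hg).1]; group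
    rwa [h4] at h3
  haveI hPn : P.Normal := Subgroup.normalizer_eq_top_iff.mp hPnorm
  by_cases hPH : P ≤ H
  · have hPbot := Cfsg.Agent.Lib.Recog.normal_le_stabilizer_eq_bot P a hPH
    have h1 : r ^ m = 1 := by
      have : r ^ m ∈ P := Subgroup.mem_zpowers _
      rw [hPbot] at this
      exact this
    have h2 : orderOf r ∣ m := orderOf_dvd_of_pow_eq_one h1
    exact hmn (Nat.dvd_antisymm ⟨k, hk⟩ h2)
  · have hsup' : P ⊔ H = ⊤ := by
      rw [sup_comm]
      apply hco.2
      refine lt_of_le_of_ne le_sup_left ?_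
      intro h
      apply hPH
      rw [h]
      exact le_sup_right
    have h1 : P.relIndex H = P.index := by
      rw [← Subgroup.relIndex_sup_left, hsup', Subgroup.relIndex_top_right]
    have h2 : P.relIndex H ∣ Nat.card H := Subgroup.relIndex_dvd_card P H
    rw [hH2, h1] at h2
    have h3 : P.index ≤ 2 := Nat.le_of_dvd (by norm_num) h2
    have h4 := Subgroup.index_mul_card P
    rw [hcardP, hcardG, hk] at h4
    have hk0 : 0 < k := by
      rcases Nat.eq_zero_or_pos k with h | h
      · rw [h, mul_zero] at hk; exact absurd hk hn0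
      · exact h
    have h5 : P.index = 2 * m := by
      have : P.index * k = (2 * m) * k := by rw [h4]; ring
      exact Nat.eq_of_mul_eq_mul_right hk0 this
    have hm2 : 2 ≤ m := by omega
    omega

end Cfsg.Agent.S3684
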