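import Cfsg.Statements.S3696


set_option autoImplicit false
open Cfsg

namespace Cfsg.Agent.S3696

---IMPORTS
open MulAction

/-- weighted AM-GM in natural numbers -/
theorem amgm_nat (m r c d : ℕ) (hc : 0 < c) (hd : 0 < d) :
    m ^ c * r ^ d * (c + d) ^ (c + d) ≤ (m + r) ^ (c + d) * c ^ c * d ^ d := by
  have hcR : (0 : ℝ) < c := by exact_mod_cast hc
  have hdR : (0 : ℝ) < d := by exact_mod_cast hd
  have hsR : (0 : ℝ) < (c : ℝ) + d := by positivity
  have hw : (c : ℝ) / (c + d) + (d : ℝ) / (c + d) = 1 := by field_simp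
  have h := Real.geom_mean_le_arith_mean2_weighted (w₁ := (c : ℝ) / (c + d)) (w₂ := (d : ℝ) / (c + d))
    (p₁ := (m : ℝ) / c) (p₂ := (r : ℝ) / d) (by positivity) (by positivity) (by positivity) (by positivity) hw
  have h2 : (c : ℝ) / (c + d) * ((m : ℝ) / c) + (d : ℝ) / (c + d) * ((r : ℝ) / d) = ((m : ℝ) + r) / (c + d) := by
    field_simp
  rw [h2] at h
  have h3 := pow_le_pow_left₀ (by positivity) h (c + d)
  rw [mul_pow] at h3
  have h4 : (((m : ℝ) / c) ^ ((c : ℝ) / (c + d))) ^ (c + d) = ((m : ℝ) / c) ^ c := by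
    rw [← Real.rpow_natCast, ← Real.rpow_mul (by positivity)]
    have : (c : ℝ) / (c + d) * ((c + d : ℕ) : ℝ) = c := by
      push_cast; field_simp
    rw [this, Real.rpow_natCast]
  have h5 : (((r : ℝ) / d) ^ ((d : ℝ) / (c + d))) ^ (c + d) = ((r : ℝ) / d) ^ d := by
    rw [← Real.rpow_natCast, ← Real.rpow_mul (by positivity)]
    have : (d : ℝ) / (c + d) * ((c + d : ℕ) : ℝ) = d := by
      push_cast; field_simp
    rw [this, Real.rpow_natCast]
  rw [h4, h5, div_pow, div_pow, div_pow] at h3
  have hcp : (0 : ℝ) < (c : ℝ) ^ c := by positivity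
  have hdp : (0 : ℝ) < (d : ℝ) ^ d := by positivity
  have hsp : (0 : ℝ) < ((c : ℝ) + d) ^ (c + d) := by positivity
  rw [div_mul_div_comm, div_le_div_iff₀ (by positivity) hsp] at h3
  have h6 : ((m ^ c * r ^ d * (c + d) ^ (c + d) : ℕ) : ℝ) ≤ (((m + r) ^ (c + d) * c ^ c * d ^ d : ℕ) : ℝ) := by
    push_cast
    linarith
  exact_mod_cast h6

/-- `2 ^ c ≤ m` implies `m * c ^ c ≤ m ^ c`. -/
theorem self_mul_pow_le (m c : ℕ) (hc : 0 < c) (hm : 2 ^ c ≤ m) : m * c ^ c ≤ m ^ c := by
  obtain ⟨e, rfl⟩ : ∃ e, c = e + 1 := ⟨c - 1, by omega⟩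
  have h1 : e + 1 ≤ 2 ^ e := Nat.succ_le_of_lt Nat.lt_two_pow_self
  have h2 : (e + 1) ^ (e + 1) ≤ (2 ^ e) ^ (e + 1) := Nat.pow_le_pow_left h1 _
  have h3 : (2 ^ e) ^ (e + 1) = (2 ^ (e + 1)) ^ e := by
    rw [← pow_mul, ← pow_mul, mul_comm]
  have h4 : (2 ^ (e + 1)) ^ e ≤ m ^ e := Nat.pow_le_pow_left hm _
  calc m * (e + 1) ^ (e + 1) ≤ m * m ^ e := Nat.mul_le_mul_left _ (by omega)
    _ = m ^ (e + 1) := by rw [pow_succ']

theorem arith_final (p k k' m r Kc : ℕ) (hp : 2 ≤ p) (hk : k' < k) (hI : Kc * k' ^ k' ≤ r ^ k')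
    (hW : p ^ k ≤ p ^ k' * m) : Kc * m * k ^ k ≤ (m + r) ^ k := by
  obtain ⟨c, rfl⟩ : ∃ c, k = c + k' := ⟨k - k', by omega⟩
  have hc : 0 < c := by omega
  have hp0 : 0 < p ^ k' := by positivity
  have hm : 2 ^ c ≤ m := by
    have h1 : p ^ c * p ^ k' ≤ m * p ^ k' := by
      rw [← pow_add, mul_comm m]; exact hW
    have h2 : p ^ c ≤ m := Nat.le_of_mul_le_mul_right h1 hp0
    exact (Nat.pow_le_pow_left hp c).trans h2
  have hL1 := self_mul_pow_le m c hc hm
  by_cases hk0 : k' = 0
  · subst hk0
    simp only [pow_zero, mul_one, add_zero] at hI ⊢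
    calc Kc * m * c ^ c = Kc * (m * c ^ c) := by ring
      _ ≤ 1 * m ^ c := Nat.mul_le_mul hI hL1
      _ = m ^ c := one_mul _
      _ ≤ (m + r) ^ c := Nat.pow_le_pow_left (by omega) _
  · have hk0' : 0 < k' := by omega
    have hL2 := amgm_nat m r c k' hc hk0'
    have hpos : 0 < c ^ c * k' ^ k' := by positivity
    apply Nat.le_of_mul_le_mul_right _ hpos
    calc Kc * m * (c + k') ^ (c + k') * (c ^ c * k' ^ k')
        = (Kc * k' ^ k') * (m * c ^ c) * (c + k') ^ (c + k') := by ring
      _ ≤ r ^ k' * m ^ c * (c + k') ^ (c + k') := by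
          apply Nat.mul_le_mul_right
          exact Nat.mul_le_mul hI hL1
      _ = m ^ c * r ^ k' * (c + k') ^ (c + k') := by ring
      _ ≤ (m + r) ^ (c + k') * c ^ c * k' ^ k' := hL2
      _ = (m + r) ^ (c + k') * (c ^ c * k' ^ k') := by ring

universe u

theorem aux_bound (p : ℕ) (hp : p.Prime) (n : ℕ) : ∀ (Ω : Type u) [Finite Ω] (A : Type u) [CommGroup A] [Finite A]
    [MulAction A Ω] [FaithfulSMul A Ω], Nat.card Ω = n → IsPGroup p A → ∀ k,
    Nat.card (powMonoidHom p : A →* A).ker = p ^ k → Nat.card A * k ^ k ≤ n ^ k := by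
  induction n using Nat.strong_induction_on with
  | _ n IH =>
  intro Ω _ A _ _ _ _ hn hA k hk
  by_cases htriv : Subsingleton A
  · have h1 : Nat.card (powMonoidHom p : A →* A).ker = 1 := by
      haveI : Subsingleton (powMonoidHom p : A →* A).ker := inferInstance
      exact Nat.card_unique
    rw [h1] at hk
    have hk0 : k = 0 := by
      by_contra h0
      have := Nat.one_lt_pow h0 hp.one_lt
      omega
    subst hk0
    simp [Nat.card_unique]
  rw [not_subsingleton_iff_nontrivial] at htriv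
  -- a point
  have hne : Nonempty Ω := by
    by_contra hem
    rw [not_nonempty_iff] at hem
    obtain ⟨x, hx⟩ := exists_ne (1 : A)
    exact hx (FaithfulSMul.eq_of_smul_eq_smul (α := Ω) (fun ω => hem.elim ω))
  obtain ⟨o⟩ := hne
  let O : Set Ω := orbit A o
  let K : Subgroup A := stabilizer A o
  have hKfix : ∀ x ∈ K, ∀ ω ∈ O, x • ω = ω := by
    rintro x hx _ ⟨a, rfl⟩
    show x • (a • o) = a • o
    rw [smul_smul, mul_comm, mul_smul, show x • o = o from hx]
  let S : SubMulAction A Ω :=
    { carrier := Oᶜ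
      smul_mem' := by
        intro a ω hω hmem
        apply hω
        have h1 : a⁻¹ • (a • ω) ∈ O := by
          obtain ⟨b, hb⟩ := hmem
          refine ⟨a⁻¹ * b, ?_⟩
          show (a⁻¹ * b) • o = _
          rw [mul_smul]
          exact congrArg (a⁻¹ • ·) hb
        simpa using h1 }
  have hSfaith : ∀ x ∈ K, (∀ s : S, x • (s : Ω) = s) → x = 1 := by
    intro x hxK hx
    apply FaithfulSMul.eq_of_smul_eq_smul (α := Ω)
    intro ω
    rw [one_smul]
    by_cases hω : ω ∈ O
    · exact hKfix x hxK ω hω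
    · exact hx ⟨ω, hω⟩
  have hcardS : Nat.card O + Nat.card S = n := by
    have h1 : Nat.card S = Nat.card (Oᶜ : Set Ω) := rfl
    rw [h1, Nat.card_coe_set_eq, Nat.card_coe_set_eq, Set.ncard_add_ncard_compl, hn]
  have hOpos : 0 < Nat.card O := by
    have : Nonempty O := ⟨⟨o, mem_orbit_self o⟩⟩
    exact Nat.card_pos
  have hSlt : Nat.card S < n := by omega
  by_cases hfaith : FaithfulSMul A S
  · have h1 := IH _ hSlt S A rfl hA k hk
    exact h1.trans (Nat.pow_le_pow_left (by omega) _)
  · -- K faithful on S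
    haveI : FaithfulSMul K S := by
      constructor
      intro x y hxy
      have h1 : (x⁻¹ * y : K) = 1 := by
        apply Subtype.ext
        apply hSfaith _ (x⁻¹ * y).2
        intro s
        have h2 := hxy s
        have h3 : (x : A) • s = (y : A) • s := h2
        have h4 : (x : A) • (s : Ω) = (y : A) • (s : Ω) := congrArg Subtype.val h3
        show ((x : A)⁻¹ * y) • (s : Ω) = s
        rw [mul_smul, ← h4, inv_smul_smul]
      exact (inv_mul_eq_one.mp h1)
    -- an element of order p acting trivially on S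
    have hx : ∃ x : A, x ≠ 1 ∧ ∀ s : S, x • (s : Ω) = s := by
      by_contra hcon
      push Not at hcon
      apply hfaith
      constructor
      intro x y hxy
      by_contra hne
      have hne' : x⁻¹ * y ≠ 1 := by
        intro h
        exact hne (inv_mul_eq_one.mp h)
      obtain ⟨s, hs⟩ := hcon _ hne'
      apply hs
      have h3 : x • s = y • s := hxy s
      have h4 : x • (s : Ω) = y • (s : Ω) := congrArg Subtype.val h3
      rw [mul_smul, ← h4, inv_smul_smul]
    obtain ⟨x, hx1, hxS⟩ := hx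
    obtain ⟨y, hyker, hy1, hyS⟩ : ∃ y : A, y ^ p = 1 ∧ y ≠ 1 ∧ ∀ s : S, y • (s : Ω) = s := by
      obtain ⟨e, he⟩ := hA x
      obtain ⟨j, -, hord⟩ := (Nat.dvd_prime_pow hp).mp (orderOf_dvd_of_pow_eq_one he)
      have hj0 : j ≠ 0 := by
        intro h0
        rw [h0, pow_zero] at hord
        exact hx1 (orderOf_eq_one_iff.mp hord)
      obtain ⟨i, hi⟩ : ∃ i, j = i + 1 := ⟨j - 1, by omega⟩
      refine ⟨x ^ p ^ i, ?_, ?_, ?_⟩
      · rw [← pow_mul, ← pow_succ, ← hi, ← hord, pow_orderOf_eq_one]
      · intro h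
        have := orderOf_dvd_of_pow_eq_one h
        rw [hord, hi] at this
        have := (Nat.pow_dvd_pow_iff_le_right hp.one_lt).mp this
        omega
      · intro s
        have hpow : ∀ m : ℕ, x ^ m • (s : Ω) = s := by
          intro m
          induction m with
          | zero => simp
          | succ m ih => rw [pow_succ, mul_smul, hxS, ih]
        exact hpow _
    have hyK : y ∉ K := by
      intro h
      exact hy1 (hSfaith y h hyS)
    -- the rank of K
    haveI : Fact p.Prime := ⟨hp⟩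
    obtain ⟨k', hk'⟩ := IsPGroup.iff_card.mp
      ((show IsPGroup p K from hA.to_subgroup K).to_subgroup (powMonoidHom p : K →* K).ker)
    let W : Subgroup A := (powMonoidHom p : A →* A).ker
    let φ : stabilizer W o ≃ (powMonoidHom p : K →* K).ker :=
      { toFun := fun x => ⟨⟨x.1.1, x.2⟩, by
          rw [MonoidHom.mem_ker]
          apply Subtype.ext
          exact x.1.2⟩
        invFun := fun y => ⟨⟨y.1.1, by
          have := (MonoidHom.mem_ker (f := (powMonoidHom p : K →* K))).mp y.2
          rw [MonoidHom.mem_ker]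
          exact congrArg Subtype.val this⟩, y.1.2⟩
        left_inv := fun _ => rfl
        right_inv := fun _ => rfl }
    have hφ : Nat.card (stabilizer W o) = p ^ k' := by
      rw [← hk']; exact Nat.card_congr φ
    have hWcard : Nat.card W = p ^ k := hk
    have hk'lt : k' < k := by
      have hstab : stabilizer W o ≠ ⊤ := by
        intro htop
        have hyW : y ∈ W := by
          rw [MonoidHom.mem_ker]; exact hyker
        have : (⟨y, hyW⟩ : W) ∈ stabilizer W o := by rw [htop]; trivial
        exact hyK this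
      have hlt : Nat.card (stabilizer W o) < Nat.card W := by
        have h1 := Subgroup.card_le_card_group (stabilizer W o)
        refine lt_of_le_of_ne h1 ?_
        intro heq
        exact hstab (Subgroup.eq_top_of_card_eq _ heq)
      rw [hφ, hWcard] at hlt
      exact (Nat.pow_lt_pow_iff_right hp.one_lt).mp hlt
    have hW' : p ^ k ≤ p ^ k' * Nat.card O := by
      have h1 := Subgroup.card_mul_index (stabilizer W o)
      rw [hφ, hWcard, index_stabilizer] at h1
      rw [← h1]
      apply Nat.mul_le_mul_left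
      rw [Nat.card_coe_set_eq]
      apply Set.ncard_le_ncard _ (Set.toFinite _)
      rintro _ ⟨w, rfl⟩
      exact ⟨(w : A), rfl⟩
    have hAcard : Nat.card A = Nat.card K * Nat.card O := by
      have h1 := Subgroup.card_mul_index K
      rw [← h1, index_stabilizer, Nat.card_coe_set_eq]
    have hI := IH _ hSlt S K rfl (hA.to_subgroup K) k' hk'
    rw [hAcard, ← hcardS]
    exact arith_final p k k' (Nat.card O) (Nat.card S) (Nat.card K) hp.two_le hk'lt hI hW'


/-- Let p be a prime, Ω a finite set with n ≥ p elements, and A an abelian p-subgroup of the symmetric group on Ω whose elements of order dividing p number p^k (so k is the rank of A). Then |A| · k^k ≤ n^k, that is, |A| ≤ (n/k)^k. -/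
theorem result {Ω : Type*} [Fintype Ω] [DecidableEq Ω]
    (p : ℕ) (hp : p.Prime) (hn : p ≤ Fintype.card Ω) (A : Subgroup (Equiv.Perm Ω)) (hA : IsPGroup p A) (hab : IsMulCommutative A)
    (k : ℕ) (hk : Nat.card {x : A // x ^ p = 1} = p ^ k) :
    Nat.card A * k ^ k ≤ Fintype.card Ω ^ k := by
  classical
  letI cg : CommGroup A := { (inferInstance : Group A) with mul_comm := hab.is_comm.comm }
  have h1 : Nat.card (powMonoidHom p : A →* A).ker = p ^ k := by
    rw [← hk]
    refine Nat.card_congr (Equiv.subtypeEquivRight (fun x => ?_))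
    rw [MonoidHom.mem_ker]; rfl
  have := aux_bound p hp (Fintype.card Ω) Ω A (Nat.card_eq_fintype_card) hA k h1
  exact this

end Cfsg.Agent.S3696
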