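import Cfsg.Statements.S3740
-- import your own Cfsg.Agent.* helpers here
import Mathlib
import Cfsg.Agent.Lib.Coprime.SL2PElt
import Cfsg.Agent.Lib.Coprime.SL2Q8
import Cfsg.Agent.Lib.OddChar.ThompsonFpf
import Cfsg.Agent.Lib.OddLocal.UniqueP2
import Cfsg.Agent.Lib.Fusion.Dihedral

set_option autoImplicit false
open Cfsg

namespace Cfsg.Agent.S3740

open Cfsg.Agent.Lib.Coprime.SL2PElt Cfsg.Agent.Lib.Coprime.SL2Q8 Cfsg.Agent.Lib.Known

section

variable {F : Type} [Field F] {p : ℕ} [Fact p.Prime] [CharP F p]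

local notation "M₂" => Matrix (Fin 2) (Fin 2) F
local notation "Γ" => Matrix.SpecialLinearGroup (Fin 2) F

/-- The standing hypotheses. -/
structure Setup (p : ℕ) (a : Matrix.SpecialLinearGroup (Fin 2) F)
    (R : Subgroup (Matrix.SpecialLinearGroup (Fin 2) F)) : Prop where
  hp : p ≠ 2
  hN : ((a : Matrix (Fin 2) (Fin 2) F) - 1) * ((a : Matrix (Fin 2) (Fin 2) F) - 1) = 0
  ha1 : a ≠ 1
  hap : a ^ p = 1
  hc : ∀ t ∈ R, (orderOf t).Coprime p
  hn : ∀ t ∈ R, a * t * a⁻¹ ∈ R
  hn' : ∀ t ∈ R, a⁻¹ * t * a ∈ R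

omit [Fact p.Prime] [CharP F p] in
/-- Conjugation by `a` on `R`. -/
def conjR {a : Γ} {R : Subgroup Γ} (s : Setup p a R) : ↥R ≃* ↥R where
  toFun t := ⟨a * t * a⁻¹, s.hn t t.2⟩
  invFun t := ⟨a⁻¹ * t * a, s.hn' t t.2⟩
  left_inv t := Subtype.ext (by group)
  right_inv t := Subtype.ext (by group)
  map_mul' x y := Subtype.ext (by
    show a * ((x : Γ) * (y : Γ)) * a⁻¹ = (a * x * a⁻¹) * (a * y * a⁻¹)
    group)

omit [Fact p.Prime] [CharP F p] in
theorem conjR_coe {a : Γ} {R : Subgroup Γ} (s : Setup p a R) (t : R) :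
    ((conjR s t : R) : Γ) = a * t * a⁻¹ := rfl

omit [Fact p.Prime] [CharP F p] in
theorem conjR_iter {a : Γ} {R : Subgroup Γ} (s : Setup p a R) (k : ℕ) (t : R) :
    (((conjR s)^[k] t : R) : Γ) = a ^ k * t * (a ^ k)⁻¹ := by
  induction k with
  | zero => simp
  | succ k ih =>
    rw [Function.iterate_succ_apply', conjR_coe, ih, pow_succ']
    group

omit [Fact p.Prime] [CharP F p] in
theorem conjR_iter_p {a : Γ} {R : Subgroup Γ} (s : Setup p a R) (t : R) :
    (conjR s)^[p] t = t := by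
  apply Subtype.ext
  rw [conjR_iter, s.hap]
  simp

theorem orderOf_a {a : Γ} {R : Subgroup Γ} (s : Setup p a R) : orderOf a = p :=
  orderOf_eq_prime s.hap s.ha1

/-- A power of `a` prime to `p` centralizing `t` forces `t² = 1`. -/
theorem comm_pow {a : Γ} {R : Subgroup Γ} (s : Setup p a R) {t : Γ} (ht : t ∈ R) {k : ℕ}
    (hk : k.Coprime p) (h : a ^ k * t * (a ^ k)⁻¹ = t) : t * t = 1 := by
  have hk' : k.Coprime (orderOf a) := by rw [orderOf_a s]; exact hk
  obtain ⟨m, hm⟩ := exists_pow_eq_self_of_coprime hk'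
  have h1 : Commute (a ^ k) t := by
    show a ^ k * t = t * a ^ k
    rw [mul_inv_eq_iff_eq_mul] at h
    exact h
  have h2 : Commute ((a ^ k) ^ m) t := h1.pow_left m
  rw [hm] at h2
  exact mul_self_of_comm s.hp s.ha1 s.hN h2.symm.eq (s.hc t ht)

theorem coprime_small (hp : p ≠ 2) {k : ℕ} (hk : k = 1 ∨ k = 2 ∨ k = 4) : k.Coprime p := by
  have hpp : p.Prime := Fact.out
  have h2 : Nat.Coprime 2 p := (Nat.coprime_primes Nat.prime_two hpp).mpr (Ne.symm hp)
  rcases hk with rfl | rfl | rfl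
  · exact Nat.coprime_one_left p
  · exact h2
  · exact Nat.Coprime.pow_left 2 h2

/-- Abelian `a`-invariant subgroups of `R` have exponent two. -/
theorem abelian_inv {a : Γ} {R : Subgroup Γ} (s : Setup p a R) (W : Subgroup Γ) (hW : W ≤ R)
    (hinv : ∀ t ∈ W, a * t * a⁻¹ ∈ W) (hab : ∀ x ∈ W, ∀ y ∈ W, x * y = y * x) :
    ∀ t ∈ W, t * t = 1 := by
  intro t ht
  have htR := hW ht
  rcases conj_comm s.hp (hab _ (hinv t ht) t ht) (s.hc t htR) with h | h | h
  · exact h
  · exact comm_pow s htR (coprime_small s.hp (k := 1) (Or.inl rfl)) (by rw [pow_one, h])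
  · refine comm_pow s htR (coprime_small s.hp (k := 2) (Or.inr (Or.inl rfl))) ?_
    calc a ^ 2 * t * (a ^ 2)⁻¹ = a * (a * t * a⁻¹) * a⁻¹ := by
          rw [pow_two, mul_inv_rev]
          simp only [mul_assoc]
      _ = a * t⁻¹ * a⁻¹ := by rw [h]
      _ = (a * t * a⁻¹)⁻¹ := by group
      _ = t := by rw [h, inv_inv]

/-- Involutions of `SL₂` are central. -/
theorem central_of_sq (hp : p ≠ 2) {t : Γ} (h : t * t = 1) : t ∈ Subgroup.center Γ := by
  have h2 := two_ne_zero_of_odd (F := F) hp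
  have h3 : (t : M₂) * (t : M₂) = 1 := congrArg Subtype.val h
  rw [Subgroup.mem_center_iff]
  intro g
  apply Subtype.ext
  rw [Matrix.SpecialLinearGroup.coe_mul, Matrix.SpecialLinearGroup.coe_mul]
  rcases eq_one_or_neg_of_sq h2 t.2 h3 with h4 | h4 <;> rw [h4] <;> simp

theorem trivial_contra {a : Γ} {R : Subgroup Γ} (h : ∀ t ∈ R, a * t = t * a) :
    ⁅R, Subgroup.zpowers a⁆ = ⊥ := by
  rw [Subgroup.commutator_eq_bot_iff_le_centralizer, Subgroup.le_centralizer_iff,
    Subgroup.zpowers_le, Subgroup.mem_centralizer_iff]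
  intro t ht
  exact (h t ht).symm

/-- `R` is nilpotent. -/
theorem nilp [Finite F] {a : Γ} {R : Subgroup Γ} (s : Setup p a R) : Group.IsNilpotent ↥R := by
  have hpp : p.Prime := Fact.out
  have hodd : Odd p := hpp.odd_of_ne_two s.hp
  let N : Subgroup ↥R := (Subgroup.center Γ).comap R.subtype
  have hNmem : ∀ x : R, x ∈ N ↔ (x : Γ) ∈ Subgroup.center Γ := fun _ => Iff.rfl
  haveI hNn : N.Normal := Subgroup.Normal.comap inferInstance _
  let φ := conjR s
  have hfix : ∀ x ∈ N, φ x = x := by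
    intro x hx
    apply Subtype.ext
    rw [conjR_coe]
    have := ((hNmem x).mp hx)
    rw [Subgroup.mem_center_iff] at this
    rw [this a]
    group
  have hmap : N.map (φ : ↥R →* ↥R) = N := by
    apply le_antisymm
    · rintro _ ⟨x, hx, rfl⟩
      show φ x ∈ N
      rw [hfix x hx]
      exact hx
    · intro x hx
      exact ⟨x, hx, hfix x hx⟩
  let φb : (↥R ⧸ N) ≃* (↥R ⧸ N) := QuotientGroup.congr N N φ hmap
  have hφb : ∀ r : R, φb (r : ↥R ⧸ N) = ((φ r : R) : ↥R ⧸ N) := fun _ => rfl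
  have hfpf : MonoidHom.FixedPointFree (φb : (↥R ⧸ N) →* (↥R ⧸ N)) := by
    intro x hx
    induction x using QuotientGroup.induction_on with
    | H r =>
    have h1 : ((φ r : R) : ↥R ⧸ N) = (r : ↥R ⧸ N) := hx
    have h2 : (r : R)⁻¹ * φ r ∈ N := by
      have := (QuotientGroup.eq (s := N)).mp h1.symm
      exact this
    set w : R := (r : R)⁻¹ * φ r with hw
    have hwc : (w : Γ) ∈ Subgroup.center Γ := h2
    have hrw : a * (r : Γ) * a⁻¹ = r * w := by
      rw [hw]
      show _ = (r : Γ) * ((r : Γ)⁻¹ * (a * r * a⁻¹))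
      group
    have hww : (w : Γ) * w = 1 := by
      refine mul_self_of_comm s.hp s.ha1 s.hN ?_ (s.hc w w.2)
      exact ((Subgroup.mem_center_iff.mp hwc) a).symm
    have hit : ∀ k : ℕ, a ^ k * (r : Γ) * (a ^ k)⁻¹ = r * (w : Γ) ^ k := by
      intro k
      induction k with
      | zero => simp
      | succ k ih =>
        have h3 : a ^ (k + 1) * (r : Γ) * (a ^ (k + 1))⁻¹ = a * (a ^ k * (r : Γ) * (a ^ k)⁻¹) * a⁻¹ := by
          rw [pow_succ']
          group
        rw [h3, ih]
        have h4 : a * ((r : Γ) * (w : Γ) ^ k) * a⁻¹ = (a * (r : Γ) * a⁻¹) * (a * (w : Γ) ^ k * a⁻¹) := by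
          group
        have h5 : a * (w : Γ) * a⁻¹ = w := by
          rw [mul_inv_eq_iff_eq_mul]
          exact ((Subgroup.mem_center_iff.mp hwc) a)
        rw [h4, hrw, ← conj_pow, h5, pow_succ', mul_assoc]
    have hw1 : (w : Γ) = 1 := by
      have h3 := hit p
      rw [s.hap] at h3
      simp only [one_mul, inv_one, mul_one] at h3
      have h4 : (w : Γ) ^ p = 1 := by
        have : (r : Γ) * (w : Γ) ^ p = (r : Γ) * 1 := by rw [← h3, mul_one]
        exact mul_left_cancel this
      obtain ⟨k, hk⟩ := hodd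
      rw [hk, pow_succ, pow_mul, pow_two, hww, one_pow, one_mul] at h4
      exact h4
    have hrr : (r : Γ) * r = 1 := by
      refine comm_pow s r.2 (coprime_small s.hp (k := 1) (Or.inl rfl)) ?_
      rw [pow_one, hrw, hw1, mul_one]
    have h6 : r ∈ N := central_of_sq s.hp hrr
    exact (QuotientGroup.eq_one_iff r).mpr h6
  have hiter : ∀ (k : ℕ) (r : R), φb^[k] (r : ↥R ⧸ N) = ((φ^[k] r : R) : ↥R ⧸ N) := by
    intro k
    induction k with
    | zero => intro r; rfl
    | succ k ih =>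
      intro r
      rw [Function.iterate_succ_apply', ih, Function.iterate_succ_apply']
      rfl
  have hKn : Group.IsNilpotent (↥R ⧸ N) := by
    refine Cfsg.Agent.Lib.OddChar.thompson_fpf φb hfpf hpp ?_
    intro x
    induction x using QuotientGroup.induction_on with
    | H r =>
    rw [hiter, conjR_iter_p]
  haveI := hKn
  refine Subgroup.isNilpotent_of_ker_le_center (QuotientGroup.mk' N) ?_
  rw [QuotientGroup.ker_mk']
  intro x hx
  rw [Subgroup.mem_center_iff]
  intro g
  apply Subtype.ext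
  exact (Subgroup.mem_center_iff.mp hx) g

/-- A nilpotent group of order divisible by `r` has a characteristic abelian subgroup with a nontrivial
`r`-element. -/
theorem exists_char_abelian {H : Type} [Group H] [Finite H] (hnil : Group.IsNilpotent H) {r : ℕ}
    (hr : r.Prime) (hdvd : r ∣ Nat.card H) :
    ∃ W : Subgroup H, (∀ (ψ : H ≃* H), ∀ x ∈ W, ψ x ∈ W) ∧ (∀ x ∈ W, ∀ y ∈ W, x * y = y * x) ∧
      ∃ z ∈ W, z ≠ 1 ∧ ∃ k : ℕ, z ^ (r ^ k) = 1 := by
  haveI : Fact r.Prime := ⟨hr⟩
  let P : Sylow r H := default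
  have hsyl := (Group.isNilpotent_of_finite_tfae (G := H)).out 0 3
  have hPn : (P : Subgroup H).Normal := hsyl.mp hnil r ⟨hr⟩ P
  have hPc : (P : Subgroup H).Characteristic := Sylow.characteristic_of_normal P hPn
  have hφP : ∀ (ψ : H ≃* H) (x : H), x ∈ (P : Subgroup H) → ψ x ∈ (P : Subgroup H) := by
    intro ψ x hx
    have h1 := Subgroup.characteristic_iff_map_eq.mp hPc ψ
    rw [← h1]
    exact ⟨x, hx, rfl⟩
  haveI hnontriv : Nontrivial (P : Subgroup H) := by
    have h1 : (P : Subgroup H) ≠ ⊥ := Sylow.ne_bot_of_dvd_card P hdvd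
    exact (Subgroup.nontrivial_iff_ne_bot _).mpr h1
  haveI := P.isPGroup'.center_nontrivial
  obtain ⟨z, hz⟩ := exists_ne (1 : Subgroup.center (P : Subgroup H))
  refine ⟨(P : Subgroup H) ⊓ Subgroup.centralizer ((P : Subgroup H) : Set H), ?_, ?_, ?_⟩
  · rintro ψ x ⟨hx, hx'⟩
    refine ⟨hφP ψ x hx, ?_⟩
    show ψ x ∈ Subgroup.centralizer _
    rw [Subgroup.mem_centralizer_iff]
    intro y hy
    have h1 := hφP ψ.symm y hy
    have hx'' : x ∈ Subgroup.centralizer ((P : Subgroup H) : Set H) := hx'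
    rw [Subgroup.mem_centralizer_iff] at hx''
    have h2 := hx'' (ψ.symm y) h1
    have h3 := congrArg ψ h2
    simpa using h3
  · rintro x ⟨hx, hx'⟩ y ⟨hy, hy'⟩
    have hx'' : x ∈ Subgroup.centralizer ((P : Subgroup H) : Set H) := hx'
    rw [Subgroup.mem_centralizer_iff] at hx''
    exact (hx'' y hy).symm
  · refine ⟨((z : (P : Subgroup H)) : H), ⟨(z : (P : Subgroup H)).2, ?_⟩, ?_, ?_⟩
    · show _ ∈ Subgroup.centralizer _
      rw [Subgroup.mem_centralizer_iff]
      intro y hy
      have h1 := Subgroup.mem_center_iff.mp z.2 ⟨y, hy⟩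
      exact congrArg Subtype.val h1
    · intro h
      apply hz
      apply Subtype.ext
      apply Subtype.ext
      exact h
    · obtain ⟨k, hk⟩ := P.isPGroup' (z : (P : Subgroup H))
      refine ⟨k, ?_⟩
      have := congrArg Subtype.val hk
      simpa using this

/-- `R` is a `2`-group. -/
theorem two_group [Finite F] {a : Γ} {R : Subgroup Γ} (s : Setup p a R) : IsPGroup 2 ↥R := by
  have hne : Nat.card R ≠ 0 := Nat.card_pos.ne'
  have key : ∀ {r : ℕ}, r.Prime → r ∣ Nat.card R → r = 2 := by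
    intro r hr hdvd
    by_contra hr2
    obtain ⟨W, hWc, hWa, z, hzW, hz1, k, hk⟩ := exists_char_abelian (nilp s) hr hdvd
    have hz2 := abelian_inv s (W.map R.subtype) (by
        rintro _ ⟨x, _, rfl⟩
        exact x.2) (by
        rintro _ ⟨x, hx, rfl⟩
        exact ⟨conjR s x, hWc (conjR s) x hx, rfl⟩) (by
        rintro _ ⟨x, hx, rfl⟩ _ ⟨y, hy, rfl⟩
        exact congrArg Subtype.val (hWa x hx y hy)) _ ⟨z, hzW, rfl⟩
    apply hz1
    apply Subtype.ext
    have hk' : (z : Γ) ^ (r ^ k) = 1 := by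
      have := congrArg Subtype.val hk
      simpa using this
    have h2' : (z : Γ) ^ 2 = 1 := by rw [pow_two]; exact hz2
    have hcop : Nat.Coprime 2 (r ^ k) :=
      Nat.Coprime.pow_right k ((Nat.coprime_primes Nat.prime_two hr).mpr (Ne.symm hr2))
    have h9 := pow_gcd_eq_one.mpr ⟨h2', hk'⟩
    rw [Nat.Coprime.gcd_eq_one hcop, pow_one] at h9
    exact h9
  have h2 := Nat.eq_prime_pow_of_unique_prime_dvd hne key
  exact IsPGroup.of_card h2

/-- All involutions of `R` coincide: there is a unique subgroup of order two. -/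
theorem unique_two [Finite F] {a : Γ} {R : Subgroup Γ} (s : Setup p a R) :
    Cfsg.Agent.Lib.OddLocal.UniqueP 2 ↥R := by
  have h2F := two_ne_zero_of_odd (F := F) s.hp
  have key : ∀ H K : Subgroup ↥R, Nat.card H = 2 → Nat.card K = 2 → H ≤ K := by
    intro H K hH hK u hu
    haveI : Fact (Nat.Prime 2) := ⟨Nat.prime_two⟩
    obtain ⟨y, hy⟩ : ∃ y : K, y ≠ 1 := by
      haveI : Nontrivial K := by
        apply Finite.one_lt_card_iff_nontrivial.mp
        omega
      exact exists_ne 1
    have hsq : ∀ (L : Subgroup ↥R), Nat.card L = 2 → ∀ v ∈ L, ((v : ↥R) : Γ) * (v : ↥R) = 1 := by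
      intro L hL v hv
      have h1 := pow_card_eq_one' (G := L) (x := ⟨v, hv⟩)
      rw [hL, pow_two] at h1
      exact congrArg (fun w : L => ((w : ↥R) : Γ)) h1
    have hyy := hsq K hK y y.2
    have huu := hsq H hH u hu
    rcases eq_one_or_neg_of_sq h2F ((u : ↥R) : Γ).2 (congrArg Subtype.val huu) with h3 | h3
    · have : u = 1 := by
        apply Subtype.ext
        apply Subtype.ext
        exact h3
      rw [this]
      exact one_mem _
    · rcases eq_one_or_neg_of_sq h2F (((y : K) : ↥R) : Γ).2 (congrArg Subtype.val hyy) with h4 | h4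
      · exfalso
        apply hy
        apply Subtype.ext
        apply Subtype.ext
        apply Subtype.ext
        exact h4
      · have : u = y := by
          apply Subtype.ext
          apply Subtype.ext
          rw [h3, h4]
        rw [this]
        exact y.2
  intro H K hH hK
  exact le_antisymm (key H K hH hK) (key K H hK hH)

theorem q1_comm : ∀ x y : QuaternionGroup 1, x * y = y * x := by decide

theorem q8_a2_sq : ((QuaternionGroup.a 2 : QuaternionGroup 2) * QuaternionGroup.a 2) = 1 := by decide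

theorem q8_a2_ne : (QuaternionGroup.a 2 : QuaternionGroup 2) ≠ 1 := by decide

theorem q8_a1_sq : ((QuaternionGroup.a 1 : QuaternionGroup 2) * QuaternionGroup.a 1) = QuaternionGroup.a 2 := by
  decide

omit [Fact p.Prime] [CharP F p] in
theorem aut_pow {Q : Type} [Group Q] {a : Γ} {R : Subgroup Γ} (s : Setup p a R) (e : ↥R ≃* Q)
    (τ : MulAut Q) (hτ : ∀ x, τ x = e (conjR s (e.symm x))) (k : ℕ) (x : Q) :
    (τ ^ k) x = e ((conjR s)^[k] (e.symm x)) := by
  induction k with
  | zero => simp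
  | succ k ih =>
    rw [pow_succ', MulAut.mul_apply, ih, hτ, Function.iterate_succ_apply', MulEquiv.symm_apply_apply]

/-- The case of a `2`-group of automorphisms. -/
theorem big_case {Q : Type} [Group Q] [Finite F] {a : Γ} {R : Subgroup Γ} (s : Setup p a R) (e : ↥R ≃* Q)
    (hQ : IsPGroup 2 (MulAut Q)) (hnt : ⁅R, Subgroup.zpowers a⁆ ≠ ⊥) : False := by
  let τ : MulAut Q := e.symm.trans ((conjR s).trans e)
  have hτ : ∀ x, τ x = e (conjR s (e.symm x)) := fun _ => rfl
  have h1 : τ ^ p = 1 := by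
    ext x
    rw [aut_pow s e τ hτ, conjR_iter_p]
    simp
  obtain ⟨k, hk⟩ := hQ τ
  have hpp : p.Prime := Fact.out
  have hcop : Nat.Coprime p (2 ^ k) :=
    Nat.Coprime.pow_right k ((Nat.coprime_primes hpp Nat.prime_two).mpr s.hp)
  have h9 := pow_gcd_eq_one.mpr ⟨h1, hk⟩
  rw [Nat.Coprime.gcd_eq_one hcop, pow_one] at h9
  apply hnt
  apply trivial_contra
  intro t ht
  have h2 : τ (e ⟨t, ht⟩) = e ⟨t, ht⟩ := by rw [h9]; rfl
  rw [hτ, MulEquiv.symm_apply_apply] at h2
  have h3 := congrArg Subtype.val (e.injective h2)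
  rw [conjR_coe] at h3
  exact mul_inv_eq_iff_eq_mul.mp h3

end

/-- Let F be a finite field of odd characteristic p and let a be a p-element of SL₂(F) normalizing a subgroup R of order prime to p with [R, a] ≠ 1. Then p = 3, R is a quaternion group of order 8, and R⟨a⟩ is isomorphic to SL₂(3). -/
theorem result (F : Type) [Field F] [Fintype F] {p : ℕ} [Fact p.Prime] [CharP F p] (hp : p ≠ 2) (a : Matrix.SpecialLinearGroup (Fin 2) F) (ha : IsPGroup p ↥(Subgroup.zpowers a)) (R : Subgroup (Matrix.SpecialLinearGroup (Fin 2) F)) (hR : (Nat.card R).Coprime p) (haR : a ∈ Subgroup.normalizer (R : Set (Matrix.SpecialLinearGroup (Fin 2) F))) (hnt : ⁅R, Subgroup.zpowers a⁆ ≠ ⊥) : p = 3 ∧ Nonempty (↥R ≃* QuaternionGroup 2) ∧ Nonempty (↥(R ⊔ Subgroup.zpowers a) ≃* Matrix.SpecialLinearGroup (Fin 2) (ZMod 3)) := by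
  classical
  have hpp : p.Prime := Fact.out
  obtain ⟨k, hk⟩ := ha ⟨a, Subgroup.mem_zpowers a⟩
  have hk' : a ^ (p ^ k) = 1 := congrArg Subtype.val hk
  have hN := unip_of_pow (p := p) hk'
  have hap : a ^ p = 1 := pow_p_eq_one_of_unip hN
  have ha1 : a ≠ 1 := by
    rintro rfl
    apply hnt
    simp
  have s : Setup p a R :=
    { hp := hp
      hN := hN
      ha1 := ha1
      hap := hap
      hc := fun t ht => Nat.Coprime.coprime_dvd_left (Subgroup.orderOf_dvd_natCard R ht) hR
      hn := fun t ht => (Subgroup.mem_normalizer_iff.mp haR t).mp ht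
      hn' := fun t ht => (Subgroup.mem_normalizer_iff.mp haR (a⁻¹ * t * a)).mpr (by
        have : a * (a⁻¹ * t * a) * a⁻¹ = t := by group
        rw [this]
        exact ht) }
  have h2 := two_group s
  have hu := unique_two s
  have hcomm : ¬ ∀ x y : R, x * y = y * x := by
    intro hab
    apply hnt
    apply trivial_contra
    intro t ht
    have := abelian_inv s R le_rfl s.hn (fun x hx y hy => congrArg Subtype.val (hab ⟨x, hx⟩ ⟨y, hy⟩)) t ht
    have hc := central_of_sq s.hp this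
    exact (Subgroup.mem_center_iff.mp hc) a
  rcases Cfsg.Agent.Lib.OddLocal.cyclic_or_quaternion h2 hu with hcyc | ⟨n, ⟨e⟩⟩
  · exact absurd (fun x y => by
      haveI := hcyc
      exact (IsCyclic.commutative (α := ↥R)).is_comm.comm x y) hcomm
  rcases n with _ | _ | m
  · exfalso
    have e' : ↥R ≃* QuaternionGroup 1 := e
    apply hcomm
    intro x y
    apply e'.injective
    rw [map_mul, map_mul]
    exact q1_comm _ _
  swap
  · exfalso
    have hQ := Cfsg.Agent.Lib.Fusion.isPGroup_mulAut_quaternion (n := m + 1 + 1 + 2) (by omega)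
    rw [Nat.add_sub_cancel] at hQ
    exact big_case s e hQ hnt
  replace e : ↥R ≃* QuaternionGroup 2 := e
  let α : QuaternionGroup 2 ≃* QuaternionGroup 2 := e.symm.trans ((conjR s).trans e)
  have hα : ∀ x, α x = e (conjR s (e.symm x)) := fun _ => rfl
  have hαit : ∀ (k : ℕ) (x : QuaternionGroup 2), α^[k] x = e ((conjR s)^[k] (e.symm x)) := by
    intro k
    induction k with
    | zero => intro x; simp
    | succ k ih =>
      intro x
      rw [Function.iterate_succ_apply', ih, hα, Function.iterate_succ_apply', MulEquiv.symm_apply_apply]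
  have hsqe : ∀ x : QuaternionGroup 2, ((e.symm x : R) : Matrix.SpecialLinearGroup (Fin 2) F) * (e.symm x : R) = 1 →
      x * x = 1 := by
    intro x hx
    have h3 : e.symm x * e.symm x = 1 := Subtype.ext hx
    apply e.symm.injective
    rw [map_mul, h3, map_one]
  have hfix : ∀ k : ℕ, (k = 1 ∨ k = 2 ∨ k = 4) → ∀ x, α^[k] x = x → x * x = 1 := by
    intro k hk' x hx
    rw [hαit] at hx
    have h3 : (conjR s)^[k] (e.symm x) = e.symm x := by
      apply e.injective
      rw [hx, MulEquiv.apply_symm_apply]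
    have h4 := congrArg Subtype.val h3
    rw [conjR_iter] at h4
    exact hsqe x (comm_pow s (e.symm x).2 (coprime_small hp hk') h4)
  obtain ⟨i, u, hii, huu, hui, huinv, hαi, hαu⟩ := aut_normal α (fun x h => hfix 1 (Or.inl rfl) x h)
    (fun x h => hfix 2 (Or.inr (Or.inl rfl)) x h) (fun x h => hfix 4 (Or.inr (Or.inr rfl)) x h)
  have hi4 : i ^ 4 = 1 := by
    have : i ^ 4 = (i * i) * (i * i) := by
      rw [show (4 : ℕ) = 2 + 2 from rfl, pow_add, pow_two]
    rw [this, hii, q8_a2_sq]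
  obtain ⟨β, hβ1, hβ2⟩ := hom_of_rel i u hi4 (by rw [huu, hii]) (q8_anti i u hii huu hui huinv)
  let f : QuaternionGroup 2 →* ↥R := (e.symm : QuaternionGroup 2 →* ↥R).comp β
  let F' : QuaternionGroup 2 →* Matrix.SpecialLinearGroup (Fin 2) F := R.subtype.comp f
  have hF'coe : ∀ x, F' x = ((e.symm (β x) : R) : Matrix.SpecialLinearGroup (Fin 2) F) := fun _ => rfl
  have hβa2 : β (QuaternionGroup.a 2) = QuaternionGroup.a 2 := by
    calc β (QuaternionGroup.a 2) = β (QuaternionGroup.a 1 * QuaternionGroup.a 1) := by rw [q8_a1_sq]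
      _ = i * i := by rw [map_mul, hβ1]
      _ = _ := hii
  have hF'a2 : F' (QuaternionGroup.a 2) ≠ 1 := by
    intro h
    rw [hF'coe, hβa2] at h
    apply q8_a2_ne
    apply e.symm.injective
    rw [map_one]
    exact Subtype.ext h
  have hF'inj : Function.Injective F' := injective_of_a2 F' hF'a2
  have hfinj : Function.Injective f := fun x y h => hF'inj (congrArg Subtype.val h)
  have hfbij : Function.Bijective f :=
    hfinj.bijective_of_nat_card_le (le_of_eq (Nat.card_congr e.toEquiv))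
  set I := F' (QuaternionGroup.a 1) with hI
  set J := F' (QuaternionGroup.xa 0) with hJ
  have hIval : I = ((e.symm i : R) : Matrix.SpecialLinearGroup (Fin 2) F) := by rw [hI, hF'coe, hβ1]
  have hJval : J = ((e.symm u : R) : Matrix.SpecialLinearGroup (Fin 2) F) := by rw [hJ, hF'coe, hβ2]
  have hrel1 : a * I * a⁻¹ = J := by
    rw [hIval, hJval, ← conjR_coe s]
    have : conjR s (e.symm i) = e.symm u := by
      apply e.injective
      rw [MulEquiv.apply_symm_apply, ← hαi, hα]
    rw [this]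
  have hrel2 : a * J * a⁻¹ = I * J := by
    rw [hIval, hJval, ← conjR_coe s]
    have : conjR s (e.symm u) = e.symm i * e.symm u := by
      apply e.injective
      rw [map_mul, MulEquiv.apply_symm_apply, MulEquiv.apply_symm_apply, ← hαu, hα]
    rw [this]
    rfl
  have hrel3 : J * I * J⁻¹ = I⁻¹ := by
    have h3 : F' (QuaternionGroup.xa 0 * QuaternionGroup.a 1 * (QuaternionGroup.xa 0)⁻¹) = F' (QuaternionGroup.a 1)⁻¹ := by
      have h4 : β (QuaternionGroup.xa 0 * QuaternionGroup.a 1 * (QuaternionGroup.xa 0)⁻¹) = β (QuaternionGroup.a 1)⁻¹ := by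
        rw [map_mul, map_mul, map_inv, map_inv, hβ1, hβ2]
        exact q8_anti i u hii huu hui huinv
      rw [hF'coe, hF'coe, h4]
    simpa only [map_mul, map_inv] using h3
  have hrel4 : J * J = I * I := by
    have h4 : ((e.symm (u * u) : R) : Matrix.SpecialLinearGroup (Fin 2) F) = (e.symm (i * i) : R) := by
      rw [huu, hii]
    rw [map_mul, map_mul] at h4
    rw [hIval, hJval]
    exact h4
  have hII : I * I ≠ 1 := by
    intro h
    have h3 : ((e.symm (i * i) : R) : Matrix.SpecialLinearGroup (Fin 2) F) = 1 := by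
      rw [map_mul, Subgroup.coe_mul, ← hIval]
      exact h
    rw [hii] at h3
    apply q8_a2_ne
    apply e.symm.injective
    rw [map_one]
    exact Subtype.ext h3
  have hp3 : p = 3 := by
    by_contra hne
    have hcop : Nat.Coprime 3 p := (Nat.coprime_primes Nat.prime_three hpp).mpr (Ne.symm hne)
    apply hII
    have hIR : I ∈ R := by rw [hIval]; exact (e.symm i).2
    refine comm_pow s hIR hcop ?_
    calc a ^ 3 * I * (a ^ 3)⁻¹ = a * (a * (a * I * a⁻¹) * a⁻¹) * a⁻¹ := by
          rw [pow_succ', pow_two, mul_inv_rev, mul_inv_rev]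
          simp only [mul_assoc]
      _ = a * (I * J) * a⁻¹ := by rw [hrel1, hrel2]
      _ = (a * I * a⁻¹) * (a * J * a⁻¹) := by group
      _ = J * (I * J) := by rw [hrel1, hrel2]
      _ = (J * I * J⁻¹) * (J * J) := by group
      _ = I⁻¹ * (I * I) := by rw [hrel3, hrel4]
      _ = I := by group
  have hy : a ^ 3 = 1 := by rw [← hp3]; exact hap
  obtain ⟨Ψ, hΨ1, hΨ2, -⟩ := exists_hom F' a hy hrel1 hrel2
  have hΨdec : ∀ (x : QuaternionGroup 2) (m : Fin 3), Ψ (Cfsg.Agent.Lib.Known.SL23.qMap x * b ^ (m : ℕ)) = F' x * a ^ (m : ℕ) := by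
    intro x m
    rw [map_mul, hΨ1, map_pow, hΨ2]
  have hF'R : ∀ x, F' x ∈ R := fun x => (f x).2
  have hinj : Function.Injective Ψ := by
    rw [injective_iff_map_eq_one]
    intro g hg
    obtain ⟨x, m, rfl⟩ := decomp g
    rw [hΨdec] at hg
    have h3 : a ^ (m : ℕ) = (F' x)⁻¹ := eq_inv_of_mul_eq_one_right hg
    have h4 : a ^ (m : ℕ) ∈ R := by rw [h3]; exact R.inv_mem (hF'R x)
    have h5 := s.hc _ h4
    have h6 : (a ^ (m : ℕ)) ^ p = 1 := by rw [← pow_mul, mul_comm, pow_mul, hap, one_pow]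
    have h7 : orderOf (a ^ (m : ℕ)) ∣ p := orderOf_dvd_of_pow_eq_one h6
    have h8 : orderOf (a ^ (m : ℕ)) = 1 := Nat.Coprime.eq_one_of_dvd h5 h7
    have h9 : a ^ (m : ℕ) = 1 := orderOf_eq_one_iff.mp h8
    have h10 : p ∣ (m : ℕ) := by
      have := orderOf_dvd_of_pow_eq_one h9
      rwa [orderOf_a s] at this
    have h11 : (m : ℕ) = 0 := by
      rw [hp3] at h10
      have := m.2
      omega
    have h12 : m = 0 := Fin.ext h11
    subst h12
    have h13 : F' x = 1 := by simpa using hg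
    have h14 : x = 1 := hF'inj (by rw [h13, map_one])
    rw [h14, qMap_one]
    simp
  have hrange : Ψ.range = R ⊔ Subgroup.zpowers a := by
    apply le_antisymm
    · rintro _ ⟨g, rfl⟩
      obtain ⟨x, m, rfl⟩ := decomp g
      rw [hΨdec]
      exact Subgroup.mul_mem _ (Subgroup.mem_sup_left (hF'R x))
        (Subgroup.mem_sup_right (Subgroup.pow_mem _ (Subgroup.mem_zpowers a) _))
    · apply sup_le
      · intro t ht
        obtain ⟨x, hx⟩ := hfbij.2 ⟨t, ht⟩
        refine ⟨Cfsg.Agent.Lib.Known.SL23.qMap x, ?_⟩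
        rw [hΨ1]
        exact congrArg Subtype.val hx
      · rw [Subgroup.zpowers_le]
        exact ⟨b, hΨ2⟩
  exact ⟨hp3, ⟨e⟩, ⟨(MulEquiv.subgroupCongr hrange.symm).trans (MonoidHom.ofInjective hinj).symm⟩⟩

end Cfsg.Agent.S3740
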