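import Cfsg.Statements.S3755
-- import your own Cfsg.Agent.* helpers here
import Mathlib
import Cfsg.Agent.S0444
import Cfsg.Agent.Lib.Components.Signal
import Cfsg.Agent.Lib.Basic.Core
import Cfsg.Agent.Lib.Basic.CoprimeAction
import Cfsg.Agent.Lib.Basic.Nilpotent

set_option autoImplicit false
open Cfsg

namespace Cfsg.Agent.S3755

open Subgroup

section

variable {X : Type*} [Group X]

theorem involves_of_surj' {Y D : Type*} [Group Y] [Group D] (W : Subgroup Y) (ψ : W →* D)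
    (hψ : Function.Surjective ψ) : Cfsg.Involves D Y := by
  let L : Subgroup Y := ψ.ker.map W.subtype
  have hLe : L.subgroupOf W = ψ.ker := by
    rw [Subgroup.subgroupOf]
    exact Subgroup.comap_map_eq_self_of_injective W.subtype_injective _
  have hLn : (L.subgroupOf W).Normal := by
    rw [hLe]
    infer_instance
  exact ⟨W, L, hLn, ⟨(QuotientGroup.quotientMulEquivOfEq hLe).trans
    (QuotientGroup.quotientKerEquivOfSurjective ψ hψ)⟩⟩

/-- Two involutions whose product has order three give `S₃`. -/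
theorem involves_S3 {Y : Type*} [Group Y] (d e : Y) (hd : d * d = 1) (he : e * e = 1)
    (h3 : (d * e) ^ 3 = 1) (hne : d * e ≠ 1) : Cfsg.Involves (Equiv.Perm (Fin 3)) Y := by
  obtain ⟨e1⟩ := Cfsg.Agent.S0444.dih_perm
  have h5 := Cfsg.Agent.S0444.dihHom_inj d e hd he h3 hne
  let e2 : DihedralGroup 3 ≃* (Cfsg.Agent.S0444.dihHom d e hd he h3).range := MonoidHom.ofInjective h5
  exact involves_of_surj' _ (e2.symm.trans e1).toMonoidHom (e2.symm.trans e1).surjective

theorem ri_ne [Finite X] (H K : Subgroup X) : H.relIndex K ≠ 0 :=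
  Subgroup.index_ne_zero_of_finite

/-- Pigeonhole. -/
theorem centralizes_of_small_index [Finite X] {W W₀ : Subgroup X} {c : X} (hW0 : W₀ ≤ W)
    (hcW : ∀ v ∈ W, c * v * c⁻¹ ∈ W) (hcent : ∀ u ∈ W₀, c * u = u * c) (hidx : W₀.relIndex W ≤ 4)
    (hW2 : ∀ x ∈ W, x * x = 1) (hWab : ∀ x ∈ W, ∀ y ∈ W, x * y = y * x)
    (hn : (orderOf c).Coprime 6) : ∀ v ∈ W, c * v = v * c := by
  intro v hv
  have hpow : ∀ i : ℕ, c ^ i * v * (c ^ i)⁻¹ ∈ W := by
    intro i
    induction i with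
    | zero => simpa using hv
    | succ i ih =>
      have h1 := hcW _ ih
      have h2 : c * (c ^ i * v * (c ^ i)⁻¹) * c⁻¹ = c ^ (i + 1) * v * (c ^ (i + 1))⁻¹ := by
        rw [pow_succ']
        group
      rwa [h2] at h1
  let f : Fin 5 → ↥W ⧸ (W₀.subgroupOf W) := fun i => ((⟨c ^ (i : ℕ) * v * (c ^ (i : ℕ))⁻¹, hpow i⟩ : W) : ↥W ⧸ (W₀.subgroupOf W))
  have hnotinj : ¬ Function.Injective f := by
    intro hinj
    have h1 := Nat.card_le_card_of_injective f hinj
    have h2 : Nat.card (↥W ⧸ (W₀.subgroupOf W)) = W₀.relIndex W := rfl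
    rw [h2, Nat.card_eq_fintype_card, Fintype.card_fin] at h1
    omega
  have hcpow : ∀ (i : ℕ), ∀ u ∈ W₀, c ^ i * u = u * c ^ i := by
    intro i u hu
    exact ((show Commute c u from hcent u hu).pow_left i).eq
  rw [Function.Injective] at hnotinj
  push Not at hnotinj
  obtain ⟨i, j, hij, hne⟩ := hnotinj
  wlog hlt : (i : ℕ) < (j : ℕ) generalizing i j
  · refine this j i hij.symm hne.symm ?_
    have : (i : ℕ) ≠ (j : ℕ) := fun h => hne (Fin.ext h)
    omega
  have hu : (c ^ (i : ℕ) * v * (c ^ (i : ℕ))⁻¹)⁻¹ * (c ^ (j : ℕ) * v * (c ^ (j : ℕ))⁻¹) ∈ W₀ := by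
    have := (QuotientGroup.eq (s := W₀.subgroupOf W)).mp hij
    exact this
  set u := (c ^ (i : ℕ) * v * (c ^ (i : ℕ))⁻¹)⁻¹ * (c ^ (j : ℕ) * v * (c ^ (j : ℕ))⁻¹) with hudef
  obtain ⟨d, hd⟩ : ∃ d, (j : ℕ) = (i : ℕ) + d := ⟨(j : ℕ) - i, by omega⟩
  have hd1 : 1 ≤ d := by omega
  have hd4 : d ≤ 4 := by have := j.2; omega
  -- `c ^ d v c ^ -d = v u`
  have h1 : c ^ d * v * (c ^ d)⁻¹ = v * u := by
    have h2 : (c ^ (i : ℕ))⁻¹ * u * c ^ (i : ℕ) = u := by
      rw [mul_assoc, inv_mul_eq_iff_eq_mul]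
      exact (hcpow _ u hu).symm
    rw [← h2, hudef, hd, pow_add]
    group
  have hu2 : u * u = 1 := hW2 u (hW0 hu)
  -- iterate
  have hiter : ∀ k : ℕ, (c ^ d) ^ k * v * ((c ^ d) ^ k)⁻¹ = v * u ^ k := by
    intro k
    induction k with
    | zero => simp
    | succ k ih =>
      have h3 : (c ^ d) ^ (k + 1) * v * ((c ^ d) ^ (k + 1))⁻¹ = c ^ d * ((c ^ d) ^ k * v * ((c ^ d) ^ k)⁻¹) * (c ^ d)⁻¹ := by
        rw [pow_succ']
        group
      rw [h3, ih]
      have h4 : c ^ d * (v * u ^ k) * (c ^ d)⁻¹ = (c ^ d * v * (c ^ d)⁻¹) * (c ^ d * u ^ k * (c ^ d)⁻¹) := by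
        group
      rw [h4, h1]
      have h5 : c ^ d * u ^ k * (c ^ d)⁻¹ = u ^ k := by
        rw [mul_inv_eq_iff_eq_mul]
        have : Commute (c ^ d) u := hcpow d u hu
        exact (this.pow_right k).eq
      rw [h5, pow_succ', mul_assoc]
  have hodd : Odd (orderOf c) := by
    rw [Nat.odd_iff]
    have h2 : Nat.Coprime (orderOf c) 2 := Nat.Coprime.coprime_dvd_right (by norm_num : 2 ∣ 6) hn
    have := Nat.Coprime.symm h2
    rcases Nat.mod_two_eq_zero_or_one (orderOf c) with h | h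
    · exfalso
      have h3 : 2 ∣ orderOf c := Nat.dvd_of_mod_eq_zero h
      have h4 := Nat.eq_one_of_dvd_coprimes h2 h3 (dvd_refl 2)
      omega
    · exact h
  have hu1 : u = 1 := by
    have h3 := hiter (orderOf c)
    rw [← pow_mul, mul_comm, pow_mul, pow_orderOf_eq_one, one_pow] at h3
    simp only [one_mul, inv_one, mul_one] at h3
    have h4 : u ^ orderOf c = 1 := by
      have : v * u ^ orderOf c = v * 1 := by rw [← h3, mul_one]
      exact mul_left_cancel this
    obtain ⟨k, hk⟩ := hodd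
    rw [hk, pow_succ, pow_mul, pow_two, hu2, one_pow, one_mul] at h4
    exact h4
  have h2 : Commute (c ^ d) v := by
    show c ^ d * v = v * c ^ d
    rw [hu1, mul_one] at h1
    rw [mul_inv_eq_iff_eq_mul] at h1
    exact h1
  have hcop : d.Coprime (orderOf c) := by
    have h6 : Nat.Coprime (orderOf c) 2 := Nat.Coprime.coprime_dvd_right (by norm_num : 2 ∣ 6) hn
    have h7 : Nat.Coprime (orderOf c) 3 := Nat.Coprime.coprime_dvd_right (by norm_num : 3 ∣ 6) hn
    have h8 : Nat.Coprime (orderOf c) 4 := by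
      have : (4 : ℕ) = 2 ^ 2 := rfl
      rw [this]
      exact Nat.Coprime.pow_right 2 h6
    interval_cases d
    · exact Nat.coprime_one_left _
    · exact h6.symm
    · exact h7.symm
    · exact h8.symm
  obtain ⟨m, hm⟩ := exists_pow_eq_self_of_coprime hcop
  have h3 : Commute ((c ^ d) ^ m) v := h2.pow_left m
  rw [hm] at h3
  exact h3.eq

/-- A `2`-group `H` commuting with an odd element `c`: `c` acts trivially on `V` if it does on `C_V(H)`. -/
theorem centralizes_V [Finite X] {V H : Subgroup X} {c : X} (hVab : ∀ x ∈ V, ∀ y ∈ V, x * y = y * x)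
    (hV2 : IsPGroup 2 V) (hH : IsPGroup 2 H) (hcH : ∀ h ∈ H, h * c = c * h)
    (hHV : H ≤ normalizer (V : Set X)) (hcV : c ∈ normalizer (V : Set X))
    (hodd : (orderOf c).Coprime 2) (hfix : ∀ v ∈ V, (∀ h ∈ H, h * v = v * h) → c * v = v * c) :
    ∀ v ∈ V, c * v = v * c := by
  haveI : Fact (Nat.Prime 2) := ⟨Nat.prime_two⟩
  set Z := zpowers c with hZ
  haveI : IsMulCommutative V := ⟨⟨fun a b => Subtype.ext (hVab _ a.2 _ b.2)⟩⟩
  have hZV : Z ≤ normalizer (V : Set X) := zpowers_le.mpr hcV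
  have hcop : (Nat.card Z).Coprime (Nat.card V) := by
    rw [hZ, Nat.card_zpowers]
    obtain ⟨k, hk⟩ := IsPGroup.iff_card.mp hV2
    rw [hk]
    exact Nat.Coprime.pow_right k hodd
  have h0 := Cfsg.Agent.Lib.Basic.centralizer_inf_commutator_eq_bot hZV hcop
  have hUV : ⁅V, Z⁆ ≤ V := Cfsg.Agent.Lib.Basic.commutator_le_of_le_normalizer hZV
  have hU : ⁅V, Z⁆ = ⊥ := by
    by_contra hne
    have hHU : H ≤ normalizer ((⁅V, Z⁆ : Subgroup X) : Set X) := by
      intro h hh
      rw [Subgroup.mem_normalizer_iff_map_conj_eq, Subgroup.map_commutator,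
        Subgroup.mem_normalizer_iff_map_conj_eq.mp (hHV hh)]
      congr 1
      rw [hZ, MonoidHom.map_zpowers]
      congr 1
      show h * c * h⁻¹ = c
      rw [hcH h hh]
      group
    have hU2 : IsPGroup 2 (⁅V, Z⁆ : Subgroup X) := hV2.to_le hUV
    have hT2 : IsPGroup 2 ↥(H ⊔ ⁅V, Z⁆) := hH.to_sup_of_normal_right' hU2 hHU
    haveI hnil : Group.IsNilpotent ↥(H ⊔ ⁅V, Z⁆) := hT2.isNilpotent
    have hN : ((⁅V, Z⁆ : Subgroup X).subgroupOf (H ⊔ ⁅V, Z⁆)).Normal := by
      rw [Subgroup.normal_subgroupOf_iff_le_normalizer le_sup_right]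
      exact sup_le hHU Subgroup.le_normalizer
    have hNne : (⁅V, Z⁆ : Subgroup X).subgroupOf (H ⊔ ⁅V, Z⁆) ≠ ⊥ := by
      intro h
      apply hne
      rw [Subgroup.subgroupOf_eq_bot] at h
      exact h.eq_bot_of_le le_sup_right
    have h1 := Cfsg.Agent.Lib.Basic.normal_inf_center_ne_bot _ hNne
    obtain ⟨⟨z, hz⟩, hz1'⟩ := Subgroup.ne_bot_iff_exists_ne_one.mp h1
    have hz1 : z ≠ 1 := fun h => hz1' (Subtype.ext h)
    have hzU : (z : X) ∈ (⁅V, Z⁆ : Subgroup X) := hz.1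
    have hzC := Subgroup.mem_center_iff.mp hz.2
    have hzcomm : ∀ h ∈ H, h * (z : X) = z * h := by
      intro h hh
      exact congrArg Subtype.val (hzC ⟨h, Subgroup.mem_sup_left hh⟩)
    have hcz := hfix z (hUV hzU) hzcomm
    have hzmem : (z : X) ∈ (V ⊓ centralizer (Z : Set X)) ⊓ ⁅V, Z⁆ := by
      refine ⟨⟨hUV hzU, ?_⟩, hzU⟩
      show (z : X) ∈ centralizer (Z : Set X)
      rw [Subgroup.mem_centralizer_iff]
      intro g hg
      have hg' : g ∈ zpowers c := hg
      obtain ⟨k, rfl⟩ := Subgroup.mem_zpowers_iff.mp hg'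
      exact ((show Commute c (z : X) from hcz).zpow_left k).eq
    rw [h0] at hzmem
    apply hz1
    apply Subtype.ext
    exact hzmem
  have h2 := Subgroup.commutator_eq_bot_iff_le_centralizer.mp hU
  intro v hv
  have h3 := h2 hv
  rw [Subgroup.mem_centralizer_iff] at h3
  exact h3 c (Subgroup.mem_zpowers c)

/-- The key lemma. -/
theorem key [Finite X] {M V A₀ B K : Subgroup X} (hV : Cfsg.IsElementaryAbelian 2 V)
    (hMV : M ≤ normalizer (V : Set X)) (hfaith : M ⊓ centralizer (V : Set X) = ⊥)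
    (hA₀M : A₀ ≤ M) (hA₀ : Cfsg.IsElementaryAbelian 2 A₀) (hBA : B ≤ A₀)
    (hidx : (V ⊓ centralizer (A₀ : Set X)).relIndex (V ⊓ centralizer (B : Set X)) ≤ 2)
    (hKM : K ≤ M) (hKn : ∀ m ∈ M, ∀ k ∈ K, m * k * m⁻¹ ∈ K) (hKodd : (Nat.card K).Coprime 2)
    (hfree : ¬ Cfsg.Involves (Equiv.Perm (Fin 3)) ↥M) {a y : X} (ha : a ∈ A₀) (hy : y ∈ K)
    (hyB : ∀ h ∈ B, h * y = y * h) : a * y = y * a := by
  haveI : Fact (Nat.Prime 2) := ⟨Nat.prime_two⟩
  have hsq : ∀ x ∈ A₀, x * x = 1 := fun x hx => by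
    have := hA₀.2 x hx
    rwa [pow_two] at this
  have hcomm : ∀ x ∈ A₀, ∀ z ∈ A₀, x * z = z * x := fun x hx z hz =>
    congrArg Subtype.val (hA₀.1.is_comm.comm ⟨x, hx⟩ ⟨z, hz⟩)
  have haa := hsq a ha
  have hainv : a⁻¹ = a := inv_eq_of_mul_eq_one_left haa
  have haM := hA₀M ha
  have hyM := hKM hy
  set b := y * a * y⁻¹ with hb
  have hbb : b * b = 1 := by
    rw [hb]
    calc y * a * y⁻¹ * (y * a * y⁻¹) = y * (a * a) * y⁻¹ := by group
      _ = 1 := by rw [haa]; group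
  have hbinv : b⁻¹ = b := inv_eq_of_mul_eq_one_left hbb
  have hbM : b ∈ M := M.mul_mem (M.mul_mem hyM haM) (M.inv_mem hyM)
  set c := a * b with hc
  have hcK : c ∈ K := by
    have h1 : c = (a * y * a⁻¹) * y⁻¹ := by
      rw [hc, hb, hainv]
      group
    rw [h1]
    exact K.mul_mem (hKn a haM y hy) (K.inv_mem hy)
  have hcM : c ∈ M := hKM hcK
  have hord : (orderOf c).Coprime 2 :=
    Nat.Coprime.coprime_dvd_left (Subgroup.orderOf_dvd_natCard K hcK) hKodd
  have hinvert : a * c * a⁻¹ = c⁻¹ := by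
    rw [hc, mul_inv_rev, hainv, hbinv]
    calc a * (a * b) * a = (a * a) * b * a := by group
      _ = b * a := by rw [haa, one_mul]
  have hno3 : ¬ 3 ∣ orderOf c := by
    rintro ⟨m, hm⟩
    apply hfree
    have hmpos : 0 < m := by
      have := orderOf_pos c
      rcases Nat.eq_zero_or_pos m with h | h
      · rw [h] at hm
        omega
      · exact h
    have hc0 : c ^ m ≠ 1 := pow_ne_one_of_lt_orderOf (by omega) (by omega)
    have hc3 : (c ^ m) ^ 3 = 1 := by
      rw [← pow_mul, mul_comm, ← hm, pow_orderOf_eq_one]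
    have hinvm : a * c ^ m * a⁻¹ = (c ^ m)⁻¹ := by
      rw [← conj_pow, hinvert, inv_pow]
    have hee : (a * c ^ m) * (a * c ^ m) = 1 := by
      calc (a * c ^ m) * (a * c ^ m) = (a * c ^ m * a⁻¹) * (a * a) * c ^ m := by group
        _ = 1 := by rw [hinvm, haa]; group
    have hcmM : c ^ m ∈ M := M.pow_mem hcM m
    refine involves_S3 (⟨a, haM⟩ : M) ⟨a * c ^ m, M.mul_mem haM hcmM⟩ (Subtype.ext haa) (Subtype.ext hee) ?_ ?_
    · apply Subtype.ext
      show (a * (a * c ^ m)) ^ 3 = 1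
      rw [← mul_assoc, haa, one_mul, hc3]
    · intro h
      have h1 : a * (a * c ^ m) = 1 := congrArg Subtype.val h
      rw [← mul_assoc, haa, one_mul] at h1
      exact hc0 h1
  have hn6 : (orderOf c).Coprime 6 := by
    have h3 : (orderOf c).Coprime 3 :=
      ((Nat.Prime.coprime_iff_not_dvd Nat.prime_three).mpr hno3).symm
    have : (6 : ℕ) = 2 * 3 := rfl
    rw [this]
    exact Nat.Coprime.mul_right hord h3
  have hVab : ∀ x ∈ V, ∀ z ∈ V, x * z = z * x := fun x hx z hz =>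
    congrArg Subtype.val (hV.1.is_comm.comm ⟨x, hx⟩ ⟨z, hz⟩)
  have hV2 : ∀ x ∈ V, x * x = 1 := fun x hx => by
    have := hV.2 x hx
    rwa [pow_two] at this
  have hVp : IsPGroup 2 V := by
    intro v
    refine ⟨1, ?_⟩
    apply Subtype.ext
    simpa using hV.2 v v.2
  have hBp : IsPGroup 2 B := by
    intro v
    refine ⟨1, ?_⟩
    apply Subtype.ext
    simpa using hA₀.2 v (hBA v.2)
  set W := V ⊓ centralizer (B : Set X) with hW
  set U₁ := V ⊓ centralizer (A₀ : Set X) with hU₁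
  have hmemW : ∀ v, v ∈ W ↔ v ∈ V ∧ ∀ h ∈ B, h * v = v * h := by
    intro v
    constructor
    · rintro ⟨h1, h2⟩
      exact ⟨h1, Subgroup.mem_centralizer_iff.mp h2⟩
    · rintro ⟨h1, h2⟩
      exact ⟨h1, Subgroup.mem_centralizer_iff.mpr h2⟩
  have hmemU : ∀ v, v ∈ U₁ ↔ v ∈ V ∧ ∀ h ∈ A₀, h * v = v * h := by
    intro v
    constructor
    · rintro ⟨h1, h2⟩
      exact ⟨h1, Subgroup.mem_centralizer_iff.mp h2⟩
    · rintro ⟨h1, h2⟩
      exact ⟨h1, Subgroup.mem_centralizer_iff.mpr h2⟩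
  have hU₁W : U₁ ≤ W := by
    intro v hv
    obtain ⟨h1, h2⟩ := (hmemU v).mp hv
    exact (hmemW v).mpr ⟨h1, fun h hh => h2 h (hBA hh)⟩
  -- elements of `M` commuting with `B` normalize `W`
  have hnormW : ∀ m ∈ M, (∀ h ∈ B, h * m = m * h) → ∀ v ∈ W, m * v * m⁻¹ ∈ W := by
    intro m hm hmB v hv
    obtain ⟨h1, h2⟩ := (hmemW v).mp hv
    refine (hmemW _).mpr ⟨(Subgroup.mem_normalizer_iff.mp (hMV hm) v).mp h1, fun h hh => ?_⟩
    have h3 : h * m⁻¹ = m⁻¹ * h := by
      rw [eq_inv_mul_iff_mul_eq, ← mul_assoc, ← hmB h hh, mul_assoc, mul_inv_cancel, mul_one]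
    calc h * (m * v * m⁻¹) = (h * m) * v * m⁻¹ := by group
      _ = m * (h * v) * m⁻¹ := by rw [hmB h hh]; group
      _ = m * (v * h) * m⁻¹ := by rw [h2 h hh]
      _ = m * v * (h * m⁻¹) := by group
      _ = m * v * (m⁻¹ * h) := by rw [h3]
      _ = m * v * m⁻¹ * h := by group
  have hyinvB : ∀ h ∈ B, h * y⁻¹ = y⁻¹ * h := by
    intro h hh
    rw [eq_inv_mul_iff_mul_eq, ← mul_assoc, ← hyB h hh, mul_assoc, mul_inv_cancel, mul_one]
  have hyW : W.map (MulAut.conj y).toMonoidHom = W := by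
    apply le_antisymm
    · rintro _ ⟨v, hv, rfl⟩
      exact hnormW y hyM hyB v hv
    · intro v hv
      refine ⟨y⁻¹ * v * y, ?_, by simp [mul_assoc]⟩
      have := hnormW y⁻¹ (M.inv_mem hyM) hyinvB v hv
      simpa using this
  set U₂ := U₁.map (MulAut.conj y).toMonoidHom with hU₂
  have hidx2 : U₂.relIndex W ≤ 2 := by
    have h1 := Subgroup.relIndex_map_map_of_injective U₁ W (f := (MulAut.conj y).toMonoidHom) (MulAut.conj y).injective
    rw [hyW] at h1
    rw [h1]
    exact hidx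
  have hidx4 : (U₁ ⊓ U₂).relIndex W ≤ 4 := by
    have h1 := Subgroup.relIndex_inf_le (H := U₁) (K := U₂) (L := W)
    have h2 : U₁.relIndex W * U₂.relIndex W ≤ 2 * 2 := Nat.mul_le_mul hidx hidx2
    omega
  have hU₂W : U₂ ≤ W := by
    rw [hU₂, ← hyW]
    exact Subgroup.map_mono hU₁W
  have hcW0 : ∀ u ∈ U₁ ⊓ U₂, c * u = u * c := by
    rintro u ⟨hu1, hu2⟩
    have h1 : a * u = u * a := ((hmemU u).mp hu1).2 a ha
    obtain ⟨u', hu', rfl⟩ := hu2
    have h2 : a * u' = u' * a := ((hmemU u').mp hu').2 a ha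
    have h3 : b * (MulAut.conj y).toMonoidHom u' = (MulAut.conj y).toMonoidHom u' * b := by
      show b * (y * u' * y⁻¹) = (y * u' * y⁻¹) * b
      rw [hb]
      calc y * a * y⁻¹ * (y * u' * y⁻¹) = y * (a * u') * y⁻¹ := by group
        _ = y * (u' * a) * y⁻¹ := by rw [h2]
        _ = _ := by group
    rw [hc, mul_assoc, h3, ← mul_assoc, h1, mul_assoc]
  have hcB : ∀ h ∈ B, h * c = c * h := by
    intro h hh
    have h1 : h * a = a * h := hcomm h (hBA hh) a ha
    have h2 : h * b = b * h := by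
      rw [hb]
      calc h * (y * a * y⁻¹) = (h * y) * a * y⁻¹ := by group
        _ = y * (h * a) * y⁻¹ := by rw [hyB h hh]; group
        _ = y * a * (h * y⁻¹) := by rw [h1]; group
        _ = y * a * y⁻¹ * h := by rw [hyinvB h hh]; group
    rw [hc, ← mul_assoc, h1, mul_assoc, h2]
    exact (mul_assoc a b h).symm
  have hcW : ∀ v ∈ W, c * v = v * c :=
    centralizes_of_small_index (inf_le_left.trans hU₁W) (hnormW c hcM hcB) hcW0 hidx4
      (fun x hx => hV2 x hx.1) (fun x hx z hz => hVab x hx.1 z hz.1) hn6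
  have hcV := centralizes_V hVab hVp hBp hcB
    (fun h hh => hMV (hA₀M (hBA hh))) (hMV hcM) hord (fun v hv hv' => hcW v ((hmemW v).mpr ⟨hv, hv'⟩))
  have hc1 : c ∈ M ⊓ centralizer (V : Set X) :=
    ⟨hcM, Subgroup.mem_centralizer_iff.mpr fun v hv => (hcV v hv).symm⟩
  rw [hfaith] at hc1
  have hc2 : c = 1 := hc1
  have h4 : b = a := by
    have h5 : a * b = 1 := hc2
    have h6 := eq_inv_of_mul_eq_one_right h5
    rw [h6, hainv]
  rw [hb, mul_inv_eq_iff_eq_mul] at h4
  exact h4.symm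

end

/-- Let M and V be subgroups of a finite group with V an elementary abelian 2-group, M normalizing V and acting faithfully on it (M ∩ C(V) = 1), and C_M(O_{2'}(M)) ≤ O_{2'}(M). If some elementary abelian 2-subgroup A of M satisfies |V : C_V(A)| < |A|², then M has a section isomorphic to the symmetric group of degree 3. -/
theorem result {X : Type*} [Group X] [Finite X] (M V : Subgroup X) (hV : Cfsg.IsElementaryAbelian 2 V) (hMV : M ≤ Subgroup.normalizer (V : Set X)) (hfaith : M ⊓ Subgroup.centralizer (V : Set X) = ⊥) (hcon : Subgroup.centralizer (Cfsg.pPrimeCore 2 ↥M : Set ↥M) ≤ Cfsg.pPrimeCore 2 ↥M) (A : Subgroup X) (hAM : A ≤ M) (hA : Cfsg.IsElementaryAbelian 2 A) (hsmall : (V ⊓ Subgroup.centralizer (A : Set X)).relIndex V < Nat.card A ^ 2) : Cfsg.Involves (Equiv.Perm (Fin 3)) ↥M := by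
  classical
  haveI : Fact (Nat.Prime 2) := ⟨Nat.prime_two⟩
  by_contra hfree
  -- a minimal offender
  obtain ⟨A₀, hmin⟩ := (Set.toFinite {B : Subgroup X | B ≤ A ∧
    (V ⊓ Subgroup.centralizer (B : Set X)).relIndex V < Nat.card B ^ 2}).exists_minimal ⟨A, le_rfl, hsmall⟩
  obtain ⟨⟨hA₀A, hA₀s⟩, hA₀min⟩ := hmin
  have hA₀M : A₀ ≤ M := hA₀A.trans hAM
  have hA₀ : Cfsg.IsElementaryAbelian 2 A₀ :=
    ⟨⟨⟨fun x y => Subtype.ext (show (x : X) * (y : X) = (y : X) * (x : X) from congrArg Subtype.val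
      (hA.1.is_comm.comm (⟨x, hA₀A x.2⟩ : A) ⟨y, hA₀A y.2⟩))⟩⟩, fun x hx => hA.2 x (hA₀A hx)⟩
  have hA₀ne : A₀ ≠ ⊥ := by
    rintro rfl
    have h1 : Nat.card (⊥ : Subgroup X) = 1 := Nat.card_unique
    rw [h1] at hA₀s
    simp at hA₀s
    have h2 : (V ⊓ Subgroup.centralizer ((⊥ : Subgroup X) : Set X)).relIndex V ≠ 0 :=
      ri_ne _ _
    exact h2 hA₀s
  -- the odd core
  let K : Subgroup X := (Cfsg.pPrimeCore 2 ↥M).map M.subtype
  have hKM : K ≤ M := by
    rintro _ ⟨x, _, rfl⟩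
    exact x.2
  have hKn : ∀ m ∈ M, ∀ k ∈ K, m * k * m⁻¹ ∈ K := by
    rintro m hm _ ⟨x, hx, rfl⟩
    exact ⟨(⟨m, hm⟩ : M) * x * (⟨m, hm⟩ : M)⁻¹,
      (Cfsg.Agent.Lib.Basic.pPrimeCore_normal 2).conj_mem x hx _, rfl⟩
  have hKodd : (Nat.card K).Coprime 2 := by
    have h1 : Nat.card K = Nat.card (Cfsg.pPrimeCore 2 ↥M) :=
      Subgroup.card_map_of_injective M.subtype_injective
    rw [h1]
    exact Cfsg.Agent.Lib.Basic.pPrimeCore_coprime 2
  have hKodd2 : ¬ 2 ∣ Nat.card K := by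
    intro h
    have := Nat.eq_one_of_dvd_coprimes hKodd h (dvd_refl 2)
    omega
  have hA₀K : A₀ ≤ normalizer (K : Set X) := by
    intro a ha
    rw [Subgroup.mem_normalizer_iff]
    intro k
    constructor
    · exact hKn a (hA₀M ha) k
    · intro hk
      have := hKn a⁻¹ (M.inv_mem (hA₀M ha)) _ hk
      simpa [mul_assoc] using this
  have hgen := Cfsg.Agent.Lib.Components.le_iSup_centralizer_hyperplane (p := 2) hA₀ hKodd2 hA₀K
  have hcent : ∀ k ∈ K, ∀ a ∈ A₀, a * k = k * a := by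
    intro k hk
    have h1 : K ≤ centralizer (A₀ : Set X) := by
      refine hgen.trans (iSup_le ?_)
      rintro ⟨B, hBA, hBi⟩ x ⟨hxK, hxB⟩
      rw [Subgroup.mem_centralizer_iff]
      intro a ha
      have hxB' : ∀ h ∈ B, h * x = x * h := Subgroup.mem_centralizer_iff.mp hxB
      by_cases haB : a ∈ B
      · exact hxB' a haB
      · -- `B` is a hyperplane
        have hBlt : B < A₀ := lt_of_le_of_ne hBA (fun h => haB (h ▸ ha))
        have hBnot : ¬ (V ⊓ Subgroup.centralizer (B : Set X)).relIndex V < Nat.card B ^ 2 := by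
          intro hs
          exact absurd (hA₀min ⟨hBA.trans hA₀A, hs⟩ hBA) (not_le_of_gt hBlt)
        have hBi2 : B.relIndex A₀ = 2 := by
          have h2 : B.relIndex A₀ ≠ 0 := ri_ne _ _
          have h3 : B.relIndex A₀ ≠ 1 := by
            intro h4
            rw [Subgroup.relIndex_eq_one] at h4
            exact haB (h4 ha)
          omega
        have hcard : Nat.card A₀ = 2 * Nat.card B := by
          have h2 := Subgroup.relIndex_mul_relIndex (⊥ : Subgroup X) B A₀ bot_le hBA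
          rw [Subgroup.relIndex_bot_left, Subgroup.relIndex_bot_left, hBi2] at h2
          omega
        have hmul := Subgroup.relIndex_mul_relIndex (V ⊓ Subgroup.centralizer (A₀ : Set X))
          (V ⊓ Subgroup.centralizer (B : Set X)) V
          (inf_le_inf_left _ (Subgroup.centralizer_le hBA)) inf_le_left
        have hIpos : 0 < (V ⊓ Subgroup.centralizer (B : Set X)).relIndex V :=
          Nat.pos_of_ne_zero (ri_ne _ _)
        have hlt4 : (V ⊓ Subgroup.centralizer (A₀ : Set X)).relIndex (V ⊓ Subgroup.centralizer (B : Set X)) < 4 := by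
          by_contra h4
          push Not at h4
          rw [← hmul] at hA₀s
          rw [hcard] at hA₀s
          push Not at hBnot
          have h5 : 4 * (Nat.card B) ^ 2 ≤ (V ⊓ Subgroup.centralizer (A₀ : Set X)).relIndex (V ⊓ Subgroup.centralizer (B : Set X)) * (V ⊓ Subgroup.centralizer (B : Set X)).relIndex V :=
            Nat.mul_le_mul h4 hBnot
          have h6 : (2 * Nat.card B) ^ 2 = 4 * (Nat.card B) ^ 2 := by ring
          omega
        have hle2 : (V ⊓ Subgroup.centralizer (A₀ : Set X)).relIndex (V ⊓ Subgroup.centralizer (B : Set X)) ≤ 2 := by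
          have hp : IsPGroup 2 ↥(V ⊓ Subgroup.centralizer (B : Set X)) := by
            intro v
            refine ⟨1, ?_⟩
            apply Subtype.ext
            simpa using hV.2 v v.2.1
          obtain ⟨k, hk⟩ := IsPGroup.iff_card.mp hp
          have hd := Subgroup.relIndex_dvd_card (V ⊓ Subgroup.centralizer (A₀ : Set X)) (V ⊓ Subgroup.centralizer (B : Set X))
          rw [hk] at hd
          obtain ⟨j, -, hj⟩ := (Nat.dvd_prime_pow Nat.prime_two).mp hd
          rw [hj] at hlt4 ⊢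
          rcases j with _ | _ | j
          · norm_num
          · norm_num
          · exfalso
            have : (2 : ℕ) ^ (j + 1 + 1) = 4 * 2 ^ j := by ring
            have h7 : 0 < 2 ^ j := by positivity
            omega
        exact (key hV hMV hfaith hA₀M hA₀ hBA hle2 hKM hKn hKodd hfree ha hxK hxB').symm ▸ rfl
    have h2 := Subgroup.mem_centralizer_iff.mp (h1 hk)
    exact h2
  -- contradiction
  obtain ⟨⟨a, ha⟩, ha1⟩ := Subgroup.ne_bot_iff_exists_ne_one.mp hA₀ne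
  have ha1' : a ≠ 1 := fun h => ha1 (Subtype.ext h)
  have hacent : (⟨a, hA₀M ha⟩ : M) ∈ Subgroup.centralizer (Cfsg.pPrimeCore 2 ↥M : Set ↥M) := by
    rw [Subgroup.mem_centralizer_iff]
    intro k hk
    apply Subtype.ext
    exact (hcent (k : X) ⟨k, hk, rfl⟩ a ha).symm
  have h3 := hcon hacent
  have h4 := Subgroup.orderOf_dvd_natCard _ h3
  have h5 : (⟨a, hA₀M ha⟩ : M) ^ 2 = 1 := Subtype.ext (hA₀.2 a ha)
  have h6 := orderOf_dvd_of_pow_eq_one h5
  have h7 := Nat.Coprime.coprime_dvd_left h4 (Cfsg.Agent.Lib.Basic.pPrimeCore_coprime (G := ↥M) 2)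
  have h8 : orderOf (⟨a, hA₀M ha⟩ : M) = 1 := Nat.eq_one_of_dvd_coprimes h7 (dvd_refl _) h6
  apply ha1'
  have h9 := orderOf_eq_one_iff.mp h8
  exact congrArg Subtype.val h9

end Cfsg.Agent.S3755
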