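import Cfsg.Statements.S3765
-- import your own Cfsg.Agent.* helpers here
import Mathlib
import Cfsg.Agent.Lib.Coprime.HHFix

set_option autoImplicit false
open Cfsg

namespace Cfsg.Agent.S3765

open Subgroup Cfsg.Agent.Lib.FT Cfsg.Agent.Lib.Coprime.HHFix

/-- Let p, q, r be distinct primes and let X, Q, V be subgroups of a finite group with X of order r normalizing the q-group Q and acting faithfully on it (X ∩ C(Q) = 1), and V a nontrivial elementary abelian p-group normalized by X and Q on which XQ acts faithfully. If q = 2 and r has the form 2^n + 1, assume in addition that Q is abelian. Then C_V(X) ≠ 1. -/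
theorem result {G : Type*} [Group G] [Finite G] {p q r : ℕ} (hp : p.Prime) (hq : q.Prime) (hr : r.Prime) (hpq : p ≠ q) (hpr : p ≠ r) (hqr : q ≠ r) (X Q V : Subgroup G) (hX : Nat.card X = r) (hQ : IsPGroup q Q) (hXQ : X ≤ Subgroup.normalizer (Q : Set G)) (hXfaith : X ⊓ Subgroup.centralizer (Q : Set G) = ⊥) (hV : Cfsg.IsElementaryAbelian p V) (hV1 : V ≠ ⊥) (hXV : X ≤ Subgroup.normalizer (V : Set G)) (hQV : Q ≤ Subgroup.normalizer (V : Set G)) (hfaith : (X ⊔ Q) ⊓ Subgroup.centralizer (V : Set G) = ⊥) (hexc : q = 2 → (∃ n : ℕ, r = 2 ^ n + 1) → IsMulCommutative Q) : V ⊓ Subgroup.centralizer (X : Set G) ≠ ⊥ := by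
  classical
  intro hCV
  haveI hpf : Fact p.Prime := ⟨hp⟩
  haveI hqf : Fact q.Prime := ⟨hq⟩
  haveI hrf : Fact r.Prime := ⟨hr⟩
  haveI hXc : IsCyclic ↥X := isCyclic_of_prime_card hX
  obtain ⟨x₀, hx₀⟩ := hXc.exists_generator
  set x : G := (x₀ : G) with hxdef
  have hxX : x ∈ X := x₀.2
  have hxr : x ^ r = 1 := by
    have h1 : x₀ ^ r = 1 := by
      rw [← hX]
      exact pow_card_eq_one'
    exact congrArg Subtype.val h1
  have hXz : X = zpowers x := by
    apply le_antisymm
    · intro a ha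
      obtain ⟨k, hk⟩ := Subgroup.mem_zpowers_iff.mp (hx₀ ⟨a, ha⟩)
      refine Subgroup.mem_zpowers_iff.mpr ⟨k, ?_⟩
      have := congrArg Subtype.val hk
      simpa using this
    · exact Subgroup.zpowers_le.mpr hxX
  set N : Subgroup G := X ⊔ Q with hN
  have hNV : N ≤ normalizer (V : Set G) := sup_le hXV hQV
  have hVn : ∀ y ∈ N, ∀ a ∈ V, y * a * y⁻¹ ∈ V := fun y hy a ha =>
    (Subgroup.mem_normalizer_iff.mp (hNV hy) a).mp ha
  let α : ↥N →* MulAut ↥V := conjOn N V hVn
  have hαi : Function.Injective α := by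
    rw [injective_iff_map_eq_one]
    intro z h1
    have hzC : (z : G) ∈ N ⊓ centralizer (V : Set G) := by
      refine Subgroup.mem_inf.mpr ⟨z.2, ?_⟩
      rw [Subgroup.mem_centralizer_iff]
      intro v hv
      have h2 := congrArg (fun β : MulAut ↥V => ((β ⟨v, hv⟩ : ↥V) : G)) h1
      have h3 : (z : G) * v * (z : G)⁻¹ = v := h2
      calc v * (z : G) = ((z : G) * v * (z : G)⁻¹) * z := by rw [h3]
        _ = z * v := by group
    rw [hfaith, Subgroup.mem_bot] at hzC
    exact Subtype.ext hzC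
  have hxN : x ∈ N := (le_sup_left : X ≤ N) hxX
  have hQN : Q ≤ N := le_sup_right
  let x' : ↥N := ⟨x, hxN⟩
  have hAc : ∀ a b : ↥V, a * b = b * a := fun a b => by
    haveI := hV.1
    exact mul_comm' a b
  have hmain := centralizes_of_fix_aut (F := ↥N) (p := p) (q := q) (r := r) hAc (fun a => Subtype.ext (hV.2 a a.2)) α
    hαi hr hpq.symm hpr.symm hqr (Q.subgroupOf N) x' (hQ.comap_of_injective _ N.subtype_injective)
    (Subtype.ext hxr)
    (by
      rw [Subgroup.mem_normalizer_iff]
      intro a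
      simp only [SetLike.mem_coe, Subgroup.mem_subgroupOf]
      exact Subgroup.mem_normalizer_iff.mp (hXQ hxX) a)
    (by
      intro a h1
      have h2 : x * (a : G) * x⁻¹ = a := congrArg Subtype.val h1
      have hac : Commute x (a : G) := by
        change x * (a : G) = a * x
        calc x * (a : G) = (x * a * x⁻¹) * x := by group
          _ = a * x := by rw [h2]
      have h3 : (a : G) ∈ V ⊓ centralizer (X : Set G) := by
        refine Subgroup.mem_inf.mpr ⟨a.2, ?_⟩
        rw [hXz, Subgroup.mem_centralizer_iff]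
        intro t ht
        obtain ⟨k, rfl⟩ := Subgroup.mem_zpowers_iff.mp ht
        exact (hac.zpow_left k).eq
      rw [hCV, Subgroup.mem_bot] at h3
      exact Subtype.ext h3)
    (by
      intro h1 h2 a ha b hb
      haveI := hexc h1 h2
      have h3 := mul_comm' (⟨a, Subgroup.mem_subgroupOf.mp ha⟩ : ↥Q) ⟨b, Subgroup.mem_subgroupOf.mp hb⟩
      have h4 : (a : G) * b = b * a := congrArg (fun t : ↥Q => (t : G)) h3
      exact Subtype.ext h4)
  have hxC : x ∈ X ⊓ centralizer (Q : Set G) := by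
    refine Subgroup.mem_inf.mpr ⟨hxX, ?_⟩
    rw [Subgroup.mem_centralizer_iff]
    intro a ha
    have h1 := hmain ⟨a, hQN ha⟩ (Subgroup.mem_subgroupOf.mpr ha)
    exact (congrArg Subtype.val h1).symm
  rw [hXfaith, Subgroup.mem_bot] at hxC
  have h1 : X = ⊥ := by
    rw [hXz, hxC]
    exact Subgroup.zpowers_one_eq_bot
  rw [h1, Subgroup.card_bot] at hX
  exact hr.one_lt.ne hX

end Cfsg.Agent.S3765
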