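import Cfsg.Statements.S3769
-- import your own Cfsg.Agent.* helpers here
import Mathlib
import Cfsg.Agent.Lib.Coprime.HHFix2

set_option autoImplicit false
open Cfsg

namespace Cfsg.Agent.S3769

open Subgroup Cfsg.Agent.Lib.FT Cfsg.Agent.Lib.Coprime.HHFix
open scoped commutatorElement

/-- Let G and V be subgroups of a finite group with G solvable of odd order normalizing V, V an elementary abelian ℓ-group for a prime ℓ not dividing the order of G, and suppose G has a normal Hall subgroup K with a complement R of prime order. If C_V(R) = 1, then [R, K] centralizes V. -/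
theorem result {X : Type*} [Group X] [Finite X] (G : Subgroup X) (hsolv : Group.IsSolvable G) (hodd : Odd (Nat.card G)) (V : Subgroup X) {ℓ : ℕ} (hℓ : ℓ.Prime) (hV : Cfsg.IsElementaryAbelian ℓ V) (hℓG : ¬ ℓ ∣ Nat.card G) (hGV : G ≤ Subgroup.normalizer (V : Set X)) (K R : Subgroup X) (hKG : K ≤ G) (hKn : G ≤ Subgroup.normalizer (K : Set X)) (hHall : (Nat.card K).Coprime (K.relIndex G)) (hRG : R ≤ G) (hR : (Nat.card R).Prime) (hKR : K ⊓ R = ⊥) (hKRG : K ⊔ R = G) (hCV : V ⊓ Subgroup.centralizer (R : Set X) = ⊥) : ⁅R, K⁆ ≤ Subgroup.centralizer (V : Set X) := by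
  classical
  haveI hℓf : Fact ℓ.Prime := ⟨hℓ⟩
  haveI hrf : Fact (Nat.card R).Prime := ⟨hR⟩
  set r := Nat.card R with hrdef
  haveI hXc : IsCyclic ↥R := isCyclic_of_prime_card rfl
  obtain ⟨x₀, hx₀⟩ := hXc.exists_generator
  set x : X := (x₀ : X) with hxdef
  have hxR : x ∈ R := x₀.2
  have hxr : x ^ r = 1 := by
    have h1 : x₀ ^ r = 1 := by
      rw [hrdef]
      exact pow_card_eq_one'
    exact congrArg Subtype.val h1
  have hXz : ∀ a ∈ R, a ∈ zpowers x := by
    intro a ha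
    obtain ⟨k, hk⟩ := Subgroup.mem_zpowers_iff.mp (hx₀ ⟨a, ha⟩)
    refine Subgroup.mem_zpowers_iff.mpr ⟨k, ?_⟩
    have := congrArg Subtype.val hk
    simpa using this
  have hVn : ∀ y ∈ G, ∀ a ∈ V, y * a * y⁻¹ ∈ V := fun y hy a ha =>
    (Subgroup.mem_normalizer_iff.mp (hGV hy) a).mp ha
  let α : ↥G →* MulAut ↥V := conjOn G V hVn
  have hαa : ∀ (g : ↥G) (v : ↥V), ((α g v : ↥V) : X) = (g : X) * v * (g : X)⁻¹ := fun _ _ => rfl
  have hAc : ∀ a b : ↥V, a * b = b * a := fun a b => by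
    haveI := hV.1
    exact mul_comm' a b
  have hxG : x ∈ G := hRG hxR
  let x' : ↥G := ⟨x, hxG⟩
  let K₁ : Subgroup ↥G := K.subgroupOf G
  haveI hK₁n : K₁.Normal := by
    constructor
    intro a ha g
    refine Subgroup.mem_subgroupOf.mpr ?_
    exact (Subgroup.mem_normalizer_iff.mp (hKn g.2) _).mp (Subgroup.mem_subgroupOf.mp ha)
  have hcardK : Nat.card K₁ = Nat.card K := Nat.card_congr (Subgroup.subgroupOfEquivOfLe hKG).toEquiv
  have hKdvd : Nat.card K ∣ Nat.card G := Subgroup.card_dvd_of_le hKG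
  have hRdvd : r ∣ Nat.card G := Subgroup.card_dvd_of_le hRG
  have hrel : K.relIndex G = r := by
    have h1 : R ≤ normalizer (K : Set X) := hRG.trans hKn
    have h2 := Cfsg.Agent.Lib.Coprime.relIndex_sup_of_le_normalizer K R h1
    rw [hKRG] at h2
    rw [h2, Subgroup.relIndex]
    have h3 : K.subgroupOf R = ⊥ := by
      rw [Subgroup.subgroupOf_eq_bot]
      rw [disjoint_iff]
      exact hKR
    rw [h3, Subgroup.index_bot]
  have hrK : ¬ r ∣ Nat.card K := by
    intro hd
    rw [hrel] at hHall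
    have h1 := Nat.eq_one_of_dvd_coprimes hHall hd (dvd_refl r)
    exact hR.one_lt.ne h1.symm
  have h1 := comm_normal_of_fix (F := ↥G) (p := ℓ) (r := r) hAc (fun a => Subtype.ext (hV.2 a a.2)) α K₁
    (by
      haveI := hsolv
      exact solvable_of_solvable_injective (f := K₁.subtype) K₁.subtype_injective)
    (by
      rw [hcardK]
      exact Odd.of_dvd_nat hodd hKdvd)
    (by
      rw [hcardK]
      exact fun h => hℓG (h.trans hKdvd))
    hR (by
      intro h
      apply hℓG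
      rw [← h]
      exact hRdvd)
    (by
      rw [hcardK]
      exact hrK)
    x' (Subtype.ext hxr)
    (by
      intro a h1
      have h2 : x * (a : X) * x⁻¹ = a := congrArg Subtype.val h1
      have hac : Commute x (a : X) := by
        change x * (a : X) = a * x
        calc x * (a : X) = (x * a * x⁻¹) * x := by group
          _ = a * x := by rw [h2]
      have h3 : (a : X) ∈ V ⊓ centralizer (R : Set X) := by
        refine Subgroup.mem_inf.mpr ⟨a.2, ?_⟩
        rw [Subgroup.mem_centralizer_iff]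
        intro t ht
        obtain ⟨k, rfl⟩ := Subgroup.mem_zpowers_iff.mp (hXz t ht)
        exact (hac.zpow_left k).eq
      rw [hCV, Subgroup.mem_bot] at h3
      exact Subtype.ext h3)
  rw [Subgroup.commutator_le]
  intro t ht k hk
  have hkG : k ∈ G := hKG hk
  have htG : t ∈ G := hRG ht
  have h2 : Commute (α x') (α ⟨k, hkG⟩) := by
    have h3 := h1 ⟨k, hkG⟩ (Subgroup.mem_subgroupOf.mpr hk)
    rw [map_mul, map_mul] at h3
    exact h3
  obtain ⟨n, hn⟩ := Subgroup.mem_zpowers_iff.mp (hXz t ht)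
  have ht' : (⟨t, htG⟩ : ↥G) = x' ^ n := Subtype.ext (by
    change t = x ^ n
    exact hn.symm)
  have h3 : Commute (α ⟨t, htG⟩) (α ⟨k, hkG⟩) := by
    rw [ht', map_zpow]
    exact h2.zpow_left n
  have h4 : α (⟨t, htG⟩ * ⟨k, hkG⟩ * ⟨t, htG⟩⁻¹ * ⟨k, hkG⟩⁻¹) = 1 := by
    rw [map_mul, map_mul, map_mul, map_inv, map_inv, h3.eq]
    group
  rw [Subgroup.mem_centralizer_iff]
  intro v hv
  have h5 := congrArg (fun β : MulAut ↥V => ((β ⟨v, hv⟩ : ↥V) : X)) h4
  have h6 : ⁅t, k⁆ * v * ⁅t, k⁆⁻¹ = v := by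
    rw [commutatorElement_def]
    exact h5
  calc v * ⁅t, k⁆ = (⁅t, k⁆ * v * ⁅t, k⁆⁻¹) * ⁅t, k⁆ := by rw [h6]
    _ = ⁅t, k⁆ * v := by group

end Cfsg.Agent.S3769
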