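import Cfsg.Statements.S3770
import Cfsg.Agent.Lib.FT.FrobAbel
import Cfsg.Agent.S0035

set_option autoImplicit false
open Cfsg

namespace Cfsg.Agent.S3770

open scoped Pointwise in
theorem s3770_aux {G : Type*} [Group G] (R : Subgroup G) (hR : ∀ g : G, g ∉ R → R ⊓ (MulAut.conj g • R) = ⊥)
    {e u : G} (he : e ∈ R) (hc : e * u = u * e) (hu : u ∉ R) : e = 1 := by
  have h3 := hR u hu
  have h4 : e ∈ R ⊓ (MulAut.conj u • R) := by
    refine Subgroup.mem_inf.mpr ⟨he, ?_⟩
    rw [Subgroup.mem_pointwise_smul_iff_inv_smul_mem]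
    have : (MulAut.conj u)⁻¹ • e = e := by
      rw [MulAut.smul_def, MulAut.conj_inv_apply, mul_assoc, hc, inv_mul_cancel_left]
    rw [this]
    exact he
  rw [h3] at h4
  simpa using h4

/-- Let G and V be subgroups of a finite group with G a Frobenius group with complement R of prime order and kernel K, G normalizing V, and V an elementary abelian ℓ-group for a prime ℓ not dividing the order of G. If C_V(R) has order ℓ, then the derived subgroup of K centralizes V. -/
theorem result {X : Type*} [Group X] [Finite X] (G : Subgroup X) (V : Subgroup X) {ℓ : ℕ} (hℓ : ℓ.Prime) (hV : Cfsg.IsElementaryAbelian ℓ V) (hℓG : ¬ ℓ ∣ Nat.card G) (hGV : G ≤ Subgroup.normalizer (V : Set X)) (R : Subgroup ↥G) (hR : Cfsg.IsFrobeniusComplement R) (hRp : (Nat.card R).Prime) (hCV : Nat.card ↥(V ⊓ Subgroup.centralizer ((R.map G.subtype : Subgroup X) : Set X)) = ℓ) : ⁅Subgroup.closure (Subtype.val '' Cfsg.frobeniusKernel R), Subgroup.closure (Subtype.val '' Cfsg.frobeniusKernel R)⁆ ≤ Subgroup.centralizer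 (V : Set X) := by
  classical
  obtain ⟨N, hNset, hNn, hNc⟩ := Cfsg.Agent.S0035.result R hR
  have hcl : Subgroup.closure (Subtype.val '' Cfsg.frobeniusKernel R) = N.map G.subtype := by
    rw [← hNset]
    have : (Subtype.val '' (N : Set ↥G)) = ((N.map G.subtype : Subgroup X) : Set X) := by
      ext x
      simp
    rw [this, Subgroup.closure_eq]
  rw [hcl]
  have hdisj : N ⊓ R = ⊥ := by
    have := hNc.disjoint
    exact disjoint_iff.mp this
  have hR1 : R ≠ ⊥ := hR.1
  have hR1' : R.map G.subtype ≠ ⊥ := by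
    intro h
    exact hR1 ((Subgroup.map_eq_bot_iff_of_injective _ G.subtype_injective).mp h)
  have hle : N.map G.subtype ⊔ R.map G.subtype ≤ G := by
    refine sup_le ?_ ?_ <;>
    · rintro _ ⟨x, _, rfl⟩
      exact x.2
  have hVn : ∀ x ∈ N.map G.subtype ⊔ R.map G.subtype, ∀ h ∈ V, x * h * x⁻¹ ∈ V := fun x hx h hh =>
    (Subgroup.mem_normalizer_iff.mp (hGV (hle hx)) h).mp hh
  have hVcomm := hV.1
  haveI hVab : IsMulCommutative ↥V := hV.1
  have hVsolv : Group.IsSolvable ↥V := by
    letI : CommGroup ↥V := { (inferInstance : Group ↥V) with mul_comm := fun a b => mul_comm' a b }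
    infer_instance
  haveI := Fact.mk hℓ
  have hVp : IsPGroup ℓ ↥V := by
    intro x
    exact ⟨1, by simpa using Subtype.ext (hV.2 x x.2)⟩
  have hcop : Nat.Coprime (Nat.card V) (Nat.card ↥(N.map G.subtype ⊔ R.map G.subtype)) := by
    obtain ⟨k, hk⟩ := IsPGroup.iff_card.mp hVp
    rw [hk]
    apply Nat.Coprime.pow_left
    rw [Nat.Prime.coprime_iff_not_dvd hℓ]
    intro h
    exact hℓG (h.trans (Subgroup.card_dvd_of_le hle))
  refine Cfsg.Agent.Lib.FT.comm_le_centralizer _ _ V hR1' ?_ ?_ hVn hVsolv hcop ?_ ?_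
  · rintro _ ⟨e, he, rfl⟩ _ ⟨u, hu, rfl⟩
    exact ⟨e * u * e⁻¹, hNn.conj_mem u hu e, rfl⟩
  · rintro _ ⟨e, he, rfl⟩ hne _ ⟨u, hu, rfl⟩ hc
    have hc' : e * u = u * e := Subtype.ext hc
    by_contra hu1
    have hu1' : u ≠ 1 := fun h => hu1 (by rw [h]; rfl)
    have huR : u ∉ R := by
      intro h
      have h2 : u ∈ N ⊓ R := ⟨hu, h⟩
      rw [hdisj] at h2
      exact hu1' (by simpa using h2)
    have h5 := s3770_aux R hR.2.2 he hc' huR
    exact hne (by rw [h5]; rfl)
  · rw [Nat.card_congr (Subgroup.equivMapOfInjective R G.subtype G.subtype_injective).symm.toEquiv]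
    exact hRp
  · exact isCyclic_of_prime_card hCV

end Cfsg.Agent.S3770
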