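import Cfsg.Statements.S3786
-- import your own Cfsg.Agent.* helpers here
import Mathlib
import Cfsg.Agent.Lib.Coprime.HHL9

set_option autoImplicit false
open Cfsg

namespace Cfsg.Agent.S3786

open Subgroup Module Cfsg.Agent.Lib.Coprime.HHL Cfsg.Agent.Lib.FT

universe u₀

theorem lemmaA {H : Type u₀} [Group H] [Finite H] {p : ℕ} [hp : Fact p.Prime] (hp2 : p ≠ 2) (hsol : Cfsg.IsPSolvable p H)
    (hO : Cfsg.pPrimeCore p H = ⊥)
    (hab : (¬ ∃ k : ℕ, p = 2 ^ k + 1) ∨ ∀ S : Sylow 2 H, IsMulCommutative (S : Subgroup H))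
    {m : ℕ} (hexp : ∀ y : H, (∃ k, orderOf y = p ^ k) → y ^ (p ^ (m + 1)) = 1)
    (x : H) (hx : ∃ k, orderOf x = p ^ k) : x ^ (p ^ m) ∈ Cfsg.pCore p H := by
  classical
  have hpp := hp.out
  have hp3 : 2 < p := lt_of_le_of_ne hpp.two_le (Ne.symm hp2)
  by_contra hne
  have hC := Cfsg.Agent.Lib.Char.centralizer_pCore_le_of_isPSolvable hsol hO
  obtain ⟨U, hU⟩ : ∃ U, U = Cfsg.pCore p H := ⟨_, rfl⟩
  rw [← hU] at hne hC
  haveI hUn : U.Normal := hU ▸ Cfsg.Agent.Lib.Basic.pCore_normal p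
  have hUp : IsPGroup p U := hU ▸ Cfsg.Agent.Lib.Basic.pCore_isPGroup p
  have hO₃ : Cfsg.pCore p (H ⧸ U) = ⊥ := by
    rw [Cfsg.Agent.Lib.LocalEven.pCore_quotient _ hUp, ← hU, Subgroup.map_eq_bot_iff, QuotientGroup.ker_mk']
  let φ : H →* H ⧸ U := QuotientGroup.mk' U
  have hφ : Function.Surjective φ := QuotientGroup.mk'_surjective U
  have hφ1 : ∀ g, φ g = 1 ↔ g ∈ U := fun g => QuotientGroup.eq_one_iff g
  have hsol₃ : Cfsg.IsPSolvable p (H ⧸ U) := Cfsg.Agent.Lib.Coprime.isPSolvable_map φ hφ hsol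
  obtain ⟨W, iW, mW, fW, ρ, hρ, hN1, -⟩ := exists_level_rep U φ hφ (QuotientGroup.ker_mk' U) hUp hC hO₃
  have hx1 : (φ x) ^ (p ^ (m + 1)) = 1 := by rw [← map_pow, hexp x hx, map_one]
  have hxne : (φ x) ^ (p ^ m) ≠ 1 := by
    rw [← map_pow, Ne, hφ1]
    exact hne
  haveI hW : Nontrivial W := by
    by_contra hcon
    rw [not_nontrivial_iff_subsingleton] at hcon
    apply hxne
    apply hρ
    apply LinearMap.ext
    intro w
    exact Subsingleton.elim _ _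
  have h0 := hN1 x (m + 1) (hexp x hx) (fun u hu => hexp (u * x) (pel U hUp hx hu))
  rcases thmB_faith ρ hρ hsol₃ hO₃ (φ x) m hx1 hxne h0 with h | ⟨s, m', q, hq, hs, hm', he, hle, R, hRq, a, ha, b, hb, hab'⟩
  · have h5 : 0 < p ^ (m + 1) := pow_pos hpp.pos _
    generalize p ^ (m + 1) = B at h h5
    omega
  · have hn₀ : 1 ≤ m + 1 - s := by omega
    obtain ⟨n₀, hn₀d⟩ : ∃ n₀, n₀ = m + 1 - s := ⟨_, rfl⟩
    rw [← hn₀d] at he hn₀
    have hodd : Odd p := hpp.odd_of_ne_two hp2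
    have hpow : Odd (p ^ n₀) := hodd.pow
    have hpos : 0 < p ^ n₀ := pow_pos hpp.pos _
    have h2q : 2 ∣ q ^ m' := by
      rw [← he]
      obtain ⟨t, ht⟩ := hpow
      exact ⟨t, by omega⟩
    have hq2 : q = 2 := ((Nat.prime_dvd_prime_iff_eq Nat.prime_two hq).mp (Nat.prime_two.dvd_of_dvd_pow h2q)).symm
    subst hq2
    have hd : p - 1 ∣ 2 ^ m' := by
      rw [← he]
      have := Nat.sub_dvd_pow_sub_pow p 1 n₀
      rwa [one_pow] at this
    obtain ⟨k, -, hk⟩ := (Nat.dvd_prime_pow Nat.prime_two).mp hd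
    have hpk : ∃ k : ℕ, p = 2 ^ k + 1 := ⟨k, by omega⟩
    rcases hab with h1 | h1
    · exact h1 hpk
    · obtain ⟨R', hR'⟩ := hRq.exists_le_sylow
      have h3 := (Cfsg.Agent.S3783.ab_map φ hφ h1 R').is_comm.comm ⟨a, hR' ha⟩ ⟨b, hR' hb⟩
      exact hab' (congrArg Subtype.val h3)

theorem ab_or_map {G Q : Type*} [Group G] [Finite G] [Group Q] (f : G →* Q) (hf : Function.Surjective f) {p : ℕ}
    (h : (¬ ∃ k : ℕ, p = 2 ^ k + 1) ∨ ∀ S : Sylow 2 G, IsMulCommutative (S : Subgroup G)) :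
    (¬ ∃ k : ℕ, p = 2 ^ k + 1) ∨ ∀ S : Sylow 2 Q, IsMulCommutative (S : Subgroup Q) := by
  rcases h with h | h
  · exact Or.inl h
  · exact Or.inr (fun S => Cfsg.Agent.S3783.ab_map f hf h S)

theorem main_a {p : ℕ} [hp : Fact p.Prime] (hp2 : p ≠ 2) (n : ℕ) : ∀ (G : Type u₀) [Group G] [Finite G],
    Cfsg.IsPSolvable p G →
    ((¬ ∃ k : ℕ, p = 2 ^ k + 1) ∨ ∀ S : Sylow 2 G, IsMulCommutative (S : Subgroup G)) →
    (∀ y : G, (∃ k, orderOf y = p ^ k) → y ^ (p ^ n) = 1) → Cfsg.PLengthLE p n G := by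
  have hpp : p.Prime := hp.out
  induction n with
  | zero =>
    intro G _ _ _ _ hexp
    show (Cfsg.upperPSeries p G (2 * 0 + 1)).1 = ⊤
    rw [eq_top_iff]
    apply Cfsg.Agent.Lib.Coprime.PLen.step_even (k := 0) (by simp) (Y := ⊥) bot_le
    intro x _
    obtain ⟨a, b, hab1, hcomm, ha, hb, -, -⟩ := Cfsg.Agent.Lib.PGroups.exists_pPart p x
    have ha1 := hexp a ha
    rw [pow_zero, pow_one] at ha1
    rw [ha1, one_mul] at hab1
    subst hab1
    refine ⟨orderOf x, ((hpp.coprime_iff_not_dvd).mpr hb).symm, ?_⟩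
    rw [pow_orderOf_eq_one]
    exact one_mem _
  | succ n IH =>
    intro G _ _ hG hab hexp
    have hkey : ∀ g : G, (∃ k, orderOf g = p ^ k) → g ^ (p ^ n) ∈ (Cfsg.upperPSeries p G (2 * 0 + 2)).1 := by
      intro g hg
      rw [Cfsg.Agent.Lib.PLocal.upper_succ_odd p G 0, Subgroup.mem_comap]
      have hf := QuotientGroup.mk'_surjective (Cfsg.upperPSeries p G (2 * 0 + 1)).1
      have := lemmaA hp2 (Cfsg.Agent.Lib.Coprime.isPSolvable_map _ hf hG) (Cfsg.Agent.Lib.PLocal.pPrimeCore_upper_eq_bot 0)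
        (ab_or_map _ hf hab) (m := n)
        (fun y hy => by
          obtain ⟨g', rfl, hg'⟩ := Cfsg.Agent.Lib.PGroups.exists_pElement_lift _ hf hy
          rw [← map_pow, hexp g' hg', map_one])
        (QuotientGroup.mk' _ g)
        (by
          obtain ⟨k, hk⟩ := hg
          have h1 : orderOf (QuotientGroup.mk' (Cfsg.upperPSeries p G (2 * 0 + 1)).1 g) ∣ p ^ k := by
            apply orderOf_dvd_of_pow_eq_one
            rw [← map_pow, ← hk, pow_orderOf_eq_one, map_one]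
          obtain ⟨i, -, hi⟩ := (Nat.dvd_prime_pow hpp).mp h1
          exact ⟨i, hi⟩)
      rw [map_pow]
      exact this
    have hf2 := QuotientGroup.mk'_surjective (Cfsg.upperPSeries p G (2 * 0 + 2)).1
    have hL := IH (G ⧸ (Cfsg.upperPSeries p G (2 * 0 + 2)).1) (Cfsg.Agent.Lib.Coprime.isPSolvable_map _ hf2 hG)
      (ab_or_map _ hf2 hab)
      (fun y hy => by
        obtain ⟨g', rfl, hg'⟩ := Cfsg.Agent.Lib.PGroups.exists_pElement_lift _ hf2 hy
        rw [← map_pow, QuotientGroup.mk'_apply, QuotientGroup.eq_one_iff]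
        exact hkey g' hg')
    let f : (G ⧸ (Cfsg.upperPSeries p G (2 * 0 + 2)).1) →*
        ↥((⊤ : Subgroup G).map (QuotientGroup.mk' (Cfsg.upperPSeries p G (2 * 0 + 2)).1)) :=
      (MonoidHom.id _).codRestrict _ (fun y => by
        obtain ⟨g, rfl⟩ := hf2 y
        exact ⟨g, mem_top _, rfl⟩)
    have hfs : Function.Surjective f := by
      rintro ⟨y, hy⟩
      exact ⟨y, rfl⟩
    have hF := Cfsg.Agent.Lib.Coprime.PLen.pLength_map f hfs hL
    have hfin := Cfsg.Agent.Lib.Coprime.PLen.section_le (V := ⊤) (m := 1) le_top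
      (Cfsg.Agent.Lib.PLocal.upper_le_succ 2) hF
    show (Cfsg.upperPSeries p G (2 * (n + 1) + 1)).1 = ⊤
    rw [eq_top_iff, add_comm n 1]
    exact hfin

/-- The surjection between successive terms. -/
noncomputable def stepMap {G : Type u₀} [Group G] (A B : Subgroup G) [A.Normal] [B.Normal] (h : A ≤ B) : G ⧸ A →* G ⧸ B :=
  QuotientGroup.map A B (MonoidHom.id G) h

theorem stepMap_mk {G : Type u₀} [Group G] (A B : Subgroup G) [A.Normal] [B.Normal] (h : A ≤ B) (g : G) :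
    stepMap A B h (QuotientGroup.mk' A g) = QuotientGroup.mk' B g := rfl

theorem stepMap_surj {G : Type u₀} [Group G] (A B : Subgroup G) [A.Normal] [B.Normal] (h : A ≤ B) :
    Function.Surjective (stepMap A B h) := by
  intro y
  obtain ⟨g, rfl⟩ := QuotientGroup.mk'_surjective B y
  exact ⟨QuotientGroup.mk' A g, rfl⟩

theorem stepMap_ker {G : Type u₀} [Group G] (A B : Subgroup G) [A.Normal] [B.Normal] (h : A ≤ B) (C : Subgroup (G ⧸ A))
    (hB : B = C.comap (QuotientGroup.mk' A)) : (stepMap A B h).ker = C := by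
  ext x
  obtain ⟨g, rfl⟩ := QuotientGroup.mk'_surjective A x
  rw [MonoidHom.mem_ker, stepMap_mk, QuotientGroup.mk'_apply, QuotientGroup.eq_one_iff, hB, Subgroup.mem_comap]

theorem key_b {G : Type u₀} [Group G] [Finite G] {p : ℕ} [hp : Fact p.Prime] (hp2 : p ≠ 2) (hG : Cfsg.IsPSolvable p G) {m : ℕ}
    (hexp : ∀ y : G, (∃ k, orderOf y = p ^ k) → y ^ (p ^ (m + 1)) = 1)
    (g : G) (hg : ∃ k, orderOf g = p ^ k) : g ^ (p ^ m) ∈ (Cfsg.upperPSeries p G (2 * 1 + 2)).1 := by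
  classical
  have hpp := hp.out
  have h12 : (Cfsg.upperPSeries p G (2 * 0 + 1)).1 ≤ (Cfsg.upperPSeries p G (2 * 0 + 2)).1 :=
    Cfsg.Agent.Lib.PLocal.upper_le_succ 1
  have h23 : (Cfsg.upperPSeries p G (2 * 0 + 2)).1 ≤ (Cfsg.upperPSeries p G (2 * 1 + 1)).1 :=
    Cfsg.Agent.Lib.PLocal.upper_le_succ 2
  let H := G ⧸ (Cfsg.upperPSeries p G (2 * 0 + 1)).1
  let F := G ⧸ (Cfsg.upperPSeries p G (2 * 0 + 2)).1
  let H₂ := G ⧸ (Cfsg.upperPSeries p G (2 * 1 + 1)).1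
  have hsH : Function.Surjective (QuotientGroup.mk' (Cfsg.upperPSeries p G (2 * 0 + 1)).1) := QuotientGroup.mk'_surjective _
  have hsF : Function.Surjective (QuotientGroup.mk' (Cfsg.upperPSeries p G (2 * 0 + 2)).1) := QuotientGroup.mk'_surjective _
  have hsolH : Cfsg.IsPSolvable p H := Cfsg.Agent.Lib.Coprime.isPSolvable_map _ hsH hG
  have hsolF : Cfsg.IsPSolvable p F := Cfsg.Agent.Lib.Coprime.isPSolvable_map _ hsF hG
  have hOH : Cfsg.pPrimeCore p H = ⊥ := Cfsg.Agent.Lib.PLocal.pPrimeCore_upper_eq_bot 0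
  have hO₂ : Cfsg.pPrimeCore p H₂ = ⊥ := Cfsg.Agent.Lib.PLocal.pPrimeCore_upper_eq_bot 1
  have hC := Cfsg.Agent.Lib.Char.centralizer_pCore_le_of_isPSolvable hsolH hOH
  let φ : H →* F := stepMap _ _ h12
  have hφ : Function.Surjective φ := stepMap_surj _ _ h12
  have hφker : φ.ker = Cfsg.pCore p H := stepMap_ker _ _ h12 _ (Cfsg.Agent.Lib.PLocal.upper_succ_odd p G 0)
  let π : F →* H₂ := stepMap _ _ h23
  have hπ : Function.Surjective π := stepMap_surj _ _ h23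
  have hUp : IsPGroup p (Cfsg.pCore p H) := Cfsg.Agent.Lib.Basic.pCore_isPGroup p
  haveI hUn : (Cfsg.pCore p H).Normal := Cfsg.Agent.Lib.Basic.pCore_normal p
  have hOF : Cfsg.pCore p F = ⊥ := by
    haveI hFn : (Cfsg.pCore p F).Normal := Cfsg.Agent.Lib.Basic.pCore_normal p
    have h1 : IsPGroup p ((Cfsg.pCore p F).comap φ) :=
      (Cfsg.Agent.Lib.Basic.pCore_isPGroup p).comap_of_ker_isPGroup φ (hφker ▸ hUp)
    have h2 : (Cfsg.pCore p F).comap φ ≤ Cfsg.pCore p H := Cfsg.Agent.Lib.Components.le_pCore inferInstance h1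
    rw [eq_bot_iff]
    intro y hy
    obtain ⟨x, rfl⟩ := hφ y
    have h3 : x ∈ φ.ker := hφker ▸ h2 hy
    rw [Subgroup.mem_bot]
    exact h3
  obtain ⟨W, iW, mW, fW, ρ, hρ, hN1, -⟩ := exists_level_rep (Cfsg.pCore p H) φ hφ hφker hUp hC hOF
  have hexpH : ∀ y : H, (∃ k, orderOf y = p ^ k) → y ^ (p ^ (m + 1)) = 1 := fun y hy => by
    obtain ⟨g', rfl, hg'⟩ := Cfsg.Agent.Lib.PGroups.exists_pElement_lift _ hsH hy
    rw [← map_pow, hexp g' hg', map_one]
  have hexpF : ∀ y : F, (∃ k, orderOf y = p ^ k) → y ^ (p ^ (m + 1)) = 1 ∧ (ρ y - 1) ^ (p ^ (m + 1) - 1) = 0 := by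
    intro y hy
    obtain ⟨x, rfl, hx⟩ := Cfsg.Agent.Lib.PGroups.exists_pElement_lift φ hφ hy
    refine ⟨by rw [← map_pow, hexpH x hx, map_one], ?_⟩
    exact hN1 x (m + 1) (hexpH x hx) (fun u hu => hexpH (u * x) (pel _ hUp hx hu))
  have hgF : ∃ k, orderOf (QuotientGroup.mk' (Cfsg.upperPSeries p G (2 * 0 + 2)).1 g) = p ^ k := by
    obtain ⟨k, hk⟩ := hg
    have h1 : orderOf (QuotientGroup.mk' (Cfsg.upperPSeries p G (2 * 0 + 2)).1 g) ∣ p ^ k := by
      apply orderOf_dvd_of_pow_eq_one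
      rw [← map_pow, ← hk, pow_orderOf_eq_one, map_one]
    obtain ⟨i, -, hi⟩ := (Nat.dvd_prime_pow hpp).mp h1
    exact ⟨i, hi⟩
  have h5 := level_two hp2 π hπ hsolF hOF hO₂ ρ hρ m hexpF _ hgF
  rw [Cfsg.Agent.Lib.PLocal.upper_succ_odd p G 1, Subgroup.mem_comap, map_pow]
  exact h5

theorem main_b {p : ℕ} [hp : Fact p.Prime] (hp2 : p ≠ 2) (n : ℕ) : ∀ (G : Type u₀) [Group G] [Finite G],
    Cfsg.IsPSolvable p G →
    (∀ y : G, (∃ k, orderOf y = p ^ k) → y ^ (p ^ n) = 1) → Cfsg.PLengthLE p (2 * n) G := by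
  have hpp : p.Prime := hp.out
  induction n with
  | zero =>
    intro G _ _ _ hexp
    show (Cfsg.upperPSeries p G (2 * (2 * 0) + 1)).1 = ⊤
    rw [eq_top_iff]
    apply Cfsg.Agent.Lib.Coprime.PLen.step_even (k := 2 * (2 * 0)) (by simp) (Y := ⊥) bot_le
    intro x _
    obtain ⟨a, b, hab1, hcomm, ha, hb, -, -⟩ := Cfsg.Agent.Lib.PGroups.exists_pPart p x
    have ha1 := hexp a ha
    rw [pow_zero, pow_one] at ha1
    rw [ha1, one_mul] at hab1
    subst hab1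
    refine ⟨orderOf x, ((hpp.coprime_iff_not_dvd).mpr hb).symm, ?_⟩
    rw [pow_orderOf_eq_one]
    exact one_mem _
  | succ n IH =>
    intro G _ _ hG hexp
    have hkey := key_b hp2 hG hexp
    have hf2 := QuotientGroup.mk'_surjective (Cfsg.upperPSeries p G (2 * 1 + 2)).1
    have hL := IH (G ⧸ (Cfsg.upperPSeries p G (2 * 1 + 2)).1) (Cfsg.Agent.Lib.Coprime.isPSolvable_map _ hf2 hG)
      (fun y hy => by
        obtain ⟨g', rfl, hg'⟩ := Cfsg.Agent.Lib.PGroups.exists_pElement_lift _ hf2 hy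
        rw [← map_pow, QuotientGroup.mk'_apply, QuotientGroup.eq_one_iff]
        exact hkey g' hg')
    let f : (G ⧸ (Cfsg.upperPSeries p G (2 * 1 + 2)).1) →*
        ↥((⊤ : Subgroup G).map (QuotientGroup.mk' (Cfsg.upperPSeries p G (2 * 1 + 2)).1)) :=
      (MonoidHom.id _).codRestrict _ (fun y => by
        obtain ⟨g, rfl⟩ := hf2 y
        exact ⟨g, mem_top _, rfl⟩)
    have hfs : Function.Surjective f := by
      rintro ⟨y, hy⟩
      exact ⟨y, rfl⟩
    have hF := Cfsg.Agent.Lib.Coprime.PLen.pLength_map f hfs hL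
    have hfin := Cfsg.Agent.Lib.Coprime.PLen.section_le (V := ⊤) (m := 2) le_top
      (Cfsg.Agent.Lib.PLocal.upper_le_succ 4) hF
    show (Cfsg.upperPSeries p G (2 * (2 * (n + 1)) + 1)).1 = ⊤
    have he : 2 * (n + 1) = 2 + 2 * n := by ring
    rw [eq_top_iff, he]
    exact hfin

/-- The Hall–Higman bound on p-length. Let p be an odd prime and G a finite p-soluble group whose Sylow p-subgroups have exponent dividing p^e. (a) If p is not of the form 2^k + 1, or if the Sylow 2-subgroups of G are abelian, then G has p-length at most e. (b) In every case G has p-length at most 2e. -/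
theorem result {G : Type*} [Group G] [Finite G] {p : ℕ} [Fact p.Prime] (hp : p ≠ 2) (hG : Cfsg.IsPSolvable p G) (e : ℕ) (hexp : ∀ (P : Sylow p G), ∀ x ∈ (P : Subgroup G), x ^ p ^ e = 1) : (((¬ ∃ k : ℕ, p = 2 ^ k + 1) ∨ ∀ S : Sylow 2 G, IsMulCommutative (S : Subgroup G)) → Cfsg.PLengthLE p e G) ∧ Cfsg.PLengthLE p (2 * e) G := by
  have hexp' : ∀ y : G, (∃ k, orderOf y = p ^ k) → y ^ (p ^ e) = 1 := by
    intro y ⟨k, hk⟩
    have hP : IsPGroup p (zpowers y) := by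
      rw [IsPGroup.iff_card, Nat.card_zpowers]
      exact ⟨k, hk⟩
    obtain ⟨P, hP2⟩ := hP.exists_le_sylow
    exact hexp P y (hP2 (mem_zpowers y))
  exact ⟨fun hab => main_a hp e G hG hab hexp', main_b hp e G hG hexp'⟩

end Cfsg.Agent.S3786
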