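import Cfsg.Statements.S3787
-- import your own Cfsg.Agent.* helpers here
import Mathlib
import Cfsg.Agent.Lib.Coprime.HHWr
import Cfsg.Agent.Lib.Coprime.CycCore

set_option autoImplicit false
open Cfsg

namespace Cfsg.Agent.S3787

open Subgroup Cfsg Cfsg.Agent.Lib.Coprime Cfsg.Agent.Lib.Coprime.HHB Cfsg.Agent.Lib.Coprime.CycCore
open scoped commutatorElement

theorem involves_of_surjective {H S Q : Type*} [Group H] [Group S] [Group Q] (f : S →* Q) (hf : Function.Surjective f)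
    (h : Involves H Q) : Involves H S :=
  Cfsg.Agent.Lib.Fusion.Qd.involves_of_quotient f.ker
    (Cfsg.Agent.Lib.Fusion.Qd.involves_of_equiv (QuotientGroup.quotientKerEquivOfSurjective f hf).symm h)

/-- The main step, when `O_{p'}(G) = 1`. -/
theorem core {G : Type*} [Group G] [Finite G] {p : ℕ} [hpf : Fact p.Prime] (hp2 : p ≠ 2) (hnf : ¬ ∃ k : ℕ, p = 2 ^ k + 1)
    (hG : IsPSolvable p G) (hO : pPrimeCore p G = ⊥) (P : Sylow p G)
    (hwr : ∀ (W : Type) [Group W] [Finite W], WrStr p W → ¬ Involves W ↥(P : Subgroup G)) :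
    (P : Subgroup G) ≤ pCore p G := by
  classical
  have hp := hpf.out
  by_contra hcon
  obtain ⟨x₀, hx₀, hx₀O⟩ := SetLike.not_le_iff_exists.mp hcon
  set O : Subgroup G := pCore p G with hOdef
  haveI hOn : O.Normal := Cfsg.Agent.Lib.Basic.pCore_normal p
  have hOP : O ≤ (P : Subgroup G) := Cfsg.Agent.Lib.Basic.pCore_le_sylow P
  have hPp : ∀ x ∈ (P : Subgroup G), ∃ k : ℕ, x ^ p ^ k = 1 := by
    intro x hx
    obtain ⟨k, hk⟩ := P.isPGroup' ⟨x, hx⟩
    exact ⟨k, congrArg Subtype.val hk⟩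
  -- an element of order `p` modulo `O`
  obtain ⟨b, hbP, hbO, hbp⟩ : ∃ b ∈ (P : Subgroup G), b ∉ O ∧ b ^ p ∈ O := by
    obtain ⟨k₀, hk₀⟩ := hPp x₀ hx₀
    have hex : ∃ k, x₀ ^ p ^ k ∈ O := ⟨k₀, hk₀ ▸ one_mem _⟩
    set k := Nat.find hex with hk
    have hk1 : x₀ ^ p ^ k ∈ O := Nat.find_spec hex
    have hk0 : k ≠ 0 := by
      intro h0
      rw [h0, pow_zero, pow_one] at hk1
      exact hx₀O hk1
    obtain ⟨j, hj⟩ : ∃ j, k = j + 1 := ⟨k - 1, by omega⟩
    refine ⟨x₀ ^ p ^ j, pow_mem hx₀ _, Nat.find_min hex (by omega), ?_⟩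
    rw [← pow_mul, ← pow_succ, ← hj]
    exact hk1
  obtain ⟨q, hqf, R, u, hqp, hRq, huO, hcR, r₀, hr₀, hr₀ne⟩ := exists_lift hG (hPp b hbP) hbO
  set c : G := u * b with hc
  have hcP : c ∈ (P : Subgroup G) := mul_mem (hOP huO) hbP
  let πO : G →* G ⧸ O := QuotientGroup.mk' O
  have hπO : ∀ g, πO g = 1 ↔ g ∈ O := fun g => QuotientGroup.eq_one_iff g
  have hcp : c ^ p ∈ O := by
    rw [← hπO, map_pow, hc, map_mul, (hπO u).mpr huO, one_mul, ← map_pow, hπO]
    exact hbp
  -- the Frattini quotient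
  set Φ : Subgroup G := Phi p G with hΦ
  haveI hΦn : Φ.Normal := phi_normal
  let π : G →* G ⧸ Φ := QuotientGroup.mk' Φ
  have hπ : Function.Surjective π := QuotientGroup.mk'_surjective Φ
  have hπ1 : ∀ g, π g = 1 ↔ g ∈ Φ := fun g => QuotientGroup.eq_one_iff g
  set V : Subgroup (G ⧸ Φ) := O.map π with hV
  haveI hVn : V.Normal := hOn.map π hπ
  have hVc : ∀ a ∈ V, ∀ b ∈ V, a * b = b * a := by
    rintro _ ⟨a, ha, rfl⟩ _ ⟨b, hb, rfl⟩
    have h1 : π ⁅a, b⁆ = 1 := (hπ1 _).mpr (comm_mem_phi ha hb)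
    rw [map_commutatorElement, commutatorElement_eq_one_iff_mul_comm] at h1
    exact h1
  have hVp : ∀ a ∈ V, a ^ p = 1 := by
    rintro _ ⟨a, ha, rfl⟩
    rw [← map_pow, hπ1]
    exact pow_mem_phi ha
  let α : G →* MulAut ↥V := (MulAut.conjNormal (H := V)).comp π
  have hα : ∀ (g : G) (a : ↥V), ((α g a : ↥V) : G ⧸ Φ) = π g * a * (π g)⁻¹ := fun g a => by
    simp [α]
  have hiter : ∀ (i : ℕ) (a : ↥V), (((fun b => α c b * b⁻¹)^[i] a : ↥V) : G ⧸ Φ) = (cf (π c))^[i] (a : G ⧸ Φ) := by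
    intro i a
    induction i generalizing a with
    | zero => rfl
    | succ i ih =>
      rw [Function.iterate_succ_apply, Function.iterate_succ_apply, ih]
      have h0 : (((α c a * a⁻¹ : ↥V)) : G ⧸ Φ) = cf (π c) (a : G ⧸ Φ) := by
        simp [cf, hα]
      rw [← h0]
  -- `c` does not satisfy the polynomial
  have hnot : ¬ ∀ a : ↥V, (fun b => α c b * b⁻¹)^[p - 1] a = 1 := by
    intro hN
    have hexc : (∃ m : ℕ, m ≠ 0 ∧ p = q ^ m + 1) → p - 1 + 1 = p → False := by
      rintro ⟨m, hm0, hm⟩ -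
      have hodd : Odd p := hp.odd_of_ne_two hp2
      have heven : Even (q ^ m) := by
        by_contra h
        rw [Nat.not_even_iff_odd] at h
        have := h.add_odd (odd_one)
        rw [← hm] at this
        exact (Nat.not_even_iff_odd.mpr hodd) this
      have hq2 : q = 2 := by
        have h2 : Even q := (Nat.even_pow.mp heven).1
        exact ((Nat.prime_dvd_prime_iff_eq Nat.prime_two hqf.out).mp (even_iff_two_dvd.mp h2)).symm
      rw [hq2] at hm
      exact hnf ⟨m, hm⟩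
    have hxp : α (c ^ p) = 1 := by
      ext a
      rw [hα]
      have h1 : π (c ^ p) ∈ V := ⟨_, hcp, rfl⟩
      have h2 := hVc _ h1 _ a.2
      rw [h2]
      simp
    have h1 := comm_of_nilp_aut (fun a b => Subtype.ext (hVc a a.2 b b.2)) (fun a => Subtype.ext (hVp a a.2)) α hqp R c hRq
      hxp hcR (r := p - 1) (by have := hp.one_lt; omega) hN hexc
    -- a `q`-group acting trivially
    let T : Subgroup G := R ⊓ α.ker
    have hT : T = ⊥ := by
      apply eq_bot_of_frat hG hO hqp T (hRq.to_le inf_le_left)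
      rintro g ⟨-, hg⟩ x hx
      have h2 : α g = 1 := hg
      have h3 : α g ⟨π x, x, hx, rfl⟩ = ⟨π x, x, hx, rfl⟩ := by rw [h2]; rfl
      have h4 := congrArg Subtype.val h3
      rw [hα] at h4
      rw [← hπ1, map_mul, map_mul, map_mul, map_inv, map_inv]
      change π g * π x * (π g)⁻¹ = π x at h4
      rw [h4]
      group
    have hmem : c * r₀ * c⁻¹ * r₀⁻¹ ∈ T := by
      refine Subgroup.mem_inf.mpr ⟨mul_mem ((Subgroup.mem_normalizer_iff.mp hcR r₀).mp hr₀) (inv_mem hr₀), ?_⟩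
      change α _ = 1
      rw [map_mul, h1 r₀ hr₀, ← map_mul, mul_inv_cancel, map_one]
    rw [hT, Subgroup.mem_bot] at hmem
    apply hr₀ne
    exact mul_inv_eq_one.mp hmem
  push Not at hnot
  obtain ⟨a, ha⟩ := hnot
  have hN' : (cf (π c))^[p - 1] (a : G ⧸ Φ) ≠ 1 := by
    rw [← hiter]
    intro h0
    exact ha (Subtype.ext h0)
  have hxV : π c ∈ normalizer (V : Set (G ⧸ Φ)) := by
    rw [Subgroup.normalizer_eq_top_iff.mpr hVn]
    exact mem_top _
  obtain ⟨W, iG, iF, hW, hinv⟩ := wr V hVc hVp (π c) hxV ⟨_, hcp, by rw [map_pow]⟩ (a : G ⧸ Φ) a.2 hN'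
  apply hwr W hW
  -- the section lies in the image of `P`
  have hle : V ⊔ zpowers (π c) ≤ (P : Subgroup G).map π := by
    refine sup_le (Subgroup.map_mono hOP) ?_
    rw [Subgroup.zpowers_le]
    exact ⟨c, hcP, rfl⟩
  have h1 : Involves W ↥((P : Subgroup G).map π) :=
    Cfsg.Agent.Lib.Fusion.Qd.involves_of_injective (Subgroup.inclusion hle) (Subgroup.inclusion_injective hle) hinv
  exact involves_of_surjective (π.subgroupMap (P : Subgroup G)) (π.subgroupMap_surjective _) h1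

/-- Let G be a finite p-soluble group, p an odd prime not of the form 2^k + 1, and suppose the wreath product C_p ≀ C_p (of order p^(p+1)) is not involved in a Sylow p-subgroup of G: no section of a Sylow p-subgroup is isomorphic to it. Then G has p-length at most 1. -/
theorem result {G : Type*} [Group G] [Finite G] {p : ℕ} [Fact p.Prime] (hp2 : p ≠ 2) (hnf : (¬ ∃ k : ℕ, p = 2 ^ k + 1)) (hG : Cfsg.IsPSolvable p G) (P : Sylow p G) (hwr : ∀ (W : Type) [Group W] [Finite W], (∃ (B : Subgroup W) (t : W), B.Normal ∧ IsMulCommutative B ∧ (∀ b ∈ B, b ^ p = 1) ∧ Nat.card B = p ^ p ∧ orderOf t = p ∧ t ∉ B ∧ Nat.card W = p ^ (p + 1) ∧ Nat.card ↥(B ⊓ Subgroup.centralizer ({t} : Set W)) = p) → ¬ Cfsg.Involves W ↥(P : Subgroup G)) : Cfsg.PLengthLE p 1 G := by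
  classical
  have hp := (inferInstance : Fact p.Prime).out
  set T : Subgroup G := pPrimeCore p G with hT
  haveI hTn : T.Normal := Cfsg.Agent.Lib.Basic.pPrimeCore_normal p
  let π : G →* G ⧸ T := QuotientGroup.mk' T
  have hπ : Function.Surjective π := QuotientGroup.mk'_surjective T
  have hcore : pPrimeCore p (G ⧸ T) = ⊥ := Cfsg.Agent.Lib.Basic.pPrimeCore_quotient_eq_bot p
  have hGb : IsPSolvable p (G ⧸ T) := isPSolvable_map π hπ hG
  have h1 := core hp2 hnf hGb hcore (P.mapSurjective hπ) (by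
    intro W _ _ hW hinv
    obtain ⟨B, t, h1, h2, h3, h4, h5, h6, h7, h8⟩ := hW
    refine hwr W ⟨B, t, h1, h2, h3, h4, h5, h6, h7, h8⟩ ?_
    rw [Sylow.coe_mapSurjective] at hinv
    exact involves_of_surjective (π.subgroupMap (P : Subgroup G)) (π.subgroupMap_surjective _) hinv)
  rw [Sylow.coe_mapSurjective] at h1
  have hPT : (P : Subgroup G) ≤ pPrimePCore p G := by
    intro x hx
    exact h1 ⟨x, hx, rfl⟩
  -- conclusion
  have hT2 : (upperPSeries p G 2).1 = pPrimePCore p G := Cfsg.Agent.Lib.OddLocal.upperPSeries_two p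
  haveI hT2n : (pPrimePCore p G).Normal := Cfsg.Agent.Lib.OddLocal.pPrimePCore_normal p
  have h2 : (⊤ : Subgroup G) ≤ (upperPSeries p G 3).1 := by
    apply Cfsg.Agent.Lib.Coprime.PLen.step_even (k := 2) (Y := (upperPSeries p G 2).1) (by decide) le_rfl
    intro x _
    refine ⟨(pPrimePCore p G).index, ?_, ?_⟩
    · have h3 := P.not_dvd_index
      have h4 : (pPrimePCore p G).index ∣ (P : Subgroup G).index := Subgroup.index_dvd_of_le hPT
      exact ((Nat.Prime.coprime_iff_not_dvd hp).mpr (fun h5 => h3 (h5.trans h4))).symm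
    · rw [hT2]
      exact Subgroup.pow_index_mem _ x
  exact top_le_iff.mp h2

end Cfsg.Agent.S3787
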