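import Cfsg.Statements.S3798
import Mathlib
import Cfsg.Agent.Lib.PGroups.OmegaFour
import Cfsg.Agent.Lib.Transfer.Critical2
import Cfsg.Agent.Lib.Fusion2.MetaAut
import Cfsg.Agent.Lib.OddLocal.PLength
import Cfsg.Agent.Lib.Basic.SchurZassenhaus
import Cfsg.Agent.Lib.Coprime.PSolvable
import Cfsg.Agent.Lib.Char.PBlock
import Cfsg.Agent.Lib.LocalEven2.ZStar
import Cfsg.Agent.Lib.LocalEven.PReduced
import Cfsg.Agent.Lib.Components.Basic

set_option autoImplicit false
open Cfsg

namespace Cfsg.Agent.S3798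

section Helpers

open Subgroup Cfsg.Agent.Lib.Transfer
open scoped commutatorElement Pointwise

/-- In a group whose `p`-th powers and commutators are central, `p` odd, the `p`-th power map is a
homomorphism. -/
theorem mul_pow_p {K : Type*} [Group K] {p : ℕ} (hp : p.Prime) (hp2 : p ≠ 2)
    (hKp : ∀ x : K, x ^ p ∈ center K) (hKc : commutator K ≤ center K) (x y : K) :
    (x * y) ^ p = x ^ p * y ^ p := by
  have hcc : y * x * y⁻¹ * x⁻¹ ∈ center K := by
    apply hKc
    have : y * x * y⁻¹ * x⁻¹ = ⁅y, x⁆ := by rw [commutatorElement_def]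
    rw [this, _root_.commutator_def]
    exact Subgroup.commutator_mem_commutator (mem_top y) (mem_top x)
  have hcx : ∀ g : K, y * x * y⁻¹ * x⁻¹ * g = g * (y * x * y⁻¹ * x⁻¹) :=
    fun g => ((mem_center_iff.mp hcc) g).symm
  rw [Cfsg.Agent.Lib.Fusion2.SuperSol.mul_pow_class2 x y hcx p]
  obtain ⟨c, hc⟩ : ∃ c, c = y * x * y⁻¹ * x⁻¹ := ⟨_, rfl⟩
  rw [← hc] at hcx ⊢
  have hyx : y * x = c * x * y := by rw [hc]; group
  have hyp : ∀ k : ℕ, y ^ k * x = c ^ k * x * y ^ k := by
    intro k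
    induction k with
    | zero => simp
    | succ k ih =>
      calc y ^ (k + 1) * x = y ^ k * (y * x) := by rw [pow_succ, mul_assoc]
        _ = y ^ k * (c * x * y) := by rw [hyx]
        _ = (y ^ k * c) * x * y := by simp only [mul_assoc]
        _ = (c * y ^ k) * x * y := by rw [hcx (y ^ k)]
        _ = c * (y ^ k * x) * y := by simp only [mul_assoc]
        _ = c * (c ^ k * x * y ^ k) * y := by rw [ih]
        _ = c ^ (k + 1) * x * y ^ (k + 1) := by
            rw [pow_succ' c, pow_succ y]; simp only [mul_assoc]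
  have hcp : c ^ p = 1 := by
    have h1 := hyp p
    have h2 : y ^ p * x = x * y ^ p := ((mem_center_iff.mp (hKp y)) x).symm
    rw [h2] at h1
    have h3 : c ^ p * (x * y ^ p) = 1 * (x * y ^ p) := by
      calc c ^ p * (x * y ^ p) = c ^ p * x * y ^ p := by simp only [mul_assoc]
        _ = x * y ^ p := h1.symm
        _ = 1 * (x * y ^ p) := (one_mul _).symm
    exact mul_right_cancel h3
  have h2p : 2 < p := lt_of_le_of_ne hp.two_le (Ne.symm hp2)
  obtain ⟨m, hm⟩ := Nat.Prime.dvd_choose_self hp (by norm_num : (2 : ℕ) ≠ 0) h2p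
  rw [hm, pow_mul, hcp, one_pow, mul_one]

/-- For `p` odd, a `p'`-automorphism of a `p`-group fixing all `x` with `x ^ p = 1` is trivial. -/
theorem eq_one_of_fix_omega_p {G : Type*} [Group G] [Finite G] {p : ℕ} [hpp : Fact p.Prime]
    (hp2 : p ≠ 2) (hG : IsPGroup p G) (a : MulAut G) (ha : Nat.Coprime (orderOf a) p)
    (h : ∀ x : G, x ^ p = 1 → a x = x) : a = 1 := by
  obtain ⟨H, hHc, h1, h2, h3⟩ := exists_critical hG
  apply eq_one_of_fix_critical hG H h2 h3 a ha
  have hHa : ∀ x ∈ H, a x ∈ H := fun x hx => map_mem_of_char hHc a hx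
  have hH : IsPGroup p H := hG.to_subgroup H
  have hZc : (H ⊓ centralizer (H : Set G)).Characteristic := char_inf hHc (char_centralizer hHc)
  have hZ : ∀ k : ℕ, ∀ z ∈ H ⊓ centralizer (H : Set G), z ^ p ^ k = 1 → a z = z := by
    intro k
    induction k with
    | zero =>
      intro z _ h0
      have : z = 1 := by simpa using h0
      rw [this, map_one]
    | succ k ih =>
      intro z hz h0
      have hzp : z ^ p ∈ H ⊓ centralizer (H : Set G) := pow_mem hz p
      have h4 : a (z ^ p) = z ^ p := ih _ hzp (by rw [← pow_mul, ← pow_succ']; exact h0)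
      have haz : a z ∈ H ⊓ centralizer (H : Set G) := map_mem_of_char hZc a hz
      have hcomm : Commute z⁻¹ (a z) := by
        have : z * a z = a z * z := (mem_centralizer_iff.1 (mem_inf.1 hz).2 _ (mem_inf.1 haz).1).symm
        exact (show Commute z (a z) from this).inv_left
      have hu : (z⁻¹ * a z) ^ p = 1 := by
        rw [hcomm.mul_pow, ← map_pow, h4, inv_pow, inv_mul_cancel]
      have h5 := h _ hu
      have h6 := eq_one_of_coprime_aut hG a ha (g := z) (w := z⁻¹ * a z) (by group) h5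
      rw [inv_mul_eq_one] at h6
      exact h6.symm
  have hZall : ∀ z ∈ H ⊓ centralizer (H : Set G), a z = z := by
    intro z hz
    obtain ⟨k, hk⟩ := hG z
    exact hZ k z hz hk
  have hKp : ∀ x : H, x ^ p ∈ center H := by
    intro x
    rw [mem_center_iff]
    intro y
    have h4 : ((x ^ p : H) : G) ∈ centralizer (H : Set G) :=
      h1 ⟨_, pow_mem_frattini hH x, rfl⟩
    apply Subtype.ext
    exact (mem_centralizer_iff.1 h4 y y.2)
  have hKc : commutator H ≤ center H := by
    intro w hw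
    rw [mem_center_iff]
    intro y
    have h4 : ((w : H) : G) ∈ centralizer (H : Set G) :=
      h1 ⟨_, commutator_le_frattini hH hw, rfl⟩
    apply Subtype.ext
    exact (mem_centralizer_iff.1 h4 y y.2)
  intro x hx
  have hu : (x⁻¹ * a x) ^ p = 1 := by
    have h4 := mul_pow_p hpp.out hp2 hKp hKc (⟨x, hx⟩ : H)⁻¹ ⟨a x, hHa x hx⟩
    have h5 := congrArg (Subtype.val : ↥H → G) h4
    have h6 : (x⁻¹ * a x) ^ p = (x⁻¹) ^ p * (a x) ^ p := h5
    rw [h6, ← map_pow]
    have hzz : x ^ p ∈ H ⊓ centralizer (H : Set G) := by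
      refine mem_inf.2 ⟨pow_mem hx p, ?_⟩
      exact h1 ⟨_, pow_mem_frattini hH (⟨x, hx⟩ : H), rfl⟩
    rw [hZall _ hzz, inv_pow, inv_mul_cancel]
  have h5 := h _ hu
  have h6 := eq_one_of_coprime_aut hG a ha (g := x) (w := x⁻¹ * a x) (by group) h5
  rw [inv_mul_eq_one] at h6
  exact h6.symm

variable {Y : Type*} [Group Y] [Finite Y] {p : ℕ} [hp : Fact p.Prime]

theorem mem_conj_smul {T : Subgroup Y} {a y : Y} : y ∈ MulAut.conj a • T ↔ a⁻¹ * y * a ∈ T := by
  rw [Subgroup.mem_pointwise_smul_iff_inv_smul_mem]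
  simp [MulAut.smul_def]

/-- Conjugacy of complements. -/
theorem conj_compl {P K T : Subgroup Y} [hPn : P.Normal] (hPp : IsPGroup p P)
    (hPc : ∀ α : MulAut Y, P.map α.toMonoidHom = P) (hKc : ∀ α : MulAut Y, K.map α.toMonoidHom = K)
    (hsup : P ⊔ T = K) (hcT : (Nat.card T).Coprime p) (α : MulAut Y) :
    ∃ a ∈ P, MulAut.conj a • T = T.map α.toMonoidHom := by
  obtain ⟨k, hk⟩ := IsPGroup.iff_card.mp hPp
  have hc1 : (Nat.card P).Coprime (Nat.card T) := by
    rw [hk]
    exact Nat.Coprime.pow_left k hcT.symm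
  have hcardm : Nat.card (T.map α.toMonoidHom) = Nat.card T :=
    Subgroup.card_map_of_injective (f := α.toMonoidHom) α.injective
  have hc2 : (Nat.card P).Coprime (Nat.card (T.map α.toMonoidHom)) := by
    rw [hcardm]
    exact hc1
  have hn : ∀ H : Subgroup Y, H ≤ normalizer (P : Set Y) := fun H => by
    rw [normalizer_eq_top_iff.mpr hPn]
    exact le_top
  have hs : T ⊔ P = T.map α.toMonoidHom ⊔ P := by
    have := congrArg (Subgroup.map α.toMonoidHom) hsup
    rw [Subgroup.map_sup, hPc, hKc] at this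
    rw [sup_comm, hsup, sup_comm, this]
  have hsolv : Group.IsSolvable P := by
    haveI := hPp.isNilpotent
    infer_instance
  exact Cfsg.Agent.Lib.Basic.schurZassenhaus_conj_rel P T _ (hn _) (hn _) hc1 hc2 hs (Or.inl hsolv)

/-- Frattini argument for the complement. -/
theorem frattini_compl {P K T : Subgroup Y} [hPn : P.Normal] (hPp : IsPGroup p P)
    (hPc : ∀ α : MulAut Y, P.map α.toMonoidHom = P) (hKc : ∀ α : MulAut Y, K.map α.toMonoidHom = K)
    (hsup : P ⊔ T = K) (hcT : (Nat.card T).Coprime p) (g : Y) :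
    ∃ a ∈ P, a⁻¹ * g ∈ normalizer (T : Set Y) := by
  obtain ⟨a, ha, h⟩ := conj_compl hPp hPc hKc hsup hcT (MulAut.conj g)
  refine ⟨a, ha, ?_⟩
  rw [mem_normalizer_iff]
  intro x
  have key : (a⁻¹ * g) * x * (a⁻¹ * g)⁻¹ = a⁻¹ * (g * x * g⁻¹) * a := by group
  rw [key, ← mem_conj_smul, h]
  constructor
  · intro hx
    exact ⟨x, hx, by simp⟩
  · rintro ⟨z, hz, e⟩
    have e' : g * z * g⁻¹ = g * x * g⁻¹ := by simpa using e
    have : z = x := by simpa using e'
    rwa [← this]

/-- A `p`-part of an element. -/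
theorem exists_pPart (t : Y) : ∃ e : ℕ, e % p = 1 ∧ ∃ k : ℕ, (t ^ e) ^ p ^ k = 1 := by
  have h0 : orderOf t ≠ 0 := (orderOf_pos t).ne'
  obtain ⟨b, c, hc, hm⟩ := Nat.exists_eq_pow_mul_and_not_dvd h0 p hp.out.ne_one
  have hcop : Nat.Coprime c p := ((Nat.Prime.coprime_iff_not_dvd hp.out).mpr hc).symm
  have hp1 : 1 < p := hp.out.one_lt
  obtain ⟨d, hd⟩ := Nat.exists_mul_mod_eq_one_of_coprime hcop hp1
  refine ⟨c * d, hd.2, b, ?_⟩
  rw [← pow_mul]
  have : c * d * p ^ b = orderOf t * d := by rw [hm]; ring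
  rw [this, pow_mul, pow_orderOf_eq_one, one_pow]

/-- The main argument, in `G / O_{p'}(G)`. -/
theorem main_core (hp2 : p ≠ 2) (hsol : IsPSolvable p Y) (hO : pPrimeCore p Y = ⊥)
    (hdvd : p ∣ Nat.card Y)
    (htr : ∀ x y : Y, orderOf x = p → orderOf y = p → ∃ α : MulAut Y, y ∈ zpowers (α x)) :
    (Nat.card (Y ⧸ pCore p Y)).Coprime p := by
  classical
  by_contra hcop
  have hpd : p ∣ Nat.card (Y ⧸ pCore p Y) := by
    by_contra hnd
    exact hcop ((Nat.Prime.coprime_iff_not_dvd hp.out).mpr hnd).symm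
  haveI hPn : (pCore p Y).Normal := Cfsg.Agent.Lib.Basic.pCore_normal p
  have hPp : IsPGroup p (pCore p Y) := Cfsg.Agent.Lib.Basic.pCore_isPGroup p
  have hPchar : (pCore p Y).Characteristic := Cfsg.Agent.Lib.Basic.pCore_characteristic p
  have hPc : ∀ α : MulAut Y, (pCore p Y).map α.toMonoidHom = pCore p Y := by
    intro α
    exact Subgroup.characteristic_iff_map_eq.mp hPchar α
  have hCP : centralizer (pCore p Y : Set Y) ≤ pCore p Y :=
    Cfsg.Agent.Lib.Char.centralizer_pCore_le_of_isPSolvable hsol hO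
  -- a central element of order `p` in `O_p`
  have hPne : Nontrivial (pCore p Y) := by
    by_contra hnt
    rw [not_nontrivial_iff_subsingleton] at hnt
    have hbot : pCore p Y = ⊥ := by
      rw [eq_bot_iff]
      intro x hx
      have := Subsingleton.elim (⟨x, hx⟩ : pCore p Y) 1
      simpa using congrArg Subtype.val this
    rw [hbot] at hCP
    have h1 : (⊤ : Subgroup Y) ≤ ⊥ := by
      intro x _
      apply hCP
      rw [mem_centralizer_iff]
      intro h hh
      have : h = 1 := by simpa using hh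
      rw [this, one_mul, mul_one]
    have h2 : Nat.card Y = 1 := by
      rw [← Subgroup.card_top (G := Y), le_bot_iff.mp h1]
      simp
    rw [h2] at hdvd
    exact hp.out.one_lt.ne' (Nat.dvd_one.mp hdvd)
  obtain ⟨v0, hv0⟩ : ∃ v0 : center (pCore p Y), orderOf v0 = p := by
    have hcn : Nontrivial (center (pCore p Y)) := hPp.center_nontrivial
    have hcp : IsPGroup p (center (pCore p Y)) := hPp.to_subgroup _
    rcases hcp.card_eq_or_dvd with h1 | h1
    · exact absurd h1 (Finite.one_lt_card.ne')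
    · exact exists_prime_orderOf_dvd_card' p h1
  obtain ⟨w0, hw0P, hw0c, hw0⟩ : ∃ w0 ∈ pCore p Y, (∀ u ∈ pCore p Y, u * w0 = w0 * u) ∧ orderOf w0 = p := by
    refine ⟨((v0 : pCore p Y) : Y), (v0 : pCore p Y).2, ?_, ?_⟩
    · intro u hu
      have := (mem_center_iff.mp v0.2) ⟨u, hu⟩
      exact congrArg Subtype.val this
    · have : orderOf (((v0 : pCore p Y) : Y)) = orderOf v0 := by
        rw [Subgroup.orderOf_coe, Subgroup.orderOf_coe]
      rw [this]
      exact hv0
  -- every element of order `p` is central in `O_p`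
  have hS : ∀ y : Y, orderOf y = p → y ∈ pCore p Y ∧ ∀ u ∈ pCore p Y, u * y = y * u := by
    intro y hy
    obtain ⟨α, hα⟩ := htr w0 y hw0 hy
    have hαP : α w0 ∈ pCore p Y := by
      rw [← hPc α]
      exact ⟨w0, hw0P, rfl⟩
    have hαc : ∀ u ∈ pCore p Y, u * α w0 = α w0 * u := by
      intro u hu
      have hu' : α.symm u ∈ pCore p Y := by
        have : u ∈ (pCore p Y).map α.toMonoidHom := by rw [hPc α]; exact hu
        obtain ⟨u', hu', e⟩ := this
        have e' : α u' = u := e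
        rw [← e']
        simpa using hu'
      have h1 := hw0c _ hu'
      have h2 := congrArg α h1
      simpa using h2
    obtain ⟨k, hk⟩ := Subgroup.mem_zpowers_iff.mp hα
    rw [← hk]
    refine ⟨zpow_mem hαP k, ?_⟩
    intro u hu
    exact ((show Commute u (α w0) from hαc u hu).zpow_right k)
  -- the complement
  obtain ⟨K, hKdef⟩ : ∃ K : Subgroup Y, K = (pPrimeCore p (Y ⧸ pCore p Y)).comap (QuotientGroup.mk' (pCore p Y)) := ⟨_, rfl⟩
  have hPK : pCore p Y ≤ K := by
    rw [hKdef]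
    intro x hx
    have : QuotientGroup.mk' (pCore p Y) x = 1 := (QuotientGroup.eq_one_iff x).mpr hx
    rw [Subgroup.mem_comap, this]
    exact one_mem _
  have hKn : K.Normal := by
    rw [hKdef]
    exact Subgroup.Normal.comap inferInstance _
  have hrel : (pCore p Y).relIndex K = Nat.card (pPrimeCore p (Y ⧸ pCore p Y)) := by
    rw [hKdef]
    exact Cfsg.Agent.Lib.LocalEven2.relIndex_comap_pPrimeCore _
  have hrelc : ((pCore p Y).relIndex K).Coprime p := by
    rw [hrel]
    exact Cfsg.Agent.Lib.Basic.pPrimeCore_coprime p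
  have hKc : ∀ α : MulAut Y, K.map α.toMonoidHom = K := by
    intro α
    haveI hChar : (pPrimeCore p (Y ⧸ pCore p Y)).Characteristic := Cfsg.Agent.Lib.Basic.pPrimeCore_characteristic p
    have hone : ∀ (β : MulAut Y), K.map β.toMonoidHom ≤ K := by
      intro β
      rintro _ ⟨x, hx, rfl⟩
      rw [hKdef] at hx ⊢
      rw [SetLike.mem_coe] at hx
      rw [Subgroup.mem_comap] at hx ⊢
      let βb : MulAut (Y ⧸ pCore p Y) := QuotientGroup.congr (pCore p Y) (pCore p Y) β (hPc β)
      have e : QuotientGroup.mk' (pCore p Y) (β.toMonoidHom x) = βb (QuotientGroup.mk' (pCore p Y) x) := rfl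
      rw [e]
      have := Subgroup.characteristic_iff_map_eq.mp hChar βb
      rw [← this]
      exact ⟨_, hx, rfl⟩
    apply le_antisymm (hone α)
    intro x hx
    refine ⟨α.symm x, ?_, by simp⟩
    exact hone α⁻¹ ⟨x, hx, rfl⟩
  obtain ⟨Pk, hPk⟩ := IsPGroup.iff_card.mp hPp
  have hPcop : (Nat.card (pCore p Y)).Coprime ((pCore p Y).relIndex K) := by
    rw [hPk]
    exact Nat.Coprime.pow_left _ hrelc.symm
  obtain ⟨T, hTK, hsup, hinf, hTcard⟩ := Cfsg.Agent.Lib.Coprime.exists_complement_of_coprime hPK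
    (by rw [normalizer_eq_top_iff.mpr hPn]; exact le_top) hPcop
  have hTcop : (Nat.card T).Coprime p := by rw [hTcard]; exact hrelc
  -- the `p`-element
  obtain ⟨yb, hyb⟩ := exists_prime_orderOf_dvd_card' p hpd
  obtain ⟨t, rfl⟩ := QuotientGroup.mk'_surjective (pCore p Y) yb
  obtain ⟨a, ha, hn⟩ := frattini_compl hPp hPc hKc hsup hTcop t
  obtain ⟨e, he, k, hk⟩ := exists_pPart (p := p) (a⁻¹ * t)
  have hmk : QuotientGroup.mk' (pCore p Y) (a⁻¹ * t) = QuotientGroup.mk' (pCore p Y) t := by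
    have h0 : QuotientGroup.mk' (pCore p Y) a = 1 := (QuotientGroup.eq_one_iff a).mpr ha
    rw [map_mul, map_inv, h0, inv_one, one_mul]
  obtain ⟨n, hndef⟩ : ∃ n, n = (a⁻¹ * t) ^ e := ⟨_, rfl⟩
  have hnN : n ∈ normalizer (T : Set Y) := by
    rw [hndef]
    exact pow_mem hn e
  have hmkn : QuotientGroup.mk' (pCore p Y) n = QuotientGroup.mk' (pCore p Y) t := by
    rw [hndef, map_pow, hmk]
    have h1 : e = p * (e / p) + 1 := by
      have := Nat.div_add_mod e p
      rw [he] at this
      exact this.symm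
    rw [h1, pow_succ, pow_mul]
    have h2 : QuotientGroup.mk' (pCore p Y) t ^ p = 1 := by
      have := pow_orderOf_eq_one (QuotientGroup.mk' (pCore p Y) t)
      rwa [hyb] at this
    rw [h2, one_pow, one_mul]
  have hnP : n ∉ pCore p Y := by
    intro h
    have h1 : QuotientGroup.mk' (pCore p Y) n = 1 := (QuotientGroup.eq_one_iff n).mpr h
    rw [hmkn] at h1
    rw [h1, orderOf_one] at hyb
    exact hp.out.one_lt.ne hyb
  have hnpP : n ^ p ∈ pCore p Y := by
    have h2 : QuotientGroup.mk' (pCore p Y) t ^ p = 1 := by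
      have := pow_orderOf_eq_one (QuotientGroup.mk' (pCore p Y) t)
      rwa [hyb] at this
    have h3 : QuotientGroup.mk' (pCore p Y) (n ^ p) = 1 := by rw [map_pow, hmkn, h2]
    exact (QuotientGroup.eq_one_iff _).mp h3
  have hnk : n ^ p ^ k = 1 := by rw [hndef]; exact hk
  -- the order of `n`
  obtain ⟨b, hb⟩ : ∃ b, orderOf n = p ^ b := by
    obtain ⟨b, -, hb⟩ := (Nat.dvd_prime_pow hp.out).mp (orderOf_dvd_of_pow_eq_one hnk)
    exact ⟨b, hb⟩
  have hb2 : 2 ≤ b := by
    by_contra hlt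
    have hlt' : b = 0 ∨ b = 1 := by omega
    rcases hlt' with rfl | rfl
    · rw [pow_zero, orderOf_eq_one_iff] at hb
      exact hnP (by rw [hb]; exact one_mem _)
    · rw [pow_one] at hb
      exact hnP (hS n hb).1
  obtain ⟨c, rfl⟩ : ∃ c, b = c + 2 := ⟨b - 2, by omega⟩
  obtain ⟨z, hzdef⟩ : ∃ z, z = (n ^ p) ^ p ^ c := ⟨_, rfl⟩
  have hzo : orderOf z = p := by
    have h1 : z = n ^ (orderOf n / p) := by
      rw [hzdef, hb, ← pow_mul]
      congr 1
      rw [show c + 2 = (c + 1) + 1 from rfl, pow_succ, Nat.mul_div_cancel _ hp.out.pos, pow_succ]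
      ring
    rw [h1]
    exact orderOf_pow_orderOf_div (orderOf_pos n).ne' (by rw [hb]; exact dvd_pow_self p (by omega))
  -- `n ^ p` centralizes `T`
  have hinfT : ∀ x, x ∈ pCore p Y → x ∈ T → x = 1 := by
    intro x h1 h2
    have : x ∈ pCore p Y ⊓ T := mem_inf.mpr ⟨h1, h2⟩
    rw [hinf] at this
    simpa using this
  have hnpT : ∀ u ∈ T, n ^ p * u = u * n ^ p := by
    intro u hu
    have hnpN : n ^ p ∈ normalizer (T : Set Y) := pow_mem hnN p
    have h1 : n ^ p * u * (n ^ p)⁻¹ ∈ T := (mem_normalizer_iff.mp hnpN u).mp hu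
    have h2 : n ^ p * u * (n ^ p)⁻¹ * u⁻¹ ∈ T := mul_mem h1 (inv_mem hu)
    have h3 : n ^ p * u * (n ^ p)⁻¹ * u⁻¹ ∈ pCore p Y := by
      have : n ^ p * u * (n ^ p)⁻¹ * u⁻¹ = n ^ p * (u * (n ^ p)⁻¹ * u⁻¹) := by group
      rw [this]
      exact mul_mem hnpP (hPn.conj_mem _ (inv_mem hnpP) u)
    have h4 := hinfT _ h3 h2
    have h5 : n ^ p * u = u * n ^ p := by
      have : n ^ p * u = (n ^ p * u * (n ^ p)⁻¹ * u⁻¹) * (u * n ^ p) := by group
      rw [this, h4, one_mul]
    exact h5
  have hzT : ∀ u ∈ T, z * u = u * z := by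
    intro u hu
    rw [hzdef]
    exact ((show Commute (n ^ p) u from hnpT u hu).pow_left _)
  -- every element of order `p` centralizes `T`
  have hvT : ∀ v : Y, orderOf v = p → ∀ u ∈ T, v * u = u * v := by
    intro v hv u hu
    obtain ⟨α, hα⟩ := htr z v hzo hv
    have hαo : orderOf (α z) = p := by
      rw [MulEquiv.orderOf_eq]
      exact hzo
    obtain ⟨hαP, hαc⟩ := hS _ hαo
    obtain ⟨a', ha', hconj⟩ := conj_compl hPp hPc hKc hsup hTcop α
    have h1 : a' * u * a'⁻¹ ∈ T.map α.toMonoidHom := by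
      rw [← hconj, mem_conj_smul]
      have : a'⁻¹ * (a' * u * a'⁻¹) * a' = u := by group
      rw [this]
      exact hu
    obtain ⟨u', hu', e⟩ := h1
    have e' : α u' = a' * u * a'⁻¹ := e
    have h2 : α z * (a' * u * a'⁻¹) = (a' * u * a'⁻¹) * α z := by
      rw [← e', ← map_mul, ← map_mul, hzT u' hu']
    have h3 := hαc a' ha'
    have h4 : α z * u = u * α z := by
      have h5 : α z = a'⁻¹ * α z * a' := by
        rw [mul_assoc, ← h3]
        group
      calc α z * u = (a'⁻¹ * α z * a') * u := by rw [← h5]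
        _ = a'⁻¹ * (α z * (a' * u * a'⁻¹)) * a' := by group
        _ = a'⁻¹ * ((a' * u * a'⁻¹) * α z) * a' := by rw [h2]
        _ = u * (a'⁻¹ * α z * a') := by group
        _ = u * α z := by rw [← h5]
    obtain ⟨j, hj⟩ := Subgroup.mem_zpowers_iff.mp hα
    rw [← hj]
    exact ((show Commute (α z) u from h4).zpow_left j)
  -- `T` centralizes `O_p`, so `T = 1`
  have hTbot : T = ⊥ := by
    rw [eq_bot_iff]
    intro u hu
    have huc : (orderOf u).Coprime p := by
      have h1 : orderOf u ∣ Nat.card T := by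
        have := Subgroup.orderOf_dvd_natCard T hu
        exact this
      exact Nat.Coprime.coprime_dvd_left h1 hTcop
    let φ : MulAut (pCore p Y) := MulAut.conjNormal u
    have hφo : (orderOf φ).Coprime p := by
      have h1 : orderOf φ ∣ orderOf u := orderOf_map_dvd (MulAut.conjNormal (H := pCore p Y)) u
      exact Nat.Coprime.coprime_dvd_left h1 huc
    have hφ : φ = 1 := by
      apply eq_one_of_fix_omega_p hp2 hPp φ hφo
      intro x hx
      by_cases hx1 : x = 1
      · rw [hx1, map_one]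
      have hxo : orderOf (x : Y) = p := by
        rw [Subgroup.orderOf_coe]
        exact orderOf_eq_prime hx hx1
      apply Subtype.ext
      have h2 : ((φ x : pCore p Y) : Y) = u * x * u⁻¹ := MulAut.conjNormal_apply u x
      rw [h2, (hvT _ hxo u hu).symm]
      group
    have hu2 : u ∈ centralizer (pCore p Y : Set Y) := by
      rw [mem_centralizer_iff]
      intro x hx
      have h3 : φ ⟨x, hx⟩ = ⟨x, hx⟩ := by rw [hφ]; rfl
      have h4 : u * x * u⁻¹ = x := by
        have := congrArg Subtype.val h3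
        exact (MulAut.conjNormal_apply u ⟨x, hx⟩).symm.trans this
      calc x * u = (u * x * u⁻¹) * u := by rw [h4]
        _ = u * x := by group
    have := hinfT u (hCP hu2) hu
    rw [this]
    exact one_mem _
  -- so `K = O_p`, and `Y / O_p` has trivial `p`- and `p'`-cores
  have hK : K = pCore p Y := by
    rw [← hsup, hTbot, sup_bot_eq]
  have hbot1 : pPrimeCore p (Y ⧸ pCore p Y) = ⊥ := by
    rw [eq_bot_iff]
    intro x hx
    obtain ⟨y, rfl⟩ := QuotientGroup.mk'_surjective (pCore p Y) x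
    have : y ∈ K := by rw [hKdef]; exact hx
    rw [hK] at this
    exact (QuotientGroup.eq_one_iff y).mpr this
  have hbot2 : pCore p (Y ⧸ pCore p Y) = ⊥ := by
    rw [Cfsg.Agent.Lib.LocalEven.pCore_quotient_eq_bot_iff]
    intro D hD hDp
    apply Cfsg.Agent.Lib.Basic.le_pCore hD
    rintro ⟨x, hx⟩
    obtain ⟨k, hk⟩ := hDp x hx
    obtain ⟨m, hm⟩ := hPp ⟨_, hk⟩
    refine ⟨k + m, ?_⟩
    apply Subtype.ext
    have h1 := congrArg Subtype.val hm
    simp only [Subgroup.coe_pow, Subgroup.coe_one] at h1 ⊢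
    rw [pow_add, pow_mul]
    exact h1
  have hsolq : IsPSolvable p (Y ⧸ pCore p Y) :=
    Cfsg.Agent.Lib.Coprime.isPSolvable_map _ (QuotientGroup.mk'_surjective _) hsol
  have hnt : Nontrivial (Y ⧸ pCore p Y) := by
    apply Finite.one_lt_card_iff_nontrivial.mp
    have := Nat.le_of_dvd Nat.card_pos hpd
    have := hp.out.one_lt
    omega
  obtain ⟨N, hNn, hNb, hN⟩ := Cfsg.Agent.Lib.Coprime.IsPSolvable_exists_normal hsolq
  rcases hN with hN | hN
  · apply hNb
    rw [eq_bot_iff, ← hbot2]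
    exact Cfsg.Agent.Lib.Basic.le_pCore hNn hN
  · apply hNb
    rw [eq_bot_iff, ← hbot1]
    exact Cfsg.Agent.Lib.Basic.le_pPrimeCore hNn hN

/-- Elements of order `p` of `G / O_{p'}(G)` lift to elements of order `p`. -/
theorem exists_lift_order {G : Type*} [Group G] [Finite G] (x : G ⧸ pPrimeCore p G) (hx : orderOf x = p) :
    ∃ g : G, orderOf g = p ∧ QuotientGroup.mk' (pPrimeCore p G) g = x := by
  obtain ⟨t, rfl⟩ := QuotientGroup.mk'_surjective (pPrimeCore p G) x
  obtain ⟨e, he, k, hk⟩ := exists_pPart (p := p) t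
  have h2 : QuotientGroup.mk' (pPrimeCore p G) t ^ p = 1 := by
    have := pow_orderOf_eq_one (QuotientGroup.mk' (pPrimeCore p G) t)
    rwa [hx] at this
  have hmk : QuotientGroup.mk' (pPrimeCore p G) (t ^ e) = QuotientGroup.mk' (pPrimeCore p G) t := by
    have h1 : e = p * (e / p) + 1 := by
      have := Nat.div_add_mod e p
      rw [he] at this
      exact this.symm
    rw [map_pow, h1, pow_succ, pow_mul, h2, one_pow, one_mul]
  refine ⟨t ^ e, ?_, hmk⟩
  have hg1 : t ^ e ≠ 1 := by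
    intro h
    rw [h, map_one] at hmk
    rw [← hmk, orderOf_one] at hx
    exact hp.out.one_lt.ne hx
  refine orderOf_eq_prime ?_ hg1
  have h3 : QuotientGroup.mk' (pPrimeCore p G) ((t ^ e) ^ p) = 1 := by
    rw [map_pow, hmk, h2]
  have h4 : (t ^ e) ^ p ∈ pPrimeCore p G := (QuotientGroup.eq_one_iff _).mp h3
  have h5 : orderOf ((t ^ e) ^ p) ∣ Nat.card (pPrimeCore p G) := Subgroup.orderOf_dvd_natCard _ h4
  have h6 : ((t ^ e) ^ p) ^ p ^ k = 1 := by
    rw [← pow_mul, mul_comm, pow_mul, hk, one_pow]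
  have h7 : orderOf ((t ^ e) ^ p) ∣ p ^ k := orderOf_dvd_of_pow_eq_one h6
  have h8 : (Nat.card (pPrimeCore p G)).Coprime (p ^ k) :=
    Nat.Coprime.pow_right k (Cfsg.Agent.Lib.Basic.pPrimeCore_coprime p)
  have h9 := Nat.Coprime.eq_one_of_dvd (Nat.Coprime.coprime_dvd_left h5 h8) h7
  exact orderOf_eq_one_iff.mp h9

end Helpers


/-- The Gaschütz–Yen Theorem: let G be a finite p-soluble group, p an odd prime dividing its order, such that the automorphism group of G permutes the subgroups of G of order p transitively. Then G has p-length at most 1. -/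
theorem result {G : Type*} [Group G] [Finite G] {p : ℕ} [Fact p.Prime] (hp : p ≠ 2) (hdvd : p ∣ Nat.card G) (hG : Cfsg.IsPSolvable p G) (htrans : ∀ U V : Subgroup G, Nat.card U = p → Nat.card V = p → ∃ a : MulAut G, U.map a.toMonoidHom = V) : Cfsg.PLengthLE p 1 G := by
  classical
  haveI hNn : (pPrimeCore p G).Normal := Cfsg.Agent.Lib.Basic.pPrimeCore_normal p
  have hNc : (pPrimeCore p G).Characteristic := Cfsg.Agent.Lib.Basic.pPrimeCore_characteristic p
  have hNm : ∀ a : MulAut G, (pPrimeCore p G).map a.toMonoidHom = pPrimeCore p G :=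
    fun a => Subgroup.characteristic_iff_map_eq.mp hNc a
  have hsol : IsPSolvable p (G ⧸ pPrimeCore p G) :=
    Cfsg.Agent.Lib.Coprime.isPSolvable_map _ (QuotientGroup.mk'_surjective _) hG
  have hO : pPrimeCore p (G ⧸ pPrimeCore p G) = ⊥ := Cfsg.Agent.Lib.Basic.pPrimeCore_quotient_eq_bot p
  have hdvd' : p ∣ Nat.card (G ⧸ pPrimeCore p G) := by
    have h1 := Subgroup.card_mul_index (pPrimeCore p G)
    rw [← h1] at hdvd
    rcases (Nat.Prime.dvd_mul (Fact.out : p.Prime)).mp hdvd with h2 | h2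
    · exfalso
      have h3 : (Nat.card (pPrimeCore p G)).Coprime p := Cfsg.Agent.Lib.Basic.pPrimeCore_coprime p
      have h4 := Nat.Coprime.eq_one_of_dvd h3.symm h2
      exact (Fact.out : p.Prime).one_lt.ne' h4
    · exact h2
  have htr : ∀ x y : G ⧸ pPrimeCore p G, orderOf x = p → orderOf y = p →
      ∃ α : MulAut (G ⧸ pPrimeCore p G), y ∈ Subgroup.zpowers (α x) := by
    intro x y hx hy
    obtain ⟨g1, hg1, rfl⟩ := exists_lift_order x hx
    obtain ⟨g2, hg2, rfl⟩ := exists_lift_order y hy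
    obtain ⟨a, ha⟩ := htrans (Subgroup.zpowers g1) (Subgroup.zpowers g2)
      (by rw [Nat.card_zpowers, hg1]) (by rw [Nat.card_zpowers, hg2])
    have hmem : g2 ∈ (Subgroup.zpowers g1).map a.toMonoidHom := by
      rw [ha]
      exact Subgroup.mem_zpowers g2
    obtain ⟨u, hu, e⟩ := hmem
    obtain ⟨k, rfl⟩ := Subgroup.mem_zpowers_iff.mp hu
    refine ⟨QuotientGroup.congr (pPrimeCore p G) (pPrimeCore p G) a (hNm a), ?_⟩
    have e2 : QuotientGroup.congr (pPrimeCore p G) (pPrimeCore p G) a (hNm a)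
        (QuotientGroup.mk' (pPrimeCore p G) g1) = QuotientGroup.mk' (pPrimeCore p G) (a g1) := rfl
    rw [e2]
    refine Subgroup.mem_zpowers_iff.mpr ⟨k, ?_⟩
    rw [← map_zpow, ← e]
    simp
  have hmain := main_core hp hsol hO hdvd' htr
  have hcard : Nat.card (G ⧸ pPrimePCore p G) = Nat.card ((G ⧸ pPrimeCore p G) ⧸ pCore p (G ⧸ pPrimeCore p G)) := by
    rw [← Subgroup.index_eq_card, ← Subgroup.index_eq_card]
    exact Subgroup.index_comap_of_surjective _ (QuotientGroup.mk'_surjective _)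
  have h2 : (Nat.card (G ⧸ pPrimePCore p G)).Coprime p := by
    rw [hcard]
    exact hmain
  have hn := Cfsg.Agent.Lib.OddLocal.upperPSeries_two (G := G) p
  have key : ∀ (N : Subgroup G) [N.Normal], N = pPrimePCore p G →
      (pPrimeCore p (G ⧸ N)).comap (QuotientGroup.mk' N) = ⊤ := by
    intro N _ e
    subst e
    have h3 := Cfsg.Agent.Lib.Basic.le_pPrimeCore (G := G ⧸ pPrimePCore p G) (p := p) (N := ⊤) inferInstance (by
      rwa [Subgroup.card_top])
    rw [top_le_iff] at h3
    rw [h3, Subgroup.comap_top]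
  have h4 := Cfsg.Agent.Lib.OddLocal.upperPSeries_succ_even (G := G) p 2 (by decide)
  show (upperPSeries p G 3).1 = ⊤
  rw [show (3 : ℕ) = 2 + 1 from rfl, h4]
  exact key _ hn

end Cfsg.Agent.S3798
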