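import Cfsg.Statements.S3803
-- import your own Cfsg.Agent.* helpers here
import Mathlib
import Cfsg.Agent.Lib.Coprime.MinAct

set_option autoImplicit false
open Cfsg

namespace Cfsg.Agent.S3803

open Cfsg.Agent.Lib.Coprime.MinAct Cfsg.Agent.Lib.Basic
open scoped commutatorElement

theorem exists_between {X : Type*} [Group X] [Finite X] (H K : Subgroup X) (hHK : H ≤ K) {n m : ℕ}
    (hH : Nat.card H = 2 ^ n) (hm : 2 ^ m ∣ Nat.card K) (hnm : n ≤ m) :
    ∃ R : Subgroup X, H ≤ R ∧ R ≤ K ∧ Nat.card R = 2 ^ m := by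
  haveI : Fact (Nat.Prime 2) := ⟨Nat.prime_two⟩
  have h1 : Nat.card (H.subgroupOf K) = 2 ^ n := by
    rw [← hH]
    exact Nat.card_congr (Subgroup.subgroupOfEquivOfLe hHK).toEquiv
  obtain ⟨L, hL, hHL⟩ := Sylow.exists_subgroup_card_pow_prime_le 2 hm _ h1 hnm
  refine ⟨L.map K.subtype, ?_, Subgroup.map_subtype_le _, ?_⟩
  · intro x hx
    exact ⟨⟨x, hHK hx⟩, hHL hx, rfl⟩
  · rw [Subgroup.card_map_of_injective K.subtype_injective, hL]

theorem mem_norm_conj {G : Type*} [Group G] [Finite G] {P : Subgroup G} {g : G} (h : ∀ u ∈ P, g * u * g⁻¹ ∈ P) :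
    g ∈ Subgroup.normalizer (P : Set G) := by
  have h1 : P.map (MulAut.conj g).toMonoidHom ≤ P := by
    rintro _ ⟨u, hu, rfl⟩
    exact h u hu
  have h2 : P.map (MulAut.conj g).toMonoidHom = P :=
    Subgroup.eq_of_le_of_card_ge h1 (by
      rw [Subgroup.card_map_of_injective (MulAut.conj g).injective])
  rw [Subgroup.mem_normalizer_iff]
  intro u
  constructor
  · exact h u
  · intro hu
    rw [← h2] at hu
    obtain ⟨v, hv, e⟩ := hu
    have : v = u := by
      have e' : g * v * g⁻¹ = g * u * g⁻¹ := e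
      simpa using e'
    rwa [← this]

/-- `Q` is not cyclic. -/
theorem not_cyclic {X : Type*} [Group X] [Finite X] {A Q : Subgroup X} (h : IsMinAct 2 A A Q) (x : X) :
    Q ≠ Subgroup.zpowers x := by
  classical
  intro hQ
  have hxQ : x ∈ Q := by rw [hQ]; exact Subgroup.mem_zpowers x
  have hx2 := h.pow_mem_frat hxQ
  apply h.frat_ne
  apply le_antisymm IsMinAct.frat_le
  have hparity : ∀ k : ℤ, x ^ k ∉ IsMinAct.frat Q → ∃ j : ℤ, x ^ k = x * x ^ (2 * j) := by
    intro k hk
    rcases Int.even_or_odd' k with ⟨j, rfl | rfl⟩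
    · exfalso
      apply hk
      rw [zpow_mul]
      exact Subgroup.zpow_mem _ (by simpa using hx2) j
    · exact ⟨j, by rw [add_comm, zpow_add, zpow_one]⟩
  have hsq : ∀ j : ℤ, x ^ (2 * j) ∈ IsMinAct.frat Q := fun j => by
    rw [zpow_mul]
    exact Subgroup.zpow_mem _ (by simpa using hx2) j
  have hle : ⁅Q, A⁆ ≤ IsMinAct.frat Q := by
    rw [Subgroup.commutator_le]
    intro y hy a ha
    have haQ := h.Anorm ha
    have haF := IsMinAct.frat_norm haQ
    by_cases hyF : y ∈ IsMinAct.frat Q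
    · have h1 : ⁅y, a⁆ = y * (a * y⁻¹ * a⁻¹) := by
        simp only [commutatorElement_def, mul_assoc]
      rw [h1]
      exact Subgroup.mul_mem _ hyF ((Subgroup.mem_normalizer_iff.mp haF _).mp (Subgroup.inv_mem _ hyF))
    · have hy' : a * y⁻¹ * a⁻¹ ∉ IsMinAct.frat Q := by
        intro hc
        apply hyF
        have := (Subgroup.mem_normalizer_iff.mp haF y⁻¹).mpr hc
        simpa using this
      have hyQ' : a * y⁻¹ * a⁻¹ ∈ Q := (Subgroup.mem_normalizer_iff.mp haQ _).mp (Q.inv_mem hy)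
      rw [hQ] at hy hyQ'
      obtain ⟨k, rfl⟩ := hy
      obtain ⟨l, hl0⟩ := hyQ'
      have hl : x ^ l = a * (x ^ k)⁻¹ * a⁻¹ := hl0
      rw [← hl] at hy'
      obtain ⟨j, hj⟩ := hparity k hyF
      obtain ⟨j', hj'⟩ := hparity l hy'
      have h1 : ⁅x ^ k, a⁆ = x ^ k * (a * (x ^ k)⁻¹ * a⁻¹) := by
        simp only [commutatorElement_def, mul_assoc]
      rw [h1, ← hl, hj, hj']
      have h2 : x * x ^ (2 * j) * (x * x ^ (2 * j')) = x ^ (2 * (j + j' + 1)) := by
        rw [← zpow_one_add, ← zpow_one_add, ← zpow_add]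
        congr 1
        ring
      rw [h2]
      exact hsq _
  rw [h.comm_eq] at hle
  exact hle

/-- Let P be a 2-subgroup and A a subgroup of odd order of a finite group, with A normalizing P. Let D ≤ P with 1 < |D| < |P|. If every subgroup of P of order |D|, and also every subgroup of P of order 4 in case |D| = 2, is normalized by A, then A centralizes P. -/
theorem result {X : Type*} [Group X] [Finite X] (P A D : Subgroup X) (hP : IsPGroup 2 P) (hA : Odd (Nat.card A))
    (hAP : A ≤ Subgroup.normalizer (P : Set X)) (hDP : D ≤ P) (hD1 : 1 < Nat.card D) (hD2 : Nat.card D < Nat.card P)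
    (hinv : ∀ E : Subgroup X, E ≤ P → (Nat.card E = Nat.card D ∨ (Nat.card D = 2 ∧ Nat.card E = 4)) → A ≤ Subgroup.normalizer (E : Set X)) :
    A ≤ Subgroup.centralizer (P : Set X) := by
  classical
  haveI hf2 : Fact (Nat.Prime 2) := ⟨Nat.prime_two⟩
  rw [Subgroup.le_centralizer_iff]
  by_contra hnc
  have hcop : (Nat.card A).Coprime 2 := by
    exact Nat.coprime_two_right.mpr hA
  obtain ⟨Q, hQP, hmin⟩ := exists_isMinAct hP hAP le_rfl (Subgroup.le_normalizer) hcop hnc
  have hDp : IsPGroup 2 D := hP.to_le hDP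
  obtain ⟨d, hd⟩ := IsPGroup.iff_card.mp hDp
  obtain ⟨t, ht⟩ := IsPGroup.iff_card.mp hP
  obtain ⟨c, hc⟩ := IsPGroup.iff_card.mp hmin.pgroup
  have hd1 : 1 ≤ d := by
    rw [hd] at hD1
    by_contra h
    have : d = 0 := by omega
    rw [this, pow_zero] at hD1
    omega
  have hdt : d < t := by
    rw [hd, ht] at hD2
    exact (Nat.pow_lt_pow_iff_right (by norm_num)).mp hD2
  by_cases hcase : d < c
  · -- case 1: `Q` large
    apply hmin.nc
    intro x hx
    have hx4 := hmin.pow_four hx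
    have hZ : Subgroup.zpowers x ≤ Q := by
      rw [Subgroup.zpowers_le]
      exact hx
    have hord : orderOf x ∣ 2 ^ 2 := orderOf_dvd_of_pow_eq_one (by simpa using hx4)
    obtain ⟨j, hj2, hj⟩ := (Nat.dvd_prime_pow Nat.prime_two).mp hord
    have hcardZ : Nat.card (Subgroup.zpowers x) = 2 ^ j := by
      rw [Nat.card_zpowers, hj]
    by_cases hjd : j ≤ d
    · obtain ⟨R, hZR, hRQ, hR⟩ := exists_between _ Q hZ hcardZ (by
        rw [hc]
        exact pow_dvd_pow 2 hcase.le) hjd
      have hRnorm : A ≤ Subgroup.normalizer (R : Set X) :=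
        hinv R (hRQ.trans hQP) (Or.inl (by rw [hR, hd]))
      have hRne : R ≠ Q := by
        intro h
        rw [h, hc] at hR
        have := Nat.pow_right_injective (le_refl 2) hR
        omega
      exact hmin.min R hRQ hRnorm hRne (hZR (Subgroup.mem_zpowers x))
    · have hd2 : d = 1 := by omega
      have hj4 : j = 2 := by omega
      have hZnorm : A ≤ Subgroup.normalizer ((Subgroup.zpowers x : Subgroup X) : Set X) :=
        hinv _ (hZ.trans hQP) (Or.inr ⟨by rw [hd, hd2]; norm_num, by rw [hcardZ, hj4]; norm_num⟩)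
      have hne : Subgroup.zpowers x ≠ Q := fun h => not_cyclic hmin x h.symm
      exact hmin.min _ hZ hZnorm hne (Subgroup.mem_zpowers x)
  · -- case 2: `Q` small
    have hcd : c ≤ d := by omega
    obtain ⟨T, hQT, hTP, hT⟩ := exists_between Q P hQP hc (m := d + 1) (by
      rw [ht]
      exact pow_dvd_pow 2 hdt) (by omega)
    have hTp : IsPGroup 2 T := hP.to_le hTP
    haveI hTnil : Group.IsNilpotent ↥T := hTp.isNilpotent
    -- coatoms of `T`
    have hcoat : ∀ M : Subgroup ↥T, IsCoatom M → M.index = 2 ∧ A ≤ Subgroup.normalizer ((M.map T.subtype : Subgroup X) : Set X) := by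
      intro M hM
      have h1 := index_prime_of_isCoatom_of_isNilpotent hM
      have h2 : M.index ∣ 2 ^ (d + 1) := by
        rw [← hT]
        exact Subgroup.index_dvd_card M
      have h3 : M.index = 2 :=
        (Nat.prime_dvd_prime_iff_eq h1 Nat.prime_two).mp (h1.dvd_of_dvd_pow h2)
      refine ⟨h3, ?_⟩
      apply hinv _ ((Subgroup.map_subtype_le _).trans hTP)
      left
      rw [Subgroup.card_map_of_injective T.subtype_injective, hd]
      have h4 := Subgroup.index_mul_card M
      rw [h3, hT, pow_succ, mul_comm] at h4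
      omega
    -- `T` is not cyclic
    have hQT' : ∀ y : ↥T, Subgroup.zpowers y ≠ ⊤ := by
      intro y hy
      have hall : ∀ u ∈ Q, ∃ z : X, z ∈ Q ∧ True := fun u hu => ⟨u, hu, trivial⟩
      -- `T` cyclic ⇒ `Q` cyclic
      haveI hTcyc : IsCyclic ↥T := ⟨y, fun u => by
        have : u ∈ Subgroup.zpowers y := by rw [hy]; trivial
        exact this⟩
      have hQcyc : IsCyclic ↥(Q.subgroupOf T) := inferInstance
      obtain ⟨z, hz⟩ := hQcyc.exists_generator
      apply not_cyclic hmin ((z : ↥T) : X)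
      apply le_antisymm
      · intro u hu
        have hu' : (⟨u, hQT hu⟩ : ↥T) ∈ Q.subgroupOf T := hu
        obtain ⟨k, hk⟩ := hz ⟨_, hu'⟩
        have : u = ((z : ↥T) : X) ^ k := by
          have := congrArg (fun w : ↥(Q.subgroupOf T) => ((w : ↥T) : X)) hk
          simpa using this.symm
        rw [this]
        exact Subgroup.zpow_mem_zpowers _ _
      · rw [Subgroup.zpowers_le]
        exact z.2
    -- two coatoms
    have hTbig : (⊤ : Subgroup ↥T) ≠ ⊥ := by
      intro h
      have h1 : Nat.card (⊤ : Subgroup ↥T) = 1 := by rw [h]; simp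
      rw [Subgroup.card_top, hT] at h1
      have : 2 ≤ 2 ^ (d + 1) := by
        calc 2 = 2 ^ 1 := by norm_num
          _ ≤ 2 ^ (d + 1) := Nat.pow_le_pow_right (by norm_num) (by omega)
      omega
    obtain ⟨M₁, hM₁, -⟩ := exists_isCoatom_ge (K := (⊥ : Subgroup ↥T)) hTbig.symm
    obtain ⟨y, hy⟩ : ∃ y : ↥T, y ∉ M₁ := by
      by_contra hcon
      push_neg at hcon
      exact hM₁.1 (eq_top_iff.mpr fun u _ => hcon u)
    obtain ⟨M₂, hM₂, hyM₂⟩ := exists_isCoatom_ge (hQT' y)
    have hyM₂' : y ∈ M₂ := hyM₂ (Subgroup.mem_zpowers y)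
    have hne : M₁ ≠ M₂ := by
      rintro rfl
      exact hy hyM₂'
    have hsup : M₁ ⊔ M₂ = ⊤ := hM₁.sup_eq_top_of_ne hM₂ hne
    have hsupT : M₁.map T.subtype ⊔ M₂.map T.subtype = T := by
      rw [← Subgroup.map_sup, hsup, ← MonoidHom.range_eq_map, Subgroup.range_subtype]
    -- `A` normalizes `T`
    have hAT : A ≤ Subgroup.normalizer (T : Set X) := by
      intro a ha
      apply mem_norm_conj
      intro u hu
      have hle : T ≤ T.comap (MulAut.conj a).toMonoidHom := by
        rw [← hsupT]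
        apply sup_le
        · intro v hv
          have h1 := (Subgroup.mem_normalizer_iff.mp ((hcoat M₁ hM₁).2 ha) v).mp hv
          have h2 : a * v * a⁻¹ ∈ T := Subgroup.map_subtype_le _ h1
          rw [hsupT]
          exact h2
        · intro v hv
          have h1 := (Subgroup.mem_normalizer_iff.mp ((hcoat M₂ hM₂).2 ha) v).mp hv
          have h2 : a * v * a⁻¹ ∈ T := Subgroup.map_subtype_le _ h1
          rw [hsupT]
          exact h2
      exact hle hu
    -- commutators lie in the Frattini subgroup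
    have hcomm : ⁅T, A⁆ ≤ IsMinAct.frat T := by
      rw [Subgroup.commutator_le]
      intro y hy a ha
      have hz : a * y⁻¹ * a⁻¹ ∈ T := (Subgroup.mem_normalizer_iff.mp (hAT ha) _).mp (T.inv_mem hy)
      have hc : ⁅y, a⁆ = y * (a * y⁻¹ * a⁻¹) := by
        simp only [commutatorElement_def, mul_assoc]
      rw [hc, IsMinAct.mem_frat]
      refine ⟨T.mul_mem hy hz, ?_⟩
      rw [mem_frattini_iff]
      intro M hM
      obtain ⟨hM2, hMn⟩ := hcoat M hM
      have hmul : (⟨y * (a * y⁻¹ * a⁻¹), T.mul_mem hy hz⟩ : ↥T) = ⟨y, hy⟩ * ⟨a * y⁻¹ * a⁻¹, hz⟩ := rfl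
      rw [hmul, Subgroup.mul_mem_iff_of_index_two hM2]
      have h1 : (⟨y, hy⟩ : ↥T) ∈ M ↔ y⁻¹ ∈ M.map T.subtype := by
        constructor
        · intro h
          exact ⟨⟨y, hy⟩⁻¹, M.inv_mem h, rfl⟩
        · rintro ⟨w, hw, e⟩
          have e' : (w : X) = y⁻¹ := e
          have : (⟨y, hy⟩ : ↥T) = w⁻¹ := by
            apply Subtype.ext
            simp [e']
          rw [this]
          exact M.inv_mem hw
      have h2 : (⟨a * y⁻¹ * a⁻¹, hz⟩ : ↥T) ∈ M ↔ a * y⁻¹ * a⁻¹ ∈ M.map T.subtype := by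
        constructor
        · intro h
          exact ⟨_, h, rfl⟩
        · rintro ⟨w, hw, e⟩
          have : (⟨a * y⁻¹ * a⁻¹, hz⟩ : ↥T) = w := Subtype.ext e.symm
          rw [this]
          exact hw
      rw [h1, h2]
      exact Subgroup.mem_normalizer_iff.mp (hMn ha) _
    -- Burnside
    have hcopT : (Nat.card A).Coprime (Nat.card T) := by
      rw [hT]
      exact Nat.Coprime.pow_right _ hcop
    have hK : (Subgroup.centralizer (A : Set X)).subgroupOf T = ⊤ := by
      apply eq_top_of_sup_eq_top_of_le_frattini (L := frattini ↥T) le_rfl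
      rw [eq_top_iff]
      rintro ⟨u, hu⟩ -
      obtain ⟨n, hn, c, hcm, e⟩ := coprime_exists_mul hAT hcopT (Or.inr (by
        haveI := hTnil
        infer_instance)) u hu
      have hn' := hcomm hn
      rw [IsMinAct.mem_frat] at hn'
      obtain ⟨hnT, hnF⟩ := hn'
      have hc' : (⟨c, hcm.1⟩ : ↥T) ∈ (Subgroup.centralizer (A : Set X)).subgroupOf T := hcm.2
      have : (⟨u, hu⟩ : ↥T) = ⟨c, hcm.1⟩ * (⟨c, hcm.1⟩⁻¹ * ⟨n, hnT⟩ * ⟨c, hcm.1⟩) := by
        apply Subtype.ext
        show u = c * (c⁻¹ * n * c)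
        rw [e]
        group
      rw [this]
      refine Subgroup.mul_mem_sup hc' ?_
      have hnormal : (frattini ↥T).Normal := inferInstance
      have := hnormal.conj_mem _ hnF ⟨c, hcm.1⟩⁻¹
      simpa using this
    apply hmin.nc
    intro u hu
    have : (⟨u, hQT hu⟩ : ↥T) ∈ (Subgroup.centralizer (A : Set X)).subgroupOf T := by
      rw [hK]
      trivial
    exact this

end Cfsg.Agent.S3803
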