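import Cfsg.Statements.S3805
-- import your own Cfsg.Agent.* helpers here
import Mathlib
import Cfsg.Agent.Lib.Coprime.Sub333

set_option autoImplicit false
open Cfsg

namespace Cfsg.Agent.S3805

/-- Let G be a finite group whose Sylow 3-subgroup T is elementary abelian of order 9 and self-centralizing, with N_G(T)/T a Klein four-group, and suppose that the centralizer of every nonidentity element of T lies in N_G(T). Then T is normal in G. -/
theorem result {G : Type*} [Group G] [Finite G]
    (T : Sylow 3 G) (hT : Cfsg.IsElementaryAbelian 3 (T : Subgroup G)) (hcard : Nat.card T = 9)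
    (hC : Subgroup.centralizer ((T : Subgroup G) : Set G) = T)
    [hn : ((T : Subgroup G).subgroupOf (Subgroup.normalizer ((T : Subgroup G) : Set G))).Normal]
    (hK : IsKleinFour (↥(Subgroup.normalizer ((T : Subgroup G) : Set G)) ⧸
      (T : Subgroup G).subgroupOf (Subgroup.normalizer ((T : Subgroup G) : Set G))))
    (hloc : ∀ t ∈ (T : Subgroup G), t ≠ 1 →
      Subgroup.centralizer ({t} : Set G) ≤ Subgroup.normalizer ((T : Subgroup G) : Set G)) :
    Subgroup.normalizer ((T : Subgroup G) : Set G) = ⊤ := by
  classical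
  have hTc : ∀ x ∈ (T : Subgroup G), ∀ y ∈ (T : Subgroup G), x * y = y * x := by
    intro x hx y hy
    have := hT.1.is_comm.comm ⟨x, hx⟩ ⟨y, hy⟩
    exact congrArg Subtype.val this
  have hT3 := hT.2
  set N := Subgroup.normalizer ((T : Subgroup G) : Set G) with hN
  have hTN : (T : Subgroup G) ≤ N := by
    intro t ht
    rw [hN, Subgroup.mem_normalizer_iff]
    intro h
    constructor
    · intro hh
      exact (T : Subgroup G).mul_mem ((T : Subgroup G).mul_mem ht hh) ((T : Subgroup G).inv_mem ht)
    · intro hh
      have : h = t⁻¹ * (t * h * t⁻¹) * t := by group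
      rw [this]
      exact (T : Subgroup G).mul_mem ((T : Subgroup G).mul_mem ((T : Subgroup G).inv_mem ht) hh) ht
  have hN36 : Nat.card N = 36 := by
    have h1 := Subgroup.card_eq_card_quotient_mul_card_subgroup ((T : Subgroup G).subgroupOf N)
    have h2 : Nat.card ((T : Subgroup G).subgroupOf N) = 9 := by
      rw [← hcard]
      exact Nat.card_congr (Subgroup.subgroupOfEquivOfLe hTN).toEquiv
    rw [h2, hK.card_four] at h1
    omega
  have hsq : ∀ g ∈ N, g * g ∈ (T : Subgroup G) := by
    intro g hg
    have h1 : ((g : G) : G) = g := rfl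
    have h2 : ((⟨g, hg⟩ : N) : N ⧸ (T : Subgroup G).subgroupOf N) ^ 2 = 1 := by
      have := Monoid.pow_exponent_eq_one ((⟨g, hg⟩ : N) : N ⧸ (T : Subgroup G).subgroupOf N)
      rwa [hK.exponent_two] at this
    have h3 : ((⟨g, hg⟩ ^ 2 : N) : N ⧸ (T : Subgroup G).subgroupOf N) = 1 := by
      rw [QuotientGroup.mk_pow]
      exact h2
    rw [QuotientGroup.eq_one_iff, Subgroup.mem_subgroupOf] at h3
    simpa [pow_two] using h3
  have hb := Cfsg.Agent.Lib.Coprime.Sub333.main (T : Subgroup G) hTc hT3 hcard hC hN36 hsq hloc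
  have hidx : 0 < N.index := Nat.pos_of_ne_zero Subgroup.index_ne_zero_of_finite
  have hle : N.index ≤ 2 := by
    by_contra hcon
    push Not at hcon
    nlinarith
  have hmod := card_sylow_modEq_one 3 G
  rw [Sylow.card_eq_index_normalizer T] at hmod
  have h1 : N.index = 1 := by
    have h2 : N.index % 3 = 1 := hmod
    omega
  exact Subgroup.index_eq_one.mp h1

end Cfsg.Agent.S3805
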