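import Cfsg.Statements.S3815
-- import your own Cfsg.Agent.* helpers here
import Mathlib

set_option autoImplicit false
open Cfsg

namespace Cfsg.Agent.S3815

variable {G : Type*} [Group G]

theorem orderOf_conj_eq (g x : G) : orderOf (g * x * g⁻¹) = orderOf x := by
  have := orderOf_injective (MulAut.conj g).toMonoidHom (MulAut.conj g).injective x
  simpa [MulAut.conj_apply] using this

/-- The set of "good" p'-elements as a subgroup. -/
def goodSet [Finite G] (p : ℕ) : Subgroup G where
  carrier := {d | (orderOf d).Coprime p ∧ ∀ g : G, (orderOf g).Coprime p → (orderOf (d * g)).Coprime p}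
  one_mem' := by
    refine ⟨by simp, ?_⟩
    intro g hg
    simpa using hg
  mul_mem' := by
    rintro a b ⟨ha1, ha2⟩ ⟨hb1, hb2⟩
    refine ⟨?_, ?_⟩
    · exact ha2 b hb1
    · intro g hg
      rw [mul_assoc]
      exact ha2 _ (hb2 g hg)
  inv_mem' := by
    rintro a ⟨ha1, ha2⟩
    have hpow : ∀ n : ℕ, (orderOf (a ^ n)).Coprime p ∧
        ∀ g : G, (orderOf g).Coprime p → (orderOf (a ^ n * g)).Coprime p := by
      intro n
      induction n with
      | zero => simp
      | succ n ih =>
        constructor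
        · rw [pow_succ']
          exact ha2 _ ih.1
        · intro g hg
          rw [pow_succ', mul_assoc]
          exact ha2 _ (ih.2 g hg)
    obtain ⟨n, hn⟩ : ∃ n : ℕ, a⁻¹ = a ^ n := by
      have hpos : 0 < orderOf a := orderOf_pos a
      refine ⟨orderOf a - 1, ?_⟩
      rw [inv_eq_iff_mul_eq_one, ← pow_succ']
      have : orderOf a - 1 + 1 = orderOf a := by omega
      rw [this, pow_orderOf_eq_one]
    rw [hn]
    exact hpow n

theorem goodSet_normal [Finite G] (p : ℕ) : (goodSet (G := G) p).Normal := by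
  constructor
  rintro d ⟨hd1, hd2⟩ g
  refine ⟨?_, ?_⟩
  · rw [orderOf_conj_eq]; exact hd1
  · intro h hh
    have e : g * d * g⁻¹ * h = g * (d * (g⁻¹ * h * g⁻¹⁻¹)) * g⁻¹ := by group
    rw [e, orderOf_conj_eq]
    apply hd2
    rw [orderOf_conj_eq]
    exact hh

theorem goodSet_coprime [Finite G] (p : ℕ) [Fact p.Prime] : (Nat.card (goodSet (G := G) p)).Coprime p := by
  rw [Nat.coprime_comm, Nat.Prime.coprime_iff_not_dvd Fact.out]
  intro hdvd
  obtain ⟨x, hx⟩ := exists_prime_orderOf_dvd_card' p hdvd
  have hx2 := x.2.1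
  rw [Subgroup.orderOf_coe, hx] at hx2
  exact (Nat.Prime.coprime_iff_not_dvd (Fact.out : p.Prime)).mp hx2.symm (dvd_refl p)

/-- Let G be a finite group, p a prime and d ∈ G an element of order prime to p. If dg has order prime to p for every element g ∈ G of order prime to p, then d ∈ O_{p'}(G). -/
theorem result {G : Type*} [Group G] [Finite G] {p : ℕ} [Fact p.Prime]
    (d : G) (hd : (orderOf d).Coprime p)
    (h : ∀ g : G, (orderOf g).Coprime p → (orderOf (d * g)).Coprime p) :
    d ∈ Cfsg.pPrimeCore p G := by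
  have := goodSet_normal (G := G) p
  have h1 : goodSet (G := G) p ≤ Cfsg.pPrimeCore p G :=
    le_sSup ⟨this, goodSet_coprime p⟩
  exact h1 ⟨hd, h⟩

end Cfsg.Agent.S3815
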