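import Cfsg.Statements.S3819
-- import your own Cfsg.Agent.* helpers here
import Mathlib
import Cfsg.Agent.Lib.Coprime.BProp
import Cfsg.Agent.Lib.Coprime.Action
import Cfsg.Agent.Lib.Coprime.PLen
import Cfsg.Agent.Lib.OddLocal.CoprimeFix
import Cfsg.Agent.Lib.OddLocal.PGroup
import Cfsg.Agent.Lib.Char.PBlock
import Cfsg.Agent.Lib.Struct.PLen

set_option autoImplicit false
open Cfsg

namespace Cfsg.Agent.S3819

open Subgroup
open scoped commutatorElement

section Core

variable {X : Type*} [Group X] [Finite X]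

/-- The `q`-core of a solvable normal subgroup without normal `q'`-subgroups. -/
theorem exists_Q {q : ℕ} [hq : Fact q.Prime] (H K : Subgroup X) (hKH : K ≤ H) (hKn : K.Normal)
    (hsol : Group.IsSolvable K)
    (hO : ∀ R : Subgroup X, R ≤ H → (∀ h ∈ H, ∀ r ∈ R, h * r * h⁻¹ ∈ R) → (Nat.card R).Coprime q → R = ⊥) :
    ∃ Q : Subgroup X, Q ≤ K ∧ Q.Normal ∧ IsPGroup q Q ∧
      ∀ x ∈ K, x ∈ centralizer (Q : Set X) → x ∈ Q := by
  haveI := hKn
  haveI hc1 := Cfsg.Agent.Lib.Basic.pCore_characteristic (G := K) q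
  haveI hc2 := Cfsg.Agent.Lib.Basic.pPrimeCore_characteristic (G := K) q
  have hO0 : Cfsg.pPrimeCore q K = ⊥ := by
    have hn : ((Cfsg.pPrimeCore q K).map K.subtype).Normal :=
      Cfsg.Agent.Lib.Coprime.PLen.normal_map_of_characteristic _
    have h1 := hO ((Cfsg.pPrimeCore q K).map K.subtype)
      (fun x hx => by
        obtain ⟨y, _, rfl⟩ := hx
        exact hKH y.2)
      (fun h _ r hr => hn.conj_mem r hr h)
      (by
        have h2 : Nat.card ((Cfsg.pPrimeCore q K).map K.subtype) = Nat.card (Cfsg.pPrimeCore q K) :=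
          Nat.card_congr (Subgroup.equivMapOfInjective _ K.subtype K.subtype_injective).toEquiv.symm
        rw [h2]
        exact Cfsg.Agent.Lib.Basic.pPrimeCore_coprime q)
    exact (Subgroup.map_eq_bot_iff_of_injective _ K.subtype_injective).1 h1
  have hps := Cfsg.Agent.Lib.Struct.isPSolvable_of_isSolvable q _ K rfl hsol
  have hcent := Cfsg.Agent.Lib.Char.centralizer_pCore_le_of_isPSolvable hps hO0
  refine ⟨(Cfsg.pCore q K).map K.subtype, ?_, Cfsg.Agent.Lib.Coprime.PLen.normal_map_of_characteristic _, ?_, ?_⟩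
  · rintro _ ⟨y, _, rfl⟩
    exact y.2
  · exact (Cfsg.Agent.Lib.Basic.pCore_isPGroup q).map K.subtype
  · intro x hx hxc
    have h3 : (⟨x, hx⟩ : K) ∈ centralizer ((Cfsg.pCore q K : Subgroup K) : Set K) := by
      rw [Subgroup.mem_centralizer_iff]
      intro y hy
      apply Subtype.ext
      have h4 := Subgroup.mem_centralizer_iff.1 hxc (y : X) ⟨y, hy, rfl⟩
      exact h4
    exact ⟨⟨x, hx⟩, hcent h3, rfl⟩

/-- `T` centralizes `Q` by the `A × B` lemma. -/
theorem core_centralizes {q : ℕ} [hq : Fact q.Prime] (H Q T : Subgroup X) (z : X)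
    (hQH : Q ≤ H) (hQn : Q.Normal) (hQ : IsPGroup q Q)
    (hzq : ∃ k, orderOf z = q ^ k)
    (hTz : ∀ t ∈ T, t * z = z * t)
    (hTq : (Nat.card T).Coprime q)
    (hTn : ∀ c ∈ H, c * z = z * c → ∀ t ∈ T, c * t * c⁻¹ ∈ T) :
    T ≤ centralizer (Q : Set X) := by
  have hQT : ∀ x ∈ Q, x ∈ T → x = 1 := by
    intro x hx hxT
    have h1 : orderOf x ∣ Nat.card T := by
      have := Subgroup.orderOf_dvd_natCard T hxT
      exact this
    obtain ⟨m, hm⟩ := hQ ⟨x, hx⟩
    have h2 : x ^ q ^ m = 1 := by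
      have := congrArg Subtype.val hm
      simpa using this
    have h3 : orderOf x ∣ q ^ m := orderOf_dvd_of_pow_eq_one h2
    have h4 : (q ^ m).Coprime (Nat.card T) := Nat.Coprime.pow_left m hTq.symm
    have h5 : orderOf x = 1 := Nat.eq_one_of_dvd_coprimes h4 h3 h1
    exact orderOf_eq_one_iff.1 h5
  refine Cfsg.Agent.Lib.OddLocal.thompson_AxB q Q T (zpowers z) hQ ?_ hTq ?_ ?_ ?_ ?_
  · obtain ⟨k, hk⟩ := hzq
    apply IsPGroup.of_card (n := k)
    rw [Nat.card_zpowers, hk]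
  · intro t _
    rw [Subgroup.mem_normalizer_iff]
    intro x
    exact ⟨fun hx => hQn.conj_mem x hx t, fun hx => by
      have := hQn.conj_mem _ hx t⁻¹
      simpa [mul_assoc] using this⟩
  · intro t _
    rw [Subgroup.mem_normalizer_iff]
    intro x
    exact ⟨fun hx => hQn.conj_mem x hx t, fun hx => by
      have := hQn.conj_mem _ hx t⁻¹
      simpa [mul_assoc] using this⟩
  · intro a ha b hb
    obtain ⟨i, rfl⟩ := Subgroup.mem_zpowers_iff.1 hb
    have h1 : Commute a z := hTz a ha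
    exact (h1.zpow_right i).eq
  · intro a ha x hx hcomm
    have hxz : x * z = z * x := (hcomm z (Subgroup.mem_zpowers z)).symm
    have h1 : x * a * x⁻¹ ∈ T := hTn x (hQH hx) hxz a ha
    have h2 : x * a * x⁻¹ * a⁻¹ ∈ T := T.mul_mem h1 (T.inv_mem ha)
    have h3 : x * (a * x⁻¹ * a⁻¹) ∈ Q := Q.mul_mem hx (hQn.conj_mem _ (Q.inv_mem hx) a)
    have h4 : x * a * x⁻¹ * a⁻¹ = x * (a * x⁻¹ * a⁻¹) := by group
    have h5 := hQT _ (h4 ▸ h3) h2
    have h6 : x * a = a * x := by
      have : x * a * x⁻¹ = a := by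
        rw [mul_inv_eq_one] at h5
        exact h5
      rw [mul_inv_eq_iff_eq_mul] at this
      exact this
    exact h6.symm

/-- The second half: a normal `q'`-subgroup of the fixed points that centralizes `Q` is trivial. -/
theorem core_second {q : ℕ} [hq : Fact q.Prime] (H K Q D : Subgroup X)
    (hQK : Q ≤ K) (hKn : K.Normal) (hQn : Q.Normal) (hQ : IsPGroup q Q) (hDH : D ≤ H)
    (hcent : ∀ x ∈ K, x ∈ centralizer (Q : Set X) → x ∈ Q)
    (hDq : (Nat.card D).Coprime q)
    (hHK : ∀ h ∈ H, ∃ k ∈ K, ∃ c, (∀ d ∈ D, c * d * c⁻¹ ∈ D) ∧ h = k * c)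
    (hO : ∀ R : Subgroup X, R ≤ H → (∀ h ∈ H, ∀ r ∈ R, h * r * h⁻¹ ∈ R) → (Nat.card R).Coprime q → R = ⊥) :
    D ⊓ centralizer (Q : Set X) = ⊥ := by
  have hCn : ∀ g : X, ∀ x, x ∈ centralizer (Q : Set X) → g * x * g⁻¹ ∈ centralizer (Q : Set X) := by
    intro g x hx
    rw [Subgroup.mem_centralizer_iff] at hx ⊢
    intro y hy
    have hy' : g⁻¹ * y * g ∈ Q := by
      have := hQn.conj_mem y hy g⁻¹
      simpa using this
    have h1 := hx _ hy'
    calc y * (g * x * g⁻¹) = g * ((g⁻¹ * y * g) * x) * g⁻¹ := by group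
      _ = g * (x * (g⁻¹ * y * g)) * g⁻¹ := by rw [h1]
      _ = g * x * g⁻¹ * y := by group
  -- elements of `D₁` centralize `K`
  have hcomm : ∀ d ∈ D ⊓ centralizer (Q : Set X), ∀ k ∈ K, d * k = k * d := by
    intro d hd k hk
    obtain ⟨hd1, hd2⟩ := Subgroup.mem_inf.1 hd
    set c := d * k * d⁻¹ * k⁻¹ with hc
    have hcK : c ∈ K := K.mul_mem (hKn.conj_mem k hk d) (K.inv_mem hk)
    have hcC : c ∈ centralizer (Q : Set X) := by
      have h1 : c = d * (k * d⁻¹ * k⁻¹) := by rw [hc]; group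
      rw [h1]
      exact (centralizer (Q : Set X)).mul_mem hd2 (hCn k _ ((centralizer (Q : Set X)).inv_mem hd2))
    have hcQ : c ∈ Q := hcent c hcK hcC
    have hdc : Commute d c := by
      have := Subgroup.mem_centralizer_iff.1 hd2 c hcQ
      exact this.symm
    have hpow : ∀ n : ℕ, d ^ n * k * (d ^ n)⁻¹ = c ^ n * k := by
      intro n
      induction n with
      | zero => simp
      | succ n ih =>
        calc d ^ (n + 1) * k * (d ^ (n + 1))⁻¹ = d * (d ^ n * k * (d ^ n)⁻¹) * d⁻¹ := by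
              rw [pow_succ']
              group
          _ = d * (c ^ n * k) * d⁻¹ := by rw [ih]
          _ = c ^ n * (d * k * d⁻¹) := by
              have h2 : Commute d (c ^ n) := hdc.pow_right n
              calc d * (c ^ n * k) * d⁻¹ = (d * c ^ n) * k * d⁻¹ := by group
                _ = (c ^ n * d) * k * d⁻¹ := by rw [h2.eq]
                _ = c ^ n * (d * k * d⁻¹) := by group
          _ = c ^ n * (c * k) := by
              have h3 : d * k * d⁻¹ = c * k := by rw [hc]; group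
              rw [h3]
          _ = c ^ (n + 1) * k := by rw [pow_succ]; group
    have h1 := hpow (orderOf d)
    rw [pow_orderOf_eq_one] at h1
    simp only [one_mul, inv_one, mul_one] at h1
    have h2 : c ^ orderOf d = 1 := by
      have : c ^ orderOf d * k = 1 * k := by rw [one_mul]; exact h1.symm
      exact mul_right_cancel this
    have h3 : orderOf c ∣ orderOf d := orderOf_dvd_of_pow_eq_one h2
    have h4 : orderOf d ∣ Nat.card D := Subgroup.orderOf_dvd_natCard D hd1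
    obtain ⟨m, hm⟩ := hQ ⟨c, hcQ⟩
    have h5 : c ^ q ^ m = 1 := by
      have := congrArg Subtype.val hm
      simpa using this
    have h6 : orderOf c ∣ q ^ m := orderOf_dvd_of_pow_eq_one h5
    have h7 : (q ^ m).Coprime (Nat.card D) := Nat.Coprime.pow_left m hDq.symm
    have h8 : orderOf c = 1 := Nat.eq_one_of_dvd_coprimes h7 h6 (h3.trans h4)
    have h9 : c = 1 := orderOf_eq_one_iff.1 h8
    rw [hc] at h9
    rw [mul_inv_eq_one, mul_inv_eq_iff_eq_mul] at h9
    exact h9
  apply hO _ (inf_le_left.trans hDH)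
  · intro h hh r hr
    obtain ⟨k, hk, c, hc, rfl⟩ := hHK h hh
    obtain ⟨hr1, hr2⟩ := Subgroup.mem_inf.1 hr
    have h1 : c * r * c⁻¹ ∈ D ⊓ centralizer (Q : Set X) :=
      Subgroup.mem_inf.2 ⟨hc r hr1, hCn c r hr2⟩
    have h2 : k * (c * r * c⁻¹) * k⁻¹ = c * r * c⁻¹ := by
      rw [← hcomm _ h1 k hk]
      group
    have h3 : k * c * r * (k * c)⁻¹ = k * (c * r * c⁻¹) * k⁻¹ := by group
    rw [h3, h2]
    exact h1
  · have h1 : Nat.card (D ⊓ centralizer (Q : Set X) : Subgroup X) ∣ Nat.card D :=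
      Subgroup.card_dvd_of_le inf_le_left
    exact Nat.Coprime.coprime_dvd_left h1 hDq

theorem quot_hO {G : Type*} [Group G] [Finite G] {q : ℕ} [hq : Fact q.Prime] (H N : Subgroup G) [hNn : N.Normal]
    (hN : N = (Cfsg.pPrimeCore q H).map H.subtype) (R : Subgroup (G ⧸ N))
    (hRH : R ≤ H.map (QuotientGroup.mk' N))
    (hRn : ∀ h ∈ H.map (QuotientGroup.mk' N), ∀ r ∈ R, h * r * h⁻¹ ∈ R)
    (hRq : (Nat.card R).Coprime q) : R = ⊥ := by
  have hNH : N ≤ H := by
    rw [hN]
    rintro _ ⟨y, _, rfl⟩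
    exact y.2
  have hNq : (Nat.card N).Coprime q := by
    have h2 : Nat.card N = Nat.card (Cfsg.pPrimeCore q H) := by
      rw [hN]
      exact Nat.card_congr (Subgroup.equivMapOfInjective _ H.subtype H.subtype_injective).toEquiv.symm
    rw [h2]
    exact Cfsg.Agent.Lib.Basic.pPrimeCore_coprime q
  set R' := R.comap (QuotientGroup.mk' N) with hR'
  have hR'H : R' ≤ H := by
    intro x hx
    obtain ⟨h, hh, he⟩ := hRH (Subgroup.mem_comap.1 hx)
    have h1 : h⁻¹ * x ∈ N := QuotientGroup.eq.1 he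
    have h2 : x = h * (h⁻¹ * x) := by group
    rw [h2]
    exact H.mul_mem hh (hNH h1)
  have hcard : Nat.card R' = Nat.card N * Nat.card R := Cfsg.Agent.Lib.Coprime.BP.card_comap_mk R
  have hsub : R'.subgroupOf H ≤ Cfsg.pPrimeCore q H := by
    apply Cfsg.Agent.Lib.Basic.le_pPrimeCore
    · constructor
      intro x hx g
      rw [Subgroup.mem_subgroupOf] at hx ⊢
      have h1 := hRn _ ⟨g, g.2, rfl⟩ _ (Subgroup.mem_comap.1 hx)
      exact h1
    · rw [Nat.card_congr (Subgroup.subgroupOfEquivOfLe hR'H).toEquiv, hcard]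
      exact Nat.Coprime.mul_left hNq hRq
  rw [eq_bot_iff]
  intro r hr
  obtain ⟨g, rfl⟩ := QuotientGroup.mk'_surjective N r
  have hg : g ∈ R' := hr
  have h1 : (⟨g, hR'H hg⟩ : H) ∈ Cfsg.pPrimeCore q H := hsub (Subgroup.mem_subgroupOf.2 hg)
  have h2 : g ∈ N := by
    rw [hN]
    exact ⟨_, h1, rfl⟩
  rw [Subgroup.mem_bot]
  exact (QuotientGroup.eq_one_iff g).2 h2

theorem mem_normalizer_of_normal' {G : Type*} [Group G] {N : Subgroup G} (hN : N.Normal) (y : G) :
    y ∈ normalizer (N : Set G) := by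
  rw [Subgroup.mem_normalizer_iff]
  intro x
  refine ⟨fun hx => hN.conj_mem x hx y, fun hx => ?_⟩
  have := hN.conj_mem _ hx y⁻¹
  have h2 : y⁻¹ * (y * x * y⁻¹) * y⁻¹⁻¹ = x := by group
  rwa [h2] at this

theorem conj_mem_core {G : Type*} [Group G] {q : ℕ} (C : Subgroup G) (c : G) (hc : c ∈ C) (t : G)
    (ht : t ∈ (Cfsg.pPrimeCore q C).map C.subtype) : c * t * c⁻¹ ∈ (Cfsg.pPrimeCore q C).map C.subtype := by
  haveI := Cfsg.Agent.Lib.Basic.pPrimeCore_normal (G := C) q
  obtain ⟨y, hy, rfl⟩ := ht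
  have h1 := (inferInstance : (Cfsg.pPrimeCore q C).Normal).conj_mem y hy ⟨c, hc⟩
  exact ⟨_, h1, rfl⟩

end Core

/-- Let G be a finite group with Sylow p-subgroup P and H = O_{p'}(G), and suppose G = PH and the commutator subgroup [H, P] is solvable. Let q be a prime and z an element of q-power order of C_H(P). Then (O_{q'}(C_H(z)) ∩ O_{q'}(C_H(P))) · [O_{q'}(C_H(z)), P] ≤ O_{q'}(H). -/
theorem result {G : Type*} [Group G] [Finite G] {p : ℕ} [Fact p.Prime]
    (P : Sylow p G) (hPH : Cfsg.pPrimeCore p G ⊔ (P : Subgroup G) = ⊤)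
    (hsol : Group.IsSolvable ↥⁅Cfsg.pPrimeCore p G, (P : Subgroup G)⁆)
    {q : ℕ} [Fact q.Prime] (z : G) (hzH : z ∈ Cfsg.pPrimeCore p G) (hzP : z ∈ Subgroup.centralizer ((P : Subgroup G) : Set G))
    (hz : ∃ k : ℕ, orderOf z = q ^ k) :
    ((Cfsg.pPrimeCore q ↥(Cfsg.pPrimeCore p G ⊓ Subgroup.centralizer ({z} : Set G))).map
        (Cfsg.pPrimeCore p G ⊓ Subgroup.centralizer ({z} : Set G)).subtype ⊓
      (Cfsg.pPrimeCore q ↥(Cfsg.pPrimeCore p G ⊓ Subgroup.centralizer ((P : Subgroup G) : Set G))).map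
        (Cfsg.pPrimeCore p G ⊓ Subgroup.centralizer ((P : Subgroup G) : Set G)).subtype) ⊔
    ⁅(Cfsg.pPrimeCore q ↥(Cfsg.pPrimeCore p G ⊓ Subgroup.centralizer ({z} : Set G))).map
        (Cfsg.pPrimeCore p G ⊓ Subgroup.centralizer ({z} : Set G)).subtype, (P : Subgroup G)⁆ ≤
    (Cfsg.pPrimeCore q ↥(Cfsg.pPrimeCore p G)).map (Cfsg.pPrimeCore p G).subtype := by
  classical
  set H := Cfsg.pPrimeCore p G with hH
  haveI hHn : H.Normal := Cfsg.Agent.Lib.Basic.pPrimeCore_normal p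
  haveI hch := Cfsg.Agent.Lib.Basic.pPrimeCore_characteristic (G := H) q
  have hHp : (Nat.card H).Coprime p := Cfsg.Agent.Lib.Basic.pPrimeCore_coprime p
  have hPp : IsPGroup p (P : Subgroup G) := P.isPGroup'
  obtain ⟨n₀, hn₀⟩ := IsPGroup.iff_card.1 hPp
  have hcopPH : (Nat.card (P : Subgroup G)).Coprime (Nat.card H) := by
    rw [hn₀]
    exact Nat.Coprime.pow_left n₀ hHp.symm
  have hPsol : Group.IsSolvable (P : Subgroup G) := by
    haveI := hPp.isNilpotent
    infer_instance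
  have hact : Cfsg.Agent.Lib.Coprime.CoprimeAction (P : Subgroup G) H :=
    ⟨fun y _ => mem_normalizer_of_normal' hHn y, hcopPH, Or.inl hPsol⟩
  set K : Subgroup G := ⁅H, (P : Subgroup G)⁆ with hK
  have hKH : K ≤ H := hact.commutator_le_self
  have hKn : K.Normal := by
    have h1 : H ⊔ (P : Subgroup G) ≤ normalizer (K : Set G) :=
      sup_le hact.le_normalizer_commutator' hact.le_normalizer_commutator
    rw [hPH] at h1
    constructor
    intro x hx g
    exact (Subgroup.mem_normalizer_iff.1 (h1 (Subgroup.mem_top g)) x).1 hx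
  set C₁ := H ⊓ centralizer ({z} : Set G) with hC₁
  set C₂ := H ⊓ centralizer ((P : Subgroup G) : Set G) with hC₂
  set T := (Cfsg.pPrimeCore q C₁).map C₁.subtype with hT
  set D := (Cfsg.pPrimeCore q C₂).map C₂.subtype with hD
  set N := (Cfsg.pPrimeCore q H).map H.subtype with hN
  haveI hNn : N.Normal := Cfsg.Agent.Lib.Coprime.PLen.normal_map_of_characteristic _
  have hNH : N ≤ H := by
    rintro _ ⟨y, _, rfl⟩
    exact y.2
  have hNq : (Nat.card N).Coprime q := by
    have h2 : Nat.card N = Nat.card (Cfsg.pPrimeCore q H) :=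
      Nat.card_congr (Subgroup.equivMapOfInjective _ H.subtype H.subtype_injective).toEquiv.symm
    rw [h2]
    exact Cfsg.Agent.Lib.Basic.pPrimeCore_coprime q
  have hTC : T ≤ C₁ := by
    rintro _ ⟨y, _, rfl⟩
    exact y.2
  have hDC : D ≤ C₂ := by
    rintro _ ⟨y, _, rfl⟩
    exact y.2
  have hTq : (Nat.card T).Coprime q := by
    have h2 : Nat.card T = Nat.card (Cfsg.pPrimeCore q C₁) :=
      Nat.card_congr (Subgroup.equivMapOfInjective _ C₁.subtype C₁.subtype_injective).toEquiv.symm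
    rw [h2]
    exact Cfsg.Agent.Lib.Basic.pPrimeCore_coprime q
  have hDq : (Nat.card D).Coprime q := by
    have h2 : Nat.card D = Nat.card (Cfsg.pPrimeCore q C₂) :=
      Nat.card_congr (Subgroup.equivMapOfInjective _ C₂.subtype C₂.subtype_injective).toEquiv.symm
    rw [h2]
    exact Cfsg.Agent.Lib.Basic.pPrimeCore_coprime q
  have hzcomm : ∀ y ∈ (P : Subgroup G), y * z = z * y := fun y hy =>
    Subgroup.mem_centralizer_iff.1 hzP y hy
  -- `P` normalizes `T`
  have hconj : ∀ y ∈ (P : Subgroup G), ∀ c ∈ C₁, y * c * y⁻¹ ∈ C₁ := by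
    intro y hy c hc
    obtain ⟨hc1, hc2⟩ := Subgroup.mem_inf.1 hc
    refine Subgroup.mem_inf.2 ⟨hHn.conj_mem c hc1 y, ?_⟩
    rw [Subgroup.mem_centralizer_singleton_iff] at hc2 ⊢
    have hyi : y⁻¹ * z = z * y⁻¹ := by
      have := hzcomm y hy
      calc y⁻¹ * z = y⁻¹ * (z * y) * y⁻¹ := by group
        _ = y⁻¹ * (y * z) * y⁻¹ := by rw [this]
        _ = z * y⁻¹ := by group
    calc y * c * y⁻¹ * z = y * c * (y⁻¹ * z) := by group
      _ = y * c * (z * y⁻¹) := by rw [hyi]
      _ = y * (c * z) * y⁻¹ := by group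
      _ = y * (z * c) * y⁻¹ := by rw [hc2]
      _ = (y * z) * c * y⁻¹ := by group
      _ = (z * y) * c * y⁻¹ := by rw [hzcomm y hy]
      _ = z * (y * c * y⁻¹) := by group
  have hTP : ∀ y ∈ (P : Subgroup G), ∀ t ∈ T, y * t * y⁻¹ ∈ T := by
    intro y hy t ht
    -- the conjugate of `T`
    set Ty : Subgroup ↥C₁ := (T.map (MulAut.conj y).toMonoidHom).subgroupOf C₁ with hTy
    have hTyle : T.map (MulAut.conj y).toMonoidHom ≤ C₁ := by
      rintro _ ⟨s, hs, rfl⟩
      exact hconj y hy s (hTC hs)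
    have hle : Ty ≤ Cfsg.pPrimeCore q C₁ := by
      apply Cfsg.Agent.Lib.Basic.le_pPrimeCore
      · constructor
        intro x hx g
        rw [hTy, Subgroup.mem_subgroupOf] at hx ⊢
        obtain ⟨s, hs, hsx⟩ := hx
        have hsx' : (x : G) = y * s * y⁻¹ := hsx.symm
        have hg' : y⁻¹ * (g : G) * y⁻¹⁻¹ ∈ C₁ := hconj y⁻¹ (P.1.inv_mem hy) _ g.2
        have h5 := conj_mem_core C₁ _ hg' s hs
        refine ⟨_, h5, ?_⟩
        change y * (y⁻¹ * (g : G) * y⁻¹⁻¹ * s * (y⁻¹ * (g : G) * y⁻¹⁻¹)⁻¹) * y⁻¹ = ((g * x * g⁻¹ : C₁) : G)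
        simp only [Subgroup.coe_mul, Subgroup.coe_inv, hsx']
        group
      · rw [hTy, Nat.card_congr (Subgroup.subgroupOfEquivOfLe hTyle).toEquiv]
        have h2 : Nat.card (T.map (MulAut.conj y).toMonoidHom) = Nat.card T :=
          Nat.card_congr (Subgroup.equivMapOfInjective _ _ (MulAut.conj y).injective).toEquiv.symm
        rw [h2]
        exact hTq
    have h3 : y * t * y⁻¹ ∈ T.map (MulAut.conj y).toMonoidHom := ⟨t, ht, rfl⟩
    have h4 : (⟨y * t * y⁻¹, hTyle h3⟩ : C₁) ∈ Cfsg.pPrimeCore q C₁ :=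
      hle (Subgroup.mem_subgroupOf.2 h3)
    exact ⟨_, h4, rfl⟩
  -- the quotient
  set π := QuotientGroup.mk' N with hπ
  have hπs : Function.Surjective π := QuotientGroup.mk'_surjective N
  have hker : ∀ x, π x = 1 → x ∈ N := fun x hx => (QuotientGroup.eq_one_iff x).1 hx
  have hO := fun R hRH hRn hRq => quot_hO (q := q) H N hN R hRH hRn hRq
  have hKsol : Group.IsSolvable (K.map π) := by
    haveI := hsol
    exact solvable_of_surjective (π.subgroupMap_surjective K)
  have hKn' : (K.map π).Normal := Subgroup.Normal.map hKn π hπs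
  obtain ⟨Q, hQK, hQn, hQq, hQc⟩ := exists_Q (q := q) (H.map π) (K.map π) (Subgroup.map_mono hKH) hKn' hKsol hO
  have hQH : Q ≤ H.map π := hQK.trans (Subgroup.map_mono hKH)
  -- `T̄` centralizes `Q`
  have hTbarq : (Nat.card (T.map π)).Coprime q := by
    have h1 : Nat.card (T.map π) ∣ Nat.card T := Subgroup.card_dvd_of_surjective _ (π.subgroupMap_surjective T)
    exact Nat.Coprime.coprime_dvd_left h1 hTq
  have hDbarq : (Nat.card (D.map π)).Coprime q := by
    have h1 : Nat.card (D.map π) ∣ Nat.card D := Subgroup.card_dvd_of_surjective _ (π.subgroupMap_surjective D)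
    exact Nat.Coprime.coprime_dvd_left h1 hDq
  have hzbar : ∃ k, orderOf (π z) = q ^ k := by
    obtain ⟨k, hk⟩ := hz
    have h1 : orderOf (π z) ∣ q ^ k := hk ▸ orderOf_map_dvd π z
    obtain ⟨j, _, hj⟩ := (Nat.dvd_prime_pow (Fact.out : q.Prime)).1 h1
    exact ⟨j, hj⟩
  have hTC' : T.map π ≤ centralizer (Q : Set (G ⧸ N)) := by
    refine core_centralizes (H.map π) Q (T.map π) (π z) hQH hQn hQq hzbar ?_ hTbarq ?_
    · rintro _ ⟨t, ht, rfl⟩
      have h1 : t * z = z * t := by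
        have := (Subgroup.mem_inf.1 (hTC ht)).2
        exact Subgroup.mem_centralizer_singleton_iff.1 this
      rw [← map_mul, h1, map_mul]
    · rintro _ ⟨c, hc, rfl⟩ hcz _ ⟨t, ht, rfl⟩
      -- lift `c` to an element of `C_H(z)`
      have hlift : ∃ n ∈ N, n * c ∈ centralizer ((zpowers z : Subgroup G) : Set G) := by
        apply Cfsg.Agent.Lib.OddLocal.exists_mul_mem_centralizer
        · intro y _
          exact mem_normalizer_of_normal' hNn y
        · obtain ⟨k, hk⟩ := hz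
          rw [Nat.card_zpowers, hk]
          exact Nat.Coprime.pow_right k hNq
        · right
          infer_instance
        · intro a ha
          obtain ⟨i, rfl⟩ := Subgroup.mem_zpowers_iff.1 ha
          apply hker
          have h1 : Commute (π c) (π z) := hcz
          have h2 : Commute (π c) ((π z) ^ i) := h1.zpow_right i
          simp only [map_mul, map_inv, map_zpow]
          rw [h2.eq]
          group
      obtain ⟨n, hn, hnc⟩ := hlift
      have hc' : n * c ∈ C₁ := by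
        refine Subgroup.mem_inf.2 ⟨H.mul_mem (hNH hn) hc, ?_⟩
        rw [Subgroup.mem_centralizer_singleton_iff]
        have := Subgroup.mem_centralizer_iff.1 hnc z (Subgroup.mem_zpowers z)
        exact this.symm
      have h3 := conj_mem_core C₁ _ hc' t ht
      have h4 : π (n * c) = π c := by
        have hπn : π n = 1 := (QuotientGroup.eq_one_iff n).2 hn
        rw [map_mul, hπn, one_mul]
      refine ⟨_, h3, ?_⟩
      simp only [map_mul, map_inv]
      rw [← map_mul π n c, h4]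
  have hTK : ∀ x, x ∈ T → x ∈ K → x ∈ N := by
    intro x hxT hxK
    apply hker
    have h1 : π x ∈ Q := hQc _ ⟨x, hxK, rfl⟩ (hTC' ⟨x, hxT, rfl⟩)
    have h2 : π x ∈ T.map π := ⟨x, hxT, rfl⟩
    obtain ⟨m, hm⟩ := hQq ⟨π x, h1⟩
    have h5 : (π x) ^ q ^ m = 1 := by
      have := congrArg Subtype.val hm
      simpa using this
    have h6 : orderOf (π x) ∣ q ^ m := orderOf_dvd_of_pow_eq_one h5
    have h7 : orderOf (π x) ∣ Nat.card (T.map π) := Subgroup.orderOf_dvd_natCard _ h2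
    have h8 : (q ^ m).Coprime (Nat.card (T.map π)) := Nat.Coprime.pow_left m hTbarq.symm
    exact orderOf_eq_one_iff.1 (Nat.eq_one_of_dvd_coprimes h8 h6 h7)
  have hD2 : D.map π ⊓ centralizer (Q : Set (G ⧸ N)) = ⊥ := by
    apply core_second (H.map π) (K.map π) Q (D.map π) hQK hKn' hQn hQq ?_ hQc hDbarq ?_ hO
    · exact Subgroup.map_mono (hDC.trans inf_le_left)
    · rintro _ ⟨h, hh, rfl⟩
      obtain ⟨k, hk, c, hc, rfl⟩ := hact.exists_commutator_mul_centralizer hh
      refine ⟨π k, ⟨k, hk, rfl⟩, π c, ?_, map_mul _ _ _⟩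
      rintro _ ⟨d, hd, rfl⟩
      refine ⟨_, conj_mem_core C₂ c hc d hd, ?_⟩
      simp only [map_mul, map_inv]
  apply sup_le
  · rintro x hx
    obtain ⟨hx1, hx2⟩ := Subgroup.mem_inf.1 hx
    apply hker
    have h1 : π x ∈ D.map π ⊓ centralizer (Q : Set (G ⧸ N)) :=
      Subgroup.mem_inf.2 ⟨⟨x, hx2, rfl⟩, hTC' ⟨x, hx1, rfl⟩⟩
    rw [hD2] at h1
    exact (Subgroup.mem_bot).1 h1
  · rw [Subgroup.commutator_le]
    intro t ht y hy
    apply hTK
    · have h1 := hTP y hy t⁻¹ (T.inv_mem ht)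
      have h2 : ⁅t, y⁆ = t * (y * t⁻¹ * y⁻¹) := by
        rw [commutatorElement_def]
        group
      rw [h2]
      exact T.mul_mem ht h1
    · exact Subgroup.commutator_mem_commutator ((hTC ht |> fun h => (Subgroup.mem_inf.1 h).1)) hy

end Cfsg.Agent.S3819
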