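import Cfsg.Statements.S3820
-- import your own Cfsg.Agent.* helpers here
import Mathlib
import Cfsg.Agent.Lib.Coprime.Conj

set_option autoImplicit false
open Cfsg

namespace Cfsg.Agent.S3820

/-- Call a subgroup H of G pronormal if H and gHg⁻¹ are conjugate inside ⟨H, gHg⁻¹⟩ for every g ∈ G. Let S ≤ H ≤ G be subgroups of a finite group with S pronormal in G (for instance S a Sylow subgroup). Then H is pronormal in G if and only if H and gHg⁻¹ are conjugate inside ⟨H, gHg⁻¹⟩ for every g ∈ N_G(S). In particular H is pronormal whenever N_G(S) ≤ H. -/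
theorem result {G : Type*} [Group G] [Finite G] (S H : Subgroup G) (hSH : S ≤ H)
    (hS : Cfsg.IsPronormal S) :
    Cfsg.IsPronormal H ↔
      ∀ g ∈ Subgroup.normalizer (S : Set G), ∃ w ∈ H ⊔ H.map (MulAut.conj g).toMonoidHom,
        H.map (MulAut.conj g).toMonoidHom = H.map (MulAut.conj w).toMonoidHom := by
  classical
  open Cfsg.Agent.Lib.Coprime in
  constructor
  · intro hH g _
    exact hH g
  · intro h g
    obtain ⟨x, hx, hxe⟩ := hS g
    -- n = x⁻¹ g normalizes S
    have hn : x⁻¹ * g ∈ Subgroup.normalizer (S : Set G) := by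
      rw [← conj_map_eq_iff_mem_normalizer, ← conj_map_conj_map, hxe, conj_map_conj_map,
        inv_mul_cancel, conj_map_one]
    obtain ⟨w, hw, hwe⟩ := h _ hn
    have hxle : x ∈ H ⊔ H.map (MulAut.conj g).toMonoidHom :=
      (sup_le_sup hSH (conj_map_mono hSH g)) hx
    set L := H ⊔ H.map (MulAut.conj g).toMonoidHom with hL
    have hHxle : H.map (MulAut.conj x).toMonoidHom ≤ L := by
      rintro _ ⟨y, hy, rfl⟩
      have : y ∈ L := (le_sup_left : H ≤ L) hy
      exact mul_mem (mul_mem hxle this) (inv_mem hxle)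
    have hgeq : (H.map (MulAut.conj (x⁻¹ * g)).toMonoidHom).map (MulAut.conj x).toMonoidHom
        = H.map (MulAut.conj g).toMonoidHom := by
      rw [conj_map_conj_map]
      congr 3
      group
    have hconj : (H ⊔ H.map (MulAut.conj (x⁻¹ * g)).toMonoidHom).map (MulAut.conj x).toMonoidHom ≤ L := by
      rw [Subgroup.map_sup, hgeq]
      exact sup_le hHxle le_sup_right
    have hxw : x * w * x⁻¹ ∈ L := hconj ⟨w, hw, by simp [MulAut.conj_apply]⟩
    refine ⟨x * w, ?_, ?_⟩
    · have : x * w = (x * w * x⁻¹) * x := by group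
      rw [this]
      exact mul_mem hxw hxle
    · rw [← hgeq, hwe, conj_map_conj_map]

end Cfsg.Agent.S3820
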