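import Cfsg.Statements.S3821
-- import your own Cfsg.Agent.* helpers here
import Mathlib
import Cfsg.Agent.Lib.Coprime.Conj

set_option autoImplicit false
open Cfsg

namespace Cfsg.Agent.S3821

open Cfsg.Agent.Lib.Coprime in
theorem map_conj_subgroupOf {G : Type*} [Group G] (A H : Subgroup G) (hHA : H ≤ A) (g : A) :
    ((H.subgroupOf A).map (MulAut.conj g).toMonoidHom).map A.subtype
      = H.map (MulAut.conj (g : G)).toMonoidHom := by
  ext x
  simp only [Subgroup.mem_map, Subgroup.mem_subgroupOf]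
  constructor
  · rintro ⟨y, ⟨z, hz, rfl⟩, rfl⟩
    exact ⟨z, hz, by simp [MulAut.conj_apply]⟩
  · rintro ⟨z, hz, rfl⟩
    refine ⟨MulAut.conj g ⟨z, hHA hz⟩, ⟨⟨z, hHA hz⟩, hz, rfl⟩, ?_⟩
    simp [MulAut.conj_apply]

theorem map_subgroupOf' {G : Type*} [Group G] (A H : Subgroup G) (hHA : H ≤ A) :
    (H.subgroupOf A).map A.subtype = H := by
  rw [Subgroup.subgroupOf_map_subtype, inf_of_le_left hHA]

/-- Let A be a normal subgroup of the finite group G and H a subgroup of A. Then H is pronormal in G (H and gHg⁻¹ conjugate inside ⟨H, gHg⁻¹⟩ for every g ∈ G) if and only if H is pronormal in A and G = A · N_G(H). -/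
theorem result {G : Type*} [Group G] [Finite G] (A H : Subgroup G) [A.Normal] (hHA : H ≤ A) :
    Cfsg.IsPronormal H ↔ (Cfsg.IsPronormal (H.subgroupOf A) ∧ A ⊔ Subgroup.normalizer (H : Set G) = ⊤) := by
  classical
  open Cfsg.Agent.Lib.Coprime in
  have hAn : A.Normal := inferInstance
  have hconjA : ∀ g : G, H.map (MulAut.conj g).toMonoidHom ≤ A := by
    rintro g _ ⟨y, hy, rfl⟩
    exact hAn.conj_mem y (hHA hy) g
  constructor
  · intro hH
    constructor
    · intro g
      obtain ⟨x, hx, hxe⟩ := hH (g : G)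
      have hsup : H ⊔ H.map (MulAut.conj (g : G)).toMonoidHom ≤ A := sup_le hHA (hconjA g)
      refine ⟨⟨x, hsup hx⟩, ?_, ?_⟩
      · have e : ((H.subgroupOf A) ⊔ (H.subgroupOf A).map (MulAut.conj g).toMonoidHom).map A.subtype
            = H ⊔ H.map (MulAut.conj (g : G)).toMonoidHom := by
          rw [Subgroup.map_sup, map_subgroupOf' A H hHA, map_conj_subgroupOf A H hHA]
        rw [← e] at hx
        obtain ⟨y, hy, hyx⟩ := hx
        have : y = ⟨x, hsup (by rw [← e]; exact ⟨y, hy, hyx⟩)⟩ := Subtype.ext hyx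
        rwa [this] at hy
      · apply Subgroup.map_injective A.subtype_injective
        rw [map_conj_subgroupOf A H hHA, map_conj_subgroupOf A H hHA]
        exact hxe
    · rw [eq_top_iff]
      intro g _
      obtain ⟨x, hx, hxe⟩ := hH g
      have hsup : H ⊔ H.map (MulAut.conj g).toMonoidHom ≤ A := sup_le hHA (hconjA g)
      have hxA : x ∈ A := hsup hx
      have hn : x⁻¹ * g ∈ Subgroup.normalizer (H : Set G) := by
        rw [← conj_map_eq_iff_mem_normalizer, ← conj_map_conj_map, hxe, conj_map_conj_map,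
          inv_mul_cancel, conj_map_one]
      have : g = x * (x⁻¹ * g) := by group
      rw [this]
      exact Subgroup.mul_mem_sup hxA hn
  · rintro ⟨hp, hsup⟩ g
    have hg : g ∈ A ⊔ Subgroup.normalizer (H : Set G) := by rw [hsup]; trivial
    rw [Subgroup.mem_sup_of_normal_left] at hg
    obtain ⟨a, ha, n, hn, rfl⟩ := hg
    have hn' := (conj_map_eq_iff_mem_normalizer H n).mpr hn
    have hgeq : H.map (MulAut.conj (a * n)).toMonoidHom = H.map (MulAut.conj a).toMonoidHom := by
      rw [← conj_map_conj_map, hn']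
    rw [hgeq]
    obtain ⟨x, hx, hxe⟩ := hp ⟨a, ha⟩
    refine ⟨(x : G), ?_, ?_⟩
    · have e : ((H.subgroupOf A) ⊔ (H.subgroupOf A).map (MulAut.conj (⟨a, ha⟩ : A)).toMonoidHom).map A.subtype
            = H ⊔ H.map (MulAut.conj a).toMonoidHom := by
        rw [Subgroup.map_sup, map_subgroupOf' A H hHA, map_conj_subgroupOf A H hHA]
      rw [← e]
      exact ⟨x, hx, rfl⟩
    · have h2 := congrArg (Subgroup.map A.subtype) hxe
      rwa [map_conj_subgroupOf A H hHA, map_conj_subgroupOf A H hHA] at h2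

end Cfsg.Agent.S3821
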