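import Cfsg.Statements.S3825
-- import your own Cfsg.Agent.* helpers here
import Mathlib

set_option autoImplicit false
open Cfsg

namespace Cfsg.Agent.S3825

open scoped commutatorElement in
theorem card_le_two {X : Type*} [Group X] (K : Subgroup X) (y : X) (h : ∀ k ∈ K, k = 1 ∨ k = y) :
    Nat.card K ≤ 2 := by
  have h1 : (K : Set X) ⊆ {1, y} := fun k hk => by simpa using h k hk
  calc Nat.card K = (K : Set X).ncard := (Nat.card_coe_set_eq _).symm
    _ ≤ ({1, y} : Set X).ncard := Set.ncard_le_ncard h1 (Set.toFinite _)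
    _ ≤ ({y} : Set X).ncard + 1 := Set.ncard_insert_le _ _
    _ = 2 := by rw [Set.ncard_singleton]

/-- Let U be a subgroup of a finite group H and w an involution of H normalizing U and commuting with exactly two elements of U, the identity and y. If V is a non-cyclic elementary abelian 2-subgroup of U containing y which is normal in U and invariant under w, then V is a Sylow 2-subgroup of U, V has order 4, and U/V is abelian. -/
theorem result {H : Type*} [Group H] [Finite H] (U : Subgroup H) (w : H) (hw : orderOf w = 2)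
    (hwU : w ∈ Subgroup.normalizer (U : Set H)) (y : H) (hy : y ≠ 1) (hyU : y ∈ U)
    (hfix : ∀ u ∈ U, w * u * w⁻¹ = u ↔ (u = 1 ∨ u = y))
    (V : Subgroup H) (hVU : V ≤ U) (hVn : (V.subgroupOf U).Normal) (hVw : ∀ v ∈ V, w * v * w⁻¹ ∈ V)
    (hVe : Cfsg.IsElementaryAbelian 2 V) (hVc : ¬ IsCyclic ↥V) (hyV : y ∈ V) :
    ¬ 2 ∣ V.relIndex U ∧ Nat.card ↥V = 4 ∧ ⁅U, U⁆ ≤ V := by
  classical
  have hw2 : w * w = 1 := by
    have h1 := pow_orderOf_eq_one w
    rw [hw, pow_two] at h1
    exact h1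
  have hwi : w⁻¹ = w := inv_eq_of_mul_eq_one_left hw2
  have hV2 : ∀ v ∈ V, v * v = 1 := fun v hv => by
    have h1 := hVe.2 v hv
    rwa [pow_two] at h1
  have hVcomm : ∀ a ∈ V, ∀ b ∈ V, a * b = b * a := fun a ha b hb => by
    have hc := hVe.1.is_comm.comm ⟨a, ha⟩ ⟨b, hb⟩
    exact congrArg Subtype.val hc
  -- the hom `v ↦ v σ(v)` on `V`
  let φ : V →* V :=
    { toFun := fun v => ⟨v.1 * (w * v.1 * w⁻¹), V.mul_mem v.2 (hVw v.1 v.2)⟩
      map_one' := by
        apply Subtype.ext
        simp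
      map_mul' := by
        intro a b
        apply Subtype.ext
        show a.1 * b.1 * (w * (a.1 * b.1) * w⁻¹) = a.1 * (w * a.1 * w⁻¹) * (b.1 * (w * b.1 * w⁻¹))
        have h1 : w * (a.1 * b.1) * w⁻¹ = (w * a.1 * w⁻¹) * (w * b.1 * w⁻¹) := by group
        rw [h1]
        have h2 := hVcomm b.1 b.2 _ (hVw a.1 a.2)
        calc a.1 * b.1 * (w * a.1 * w⁻¹ * (w * b.1 * w⁻¹))
            = a.1 * (b.1 * (w * a.1 * w⁻¹)) * (w * b.1 * w⁻¹) := by group
          _ = a.1 * ((w * a.1 * w⁻¹) * b.1) * (w * b.1 * w⁻¹) := by rw [h2]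
          _ = _ := by group }
  have hφ : ∀ v : V, (φ v).1 = v.1 * (w * v.1 * w⁻¹) := fun v => rfl
  have hsσ : ∀ u : H, w * (w * u * w⁻¹) * w⁻¹ = u := by
    intro u
    calc w * (w * u * w⁻¹) * w⁻¹ = (w * w) * u * (w * w)⁻¹ := by group
      _ = u := by rw [hw2]; group
  -- image of `φ`
  have him : ∀ v : V, (φ v).1 = 1 ∨ (φ v).1 = y := by
    intro v
    apply (hfix _ (hVU (φ v).2)).mp
    rw [hφ]
    have h1 : w * (v.1 * (w * v.1 * w⁻¹)) * w⁻¹ = (w * v.1 * w⁻¹) * (w * (w * v.1 * w⁻¹) * w⁻¹) := by group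
    rw [h1, hsσ]
    exact (hVcomm _ (hVw v.1 v.2) _ v.2)
  have hker : ∀ v : V, (φ v).1 = 1 → v.1 = 1 ∨ v.1 = y := by
    intro v hv
    apply (hfix _ (hVU v.2)).mp
    rw [hφ] at hv
    have h1 : w * v.1 * w⁻¹ = v.1⁻¹ := eq_inv_of_mul_eq_one_right hv
    rw [h1]
    exact inv_eq_of_mul_eq_one_left (hV2 _ v.2)
  -- order of `V`
  have hcard_le : Nat.card V ≤ 4 := by
    have h1 : Nat.card φ.ker ≤ 2 := by
      apply card_le_two _ (⟨y, hyV⟩ : V)
      intro k hk
      have hk1 : φ k = 1 := hk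
      rcases hker k (by rw [hk1]; rfl) with h | h
      · left
        exact Subtype.ext h
      · right
        exact Subtype.ext h
    have h2 : Nat.card φ.range ≤ 2 := by
      apply card_le_two _ (⟨y, hyV⟩ : V)
      rintro _ ⟨v, rfl⟩
      rcases him v with h | h
      · left
        exact Subtype.ext h
      · right
        exact Subtype.ext h
    have h3 := Subgroup.card_mul_index φ.ker
    rw [Subgroup.index_ker] at h3
    rw [← h3]
    calc Nat.card φ.ker * Nat.card φ.range ≤ 2 * 2 := Nat.mul_le_mul h1 h2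
      _ = 4 := rfl
  have hVp : IsPGroup 2 V := by
    intro v
    exact ⟨1, Subtype.ext (by simpa using hVe.2 v.1 v.2)⟩
  obtain ⟨n, hn⟩ := IsPGroup.iff_card.mp hVp
  have hcard : Nat.card V = 4 := by
    rw [hn] at hcard_le ⊢
    have hn2 : n ≤ 2 := by
      by_contra hlt
      push Not at hlt
      have : 2 ^ 3 ≤ 2 ^ n := Nat.pow_le_pow_right (by norm_num) hlt
      omega
    interval_cases n
    · exfalso
      apply hVc
      haveI : Subsingleton V := by
        have h1 : Nat.card V = 1 := by rw [hn]; rfl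
        exact (Nat.card_eq_one_iff_unique.mp h1).1
      infer_instance
    · exfalso
      apply hVc
      haveI : Fact (Nat.card V).Prime := ⟨by rw [hn]; norm_num⟩
      exact isCyclic_of_prime_card rfl
    · rfl
  -- some `v` with `v σ(v) = y`
  have hsurj : ∃ v : V, (φ v).1 = y := by
    by_contra hno
    push Not at hno
    have h1 : ∀ v : V, (v : H) = 1 ∨ (v : H) = y := by
      intro v
      apply hker
      rcases him v with h | h
      · exact h
      · exact absurd h (hno v)
    have h2 : Nat.card V ≤ 2 := by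
      have h3 : Nat.card (⊤ : Subgroup V) ≤ 2 := by
        apply card_le_two _ (⟨y, hyV⟩ : V)
        intro k _
        rcases h1 k with h | h
        · left
          exact Subtype.ext h
        · right
          exact Subtype.ext h
      rwa [Subgroup.card_top] at h3
    omega
  obtain ⟨v₀, hv₀⟩ := hsurj
  rw [hφ] at hv₀
  -- the automorphism on `U`
  let σ : U →* U :=
    { toFun := fun u => ⟨w * u.1 * w⁻¹, (Subgroup.mem_normalizer_iff.mp hwU u.1).mp u.2⟩
      map_one' := by
        apply Subtype.ext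
        simp
      map_mul' := by
        intro a b
        apply Subtype.ext
        show w * (a.1 * b.1) * w⁻¹ = (w * a.1 * w⁻¹) * (w * b.1 * w⁻¹)
        group }
  have hσ : ∀ u : U, (σ u).1 = w * u.1 * w⁻¹ := fun u => rfl
  let V' : Subgroup U := V.subgroupOf U
  haveI : V'.Normal := hVn
  have hle : V' ≤ V'.comap σ := by
    intro v hv
    rw [Subgroup.mem_comap]
    exact hVw v.1 hv
  let σb : (U ⧸ V') →* (U ⧸ V') := QuotientGroup.map V' V' σ hle
  have hσb : ∀ u : U, σb (QuotientGroup.mk u) = QuotientGroup.mk (σ u) := fun u => rfl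
  have hinv : Function.Involutive σb := by
    intro x
    induction x using QuotientGroup.induction_on with
    | H u =>
      rw [hσb, hσb]
      congr 1
      apply Subtype.ext
      rw [hσ, hσ]
      exact hsσ u.1
  have hfpf : MonoidHom.FixedPointFree σb := by
    intro x hx
    induction x using QuotientGroup.induction_on with
    | H u =>
      rw [hσb] at hx
      -- `t = u⁻¹ σ(u)`
      have ht : u⁻¹ * σ u ∈ V' := by
        apply QuotientGroup.eq.mp
        exact hx.symm
      have ht' : u.1⁻¹ * (w * u.1 * w⁻¹) ∈ V := ht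
      let t := u.1⁻¹ * (w * u.1 * w⁻¹)
      have htfix : w * t * w⁻¹ = t := by
        have h1 : w * t * w⁻¹ = (w * u.1⁻¹ * w⁻¹) * (w * (w * u.1 * w⁻¹) * w⁻¹) := by
          show w * (u.1⁻¹ * (w * u.1 * w⁻¹)) * w⁻¹ = _
          group
        rw [h1, hsσ]
        have h2 : t * t = 1 := hV2 t ht'
        have h3 : t⁻¹ = t := inv_eq_of_mul_eq_one_left h2
        rw [← h3]
        show _ = (u.1⁻¹ * (w * u.1 * w⁻¹))⁻¹
        group
      have htU : t ∈ U := hVU ht'
      rw [QuotientGroup.eq_one_iff]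
      show u.1 ∈ V
      rcases (hfix t htU).mp htfix with h | h
      · -- `σ u = u`
        have h1 : w * u.1 * w⁻¹ = u.1 := by
          have h2 : u.1⁻¹ * (w * u.1 * w⁻¹) = 1 := h
          exact (inv_mul_eq_one.mp h2).symm
        rcases (hfix u.1 u.2).mp h1 with h2 | h2
        · rw [h2]; exact V.one_mem
        · rw [h2]; exact hyV
      · -- `σ (u v₀) = u v₀`
        have h1 : w * (u.1 * v₀.1) * w⁻¹ = u.1 * v₀.1 := by
          have h2 : w * (u.1 * v₀.1) * w⁻¹ = (w * u.1 * w⁻¹) * (w * v₀.1 * w⁻¹) := by group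
          have h3 : w * u.1 * w⁻¹ = u.1 * y := by
            have h4 : u.1⁻¹ * (w * u.1 * w⁻¹) = y := h
            rw [← h4]
            group
          rw [h2, h3, ← hv₀]
          have h5 := hV2 _ (hVw v₀.1 v₀.2)
          calc u.1 * (v₀.1 * (w * v₀.1 * w⁻¹)) * (w * v₀.1 * w⁻¹)
              = u.1 * v₀.1 * ((w * v₀.1 * w⁻¹) * (w * v₀.1 * w⁻¹)) := by group
            _ = u.1 * v₀.1 := by rw [h5, mul_one]
        have h2 : u.1 * v₀.1 ∈ V := by
          rcases (hfix _ (U.mul_mem u.2 (hVU v₀.2))).mp h1 with h2 | h2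
          · rw [h2]; exact V.one_mem
          · rw [h2]; exact hyV
        have h3 := V.mul_mem h2 (V.inv_mem v₀.2)
        simpa using h3
  refine ⟨?_, hcard, ?_⟩
  · have h1 := hfpf.odd_card_of_involutive hinv
    have h2 : V.relIndex U = Nat.card (U ⧸ V') := rfl
    rw [h2]
    exact h1.not_two_dvd_nat
  · rw [Subgroup.commutator_le]
    intro a ha b hb
    have h1 := hfpf.commute_all_of_involutive hinv (QuotientGroup.mk ⟨a, ha⟩) (QuotientGroup.mk ⟨b, hb⟩)
    have h2 : ((⟨a, ha⟩ : U) * ⟨b, hb⟩ * (⟨a, ha⟩ : U)⁻¹ * (⟨b, hb⟩ : U)⁻¹) ∈ V' := by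
      rw [← QuotientGroup.eq_one_iff]
      simp only [QuotientGroup.mk_mul, QuotientGroup.mk_inv]
      rw [h1.eq]
      group
    exact h2

end Cfsg.Agent.S3825
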