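import Cfsg.Statements.S3836
-- import your own Cfsg.Agent.* helpers here
import Mathlib
import Cfsg.Agent.Lib.Basic.Core

set_option autoImplicit false
open Cfsg

namespace Cfsg.Agent.S3836

/-- Let G be a finite group that is p-stable in the normalizer form: for every p-subgroup Q and every x ∈ N_G(Q) with [Q, x, x] = 1, the image of x in N_G(Q)/C_G(Q) lies in O_p(N_G(Q)/C_G(Q)). Then every subgroup of G is p-stable in the same sense. -/
theorem result {G : Type*} [Group G] [Finite G] {p : ℕ} [Fact p.Prime] (hst : Cfsg.IsNormalizerPStable p G) (H : Subgroup G) : Cfsg.IsNormalizerPStable p ↥H := by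
  classical
  intro P hP g hg hq
  -- the image of P in G
  set Q : Subgroup G := P.map H.subtype with hQdef
  have hQ : IsPGroup p Q := hP.map _
  have hgG : (g : G) ∈ Subgroup.normalizer (Q : Set G) := by
    rw [Subgroup.mem_normalizer_iff] at hg ⊢
    intro y
    constructor
    · rintro ⟨z, hz, rfl⟩
      refine ⟨g * z * g⁻¹, (hg z).mp hz, ?_⟩
      simp
    · rintro ⟨z, hz, hzy⟩
      refine ⟨g⁻¹ * z * g, ?_, ?_⟩
      · apply (hg _).mpr
        have e : g * (g⁻¹ * z * g) * g⁻¹ = z := by group
        rw [e]; exact hz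
      · simp only [Subgroup.subtype_apply, Subgroup.coe_mul, Subgroup.coe_inv] at hzy ⊢
        have : (z : G) = g * y * (g : G)⁻¹ := hzy
        rw [this]; group
  have hqG : ⁅⁅Q, Subgroup.zpowers (g : G)⁆, Subgroup.zpowers (g : G)⁆ = ⊥ := by
    have h1 : Subgroup.zpowers (g : G) = (Subgroup.zpowers g).map H.subtype := by
      rw [MonoidHom.map_zpowers]; rfl
    rw [h1, hQdef, ← Subgroup.map_commutator, ← Subgroup.map_commutator, hq, Subgroup.map_bot]
  have hmem := hst Q hQ (g : G) hgG hqG
  -- the natural map between normalizers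
  let φ : ↥(Subgroup.normalizer (P : Set H)) →* ↥(Subgroup.normalizer (Q : Set G)) :=
    { toFun := fun x => ⟨((x : H) : G), by
        have hx := x.2
        rw [Subgroup.mem_normalizer_iff] at hx ⊢
        intro y
        constructor
        · rintro ⟨z, hz, rfl⟩
          refine ⟨(x : H) * z * (x : H)⁻¹, (hx z).mp hz, ?_⟩
          simp
        · rintro ⟨z, hz, hzy⟩
          refine ⟨(x : H)⁻¹ * z * (x : H), ?_, ?_⟩
          · apply (hx _).mpr
            have e : (x : H) * ((x : H)⁻¹ * z * (x : H)) * (x : H)⁻¹ = z := by group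
            rw [e]; exact hz
          · simp only [Subgroup.subtype_apply, Subgroup.coe_mul, Subgroup.coe_inv] at hzy ⊢
            have : (z : G) = ((x : H) : G) * y * ((x : H) : G)⁻¹ := hzy
            rw [this]; group⟩
      map_one' := rfl
      map_mul' := fun _ _ => rfl }
  have hcomap : (Subgroup.centralizer (P : Set H)).subgroupOf (Subgroup.normalizer (P : Set H)) ≤
      ((Subgroup.centralizer (Q : Set G)).subgroupOf (Subgroup.normalizer (Q : Set G))).comap φ := by
    intro x hx
    rw [Subgroup.mem_comap, Subgroup.mem_subgroupOf, Subgroup.mem_centralizer_iff]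
    rw [Subgroup.mem_subgroupOf, Subgroup.mem_centralizer_iff] at hx
    rintro _ ⟨z, hz, rfl⟩
    exact congrArg Subtype.val (hx z hz)
  let φbar := QuotientGroup.map _ _ φ hcomap
  have hinj : Function.Injective φbar := by
    rw [injective_iff_map_eq_one]
    intro c hc
    obtain ⟨x, rfl⟩ := QuotientGroup.mk_surjective c
    have h1 : φbar (x : _ ⧸ _) = (φ x : _ ⧸ _) := rfl
    rw [h1, QuotientGroup.eq_one_iff, Subgroup.mem_subgroupOf, Subgroup.mem_centralizer_iff] at hc
    rw [QuotientGroup.eq_one_iff, Subgroup.mem_subgroupOf, Subgroup.mem_centralizer_iff]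
    intro z hz
    have := hc (z : G) ⟨z, hz, rfl⟩
    exact Subtype.ext this
  -- pull back the p-core
  have hN := (Cfsg.Agent.Lib.Basic.pCore_isPGroup (G := _ ⧸ (Subgroup.centralizer (Q : Set G)).subgroupOf (Subgroup.normalizer (Q : Set G))) p)
  have hle : (Cfsg.pCore p (_ ⧸ (Subgroup.centralizer (Q : Set G)).subgroupOf (Subgroup.normalizer (Q : Set G)))).comap φbar ≤ Cfsg.pCore p (_ ⧸ (Subgroup.centralizer (P : Set H)).subgroupOf (Subgroup.normalizer (P : Set H))) := by
    apply Cfsg.Agent.Lib.Basic.le_pCore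
    · exact Subgroup.Normal.comap inferInstance _
    · exact hN.comap_of_injective _ hinj
  apply hle
  rw [Subgroup.mem_comap]
  exact hmem

end Cfsg.Agent.S3836
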