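import Cfsg.Statements.S3838
-- import your own Cfsg.Agent.* helpers here
import Mathlib
import Cfsg.Agent.Lib.Basic.SchurZassenhaus
import Cfsg.Agent.Lib.Basic.Hall
import Cfsg.Agent.Lib.Coprime.KP
import Cfsg.Agent.Lib.Coprime.PGroup

set_option autoImplicit false
open Cfsg

namespace Cfsg.Agent.S3838

open scoped Pointwise commutatorElement
open Subgroup Cfsg.Agent.Lib.Coprime in
theorem lemmaA {X : Type*} [Group X] [Finite X] {p : ℕ} [Fact p.Prime] (P : Sylow p X)
    (Q : Subgroup X) [Q.Normal] (hQP : Q ≤ (P : Subgroup X))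
    (hcomm : ∀ a ∈ (P : Subgroup X), ∀ b ∈ (P : Subgroup X), a * b * a⁻¹ * b⁻¹ ∈ Q)
    (hfr : ∀ R : Subgroup X, R ≤ (P : Subgroup X) → R ⊔ Q = (P : Subgroup X) → R = (P : Subgroup X))
    (hstar : ∀ x ∈ normalizer ((P : Subgroup X) : Set X), ∃ u ∈ (P : Subgroup X),
      ∀ y ∈ (P : Subgroup X), x * y * x⁻¹ = u * y * u⁻¹) :
    Cfsg.HasNormalPComplement p X := by
  classical
  have hp : p.Prime := Fact.out
  let f := QuotientGroup.mk' Q
  have hf : Function.Surjective f := QuotientGroup.mk'_surjective Q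
  have hker : f.ker = Q := QuotientGroup.ker_mk' Q
  obtain ⟨Pb, hPb⟩ : ∃ Pb : Subgroup (X ⧸ Q), Pb = (P : Subgroup X).map f := ⟨_, rfl⟩
  have hcomap : Pb.comap f = (P : Subgroup X) := by
    rw [hPb, Subgroup.comap_map_eq, hker, sup_eq_left.mpr hQP]
  have hPbp : IsPGroup p Pb := by
    rw [hPb]
    exact P.isPGroup'.map f
  have hPbi : ¬ p ∣ Pb.index := by
    have h1 : Pb.index = (P : Subgroup X).index := by
      rw [← hcomap, Subgroup.index_comap_of_surjective _ hf]
    rw [h1]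
    exact P.not_dvd_index
  obtain ⟨Sb, hSb⟩ : ∃ Sb : Sylow p (X ⧸ Q), (Sb : Subgroup (X ⧸ Q)) = Pb :=
    ⟨IsPGroup.toSylow hPbp hPbi, IsPGroup.toSylow_coe hPbp hPbi⟩
  have hnorm : normalizer ((Sb : Subgroup (X ⧸ Q)) : Set (X ⧸ Q)) ≤
      centralizer ((Sb : Subgroup (X ⧸ Q)) : Set (X ⧸ Q)) := by
    intro xb hxb
    obtain ⟨x, rfl⟩ := hf xb
    rw [hSb] at hxb ⊢
    have hxP : x ∈ normalizer ((P : Subgroup X) : Set X) := by
      rw [← conj_map_eq_iff_mem_normalizer]
      apply Subgroup.eq_of_le_of_card_ge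
      · rintro _ ⟨y, hy, rfl⟩
        rw [← hcomap, Subgroup.mem_comap]
        have h1 : f y ∈ Pb := by
          rw [hPb]
          exact ⟨y, hy, rfl⟩
        have h2 := (mem_normalizer_iff.mp hxb (f y)).mp h1
        show f (x * y * x⁻¹) ∈ Pb
        rw [map_mul, map_mul, map_inv]
        exact h2
      · rw [card_conj_map]
    obtain ⟨u, hu, huy⟩ := hstar x hxP
    rw [mem_centralizer_iff]
    intro yb hyb
    rw [hPb] at hyb
    obtain ⟨y, hy, rfl⟩ := hyb
    have h1 := huy y hy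
    have h2 : f (u * y * u⁻¹ * y⁻¹) = 1 := by
      rw [← MonoidHom.mem_ker, hker]
      exact hcomm u hu y hy
    have h3 : f (x * y * x⁻¹ * y⁻¹) = 1 := by
      rw [h1]
      exact h2
    rw [map_mul, map_mul, map_mul, map_inv, map_inv, mul_inv_eq_one, mul_inv_eq_iff_eq_mul] at h3
    exact h3.symm
  obtain ⟨S₀, Mb, hMbn, hMbc⟩ := Cfsg.Agent.Lib.Coprime.KP.hasNormalPComplement_of_normalizer_le Sb hnorm
  have hcardMb : (Nat.card Mb).Coprime p := by
    have h1 : (S₀ : Subgroup (X ⧸ Q)).index = Nat.card Mb := hMbc.index_eq_card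
    have h2 := S₀.not_dvd_index
    rw [h1] at h2
    exact ((Nat.Prime.coprime_iff_not_dvd hp).2 h2).symm
  obtain ⟨M, hM⟩ : ∃ M : Subgroup X, M = Mb.comap f := ⟨_, rfl⟩
  haveI hMn : M.Normal := by
    rw [hM]
    exact hMbn.comap f
  have hQM : Q ≤ M := by
    intro z hz
    rw [hM, Subgroup.mem_comap]
    have : f z = 1 := by
      rw [← MonoidHom.mem_ker, hker]
      exact hz
    rw [this]
    exact one_mem _
  have hcardM : Nat.card M = Nat.card Q * Nat.card Mb := by
    rw [hM, Cfsg.Agent.Lib.Basic.card_comap_mk]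
  have hQp : IsPGroup p Q := P.isPGroup'.to_le hQP
  have hcopQ : (Nat.card Q).Coprime (Nat.card Mb) := by
    obtain ⟨a, ha⟩ := IsPGroup.iff_card.mp hQp
    rw [ha]
    exact Nat.Coprime.pow_left a hcardMb.symm
  -- a complement of `Q` in `M`
  have hcardQ' : Nat.card (Q.subgroupOf M) = Nat.card Q :=
    Nat.card_congr (Subgroup.subgroupOfEquivOfLe hQM).toEquiv
  have hidx : (Q.subgroupOf M).index = Nat.card Mb := by
    have h1 := (Q.subgroupOf M).card_mul_index
    rw [hcardQ', hcardM] at h1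
    exact Nat.eq_of_mul_eq_mul_left Nat.card_pos h1
  obtain ⟨H₀, hH₀⟩ := Subgroup.exists_right_complement'_of_coprime
    (N := Q.subgroupOf M) (by rw [hcardQ', hidx]; exact hcopQ)
  obtain ⟨H, hH⟩ : ∃ H : Subgroup X, H = H₀.map M.subtype := ⟨_, rfl⟩
  have hHM : H ≤ M := by
    rw [hH]
    exact Subgroup.map_subtype_le _
  have hcardH : Nat.card H = Nat.card Mb := by
    rw [hH, Subgroup.card_map_of_injective M.subtype_injective]
    have h1 := hH₀.card_mul_card
    rw [hcardQ', hcardM] at h1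
    exact Nat.eq_of_mul_eq_mul_left Nat.card_pos h1
  have hsupH : H ⊔ Q = M := by
    have h1 := hH₀.sup_eq_top
    have h2 := congrArg (Subgroup.map M.subtype) h1
    rw [Subgroup.map_sup, Subgroup.map_subgroupOf_eq_of_le hQM, ← hH, sup_comm,
      ← MonoidHom.range_eq_map, Subgroup.range_subtype] at h2
    exact h2
  have hcopH : (Nat.card Q).Coprime (Nat.card H) := by
    rw [hcardH]
    exact hcopQ
  have hsolvQ : Group.IsSolvable Q := by
    haveI := hQp.isNilpotent
    infer_instance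
  -- Frattini
  have hfrat : ∀ x : X, ∃ a ∈ Q, a⁻¹ * x ∈ normalizer (H : Set X) := by
    intro x
    obtain ⟨K, hK⟩ : ∃ K : Subgroup X, K = MulAut.conj x • H := ⟨_, rfl⟩
    have hcardK : Nat.card K = Nat.card H := by
      rw [hK]
      exact Nat.card_congr (Subgroup.equivSMul _ H).symm.toEquiv
    have hKeq : K = H.map (MulAut.conj x).toMonoidHom := hK
    have hsupK : H ⊔ Q = K ⊔ Q := by
      have h1 : K ⊔ Q = (H ⊔ Q).map (MulAut.conj x).toMonoidHom := by
        rw [Subgroup.map_sup, hKeq]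
        congr 1
        exact ((conj_map_eq_iff_mem_normalizer Q x).mpr (by
          rw [normalizer_eq_top_iff.mpr inferInstance]; exact mem_top _)).symm
      rw [h1, hsupH]
      exact ((conj_map_eq_iff_mem_normalizer M x).mpr (by
          rw [normalizer_eq_top_iff.mpr hMn]; exact mem_top _)).symm
    have hnt : ∀ L : Subgroup X, L ≤ normalizer (Q : Set X) := by
      intro L
      rw [normalizer_eq_top_iff.mpr inferInstance]
      exact le_top
    obtain ⟨a, ha, hae⟩ := Cfsg.Agent.Lib.Basic.schurZassenhaus_conj_rel Q H K (hnt _) (hnt _)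
      hcopH (by rw [hcardK]; exact hcopH) hsupK (Or.inl hsolvQ)
    refine ⟨a, ha, ?_⟩
    rw [← conj_map_eq_iff_mem_normalizer]
    have h1 : H.map (MulAut.conj a).toMonoidHom = H.map (MulAut.conj x).toMonoidHom := by
      rw [← hKeq, ← hae]
      rfl
    have h2 : (H.map (MulAut.conj x).toMonoidHom).map (MulAut.conj a⁻¹).toMonoidHom = H := by
      rw [← h1, conj_map_conj_map, inv_mul_cancel, conj_map_one]
    rw [← conj_map_conj_map]
    exact h2
  have hPN : (P : Subgroup X) ≤ normalizer (H : Set X) := by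
    have hR : (P : Subgroup X) ⊓ normalizer (H : Set X) = (P : Subgroup X) := by
      apply hfr _ inf_le_left
      apply le_antisymm (sup_le inf_le_left hQP)
      intro u hu
      obtain ⟨a, ha, han⟩ := hfrat u
      have h1 : a⁻¹ * u ∈ (P : Subgroup X) ⊓ normalizer (H : Set X) :=
        Subgroup.mem_inf.mpr ⟨mul_mem (inv_mem (hQP ha)) hu, han⟩
      have h2 : u = a * (a⁻¹ * u) := by group
      rw [h2, sup_comm]
      exact Subgroup.mul_mem_sup ha h1
    exact inf_eq_left.mp hR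
  have hHn : H.Normal := by
    rw [← normalizer_eq_top_iff, eq_top_iff]
    intro x _
    obtain ⟨a, ha, han⟩ := hfrat x
    have h2 : x = a * (a⁻¹ * x) := by group
    rw [h2]
    exact mul_mem (hPN (hQP ha)) han
  refine ⟨P, H, hHn, ?_⟩
  apply Subgroup.isComplement'_of_coprime
  · have h1 : Nat.card X = Nat.card Q * Nat.card (X ⧸ Q) := by
      rw [← Subgroup.index_eq_card, Subgroup.card_mul_index]
    have h2 : Nat.card (P : Subgroup X) = Nat.card Q * Nat.card Pb := by
      rw [← hcomap, Cfsg.Agent.Lib.Basic.card_comap_mk]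
    have h3 : Nat.card Pb = Nat.card (S₀ : Subgroup (X ⧸ Q)) := by
      rw [← hSb, Sylow.card_eq_multiplicity, Sylow.card_eq_multiplicity]
    have h4 := hMbc.card_mul_card
    rw [hcardH, h2, h3, h1, ← h4]
    ring
  · rw [hcardH]
    obtain ⟨a, ha⟩ := IsPGroup.iff_card.mp P.isPGroup'
    rw [ha]
    exact Nat.Coprime.pow_right a hcardMb

/-- Let G be a finite group with Sylow p-subgroup P such that N_G(P) has a normal p-complement. Then N_G(Q) has a normal p-complement for every subgroup Q with [P, P] ≤ Q ≤ Φ(P). -/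
theorem result {G : Type*} [Group G] [Finite G] {p : ℕ} [Fact p.Prime] (P : Sylow p G) (hN : Cfsg.HasNormalPComplement p ↥(Subgroup.normalizer ((P : Subgroup G) : Set G))) (Q : Subgroup G) (h1 : (commutator ↥(P : Subgroup G)).map (P : Subgroup G).subtype ≤ Q) (h2 : Q ≤ (frattini ↥(P : Subgroup G)).map (P : Subgroup G).subtype) : Cfsg.HasNormalPComplement p ↥(Subgroup.normalizer (Q : Set G)) := by
  classical
  have hp : p.Prime := Fact.out
  have hΦP : (frattini (P : Subgroup G)).map (P : Subgroup G).subtype ≤ (P : Subgroup G) :=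
    Subgroup.map_subtype_le _
  have hQP : Q ≤ (P : Subgroup G) := h2.trans hΦP
  have hcomm : ∀ a ∈ (P : Subgroup G), ∀ b ∈ (P : Subgroup G), a * b * a⁻¹ * b⁻¹ ∈ Q := by
    intro a ha b hb
    apply h1
    refine ⟨⁅(⟨a, ha⟩ : (P : Subgroup G)), (⟨b, hb⟩ : (P : Subgroup G))⁆, ?_, rfl⟩
    exact Subgroup.commutator_mem_commutator (Subgroup.mem_top _) (Subgroup.mem_top _)
  have hPN : (P : Subgroup G) ≤ Subgroup.normalizer (Q : Set G) := by
    intro u hu
    rw [Subgroup.mem_normalizer_iff]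
    intro z
    constructor
    · intro hz
      have h3 := hcomm u hu z (hQP hz)
      have h4 : u * z * u⁻¹ = (u * z * u⁻¹ * z⁻¹) * z := by group
      rw [h4]
      exact mul_mem h3 hz
    · intro hz
      have h3 := hcomm u⁻¹ (inv_mem hu) _ (hQP hz)
      have h4 : z = (u⁻¹ * (u * z * u⁻¹) * u⁻¹⁻¹ * (u * z * u⁻¹)⁻¹) * (u * z * u⁻¹) := by group
      rw [h4]
      exact mul_mem h3 hz
  -- the star property in `G`
  have hstarG : ∀ x ∈ Subgroup.normalizer ((P : Subgroup G) : Set G), ∃ u ∈ (P : Subgroup G),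
      ∀ y ∈ (P : Subgroup G), x * y * x⁻¹ = u * y * u⁻¹ := by
    intro x hx
    obtain ⟨S, K, hKn, hKc⟩ := hN
    let L := Subgroup.normalizer ((P : Subgroup G) : Set G)
    have hPL : (P : Subgroup G) ≤ L := Subgroup.le_normalizer
    let P' : Sylow p L := P.subtype hPL
    have hP'n : (P' : Subgroup L).Normal := by
      rw [Sylow.coe_subtype]
      exact Subgroup.normal_in_normalizer
    have hS : S = P' := (Sylow.unique_of_normal P' hP'n).uniq S |>.trans
      ((Sylow.unique_of_normal P' hP'n).uniq P').symm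
    subst hS
    have hsup := hKc.sup_eq_top
    have hxt : (⟨x, hx⟩ : L) ∈ K ⊔ (P' : Subgroup L) := by
      rw [hsup]
      exact Subgroup.mem_top _
    obtain ⟨k, hk, s, hs, hks⟩ := (Subgroup.mem_sup_of_normal_left).mp hxt
    have hsP : (s : G) ∈ (P : Subgroup G) := by
      rw [Sylow.coe_subtype] at hs
      exact hs
    refine ⟨s, hsP, ?_⟩
    intro y hy
    have hkcomm : ∀ z ∈ (P : Subgroup G), (k : G) * z * (k : G)⁻¹ = z := by
      intro z hz
      have hz' : (⟨z, hPL hz⟩ : L) ∈ (P' : Subgroup L) := by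
        rw [Sylow.coe_subtype]
        exact hz
      have h3 : k * ⟨z, hPL hz⟩ * k⁻¹ * (⟨z, hPL hz⟩ : L)⁻¹ ∈ K := by
        have h4 : (⟨z, hPL hz⟩ : L) * k⁻¹ * (⟨z, hPL hz⟩ : L)⁻¹ ∈ K :=
          hKn.conj_mem _ (inv_mem hk) _
        have h5 : k * ⟨z, hPL hz⟩ * k⁻¹ * (⟨z, hPL hz⟩ : L)⁻¹ =
            k * ((⟨z, hPL hz⟩ : L) * k⁻¹ * (⟨z, hPL hz⟩ : L)⁻¹) := by group
        rw [h5]
        exact mul_mem hk h4
      have h6 : k * ⟨z, hPL hz⟩ * k⁻¹ * (⟨z, hPL hz⟩ : L)⁻¹ ∈ (P' : Subgroup L) := by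
        refine mul_mem ?_ (inv_mem hz')
        exact hP'n.conj_mem _ hz' k
      have h7 := Subgroup.disjoint_def.mp hKc.disjoint h3 h6
      rw [mul_inv_eq_one] at h7
      have := congrArg Subtype.val h7
      simpa using this
    have hxeq : x = (k : G) * (s : G) := by
      have := congrArg Subtype.val hks
      simpa using this.symm
    have hsy : (s : G) * y * (s : G)⁻¹ ∈ (P : Subgroup G) :=
      (Subgroup.mem_normalizer_iff.mp s.2 y).mp hy
    rw [hxeq]
    calc (k : G) * (s : G) * y * ((k : G) * (s : G))⁻¹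
        = (k : G) * ((s : G) * y * (s : G)⁻¹) * (k : G)⁻¹ := by group
      _ = (s : G) * y * (s : G)⁻¹ := hkcomm _ hsy
  let L := Subgroup.normalizer (Q : Set G)
  let P₁ : Sylow p L := P.subtype hPN
  have hP₁ : ∀ x : L, x ∈ (P₁ : Subgroup L) ↔ (x : G) ∈ (P : Subgroup G) := by
    intro x
    rw [Sylow.coe_subtype]
    rfl
  haveI hQn : (Q.subgroupOf L).Normal := Subgroup.normal_in_normalizer
  refine lemmaA P₁ (Q.subgroupOf L) ?_ ?_ ?_ ?_
  · intro x hx
    rw [hP₁]
    exact hQP hx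
  · intro a ha b hb
    rw [hP₁] at ha hb
    exact hcomm _ ha _ hb
  · intro R hR hRQ
    have hRP : R.map L.subtype ≤ (P : Subgroup G) := by
      rintro _ ⟨r, hr, rfl⟩
      exact (hP₁ r).mp (hR hr)
    have hRP2 : R.map L.subtype ⊔ Q = (P : Subgroup G) := by
      apply le_antisymm (sup_le hRP hQP)
      intro u hu
      have hu' : (⟨u, hPN hu⟩ : L) ∈ (P₁ : Subgroup L) := (hP₁ _).mpr hu
      rw [← hRQ] at hu'
      have h3 := Subgroup.mem_map_of_mem L.subtype hu'
      rw [Subgroup.map_sup, Subgroup.map_subgroupOf_eq_of_le Subgroup.le_normalizer] at h3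
      exact h3
    have h4 : R.map L.subtype ⊔ (frattini (P : Subgroup G)).map (P : Subgroup G).subtype = (P : Subgroup G) :=
      le_antisymm (sup_le hRP hΦP) (by
        calc (P : Subgroup G) = R.map L.subtype ⊔ Q := hRP2.symm
          _ ≤ _ := sup_le_sup_left h2 _)
    have h5 := Cfsg.Agent.Lib.Coprime.eq_of_sup_frattini_eq hRP h4
    apply le_antisymm hR
    intro x hx
    have hx' : (x : G) ∈ R.map L.subtype := by
      rw [h5]
      exact (hP₁ x).mp hx
    obtain ⟨r, hr, hrx⟩ := hx'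
    have : r = x := Subtype.ext hrx
    exact this ▸ hr
  · intro x hx
    have hxN : (x : G) ∈ Subgroup.normalizer ((P : Subgroup G) : Set G) := by
      rw [Subgroup.mem_normalizer_iff]
      intro y
      constructor
      · intro hy
        have h3 : (⟨y, hPN hy⟩ : L) ∈ (P₁ : Subgroup L) := (hP₁ _).mpr hy
        have h4 := (Subgroup.mem_normalizer_iff.mp hx _).mp h3
        exact (hP₁ _).mp h4
      · intro hy
        have hyL : (x : G) * y * (x : G)⁻¹ ∈ L := hPN hy
        have h3 : (⟨_, hyL⟩ : L) ∈ (P₁ : Subgroup L) := (hP₁ _).mpr hy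
        have h4 : x⁻¹ * (⟨_, hyL⟩ : L) * x⁻¹⁻¹ ∈ (P₁ : Subgroup L) :=
          (Subgroup.mem_normalizer_iff.mp (inv_mem hx) _).mp h3
        have h5 := (hP₁ _).mp h4
        have h6 : ((x⁻¹ * (⟨_, hyL⟩ : L) * x⁻¹⁻¹ : L) : G) = y := by
          simp
          group
        rwa [h6] at h5
    obtain ⟨u, hu, huy⟩ := hstarG _ hxN
    refine ⟨⟨u, hPN hu⟩, (hP₁ _).mpr hu, ?_⟩
    intro y hy
    have hy' := (hP₁ _).mp hy
    apply Subtype.ext
    simpa using huy _ hy'

end Cfsg.Agent.S3838
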