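import Cfsg.Statements.S3857
-- import your own Cfsg.Agent.* helpers here
import Mathlib
import Cfsg.Agent.Lib.Basic.FrobNorm
import Cfsg.Agent.Lib.Basic.MinNormal
import Cfsg.Agent.Lib.Basic.Hall
import Cfsg.Agent.Lib.PGroups.Parts
import Cfsg.Agent.Lib.PGroups.Coset

set_option autoImplicit false
open Cfsg

namespace Cfsg.Agent.S3857

open Subgroup Cfsg.Agent.Lib.Basic
open scoped Pointwise commutatorElement

/-- no commuting elements of prime orders on the two sides -/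
def HS (π : Set ℕ) (X : Type*) [Group X] : Prop :=
  ∀ r s : ℕ, r.Prime → s.Prime → r ∈ π → s ∉ π → ∀ a b : X, orderOf a = r → orderOf b = s →
    a * b = b * a → False

theorem useH {π : Set ℕ} {X : Type*} [Group X] [Finite X] (hH : HS π X) {a b : X} (ha : a ≠ 1) (hb : b ≠ 1)
    (hπa : ∀ r : ℕ, r.Prime → r ∣ orderOf a → r ∈ π) (hπb : ∀ s : ℕ, s.Prime → s ∣ orderOf b → s ∉ π)
    (hc : a * b = b * a) : False := by
  obtain ⟨r, hr, hrd⟩ := Nat.exists_prime_and_dvd (fun h => ha (orderOf_eq_one_iff.mp h))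
  obtain ⟨s, hs, hsd⟩ := Nat.exists_prime_and_dvd (fun h => hb (orderOf_eq_one_iff.mp h))
  have h0a : orderOf a ≠ 0 := (orderOf_pos a).ne'
  have h0b : orderOf b ≠ 0 := (orderOf_pos b).ne'
  refine hH r s hr hs (hπa r hr hrd) (hπb s hs hsd) (a ^ (orderOf a / r)) (b ^ (orderOf b / s)) ?_ ?_ ?_
  · exact orderOf_pow_orderOf_div h0a hrd
  · exact orderOf_pow_orderOf_div h0b hsd
  · have : Commute a b := hc
    exact (this.pow_pow _ _)

theorem coset_conj {X : Type*} [Group X] [Finite X] (K : Subgroup X) [hK : K.Normal] (y : X)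
    (hfpf : ∀ k ∈ K, k * y = y * k → k = 1) (z : X) (hz : z * y⁻¹ ∈ K) :
    ∃ k ∈ K, z = k * y * k⁻¹ := by
  have hinj : Function.Injective (fun k : ↥K => (⟨(k : X) * (y * (k : X)⁻¹ * y⁻¹), K.mul_mem k.2 (hK.conj_mem _ (K.inv_mem k.2) y)⟩ : ↥K)) := by
    intro a b hab
    have h1 : (a : X) * (y * (a : X)⁻¹ * y⁻¹) = (b : X) * (y * (b : X)⁻¹ * y⁻¹) := congrArg Subtype.val hab
    have h2 : (b : X)⁻¹ * a * y = y * ((b : X)⁻¹ * a) := by
      have h3 : (a : X) * y * (a : X)⁻¹ = (b : X) * y * (b : X)⁻¹ := by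
        have := congrArg (fun w => w * y) h1
        simpa [mul_assoc] using this
      have h4 : ((b : X)⁻¹ * a) * y * (a : X)⁻¹ = y * (b : X)⁻¹ := by
        calc ((b : X)⁻¹ * a) * y * (a : X)⁻¹ = (b : X)⁻¹ * ((a : X) * y * (a : X)⁻¹) := by group
          _ = (b : X)⁻¹ * ((b : X) * y * (b : X)⁻¹) := by rw [h3]
          _ = y * (b : X)⁻¹ := by group
      calc (b : X)⁻¹ * a * y = ((b : X)⁻¹ * a) * y * (a : X)⁻¹ * a := by group
        _ = y * (b : X)⁻¹ * a := by rw [h4]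
        _ = y * ((b : X)⁻¹ * a) := by group
    have h5 := hfpf _ (K.mul_mem (K.inv_mem b.2) a.2) h2
    apply Subtype.ext
    rw [inv_mul_eq_one] at h5
    exact h5.symm
  obtain ⟨k, hk⟩ := Finite.surjective_of_injective hinj ⟨z * y⁻¹, hz⟩
  refine ⟨k, k.2, ?_⟩
  have h1 : (k : X) * (y * (k : X)⁻¹ * y⁻¹) = z * y⁻¹ := congrArg Subtype.val hk
  have := congrArg (fun w => w * y) h1
  simpa [mul_assoc] using this.symm

theorem HS_quot {π : Set ℕ} {G : Type*} [Group G] [Finite G] (hH : HS π G) (K : Subgroup G) [hK : K.Normal]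
    (hKπ : ∀ r : ℕ, r.Prime → r ∣ Nat.card K → r ∈ π) : HS π (G ⧸ K) := by
  intro r s hr hs hrπ hsπ xb yb hxb hyb hc
  haveI : Fact r.Prime := ⟨hr⟩
  haveI : Fact s.Prime := ⟨hs⟩
  have hf := QuotientGroup.mk'_surjective K
  obtain ⟨y, hy1, ky, hky⟩ := Cfsg.Agent.Lib.PGroups.exists_pElement_lift (p := s) (QuotientGroup.mk' K) hf (y := yb) ⟨1, by rw [pow_one, hyb]⟩
  obtain ⟨x, hx1, kx, hkx⟩ := Cfsg.Agent.Lib.PGroups.exists_pElement_lift (p := r) (QuotientGroup.mk' K) hf (y := xb) ⟨1, by rw [pow_one, hxb]⟩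
  have hyb1 : yb ≠ 1 := by
    rintro rfl
    rw [orderOf_one] at hyb
    exact hs.one_lt.ne hyb
  have hxb1 : xb ≠ 1 := by
    rintro rfl
    rw [orderOf_one] at hxb
    exact hr.one_lt.ne hxb
  have hy0 : y ≠ 1 := by
    rintro rfl
    exact hyb1 (by rw [← hy1, map_one])
  have hprimes_y : ∀ t : ℕ, t.Prime → t ∣ orderOf y → t ∉ π := by
    intro t ht htd
    rw [hky] at htd
    have := (Nat.prime_dvd_prime_iff_eq ht hs).mp (ht.dvd_of_dvd_pow htd)
    rwa [this]
  have hKelt : ∀ k ∈ K, ∀ t : ℕ, t.Prime → t ∣ orderOf k → t ∈ π := by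
    intro k hk t ht htd
    apply hKπ t ht
    refine htd.trans ?_
    have := orderOf_dvd_natCard (⟨k, hk⟩ : K)
    rwa [Subgroup.orderOf_mk] at this
  have hfpf : ∀ k ∈ K, k * y = y * k → k = 1 := by
    intro k hk hcomm
    by_contra hk1
    exact useH hH hk1 hy0 (hKelt k hk) hprimes_y hcomm
  have hz : x * y * x⁻¹ * y⁻¹ ∈ K := by
    rw [← QuotientGroup.eq_one_iff, ← QuotientGroup.mk'_apply]
    simp only [map_mul, map_inv, hx1, hy1]
    rw [hc]
    group
  obtain ⟨k, hk, hzk⟩ := coset_conj K y hfpf _ hz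
  -- `k⁻¹ * x` centralizes `y`
  have hcomm : (k⁻¹ * x) * y = y * (k⁻¹ * x) := by
    have h1 : x * y = k * y * k⁻¹ * x := by
      calc x * y = x * y * x⁻¹ * x := by group
        _ = k * y * k⁻¹ * x := by rw [hzk]
    calc (k⁻¹ * x) * y = k⁻¹ * (x * y) := by group
      _ = k⁻¹ * (k * y * k⁻¹ * x) := by rw [h1]
      _ = y * (k⁻¹ * x) := by group
  obtain ⟨a, b, hab1, hcab, ⟨ka, hka⟩, hb, ha2, hb2⟩ := Cfsg.Agent.Lib.PGroups.exists_pPart r (k⁻¹ * x)
  have hmkx : QuotientGroup.mk' K (k⁻¹ * x) = xb := by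
    rw [map_mul, map_inv, hx1]
    have : QuotientGroup.mk' K k = 1 := (QuotientGroup.eq_one_iff k).mpr hk
    rw [this, inv_one, one_mul]
  have hmkb : QuotientGroup.mk' K b = 1 := by
    -- order divides `r` and is prime to `r`
    have h1 : QuotientGroup.mk' K b ∈ zpowers xb := by
      obtain ⟨j, rfl⟩ := mem_zpowers_iff.mp hb2
      rw [map_zpow, hmkx]
      exact zpow_mem (mem_zpowers xb) j
    have h2 : orderOf (QuotientGroup.mk' K b) ∣ r := by
      apply orderOf_dvd_of_pow_eq_one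
      obtain ⟨j, hj⟩ := mem_zpowers_iff.mp h1
      rw [← hj, ← zpow_natCast, zpow_comm, zpow_natCast, ← hxb, pow_orderOf_eq_one, one_zpow]
    have h3 : orderOf (QuotientGroup.mk' K b) ∣ orderOf b := orderOf_map_dvd _ _
    rcases (Nat.dvd_prime hr).mp h2 with h4 | h4
    · exact orderOf_eq_one_iff.mp h4
    · exact absurd (h4 ▸ h3) hb
  have ha1 : a ≠ 1 := by
    rintro rfl
    apply hxb1
    rw [← hmkx, hab1, one_mul, hmkb]
  have hay : a * y = y * a := by
    obtain ⟨j, rfl⟩ := mem_zpowers_iff.mp ha2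
    have : Commute (k⁻¹ * x) y := hcomm
    exact (this.zpow_left j)
  refine useH hH ha1 hy0 ?_ hprimes_y hay
  intro t ht htd
  rw [hka] at htd
  have := (Nat.prime_dvd_prime_iff_eq ht hr).mp (ht.dvd_of_dvd_pow htd)
  rwa [this]

theorem FC {X : Type*} [Group X] [Finite X] (N C : Subgroup X) [hN : N.Normal] (hc : IsComplement' N C)
    (hN0 : N ≠ ⊥) (hC0 : C ≠ ⊥)
    (hfpf : ∀ c ∈ C, c ≠ 1 → ∀ n ∈ N, c * n = n * c → n = 1) :
    Cfsg.IsFrobeniusComplement C ∧ Cfsg.frobeniusKernel C = (N : Set X) := by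
  have h1 : Cfsg.IsFrobeniusComplement C := by
    rw [isFrobeniusComplement_iff_fpf hc hN0 hC0]
    intro h hh h1
    rw [eq_bot_iff]
    intro k hk
    obtain ⟨hk1, hk2⟩ := Subgroup.mem_inf.mp hk
    rw [Subgroup.mem_centralizer_iff] at hk2
    exact hfpf h hh h1 k hk1 (hk2 h rfl)
  refine ⟨h1, ?_⟩
  apply Set.eq_of_subset_of_subset
  · intro x hx
    by_contra hxN
    have hxmem : x ∈ (N : Set X) * (C : Set X) := by
      rw [← Subgroup.normal_mul, hc.sup_eq_top]
      trivial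
    obtain ⟨n, hn, c, hc', rfl⟩ := Set.mem_mul.mp hxmem
    have hc1 : c ≠ 1 := by
      rintro rfl
      apply hxN
      simpa using hn
    obtain ⟨k, hk, hkz⟩ := coset_conj N c (fun k hk h => by
      exact hfpf c hc' hc1 k hk h.symm) (n * c) (by simpa using hn)
    rcases hx with hx | hx
    · apply hxN
      rw [hx]
      exact N.one_mem
    · apply hx k
      rw [Subgroup.mem_smul_pointwise_iff_exists]
      exact ⟨c, hc', by rw [hkz]; rfl⟩
  · intro x hx
    by_cases hx1 : x = 1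
    · exact Or.inl hx1
    · right
      intro g hg
      rw [Subgroup.mem_smul_pointwise_iff_exists] at hg
      obtain ⟨c, hc', hcx⟩ := hg
      have hcN : c ∈ N := by
        have h5 : g⁻¹ * x * g = c := by
          rw [← hcx]
          show g⁻¹ * (g * c * g⁻¹) * g = c
          group
        rw [← h5]
        have := hN.conj_mem x hx g⁻¹
        simpa using this
      have h6 := Subgroup.disjoint_def.mp hc.disjoint hcN hc'
      apply hx1
      rw [← hcx, h6, smul_one]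

theorem FC_exists {X : Type*} [Group X] [Finite X] (N : Subgroup X) [hN : N.Normal]
    (hcop : (Nat.card N).Coprime N.index) (hN0 : N ≠ ⊥) (hN1 : N ≠ ⊤)
    (hfpf : ∀ c, (orderOf c).Coprime (Nat.card N) → c ≠ 1 → ∀ n ∈ N, c * n = n * c → n = 1) :
    ∃ C : Subgroup X, Cfsg.IsFrobeniusComplement C ∧ Cfsg.frobeniusKernel C = (N : Set X) := by
  obtain ⟨C, hC⟩ := Subgroup.exists_right_complement'_of_coprime hcop
  have hcard : Nat.card C = N.index := by
    have h1 := hC.card_mul_card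
    have h2 := N.card_mul_index
    have h3 : Nat.card N * Nat.card C = Nat.card N * N.index := h1.trans h2.symm
    exact Nat.eq_of_mul_eq_mul_left Nat.card_pos h3
  refine ⟨C, FC N C hC hN0 ?_ ?_⟩
  · rintro rfl
    apply hN1
    have h1 := hC.sup_eq_top
    rwa [sup_bot_eq] at h1
  · intro c hc hc1 n hn hcn
    apply hfpf c _ hc1 n hn hcn
    have h1 : orderOf c ∣ N.index := by
      rw [← hcard]
      have := orderOf_dvd_natCard (⟨c, hc⟩ : C)
      rwa [Subgroup.orderOf_mk] at this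
    exact Nat.Coprime.coprime_dvd_left h1 hcop.symm
theorem comm_centralizes_cyclic {X : Type*} [Group X] (V : Subgroup X) [hV : V.Normal] (hcyc : IsCyclic V) :
    commutator X ≤ centralizer (V : Set X) := by
  obtain ⟨⟨v, hvV⟩, hgen⟩ := hcyc.exists_generator
  have hmem : ∀ x ∈ V, ∃ n : ℤ, x = v ^ n := by
    intro x hx
    obtain ⟨n, hn⟩ := mem_zpowers_iff.mp (hgen ⟨x, hx⟩)
    refine ⟨n, ?_⟩
    have := congrArg Subtype.val hn
    simpa using this.symm
  have hc : ∀ g : X, ∃ a : ℤ, g * v * g⁻¹ = v ^ a := fun g => hmem _ (hV.conj_mem v hvV g)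
  have hpow : ∀ (g : X) (n : ℤ), g * v ^ n * g⁻¹ = (g * v * g⁻¹) ^ n := by
    intro g n
    rw [conj_zpow]
  have hvcomm : ∀ g h : X, (g * h) * v * (g * h)⁻¹ = (h * g) * v * (h * g)⁻¹ := by
    intro g h
    obtain ⟨a, ha⟩ := hc g
    obtain ⟨b, hb⟩ := hc h
    have h1 : (g * h) * v * (g * h)⁻¹ = g * (h * v * h⁻¹) * g⁻¹ := by group
    have h2 : (h * g) * v * (h * g)⁻¹ = h * (g * v * g⁻¹) * h⁻¹ := by group
    rw [h1, h2, ha, hb, hpow, hpow, ha, hb, ← zpow_mul, ← zpow_mul, mul_comm]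
  rw [_root_.commutator_def, Subgroup.commutator_le]
  intro g₁ _ g₂ _
  rw [Subgroup.mem_centralizer_iff]
  intro x hx
  obtain ⟨n, rfl⟩ := hmem x hx
  have h3 : Commute v ⁅g₁, g₂⁆ := by
    have h4 := hvcomm g₁⁻¹ g₂⁻¹
    have h5 : ⁅g₁, g₂⁆ = (g₂⁻¹ * g₁⁻¹)⁻¹ * (g₁⁻¹ * g₂⁻¹) := by
      rw [commutatorElement_def]
      group
    show v * ⁅g₁, g₂⁆ = ⁅g₁, g₂⁆ * v
    rw [h5]
    have h6 : (g₁⁻¹ * g₂⁻¹) * v = (g₂⁻¹ * g₁⁻¹) * v * (g₂⁻¹ * g₁⁻¹)⁻¹ * (g₁⁻¹ * g₂⁻¹) := by
      rw [← h4]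
      group
    calc v * ((g₂⁻¹ * g₁⁻¹)⁻¹ * (g₁⁻¹ * g₂⁻¹))
        = (g₂⁻¹ * g₁⁻¹)⁻¹ * ((g₂⁻¹ * g₁⁻¹) * v * (g₂⁻¹ * g₁⁻¹)⁻¹ * (g₁⁻¹ * g₂⁻¹)) := by group
      _ = (g₂⁻¹ * g₁⁻¹)⁻¹ * ((g₁⁻¹ * g₂⁻¹) * v) := by rw [h6]
      _ = _ := by group
  exact (h3.zpow_left n)

theorem cyclic_section {G : Type*} [Group G] [Finite G] (K : Subgroup G) [hKn : K.Normal] (Vb : Subgroup (G ⧸ K))
    (hVc : IsMulCommutative Vb) (hcop : (Nat.card K).Coprime (Nat.card Vb))
    (K₁ : Subgroup G) [hK₁n : K₁.Normal] [hK₁c : IsMulCommutative K₁] (hK₁0 : K₁ ≠ ⊥)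
    (hfpf : ∀ a, orderOf a ∣ Nat.card Vb → a ≠ 1 → ∀ k ∈ K₁, k * a = a * k → k = 1) : IsCyclic Vb := by
  obtain ⟨Vh, hVhdef⟩ : ∃ Vh, Vh = Vb.comap (QuotientGroup.mk' K) := ⟨_, rfl⟩
  have hKVh : K ≤ Vh := by
    intro k hk
    rw [hVhdef, Subgroup.mem_comap, QuotientGroup.mk'_apply, (QuotientGroup.eq_one_iff k).mpr hk]
    exact one_mem _
  have hcardVh : Nat.card Vh = Nat.card K * Nat.card Vb := by
    rw [hVhdef]
    exact card_comap_mk Vb
  haveI hK'n : (K.subgroupOf Vh).Normal := inferInstance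
  have hcK' : Nat.card (K.subgroupOf Vh) = Nat.card K := by
    have := card_subgroupOf_of_le hKVh
    exact this
  have hiK' : (K.subgroupOf Vh).index = Nat.card Vb := by
    have h1 := (K.subgroupOf Vh).card_mul_index
    rw [hcK', hcardVh] at h1
    exact Nat.eq_of_mul_eq_mul_left Nat.card_pos h1
  obtain ⟨A', hA'⟩ := Subgroup.exists_right_complement'_of_coprime (N := K.subgroupOf Vh) (by rw [hcK', hiK']; exact hcop)
  have hcardA' : Nat.card A' = Nat.card Vb := by
    have h1 := hA'.card_mul_card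
    have h2 := (K.subgroupOf Vh).card_mul_index
    have h3 := h1.trans h2.symm
    rw [hiK'] at h3
    exact Nat.eq_of_mul_eq_mul_left Nat.card_pos h3
  obtain ⟨A, hAdef⟩ : ∃ A, A = A'.map Vh.subtype := ⟨_, rfl⟩
  have hcardA : Nat.card A = Nat.card Vb := by
    rw [← hcardA', hAdef]
    exact Subgroup.card_map_of_injective (Subgroup.subtype_injective _)
  have hAV : ∀ a ∈ A, QuotientGroup.mk' K a ∈ Vb := by
    intro a ha
    rw [hAdef] at ha
    obtain ⟨a', -, rfl⟩ := ha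
    have : (a' : G) ∈ Vb.comap (QuotientGroup.mk' K) := hVhdef ▸ a'.2
    exact this
  let f : ↥A →* ↥Vb := ((QuotientGroup.mk' K).comp A.subtype).codRestrict Vb (fun a => hAV a a.2)
  have hfinj : Function.Injective f := by
    rw [injective_iff_map_eq_one]
    rintro ⟨a, ha⟩ h1
    have h2 : QuotientGroup.mk' K a = 1 := congrArg Subtype.val h1
    have h3 : a ∈ K := (QuotientGroup.eq_one_iff a).mp h2
    rw [hAdef] at ha
    obtain ⟨a', ha', rfl⟩ := ha
    have h4 : a' ∈ K.subgroupOf Vh := h3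
    have h5 := Subgroup.disjoint_def.mp hA'.disjoint h4 ha'
    apply Subtype.ext
    show (a' : G) = 1
    rw [h5]
    rfl
  have hfsurj : Function.Surjective f := (Nat.bijective_iff_injective_and_card f).mpr ⟨hfinj, hcardA⟩ |>.2
  have hAcomm : IsMulCommutative A := by
    refine ⟨⟨fun a b => ?_⟩⟩
    apply hfinj
    rw [map_mul, map_mul]
    exact hVc.is_comm.comm _ _
  have hcyc : IsCyclic A := by
    apply isCyclic_of_fpf A K₁ hK₁0
    · rw [Subgroup.normalizer_eq_top_iff.mpr hK₁n]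
      exact le_top
    · intro a ha a1
      rw [eq_bot_iff]
      intro k hk
      obtain ⟨hk1, hk2⟩ := Subgroup.mem_inf.mp hk
      rw [Subgroup.mem_centralizer_iff] at hk2
      refine hfpf a ?_ a1 k hk1 (hk2 a rfl).symm
      rw [← hcardA]
      have := orderOf_dvd_natCard (⟨a, ha⟩ : A)
      rwa [Subgroup.orderOf_mk] at this
    · exact Or.inl hAcomm
  exact isCyclic_of_surjective f hfsurj

theorem HS_sub {π : Set ℕ} {G : Type*} [Group G] (hH : HS π G) (M : Subgroup G) : HS π ↥M := by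
  intro r s hr hs hrπ hsπ a b ha hb hc
  refine hH r s hr hs hrπ hsπ a b ?_ ?_ ?_
  · rwa [Subgroup.orderOf_coe]
  · rwa [Subgroup.orderOf_coe]
  · exact congrArg Subtype.val hc

theorem primes_of_mul {a b r : ℕ} (hr : r.Prime) (h : r ∣ a * b) (h2 : ¬ r ∣ a) : r ∣ b :=
  (hr.dvd_mul.mp h).resolve_left h2

theorem main {G : Type*} [Group G] [Finite G] (hsol : Group.IsSolvable G) (π : Set ℕ) (hH : HS π G)
    (N₀ : Subgroup G) (hN₀ : N₀.Normal) (hN₀0 : N₀ ≠ ⊥) (hN₀π : ∀ r : ℕ, r.Prime → r ∣ Nat.card N₀ → r ∈ π)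
    (s₀ : ℕ) (hs₀ : s₀.Prime) (hs₀π : s₀ ∉ π) (hs₀G : s₀ ∣ Nat.card G) :
    (∃ C : Subgroup G, Cfsg.IsFrobeniusComplement C) ∨
    (∃ (H K : Subgroup G) (_ : H.Normal), K.Normal ∧ H < K ∧
      (∃ C : Subgroup ↥K, Cfsg.IsFrobeniusComplement C ∧ Cfsg.frobeniusKernel C = (H.subgroupOf K : Set ↥K)) ∧
      (∃ C : Subgroup (G ⧸ H), Cfsg.IsFrobeniusComplement C ∧ Cfsg.frobeniusKernel C = (K.map (QuotientGroup.mk' H) : Set (G ⧸ H)))) := by
  classical
  have hS : ({N : Subgroup G | N.Normal ∧ N₀ ≤ N ∧ ∀ r : ℕ, r.Prime → r ∣ Nat.card N → r ∈ π}).Nonempty :=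
    ⟨N₀, hN₀, le_rfl, hN₀π⟩
  obtain ⟨K, ⟨hKn, hN₀K, hKπ⟩, hKmax⟩ := (Set.toFinite _).exists_maximal hS
  haveI := hKn
  have hK0 : K ≠ ⊥ := by
    rintro rfl
    exact hN₀0 (le_bot_iff.mp hN₀K)
  have hKmax' : ∀ N : Subgroup G, N.Normal → K ≤ N → (∀ r : ℕ, r.Prime → r ∣ Nat.card N → r ∈ π) → N ≤ K :=
    fun N hN h1 h2 => hKmax ⟨hN, hN₀K.trans h1, h2⟩ h1
  have hKtop : K ≠ ⊤ := by
    rintro rfl
    apply hs₀π
    apply hKπ s₀ hs₀
    rwa [Subgroup.card_top]
  have hHq := HS_quot hH K hKπ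
  haveI hnt : Nontrivial (G ⧸ K) := QuotientGroup.nontrivial_iff.mpr hKtop
  obtain ⟨Vb, hVb⟩ := exists_isMinNormal (G := G ⧸ K)
  obtain ⟨hVc, t, ht, hVt⟩ := hVb.isPGroup
  haveI hVn : Vb.Normal := hVb.1
  haveI : Fact t.Prime := ⟨ht⟩
  obtain ⟨nV, hnV⟩ := IsPGroup.iff_card.mp hVt
  have hVπ : t ∉ π := by
    intro htπ
    have h1 := hKmax' (Vb.comap (QuotientGroup.mk' K)) (hVb.1.comap _) (by
      intro k hk
      rw [Subgroup.mem_comap, QuotientGroup.mk'_apply, (QuotientGroup.eq_one_iff k).mpr hk]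
      exact one_mem _) (by
      intro r hr hd
      rw [card_comap_mk, hnV] at hd
      rcases hr.dvd_mul.mp hd with h2 | h2
      · exact hKπ r hr h2
      · rw [(Nat.prime_dvd_prime_iff_eq hr ht).mp (hr.dvd_of_dvd_pow h2)]
        exact htπ)
    apply hVb.2.1
    rw [eq_bot_iff]
    intro x hx
    obtain ⟨g, rfl⟩ := QuotientGroup.mk'_surjective K x
    have h3 : g ∈ K := h1 hx
    rw [Subgroup.mem_bot]
    exact (QuotientGroup.eq_one_iff g).mpr h3
  have htK : ¬ t ∣ Nat.card K := fun h => hVπ (hKπ t ht h)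
  have hKelt : ∀ k ∈ K, ∀ r : ℕ, r.Prime → r ∣ orderOf k → r ∈ π := by
    intro k hk r hr hrd
    apply hKπ r hr
    refine hrd.trans ?_
    have := orderOf_dvd_natCard (⟨k, hk⟩ : K)
    rwa [Subgroup.orderOf_mk] at this
  -- `Vb` is cyclic
  obtain ⟨K₁, hK₁min, hK₁le⟩ := exists_isMinNormal_le hKn hK0
  haveI hK₁n : K₁.Normal := hK₁min.1
  haveI hK₁c : IsMulCommutative K₁ := hK₁min.isPGroup.1
  have hcopV : (Nat.card K).Coprime (Nat.card Vb) := by
    rw [hnV]
    exact Nat.Coprime.pow_right _ ((ht.coprime_iff_not_dvd).mpr htK).symm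
  have hcyc : IsCyclic Vb := by
    apply cyclic_section K Vb hVc hcopV K₁ hK₁min.2.1
    intro a ha a1 k hk hcomm
    by_contra hk1
    refine useH hH hk1 a1 (hKelt k (hK₁le hk)) ?_ hcomm
    intro r hr hrd
    rw [hnV] at ha
    have := (Nat.prime_dvd_prime_iff_eq hr ht).mp (hr.dvd_of_dvd_pow (hrd.trans ha))
    rwa [this]
  have hcomm := comm_centralizes_cyclic Vb hcyc
  have htV : t ∣ Nat.card Vb := by
    rw [hnV]
    apply dvd_pow_self
    rintro rfl
    rw [pow_zero] at hnV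
    exact hVb.2.1 (Subgroup.card_eq_one.mp hnV)
  obtain ⟨v₀, hv₀⟩ := exists_prime_orderOf_dvd_card' t htV
  have hD : ∀ r : ℕ, r.Prime → r ∣ Nat.card (commutator (G ⧸ K)) → r ∉ π := by
    intro r hr hd hrπ
    haveI : Fact r.Prime := ⟨hr⟩
    obtain ⟨a, ha⟩ := exists_prime_orderOf_dvd_card' r hd
    have h1 := hcomm a.2
    rw [Subgroup.mem_centralizer_iff] at h1
    refine hHq r t hr ht hrπ hVπ a v₀ ?_ ?_ (h1 v₀ v₀.2).symm
    · rwa [Subgroup.orderOf_coe]
    · rwa [Subgroup.orderOf_coe]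
  have hS2 : ({M : Subgroup (G ⧸ K) | M.Normal ∧ commutator (G ⧸ K) ≤ M ∧ ∀ r : ℕ, r.Prime → r ∣ Nat.card M → r ∉ π}).Nonempty :=
    ⟨commutator (G ⧸ K), inferInstance, le_rfl, hD⟩
  obtain ⟨Mb, ⟨hMn, hDM, hMπ⟩, hMmax⟩ := (Set.toFinite _).exists_maximal hS2
  haveI := hMn
  have hQ : ∀ r : ℕ, r.Prime → r ∣ Mb.index → r ∈ π := by
    intro r hr hd
    by_contra hrπ
    haveI : Fact r.Prime := ⟨hr⟩
    rw [Subgroup.index_eq_card] at hd
    obtain ⟨x, hx⟩ := exists_prime_orderOf_dvd_card' r hd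
    have hab : ∀ a b : (G ⧸ K) ⧸ Mb, a * b = b * a :=
      ((Subgroup.Normal.quotient_commutative_iff_commutator_le (N := Mb)).mpr hDM).is_comm.comm
    have hTn : (zpowers x).Normal := ⟨fun y hy g => by
      have : g * y * g⁻¹ = y := by rw [hab g y]; group
      rwa [this]⟩
    have hle : (zpowers x).comap (QuotientGroup.mk' Mb) ≤ Mb := by
      apply hMmax ⟨hTn.comap _, ?_, ?_⟩
      · intro y hy
        rw [Subgroup.mem_comap, QuotientGroup.mk'_apply, (QuotientGroup.eq_one_iff y).mpr hy]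
        exact one_mem _
      · intro y hy
        rw [Subgroup.mem_comap, QuotientGroup.mk'_apply, (QuotientGroup.eq_one_iff y).mpr (hDM hy)]
        exact one_mem _
      · intro q hq hqd
        rw [card_comap_mk, Nat.card_zpowers, hx] at hqd
        rcases hq.dvd_mul.mp hqd with h2 | h2
        · exact hMπ q hq h2
        · rwa [(Nat.prime_dvd_prime_iff_eq hq hr).mp h2]
    obtain ⟨y, rfl⟩ := QuotientGroup.mk'_surjective Mb x
    have h3 : y ∈ Mb := hle (mem_comap.mpr (mem_zpowers _))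
    have h4 : QuotientGroup.mk' Mb y = 1 := (QuotientGroup.eq_one_iff y).mpr h3
    rw [h4, orderOf_one] at hx
    exact hr.one_lt.ne hx
  have hcopM : (Nat.card Mb).Coprime Mb.index :=
    Nat.coprime_of_dvd (fun r hr h1 h2 => hMπ r hr h1 (hQ r hr h2))
  have hMb0 : Mb ≠ ⊥ := by
    rintro rfl
    apply hVπ
    apply hQ t ht
    rw [Subgroup.index_bot]
    exact htV.trans (Subgroup.card_subgroup_dvd_card Vb)
  have hcardK : Nat.card G = Nat.card K * Nat.card (G ⧸ K) := by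
    rw [← Subgroup.index_eq_card]
    exact K.card_mul_index.symm
  have hcardQ : Nat.card (G ⧸ K) = Nat.card Mb * Mb.index := Mb.card_mul_index.symm
  by_cases hMtop : Mb = ⊤
  · left
    subst hMtop
    have hprimes : ∀ r : ℕ, r.Prime → r ∣ K.index → r ∉ π := by
      intro r hr hd
      apply hMπ r hr
      rw [Subgroup.card_top, ← Subgroup.index_eq_card]
      exact hd
    have hcop : (Nat.card K).Coprime K.index :=
      Nat.coprime_of_dvd (fun r hr h1 h2 => hprimes r hr h2 (hKπ r hr h1))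
    obtain ⟨C, hC, -⟩ := FC_exists K hcop hK0 hKtop (by
      intro c hc c1 n hn hcn
      by_contra hn1
      refine useH hH hn1 c1 (hKelt n hn) ?_ hcn.symm
      intro r hr hrd
      apply hprimes r hr
      have h1 : r ∣ Nat.card K * K.index := by
        rw [K.card_mul_index]
        exact hrd.trans (orderOf_dvd_natCard c)
      refine primes_of_mul hr h1 ?_
      intro h2
      have h3 := Nat.dvd_gcd hrd h2
      rw [hc.gcd_eq_one] at h3
      exact hr.one_lt.ne' (Nat.dvd_one.mp h3))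
    exact ⟨C, hC⟩
  · right
    have hKM : K ≤ Mb.comap (QuotientGroup.mk' K) := by
      intro k hk
      rw [Subgroup.mem_comap, QuotientGroup.mk'_apply, (QuotientGroup.eq_one_iff k).mpr hk]
      exact one_mem _
    have hMcard : Nat.card (Mb.comap (QuotientGroup.mk' K)) = Nat.card K * Nat.card Mb := card_comap_mk Mb
    have hlt : K < Mb.comap (QuotientGroup.mk' K) := by
      refine lt_of_le_of_ne hKM ?_
      intro h
      apply hMb0
      rw [eq_bot_iff]
      intro x hx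
      obtain ⟨g, rfl⟩ := QuotientGroup.mk'_surjective K x
      have h3 : g ∈ K := by
        rw [h]
        exact hx
      rw [Subgroup.mem_bot]
      exact (QuotientGroup.eq_one_iff g).mpr h3
    refine ⟨K, Mb.comap (QuotientGroup.mk' K), hKn, inferInstance, hlt, ?_, ?_⟩
    · have hcK' : Nat.card (K.subgroupOf (Mb.comap (QuotientGroup.mk' K))) = Nat.card K := card_subgroupOf_of_le hKM
      have hiK' : (K.subgroupOf (Mb.comap (QuotientGroup.mk' K))).index = Nat.card Mb := by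
        have h1 := (K.subgroupOf (Mb.comap (QuotientGroup.mk' K))).card_mul_index
        rw [hcK', hMcard] at h1
        exact Nat.eq_of_mul_eq_mul_left Nat.card_pos h1
      apply FC_exists
      · rw [hcK', hiK']
        exact Nat.coprime_of_dvd (fun r hr h1 h2 => hMπ r hr h2 (hKπ r hr h1))
      · intro h
        apply hK0
        rw [eq_bot_iff]
        intro k hk
        have : (⟨k, hKM hk⟩ : ↥(Mb.comap (QuotientGroup.mk' K))) ∈ K.subgroupOf (Mb.comap (QuotientGroup.mk' K)) := hk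
        rw [h] at this
        exact congrArg Subtype.val (Subgroup.mem_bot.mp this)
      · intro h
        apply hlt.ne
        apply le_antisymm hKM
        intro x hx
        have : (⟨x, hx⟩ : ↥(Mb.comap (QuotientGroup.mk' K))) ∈ K.subgroupOf (Mb.comap (QuotientGroup.mk' K)) := by
          rw [h]
          exact mem_top _
        exact this
      · intro c hc c1 n hn hcn
        by_contra hn1
        refine useH (HS_sub hH _) hn1 c1 ?_ ?_ hcn.symm
        · intro r hr hrd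
          apply hKelt (n : G) hn r hr
          rwa [Subgroup.orderOf_coe]
        · intro r hr hrd
          apply hMπ r hr
          have h1 : r ∣ Nat.card K * Nat.card Mb := by
            rw [← hMcard]
            exact hrd.trans (orderOf_dvd_natCard c)
          refine primes_of_mul hr h1 ?_
          intro h2
          rw [hcK'] at hc
          have h3 := Nat.dvd_gcd hrd h2
          rw [hc.gcd_eq_one] at h3
          exact hr.one_lt.ne' (Nat.dvd_one.mp h3)
    · rw [Subgroup.map_comap_eq_self_of_surjective (QuotientGroup.mk'_surjective K)]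
      apply FC_exists Mb hcopM hMb0 hMtop
      intro c hc c1 n hn hcn
      by_contra hn1
      refine useH hHq c1 hn1 ?_ ?_ hcn
      · intro r hr hrd
        apply hQ r hr
        have h1 : r ∣ Nat.card Mb * Mb.index := by
          rw [← hcardQ]
          exact hrd.trans (orderOf_dvd_natCard c)
        refine primes_of_mul hr h1 ?_
        intro h2
        have h3 := Nat.dvd_gcd hrd h2
        rw [hc.gcd_eq_one] at h3
        exact hr.one_lt.ne' (Nat.dvd_one.mp h3)
      · intro r hr hrd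
        apply hMπ r hr
        refine hrd.trans ?_
        have := orderOf_dvd_natCard (⟨n, hn⟩ : Mb)
        rwa [Subgroup.orderOf_mk] at this

/-- A finite solvable group whose prime graph (prime divisors of the order, two distinct primes joined when there is an element of order their product) is disconnected is a Frobenius group or a 2-Frobenius group (it has normal subgroups H < K with K a Frobenius group with kernel H and G/H a Frobenius group with kernel K/H). -/
theorem result {G : Type*} [Group G] [Finite G] (hsol : Group.IsSolvable G)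
    (hdisc : (∃ A : Set ℕ, (∃ a ∈ A, a.Prime ∧ a ∣ Nat.card G) ∧ (∃ b ∉ A, b.Prime ∧ b ∣ Nat.card G) ∧
      ∀ a ∈ A, ∀ b ∉ A, a.Prime → b.Prime → a ∣ Nat.card G → b ∣ Nat.card G → ¬ ∃ g : G, orderOf g = a * b)) :
    (∃ C : Subgroup G, Cfsg.IsFrobeniusComplement C) ∨
    (∃ (H K : Subgroup G) (_ : H.Normal), K.Normal ∧ H < K ∧
      (∃ C : Subgroup ↥K, Cfsg.IsFrobeniusComplement C ∧ Cfsg.frobeniusKernel C = (H.subgroupOf K : Set ↥K)) ∧
      (∃ C : Subgroup (G ⧸ H), Cfsg.IsFrobeniusComplement C ∧ Cfsg.frobeniusKernel C = (K.map (QuotientGroup.mk' H) : Set (G ⧸ H)))) := by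
  obtain ⟨A, ⟨a, ha, hap, had⟩, ⟨b, hb, hbp, hbd⟩, hno⟩ := hdisc
  haveI hnt : Nontrivial G := by
    rw [← Finite.one_lt_card_iff_nontrivial]
    exact lt_of_lt_of_le hap.one_lt (Nat.le_of_dvd Nat.card_pos had)
  obtain ⟨M, hM⟩ := Cfsg.Agent.Lib.Basic.exists_isMinNormal (G := G)
  obtain ⟨-, r, hr, hrg⟩ := hM.isPGroup
  haveI : Fact r.Prime := ⟨hr⟩
  obtain ⟨nM, hnM⟩ := IsPGroup.iff_card.mp hrg
  have hMπ : ∀ q : ℕ, q.Prime → q ∣ Nat.card M → q = r := by
    intro q hq hd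
    rw [hnM] at hd
    exact (Nat.prime_dvd_prime_iff_eq hq hr).mp (hq.dvd_of_dvd_pow hd)
  have hord : ∀ {c d : ℕ} (x y : G), c.Prime → d.Prime → c ≠ d → orderOf x = c → orderOf y = d → x * y = y * x →
      orderOf (x * y) = c * d := by
    intro c d x y hc hd hne hx hy hxy
    have hcomm : Commute x y := hxy
    rw [hcomm.orderOf_mul_eq_mul_orderOf_of_coprime (by rw [hx, hy]; exact (Nat.coprime_primes hc hd).mpr hne), hx, hy]
  by_cases hrA : r ∈ A
  · apply main hsol A _ M hM.1 hM.2.1 (fun q hq hd => by rw [hMπ q hq hd]; exact hrA) b hbp hb hbd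
    intro u v hu hv huA hvA x y hx hy hxy
    refine hno u huA v hvA hu hv (hx ▸ orderOf_dvd_natCard x) (hy ▸ orderOf_dvd_natCard y) ⟨x * y, ?_⟩
    exact hord x y hu hv (by rintro rfl; exact hvA huA) hx hy hxy
  · apply main hsol Aᶜ _ M hM.1 hM.2.1 (fun q hq hd => by rw [hMπ q hq hd]; exact hrA) a hap (by simpa using ha) had
    intro u v hu hv huA hvA x y hx hy hxy
    have hvA' : v ∈ A := by simpa using hvA
    refine hno v hvA' u huA hv hu (hy ▸ orderOf_dvd_natCard y) (hx ▸ orderOf_dvd_natCard x) ⟨y * x, ?_⟩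
    exact hord y x hv hu (by rintro rfl; exact huA hvA') hy hx hxy.symm

end Cfsg.Agent.S3857
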