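import Cfsg.Statements.S3859
-- import your own Cfsg.Agent.* helpers here
import Mathlib
import Cfsg.Agent.Lib.Coprime.Conj

set_option autoImplicit false
open Cfsg

namespace Cfsg.Agent.S3859

open Cfsg.Agent.Lib.Coprime in
theorem normalizer_inf_ne_top {G : Type*} [Group G] [Finite G] (T : Subgroup G) [T.Normal]
    (hT : IsSimpleGroup T) (hna : ¬ IsMulCommutative T) {r : ℕ} [Fact r.Prime] (R : Sylow r G)
    (hR0 : (R : Subgroup G) ⊓ T ≠ ⊥) :
    Subgroup.normalizer (((R : Subgroup G) ⊓ T : Subgroup G) : Set G) ≠ ⊤ := by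
  intro htop
  rw [Subgroup.normalizer_eq_top_iff] at htop
  -- the image in T is normal
  have hn : ((R : Subgroup G).subgroupOf T).Normal := by
    constructor
    intro x hx g
    rw [Subgroup.mem_subgroupOf] at hx ⊢
    have := htop.conj_mem (x : G) ⟨hx, x.2⟩ (g : G)
    exact this.1
  rcases hT.eq_bot_or_eq_top_of_normal _ hn with h | h
  · apply hR0
    rw [eq_bot_iff]
    rintro x ⟨hxR, hxT⟩
    have : (⟨x, hxT⟩ : T) ∈ (R : Subgroup G).subgroupOf T := Subgroup.mem_subgroupOf.mpr hxR
    rw [h, Subgroup.mem_bot] at this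
    simpa using congrArg Subtype.val this
  · -- T is an r-group; so it has nontrivial centre and is abelian.
    have hle : T ≤ (R : Subgroup G) := by
      intro x hx
      have : (⟨x, hx⟩ : T) ∈ (R : Subgroup G).subgroupOf T := by rw [h]; trivial
      exact Subgroup.mem_subgroupOf.mp this
    have hp : IsPGroup r T := R.isPGroup'.to_le hle
    have : Nontrivial T := hT.toNontrivial
    have hc := hp.center_nontrivial
    have hcn : (Subgroup.center T).Normal := inferInstance
    rcases hT.eq_bot_or_eq_top_of_normal _ hcn with h1 | h1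
    · exact (Subgroup.nontrivial_iff_ne_bot _ |>.mp hc) h1
    · apply hna
      rw [commutative_iff_mem_comm]
      intro a ha b hb
      have : (⟨b, hb⟩ : T) ∈ Subgroup.center T := by rw [h1]; trivial
      exact congrArg Subtype.val (Subgroup.mem_center_iff.mp this ⟨a, ha⟩)

/-- Let G be a finite group with a normal non-abelian simple subgroup T whose centralizer is trivial (G almost simple with socle T), r a prime and R a Sylow r-subgroup of G meeting T nontrivially. If R lies in exactly one maximal subgroup of G, then G/T is an r-group. -/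
theorem result {G : Type*} [Group G] [Finite G] (T : Subgroup G) [T.Normal] (hT : IsSimpleGroup T) (hna : ¬ IsMulCommutative T)
    (hC : Subgroup.centralizer (T : Set G) = ⊥) {r : ℕ} [Fact r.Prime] (R : Sylow r G) (hR0 : (R : Subgroup G) ⊓ T ≠ ⊥)
    (huniq : ∃! M : Subgroup G, IsCoatom M ∧ (R : Subgroup G) ≤ M) : IsPGroup r (G ⧸ T) := by
  classical
  open Cfsg.Agent.Lib.Coprime in
  obtain ⟨M, ⟨hMc, hRM⟩, hMu⟩ := huniq
  -- N is proper and contains R, so N ≤ M.
  have hN := normalizer_inf_ne_top T hT hna R hR0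
  have hRN : (R : Subgroup G) ≤ Subgroup.normalizer (((R : Subgroup G) ⊓ T : Subgroup G) : Set G) := by
    intro x hx
    rw [Subgroup.mem_normalizer_iff]
    intro y
    have hT' : (T : Subgroup G).Normal := inferInstance
    constructor
    · intro hy
      obtain ⟨hy1, hy2⟩ := Subgroup.mem_inf.mp hy
      exact Subgroup.mem_inf.mpr ⟨mul_mem (mul_mem hx hy1) (inv_mem hx), hT'.conj_mem y hy2 x⟩
    · intro hy
      obtain ⟨hy1, hy2⟩ := Subgroup.mem_inf.mp hy
      have e : y = x⁻¹ * (x * y * x⁻¹) * x⁻¹⁻¹ := by group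
      rw [e]
      exact Subgroup.mem_inf.mpr ⟨mul_mem (mul_mem (inv_mem hx) hy1) (inv_mem (inv_mem hx)),
        hT'.conj_mem _ hy2 x⁻¹⟩
  obtain ⟨M', hM'c, hM'⟩ := exists_coatom_ge hN
  have hM'M : M' = M := hMu M' ⟨hM'c, hRN.trans hM'⟩
  subst hM'M
  have hTM : ¬ T ≤ M' := by
    intro hle
    apply hM'c.1
    rw [eq_top_iff, ← frattini_inf_normal R T]
    exact sup_le hM' hle
  have hRT : (R : Subgroup G) ⊔ T = ⊤ := by
    by_contra hne
    obtain ⟨M2, hM2c, hM2⟩ := exists_coatom_ge hne
    have : M2 = M' := hMu M2 ⟨hM2c, le_sup_left.trans hM2⟩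
    subst this
    exact hTM (le_sup_right.trans hM2)
  -- surjection from R to G/T
  have hsurj : Function.Surjective ((QuotientGroup.mk' T).comp (R : Subgroup G).subtype) := by
    intro y
    obtain ⟨g, rfl⟩ := QuotientGroup.mk'_surjective T y
    have hg : g ∈ (R : Subgroup G) ⊔ T := by rw [hRT]; trivial
    rw [Subgroup.mem_sup_of_normal_right] at hg
    obtain ⟨a, ha, t, ht, rfl⟩ := hg
    refine ⟨⟨a, ha⟩, ?_⟩
    simp only [MonoidHom.comp_apply, Subgroup.subtype_apply, QuotientGroup.mk'_apply]
    rw [QuotientGroup.eq]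
    simpa using ht
  exact R.isPGroup'.of_surjective _ hsurj

end Cfsg.Agent.S3859
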