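import Cfsg.Statements.S3858
-- import your own Cfsg.Agent.* helpers here
import Mathlib
import Cfsg.Agent.Lib.Coprime.Conj
import Cfsg.Agent.S3859

set_option autoImplicit false
open Cfsg

namespace Cfsg.Agent.S3858

/-- Let G be a finite group with a normal non-abelian simple subgroup T whose centralizer is trivial (G almost simple with socle T), r a prime and R a Sylow r-subgroup of G meeting T nontrivially. Then R lies in exactly one maximal subgroup of G if and only if G has exactly one conjugacy class of maximal subgroups whose index is prime to r. -/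
theorem result {G : Type*} [Group G] [Finite G] (T : Subgroup G) [T.Normal] (hT : IsSimpleGroup T) (hna : ¬ IsMulCommutative T)
    (hC : Subgroup.centralizer (T : Set G) = ⊥) {r : ℕ} [Fact r.Prime] (R : Sylow r G) (hR0 : (R : Subgroup G) ⊓ T ≠ ⊥) :
    (∃! M : Subgroup G, IsCoatom M ∧ (R : Subgroup G) ≤ M) ↔
      ((∃ M : Subgroup G, IsCoatom M ∧ ¬ r ∣ M.index) ∧
        ∀ M₁ M₂ : Subgroup G, IsCoatom M₁ → ¬ r ∣ M₁.index → IsCoatom M₂ → ¬ r ∣ M₂.index → ∃ g : G, M₂ = M₁.map (MulAut.conj g).toMonoidHom) := by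
  classical
  open Cfsg.Agent.Lib.Coprime in
  have hRindex : ∀ M : Subgroup G, (R : Subgroup G) ≤ M → ¬ r ∣ M.index := by
    intro M hM h
    exact R.not_dvd_index (h.trans (Subgroup.index_dvd_of_le hM))
  constructor
  · rintro ⟨M, ⟨hMc, hRM⟩, hMu⟩
    refine ⟨⟨M, hMc, hRindex M hRM⟩, ?_⟩
    have key : ∀ M₁ : Subgroup G, IsCoatom M₁ → ¬ r ∣ M₁.index →
        ∃ g : G, M = M₁.map (MulAut.conj g).toMonoidHom := by
      intro M₁ h1 h2
      obtain ⟨g, hg⟩ := exists_le_conj_of_not_dvd_index (R.isPGroup') M₁ h2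
      exact ⟨g, (hMu _ ⟨isCoatom_conj_map h1 g, hg⟩).symm⟩
    intro M₁ M₂ h1 h1' h2 h2'
    obtain ⟨g, hg⟩ := key M₁ h1 h1'
    obtain ⟨k, hk⟩ := key M₂ h2 h2'
    refine ⟨k⁻¹ * g, ?_⟩
    rw [← conj_map_conj_map, ← hg, hk, conj_map_conj_map, inv_mul_cancel, conj_map_one]
  · rintro ⟨⟨M, hMc, hMr⟩, hconj⟩
    have hN := Cfsg.Agent.S3859.normalizer_inf_ne_top T hT hna R hR0
    obtain ⟨M₀, hM₀c, hM₀⟩ := exists_coatom_ge hN
    have hnorm : Subgroup.normalizer ((R : Subgroup G) : Set G) ≤ M₀ := by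
      refine le_trans ?_ hM₀
      intro x hx
      rw [Subgroup.mem_normalizer_iff] at hx ⊢
      intro y
      have hT' : (T : Subgroup G).Normal := inferInstance
      rw [Subgroup.mem_inf, Subgroup.mem_inf]
      constructor
      · rintro ⟨hy1, hy2⟩
        exact ⟨(hx y).mp hy1, hT'.conj_mem y hy2 x⟩
      · rintro ⟨hy1, hy2⟩
        refine ⟨(hx y).mpr hy1, ?_⟩
        have := hT'.conj_mem _ hy2 x⁻¹
        simpa [mul_assoc] using this
    have hRM₀ : (R : Subgroup G) ≤ M₀ := by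
      refine le_trans ?_ hnorm
      exact Subgroup.le_normalizer
    refine ⟨M₀, ⟨hM₀c, hRM₀⟩, ?_⟩
    rintro M₁ ⟨hM₁c, hRM₁⟩
    obtain ⟨g, hg⟩ := hconj M₀ M₁ hM₀c (hRindex M₀ hRM₀) hM₁c (hRindex M₁ hRM₁)
    -- R ≤ M₀^g
    obtain ⟨Q, hQ⟩ := exists_sylow_eq_conj R g⁻¹
    have hQM : (Q : Subgroup G) ≤ M₀ := by
      rw [hQ]
      intro x hx
      rw [mem_conj_map] at hx
      have h1 : (g⁻¹)⁻¹ * x * g⁻¹ ∈ M₁ := hRM₁ hx
      rw [hg, mem_conj_map] at h1
      simpa [mul_assoc] using h1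
    obtain ⟨m, hm, hme⟩ := sylow_conj_in R Q hRM₀ hQM
    have hn : m⁻¹ * g⁻¹ ∈ Subgroup.normalizer ((R : Subgroup G) : Set G) := by
      rw [← conj_map_eq_iff_mem_normalizer, ← conj_map_conj_map, ← hQ, hme, conj_map_conj_map,
        inv_mul_cancel, conj_map_one]
    have hgm : g ∈ M₀ := by
      have h1 := hnorm hn
      have h2 : (m⁻¹ * g⁻¹)⁻¹ ∈ M₀ := inv_mem h1
      have h3 : g = (m⁻¹ * g⁻¹)⁻¹ * m⁻¹ := by group
      rw [h3]
      exact mul_mem h2 (inv_mem hm)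
    rw [hg]
    have hgn : g ∈ Subgroup.normalizer (M₀ : Set G) := Subgroup.le_normalizer hgm
    exact (conj_map_eq_iff_mem_normalizer M₀ g).mpr hgn

end Cfsg.Agent.S3858
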