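import Cfsg.Statements.S3861
-- import your own Cfsg.Agent.* helpers here
import Mathlib
import Cfsg.Agent.S0199
import Cfsg.Agent.Lib.PGroups.Coset
import Cfsg.Agent.Lib.PGroups.Parts
import Cfsg.Agent.Lib.Coprime.Conj

set_option autoImplicit false
open Cfsg

namespace Cfsg.Agent.S3861

open Subgroup in
theorem key.{u} : ∀ (n : ℕ) {G : Type u} [Group G] [Finite G], Nat.card G = n →
    (∀ x : G, x ≠ 1 → Odd (orderOf x) → ¬ IsConj x x⁻¹) →
    ∃ Q : Subgroup G, Q.Normal ∧ IsPGroup 2 Q ∧ ¬ 2 ∣ Q.index := by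
  intro n
  induction n using Nat.strong_induction_on with
  | _ n IH =>
  intro G _ _ hn hreal
  classical
  by_cases h2 : 2 ∣ Nat.card G
  swap
  · refine ⟨⊥, inferInstance, IsPGroup.of_bot, ?_⟩
    rwa [Subgroup.index_bot]
  obtain ⟨t, ht⟩ := exists_prime_orderOf_dvd_card' 2 h2
  have htt : t * t = 1 := by
    have := pow_orderOf_eq_one t
    rw [ht, pow_two] at this
    exact this
  have htinv : t⁻¹ = t := inv_eq_of_mul_eq_one_left htt
  have htne : t ≠ 1 := by
    intro h
    rw [h, orderOf_one] at ht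
    omega
  have hX : IsPGroup 2 (zpowers t) := by
    rw [Cfsg.Agent.Lib.PGroups.isPGroup_zpowers_iff]
    exact ⟨1, by rw [ht, pow_one]⟩
  have hmain : ∀ g : G, IsPGroup 2 ↥(zpowers t ⊔ (zpowers t).map (MulAut.conj g).toMonoidHom) := by
    intro g
    obtain ⟨s, hs⟩ : ∃ s, s = g * t * g⁻¹ := ⟨_, rfl⟩
    have hss : s * s = 1 := by
      rw [hs]
      calc g * t * g⁻¹ * (g * t * g⁻¹) = g * (t * t) * g⁻¹ := by group
        _ = 1 := by rw [htt]; group
    have hsinv : s⁻¹ = s := inv_eq_of_mul_eq_one_left hss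
    obtain ⟨w, hw⟩ : ∃ w, w = t * s := ⟨_, rfl⟩
    have hconj : t * w * t⁻¹ = w⁻¹ := by
      rw [hw, htinv, mul_inv_rev, hsinv, htinv]
      calc t * (t * s) * t = (t * t) * s * t := by group
        _ = s * t := by rw [htt, one_mul]
    have hconjz : ∀ i : ℤ, t * w ^ i * t⁻¹ = (w ^ i)⁻¹ := by
      intro i
      have h1 : t * w ^ i * t⁻¹ = (t * w * t⁻¹) ^ i := by
        rw [conj_zpow]
      rw [h1, hconj, inv_zpow]
    have hw2 : IsPGroup 2 (zpowers w) := by
      rw [Cfsg.Agent.Lib.PGroups.isPGroup_zpowers_iff]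
      obtain ⟨a, b, hab, hcomm, ha, hb, ha2, hb2⟩ := Cfsg.Agent.Lib.PGroups.exists_pPart 2 w
      have hb1 : b = 1 := by
        by_contra hne
        obtain ⟨i, rfl⟩ := hb2
        refine hreal _ hne (Nat.not_even_iff_odd.mp (fun h => hb h.two_dvd)) ?_
        exact isConj_iff.mpr ⟨t, hconjz i⟩
      rw [hb1, mul_one] at hab
      rw [hab]
      exact ha
    have hnorm : zpowers t ≤ normalizer ((zpowers w : Subgroup G) : Set G) := by
      rw [zpowers_le, mem_normalizer_iff]
      intro h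
      constructor
      · rintro ⟨i, rfl⟩
        refine ⟨-i, ?_⟩
        show w ^ (-i) = _
        rw [hconjz i, zpow_neg]
      · rintro ⟨i, hi⟩
        have h1 : h = t * (t * h * t⁻¹) * t⁻¹ := by
          rw [htinv]
          calc h = (t * t) * h * (t * t) := by rw [htt]; group
            _ = _ := by group
        rw [h1]
        simp only at hi
        rw [← hi]
        refine ⟨-i, ?_⟩
        show w ^ (-i) = _
        rw [hconjz i, zpow_neg]
    have h3 : IsPGroup 2 ↥(zpowers t ⊔ zpowers w) := IsPGroup.to_sup_of_normal_right' hX hw2 hnorm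
    refine h3.to_le ?_
    refine sup_le le_sup_left ?_
    rw [MonoidHom.map_zpowers, zpowers_le]
    have h4 : (MulAut.conj g).toMonoidHom t = t * w := by
      show g * t * g⁻¹ = _
      rw [hw, ← mul_assoc, htt, one_mul, hs]
    rw [h4]
    exact mul_mem ((le_sup_left : zpowers t ≤ zpowers t ⊔ zpowers w) (mem_zpowers t))
      ((le_sup_right : zpowers w ≤ zpowers t ⊔ zpowers w) (mem_zpowers w))
  obtain ⟨N, hNn, hNp, hXN⟩ := Cfsg.Agent.S0199.result (zpowers t) hX hmain
  have htN : t ∈ N := hXN (mem_zpowers t)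
  haveI := hNn
  have hcardN : 2 ≤ Nat.card N := by
    have h3 : 1 < Nat.card N := by
      rw [Finite.one_lt_card_iff_nontrivial]
      exact ⟨⟨⟨t, htN⟩, 1, fun h => htne (congrArg Subtype.val h)⟩⟩
    omega
  have hcard : Nat.card (G ⧸ N) < n := by
    have h1 := N.card_mul_index
    rw [Subgroup.index_eq_card] at h1
    have hpos : 0 < Nat.card (G ⧸ N) := Nat.card_pos
    rw [← hn, ← h1]
    nlinarith
  have hreal' : ∀ x : G ⧸ N, x ≠ 1 → Odd (orderOf x) → ¬ IsConj x x⁻¹ := by
    intro x hx hodd hc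
    obtain ⟨r, hr, hrd⟩ := Nat.exists_prime_and_dvd (n := orderOf x) (by
      intro h
      exact hx (orderOf_eq_one_iff.mp h))
    haveI : Fact r.Prime := ⟨hr⟩
    have hrodd : Odd r := hodd.of_dvd_nat hrd
    obtain ⟨y, hy⟩ : ∃ y, y = x ^ (orderOf x / r) := ⟨_, rfl⟩
    have hyo : orderOf y = r := by
      rw [hy]
      exact orderOf_pow_orderOf_div (orderOf_pos x).ne' hrd
    have hyne : y ≠ 1 := by
      intro h
      rw [h, orderOf_one] at hyo
      exact hr.one_lt.ne hyo
    have hyc : IsConj y y⁻¹ := by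
      rw [hy, ← inv_pow]
      exact hc.pow _
    obtain ⟨a, ha, k, hk⟩ := Cfsg.Agent.Lib.PGroups.exists_pElement_lift (QuotientGroup.mk' N)
      (QuotientGroup.mk'_surjective N) (y := y) ⟨1, by rw [hyo, pow_one]⟩
    obtain ⟨gb, hgb⟩ := isConj_iff.mp hyc
    obtain ⟨g, rfl⟩ := QuotientGroup.mk'_surjective N gb
    have hane : a ≠ 1 := by
      rintro rfl
      apply hyne
      rw [← ha, map_one]
    have hcoprime : (Nat.card N).Coprime r := by
      obtain ⟨m, hm⟩ := IsPGroup.iff_card.mp hNp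
      rw [hm]
      apply Nat.Coprime.pow_left
      exact (Nat.coprime_primes Nat.prime_two hr).mpr (by
        rintro rfl
        exact (Nat.not_even_iff_odd.mpr hrodd) even_two)
    have hmem : (a⁻¹)⁻¹ * (g * a * g⁻¹) ∈ N := by
      rw [← QuotientGroup.ker_mk' N, MonoidHom.mem_ker]
      rw [inv_inv, map_mul, map_mul, map_mul, ha, map_inv, hgb, mul_inv_cancel]
    obtain ⟨n', hn', hcn⟩ := Cfsg.Agent.Lib.PGroups.conj_of_pElement_coset N hcoprime
      (x := a⁻¹) (y := g * a * g⁻¹) ⟨k, by rw [orderOf_inv, hk]⟩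
      ⟨k, by rw [← hk]; exact Cfsg.Agent.Lib.PGroups.orderOf_conj_eq g a⟩ hmem
    refine hreal a hane ?_ ?_
    · rw [hk]
      exact hrodd.pow
    · have h1 : IsConj a (g * a * g⁻¹) := isConj_iff.mpr ⟨g, rfl⟩
      have h2' : IsConj a⁻¹ (g * a * g⁻¹) := isConj_iff.mpr ⟨n', hcn.symm⟩
      exact h1.trans h2'.symm
  obtain ⟨Qb, hQn, hQp, hQi⟩ := IH _ hcard rfl hreal'
  refine ⟨Qb.comap (QuotientGroup.mk' N), hQn.comap _, ?_, ?_⟩
  · apply hQp.comap_of_ker_isPGroup
    rw [QuotientGroup.ker_mk']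
    exact hNp
  · rw [Subgroup.index_comap_of_surjective _ (QuotientGroup.mk'_surjective N)]
    exact hQi

/-- A finite group G has no non-identity element of odd order that is conjugate to its inverse if and only if the Sylow 2-subgroups of G are normal. -/
theorem result {G : Type*} [Group G] [Finite G] (P : Sylow 2 G) : (∀ x : G, x ≠ 1 → Odd (orderOf x) → ¬ IsConj x x⁻¹) ↔ (P : Subgroup G).Normal := by
  constructor
  · intro h
    obtain ⟨Q, hQn, hQp, hQi⟩ := key _ rfl h
    have h1 : ((IsPGroup.toSylow hQp hQi : Sylow 2 G) : Subgroup G) = Q := IsPGroup.toSylow_coe hQp hQi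
    haveI hn' : ((IsPGroup.toSylow hQp hQi : Sylow 2 G) : Subgroup G).Normal := by
      rw [h1]
      exact hQn
    have h2 := (Sylow.unique_of_normal (IsPGroup.toSylow hQp hQi) hn').uniq P
    have h3 := (Sylow.unique_of_normal (IsPGroup.toSylow hQp hQi) hn').uniq (IsPGroup.toSylow hQp hQi)
    rw [h2, ← h3]
    exact hn'
  · intro hP x hx hodd hc
    obtain ⟨g, hg⟩ := isConj_iff.mp hc
    have hm : ¬ 2 ∣ (P : Subgroup G).index := P.not_dvd_index
    have hmo : Odd (P : Subgroup G).index := Nat.not_even_iff_odd.mp (fun h => hm h.two_dvd)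
    obtain ⟨e, he⟩ : ∃ e, e = g ^ (P : Subgroup G).index := ⟨_, rfl⟩
    have heP : e ∈ (P : Subgroup G) := by
      rw [he]
      exact Subgroup.pow_index_mem _ _
    have hall : ∀ m : ℕ, g ^ m * x * (g ^ m)⁻¹ = x ^ ((-1 : ℤ) ^ m) := by
      intro m
      induction m with
      | zero => simp
      | succ m ih =>
        have h1 : g ^ (m + 1) * x * (g ^ (m + 1))⁻¹ = g * (g ^ m * x * (g ^ m)⁻¹) * g⁻¹ := by
          rw [pow_succ']
          group
        rw [h1, ih, ← conj_zpow, hg, inv_zpow', pow_succ]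
        congr 1
        ring
    have hex : e * x * e⁻¹ = x⁻¹ := by
      rw [he, hall, hmo.neg_one_pow, zpow_neg_one]
    have hx2 : x⁻¹ * x⁻¹ ∈ (P : Subgroup G) := by
      have h1 : e * (x * e⁻¹ * x⁻¹) = x⁻¹ * x⁻¹ := by
        rw [← hex]
        group
      rw [← h1]
      exact mul_mem heP (hP.conj_mem _ (inv_mem heP) _)
    obtain ⟨k, hk⟩ := P.isPGroup' ⟨_, hx2⟩
    have hk' : (x⁻¹ * x⁻¹) ^ 2 ^ k = 1 := by
      have := congrArg Subtype.val hk
      simpa using this
    have h3 : orderOf x⁻¹ ∣ 2 ^ (k + 1) := by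
      apply orderOf_dvd_of_pow_eq_one
      rw [pow_succ', pow_mul, pow_two]
      exact hk'
    rw [orderOf_inv] at h3
    have h4 : orderOf x = 1 := by
      have h5 : (orderOf x).Coprime (2 ^ (k + 1)) :=
        Nat.Coprime.pow_right _ (Nat.coprime_two_right.mpr hodd)
      exact Nat.eq_one_of_dvd_coprimes h5 dvd_rfl h3
    exact hx (orderOf_eq_one_iff.mp h4)

end Cfsg.Agent.S3861
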