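import Cfsg.Statements.S3862
-- import your own Cfsg.Agent.* helpers here
import Mathlib
import Cfsg.Agent.Lib.Transfer.Frobenius
import Cfsg.Agent.Lib.Transfer.Frattini
import Cfsg.Agent.Lib.PGroups.Parts
import Cfsg.Agent.Lib.Coprime.Wielandt

set_option autoImplicit false
open Cfsg

namespace Cfsg.Agent.S3862

open Subgroup in
theorem main {G : Type*} [Group G] [Finite G]
    (h : ∀ x : G, (∃ j : ℕ, orderOf x = 2 ^ j) → IsConj x x⁻¹ → x ∈ Subgroup.center G) :
    ∀ (n : ℕ) (D : Subgroup G), Nat.card D = n → IsPGroup 2 D → ∀ g ∈ normalizer (D : Set G),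
      (orderOf g).Coprime 2 → g ∈ centralizer (D : Set G) := by
  intro n
  induction n using Nat.strong_induction_on with
  | _ n IH =>
  intro D hn hD g hg hc
  classical
  by_cases hbot : D = ⊥
  · subst hbot
    rw [mem_centralizer_iff]
    intro x hx
    have hx1 : x = 1 := by simpa using hx
    rw [hx1, one_mul, mul_one]
  have hgD : ∀ x ∈ D, g * x * g⁻¹ ∈ D := fun x hx => (mem_normalizer_iff.mp hg x).mp hx
  obtain ⟨Ψ, hΨ⟩ : ∃ Ψ : Subgroup G, Ψ = closure ((fun x : D => (x : G) ^ 2) '' Set.univ) := ⟨_, rfl⟩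
  have hsq : ∀ x ∈ D, x ^ 2 ∈ Ψ := by
    intro x hx
    rw [hΨ]
    exact subset_closure ⟨⟨x, hx⟩, Set.mem_univ _, rfl⟩
  have hΨD : Ψ ≤ D := by
    rw [hΨ, closure_le]
    rintro _ ⟨x, -, rfl⟩
    exact pow_mem x.2 2
  haveI : Nontrivial D := by
    rw [Subgroup.nontrivial_iff_ne_bot]
    exact hbot
  obtain ⟨M, hM⟩ : ∃ M : Subgroup D, IsCoatom M := by
    obtain h1 | ⟨M, hM, -⟩ := eq_top_or_exists_le_coatom (⊥ : Subgroup D)
    · exact absurd h1 bot_ne_top
    · exact ⟨M, hM⟩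
  have hΨne : Ψ ≠ D := by
    intro heq
    have hall : ∀ x : D, x ∈ M := by
      intro x
      have h1 : (x : G) ∈ Ψ := heq ▸ x.2
      have h2 : Ψ ≤ M.map D.subtype := by
        rw [hΨ, closure_le]
        rintro _ ⟨z, -, rfl⟩
        exact ⟨z ^ 2, Cfsg.Agent.Lib.Transfer.pow_mem_of_isCoatom
          (p := 2) hD hM z, rfl⟩
      obtain ⟨y, hy, hyx⟩ := h2 h1
      have : y = x := Subtype.ext hyx
      exact this ▸ hy
    exact hM.1 (eq_top_iff.mpr fun x _ => hall x)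
  have hlt : Nat.card Ψ < n := by
    rw [← hn]
    exact Cfsg.Agent.Lib.Coprime.Wielandt.card_lt_of_lt' (lt_of_le_of_ne hΨD hΨne)
  have hgΨ : g ∈ normalizer (Ψ : Set G) := by
    rw [← Cfsg.Agent.Lib.Coprime.conj_map_eq_iff_mem_normalizer]
    apply Subgroup.eq_of_le_of_card_ge
    · rw [Subgroup.map_le_iff_le_comap]
      conv_lhs => rw [hΨ]
      rw [closure_le]
      rintro _ ⟨x, -, rfl⟩
      show g * (x : G) ^ 2 * g⁻¹ ∈ Ψ
      rw [← conj_pow]
      exact hsq _ (hgD _ x.2)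
    · rw [Cfsg.Agent.Lib.Coprime.card_conj_map]
  have hcen := IH _ hlt Ψ rfl (hD.to_le hΨD) g hgΨ hc
  have hfix : ∀ x ∈ D, g * x ^ 2 * g⁻¹ = x ^ 2 := by
    intro x hx
    have h1 := mem_centralizer_iff.mp hcen _ (hsq x hx)
    rw [← h1]
    group
  rw [mem_centralizer_iff]
  intro x hx
  obtain ⟨y, hy⟩ : ∃ y, y = g * x * g⁻¹ := ⟨_, rfl⟩
  have hyD : y ∈ D := hy ▸ hgD x hx
  have hy2 : y ^ 2 = x ^ 2 := by
    rw [hy, conj_pow]
    exact hfix x hx
  obtain ⟨w, hw⟩ : ∃ w, w = x * y⁻¹ := ⟨_, rfl⟩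
  have hwD : w ∈ D := hw ▸ mul_mem hx (inv_mem hyD)
  have hreal : IsConj w w⁻¹ := by
    refine isConj_iff.mpr ⟨y, ?_⟩
    rw [hw, mul_inv_rev, inv_inv]
    have h1 : x * y⁻¹ * y⁻¹ = x⁻¹ := by
      have h2 : x * x = y * y := by
        rw [← pow_two, ← pow_two, hy2]
      calc x * y⁻¹ * y⁻¹ = x * (y * y)⁻¹ := by group
        _ = x * (x * x)⁻¹ := by rw [h2]
        _ = x⁻¹ := by group
    calc y * (x * y⁻¹) * y⁻¹ = y * (x * y⁻¹ * y⁻¹) := by group
      _ = y * x⁻¹ := by rw [h1]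
  obtain ⟨j, hj⟩ := Cfsg.Agent.Lib.PGroups.exists_orderOf_of_mem_isPGroup hD hwD
  have hwc := h w ⟨j, hj⟩ hreal
  have hwcomm : ∀ z : G, z * w = w * z := fun z => (Subgroup.mem_center_iff.mp hwc z)
  have hyx : g * x * g⁻¹ = w⁻¹ * x := by
    rw [← hy, hw, mul_inv_rev, inv_inv]
    group
  have hpow : ∀ m : ℕ, g ^ m * x * (g ^ m)⁻¹ = (w⁻¹) ^ m * x := by
    intro m
    induction m with
    | zero => simp
    | succ m ih =>
      have h1 : g ^ (m + 1) * x * (g ^ (m + 1))⁻¹ = g * (g ^ m * x * (g ^ m)⁻¹) * g⁻¹ := by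
        rw [pow_succ']
        group
      have hcw : g * w⁻¹ * g⁻¹ = w⁻¹ := by
        have h2 := hwcomm g
        have h3 : g * w⁻¹ = w⁻¹ * g := by
          rw [mul_inv_eq_iff_eq_mul, mul_assoc, eq_inv_mul_iff_mul_eq]
          exact h2.symm
        rw [h3]
        group
      have h4 : g * (w⁻¹ ^ m * x) * g⁻¹ = (g * w⁻¹ * g⁻¹) ^ m * (g * x * g⁻¹) := by
        rw [conj_pow]
        group
      rw [h1, ih, h4, hcw, hyx, pow_succ]
      group
  have hm := hpow (orderOf g)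
  rw [pow_orderOf_eq_one, one_mul, inv_one, mul_one] at hm
  have hvm : (w⁻¹) ^ orderOf g = 1 := by
    have : (w⁻¹) ^ orderOf g * x = 1 * x := by rw [one_mul]; exact hm.symm
    exact mul_right_cancel this
  have hw1 : w = 1 := by
    have h1 : orderOf w ∣ orderOf g := by
      rw [← orderOf_inv]
      exact orderOf_dvd_of_pow_eq_one hvm
    have h2 : (orderOf g).Coprime (2 ^ j) := Nat.Coprime.pow_right _ hc
    have h3 : orderOf w = 1 := Nat.eq_one_of_dvd_coprimes h2 h1 (by rw [hj])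
    exact orderOf_eq_one_iff.mp h3
  rw [hw1, inv_one, one_mul] at hyx
  calc x * g = (g * x * g⁻¹) * g := by rw [hyx]
    _ = g * x := by group

/-- If every 2-element of the finite group G that is conjugate to its inverse lies in the centre of G, then G has a normal 2-complement. -/
theorem result {G : Type*} [Group G] [Finite G] (h : ∀ x : G, (∃ j : ℕ, orderOf x = 2 ^ j) → IsConj x x⁻¹ → x ∈ Subgroup.center G) : Cfsg.HasNormalPComplement 2 G := by
  rw [Cfsg.Agent.Lib.Transfer.hasNormalPComplement_iff_stable]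
  intro D hD g hg hc
  exact main h _ D rfl hD g hg hc

end Cfsg.Agent.S3862
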