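import Cfsg.Statements.S3863
-- import your own Cfsg.Agent.* helpers here
import Mathlib
import Cfsg.Agent.Lib.Struct.Basic

set_option autoImplicit false
open Cfsg

namespace Cfsg.Agent.S3863

theorem exists_two_element {G : Type*} [Group G] [Finite G] (x : G) (hx : IsConj x x⁻¹) :
    ∃ t : G, (∃ j : ℕ, orderOf t = 2 ^ j) ∧ t * x * t⁻¹ = x⁻¹ := by
  obtain ⟨g, hg⟩ := isConj_iff.mp hx
  have hpow : ∀ k : ℕ, g ^ k * x * (g ^ k)⁻¹ = if Even k then x else x⁻¹ := by
    intro k
    induction k with
    | zero => simp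
    | succ k ih =>
      have e : g ^ (k + 1) * x * (g ^ (k + 1))⁻¹ = g ^ k * (g * x * g⁻¹) * (g ^ k)⁻¹ := by
        rw [pow_succ]; group
      rw [e, hg]
      have e2 : g ^ k * x⁻¹ * (g ^ k)⁻¹ = (g ^ k * x * (g ^ k)⁻¹)⁻¹ := by group
      rw [e2, ih]
      by_cases hk : Even k
      · have hk' : ¬ Even (k + 1) := by simpa [Nat.even_add_one] using hk
        simp [hk, hk']
      · have hk' : Even (k + 1) := by simpa [Nat.even_add_one] using hk
        simp [hk, hk']
  -- odd part
  have hord : orderOf g ≠ 0 := (orderOf_pos g).ne'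
  obtain ⟨a, m, hm, hgm⟩ := Nat.exists_eq_two_pow_mul_odd hord
  refine ⟨g ^ m, ⟨a, ?_⟩, ?_⟩
  · rw [orderOf_pow' g hm.pos.ne', hgm]
    have hc : Nat.gcd (2 ^ a * m) m = m := Nat.gcd_eq_right (Dvd.intro_left _ rfl)
    rw [hc]
    exact Nat.mul_div_cancel _ hm.pos
  · rw [hpow m, if_neg (Nat.not_even_iff_odd.mpr hm)]

/-- Let x be an element of the finite group G that is conjugate to its inverse. Then some 2-element conjugates x to its inverse; if the conjugacy class of x has odd size then x ^ 2 = 1; and x lies in, and is conjugate to its inverse inside, every normal subgroup of odd index. -/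
theorem result {G : Type*} [Group G] [Finite G] (x : G) (hx : IsConj x x⁻¹) : (∃ t : G, (∃ j : ℕ, orderOf t = 2 ^ j) ∧ t * x * t⁻¹ = x⁻¹) ∧ (Odd (Subgroup.centralizer ({x} : Set G)).index → x ^ 2 = 1) ∧ ∀ (N : Subgroup G) [N.Normal], Odd N.index → ∃ hxN : x ∈ N, IsConj (⟨x, hxN⟩ : N) (⟨x, hxN⟩ : N)⁻¹ := by
  obtain ⟨t, ⟨j, hj⟩, ht⟩ := exists_two_element x hx
  refine ⟨⟨t, ⟨j, hj⟩, ht⟩, ?_, ?_⟩
  · intro hodd
    classical
    -- inversion on the class
    let C := {y : G // IsConj x y}
    haveI : Fintype C := Fintype.ofFinite C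
    let σ : Equiv.Perm C :=
      { toFun := fun y => ⟨y.1⁻¹, by
          have h1 : IsConj x⁻¹ y.1⁻¹ := isConj_iff.mpr (by
            obtain ⟨c, hc⟩ := isConj_iff.mp y.2
            exact ⟨c, by rw [← hc]; group⟩)
          exact hx.trans h1⟩
        invFun := fun y => ⟨y.1⁻¹, by
          have h1 : IsConj x⁻¹ y.1⁻¹ := isConj_iff.mpr (by
            obtain ⟨c, hc⟩ := isConj_iff.mp y.2
            exact ⟨c, by rw [← hc]; group⟩)
          exact hx.trans h1⟩
        left_inv := fun y => Subtype.ext (inv_inv _)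
        right_inv := fun y => Subtype.ext (inv_inv _) }
    have hσ : σ ^ 2 = 1 := by
      refine Equiv.ext fun y => Subtype.ext ?_
      show (y.1)⁻¹⁻¹ = y.1
      exact inv_inv _
    have hcard : Fintype.card C = (Subgroup.centralizer ({x} : Set G)).index := by
      rw [← Nat.card_eq_fintype_card]
      exact Cfsg.Agent.Lib.Struct.card_isConj_eq_index x
    have hnot : ¬ 2 ∣ Fintype.card C := by
      rw [hcard]
      exact hodd.not_two_dvd_nat
    have h2 := Equiv.Perm.two_dvd_card_support hσ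
    have hfix : ∃ y : C, σ y = y := by
      by_contra hno
      push Not at hno
      apply hnot
      have : σ.support = Finset.univ := by
        ext y
        simp [Equiv.Perm.mem_support, hno y]
      rwa [this, Finset.card_univ] at h2
    obtain ⟨y, hy⟩ := hfix
    have hy1 : (y.1)⁻¹ = y.1 := congrArg Subtype.val hy
    obtain ⟨c, hc⟩ := isConj_iff.mp y.2
    have h3 : y.1 ^ 2 = 1 := by
      rw [pow_two]
      nth_rewrite 1 [← hy1]
      simp
    rw [← hc] at h3
    have h4 : c * x ^ 2 * c⁻¹ = 1 := by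
      rw [← h3, pow_two, pow_two]
      group
    have h5 : x ^ 2 = c⁻¹ * (c * x ^ 2 * c⁻¹) * c := by group
    rw [h5, h4]
    group
  · intro N _ hodd
    have hodd' : Odd (Nat.card (G ⧸ N)) := by rwa [← Subgroup.index_eq_card]
    let f := QuotientGroup.mk' N
    -- `t ∈ N`
    have htN : t ∈ N := by
      have h1 : f t ^ 2 ^ j = 1 := by
        rw [← map_pow, ← hj, pow_orderOf_eq_one, map_one]
      have h2 : f t ^ Nat.card (G ⧸ N) = 1 := pow_card_eq_one'
      have hco : Nat.Coprime (2 ^ j) (Nat.card (G ⧸ N)) :=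
        Nat.Coprime.pow_left j (Nat.coprime_two_left.mpr hodd')
      have h3 : f t = 1 := by
        have := (pow_gcd_eq_one (a := f t)).mpr ⟨h1, h2⟩
        rwa [hco.gcd_eq_one, pow_one] at this
      rw [← MonoidHom.mem_ker, QuotientGroup.ker_mk'] at h3
      exact h3
    -- `x ∈ N`
    have hxN : x ∈ N := by
      have h1 : f x⁻¹ = f x := by
        rw [← ht, map_mul, map_mul, map_inv]
        have : f t = 1 := by
          rw [← MonoidHom.mem_ker, QuotientGroup.ker_mk']
          exact htN
        rw [this]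
        simp
      have h2 : f x ^ 2 = 1 := by
        rw [map_inv] at h1
        rw [pow_two]
        nth_rewrite 1 [← h1]
        simp
      have h3 : f x ^ Nat.card (G ⧸ N) = 1 := pow_card_eq_one'
      have hco : Nat.Coprime 2 (Nat.card (G ⧸ N)) := Nat.coprime_two_left.mpr hodd'
      have h4 : f x = 1 := by
        have := (pow_gcd_eq_one (a := f x)).mpr ⟨h2, h3⟩
        rwa [hco.gcd_eq_one, pow_one] at this
      rw [← MonoidHom.mem_ker, QuotientGroup.ker_mk'] at h4
      exact h4
    refine ⟨hxN, isConj_iff.mpr ⟨⟨t, htN⟩, Subtype.ext ?_⟩⟩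
    exact ht

end Cfsg.Agent.S3863
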