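import Cfsg.Statements.S3864
-- import your own Cfsg.Agent.* helpers here
import Mathlib
import Cfsg.Agent.S0111
import Cfsg.Agent.Lib.Transfer.Basic

set_option autoImplicit false
open Cfsg

namespace Cfsg.Agent.S3864

open Cfsg.Agent.Lib.Transfer DihedralGroup Subgroup

section D
variable {m : ℕ} [NeZero m]

theorem dih_invol {h' : ℕ} (hm : m = 4 * h') {x : DihedralGroup m} (hx : x * x = 1) (hne : x ≠ 1) :
    x = r ((2 * h' : ℕ) : ZMod m) ∨ ∃ i, x = sr i := by
  rcases x with i | i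
  · left
    rw [r_mul_r, one_def, r.injEq] at hx
    have h1 : ((2 * i.val : ℕ) : ZMod m) = 0 := by
      push_cast
      rw [ZMod.natCast_zmod_val, two_mul, hx]
    rw [ZMod.natCast_eq_zero_iff] at h1
    have hlt := ZMod.val_lt i
    obtain ⟨q, hq⟩ := h1
    have hq' : 2 * i.val = 4 * h' * q := by
      rw [← hm]
      exact hq
    have hlt' : i.val < 4 * h' := by
      rw [← hm]
      exact hlt
    have hval : i.val = 2 * h' * q := by nlinarith
    have hq2 : q = 0 ∨ q = 1 := by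
      have hpos : 0 < h' := by
        rcases Nat.eq_zero_or_pos h' with h0 | h0
        · exfalso
          rw [h0] at hm
          exact (NeZero.ne m) (by simpa using hm)
        · exact h0
      have : 2 * h' * q < 4 * h' := by
        rw [← hval]
        exact hlt'
      have : q < 2 := by nlinarith
      omega
    rcases hq2 with rfl | rfl
    · exfalso
      apply hne
      rw [one_def, r.injEq]
      have h2 : i.val = 0 := by rw [hval]; ring
      exact (ZMod.val_eq_zero i).mp h2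
    · rw [r.injEq]
      have h3 : i.val = 2 * h' := by rw [hval]; ring
      rw [← h3, ZMod.natCast_zmod_val]
  · right
    exact ⟨i, rfl⟩

theorem dih_conj_sr (i : ZMod m) : (∃ k : ZMod m, r k * sr i * (r k)⁻¹ = sr 0) ∨
    (∃ k : ZMod m, r k * sr i * (r k)⁻¹ = sr 1) := by
  have hform : ∀ k : ZMod m, r k * sr i * (r k)⁻¹ = sr (i - k - k) := by
    intro k
    rw [r_mul_sr, inv_r, sr_mul_r]
    congr 1
    ring
  rcases Nat.even_or_odd' i.val with ⟨w, hw | hw⟩
  · left
    refine ⟨(w : ZMod m), ?_⟩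
    rw [hform]
    congr 1
    have : i = (i.val : ZMod m) := (ZMod.natCast_zmod_val i).symm
    rw [this, hw]
    push_cast
    ring
  · right
    refine ⟨(w : ZMod m), ?_⟩
    rw [hform]
    congr 1
    have : i = (i.val : ZMod m) := (ZMod.natCast_zmod_val i).symm
    rw [this, hw]
    push_cast
    ring

theorem two_mul_ne_one (h2 : 2 ∣ m) (i : ZMod m) : i + i ≠ 1 := by
  intro e
  have h1 := congrArg (ZMod.castHom h2 (ZMod 2)) e
  rw [map_add, map_one, CharTwo.add_self_eq_zero] at h1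
  exact zero_ne_one h1

theorem dih_not_conj (h2 : 2 ∣ m) (x : DihedralGroup m) : x * sr 1 * x⁻¹ ≠ sr 0 := by
  intro e
  rcases x with i | i
  · rw [r_mul_sr, inv_r, sr_mul_r, sr.injEq] at e
    apply two_mul_ne_one h2 i
    have : i + i = 1 - (1 - i + -i) := by ring
    rw [this, e]
    ring
  · rw [sr_mul_sr, inv_sr, r_mul_sr, sr.injEq] at e
    apply two_mul_ne_one h2 i
    have : i + i = (i - (1 - i)) + 1 := by ring
    rw [this, e]
    ring

end D

section Main

variable {G : Type*} [Group G] [Finite G] {m : ℕ} [NeZero m] {ι : DihedralGroup m →* G}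

theorem conj_into_sylow [hf : Fact (Nat.Prime 2)] (P : Sylow 2 G) {g : G} (hg : orderOf g = 2) :
    ∃ x : G, x * g * x⁻¹ ∈ (P : Subgroup G) := by
  have h1 : IsPGroup 2 (zpowers g) := by
    rw [IsPGroup.iff_card, Nat.card_zpowers, hg]
    exact ⟨1, by norm_num⟩
  obtain ⟨Q, hQ⟩ := h1.exists_le_sylow
  obtain ⟨x, hx⟩ := MulAction.exists_smul_eq G Q P
  refine ⟨x, ?_⟩
  rw [← hx]
  exact ⟨g, hQ (mem_zpowers g), rfl⟩

/-- From a Hall complement of a normal subgroup of `2`-power index to `G`. -/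
theorem hnpc_up {R : Subgroup G} [hR : R.Normal] {k : ℕ} (hk : R.index = 2 ^ k)
    (h : Cfsg.HasNormalPComplement 2 ↥R) : Cfsg.HasNormalPComplement 2 G := by
  haveI hf : Fact (Nat.Prime 2) := ⟨Nat.prime_two⟩
  obtain ⟨T, hT, hc, j, hj⟩ := exists_hall_of_hasNormalPComplement h
  haveI := hT
  have hTmem : ∀ y : ↥R, y ∈ T ↔ Nat.Coprime (orderOf y) 2 := mem_iff_coprime_of_hall hc hj
  haveI hn : (T.map R.subtype).Normal := by
    refine ⟨?_⟩
    rintro _ ⟨y, hy, rfl⟩ g
    have hmem : g * (y : G) * g⁻¹ ∈ R := hR.conj_mem _ y.2 g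
    refine ⟨⟨_, hmem⟩, ?_, rfl⟩
    rw [SetLike.mem_coe, hTmem, Subgroup.orderOf_mk]
    have e : orderOf (g * (y : G) * g⁻¹) = orderOf (y : G) := by
      have := orderOf_injective (MulAut.conj g).toMonoidHom (MulAut.conj g).injective (y : G)
      simpa using this
    rw [e, Subgroup.orderOf_coe]
    exact (hTmem y).mp hy
  refine hasNormalPComplement_of_hall (N := T.map R.subtype) (k := j + k) ?_ ?_
  · rw [Subgroup.card_map_of_injective R.subtype_injective]
    exact hc
  · rw [Subgroup.index_map_subtype, hj, hk, pow_add]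

/-- Cyclic Sylow `2`-subgroups give a normal `2`-complement. -/
theorem hnpc_of_cyclic {X : Type*} [Group X] [Finite X] (h : ∀ S : Sylow 2 X, IsCyclic S) :
    Cfsg.HasNormalPComplement 2 X := by
  classical
  haveI hf : Fact (Nat.Prime 2) := ⟨Nat.prime_two⟩
  by_cases h2 : 2 ∣ Nat.card X
  · have hmin : 2 = (Nat.card X).minFac := by
      have := Nat.minFac_le_of_dvd (le_refl 2) h2
      have h3 := (Nat.minFac_prime (n := Nat.card X) (by
        intro h1
        rw [h1] at h2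
        omega)).two_le
      omega
    obtain ⟨S⟩ : Nonempty (Sylow 2 X) := inferInstance
    exact ⟨S, _, MonoidHom.normal_ker _, (h S).isComplement' hmin.symm⟩
  · refine hasNormalPComplement_of_hall (N := (⊤ : Subgroup X)) (k := 0) ?_ (by simp)
    rw [Subgroup.card_top]
    exact ((Nat.Prime.coprime_iff_not_dvd Nat.prime_two).mpr h2).symm


structure DS (P : Sylow 2 G) (ι : DihedralGroup m →* G) (h' : ℕ) : Prop where
  hm : m = 4 * h'
  inj : Function.Injective ι
  rng : ∀ x, x ∈ (P : Subgroup G) ↔ ∃ y, ι y = x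
  card : Nat.card (P : Subgroup G) = 2 * m

variable {P : Sylow 2 G} {h' : ℕ}

theorem DS.two_dvd (h : DS P ι h') : 2 ∣ m := by
  rw [h.hm]
  exact ⟨2 * h', by ring⟩

theorem DS.hpos (h : DS P ι h') : 0 < h' := by
  rcases Nat.eq_zero_or_pos h' with h0 | h0
  · exfalso
    have := h.hm
    rw [h0] at this
    exact (NeZero.ne m) (by simpa using this)
  · exact h0

theorem DS.zsq (h : DS P ι h') : (r ((2 * h' : ℕ) : ZMod m) : DihedralGroup m) * r ((2 * h' : ℕ) : ZMod m) = 1 := by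
  rw [r_mul_r, one_def, r.injEq, ← Nat.cast_add, ZMod.natCast_eq_zero_iff]
  exact ⟨1, by rw [h.hm]; ring⟩

theorem DS.zne (h : DS P ι h') : (r ((2 * h' : ℕ) : ZMod m) : DihedralGroup m) ≠ 1 := by
  rw [one_def]
  intro e
  rw [r.injEq, ZMod.natCast_eq_zero_iff] at e
  have h1 := Nat.le_of_dvd (by have := h.hpos; omega) e
  have h2 := h.hm
  have h3 := h.hpos
  omega

theorem DS.order_z (h : DS P ι h') : orderOf (ι (r ((2 * h' : ℕ) : ZMod m))) = 2 := by
  rw [orderOf_injective ι h.inj]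
  exact orderOf_eq_prime (by rw [pow_two, h.zsq]) h.zne

theorem DS.order_sr (h : DS P ι h') (i : ZMod m) : orderOf (ι (sr i)) = 2 := by
  rw [orderOf_injective ι h.inj, orderOf_sr]

theorem DS.mem (h : DS P ι h') (y : DihedralGroup m) : ι y ∈ (P : Subgroup G) :=
  (h.rng _).mpr ⟨y, rfl⟩

theorem DS.inv_cases (h : DS P ι h') {g : G} (hg : orderOf g = 2) :
    IsConj g (ι (r ((2 * h' : ℕ) : ZMod m))) ∨ IsConj g (ι (sr 0)) ∨ IsConj g (ι (sr 1)) := by
  haveI hf : Fact (Nat.Prime 2) := ⟨Nat.prime_two⟩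
  obtain ⟨x, hx⟩ := conj_into_sylow P hg
  obtain ⟨y, hy⟩ := (h.rng _).mp hx
  have hg2 : g * g = 1 := by rw [← pow_two, ← hg, pow_orderOf_eq_one]
  have hy2 : y * y = 1 := by
    apply h.inj
    rw [map_mul, hy, map_one]
    calc x * g * x⁻¹ * (x * g * x⁻¹) = x * (g * g) * x⁻¹ := by group
      _ = 1 := by rw [hg2]; group
  have hy1 : y ≠ 1 := by
    rintro rfl
    rw [map_one] at hy
    have : g = 1 := by
      have e : x * g = x := by
        calc x * g = (x * g * x⁻¹) * x := by group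
          _ = x := by rw [← hy, one_mul]
      simpa using e
    rw [this, orderOf_one] at hg
    omega
  rcases dih_invol h.hm hy2 hy1 with rfl | ⟨i, rfl⟩
  · left
    rw [isConj_iff]
    exact ⟨x, hy.symm⟩
  · right
    rcases dih_conj_sr i with ⟨k, hk⟩ | ⟨k, hk⟩
    · left
      rw [isConj_iff]
      refine ⟨ι (r k) * x, ?_⟩
      rw [← hk, map_mul, map_mul, map_inv, hy]
      group
    · right
      rw [isConj_iff]
      refine ⟨ι (r k) * x, ?_⟩
      rw [← hk, map_mul, map_mul, map_inv, hy]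
      group

theorem DS.a_order (h : DS P ι h') : orderOf (ι (r 1)) = m := by
  rw [orderOf_injective ι h.inj, orderOf_r_one]

theorem DS.relIndex (h : DS P ι h') : (zpowers (ι (r 1))).relIndex (P : Subgroup G) = 2 := by
  have hle : zpowers (ι (r 1)) ≤ (P : Subgroup G) := by
    rw [zpowers_le]
    exact h.mem _
  have h3 := Subgroup.card_mul_index ((zpowers (ι (r 1))).subgroupOf (P : Subgroup G))
  rw [Nat.card_congr (Subgroup.subgroupOfEquivOfLe hle).toEquiv, Nat.card_zpowers, h.a_order, h.card,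
    mul_comm 2 m] at h3
  exact Nat.eq_of_mul_eq_mul_left (Nat.pos_of_ne_zero (NeZero.ne m)) h3

theorem DS.zpowers_a_iff (h : DS P ι h') {y : DihedralGroup m} (hy : ι y ∈ zpowers (ι (r 1))) :
    ∃ k : ZMod m, y = r k := by
  obtain ⟨k, hk⟩ := hy
  refine ⟨(k : ZMod m), h.inj ?_⟩
  have hk' : (ι (r 1)) ^ k = ι y := hk
  rw [← hk', ← map_zpow, r_one_zpow]

theorem DS.thompson (h : DS P ι h') (i : ZMod m) (hnc : ¬ IsConj (ι (sr i)) (ι (r ((2 * h' : ℕ) : ZMod m)))) :
    ∃ N : Subgroup G, N.Normal ∧ N.index = 2 ∧ ι (sr i) ∉ N := by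
  have hle : zpowers (ι (r 1)) ≤ (P : Subgroup G) := by
    rw [zpowers_le]
    exact h.mem _
  rcases Cfsg.Agent.S0111.result P (zpowers (ι (r 1))) hle h.relIndex (ι (sr i)) (h.order_sr i) (h.mem _)
      (by
        intro hmem
        obtain ⟨k, hk⟩ := h.zpowers_a_iff hmem
        cases hk) with hex | ⟨g, hg⟩
  · exact hex
  · exfalso
    apply hnc
    obtain ⟨k, hk⟩ := hg
    have hk' : (ι (r 1)) ^ k = g * ι (sr i) * g⁻¹ := hk
    rw [← map_zpow, r_one_zpow] at hk'
    have hord : orderOf (ι (r (k : ZMod m))) = 2 := by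
      rw [hk']
      have := orderOf_injective (MulAut.conj g).toMonoidHom (MulAut.conj g).injective (ι (sr i))
      have e : (MulAut.conj g).toMonoidHom (ι (sr i)) = g * ι (sr i) * g⁻¹ := rfl
      rw [e] at this
      rw [this, h.order_sr]
    rw [orderOf_injective ι h.inj] at hord
    have hy2 : (r (k : ZMod m) : DihedralGroup m) * r (k : ZMod m) = 1 := by
      rw [← pow_two, ← hord, pow_orderOf_eq_one]
    have hy1 : (r (k : ZMod m) : DihedralGroup m) ≠ 1 := by
      intro e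
      rw [e, orderOf_one] at hord
      omega
    rcases dih_invol h.hm hy2 hy1 with e | ⟨j, e⟩
    · rw [isConj_iff]
      refine ⟨g, ?_⟩
      rw [← hk', e]
    · cases e

theorem DS.z_mem (h : DS P ι h') {N : Subgroup G} (ha2 : ι (r 1) * ι (r 1) ∈ N) :
    ι (r ((2 * h' : ℕ) : ZMod m)) ∈ N := by
  have e : ι (r ((2 * h' : ℕ) : ZMod m)) = (ι (r 1) * ι (r 1)) ^ h' := by
    rw [← pow_two, ← pow_mul, ← map_pow, r_one_pow]
  rw [e]
  exact pow_mem ha2 _

theorem mem_of_conj {N : Subgroup G} (hN : N.Normal) {x y : G} (hc : IsConj x y) (hx : x ∈ N) : y ∈ N := by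
  obtain ⟨c, hc⟩ := isConj_iff.mp hc
  rw [← hc]
  exact hN.conj_mem x hx c

theorem DS.no_index2 (h : DS P ι h') (hz0 : IsConj (ι (r ((2 * h' : ℕ) : ZMod m))) (ι (sr 0)))
    (hz1 : IsConj (ι (r ((2 * h' : ℕ) : ZMod m))) (ι (sr 1))) {N : Subgroup G} (hN : N.Normal) (hi : N.index = 2) :
    False := by
  have ha2 : ι (r 1) * ι (r 1) ∈ N := Subgroup.mul_self_mem_of_index_two hi _
  have hz := h.z_mem ha2
  have h0 := mem_of_conj hN hz0 hz
  have h1 := mem_of_conj hN hz1 hz
  have ha : ι (r 1) ∈ N := by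
    have e : (r 1 : DihedralGroup m) = sr 0 * sr 1 := by
      rw [sr_mul_sr]
      congr 1
      ring
    rw [e, map_mul]
    exact mul_mem h0 h1
  have hP : (P : Subgroup G) ≤ N := by
    intro x hx
    obtain ⟨y, rfl⟩ := (h.rng x).mp hx
    rcases y with k | k
    · have e : (r k : DihedralGroup m) = (r 1) ^ (k.val) := by
        rw [r_one_pow, ZMod.natCast_zmod_val]
      rw [e, map_pow]
      exact pow_mem ha _
    · have e : (sr k : DihedralGroup m) = sr 0 * (r 1) ^ (k.val) := by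
        rw [r_one_pow, ZMod.natCast_zmod_val, sr_mul_r, zero_add]
      rw [e, map_mul, map_pow]
      exact mul_mem h0 (pow_mem ha _)
  have h3 := Subgroup.index_dvd_of_le hP
  rw [hi] at h3
  exact P.not_dvd_index h3

theorem DS.no_index4 (h : DS P ι h') (i : ZMod m) (hz : IsConj (ι (r ((2 * h' : ℕ) : ZMod m))) (ι (sr i)))
    {R : Subgroup G} (hR : R.Normal) (hi : R.index = 4) : False := by
  haveI := hR
  haveI hf : Fact (Nat.Prime 2) := ⟨Nat.prime_two⟩
  -- commutators lie in `R`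
  have hquot : Nat.card (G ⧸ R) = 2 ^ 2 := by
    rw [← Subgroup.index_eq_card, hi]
    norm_num
  have hcomm : ∀ x y : G ⧸ R, x * y = y * x := by
    have := IsPGroup.commutative_of_card_eq_prime_sq hquot
    exact this
  have ha2 : ι (r 1) * ι (r 1) ∈ R := by
    have h1 := hcomm (ι (sr 0) : G ⧸ R) (ι (r 1) : G ⧸ R)
    rw [← QuotientGroup.mk_mul, ← QuotientGroup.mk_mul, QuotientGroup.eq] at h1
    have e : (ι (sr 0) * ι (r 1))⁻¹ * (ι (r 1) * ι (sr 0)) = ι ((r 1)⁻¹ * (sr 0)⁻¹ * (r 1 * sr 0)) := by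
      simp only [map_mul, map_inv, mul_inv_rev]
    rw [e] at h1
    have e2 : ((r 1)⁻¹ * (sr 0)⁻¹ * (r 1 * sr 0) : DihedralGroup m) = ((r 1) * (r 1))⁻¹ := by
      rw [inv_r, inv_sr, r_mul_sr, r_mul_sr, sr_mul_sr, r_mul_r, inv_r]
      congr 1
      ring
    rw [e2, map_inv, map_mul] at h1
    have := R.inv_mem h1
    rwa [inv_inv] at this
  have hzR := h.z_mem ha2
  have hbR := mem_of_conj hR hz hzR
  -- `P ≤ ⟨a⟩ R`
  have hle : (P : Subgroup G) ≤ zpowers (ι (r 1)) ⊔ R := by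
    intro x hx
    obtain ⟨y, rfl⟩ := (h.rng x).mp hx
    rcases y with k | k
    · apply Subgroup.mem_sup_left
      have e : (r k : DihedralGroup m) = (r 1) ^ (k.val) := by
        rw [r_one_pow, ZMod.natCast_zmod_val]
      rw [e, map_pow]
      exact npow_mem_zpowers _ _
    · have e : (sr k : DihedralGroup m) = sr i * (r 1) ^ ((k - i).val) := by
        rw [r_one_pow, ZMod.natCast_zmod_val, sr_mul_r]
        congr 1
        ring
      rw [e, map_mul, map_pow]
      exact mul_mem (Subgroup.mem_sup_right hbR) (Subgroup.mem_sup_left (npow_mem_zpowers _ _))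
  have htop : zpowers (ι (r 1)) ⊔ R = ⊤ := by
    have h1 : ((zpowers (ι (r 1)) ⊔ R).index) ∣ (P : Subgroup G).index := Subgroup.index_dvd_of_le hle
    have h2 : ((zpowers (ι (r 1)) ⊔ R).index) ∣ 2 ^ 2 := by
      have := Subgroup.index_dvd_of_le (le_sup_right : R ≤ zpowers (ι (r 1)) ⊔ R)
      rw [hi] at this
      simpa using this
    obtain ⟨k, hk, hk'⟩ := (Nat.dvd_prime_pow Nat.prime_two).mp h2
    rcases Nat.eq_zero_or_pos k with h0 | h0
    · rw [h0, pow_zero] at hk'
      exact Subgroup.index_eq_one.mp hk'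
    · exfalso
      apply P.not_dvd_index
      refine dvd_trans ?_ h1
      rw [hk']
      exact dvd_pow_self 2 (by omega)
  have h1 : R.relIndex (zpowers (ι (r 1))) = 4 := by
    rw [← Subgroup.relIndex_sup_right, htop, Subgroup.relIndex_top_right, hi]
  have h2 : R.relIndex (zpowers (ι (r 1))) ∣ (zpowers (ι (r 1) * ι (r 1))).relIndex (zpowers (ι (r 1))) := by
    apply Subgroup.relIndex_dvd_of_le_left
    rw [zpowers_le]
    exact ha2
  have h3 : (zpowers (ι (r 1) * ι (r 1))).relIndex (zpowers (ι (r 1))) = 2 := by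
    have hle2 : zpowers (ι (r 1) * ι (r 1)) ≤ zpowers (ι (r 1)) := by
      rw [zpowers_le]
      exact mul_mem (mem_zpowers _) (mem_zpowers _)
    have h3 := Subgroup.card_mul_index ((zpowers (ι (r 1) * ι (r 1))).subgroupOf (zpowers (ι (r 1))))
    have ho : orderOf (ι (r 1) * ι (r 1)) = m / 2 := by
      rw [← pow_two, orderOf_pow, h.a_order, Nat.gcd_eq_right h.two_dvd]
    rw [Nat.card_congr (Subgroup.subgroupOfEquivOfLe hle2).toEquiv, Nat.card_zpowers, Nat.card_zpowers,
      h.a_order, ho] at h3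
    have h5 : m / 2 ≠ 0 := by
      have := h.hm
      have := h.hpos
      omega
    have h6 : m / 2 * 2 = m := Nat.div_mul_cancel h.two_dvd
    rw [Subgroup.relIndex]
    exact Nat.eq_of_mul_eq_mul_left (Nat.pos_of_ne_zero h5) (by rw [h3, h6])
  rw [h1, h3] at h2
  omega

theorem DS.neither (h : DS P ι h') (h0 : ¬ IsConj (ι (sr 0)) (ι (r ((2 * h' : ℕ) : ZMod m))))
    (h1 : ¬ IsConj (ι (sr 1)) (ι (r ((2 * h' : ℕ) : ZMod m)))) : Cfsg.HasNormalPComplement 2 G := by
  classical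
  haveI hf : Fact (Nat.Prime 2) := ⟨Nat.prime_two⟩
  obtain ⟨N₀, hN₀, hi₀, hb₀⟩ := h.thompson 0 h0
  obtain ⟨N₁, hN₁, hi₁, hb₁⟩ := h.thompson 1 h1
  haveI := hN₀
  haveI := hN₁
  have hRn : (N₀ ⊓ N₁).Normal := inferInstance
  -- index of `R`
  have hind : ∃ k, (N₀ ⊓ N₁).index = 2 ^ k := by
    have h2 := Subgroup.relIndex_inf_mul_relIndex N₀ N₁ ⊤
    rw [Subgroup.relIndex_top_right, Subgroup.relIndex_top_right, hi₁, inf_top_eq] at h2
    have h3 : N₀.relIndex N₁ ∣ 2 := by
      rw [← hi₀]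
      exact Subgroup.relIndex_dvd_index_of_normal N₀ N₁
    rcases (Nat.dvd_prime Nat.prime_two).mp h3 with h4 | h4
    · exact ⟨1, by rw [← h2, h4]; norm_num⟩
    · exact ⟨2, by rw [← h2, h4]; norm_num⟩
  obtain ⟨k, hk⟩ := hind
  -- reflections are outside `R`
  have hsr : ∀ i : ZMod m, ι (sr i) ∉ N₀ ⊓ N₁ := by
    intro i hmem
    rcases dih_conj_sr i with ⟨c, hc⟩ | ⟨c, hc⟩
    · apply hb₀
      rw [← hc, map_mul, map_mul, map_inv]
      exact hN₀.conj_mem _ hmem.1 _
    · apply hb₁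
      rw [← hc, map_mul, map_mul, map_inv]
      exact hN₁.conj_mem _ hmem.2 _
  refine hnpc_up hk (hnpc_of_cyclic ?_)
  intro S
  -- conjugate `S` into `P`
  have hS : IsPGroup 2 ((S : Subgroup ↥(N₀ ⊓ N₁)).map (N₀ ⊓ N₁).subtype) := S.isPGroup'.map _
  obtain ⟨Q, hQ⟩ := hS.exists_le_sylow
  obtain ⟨x, hx⟩ := MulAction.exists_smul_eq G Q P
  have hconj : ∀ s : ↥(S : Subgroup ↥(N₀ ⊓ N₁)), x * ((s : ↥(N₀ ⊓ N₁)) : G) * x⁻¹ ∈ zpowers (ι (r 1)) := by
    intro s
    have h2 : x * ((s : ↥(N₀ ⊓ N₁)) : G) * x⁻¹ ∈ (P : Subgroup G) := by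
      rw [← hx]
      exact ⟨_, hQ ⟨_, s.2, rfl⟩, rfl⟩
    obtain ⟨y, hy⟩ := (h.rng _).mp h2
    have h3 : x * ((s : ↥(N₀ ⊓ N₁)) : G) * x⁻¹ ∈ N₀ ⊓ N₁ := hRn.conj_mem _ (s : ↥(N₀ ⊓ N₁)).2 x
    rw [← hy] at h3 ⊢
    rcases y with k' | k'
    · have e : (r k' : DihedralGroup m) = (r 1) ^ (k'.val) := by
        rw [r_one_pow, ZMod.natCast_zmod_val]
      rw [e, map_pow]
      exact npow_mem_zpowers _ _
    · exact absurd h3 (hsr k')
  let f : ↥(S : Subgroup ↥(N₀ ⊓ N₁)) →* ↥(zpowers (ι (r 1))) :=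
    { toFun := fun s => ⟨x * ((s : ↥(N₀ ⊓ N₁)) : G) * x⁻¹, hconj s⟩
      map_one' := by
        apply Subtype.ext
        simp
      map_mul' := by
        intro s t
        apply Subtype.ext
        show x * (((s : ↥(N₀ ⊓ N₁)) : G) * ((t : ↥(N₀ ⊓ N₁)) : G)) * x⁻¹ =
          x * ((s : ↥(N₀ ⊓ N₁)) : G) * x⁻¹ * (x * ((t : ↥(N₀ ⊓ N₁)) : G) * x⁻¹)
        group }
  have hf2 : Function.Injective f := by
    intro s t e
    have e' : x * ((s : ↥(N₀ ⊓ N₁)) : G) * x⁻¹ = x * ((t : ↥(N₀ ⊓ N₁)) : G) * x⁻¹ := congrArg Subtype.val e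
    have e'' : ((s : ↥(N₀ ⊓ N₁)) : G) = ((t : ↥(N₀ ⊓ N₁)) : G) := by simpa using e'
    exact Subtype.ext (Subtype.ext e'')
  exact isCyclic_of_injective f hf2

theorem DS.not_conj (h : DS P ι h') (hc : Cfsg.HasNormalPComplement 2 G) : ¬ IsConj (ι (sr 1)) (ι (sr 0)) := by
  haveI hf : Fact (Nat.Prime 2) := ⟨Nat.prime_two⟩
  intro hconj
  obtain ⟨K, hK, hKc⟩ := exists_normal_isComplement'_of_hasNormalPComplement hc P
  obtain ⟨g, hg⟩ := isConj_iff.mp hconj
  obtain ⟨⟨k, π⟩, e⟩ := hKc.2 g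
  have e' : (k : G) * (π : G) = g := e
  obtain ⟨y, hy⟩ := (h.rng _).mp π.2
  set c : G := (π : G) * ι (sr 1) * (π : G)⁻¹ with hcdef
  have hcP : c ∈ (P : Subgroup G) := by
    rw [hcdef]
    exact mul_mem (mul_mem π.2 (h.mem _)) (inv_mem π.2)
  have hb : ι (sr 0) = (k : G) * c * (k : G)⁻¹ := by
    rw [← hg, ← e', hcdef]
    group
  have hmemK : ι (sr 0) * c⁻¹ ∈ K := by
    have e1 : ι (sr 0) * c⁻¹ = (k : G) * (c * (k : G)⁻¹ * c⁻¹) := by
      rw [hb]
      group
    rw [e1]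
    exact mul_mem k.2 (hK.conj_mem _ (inv_mem k.2) _)
  have hmemP : ι (sr 0) * c⁻¹ ∈ (P : Subgroup G) := mul_mem (h.mem _) (inv_mem hcP)
  have hone : ι (sr 0) * c⁻¹ = 1 := by
    have := hKc.disjoint.le_bot (show _ ∈ K ⊓ (P : Subgroup G) from ⟨hmemK, hmemP⟩)
    simpa using this
  have heq : ι (sr 0) = c := mul_inv_eq_one.mp hone
  apply dih_not_conj h.two_dvd y
  apply h.inj
  rw [map_mul, map_mul, map_inv, hy, heq]

end Main

/-- Let G be a finite group whose Sylow 2-subgroups are dihedral of order 2 ^ n with n ≥ 3, and count the conjugacy classes of involutions of G. Then exactly one of the following holds: there is one class of involutions and no normal subgroup of index 2; there are two classes of involutions, a normal subgroup of index 2 and none of index 4; there are three classes of involutions and G has a normal 2-complement. -/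
theorem result {G : Type*} [Group G] [Finite G] (P : Sylow 2 G) (n : ℕ) (hn : 3 ≤ n) (hdih : Nonempty (↥(P : Subgroup G) ≃* DihedralGroup (2 ^ (n - 1)))) : (Nat.card {C : ConjClasses G // ∃ g : G, ConjClasses.mk g = C ∧ orderOf g = 2} = 1 ∧ ∀ N : Subgroup G, N.Normal → N.index ≠ 2) ∨ (Nat.card {C : ConjClasses G // ∃ g : G, ConjClasses.mk g = C ∧ orderOf g = 2} = 2 ∧ (∃ N : Subgroup G, N.Normal ∧ N.index = 2) ∧ ∀ N : Subgroup G, N.Normal → N.index ≠ 4) ∨ (Nat.card {C : ConjClasses G // ∃ g : G, ConjClasses.mk g = C ∧ orderOf g = 2} = 3 ∧ Cfsg.HasNormalPComplement 2 G) := by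
  classical
  haveI hf : Fact (Nat.Prime 2) := ⟨Nat.prime_two⟩
  obtain ⟨e⟩ := hdih
  obtain ⟨h', hh'⟩ : ∃ h', 2 ^ (n - 1) = 4 * h' := by
    refine ⟨2 ^ (n - 3), ?_⟩
    obtain ⟨l, rfl⟩ : ∃ l, n = l + 3 := ⟨n - 3, by omega⟩
    have e1 : l + 3 - 1 = l + 2 := by omega
    have e2 : l + 3 - 3 = l := by omega
    rw [e1, e2, pow_add]
    ring
  haveI : NeZero (2 ^ (n - 1)) := ⟨by positivity⟩
  let ι : DihedralGroup (2 ^ (n - 1)) →* G := (P : Subgroup G).subtype.comp e.symm.toMonoidHom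
  have hDS : DS P ι h' := by
    refine ⟨hh', ?_, ?_, ?_⟩
    · intro x y hxy
      exact e.symm.injective (Subtype.ext hxy)
    · intro x
      constructor
      · intro hx
        refine ⟨e ⟨x, hx⟩, ?_⟩
        show ((e.symm (e ⟨x, hx⟩) : ↥(P : Subgroup G)) : G) = x
        rw [MulEquiv.symm_apply_apply]
      · rintro ⟨y, rfl⟩
        exact (e.symm y).2
    · rw [Nat.card_congr e.toEquiv, DihedralGroup.nat_card]
  set z : G := ι (r ((2 * h' : ℕ) : ZMod (2 ^ (n - 1)))) with hz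
  set b₀ : G := ι (sr 0) with hb₀
  set b₁ : G := ι (sr 1) with hb₁
  have hS : {C : ConjClasses G | ∃ g : G, ConjClasses.mk g = C ∧ orderOf g = 2} =
      {ConjClasses.mk z, ConjClasses.mk b₀, ConjClasses.mk b₁} := by
    ext C
    constructor
    · rintro ⟨g, rfl, hg⟩
      rcases hDS.inv_cases hg with h1 | h1 | h1
      · left
        exact ConjClasses.mk_eq_mk_iff_isConj.mpr h1
      · right; left
        exact ConjClasses.mk_eq_mk_iff_isConj.mpr h1
      · right; right
        exact ConjClasses.mk_eq_mk_iff_isConj.mpr h1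
    · rintro (rfl | rfl | rfl)
      · exact ⟨z, rfl, hDS.order_z⟩
      · exact ⟨b₀, rfl, hDS.order_sr _⟩
      · exact ⟨b₁, rfl, hDS.order_sr _⟩
  have hT : Nat.card {C : ConjClasses G // ∃ g : G, ConjClasses.mk g = C ∧ orderOf g = 2} =
      ({ConjClasses.mk z, ConjClasses.mk b₀, ConjClasses.mk b₁} : Set (ConjClasses G)).ncard := by
    rw [← hS]
    exact Nat.card_coe_set_eq _
  rw [hT]
  by_cases hz0 : IsConj z b₀
  · have e0 : ConjClasses.mk z = ConjClasses.mk b₀ := ConjClasses.mk_eq_mk_iff_isConj.mpr hz0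
    by_cases hz1 : IsConj z b₁
    · have e1 : ConjClasses.mk z = ConjClasses.mk b₁ := ConjClasses.mk_eq_mk_iff_isConj.mpr hz1
      left
      refine ⟨?_, fun N hN hi => hDS.no_index2 hz0 hz1 hN hi⟩
      rw [← e0, ← e1]
      simp
    · right; left
      have hne : ConjClasses.mk z ≠ ConjClasses.mk b₁ := fun h => hz1 (ConjClasses.mk_eq_mk_iff_isConj.mp h)
      refine ⟨?_, ?_, fun N hN hi => hDS.no_index4 0 hz0 hN hi⟩
      · rw [← e0]
        simp only [Set.insert_eq_of_mem, Set.mem_insert_iff, Set.mem_singleton_iff, true_or]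
        exact Set.ncard_pair hne
      · obtain ⟨N, h1, h2, -⟩ := hDS.thompson 1 (fun h => hz1 h.symm)
        exact ⟨N, h1, h2⟩
  · by_cases hz1 : IsConj z b₁
    · right; left
      have e1 : ConjClasses.mk z = ConjClasses.mk b₁ := ConjClasses.mk_eq_mk_iff_isConj.mpr hz1
      have hne : ConjClasses.mk z ≠ ConjClasses.mk b₀ := fun h => hz0 (ConjClasses.mk_eq_mk_iff_isConj.mp h)
      refine ⟨?_, ?_, fun N hN hi => hDS.no_index4 1 hz1 hN hi⟩
      · rw [← e1]
        have : ({ConjClasses.mk z, ConjClasses.mk b₀, ConjClasses.mk z} : Set (ConjClasses G)) =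
            {ConjClasses.mk z, ConjClasses.mk b₀} := by
          ext C
          simp only [Set.mem_insert_iff, Set.mem_singleton_iff]
          tauto
        rw [this]
        exact Set.ncard_pair hne
      · obtain ⟨N, h1, h2, -⟩ := hDS.thompson 0 (fun h => hz0 h.symm)
        exact ⟨N, h1, h2⟩
    · right; right
      have hcomp := hDS.neither (fun h => hz0 h.symm) (fun h => hz1 h.symm)
      refine ⟨?_, hcomp⟩
      have hne0 : ConjClasses.mk z ≠ ConjClasses.mk b₀ := fun h => hz0 (ConjClasses.mk_eq_mk_iff_isConj.mp h)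
      have hne1 : ConjClasses.mk z ≠ ConjClasses.mk b₁ := fun h => hz1 (ConjClasses.mk_eq_mk_iff_isConj.mp h)
      have hne2 : ConjClasses.mk b₀ ≠ ConjClasses.mk b₁ := fun h =>
        hDS.not_conj hcomp (ConjClasses.mk_eq_mk_iff_isConj.mp h).symm
      rw [Set.ncard_insert_of_notMem (by
        simp only [Set.mem_insert_iff, Set.mem_singleton_iff, not_or]
        exact ⟨hne0, hne1⟩), Set.ncard_pair hne2]

end Cfsg.Agent.S3864
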