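import Cfsg.Statements.S3866
-- import your own Cfsg.Agent.* helpers here
import Mathlib

set_option autoImplicit false
open Cfsg

namespace Cfsg.Agent.S3866

/-- Let A be a commutative normal subgroup of the finite group G with G generated by A and an element x. Then a ↦ x a x⁻¹ a⁻¹ is a surjective homomorphism from A onto the commutator subgroup of G whose kernel is the centralizer of x in A; in particular the commutator subgroup has order equal to the index in A of that centralizer. -/
theorem result {G : Type*} [Group G] [Finite G] (A : Subgroup G) [A.Normal] (hA : IsMulCommutative A) (x : G) (hgen : A ⊔ Subgroup.zpowers x = ⊤) : (∀ a ∈ A, x * a * x⁻¹ * a⁻¹ ∈ commutator G) ∧ (∀ c ∈ commutator G, ∃ a ∈ A, x * a * x⁻¹ * a⁻¹ = c) ∧ (∀ a ∈ A, ∀ b ∈ A, x * (a * b) * x⁻¹ * (a * b)⁻¹ = (x * a * x⁻¹ * a⁻¹) * (x * b * x⁻¹ * b⁻¹)) ∧ Nat.card (commutator G) * Nat.card ↥(A ⊓ Subgroup.centralizer ({x} : Set G)) = Nat.card A := by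
  classical
  have hcomm : ∀ a ∈ A, ∀ b ∈ A, a * b = b * a := by
    intro a ha b hb
    have := hA.is_comm.comm ⟨a, ha⟩ ⟨b, hb⟩
    simpa using congrArg Subtype.val this
  have hAn : A.Normal := inferInstance
  have hxA : ∀ a ∈ A, x * a * x⁻¹ ∈ A := fun a ha => hAn.conj_mem a ha x
  have hc : ∀ a ∈ A, x * a * x⁻¹ * a⁻¹ ∈ A := fun a ha => A.mul_mem (hxA a ha) (A.inv_mem ha)
  have hmul : ∀ a ∈ A, ∀ b ∈ A, x * (a * b) * x⁻¹ * (a * b)⁻¹
      = (x * a * x⁻¹ * a⁻¹) * (x * b * x⁻¹ * b⁻¹) := by
    intro a ha b hb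
    have h1 := hcomm a⁻¹ (A.inv_mem ha) (x * b * x⁻¹ * b⁻¹) (hc b hb)
    calc x * (a * b) * x⁻¹ * (a * b)⁻¹ = x * a * x⁻¹ * ((x * b * x⁻¹ * b⁻¹) * a⁻¹) := by group
      _ = x * a * x⁻¹ * (a⁻¹ * (x * b * x⁻¹ * b⁻¹)) := by rw [h1]
      _ = _ := by group
  let φ : A →* G :=
    { toFun := fun a => x * a * x⁻¹ * (a : G)⁻¹
      map_one' := by simp
      map_mul' := fun a b => by
        simpa using hmul a a.2 b b.2 }
  have hφ : ∀ a : A, φ a = x * a * x⁻¹ * (a : G)⁻¹ := fun _ => rfl
  have hrA : φ.range ≤ A := by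
    rintro _ ⟨a, rfl⟩
    exact hc a a.2
  have hxn : x ∈ Subgroup.normalizer (φ.range : Set G) := by
    rw [Subgroup.mem_normalizer_iff]
    intro y
    constructor
    · rintro ⟨a, rfl⟩
      refine ⟨⟨x * a * x⁻¹, hxA a a.2⟩, ?_⟩
      simp only [hφ]
      group
    · rintro ⟨b, hb⟩
      refine ⟨⟨x⁻¹ * b * x, ?_⟩, ?_⟩
      · have := hAn.conj_mem b b.2 x⁻¹
        simpa using this
      · simp only [hφ]
        rw [hφ] at hb
        have hy : y = x⁻¹ * (x * b * x⁻¹ * (b : G)⁻¹) * x := by rw [hb]; group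
        rw [hy]
        group
  have hAnorm : A ≤ Subgroup.normalizer (φ.range : Set G) := by
    intro a ha
    rw [Subgroup.mem_normalizer_iff]
    intro y
    constructor
    · intro hy
      have h1 : a * y * a⁻¹ = y := by
        rw [hcomm a ha y (hrA hy)]; group
      rw [h1]; exact hy
    · intro hy
      have hyA : y ∈ A := by
        have := hrA hy
        have h2 := hAn.conj_mem _ this a⁻¹
        simpa [mul_assoc] using h2
      have h1 : a * y * a⁻¹ = y := by
        rw [hcomm a ha y hyA]; group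
      rw [h1] at hy; exact hy
  have hnormal : φ.range.Normal := by
    rw [← Subgroup.normalizer_eq_top_iff, eq_top_iff, ← hgen]
    exact sup_le hAnorm ((Subgroup.zpowers_le).mpr hxn)
  have hle : commutator G ≤ φ.range := by
    apply Subgroup.Normal.quotient_commutative_iff_commutator_le.mp
    -- the quotient is generated by commuting elements
    let q := QuotientGroup.mk' φ.range
    have hqs : Function.Surjective q := QuotientGroup.mk'_surjective _
    let S : Set (G ⧸ φ.range) := q '' (A : Set G) ∪ {q x}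
    have hScomm : ∀ s ∈ S, ∀ t ∈ S, s * t = t * s := by
      have hax : ∀ a ∈ A, q a * q x = q x * q a := by
        intro a ha
        have : q x * q a = q (x * a * x⁻¹ * a⁻¹) * (q a * q x) := by
          simp only [map_mul, map_inv]; group
        have h1 : q (x * a * x⁻¹ * a⁻¹) = 1 :=
          (QuotientGroup.eq_one_iff _).mpr ⟨⟨a, ha⟩, rfl⟩
        rw [this, h1, one_mul]
      rintro s (⟨a, ha, rfl⟩ | rfl) t (⟨b, hb, rfl⟩ | rfl)
      · rw [← map_mul, ← map_mul, hcomm a ha b hb]
      · exact hax a ha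
      · exact (hax b hb).symm
      · rfl
    have hcl : Subgroup.closure S = ⊤ := by
      rw [eq_top_iff]
      intro y _
      obtain ⟨g, rfl⟩ := hqs y
      have hg : g ∈ A ⊔ Subgroup.zpowers x := by
        rw [hgen]; exact Subgroup.mem_top g
      have hmap : (A ⊔ Subgroup.zpowers x).map q ≤ Subgroup.closure S := by
        rw [Subgroup.map_sup]
        apply sup_le
        · rintro _ ⟨a, ha, rfl⟩
          exact Subgroup.subset_closure (Or.inl ⟨a, ha, rfl⟩)
        · rintro _ ⟨z, hz, rfl⟩
          obtain ⟨k, rfl⟩ := Subgroup.mem_zpowers_iff.mp hz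
          have hx' : q x ∈ Subgroup.closure S := Subgroup.subset_closure (Or.inr (Set.mem_singleton _))
          show q (x ^ k) ∈ Subgroup.closure S
          rw [map_zpow]
          exact Subgroup.zpow_mem (Subgroup.closure S) hx' k
      exact hmap ⟨g, hg, rfl⟩
    have hcm := Subgroup.isMulCommutative_closure hScomm
    rw [hcl] at hcm
    constructor
    constructor
    intro u v
    have := hcm.is_comm.comm ⟨u, trivial⟩ ⟨v, trivial⟩
    simpa using congrArg Subtype.val this
  have hge : ∀ a ∈ A, x * a * x⁻¹ * a⁻¹ ∈ commutator G := by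
    intro a _
    rw [commutator_def]
    exact Subgroup.commutator_mem_commutator (Subgroup.mem_top x) (Subgroup.mem_top a)
  have hrange : φ.range = commutator G := by
    apply le_antisymm _ hle
    rintro _ ⟨a, rfl⟩
    exact hge a a.2
  refine ⟨hge, ?_, hmul, ?_⟩
  · intro c hc'
    obtain ⟨a, rfl⟩ := hle hc'
    exact ⟨a, a.2, rfl⟩
  · have h1 : Nat.card φ.ker * φ.ker.index = Nat.card A := Subgroup.card_mul_index φ.ker
    have h2 : φ.ker.index = Nat.card φ.range := Subgroup.index_ker φ
    rw [hrange] at h2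
    have h3 : Nat.card φ.ker = Nat.card ↥(A ⊓ Subgroup.centralizer ({x} : Set G)) := by
      apply Nat.card_congr
      refine ⟨fun a => ⟨a.1.1, a.1.2, ?_⟩, fun b => ⟨⟨b.1, b.2.1⟩, ?_⟩, ?_, ?_⟩
      · have ha := a.2
        rw [MonoidHom.mem_ker, hφ] at ha
        show (a.1.1 : G) ∈ Subgroup.centralizer ({x} : Set G)
        rw [Subgroup.mem_centralizer_singleton_iff]
        have h4 : x * a.1 * x⁻¹ = a.1 := by
          rw [mul_inv_eq_one] at ha
          exact ha
        rw [mul_inv_eq_iff_eq_mul] at h4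
        exact h4.symm
      · rw [MonoidHom.mem_ker, hφ]
        have hb : (b.1 : G) ∈ Subgroup.centralizer ({x} : Set G) := b.2.2
        rw [Subgroup.mem_centralizer_singleton_iff] at hb
        show x * (b.1 : G) * x⁻¹ * (b.1 : G)⁻¹ = 1
        rw [← hb]
        group
      · intro a; rfl
      · intro b; rfl
    rw [← h1, h2, h3, mul_comm]

end Cfsg.Agent.S3866
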