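import Cfsg.Statements.S3867
-- import your own Cfsg.Agent.* helpers here
import Mathlib
import Cfsg.Agent.Lib.Coprime.SZ

set_option autoImplicit false
open Cfsg

namespace Cfsg.Agent.S3867

open Cfsg.Agent.Lib.Coprime in
theorem mem_T_iff {G : Type*} [Group G] [Finite G] (P K : Subgroup G) [K.Normal] (g : G) :
    g ∈ (Subgroup.normalizer ((P.map (QuotientGroup.mk' K) : Subgroup (G ⧸ K)) : Set (G ⧸ K))).comap (QuotientGroup.mk' K)
      ↔ ∀ x ∈ P, g * x * g⁻¹ ∈ P ⊔ K := by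
  rw [Subgroup.mem_comap]
  constructor
  · intro hg x hx
    have h1 : QuotientGroup.mk' K x ∈ P.map (QuotientGroup.mk' K) := ⟨x, hx, rfl⟩
    have h2 := (Subgroup.mem_normalizer_iff.mp hg _).mp h1
    obtain ⟨x', hx', hxe⟩ := h2
    have h3 : QuotientGroup.mk' K (g * x * g⁻¹) = QuotientGroup.mk' K x' := by
      rw [hxe]; simp
    have h4 : x'⁻¹ * (g * x * g⁻¹) ∈ K := QuotientGroup.eq.mp h3.symm
    have h5 := (P ⊔ K).mul_mem ((le_sup_left : P ≤ P ⊔ K) hx') ((le_sup_right : K ≤ P ⊔ K) h4)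
    simpa using h5
  · intro h
    apply mem_normalizer_of_conj_le
    rintro _ ⟨x, hx, rfl⟩
    have h1 := h x hx
    have h2 : g * x * g⁻¹ ∈ ((P ⊔ K : Subgroup G) : Set G) := h1
    rw [Subgroup.mul_normal] at h2
    obtain ⟨x', hx', k, hk, hxk⟩ := h2
    refine ⟨x', hx', ?_⟩
    have h3 : QuotientGroup.mk' K (g * x * g⁻¹) = QuotientGroup.mk' K x' := by
      rw [← hxk]
      simp only [map_mul]
      have : QuotientGroup.mk' K k = 1 := (QuotientGroup.eq_one_iff k).mpr hk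
      rw [this, mul_one]
    rw [← h3]
    simp

theorem card_sylow_quot {G : Type*} [Group G] [Finite G] {p : ℕ} [Fact p.Prime] (P : Sylow p G)
    (K : Subgroup G) [K.Normal] :
    Nat.card (Sylow p (G ⧸ K)) =
      ((Subgroup.normalizer (((P : Subgroup G).map (QuotientGroup.mk' K) : Subgroup (G ⧸ K)) : Set (G ⧸ K))).comap (QuotientGroup.mk' K)).index := by
  rw [Subgroup.index_comap_of_surjective _ (QuotientGroup.mk'_surjective K)]
  have h1 := Sylow.card_eq_index_normalizer (P.mapSurjective (QuotientGroup.mk'_surjective K))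
  exact h1

theorem relIndex_eq_of_forall_mul {G : Type*} [Group G] {A B D : Subgroup G} (hBD : B ≤ D)
    (h : ∀ d ∈ D, ∃ b ∈ B, ∃ a ∈ A, d = b * a) (hAD : A ≤ D) : A.relIndex B = A.relIndex D := by
  let F : ↥B ⧸ A.subgroupOf B → ↥D ⧸ A.subgroupOf D :=
    Quotient.map' (fun b => (⟨b.1, hBD b.2⟩ : D)) (by
      intro x y hxy
      rw [QuotientGroup.leftRel_apply] at hxy ⊢
      exact hxy)
  have hF : ∀ b : B, F (QuotientGroup.mk b) = QuotientGroup.mk ⟨b.1, hBD b.2⟩ := fun b => rfl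
  have hinj : Function.Injective F := by
    intro x y
    induction x using QuotientGroup.induction_on with
    | H x =>
    induction y using QuotientGroup.induction_on with
    | H y =>
    rw [hF, hF]
    intro hxy
    have h1 := QuotientGroup.eq.mp hxy
    exact QuotientGroup.eq.mpr h1
  have hsurj : Function.Surjective F := by
    intro y
    induction y using QuotientGroup.induction_on with
    | H d =>
    obtain ⟨b, hb, a, ha, he⟩ := h d.1 d.2
    refine ⟨QuotientGroup.mk ⟨b, hb⟩, ?_⟩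
    rw [hF]
    apply QuotientGroup.eq.mpr
    rw [Subgroup.mem_subgroupOf]
    show b⁻¹ * d.1 ∈ A
    rw [he]
    simpa using ha
  exact Nat.card_congr (Equiv.ofBijective F ⟨hinj, hsurj⟩)

/-- Let M and N be nontrivial normal subgroups of the finite group G with M ⊓ N trivial, and let p be a prime. Writing n(X) for the number of Sylow p-subgroups of a group X, one has n(G) · n(G/MN) = n(G/M) · n(G/N). -/
theorem result {G : Type*} [Group G] [Finite G] (p : ℕ) [Fact p.Prime] (M N : Subgroup G) [M.Normal] [N.Normal] (hM : M ≠ ⊥) (hN : N ≠ ⊥) (hMN : M ⊓ N = ⊥) : Nat.card (Sylow p G) * Nat.card (Sylow p (G ⧸ (M ⊔ N))) = Nat.card (Sylow p (G ⧸ M)) * Nat.card (Sylow p (G ⧸ N)) := by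
  classical
  obtain ⟨P⟩ : Nonempty (Sylow p G) := inferInstance
  rw [card_sylow_quot P (M ⊔ N), card_sylow_quot P M, card_sylow_quot P N,
    Sylow.card_eq_index_normalizer P]
  set A := (Subgroup.normalizer (((P : Subgroup G).map (QuotientGroup.mk' M) : Subgroup (G ⧸ M)) : Set (G ⧸ M))).comap (QuotientGroup.mk' M) with hA
  set B := (Subgroup.normalizer (((P : Subgroup G).map (QuotientGroup.mk' N) : Subgroup (G ⧸ N)) : Set (G ⧸ N))).comap (QuotientGroup.mk' N) with hB
  set D := (Subgroup.normalizer (((P : Subgroup G).map (QuotientGroup.mk' (M ⊔ N)) : Subgroup (G ⧸ (M ⊔ N))) : Set (G ⧸ (M ⊔ N)))).comap (QuotientGroup.mk' (M ⊔ N)) with hD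
  set C := Subgroup.normalizer ((P : Subgroup G) : Set G) with hC
  have hmA : ∀ g, g ∈ A ↔ ∀ x ∈ (P : Subgroup G), g * x * g⁻¹ ∈ (P : Subgroup G) ⊔ M := mem_T_iff _ M
  have hmB : ∀ g, g ∈ B ↔ ∀ x ∈ (P : Subgroup G), g * x * g⁻¹ ∈ (P : Subgroup G) ⊔ N := mem_T_iff _ N
  have hmD : ∀ g, g ∈ D ↔ ∀ x ∈ (P : Subgroup G), g * x * g⁻¹ ∈ (P : Subgroup G) ⊔ (M ⊔ N) := mem_T_iff _ (M ⊔ N)
  -- the key intersection
  have hkey : ∀ z, z ∈ (P : Subgroup G) ⊔ M → z ∈ (P : Subgroup G) ⊔ N → z ∈ (P : Subgroup G) := by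
    intro z hz1 hz2
    have h1 : z ∈ (((P : Subgroup G) ⊔ M : Subgroup G) : Set G) := hz1
    rw [Subgroup.mul_normal] at h1
    obtain ⟨x, hx, m, hm, rfl⟩ := h1
    let L : Subgroup G := M ⊓ ((P : Subgroup G) ⊔ N)
    have hxPN : x ∈ (P : Subgroup G) ⊔ N := (le_sup_left : (P : Subgroup G) ≤ _) hx
    have hmL : m ∈ L := by
      refine Subgroup.mem_inf.mpr ⟨hm, ?_⟩
      have h2 := ((P : Subgroup G) ⊔ N).mul_mem (((P : Subgroup G) ⊔ N).inv_mem hxPN) hz2
      simpa using h2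
    have hLp : IsPGroup p L := by
      intro l
      have hl1 : l.1 ∈ M := (Subgroup.mem_inf.mp l.2).1
      have hl2 : l.1 ∈ (((P : Subgroup G) ⊔ N : Subgroup G) : Set G) := (Subgroup.mem_inf.mp l.2).2
      rw [Subgroup.mul_normal] at hl2
      obtain ⟨y, hy, n, hn, hyn⟩ := hl2
      obtain ⟨k, hk⟩ := P.isPGroup' ⟨y, hy⟩
      refine ⟨k, Subtype.ext ?_⟩
      have h3 : y ^ p ^ k = 1 := by
        have := congrArg Subtype.val hk
        simpa using this
      have h4 : QuotientGroup.mk' N (l.1 ^ p ^ k) = 1 := by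
        rw [map_pow, ← hyn, map_mul]
        have : QuotientGroup.mk' N n = 1 := (QuotientGroup.eq_one_iff n).mpr hn
        rw [this, mul_one, ← map_pow, h3, map_one]
      have h5 : l.1 ^ p ^ k ∈ N := (QuotientGroup.eq_one_iff _).mp h4
      have h6 : l.1 ^ p ^ k ∈ M ⊓ N := Subgroup.mem_inf.mpr ⟨pow_mem hl1 _, h5⟩
      rw [hMN, Subgroup.mem_bot] at h6
      simpa using h6
    have hPnorm : (P : Subgroup G) ≤ Subgroup.normalizer (L : Set G) := by
      intro u hu
      apply Cfsg.Agent.Lib.Coprime.mem_normalizer_of_conj_le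
      intro l hl
      have hl1 : l ∈ M := (Subgroup.mem_inf.mp hl).1
      have hl2 : l ∈ (P : Subgroup G) ⊔ N := (Subgroup.mem_inf.mp hl).2
      have huPN : u ∈ (P : Subgroup G) ⊔ N := (le_sup_left : (P : Subgroup G) ≤ _) hu
      refine Subgroup.mem_inf.mpr ⟨‹M.Normal›.conj_mem l hl1 u, ?_⟩
      exact ((P : Subgroup G) ⊔ N).mul_mem (((P : Subgroup G) ⊔ N).mul_mem huPN hl2)
        (((P : Subgroup G) ⊔ N).inv_mem huPN)
    have hsup : IsPGroup p ((P : Subgroup G) ⊔ L : Subgroup G) :=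
      P.isPGroup'.to_sup_of_normal_right' hLp hPnorm
    have h7 := P.is_maximal' hsup le_sup_left
    have hmP : m ∈ (P : Subgroup G) := by
      rw [← h7]
      exact (le_sup_right : L ≤ _) hmL
    exact (P : Subgroup G).mul_mem hx hmP
  have hCAB : C = A ⊓ B := by
    apply le_antisymm
    · intro g hg
      refine Subgroup.mem_inf.mpr ⟨(hmA g).mpr ?_, (hmB g).mpr ?_⟩
      · intro x hx
        exact (le_sup_left : (P : Subgroup G) ≤ _) ((Subgroup.mem_normalizer_iff.mp hg x).mp hx)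
      · intro x hx
        exact (le_sup_left : (P : Subgroup G) ≤ _) ((Subgroup.mem_normalizer_iff.mp hg x).mp hx)
    · intro g hg
      apply Cfsg.Agent.Lib.Coprime.mem_normalizer_of_conj_le
      intro x hx
      exact hkey _ ((hmA g).mp (Subgroup.mem_inf.mp hg).1 x hx) ((hmB g).mp (Subgroup.mem_inf.mp hg).2 x hx)
  have hAD : A ≤ D := by
    intro g hg
    rw [hmD]
    intro x hx
    exact (sup_le_sup_left le_sup_left _ : (P : Subgroup G) ⊔ M ≤ (P : Subgroup G) ⊔ (M ⊔ N)) ((hmA g).mp hg x hx)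
  have hBD : B ≤ D := by
    intro g hg
    rw [hmD]
    intro x hx
    exact (sup_le_sup_left le_sup_right _ : (P : Subgroup G) ⊔ N ≤ (P : Subgroup G) ⊔ (M ⊔ N)) ((hmB g).mp hg x hx)
  have hMA : M ≤ A := by
    intro m hm
    rw [hmA]
    intro x hx
    have h1 : m ∈ (P : Subgroup G) ⊔ M := (le_sup_right : M ≤ _) hm
    have h2 : x ∈ (P : Subgroup G) ⊔ M := (le_sup_left : (P : Subgroup G) ≤ _) hx
    exact ((P : Subgroup G) ⊔ M).mul_mem (((P : Subgroup G) ⊔ M).mul_mem h1 h2) (((P : Subgroup G) ⊔ M).inv_mem h1)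
  have hNB : N ≤ B := by
    intro m hm
    rw [hmB]
    intro x hx
    have h1 : m ∈ (P : Subgroup G) ⊔ N := (le_sup_right : N ≤ _) hm
    have h2 : x ∈ (P : Subgroup G) ⊔ N := (le_sup_left : (P : Subgroup G) ≤ _) hx
    exact ((P : Subgroup G) ⊔ N).mul_mem (((P : Subgroup G) ⊔ N).mul_mem h1 h2) (((P : Subgroup G) ⊔ N).inv_mem h1)
  have hCA : C ≤ A := hCAB ▸ inf_le_left
  have hCB : C ≤ B := hCAB ▸ inf_le_right
  have hPC : (P : Subgroup G) ≤ C := Subgroup.le_normalizer
  -- factorization of `D`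
  have hfac : ∀ d ∈ D, ∃ b ∈ B, ∃ a ∈ A, d = b * a := by
    intro d hd
    let T : Subgroup G := (P : Subgroup G) ⊔ (M ⊔ N)
    let Q : Subgroup G := (P : Subgroup G).map (MulAut.conj d).toMonoidHom
    have hPT : (P : Subgroup G) ≤ T := le_sup_left
    have hQT : Q ≤ T := by
      rintro _ ⟨x, hx, rfl⟩
      exact (hmD d).mp hd x hx
    have hQp : IsPGroup p Q := Cfsg.Agent.Lib.Coprime.isPGroup_conj_map P.isPGroup' d
    have hi : ¬ p ∣ (P : Subgroup G).relIndex T := by
      intro hdvd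
      apply P.not_dvd_index
      rw [← Subgroup.relIndex_mul_index hPT]
      exact Dvd.dvd.mul_right hdvd _
    have hc : Nat.card (P : Subgroup G) = Nat.card Q := (Cfsg.Agent.Lib.Coprime.card_conj_map _ _).symm
    obtain ⟨t, htT, ht⟩ := Cfsg.Agent.Lib.Coprime.conj_in_of_isPGroup T (P : Subgroup G) Q hPT hQT hQp hi hc
    have hc' : t⁻¹ * d ∈ C := by
      rw [hC, ← Cfsg.Agent.Lib.Coprime.conj_map_eq_iff_mem_normalizer]
      have h1 := Cfsg.Agent.Lib.Coprime.conj_map_conj_map (P : Subgroup G) d t⁻¹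
      have h2 := Cfsg.Agent.Lib.Coprime.conj_map_conj_map (P : Subgroup G) t t⁻¹
      rw [inv_mul_cancel, Cfsg.Agent.Lib.Coprime.conj_map_one] at h2
      rw [← h1]
      change ((Q).map _) = _
      rw [ht, h2]
    have h1 : t ∈ (T : Set G) := htT
    rw [Subgroup.mul_normal] at h1
    obtain ⟨x, hx, u, hu, hxu⟩ := h1
    have h2 : u ∈ ((M ⊔ N : Subgroup G) : Set G) := hu
    rw [Subgroup.mul_normal] at h2
    obtain ⟨m, hm, n, hn, hmn⟩ := h2
    have hcomm : m * n = n * m :=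
      Subgroup.commute_of_normal_of_disjoint M N ‹_› ‹_› (disjoint_iff.mpr hMN) m n hm hn
    refine ⟨x * n, B.mul_mem (hCB (hPC hx)) (hNB hn), m * (t⁻¹ * d), A.mul_mem (hMA hm) (hCA hc'), ?_⟩
    have hmn' : m * n = u := hmn
    have hxu' : x * u = t := hxu
    have h3 : t = x * (n * m) := by
      rw [← hxu', ← hmn', hcomm]
    calc d = t * (t⁻¹ * d) := by group
      _ = x * (n * m) * (t⁻¹ * d) := by rw [← h3]
      _ = x * n * (m * (t⁻¹ * d)) := by group
  have hrel := relIndex_eq_of_forall_mul hBD hfac hAD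
  change C.index * D.index = A.index * B.index
  have h1 : C.relIndex B = A.relIndex B := by
    rw [hCAB]
    exact Subgroup.inf_relIndex_right A B
  have h2 := Subgroup.relIndex_mul_index hCB
  have h3 := Subgroup.relIndex_mul_index hAD
  rw [← h2, ← h3, h1, hrel]
  ring

end Cfsg.Agent.S3867
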