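import Cfsg.Statements.S3878
-- import your own Cfsg.Agent.* helpers here
import Mathlib

set_option autoImplicit false
open Cfsg

namespace Cfsg.Agent.S3878

open MulAction
open scoped Pointwise

section blocks

variable {X : Type} [Fintype X] [DecidableEq X] {q : ℕ} [hq : Fact q.Prime]

theorem cycle_stab_block (H : Subgroup (Equiv.Perm X)) {c : Equiv.Perm X} (hcH : c ∈ H) (hc : c.IsCycle)
    (hcard : c.support.card = q) (B : Set X) (hB : IsBlock H B) (hB2 : B.Nontrivial) :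
    (⟨c, hcH⟩ : H) • B = B := by
  classical
  by_contra hne
  have hdis : Disjoint ((⟨c, hcH⟩ : H) • B) B :=
    (isBlock_iff_smul_eq_or_disjoint.mp hB _).resolve_left hne
  obtain ⟨y, hy, y', hy', hyy'⟩ := hB2
  have hmoved : ∀ z ∈ B, c z ≠ z := by
    intro z hz h0
    have h1 : z ∈ (⟨c, hcH⟩ : H) • B := by
      refine ⟨z, hz, ?_⟩
      exact h0
    exact Set.disjoint_left.mp hdis h1 hz
  obtain ⟨i, hi⟩ := hc.exists_pow_eq (hmoved y hy) (hmoved y' hy')
  have hord : orderOf c = q := by rw [hc.orderOf, hcard]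
  have hcop : i.Coprime (orderOf c) := by
    rw [hord, Nat.coprime_comm, Nat.Prime.coprime_iff_not_dvd hq.out]
    intro hd
    obtain ⟨k, rfl⟩ := hd
    rw [pow_mul, ← hord, pow_orderOf_eq_one, one_pow] at hi
    exact hyy' hi
  obtain ⟨m, hm⟩ := exists_pow_eq_self_of_coprime hcop
  let g : H := ⟨c, hcH⟩
  have h1 : (g ^ i) • B = B := by
    apply isBlock_iff_smul_eq_of_nonempty.mp hB
    refine ⟨y', ⟨y, hy, ?_⟩, hy'⟩
    exact hi
  have h2 : g ^ i ∈ stabilizer H B := h1
  have h3 : (g ^ i) ^ m ∈ stabilizer H B := Subgroup.pow_mem _ h2 m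
  have h4 : (g ^ i) ^ m = g := Subtype.ext hm
  rw [h4] at h3
  exact hne h3

theorem prim_of_data (H : Subgroup (Equiv.Perm X)) {e : ℕ} (hT : IsPretransitive H X)
    (ι : Fin e × ZMod q ↪ X) (ω₀ : X) (hω₀ : ∀ x, x ≠ ω₀ → ∃ y, ι y = x) (hω₀' : ∀ y, ι y ≠ ω₀)
    (c : Fin e → Equiv.Perm X) (hcH : ∀ i, c i ∈ H) (hc : ∀ i, (c i).IsCycle)
    (hcard : ∀ i, (c i).support.card = q) (hform : ∀ i z, c i (ι (i, z)) = ι (i, z + 1)) :
    IsPreprimitive H X := by
  classical
  have hqp : q.Prime := hq.out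
  haveI : NeZero q := ⟨hqp.ne_zero⟩
  refine { isTrivialBlock_of_isBlock := ?_ }
  intro B hB
  by_contra hntriv
  have hnot : ¬ B.Subsingleton ∧ B ≠ Set.univ := by
    constructor
    · exact fun h => hntriv (Or.inl h)
    · exact fun h => hntriv (Or.inr h)
  have hBnt : B.Nontrivial := Set.not_subsingleton_iff.mp hnot.1
  -- saturation of translates
  have hsat : ∀ g : H, q ∣ ((g • B) \ {ω₀}).ncard := by
    intro g
    have hbl : IsBlock H (g • B) := hB.translate g
    have hnt : (g • B).Nontrivial := by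
      obtain ⟨a, ha, a', ha', haa'⟩ := hBnt
      exact ⟨g • a, ⟨a, ha, rfl⟩, g • a', ⟨a', ha', rfl⟩, fun h => haa' (smul_left_cancel g h)⟩
    have hstep : ∀ i z, ι (i, z) ∈ g • B → ∀ k : ℕ, ι (i, z + k) ∈ g • B := by
      intro i z hz k
      induction k with
      | zero => simpa using hz
      | succ k ih =>
        have h1 := cycle_stab_block H (hcH i) (hc i) (hcard i) _ hbl hnt
        have h2 : c i (ι (i, z + k)) ∈ (⟨c i, hcH i⟩ : H) • (g • B) := ⟨_, ih, rfl⟩
        rw [h1, hform] at h2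
        have h3 : z + ((k + 1 : ℕ) : ZMod q) = z + k + 1 := by
          push_cast
          ring
        rw [h3]
        exact h2
    have hall : ∀ i z z', ι (i, z) ∈ g • B → ι (i, z') ∈ g • B := by
      intro i z z' hz
      have h1 := hstep i z hz (z' - z).val
      rwa [ZMod.natCast_zmod_val, add_sub_cancel] at h1
    obtain ⟨I, hI⟩ : ∃ I : Set (Fin e), I = {i | ι (i, 0) ∈ g • B} := ⟨_, rfl⟩
    have himg : (g • B) \ {ω₀} = ι '' (I ×ˢ (Set.univ : Set (ZMod q))) := by
      ext x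
      constructor
      · rintro ⟨hx, hx0⟩
        obtain ⟨⟨i, z⟩, rfl⟩ := hω₀ x hx0
        refine ⟨(i, z), ⟨?_, Set.mem_univ _⟩, rfl⟩
        rw [hI]
        exact hall i z 0 hx
      · rintro ⟨⟨i, z⟩, ⟨hi, -⟩, rfl⟩
        rw [hI] at hi
        exact ⟨hall i 0 z hi, hω₀' _⟩
    rw [himg, Set.ncard_image_of_injective _ ι.injective, Set.ncard_prod, Set.ncard_univ,
      Nat.card_zmod]
    exact Dvd.intro_left _ rfl
  obtain ⟨b, hb⟩ := hBnt.nonempty
  obtain ⟨g₁, hg₁⟩ := hT.exists_smul_eq b ω₀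
  obtain ⟨x, hx⟩ : ∃ x, x ∉ B := by
    by_contra h
    push Not at h
    exact hnot.2 (Set.eq_univ_of_forall h)
  have hB₁ : ω₀ ∈ g₁ • B := ⟨b, hb, hg₁⟩
  obtain ⟨y, hy⟩ : ∃ y, y ∉ g₁ • B := by
    refine ⟨g₁ • x, ?_⟩
    rw [Set.smul_mem_smul_set_iff]
    exact hx
  obtain ⟨g₂, hg₂⟩ := hT.exists_smul_eq b y
  have hy₂ : y ∈ g₂ • B := ⟨b, hb, hg₂⟩
  have hne : g₁ • B ≠ g₂ • B := by
    intro h
    rw [← h] at hy₂
    exact hy hy₂
  have hdis := hB hne
  have hω₂ : ω₀ ∉ g₂ • B := fun h => Set.disjoint_left.mp hdis hB₁ h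
  have h1 := hsat g₁
  have h2 := hsat g₂
  have h3 : ((g₂ • B) \ {ω₀}).ncard = (g₂ • B).ncard := by
    rw [Set.sdiff_singleton_eq_self hω₂]
  have h4 : ((g₁ • B) \ {ω₀}).ncard + 1 = (g₁ • B).ncard := Set.ncard_sdiff_singleton_add_one hB₁ (Set.toFinite _)
  have h5 : (g₁ • B).ncard = (g₂ • B).ncard := by
    rw [Set.ncard_smul_set, Set.ncard_smul_set]
  rw [h3, ← h5, ← h4] at h2
  have h6 : q ∣ 1 := (Nat.dvd_add_right h1).mp h2
  exact hqp.one_lt.ne' (Nat.dvd_one.mp h6)

theorem dvd_of_multTrans (H : Subgroup (Equiv.Perm X)) {k : ℕ} (hmt : IsMultiplyPretransitive H X k)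
    (hle : k ≤ Fintype.card X) : (Fintype.card X).descFactorial k ∣ Nat.card H := by
  classical
  obtain ⟨x₀⟩ : Nonempty (Fin k ↪ X) :=
    Function.Embedding.nonempty_of_card_le (by simpa using hle)
  have horb : orbit H x₀ = Set.univ := by
    ext y
    simp only [Set.mem_univ, iff_true]
    exact hmt.exists_smul_eq x₀ y
  have hdvd : Nat.card (orbit H x₀) ∣ Nat.card H := by
    rw [Nat.card_coe_set_eq]
    have h1 := index_stabilizer H x₀
    have h2 := Subgroup.index_dvd_card (stabilizer H x₀)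
    rw [h1] at h2
    exact h2
  have hcardorb : Nat.card (orbit H x₀) = (Fintype.card X).descFactorial k := by
    rw [horb, Nat.card_congr (Equiv.Set.univ _), Nat.card_eq_fintype_card,
      Fintype.card_embedding_eq]
    simp
  rwa [hcardorb] at hdvd

theorem prim_fixing (H : Subgroup (Equiv.Perm X)) {c : Equiv.Perm X}
    (hcH : c ∈ H) (hc : c.IsCycle) (hcard : c.support.card = q) :
    IsPreprimitive (fixingSubgroup H ((c.support : Set X)ᶜ))
      (SubMulAction.ofFixingSubgroup H ((c.support : Set X)ᶜ)) := by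
  have hqp : q.Prime := hq.out
  have := Equiv.Perm.isPretransitive_of_isCycle_mem hc hcH
  apply IsPreprimitive.of_prime_card
  have hset : ((SubMulAction.ofFixingSubgroup H ((c.support : Set X)ᶜ) : SubMulAction _ X) : Set X) = (c.support : Set X) := by
    ext x
    rw [SetLike.mem_coe, SubMulAction.mem_ofFixingSubgroup_iff]
    simp
  have hc2 : Nat.card (SubMulAction.ofFixingSubgroup H ((c.support : Set X)ᶜ)) = q := by
    refine (Nat.card_congr (Equiv.setCongr hset)).trans ?_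
    rw [Nat.card_coe_set_eq, Set.ncard_coe_finset, hcard]
  rw [hc2]
  exact hqp

theorem dvd_of_prim (H : Subgroup (Equiv.Perm X)) (hP : IsPreprimitive H X) {c : Equiv.Perm X}
    (hcH : c ∈ H) (hc : c.IsCycle) (hcard : c.support.card = q) {r : ℕ} (hr : r.Prime)
    (hn : r + q ≤ Fintype.card X + 1) : r ∣ Nat.card H := by
  classical
  have hqp : q.Prime := hq.out
  have hr2 := hr.two_le
  have hq2 := hqp.two_le
  obtain ⟨m, hm⟩ : ∃ m, Fintype.card X = q + (m + 1) := ⟨Fintype.card X - q - 1, by omega⟩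
  have hsc : Set.ncard ((c.support : Set X)ᶜ) = m + 1 := by
    have h1 := Set.ncard_add_ncard_compl (c.support : Set X)
    rw [Set.ncard_coe_finset, hcard, Nat.card_eq_fintype_card, hm] at h1
    omega
  have hlt : m + 2 < Nat.card X := by
    rw [Nat.card_eq_fintype_card, hm]
    omega
  have hprim := prim_fixing H hcH hc hcard
  have hmp : IsMultiplyPreprimitive H X (m + 2) := hP.isMultiplyPreprimitive hsc hlt hprim
  have hmt : IsMultiplyPretransitive H X (m + 2) := IsMultiplyPreprimitive.isMultiplyPretransitive H X (m + 2)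
  have hle : m + 2 ≤ Fintype.card X := by omega
  have hdvd := dvd_of_multTrans H hmt hle
  refine dvd_trans ?_ hdvd
  refine dvd_trans ?_ (Nat.factorial_dvd_descFactorial _ _)
  rw [hr.dvd_factorial]
  omega

end blocks

section main

/-- The translation group. -/
def transHom (p a : ℕ) [NeZero p] : Multiplicative (Fin a → ZMod p) →* Equiv.Perm (Fin a → ZMod p) where
  toFun v := Equiv.addRight (Multiplicative.toAdd v)
  map_one' := by
    ext x i
    simp
  map_mul' := by
    intro u v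
    ext x i
    simp [add_comm, add_left_comm]

theorem transHom_apply (p a : ℕ) [NeZero p] (v : Multiplicative (Fin a → ZMod p)) (x : Fin a → ZMod p) :
    transHom p a v x = x + Multiplicative.toAdd v := rfl

/-- The shear action. -/
def shearHom (e q : ℕ) : Multiplicative (Fin e → ZMod q) →* Equiv.Perm (Fin e × ZMod q) where
  toFun f :=
    { toFun := fun y => (y.1, y.2 + Multiplicative.toAdd f y.1)
      invFun := fun y => (y.1, y.2 - Multiplicative.toAdd f y.1)
      left_inv := fun y => by simp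
      right_inv := fun y => by simp }
  map_one' := by
    ext y <;> simp
  map_mul' := by
    intro u v
    ext y <;> simp [add_comm, add_left_comm]

theorem shearHom_apply (e q : ℕ) (f : Multiplicative (Fin e → ZMod q)) (y : Fin e × ZMod q) :
    shearHom e q f y = (y.1, y.2 + Multiplicative.toAdd f y.1) := rfl

theorem conj_into {G : Type} [Group G] [Finite G] {ℓ : ℕ} [Fact ℓ.Prime] (P H : Subgroup G)
    (hP : IsPGroup ℓ P) (hH : ¬ ℓ ∣ H.index) : ∃ g : G, P.map (MulAut.conj g).toMonoidHom ≤ H := by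
  have hcard : ¬ ℓ ∣ Nat.card (G ⧸ H) := hH
  obtain ⟨x, hx⟩ := hP.nonempty_fixed_point_of_prime_not_dvd_card (G ⧸ H) hcard
  obtain ⟨g, rfl⟩ := QuotientGroup.mk_surjective x
  refine ⟨g⁻¹, ?_⟩
  rintro _ ⟨ρ, hρ, rfl⟩
  have h1 := hx ⟨ρ, hρ⟩
  have h2 : ((ρ * g : G) : G ⧸ H) = (g : G ⧸ H) := h1
  have h3 := QuotientGroup.eq.mp h2.symm
  simpa [mul_assoc] using h3

theorem core {p q : ℕ} [hp : Fact p.Prime] [hq : Fact q.Prime] (hpq : p ≠ q) {r : ℕ} (hr : r.Prime) :
    ∃ (a : ℕ) (R E : Subgroup (Equiv.Perm (Fin a → ZMod p))), IsPGroup p R ∧ IsPGroup q E ∧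
      ∀ H : Subgroup (Equiv.Perm (Fin a → ZMod p)), E ≤ H →
        (∃ g, R.map (MulAut.conj g).toMonoidHom ≤ H) → r ∣ Nat.card H := by
  classical
  have hpp : p.Prime := hp.out
  have hqp : q.Prime := hq.out
  have hq2 := hqp.two_le
  have hr2 := hr.two_le
  obtain ⟨a, ha⟩ : ∃ a, a = (q - 1) * (q + r) := ⟨_, rfl⟩
  have hcardX : Fintype.card (Fin a → ZMod p) = p ^ a := by simp [ZMod.card]
  have hbig : q + r < p ^ a := by
    have h1 : q + r ≤ a := by
      rw [ha]
      exact Nat.le_mul_of_pos_left _ (by omega)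
    have h2 : a < 2 ^ a := Nat.lt_two_pow_self
    have h3 : 2 ^ a ≤ p ^ a := Nat.pow_le_pow_left hpp.two_le a
    omega
  have hmod : q ∣ p ^ a - 1 := by
    have hp0 : (p : ZMod q) ≠ 0 := by
      intro h
      rw [ZMod.natCast_eq_zero_iff] at h
      exact hpq ((Nat.prime_dvd_prime_iff_eq hqp hpp).mp h).symm
    have h1 : (p : ZMod q) ^ (q - 1) = 1 := ZMod.pow_card_sub_one_eq_one hp0
    have h2 : (p : ZMod q) ^ a = 1 := by
      rw [ha, pow_mul, h1, one_pow]
    have hpos : 1 ≤ p ^ a := by omega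
    rw [← ZMod.natCast_eq_zero_iff, Nat.cast_sub hpos, Nat.cast_pow, Nat.cast_one, h2, sub_self]
  obtain ⟨e, he⟩ := hmod
  have hcard2 : Fintype.card (Option (Fin e × ZMod q)) = Fintype.card (Fin a → ZMod p) := by
    rw [hcardX]
    simp [ZMod.card]
    have : 1 ≤ p ^ a := by omega
    rw [mul_comm]
    omega
  let ε : Option (Fin e × ZMod q) ≃ (Fin a → ZMod p) := Fintype.equivOfCardEq hcard2
  let ι : Fin e × ZMod q ↪ (Fin a → ZMod p) :=
    ⟨fun y => ε (some y), fun y y' h => by simpa using ε.injective h⟩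
  have hι : ∀ y, ι y = ε (some y) := fun y => rfl
  let ω₀ := ε none
  have hω₀ : ∀ x, x ≠ ω₀ → ∃ y, ι y = x := by
    intro x hx
    cases hy : ε.symm x with
    | none =>
      exfalso
      apply hx
      show x = ε none
      rw [← hy]
      simp
    | some y =>
      refine ⟨y, ?_⟩
      rw [hι, ← hy]
      simp
  have hω₀' : ∀ y, ι y ≠ ω₀ := by
    intro y h
    have := ε.injective h
    simp at this
  let τ : Multiplicative (Fin e → ZMod q) →* Equiv.Perm (Fin a → ZMod p) :=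
    (Equiv.Perm.viaEmbeddingHom ι).comp (shearHom e q)
  have hτ : ∀ f j z, τ f (ι (j, z)) = ι (j, z + Multiplicative.toAdd f j) := by
    intro f j z
    show (Equiv.Perm.viaEmbedding (shearHom e q f) ι) (ι (j, z)) = _
    rw [Equiv.Perm.viaEmbedding_apply, shearHom_apply]
  have hτ0 : ∀ f, τ f ω₀ = ω₀ := by
    intro f
    show (Equiv.Perm.viaEmbedding (shearHom e q f) ι) ω₀ = _
    apply Equiv.Perm.viaEmbedding_apply_of_notMem
    rintro ⟨y, hy⟩
    exact hω₀' y hy
  let c : Fin e → Equiv.Perm (Fin a → ZMod p) := fun i => τ (Multiplicative.ofAdd (Pi.single i 1))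
  have hform : ∀ i z, c i (ι (i, z)) = ι (i, z + 1) := by
    intro i z
    show τ _ _ = _
    rw [hτ]
    simp
  have hform2 : ∀ i j z, j ≠ i → c i (ι (j, z)) = ι (j, z) := by
    intro i j z hji
    show τ _ _ = _
    rw [hτ]
    simp [hji]
  have hfix0 : ∀ i, c i ω₀ = ω₀ := fun i => hτ0 _
  have h10 : (1 : ZMod q) ≠ 0 := one_ne_zero
  have hmove : ∀ i z, c i (ι (i, z)) ≠ ι (i, z) := by
    intro i z h
    rw [hform] at h
    have := ι.injective h
    simp at this
  have hpowc : ∀ i (k : ℕ), ((c i) ^ k) (ι (i, 0)) = ι (i, (k : ZMod q)) := by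
    intro i k
    induction k with
    | zero => simp
    | succ k ih =>
      rw [pow_succ', Equiv.Perm.mul_apply, ih, hform]
      push_cast
      rfl
  have hmoved : ∀ i y, c i y ≠ y → ∃ z, y = ι (i, z) := by
    intro i y hy
    by_cases hy0 : y = ω₀
    · rw [hy0] at hy
      exact absurd (hfix0 i) hy
    obtain ⟨⟨j, z⟩, rfl⟩ := hω₀ y hy0
    by_cases hj : j = i
    · subst hj
      exact ⟨z, rfl⟩
    · exact absurd (hform2 i j z hj) hy
  have hcyc : ∀ i, (c i).IsCycle := by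
    intro i
    refine ⟨ι (i, 0), hmove i 0, ?_⟩
    intro y hy
    obtain ⟨z, rfl⟩ := hmoved i y hy
    refine ⟨(z.val : ℤ), ?_⟩
    rw [zpow_natCast, hpowc, ZMod.natCast_zmod_val]
  have hsupp : ∀ i, (c i).support.card = q := by
    intro i
    have h1 : (c i).support = (Finset.univ : Finset (ZMod q)).image (fun z => ι (i, z)) := by
      ext y
      rw [Equiv.Perm.mem_support, Finset.mem_image]
      constructor
      · intro hy
        obtain ⟨z, rfl⟩ := hmoved i y hy
        exact ⟨z, Finset.mem_univ _, rfl⟩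
      · rintro ⟨z, -, rfl⟩
        exact hmove i z
    rw [h1, Finset.card_image_of_injective, Finset.card_univ, ZMod.card]
    intro z z' hzz
    have := ι.injective hzz
    simpa using this
  refine ⟨a, (transHom p a).range, τ.range, ?_, ?_, ?_⟩
  · apply IsPGroup.of_surjective (IsPGroup.of_card (n := a) (by simp [ZMod.card])) (transHom p a).rangeRestrict
    exact (transHom p a).rangeRestrict_surjective
  · apply IsPGroup.of_surjective (IsPGroup.of_card (n := e) (by simp [ZMod.card])) τ.rangeRestrict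
    exact τ.rangeRestrict_surjective
  · rintro H hEH ⟨g, hg⟩
    have hcH : ∀ i, c i ∈ H := fun i => hEH ⟨_, rfl⟩
    have hT : IsPretransitive H (Fin a → ZMod p) := by
      refine ⟨fun x y => ?_⟩
      let v : Fin a → ZMod p := g⁻¹ y - g⁻¹ x
      have hh : g * transHom p a (Multiplicative.ofAdd v) * g⁻¹ ∈ H :=
        hg ⟨_, ⟨_, rfl⟩, rfl⟩
      refine ⟨⟨_, hh⟩, ?_⟩
      show (g * transHom p a (Multiplicative.ofAdd v) * g⁻¹) x = y
      simp only [Equiv.Perm.mul_apply, transHom_apply, toAdd_ofAdd, v]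
      simp
    have hP := prim_of_data H hT ι ω₀ hω₀ hω₀' c hcH hcyc hsupp hform
    have he0 : 0 < e := by
      rcases Nat.eq_zero_or_pos e with h0 | h0
      · rw [h0, mul_zero] at he
        omega
      · exact h0
    exact dvd_of_prim H hP (hcH ⟨0, he0⟩) (hcyc _) (hsupp _) hr (by rw [hcardX]; omega)

end main

/-- For a set of primes π the following are equivalent: every finite group has a Hall π-subgroup; in every finite group the maximal π-subgroups are pairwise conjugate; π contains at most one prime or contains every prime. -/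
theorem result (π : Set ℕ) :
    ((∀ (G : Type) [Group G] [Finite G], Cfsg.IsEPiGroup π G) ↔
      ((∀ p q : ℕ, p.Prime → q.Prime → p ∈ π → q ∈ π → p = q) ∨ ∀ p : ℕ, p.Prime → p ∈ π)) ∧
    ((∀ (G : Type) [Group G] [Finite G], Cfsg.IsDPiGroup π G) ↔
      ((∀ p q : ℕ, p.Prime → q.Prime → p ∈ π → q ∈ π → p = q) ∨ ∀ p : ℕ, p.Prime → p ∈ π)) := by
  classical
  have hneg : ∀ (hnot : ¬ ((∀ p q : ℕ, p.Prime → q.Prime → p ∈ π → q ∈ π → p = q) ∨ ∀ p : ℕ, p.Prime → p ∈ π)),
      ∃ (p q r : ℕ), p.Prime ∧ q.Prime ∧ r.Prime ∧ p ∈ π ∧ q ∈ π ∧ r ∉ π ∧ p ≠ q := by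
    intro hnot
    push Not at hnot
    obtain ⟨⟨p, q, hp, hq, hpπ, hqπ, hne⟩, r, hr, hrπ⟩ := hnot
    exact ⟨p, q, r, hp, hq, hr, hpπ, hqπ, hrπ, hne⟩
  refine ⟨⟨?_, ?_⟩, ⟨?_, ?_⟩⟩
  · intro hE
    by_contra hnot
    obtain ⟨p, q, r, hp, hq, hr, hpπ, hqπ, hrπ, hne⟩ := hneg hnot
    haveI : Fact p.Prime := ⟨hp⟩
    haveI : Fact q.Prime := ⟨hq⟩
    obtain ⟨a, R, E, hR, hEp, hcore⟩ := core hne hr
    obtain ⟨H, hH1, hH2⟩ := hE (Equiv.Perm (Fin a → ZMod p))
    obtain ⟨g, hg⟩ := conj_into R H hR (hH2 p hp hpπ)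
    obtain ⟨g', hg'⟩ := conj_into E H hEp (hH2 q hq hqπ)
    have h1 := hcore (H.map (MulAut.conj g'⁻¹).toMonoidHom) (by
      intro x hx
      have h2 := hg' ⟨x, hx, rfl⟩
      refine ⟨_, h2, ?_⟩
      simp [mul_assoc]) ⟨g'⁻¹ * g, by
      rintro _ ⟨ρ, hρ, rfl⟩
      have h2 := hg ⟨ρ, hρ, rfl⟩
      refine ⟨_, h2, ?_⟩
      simp [mul_assoc]⟩
    rw [Subgroup.card_map_of_injective (MulAut.conj g'⁻¹).injective] at h1
    exact hrπ (hH1 r hr h1)
  · rintro (hA | hB) G _ _
    · by_cases hex : ∃ p, p.Prime ∧ p ∈ π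
      · obtain ⟨p, hp, hpπ⟩ := hex
        haveI : Fact p.Prime := ⟨hp⟩
        obtain ⟨S⟩ : Nonempty (Sylow p G) := inferInstance
        refine ⟨S, ?_, ?_⟩
        · intro ℓ hℓ hd
          obtain ⟨n, hn⟩ := IsPGroup.iff_card.mp S.isPGroup'
          rw [hn] at hd
          have : ℓ = p := (Nat.prime_dvd_prime_iff_eq hℓ hp).mp (hℓ.dvd_of_dvd_pow hd)
          rw [this]
          exact hpπ
        · intro ℓ hℓ hπ
          rw [hA ℓ p hℓ hp hπ hpπ]
          exact S.not_dvd_index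
      · refine ⟨⊥, ?_, ?_⟩
        · intro ℓ hℓ hd
          simp at hd
          exact absurd hd hℓ.ne_one
        · intro ℓ hℓ hπ
          exact absurd ⟨ℓ, hℓ, hπ⟩ hex
    · refine ⟨⊤, ?_, ?_⟩
      · intro ℓ hℓ _
        exact hB ℓ hℓ
      · intro ℓ hℓ _
        simp [hℓ.ne_one]
  · intro hD
    by_contra hnot
    obtain ⟨p, q, r, hp, hq, hr, hpπ, hqπ, hrπ, hne⟩ := hneg hnot
    haveI : Fact p.Prime := ⟨hp⟩
    haveI : Fact q.Prime := ⟨hq⟩
    obtain ⟨a, R, E, hR, hEp, hcore⟩ := core hne hr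
    have hpi : ∀ (ℓ : ℕ) (hℓ : ℓ.Prime) (W : Subgroup (Equiv.Perm (Fin a → ZMod p))), ℓ ∈ π →
        IsPGroup ℓ W → IsPiSubgroup π W := by
      intro ℓ hℓ W hπ hW t ht hd
      haveI : Fact ℓ.Prime := ⟨hℓ⟩
      obtain ⟨n, hn⟩ := IsPGroup.iff_card.mp hW
      rw [hn] at hd
      have : t = ℓ := (Nat.prime_dvd_prime_iff_eq ht hℓ).mp (ht.dvd_of_dvd_pow hd)
      rw [this]
      exact hπ
    obtain ⟨H₁, hH₁le, hH₁⟩ := (Set.toFinite {K : Subgroup (Equiv.Perm (Fin a → ZMod p)) | IsPiSubgroup π K}).exists_le_maximal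
      (a := R) (hpi p hp R hpπ hR)
    obtain ⟨H₂, hH₂le, hH₂⟩ := (Set.toFinite {K : Subgroup (Equiv.Perm (Fin a → ZMod p)) | IsPiSubgroup π K}).exists_le_maximal
      (a := E) (hpi q hq E hqπ hEp)
    obtain ⟨g, hg⟩ := hD (Equiv.Perm (Fin a → ZMod p)) H₁ H₂ hH₁ hH₂
    have h1 := hcore H₂ hH₂le ⟨g, by
      rw [hg]
      exact Subgroup.map_mono hH₁le⟩
    exact hrπ (hH₂.prop r hr h1)
  · rintro (hA | hB) G _ _ H K hH hK
    · by_cases hex : ∃ p, p.Prime ∧ p ∈ π
      · obtain ⟨p, hp, hpπ⟩ := hex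
        haveI : Fact p.Prime := ⟨hp⟩
        have hkey : ∀ H : Subgroup G, Maximal (IsPiSubgroup π) H → ∃ S : Sylow p G, H = S := by
          intro H hH
          have hHp : IsPGroup p H := by
            apply IsPGroup.of_card (n := (Nat.card H).primeFactorsList.length)
            apply Nat.eq_prime_pow_of_unique_prime_dvd Nat.card_pos.ne'
            intro d hdp hdd
            exact hA d p hdp hp (hH.prop d hdp hdd) hpπ
          obtain ⟨S, hS⟩ := hHp.exists_le_sylow
          refine ⟨S, ?_⟩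
          apply le_antisymm hS
          apply hH.2 _ hS
          intro ℓ hℓ hdd
          obtain ⟨n, hn⟩ := IsPGroup.iff_card.mp S.isPGroup'
          rw [hn] at hdd
          have : ℓ = p := (Nat.prime_dvd_prime_iff_eq hℓ hp).mp (hℓ.dvd_of_dvd_pow hdd)
          rw [this]
          exact hpπ
        obtain ⟨S₁, rfl⟩ := hkey H hH
        obtain ⟨S₂, rfl⟩ := hkey K hK
        obtain ⟨g, hg⟩ := MulAction.exists_smul_eq G S₁ S₂
        refine ⟨g, ?_⟩
        rw [← hg]
        rfl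
      · have hbot : ∀ W : Subgroup G, IsPiSubgroup π W → W = ⊥ := by
          intro W hW
          apply Subgroup.eq_bot_of_card_eq
          by_contra h1
          obtain ⟨ℓ, hℓ, hd⟩ := Nat.exists_prime_and_dvd h1
          exact hex ⟨ℓ, hℓ, hW ℓ hℓ hd⟩
        refine ⟨1, ?_⟩
        rw [hbot H hH.prop, hbot K hK.prop]
        ext x
        simp
    · have hall : ∀ W : Subgroup G, IsPiSubgroup π W := fun W ℓ hℓ _ => hB ℓ hℓ
      have h1 : H = ⊤ := top_le_iff.mp (hH.2 (hall ⊤) le_top)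
      have h2 : K = ⊤ := top_le_iff.mp (hK.2 (hall ⊤) le_top)
      refine ⟨1, ?_⟩
      rw [h1, h2]
      ext x
      simp

end Cfsg.Agent.S3878
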