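import Cfsg.Statements.S3881
-- import your own Cfsg.Agent.* helpers here
import Mathlib
import Cfsg.Agent.Lib.Coprime.MetaPow

set_option autoImplicit false
open Cfsg

namespace Cfsg.Agent.S3881

/-- Let p be an odd prime and G a finite metacyclic p-group (G has a cyclic normal subgroup with cyclic quotient). Suppose G is non-abelian with |G'| = p^n. Then for 1 ≤ i ≤ n the number of elements of G whose conjugacy class has exactly p^i elements is |Z(G)| · (p^(2i) − p^(2i−2)). -/
theorem result {G : Type*} [Group G] [Finite G] {p : ℕ} [Fact p.Prime] (hp : p ≠ 2) (hG : IsPGroup p G) (hmc : Cfsg.IsMetacyclic G) (n : ℕ) (hn : n ≠ 0) (hGn : Nat.card ↥(commutator G) = p ^ n) (i : ℕ) (hi : 1 ≤ i) (hin : i ≤ n) :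
    Nat.card {g : G // (Subgroup.centralizer ({g} : Set G)).index = p ^ i} =
      Nat.card ↥(Subgroup.center G) * (p ^ (2 * i) - p ^ (2 * i - 2)) := by
  classical
  have hp' : p.Prime := Fact.out
  have hmem := fun (s : ℕ) (hs : s ≤ n) => Cfsg.Agent.Lib.Coprime.Meta.mem_powSub_iff hp hG hmc hGn hs
  have hcard := fun (s : ℕ) (hs : s ≤ n) => Cfsg.Agent.Lib.Coprime.Meta.card_powSub hp hG hmc hGn hs
  have hZ := Cfsg.Agent.Lib.Coprime.Meta.index_center hp hG hmc
  rw [hGn] at hZ
  have hZc := Subgroup.card_mul_index (Subgroup.center G)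
  rw [hZ] at hZc
  let A := Cfsg.Agent.Lib.Coprime.Meta.powSub G (p ^ (n - i))
  let B := Cfsg.Agent.Lib.Coprime.Meta.powSub G (p ^ (n - (i - 1)))
  have hmA : ∀ g, g ∈ A ↔ (Subgroup.centralizer ({g} : Set G)).index ≤ p ^ i := by
    intro g
    have h1 := hmem (n - i) (by omega) g
    rwa [show n - (n - i) = i by omega] at h1
  have hmB : ∀ g, g ∈ B ↔ (Subgroup.centralizer ({g} : Set G)).index ≤ p ^ (i - 1) := by
    intro g
    have h1 := hmem (n - (i - 1)) (by omega) g
    rwa [show n - (n - (i - 1)) = i - 1 by omega] at h1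
  have hcA : Nat.card A = Nat.card (Subgroup.center G) * p ^ (2 * i) := by
    have h1 := hcard (n - i) (by omega)
    rw [← hZc] at h1
    have h2 : (p ^ n) ^ 2 = p ^ (2 * i) * p ^ (2 * (n - i)) := by
      rw [← pow_mul, ← pow_add]
      congr 1
      omega
    rw [h2, ← mul_assoc] at h1
    exact Nat.eq_of_mul_eq_mul_right (pow_pos hp'.pos _) h1
  have hcB : Nat.card B = Nat.card (Subgroup.center G) * p ^ (2 * i - 2) := by
    have h1 := hcard (n - (i - 1)) (by omega)
    rw [← hZc] at h1
    have h2 : (p ^ n) ^ 2 = p ^ (2 * i - 2) * p ^ (2 * (n - (i - 1))) := by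
      rw [← pow_mul, ← pow_add]
      congr 1
      omega
    rw [h2, ← mul_assoc] at h1
    exact Nat.eq_of_mul_eq_mul_right (pow_pos hp'.pos _) h1
  have hle : (B : Set G) ⊆ (A : Set G) := by
    intro g hg
    have h1 := (hmB g).mp hg
    apply (hmA g).mpr
    exact h1.trans (Nat.pow_le_pow_right hp'.pos (by omega))
  have hset : {g : G | (Subgroup.centralizer ({g} : Set G)).index = p ^ i} = (A : Set G) \ (B : Set G) := by
    ext g
    simp only [Set.mem_setOf_eq, Set.mem_diff, SetLike.mem_coe]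
    rw [hmA, hmB]
    constructor
    · intro h
      rw [h]
      refine ⟨le_rfl, ?_⟩
      intro hlt
      have := (Nat.pow_le_pow_iff_right hp'.one_lt).mp hlt
      omega
    · rintro ⟨h1, h2⟩
      obtain ⟨N, hN⟩ := IsPGroup.iff_card.mp hG
      have h3 : (Subgroup.centralizer ({g} : Set G)).index ∣ p ^ N := by
        rw [← hN]
        exact Subgroup.index_dvd_card _
      obtain ⟨e, _, he⟩ := (Nat.dvd_prime_pow hp').mp h3
      rw [he] at h1 h2 ⊢
      have h4 := (Nat.pow_le_pow_iff_right hp'.one_lt).mp h1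
      have h5 : ¬ e ≤ i - 1 := fun h6 => h2 (Nat.pow_le_pow_right hp'.pos h6)
      congr 1
      omega
  have h0 : Nat.card {g : G // (Subgroup.centralizer ({g} : Set G)).index = p ^ i} =
      Nat.card ↥{g : G | (Subgroup.centralizer ({g} : Set G)).index = p ^ i} := rfl
  rw [h0, hset, Nat.card_coe_set_eq, Set.ncard_sdiff hle (Set.toFinite _)]
  rw [show (A : Set G).ncard = Nat.card A from Nat.card_coe_set_eq _,
    show (B : Set G).ncard = Nat.card B from Nat.card_coe_set_eq _, hcA, hcB, Nat.mul_sub]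

end Cfsg.Agent.S3881
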