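import Cfsg.Statements.S3882
-- import your own Cfsg.Agent.* helpers here
import Mathlib
import Cfsg.Agent.Lib.Coprime.MetaPow

set_option autoImplicit false
open Cfsg

namespace Cfsg.Agent.S3882

/-- Let p be an odd prime and G a finite metacyclic p-group (G has a cyclic normal subgroup with cyclic quotient). Suppose |G'| = p^n and 0 ≤ s ≤ n. Then an element g lies in the subgroup generated by the p^s-th powers if and only if its conjugacy class has at most p^(n−s) elements; in particular the subgroup generated by the p^n-th powers is the center of G. -/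
theorem result {G : Type*} [Group G] [Finite G] {p : ℕ} [Fact p.Prime] (hp : p ≠ 2) (hG : IsPGroup p G) (hmc : Cfsg.IsMetacyclic G) (n : ℕ) (hGn : Nat.card ↥(commutator G) = p ^ n) (s : ℕ) (hs : s ≤ n) (g : G) :
    (g ∈ Subgroup.closure {x : G | ∃ y : G, y ^ p ^ s = x} ↔ (Subgroup.centralizer ({g} : Set G)).index ≤ p ^ (n - s)) ∧
      Subgroup.closure {x : G | ∃ y : G, y ^ p ^ n = x} = Subgroup.center G := by
  have h1 : ∀ (s : ℕ) (hs : s ≤ n) (g : G), g ∈ Subgroup.closure {x : G | ∃ y : G, y ^ p ^ s = x} ↔
      (Subgroup.centralizer ({g} : Set G)).index ≤ p ^ (n - s) :=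
    fun s hs g => Cfsg.Agent.Lib.Coprime.Meta.mem_powSub_iff hp hG hmc hGn hs g
  refine ⟨h1 s hs g, ?_⟩
  ext x
  rw [h1 n le_rfl x, Nat.sub_self, pow_zero, Subgroup.mem_center_iff]
  constructor
  · intro h y
    have h2 : (Subgroup.centralizer ({x} : Set G)).index = 1 := by
      have h3 : (Subgroup.centralizer ({x} : Set G)).index ≠ 0 := Subgroup.index_ne_zero_of_finite
      omega
    rw [Subgroup.index_eq_one] at h2
    have h3 : y ∈ Subgroup.centralizer ({x} : Set G) := by rw [h2]; trivial
    exact (Subgroup.mem_centralizer_iff.mp h3 x rfl).symm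
  · intro h
    have h2 : Subgroup.centralizer ({x} : Set G) = ⊤ := by
      rw [eq_top_iff]
      intro y _
      rw [Subgroup.mem_centralizer_iff]
      intro z hz
      have hz' : z = x := hz
      rw [hz']
      exact (h y).symm
    rw [h2, Subgroup.index_top]

end Cfsg.Agent.S3882
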