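import Cfsg.Statements.S3883
-- import your own Cfsg.Agent.* helpers here
import Mathlib
import Cfsg.Agent.Lib.Coprime.MetaProd
import Cfsg.Agent.Lib.Coprime.MetaPow
import Cfsg.Agent.Lib.Coprime.MetaSub
import Cfsg.Agent.Lib.Transfer.Frattini

set_option autoImplicit false
open Cfsg

namespace Cfsg.Agent.S3883

open scoped commutatorElement
open Subgroup Cfsg.Agent.Lib.Coprime.Meta

/-- Let p be an odd prime and G a finite metacyclic p-group (G has a cyclic normal subgroup with cyclic quotient). Suppose G is non-abelian. Then an element g of G lies outside the Frattini subgroup if and only if its centralizer C_G(g) is abelian. -/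
theorem result {G : Type*} [Group G] [Finite G] {p : ℕ} [Fact p.Prime] (hp : p ≠ 2) (hG : IsPGroup p G) (hmc : Cfsg.IsMetacyclic G) (hna : ¬ IsMulCommutative G) (g : G) :
    g ∉ frattini G ↔ IsMulCommutative ↥(Subgroup.centralizer ({g} : Set G)) := by
  have hpp : p.Prime := Fact.out
  have hC := IsMetacyclic_commutator_cyclic hmc
  obtain ⟨n, hn⟩ := IsPGroup.iff_card.mp (hG.to_subgroup (commutator G))
  have hn0 : n ≠ 0 := by
    rintro rfl
    apply hna
    rw [pow_zero] at hn
    have h1 : commutator G = ⊥ := Subgroup.eq_bot_of_card_eq _ hn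
    refine ⟨⟨fun a b => ?_⟩⟩
    have h2 : ⁅a, b⁆ ∈ commutator G := Subgroup.commutator_mem_commutator (mem_top _) (mem_top _)
    rw [h1, Subgroup.mem_bot, commutatorElement_eq_one_iff_mul_comm] at h2
    exact h2
  obtain ⟨c₀, hc₀, hord⟩ := exists_gen hC
  rw [hn] at hord
  have hs1 : 1 ≤ n := Nat.pos_of_ne_zero hn0
  haveI hW : (zpowers (c₀ ^ p ^ 1)).Normal := normal_of_le_cyclic hG (commutator G) hC (W_le hc₀)
  have hmem1 := mem_powSub_iff hp hG hmc hn hs1
  haveI hN : (powSub G (p ^ 1)).Normal := powSub_normal _
  have hF : frattini G = powSub G (p ^ 1) := by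
    apply le_antisymm
    · apply Cfsg.Agent.Lib.Transfer.frattini_le_of_elementary (p := p) (powSub G (p ^ 1))
      · intro x
        apply Subgroup.subset_closure
        exact ⟨x, by rw [pow_one]⟩
      · intro x y
        rw [hmem1, ← mem_centerMod_iff_index hp hG hC hc₀ hord hs1, mem_centerMod]
        intro g
        have hd : ⁅x, y⁆ ∈ commutator G := Subgroup.commutator_mem_commutator (mem_top _) (mem_top _)
        have h1 := comm_mem_of_pow hG hC (W := zpowers (c₀ ^ p ^ 1))
          (fun d hd => pow_mem_W (s := 1) hc₀ hd |> fun h => by rwa [pow_one] at h ⊢) hd g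
        rw [← commutatorElement_inv]
        exact inv_mem h1
    · rw [powSub, closure_le]
      rintro _ ⟨y, rfl⟩
      rw [pow_one]
      exact Cfsg.Agent.Lib.Transfer.pow_mem_frattini hG y
  have hidx0 : ∀ g : G, (centralizer ({g} : Set G)).index ≤ p ^ n := by
    intro g
    have h1 := (mem_powSub_iff hp hG hmc hn (Nat.zero_le n) g).mp (by
      have h2 : powSub G (p ^ 0) = ⊤ := by
        rw [eq_top_iff]
        intro x _
        apply Subgroup.subset_closure
        exact ⟨x, by rw [pow_zero, pow_one]⟩
      rw [h2]
      exact mem_top _)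
    simpa using h1
  have hcard := Subgroup.card_mul_index (centralizer ({g} : Set G))
  have hcard2 := Subgroup.card_mul_index (commutator G)
  have hipos : 0 < (centralizer ({g} : Set G)).index := Nat.pos_of_ne_zero Subgroup.index_ne_zero_of_finite
  have hcpos : 0 < (commutator G).index := Nat.pos_of_ne_zero Subgroup.index_ne_zero_of_finite
  rw [hF, hmem1, isMulCommutative_iff_card_le hp hG hmc]
  constructor
  · intro h
    push Not at h
    obtain ⟨k, hk⟩ := IsPGroup.iff_card.mp hG
    have hdvd : (centralizer ({g} : Set G)).index ∣ p ^ k := by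
      rw [← hk]
      exact Subgroup.index_dvd_card _
    obtain ⟨l, _, hl⟩ := (Nat.dvd_prime_pow hpp).mp hdvd
    rw [hl] at h
    have hnl : n - 1 < l := (Nat.pow_lt_pow_iff_right hpp.one_lt).mp h
    have hle := hidx0 g
    rw [hl] at hle
    have hln : l ≤ n := (Nat.pow_le_pow_iff_right hpp.one_lt).mp hle
    have hleq : l = n := by omega
    rw [hl, hleq] at hcard
    rw [hn] at hcard2
    rw [← hcard2] at hcard
    have := Nat.eq_of_mul_eq_mul_right (pow_pos hpp.pos n) (hcard.trans (mul_comm _ _))
    exact this.le
  · intro h hle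
    rw [hn] at hcard2
    have h3 : p ^ (n - 1) < p ^ n := Nat.pow_lt_pow_right hpp.one_lt (by omega)
    have h4 : (centralizer ({g} : Set G)).index < p ^ n := lt_of_le_of_lt hle h3
    have h5 : Nat.card (centralizer ({g} : Set G)) * (centralizer ({g} : Set G)).index ≤
        (commutator G).index * (centralizer ({g} : Set G)).index := Nat.mul_le_mul_right _ h
    have h6 : (commutator G).index * (centralizer ({g} : Set G)).index < (commutator G).index * p ^ n :=
      Nat.mul_lt_mul_of_pos_left h4 hcpos
    rw [hcard] at h5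
    rw [mul_comm ((commutator G).index) (p ^ n), hcard2] at h6
    omega

end Cfsg.Agent.S3883
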