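import Cfsg.Statements.S3886
-- import your own Cfsg.Agent.* helpers here
import Mathlib
import Cfsg.Agent.Lib.Coprime.MetaDual

set_option autoImplicit false
open Cfsg

namespace Cfsg.Agent.S3886

open Cfsg.Agent.Lib.Coprime.Meta in
theorem val_nonabelian {G : Type*} [Group G] [Finite G] {p : ℕ} [Fact p.Prime] (hp : p ≠ 2) (hG : IsPGroup p G)
    (hmc : Cfsg.IsMetacyclic G) (R : Subgroup G) (hna : ¬ IsMulCommutative ↥R) :
    Nat.card R * Nat.card (Subgroup.center R) = (commutator G).index ^ 2 := by
  have hne : ⁅R, R⁆ ≠ ⊥ := fun h => hna ((commutator_eq_bot_iff_comm R).mp h)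
  have h1 := (card_commutator_mul_index hp _ G rfl hG hmc R).1 hne
  have h2 := index_center hp (hG.to_subgroup R) (IsMetacyclic_subgroup hmc R)
  have hc : Nat.card (commutator R) = Nat.card ↥(⁅R, R⁆ : Subgroup G) := by
    rw [← Subgroup.map_subtype_commutator]
    exact Nat.card_congr (Subgroup.equivMapOfInjective _ _ R.subtype_injective).toEquiv
  rw [hc] at h2
  set c := Nat.card ↥(⁅R, R⁆ : Subgroup G) with hcdef
  have hcpos : 0 < c := Nat.card_pos
  have h3 := Subgroup.card_mul_index (Subgroup.center R)
  rw [h2] at h3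
  have h4 := Subgroup.card_mul_index R
  have h5 := Subgroup.card_mul_index (commutator G)
  set I := (commutator G).index with hI
  have hRi : 0 < R.index := Nat.pos_of_ne_zero Subgroup.index_ne_zero_of_finite
  have h6 : Nat.card R = c * I := by
    have h7 : Nat.card R * R.index = (c * I) * R.index := by
      rw [h4, ← h5, ← h1]
      ring
    exact Nat.eq_of_mul_eq_mul_right hRi h7
  have h8 : Nat.card (Subgroup.center R) * c = I := by
    have h9 : c * (Nat.card (Subgroup.center R) * c) = c * I := by
      rw [← h6, ← h3]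
      ring
    exact Nat.eq_of_mul_eq_mul_left hcpos h9
  rw [h6, pow_two]
  nth_rewrite 2 [← h8]
  ring

theorem card_center_of_comm {R : Type*} [Group R] (h : IsMulCommutative R) : Subgroup.center R = ⊤ := by
  rw [eq_top_iff]
  intro x _
  rw [Subgroup.mem_center_iff]
  intro y
  exact h.is_comm.comm y x

/-- Let p be an odd prime and G a finite metacyclic p-group (G has a cyclic normal subgroup with cyclic quotient). Then the largest value of |R| · |Z(R)| over subgroups R of G is |G : G'|², and the subgroups attaining it (the centrally large subgroups) are exactly the non-abelian subgroups together with the maximal abelian subgroups of G. -/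
theorem result {G : Type*} [Group G] [Finite G] {p : ℕ} [Fact p.Prime] (hp : p ≠ 2) (hG : IsPGroup p G) (hmc : Cfsg.IsMetacyclic G) : Cfsg.maxCentralProduct G = (commutator G).index ^ 2 ∧
    ∀ R : Subgroup G, Cfsg.IsCentrallyLarge R ↔ (¬ IsMulCommutative ↥R ∨ Maximal (fun K : Subgroup G => IsMulCommutative ↥K) R) := by
  classical
  set I := (commutator G).index with hI
  have hab := Cfsg.Agent.Lib.Coprime.Meta.isMulCommutative_iff_card_le hp hG hmc
  have hmax := Cfsg.Agent.Lib.Coprime.Meta.maximal_abelian_iff hp hG hmc
  have hval_ab : ∀ R : Subgroup G, IsMulCommutative ↥R →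
      Nat.card R * Nat.card (Subgroup.center R) = Nat.card R ^ 2 := by
    intro R hR
    rw [card_center_of_comm hR, Subgroup.card_top, pow_two]
  have hgreat : IsGreatest {k : ℕ | ∃ R : Subgroup G, Nat.card ↥R * Nat.card ↥(Subgroup.center ↥R) = k} (I ^ 2) := by
    constructor
    · refine ⟨⊤, ?_⟩
      by_cases hc : IsMulCommutative ↥(⊤ : Subgroup G)
      · rw [hval_ab ⊤ hc]
        have h1 : commutator G = ⊥ := by
          have h2 := (Cfsg.Agent.Lib.Coprime.Meta.commutator_eq_bot_iff_comm (⊤ : Subgroup G)).mpr hc
          exact h2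
        rw [hI, h1, Subgroup.index_bot, Subgroup.card_top]
      · exact val_nonabelian hp hG hmc ⊤ hc
    · rintro _ ⟨R, rfl⟩
      by_cases hc : IsMulCommutative ↥R
      · rw [hval_ab R hc]
        exact Nat.pow_le_pow_left ((hab R).mp hc) 2
      · exact (val_nonabelian hp hG hmc R hc).le
  have hM : Cfsg.maxCentralProduct G = I ^ 2 := hgreat.csSup_eq
  refine ⟨hM, ?_⟩
  intro R
  unfold Cfsg.IsCentrallyLarge
  rw [hM]
  constructor
  · intro h
    by_cases hc : IsMulCommutative ↥R
    · right
      rw [hval_ab R hc] at h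
      rw [hmax]
      exact Nat.pow_left_injective (n := 2) (by norm_num) h
    · exact Or.inl hc
  · rintro (h | h)
    · exact val_nonabelian hp hG hmc R h
    · rw [hval_ab R h.prop, (hmax R).mp h]

end Cfsg.Agent.S3886
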