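import Cfsg.Statements.S3895
-- import your own Cfsg.Agent.* helpers here
import Mathlib
import Cfsg.Agent.Lib.Coprime.K2
import Cfsg.Agent.Lib.Transfer.Frobenius

set_option autoImplicit false
open Cfsg

namespace Cfsg.Agent.S3895

open Subgroup Cfsg.Agent.Lib.Coprime.KP Cfsg.Agent.Lib.Coprime.K2 in
theorem card_kp_le_classes {G : Type*} [Group G] [Finite G] (P : Sylow 2 G) :
    Nat.card (KpT 2 G) ≤ Nat.card (ConjClasses (P : Subgroup G)) := by
  let f : ConjClasses (P : Subgroup G) → ConjClasses G := ConjClasses.map (P : Subgroup G).subtype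
  refine card_le_of_forall_exists_map f Subtype.val Subtype.val_injective ?_
  rintro ⟨c, hc⟩
  obtain ⟨x, rfl⟩ := ConjClasses.exists_rep c
  obtain ⟨k, hk⟩ := hc x (ConjClasses.mem_carrier_mk)
  obtain ⟨y, hy, hxy⟩ := exists_conj_mem_sylow P x k hk
  refine ⟨ConjClasses.mk ⟨y, hy⟩, ?_⟩
  show ConjClasses.map _ _ = _
  rw [ConjClasses.map]
  exact (ConjClasses.mk_eq_mk_iff_isConj.mpr hxy).symm

open Subgroup Cfsg.Agent.Lib.Coprime.KP Cfsg.Agent.Lib.Coprime.K2 in
theorem classes_le_kp {G : Type*} [Group G] [Finite G] (P : Sylow 2 G)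
    (hN : Cfsg.HasNormalPComplement 2 G) :
    Nat.card (ConjClasses (P : Subgroup G)) ≤ Nat.card (KpT 2 G) := by
  classical
  obtain ⟨P₀, N, hNn, hNc⟩ := hN
  have hp : (2 : ℕ).Prime := Fact.out
  have hcardN : (Nat.card N).Coprime 2 := by
    have h1 : (P₀ : Subgroup G).index = Nat.card N := hNc.index_eq_card
    have h2 := P₀.not_dvd_index
    rw [h1] at h2
    exact ((Nat.Prime.coprime_iff_not_dvd hp).2 h2).symm
  have hcardP : Nat.card (P : Subgroup G) = Nat.card (P₀ : Subgroup G) := by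
    rw [Sylow.card_eq_multiplicity, Sylow.card_eq_multiplicity]
  have hc : N.IsComplement' (P : Subgroup G) := by
    apply Subgroup.isComplement'_of_coprime
    · rw [hcardP]
      exact hNc.card_mul_card
    · obtain ⟨n, hn⟩ := IsPGroup.iff_card.mp P.isPGroup'
      rw [hn]
      exact Nat.Coprime.pow_right n hcardN
  have hcl : ∀ y : (P : Subgroup G), ∀ x ∈ (ConjClasses.mk (y : G)).carrier,
      ∃ k : ℕ, orderOf x = 2 ^ k := by
    intro y x hx
    rw [ConjClasses.mem_carrier_iff_mk_eq, ConjClasses.mk_eq_mk_iff_isConj] at hx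
    obtain ⟨k, hk⟩ := Cfsg.Agent.Lib.PGroups.exists_orderOf_of_mem_isPGroup P.isPGroup' y.2
    refine ⟨k, ?_⟩
    obtain ⟨g, hg⟩ := isConj_iff.mp hx
    rw [← Cfsg.Agent.Lib.PGroups.orderOf_conj_eq g x, hg]
    exact hk
  have hrep : ∀ c : ConjClasses (P : Subgroup G), ∃ y : (P : Subgroup G), ConjClasses.mk y = c :=
    ConjClasses.exists_rep
  choose r hr using hrep
  refine Nat.card_le_card_of_injective
    (fun c : ConjClasses (P : Subgroup G) => (⟨ConjClasses.mk ((r c : (P : Subgroup G)) : G), hcl _⟩ : KpT 2 G)) ?_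
  intro c₁ c₂ h12
  have h3 : ConjClasses.mk ((r c₁ : (P : Subgroup G)) : G) = ConjClasses.mk ((r c₂ : (P : Subgroup G)) : G) :=
    congrArg Subtype.val h12
  rw [ConjClasses.mk_eq_mk_iff_isConj] at h3
  obtain ⟨g, hg⟩ := isConj_iff.mp h3
  have hsup : (P : Subgroup G) ⊔ N = ⊤ := by
    rw [sup_comm]
    exact hc.sup_eq_top
  have hg' : g⁻¹ ∈ (P : Subgroup G) ⊔ N := hsup ▸ mem_top _
  obtain ⟨u, hu, n, hn, hun⟩ := (Subgroup.mem_sup_of_normal_right).mp hg'
  have hgeq : g = n⁻¹ * u⁻¹ := by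
    rw [← mul_inv_rev, hun, inv_inv]
  set y₁ := r c₁ with hy₁
  set y₂ := r c₂ with hy₂
  have h7 : (y₂ : G) = n⁻¹ * (u⁻¹ * (y₁ : G) * u) * n := by
    rw [← hg, hgeq]
    group
  set w := u⁻¹ * (y₁ : G) * u with hw
  have hwP : w ∈ (P : Subgroup G) := mul_mem (mul_mem (inv_mem hu) y₁.2) hu
  have h8 : (y₂ : G) * w⁻¹ ∈ N := by
    rw [h7]
    have h9 : n⁻¹ * w * n * w⁻¹ = n⁻¹ * (w * n * w⁻¹) := by group
    rw [h9]
    exact mul_mem (inv_mem hn) (hNn.conj_mem _ hn _)
  have h10 : (y₂ : G) * w⁻¹ ∈ (P : Subgroup G) := mul_mem y₂.2 (inv_mem hwP)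
  have h11 : (y₂ : G) * w⁻¹ = 1 := by
    have h12 := hc.disjoint
    exact Subgroup.disjoint_def.mp h12 h8 h10
  rw [mul_inv_eq_one] at h11
  have h13 : IsConj y₁ y₂ := by
    refine isConj_iff.mpr ⟨⟨u⁻¹, inv_mem hu⟩, Subtype.ext ?_⟩
    simp only [Subgroup.coe_mul, Subgroup.coe_inv, inv_inv, h11, hw]
  rw [← hr c₁, ← hr c₂]
  exact ConjClasses.mk_eq_mk_iff_isConj.mpr h13

/-- Let G be a finite group with Sylow 2-subgroup P, and write k₂(G) for the number of conjugacy classes of G consisting of 2-elements (elements of 2-power order, the identity included). Then k₂(G) > |P|/2 if and only if G has a normal 2-complement and P has more than |P|/2 conjugacy classes. -/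
theorem result {G : Type*} [Group G] [Finite G] (P : Sylow 2 G) :
    Nat.card ↥(P : Subgroup G) < 2 * Nat.card {c : ConjClasses G // ∀ x ∈ c.carrier, ∃ k : ℕ, orderOf x = 2 ^ k} ↔
      Cfsg.HasNormalPComplement 2 G ∧ Nat.card ↥(P : Subgroup G) < 2 * Nat.card (ConjClasses ↥(P : Subgroup G)) := by
  constructor
  · intro h
    have hle := card_kp_le_classes P
    refine ⟨?_, ?_⟩
    · rw [Cfsg.Agent.Lib.Transfer.hasNormalPComplement_iff_stable]
      by_contra hns
      obtain ⟨P₁, E, x, hEP, hC, hx, hxo, hxc⟩ := Cfsg.Agent.Lib.Coprime.K2.exists_centric hns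
      have h1 := Cfsg.Agent.Lib.Coprime.K2.two_kp_le_of_centric P₁ E hEP hC x hx
        (Nat.coprime_two_right.mp hxo) hxc
      have h2 : Nat.card (P : Subgroup G) = Nat.card (P₁ : Subgroup G) := by
        rw [Sylow.card_eq_multiplicity, Sylow.card_eq_multiplicity]
      rw [h2] at h
      exact absurd h (not_lt.mpr h1)
    · exact lt_of_lt_of_le h (Nat.mul_le_mul_left 2 hle)
  · rintro ⟨h1, h2⟩
    exact lt_of_lt_of_le h2 (Nat.mul_le_mul_left 2 (classes_le_kp P h1))

end Cfsg.Agent.S3895
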