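import Cfsg.Statements.S3897
-- import your own Cfsg.Agent.* helpers here
import Mathlib
import Cfsg.Agent.Lib.Coprime.KP

set_option autoImplicit false
open Cfsg

namespace Cfsg.Agent.S3897

/-- Let p be an odd prime and G a finite group with Sylow p-subgroup P, and write k_p(G) for the number of conjugacy classes of G consisting of p-elements (elements of p-power order, the identity included). Then k_p(G) > (p + 1)|P|/(2p) if and only if G has a normal p-complement and P is abelian. -/
theorem result {G : Type*} [Group G] [Finite G] {p : ℕ} [Fact p.Prime] (hp : p ≠ 2) (P : Sylow p G) :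
    (p + 1) * Nat.card ↥(P : Subgroup G) < 2 * p * Nat.card {c : ConjClasses G // ∀ x ∈ c.carrier, ∃ k : ℕ, orderOf x = p ^ k} ↔
      Cfsg.HasNormalPComplement p G ∧ IsMulCommutative ↥(P : Subgroup G) := by
  constructor
  · exact Cfsg.Agent.Lib.Coprime.KP.nilpotent_of_many_classes P
  · rintro ⟨h1, h2⟩
    have h3 := Cfsg.Agent.Lib.Coprime.KP.card_sylow_le_kp P h1 h2
    have hp3 : (p : ℕ).Prime := Fact.out
    have hpos : 0 < Nat.card (P : Subgroup G) := Nat.card_pos
    have h2p : 2 ≤ p := hp3.two_le
    have h4 : 2 * p * Nat.card (P : Subgroup G) ≤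
        2 * p * Nat.card {c : ConjClasses G // ∀ x ∈ c.carrier, ∃ k : ℕ, orderOf x = p ^ k} :=
      Nat.mul_le_mul_left _ h3
    nlinarith

end Cfsg.Agent.S3897
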