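import Cfsg.Statements.S3898
-- import your own Cfsg.Agent.* helpers here
import Mathlib
import Cfsg.Agent.Lib.Coprime.KPi
import Cfsg.Agent.Lib.Transfer.Fusion
import Cfsg.Agent.S3895

set_option autoImplicit false
open Cfsg

namespace Cfsg.Agent.S3898

open Subgroup Cfsg.Agent.Lib.Coprime.KP Cfsg.Agent.Lib.Coprime.KPi

universe u

section aux

/-- `step`, with the sum kept. -/
theorem step_sum {H : Type*} [Group H] [Finite H] (r : ℕ) [Fact r.Prime] (π' : Finset ℕ) (hr : r ∉ π')
    [Fintype (KpT r H)] (rep : KpT r H → H) (hrep : ∀ c, ConjClasses.mk (rep c) = c.1) :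
    Nat.card (KpiT (insert r π') H) ≤
      ∑ c : KpT r H, Nat.card (KpiT π' (centralizer ({rep c} : Set H))) := by
  classical
  have hrepT : ∀ (c : KpT r H) (d : KpiT π' (centralizer ({rep c} : Set H))),
      ∃ v : centralizer ({rep c} : Set H), ConjClasses.mk v = d.1 :=
    fun c d => ConjClasses.exists_rep d.1
  choose repT hrepT using hrepT
  let f : (Σ c : KpT r H, KpiT π' (centralizer ({rep c} : Set H))) → ConjClasses H :=
    fun b => ConjClasses.mk (rep b.1 * (repT b.1 b.2 : H))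
  have hle : Nat.card (KpiT (insert r π') H) ≤
      Nat.card (Σ c : KpT r H, KpiT π' (centralizer ({rep c} : Set H))) := by
    refine card_le_of_forall_exists_map f Subtype.val Subtype.val_injective ?_
    rintro ⟨e, he⟩
    obtain ⟨g, rfl⟩ := ConjClasses.exists_rep e
    have hg := he g ConjClasses.mem_carrier_mk
    obtain ⟨u, v, hguv, hcomm, ⟨k, hk⟩, hvr, -, hvz⟩ := Cfsg.Agent.Lib.PGroups.exists_pPart r g
    have hu : ∀ x ∈ (ConjClasses.mk u).carrier, ∃ k : ℕ, orderOf x = r ^ k := by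
      intro x hx
      rw [ConjClasses.mem_carrier_iff_mk_eq, ConjClasses.mk_eq_mk_iff_isConj] at hx
      refine ⟨k, ?_⟩
      obtain ⟨t, ht⟩ := isConj_iff.mp hx
      rw [← Cfsg.Agent.Lib.PGroups.orderOf_conj_eq t x, ht]
      exact hk
    obtain ⟨c₀, hc₀⟩ : ∃ c₀ : KpT r H, c₀ = ⟨ConjClasses.mk u, hu⟩ := ⟨_, rfl⟩
    have hrepc : ConjClasses.mk (rep c₀) = ConjClasses.mk u := by
      rw [hrep, hc₀]
    rw [ConjClasses.mk_eq_mk_iff_isConj] at hrepc
    obtain ⟨h, hh⟩ := isConj_iff.mp hrepc.symm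
    have hv' : h * v * h⁻¹ ∈ centralizer ({rep c₀} : Set H) := by
      rw [mem_centralizer_singleton_iff, ← hh]
      have h1 : v * u = u * v := hcomm.eq.symm
      calc h * v * h⁻¹ * (h * u * h⁻¹) = h * (v * u) * h⁻¹ := by group
        _ = h * (u * v) * h⁻¹ := by rw [h1]
        _ = _ := by group
    obtain ⟨v₁, hv₁⟩ : ∃ v₁ : centralizer ({rep c₀} : Set H), v₁ = ⟨h * v * h⁻¹, hv'⟩ := ⟨_, rfl⟩
    have hd : ∀ x ∈ (ConjClasses.mk v₁).carrier, ∀ s : ℕ, s.Prime → s ∣ orderOf x → s ∈ π' := by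
      intro x hx s hs hsd
      rw [ConjClasses.mem_carrier_iff_mk_eq, ConjClasses.mk_eq_mk_iff_isConj] at hx
      obtain ⟨t, ht⟩ := isConj_iff.mp hx
      have h1 : orderOf x = orderOf v := by
        rw [← Cfsg.Agent.Lib.PGroups.orderOf_conj_eq t x, ht, hv₁, Subgroup.orderOf_mk,
          Cfsg.Agent.Lib.PGroups.orderOf_conj_eq]
      rw [h1] at hsd
      have h2 : s ∣ orderOf g := hsd.trans (orderOf_dvd_of_mem_zpowers hvz)
      have h3 := hg s hs h2
      rw [Finset.mem_insert] at h3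
      rcases h3 with rfl | h3
      · exact absurd hsd hvr
      · exact h3
    obtain ⟨d₀, hd₀⟩ : ∃ d₀ : KpiT π' (centralizer ({rep c₀} : Set H)),
        d₀ = ⟨ConjClasses.mk v₁, hd⟩ := ⟨_, rfl⟩
    refine ⟨⟨c₀, d₀⟩, ?_⟩
    show ConjClasses.mk (rep c₀ * (repT c₀ d₀ : H)) = ConjClasses.mk g
    have h3 : ConjClasses.mk (repT c₀ d₀) = ConjClasses.mk v₁ := by
      rw [hrepT, hd₀]
    rw [ConjClasses.mk_eq_mk_iff_isConj] at h3
    obtain ⟨t, ht⟩ := isConj_iff.mp h3
    rw [ConjClasses.mk_eq_mk_iff_isConj]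
    have ht' : (t : H) * (repT c₀ d₀ : H) * (t : H)⁻¹ = h * v * h⁻¹ := by
      have := congrArg Subtype.val ht
      rw [hv₁] at this
      exact this
    have htc : (t : H) * rep c₀ = rep c₀ * (t : H) := mem_centralizer_singleton_iff.mp t.2
    refine isConj_iff.mpr ⟨h⁻¹ * (t : H), ?_⟩
    have h5 : (t : H) * (rep c₀ * (repT c₀ d₀ : H)) * (t : H)⁻¹ = rep c₀ * (h * v * h⁻¹) := by
      rw [← ht']
      calc (t : H) * (rep c₀ * (repT c₀ d₀ : H)) * (t : H)⁻¹
          = ((t : H) * rep c₀) * (repT c₀ d₀ : H) * (t : H)⁻¹ := by group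
        _ = (rep c₀ * (t : H)) * (repT c₀ d₀ : H) * (t : H)⁻¹ := by rw [htc]
        _ = _ := by group
    calc h⁻¹ * (t : H) * (rep c₀ * (repT c₀ d₀ : H)) * (h⁻¹ * (t : H))⁻¹
        = h⁻¹ * ((t : H) * (rep c₀ * (repT c₀ d₀ : H)) * (t : H)⁻¹) * h := by group
      _ = h⁻¹ * (rep c₀ * (h * v * h⁻¹)) * h := by rw [h5]
      _ = h⁻¹ * ((h * u * h⁻¹) * (h * v * h⁻¹)) * h := by rw [hh]
      _ = u * v := by group
      _ = g := hguv.symm
  refine hle.trans ?_
  rw [Nat.card_sigma]

theorem two_mul_piPart_le (π' : Finset ℕ) (hπ' : ∀ s ∈ π', s.Prime) (h2 : 2 ∈ π') {m n : ℕ} (hm : m ≠ 0)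
    (hn : n ≠ 0) (h : m ∣ n) (hlt : m.factorization 2 < n.factorization 2) :
    2 * piPart π' m ≤ piPart π' n := by
  have hπ'' : ∀ s ∈ π'.erase 2, s.Prime := fun s hs => hπ' s (Finset.mem_of_mem_erase hs)
  have e : ∀ t : ℕ, piPart π' t = 2 ^ t.factorization 2 * piPart (π'.erase 2) t := by
    intro t
    unfold piPart
    rw [Finset.mul_prod_erase π' (fun s => s ^ t.factorization s) h2]
  rw [e m, e n]
  have h3 := piPart_mono (π'.erase 2) hπ'' hm hn h
  have h4 : 2 * 2 ^ m.factorization 2 ≤ 2 ^ n.factorization 2 := by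
    rw [← pow_succ']
    exact Nat.pow_le_pow_right (by norm_num) hlt
  calc 2 * (2 ^ m.factorization 2 * piPart (π'.erase 2) m)
      = (2 * 2 ^ m.factorization 2) * piPart (π'.erase 2) m := by ring
    _ ≤ 2 ^ n.factorization 2 * piPart (π'.erase 2) n := Nat.mul_le_mul h4 h3

theorem card_kp_le_classes' {G : Type*} [Group G] [Finite G] {r : ℕ} [Fact r.Prime] (P : Sylow r G) :
    Nat.card (KpT r G) ≤ Nat.card (ConjClasses (P : Subgroup G)) := by
  let f : ConjClasses (P : Subgroup G) → ConjClasses G := ConjClasses.map (P : Subgroup G).subtype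
  refine card_le_of_forall_exists_map f Subtype.val Subtype.val_injective ?_
  rintro ⟨c, hc⟩
  obtain ⟨x, rfl⟩ := ConjClasses.exists_rep c
  obtain ⟨k, hk⟩ := hc x (ConjClasses.mem_carrier_mk)
  obtain ⟨y, hy, hxy⟩ := exists_conj_mem_sylow P x k hk
  refine ⟨ConjClasses.mk ⟨y, hy⟩, ?_⟩
  show ConjClasses.map _ _ = _
  rw [ConjClasses.map]
  exact (ConjClasses.mk_eq_mk_iff_isConj.mpr hxy).symm

theorem kr_nonab {G : Type*} [Group G] [Finite G] {r : ℕ} [Fact r.Prime] (hr : r ≠ 2) (P : Sylow r G)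
    (hna : ¬ IsMulCommutative (P : Subgroup G)) :
    2 * Nat.card (KpT r G) ≤ Nat.card (P : Subgroup G) := by
  classical
  have hrp : r.Prime := Fact.out
  have hr3 : 3 ≤ r := by
    have := hrp.two_le
    omega
  have h1 := kp_mul_le P (P : Subgroup G) le_normalizer
  have hcen : (centralizer ((P : Subgroup G) : Set G)).subgroupOf (P : Subgroup G) = center (P : Subgroup G) := by
    ext x
    rw [mem_subgroupOf, mem_centralizer_iff, mem_center_iff]
    constructor
    · intro h y
      exact Subtype.ext (h y y.2)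
    · intro h y hy
      exact congrArg Subtype.val (h ⟨y, hy⟩)
  rw [hcen] at h1
  have hpos : 0 < Nat.card (P : Subgroup G) := Nat.card_pos
  -- bound for the centre
  have hZ : r ^ 2 * Nat.card (center (P : Subgroup G)) ≤ Nat.card (P : Subgroup G) := by
    have h2 : (center (P : Subgroup G)).index * Nat.card (center (P : Subgroup G)) = Nat.card (P : Subgroup G) :=
      Subgroup.index_mul_card _
    obtain ⟨n, hn⟩ := IsPGroup.iff_card.mp P.isPGroup'
    have h3 : (center (P : Subgroup G)).index ∣ r ^ n := by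
      rw [← hn, ← h2]
      exact dvd_mul_right _ _
    obtain ⟨t, -, ht⟩ := (Nat.dvd_prime_pow hrp).mp h3
    have ht2 : 2 ≤ t := by
      by_contra hlt
      have hcases : t = 0 ∨ t = 1 := by omega
      apply hna
      rcases hcases with rfl | rfl
      · rw [pow_zero] at ht
        have h4 := Subgroup.index_eq_one.mp ht
        exact ⟨⟨fun a b => (Subgroup.mem_center_iff.mp (h4 ▸ Subgroup.mem_top a) b).symm⟩⟩
      · rw [pow_one] at ht
        haveI : Fact (Nat.card ((P : Subgroup G) ⧸ center (P : Subgroup G))).Prime := ⟨by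
          rw [← Subgroup.index_eq_card, ht]; exact hrp⟩
        haveI : IsCyclic ((P : Subgroup G) ⧸ center (P : Subgroup G)) :=
          isCyclic_of_prime_card rfl
        letI := commGroupOfCyclicCenterQuotient (QuotientGroup.mk' (center (P : Subgroup G)))
          (by rw [QuotientGroup.ker_mk'])
        exact ⟨⟨fun a b => mul_comm a b⟩⟩
    calc r ^ 2 * Nat.card (center (P : Subgroup G))
        ≤ (center (P : Subgroup G)).index * Nat.card (center (P : Subgroup G)) := by
          apply Nat.mul_le_mul_right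
          rw [ht]
          exact Nat.pow_le_pow_right hrp.pos ht2
      _ = _ := h2
  obtain ⟨k, hk⟩ : ∃ k, k = Nat.card (KpT r G) := ⟨_, rfl⟩
  obtain ⟨q, hq⟩ : ∃ q, q = Nat.card (P : Subgroup G) := ⟨_, rfl⟩
  obtain ⟨z, hz⟩ : ∃ z, z = Nat.card (center (P : Subgroup G)) := ⟨_, rfl⟩
  rw [← hk, ← hq, ← hz] at h1
  rw [← hq, ← hz] at hZ
  rw [← hk, ← hq]
  rw [← hq] at hpos
  have h5 : r * k ≤ q + (r - 1) * z := by
    have h6 : r * k * q ≤ (q + (r - 1) * z) * q := by
      calc r * k * q ≤ q * q + (r - 1) * q * z := h1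
        _ = _ := by ring
    exact Nat.le_of_mul_le_mul_right h6 hpos
  obtain ⟨s, rfl⟩ : ∃ s, r = s + 3 := ⟨r - 3, by omega⟩
  simp only [show s + 3 - 1 = s + 2 by omega] at h5
  have h7 : 2 * (s + 2) * z ≤ (s + 1) * q := by
    have h8 : 2 * (s + 2) ≤ (s + 1) * (s + 3) ^ 2 := by nlinarith [Nat.zero_le s]
    calc 2 * (s + 2) * z ≤ (s + 1) * (s + 3) ^ 2 * z := Nat.mul_le_mul_right _ h8
      _ = (s + 1) * ((s + 3) ^ 2 * z) := by ring
      _ ≤ (s + 1) * q := Nat.mul_le_mul_left _ hZ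
  have h9 : (s + 3) * (2 * k) ≤ (s + 3) * q := by
    have h10 : (s + 3) * (2 * k) = 2 * ((s + 3) * k) := by ring
    rw [h10]
    have h11 : 2 * ((s + 3) * k) ≤ 2 * (q + (s + 2) * z) := Nat.mul_le_mul_left _ h5
    have h12 : 2 * (q + (s + 2) * z) = 2 * q + 2 * (s + 2) * z := by ring
    have h13 : (s + 3) * q = 2 * q + (s + 1) * q := by ring
    omega
  exact Nat.le_of_mul_le_mul_left h9 (by omega)

/-- an element of a Sylow subgroup's normalizer with `r`-power order lies in it. -/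
theorem mem_sylow_of_norm {G : Type*} [Group G] [Finite G] {r : ℕ} [Fact r.Prime] (P : Sylow r G) {b : G}
    (hb : b ∈ normalizer ((P : Subgroup G) : Set G)) {k : ℕ} (hk : orderOf b = r ^ k) :
    b ∈ (P : Subgroup G) := by
  have hzp : IsPGroup r (zpowers b) := by
    rw [Cfsg.Agent.Lib.PGroups.isPGroup_zpowers_iff]
    exact ⟨k, hk⟩
  have h1 := hzp.inf_normalizer_sylow P
  exact (h1.le ⟨mem_zpowers b, hb⟩).2

/-- The fixed points inject: the key step in the abelian case. -/
theorem fix_inj {G : Type*} [Group G] [Finite G] {r : ℕ} [Fact r.Prime] (P : Sylow r G)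
    (hab : ∀ a ∈ (P : Subgroup G), ∀ b ∈ (P : Subgroup G), a * b = b * a) {a₁ a₂ e : G}
    (h1 : a₁ ∈ (P : Subgroup G)) (h2 : a₂ ∈ (P : Subgroup G)) (he : e ∈ (P : Subgroup G))
    (hf1 : ∀ l ∈ normalizer ((P : Subgroup G) : Set G), l * a₁ * l⁻¹ = a₁)
    (hf2 : ∀ l ∈ normalizer ((P : Subgroup G) : Set G), l * a₂ * l⁻¹ = a₂)
    {l : G} (hl : l ∈ normalizer ((P : Subgroup G) : Set G))
    (hc : l * (a₁ * e) * l⁻¹ = a₂ * e) : a₁ = a₂ := by
  obtain ⟨b, c, hlbc, hcomm, ⟨k, hk⟩, hcop, hbz, hcz⟩ := Cfsg.Agent.Lib.PGroups.exists_pPart r l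
  have hzl : zpowers l ≤ normalizer ((P : Subgroup G) : Set G) := zpowers_le.mpr hl
  have hbP : b ∈ (P : Subgroup G) := mem_sylow_of_norm P (hzl hbz) hk
  have hcN : c ∈ normalizer ((P : Subgroup G) : Set G) := hzl hcz
  obtain ⟨d, hd⟩ : ∃ d, d = a₁⁻¹ * a₂ := ⟨_, rfl⟩
  have hdP : d ∈ (P : Subgroup G) := hd ▸ mul_mem (inv_mem h1) h2
  have hce : c * e * c⁻¹ = d * e := by
    have h3 : l * e * l⁻¹ = d * e := by
      have h4 : l * (a₁ * e) * l⁻¹ = (l * a₁ * l⁻¹) * (l * e * l⁻¹) := by group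
      rw [h4, hf1 l hl] at hc
      rw [hd]
      calc l * e * l⁻¹ = a₁⁻¹ * (a₁ * (l * e * l⁻¹)) := by group
        _ = a₁⁻¹ * (a₂ * e) := by rw [hc]
        _ = _ := by group
    have h5 : c * e * c⁻¹ ∈ (P : Subgroup G) := (mem_normalizer_iff.mp hcN e).mp he
    have h6 : l = b * c := hlbc
    rw [h6] at h3
    have h7 : b * c * e * (b * c)⁻¹ = b * (c * e * c⁻¹) * b⁻¹ := by group
    rw [h7, hab b hbP _ h5] at h3
    rw [← h3]
    group
  have hdfix : c * d * c⁻¹ = d := by
    rw [hd]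
    have h3 : c * (a₁⁻¹ * a₂) * c⁻¹ = (c * a₁ * c⁻¹)⁻¹ * (c * a₂ * c⁻¹) := by group
    rw [h3, hf1 c hcN, hf2 c hcN]
  have hpow : ∀ i : ℕ, c ^ i * e * (c ^ i)⁻¹ = d ^ i * e := by
    intro i
    induction i with
    | zero => simp
    | succ i ih =>
      have h3 : c * d ^ i * c⁻¹ = d ^ i := by
        have := conj_pow (a := c) (b := d) (i := i)
        rw [hdfix] at this
        exact this.symm
      calc c ^ (i + 1) * e * (c ^ (i + 1))⁻¹ = c * (c ^ i * e * (c ^ i)⁻¹) * c⁻¹ := by
            rw [pow_succ']; group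
        _ = c * (d ^ i * e) * c⁻¹ := by rw [ih]
        _ = (c * d ^ i * c⁻¹) * (c * e * c⁻¹) := by group
        _ = d ^ i * (d * e) := by rw [h3, hce]
        _ = d ^ (i + 1) * e := by rw [pow_succ, mul_assoc]
  have h3 := hpow (orderOf c)
  rw [pow_orderOf_eq_one] at h3
  have h4 : d ^ orderOf c = 1 := by
    have h5 : e = d ^ orderOf c * e := by simpa using h3
    exact (mul_eq_right.mp h5.symm)
  have h6 : orderOf d ∣ orderOf c := orderOf_dvd_of_pow_eq_one h4
  obtain ⟨t, ht⟩ := Cfsg.Agent.Lib.PGroups.exists_orderOf_of_mem_isPGroup P.isPGroup' hdP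
  have h7 : orderOf d = 1 := by
    have h8 : orderOf d ∣ r ^ t := by rw [ht]
    have hcop' : (orderOf c).Coprime (r ^ t) := by
      apply Nat.Coprime.pow_right
      exact ((Nat.Prime.coprime_iff_not_dvd Fact.out).mpr hcop).symm
    exact Nat.eq_one_of_dvd_coprimes hcop' h6 h8
  have h8 : d = 1 := orderOf_eq_one_iff.mp h7
  rw [hd] at h8
  calc a₁ = a₁ * (a₁⁻¹ * a₂) := by
        rw [h8, mul_one]
    _ = a₂ := by group

/-- The crucial fusion statement: three elements. -/
theorem third_elem {G : Type*} [Group G] [Finite G] {r : ℕ} [Fact r.Prime] (hr : r ≠ 2) (P : Sylow r G)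
    (hab : IsMulCommutative (P : Subgroup G)) (N : Subgroup G) [hN : N.Normal] (hNodd : Odd (Nat.card N))
    (hNidx : ∃ t : ℕ, N.index = 2 ^ t) {a a' : G} (ha : a ∈ (P : Subgroup G)) (ha' : a' ∈ (P : Subgroup G))
    (hconj : IsConj a a') (hne : a ≠ a') (hodd : ¬ 2 ∣ (centralizer ({a} : Set G)).index) :
    ∃ a'' ∈ (P : Subgroup G), IsConj a a'' ∧ a'' ≠ a ∧ a'' ≠ a' := by
  classical
  haveI : Fact (Nat.Prime 2) := ⟨Nat.prime_two⟩
  have hrp : r.Prime := Fact.out
  obtain ⟨t, ht⟩ := hNidx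
  -- `P ≤ N`
  have hPN : (P : Subgroup G) ≤ N := by
    intro x hx
    have h1 : x ^ N.index ∈ N := Subgroup.pow_index_mem N x
    obtain ⟨k, hk⟩ := Cfsg.Agent.Lib.PGroups.exists_orderOf_of_mem_isPGroup P.isPGroup' hx
    have hcop : (N.index).Coprime (orderOf x) := by
      rw [ht, hk]
      apply Nat.Coprime.pow
      exact (Nat.coprime_primes Nat.prime_two hrp).mpr (Ne.symm hr)
    obtain ⟨m, hm⟩ := exists_pow_eq_self_of_coprime hcop
    rw [← hm]
    exact pow_mem h1 m
  -- a Sylow 2-subgroup in the centralizer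
  obtain ⟨D⟩ : Nonempty (Sylow 2 (centralizer ({a} : Set G))) := inferInstance
  obtain ⟨Dm, hDm⟩ : ∃ Dm : Subgroup G, Dm = (D : Subgroup (centralizer ({a} : Set G))).map (centralizer ({a} : Set G)).subtype := ⟨_, rfl⟩
  have hDc : Nat.card Dm = Nat.card (D : Subgroup (centralizer ({a} : Set G))) := by
    rw [hDm]
    exact Subgroup.card_map_of_injective (centralizer ({a} : Set G)).subtype_injective
  have hDp : IsPGroup 2 Dm := by
    rw [hDm]
    exact D.isPGroup'.map _
  have hDa : ∀ d ∈ Dm, d * a = a * d := by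
    intro d hd
    rw [hDm] at hd
    obtain ⟨y, -, rfl⟩ := hd
    exact mem_centralizer_singleton_iff.mp y.2
  -- the order of Dm is the 2-part
  have hcard : Nat.card N * Nat.card Dm = Nat.card G := by
    have h1 : (centralizer ({a} : Set G)).index * Nat.card (centralizer ({a} : Set G)) = Nat.card G :=
      Subgroup.index_mul_card _
    have h2 : N.index * Nat.card N = Nat.card G := Subgroup.index_mul_card N
    have h3 : (D : Subgroup (centralizer ({a} : Set G))).index * Nat.card (D : Subgroup (centralizer ({a} : Set G))) =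
        Nat.card (centralizer ({a} : Set G)) := Subgroup.index_mul_card _
    have h4 := D.not_dvd_index
    obtain ⟨m, hm⟩ := IsPGroup.iff_card.mp D.isPGroup'
    have hGeq : (centralizer ({a} : Set G)).index * (D : Subgroup (centralizer ({a} : Set G))).index * 2 ^ m = 2 ^ t * Nat.card N := by
      rw [← ht, h2, ← h1, ← h3, hm]
      ring
    have hodd2 : ¬ 2 ∣ (centralizer ({a} : Set G)).index * (D : Subgroup (centralizer ({a} : Set G))).index := by
      intro h
      rcases (Nat.Prime.dvd_mul Nat.prime_two).mp h with h | h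
      · exact hodd h
      · exact h4 h
    have hNo : ¬ 2 ∣ Nat.card N := by
      rw [Nat.two_dvd_ne_zero]
      exact Nat.odd_iff.mp hNodd
    have e : m = t := by
      have h5 : ((centralizer ({a} : Set G)).index * (D : Subgroup (centralizer ({a} : Set G))).index * 2 ^ m).factorization 2 = (2 ^ t * Nat.card N).factorization 2 := by rw [hGeq]
      have hne1 : (centralizer ({a} : Set G)).index * (D : Subgroup (centralizer ({a} : Set G))).index ≠ 0 := by
        intro h; apply hodd2; rw [h]; exact dvd_zero _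
      have hne2 : Nat.card N ≠ 0 := Nat.card_pos.ne'
      rw [Nat.factorization_mul hne1 (by positivity), Nat.factorization_mul (by positivity) hne2] at h5
      simp only [Finsupp.add_apply, Nat.Prime.factorization_pow Nat.prime_two, Finsupp.single_eq_same,
        Nat.factorization_eq_zero_of_not_dvd hodd2, Nat.factorization_eq_zero_of_not_dvd hNo] at h5
      omega
    rw [hDc, hm, e, mul_comm, ← ht, Subgroup.index_mul_card]
  have hcompl : N.IsComplement' Dm := by
    apply Subgroup.isComplement'_of_coprime hcard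
    obtain ⟨m, hm⟩ := IsPGroup.iff_card.mp hDp
    rw [hm]
    apply Nat.Coprime.pow_right
    have hNo : ¬ 2 ∣ Nat.card N := by
      rw [Nat.two_dvd_ne_zero]
      exact Nat.odd_iff.mp hNodd
    exact ((Nat.Prime.coprime_iff_not_dvd Nat.prime_two).mpr hNo).symm
  have hsup : N ⊔ Dm = ⊤ := hcompl.sup_eq_top
  obtain ⟨g, hg⟩ := isConj_iff.mp hconj
  have hgmem : g ∈ N ⊔ Dm := hsup ▸ mem_top g
  obtain ⟨n, hn, d, hd, hgnd⟩ := (Subgroup.mem_sup_of_normal_left).mp hgmem
  have hna : n * a * n⁻¹ = a' := by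
    rw [← hg, ← hgnd]
    have := hDa d hd
    calc n * a * n⁻¹ = n * (a * d) * d⁻¹ * n⁻¹ := by group
      _ = n * (d * a) * d⁻¹ * n⁻¹ := by rw [this]
      _ = n * d * a * (n * d)⁻¹ := by group
  -- fusion in `N`
  let PN : Sylow r N := P.subtype hPN
  have hPNc : (PN : Subgroup N) = (P : Subgroup G).subgroupOf N := Sylow.coe_subtype _ _
  haveI habN : IsMulCommutative (PN : Subgroup N) := by
    refine ⟨⟨fun x y => ?_⟩⟩
    have hmem : ∀ y : N, y ∈ (PN : Subgroup N) → (y : G) ∈ (P : Subgroup G) := fun y hy => by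
      rw [hPNc] at hy; exact hy
    have hx : ((x : N) : G) ∈ (P : Subgroup G) := hmem _ x.2
    have hy : ((y : N) : G) ∈ (P : Subgroup G) := hmem _ y.2
    have := congrArg Subtype.val (hab.is_comm.comm (⟨_, hx⟩ : (P : Subgroup G)) ⟨_, hy⟩)
    exact Subtype.ext (Subtype.ext this)
  have hamem : (⟨a, hPN ha⟩ : N) ∈ (PN : Subgroup N) := by rw [hPNc]; exact ha
  have ha'mem : (⟨n, hn⟩ : N) * ⟨a, hPN ha⟩ * (⟨n, hn⟩ : N)⁻¹ ∈ (PN : Subgroup N) := by
    rw [hPNc]
    show n * a * n⁻¹ ∈ (P : Subgroup G)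
    rw [hna]; exact ha'
  obtain ⟨l, hl, hle⟩ := Cfsg.Agent.Lib.Transfer.exists_normalizer_conj_of_abelian PN hamem _ ha'mem
  have hle' : (l : G) * a * (l : G)⁻¹ = a' := by
    have := congrArg Subtype.val hle
    rw [← hna]
    exact this
  have hlP : (l : G) ∈ normalizer ((P : Subgroup G) : Set G) := by
    apply Cfsg.Agent.Lib.PGroups.mem_normalizer_of_conj_le'
    intro x hx
    have h1 : (⟨x, hPN hx⟩ : N) ∈ (PN : Subgroup N) := by rw [hPNc]; exact hx
    have h2 := (mem_normalizer_iff.mp hl _).mp h1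
    rw [hPNc] at h2
    exact h2
  refine ⟨(l : G) * a' * (l : G)⁻¹, (mem_normalizer_iff.mp hlP _).mp ha', ?_, ?_, ?_⟩
  · rw [← hle']
    exact isConj_iff.mpr ⟨(l : G) * l, by group⟩
  · intro he
    -- `l ^ 2` commutes with `a`
    have h2 : ((l : G) ^ 2) * a * ((l : G) ^ 2)⁻¹ = a := by
      calc ((l : G) ^ 2) * a * ((l : G) ^ 2)⁻¹ = (l : G) * ((l : G) * a * (l : G)⁻¹) * (l : G)⁻¹ := by
            simp only [pow_two, mul_inv_rev, mul_assoc]
        _ = (l : G) * a' * (l : G)⁻¹ := by rw [hle']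
        _ = a := he
    have hodd' : Odd (orderOf (l : G)) := by
      rw [Subgroup.orderOf_coe]
      exact Odd.of_dvd_nat hNodd (orderOf_dvd_natCard l)
    obtain ⟨k, hk⟩ := hodd'
    have h3 : (l : G) = ((l : G) ^ 2) ^ (k + 1) := by
      rw [← pow_mul]
      have : 2 * (k + 1) = orderOf (l : G) + 1 := by omega
      rw [this, pow_succ, pow_orderOf_eq_one, one_mul]
    have hcomm : Commute ((l : G) ^ 2) a := by
      have : (l : G) ^ 2 * a = a * (l : G) ^ 2 := by
        calc (l : G) ^ 2 * a = ((l : G) ^ 2 * a * ((l : G) ^ 2)⁻¹) * (l : G) ^ 2 := by group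
          _ = _ := by rw [h2]
      exact this
    have h4 : Commute (l : G) a := by
      rw [h3]
      exact hcomm.pow_left (k + 1)
    apply hne
    rw [← hle', h4.eq]
    group
  · intro he
    apply hne
    have h3 : (l : G) * a * (l : G)⁻¹ = (l : G) * a' * (l : G)⁻¹ := by rw [hle', he]
    simpa using h3

/-- The weighted count. -/
theorem weight_count {G : Type*} [Group G] [Finite G] {r : ℕ} [Fact r.Prime] (hr : r ≠ 2) (P : Sylow r G)
    (hab : IsMulCommutative (P : Subgroup G)) (N : Subgroup G) [hN : N.Normal] (hNodd : Odd (Nat.card N))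
    (hNidx : ∃ t : ℕ, N.index = 2 ^ t)
    (hL : ¬ normalizer ((P : Subgroup G) : Set G) ≤ centralizer ((P : Subgroup G) : Set G))
    [Fintype (KpT r G)] (rep : KpT r G → G) (hrep : ∀ c, ConjClasses.mk (rep c) = c.1)
    (hrepP : ∀ c, rep c ∈ (P : Subgroup G)) :
    ∑ c : KpT r G, (if 2 ∣ (centralizer ({rep c} : Set G)).index then 1 else 2) ≤
      Nat.card (P : Subgroup G) := by
  classical
  haveI : Fintype (P : Subgroup G) := Fintype.ofFinite _
  have hcarrier : ∀ x ∈ (P : Subgroup G), ∀ y ∈ (ConjClasses.mk x).carrier, ∃ k : ℕ, orderOf y = r ^ k := by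
    intro x hx y hy
    rw [ConjClasses.mem_carrier_iff_mk_eq, ConjClasses.mk_eq_mk_iff_isConj] at hy
    obtain ⟨k, hk⟩ := Cfsg.Agent.Lib.PGroups.exists_orderOf_of_mem_isPGroup P.isPGroup' hx
    refine ⟨k, ?_⟩
    obtain ⟨t, ht⟩ := isConj_iff.mp hy
    rw [← Cfsg.Agent.Lib.PGroups.orderOf_conj_eq t y, ht]
    exact hk
  let φ : ↥(P : Subgroup G) → KpT r G := fun x => ⟨ConjClasses.mk (x : G), hcarrier x x.2⟩
  let X : KpT r G → Finset ↥(P : Subgroup G) := fun c => Finset.univ.filter fun x => φ x = c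
  have hXmem : ∀ c x, x ∈ X c ↔ ConjClasses.mk (x : G) = c.1 := by
    intro c x
    simp only [X, Finset.mem_filter, Finset.mem_univ, true_and, φ]
    rw [Subtype.ext_iff]
  have hrepX : ∀ c, (⟨rep c, hrepP c⟩ : (P : Subgroup G)) ∈ X c := fun c => (hXmem c _).mpr (hrep c)
  have hsum : Nat.card (P : Subgroup G) = ∑ c : KpT r G, (X c).card := by
    rw [Nat.card_eq_fintype_card, ← Finset.card_univ]
    exact Finset.card_eq_sum_card_fiberwise (fun x _ => Finset.mem_univ (φ x))
  -- the weights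
  have hfiber : ∀ c : KpT r G, (if 2 ∣ (centralizer ({rep c} : Set G)).index then 1 else 2) +
      (if 2 ≤ (X c).card then 1 else 0) ≤ (X c).card + (if (X c).card = 1 then 1 else 0) := by
    intro c
    have hpos : 1 ≤ (X c).card := Finset.card_pos.mpr ⟨_, hrepX c⟩
    by_cases h1 : (X c).card = 1
    · simp only [h1, if_true]
      split_ifs <;> omega
    · have h2 : 2 ≤ (X c).card := by omega
      simp only [h1, h2, if_true, if_false]
      split_ifs with h3
      · omega
      · -- third element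
        obtain ⟨b, hb, hbne⟩ := Finset.exists_mem_ne h2 ⟨rep c, hrepP c⟩
        have hbconj : IsConj (rep c) (b : G) := by
          rw [← ConjClasses.mk_eq_mk_iff_isConj, hrep, (hXmem c b).mp hb]
        have hne' : rep c ≠ (b : G) := fun e => hbne (Subtype.ext e.symm)
        obtain ⟨a'', ha'', hconj'', h5, h6⟩ :=
          third_elem hr P hab N hNodd hNidx (hrepP c) b.2 hbconj hne' h3
        have h7 : (⟨a'', ha''⟩ : (P : Subgroup G)) ∈ X c := by
          rw [hXmem, ← hrep c, ConjClasses.mk_eq_mk_iff_isConj]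
          exact hconj''.symm
        have h8 : ({⟨rep c, hrepP c⟩, b, ⟨a'', ha''⟩} : Finset ↥(P : Subgroup G)) ⊆ X c := by
          intro y hy
          simp only [Finset.mem_insert, Finset.mem_singleton] at hy
          rcases hy with rfl | rfl | rfl
          · exact hrepX c
          · exact hb
          · exact h7
        have h9 : ({⟨rep c, hrepP c⟩, b, ⟨a'', ha''⟩} : Finset ↥(P : Subgroup G)).card = 3 := by
          rw [Finset.card_eq_three]
          exact ⟨_, _, _, fun e => hbne e.symm, fun e => h5 (congrArg Subtype.val e).symm,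
            fun e => h6 (congrArg Subtype.val e).symm, rfl⟩
        have h10 := Finset.card_le_card h8
        omega
  -- the injection
  obtain ⟨l₀, hl₀, hl₀'⟩ := Set.not_subset.mp hL
  have hne0 : ∃ e ∈ (P : Subgroup G), l₀ * e * l₀⁻¹ ≠ e := by
    by_contra hcon
    push Not at hcon
    apply hl₀'
    rw [SetLike.mem_coe, mem_centralizer_iff]
    intro h hh
    have := hcon h hh
    calc h * l₀ = (l₀ * h * l₀⁻¹) * l₀ := by rw [this]
      _ = l₀ * h := by group
  obtain ⟨e, he, hene⟩ := hne0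
  have habe : ∀ a ∈ (P : Subgroup G), ∀ b ∈ (P : Subgroup G), a * b = b * a := by
    intro a ha b hb
    exact congrArg Subtype.val (hab.is_comm.comm (⟨a, ha⟩ : (P : Subgroup G)) ⟨b, hb⟩)
  have hfix : ∀ c, (X c).card = 1 → ∀ l ∈ normalizer ((P : Subgroup G) : Set G), l * rep c * l⁻¹ = rep c := by
    intro c hc l hl
    have h1 : l * rep c * l⁻¹ ∈ (P : Subgroup G) := (mem_normalizer_iff.mp hl _).mp (hrepP c)
    have h2 : (⟨_, h1⟩ : (P : Subgroup G)) ∈ X c := by
      rw [hXmem, ← hrep c, ConjClasses.mk_eq_mk_iff_isConj]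
      exact (isConj_iff.mpr ⟨l, rfl⟩).symm
    have h3 := Finset.card_le_one.mp hc.le _ h2 _ (hrepX c)
    exact congrArg Subtype.val h3
  have hinj : (Finset.univ.filter fun c => (X c).card = 1).card ≤
      (Finset.univ.filter fun c => 2 ≤ (X c).card).card := by
    refine Finset.card_le_card_of_injOn
      (fun c => φ ⟨rep c * e, mul_mem (hrepP c) he⟩) ?_ ?_
    · intro c hc
      have hc' : (X c).card = 1 := by simpa using hc
      simp only [Finset.coe_filter, Finset.mem_univ, true_and, Set.mem_setOf_eq]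
      have h1 : (⟨rep c * e, mul_mem (hrepP c) he⟩ : (P : Subgroup G)) ∈
          X (φ ⟨rep c * e, mul_mem (hrepP c) he⟩) := by
        simp [X]
      have h2 : l₀ * (rep c * e) * l₀⁻¹ ∈ (P : Subgroup G) :=
        (mem_normalizer_iff.mp hl₀ _).mp (mul_mem (hrepP c) he)
      have h3 : (⟨_, h2⟩ : (P : Subgroup G)) ∈ X (φ ⟨rep c * e, mul_mem (hrepP c) he⟩) := by
        rw [hXmem]
        show ConjClasses.mk _ = ConjClasses.mk _
        rw [ConjClasses.mk_eq_mk_iff_isConj]
        exact (isConj_iff.mpr ⟨l₀, rfl⟩).symm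
      apply Finset.one_lt_card.mpr
      refine ⟨_, h1, _, h3, ?_⟩
      intro h4
      have h5 := congrArg Subtype.val h4
      simp only at h5
      apply hene
      have h6 : l₀ * (rep c * e) * l₀⁻¹ = (l₀ * rep c * l₀⁻¹) * (l₀ * e * l₀⁻¹) := by group
      rw [h6, hfix c hc' l₀ hl₀] at h5
      exact (mul_left_cancel h5).symm
    · intro c₁ hc₁ c₂ hc₂ h12
      have hc₁' : (X c₁).card = 1 := by simpa using hc₁
      have hc₂' : (X c₂).card = 1 := by simpa using hc₂
      have h1 : IsConj (rep c₁ * e) (rep c₂ * e) := by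
        have := congrArg Subtype.val h12
        exact ConjClasses.mk_eq_mk_iff_isConj.mp this
      obtain ⟨u, hu⟩ := isConj_iff.mp h1
      haveI := hab
      have h2 : u * (rep c₁ * e) * u⁻¹ ∈ (P : Subgroup G) := by
        rw [hu]; exact mul_mem (hrepP c₂) he
      obtain ⟨l, hl, hle⟩ := Cfsg.Agent.Lib.Transfer.exists_normalizer_conj_of_abelian P
        (mul_mem (hrepP c₁) he) u h2
      rw [hu] at hle
      have h3 := fix_inj P habe (hrepP c₁) (hrepP c₂) he (hfix c₁ hc₁') (hfix c₂ hc₂') hl hle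
      apply Subtype.ext
      rw [← hrep c₁, ← hrep c₂, h3]
  have hsum2 := Finset.sum_le_sum (fun c (_ : c ∈ (Finset.univ : Finset (KpT r G))) => hfiber c)
  rw [Finset.sum_add_distrib, Finset.sum_add_distrib, ← hsum] at hsum2
  have e1 : ∑ c : KpT r G, (if 2 ≤ (X c).card then 1 else 0) = (Finset.univ.filter fun c => 2 ≤ (X c).card).card := by
    rw [Finset.card_filter]
  have e2 : ∑ c : KpT r G, (if (X c).card = 1 then 1 else 0) = (Finset.univ.filter fun c => (X c).card = 1).card := by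
    rw [Finset.card_filter]
  rw [e1, e2] at hsum2
  omega

theorem sylow_half {G : Type u} [Group G] [Finite G] (π : Finset ℕ) (hπ : ∀ r ∈ π, r.Prime)
    (hk : piPart π (Nat.card G) < 2 * Nat.card (KpiT π G))
    (r : ℕ) [Fact r.Prime] (hr : r ∈ π) (P : Sylow r G) :
    Nat.card (P : Subgroup G) < 2 * Nat.card (KpT r G) := by
  classical
  have hH0 : Nat.card G ≠ 0 := Nat.card_pos.ne'
  have hπ' : ∀ s ∈ π.erase r, s.Prime := fun s hs => hπ s (Finset.mem_of_mem_erase hs)
  obtain ⟨A, hA⟩ : ∃ A, A = piPart (π.erase r) (Nat.card G) := ⟨_, rfl⟩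
  have h1 := step (H := G) r (π.erase r) (Finset.notMem_erase r π) A (fun u => by
    rw [hA]
    exact (card_kpi_le _ hπ' _).trans
      (piPart_mono _ hπ' Nat.card_pos.ne' hH0 (Subgroup.card_subgroup_dvd_card _)))
  rw [Finset.insert_erase hr] at h1
  have hApos : 0 < A := hA ▸ piPart_pos _ hπ' _
  have h3 : piPart π (Nat.card G) = r ^ (Nat.card G).factorization r * A := by
    rw [hA]
    unfold piPart
    rw [Finset.mul_prod_erase π (fun s => s ^ (Nat.card G).factorization s) hr]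
  have hcard : Nat.card (P : Subgroup G) = r ^ (Nat.card G).factorization r :=
    Sylow.card_eq_multiplicity P
  rw [h3, ← hcard] at hk
  have h4 : Nat.card (P : Subgroup G) * A < 2 * Nat.card (KpT r G) * A := by
    calc Nat.card (P : Subgroup G) * A < 2 * Nat.card (KpiT π G) := hk
      _ ≤ 2 * (Nat.card (KpT r G) * A) := Nat.mul_le_mul_left _ h1
      _ = _ := by ring
  exact Nat.lt_of_mul_lt_mul_right h4

theorem odd_data {G : Type u} [Group G] [Finite G] (π : Finset ℕ) (hπ : ∀ r ∈ π, r.Prime) (h2 : 2 ∈ π)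
    (hk : piPart π (Nat.card G) < 2 * Nat.card (KpiT π G)) (N : Subgroup G) [hN : N.Normal]
    (hNodd : Odd (Nat.card N)) (hNidx : ∃ t : ℕ, N.index = 2 ^ t)
    (r : ℕ) [Fact r.Prime] (hr2 : r ≠ 2) (hr : r ∈ π) (P : Sylow r G) :
    Cfsg.HasNormalPComplement r G ∧ IsMulCommutative (P : Subgroup G) := by
  classical
  have hhalf := sylow_half π hπ hk r hr P
  have hab : IsMulCommutative (P : Subgroup G) := by
    by_contra hna
    have := kr_nonab hr2 P hna
    omega
  refine ⟨?_, hab⟩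
  apply hasNormalPComplement_of_normalizer_le P
  by_contra hL
  haveI : Fintype (KpT r G) := Fintype.ofFinite _
  have hex : ∀ c : KpT r G, ∃ u ∈ (P : Subgroup G), ConjClasses.mk u = c.1 := by
    rintro ⟨c, hc⟩
    obtain ⟨x, rfl⟩ := ConjClasses.exists_rep c
    obtain ⟨k, hk'⟩ := hc x ConjClasses.mem_carrier_mk
    obtain ⟨y, hy, hxy⟩ := exists_conj_mem_sylow P x k hk'
    exact ⟨y, hy, (ConjClasses.mk_eq_mk_iff_isConj.mpr hxy).symm⟩
  choose rep hrepP hrep using hex
  have h1 := step_sum r (π.erase r) (Finset.notMem_erase r π) rep hrep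
  rw [Finset.insert_erase hr] at h1
  have hπ' : ∀ s ∈ π.erase r, s.Prime := fun s hs => hπ s (Finset.mem_of_mem_erase hs)
  have h2' : 2 ∈ π.erase r := Finset.mem_erase.mpr ⟨Ne.symm hr2, h2⟩
  obtain ⟨A, hA⟩ : ∃ A, A = piPart (π.erase r) (Nat.card G) := ⟨_, rfl⟩
  have hw : ∀ c : KpT r G, 2 * Nat.card (KpiT (π.erase r) (centralizer ({rep c} : Set G))) ≤
      (if 2 ∣ (centralizer ({rep c} : Set G)).index then 1 else 2) * A := by
    intro c
    have hle := card_kpi_le (π.erase r) hπ' (centralizer ({rep c} : Set G))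
    have hG0 : Nat.card G ≠ 0 := Nat.card_pos.ne'
    have hC0 : Nat.card (centralizer ({rep c} : Set G)) ≠ 0 := Nat.card_pos.ne'
    have hdvd : Nat.card (centralizer ({rep c} : Set G)) ∣ Nat.card G := Subgroup.card_subgroup_dvd_card _
    split_ifs with h3
    · rw [one_mul, hA]
      refine (Nat.mul_le_mul_left 2 hle).trans ?_
      apply two_mul_piPart_le _ hπ' h2' hC0 hG0 hdvd
      have h4 : (centralizer ({rep c} : Set G)).index * Nat.card (centralizer ({rep c} : Set G)) = Nat.card G :=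
        Subgroup.index_mul_card _
      rw [← h4]
      have h5 : (centralizer ({rep c} : Set G)).index ≠ 0 := by
        intro h; rw [h, zero_mul] at h4; exact hG0 h4.symm
      rw [Nat.factorization_mul h5 hC0, Finsupp.add_apply]
      have h6 : 0 < (centralizer ({rep c} : Set G)).index.factorization 2 :=
        Nat.Prime.factorization_pos_of_dvd Nat.prime_two h5 h3
      omega
    · rw [hA]
      exact Nat.mul_le_mul_left 2 (hle.trans (piPart_mono _ hπ' hC0 hG0 hdvd))
  have hcount := weight_count hr2 P hab N hNodd hNidx hL rep hrep hrepP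
  have h3 : piPart π (Nat.card G) = Nat.card (P : Subgroup G) * A := by
    rw [hA, Sylow.card_eq_multiplicity P]
    unfold piPart
    rw [Finset.mul_prod_erase π (fun s => s ^ (Nat.card G).factorization s) hr]
  have h4 : 2 * Nat.card (KpiT π G) ≤ Nat.card (P : Subgroup G) * A := by
    calc 2 * Nat.card (KpiT π G) ≤ 2 * ∑ c : KpT r G, Nat.card (KpiT (π.erase r) (centralizer ({rep c} : Set G))) :=
          Nat.mul_le_mul_left 2 h1
      _ = ∑ c : KpT r G, 2 * Nat.card (KpiT (π.erase r) (centralizer ({rep c} : Set G))) := by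
          rw [Finset.mul_sum]
      _ ≤ ∑ c : KpT r G, (if 2 ∣ (centralizer ({rep c} : Set G)).index then 1 else 2) * A :=
          Finset.sum_le_sum fun c _ => hw c
      _ = (∑ c : KpT r G, (if 2 ∣ (centralizer ({rep c} : Set G)).index then 1 else 2)) * A := by
          rw [Finset.sum_mul]
      _ ≤ _ := Nat.mul_le_mul_right _ hcount
  rw [h3] at hk
  omega

end aux

/-- Let π be a finite set of primes containing 2 and G a finite group. Write k_π(G) for the number of conjugacy classes of G consisting of π-elements (elements all of whose order's prime divisors lie in π) and |G|_π for the π-part of the order of G. If k_π(G) > |G|_π/2, then G has a normal π-complement (a normal subgroup of order prime to π whose index is a π-number) and an abelian Hall subgroup for the set of odd primes in π. -/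
theorem result {G : Type*} [Group G] [Finite G] (π : Finset ℕ) (hπ : ∀ r ∈ π, r.Prime) (h2 : 2 ∈ π)
    (hk : π.prod (fun r => r ^ (Nat.card G).factorization r) < 2 * Nat.card {c : ConjClasses G // ∀ x ∈ c.carrier, ∀ r : ℕ, r.Prime → r ∣ orderOf x → r ∈ π}) :
    (∃ N : Subgroup G, N.Normal ∧ (∀ r : ℕ, r.Prime → r ∣ Nat.card ↥N → r ∉ π) ∧ ∀ r : ℕ, r.Prime → r ∣ N.index → r ∈ π) ∧ ∃ H : Subgroup G, Cfsg.IsPiHall ((↑π : Set ℕ) \ {2}) H ∧ IsMulCommutative ↥H := by
  classical
  haveI : Fact (Nat.Prime 2) := ⟨Nat.prime_two⟩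
  have hk' : piPart π (Nat.card G) < 2 * Nat.card (KpiT π G) := hk
  obtain ⟨P₂⟩ : Nonempty (Sylow 2 G) := inferInstance
  have h1 := sylow_half π hπ hk' 2 h2 P₂
  obtain ⟨⟨P₀, N, hNn, hNc⟩, -⟩ := (Cfsg.Agent.S3895.result P₂).mp h1
  haveI := hNn
  have hNo : ¬ 2 ∣ Nat.card N := by
    have h2' : (P₀ : Subgroup G).index = Nat.card N := hNc.index_eq_card
    rw [← h2']
    exact P₀.not_dvd_index
  have hNodd : Odd (Nat.card N) := by
    rw [Nat.odd_iff]
    exact Nat.two_dvd_ne_zero.mp hNo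
  have hNidx : ∃ t : ℕ, N.index = 2 ^ t := by
    obtain ⟨t, ht⟩ := IsPGroup.iff_card.mp P₀.isPGroup'
    refine ⟨t, ?_⟩
    rw [← ht]
    exact hNc.symm.index_eq_card
  have herase : ∀ r ∈ π.erase 2, r.Prime := fun r hr => hπ r (Finset.mem_of_mem_erase hr)
  obtain ⟨⟨M, hMn, hM1, hM2⟩, H, hH, hHc⟩ := Cfsg.Agent.Lib.Coprime.KPi.conclusion (π.erase 2) herase (by
    intro r hr
    haveI : Fact r.Prime := ⟨herase r hr⟩
    refine Cfsg.Agent.Lib.Coprime.KPi.normal_data (G := G) r ?_
    intro P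
    exact odd_data π hπ h2 hk' N hNodd hNidx r (Finset.ne_of_mem_erase hr) (Finset.mem_of_mem_erase hr) P)
  refine ⟨⟨M ⊓ N, inferInstance, ?_, ?_⟩, H, ?_, hHc⟩
  · intro r hr hrd hrπ
    by_cases h3 : r = 2
    · subst h3
      exact hNo (hrd.trans (Subgroup.card_dvd_of_le inf_le_right))
    · exact hM1 r hr (hrd.trans (Subgroup.card_dvd_of_le inf_le_left))
        (Finset.mem_erase.mpr ⟨h3, hrπ⟩)
  · intro r hr hrd
    have h4 : (M ⊓ N).relIndex M * M.index = (M ⊓ N).index := Subgroup.relIndex_mul_index inf_le_left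
    rw [inf_relIndex_left] at h4
    have h5 : N.relIndex M ∣ N.index := Subgroup.relIndex_dvd_index_of_normal N M
    rw [← h4] at hrd
    rcases (Nat.Prime.dvd_mul hr).1 hrd with h3 | h3
    · obtain ⟨t, ht⟩ := hNidx
      have h6 : r ∣ 2 ^ t := ht ▸ h3.trans h5
      have h7 : r = 2 := (Nat.prime_dvd_prime_iff_eq hr Nat.prime_two).1 (hr.dvd_of_dvd_pow h6)
      rw [h7]; exact h2
    · exact Finset.mem_of_mem_erase (hM2 r hr h3)
  · have e : ((π : Set ℕ) \ {2}) = ((π.erase 2 : Finset ℕ) : Set ℕ) := by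
      rw [Finset.coe_erase]
    rw [e]
    exact hH

end Cfsg.Agent.S3898
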