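import Cfsg.Statements.S3903
-- import your own Cfsg.Agent.* helpers here
import Mathlib
import Cfsg.Agent.Lib.Transfer.Frobenius
import Cfsg.Agent.Lib.Basic.Glauberman
import Cfsg.Agent.Lib.Basic.CoprimeAction
import Cfsg.Agent.Lib.OddLocal.Sup
import Cfsg.Agent.Lib.PGroups.Parts

set_option autoImplicit false
open Cfsg

namespace Cfsg.Agent.S3903

open Subgroup Cfsg

theorem two_primes_eq {n p r : ℕ} (h : IsPrimePow n) (hp : p.Prime) (hr : r.Prime)
    (hpn : p ∣ n) (hrn : r ∣ n) : p = r := by
  obtain ⟨q, k, hq, hk, rfl⟩ := h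
  have hq' : q.Prime := hq.nat_prime
  have h1 := (Nat.prime_dvd_prime_iff_eq hp hq').1 (hp.dvd_of_dvd_pow hpn)
  have h2 := (Nat.prime_dvd_prime_iff_eq hr hq').1 (hr.dvd_of_dvd_pow hrn)
  omega

theorem pgroup_solv {H : Type*} [Group H] [Finite H] {p : ℕ} [Fact p.Prime] (h : IsPGroup p H) :
    Group.IsSolvable H := by
  haveI := h.isNilpotent
  infer_instance

theorem frattini_step {N₀ : Type*} [Group N₀] [Finite N₀] (p : ℕ) [Fact p.Prime] (M₀ : Subgroup N₀)
    [M₀.Normal] (x : N₀) (hx : x ∈ M₀) (k : ℕ) (hxp : orderOf x = p ^ k) (g : N₀) :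
    ∃ R : Subgroup N₀, IsPGroup p R ∧ x ∈ R ∧ ∃ w ∈ normalizer (R : Set N₀), ∃ m ∈ M₀, w * m = g := by
  have hx₂ : IsPGroup p (zpowers (⟨x, hx⟩ : M₀)) := by
    rw [Cfsg.Agent.Lib.PGroups.isPGroup_zpowers_iff]
    refine ⟨k, ?_⟩
    have h1 : orderOf (⟨x, hx⟩ : M₀) = orderOf x := Subgroup.orderOf_mk _ _
    rw [h1, hxp]
  obtain ⟨T, hT⟩ := hx₂.exists_le_sylow
  have hsuptop := Sylow.normalizer_sup_eq_top T
  have hgtop : g ∈ normalizer ((T.map M₀.subtype : Subgroup _) : Set _) ⊔ M₀ := by
    rw [hsuptop]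
    exact mem_top _
  obtain ⟨w, hw, m, hm, hwm⟩ := (Subgroup.mem_sup_of_normal_right).mp hgtop
  refine ⟨_, T.2.map M₀.subtype, ?_, w, hw, m, hm, hwm⟩
  exact ⟨⟨x, hx⟩, hT (mem_zpowers _), rfl⟩

theorem mem_of_frattini {N₀ : Type*} [Group N₀] {p : ℕ} (M₀ : Subgroup N₀) [M₀.Normal]
    (g w m : N₀) (hm : m ∈ M₀) (hwm : w * m = g) (K : ℕ) (hK : w ^ p ^ K = 1)
    (hgc : (orderOf g).Coprime p) : g ∈ M₀ := by
  have hπ : QuotientGroup.mk' M₀ g = QuotientGroup.mk' M₀ w := by
    rw [← hwm, map_mul]
    have : QuotientGroup.mk' M₀ m = 1 := (QuotientGroup.eq_one_iff m).2 hm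
    rw [this, mul_one]
  have h1 : (QuotientGroup.mk' M₀ g) ^ p ^ K = 1 := by
    rw [hπ, ← map_pow, hK, map_one]
  have h2 : (QuotientGroup.mk' M₀ g) ^ orderOf g = 1 := by
    rw [← map_pow, pow_orderOf_eq_one, map_one]
  have h3 := orderOf_dvd_of_pow_eq_one h1
  have h4 := orderOf_dvd_of_pow_eq_one h2
  have h5 := Nat.eq_one_of_dvd_coprimes (Nat.Coprime.pow_right K hgc) h4 h3
  rw [orderOf_eq_one_iff] at h5
  exact (QuotientGroup.eq_one_iff _).1 h5

/-- Let N be a proper normal subgroup of the finite group G such that every element x of G outside N has prime power order and has centralizer C_G(x) a maximal subgroup of G. Then N is solvable. -/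
theorem result {G : Type*} [Group G] [Finite G] (N : Subgroup G) [N.Normal] (hN : N ≠ ⊤)
    (h : ∀ x : G, x ∉ N → IsPrimePow (orderOf x) ∧ IsCoatom (Subgroup.centralizer ({x} : Set G))) : Group.IsSolvable ↥N := by
  classical
  have hNn : N.Normal := inferInstance
  obtain ⟨x, hx⟩ : ∃ x, x ∉ N := by
    by_contra hcon
    push_neg at hcon
    exact hN (eq_top_iff.mpr fun g _ => hcon g)
  obtain ⟨p, k, hp', hk, hpk⟩ := (h x hx).1
  have hp : p.Prime := hp'.nat_prime
  haveI : Fact p.Prime := ⟨hp⟩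
  -- centralizers of elements outside `N` are primary
  have hC : ∀ (x : G), x ∉ N → ∀ (p k : ℕ), p.Prime → 0 < k → orderOf x = p ^ k →
      IsPGroup p (centralizer ({x} : Set G)) := by
    intro x hx p k hp hk hxo
    haveI : Fact p.Prime := ⟨hp⟩
    have hcard : Nat.card (centralizer ({x} : Set G)) ≠ 0 := Nat.card_pos.ne'
    refine IsPGroup.of_card (n := _) (Nat.eq_prime_pow_of_unique_prime_dvd hcard ?_)
    intro r hr hrd
    by_contra hrp
    haveI : Fact r.Prime := ⟨hr⟩
    obtain ⟨y₀, hy₀⟩ := exists_prime_orderOf_dvd_card' r hrd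
    obtain ⟨y, hy⟩ : ∃ y : G, y = y₀ := ⟨_, rfl⟩
    have hyo : orderOf y = r := by rw [hy, Subgroup.orderOf_coe]; exact hy₀
    have hcomm : Commute x y := by
      have h1 := mem_centralizer_singleton_iff.mp y₀.2
      rw [← hy] at h1
      exact h1.symm
    have hxne : x ≠ 1 := fun h1 => hx (h1 ▸ one_mem N)
    have hkey : ∀ (i j : ℕ), x ^ i ≠ 1 → y ^ j ≠ 1 → x ^ i * y ^ j ∈ N := by
      intro i j hi hj
      by_contra hn
      have h1 := (h _ hn).1
      have hc : Commute (x ^ i) (y ^ j) := hcomm.pow_pow i j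
      have hd1 : orderOf (x ^ i) ∣ p ^ k := hxo ▸ orderOf_pow_dvd i
      have hd2 : orderOf (y ^ j) ∣ r := hyo ▸ orderOf_pow_dvd j
      have hcop : (orderOf (x ^ i)).Coprime (orderOf (y ^ j)) :=
        Nat.Coprime.coprime_dvd_left hd1 (Nat.Coprime.coprime_dvd_right hd2
          (Nat.Coprime.pow_left k ((Nat.coprime_primes hp hr).mpr (Ne.symm hrp))))
      rw [hc.orderOf_mul_eq_mul_orderOf_of_coprime hcop] at h1
      have hi1 : orderOf (x ^ i) ≠ 1 := by rwa [Ne, orderOf_eq_one_iff]
      have hj1 : orderOf (y ^ j) ≠ 1 := by rwa [Ne, orderOf_eq_one_iff]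
      obtain ⟨l, -, hl⟩ := (Nat.dvd_prime_pow hp).1 hd1
      have hpd : p ∣ orderOf (x ^ i) := by
        rw [hl]
        refine dvd_pow_self p ?_
        rintro rfl
        exact hi1 (by rw [hl, pow_zero])
      have hrd' : r ∣ orderOf (y ^ j) := by
        rcases (Nat.dvd_prime hr).1 hd2 with h2 | h2
        · exact absurd h2 hj1
        · rw [h2]
      have := two_primes_eq h1 hp hr (Dvd.dvd.mul_right hpd _) (Dvd.dvd.mul_left hrd' _)
      exact hrp this.symm
    have hyne : y ^ 1 ≠ 1 := by
      rw [pow_one]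
      intro h1
      rw [h1, orderOf_one] at hyo
      exact hr.one_lt.ne hyo
    have hx1 : x ^ 1 ≠ 1 := by rwa [pow_one]
    have h11 := hkey 1 1 hx1 hyne
    rw [pow_one, pow_one] at h11
    by_cases hr2 : r = 2
    · have hp2 : p ≠ 2 := fun h2 => hrp (by omega)
      have hx2 : x ^ 2 ≠ 1 := by
        intro h1
        have h2 := orderOf_dvd_of_pow_eq_one h1
        rw [hxo] at h2
        have h3 := (dvd_pow_self p hk.ne').trans h2
        exact hp2 ((Nat.prime_dvd_prime_iff_eq hp Nat.prime_two).1 h3)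
      have h21 := hkey 2 1 hx2 hyne
      rw [pow_one] at h21
      apply hx
      have h3 : x = x ^ 2 * y * (x * y)⁻¹ := by
        rw [mul_inv_rev, pow_two]
        group
      rw [h3]
      exact mul_mem h21 (inv_mem h11)
    · have hy2 : y ^ 2 ≠ 1 := by
        intro h1
        have h2 := orderOf_dvd_of_pow_eq_one h1
        rw [hyo] at h2
        exact hr2 ((Nat.prime_dvd_prime_iff_eq hr Nat.prime_two).1 h2)
      have h12 := hkey 1 2 hx1 hy2
      rw [pow_one] at h12
      have hyN : y ∈ N := by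
        have h3 : y = (x * y)⁻¹ * (x * y ^ 2) := by
          rw [pow_two]
          group
        rw [h3]
        exact mul_mem (inv_mem h11) h12
      apply hx
      have h3 : x = x * y * y⁻¹ := by group
      rw [h3]
      exact mul_mem h11 (inv_mem hyN)
  have hxC := hC x hx p k hp hk hpk.symm
  have hcoat := (h x hx).2
  -- a Sylow subgroup above the centralizer
  obtain ⟨S, hS⟩ := hxC.exists_le_sylow
  by_cases hStop : (S : Subgroup G) = ⊤
  · have hGp : IsPGroup p G := fun g => by
      obtain ⟨n, hn⟩ := S.2 ⟨g, by rw [hStop]; trivial⟩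
      exact ⟨n, congrArg Subtype.val hn⟩
    exact pgroup_solv (hGp.to_subgroup N)
  have hSC : (S : Subgroup G) = centralizer ({x} : Set G) := by
    by_contra hne
    exact hStop (hcoat.2 _ (lt_of_le_of_ne hS (Ne.symm hne)))
  by_cases hNC : N ≤ centralizer ({x} : Set G)
  · exact pgroup_solv (hxC.to_le hNC)
  have hsup : centralizer ({x} : Set G) ⊔ N = ⊤ :=
    hcoat.2 _ (lt_of_le_of_ne le_sup_left fun h1 => hNC (h1 ▸ le_sup_right))
  -- coprime elements lie in `N`
  have hcopN : ∀ g : G, (orderOf g).Coprime p → g ∈ N := by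
    intro g hg
    have hg' : g ∈ centralizer ({x} : Set G) ⊔ N := hsup ▸ mem_top g
    obtain ⟨c, hc, n, hn, rfl⟩ := (Subgroup.mem_sup_of_normal_right).mp hg'
    obtain ⟨m, hm⟩ := hxC ⟨c, hc⟩
    have hm' : c ^ p ^ m = 1 := congrArg Subtype.val hm
    have h1 : (QuotientGroup.mk' N (c * n)) ^ p ^ m = 1 := by
      have h2 : QuotientGroup.mk' N n = 1 := (QuotientGroup.eq_one_iff n).2 hn
      rw [map_mul, h2, mul_one, ← map_pow, hm', map_one]
    have h2 : (QuotientGroup.mk' N (c * n)) ^ orderOf (c * n) = 1 := by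
      rw [← map_pow, pow_orderOf_eq_one, map_one]
    have h3 := orderOf_dvd_of_pow_eq_one h1
    have h4 := orderOf_dvd_of_pow_eq_one h2
    have h5 := Nat.eq_one_of_dvd_coprimes (Nat.Coprime.pow_right m hg) h4 h3
    rw [orderOf_eq_one_iff] at h5
    exact (QuotientGroup.eq_one_iff _).1 h5
  -- normalizers of subgroups not in `N`
  have hNorm : ∀ R : Subgroup G, IsPGroup p R → ¬ R ≤ N → IsPGroup p (normalizer (R : Set G)) := by
    intro R hR hRN
    have hcard : Nat.card (normalizer (R : Set G)) ≠ 0 := Nat.card_pos.ne'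
    refine IsPGroup.of_card (n := _) (Nat.eq_prime_pow_of_unique_prime_dvd hcard ?_)
    intro s hs hsd
    by_contra hsp
    haveI : Fact s.Prime := ⟨hs⟩
    obtain ⟨h₀, hh₀⟩ := exists_prime_orderOf_dvd_card' s hsd
    obtain ⟨t, ht⟩ : ∃ t : G, t = h₀ := ⟨_, rfl⟩
    have hto : orderOf t = s := by rw [ht, Subgroup.orderOf_coe]; exact hh₀
    have htn : t ∈ normalizer (R : Set G) := ht ▸ h₀.2
    have htN : t ∈ N := hcopN t (by rw [hto]; exact (Nat.coprime_primes hs hp).mpr hsp)
    obtain ⟨r, hrR, hrN⟩ := Set.not_subset.mp hRN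
    have hAK : zpowers t ≤ normalizer (R : Set G) := (zpowers_le).2 htn
    obtain ⟨n, hn⟩ := IsPGroup.iff_card.mp hR
    have hcop : (Nat.card (zpowers t)).Coprime (Nat.card R) := by
      rw [Nat.card_zpowers, hto, hn]
      exact Nat.Coprime.pow_right n ((Nat.coprime_primes hs hp).mpr hsp)
    have hsolv : Group.IsSolvable (zpowers t) ∨ Group.IsSolvable R :=
      Or.inr (pgroup_solv hR)
    have hNA : zpowers t ≤ normalizer ((R ⊓ N : Subgroup G) : Set G) := by
      rw [zpowers_le, mem_normalizer_iff]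
      intro z
      have h1 := mem_normalizer_iff.mp htn z
      have h2 : z ∈ N ↔ t * z * t⁻¹ ∈ N := by
        constructor
        · intro hz
          exact hNn.conj_mem z hz t
        · intro hz
          have := hNn.conj_mem _ hz t⁻¹
          simpa [mul_assoc] using this
      simp only [mem_inf, h1, h2]
    have hNK : R ≤ normalizer ((R ⊓ N : Subgroup G) : Set G) := by
      intro w hw
      rw [mem_normalizer_iff]
      intro z
      have h1 : z ∈ R ↔ w * z * w⁻¹ ∈ R := by
        constructor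
        · intro hz
          exact mul_mem (mul_mem hw hz) (inv_mem hw)
        · intro hz
          have := mul_mem (mul_mem (inv_mem hw) hz) hw
          simpa [mul_assoc] using this
      have h2 : z ∈ N ↔ w * z * w⁻¹ ∈ N := by
        constructor
        · intro hz
          exact hNn.conj_mem z hz w
        · intro hz
          have := hNn.conj_mem _ hz w⁻¹
          simpa [mul_assoc] using this
      simp only [mem_inf, h1, h2]
    have hfix : ∀ a ∈ zpowers t, a * r * a⁻¹ * r⁻¹ ∈ (R ⊓ N : Subgroup G) := by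
      intro a ha
      refine mem_inf.mpr ⟨mul_mem ?_ (inv_mem hrR), ?_⟩
      · exact (mem_normalizer_iff.mp (hAK ha) r).1 hrR
      · have haN : a ∈ N := (zpowers_le.2 htN) ha
        have h1 : a * r * a⁻¹ * r⁻¹ = a * (r * a⁻¹ * r⁻¹) := by group
        rw [h1]
        exact mul_mem haN (hNn.conj_mem _ (inv_mem haN) r)
    obtain ⟨c, hc, hcr⟩ := Cfsg.Agent.Lib.Basic.coprime_fixed_coset hAK hcop hsolv
      (R ⊓ N) inf_le_left hNK hNA r hrR hfix
    obtain ⟨hcR, hcC⟩ := mem_inf.mp hc
    have hcN : c ∉ N := by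
      intro hcN
      apply hrN
      have h1 := (mem_inf.mp hcr).2
      have h2 : r⁻¹ = r⁻¹ * c * c⁻¹ := by group
      have h3 : r⁻¹ ∈ N := by
        rw [h2]
        exact mul_mem h1 (inv_mem hcN)
      simpa using inv_mem h3
    obtain ⟨j, hj⟩ := Cfsg.Agent.Lib.PGroups.exists_orderOf_of_mem_isPGroup hR hcR
    have hj0 : 0 < j := by
      rcases Nat.eq_zero_or_pos j with rfl | h0
      · rw [pow_zero, orderOf_eq_one_iff] at hj
        exact absurd (hj ▸ one_mem N) hcN
      · exact h0
    have hcC' := hC c hcN p j hp hj0 hj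
    have htc : t ∈ centralizer ({c} : Set G) := by
      rw [mem_centralizer_singleton_iff]
      exact mem_centralizer_iff.mp hcC t (mem_zpowers t)
    obtain ⟨m, hm⟩ := hcC' ⟨t, htc⟩
    have hm' : t ^ p ^ m = 1 := congrArg Subtype.val hm
    have h5 := orderOf_dvd_of_pow_eq_one hm'
    rw [hto] at h5
    exact hsp ((Nat.prime_dvd_prime_iff_eq hs hp).1 (hs.dvd_of_dvd_pow h5))
  have hxS : ∀ Q : Subgroup G, Q ≤ (S : Subgroup G) → x ∈ centralizer (Q : Set G) := by
    intro Q hQ
    rw [mem_centralizer_iff]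
    intro q hq
    have h1 : q ∈ centralizer ({x} : Set G) := hSC ▸ hQ hq
    exact mem_centralizer_singleton_iff.mp h1
  -- Frobenius
  have hstable : Cfsg.Agent.Lib.Transfer.FrobeniusStable p G := by
    apply Cfsg.Agent.Lib.Transfer.frobeniusStable_of_sylow S
    intro Q hQ g hg hgc
    have hxc := hxS Q hQ
    have hcn : centralizer (Q : Set G) ≤ normalizer (Q : Set G) := by
      intro c hc
      rw [mem_normalizer_iff]
      intro z
      constructor
      · intro hz
        have h1 := mem_centralizer_iff.mp hc z hz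
        have h2 : c * z * c⁻¹ = z := by
          rw [← h1]
          group
        rw [h2]
        exact hz
      · intro hz
        by_contra hzQ
        have h1 := mem_centralizer_iff.mp hc _ hz
        apply hzQ
        have h2 : c * z * c⁻¹ * c = c * (c * z * c⁻¹) := h1
        have h3 : z = c * z * c⁻¹ := by
          have h4 : c * z = c * (c * z * c⁻¹) := by
            rw [← h2]
            group
          exact mul_left_cancel h4
        rw [h3]
        exact hz
    haveI hM₀ : ((centralizer (Q : Set G)).subgroupOf (normalizer (Q : Set G))).Normal :=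
      Cfsg.Agent.Lib.Transfer.centralizer_subgroupOf_normal Q
    have hx₁ : (⟨x, hcn hxc⟩ : normalizer (Q : Set G)) ∈ (centralizer (Q : Set G)).subgroupOf (normalizer (Q : Set G)) := by
      rw [Subgroup.mem_subgroupOf]
      exact hxc
    have hxo : orderOf (⟨x, hcn hxc⟩ : normalizer (Q : Set G)) = p ^ k := by
      have h2 : orderOf (⟨x, hcn hxc⟩ : normalizer (Q : Set G)) = orderOf x := Subgroup.orderOf_mk _ _
      rw [h2, hpk]
    obtain ⟨R₀, hR₀p, hxR₀, w, hw, m, hm, hwm⟩ := frattini_step p _ _ hx₁ k hxo ⟨g, hg⟩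
    obtain ⟨R, hR⟩ : ∃ R : Subgroup G, R = R₀.map (normalizer (Q : Set G)).subtype := ⟨_, rfl⟩
    have hRp : IsPGroup p R := by
      rw [hR]
      exact hR₀p.map _
    have hxR : x ∈ R := by
      rw [hR]
      exact ⟨_, hxR₀, rfl⟩
    have hRN : ¬ R ≤ N := fun h1 => hx (h1 hxR)
    have hwR : (w : G) ∈ normalizer (R : Set G) := by
      rw [hR]
      exact Subgroup.le_normalizer_map _ (mem_map_of_mem _ hw)
    obtain ⟨K, hK⟩ := hNorm R hRp hRN ⟨_, hwR⟩
    have hK' : w ^ p ^ K = 1 := by
      apply Subtype.ext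
      have := congrArg Subtype.val hK
      simpa using this
    have hord : (orderOf (⟨g, hg⟩ : normalizer (Q : Set G))).Coprime p := by
      have h2 : orderOf (⟨g, hg⟩ : normalizer (Q : Set G)) = orderOf g := Subgroup.orderOf_mk _ _
      rw [h2]
      exact hgc
    have h6 := mem_of_frattini _ _ _ _ hm hwm K hK' hord
    rw [Subgroup.mem_subgroupOf] at h6
    exact h6
  obtain ⟨P', K, hKn, hKc⟩ := Cfsg.Agent.Lib.Transfer.hasNormalPComplement_iff_stable.mpr hstable
  obtain ⟨n, hn⟩ := IsPGroup.iff_card.mp hxC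
  have hKcard : (Nat.card K).Coprime p := by
    have h1 : (P' : Subgroup G).index = Nat.card K := hKc.index_eq_card
    have h2 := P'.not_dvd_index
    rw [h1] at h2
    exact ((Nat.Prime.coprime_iff_not_dvd hp).2 h2).symm
  have hcop : (Nat.card (centralizer ({x} : Set G))).Coprime (Nat.card K) := by
    rw [hn]
    exact Nat.Coprime.pow_left n hKcard.symm
  have hKsolv : Group.IsSolvable K := by
    by_cases hK1 : Nat.card K = 1
    · have := Nat.card_eq_one_iff_unique.mp hK1
      haveI : Subsingleton K := this.1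
      infer_instance
    · obtain ⟨q, hq, hqd⟩ := Nat.exists_prime_and_dvd hK1
      haveI : Fact q.Prime := ⟨hq⟩
      have hnorm : centralizer ({x} : Set G) ≤ normalizer (K : Set G) := by
        rw [Subgroup.normalizer_eq_top_iff.mpr hKn]
        exact le_top
      obtain ⟨T, hT⟩ := Cfsg.Agent.Lib.Basic.exists_invariant_sylow hnorm hcop
        (Or.inl (pgroup_solv hxC)) q
      obtain ⟨Q, hQ⟩ : ∃ Q : Subgroup G, Q = (T : Subgroup K).map K.subtype := ⟨_, rfl⟩
      rw [← hQ] at hT
      have hQK : Q ≤ K := by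
        rw [hQ]
        rintro _ ⟨y, -, rfl⟩
        exact y.2
      have hQp : IsPGroup q Q := by
        rw [hQ]
        exact T.2.map _
      have hTne : (T : Subgroup K) ≠ ⊥ := T.ne_bot_of_dvd_card hqd
      have hQne : Q ≠ ⊥ := by
        rw [hQ]
        intro h1
        apply hTne
        exact (Subgroup.map_eq_bot_iff_of_injective _ K.subtype_injective).1 h1
      have hinter : K ⊓ centralizer ({x} : Set G) = ⊥ :=
        (Subgroup.disjoint_of_coprime_natCard hcop.symm).eq_bot
      have hsupQ : centralizer ({x} : Set G) ⊔ Q = ⊤ := by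
        apply hcoat.2
        refine lt_of_le_of_ne le_sup_left fun h1 => hQne ?_
        rw [eq_bot_iff, ← hinter]
        exact le_inf hQK (h1 ▸ le_sup_right)
      have hKQ : K ≤ Q := by
        intro y hy
        have hy' : y ∈ Q ⊔ centralizer ({x} : Set G) := by
          rw [sup_comm, hsupQ]
          exact mem_top y
        obtain ⟨a, ha, c, hc, rfl⟩ := Cfsg.Agent.Lib.OddLocal.mem_sup_of_le_normalizer hT hy'
        have hcK : c ∈ K := by
          have : c = a⁻¹ * (a * c) := by group
          rw [this]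
          exact mul_mem (inv_mem (hQK ha)) hy
        have hc1 : c ∈ K ⊓ centralizer ({x} : Set G) := mem_inf.mpr ⟨hcK, hc⟩
        rw [hinter, mem_bot] at hc1
        rw [hc1, mul_one]
        exact ha
      have hKq : IsPGroup q K := hQp.to_le hKQ
      exact pgroup_solv hKq
  have hquot : Group.IsSolvable (G ⧸ K) := by
    have h1 : Nat.card (G ⧸ K) = Nat.card (P' : Subgroup G) := by
      rw [← Subgroup.index_eq_card]
      exact hKc.symm.index_eq_card
    have h2 : IsPGroup p (G ⧸ K) := by
      obtain ⟨l, hl⟩ := IsPGroup.iff_card.mp P'.isPGroup'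
      exact IsPGroup.of_card (h1.trans hl)
    exact pgroup_solv h2
  have hGs : Group.IsSolvable G := by
    refine Group.isSolvable_of_ker_le_range K.subtype (QuotientGroup.mk' K) ?_
    rw [QuotientGroup.ker_mk', Subgroup.range_subtype]
  exact Group.isSolvable_of_isSolvable_injective (f := N.subtype) N.subtype_injective

end Cfsg.Agent.S3903
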