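import Cfsg.Statements.S3908
-- import your own Cfsg.Agent.* helpers here
import Mathlib
import Cfsg.Agent.Lib.OddLocal.UniqueP2
import Cfsg.Agent.Lib.Transfer.Rank

set_option autoImplicit false
open Cfsg

namespace Cfsg.Agent.S3908

open Subgroup

theorem klein_sub {G : Type*} [Group G] {u z : G} (hu : u * u = 1) (hz : z * z = 1) (huz : u * z = z * u)
    (hu1 : u ≠ 1) (hz1 : z ≠ 1) (hne : u ≠ z) :
    ∃ V : Subgroup G, Nat.card V = 4 ∧ (∀ v ∈ V, v ^ 2 = 1) ∧ IsMulCommutative V := by
  classical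
  have h1 : u * (u * z) = z := by rw [← mul_assoc, hu, one_mul]
  have h2 : (u * z) * u = z := by rw [huz, mul_assoc, hu, mul_one]
  have h3 : z * (u * z) = u := by rw [← mul_assoc, ← huz, mul_assoc, hz, mul_one]
  have h4 : (u * z) * z = u := by rw [mul_assoc, hz, mul_one]
  have h5 : (u * z) * (u * z) = 1 := by
    rw [mul_assoc, h3, hu]
  have h6 : z * u = u * z := huz.symm
  let V : Subgroup G :=
    { carrier := {1, u, z, u * z}
      one_mem' := by simp
      mul_mem' := by
        intro a b ha hb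
        simp only [Set.mem_insert_iff, Set.mem_singleton_iff] at ha hb ⊢
        rcases ha with rfl | rfl | rfl | rfl <;> rcases hb with rfl | rfl | rfl | rfl <;>
          simp [hu, hz, h1, h2, h3, h4, h5, h6]
      inv_mem' := by
        intro a ha
        simp only [Set.mem_insert_iff, Set.mem_singleton_iff] at ha ⊢
        rcases ha with rfl | rfl | rfl | rfl
        · simp
        · right; left; exact inv_eq_of_mul_eq_one_left hu
        · right; right; left; exact inv_eq_of_mul_eq_one_left hz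
        · right; right; right; exact inv_eq_of_mul_eq_one_left h5 }
  refine ⟨V, ?_, ?_, ?_⟩
  · have hd : ({1, u, z, u * z} : Finset G).card = 4 := by
      have a1 : u * z ≠ 1 := by
        intro h
        apply hne
        have := congrArg (fun w => w * z) h
        simpa [mul_assoc, hz] using this
      have a2 : u * z ≠ u := by simpa using hz1
      have a3 : u * z ≠ z := by simpa using hu1
      rw [Finset.card_insert_of_notMem, Finset.card_insert_of_notMem, Finset.card_insert_of_notMem,
        Finset.card_singleton]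
      all_goals simp [hu1.symm, hu1, hz1, hz1.symm, a1, a1.symm, a2, a2.symm, a3, a3.symm, hne, hne.symm]
    have h7 : (V : Set G) = (({1, u, z, u * z} : Finset G) : Set G) := by
      ext x
      simp [V]
    have h8 : Nat.card V = ((({1, u, z, u * z} : Finset G) : Set G)).ncard := by
      rw [← h7]
      exact (Nat.card_coe_set_eq _)
    rw [h8, Set.ncard_coe_finset, hd]
  · intro v hv
    have hv' : v = 1 ∨ v = u ∨ v = z ∨ v = u * z := hv
    rcases hv' with rfl | rfl | rfl | rfl
    · simp
    · rw [pow_two, hu]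
    · rw [pow_two, hz]
    · rw [pow_two, h5]
  · refine ⟨⟨?_⟩⟩
    rintro ⟨a, ha⟩ ⟨b, hb⟩
    apply Subtype.ext
    have ha' : a = 1 ∨ a = u ∨ a = z ∨ a = u * z := ha
    have hb' : b = 1 ∨ b = u ∨ b = z ∨ b = u * z := hb
    show a * b = b * a
    rcases ha' with rfl | rfl | rfl | rfl <;> rcases hb' with rfl | rfl | rfl | rfl <;>
      simp [hu, hz, h1, h2, h3, h4, h5, h6]
theorem no_conj {G : Type*} [Group G] [Finite G] (hB : ∀ A B : Subgroup G, IsMulCommutative ↥A → IsMulCommutative ↥B → Nat.card ↥A = Nat.card ↥B → ∃ g : G, B = A.map (MulAut.conj g).toMonoidHom)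
    {V : Subgroup G} {p : ℕ} (hVc : IsMulCommutative V) (hVe : ∀ v ∈ V, v ^ p = 1) (y : G) (hy : orderOf y = Nat.card V) :
    y ^ p = 1 := by
  have hzc : IsMulCommutative (zpowers y) := ⟨⟨fun a b => mul_comm' a b⟩⟩
  obtain ⟨g, hg⟩ := hB V (zpowers y) hVc hzc (by rw [Nat.card_zpowers, hy])
  have h1 : y ∈ V.map (MulAut.conj g).toMonoidHom := by
    rw [← hg]
    exact mem_zpowers y
  obtain ⟨v, hv, hvy⟩ := h1
  rw [← hvy]
  have h2 : (MulAut.conj g).toMonoidHom v ^ p = (MulAut.conj g).toMonoidHom (v ^ p) := (map_pow _ _ _).symm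
  rw [h2, hVe v hv, map_one]

theorem sub_contra {G : Type*} [Group G] [Finite G] (hB : ∀ A B : Subgroup G, IsMulCommutative ↥A → IsMulCommutative ↥B → Nat.card ↥A = Nat.card ↥B → ∃ g : G, B = A.map (MulAut.conj g).toMonoidHom)
    {P : Subgroup G} {V : Subgroup ↥P} {p : ℕ} (hVc : IsMulCommutative V) (hVe : ∀ v : ↥P, v ∈ V → ((v : G)) ^ p = 1) (y : G) (hy : orderOf y = Nat.card V)
    (_hyP : y ∈ P) (hne : y ^ p ≠ 1) : False := by
  apply hne
  refine no_conj hB (V := V.map P.subtype) ?_ ?_ y ?_
  · refine ⟨⟨?_⟩⟩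
    rintro ⟨_, a, ha, rfl⟩ ⟨_, b, hb, rfl⟩
    apply Subtype.ext
    have := hVc.is_comm.comm ⟨a, ha⟩ ⟨b, hb⟩
    have h2 : a * b = b * a := congrArg Subtype.val this
    show (a : G) * b = b * a
    exact congrArg Subtype.val h2
  · rintro _ ⟨v, hv, rfl⟩
    exact hVe v hv
  · rw [hy]
    exact (Subgroup.card_map_of_injective (Subgroup.subtype_injective _)).symm

theorem two_invol {Q : Type*} [Group Q] [Finite Q] (hQ : IsPGroup 2 Q) (H K : Subgroup Q) (hH : Nat.card H = 2) (hK : Nat.card K = 2)
    (hne : H ≠ K) : ∃ u z : Q, u * u = 1 ∧ z * z = 1 ∧ u * z = z * u ∧ u ≠ 1 ∧ z ≠ 1 ∧ u ≠ z := by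
  haveI : Fact (Nat.Prime 2) := ⟨Nat.prime_two⟩
  have hnt : Nontrivial Q := by
    by_contra hn
    rw [not_nontrivial_iff_subsingleton] at hn
    have h1 : Nat.card H = 1 := by
      rw [Nat.card_eq_one_iff_unique]
      exact ⟨inferInstance, ⟨1⟩⟩
    omega
  haveI := hQ.center_nontrivial
  obtain ⟨n, hn⟩ := IsPGroup.iff_card.mp (hQ.to_subgroup (center Q))
  have hd : 2 ∣ Nat.card (center Q) := by
    rw [hn]
    apply dvd_pow_self
    rintro rfl
    rw [pow_zero] at hn
    have h2 : (1 : ℕ) < Nat.card (center Q) := Finite.one_lt_card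
    omega
  obtain ⟨z, hz⟩ := exists_prime_orderOf_dvd_card' 2 hd
  have hz' : orderOf (z : Q) = 2 := by rwa [Subgroup.orderOf_coe]
  have hzz : (z : Q) * z = 1 := by
    rw [← pow_two, ← hz', pow_orderOf_eq_one]
  have hz1 : (z : Q) ≠ 1 := by
    intro h
    rw [h, orderOf_one] at hz'
    omega
  have hlem : ∀ L : Subgroup Q, Nat.card L = 2 → (z : Q) ∉ L → ∃ u z : Q, u * u = 1 ∧ z * z = 1 ∧ u * z = z * u ∧ u ≠ 1 ∧ z ≠ 1 ∧ u ≠ z := by
    intro L hL hzL
    obtain ⟨u, hu⟩ := exists_prime_orderOf_dvd_card' 2 (G := L) (by rw [hL])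
    have hu' : orderOf (u : Q) = 2 := by rwa [Subgroup.orderOf_coe]
    refine ⟨u, z, ?_, hzz, ?_, ?_, hz1, ?_⟩
    · rw [← pow_two, ← hu', pow_orderOf_eq_one]
    · exact ((Subgroup.mem_center_iff.mp z.2) u)
    · intro h
      rw [h, orderOf_one] at hu'
      omega
    · intro h
      apply hzL
      rw [← h]
      exact u.2
  by_cases hzH : (z : Q) ∈ H
  · by_cases hzK : (z : Q) ∈ K
    · exfalso
      apply hne
      have h3 : zpowers (z : Q) ≤ H := (Subgroup.zpowers_le).mpr hzH
      have h4 : zpowers (z : Q) ≤ K := (Subgroup.zpowers_le).mpr hzK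
      have h5 : Nat.card (zpowers (z : Q)) = 2 := by rw [Nat.card_zpowers, hz']
      rw [← Subgroup.eq_of_le_of_card_ge h3 (by rw [hH, h5]), ← Subgroup.eq_of_le_of_card_ge h4 (by rw [hK, h5])]
    · exact hlem K hK hzK
  · exact hlem H hH hzH

/-- Let G be a finite group in which any two abelian subgroups of the same order are conjugate. Then a Sylow 2-subgroup of G is cyclic, elementary abelian or generalized quaternion, and for an odd prime p a Sylow p-subgroup of G is cyclic or has exponent dividing p. -/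
theorem result {G : Type*} [Group G] [Finite G] (hB : ∀ A B : Subgroup G, IsMulCommutative ↥A → IsMulCommutative ↥B → Nat.card ↥A = Nat.card ↥B → ∃ g : G, B = A.map (MulAut.conj g).toMonoidHom) :
    (∀ P : Sylow 2 G, IsCyclic ↥(P : Subgroup G) ∨ Cfsg.IsElementaryAbelian 2 (P : Subgroup G) ∨ ∃ k : ℕ, Nonempty (↥(P : Subgroup G) ≃* QuaternionGroup (2 ^ k))) ∧
    ∀ (p : ℕ) [Fact p.Prime], p ≠ 2 → ∀ P : Sylow p G, IsCyclic ↥(P : Subgroup G) ∨ ∀ x ∈ (P : Subgroup G), x ^ p = 1 := by
  constructor
  · intro P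
    haveI : Fact (Nat.Prime 2) := ⟨Nat.prime_two⟩
    by_cases hexp : ∀ x ∈ (P : Subgroup G), x ^ 2 = 1
    · right
      left
      refine ⟨⟨⟨?_⟩⟩, hexp⟩
      rintro ⟨a, ha⟩ ⟨b, hb⟩
      apply Subtype.ext
      show a * b = b * a
      have h1 := hexp _ (P.1.mul_mem ha hb)
      have h2 := hexp _ ha
      have h3 := hexp _ hb
      rw [pow_two] at h1 h2 h3
      calc a * b = (a * b)⁻¹ := (inv_eq_of_mul_eq_one_left h1).symm
        _ = b⁻¹ * a⁻¹ := mul_inv_rev a b
        _ = b * a := by rw [inv_eq_of_mul_eq_one_left h2, inv_eq_of_mul_eq_one_left h3]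
    · push Not at hexp
      obtain ⟨x, hxP, hx2⟩ := hexp
      have hPp : IsPGroup 2 (P : Subgroup G) := P.2
      obtain ⟨n, hn⟩ := hPp ⟨x, hxP⟩
      have hxn : x ^ 2 ^ n = 1 := congrArg Subtype.val hn
      obtain ⟨k, -, hk⟩ := (Nat.dvd_prime_pow Nat.prime_two).mp (orderOf_dvd_of_pow_eq_one hxn)
      have h4 : 4 ∣ orderOf x := by
        rw [hk]
        have hk2 : 2 ≤ k := by
          by_contra hlt
          apply hx2
          have : orderOf x ∣ 2 := by
            rw [hk]
            have : k ≤ 1 := by omega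
            exact (pow_dvd_pow 2 this).trans (by norm_num)
          exact orderOf_dvd_iff_pow_eq_one.mp this
        exact (show (4 : ℕ) = 2 ^ 2 by norm_num) ▸ pow_dvd_pow 2 hk2
      have hy : orderOf (x ^ (orderOf x / 4)) = 4 := orderOf_pow_orderOf_div (orderOf_pos x).ne' h4
      have hyP : x ^ (orderOf x / 4) ∈ (P : Subgroup G) := P.1.pow_mem hxP _
      have hu : Cfsg.Agent.Lib.OddLocal.UniqueP 2 ↥(P : Subgroup G) := by
        -- otherwise there is a four-group
        intro H K hH hK
        by_contra hne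
        obtain ⟨u, z, hu2, hz2, huz, hu1, hz1, hune⟩ := two_invol hPp H K hH hK hne
        obtain ⟨V, hV4, hVe, hVc⟩ := klein_sub hu2 hz2 huz hu1 hz1 hune
        exact sub_contra hB (P := (P : Subgroup G)) (V := V) hVc (by
          intro v hv
          exact congrArg Subtype.val (hVe v hv)) _ (hy.trans (by rw [hV4])) hyP (by
          intro h
          have h1 := orderOf_dvd_of_pow_eq_one h
          rw [hy] at h1
          norm_num at h1)
      rcases Cfsg.Agent.Lib.OddLocal.cyclic_or_quaternion hPp hu with h | h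
      · exact Or.inl h
      · exact Or.inr (Or.inr h)
  · intro p _ hp2 P
    by_cases hc : IsCyclic (P : Subgroup G)
    · exact Or.inl hc
    · right
      intro x hxP
      by_contra hx
      obtain ⟨A, hAn, ⟨hAc, hAe⟩, hAcard⟩ := Cfsg.Agent.Lib.Transfer.exists_normal_elementary_sq hp2 P.2 hc
      have hpp : p.Prime := Fact.out
      have hPp : IsPGroup p (P : Subgroup G) := P.2
      obtain ⟨n, hn⟩ := hPp ⟨x, hxP⟩
      have hxn : x ^ p ^ n = 1 := congrArg Subtype.val hn
      obtain ⟨k, -, hk⟩ := (Nat.dvd_prime_pow hpp).mp (orderOf_dvd_of_pow_eq_one hxn)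
      have h4 : p ^ 2 ∣ orderOf x := by
        rw [hk]
        have hk2 : 2 ≤ k := by
          by_contra hlt
          apply hx
          have : orderOf x ∣ p := by
            rw [hk]
            have : k ≤ 1 := by omega
            exact (pow_dvd_pow p this).trans (by simp)
          exact orderOf_dvd_iff_pow_eq_one.mp this
        exact pow_dvd_pow p hk2
      have hy : orderOf (x ^ (orderOf x / p ^ 2)) = p ^ 2 := orderOf_pow_orderOf_div (orderOf_pos x).ne' h4
      have hyP : x ^ (orderOf x / p ^ 2) ∈ (P : Subgroup G) := P.1.pow_mem hxP _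
      exact sub_contra hB (P := (P : Subgroup G)) (V := A) hAc (by
          intro v hv
          exact congrArg Subtype.val (hAe v hv)) _ (hy.trans (by rw [hAcard])) hyP (by
          intro h
          have h1 := orderOf_dvd_of_pow_eq_one h
          rw [hy] at h1
          have h2 := Nat.le_of_dvd hpp.pos h1
          have := hpp.two_le
          nlinarith)

end Cfsg.Agent.S3908
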