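import Cfsg.Statements.S3909
-- import your own Cfsg.Agent.* helpers here
import Mathlib

set_option autoImplicit false
open Cfsg

namespace Cfsg.Agent.S3909

/-- Let G be a finite group in which any two abelian subgroups of the same order are conjugate. Let M be a normal subgroup of G. If M contains an element of the same order as a ∈ G, then a ∈ M; and if M is elementary abelian of order p^t with p prime and t ≥ 2, then M is the unique Sylow p-subgroup of G. -/
theorem result {G : Type*} [Group G] [Finite G] (hB : ∀ A B : Subgroup G, IsMulCommutative ↥A → IsMulCommutative ↥B → Nat.card ↥A = Nat.card ↥B → ∃ g : G, B = A.map (MulAut.conj g).toMonoidHom) (M : Subgroup G) [M.Normal] :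
    (∀ a : G, (∃ m ∈ M, orderOf m = orderOf a) → a ∈ M) ∧
    ∀ (p t : ℕ) [Fact p.Prime], 2 ≤ t → Nat.card ↥M = p ^ t → Cfsg.IsElementaryAbelian p M → ∀ P : Sylow p G, (P : Subgroup G) = M := by
  classical
  have hzc : ∀ x : G, IsMulCommutative ↥(Subgroup.zpowers x) := fun x => IsCyclic.commutative
  have ha : ∀ a : G, (∃ m ∈ M, orderOf m = orderOf a) → a ∈ M := by
    rintro a ⟨m, hm, hoa⟩
    obtain ⟨g, hg⟩ := hB (Subgroup.zpowers m) (Subgroup.zpowers a) (hzc m) (hzc a) (by
      rw [Nat.card_zpowers, Nat.card_zpowers, hoa])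
    have h1 : a ∈ Subgroup.zpowers a := Subgroup.mem_zpowers a
    rw [hg] at h1
    obtain ⟨z, hz, hz2⟩ := h1
    have hzM : z ∈ M := (Subgroup.zpowers_le.mpr hm) hz
    rw [← hz2]
    exact ‹M.Normal›.conj_mem z hzM g
  refine ⟨ha, ?_⟩
  intro p t _ ht hcard hE P
  have hMp : IsPGroup p M := IsPGroup.of_card hcard
  -- `M ≤ P`
  have hMP : M ≤ P := by
    have h1 : IsPGroup p ((P : Subgroup G) ⊔ M : Subgroup G) :=
      P.isPGroup'.to_sup_of_normal_right hMp
    have h2 := P.is_maximal' h1 le_sup_left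
    rw [← h2]
    exact le_sup_right
  refine le_antisymm ?_ hMP
  -- a subgroup of order `p^2` of `M`
  have hdvd : p ^ 2 ∣ Nat.card M := by
    rw [hcard]
    exact pow_dvd_pow p ht
  obtain ⟨V₀, hV₀⟩ := Sylow.exists_subgroup_card_pow_prime (G := M) p hdvd
  let V : Subgroup G := V₀.map M.subtype
  have hVM : V ≤ M := by
    rintro _ ⟨v, _, rfl⟩
    exact v.2
  have hVcard : Nat.card V = p ^ 2 := by
    rw [← hV₀]
    exact Nat.card_congr (V₀.equivMapOfInjective M.subtype M.subtype_injective).symm.toEquiv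
  have hVc : IsMulCommutative ↥V := by
    refine ⟨⟨fun a b => Subtype.ext ?_⟩⟩
    have hc := hE.1.is_comm.comm ⟨a.1, hVM a.2⟩ ⟨b.1, hVM b.2⟩
    show a.1 * b.1 = b.1 * a.1
    exact congrArg Subtype.val hc
  -- exponent `p` on `P`
  have hexp : ∀ y ∈ (P : Subgroup G), y ^ p = 1 := by
    intro y hy
    by_contra hne
    obtain ⟨k, hk⟩ := (IsPGroup.iff_orderOf.mp P.isPGroup') ⟨y, hy⟩
    have hk' : orderOf y = p ^ k := by
      rw [← hk, Subgroup.orderOf_mk]
    have hk2 : 2 ≤ k := by
      by_contra hlt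
      push Not at hlt
      have : k ≤ 1 := by omega
      apply hne
      apply orderOf_dvd_iff_pow_eq_one.mp
      rw [hk']
      calc p ^ k ∣ p ^ 1 := pow_dvd_pow p this
        _ = p := pow_one p
    let y' := y ^ p ^ (k - 2)
    have hy' : orderOf y' = p ^ 2 := by
      have hp := (Fact.out : p.Prime)
      have h3 : orderOf y' = orderOf y / p ^ (k - 2) := by
        apply orderOf_pow_of_dvd
        · exact pow_ne_zero _ hp.ne_zero
        · rw [hk']
          exact pow_dvd_pow p (by omega)
      rw [h3, hk']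
      rw [Nat.pow_div (by omega) hp.pos]
      congr 1
      omega
    obtain ⟨g, hg⟩ := hB V (Subgroup.zpowers y') hVc (hzc y') (by
      rw [Nat.card_zpowers, hy', hVcard])
    have h1 : y' ∈ Subgroup.zpowers y' := Subgroup.mem_zpowers y'
    rw [hg] at h1
    obtain ⟨z, hz, hz2⟩ := h1
    have hz3 : z ^ p = 1 := by
      have := hE.2 z (hVM hz)
      exact this
    have hy'p : y' ^ p = 1 := by
      rw [← hz2]
      show (MulAut.conj g z) ^ p = 1
      rw [← map_pow, hz3, map_one]
    have h4 : p ^ 2 ∣ p := by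
      rw [← hy']
      exact orderOf_dvd_of_pow_eq_one hy'p
    have hp := (Fact.out : p.Prime)
    have h5 := Nat.le_of_dvd hp.pos h4
    have h6 : p * p ≤ p := by nlinarith
    have h7 : 2 ≤ p := hp.two_le
    nlinarith
  intro y hy
  by_cases hy1 : y = 1
  · rw [hy1]; exact M.one_mem
  · apply ha
    have hop : orderOf y = p := orderOf_eq_prime (hexp y hy) hy1
    have hp := (Fact.out : p.Prime)
    have hd : p ∣ Nat.card M := by
      rw [hcard]
      exact dvd_pow_self p (by omega)
    obtain ⟨m, hm⟩ := exists_prime_orderOf_dvd_card' p hd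
    refine ⟨m.1, m.2, ?_⟩
    rw [hop, ← hm, Subgroup.orderOf_coe]

end Cfsg.Agent.S3909
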