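import Cfsg.Statements.S3910
-- import your own Cfsg.Agent.* helpers here
import Mathlib
import Cfsg.Agent.Lib.Basic.Nilpotent
import Cfsg.Agent.Lib.Basic.Hall
import Cfsg.Agent.Lib.Coprime.Conj
import Cfsg.Agent.Lib.Coprime.Sylow

set_option autoImplicit false
open Cfsg

namespace Cfsg.Agent.S3910

theorem exists_next {G : Type*} [Group G] [Finite G] [Group.IsNilpotent G] {p : ℕ} [Fact p.Prime]
    (N A : Subgroup G) [N.Normal] [hAn : A.Normal] (hA : IsPGroup p A) (hNA : N ≤ A) (hne : N ≠ A) :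
    ∃ N' : Subgroup G, N'.Normal ∧ N ≤ N' ∧ N' ≤ A ∧ Nat.card N' = p * Nat.card N := by
  classical
  have hp := (Fact.out : p.Prime)
  let f := QuotientGroup.mk' N
  have hsurj : Function.Surjective f := QuotientGroup.mk'_surjective N
  let Abar : Subgroup (G ⧸ N) := A.map f
  haveI : Abar.Normal := hAn.map f hsurj
  have hAbar : Abar ≠ ⊥ := by
    intro h
    apply hne
    apply le_antisymm hNA
    intro a ha
    have h1 : f a ∈ Abar := ⟨a, ha, rfl⟩
    rw [h, Subgroup.mem_bot] at h1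
    exact (QuotientGroup.eq_one_iff a).mp h1
  have h2 := Cfsg.Agent.Lib.Basic.normal_inf_center_ne_bot Abar hAbar
  rcases (Abar ⊓ Subgroup.center (G ⧸ N)).bot_or_exists_ne_one with h | ⟨z, hz, hz1⟩
  · exact absurd h h2
  have hzA : z ∈ Abar := (Subgroup.mem_inf.mp hz).1
  have hzZ : z ∈ Subgroup.center (G ⧸ N) := (Subgroup.mem_inf.mp hz).2
  have hAbarp : IsPGroup p Abar := hA.map f
  obtain ⟨k, hk⟩ := (IsPGroup.iff_orderOf.mp hAbarp) ⟨z, hzA⟩
  have hk' : orderOf z = p ^ k := by rw [← hk, Subgroup.orderOf_mk]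
  have hk0 : k ≠ 0 := by
    rintro rfl
    rw [pow_zero, orderOf_eq_one_iff] at hk'
    exact hz1 hk'
  let z₁ := z ^ p ^ (k - 1)
  have hz₁o : orderOf z₁ = p := by
    have h3 := orderOf_pow_of_dvd (x := z) (n := p ^ (k - 1)) (pow_ne_zero _ hp.ne_zero)
      (by rw [hk']; exact pow_dvd_pow p (by omega))
    show orderOf (z ^ p ^ (k - 1)) = p
    rw [h3, hk', Nat.pow_div (by omega) hp.pos]
    have h4 : k - (k - 1) = 1 := by omega
    rw [h4, pow_one]
  have hz₁Z : z₁ ∈ Subgroup.center (G ⧸ N) := pow_mem hzZ _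
  have hz₁A : z₁ ∈ Abar := pow_mem hzA _
  let W := Subgroup.zpowers z₁
  have hWn : W.Normal := ⟨fun n hn g => by
    have hnZ : n ∈ Subgroup.center (G ⧸ N) := (Subgroup.zpowers_le.mpr hz₁Z) hn
    have h3 := Subgroup.mem_center_iff.mp hnZ g
    rw [h3]
    simpa using hn⟩
  refine ⟨W.comap f, hWn.comap f, ?_, ?_, ?_⟩
  · intro x hx
    rw [Subgroup.mem_comap]
    have h3 : f x = 1 := (QuotientGroup.eq_one_iff x).mpr hx
    rw [h3]
    exact W.one_mem
  · intro x hx
    rw [Subgroup.mem_comap] at hx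
    have h3 : f x ∈ Abar := (Subgroup.zpowers_le.mpr hz₁A) hx
    obtain ⟨a, ha, hax⟩ := h3
    have h4 : a⁻¹ * x ∈ N := QuotientGroup.eq.mp hax
    have h5 := A.mul_mem ha (hNA h4)
    simpa using h5
  · have h3 := Cfsg.Agent.Lib.Basic.card_comap_mk W
    rw [show W.comap f = W.comap (QuotientGroup.mk' N) from rfl, h3, Nat.card_zpowers, hz₁o, mul_comm]

theorem cyclic_sylow {G : Type*} [Group G] [Finite G] [Group.IsNilpotent G]
    (hB : ∀ A B : Subgroup G, IsMulCommutative ↥A → IsMulCommutative ↥B → Nat.card ↥A = Nat.card ↥B → ∃ g : G, B = A.map (MulAut.conj g).toMonoidHom)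
    {p : ℕ} [Fact p.Prime] (P : Sylow p G) : IsCyclic P := by
  classical
  have hp := (Fact.out : p.Prime)
  have hU : ∀ N B : Subgroup G, N.Normal → IsMulCommutative N → IsMulCommutative B →
      Nat.card N = Nat.card B → B = N := by
    intro N B hN hNc hBc hc
    obtain ⟨g, hg⟩ := hB N B hNc hBc hc
    rw [hg]
    apply (Cfsg.Agent.Lib.Coprime.conj_map_eq_iff_mem_normalizer N g).mpr
    rw [Subgroup.normalizer_eq_top_iff.mpr hN]
    trivial
  have hzc : ∀ x : G, IsMulCommutative ↥(Subgroup.zpowers x) := fun x => IsCyclic.commutative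
  have hPn : (P : Subgroup G).Normal :=
    Sylow.normal_of_normalizerCondition Group.normalizerCondition_of_isNilpotent P
  let S : Set (Subgroup G) := {A | A ≤ P ∧ A.Normal ∧ IsMulCommutative A}
  have hSne : S.Nonempty := ⟨⊥, bot_le, inferInstance, by
    refine ⟨⟨fun a b => Subsingleton.elim _ _⟩⟩⟩
  obtain ⟨A, hA⟩ := (Set.toFinite S).exists_maximal hSne
  obtain ⟨hAle, hAn, hAc⟩ := hA.prop
  have hAp : IsPGroup p A := P.isPGroup'.to_le hAle
  obtain ⟨a, ha⟩ := IsPGroup.iff_card.mp hAp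
  have hchain : ∀ k, k ≤ a → ∃ N : Subgroup G, N.Normal ∧ N ≤ A ∧ Nat.card N = p ^ k := by
    intro k
    induction k with
    | zero => intro _; exact ⟨⊥, inferInstance, bot_le, by simp⟩
    | succ k ih =>
      intro hk
      obtain ⟨N, hN, hNA, hNc⟩ := ih (by omega)
      have hne : N ≠ A := by
        intro h
        rw [h, ha] at hNc
        have := Nat.pow_right_injective hp.two_le hNc
        omega
      obtain ⟨N', h1, h2, h3, h4⟩ := exists_next N A hAp hNA hne
      exact ⟨N', h1, h3, by rw [h4, hNc, pow_succ']⟩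
  have habN : ∀ N : Subgroup G, N ≤ A → IsMulCommutative N := by
    intro N hN
    refine ⟨⟨fun u v => Subtype.ext ?_⟩⟩
    have hc := hAc.is_comm.comm ⟨u.1, hN u.2⟩ ⟨v.1, hN v.2⟩
    show u.1 * v.1 = v.1 * u.1
    exact congrArg Subtype.val hc
  have hpow : ∀ (y : G) (b c : ℕ), orderOf y = p ^ b → c ≤ b → orderOf (y ^ p ^ (b - c)) = p ^ c := by
    intro y b c hy hcb
    have h3 := orderOf_pow_of_dvd (x := y) (n := p ^ (b - c)) (pow_ne_zero _ hp.ne_zero)
      (by rw [hy]; exact pow_dvd_pow p (by omega))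
    rw [h3, hy, Nat.pow_div (by omega) hp.pos]
    congr 1
    omega
  -- cyclic subgroups of small order are the `N_k`
  have hsmall : ∀ (y : G) (k : ℕ), orderOf y = p ^ k → k ≤ a →
      ∃ N : Subgroup G, N.Normal ∧ N ≤ A ∧ Nat.card N = p ^ k ∧ Subgroup.zpowers y = N := by
    intro y k hy hk
    obtain ⟨N, hN, hNA, hNc⟩ := hchain k hk
    refine ⟨N, hN, hNA, hNc, ?_⟩
    exact hU N _ hN (habN N hNA) (hzc y) (by rw [hNc, Nat.card_zpowers, hy])
  -- self-centralizing
  have hCA : Subgroup.centralizer (A : Set G) ⊓ (P : Subgroup G) ≤ A := by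
    by_contra hcon
    let C : Subgroup G := Subgroup.centralizer (A : Set G) ⊓ (P : Subgroup G)
    haveI hCn : C.Normal := inferInstance
    have hAC : A ≤ C := by
      refine le_inf ?_ hAle
      intro x hx
      rw [Subgroup.mem_centralizer_iff]
      intro y hy
      have hc := hAc.is_comm.comm ⟨y, hy⟩ ⟨x, hx⟩
      exact congrArg Subtype.val hc
    have hne : A ≠ C := fun h => hcon h.symm.le
    have hCp : IsPGroup p C := P.isPGroup'.to_le inf_le_right
    obtain ⟨N', h1, h2, h3, h4⟩ := exists_next A C hCp hAC hne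
    have hN'c : IsMulCommutative N' := by
      let A' : Subgroup N' := A.subgroupOf N'
      have hidx : A'.index = p := by
        have h5 := Cfsg.Agent.Lib.Coprime.card_mul_relIndex h2
        rw [h4] at h5
        have h6 : Nat.card A ≠ 0 := Nat.card_pos.ne'
        have h7 : Nat.card A * A.relIndex N' = Nat.card A * p := by rw [h5, mul_comm]
        exact Nat.eq_of_mul_eq_mul_left (Nat.pos_of_ne_zero h6) h7
      haveI : Fact (Nat.card (N' ⧸ A')).Prime := ⟨by rw [← Subgroup.index_eq_card, hidx]; exact hp⟩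
      haveI : IsCyclic (N' ⧸ A') := isCyclic_of_prime_card rfl
      refine ⟨⟨commutative_of_cyclic_center_quotient (QuotientGroup.mk' A') ?_⟩⟩
      rw [QuotientGroup.ker_mk']
      intro x hx
      rw [Subgroup.mem_center_iff]
      intro y
      have hxA : (x : G) ∈ A := hx
      have hyC : (y : G) ∈ C := h3 y.2
      have h8 := Subgroup.mem_centralizer_iff.mp (Subgroup.mem_inf.mp hyC).1 x.1 hxA
      exact Subtype.ext h8.symm
    have hmem : N' ∈ S := ⟨h3.trans inf_le_right, h1, hN'c⟩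
    have h5 : N' ≤ A := hA.2 hmem h2
    have h6 : N' = A := le_antisymm h5 h2
    rw [h6] at h4
    have h7 : Nat.card A ≠ 0 := Nat.card_pos.ne'
    have h8 : p * Nat.card A = 1 * Nat.card A := by rw [← h4, one_mul]
    have h9 := Nat.eq_of_mul_eq_mul_right (Nat.pos_of_ne_zero h7) h8
    exact hp.one_lt.ne' h9
  -- `P ≤ A`
  have hPA : (P : Subgroup G) ≤ A := by
    intro y hy
    obtain ⟨b, hb⟩ := (IsPGroup.iff_orderOf.mp P.isPGroup') ⟨y, hy⟩
    have hb' : orderOf y = p ^ b := by rw [← hb, Subgroup.orderOf_mk]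
    by_cases hba : b ≤ a
    · obtain ⟨N, _, hNA, _, hN⟩ := hsmall y b hb' hba
      apply hNA
      rw [← hN]
      exact Subgroup.mem_zpowers y
    · push Not at hba
      have h1 := hpow y b a hb' hba.le
      have h2 : Subgroup.zpowers (y ^ p ^ (b - a)) = A :=
        hU A _ hAn hAc (hzc _) (by rw [Nat.card_zpowers, h1, ha])
      apply hCA
      refine Subgroup.mem_inf.mpr ⟨?_, hy⟩
      rw [Subgroup.mem_centralizer_iff]
      intro u hu
      have hu' : u ∈ Subgroup.zpowers (y ^ p ^ (b - a)) := by rw [h2]; exact hu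
      obtain ⟨k, hk⟩ := hu'
      rw [← hk]
      have hcomm : Commute y (y ^ p ^ (b - a)) := (Commute.refl y).pow_right _
      exact (hcomm.zpow_right k).eq.symm
  -- cyclic
  obtain ⟨y, hy⟩ := Finite.exists_max (fun y : ↥(P : Subgroup G) => orderOf (y : G))
  refine ⟨⟨y, fun z => ?_⟩⟩
  obtain ⟨b, hb⟩ := (IsPGroup.iff_orderOf.mp P.isPGroup') y
  have hb' : orderOf (y : G) = p ^ b := by rw [← hb, Subgroup.orderOf_coe]
  obtain ⟨c, hc⟩ := (IsPGroup.iff_orderOf.mp P.isPGroup') z
  have hc' : orderOf (z : G) = p ^ c := by rw [← hc, Subgroup.orderOf_coe]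
  have hcb : c ≤ b := by
    have h1 := hy z
    rw [hb', hc'] at h1
    exact (Nat.pow_le_pow_iff_right hp.one_lt).mp h1
  have hca : c ≤ a := by
    have h1 : orderOf (z : G) ∣ Nat.card A := Subgroup.orderOf_dvd_natCard A (hPA z.2)
    rw [hc', ha] at h1
    exact (Nat.pow_dvd_pow_iff_le_right hp.one_lt).mp h1
  obtain ⟨N, hN, hNA, hNc, hzN⟩ := hsmall z c hc' hca
  have h1 := hpow y b c hb' hcb
  have h2 : Subgroup.zpowers ((y : G) ^ p ^ (b - c)) = N :=
    hU N _ hN (habN N hNA) (hzc _) (by rw [Nat.card_zpowers, h1, hNc])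
  have h3 : (z : G) ∈ Subgroup.zpowers ((y : G) ^ p ^ (b - c)) := by
    rw [h2, ← hzN]
    exact Subgroup.mem_zpowers _
  have h4 : (z : G) ∈ Subgroup.zpowers (y : G) :=
    (Subgroup.zpowers_le.mpr (pow_mem (Subgroup.mem_zpowers (y : G)) _)) h3
  obtain ⟨k, hk⟩ := h4
  exact ⟨k, Subtype.ext (by simpa using hk)⟩

/-- A finite nilpotent group in which any two abelian subgroups of the same order are conjugate is cyclic. -/
theorem result {G : Type*} [Group G] [Finite G] (hB : ∀ A B : Subgroup G, IsMulCommutative ↥A → IsMulCommutative ↥B → Nat.card ↥A = Nat.card ↥B → ∃ g : G, B = A.map (MulAut.conj g).toMonoidHom) (hnil : Group.IsNilpotent G) : IsCyclic G := by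
  classical
  haveI := hnil
  have h1 : IsZGroup G := by
    refine ⟨fun p hp P => ?_⟩
    haveI : Fact p.Prime := ⟨hp⟩
    exact cyclic_sylow hB P
  infer_instance

end Cfsg.Agent.S3910
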