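import Cfsg.Statements.S3917
-- import your own Cfsg.Agent.* helpers here
import Mathlib

set_option autoImplicit false
open Cfsg

namespace Cfsg.Agent.S3917

variable {G : Type*} [CommGroup G] [Finite G]

/-- `H_n` : elements with `x^n = 1`. -/
def tors (G : Type*) [CommGroup G] (n : ℕ) : Subgroup G := (powMonoidHom n : G →* G).ker

theorem mem_tors (n : ℕ) (x : G) : x ∈ tors G n ↔ x ^ n = 1 := by
  simp [tors, MonoidHom.mem_ker]

theorem card_tors_mul_le (a b : ℕ) : Nat.card (tors G (a * b)) ≤ Nat.card (tors G a) * Nat.card (tors G b) := by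
  -- the map tors (ab) → tors b, x ↦ x^a has kernel in tors a
  let f : tors G (a * b) →* tors G b :=
    { toFun := fun x => ⟨(x : G) ^ a, by
        rw [mem_tors, ← pow_mul]
        exact (mem_tors _ _).mp x.2⟩
      map_one' := by ext; simp
      map_mul' := fun x y => by ext; simp [mul_pow] }
  have h1 := Subgroup.card_mul_index f.ker
  have h2 := Subgroup.index_ker f
  have h3 : Nat.card f.ker ≤ Nat.card (tors G a) := by
    apply Nat.card_le_card_of_injective (fun x => (⟨(x.1 : G), by
        rw [mem_tors]
        have := x.2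
        rw [MonoidHom.mem_ker] at this
        exact congrArg Subtype.val this⟩ : tors G a))
    intro u v huv
    simp only [Subtype.mk.injEq] at huv
    exact Subtype.ext (Subtype.ext huv)
  have h4 : Nat.card f.range ≤ Nat.card (tors G b) := by
    apply Subgroup.card_le_card_group
  rw [← h1, h2]
  exact Nat.mul_le_mul h3 h4

theorem card_tors_cyclic_le (H : Subgroup G) (hH : IsCyclic H) (n : ℕ) (hn : 0 < n) (hle : H ≤ tors G n) :
    Nat.card H ≤ n := by
  obtain ⟨g, hg⟩ := hH.exists_generator
  have h1 : orderOf g = Nat.card H := orderOf_eq_card_of_forall_mem_zpowers hg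
  rw [← h1]
  apply Nat.le_of_dvd hn
  apply orderOf_dvd_of_pow_eq_one
  ext
  simpa using (mem_tors n (g : G)).mp (hle g.2)

/-- Say that a group has self-centralizing non-cyclic subgroups when every non-cyclic subgroup H satisfies C_G(H) ≤ H. A finite abelian group with self-centralizing non-cyclic subgroups is cyclic or elementary abelian of order p² for a prime p. -/
theorem result {G : Type*} [CommGroup G] [Finite G] (hX : (∀ H : Subgroup G, ¬ IsCyclic ↥H → Subgroup.centralizer (H : Set G) ≤ H)) :
    IsCyclic G ∨ ∃ p : ℕ, p.Prime ∧ Nat.card G = p ^ 2 ∧ Monoid.exponent G = p := by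
  classical
  by_cases hcyc : IsCyclic G
  · exact Or.inl hcyc
  right
  -- every noncyclic subgroup is everything
  have htop : ∀ H : Subgroup G, ¬ IsCyclic H → H = ⊤ := by
    intro H hH
    have h1 := hX H hH
    rw [eq_top_iff]
    intro x _
    apply h1
    rw [Subgroup.mem_centralizer_iff]
    intro h _
    exact mul_comm _ _
  -- a prime p with |tors p| > p
  have hprime : ∃ p : ℕ, p.Prime ∧ p < Nat.card (tors G p) := by
    by_contra hno
    push Not at hno
    apply hcyc
    -- every n: induct
    have hind : ∀ n : ℕ, 0 < n → Nat.card (tors G n) ≤ n := by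
      intro n hn
      induction n using Nat.recOnMul with
      | zero => omega
      | one =>
        have : tors G 1 = ⊥ := by
          rw [eq_bot_iff]
          intro x hx
          rw [mem_tors, pow_one] at hx
          exact hx
        rw [this]
        simp
      | prime p hp => exact hno p hp
      | mul a b iha ihb =>
        have ha : 0 < a := Nat.pos_of_mul_pos_right hn
        have hb : 0 < b := Nat.pos_of_mul_pos_left hn
        exact (card_tors_mul_le a b).trans (Nat.mul_le_mul (iha ha) (ihb hb))
    haveI := Fintype.ofFinite G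
    apply isCyclic_of_card_pow_eq_one_le
    intro n hn
    have h := hind n hn
    have e : Nat.card (tors G n) = (Finset.univ.filter (fun a : G => a ^ n = 1)).card := by
      rw [Nat.card_eq_fintype_card, Fintype.card_subtype]
      simp [mem_tors]
    rw [← e]
    exact h
  obtain ⟨p, hp, hpc⟩ := hprime
  haveI : Fact p.Prime := ⟨hp⟩
  have hnc : ¬ IsCyclic (tors G p) := by
    intro hc
    have := card_tors_cyclic_le (tors G p) hc p hp.pos le_rfl
    omega
  have htp : tors G p = ⊤ := htop _ hnc
  have hall : ∀ x : G, x ^ p = 1 := fun x => (mem_tors p x).mp (htp ▸ Subgroup.mem_top x)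
  have hcardG : p < Nat.card G := by
    rw [htp] at hpc
    simpa using hpc
  have hG1 : Nontrivial G := by
    rw [← Finite.one_lt_card_iff_nontrivial]
    have := hp.one_lt
    omega
  -- order of any non-identity element
  have hord : ∀ g : G, g ≠ 1 → orderOf g = p := fun g hg =>
    orderOf_eq_prime (hall g) hg
  obtain ⟨x, hx⟩ := exists_ne (1 : G)
  have hzx : Nat.card (Subgroup.zpowers x) = p := by
    rw [Nat.card_zpowers, hord x hx]
  -- some y outside zpowers x
  have hy : ∃ y : G, y ∉ Subgroup.zpowers x := by
    by_contra hno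
    push Not at hno
    have : Subgroup.zpowers x = ⊤ := eq_top_iff.mpr (fun y _ => hno y)
    rw [this] at hzx
    simp only [Subgroup.card_top] at hzx
    omega
  obtain ⟨y, hy⟩ := hy
  have hy1 : y ≠ 1 := by
    rintro rfl
    exact hy (Subgroup.one_mem _)
  have hsup : Subgroup.zpowers x ⊔ Subgroup.zpowers y = ⊤ := by
    apply htop
    intro hc
    have hle : Subgroup.zpowers x ⊔ Subgroup.zpowers y ≤ tors G p := by
      rw [htp]
      exact le_top
    have h1 := card_tors_cyclic_le _ hc p hp.pos hle
    -- zpowers x is a proper subgroup of the sup, so card > p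
    have hlt : Subgroup.zpowers x < Subgroup.zpowers x ⊔ Subgroup.zpowers y := by
      refine lt_of_le_of_ne le_sup_left ?_
      intro he
      apply hy
      rw [he]
      exact Subgroup.mem_sup_right (Subgroup.mem_zpowers y)
    have h2 : Nat.card (Subgroup.zpowers x) < Nat.card ↥(Subgroup.zpowers x ⊔ Subgroup.zpowers y) :=
      Set.ncard_lt_ncard hlt (Set.toFinite _)
    omega
  have hle2 : Nat.card G ≤ p ^ 2 := by
    let f : Subgroup.zpowers x × Subgroup.zpowers y → G := fun u => (u.1 : G) * (u.2 : G)
    have hf : Function.Surjective f := by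
      intro g
      have hg : g ∈ Subgroup.zpowers x ⊔ Subgroup.zpowers y := by
        rw [hsup]
        exact Subgroup.mem_top g
      obtain ⟨a, ha, b, hb, hab⟩ := Subgroup.mem_sup.mp hg
      exact ⟨(⟨a, ha⟩, ⟨b, hb⟩), hab⟩
    have := Nat.card_le_card_of_surjective f hf
    rw [Nat.card_prod, hzx, Nat.card_zpowers, hord y hy1] at this
    rw [pow_two]
    exact this
  have hpgrp : IsPGroup p G := fun g => ⟨1, by simpa using hall g⟩
  obtain ⟨k, hk⟩ := IsPGroup.iff_card.mp hpgrp
  refine ⟨p, hp, ?_, ?_⟩
  · rw [hk] at hcardG hle2 ⊢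
    have h1 : 1 < k := by
      by_contra hk1
      push Not at hk1
      have : p ^ k ≤ p ^ 1 := Nat.pow_le_pow_right hp.pos hk1
      simp only [pow_one] at this
      omega
    have h2 : k ≤ 2 := (Nat.pow_le_pow_iff_right hp.one_lt).mp hle2
    have : k = 2 := by omega
    rw [this]
  · rw [Monoid.exponent_eq_prime_iff hp]
    exact hord

end Cfsg.Agent.S3917
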