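import Cfsg.Statements.S3918
-- import your own Cfsg.Agent.* helpers here
import Mathlib
import Cfsg.Agent.Lib.Transfer.Rank

set_option autoImplicit false
open Cfsg

namespace Cfsg.Agent.S3918

/-- Say that a group has self-centralizing non-cyclic subgroups when every non-cyclic subgroup H satisfies C_G(H) ≤ H. For an odd prime p, a finite non-abelian p-group has self-centralizing non-cyclic subgroups if and only if it has order p³. -/
theorem result {G : Type*} [Group G] [Finite G] {p : ℕ} [Fact p.Prime] (hp : p ≠ 2) (hG : IsPGroup p G) (hna : ¬ IsMulCommutative G) :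
    (∀ H : Subgroup G, ¬ IsCyclic ↥H → Subgroup.centralizer (H : Set G) ≤ H) ↔ Nat.card G = p ^ 3 := by
  classical
  have hp1 : p.Prime := Fact.out
  constructor
  · intro hself
    have hnc : ¬ IsCyclic G := by
      intro hc
      exact hna IsCyclic.commutative
    obtain ⟨E, hEn, hEe, hEc⟩ := Cfsg.Agent.Lib.Transfer.exists_normal_elementary_sq hp hG hnc
    haveI := hEn
    have hEnc : ¬ IsCyclic E := by
      intro hc
      obtain ⟨g, hg⟩ := hc.exists_generator
      have h1 : orderOf g = Nat.card E := orderOf_eq_card_of_forall_mem_zpowers hg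
      have h2 : g ^ p = 1 := Subtype.ext (hEe.2 g.1 g.2)
      have h3 : orderOf g ∣ p := orderOf_dvd_of_pow_eq_one h2
      rw [h1, hEc] at h3
      have h4 := Nat.le_of_dvd hp1.pos h3
      have h5 := hp1.two_le
      nlinarith
    have hCE : Subgroup.centralizer (E : Set G) = E := by
      apply le_antisymm (hself E hEnc)
      intro x hx
      rw [Subgroup.mem_centralizer_iff]
      intro y hy
      have hc := hEe.1.is_comm.comm ⟨y, hy⟩ ⟨x, hx⟩
      exact congrArg Subtype.val hc
    have h1 := Cfsg.Agent.Lib.Transfer.index_centralizer_le hG 2 E hEc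
    rw [hCE] at h1
    have h1' : E.index ≤ p := by simpa using h1
    have h2 := Subgroup.card_mul_index E
    rw [hEc] at h2
    obtain ⟨n, hn⟩ := IsPGroup.iff_card.mp hG
    have h3 : E.index ∣ p ^ n := by
      rw [← hn, ← h2]
      exact dvd_mul_left _ _
    obtain ⟨j, hj, hj2⟩ := (Nat.dvd_prime_pow hp1).mp h3
    rcases Nat.lt_or_ge j 2 with hlt | hge
    · interval_cases j
      · exfalso
        rw [hj2, pow_zero, mul_one] at h2
        apply hna
        exact IsPGroup.isMulCommutative_of_card_eq_prime_sq h2.symm
      · rw [hj2, pow_one] at h2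
        rw [← h2]
        ring
    · exfalso
      have h4 : p ^ 2 ≤ p ^ j := Nat.pow_le_pow_right hp1.pos hge
      rw [← hj2] at h4
      have h5 := hp1.two_le
      nlinarith
  · intro hcard H hH
    obtain ⟨k, hk⟩ := IsPGroup.iff_card.mp (hG.to_subgroup H)
    have hk3 : k ≤ 3 := by
      have h1 := Subgroup.card_subgroup_dvd_card H
      rw [hk, hcard] at h1
      exact (Nat.pow_dvd_pow_iff_le_right hp1.one_lt).mp h1
    interval_cases k
    · exfalso
      apply hH
      haveI : Subsingleton H := (Nat.card_eq_one_iff_unique.mp (by simpa using hk)).1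
      infer_instance
    · exfalso
      apply hH
      haveI : Fact (Nat.card H).Prime := ⟨by rw [hk, pow_one]; exact hp1⟩
      exact isCyclic_of_prime_card rfl
    · -- `H` of order `p²`
      have hHc : IsMulCommutative H := IsPGroup.isMulCommutative_of_card_eq_prime_sq hk
      have hle : H ≤ Subgroup.centralizer (H : Set G) := by
        intro x hx
        rw [Subgroup.mem_centralizer_iff]
        intro y hy
        have hc := hHc.is_comm.comm ⟨y, hy⟩ ⟨x, hx⟩
        exact congrArg Subtype.val hc
      by_contra hnot
      have hlt : H < Subgroup.centralizer (H : Set G) := lt_of_le_of_ne hle (fun h => hnot h.symm.le)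
      have h1 := Subgroup.card_dvd_of_le hle
      obtain ⟨m, hm⟩ := IsPGroup.iff_card.mp (hG.to_subgroup (Subgroup.centralizer (H : Set G)))
      rw [hm, hk] at h1
      have h2 : 2 ≤ m := (Nat.pow_dvd_pow_iff_le_right hp1.one_lt).mp h1
      have h3 : m ≤ 3 := by
        have h4 := Subgroup.card_subgroup_dvd_card (Subgroup.centralizer (H : Set G))
        rw [hm, hcard] at h4
        exact (Nat.pow_dvd_pow_iff_le_right hp1.one_lt).mp h4
      have hm3 : m = 3 := by
        by_contra hne
        have hm2 : m = 2 := by omega
        rw [hm2, ← hk] at hm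
        exact hlt.ne (Subgroup.eq_of_le_of_card_ge hle hm.le)
      have htop : Subgroup.centralizer (H : Set G) = ⊤ := by
        apply Subgroup.eq_top_of_card_eq
        rw [hm, hm3, hcard]
      -- `H` is central, `G/H` is cyclic, `G` abelian
      have hHZ : H ≤ Subgroup.center G := by
        intro x hx
        rw [Subgroup.mem_center_iff]
        intro g
        have h5 : g ∈ Subgroup.centralizer (H : Set G) := by rw [htop]; trivial
        exact (Subgroup.mem_centralizer_iff.mp h5 x hx).symm
      haveI hHn : H.Normal := by
        refine ⟨fun n hn g => ?_⟩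
        rw [Subgroup.mem_center_iff.mp (hHZ hn) g]
        simpa using hn
      have hidx : Nat.card (G ⧸ H) = p := by
        rw [← Subgroup.index_eq_card]
        have h6 := Subgroup.card_mul_index H
        rw [hk, hcard] at h6
        have h7 : p ^ 2 * H.index = p ^ 2 * p := by rw [h6]; ring
        exact Nat.eq_of_mul_eq_mul_left (pow_pos hp1.pos 2) h7
      haveI : Fact (Nat.card (G ⧸ H)).Prime := ⟨by rw [hidx]; exact hp1⟩
      haveI : IsCyclic (G ⧸ H) := isCyclic_of_prime_card rfl
      apply hna
      refine ⟨⟨commutative_of_cyclic_center_quotient (QuotientGroup.mk' H) ?_⟩⟩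
      rw [QuotientGroup.ker_mk']
      exact hHZ
    · -- `H = G`
      have htop : H = ⊤ := by
        apply Subgroup.eq_top_of_card_eq
        rw [hk, hcard]
      rw [htop]
      exact le_top

end Cfsg.Agent.S3918
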