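import Cfsg.Statements.S3919
-- import your own Cfsg.Agent.* helpers here
import Mathlib
import Cfsg.Agent.Lib.Transfer.MaxClass2
import Cfsg.Agent.Lib.OddLocal.UniqueP2

set_option autoImplicit false
open Cfsg

namespace Cfsg.Agent.S3919

open Subgroup
open scoped commutatorElement

theorem klein_sub {G : Type*} [Group G] {u z : G} (hu : u * u = 1) (hz : z * z = 1) (huz : u * z = z * u)
    (hu1 : u ≠ 1) (hz1 : z ≠ 1) (hne : u ≠ z) :
    ∃ V : Subgroup G, Nat.card V = 4 ∧ (∀ v ∈ V, v ^ 2 = 1) ∧ IsMulCommutative V ∧ ∀ v ∈ V, v = 1 ∨ v = u ∨ v = z ∨ v = u * z := by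
  classical
  have h1 : u * (u * z) = z := by rw [← mul_assoc, hu, one_mul]
  have h2 : (u * z) * u = z := by rw [huz, mul_assoc, hu, mul_one]
  have h3 : z * (u * z) = u := by rw [← mul_assoc, ← huz, mul_assoc, hz, mul_one]
  have h4 : (u * z) * z = u := by rw [mul_assoc, hz, mul_one]
  have h5 : (u * z) * (u * z) = 1 := by
    rw [mul_assoc, h3, hu]
  have h6 : z * u = u * z := huz.symm
  let V : Subgroup G :=
    { carrier := {1, u, z, u * z}
      one_mem' := by simp
      mul_mem' := by
        intro a b ha hb
        simp only [Set.mem_insert_iff, Set.mem_singleton_iff] at ha hb ⊢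
        rcases ha with rfl | rfl | rfl | rfl <;> rcases hb with rfl | rfl | rfl | rfl <;>
          simp [hu, hz, h1, h2, h3, h4, h5, h6]
      inv_mem' := by
        intro a ha
        simp only [Set.mem_insert_iff, Set.mem_singleton_iff] at ha ⊢
        rcases ha with rfl | rfl | rfl | rfl
        · simp
        · right; left; exact inv_eq_of_mul_eq_one_left hu
        · right; right; left; exact inv_eq_of_mul_eq_one_left hz
        · right; right; right; exact inv_eq_of_mul_eq_one_left h5 }
  refine ⟨V, ?_, ?_, ?_, ?_⟩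
  · have hd : ({1, u, z, u * z} : Finset G).card = 4 := by
      have a1 : u * z ≠ 1 := by
        intro h
        apply hne
        have := congrArg (fun w => w * z) h
        simpa [mul_assoc, hz] using this
      have a2 : u * z ≠ u := by simpa using hz1
      have a3 : u * z ≠ z := by simpa using hu1
      rw [Finset.card_insert_of_notMem, Finset.card_insert_of_notMem, Finset.card_insert_of_notMem,
        Finset.card_singleton]
      all_goals simp [hu1.symm, hu1, hz1, hz1.symm, a1, a1.symm, a2, a2.symm, a3, a3.symm, hne, hne.symm]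
    have h7 : (V : Set G) = (({1, u, z, u * z} : Finset G) : Set G) := by
      ext x
      simp [V]
    have h8 : Nat.card V = ((({1, u, z, u * z} : Finset G) : Set G)).ncard := by
      rw [← h7]
      exact (Nat.card_coe_set_eq _)
    rw [h8, Set.ncard_coe_finset, hd]
  · intro v hv
    have hv' : v = 1 ∨ v = u ∨ v = z ∨ v = u * z := hv
    rcases hv' with rfl | rfl | rfl | rfl
    · simp
    · rw [pow_two, hu]
    · rw [pow_two, hz]
    · rw [pow_two, h5]
  · refine ⟨⟨?_⟩⟩
    rintro ⟨a, ha⟩ ⟨b, hb⟩
    apply Subtype.ext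
    have ha' : a = 1 ∨ a = u ∨ a = z ∨ a = u * z := ha
    have hb' : b = 1 ∨ b = u ∨ b = z ∨ b = u * z := hb
    show a * b = b * a
    rcases ha' with rfl | rfl | rfl | rfl <;> rcases hb' with rfl | rfl | rfl | rfl <;>
      simp [hu, hz, h1, h2, h3, h4, h5, h6]
  · intro v hv
    exact hv

theorem not_cyclic_of_exp {G : Type*} [Group G] [Finite G] (V : Subgroup G) (h4 : Nat.card V = 4)
    (hexp : ∀ v ∈ V, v ^ 2 = 1) : ¬ IsCyclic V := by
  intro hc
  obtain ⟨⟨g, hg⟩, hgen⟩ := hc.exists_generator
  have h1 : orderOf (⟨g, hg⟩ : V) = 4 := by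
    rw [← h4]
    exact orderOf_eq_card_of_forall_mem_zpowers hgen
  have h2 : orderOf (⟨g, hg⟩ : V) ∣ 2 := by
    apply orderOf_dvd_of_pow_eq_one
    apply Subtype.ext
    exact hexp g hg
  rw [h1] at h2
  norm_num at h2

theorem zmod_two_mul {m : ℕ} [NeZero m] (i : ZMod (2 * m)) (h : i = -i) : i = 0 ∨ i = (m : ZMod (2 * m)) := by
  have hm : 0 < m := Nat.pos_of_ne_zero (NeZero.ne m)
  haveI : NeZero (2 * m) := ⟨by omega⟩
  have h2 : ((2 * i.val : ℕ) : ZMod (2 * m)) = 0 := by
    push_cast
    rw [ZMod.natCast_zmod_val]
    have h3 : (2 : ZMod (2 * m)) * i = i + i := two_mul i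
    rw [h3]
    nth_rewrite 1 [h]
    simp
  rw [ZMod.natCast_eq_zero_iff] at h2
  obtain ⟨c, hc⟩ := h2
  have hval : i.val < 2 * m := ZMod.val_lt i
  have hvc : i.val = m * c := by nlinarith
  have hc2 : c < 2 := by
    by_contra hge
    push Not at hge
    have : m * 2 ≤ m * c := Nat.mul_le_mul_left m hge
    omega
  interval_cases c
  · left
    have : i.val = 0 := by simpa using hvc
    exact (ZMod.val_eq_zero i).mp this
  · right
    have h5 : i.val = m := by simpa using hvc
    have h6 : (i.val : ZMod (2 * m)) = i := ZMod.natCast_zmod_val i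
    rw [h5] at h6
    exact h6.symm

theorem quat_cent (m : ℕ) [NeZero m] (g : QuaternionGroup m)
    (h : g * QuaternionGroup.xa 0 = QuaternionGroup.xa 0 * g) : g ∈ zpowers (QuaternionGroup.xa (0 : ZMod (2 * m))) := by
  have hsq : (QuaternionGroup.xa (0 : ZMod (2 * m))) ^ 2 = QuaternionGroup.a (m : ZMod (2 * m)) := QuaternionGroup.xa_sq 0
  cases g with
  | a i =>
    rw [QuaternionGroup.a_mul_xa, QuaternionGroup.xa_mul_a] at h
    have h1 : 0 - i = 0 + i := QuaternionGroup.xa.inj h
    have h2 : i = -i := by
      have : -i = i := by simpa using h1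
      exact this.symm
    rcases zmod_two_mul i h2 with rfl | rfl
    · have : QuaternionGroup.a (0 : ZMod (2 * m)) = 1 := rfl
      rw [this]
      exact one_mem _
    · rw [← hsq]
      exact Subgroup.pow_mem _ (mem_zpowers _) 2
  | xa j =>
    rw [QuaternionGroup.xa_mul_xa, QuaternionGroup.xa_mul_xa] at h
    have h1 : (m : ZMod (2 * m)) + 0 - j = m + j - 0 := QuaternionGroup.a.inj h
    have h2 : j = -j := by
      have h3 : -j = j := by
        have : (m : ZMod (2 * m)) + (-j) = m + j := by
          simpa [sub_eq_add_neg] using h1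
        exact add_left_cancel this
      exact h3.symm
    rcases zmod_two_mul j h2 with rfl | rfl
    · exact mem_zpowers _
    · have h4 : (QuaternionGroup.xa (0 : ZMod (2 * m))) ^ 3 = QuaternionGroup.xa (m : ZMod (2 * m)) := by
        rw [pow_succ', hsq, QuaternionGroup.xa_mul_a, zero_add]
      rw [← h4]
      exact Subgroup.pow_mem _ (mem_zpowers _) 3

theorem class_ge {G : Type*} [Group G] [Group.IsNilpotent G] (hna : ¬ IsMulCommutative G) :
    2 ≤ Group.nilpotencyClass G := by
  by_contra hlt
  have h0 : Group.nilpotencyClass G ≤ 1 := by omega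
  have h1 := (Subgroup.lowerCentralSeries_eq_bot_iff_nilpotencyClass_le (G := G)).mpr h0
  rw [Subgroup.top_lowerCentralSeries_one] at h1
  apply hna
  refine ⟨⟨fun a b => ?_⟩⟩
  have h2 : ⁅a, b⁆ ∈ commutator G := by
    rw [_root_.commutator_def]
    exact Subgroup.commutator_mem_commutator (mem_top a) (mem_top b)
  rw [h1, Subgroup.mem_bot] at h2
  exact commutatorElement_eq_one_iff_mul_comm.mp h2

theorem class_le {G : Type*} [Group G] [Finite G] (hna : ¬ IsMulCommutative G) (n : ℕ) (hG : Nat.card G = 2 ^ n) :
    Group.nilpotencyClass G + 1 ≤ n := by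
  haveI : Fact (Nat.Prime 2) := ⟨Nat.prime_two⟩
  have hP : IsPGroup 2 G := IsPGroup.of_card hG
  haveI hnil : Group.IsNilpotent G := hP.isNilpotent
  have hc2 := class_ge hna
  have h1 := Cfsg.Agent.Lib.Transfer.pow_le_card_commutator hP (by omega)
  have hcyc : ¬ IsCyclic (G ⧸ commutator G) := by
    intro h
    apply hna
    exact ⟨⟨Cfsg.Agent.Lib.Transfer.comm_of_isCyclic_quotient_commutator hP h⟩⟩
  have h2 : 4 ≤ (commutator G).index := by
    by_contra hlt
    push Not at hlt
    apply hcyc
    have hidx : Nat.card (G ⧸ commutator G) = (commutator G).index := rfl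
    have hpos : (commutator G).index ≠ 0 := Subgroup.index_ne_zero_of_finite
    have h3 : (commutator G).index = 1 ∨ (commutator G).index = 2 ∨ (commutator G).index = 3 := by omega
    rcases h3 with h3 | h3 | h3
    · rw [← hidx] at h3
      have := (Nat.card_eq_one_iff_unique.mp h3).1
      exact isCyclic_of_subsingleton
    · rw [← hidx] at h3
      exact isCyclic_of_prime_card (p := 2) h3
    · rw [← hidx] at h3
      haveI : Fact (Nat.Prime 3) := ⟨Nat.prime_three⟩
      exact isCyclic_of_prime_card (p := 3) h3
  have h3 := (commutator G).card_mul_index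
  rw [hG] at h3
  have h4 : 2 ^ (Group.nilpotencyClass G - 1) * 2 ^ 2 ≤ 2 ^ n := by
    rw [← h3]
    exact Nat.mul_le_mul h1 h2
  rw [← pow_add] at h4
  have h5 := (Nat.pow_le_pow_iff_right (by norm_num : 1 < 2)).mp h4
  omega

/-- Say that a group has self-centralizing non-cyclic subgroups when every non-cyclic subgroup H satisfies C_G(H) ≤ H. A finite non-abelian 2-group G of order 2^n has self-centralizing non-cyclic subgroups if and only if G has nilpotency class n − 1 (that is, G is dihedral, semidihedral or generalized quaternion). -/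
theorem result {G : Type*} [Group G] [Finite G] (hna : ¬ IsMulCommutative G) (n : ℕ) (hG : Nat.card G = 2 ^ n) :
    (∀ H : Subgroup G, ¬ IsCyclic ↥H → Subgroup.centralizer (H : Set G) ≤ H) ↔ (⊤ : Subgroup G).lowerCentralSeries (n - 2) ≠ ⊥ := by
  classical
  haveI hf2 : Fact (Nat.Prime 2) := ⟨Nat.prime_two⟩
  have hP : IsPGroup 2 G := IsPGroup.of_card hG
  haveI hnil : Group.IsNilpotent G := hP.isNilpotent
  have hc2 := class_ge hna
  have hcle := class_le hna n hG
  have hn3 : 3 ≤ n := by omega
  haveI hnt : Nontrivial G := by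
    apply Finite.one_lt_card_iff_nontrivial.mp
    rw [hG]
    exact Nat.one_lt_pow (by omega) (by norm_num)
  have hself_of : ∀ A : Subgroup G, Nat.card A = 2 ^ 2 → centralizer (A : Set G) = A → Group.nilpotencyClass G = n - 1 :=
    fun A hA hC => Cfsg.Agent.Lib.Transfer.class_of_self_centralizing n G hG A hA hC
  constructor
  · intro hself
    have hclass : Group.nilpotencyClass G = n - 1 := by
      obtain ⟨z, hz⟩ : ∃ z : center G, orderOf z = 2 := by
        haveI := hP.center_nontrivial
        obtain ⟨m, hm⟩ := IsPGroup.iff_card.mp (hP.to_subgroup (center G))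
        have hd : 2 ∣ Nat.card (center G) := by
          rw [hm]
          apply dvd_pow_self
          rintro rfl
          rw [pow_zero] at hm
          have h2 : (1 : ℕ) < Nat.card (center G) := Finite.one_lt_card
          omega
        exact exists_prime_orderOf_dvd_card' 2 hd
      have hz' : orderOf (z : G) = 2 := by rwa [Subgroup.orderOf_coe]
      have hinv : ∀ g : G, orderOf g = 2 → g * g = 1 ∧ g ≠ 1 := by
        intro g hg
        refine ⟨by rw [← pow_two, ← hg, pow_orderOf_eq_one], ?_⟩
        rintro rfl
        rw [orderOf_one] at hg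
        omega
      have hzc : ∀ g : G, g * z = z * g := fun g => (Subgroup.mem_center_iff.mp z.2 g)
      by_cases hT : ∃ t : G, orderOf t = 2 ∧ t ∉ center G
      · obtain ⟨t, ht, htZ⟩ := hT
        obtain ⟨V, hV4, hVe, hVc, -⟩ := klein_sub (hinv t ht).1 (hinv z hz').1 (hzc t) (hinv t ht).2 (hinv z hz').2
          (fun h => htZ (h ▸ z.2))
        apply hself_of V (by rw [hV4]; norm_num)
        apply le_antisymm (hself V (not_cyclic_of_exp V hV4 hVe))
        intro v hv
        rw [Subgroup.mem_centralizer_iff]
        intro w hw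
        exact congrArg Subtype.val (hVc.is_comm.comm (⟨w, hw⟩ : V) ⟨v, hv⟩)
      · push Not at hT
        have hU : Cfsg.Agent.Lib.OddLocal.UniqueP 2 G := by
          intro H K hH hK
          by_contra hne
          obtain ⟨u, hu⟩ := exists_prime_orderOf_dvd_card' 2 (G := H) (by rw [hH])
          obtain ⟨v, hv⟩ := exists_prime_orderOf_dvd_card' 2 (G := K) (by rw [hK])
          have hu' : orderOf (u : G) = 2 := by rwa [Subgroup.orderOf_coe]
          have hv' : orderOf (v : G) = 2 := by rwa [Subgroup.orderOf_coe]
          have huv : (u : G) ≠ v := by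
            intro h
            apply hne
            have h3 : zpowers (u : G) ≤ H := (Subgroup.zpowers_le).mpr u.2
            have h4 : zpowers (u : G) ≤ K := (Subgroup.zpowers_le).mpr (h ▸ v.2)
            have h5 : Nat.card (zpowers (u : G)) = 2 := by rw [Nat.card_zpowers, hu']
            rw [← Subgroup.eq_of_le_of_card_ge h3 (by rw [hH, h5]), ← Subgroup.eq_of_le_of_card_ge h4 (by rw [hK, h5])]
          obtain ⟨V, hV4, hVe, -, hVmem⟩ := klein_sub (hinv u hu').1 (hinv v hv').1
            (Subgroup.mem_center_iff.mp (hT v hv') u) (hinv u hu').2 (hinv v hv').2 huv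
          have hVcent : ∀ w ∈ V, w ∈ center G := by
            intro w hw
            rcases hVmem w hw with rfl | rfl | rfl | rfl
            · exact one_mem _
            · exact hT _ hu'
            · exact hT _ hv'
            · exact mul_mem (hT _ hu') (hT _ hv')
          have h6 := hself V (not_cyclic_of_exp V hV4 hVe)
          have h7 : (⊤ : Subgroup G) ≤ V := by
            intro g _
            apply h6
            rw [Subgroup.mem_centralizer_iff]
            intro w hw
            exact (Subgroup.mem_center_iff.mp (hVcent w hw) g).symm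
          have h8 : Nat.card G ≤ 4 := by
            rw [← hV4, ← Subgroup.card_top (G := G)]
            exact Subgroup.card_le_of_le h7
          rw [hG] at h8
          have h9 : 2 ^ 3 ≤ 2 ^ n := Nat.pow_le_pow_right (by norm_num) hn3
          omega
        rcases Cfsg.Agent.Lib.OddLocal.cyclic_or_quaternion hP hU with hcyc | ⟨k, ⟨φ⟩⟩
        · exfalso
          apply hna
          exact ⟨⟨fun a b => mul_comm' a b⟩⟩
        · haveI : NeZero (2 ^ k) := ⟨by positivity⟩
          have hord : orderOf (φ.symm (QuaternionGroup.xa 0)) = 4 := by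
            rw [MulEquiv.orderOf_eq, QuaternionGroup.orderOf_xa]
          apply hself_of (zpowers (φ.symm (QuaternionGroup.xa 0)))
          · rw [Nat.card_zpowers, hord]
            norm_num
          · apply le_antisymm
            · intro y hy
              rw [Subgroup.mem_centralizer_iff] at hy
              have h1 := hy _ (mem_zpowers (φ.symm (QuaternionGroup.xa 0)))
              have h2 : φ y * QuaternionGroup.xa 0 = QuaternionGroup.xa 0 * φ y := by
                have := congrArg φ h1
                simpa [map_mul] using this.symm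
              obtain ⟨j, hj⟩ := mem_zpowers_iff.mp (quat_cent _ _ h2)
              refine mem_zpowers_iff.mpr ⟨j, ?_⟩
              apply φ.injective
              rw [map_zpow, MulEquiv.apply_symm_apply, hj]
            · intro y hy
              rw [Subgroup.mem_centralizer_iff]
              intro w hw
              have hcomm : ∀ a b : zpowers (φ.symm (QuaternionGroup.xa 0)), a * b = b * a := fun a b => mul_comm' a b
              exact congrArg Subtype.val (hcomm ⟨w, hw⟩ ⟨y, hy⟩)
    intro hbot
    have := (Subgroup.lowerCentralSeries_eq_bot_iff_nilpotencyClass_le (G := G)).mp hbot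
    omega
  · intro hL H hH
    have hcl : n - 1 ≤ Group.nilpotencyClass G := by
      by_contra hlt
      apply hL
      apply (Subgroup.lowerCentralSeries_eq_bot_iff_nilpotencyClass_le (G := G)).mpr
      omega
    have hclass : Group.nilpotencyClass G = n - 1 := by omega
    obtain ⟨C, hCc, hCi⟩ := Cfsg.Agent.Lib.Transfer.exists_cyclic_index_two n G hn3 hG hclass
    have hZ := Cfsg.Agent.Lib.Transfer.card_center_of_maximal_class (p := 2) hn3 hG hclass
    haveI hCn : C.Normal := Subgroup.normal_of_index_eq_two hCi
    have hmem : ∀ a b : G, a * b ∈ C ↔ (a ∈ C ↔ b ∈ C) := fun a b => Subgroup.mul_mem_iff_of_index_two hCi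
    have hidx : ∀ g h : G, g ∉ C → h ∉ C → g * h⁻¹ ∈ C := by
      intro g h hg hh
      rw [hmem]
      constructor
      · exact fun h1 => absurd h1 hg
      · intro h1
        exact absurd (by simpa using C.inv_mem h1) hh
    have hCcomm : ∀ a ∈ C, ∀ b ∈ C, a * b = b * a := by
      intro a ha b hb
      have hcomm : ∀ a b : C, a * b = b * a := fun a b => mul_comm' a b
      exact congrArg Subtype.val (hcomm ⟨a, ha⟩ ⟨b, hb⟩)
    have hcentral : ∀ c ∈ C, ∀ b, b ∉ C → c * b = b * c → c ∈ center G := by
      intro c hc b hb hcb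
      rw [Subgroup.mem_center_iff]
      intro g
      by_cases hg : g ∈ C
      · exact hCcomm g hg c hc
      · have h1 := hidx g b hg hb
        have h2 : g = g * b⁻¹ * b := by group
        rw [h2, mul_assoc, ← hcb, ← mul_assoc, hCcomm _ h1 c hc, mul_assoc]
    have hCcard : Nat.card C = 2 ^ (n - 1) := by
      have h1 := C.card_mul_index
      rw [hCi, hG] at h1
      have h2 : 2 ^ n = 2 ^ (n - 1) * 2 := by
        rw [← pow_succ]
        congr 1
        omega
      omega
    have hZC : center G ≤ C := by
      intro c hc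
      by_contra hcC
      have h1 : C ≤ center G := fun u hu => hcentral u hu c hcC (Subgroup.mem_center_iff.mp hc u)
      have h2 := Subgroup.card_le_of_le h1
      rw [hCcard, hZ] at h2
      have h3 : 2 ^ 2 ≤ 2 ^ (n - 1) := Nat.pow_le_pow_right (by norm_num) (by omega)
      omega
    have hHC : ¬ H ≤ C := by
      intro h
      apply hH
      haveI := hCc
      exact isCyclic_of_injective (Subgroup.inclusion h) (Subgroup.inclusion_injective h)
    obtain ⟨b, hbH, hbC⟩ := Set.not_subset.mp hHC
    obtain ⟨y, hyH, hyC, hy1⟩ : ∃ y ∈ H, y ∈ C ∧ y ≠ 1 := by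
      by_contra hcon
      push Not at hcon
      apply hH
      have h1 : H = zpowers b := by
        apply le_antisymm
        · intro h hh
          by_cases hhC : h ∈ C
          · rw [hcon h hh hhC]
            exact one_mem _
          · have h2 := hcon _ (H.mul_mem hh (H.inv_mem hbH)) (hidx h b hhC hbC)
            rw [mul_inv_eq_one] at h2
            rw [h2]
            exact mem_zpowers b
        · exact (Subgroup.zpowers_le).mpr hbH
      rw [h1]
      infer_instance
    -- the central involution lies in `H`
    have hCp : IsPGroup 2 C := hP.to_subgroup C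
    obtain ⟨m, hym⟩ := hP y
    obtain ⟨k, -, hk⟩ := (Nat.dvd_prime_pow Nat.prime_two).mp (orderOf_dvd_of_pow_eq_one hym)
    have h2y : 2 ∣ orderOf y := by
      rw [hk]
      apply dvd_pow_self
      rintro rfl
      rw [pow_zero, orderOf_eq_one_iff] at hk
      exact hy1 hk
    have hy' : orderOf (y ^ (orderOf y / 2)) = 2 := orderOf_pow_orderOf_div (orderOf_pos y).ne' h2y
    obtain ⟨z, hz⟩ : ∃ z : center G, orderOf z = 2 := exists_prime_orderOf_dvd_card' 2 (by rw [hZ])
    have hz' : orderOf (z : G) = 2 := by rwa [Subgroup.orderOf_coe]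
    have hzCm : (z : G) ∈ C := hZC z.2
    have hy'C : y ^ (orderOf y / 2) ∈ C := C.pow_mem hyC _
    have hzH : (z : G) ∈ H := by
      haveI := hCc
      have htot := Cfsg.Agent.Lib.OddLocal.le_total_of_isCyclic_isPGroup hCp (zpowers (⟨z, hzCm⟩ : C)) (zpowers (⟨_, hy'C⟩ : C))
      have hc1 : Nat.card (zpowers (⟨z, hzCm⟩ : C)) = 2 := by
        rw [Nat.card_zpowers, Subgroup.orderOf_mk, hz']
      have hc2' : Nat.card (zpowers (⟨_, hy'C⟩ : C)) = 2 := by
        rw [Nat.card_zpowers, Subgroup.orderOf_mk, hy']
      have heq : zpowers (⟨z, hzCm⟩ : C) = zpowers (⟨_, hy'C⟩ : C) := by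
        rcases htot with h | h
        · exact Subgroup.eq_of_le_of_card_ge h (by rw [hc1, hc2'])
        · exact (Subgroup.eq_of_le_of_card_ge h (by rw [hc1, hc2'])).symm
      have h1 : (⟨z, hzCm⟩ : C) ∈ zpowers (⟨_, hy'C⟩ : C) := by
        rw [← heq]
        exact mem_zpowers _
      obtain ⟨j, hj⟩ := mem_zpowers_iff.mp h1
      have h2 : (y ^ (orderOf y / 2)) ^ j = (z : G) := congrArg Subtype.val hj
      rw [← h2]
      exact H.zpow_mem (H.pow_mem hyH _) j
    have hZH : center G ≤ H := by
      have h1 : zpowers (z : G) ≤ center G := (Subgroup.zpowers_le).mpr z.2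
      have h2 : Nat.card (zpowers (z : G)) = 2 := by rw [Nat.card_zpowers, hz']
      have h3 := Subgroup.eq_of_le_of_card_ge h1 (by rw [hZ, h2])
      rw [← h3]
      exact (Subgroup.zpowers_le).mpr hzH
    intro x hx
    rw [Subgroup.mem_centralizer_iff] at hx
    have hxb : b * x = x * b := hx b hbH
    by_cases hxC : x ∈ C
    · exact hZH (hcentral x hxC b hbC hxb.symm)
    · have h1 := hidx x b hxC hbC
      have h2 : (x * b⁻¹) * b = b * (x * b⁻¹) := by
        calc (x * b⁻¹) * b = x := by group
          _ = b * x * b⁻¹ * (b * b⁻¹)⁻¹ * (x⁻¹ * x) := by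
            rw [hxb]
            group
          _ = b * (x * b⁻¹) := by group
      have h3 := hZH (hcentral _ h1 b hbC h2)
      have h4 : x = (x * b⁻¹) * b := by group
      rw [h4]
      exact H.mul_mem h3 hbH

end Cfsg.Agent.S3919
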