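import Cfsg.Statements.S3920
-- import your own Cfsg.Agent.* helpers here
import Mathlib

set_option autoImplicit false
open Cfsg

namespace Cfsg.Agent.S3920

open DihedralGroup

theorem two_mul_unique (k : ℕ) (z w : ZMod (2 ^ k)) (hz : 2 * z = 0) (hw : 2 * w = 0)
    (hz0 : z ≠ 0) (hw0 : w ≠ 0) : z = w := by
  rcases k with _ | k
  · exfalso
    apply hz0
    exact Subsingleton.elim (α := ZMod 1) _ _
  have : NeZero (2 ^ (k + 1)) := ⟨by positivity⟩
  have key : ∀ v : ZMod (2 ^ (k + 1)), 2 * v = 0 → v ≠ 0 → v.val = 2 ^ k := by
    intro v hv hv0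
    have h1 : (((2 * v.val : ℕ)) : ZMod (2 ^ (k + 1))) = 0 := by
      push_cast
      rw [ZMod.natCast_zmod_val]
      exact hv
    rw [ZMod.natCast_eq_zero_iff] at h1
    obtain ⟨t, ht⟩ := h1
    have hlt : v.val < 2 ^ (k + 1) := ZMod.val_lt v
    have hpos : 0 < v.val := by
      rcases Nat.eq_zero_or_pos v.val with h | h
      · exact absurd ((ZMod.val_eq_zero v).mp h) hv0
      · exact h
    have hp : 2 ^ (k + 1) = 2 * 2 ^ k := by ring
    set u := v.val with hu
    clear_value u
    rw [hp] at ht hlt
    have h2 : u = 2 ^ k * t := by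
      have : 2 * u = 2 * (2 ^ k * t) := by rw [ht]; ring
      omega
    have ht1 : t = 1 := by
      rcases t with _ | _ | t
      · simp at h2; omega
      · rfl
      · exfalso
        have : 2 ^ k * (t + 1 + 1) ≥ 2 ^ k * 2 := Nat.mul_le_mul_left _ (by omega)
        rw [← h2] at this
        omega
    rw [h2, ht1, mul_one]
  have : NeZero (2 ^ (k + 1)) := ⟨by positivity⟩
  apply ZMod.val_injective
  rw [key z hz hz0, key w hw hw0]

/-- Say that a group has self-centralizing non-cyclic subgroups when every non-cyclic subgroup H satisfies C_G(H) ≤ H. For n ≥ 3, the dihedral group of order 2n has self-centralizing non-cyclic subgroups if and only if n is odd or a power of 2. -/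
theorem result (n : ℕ) (hn : 3 ≤ n) : (∀ H : Subgroup (DihedralGroup n), ¬ IsCyclic ↥H → Subgroup.centralizer (H : Set (DihedralGroup n)) ≤ H) ↔ (Odd n ∨ ∃ k : ℕ, n = 2 ^ k) := by
  classical
  have : NeZero n := ⟨by omega⟩
  constructor
  · intro h
    by_contra hcon
    push Not at hcon
    obtain ⟨hnodd, hnpow⟩ := hcon
    have hneven : Even n := Nat.not_odd_iff_even.mp hnodd
    obtain ⟨a, m, hm, hnam⟩ := Nat.exists_eq_two_pow_mul_odd (n := n) (by omega)
    have ha : a ≠ 0 := by
      rintro rfl
      rw [pow_zero, one_mul] at hnam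
      rw [hnam] at hnodd
      exact hnodd hm
    have hm1 : m ≠ 1 := by
      rintro rfl
      apply hnpow a
      simpa using hnam
    have hm3 : 3 ≤ m := by
      rcases hm with ⟨t, rfl⟩
      omega
    have hdvd : 2 ^ a ∣ n := ⟨m, hnam⟩
    let π : ZMod n →+* ZMod (2 ^ a) := ZMod.castHom hdvd (ZMod (2 ^ a))
    let K : Subgroup (DihedralGroup n) :=
      { carrier := {x | (∃ i, x = r i ∧ π i = 0) ∨ (∃ i, x = sr i ∧ π i = 0)}
        one_mem' := Or.inl ⟨0, rfl, map_zero π⟩
        mul_mem' := by
          rintro _ _ (⟨i, rfl, hi⟩ | ⟨i, rfl, hi⟩) (⟨j, rfl, hj⟩ | ⟨j, rfl, hj⟩)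
          · exact Or.inl ⟨i + j, r_mul_r i j, by rw [map_add, hi, hj, add_zero]⟩
          · exact Or.inr ⟨j - i, r_mul_sr i j, by rw [map_sub, hi, hj, sub_zero]⟩
          · exact Or.inr ⟨i + j, sr_mul_r i j, by rw [map_add, hi, hj, add_zero]⟩
          · exact Or.inl ⟨j - i, sr_mul_sr i j, by rw [map_sub, hi, hj, sub_zero]⟩
        inv_mem' := by
          rintro _ (⟨i, rfl, hi⟩ | ⟨i, rfl, hi⟩)
          · exact Or.inl ⟨-i, inv_r i, by rw [map_neg, hi, neg_zero]⟩
          · exact Or.inr ⟨i, inv_sr i, hi⟩ }
    have hcval : π ((2 ^ a : ℕ) : ZMod n) = 0 := by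
      rw [map_natCast, ZMod.natCast_self]
    have hK1 : r ((2 ^ a : ℕ) : ZMod n) ∈ K := Or.inl ⟨_, rfl, hcval⟩
    have hK2 : sr (0 : ZMod n) ∈ K := Or.inr ⟨0, rfl, map_zero π⟩
    have hnc : ¬ IsCyclic K := by
      intro hc
      have hcomm := hc.isMulCommutative
      have h1 := hcomm.is_comm.comm ⟨_, hK1⟩ ⟨_, hK2⟩
      have h2 := congrArg Subtype.val h1
      simp only [Subgroup.coe_mul, r_mul_sr, sr_mul_r, sr.injEq] at h2
      have h3 : ((2 ^ (a + 1) : ℕ) : ZMod n) = 0 := by
        have : ((2 ^ (a + 1) : ℕ) : ZMod n) = ((2 ^ a : ℕ) : ZMod n) + ((2 ^ a : ℕ) : ZMod n) := by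
          push_cast; ring
        rw [this]
        have h4 : (0 : ZMod n) - ((2 ^ a : ℕ) : ZMod n) = 0 + ((2 ^ a : ℕ) : ZMod n) := h2
        have h5 : ∀ c : ZMod n, (0 : ZMod n) - c = 0 + c → c + c = 0 := by
          intro c hc
          have := congrArg (· + c) hc
          simp at this
          exact this.symm
        exact h5 _ h4
      rw [ZMod.natCast_eq_zero_iff, hnam, pow_succ] at h3
      have hle := Nat.le_of_dvd (by positivity) h3
      have hpos : 0 < 2 ^ a := by positivity
      have : 2 ^ a * 3 ≤ 2 ^ a * m := Nat.mul_le_mul_left _ hm3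
      omega
    -- the central involution
    obtain ⟨a', rfl⟩ : ∃ a', a = a' + 1 := ⟨a - 1, by omega⟩
    set w : ZMod n := ((2 ^ a' * m : ℕ) : ZMod n) with hw
    have h2w : w + w = 0 := by
      have : w + w = ((2 ^ (a' + 1) * m : ℕ) : ZMod n) := by
        rw [hw]; push_cast; ring
      rw [this, ← hnam, ZMod.natCast_self]
    have hzc : r w ∈ Subgroup.centralizer (K : Set (DihedralGroup n)) := by
      rw [Subgroup.mem_centralizer_iff]
      rintro _ (⟨i, rfl, hi⟩ | ⟨i, rfl, hi⟩)
      · simp only [r_mul_r]
        rw [add_comm]
      · simp only [r_mul_sr, sr_mul_r, sr.injEq]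
        have : -w = w := by
          rw [neg_eq_iff_add_eq_zero]; exact h2w
        rw [sub_eq_add_neg, this]
    have hzK := h K hnc hzc
    rcases hzK with ⟨i, hi, hi0⟩ | ⟨i, hi, _⟩
    · have : w = i := by simpa using hi
      subst this
      rw [hw, map_natCast, ZMod.natCast_eq_zero_iff] at hi0
      rw [pow_succ] at hi0
      have h3 : 2 ∣ m := by
        have : 2 ^ a' * 2 ∣ 2 ^ a' * m := hi0
        exact (Nat.mul_dvd_mul_iff_left (by positivity)).mp this
      rcases hm with ⟨t, rfl⟩
      omega
    · simp at hi
  · intro hn0 H hH x hx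
    -- H contains a reflection and a nontrivial rotation
    have hcent : ∀ y ∈ H, y * x = x * y := by
      intro y hy
      exact (Subgroup.mem_centralizer_iff.mp hx) y hy
    -- H not cyclic: contains a reflection
    have hrefl : ∃ j, sr j ∈ H := by
      by_contra hno
      push Not at hno
      apply hH
      have hrot : ∀ y ∈ H, ∃ i, y = r i := by
        intro y hy
        cases y with
        | r i => exact ⟨i, rfl⟩
        | sr i => exact absurd hy (hno i)
      -- H embeds in the rotations, which are cyclic: via the map r i ↦ i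
      let f : H →* Multiplicative (ZMod n) :=
        { toFun := fun y => Multiplicative.ofAdd (Classical.choose (hrot y y.2))
          map_one' := by
            have h1 := Classical.choose_spec (hrot (1 : H) (1 : H).2)
            have h2 : (r (Classical.choose (hrot (1 : H) (1 : H).2)) : DihedralGroup n) = r 0 := by
              rw [← h1]; rfl
            have h3 := (r.injEq _ _).mp h2
            rw [h3]; rfl
          map_mul' := by
            intro u v
            have hu := Classical.choose_spec (hrot u u.2)
            have hv := Classical.choose_spec (hrot v v.2)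
            have huv := Classical.choose_spec (hrot (u * v : H) (u * v : H).2)
            have h2 : (r (Classical.choose (hrot (u * v : H) (u * v : H).2)) : DihedralGroup n)
                = r (Classical.choose (hrot u u.2) + Classical.choose (hrot v v.2)) := by
              rw [← huv, ← r_mul_r, ← hu, ← hv]; rfl
            have h3 := (r.injEq _ _).mp h2
            rw [h3]; rfl }
      have hinj : Function.Injective f := by
        intro u v huv
        have h1 : Classical.choose (hrot u u.2) = Classical.choose (hrot v v.2) :=
          Multiplicative.ofAdd.injective huv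
        apply Subtype.ext
        rw [Classical.choose_spec (hrot u u.2), Classical.choose_spec (hrot v v.2), h1]
      exact isCyclic_of_injective f hinj
    obtain ⟨j, hj⟩ := hrefl
    -- a nontrivial rotation
    have hnontriv : ∃ a, a ≠ 0 ∧ r a ∈ H := by
      by_contra hno
      push Not at hno
      apply hH
      have hall : ∀ y ∈ H, y = 1 ∨ y = sr j := by
        intro y hy
        cases y with
        | r i =>
          left
          have := hno i
          by_cases hi : i = 0
          · subst hi; rfl
          · exact absurd hy (this hi)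
        | sr i =>
          right
          have h1 : sr j * sr i ∈ H := mul_mem hj hy
          rw [sr_mul_sr] at h1
          by_cases hij : i - j = 0
          · rw [sub_eq_zero.mp hij]
          · exact absurd h1 (hno _ hij)
      -- H is ⟨sr j⟩
      have hle : H ≤ Subgroup.zpowers (sr j) := by
        intro y hy
        rcases hall y hy with rfl | rfl
        · exact one_mem _
        · exact Subgroup.mem_zpowers _
      have hge : Subgroup.zpowers (sr j) ≤ H := (Subgroup.zpowers_le).mpr hj
      have : H = Subgroup.zpowers (sr j) := le_antisymm hle hge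
      rw [this]
      infer_instance
    obtain ⟨a, ha0, ha⟩ := hnontriv
    -- the commutation constraint
    rcases hn0 with hodd | ⟨k, rfl⟩
    · -- odd case
      have h2inj : ∀ z : ZMod n, z + z = 0 → z = 0 := by
        intro z hz
        have h2 : IsUnit ((2 : ℕ) : ZMod n) := by
          rw [ZMod.isUnit_iff_coprime]
          exact Nat.coprime_two_left.mpr hodd
        have h3 : ((2 : ℕ) : ZMod n) * z = 0 := by
          push_cast; rw [two_mul]; exact hz
        exact (h2.mul_right_eq_zero).mp h3
      cases x with
      | r i =>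
        have h1 := hcent (sr j) hj
        simp only [sr_mul_r, r_mul_sr, sr.injEq] at h1
        have h2 : i + i = 0 := by
          have : j + i - (j - i) = 0 := by rw [h1]; ring
          have h3 : j + i - (j - i) = i + i := by ring
          rw [← h3]; exact this
        rw [h2inj i h2]
        exact one_mem _
      | sr i =>
        have h1 := hcent (sr j) hj
        simp only [sr_mul_sr, r.injEq] at h1
        have h2 : (i - j) + (i - j) = 0 := by
          have : i - j - (j - i) = 0 := by rw [h1]; ring
          have h3 : i - j - (j - i) = (i - j) + (i - j) := by ring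
          rw [← h3]; exact this
        rw [sub_eq_zero.mp (h2inj _ h2)]
        exact hj
    · -- power of 2 case: H contains the unique involution
      obtain ⟨b, hb0, hb2, hbH⟩ : ∃ b : ZMod (2 ^ k), b ≠ 0 ∧ 2 * b = 0 ∧ r b ∈ H := by
        have hex : ∃ t : ℕ, a * ((2 ^ t : ℕ) : ZMod (2 ^ k)) = 0 := ⟨k, by simp⟩
        classical
        let t := Nat.find hex
        have ht : a * ((2 ^ t : ℕ) : ZMod (2 ^ k)) = 0 := Nat.find_spec hex
        have ht0 : t ≠ 0 := by
          intro h0
          rw [h0] at ht
          simp at ht
          exact ha0 ht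
        obtain ⟨t', ht'⟩ : ∃ t', t = t' + 1 := ⟨t - 1, by omega⟩
        have hmin : a * ((2 ^ t' : ℕ) : ZMod (2 ^ k)) ≠ 0 := Nat.find_min hex (by omega)
        refine ⟨a * ((2 ^ t' : ℕ) : ZMod (2 ^ k)), hmin, ?_, ?_⟩
        · rw [ht'] at ht
          rw [← ht]
          push_cast
          ring
        · rw [← r_pow]
          exact pow_mem ha _
      cases x with
      | r i =>
        have h1 := hcent (sr j) hj
        simp only [sr_mul_r, r_mul_sr, sr.injEq] at h1
        have h2 : 2 * i = 0 := by
          have h3 : j + i - (j - i) = 2 * i := by ring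
          rw [← h3, h1]; ring
        by_cases hi : i = 0
        · subst hi
          exact one_mem _
        · rw [two_mul_unique k i b h2 hb2 hi hb0]
          exact hbH
      | sr i =>
        have h1 := hcent (sr j) hj
        simp only [sr_mul_sr, r.injEq] at h1
        have h2 : 2 * (i - j) = 0 := by
          have h3 : i - j - (j - i) = 2 * (i - j) := by ring
          rw [← h3, h1]; ring
        by_cases hi : i - j = 0
        · rw [sub_eq_zero.mp hi]
          exact hj
        · have h3 := two_mul_unique k _ b h2 hb2 hi hb0
          have h4 : i = j + b := by rw [← h3]; ring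
          rw [h4, ← sr_mul_r]
          exact mul_mem hj hbH

end Cfsg.Agent.S3920
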