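import Cfsg.Statements.S3947

set_option autoImplicit false
open Cfsg

namespace Cfsg.Agent.S3947


variable {G : Type*} [Group G]

/-- `K` normalizes `H` (one-sided form). -/
def Nrm (K H : Subgroup G) : Prop := ∀ k ∈ K, ∀ h ∈ H, k * h * k⁻¹ ∈ H

/-- subnormal chains inside the fixed ambient group. -/
inductive Sn : Subgroup G → Subgroup G → Prop
  | refl (H : Subgroup G) : Sn H H
  | step {H K L : Subgroup G} : Sn H K → K ≤ L → Nrm L K → Sn H L

/-- conjugate subgroup -/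
def cj (g : G) (H : Subgroup G) : Subgroup G := H.map (MulAut.conj g).toMonoidHom

theorem mem_cj {g x : G} {H : Subgroup G} : x ∈ cj g H ↔ g⁻¹ * x * g ∈ H := by
  constructor
  · rintro ⟨y, hy, rfl⟩
    simpa [mul_assoc] using hy
  · intro h
    exact ⟨_, h, by simp [mul_assoc]⟩

theorem conj_mem_cj {g x : G} {H : Subgroup G} (h : x ∈ H) : g * x * g⁻¹ ∈ cj g H :=
  ⟨x, h, by simp⟩

theorem cj_mono {g : G} {H K : Subgroup G} (h : H ≤ K) : cj g H ≤ cj g K := by
  intro x hx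
  rw [mem_cj] at hx ⊢
  exact h hx

theorem cj_cj (g h : G) (H : Subgroup G) : cj g (cj h H) = cj (g * h) H := by
  ext x
  simp only [mem_cj, mul_inv_rev]
  constructor <;> intro hx <;> simpa [mul_assoc] using hx

theorem cj_one (H : Subgroup G) : cj (1 : G) H = H := by
  ext x
  simp [mem_cj]

theorem cj_inv_cj (g : G) (H : Subgroup G) : cj g⁻¹ (cj g H) = H := by
  rw [cj_cj]; simp [cj_one]

theorem cj_cj_inv (g : G) (H : Subgroup G) : cj g (cj g⁻¹ H) = H := by
  rw [cj_cj]; simp [cj_one]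

theorem cj_top (g : G) : cj g (⊤ : Subgroup G) = ⊤ := by
  ext x
  simp [mem_cj]

theorem cj_eq_top {g : G} {H : Subgroup G} (h : cj g H = ⊤) : H = ⊤ := by
  have := congrArg (cj g⁻¹) h
  rwa [cj_inv_cj, cj_top] at this

theorem cj_self_of_mem {g : G} {H : Subgroup G} (hg : g ∈ H) : cj g H = H := by
  ext x
  rw [mem_cj]
  constructor
  · intro hx
    have := H.mul_mem (H.mul_mem hg hx) (H.inv_mem hg)
    simpa [mul_assoc] using this
  · intro hx
    exact H.mul_mem (H.mul_mem (H.inv_mem hg) hx) hg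

theorem cj_le_of_nrm {K H : Subgroup G} (h : Nrm K H) {k : G} (hk : k ∈ K) : cj k H ≤ H := by
  rintro x ⟨y, hy, rfl⟩
  simpa using h k hk y hy

theorem nrm_of_cj_le {K H : Subgroup G} (h : ∀ k ∈ K, cj k H ≤ H) : Nrm K H := by
  intro k hk x hx
  exact h k hk (conj_mem_cj hx)

theorem nrm_self (H : Subgroup G) : Nrm H H := fun _ hk _ hh =>
  H.mul_mem (H.mul_mem hk hh) (H.inv_mem hk)

theorem Nrm.mono {K K' H : Subgroup G} (h : Nrm K H) (hK : K' ≤ K) : Nrm K' H :=
  fun k hk x hx => h k (hK hk) x hx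

theorem nrm_sSup {K : Subgroup G} {S : Set (Subgroup G)} (h : ∀ k ∈ K, ∀ T ∈ S, cj k T ≤ sSup S) :
    Nrm K (sSup S) := by
  intro k hk x hx
  have : sSup S ≤ (sSup S).comap (MulAut.conj k).toMonoidHom := by
    refine sSup_le fun T hT s hs => ?_
    have := h k hk T hT (conj_mem_cj hs)
    simpa [Subgroup.mem_comap] using this
  simpa [Subgroup.mem_comap] using this hx

theorem nrm_sup {K A B : Subgroup G} (hA : Nrm K A) (hB : Nrm K B) : Nrm K (A ⊔ B) := by
  intro k hk x hx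
  have : A ⊔ B ≤ (A ⊔ B).comap (MulAut.conj k).toMonoidHom := by
    refine sup_le (fun s hs => ?_) (fun s hs => ?_)
    · have := (le_sup_left : A ≤ A ⊔ B) (hA k hk s hs)
      simpa [Subgroup.mem_comap] using this
    · have := (le_sup_right : B ≤ A ⊔ B) (hB k hk s hs)
      simpa [Subgroup.mem_comap] using this
  simpa [Subgroup.mem_comap] using this hx

theorem nrm_sup_left {K A B : Subgroup G} (h1 : Nrm A B) (h2 : Nrm K B) : Nrm (A ⊔ K) B := by
  intro k hk x hx
  -- the set of normalizing elements is a subgroup; use the normalizer comparison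
  have hle : A ⊔ K ≤ Subgroup.normalizer (B : Set G) := by
    refine sup_le ?_ ?_
    · intro a ha
      rw [Subgroup.mem_normalizer_iff]
      intro y
      constructor
      · intro hy; exact h1 a ha y hy
      · intro hy
        have := h1 a⁻¹ (A.inv_mem ha) _ hy
        simpa [mul_assoc] using this
    · intro a ha
      rw [Subgroup.mem_normalizer_iff]
      intro y
      constructor
      · intro hy; exact h2 a ha y hy
      · intro hy
        have := h2 a⁻¹ (K.inv_mem ha) _ hy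
        simpa [mul_assoc] using this
  exact (Subgroup.mem_normalizer_iff.mp (hle hk) x).mp hx

theorem le_normalizer_of_nrm {K H : Subgroup G} (h : Nrm K H) : K ≤ Subgroup.normalizer (H : Set G) := by
  intro a ha
  rw [Subgroup.mem_normalizer_iff]
  intro y
  constructor
  · intro hy; exact h a ha y hy
  · intro hy
    have := h a⁻¹ (K.inv_mem ha) _ hy
    simpa [mul_assoc] using this

theorem nrm_of_le_normalizer {K H : Subgroup G} (h : K ≤ Subgroup.normalizer (H : Set G)) : Nrm K H :=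
  fun k hk x hx => (Subgroup.mem_normalizer_iff.mp (h hk) x).mp hx

theorem Sn.le {H K : Subgroup G} (h : Sn H K) : H ≤ K := by
  induction h with
  | refl => exact le_rfl
  | step _ hKL _ ih => exact ih.trans hKL

theorem Sn.trans {H K L : Subgroup G} (h1 : Sn H K) (h2 : Sn K L) : Sn H L := by
  induction h2 with
  | refl => exact h1
  | step _ hKL hn ih => exact Sn.step ih hKL hn

theorem Sn.inf {H K : Subgroup G} (h : Sn H K) (T : Subgroup G) : Sn (H ⊓ T) (K ⊓ T) := by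
  induction h with
  | refl => exact Sn.refl _
  | @step K L _ hKL hn ih =>
    refine Sn.step ih (inf_le_inf_right T hKL) ?_
    rintro k ⟨hk1, hk2⟩ x ⟨hx1, hx2⟩
    exact ⟨hn k hk1 x hx1, T.mul_mem (T.mul_mem hk2 hx2) (T.inv_mem hk2)⟩

theorem Sn.of_le {H K T : Subgroup G} (h : Sn H K) (h1 : H ≤ T) (h2 : T ≤ K) : Sn H T := by
  have := h.inf T
  rwa [inf_eq_left.mpr h1, inf_eq_right.mpr h2] at this

theorem Sn.cj {H K : Subgroup G} (g : G) (h : Sn H K) : Sn (cj g H) (cj g K) := by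
  induction h with
  | refl => exact Sn.refl _
  | @step K L _ hKL hn ih =>
    refine Sn.step ih (cj_mono hKL) ?_
    intro k hk x hx
    rw [mem_cj] at hk hx ⊢
    have := hn _ hk _ hx
    simpa [mul_assoc] using this

/-- normal closure of `X` in `T`, as a join of conjugates. -/
def ncl (X T : Subgroup G) : Subgroup G := sSup {C | ∃ t ∈ T, C = cj t X}

theorem le_ncl (X T : Subgroup G) : X ≤ ncl X T := by
  have : cj (1 : G) X ≤ ncl X T := le_sSup ⟨1, T.one_mem, rfl⟩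
  rwa [cj_one] at this

theorem cj_le_ncl {X T : Subgroup G} {t : G} (ht : t ∈ T) : cj t X ≤ ncl X T :=
  le_sSup ⟨t, ht, rfl⟩

theorem ncl_le {X T K : Subgroup G} (hX : X ≤ K) (h : Nrm T K) : ncl X T ≤ K := by
  refine sSup_le ?_
  rintro C ⟨t, ht, rfl⟩
  exact (cj_mono hX).trans (cj_le_of_nrm h ht)

theorem nrm_ncl (X T : Subgroup G) : Nrm T (ncl X T) := by
  refine nrm_sSup ?_
  rintro k hk C ⟨t, ht, rfl⟩
  rw [cj_cj]
  exact cj_le_ncl (T.mul_mem hk ht)

theorem ncl_le_self {X T : Subgroup G} (h : X ≤ T) : ncl X T ≤ T :=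
  ncl_le h (nrm_self T)

theorem ncl_mono {X X' T T' : Subgroup G} (h : X ≤ X') (hT : T ≤ T') : ncl X T ≤ ncl X' T' := by
  refine sSup_le ?_
  rintro C ⟨t, ht, rfl⟩
  exact (cj_mono h).trans (cj_le_ncl (hT ht))

theorem nrm_ncl_of {K X T : Subgroup G} (h1 : Nrm K X) (h2 : Nrm K T) : Nrm K (ncl X T) := by
  refine nrm_sSup ?_
  rintro k hk C ⟨t, ht, rfl⟩
  -- k (t X t⁻¹) k⁻¹ = (k t k⁻¹) (k X k⁻¹) (k t k⁻¹)⁻¹
  intro x hx
  rw [mem_cj, mem_cj] at hx
  have hc : (k * t * k⁻¹) ∈ T := h2 k hk t ht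
  have : cj (k * t * k⁻¹) X ≤ ncl X T := cj_le_ncl hc
  refine this ?_
  rw [mem_cj]
  have h3 := h1 k hk _ hx
  convert h3 using 1
  group

theorem closed_sn_eq {X S R : Subgroup G} (hc : ncl X S = S) (h : Sn R S) (hX : X ≤ R) : R = S := by
  induction h with
  | refl => rfl
  | @step K L _ hKL hn ih =>
    have h1 : L ≤ K := by
      rw [← hc]
      exact ncl_le (hX.trans ‹Sn R K›.le) hn
    have h2 : K = L := le_antisymm hKL h1
    subst h2
    exact ih hc

section finite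
variable [Finite G]

theorem exists_closed (T : Subgroup G) : ∀ (X : Subgroup G), X ≤ T →
    ∃ S, X ≤ S ∧ S ≤ T ∧ ncl X S = S ∧ Sn S T := by
  induction T using WellFoundedLT.induction with
  | ind T ih =>
    intro X hX
    by_cases h : ncl X T = T
    · exact ⟨T, hX, le_rfl, h, Sn.refl T⟩
    · have hlt : ncl X T < T := lt_of_le_of_ne (ncl_le_self hX) h
      obtain ⟨S, h1, h2, h3, h4⟩ := ih _ hlt X (le_ncl X T)
      exact ⟨S, h1, h2.trans hlt.le, h3, h4.step hlt.le (nrm_ncl X T)⟩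

/-- `K` subnormal, `M` normalized by `L`: adding `M` keeps the chain. -/
theorem Sn.sup_right {K L : Subgroup G} (h : Sn K L) : ∀ M : Subgroup G, Nrm L M → Sn (K ⊔ M) (L ⊔ M) := by
  induction h with
  | refl => intro M _; exact Sn.refl _
  | @step K' L _ hKL hn ih =>
    intro M hM
    refine Sn.step (ih M (hM.mono hKL)) (sup_le_sup_right hKL M) ?_
    have h1 : Nrm L (K' ⊔ M) := nrm_sup hn hM
    have h2 : Nrm M (K' ⊔ M) := (nrm_self (K' ⊔ M)).mono le_sup_right
    exact nrm_sup_left h1 h2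

/-- Wielandt: the normalizing case. -/
theorem sn_sup_of_nrm {W L K : Subgroup G} (hK : Sn K W) (hKL : Nrm K L) :
    ∀ X : Subgroup G, X ≤ W → Sn L X → Nrm K X → Sn (L ⊔ K) (X ⊔ K) := by
  intro X
  induction X using WellFoundedLT.induction with
  | ind X ih =>
    intro hXW hL hKX
    by_cases hLX : L = X
    · subst hLX; exact Sn.refl _
    have hne : ncl L X ≠ X := fun h => hLX (closed_sn_eq h hL le_rfl)
    have hlt : ncl L X < X := lt_of_le_of_ne (ncl_le_self hL.le) hne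
    have hSn : Sn L (ncl L X) := hL.of_le (le_ncl L X) hlt.le
    have hKM : Nrm K (ncl L X) := nrm_ncl_of hKL hKX
    have h1 := ih _ hlt (hlt.le.trans hXW) hSn hKM
    refine h1.trans ?_
    have hK' : Sn K (X ⊔ K) := hK.of_le le_sup_right (sup_le hXW hK.le)
    have hnorm : Nrm (X ⊔ K) (ncl L X) := nrm_sup_left (nrm_ncl L X) hKM
    have h2 := hK'.sup_right (ncl L X) hnorm
    have e1 : K ⊔ ncl L X = ncl L X ⊔ K := sup_comm _ _
    have e2 : X ⊔ K ⊔ ncl L X = X ⊔ K := sup_eq_left.mpr (hlt.le.trans le_sup_left)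
    rwa [e1, e2] at h2

/-- a nonempty (automatically finite) family of subnormal subgroups, assuming pairs are fine. -/
theorem sn_sSup_of_pair {T : Subgroup G}
    (hpair : ∀ H K : Subgroup G, Sn H T → Sn K T → Sn (H ⊔ K) T)
    (S : Set (Subgroup G)) (H₀ : Subgroup G) (h₀ : Sn H₀ T) (hS : ∀ H ∈ S, Sn H T) :
    Sn (H₀ ⊔ sSup S) T := by
  have hfin : S.Finite := Set.toFinite S
  induction S, hfin using Set.Finite.induction_on with
  | empty => simpa using h₀
  | @insert a s _ _ ih =>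
    rw [sSup_insert, ← sup_assoc, sup_right_comm]
    exact hpair _ _ (ih fun H hH => hS H (Set.mem_insert_of_mem _ hH)) (hS a (Set.mem_insert _ _))

/-- Wielandt's join theorem. -/
theorem sn_sup (W : Subgroup G) : ∀ H K : Subgroup G, Sn H W → Sn K W → Sn (H ⊔ K) W := by
  induction W using WellFoundedLT.induction with
  | ind W ih =>
    intro H K hH hK
    by_cases hHW : H = W
    · subst hHW
      rw [sup_eq_left.mpr hK.le]
      exact Sn.refl _
    have hne : ncl H W ≠ W := fun h => hHW (closed_sn_eq h hH le_rfl)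
    have hlt : ncl H W < W := lt_of_le_of_ne (ncl_le_self hH.le) hne
    have hST : Sn H (ncl H W) := hH.of_le (le_ncl H W) hlt.le
    set T := ncl H W with hT
    have hnT : Nrm W T := nrm_ncl H W
    let S : Set (Subgroup G) := {C | ∃ k ∈ K, C = cj k H}
    have hS : ∀ C ∈ S, Sn C T := by
      rintro C ⟨k, hk, rfl⟩
      have hc := hST.cj k
      have e : cj k T = T := by
        apply le_antisymm (cj_le_of_nrm hnT (hK.le hk))
        intro x hx
        rw [mem_cj]
        exact hnT _ (W.inv_mem (hK.le hk)) x hx |> fun h => by simpa using h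
      rwa [e] at hc
    have hL := sn_sSup_of_pair (ih T hlt) S H hST hS
    set L := H ⊔ sSup S with hLdef
    have hLW : Sn L W := hL.step hlt.le hnT
    have hH0 : H ∈ S := ⟨1, K.one_mem, (cj_one H).symm⟩
    have hLS : L = sSup S := sup_eq_right.mpr (le_sSup hH0)
    have hKL : Nrm K L := by
      rw [hLS]
      refine nrm_sSup ?_
      rintro k hk T ⟨k', hk', rfl⟩
      rw [cj_cj]
      exact le_sSup ⟨k * k', K.mul_mem hk hk', rfl⟩
    have := sn_sup_of_nrm hK hKL W le_rfl hLW ((nrm_self W).mono hK.le)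
    rw [sup_eq_left.mpr hK.le] at this
    have e : L ⊔ K = H ⊔ K := by
      apply le_antisymm
      · refine sup_le ?_ le_sup_right
        rw [hLS]
        refine sSup_le ?_
        rintro T ⟨k, hk, rfl⟩
        rintro x ⟨y, hy, rfl⟩
        have h1 : k ∈ H ⊔ K := (le_sup_right : K ≤ H ⊔ K) hk
        have h2 : y ∈ H ⊔ K := (le_sup_left : H ≤ H ⊔ K) hy
        simpa using (H ⊔ K).mul_mem ((H ⊔ K).mul_mem h1 h2) ((H ⊔ K).inv_mem h1)
      · exact sup_le_sup_right (le_sup_left : H ≤ L) K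
    rwa [e] at this

theorem sn_sSup {W : Subgroup G} {S : Set (Subgroup G)} {H₀ : Subgroup G} (h0 : H₀ ∈ S)
    (hS : ∀ H ∈ S, Sn H W) : Sn (sSup S) W := by
  have := sn_sSup_of_pair (sn_sup W) S H₀ (hS _ h0) hS
  rwa [sup_eq_right.mpr (le_sSup h0)] at this

theorem exists_member (P : Subgroup G) : ∀ (M₁ M₀ : Set (Subgroup G)), sSup M₁ = P →
    (∀ M ∈ M₁, ∀ p ∈ P, cj p M ∈ M₁) → M₀ ⊆ M₁ → Sn (sSup M₀) P → sSup M₀ ≠ P →
    ∃ M ∈ M₁, ¬ M ≤ sSup M₀ ∧ Nrm M (sSup M₀) := by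
  induction P using WellFoundedLT.induction with
  | ind P ih =>
    intro M₁ M₀ hP hcl h0 hSn hne
    set V := sSup M₀ with hV
    have hne' : ncl V P ≠ P := fun h => hne (closed_sn_eq h hSn le_rfl)
    have hlt : ncl V P < P := lt_of_le_of_ne (ncl_le_self hSn.le) hne'
    by_cases hVP : V = ncl V P
    · have hn : Nrm P V := by
        have := nrm_ncl V P
        rwa [← hVP] at this
      have : ∃ M ∈ M₁, ¬ M ≤ V := by
        by_contra hcon
        push Not at hcon
        apply hne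
        apply le_antisymm hSn.le
        rw [← hP]
        exact sSup_le hcon
      obtain ⟨M, hM, hMV⟩ := this
      refine ⟨M, hM, hMV, hn.mono ?_⟩
      rw [← hP]
      exact le_sSup hM
    · let M' : Set (Subgroup G) := {M | M ∈ M₁ ∧ M ≤ ncl V P}
      have hM' : sSup M' = ncl V P := by
        apply le_antisymm (sSup_le fun M hM => hM.2)
        refine sSup_le ?_
        rintro C ⟨t, ht, rfl⟩
        intro x hx
        rw [mem_cj] at hx
        have hle : sSup M₀ ≤ (sSup M').comap (MulAut.conj t).toMonoidHom := by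
          refine sSup_le fun M₂ hM₂ m hm => ?_
          have hc : cj t M₂ ∈ M' := by
            refine ⟨hcl _ (h0 hM₂) t ht, ?_⟩
            exact (cj_mono (le_sSup hM₂)).trans (cj_le_ncl ht)
          have := (le_sSup hc : cj t M₂ ≤ sSup M') (conj_mem_cj hm)
          simpa [Subgroup.mem_comap] using this
        have := hle hx
        simpa [Subgroup.mem_comap, mul_assoc] using this
      have hcl' : ∀ M ∈ M', ∀ p ∈ ncl V P, cj p M ∈ M' := by
        rintro M ⟨hM1, hM2⟩ p hp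
        refine ⟨hcl M hM1 p (hlt.le hp), ?_⟩
        rintro x ⟨y, hy, rfl⟩
        have := (ncl V P).mul_mem ((ncl V P).mul_mem hp (hM2 hy)) ((ncl V P).inv_mem hp)
        simpa using this
      have h0' : M₀ ⊆ M' := fun M hM => ⟨h0 hM, (le_sSup hM : M ≤ V).trans (le_ncl V P)⟩
      have hSn' : Sn (sSup M₀) (ncl V P) := hSn.of_le (le_ncl V P) hlt.le
      obtain ⟨M, hM, h1, h2⟩ := ih _ hlt M' M₀ hM' hcl' h0' hSn' hVP
      exact ⟨M, hM.1, h1, h2⟩

theorem coatom_eq {M M' : Subgroup G} (h : IsCoatom M) (h' : IsCoatom M') (hle : M ≤ M') : M = M' := by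
  by_contra hne
  exact h'.1 (h.2 _ (lt_of_le_of_ne hle hne))

theorem zipper (H : Subgroup G) : (∀ T : Subgroup G, T ≠ ⊤ → H ≤ T → Sn H T) → ¬ Sn H ⊤ →
    ∃! M : Subgroup G, IsCoatom M ∧ H ≤ M := by
  induction H using WellFoundedGT.induction with
  | ind H ih =>
    intro hT hG
    have hnz : Subgroup.normalizer (H : Set G) ≠ ⊤ := by
      intro h
      exact hG (Sn.step (Sn.refl H) le_top (nrm_of_le_normalizer (by rw [h])))
    obtain ⟨M₃, hM₃, hle⟩ := (eq_top_or_exists_le_coatom (Subgroup.normalizer (H : Set G))).resolve_left hnz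
    have hHN : H ≤ Subgroup.normalizer (H : Set G) := le_normalizer_of_nrm (nrm_self H)
    refine ⟨M₃, ⟨hM₃, hHN.trans hle⟩, ?_⟩
    rintro M ⟨hM, hHM⟩
    by_contra hne
    by_cases hn : Nrm M H
    · exact hne (coatom_eq hM hM₃ ((le_normalizer_of_nrm hn).trans hle))
    · have hHP : H ≠ ncl H M := by
        intro h
        apply hn
        have := nrm_ncl H M
        rwa [← h] at this
      have hSn : Sn H (ncl H M) := (hT M hM.1 hHM).of_le (le_ncl H M) (ncl_le_self hHM)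
      have hss : sSup ({H} : Set (Subgroup G)) = H := sSup_singleton
      obtain ⟨C, ⟨m, hm, rfl⟩, h1, h2⟩ := exists_member (ncl H M) {C | ∃ t ∈ M, C = cj t H} {H} rfl
        (by
          rintro C ⟨t, ht, rfl⟩ p hp
          rw [cj_cj]
          exact ⟨p * t, M.mul_mem (ncl_le_self hHM hp) ht, rfl⟩)
        (by
          rintro C rfl
          exact ⟨1, M.one_mem, (cj_one _).symm⟩)
        (by rw [hss]; exact hSn)
        (by rw [hss]; exact hHP)
      rw [hss] at h1 h2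
      have hC1 : cj m H ≤ M := (cj_mono hHM).trans (by rw [cj_self_of_mem hm])
      have hC2 : cj m H ≤ M₃ := (le_normalizer_of_nrm h2).trans hle
      have hlt : H < H ⊔ cj m H := by
        refine lt_of_le_of_ne le_sup_left ?_
        intro h
        apply h1
        calc cj m H ≤ H ⊔ cj m H := le_sup_right
          _ = H := h.symm
      have hH'1 : H ⊔ cj m H ≤ M := sup_le hHM hC1
      have hH'2 : H ⊔ cj m H ≤ M₃ := sup_le (hHN.trans hle) hC2
      have huniq := ih _ hlt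
        (by
          intro T hTt hle'
          have h3 : Sn H T := hT T hTt (le_sup_left.trans hle')
          have h4 : Sn (cj m H) T := by
            have hT1 : cj m⁻¹ T ≠ ⊤ := fun h => hTt (cj_eq_top h)
            have hle2 : H ≤ cj m⁻¹ T := by
              have := cj_mono (g := m⁻¹) (le_sup_right.trans hle')
              rwa [cj_inv_cj] at this
            have := (hT _ hT1 hle2).cj m
            rwa [cj_cj_inv] at this
          exact sn_sup T _ _ h3 h4)
        (by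
          intro h
          have hne1 : H ⊔ cj m H ≠ ⊤ := fun h' => hM.1 (top_le_iff.mp (h' ▸ hH'1))
          exact hG ((hT _ hne1 le_sup_left).trans h))
      exact hne (huniq.unique ⟨hM, hH'1⟩ ⟨hM₃, hH'2⟩)

/-- the family of the statement -/
def Fam (X : Subgroup G) : Set (Subgroup G) := {H | X ≤ H ∧ H ≠ ⊤ ∧ ncl X H = H}

/-- its join -/
def Yy (X : Subgroup G) : Subgroup G := sSup (Fam X)

/-- the conclusion -/
def Goal (X : Subgroup G) : Prop := Yy X = ⊤ ∨ ∃! M : Subgroup G, IsCoatom M ∧ X ≤ M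

theorem self_mem_fam {X : Subgroup G} (h : X ≠ ⊤) : X ∈ Fam X :=
  ⟨le_rfl, h, le_antisymm (ncl_le_self le_rfl) (le_ncl X X)⟩

theorem le_yy {X : Subgroup G} (h : X ≠ ⊤) : X ≤ Yy X := le_sSup (self_mem_fam h)

theorem yy_closed {X : Subgroup G} (h : X ≠ ⊤) : ncl X (Yy X) = Yy X := by
  apply le_antisymm (ncl_le_self (le_yy h))
  refine sSup_le fun H hH => ?_
  have h1 : ncl X H ≤ ncl X (Yy X) := ncl_mono le_rfl (le_sSup hH)
  rwa [hH.2.2] at h1

theorem yy_sn {X T : Subgroup G} (hX : X ≠ ⊤) (hT : T ≠ ⊤) (hle : Yy X ≤ T) : Sn (Yy X) T := by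
  obtain ⟨S, h1, h2, h3, h4⟩ := exists_closed T X ((le_yy hX).trans hle)
  have hSF : S ∈ Fam X := ⟨h1, fun h => hT (top_le_iff.mp (h ▸ h2)), h3⟩
  have hSY : S ≤ Yy X := le_sSup hSF
  have h5 : Sn S (Yy X) := h4.of_le hSY hle
  have h6 := closed_sn_eq (yy_closed hX) h5 h1
  rwa [h6] at h4

theorem yy_not_sn {X : Subgroup G} (hX : X ≠ ⊤) (hcl : ncl X ⊤ = ⊤) (hY : Yy X ≠ ⊤) : ¬ Sn (Yy X) ⊤ := by
  intro h
  exact hY (closed_sn_eq hcl h (le_yy hX))

theorem card_lt {H K : Subgroup G} (h : H < K) : Nat.card H < Nat.card K := by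
  have := Set.ncard_lt_ncard (s := (H : Set G)) (t := (K : Set G)) (by exact_mod_cast h) (Set.toFinite _)
  have e1 : Nat.card H = (H : Set G).ncard := Nat.card_coe_set_eq (H : Set G)
  have e2 : Nat.card K = (K : Set G).ncard := Nat.card_coe_set_eq (K : Set G)
  rw [e1, e2]
  exact this

theorem card_cj (g : G) (H : Subgroup G) : Nat.card (cj g H) = Nat.card H :=
  Subgroup.card_map_of_injective (MulAut.conj g).injective

theorem cj_eq_of_nrm {K H : Subgroup G} (h : Nrm K H) {k : G} (hk : k ∈ K) : cj k H = H := by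
  apply le_antisymm (cj_le_of_nrm h hk)
  intro x hx
  rw [mem_cj]
  simpa using h k⁻¹ (K.inv_mem hk) x hx

theorem ncl_cj_top (g : G) (X : Subgroup G) (h : ncl X ⊤ = ⊤) : ncl (cj g X) ⊤ = ⊤ := by
  have h1 : ncl X ⊤ ≤ ncl (cj g X) ⊤ := by
    refine ncl_le ?_ (nrm_ncl _ _)
    have : cj g⁻¹ (cj g X) ≤ ncl (cj g X) ⊤ := cj_le_ncl (Subgroup.mem_top _)
    rwa [cj_inv_cj] at this
  rw [h] at h1
  exact top_le_iff.mp h1

theorem isCoatom_cj (g : G) {Q : Subgroup G} (h : IsCoatom Q) : IsCoatom (cj g Q) := by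
  refine ⟨fun h' => h.1 (cj_eq_top h'), fun b hb => ?_⟩
  have h1 : Q < cj g⁻¹ b := by
    have := cj_mono (g := g⁻¹) hb.le
    rw [cj_inv_cj] at this
    refine lt_of_le_of_ne this ?_
    intro e
    apply hb.ne
    rw [e, cj_cj_inv]
  have h2 := h.2 _ h1
  have := congrArg (cj g) h2
  rwa [cj_cj_inv, cj_top] at this

/-- the running context of the main argument -/
structure Ctx (A N : Subgroup G) : Prop where
  ne : A ≠ ⊤
  cl : ncl A ⊤ = ⊤
  co : IsCoatom N
  le : A ≤ N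
  dag : ∀ T : Subgroup G, T ≠ ⊤ → A ≤ T → T ≤ N ∨ Sn A T
  nz : ∀ x : G, cj x A = A → x ∈ N
  nn : ¬ Nrm N A
  ih : ∀ B : Subgroup G, Nat.card A < Nat.card B → B ≠ ⊤ → ncl B ⊤ = ⊤ → Goal B

/-- member with its point -/
def MP (A N C Q : Subgroup G) : Prop := ∃ g : G, C = cj g A ∧ Q = cj g N

variable {A N : Subgroup G}

theorem mp_self : MP A N A N := ⟨1, (cj_one A).symm, (cj_one N).symm⟩

theorem MP.conj {C Q : Subgroup G} (h : MP A N C Q) (t : G) : MP A N (cj t C) (cj t Q) := by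
  obtain ⟨g, rfl, rfl⟩ := h
  exact ⟨t * g, cj_cj _ _ _, cj_cj _ _ _⟩

theorem MP.uniq (c : Ctx A N) {C Q Q' : Subgroup G} (h : MP A N C Q) (h' : MP A N C Q') : Q = Q' := by
  obtain ⟨g, rfl, rfl⟩ := h
  obtain ⟨k, e, rfl⟩ := h'
  have h1 : cj (k⁻¹ * g) A = A := by
    rw [← cj_cj, e, cj_inv_cj]
  have h2 := cj_self_of_mem (c.nz _ h1)
  have h3 : cj g N = cj k (cj (k⁻¹ * g) N) := by rw [cj_cj]; simp
  rw [h3, h2]

theorem MP.coatom (c : Ctx A N) {C Q : Subgroup G} (h : MP A N C Q) : IsCoatom Q := by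
  obtain ⟨g, rfl, rfl⟩ := h
  exact isCoatom_cj g c.co

theorem MP.le (c : Ctx A N) {C Q : Subgroup G} (h : MP A N C Q) : C ≤ Q := by
  obtain ⟨g, rfl, rfl⟩ := h
  exact cj_mono c.le

theorem MP.dag (c : Ctx A N) {C Q T : Subgroup G} (h : MP A N C Q) (hT : T ≠ ⊤) (hle : C ≤ T) :
    T ≤ Q ∨ Sn C T := by
  obtain ⟨g, rfl, rfl⟩ := h
  have h1 : cj g⁻¹ T ≠ ⊤ := fun h => hT (cj_eq_top h)
  have h2 : A ≤ cj g⁻¹ T := by
    have := cj_mono (g := g⁻¹) hle
    rwa [cj_inv_cj] at this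
  rcases c.dag _ h1 h2 with h3 | h3
  · left
    have := cj_mono (g := g) h3
    rwa [cj_cj_inv] at this
  · right
    have := h3.cj g
    rwa [cj_cj_inv] at this

theorem MP.nrm (c : Ctx A N) {C Q K : Subgroup G} (h : MP A N C Q) (hK : Nrm K C) : K ≤ Q := by
  obtain ⟨g, rfl, rfl⟩ := h
  intro k hk
  rw [mem_cj]
  apply c.nz
  have := cj_eq_of_nrm hK hk
  have e : cj (g⁻¹ * k * g) A = cj g⁻¹ (cj k (cj g A)) := by
    rw [cj_cj, cj_cj, mul_assoc]
  rw [e, this, cj_inv_cj]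

theorem MP.nn (c : Ctx A N) {C Q : Subgroup G} (h : MP A N C Q) : ¬ Nrm Q C := by
  obtain ⟨g, rfl, rfl⟩ := h
  intro hn
  apply c.nn
  intro k hk x hx
  have h1 := hn (g * k * g⁻¹) (conj_mem_cj hk) (g * x * g⁻¹) (conj_mem_cj hx)
  rw [mem_cj] at h1
  convert h1 using 1
  group

theorem MP.card (c : Ctx A N) {C Q : Subgroup G} (h : MP A N C Q) : Nat.card C = Nat.card A := by
  obtain ⟨g, rfl, rfl⟩ := h
  exact card_cj _ _

theorem MP.ncl_top (c : Ctx A N) {C Q : Subgroup G} (h : MP A N C Q) : ncl C ⊤ = ⊤ := by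
  obtain ⟨g, rfl, rfl⟩ := h
  exact ncl_cj_top g A c.cl

theorem MP.self_norm (c : Ctx A N) {C Q : Subgroup G} (h : MP A N C Q) {x : G} (hx : cj x Q = Q) : x ∈ Q := by
  have hco := h.coatom c
  have hne : Subgroup.normalizer (Q : Set G) ≠ ⊤ := by
    intro e
    have h1 : Nrm ⊤ Q := nrm_of_le_normalizer (by rw [e])
    have h2 : ncl C ⊤ ≤ Q := ncl_le (h.le c) h1
    rw [h.ncl_top c] at h2
    exact hco.1 (top_le_iff.mp h2)
  have hQ : Q = Subgroup.normalizer (Q : Set G) := by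
    by_contra hne'
    exact hne (hco.2 _ (lt_of_le_of_ne (le_normalizer_of_nrm (nrm_self Q)) hne'))
  rw [hQ, Subgroup.mem_normalizer_iff]
  intro y
  constructor
  · intro hy
    have := conj_mem_cj (g := x) hy
    rwa [hx] at this
  · intro hy
    rw [← hx, mem_cj] at hy
    simpa [mul_assoc] using hy

theorem mutual_pts (c : Ctx A N) {C C' P P' Q₁ Q₂ : Subgroup G} (h : MP A N C P) (h' : MP A N C' P')
    (hne : C ≠ C') (hQ₁ : IsCoatom Q₁) (hQ₂ : IsCoatom Q₂) (hQ : Q₁ ≠ Q₂)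
    (h1 : C ≤ Q₁) (h2 : C' ≤ Q₁) (h3 : C ≤ Q₂) (h4 : C' ≤ Q₂) :
    P ≠ P' ∧ C' ≤ P ∧ C ≤ P' := by
  set B := C ⊔ C' with hB
  have hBQ : B ≤ Q₁ := sup_le h1 h2
  have hBQ2 : B ≤ Q₂ := sup_le h3 h4
  have hBne : B ≠ ⊤ := fun e => hQ₁.1 (top_le_iff.mp (e ▸ hBQ))
  have hcard : Nat.card A < Nat.card B := by
    rw [← h.card c]
    apply card_lt
    refine lt_of_le_of_ne le_sup_left ?_
    intro e
    have h5 : C' ≤ C := by
      calc C' ≤ B := le_sup_right
        _ = C := e.symm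
    exact hne (Subgroup.eq_of_le_of_card_ge h5 (by rw [h.card c, h'.card c])).symm
  have hncl : ncl B ⊤ = ⊤ := by
    have h5 : ncl C ⊤ ≤ ncl B ⊤ := ncl_mono le_sup_left le_rfl
    rw [h.ncl_top c] at h5
    exact top_le_iff.mp h5
  have hY : Yy B = ⊤ := by
    rcases c.ih B hcard hBne hncl with h5 | h5
    · exact h5
    · exact absurd (h5.unique ⟨hQ₁, hBQ⟩ ⟨hQ₂, hBQ2⟩) hQ
  have hcases : ∀ H ∈ Fam B, H = B ∨ H ≤ P ∨ H ≤ P' := by
    rintro H ⟨hH1, hH2, hH3⟩
    rcases h.dag c hH2 (le_sup_left.trans hH1) with h5 | h5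
    · exact Or.inr (Or.inl h5)
    rcases h'.dag c hH2 (le_sup_right.trans hH1) with h6 | h6
    · exact Or.inr (Or.inr h6)
    · left
      exact (closed_sn_eq hH3 (sn_sup H _ _ h5 h6) le_rfl).symm
  have hPco := h.coatom c
  have hPco' := h'.coatom c
  have hle : ∀ K : Subgroup G, IsCoatom K → (∀ H ∈ Fam B, H ≤ K) → False := by
    intro K hK hall
    have : Yy B ≤ K := sSup_le hall
    rw [hY] at this
    exact hK.1 (top_le_iff.mp this)
  have hBP : B ≤ P := by
    by_contra hcon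
    have h5 : ∀ H ∈ Fam B, H = B ∨ H ≤ P' := by
      intro H hH
      rcases hcases H hH with h6 | h6 | h6
      · exact Or.inl h6
      · exact absurd (hH.1.trans h6) hcon
      · exact Or.inr h6
    by_cases h7 : B ≤ P'
    · refine hle P' hPco' fun H hH => ?_
      rcases h5 H hH with h6 | h6
      · rw [h6]; exact h7
      · exact h6
    · have : Yy B ≤ B := by
        refine sSup_le fun H hH => ?_
        rcases h5 H hH with h6 | h6
        · rw [h6]
        · exact absurd (hH.1.trans h6) h7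
      rw [hY] at this
      exact hBne (top_le_iff.mp this)
  have hBP' : B ≤ P' := by
    by_contra hcon
    have h5 : ∀ H ∈ Fam B, H ≤ P := by
      intro H hH
      rcases hcases H hH with h6 | h6 | h6
      · rw [h6]; exact hBP
      · exact h6
      · exact absurd (hH.1.trans h6) hcon
    exact hle P hPco h5
  refine ⟨?_, le_sup_right.trans hBP, le_sup_left.trans hBP'⟩
  intro e
  refine hle P hPco fun H hH => ?_
  rcases hcases H hH with h6 | h6 | h6
  · rw [h6]; exact hBP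
  · exact h6
  · rw [e]; exact h6

theorem chain_top {X T Q : Subgroup G} (h : Sn X T) (hX : X ≤ Q) (hT : ¬ T ≤ Q) :
    ∃ K L : Subgroup G, X ≤ K ∧ K ≤ L ∧ L ≤ T ∧ Nrm L K ∧ K ≤ Q ∧ ¬ L ≤ Q := by
  induction h with
  | refl => exact absurd hX hT
  | @step K L h1 hKL hn ih =>
    by_cases hK : K ≤ Q
    · exact ⟨K, L, h1.le, hKL, le_rfl, hn, hK, hT⟩
    · obtain ⟨K', L', a, b, d, e, f, g⟩ := ih hK
      exact ⟨K', L', a, b, d.trans hKL, e, f, g⟩

/-- conjugates of `A` -/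
def Mb (A C : Subgroup G) : Prop := ∃ g : G, C = cj g A

/-- conjugates of `N` -/
def IsPt (N Q : Subgroup G) : Prop := ∃ g : G, Q = cj g N

/-- families of members lying in two distinct points -/
def Cl (A N : Subgroup G) (F : Set (Subgroup G)) : Prop :=
  (∀ C ∈ F, Mb A C) ∧ ∃ p₁ p₂ : Subgroup G, IsPt N p₁ ∧ IsPt N p₂ ∧ p₁ ≠ p₂ ∧ sSup F ≤ p₁ ∧ sSup F ≤ p₂

theorem IsPt.mp {Q : Subgroup G} (h : IsPt N Q) : ∃ C, MP A N C Q := by
  obtain ⟨g, rfl⟩ := h
  exact ⟨cj g A, g, rfl, rfl⟩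

theorem IsPt.coatom (c : Ctx A N) {Q : Subgroup G} (h : IsPt N Q) : IsCoatom Q := by
  obtain ⟨g, rfl⟩ := h
  exact isCoatom_cj g c.co

theorem MP.mb {C Q : Subgroup G} (h : MP A N C Q) : Mb A C := by
  obtain ⟨g, h1, _⟩ := h
  exact ⟨g, h1⟩

theorem MP.pt {C Q : Subgroup G} (h : MP A N C Q) : IsPt N Q := by
  obtain ⟨g, _, h1⟩ := h
  exact ⟨g, h1⟩

theorem sn_fix (c : Ctx A N) {V X L τ : Subgroup G} (hτ : IsPt N τ) (hVτ : V ≤ τ) (hX : X ≤ τ)
    (huniq : ∀ p : Subgroup G, IsPt N p → V ≤ p → X ≤ p → p = τ) (h : Sn X L) (hL : Nrm L V) : L ≤ τ := by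
  induction h with
  | refl => exact hX
  | @step K L h1 hKL hn ih =>
    have hK := ih (hL.mono hKL)
    intro l hl
    obtain ⟨C, hC⟩ := hτ.mp (A := A)
    apply hC.self_norm c
    apply huniq (cj l τ)
    · obtain ⟨g, rfl⟩ := hτ
      exact ⟨l * g, cj_cj _ _ _⟩
    · rw [← cj_eq_of_nrm hL hl]
      exact cj_mono hVτ
    · have h2 := cj_mono (g := l) hK
      rw [cj_eq_of_nrm hn hl] at h2
      exact h1.le.trans h2

theorem no_second (c : Ctx A N) {M : Subgroup G} (hM : IsCoatom M) (hAM : A ≤ M) (hne : M ≠ N) : False := by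
  have hMN : ¬ M ≤ N := fun h => hne (coatom_eq hM c.co h)
  have hSn : Sn A M := (c.dag M hM.1 hAM).resolve_left hMN
  obtain ⟨K, L, h1, h2, h3, h4, h5, h6⟩ := chain_top hSn c.le hMN
  obtain ⟨g, hgL, hgN⟩ := SetLike.not_le_iff_exists.mp h6
  have hA2 : A ≤ cj g N := by
    have := cj_mono (g := g) h5
    rw [cj_eq_of_nrm h4 hgL] at this
    exact h1.trans this
  have hneN : cj g N ≠ N := fun e => hgN ((mp_self (A := A) (N := N)).self_norm c e)
  have hCl : Cl A N {A} := by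
    refine ⟨?_, N, cj g N, ⟨1, (cj_one N).symm⟩, ⟨g, rfl⟩, hneN.symm, ?_, ?_⟩
    · intro C hC
      exact ⟨1, by rw [cj_one]; exact hC⟩
    · simpa using c.le
    · simpa using hA2
  obtain ⟨F, hFA, hFmax⟩ := Finite.exists_le_maximal (α := Set (Subgroup G)) (p := Cl A N) hCl
  have hAF : A ∈ F := hFA (Set.mem_singleton A)
  obtain ⟨hmem, p₁, p₂, hp1, hp2, hπ, hV1, hV2⟩ := hFmax.prop
  set V := sSup F with hV
  have atmost : ∀ D : Subgroup G, Mb A D → ∀ q₁ q₂ : Subgroup G, IsPt N q₁ → IsPt N q₂ → q₁ ≠ q₂ →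
      V ≤ q₁ → V ≤ q₂ → D ≤ q₁ → D ≤ q₂ → D ∈ F := by
    intro D hD q₁ q₂ h1 h2 h3 h4 h5 h6 h7
    have : Cl A N (insert D F) := by
      refine ⟨?_, q₁, q₂, h1, h2, h3, ?_, ?_⟩
      · rintro C (rfl | hC)
        · exact hD
        · exact hmem C hC
      · rw [sSup_insert]; exact sup_le h6 h4
      · rw [sSup_insert]; exact sup_le h7 h5
    exact hFmax.2 this (Set.subset_insert _ _) (Set.mem_insert _ _)
  have mem_of_le : ∀ D : Subgroup G, Mb A D → D ≤ V → D ∈ F := fun D hD hle =>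
    atmost D hD p₁ p₂ hp1 hp2 hπ hV1 hV2 (hle.trans hV1) (hle.trans hV2)
  have hco1 := hp1.coatom c
  have hco2 := hp2.coatom c
  have pairs : ∀ C C' : Subgroup G, C ∈ F → C' ∈ F → C ≠ C' → ∀ P P' : Subgroup G, MP A N C P → MP A N C' P' →
      P ≠ P' ∧ C' ≤ P ∧ C ≤ P' := by
    intro C C' hC hC' hCC P P' h h'
    exact mutual_pts c h h' hCC hco1 hco2 hπ ((le_sSup hC).trans hV1) ((le_sSup hC').trans hV1)
      ((le_sSup hC).trans hV2) ((le_sSup hC').trans hV2)
  have conj_fix : ∀ (τ : Subgroup G) (t : G) (C ω C₀ : Subgroup G), t ∈ τ → C ∈ F → MP A N C ω → ω ≠ τ →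
      cj t C ≤ V → C₀ ∈ F → MP A N C₀ τ → cj t C₀ = C₀ := by
    intro τ t C ω C₀ ht hC hω hωτ hcV hC₀ hC₀τ
    have hcτ : cj t τ = τ := cj_self_of_mem ht
    have hmp : MP A N (cj t C) (cj t ω) := hω.conj t
    have hCF : cj t C ∈ F := mem_of_le _ hmp.mb hcV
    have hωt : cj t ω ≠ τ := by
      intro e
      apply hωτ
      have h7 := congrArg (cj t⁻¹) e
      rw [cj_inv_cj, cj_self_of_mem (τ.inv_mem ht)] at h7
      exact h7
    have h8 : C₀ ≤ cj t ω := by
      by_cases e : C₀ = cj t C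
      · rw [e] at hC₀τ
        exact absurd (hC₀τ.uniq c hmp).symm hωt
      · exact (pairs _ _ hC₀ hCF e _ _ hC₀τ hmp).2.2
    have h9 : C₀ ≤ ω := by
      by_cases e : C₀ = C
      · rw [e] at hC₀τ
        exact absurd (hω.uniq c hC₀τ) hωτ
      · exact (pairs _ _ hC₀ hC e _ _ hC₀τ hω).2.2
    have h10 : cj t C₀ ≤ cj t ω := cj_mono h9
    have hmp₀ : MP A N (cj t C₀) τ := by
      have := hC₀τ.conj t
      rwa [hcτ] at this
    by_contra hnec
    have := mutual_pts c hmp₀ hC₀τ hnec (hC₀τ.coatom c) (hmp.coatom c) hωt.symm (hmp₀.le c) (hC₀τ.le c) h10 h8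
    exact this.1 rfl
  have hNtop : Subgroup.normalizer (V : Set G) ≠ ⊤ := by
    intro e
    have h7 : Nrm ⊤ V := nrm_of_le_normalizer (by rw [e])
    have h8 : ncl A ⊤ ≤ V := ncl_le (le_sSup hAF) h7
    rw [c.cl] at h8
    exact hco1.1 (top_le_iff.mp (h8.trans hV1))
  have dich : ∀ τ : Subgroup G, IsPt N τ → V ≤ τ → (∃ C ∈ F, ∃ ω, MP A N C ω ∧ ω ≠ τ) →
      (∃ z Q' : Subgroup G, MP A N z Q' ∧ Q' ≠ τ ∧ z ≤ τ ∧ z ∉ F ∧ Nrm z V) ∨
        Subgroup.normalizer (V : Set G) = τ := by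
    rintro τ hτ hVτ ⟨C, hC, ω, hω, hωτ⟩
    have hcoτ := hτ.coatom c
    let R : Set (Subgroup G) := {D | ∃ Q, MP A N D Q ∧ Q ≠ τ ∧ D ≤ τ}
    let Ft : Set (Subgroup G) := F ∩ R
    have hRcl : ∀ D ∈ R, ∀ t ∈ τ, cj t D ∈ R := by
      rintro D ⟨Q, hQ, hQτ, hD⟩ t ht
      refine ⟨cj t Q, hQ.conj t, ?_, ?_⟩
      · intro e
        apply hQτ
        have h7 := congrArg (cj t⁻¹) e
        rw [cj_inv_cj, cj_self_of_mem (τ.inv_mem ht)] at h7
        exact h7
      · have := cj_mono (g := t) hD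
        rwa [cj_self_of_mem ht] at this
    have hPτ : sSup R ≤ τ := by
      refine sSup_le ?_
      rintro D ⟨Q, _, _, hD⟩
      exact hD
    have hSnR : ∀ D ∈ R, Sn D τ := by
      rintro D ⟨Q, hQ, hQτ, hD⟩
      exact (hQ.dag c hcoτ.1 hD).resolve_left (fun h => hQτ (coatom_eq hcoτ (hQ.coatom c) h).symm)
    have hCR : C ∈ R := ⟨ω, hω, hωτ, (le_sSup hC).trans hVτ⟩
    have hCFt : C ∈ Ft := ⟨hC, hCR⟩
    have hSnV : Sn (sSup Ft) τ := sn_sSup hCFt (fun H hH => hSnR H hH.2)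
    have hVtP : sSup Ft ≤ sSup R := sSup_le_sSup Set.inter_subset_right
    have hVtV : sSup Ft ≤ V := sSup_le_sSup Set.inter_subset_left
    have hSnVP : Sn (sSup Ft) (sSup R) := hSnV.of_le hVtP hPτ
    by_cases hEq : sSup Ft = sSup R
    · have hnP : Nrm τ (sSup R) := nrm_sSup (fun k hk T hT => le_sSup (hRcl T hT k hk))
      have hnV : Nrm τ (sSup Ft) := by rw [hEq]; exact hnP
      by_cases hC₀ : ∃ C₀ ∈ F, MP A N C₀ τ
      · obtain ⟨C₀, h7, h8⟩ := hC₀
        exfalso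
        apply h8.nn c
        apply nrm_of_cj_le
        intro k hk
        have hck : cj k C ≤ V := ((cj_mono (le_sSup hCFt)).trans (cj_le_of_nrm hnV hk)).trans hVtV
        rw [conj_fix τ k C ω C₀ hk hC hω hωτ hck h7 h8]
      · right
        have hVV : V ≤ sSup Ft := by
          refine sSup_le fun D hD => le_sSup ⟨hD, ?_⟩
          obtain ⟨g', rfl⟩ := hmem D hD
          refine ⟨cj g' N, ⟨g', rfl, rfl⟩, ?_, (le_sSup hD).trans hVτ⟩
          intro e
          exact hC₀ ⟨_, hD, e ▸ ⟨g', rfl, rfl⟩⟩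
        have hVeq : sSup Ft = V := le_antisymm hVtV hVV
        have hnV' : Nrm τ V := by rw [← hVeq]; exact hnV
        have hle : τ ≤ Subgroup.normalizer (V : Set G) := le_normalizer_of_nrm hnV'
        by_contra hne'
        exact hNtop (hcoτ.2 _ (lt_of_le_of_ne hle (Ne.symm hne')))
    · left
      obtain ⟨z, hzR, hz1, hz2⟩ := exists_member (sSup R) R Ft rfl
        (fun M hM p hp => hRcl M hM p (hPτ hp)) Set.inter_subset_right hSnVP hEq
      obtain ⟨Q', hQ', hQ'τ, hzτ⟩ := hzR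
      refine ⟨z, Q', hQ', hQ'τ, hzτ, ?_, ?_⟩
      · intro hzF
        exact hz1 (le_sSup ⟨hzF, ⟨Q', hQ', hQ'τ, hzτ⟩⟩)
      · refine nrm_sSup ?_
        intro k hk T hT
        have hCk : cj k C ≤ sSup Ft := (cj_mono (le_sSup hCFt)).trans (cj_le_of_nrm hz2 hk)
        by_cases hTR : T ∈ R
        · exact ((cj_mono (le_sSup (show T ∈ Ft from ⟨hT, hTR⟩))).trans (cj_le_of_nrm hz2 hk)).trans hVtV
        · obtain ⟨g', hg'⟩ := hmem T hT
          have hmpT : MP A N T (cj g' N) := ⟨g', hg', rfl⟩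
          have hQτ : cj g' N = τ := by
            by_contra h'
            exact hTR ⟨_, hmpT, h', (le_sSup hT).trans hVτ⟩
          rw [hQτ] at hmpT
          rw [conj_fix τ k C ω T (hzτ hk) hC hω hωτ (hCk.trans hVtV) hT hmpT]
          exact le_sSup hT
  have htwo : ∃ C ∈ F, C ≠ A := by
    by_contra hcon
    push Not at hcon
    have hVA : V = A := le_antisymm (sSup_le fun C hC => (hcon C hC).le) (le_sSup hAF)
    have hNpt : IsPt N N := ⟨1, (cj_one N).symm⟩
    have hVN : V ≤ N := by rw [hVA]; exact c.le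
    obtain ⟨τ, hτ, hVτ, hτN⟩ : ∃ τ, IsPt N τ ∧ V ≤ τ ∧ τ ≠ N := by
      by_cases e : p₁ = N
      · exact ⟨p₂, hp2, hV2, fun e' => hπ (e.trans e'.symm)⟩
      · exact ⟨p₁, hp1, hV1, e⟩
    rcases dich τ hτ hVτ ⟨A, hAF, N, mp_self, hτN.symm⟩ with ⟨z, Q', a1, a2, a3, a4, a5⟩ | h
    · have hzN : z ≤ N := (mp_self (A := A) (N := N)).nrm c (by rw [← hVA]; exact a5)
      exact a4 (atmost z a1.mb τ N hτ hNpt hτN hVτ hVN a3 hzN)
    · have h7 : Nrm τ A := nrm_of_le_normalizer (by rw [← hVA, h])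
      have h8 := (mp_self (A := A) (N := N)).nrm c h7
      exact hτN (coatom_eq (hτ.coatom c) c.co h8)
  obtain ⟨C₁, hC₁, hC₁A⟩ := htwo
  obtain ⟨g₁, hg₁⟩ := hmem C₁ hC₁
  have hmp₁ : MP A N C₁ (cj g₁ N) := ⟨g₁, hg₁, rfl⟩
  have hF2 : ∀ τ : Subgroup G, ∃ C ∈ F, ∃ ω, MP A N C ω ∧ ω ≠ τ := by
    intro τ
    by_cases e : N = τ
    · refine ⟨C₁, hC₁, _, hmp₁, ?_⟩
      rw [← e]
      exact (pairs _ _ hC₁ hAF hC₁A _ _ hmp₁ mp_self).1
    · exact ⟨A, hAF, N, mp_self, e⟩
  rcases dich p₁ hp1 hV1 (hF2 p₁) with ⟨z₁, Q₁, a1, a2, a3, a4, a5⟩ | h₁ <;>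
    rcases dich p₂ hp2 hV2 (hF2 p₂) with ⟨z₂, Q₂, b1, b2, b3, b4, b5⟩ | h₂
  · have hz₁T : z₁ ≤ Subgroup.normalizer (V : Set G) := le_normalizer_of_nrm a5
    have hz₂T : z₂ ≤ Subgroup.normalizer (V : Set G) := le_normalizer_of_nrm b5
    have hVT : V ≤ Subgroup.normalizer (V : Set G) := le_normalizer_of_nrm (nrm_self V)
    rcases a1.dag c hNtop hz₁T with h | h
    · exact a4 (atmost z₁ a1.mb Q₁ p₁ a1.pt hp1 a2 (hVT.trans h) hV1 (a1.le c) a3)
    · have hfix : ∀ p : Subgroup G, IsPt N p → V ≤ p → z₁ ≤ p → p = p₁ := by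
        intro p hp hVp hzp
        by_contra hne'
        exact a4 (atmost z₁ a1.mb p p₁ hp hp1 hne' hVp hV1 hzp a3)
      have hle := sn_fix c hp1 hV1 a3 hfix h (nrm_of_le_normalizer le_rfl)
      exact b4 (atmost z₂ b1.mb p₁ p₂ hp1 hp2 hπ hV1 hV2 (hz₂T.trans hle) b3)
  · have hz₁T : z₁ ≤ p₂ := by rw [← h₂]; exact le_normalizer_of_nrm a5
    exact a4 (atmost z₁ a1.mb p₁ p₂ hp1 hp2 hπ hV1 hV2 a3 hz₁T)
  · have hz₂T : z₂ ≤ p₁ := by rw [← h₁]; exact le_normalizer_of_nrm b5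
    exact b4 (atmost z₂ b1.mb p₁ p₂ hp1 hp2 hπ hV1 hV2 hz₂T b3)
  · exact hπ (h₁.symm.trans h₂)

theorem ncl_cj (x : G) (X T : Subgroup G) : cj x (ncl X T) ≤ ncl (cj x X) (cj x T) := by
  intro y hy
  rw [mem_cj] at hy
  have hle : ncl X T ≤ (ncl (cj x X) (cj x T)).comap (MulAut.conj x).toMonoidHom := by
    refine sSup_le ?_
    rintro C ⟨t, ht, rfl⟩
    intro y₀ hy₀
    rw [mem_cj] at hy₀
    have h1 : x * t * x⁻¹ ∈ cj x T := conj_mem_cj ht
    have h2 : cj (x * t * x⁻¹) (cj x X) ≤ ncl (cj x X) (cj x T) := cj_le_ncl h1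
    have h3 : x * y₀ * x⁻¹ ∈ cj (x * t * x⁻¹) (cj x X) := by
      rw [mem_cj, mem_cj]
      convert hy₀ using 1
      group
    simpa [Subgroup.mem_comap] using h2 h3
  have := hle hy
  simpa [Subgroup.mem_comap, mul_assoc] using this

theorem cj_yy_mem {A : Subgroup G} {x y : G} (hx : cj x A = A) (hy : y ∈ Yy A) : x * y * x⁻¹ ∈ Yy A := by
  have hle : Yy A ≤ (Yy A).comap (MulAut.conj x).toMonoidHom := by
    refine sSup_le ?_
    rintro H ⟨h1, h2, h3⟩ h hh
    have hF : cj x H ∈ Fam A := by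
      refine ⟨?_, fun e => h2 (cj_eq_top e), ?_⟩
      · rw [← hx]; exact cj_mono h1
      · apply le_antisymm
        · apply ncl_le_self
          rw [← hx]; exact cj_mono h1
        · have h4 := ncl_cj x A H
          rw [h3, hx] at h4
          exact h4
    have h6 : x * h * x⁻¹ ∈ Yy A := (le_sSup hF : cj x H ≤ Yy A) (conj_mem_cj hh)
    have h7 : (MulAut.conj x).toMonoidHom h = x * h * x⁻¹ := by simp
    show (MulAut.conj x).toMonoidHom h ∈ Yy A
    rw [h7]
    exact h6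
  have h8 : (MulAut.conj x).toMonoidHom y ∈ Yy A := hle hy
  have h9 : (MulAut.conj x).toMonoidHom y = x * y * x⁻¹ := by simp
  rwa [h9] at h8

theorem main_thm (A : Subgroup G) : A ≠ ⊤ → ncl A ⊤ = ⊤ → Goal A := by
  induction' hn : Nat.card G - Nat.card A using Nat.strong_induction_on with n IHn generalizing A
  intro hA hcl
  by_cases hY : Yy A = ⊤
  · exact Or.inl hY
  right
  have IH : ∀ B : Subgroup G, Nat.card A < Nat.card B → B ≠ ⊤ → ncl B ⊤ = ⊤ → Goal B := by
    intro B h1 h2 h3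
    have hB : Nat.card B ≤ Nat.card G := Subgroup.card_le_card_group B
    exact IHn (Nat.card G - Nat.card B) (by omega) B rfl h2 h3
  obtain ⟨N, ⟨hN, hYN⟩, huniq⟩ := zipper (Yy A) (fun T hT hle => yy_sn hA hT hle) (yy_not_sn hA hcl hY)
  have hAY : A ≤ Yy A := le_yy hA
  refine ⟨N, ⟨hN, hAY.trans hYN⟩, ?_⟩
  rintro M ⟨hM, hAM⟩
  by_contra hne
  have hfam : ∀ S : Subgroup G, A < S → S ≠ ⊤ → ncl A S = S → ∀ T : Subgroup G, T ≠ ⊤ → S ≤ T → T ≤ N := by
    intro S hAS hS hSc T hT hST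
    have hSY : S ≤ Yy A := le_sSup ⟨hAS.le, hS, hSc⟩
    have hscl : ncl S ⊤ = ⊤ := by
      have h5 : ncl A ⊤ ≤ ncl S ⊤ := ncl_mono hAS.le le_rfl
      rw [hcl] at h5
      exact top_le_iff.mp h5
    have hGoal := IH S (card_lt hAS) hS hscl
    have hYS : Yy S ≠ ⊤ := by
      intro e
      apply hY
      rw [eq_top_iff, ← e]
      refine sSup_le ?_
      rintro H ⟨h1, h2, h3⟩
      refine le_sSup ⟨hAS.le.trans h1, h2, ?_⟩
      apply le_antisymm (ncl_le_self (hAS.le.trans h1))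
      have h4 : ncl S H ≤ ncl A H := by
        refine ncl_le ?_ (nrm_ncl _ _)
        rw [← hSc]
        exact ncl_mono le_rfl h1
      rwa [h3] at h4
    rcases hGoal with h1 | h1
    · exact absurd h1 hYS
    · obtain ⟨M', hM', hle⟩ := (eq_top_or_exists_le_coatom T).resolve_left hT
      have := h1.unique ⟨hM', hST.trans hle⟩ ⟨hN, hSY.trans hYN⟩
      rw [← this]
      exact hle
  refine no_second (A := A) (N := N) ⟨hA, hcl, hN, hAY.trans hYN, ?_, ?_, ?_, IH⟩ hM hAM hne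
  · intro T hT hAT
    obtain ⟨S, h1, h2, h3, h4⟩ := exists_closed T A hAT
    by_cases hAS : A = S
    · right
      rw [hAS]
      exact h4
    · left
      have hSne : S ≠ ⊤ := fun e => hT (top_le_iff.mp (e ▸ h2))
      exact hfam S (lt_of_le_of_ne h1 hAS) hSne h3 T hT h2
  · intro x hx
    have hnz : Subgroup.normalizer ((Yy A : Subgroup G) : Set G) ≠ ⊤ := by
      intro e
      have h7 : Nrm ⊤ (Yy A) := nrm_of_le_normalizer (by rw [e])
      have h8 : ncl A ⊤ ≤ Yy A := ncl_le hAY h7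
      rw [hcl] at h8
      exact hY (top_le_iff.mp h8)
    obtain ⟨M', hM', hle⟩ := (eq_top_or_exists_le_coatom _).resolve_left hnz
    have hYle : Yy A ≤ M' := (le_normalizer_of_nrm (nrm_self (Yy A))).trans hle
    have hM'N : M' = N := huniq M' ⟨hM', hYle⟩
    rw [← hM'N]
    apply hle
    rw [Subgroup.mem_normalizer_iff]
    intro y
    constructor
    · intro hy
      exact cj_yy_mem hx hy
    · intro hy
      have hx' : cj x⁻¹ A = A := by
        conv_lhs => rw [← hx]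
        exact cj_inv_cj x A
      have := cj_yy_mem hx' hy
      simpa [mul_assoc] using this
  · intro h
    apply hne
    have h1 : Sn A N := Sn.step (Sn.refl A) (hAY.trans hYN) h
    have h2 : Sn A (Yy A) := h1.of_le hAY hYN
    have h3 := closed_sn_eq (yy_closed hA) h2 le_rfl
    exact huniq M ⟨hM, by rw [← h3]; exact hAM⟩

theorem ncl_iff {A H : Subgroup G} (h : A ≤ H) :
    Subgroup.normalClosure ((A.subgroupOf H : Subgroup ↥H) : Set ↥H) = ⊤ ↔ ncl A H = H := by
  constructor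
  · intro hc
    apply le_antisymm (ncl_le_self h)
    have hn : ((ncl A H).subgroupOf H).Normal := by
      refine ⟨fun n hn g => ?_⟩
      rw [Subgroup.mem_subgroupOf] at hn ⊢
      exact nrm_ncl A H g g.2 n hn
    have hle : Subgroup.normalClosure ((A.subgroupOf H : Subgroup ↥H) : Set ↥H) ≤ (ncl A H).subgroupOf H := by
      apply Subgroup.normalClosure_le_normal
      intro x hx
      exact le_ncl A H hx
    rw [hc] at hle
    intro x hx
    exact hle (Subgroup.mem_top (⟨x, hx⟩ : H))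
  · intro hc
    rw [eq_top_iff]
    rintro ⟨x, hx⟩ _
    rw [← hc] at hx
    have hle : ncl A H ≤ (Subgroup.normalClosure ((A.subgroupOf H : Subgroup ↥H) : Set ↥H)).map H.subtype := by
      refine sSup_le ?_
      rintro C ⟨t, ht, rfl⟩
      rintro y ⟨a, ha, rfl⟩
      have h1 : (⟨a, h ha⟩ : H) ∈ Subgroup.normalClosure ((A.subgroupOf H : Subgroup ↥H) : Set ↥H) :=
        Subgroup.subset_normalClosure ha
      have h2 := (Subgroup.normalClosure_normal).conj_mem _ h1 ⟨t, ht⟩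
      exact ⟨_, h2, by simp⟩
    obtain ⟨⟨y, hy⟩, hy1, hy2⟩ := hle hx
    simp only [Subgroup.subtype_apply] at hy2
    subst hy2
    exact hy1

theorem result_core (A : Subgroup G) (hA : Subgroup.normalClosure (A : Set G) = ⊤) (hAG : A ≠ ⊤) :
    sSup {H : Subgroup G | A ≤ H ∧ H ≠ ⊤ ∧ Subgroup.normalClosure ((A.subgroupOf H : Subgroup ↥H) : Set ↥H) = ⊤} = ⊤ ∨
      ∃! M : Subgroup G, IsCoatom M ∧ A ≤ M := by
  have hcl : ncl A ⊤ = ⊤ := by
    have hn : (ncl A ⊤).Normal := by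
      refine ⟨fun n hn g => ?_⟩
      exact nrm_ncl A ⊤ g (Subgroup.mem_top g) n hn
    have hle : Subgroup.normalClosure (A : Set G) ≤ ncl A ⊤ :=
      Subgroup.normalClosure_le_normal (le_ncl A ⊤)
    rw [hA] at hle
    exact top_le_iff.mp hle
  have hset : {H : Subgroup G | A ≤ H ∧ H ≠ ⊤ ∧ Subgroup.normalClosure ((A.subgroupOf H : Subgroup ↥H) : Set ↥H) = ⊤} = Fam A := by
    ext H
    constructor
    · rintro ⟨h1, h2, h3⟩
      exact ⟨h1, h2, (ncl_iff h1).mp h3⟩
    · rintro ⟨h1, h2, h3⟩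
      exact ⟨h1, h2, (ncl_iff h1).mpr h3⟩
  rw [hset]
  exact main_thm A hAG hcl

end finite


/-- Let G be a finite group and A a proper subgroup of G whose normal closure is G. Let Y be the join of all proper subgroups H of G that contain A and are generated by their own conjugates of A (the normal closure of A in H is H). Then either Y = G, or A is contained in exactly one maximal subgroup of G. -/
theorem result {G : Type*} [Group G] [Finite G] (A : Subgroup G) (hA : Subgroup.normalClosure (A : Set G) = ⊤) (hAG : A ≠ ⊤) :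
    sSup {H : Subgroup G | A ≤ H ∧ H ≠ ⊤ ∧ Subgroup.normalClosure ((A.subgroupOf H : Subgroup ↥H) : Set ↥H) = ⊤} = ⊤ ∨
      ∃! M : Subgroup G, IsCoatom M ∧ A ≤ M := by
  exact result_core A hA hAG

end Cfsg.Agent.S3947
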