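import Cfsg.Statements.S3927
import Cfsg.Agent.S3947

set_option autoImplicit false
open Cfsg

namespace Cfsg.Agent.S3927

open Cfsg.Agent.S3947 SemidirectProduct

universe u

/-- the commutator map -/
def ph {G : Type u} [Group G] (α : MulAut G) (c : G) : G := c * (α c)⁻¹

/-- the holomorph-type extension by the cyclic group generated by `α` -/
abbrev Gam {G : Type u} [Group G] (α : MulAut G) : Type u :=
  G ⋊[(Subgroup.zpowers α).subtype] (Subgroup.zpowers α)

/-- the element `α` of the extension -/
def aa {G : Type u} [Group G] (α : MulAut G) : Gam α := inr ⟨α, Subgroup.mem_zpowers α⟩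

section
variable {G : Type u} [Group G] {α : MulAut G}

theorem inv_all {X : Subgroup G} (h1 : ∀ x ∈ X, α x ∈ X) (h2 : ∀ x ∈ X, α⁻¹ x ∈ X) :
    ∀ β ∈ Subgroup.zpowers α, ∀ x ∈ X, β x ∈ X := by
  rintro β ⟨n, rfl⟩
  induction n using Int.induction_on with
  | zero => intro x hx; simpa using hx
  | succ i ih =>
    intro x hx
    have e : (α ^ ((i : ℤ) + 1)) x = (α ^ (i : ℤ)) (α x) := by
      rw [zpow_add_one]; rfl
    simp only at ih ⊢
    rw [e]
    exact ih _ (h1 x hx)
  | pred i ih =>
    intro x hx
    have e : (α ^ (-(i : ℤ) - 1)) x = (α ^ (-(i : ℤ))) (α⁻¹ x) := by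
      rw [zpow_sub_one]; rfl
    simp only at ih ⊢
    rw [e]
    exact ih _ (h2 x hx)

/-- the elements of the extension whose `G`-coordinate lies in an invariant subgroup -/
def SS (α : MulAut G) (X : Subgroup G) (hX : ∀ β ∈ Subgroup.zpowers α, ∀ x ∈ X, β x ∈ X) :
    Subgroup (Gam α) where
  carrier := {y | y.left ∈ X}
  mul_mem' := by
    intro a b ha hb
    exact X.mul_mem ha (hX _ a.right.2 _ hb)
  one_mem' := X.one_mem
  inv_mem' := by
    intro a ha
    exact hX _ (a.right⁻¹).2 _ (X.inv_mem ha)

theorem inv_closure {S : Set G} (f : G →* G) (h : ∀ s ∈ S, f s ∈ Subgroup.closure S) :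
    ∀ x ∈ Subgroup.closure S, f x ∈ Subgroup.closure S := by
  have : Subgroup.closure S ≤ (Subgroup.closure S).comap f := by
    rw [Subgroup.closure_le]
    intro s hs
    exact h s hs
  exact fun x hx => this hx

theorem ph_comm (c : G) : α (ph α c) = ph α (α c) := by
  simp [ph]

theorem ph_comm_inv (c : G) : α⁻¹ (ph α c) = ph α (α⁻¹ c) := by
  simp [ph, MulAut.inv_apply]

theorem iter_comm (k : ℕ) (c : G) : α ((ph α)^[k] c) = (ph α)^[k] (α c) := by
  induction k with
  | zero => rfl
  | succ k ih => rw [Function.iterate_succ_apply', Function.iterate_succ_apply', ph_comm, ih]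

theorem iter_comm_inv (k : ℕ) (c : G) : α⁻¹ ((ph α)^[k] c) = (ph α)^[k] (α⁻¹ c) := by
  have h : α ((ph α)^[k] (α⁻¹ c)) = (ph α)^[k] c := by
    rw [iter_comm]; simp
  rw [← h]
  simp

/-- restriction of `α` to an invariant subgroup -/
def resAut (α : MulAut G) (K : Subgroup G) (h1 : ∀ x ∈ K, α x ∈ K) (h2 : ∀ x ∈ K, α⁻¹ x ∈ K) : MulAut K where
  toFun x := ⟨α x, h1 _ x.2⟩
  invFun x := ⟨α⁻¹ x, h2 _ x.2⟩
  left_inv x := by ext; simp
  right_inv x := by ext; simp
  map_mul' x y := by ext; simp

theorem coe_iter {K : Subgroup G} (h1 : ∀ x ∈ K, α x ∈ K) (h2 : ∀ x ∈ K, α⁻¹ x ∈ K) (k : ℕ) (c : K) :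
    (((ph (resAut α K h1 h2))^[k] c : K) : G) = (ph α)^[k] (c : G) := by
  induction k with
  | zero => rfl
  | succ k ih =>
    rw [Function.iterate_succ_apply', Function.iterate_succ_apply', ← ih]
    rfl

theorem inr_mem (r : Subgroup.zpowers α) : (inr r : Gam α) ∈ Subgroup.zpowers (aa α) := by
  obtain ⟨β, n, rfl⟩ := r
  refine ⟨n, ?_⟩
  simp only [aa]
  rw [← map_zpow]
  rfl

theorem inl_mem_of {H : Subgroup (Gam α)} (hA : Subgroup.zpowers (aa α) ≤ H) {y : Gam α} (hy : y ∈ H) :
    (inl y.left : Gam α) ∈ H := by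
  have e := inl_left_mul_inr_right y
  have e' : (inl y.left : Gam α) = y * (inr y.right)⁻¹ := by
    rw [eq_mul_inv_iff_mul_eq]; exact e
  rw [e']
  exact H.mul_mem hy (H.inv_mem (hA (inr_mem _)))

theorem top_of {H : Subgroup (Gam α)} (hA : Subgroup.zpowers (aa α) ≤ H)
    (h : ∀ g : G, (inl g : Gam α) ∈ H) : H = ⊤ := by
  rw [eq_top_iff]
  intro y _
  rw [← inl_left_mul_inr_right y]
  exact H.mul_mem (h _) (hA (inr_mem _))

theorem left_conj_a (h : Gam α) : (h * aa α * h⁻¹).left = ph α h.left := by
  obtain ⟨g, r⟩ := h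
  obtain ⟨β, n, rfl⟩ := r
  have hc : α ^ n * α = α * α ^ n := (Commute.zpow_left (Commute.refl α) n)
  have e : ∀ x : G, (α ^ n * α) ((α ^ n)⁻¹ x) = α x := by
    intro x
    rw [hc]
    simp [MulAut.mul_apply]
  simp [aa, ph, mul_left, inv_left, mul_right, left_inr, right_inr]
  have := e (g⁻¹)
  simpa [MulAut.mul_apply] using this

theorem conj_eq (c : G) : (inl c : Gam α) * aa α * (inl c)⁻¹ * (aa α)⁻¹ = inl (ph α c) := by
  ext
  · simp [aa, ph, mul_left, inv_left, mul_right, left_inr, right_inr]
  · simp [aa, mul_right, inv_right, right_inr]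

theorem self_norm_pt {Γ : Type u} [Group Γ] [Finite Γ] {A N : Subgroup Γ} (hcl : ncl A ⊤ = ⊤) (hN : IsCoatom N)
    (hAN : A ≤ N) {x : Γ} (hx : cj x N = N) : x ∈ N := by
  have hne : Subgroup.normalizer (N : Set Γ) ≠ ⊤ := by
    intro e
    have h1 : Nrm ⊤ N := nrm_of_le_normalizer (by rw [e])
    have h2 : ncl A ⊤ ≤ N := ncl_le hAN h1
    rw [hcl] at h2
    exact hN.1 (top_le_iff.mp h2)
  have hQ : N = Subgroup.normalizer (N : Set Γ) := by
    by_contra hne'
    exact hne (hN.2 _ (lt_of_le_of_ne (le_normalizer_of_nrm (nrm_self N)) hne'))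
  rw [hQ, Subgroup.mem_normalizer_iff]
  intro y
  constructor
  · intro hy
    have := conj_mem_cj (g := x) hy
    rwa [hx] at this
  · intro hy
    rw [← hx, mem_cj] at hy
    simpa [mul_assoc] using hy

end

theorem main_k (n : ℕ) : ∀ (G : Type u) [Group G] [Finite G], Nat.card G = n → ∀ α : MulAut G,
    Subgroup.closure (Set.range (ph α)) = ⊤ → ∀ k : ℕ, 1 ≤ k →
    Subgroup.closure (Set.range ((ph α)^[k])) = ⊤ := by
  induction n using Nat.strong_induction_on with
  | _ n IH =>
  intro G _ _ hn α hG k hk
  have hfin : Finite (Gam α) := by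
    have e : Gam α ≃ G × Subgroup.zpowers α := SemidirectProduct.equivProd
    exact Finite.of_equiv _ e.symm
  -- the subgroup A
  set A : Subgroup (Gam α) := Subgroup.zpowers (aa α) with hAdef
  have haA : aa α ∈ A := Subgroup.mem_zpowers _
  have haleft : ∀ y ∈ A, y.left = 1 := by
    rintro y ⟨m, rfl⟩
    simp only [aa]
    rw [← map_zpow]
    rfl
  by_cases hAt : A = ⊤
  · have hsub : ∀ g : G, g = 1 := by
      intro g
      have := haleft (inl g) (by rw [hAt]; exact Subgroup.mem_top _)
      simpa using this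
    rw [eq_top_iff]
    intro x _
    rw [hsub x]
    exact Subgroup.one_mem _
  have hcl : ncl A ⊤ = ⊤ := by
    apply top_of (le_ncl A ⊤)
    have hK : ∀ c : G, (inl (ph α c) : Gam α) ∈ ncl A ⊤ := by
      intro c
      rw [← conj_eq]
      have h1 : aa α ∈ ncl A ⊤ := le_ncl A ⊤ haA
      have h2 := nrm_ncl A ⊤ (inl c) (Subgroup.mem_top _) _ h1
      exact Subgroup.mul_mem _ h2 (Subgroup.inv_mem _ h1)
    have hle : Subgroup.closure (Set.range (ph α)) ≤ (ncl A ⊤).comap (inl : G →* Gam α) := by
      rw [Subgroup.closure_le]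
      rintro _ ⟨c, rfl⟩
      exact hK c
    rw [hG] at hle
    intro g
    exact hle (Subgroup.mem_top g)
  have hXinv : ∀ j : ℕ, ∀ β ∈ Subgroup.zpowers α, ∀ x ∈ Subgroup.closure (Set.range ((ph α)^[j])), β x ∈ Subgroup.closure (Set.range ((ph α)^[j])) := by
    intro j
    apply inv_all
    · apply inv_closure α.toMonoidHom
      rintro _ ⟨c, rfl⟩
      apply Subgroup.subset_closure
      exact ⟨α c, (iter_comm j c).symm⟩
    · apply inv_closure (α⁻¹).toMonoidHom
      rintro _ ⟨c, rfl⟩
      apply Subgroup.subset_closure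
      exact ⟨α⁻¹ c, (iter_comm_inv j c).symm⟩
  rcases main_thm A hAt hcl with hY | hU
  · -- the join is everything
    set X := Subgroup.closure (Set.range ((ph α)^[k])) with hX
    have hAX : A ≤ SS α X (hXinv k) := by
      intro y hy
      show y.left ∈ X
      rw [haleft y hy]
      exact X.one_mem
    have hfam : ∀ H ∈ Fam A, H ≤ SS α X (hXinv k) := by
      rintro H ⟨hAH, hHne, hHc⟩
      let K : Subgroup G := H.comap (inl : G →* Gam α)
      have haH : aa α ∈ H := hAH haA
      have hK1 : ∀ x ∈ K, α x ∈ K := by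
        intro x hx
        show (inl (α x) : Gam α) ∈ H
        have e : (inl (α x) : Gam α) = aa α * inl x * (aa α)⁻¹ := by
          have := inl_aut (φ := (Subgroup.zpowers α).subtype) ⟨α, Subgroup.mem_zpowers α⟩ x
          simpa [aa] using this
        rw [e]
        exact H.mul_mem (H.mul_mem haH hx) (H.inv_mem haH)
      have hK2 : ∀ x ∈ K, α⁻¹ x ∈ K := by
        intro x hx
        show (inl (α⁻¹ x) : Gam α) ∈ H
        have e : (inl (α⁻¹ x) : Gam α) = (aa α)⁻¹ * inl x * aa α := by
          have := inl_aut_inv (φ := (Subgroup.zpowers α).subtype) ⟨α, Subgroup.mem_zpowers α⟩ x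
          simpa [aa] using this
        rw [e]
        exact H.mul_mem (H.mul_mem (H.inv_mem haH) hx) haH
      have hKne : K ≠ ⊤ := by
        intro e
        apply hHne
        apply top_of hAH
        intro g
        have : g ∈ K := by rw [e]; exact Subgroup.mem_top g
        exact this
      -- the commutator subgroup of K
      let W : Subgroup G := Subgroup.closure (ph α '' (K : Set G))
      have hWinv : ∀ β ∈ Subgroup.zpowers α, ∀ x ∈ W, β x ∈ W := by
        apply inv_all
        · apply inv_closure α.toMonoidHom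
          rintro _ ⟨c, hc, rfl⟩
          apply Subgroup.subset_closure
          exact ⟨α c, hK1 c hc, (ph_comm c).symm⟩
        · apply inv_closure (α⁻¹).toMonoidHom
          rintro _ ⟨c, hc, rfl⟩
          apply Subgroup.subset_closure
          exact ⟨α⁻¹ c, hK2 c hc, (ph_comm_inv c).symm⟩
      have hHW : H ≤ SS α W hWinv := by
        rw [← hHc]
        refine sSup_le ?_
        rintro C ⟨h, hh, rfl⟩
        intro y hy
        rw [mem_cj] at hy
        obtain ⟨m, hm⟩ := hy
        have hy' : y = (h * aa α * h⁻¹) ^ m := by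
          rw [conj_zpow]
          have : (aa α) ^ m = h⁻¹ * y * h := hm
          rw [this]
          group
        rw [hy']
        apply Subgroup.zpow_mem
        show (h * aa α * h⁻¹).left ∈ W
        rw [left_conj_a]
        exact Subgroup.subset_closure ⟨h.left, inl_mem_of hAH hh, rfl⟩
      have hKW : ∀ g ∈ K, g ∈ W := by
        intro g hg
        have : (inl g : Gam α) ∈ SS α W hWinv := hHW hg
        exact this
      have hgen : Subgroup.closure (Set.range (ph (resAut α K hK1 hK2))) = ⊤ := by
        rw [eq_top_iff]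
        rintro ⟨g, hg⟩ _
        have h1 : W ≤ (Subgroup.closure (Set.range (ph (resAut α K hK1 hK2)))).map K.subtype := by
          rw [Subgroup.closure_le]
          rintro _ ⟨c, hc, rfl⟩
          exact ⟨ph (resAut α K hK1 hK2) ⟨c, hc⟩, Subgroup.subset_closure ⟨_, rfl⟩, rfl⟩
        obtain ⟨⟨y, hy⟩, hy1, hy2⟩ := h1 (hKW g hg)
        simp only [Subgroup.subtype_apply] at hy2
        subst hy2
        exact hy1
      have hcard : Nat.card K < n := by
        rw [← hn]
        have := card_lt (lt_of_le_of_ne le_top hKne)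
        simpa using this
      have hIH := IH _ hcard K rfl (resAut α K hK1 hK2) hgen k hk
      have hKX : ∀ g ∈ K, g ∈ X := by
        intro g hg
        have h1 : (⟨g, hg⟩ : K) ∈ Subgroup.closure (Set.range ((ph (resAut α K hK1 hK2))^[k])) := by
          rw [hIH]; exact Subgroup.mem_top _
        have h2 : (Subgroup.closure (Set.range ((ph (resAut α K hK1 hK2))^[k]))).map K.subtype ≤ X := by
          rw [Subgroup.map_le_iff_le_comap, Subgroup.closure_le]
          rintro _ ⟨c, rfl⟩
          show (((ph (resAut α K hK1 hK2))^[k] c : K) : G) ∈ X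
          rw [coe_iter]
          exact Subgroup.subset_closure ⟨_, rfl⟩
        exact h2 ⟨_, h1, rfl⟩
      intro y hy
      exact hKX _ (inl_mem_of hAH hy)
    have hT : SS α X (hXinv k) = ⊤ := by
      rw [eq_top_iff, ← hY]
      exact sSup_le hfam
    rw [eq_top_iff]
    intro g _
    have : (inl g : Gam α) ∈ SS α X (hXinv k) := by rw [hT]; exact Subgroup.mem_top _
    exact this
  · -- unique maximal subgroup
    obtain ⟨N, ⟨hN, hAN⟩, huniq⟩ := hU
    induction k, hk using Nat.le_induction with
    | base =>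
      simpa using hG
    | succ j hj ih =>
      by_contra hne
      set X := Subgroup.closure (Set.range ((ph α)^[j + 1])) with hX
      have hTne : SS α X (hXinv (j + 1)) ≠ ⊤ := by
        intro e
        apply hne
        rw [eq_top_iff]
        intro g _
        have : (inl g : Gam α) ∈ SS α X (hXinv (j + 1)) := by rw [e]; exact Subgroup.mem_top _
        exact this
      obtain ⟨M, hM, hle⟩ := (eq_top_or_exists_le_coatom _).resolve_left hTne
      have hAT : A ≤ SS α X (hXinv (j + 1)) := by
        intro y hy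
        show y.left ∈ X
        rw [haleft y hy]
        exact X.one_mem
      have hMN : M = N := huniq M ⟨hM, hAT.trans hle⟩
      rw [hMN] at hle
      have hd : ∀ c : G, (inl ((ph α)^[j] c) : Gam α) ∈ N := by
        intro c
        set d := (ph α)^[j] c with hd
        have h1 : ((inl d : Gam α) * aa α * (inl d)⁻¹) ∈ SS α X (hXinv (j + 1)) := by
          show ((inl d : Gam α) * aa α * (inl d)⁻¹).left ∈ X
          rw [left_conj_a]
          apply Subgroup.subset_closure
          refine ⟨c, ?_⟩
          rw [Function.iterate_succ_apply']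
          rfl
        have h2 := hle h1
        have hc : IsCoatom (cj (inl d : Gam α)⁻¹ N) := isCoatom_cj _ hN
        have hA' : A ≤ cj (inl d : Gam α)⁻¹ N := by
          rw [Subgroup.zpowers_le]
          rw [mem_cj]
          simpa [mul_assoc] using h2
        have hE : cj (inl d : Gam α)⁻¹ N = N := huniq _ ⟨hc, hA'⟩
        have := self_norm_pt hcl hN hAN hE
        simpa using N.inv_mem this
      have hNtop : N = ⊤ := by
        apply top_of hAN
        have hle2 : Subgroup.closure (Set.range ((ph α)^[j])) ≤ N.comap (inl : G →* Gam α) := by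
          rw [Subgroup.closure_le]
          rintro _ ⟨c, rfl⟩
          exact hd c
        rw [ih] at hle2
        intro g
        exact hle2 (Subgroup.mem_top g)
      exact hN.1 hNtop

/-- Let G be a finite group and α an automorphism of G with [G, α] = G, that is, the elements g·α(g)⁻¹ generate G. Then for every k ≥ 1 the iterated commutators [g, α, …, α] with k entries α — the values of the k-th iterate of the map c ↦ c·α(c)⁻¹ — also generate G. -/
theorem result {G : Type*} [Group G] [Finite G] (α : MulAut G) (hG : Subgroup.closure (Set.range (fun c : G => c * (α c)⁻¹)) = ⊤) (k : ℕ) (hk : 1 ≤ k) :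
    Subgroup.closure (Set.range ((fun c : G => c * (α c)⁻¹)^[k])) = ⊤ := by
  exact main_k _ G rfl α hG k hk

end Cfsg.Agent.S3927
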