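import Cfsg.Statements.S3937
-- import your own Cfsg.Agent.* helpers here
import Mathlib
import Cfsg.Agent.Lib.Coprime.Wielandt
import Cfsg.Agent.Lib.Basic.Nilpotent
import Cfsg.Agent.Lib.Components.Basic

set_option autoImplicit false
open Cfsg

namespace Cfsg.Agent.S3937

open Subgroup Cfsg.Agent.Lib.Coprime Cfsg.Agent.Lib.Coprime.Wielandt

theorem fold_eq {G : Type*} [Group G] (g x : G) (n : ℕ) :
    (List.replicate n g).foldl (fun a b => a * b * a⁻¹ * b⁻¹) x = (fun a => a * g * a⁻¹ * g⁻¹)^[n] x := by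
  induction n generalizing x with
  | zero => rfl
  | succ n ih =>
    rw [List.replicate_succ, List.foldl_cons, ih, Function.iterate_succ_apply]

theorem engel_aux {G : Type*} [Group G] [Finite G] : ∀ (n : ℕ) (L : Subgroup G), Nat.card L = n → ∀ g ∈ L,
    (∀ x ∈ L, ∃ k : ℕ, (fun a => a * g * a⁻¹ * g⁻¹)^[k] x = 1) → SnIn L (zpowers g) := by
  intro n
  induction n using Nat.strong_induction_on with
  | _ n IH =>
  intro L hn g hgL hE
  by_contra hns
  have hHL : zpowers g ≤ L := by
    rw [zpowers_le]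
    exact hgL
  have hP : ∀ K : Subgroup G, zpowers g ≤ K → K < L → SnIn K (zpowers g) := by
    intro K hHK hKL
    have hcard : Nat.card K < n := hn ▸ card_lt_of_lt' hKL
    exact IH _ hcard K rfl g (zpowers_le.mp hHK) (fun x hx => hE x (hKL.le hx))
  obtain ⟨M, ⟨hM, hHM⟩, hu⟩ := zipper L (zpowers g) hHL hP hns
  have hgM : g ∈ M := zpowers_le.mp hHM
  obtain ⟨x, hxL, hxM⟩ := SetLike.exists_of_lt hM.1
  -- the last term of the Engel chain outside `M`
  have hc : ∀ a ∈ L, a * g * a⁻¹ * g⁻¹ ∈ L := fun a ha =>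
    mul_mem (mul_mem (mul_mem ha hgL) (inv_mem ha)) (inv_mem hgL)
  have hchainL : ∀ k : ℕ, (fun a => a * g * a⁻¹ * g⁻¹)^[k] x ∈ L := by
    intro k
    induction k with
    | zero => exact hxL
    | succ k ih =>
      rw [Function.iterate_succ_apply']
      exact hc _ ih
  obtain ⟨k, hk⟩ := hE x hxL
  have hex : ∃ k : ℕ, (fun a => a * g * a⁻¹ * g⁻¹)^[k] x ∈ M := ⟨k, hk ▸ one_mem M⟩
  classical
  have hfind := Nat.find_spec hex
  have hmin := fun m => Nat.find_min hex (m := m)
  obtain ⟨j, hj⟩ : ∃ j, Nat.find hex = j + 1 := by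
    cases h : Nat.find hex with
    | zero =>
      rw [h] at hfind
      exact absurd hfind hxM
    | succ j => exact ⟨j, rfl⟩
  rw [hj, Function.iterate_succ_apply'] at hfind
  have hjM := hmin j (by omega)
  obtain ⟨y, hy⟩ : ∃ y, y = (fun a => a * g * a⁻¹ * g⁻¹)^[j] x := ⟨_, rfl⟩
  rw [← hy] at hfind hjM
  have hyL : y ∈ L := hy ▸ hchainL j
  have h1 : y * g * y⁻¹ * g⁻¹ ∈ M := hfind
  have h2 : y * g * y⁻¹ ∈ M := by
    have := mul_mem h1 hgM
    simpa using this
  have h3 : zpowers g ≤ Cj y⁻¹ M := by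
    rw [zpowers_le, mem_cj, inv_inv]
    exact h2
  have h4 := hu _ ⟨hM.conj (inv_mem hyL), h3⟩
  have h5 : y⁻¹ ∈ normalizer (M : Set G) := (conj_map_eq_iff_mem_normalizer M _).mp h4
  have h6 : y ∈ normalizer (M : Set G) := by simpa using inv_mem h5
  have hLM : L ≤ normalizer (M : Set G) := by
    by_contra hnot
    have h7 : normalizer (M : Set G) ⊓ L < L := by
      refine lt_of_le_of_ne inf_le_right ?_
      intro h
      exact hnot (inf_eq_right.mp h)
    have h8 := hM.2 _ (le_inf le_normalizer hM.1.le) h7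
    have h9 : y ∈ normalizer (M : Set G) ⊓ L := Subgroup.mem_inf.mpr ⟨h6, hyL⟩
    rw [h8] at h9
    exact hjM h9
  exact hns ((snIn_of_normal hM.1.le hLM).trans (hP M hHM hM.1))

/-- Baer's characterization of the Fitting subgroup: in a finite group G, an element g lies in the Fitting subgroup if and only if g is a left Engel element, that is, for every x there is n with [x, g, g, …, g] = 1 (n entries g, [a, b] = aba⁻¹b⁻¹). -/
theorem result {G : Type*} [Group G] [Finite G] (g : G) :
    g ∈ Cfsg.fittingSubgroup G ↔ ∀ x : G, ∃ n : ℕ, (List.replicate n g).foldl (fun a b => a * b * a⁻¹ * b⁻¹) x = 1 := by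
  constructor
  · intro hg x
    have hF : (Cfsg.fittingSubgroup G).Normal := Cfsg.Agent.Lib.Components.fitting_mem.1
    have hnil := Cfsg.Agent.Lib.Components.fitting_mem (G := G) |>.2
    obtain ⟨m, hm⟩ := (Subgroup.isNilpotent_iff_lowerCentralSeries _).mp hnil
    -- first term lies in the Fitting subgroup
    have h1 : x * g * x⁻¹ * g⁻¹ ∈ Cfsg.fittingSubgroup G :=
      mul_mem (hF.conj_mem g hg x) (inv_mem hg)
    have hkey : ∀ k : ℕ, (fun a => a * g * a⁻¹ * g⁻¹)^[k] (x * g * x⁻¹ * g⁻¹) ∈
        (Cfsg.fittingSubgroup G).lowerCentralSeries k := by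
      intro k
      induction k with
      | zero => exact h1
      | succ k ih =>
        rw [Function.iterate_succ_apply', Subgroup.lowerCentralSeries_succ]
        exact Subgroup.commutator_mem_commutator ih hg
    refine ⟨m + 1, ?_⟩
    rw [fold_eq, Function.iterate_succ_apply]
    have := hkey m
    rw [hm, Subgroup.mem_bot] at this
    exact this
  · intro hE
    have h1 : SnIn (⊤ : Subgroup G) (zpowers g) := engel_aux _ ⊤ rfl g (mem_top g) (fun x _ => by
      obtain ⟨n, hn⟩ := hE x
      exact ⟨n, by rw [← fold_eq]; exact hn⟩)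
    have h2 := snIn_top_iff.mp h1
    have hc : Group.IsNilpotent (zpowers g) := by
      letI : CommGroup (zpowers g) := IsCyclic.commGroup
      exact CommGroup.isNilpotent
    exact Cfsg.Agent.Lib.Components.subnormal_le_fitting h2 hc (mem_zpowers g)

end Cfsg.Agent.S3937
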