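import Cfsg.Statements.S3939
-- import your own Cfsg.Agent.* helpers here
import Mathlib
import Cfsg.Agent.Lib.Basic.Nilpotent
import Cfsg.Agent.Lib.Components.Basic
import Cfsg.Agent.Lib.OddLocal.Fitting

set_option autoImplicit false
open Cfsg

namespace Cfsg.Agent.S3939

open Subgroup
open scoped commutatorElement

universe u

theorem normalClosure_le_of_conj {G : Type u} [Group G] {g₀ : G} {X : Subgroup G}
    (h : ∀ y : G, y * g₀ * y⁻¹ ∈ X) : normalClosure ({g₀} : Set G) ≤ X := by
  rw [normalClosure, closure_le]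
  intro z hz
  obtain ⟨a, ha, hc⟩ := Group.mem_conjugatesOfSet_iff.mp hz
  rw [Set.mem_singleton_iff] at ha
  subst ha
  obtain ⟨c, rfl⟩ := isConj_iff.mp hc
  exact h c

theorem center_ne_bot_aux {G : Type u} [Group G] [Finite G] (g : G) (hg : g ≠ 1)
    (hE : ∀ x : G, Group.IsNilpotent ↥(Subgroup.closure ({x, g} : Set G))) : center G ≠ ⊥ := by
  classical
  have hord : orderOf g ≠ 1 := by
    rw [Ne, orderOf_eq_one_iff]
    exact hg
  obtain ⟨p, hp, hpd⟩ := Nat.exists_prime_and_dvd hord
  haveI : Fact p.Prime := ⟨hp⟩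
  have hord0 : orderOf g ≠ 0 := (orderOf_pos g).ne'
  obtain ⟨a, m, hpm, hdec⟩ := Nat.exists_eq_pow_mul_and_not_dvd hord0 p hp.ne_one
  have ha0 : a ≠ 0 := by
    rintro rfl
    simp only [pow_zero, one_mul] at hdec
    exact hpm (hdec ▸ hpd)
  have hm0 : m ≠ 0 := by
    rintro rfl
    exact hpm (dvd_zero p)
  obtain ⟨g₀, hg₀⟩ : ∃ g₀, g₀ = g ^ m := ⟨_, rfl⟩
  have hordg₀ : orderOf g₀ = p ^ a := by
    rw [hg₀, orderOf_pow_of_dvd hm0 ⟨p ^ a, by rw [hdec, mul_comm]⟩, hdec]
    exact Nat.mul_div_cancel _ (Nat.pos_of_ne_zero hm0)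
  have hg₀1 : g₀ ≠ 1 := by
    intro h
    rw [h, orderOf_one] at hordg₀
    have := Nat.one_lt_pow ha0 hp.one_lt
    omega
  -- `p'`-elements commute with `g₀`
  have hcomm : ∀ x : G, (orderOf x).Coprime p → x * g₀ = g₀ * x := by
    intro x hx
    have h1 : x ∈ Subgroup.closure ({x, g} : Set G) := Subgroup.subset_closure (by simp)
    have h2 : g ∈ Subgroup.closure ({x, g} : Set G) := Subgroup.subset_closure (by simp)
    have h3 : g₀ ∈ Subgroup.closure ({x, g} : Set G) := hg₀ ▸ pow_mem h2 m
    refine Cfsg.Agent.Lib.OddLocal.comm_of_coprime_of_nilpotent_subgroup (hE x) h1 h3 ?_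
    rw [hordg₀]
    exact Nat.Coprime.pow_right a hx
  have hcomm2 : ∀ x : G, (orderOf x).Coprime p → ∀ y : G, x * (y * g₀ * y⁻¹) = (y * g₀ * y⁻¹) * x := by
    intro x hx y
    have h1 : orderOf (y⁻¹ * x * y) = orderOf x := by
      have := orderOf_injective (MulAut.conj y⁻¹).toMonoidHom (MulAut.conj y⁻¹).injective x
      rw [← this]
      simp [MulAut.conj_apply]
    have h2 := hcomm (y⁻¹ * x * y) (h1 ▸ hx)
    calc x * (y * g₀ * y⁻¹) = y * (y⁻¹ * x * y * g₀) * y⁻¹ := by group
      _ = y * (g₀ * (y⁻¹ * x * y)) * y⁻¹ := by rw [h2]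
      _ = (y * g₀ * y⁻¹) * x := by group
  obtain ⟨N, hNdef⟩ : ∃ N, N = normalClosure ({g₀} : Set G) := ⟨_, rfl⟩
  haveI hNn : N.Normal := hNdef ▸ normalClosure_normal
  have hg₀N : g₀ ∈ N := by
    rw [hNdef]
    exact subset_normalClosure (Set.mem_singleton _)
  have hK : ∀ x : G, (orderOf x).Coprime p → x ∈ centralizer (N : Set G) := by
    intro x hx
    have hle : N ≤ centralizer ({x} : Set G) := by
      rw [hNdef]
      refine normalClosure_le_of_conj fun y => ?_
      rw [mem_centralizer_iff]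
      intro h hh
      rw [Set.mem_singleton_iff] at hh
      subst hh
      exact hcomm2 _ hx y
    rw [mem_centralizer_iff]
    intro h hh
    have := mem_centralizer_iff.mp (hle hh) x (Set.mem_singleton x)
    exact this.symm
  have hg₀p : IsPGroup p (zpowers g₀) := IsPGroup.of_card (n := a) (by rw [Nat.card_zpowers, hordg₀])
  obtain ⟨P, hP⟩ := hg₀p.exists_le_sylow
  have hg₀P : g₀ ∈ (P : Subgroup G) := hP (mem_zpowers g₀)
  have hPK : (P : Subgroup G) ⊔ centralizer (N : Set G) = ⊤ := by
    rw [← index_eq_one]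
    by_contra hne
    obtain ⟨q, hq, hqd⟩ := Nat.exists_prime_and_dvd hne
    haveI : Fact q.Prime := ⟨hq⟩
    by_cases hqp : q = p
    · subst hqp
      exact P.not_dvd_index (hqd.trans (index_dvd_of_le le_sup_left))
    · obtain ⟨Q⟩ : Nonempty (Sylow q G) := inferInstance
      have hQ : (Q : Subgroup G) ≤ centralizer (N : Set G) := by
        intro x hx
        apply hK
        obtain ⟨k, hk⟩ := Q.isPGroup' ⟨x, hx⟩
        have hk' : x ^ q ^ k = 1 := congrArg Subtype.val hk
        exact Nat.Coprime.coprime_dvd_left (orderOf_dvd_of_pow_eq_one hk')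
          (Nat.Coprime.pow_left k ((Nat.coprime_primes hq hp).mpr hqp))
      exact Q.not_dvd_index (hqd.trans (index_dvd_of_le (hQ.trans le_sup_right)))
  have hdecomp : ∀ y : G, ∃ u ∈ (P : Subgroup G), ∃ k ∈ centralizer (N : Set G), u * k = y := by
    intro y
    have : y ∈ (P : Subgroup G) ⊔ centralizer (N : Set G) := by
      rw [hPK]
      exact mem_top y
    exact mem_sup_of_normal_right.mp this
  have hNP : N ≤ (P : Subgroup G) := by
    conv_lhs => rw [hNdef]
    refine normalClosure_le_of_conj fun y => ?_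
    obtain ⟨u, hu, k, hk, rfl⟩ := hdecomp y
    have h1 : g₀ * k = k * g₀ := mem_centralizer_iff.mp hk g₀ hg₀N
    have h2 : u * k * g₀ * (u * k)⁻¹ = u * g₀ * u⁻¹ := by
      rw [mul_assoc u k g₀, ← h1]
      group
    rw [h2]
    exact mul_mem (mul_mem hu hg₀P) (inv_mem hu)
  haveI : Group.IsNilpotent (P : Subgroup G) := P.isPGroup'.isNilpotent
  have hN' : N.subgroupOf (P : Subgroup G) ≠ ⊥ := by
    intro h
    have h1 : (⟨g₀, hg₀P⟩ : (P : Subgroup G)) ∈ N.subgroupOf (P : Subgroup G) := mem_subgroupOf.mpr hg₀N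
    rw [h, mem_bot] at h1
    exact hg₀1 (congrArg Subtype.val h1)
  have h3 := Cfsg.Agent.Lib.Basic.normal_inf_center_ne_bot (N.subgroupOf (P : Subgroup G)) hN'
  rcases bot_or_exists_ne_one (N.subgroupOf (P : Subgroup G) ⊓ center (P : Subgroup G)) with h4 | ⟨z, hz, hz1⟩
  · exact absurd h4 h3
  obtain ⟨hzN, hzc⟩ := Subgroup.mem_inf.mp hz
  have hzN' : (z : G) ∈ N := mem_subgroupOf.mp hzN
  have hzcen : (z : G) ∈ center G := by
    rw [mem_center_iff]
    intro y
    obtain ⟨u, hu, k, hk, rfl⟩ := hdecomp y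
    have h1 : (z : G) * k = k * z := mem_centralizer_iff.mp hk z hzN'
    have h2 : (⟨u, hu⟩ : (P : Subgroup G)) * z = z * ⟨u, hu⟩ := mem_center_iff.mp hzc _
    have h3 : u * (z : G) = z * u := congrArg Subtype.val h2
    rw [mul_assoc, ← h1, ← mul_assoc, h3, mul_assoc]
  intro h
  rw [h, mem_bot] at hzcen
  exact hz1 (Subtype.ext hzcen)

theorem lift_aux {G : Type u} [Group G] : ∀ (m : ℕ) (g : G),
    (QuotientGroup.mk' (center G)) g ∈ Subgroup.upperCentralSeries (G ⧸ center G) m →
    g ∈ Subgroup.upperCentralSeries G (m + 1) := by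
  intro m
  induction m with
  | zero =>
    intro g hg
    rw [Subgroup.upperCentralSeries_zero, mem_bot, QuotientGroup.mk'_apply, QuotientGroup.eq_one_iff] at hg
    rw [zero_add, Subgroup.upperCentralSeries_one]
    exact hg
  | succ m ih =>
    intro g hg
    rw [Subgroup.mem_upperCentralSeries_succ_iff] at hg ⊢
    intro y
    apply ih
    rw [map_commutatorElement]
    exact hg _

theorem exists_mem_aux : ∀ (n : ℕ) (G : Type u) [Group G] [Finite G], Nat.card G = n → ∀ g : G,
    (∀ x : G, Group.IsNilpotent ↥(Subgroup.closure ({x, g} : Set G))) → ∃ m, g ∈ Subgroup.upperCentralSeries G m := by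
  intro n
  induction n using Nat.strong_induction_on with
  | _ n IH =>
  intro G _ _ hn g hE
  by_cases hg : g = 1
  · exact ⟨0, hg ▸ one_mem _⟩
  have hc := center_ne_bot_aux g hg hE
  have hcard : Nat.card (G ⧸ center G) < n := by
    rw [← hn]
    have h1 := Subgroup.card_eq_card_quotient_mul_card_subgroup (center G)
    have h2 : 1 < Nat.card (center G) := by
      rw [Subgroup.one_lt_card_iff_ne_bot]
      exact hc
    have h3 : 0 < Nat.card G := Nat.card_pos
    rw [h1]
    have h4 : 0 < Nat.card (G ⧸ center G) := Nat.card_pos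
    nlinarith
  obtain ⟨m, hm⟩ := IH _ hcard (G ⧸ center G) rfl (QuotientGroup.mk' (center G) g) (by
    intro x
    obtain ⟨x', rfl⟩ := QuotientGroup.mk'_surjective _ x
    have h1 := Cfsg.Agent.Lib.Components.isNilpotent_map (QuotientGroup.mk' (center G)) (hE x')
    rw [MonoidHom.map_closure, Set.image_pair] at h1
    exact h1)
  exact ⟨m + 1, lift_aux m g hm⟩

theorem inf_aux {G : Type u} [Group G] (H : Subgroup G) : ∀ (m : ℕ) (h : H),
    (h : G) ∈ Subgroup.upperCentralSeries G m → h ∈ Subgroup.upperCentralSeries H m := by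
  intro m
  induction m with
  | zero =>
    intro h hh
    rw [Subgroup.upperCentralSeries_zero, mem_bot] at hh ⊢
    exact Subtype.ext hh
  | succ m ih =>
    intro h hh
    rw [Subgroup.mem_upperCentralSeries_succ_iff] at hh ⊢
    intro y
    apply ih
    have := hh y
    have h2 : ((⁅h, y⁆ : H) : G) = ⁅(h : G), (y : G)⁆ := rfl
    rw [h2]
    exact this

/-- In a finite group G the set of elements g such that the subgroup generated by g and x is nilpotent for every x ∈ G is exactly the hypercenter of G (the last term of the upper central series). -/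
theorem result {G : Type*} [Group G] [Finite G] (g : G) :
    (∀ x : G, Group.IsNilpotent ↥(Subgroup.closure ({x, g} : Set G))) ↔ g ∈ ⨆ n : ℕ, Subgroup.upperCentralSeries G n := by
  constructor
  · intro hE
    rw [Subgroup.mem_iSup_of_directed (Subgroup.upperCentralSeries_mono G).directed_le]
    exact exists_mem_aux _ G rfl g hE
  · intro hg x
    rw [Subgroup.mem_iSup_of_directed (Subgroup.upperCentralSeries_mono G).directed_le] at hg
    obtain ⟨m, hm⟩ := hg
    obtain ⟨H, hH⟩ : ∃ H, H = Subgroup.closure ({x, g} : Set G) := ⟨_, rfl⟩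
    rw [← hH]
    have hxH : x ∈ H := hH ▸ Subgroup.subset_closure (by simp)
    have hgH : g ∈ H := hH ▸ Subgroup.subset_closure (by simp)
    have hg' : (⟨g, hgH⟩ : H) ∈ Subgroup.upperCentralSeries H m := inf_aux H m _ hm
    obtain ⟨π, hπ⟩ : ∃ π, π = QuotientGroup.mk' (Subgroup.upperCentralSeries H m) := ⟨_, rfl⟩
    have hgen : ∀ a : H, π a ∈ zpowers (π ⟨x, hxH⟩) := by
      have hle : (⊤ : Subgroup H) ≤ (zpowers (π ⟨x, hxH⟩)).comap π := by
        have h1 : Subgroup.closure ((↑) ⁻¹' ({x, g} : Set G) : Set (Subgroup.closure ({x, g} : Set G))) = ⊤ :=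
          Subgroup.closure_closure_coe_preimage
        subst hH
        rw [← h1, closure_le]
        rintro ⟨a, ha⟩ ha'
        rcases ha' with ha' | ha'
        · have ha'' : a = x := ha'
          subst ha''
          exact mem_zpowers _
        · have ha'' : a = g := ha'
          subst ha''
          have : π ⟨a, ha⟩ = 1 := by
            rw [hπ, QuotientGroup.mk'_apply, QuotientGroup.eq_one_iff]
            exact hg'
          rw [SetLike.mem_coe, mem_comap, this]
          exact one_mem _
      intro a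
      exact hle (mem_top a)
    have htop : Subgroup.upperCentralSeries H (m + 1) = ⊤ := by
      rw [eq_top_iff]
      intro a _
      rw [Subgroup.mem_upperCentralSeries_succ_iff]
      intro b
      have h1 : π ⁅a, b⁆ = 1 := by
        rw [map_commutatorElement, commutatorElement_eq_one_iff_mul_comm]
        obtain ⟨i, hi⟩ := Subgroup.mem_zpowers_iff.mp (hgen a)
        obtain ⟨j, hj⟩ := Subgroup.mem_zpowers_iff.mp (hgen b)
        rw [← hi, ← hj, ← zpow_add, ← zpow_add, add_comm]
      rw [hπ, QuotientGroup.mk'_apply, QuotientGroup.eq_one_iff] at h1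
      exact h1
    exact ⟨⟨m + 1, htop⟩⟩

end Cfsg.Agent.S3939
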