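import Cfsg.Statements.S3941
-- import your own Cfsg.Agent.* helpers here
import Mathlib

set_option autoImplicit false
open Cfsg

namespace Cfsg.Agent.S3941

theorem pclosed_transfer {G H : Type*} [Group G] [Finite G] [Group H] (e : G ≃* H) {p : ℕ} [Fact p.Prime]
    (hcl : Cfsg.IsPClosed p H) : Cfsg.IsPClosed p G := by
  intro P
  have hs : Function.Surjective e.toMonoidHom := e.surjective
  have hQ := hcl (P.mapSurjective hs)
  have h1 := Subgroup.Normal.comap hQ e.toMonoidHom
  have h2 : ((P.mapSurjective hs : Sylow p H) : Subgroup H).comap e.toMonoidHom = P := by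
    rw [Sylow.coe_mapSurjective]
    exact Subgroup.comap_map_eq_self_of_injective e.injective _
  rwa [h2] at h1

theorem not_pclosed_of_simple {G : Type*} [Group G] [Finite G] [IsSimpleGroup G] {p : ℕ} [Fact p.Prime]
    (hp2 : p ≠ 2) (hp : p ∣ Nat.card G) (h2 : 2 ∣ Nat.card G) : ¬ Cfsg.IsPClosed p G := by
  intro hcl
  obtain ⟨P⟩ : Nonempty (Sylow p G) := inferInstance
  rcases (hcl P).eq_bot_or_eq_top with h | h
  · exact P.ne_bot_of_dvd_card hp h
  · have hG : IsPGroup p G := by
      have h3 := P.isPGroup'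
      rw [h] at h3
      exact h3.of_equiv Subgroup.topEquiv
    obtain ⟨k, hk⟩ := IsPGroup.iff_card.mp hG
    rw [hk] at h2
    have h4 := (Nat.prime_dvd_prime_iff_eq Nat.prime_two Fact.out).mp (Nat.Prime.dvd_of_dvd_pow Nat.prime_two h2)
    exact hp2 h4.symm

theorem not_pclosed_A4 : ¬ Cfsg.IsPClosed 3 (alternatingGroup (Fin 4)) := by
  haveI : Fact (Nat.Prime 3) := ⟨by norm_num⟩
  intro hcl
  obtain ⟨P⟩ : Nonempty (Sylow 3 (alternatingGroup (Fin 4))) := inferInstance
  let σ : alternatingGroup (Fin 4) := ⟨Equiv.swap 0 1 * Equiv.swap 1 2, Equiv.Perm.mem_alternatingGroup.mpr (by decide)⟩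
  let τ : alternatingGroup (Fin 4) := ⟨Equiv.swap 0 1 * Equiv.swap 1 3, Equiv.Perm.mem_alternatingGroup.mpr (by decide)⟩
  have hσ3 : σ ^ 3 = 1 := by decide
  have hτ3 : τ ^ 3 = 1 := by decide
  have hσ1 : σ ≠ 1 := by decide
  have hτ1 : τ ≠ 1 := by decide
  have hst2 : (σ * τ) ^ 2 = 1 := by decide
  have hst1 : σ * τ ≠ 1 := by decide
  haveI := Sylow.unique_of_normal P (hcl P)
  have hmem : ∀ x : alternatingGroup (Fin 4), x ^ 3 = 1 → x ≠ 1 → x ∈ (P : Subgroup _) := by
    intro x hx hx1
    have ho : orderOf x = 3 := orderOf_eq_prime hx hx1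
    have hzp : IsPGroup 3 (Subgroup.zpowers x) := IsPGroup.of_card (n := 1) (by
      rw [Nat.card_zpowers, ho, pow_one])
    obtain ⟨Q, hQ⟩ := hzp.exists_le_sylow
    have hQP : Q = P := Subsingleton.elim _ _
    rw [hQP] at hQ
    exact hQ (Subgroup.mem_zpowers x)
  have h1 : σ * τ ∈ (P : Subgroup _) := Subgroup.mul_mem _ (hmem σ hσ3 hσ1) (hmem τ hτ3 hτ1)
  obtain ⟨k, hk⟩ := P.isPGroup' ⟨σ * τ, h1⟩
  have hk' : (σ * τ) ^ 3 ^ k = 1 := by
    have := congrArg Subtype.val hk
    simpa using this
  have hco : Nat.Coprime 2 (3 ^ k) := Nat.Coprime.pow_right k (by norm_num)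
  have h3 := (pow_gcd_eq_one (a := σ * τ)).mpr ⟨hst2, hk'⟩
  rw [hco.gcd_eq_one, pow_one] at h3
  exact hst1 h3

theorem exists_embed (k n : ℕ) (hkn : k ≤ n) :
    ∃ ψ : alternatingGroup (Fin k) →* alternatingGroup (Fin n), Function.Injective ψ := by
  classical
  let ι : Fin k ↪ Fin n := Fin.castLEEmb hkn
  let f : Fin k ≃ Set.range ι := Equiv.ofInjective ι ι.injective
  let φ : Equiv.Perm (Fin k) →* Equiv.Perm (Fin n) := Equiv.Perm.extendDomainHom f
  have hsign : ∀ σ, Equiv.Perm.sign (φ σ) = Equiv.Perm.sign σ := fun σ =>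
    Equiv.Perm.sign_extendDomain σ f
  let ψ : alternatingGroup (Fin k) →* alternatingGroup (Fin n) :=
    (φ.comp (alternatingGroup (Fin k)).subtype).codRestrict (alternatingGroup (Fin n)) (fun σ => by
      show Equiv.Perm.sign (φ σ.1) = 1
      rw [hsign]
      exact σ.2)
  refine ⟨ψ, ?_⟩
  intro a b hab
  have h1 : φ a.1 = φ b.1 := congrArg Subtype.val hab
  exact Subtype.ext (Equiv.Perm.extendDomainHom_injective f h1)

/-- Let n ≥ 5 and p an odd prime with p ≤ n, and suppose that every proper subgroup of the alternating group of degree n whose order is divisible by p has a normal Sylow p-subgroup. Then n = p. -/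
theorem result (n p : ℕ) (hn : 5 ≤ n) [Fact p.Prime] (hp : p ≠ 2) (hpn : p ≤ n)
    (h : ∀ H : Subgroup ↥(alternatingGroup (Fin n)), H ≠ ⊤ → p ∣ Nat.card ↥H → Cfsg.IsPClosed p ↥H) : n = p := by
  classical
  have hp2 := hp
  by_contra hne
  have hlt : p < n := lt_of_le_of_ne hpn (fun h => hne h.symm)
  have hp : p.Prime := Fact.out
  have gen : ∀ k, k < n → p ≤ k → 4 ≤ k → ¬ Cfsg.IsPClosed p (alternatingGroup (Fin k)) → False := by
    intro k hkn hpk hk4 hno
    obtain ⟨ψ, hψ⟩ := exists_embed k n hkn.le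
    let e : alternatingGroup (Fin k) ≃* ψ.range := MonoidHom.ofInjective hψ
    haveI : Nontrivial (Fin k) := Fin.nontrivial_iff_two_le.mpr (by omega)
    haveI : Nontrivial (Fin n) := Fin.nontrivial_iff_two_le.mpr (by omega)
    have h2k : 2 * Nat.card (alternatingGroup (Fin k)) = k.factorial := by
      rw [two_mul_nat_card_alternatingGroup, Nat.card_perm, Nat.card_eq_fintype_card, Fintype.card_fin]
    have h2n : 2 * Nat.card (alternatingGroup (Fin n)) = n.factorial := by
      rw [two_mul_nat_card_alternatingGroup, Nat.card_perm, Nat.card_eq_fintype_card, Fintype.card_fin]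
    have hce : Nat.card ψ.range = Nat.card (alternatingGroup (Fin k)) :=
      Nat.card_congr e.symm.toEquiv
    have htop : ψ.range ≠ ⊤ := by
      intro h
      rw [h, Subgroup.card_top] at hce
      have h3 : k.factorial = n.factorial := by rw [← h2k, ← h2n, hce]
      have h4 := (Nat.factorial_lt (by omega : 0 < k)).mpr hkn
      omega
    have hdvd : p ∣ Nat.card ψ.range := by
      rw [hce]
      have h1 : p ∣ k.factorial := Nat.dvd_factorial hp.pos hpk
      rw [← h2k] at h1
      exact (hp.dvd_mul.mp h1).resolve_left (fun h3 => by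
        have := (Nat.prime_dvd_prime_iff_eq hp Nat.prime_two).mp h3
        exact hp2 this)
    exact hno (pclosed_transfer e (h _ htop hdvd))
  by_cases hp3 : p = 3
  · subst hp3
    exact gen 4 (by omega) (by omega) le_rfl not_pclosed_A4
  · have hp5 : 5 ≤ p := by
      by_contra hcon
      push Not at hcon
      interval_cases p
      · exact absurd hp (by norm_num)
      · exact absurd hp (by norm_num)
      · exact hp2 rfl
      · exact hp3 rfl
      · exact absurd hp (by norm_num)
    apply gen p hlt le_rfl (by omega)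
    haveI : IsSimpleGroup (alternatingGroup (Fin p)) :=
      alternatingGroup.isSimpleGroup (by simpa using hp5)
    haveI : Nontrivial (Fin p) := Fin.nontrivial_iff_two_le.mpr (by omega)
    have h2k : 2 * Nat.card (alternatingGroup (Fin p)) = p.factorial := by
      rw [two_mul_nat_card_alternatingGroup, Nat.card_perm, Nat.card_eq_fintype_card, Fintype.card_fin]
    apply not_pclosed_of_simple hp2
    · have h1 : p ∣ p.factorial := Nat.dvd_factorial hp.pos le_rfl
      rw [← h2k] at h1
      exact (hp.dvd_mul.mp h1).resolve_left (fun h3 => by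
        have := (Nat.prime_dvd_prime_iff_eq hp Nat.prime_two).mp h3
        exact hp2 this)
    · have h1 : 4 ∣ p.factorial := Nat.dvd_factorial (by norm_num) (by omega)
      rw [← h2k] at h1
      exact (Nat.mul_dvd_mul_iff_left (by norm_num : 0 < 2)).mp (by simpa using h1)

end Cfsg.Agent.S3941
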