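import Cfsg.Statements.S3949
-- import your own Cfsg.Agent.* helpers here
import Mathlib

set_option autoImplicit false
open Cfsg

namespace Cfsg.Agent.S3949

variable {G : Type*} [Group G]

theorem iter_eq (α : MulAut G) (i : ℕ) (u : G) (hu : α u = u⁻¹) :
    (fun c : G => c * (α c)⁻¹)^[i] u = u ^ (2 ^ i) := by
  induction i with
  | zero => simp
  | succ i ih =>
    rw [Function.iterate_succ_apply']
    simp only [ih]
    rw [map_pow, hu, inv_pow, inv_inv, ← pow_add, pow_succ 2 i, mul_two]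

/-- Let G be a finite group and α an automorphism of G of order 2 such that the elements g·α(g)⁻¹ generate G. Let j be a positive integer such that 2^j divides the order of no element inverted by α. Then the set of values of the j-th iterate of the map c ↦ c·α(c)⁻¹ is exactly the set of elements of odd order inverted by α. -/
theorem result {G : Type*} [Group G] [Finite G] (α : MulAut G) (hα : orderOf α = 2) (hG : Subgroup.closure (Set.range (fun c : G => c * (α c)⁻¹)) = ⊤)
    (j : ℕ) (hj : ∀ g : G, α g = g⁻¹ → ¬ 2 ^ j ∣ orderOf g) :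
    Set.range ((fun c : G => c * (α c)⁻¹)^[j]) = {g : G | Odd (orderOf g) ∧ α g = g⁻¹} := by
  classical
  have hαα : ∀ x : G, α (α x) = x := by
    intro x
    have : (α ^ 2) x = x := by rw [← hα, pow_orderOf_eq_one]; rfl
    simpa [pow_two] using this
  have hinv : ∀ c : G, α (c * (α c)⁻¹) = (c * (α c)⁻¹)⁻¹ := by
    intro c
    simp [hαα]
  have hj0 : j ≠ 0 := by
    rintro rfl
    exact hj 1 (by simp) (by simp)
  obtain ⟨i, rfl⟩ : ∃ i, j = i + 1 := ⟨j - 1, by omega⟩
  ext g
  constructor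
  · rintro ⟨c, rfl⟩
    rw [Function.iterate_succ_apply]
    set u := c * (α c)⁻¹ with hu
    have hu' : α u = u⁻¹ := hinv c
    rw [iter_eq α i u hu']
    refine ⟨?_, by rw [map_pow, hu', inv_pow]⟩
    rw [← Nat.not_even_iff_odd]
    intro he
    have h2 : 2 ∣ orderOf (u ^ 2 ^ i) := he.two_dvd
    apply hj u hu'
    rw [orderOf_pow] at h2
    set n := orderOf u with hn
    have hgcd : n.gcd (2 ^ i) ∣ 2 ^ i := Nat.gcd_dvd_right _ _
    obtain ⟨t, ht, hteq⟩ := (Nat.dvd_prime_pow Nat.prime_two).mp hgcd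
    have hd : n.gcd (2 ^ i) ∣ n := Nat.gcd_dvd_left _ _
    have h3 : 2 ^ (t + 1) ∣ n := by
      have h4 : n / n.gcd (2 ^ i) * n.gcd (2 ^ i) = n := Nat.div_mul_cancel hd
      obtain ⟨k, hk⟩ := h2
      rw [← h4, hk, hteq, pow_succ]
      exact ⟨k, by ring⟩
    rcases Nat.lt_or_ge t i with hti | hti
    · exfalso
      have h5 : 2 ^ (t + 1) ∣ n.gcd (2 ^ i) :=
        Nat.dvd_gcd h3 (pow_dvd_pow 2 hti)
      rw [hteq] at h5
      have := Nat.le_of_dvd (by positivity) h5
      have h6 : 2 ^ t < 2 ^ (t + 1) := Nat.pow_lt_pow_right (by norm_num) (by omega)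
      omega
    · have : t = i := by omega
      subst this
      exact h3
  · rintro ⟨hodd, hg⟩
    have hcop : Nat.Coprime (2 ^ (i + 1)) (orderOf g) :=
      Nat.Coprime.pow_left _ (Nat.coprime_two_left.mpr hodd)
    have hm : ∃ m : ℕ, g ^ (2 ^ (i + 1) * m) = g := by
      by_cases h1 : orderOf g = 1
      · rw [orderOf_eq_one_iff] at h1
        exact ⟨0, by simp [h1]⟩
      · have h2 : 1 < orderOf g := by
          have : orderOf g ≠ 0 := hodd.pos.ne'
          omega
        obtain ⟨m, -, hm⟩ := Nat.exists_mul_mod_eq_one_of_coprime hcop h2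
        refine ⟨m, ?_⟩
        rw [← pow_mod_orderOf, hm, pow_one]
    obtain ⟨m, hm⟩ := hm
    refine ⟨g ^ m, ?_⟩
    have hc : α (g ^ m) = (g ^ m)⁻¹ := by rw [map_pow, hg, inv_pow]
    rw [iter_eq α (i + 1) (g ^ m) hc, ← pow_mul, mul_comm, hm]

end Cfsg.Agent.S3949
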