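import Cfsg.Statements.S3982
import Cfsg.Agent.Lib.PGroups.SylowFix
import Cfsg.Agent.Lib.Basic.Conj

set_option autoImplicit false
open Cfsg

namespace Cfsg.Agent.S3982

open Cfsg.Agent.Lib.PGroups Cfsg.Agent.Lib.Basic
open scoped Pointwise

theorem odd_of_dvd_odd {a b : ℕ} (h : a ∣ b) (hb : Odd b) : Odd a := Odd.of_dvd_nat hb h

theorem core {G : Type*} [Group G] [Finite G] (p : ℕ) [Fact p.Prime] (hp2 : p ≠ 2)
    (hC : ∀ g : G, g ≠ 1 → (∃ k : ℕ, orderOf g = p ^ k) → Odd (Nat.card ↥(Subgroup.centralizer ({g} : Set G))))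
    (R : Subgroup G) (hR : IsPGroup p R) (hR1 : R ≠ ⊥) (t : G) (ht : orderOf t = 2)
    (htR : t ∈ Subgroup.normalizer (R : Set G))
    (hmax : ∀ U : Subgroup G, IsPGroup p U → t ∈ Subgroup.normalizer (U : Set G) → Nat.card U ≤ Nat.card R)
    (S : Subgroup G) (hS : IsPGroup p S) (hSN : S ≤ Subgroup.normalizer (R : Set G)) :
    Nat.card S ≤ Nat.card R := by
  classical
  have hp' : p.Prime := Fact.out
  have htt : t * t = 1 := by
    have := pow_orderOf_eq_one t
    rw [ht, pow_two] at this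
    exact this
  have htinv : t⁻¹ = t := inv_eq_of_mul_eq_one_left htt
  -- fixed point freeness on R
  have hfpf : ∀ v ∈ R, t * v * t⁻¹ = v → v = 1 := by
    intro v hv hfix
    by_contra hv1
    have h1 := hC v hv1 (exists_orderOf_of_mem_isPGroup hR hv)
    have h2 : t ∈ Subgroup.centralizer ({v} : Set G) :=
      Subgroup.mem_centralizer_singleton_iff.mpr (mul_inv_eq_iff_eq_mul.mp hfix)
    have h3 := Subgroup.orderOf_dvd_natCard _ h2
    rw [ht] at h3
    exact (Nat.not_even_iff_odd.mpr h1) (even_iff_two_dvd.mpr h3)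
  have hconj : ∀ v ∈ R, t * v * t⁻¹ ∈ R := fun v hv => (Subgroup.mem_normalizer_iff.mp htR v).mp hv
  -- t inverts R
  have hinv : ∀ v ∈ R, t * v * t⁻¹ = v⁻¹ := by
    let f : R → R := fun v => ⟨(v : G)⁻¹ * (t * v * t⁻¹), R.mul_mem (R.inv_mem v.2) (hconj v v.2)⟩
    have hf : Function.Injective f := by
      intro a b hab
      have h1 : (a : G)⁻¹ * (t * a * t⁻¹) = (b : G)⁻¹ * (t * b * t⁻¹) := congrArg Subtype.val hab
      have h2 : (b : G) * (a : G)⁻¹ ∈ R := R.mul_mem b.2 (R.inv_mem a.2)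
      have h3 : t * ((b : G) * (a : G)⁻¹) * t⁻¹ = (b : G) * (a : G)⁻¹ := by
        have h4 : (t * a * t⁻¹) = a * ((b : G)⁻¹ * (t * b * t⁻¹)) := by
          rw [← h1]; group
        calc t * ((b : G) * (a : G)⁻¹) * t⁻¹ = (t * b * t⁻¹) * (t * a * t⁻¹)⁻¹ := by group
          _ = (t * b * t⁻¹) * (a * ((b : G)⁻¹ * (t * b * t⁻¹)))⁻¹ := by rw [h4]
          _ = _ := by group
      have h5 := hfpf _ h2 h3
      apply Subtype.ext
      exact (mul_inv_eq_one.mp h5).symm
    have hsurj := Finite.injective_iff_surjective.mp hf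
    intro v hv
    obtain ⟨a, ha⟩ := hsurj ⟨v, hv⟩
    have h1 : (a : G)⁻¹ * (t * a * t⁻¹) = v := congrArg Subtype.val ha
    rw [← h1]
    calc t * ((a : G)⁻¹ * (t * a * t⁻¹)) * t⁻¹ = (t * (a : G)⁻¹ * t⁻¹) * ((t * t) * a * (t⁻¹ * t⁻¹)) := by group
      _ = (t * (a : G)⁻¹ * t⁻¹) * a := by rw [htinv, htt]; group
      _ = _ := by group
  -- the centralizer of R has odd order
  obtain ⟨v₀, hv₀, hv₀1⟩ := (Subgroup.ne_bot_iff_exists_ne_one).mp hR1 |>.elim
    (fun a h => (⟨a.1, a.2, fun h' => h (Subtype.ext h')⟩ : ∃ v, v ∈ R ∧ v ≠ 1))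
  set C : Subgroup G := Subgroup.centralizer (R : Set G) with hCdef
  have hCodd : Odd (Nat.card C) := by
    have h1 := hC v₀ hv₀1 (exists_orderOf_of_mem_isPGroup hR hv₀)
    have h2 : C ≤ Subgroup.centralizer ({v₀} : Set G) :=
      Subgroup.centralizer_le (Set.singleton_subset_iff.mpr hv₀)
    exact odd_of_dvd_odd (Subgroup.card_dvd_of_le h2) h1
  -- commutators with t lie in C
  have hcomm : ∀ s ∈ Subgroup.normalizer (R : Set G), s⁻¹ * t * s * t⁻¹ ∈ C := by
    intro s hs
    rw [Subgroup.mem_centralizer_iff]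
    intro v hv
    have hv' : v ∈ R := hv
    have h1 : s⁻¹ * v * s ∈ R := by
      have := (Subgroup.mem_normalizer_iff.mp hs (s⁻¹ * v * s)).mpr (by simpa [mul_assoc] using hv')
      exact this
    have h2 := hinv _ h1
    have h3 := hinv v hv'
    have h4 : t⁻¹ * v * t = v⁻¹ := by rw [htinv]; rw [htinv] at h3; exact h3
    -- compute
    calc v * (s⁻¹ * t * s * t⁻¹) = s⁻¹ * (s * v * s⁻¹) * t * s * t⁻¹ := by group
      _ = (s⁻¹ * t * s * t⁻¹) * v := by
        have h5 : s * v * s⁻¹ ∈ R := (Subgroup.mem_normalizer_iff.mp hs v).mp hv'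
        have h6 := hinv _ h5
        have h7 : (s * v * s⁻¹) * t = t * (s * v * s⁻¹)⁻¹ := by
          calc (s * v * s⁻¹) * t = t * (t⁻¹ * (s * v * s⁻¹) * t) := by group
            _ = t * (s * v * s⁻¹)⁻¹ := by
              congr 1
              rw [htinv]; rw [htinv] at h6; exact h6
        have h8 : s⁻¹ * t * s * t⁻¹ * v = s⁻¹ * t * s * (t⁻¹ * v * t) * t⁻¹ := by group
        rw [h8, h4]
        calc s⁻¹ * (s * v * s⁻¹) * t * s * t⁻¹ = s⁻¹ * ((s * v * s⁻¹) * t) * s * t⁻¹ := by group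
          _ = s⁻¹ * (t * (s * v * s⁻¹)⁻¹) * s * t⁻¹ := by rw [h7]
          _ = _ := by group
  -- work inside the normalizer
  let N : Subgroup G := Subgroup.normalizer (R : Set G)
  let C' : Subgroup N := C.subgroupOf N
  have hC'n : C'.Normal := by
    constructor
    intro c hc n
    apply Subgroup.mem_subgroupOf.mpr
    rw [Subgroup.mem_centralizer_iff]
    intro v hv
    have hv' : v ∈ R := hv
    have h1 : (n : G)⁻¹ * v * n ∈ R := by
      have := (Subgroup.mem_normalizer_iff.mp n.2 ((n : G)⁻¹ * v * n)).mpr (by simpa [mul_assoc] using hv')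
      exact this
    have h2 := (Subgroup.mem_centralizer_iff.mp (Subgroup.mem_subgroupOf.mp hc)) _ h1
    simp only [Subgroup.coe_mul, Subgroup.coe_inv]
    calc v * ((n : G) * c * (n : G)⁻¹) = n * (((n : G)⁻¹ * v * n) * c) * (n : G)⁻¹ := by group
      _ = n * ((c : G) * ((n : G)⁻¹ * v * n)) * (n : G)⁻¹ := by rw [h2]
      _ = _ := by group
  let S' : Subgroup N := S.subgroupOf N
  have hSc : Nat.card S' = Nat.card S := by
    have h1 : S'.map N.subtype = S ⊓ N := Subgroup.subgroupOf_map_subtype S N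
    rw [inf_of_le_left hSN] at h1
    rw [← h1, Subgroup.card_map_of_injective N.subtype_injective]
  have hCc : Nat.card C' = Nat.card C := by
    have h1 : C'.map N.subtype = C ⊓ N := Subgroup.subgroupOf_map_subtype C N
    have h2 : C ≤ N := fun c hc => mem_normalizer_of_forall_commute (fun z hz =>
      (Subgroup.mem_centralizer_iff.mp hc z hz).symm)
    rw [inf_of_le_left h2] at h1
    rw [← h1, Subgroup.card_map_of_injective N.subtype_injective]
  let M : Subgroup N := S' ⊔ C'
  have hSp' : IsPGroup p S' := by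
    intro z
    obtain ⟨k, hk⟩ := hS ⟨(z : N), Subgroup.mem_subgroupOf.mp z.2⟩
    refine ⟨k, ?_⟩
    apply Subtype.ext
    apply Subtype.ext
    have := congrArg Subtype.val hk
    simpa using this
  have hMdvd : Nat.card M ∣ Nat.card S' * Nat.card C' := card_sup_dvd_of_normal S' C'
  have hSodd : Odd (Nat.card S') := by
    obtain ⟨k, hk⟩ := IsPGroup.iff_card.mp hSp'
    rw [hk]
    exact Odd.pow (hp'.odd_of_ne_two hp2)
  have hModd : Odd (Nat.card M) := by
    refine odd_of_dvd_odd hMdvd (hSodd.mul ?_)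
    rw [hCc]; exact hCodd
  let t' : N := ⟨t, htR⟩
  have ht'2 : t' ^ 2 ^ 1 = 1 := by
    apply Subtype.ext
    change t ^ 2 ^ 1 = 1
    rw [pow_one, pow_two]; exact htt
  have ht'M : t' ∈ Subgroup.normalizer (M : Set N) := by
    apply mem_normalizer_of_conj_le'
    have hsub : M ≤ M.comap (MulAut.conj t').toMonoidHom := by
      refine sup_le ?_ ?_
      · intro s hs
        have h1 : (t' * s * t'⁻¹) = s * (s⁻¹ * t' * s * t'⁻¹) := by group
        change t' * s * t'⁻¹ ∈ M
        rw [h1]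
        refine Subgroup.mul_mem _ ((le_sup_left : S' ≤ M) hs) ((le_sup_right : C' ≤ M) ?_)
        apply Subgroup.mem_subgroupOf.mpr
        exact hcomm _ s.2
      · intro c hc
        exact (le_sup_right : C' ≤ M) (hC'n.conj_mem c hc t')
    exact fun w hw => hsub hw
  have hcardS : ¬ 2 ∣ Nat.card (Sylow p M) := by
    obtain ⟨W⟩ : Nonempty (Sylow p M) := inferInstance
    have h1 : Nat.card (Sylow p M) ∣ Nat.card M := by
      rw [Sylow.card_eq_index_normalizer W]
      exact Subgroup.index_dvd_card _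
    intro h2
    exact (Nat.not_even_iff_odd.mpr hModd) (even_iff_two_dvd.mpr (h2.trans h1))
  have : Fact (Nat.Prime 2) := ⟨Nat.prime_two⟩
  obtain ⟨U, hU⟩ := exists_fixed_sylow M ht'M ht'2 hcardS
  let U₁ : Subgroup N := (U : Subgroup M).map M.subtype
  let U₀ : Subgroup G := U₁.map N.subtype
  have hU₀p : IsPGroup p U₀ := (U.isPGroup'.map M.subtype).map N.subtype
  have htU₀ : t ∈ Subgroup.normalizer (U₀ : Set G) := by
    apply mem_normalizer_of_conj_le'
    rintro _ ⟨u, hu, rfl⟩
    have h1 := (Subgroup.mem_normalizer_iff.mp hU u).mp hu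
    exact ⟨_, h1, rfl⟩
  have hle := hmax U₀ hU₀p htU₀
  have hU₀c : Nat.card U₀ = Nat.card (U : Subgroup M) := by
    rw [Subgroup.card_map_of_injective N.subtype_injective, Subgroup.card_map_of_injective M.subtype_injective]
  have hS'M : S'.subgroupOf M ≤ (⊤ : Subgroup M) := le_top
  have hdvd : Nat.card S' ∣ Nat.card (U : Subgroup M) := by
    rw [Sylow.card_eq_multiplicity]
    obtain ⟨k, hk⟩ := IsPGroup.iff_card.mp hSp'
    have h1 : Nat.card S' ∣ Nat.card M := Subgroup.card_dvd_of_le le_sup_left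
    rw [hk] at h1 ⊢
    exact Nat.pow_dvd_pow p ((Nat.Prime.pow_dvd_iff_le_factorization hp' Nat.card_pos.ne').mp h1)
  have h2 : Nat.card S' ≤ Nat.card (U : Subgroup M) := Nat.le_of_dvd Nat.card_pos hdvd
  rw [← hSc]
  rw [hU₀c] at hle
  exact h2.trans hle

/-- Let p be an odd prime and G a finite group of even order divisible by p in which the centralizer of every non-identity p-element has odd order. If some nontrivial p-subgroup of G has a normalizer of even order, then the normalizer of every Sylow p-subgroup of G has even order. -/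
theorem result {G : Type*} [Group G] [Finite G] (p : ℕ) [Fact p.Prime] (hp2 : p ≠ 2) (hpG : p ∣ Nat.card G) (h2G : 2 ∣ Nat.card G) (hC : ∀ g : G, g ≠ 1 → (∃ k : ℕ, orderOf g = p ^ k) → Odd (Nat.card ↥(Subgroup.centralizer ({g} : Set G)))) (Q : Subgroup G) (hQ : IsPGroup p ↥Q) (hQ1 : Q ≠ ⊥) (hev : Even (Nat.card ↥(Subgroup.normalizer (Q : Set G)))) (P : Sylow p G) : Even (Nat.card ↥(Subgroup.normalizer ((P : Subgroup G) : Set G))) := by
  classical
  have hp' : p.Prime := Fact.out
  -- the maximal choice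
  let X : Set (Subgroup G) := {R | IsPGroup p R ∧ R ≠ ⊥ ∧ Even (Nat.card (Subgroup.normalizer (R : Set G)))}
  have hX : X.Nonempty := ⟨Q, hQ, hQ1, hev⟩
  obtain ⟨R, ⟨hRp, hR1, hRev⟩, hRmax⟩ := Set.exists_max_image X (fun R => Nat.card R) (Set.toFinite _) hX
  have : Fact (Nat.Prime 2) := ⟨Nat.prime_two⟩
  obtain ⟨t', ht'⟩ := exists_prime_orderOf_dvd_card' 2 (even_iff_two_dvd.mp hRev)
  set t : G := (t' : G) with htdef
  have ht : orderOf t = 2 := by rw [htdef, Subgroup.orderOf_coe, ht']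
  have htR : t ∈ Subgroup.normalizer (R : Set G) := t'.2
  have hmax : ∀ U : Subgroup G, IsPGroup p U → t ∈ Subgroup.normalizer (U : Set G) → Nat.card U ≤ Nat.card R := by
    intro U hU htU
    by_cases hU1 : U = ⊥
    · subst hU1
      rw [Subgroup.card_bot]
      exact Nat.card_pos
    · refine hRmax U ⟨hU, hU1, ?_⟩
      rw [even_iff_two_dvd, ← ht]
      exact Subgroup.orderOf_dvd_natCard _ htU
  -- R is a Sylow subgroup
  obtain ⟨P', hP'⟩ := hRp.exists_le_sylow
  have hRP' : R = (P' : Subgroup G) := by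
    by_contra hne
    have hlt : R < (P' : Subgroup G) := lt_of_le_of_ne hP' hne
    have hnil : Group.IsNilpotent (P' : Subgroup G) := P'.isPGroup'.isNilpotent
    have hnc := Group.normalizerCondition_of_isNilpotent (G := (P' : Subgroup G))
    have hQ' : R.subgroupOf (P' : Subgroup G) < ⊤ := by
      rw [lt_top_iff_ne_top]
      intro h1
      exact (not_le_of_gt hlt) (Subgroup.subgroupOf_eq_top.mp h1)
    obtain ⟨u, hu1, hu2⟩ := SetLike.exists_of_lt (hnc _ hQ')
    have huN : (u : G) ∈ Subgroup.normalizer (R : Set G) := by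
      apply mem_normalizer_of_conj_le'
      intro w hw
      have h1 : (⟨w, hP' hw⟩ : (P' : Subgroup G)) ∈ R.subgroupOf (P' : Subgroup G) := Subgroup.mem_subgroupOf.mpr hw
      have h2 := (Subgroup.mem_normalizer_iff.mp hu1 _).mp h1
      have h3 := Subgroup.mem_subgroupOf.mp h2
      simpa using h3
    have huS : (u : G) ∉ R := fun h => hu2 (Subgroup.mem_subgroupOf.mpr h)
    let S : Subgroup G := Subgroup.zpowers (u : G) ⊔ R
    have hz : IsPGroup p (Subgroup.zpowers (u : G)) :=
      isPGroup_zpowers_iff.mpr (exists_orderOf_of_mem_isPGroup P'.isPGroup' u.2)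
    have hzN : Subgroup.zpowers (u : G) ≤ Subgroup.normalizer (R : Set G) := (Subgroup.zpowers_le).mpr huN
    have hSp : IsPGroup p S := hz.to_sup_of_normal_right' hRp hzN
    have hSN : S ≤ Subgroup.normalizer (R : Set G) := sup_le hzN Subgroup.le_normalizer
    have hle := core p hp2 hC R hRp hR1 t ht htR hmax S hSp hSN
    have hRS : R ≤ S := le_sup_right
    have hSR : S = R := (Subgroup.eq_of_le_of_card_ge hRS hle).symm
    apply huS
    rw [← hSR]
    exact (le_sup_left : Subgroup.zpowers (u : G) ≤ S) (Subgroup.mem_zpowers _)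
  subst hRP'
  obtain ⟨g, rfl⟩ := MulAction.exists_smul_eq G P' P
  rw [even_iff_two_dvd]
  rw [Sylow.coe_subgroup_smul]
  have h1 : g * t * g⁻¹ ∈ Subgroup.normalizer ((MulAut.conj g • (P' : Subgroup G) : Subgroup G) : Set G) := by
    apply mem_normalizer_of_conj_le'
    intro w hw
    rw [mem_conj_smul] at hw ⊢
    have h2 := (Subgroup.mem_normalizer_iff.mp htR _).mp hw
    have : g⁻¹ * (g * t * g⁻¹ * w * (g * t * g⁻¹)⁻¹) * g = t * (g⁻¹ * w * g) * t⁻¹ := by group
    rw [this]; exact h2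
  have h3 := Subgroup.orderOf_dvd_natCard _ h1
  rwa [orderOf_conj_eq, ht] at h3

end Cfsg.Agent.S3982
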