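import Cfsg.Statements.S3983
import Cfsg.Agent.Lib.PGroups.TI

set_option autoImplicit false
open scoped Pointwise
open Cfsg

namespace Cfsg.Agent.S3983

open Cfsg.Agent.Lib.PGroups Cfsg.Agent.Lib.Basic

/-- Let P be a Sylow p-subgroup of the finite group G that meets each conjugate g P g⁻¹ with g outside N_G(P) trivially, and let U be a subgroup of G of order divisible by p. Then a Sylow p-subgroup Q of U has the same property inside U: Q meets each conjugate u Q u⁻¹ with u ∈ U outside N_U(Q) trivially. -/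
theorem result {G : Type*} [Group G] [Finite G] (p : ℕ) [Fact p.Prime] (P : Sylow p G) (hTI : ∀ g : G, g ∉ Subgroup.normalizer ((P : Subgroup G) : Set G) → (P : Subgroup G) ⊓ (MulAut.conj g • (P : Subgroup G)) = ⊥) (U : Subgroup G) (hU : p ∣ Nat.card ↥U) (Q : Sylow p ↥U) : ∀ u : ↥U, u ∉ Subgroup.normalizer ((Q : Subgroup ↥U) : Set ↥U) → (Q : Subgroup ↥U) ⊓ (MulAut.conj u • (Q : Subgroup ↥U)) = ⊥ := by
  rw [ti_iff_forall]
  intro g x hx hxQ hgx
  have hp : IsPGroup p ((Q : Subgroup U).map U.subtype) := Q.isPGroup'.map U.subtype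
  obtain ⟨P', hP'⟩ := hp.exists_le_sylow
  have hTI' := sylow_ti_of_ti P P' ((ti_iff_forall _).mp hTI)
  have hx1 : (x : G) ∈ (P' : Subgroup G) := hP' (Subgroup.mem_map_of_mem _ hxQ)
  have hx2 : ((g : G))⁻¹ * x * g ∈ (P' : Subgroup G) := by
    have := hP' (Subgroup.mem_map_of_mem _ hgx)
    simpa using this
  have hg := hTI' g x (by simpa using hx) hx1 hx2
  -- Q is `P' ∩ U`
  have hQeq : (P' : Subgroup G).subgroupOf U = (Q : Subgroup U) := by
    apply Q.is_maximal'
    · exact P'.isPGroup'.comap_of_injective U.subtype U.subtype_injective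
    · intro y hy
      exact Subgroup.mem_subgroupOf.mpr (hP' (Subgroup.mem_map_of_mem _ hy))
  -- g normalizes
  rw [Subgroup.mem_normalizer_iff]
  have hgP := Subgroup.mem_normalizer_iff.mp hg
  intro y
  rw [← hQeq, Subgroup.mem_subgroupOf, Subgroup.mem_subgroupOf]
  have := hgP (y : G)
  simpa using this

end Cfsg.Agent.S3983
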