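import Cfsg.Statements.S3984
import Cfsg.Agent.Lib.PGroups.Coset

set_option autoImplicit false
open scoped Pointwise
open Cfsg

namespace Cfsg.Agent.S3984

open Cfsg.Agent.Lib.PGroups Cfsg.Agent.Lib.Basic

/-- Let P be a Sylow p-subgroup of the finite group G that meets each conjugate g P g⁻¹ with g outside N_G(P) trivially, and let N be a normal subgroup of G of order prime to p. Then every Sylow p-subgroup Q of G ⧸ N meets each conjugate x Q x⁻¹ with x outside its normalizer trivially. -/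
theorem result {G : Type*} [Group G] [Finite G] (p : ℕ) [Fact p.Prime] (P : Sylow p G) (hTI : ∀ g : G, g ∉ Subgroup.normalizer ((P : Subgroup G) : Set G) → (P : Subgroup G) ⊓ (MulAut.conj g • (P : Subgroup G)) = ⊥) (N : Subgroup G) [N.Normal] (hN : (Nat.card ↥N).Coprime p) (Q : Sylow p (G ⧸ N)) : ∀ x : G ⧸ N, x ∉ Subgroup.normalizer ((Q : Subgroup (G ⧸ N)) : Set (G ⧸ N)) → (Q : Subgroup (G ⧸ N)) ⊓ (MulAut.conj x • (Q : Subgroup (G ⧸ N))) = ⊥ := by
  rw [ti_iff_forall]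
  intro g' x' hx' hxQ hgx
  have hf : Function.Surjective (QuotientGroup.mk' N) := QuotientGroup.mk'_surjective N
  obtain ⟨P', rfl⟩ := Sylow.mapSurjective_surjective hf p Q
  rw [Sylow.coe_mapSurjective] at *
  obtain ⟨g, rfl⟩ := hf g'
  obtain ⟨a, haP, rfl⟩ := hxQ
  obtain ⟨b, hbP, hb⟩ := hgx
  have hTI' := sylow_ti_of_ti P P' ((ti_iff_forall _).mp hTI)
  have ha1 := exists_orderOf_of_mem_isPGroup P'.isPGroup' haP
  have hb1 := exists_orderOf_of_mem_isPGroup P'.isPGroup' hbP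
  have hc1 : ∃ k : ℕ, orderOf (g⁻¹ * a * g) = p ^ k := by
    obtain ⟨k, hk⟩ := ha1
    refine ⟨k, ?_⟩
    rw [← hk]
    exact (SemiconjBy.orderOf_eq g⁻¹ (x := a) (y := g⁻¹ * a * g) (by simp [SemiconjBy, mul_assoc])).symm
  have hcos : (g⁻¹ * a * g)⁻¹ * b ∈ N := by
    rw [← QuotientGroup.ker_mk' N, MonoidHom.mem_ker, map_mul, hb, map_inv, map_mul, map_mul, map_inv]
    group
  obtain ⟨n, hn, hbn⟩ := conj_of_pElement_coset N hN hc1 hb1 hcos
  have h1 : (g * n⁻¹)⁻¹ * a * (g * n⁻¹) ∈ (P' : Subgroup G) := by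
    have : (g * n⁻¹)⁻¹ * a * (g * n⁻¹) = b := by rw [hbn]; group
    rw [this]; exact hbP
  have ha2 : a ≠ 1 := by
    rintro rfl
    exact hx' (map_one _)
  have h2 := hTI' _ a ha2 haP h1
  have h3 : QuotientGroup.mk' N g = QuotientGroup.mk' N (g * n⁻¹) := by
    rw [map_mul, map_inv]
    have : QuotientGroup.mk' N n = 1 := by
      rw [← MonoidHom.mem_ker, QuotientGroup.ker_mk']; exact hn
    rw [this]; simp
  rw [h3]
  exact Subgroup.le_normalizer_map _ (Subgroup.mem_map_of_mem _ h2)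

end Cfsg.Agent.S3984
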