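import Cfsg.Statements.S3985
import Cfsg.Agent.Lib.PGroups.Cyclic

set_option autoImplicit false
open scoped Pointwise
open Cfsg

namespace Cfsg.Agent.S3985

open Cfsg.Agent.Lib.PGroups Cfsg.Agent.Lib.Basic

/-- Let P be a cyclic Sylow p-subgroup of the finite group G. Then P meets each conjugate g P g⁻¹ with g outside N_G(P) trivially if and only if P is weakly self-centralizing: C_G(x) = C_G(P) for every non-identity x ∈ P. -/
theorem result {G : Type*} [Group G] [Finite G] (p : ℕ) [Fact p.Prime] (P : Sylow p G) (hcyc : IsCyclic ↥(P : Subgroup G)) : (∀ g : G, g ∉ Subgroup.normalizer ((P : Subgroup G) : Set G) → (P : Subgroup G) ⊓ (MulAut.conj g • (P : Subgroup G)) = ⊥) ↔ ∀ x : G, x ∈ (P : Subgroup G) → x ≠ 1 → Subgroup.centralizer ({x} : Set G) = Subgroup.centralizer ((P : Subgroup G) : Set G) := by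
  classical
  let _ : CommGroup (P : Subgroup G) := IsCyclic.commGroup
  have hcomm : ∀ u v : G, u ∈ (P : Subgroup G) → v ∈ (P : Subgroup G) → u * v = v * u := by
    intro u v hu hv
    have := mul_comm (⟨u, hu⟩ : (P : Subgroup G)) ⟨v, hv⟩
    exact congrArg Subtype.val this
  obtain ⟨c₀, hc₀⟩ := IsCyclic.exists_generator (α := (P : Subgroup G))
  have hcP : (c₀ : G) ∈ (P : Subgroup G) := c₀.2
  have hcgen : ∀ u ∈ (P : Subgroup G), u ∈ Subgroup.zpowers (c₀ : G) := by
    intro u hu
    obtain ⟨k, hk⟩ := Subgroup.mem_zpowers_iff.mp (hc₀ ⟨u, hu⟩)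
    refine Subgroup.mem_zpowers_iff.mpr ⟨k, ?_⟩
    have := congrArg Subtype.val hk
    simpa using this
  rw [ti_iff_forall]
  constructor
  · intro hTI x hxP hx1
    apply le_antisymm
    · intro g hg
      have hNorm : ∀ h ∈ Subgroup.centralizer ({x} : Set G), h ∈ Subgroup.normalizer (((P : Subgroup G) : Subgroup G) : Set G) := by
        intro h hh
        apply hTI h x hx1 hxP
        have := Subgroup.mem_centralizer_singleton_iff.mp hh
        have h2 : h⁻¹ * x * h = x := by rw [mul_assoc, ← this]; group
        rw [h2]; exact hxP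
      obtain ⟨a, b, hab, -, ha, hb, ha2, hb2⟩ := exists_pPart p g
      have hle : Subgroup.zpowers g ≤ Subgroup.centralizer ({x} : Set G) := (Subgroup.zpowers_le).mpr hg
      have haP : a ∈ (P : Subgroup G) := mem_sylow_of_mem_normalizer P ha (hNorm a (hle ha2))
      have hbN := hNorm b (hle hb2)
      have hbc : Commute b (c₀ : G) := by
        obtain ⟨k, hk⟩ := exists_orderOf_of_mem_isPGroup P.isPGroup' hcP
        refine commute_of_cyclic_of_fix (pow_orderOf_eq_one b)
          ((Nat.Prime.coprime_iff_not_dvd Fact.out).mpr hb).symm k c₀ x hk ?_ (hcgen x hxP) hx1 ?_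
        · apply hcgen
          exact (Subgroup.mem_normalizer_iff.mp hbN _).mp hcP
        · have := Subgroup.mem_centralizer_singleton_iff.mp (hle hb2)
          exact this
      rw [Subgroup.mem_centralizer_iff]
      intro h hh
      have hh' : h ∈ (P : Subgroup G) := hh
      obtain ⟨k, rfl⟩ := Subgroup.mem_zpowers_iff.mp (hcgen h hh')
      have h1 : Commute a ((c₀ : G) ^ k) := hcomm _ _ haP hh'
      have h2 : Commute b ((c₀ : G) ^ k) := hbc.zpow_right k
      rw [hab]
      exact ((h1.mul_left h2).eq).symm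
    · exact Subgroup.centralizer_le (Set.singleton_subset_iff.mpr hxP)
  · intro hC g x hx1 hxP hgx
    have hy1 : g⁻¹ * x * g ≠ 1 := by
      intro h
      apply hx1
      have : x = g * (g⁻¹ * x * g) * g⁻¹ := by group
      rw [this, h]; group
    have hCy := hC _ hgx hy1
    have key : ∀ w ∈ (P : Subgroup G), g * w * g⁻¹ ∈ (P : Subgroup G) := by
      intro w hw
      apply mem_sylow_of_mem_normalizer P
      · rw [orderOf_conj_eq]; exact exists_orderOf_of_mem_isPGroup P.isPGroup' hw
      · apply mem_normalizer_of_forall_commute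
        intro z hz
        -- g⁻¹ z g centralizes g⁻¹ x g
        have h1 : g⁻¹ * z * g ∈ Subgroup.centralizer ({g⁻¹ * x * g} : Set G) := by
          rw [Subgroup.mem_centralizer_singleton_iff]
          have := hcomm z x hz hxP
          calc g⁻¹ * z * g * (g⁻¹ * x * g) = g⁻¹ * (z * x) * g := by group
            _ = g⁻¹ * (x * z) * g := by rw [this]
            _ = _ := by group
        rw [hCy, Subgroup.mem_centralizer_iff] at h1
        have h2 := h1 w hw
        calc g * w * g⁻¹ * z = g * (w * (g⁻¹ * z * g)) * g⁻¹ := by group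
          _ = g * ((g⁻¹ * z * g) * w) * g⁻¹ := by rw [h2]
          _ = z * (g * w * g⁻¹) := by group
    exact mem_normalizer_of_conj_le' _ _ key

end Cfsg.Agent.S3985
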