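import Cfsg.Statements.S3986
import Cfsg.Agent.Lib.PGroups.Cyclic

set_option autoImplicit false
open Cfsg

namespace Cfsg.Agent.S3986

open Cfsg.Agent.Lib.PGroups Cfsg.Agent.Lib.Basic

/-- The main construction of the direct factor. -/
theorem exists_factor {G : Type*} [Group G] [Finite G] (p : ℕ) [hp : Fact p.Prime]
    (h : ∀ x y : G, (∃ a : ℕ, orderOf x = p ^ a) → (∃ q b : ℕ, q.Prime ∧ q ≠ p ∧ orderOf y = q ^ b) → x * y = y * x) :
    ∃ (P : Sylow p G) (K : Subgroup G), (P : Subgroup G).Normal ∧ K.Normal ∧ (P : Subgroup G) ⊓ K = ⊥ ∧ (P : Subgroup G) ⊔ K = ⊤ := by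
  classical
  obtain ⟨P⟩ : Nonempty (Sylow p G) := inferInstance
  have hN : Subgroup.normalizer ((P : Subgroup G) : Set G) = ⊤ := by
    rw [← Subgroup.index_eq_one]
    by_contra hne
    obtain ⟨q, hq, hdvd⟩ := Nat.exists_prime_and_dvd hne
    have : Fact q.Prime := ⟨hq⟩
    by_cases hqp : q = p
    · subst hqp
      exact P.not_dvd_index (hdvd.trans (Subgroup.index_dvd_of_le Subgroup.le_normalizer))
    · obtain ⟨Q⟩ : Nonempty (Sylow q G) := inferInstance
      refine Q.not_dvd_index (hdvd.trans (Subgroup.index_dvd_of_le (fun y hy => mem_normalizer_of_forall_commute ?_)))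
      intro z hz
      obtain ⟨k, hk⟩ := exists_orderOf_of_mem_isPGroup Q.isPGroup' hy
      exact (h z y (exists_orderOf_of_mem_isPGroup P.isPGroup' hz) ⟨q, k, Fact.out, hqp, hk⟩).symm
  have hPn : (P : Subgroup G).Normal := Subgroup.normalizer_eq_top_iff.mp hN
  have hcop : (Nat.card (P : Subgroup G)).Coprime (P : Subgroup G).index := by
    have := P.card_coprime_index
    exact this
  obtain ⟨K, hK⟩ := Subgroup.exists_right_complement'_of_coprime hcop
  have hKc : Nat.card K = (P : Subgroup G).index := by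
    have := hK.card_mul_card
    have h2 := (P : Subgroup G).card_mul_index
    have h3 : 0 < Nat.card (P : Subgroup G) := Nat.card_pos
    exact Nat.eq_of_mul_eq_mul_left h3 (this.trans h2.symm)
  have hKP : ∀ k ∈ K, ∀ z ∈ (P : Subgroup G), k * z = z * k := by
    intro k hk z hz
    have hkC : k ∈ Subgroup.centralizer ({z} : Set G) := by
      apply mem_of_primary_powers
      intro a ha hpp
      obtain ⟨q, j, hq, hj, hqj⟩ := hpp
      have hq' : q.Prime := hq.nat_prime
      have hak : a ∈ K := (Subgroup.zpowers_le.mpr hk) ha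
      have hne : q ≠ p := by
        rintro rfl
        have h1 : q ∣ orderOf a := by rw [← hqj]; exact dvd_pow_self q hj.ne'
        have h2 : orderOf a ∣ Nat.card K := Subgroup.orderOf_dvd_natCard K hak
        rw [hKc] at h2
        exact P.not_dvd_index (h1.trans h2)
      rw [Subgroup.mem_centralizer_singleton_iff]
      exact (h z a (exists_orderOf_of_mem_isPGroup P.isPGroup' hz) ⟨q, j, hq', hne, hqj.symm⟩).symm
    exact Subgroup.mem_centralizer_singleton_iff.mp hkC
  have hKn : K.Normal := by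
    rw [← Subgroup.normalizer_eq_top_iff, eq_top_iff, ← hK.sup_eq_top]
    refine sup_le ?_ Subgroup.le_normalizer
    intro z hz
    apply mem_normalizer_of_forall_commute
    intro k hk
    exact (hKP k hk z hz).symm
  exact ⟨P, K, hPn, hKn, disjoint_iff.mp hK.disjoint, hK.sup_eq_top⟩


/-- Let p be a prime and G a finite group. Then some Sylow p-subgroup of G is a direct factor of G (it is normal and has a normal complement) if and only if every element of p-power order commutes with every element whose order is a power of a prime other than p. -/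
theorem result {G : Type*} [Group G] [Finite G] (p : ℕ) [Fact p.Prime] : (∃ (P : Sylow p G) (K : Subgroup G), (P : Subgroup G).Normal ∧ K.Normal ∧ (P : Subgroup G) ⊓ K = ⊥ ∧ (P : Subgroup G) ⊔ K = ⊤) ↔ ∀ x y : G, (∃ a : ℕ, orderOf x = p ^ a) → (∃ q b : ℕ, q.Prime ∧ q ≠ p ∧ orderOf y = q ^ b) → x * y = y * x := by
  classical
  constructor
  · rintro ⟨P, K, hPn, hKn, hinf, hsup⟩ x y hx ⟨q, b, hq, hqp, hy⟩
    have hxP : x ∈ (P : Subgroup G) := mem_sylow_of_mem_normalizer P hx (by
      rw [Subgroup.normalizer_eq_top_iff.mpr hPn]; trivial)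
    have hdis : Disjoint (P : Subgroup G) K := disjoint_iff.mpr hinf
    have hcommPK := Subgroup.commute_of_normal_of_disjoint (P : Subgroup G) K hPn hKn hdis
    have hyt : y ∈ (P : Subgroup G) ⊔ K := by rw [hsup]; trivial
    obtain ⟨a, ha, c, hc, rfl⟩ := Subgroup.mem_sup_of_normal_right.mp hyt
    have hcm : Commute a c := hcommPK a c ha hc
    have hacq : (a * c) ^ q ^ b = 1 := by rw [← hy, pow_orderOf_eq_one]
    rw [hcm.mul_pow] at hacq
    have h1 : a ^ q ^ b = 1 := by
      have h2 : a ^ q ^ b = (c ^ q ^ b)⁻¹ := eq_inv_of_mul_eq_one_left hacq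
      have h3 : a ^ q ^ b ∈ (P : Subgroup G) ⊓ K := ⟨pow_mem ha _, by rw [h2]; exact K.inv_mem (pow_mem hc _)⟩
      rw [hinf] at h3
      exact Subgroup.mem_bot.mp h3
    have ha1 : a = 1 := by
      obtain ⟨k, hk⟩ := exists_orderOf_of_mem_isPGroup P.isPGroup' ha
      have h2 : orderOf a ∣ q ^ b := orderOf_dvd_of_pow_eq_one h1
      have h3 : orderOf a ∣ p ^ k := hk.dvd
      have h4 : (q ^ b).Coprime (p ^ k) := Nat.Coprime.pow _ _ ((Nat.coprime_primes hq Fact.out).mpr hqp)
      exact orderOf_eq_one_iff.mp (Nat.eq_one_of_dvd_coprimes h4 h2 h3)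
    rw [ha1, one_mul]
    exact hcommPK x c hxP hc
  · exact exists_factor p

end Cfsg.Agent.S3986
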