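import Cfsg.Statements.S3987
import Cfsg.Agent.S3986
import Cfsg.Agent.Lib.PGroups.Cyclic
import Cfsg.Agent.Lib.Basic.Index

set_option autoImplicit false
open Cfsg

namespace Cfsg.Agent.S3987

open Cfsg.Agent.Lib.PGroups Cfsg.Agent.Lib.Basic

/-- Let p be a prime and G a finite group. Then some Sylow p-subgroup of G is a direct factor of G (normal with a normal complement) if and only if for every element x of p-power order and every element y whose order is a power of a prime other than p, the conjugacy class of x y has as many elements as the product of the sizes of the classes of x and of y. -/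
theorem result {G : Type*} [Group G] [Finite G] (p : ℕ) [Fact p.Prime] : (∃ (P : Sylow p G) (K : Subgroup G), (P : Subgroup G).Normal ∧ K.Normal ∧ (P : Subgroup G) ⊓ K = ⊥ ∧ (P : Subgroup G) ⊔ K = ⊤) ↔ ∀ x y : G, (∃ a : ℕ, orderOf x = p ^ a) → (∃ q b : ℕ, q.Prime ∧ q ≠ p ∧ orderOf y = q ^ b) → (Subgroup.centralizer ({x * y} : Set G)).index = (Subgroup.centralizer ({x} : Set G)).index * (Subgroup.centralizer ({y} : Set G)).index := by
  classical
  rw [Cfsg.Agent.S3986.result]
  constructor
  · intro h x y hx hy
    have hcm : Commute x y := h x y hx hy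
    obtain ⟨q, b, hq, hqp, hyq⟩ := hy
    obtain ⟨a, hxa⟩ := hx
    have hcop : (orderOf x).Coprime (orderOf y) := by
      rw [hxa, hyq]
      exact Nat.Coprime.pow _ _ ((Nat.coprime_primes Fact.out hq).mpr (Ne.symm hqp))
    rw [centralizer_mul_of_coprime hcm hcop]
    -- G = C(x) C(y) from the primary decomposition of each element
    have hmul : ∀ g : G, ∃ u ∈ Subgroup.centralizer ({x} : Set G), ∃ v ∈ Subgroup.centralizer ({y} : Set G), g = u * v := by
      intro g
      obtain ⟨u, v, huv, huvc, hu, hv, hu2, hv2⟩ := exists_pPart p g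
      refine ⟨v, ?_, u, ?_, by rw [huv, huvc.eq]⟩
      · apply mem_of_primary_powers
        intro c hc hpp
        obtain ⟨r, j, hr, hj, hrj⟩ := hpp
        have hne : r ≠ p := by
          rintro rfl
          have h1 : r ∣ orderOf c := by rw [← hrj]; exact dvd_pow_self r hj.ne'
          exact hv (h1.trans (orderOf_dvd_of_mem_zpowers hc))
        rw [Subgroup.mem_centralizer_singleton_iff]
        exact (h x c ⟨a, hxa⟩ ⟨r, j, hr.nat_prime, hne, hrj.symm⟩).symm
      · rw [Subgroup.mem_centralizer_singleton_iff]
        exact (h u y hu ⟨q, b, hq, hqp, hyq⟩)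
    have h1 := relIndex_eq_index_of_mul_eq hmul
    have h2 := Subgroup.relIndex_mul_index (H := Subgroup.centralizer ({x} : Set G) ⊓ Subgroup.centralizer ({y} : Set G)) (K := Subgroup.centralizer ({x} : Set G)) inf_le_left
    rw [Subgroup.inf_relIndex_left, h1] at h2
    rw [← h2, mul_comm]
  · intro h x y hx hy
    have h1 : Subgroup.centralizer ({x} : Set G) ⊓ Subgroup.centralizer ({y} : Set G) ≤ Subgroup.centralizer ({x * y} : Set G) := by
      intro g hg
      have h1 : g ∈ Subgroup.centralizer ({x} : Set G) := hg.1
      have h2 : g ∈ Subgroup.centralizer ({y} : Set G) := hg.2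
      rw [Subgroup.mem_centralizer_singleton_iff] at h1 h2 ⊢
      rw [← mul_assoc, h1, mul_assoc, h2, mul_assoc]
    have h2 := Subgroup.index_inf_le (H := Subgroup.centralizer ({x} : Set G)) (K := Subgroup.centralizer ({y} : Set G))
    rw [← h x y hx hy] at h2
    have h3 := Subgroup.relIndex_mul_index h1
    have h4 : (Subgroup.centralizer ({x * y} : Set G)).index ≠ 0 := Subgroup.index_ne_zero_of_finite
    have h5 : (Subgroup.centralizer ({x} : Set G) ⊓ Subgroup.centralizer ({y} : Set G)).relIndex (Subgroup.centralizer ({x * y} : Set G)) = 1 := by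
      have h6 : 0 < (Subgroup.centralizer ({x * y} : Set G)).index := Nat.pos_of_ne_zero h4
      have h7 : (Subgroup.centralizer ({x} : Set G) ⊓ Subgroup.centralizer ({y} : Set G)).relIndex (Subgroup.centralizer ({x * y} : Set G)) ≠ 0 := by
        intro h0
        rw [h0, zero_mul] at h3
        exact (Subgroup.index_ne_zero_of_finite) h3.symm
      have h8 : (Subgroup.centralizer ({x} : Set G) ⊓ Subgroup.centralizer ({y} : Set G)).relIndex (Subgroup.centralizer ({x * y} : Set G)) * (Subgroup.centralizer ({x * y} : Set G)).index ≤ 1 * (Subgroup.centralizer ({x * y} : Set G)).index := by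
        rw [h3, one_mul]; exact h2
      have h9 := Nat.le_of_mul_le_mul_right h8 h6
      omega
    rw [Subgroup.relIndex_eq_one] at h5
    have h6 : x * y ∈ Subgroup.centralizer ({x * y} : Set G) := by
      rw [Subgroup.mem_centralizer_singleton_iff]
    have h7 := (h5 h6).1
    have h8 : x * y ∈ Subgroup.centralizer ({x} : Set G) := h7
    rw [Subgroup.mem_centralizer_singleton_iff] at h8
    rw [mul_assoc] at h8
    exact (mul_left_cancel h8).symm

end Cfsg.Agent.S3987
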