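import Cfsg.Statements.S4001
import Cfsg.Agent.S0034
import Cfsg.Agent.S0035
import Cfsg.Agent.S0042
import Cfsg.Agent.Lib.Basic.FrobFix
import Cfsg.Agent.Lib.Basic.Frobenius2
import Cfsg.Agent.Lib.Basic.FrobNorm
import Cfsg.Agent.Lib.Basic.Nilpotent
import Cfsg.Agent.Lib.Basic.Hall
import Cfsg.Agent.Lib.OddLocal.Fitting

set_option autoImplicit false
open Cfsg

namespace Cfsg.Agent.S4001

section aux
open Subgroup Cfsg Cfsg.Agent.Lib.Basic Cfsg.Agent.Lib.OddLocal
open scoped Pointwise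

private theorem frob_data {L : Type*} [Group L] [Finite L] (C N : Subgroup L)
    (hC : IsFrobeniusComplement C) (hker : frobeniusKernel C = (N : Set L)) :
    N.Normal ∧ IsComplement' N C ∧ Group.IsNilpotent N ∧ N ≠ ⊥ ∧
      (Nat.card N).Coprime (Nat.card C) ∧
      (∀ c ∈ C, c ≠ 1 → N ⊓ centralizer {c} = ⊥) ∧
      (∀ x, x ∉ N → ∀ y ∈ N, x * y = y * x → y = 1) := by
  classical
  obtain ⟨N₁, hN₁, hn, hc⟩ := Cfsg.Agent.S0035.result C hC
  have hN₁N : N₁ = N := SetLike.coe_injective (hN₁.trans hker)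
  subst hN₁N
  obtain ⟨N₂, hN₂, -, hnil⟩ := Cfsg.Agent.S0042.result C hC
  have hN₂N : N₂ = N₁ := SetLike.coe_injective (hN₂.trans hker)
  subst hN₂N
  have hNne : N₂ ≠ ⊥ := by
    intro hbot
    apply hC.2.1
    have h1 := hc.index_eq_card
    rw [hbot, Subgroup.card_bot] at h1
    exact Subgroup.index_eq_one.mp h1
  have hfpf := (isFrobeniusComplement_iff_fpf hc hNne hC.1).mp hC
  refine ⟨hn, hc, hnil, hNne, ?_, hfpf, ?_⟩
  · obtain ⟨-, hmod⟩ := Cfsg.Agent.S0034.result C hC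
    have h1 : C.index = Nat.card N₂ := hc.index_eq_card
    rw [h1] at hmod
    have h2 : Nat.gcd (Nat.card N₂) (Nat.card C) = Nat.gcd 1 (Nat.card C) := Nat.ModEq.gcd_eq hmod
    rw [Nat.gcd_one_left] at h2
    exact h2
  · intro x hx y hy hxy
    have hx' : x ∉ frobeniusKernel C := by
      rw [hker]
      exact hx
    simp only [frobeniusKernel, Set.mem_ofPred_eq, not_or] at hx'
    obtain ⟨hx1, hx2⟩ := hx'
    push Not at hx2
    obtain ⟨g, hg⟩ := hx2
    have hc' : g⁻¹ * x * g ∈ C := by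
      obtain ⟨c, hc1, hc2⟩ := hg
      have hc3 : g * c * g⁻¹ = x := hc2
      rw [← hc3]
      have e : g⁻¹ * (g * c * g⁻¹) * g = c := by group
      rwa [e]
    have hc1 : g⁻¹ * x * g ≠ 1 := by
      intro h
      apply hx1
      have e : x = g * (g⁻¹ * x * g) * g⁻¹ := by group
      rw [e, h]
      group
    have hmem : g⁻¹ * y * g ∈ N₂ ⊓ centralizer {g⁻¹ * x * g} := by
      refine mem_inf.mpr ⟨?_, ?_⟩
      · have := hn.conj_mem y hy g⁻¹
        rwa [inv_inv] at this
      · rw [mem_centralizer_singleton_iff]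
        calc g⁻¹ * y * g * (g⁻¹ * x * g) = g⁻¹ * (y * x) * g := by group
          _ = g⁻¹ * (x * y) * g := by rw [hxy]
          _ = g⁻¹ * x * g * (g⁻¹ * y * g) := by group
    rw [hfpf _ hc' hc1, mem_bot] at hmem
    have e : y = g * (g⁻¹ * y * g) * g⁻¹ := by group
    rw [e, hmem]
    group

private theorem exists_order_of_dvd {X : Type*} [Group X] [Finite X] {x : X} {d : ℕ}
    (hd : d ∣ orderOf x) : ∃ g : X, orderOf g = d := by
  have hpos : 0 < orderOf x := orderOf_pos x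
  obtain ⟨k, hk⟩ := hd
  have hk0 : k ≠ 0 := by
    rintro rfl
    rw [mul_zero] at hk
    omega
  refine ⟨x ^ k, ?_⟩
  rw [orderOf_pow_of_dvd hk0 (Dvd.intro_left d hk.symm), hk]
  exact Nat.mul_div_cancel _ (Nat.pos_of_ne_zero hk0)

/-- The mixed case: an element of order `pq` with `p ∣ |H|`, `q ∣ |C̄|`. -/
private theorem mixed {G : Type*} [Group G] [Finite G] (H K : Subgroup G) [hHn : H.Normal]
    (Cb : Subgroup (G ⧸ H))
    (hHnil : Group.IsNilpotent H) (hKnil : Group.IsNilpotent (K.map (QuotientGroup.mk' H)))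
    (hKn : (K.map (QuotientGroup.mk' H)).Normal)
    (hfpf : ∀ c ∈ Cb, c ≠ 1 → (K.map (QuotientGroup.mk' H)) ⊓ centralizer {c} = ⊥)
    (hd : ∀ x ∈ K, x ∉ H → ∀ y ∈ H, x * y = y * x → y = 1)
    (hex : ∃ x ∈ K, x ∉ H) {p q : ℕ} (hp : p.Prime) (hq : q.Prime) (hpq : p ≠ q)
    (hpH : p ∣ Nat.card H) (hpK : ¬ p ∣ Nat.card (K.map (QuotientGroup.mk' H)))
    (hqC : q ∣ Nat.card Cb) : ∃ g : G, orderOf g = p * q := by
  classical
  haveI hfp : Fact p.Prime := ⟨hp⟩
  haveI hfq : Fact q.Prime := ⟨hq⟩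
  -- a central element of order `p` in `H`
  obtain ⟨z, hzH, hzc, hzo⟩ : ∃ z ∈ H, (∀ h ∈ H, h * z = z * h) ∧ orderOf z = p := by
    let P : Sylow p H := default
    have htfae := (Group.isNilpotent_of_finite_tfae (G := H)).out 0 3
    have hPn : (P : Subgroup H).Normal := htfae.mp hHnil p hfp P
    have hPne : (P : Subgroup H) ≠ ⊥ := by
      intro h
      have h1 := P.card_eq_multiplicity
      rw [h, Subgroup.card_bot] at h1
      have h2 := (Nat.Prime.factorization_pos_of_dvd hp Nat.card_pos.ne' hpH).ne'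
      exact (Nat.one_lt_pow h2 hp.one_lt).ne h1
    have h1 := normal_inf_center_ne_bot (P : Subgroup H) hPne
    obtain ⟨⟨t, ht⟩, ht1⟩ := Subgroup.ne_bot_iff_exists_ne_one.mp h1
    obtain ⟨htP, htc⟩ := mem_inf.mp ht
    obtain ⟨k, hk⟩ := P.isPGroup' ⟨t, htP⟩
    have hk' : t ^ p ^ k = 1 := congrArg Subtype.val hk
    have ht1' : t ≠ 1 := fun h => ht1 (Subtype.ext h)
    obtain ⟨j, -, hj⟩ := (Nat.dvd_prime_pow hp).mp (orderOf_dvd_of_pow_eq_one hk')
    have hj0 : j ≠ 0 := by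
      rintro rfl
      rw [pow_zero, orderOf_eq_one_iff] at hj
      exact ht1' hj
    have hd1 : p ^ (j - 1) ∣ orderOf t := by
      rw [hj]
      exact pow_dvd_pow _ (by omega)
    have hto : orderOf (t ^ p ^ (j - 1)) = p := by
      rw [orderOf_pow_of_dvd (pow_ne_zero _ hp.ne_zero) hd1, hj]
      have e : p ^ j = p * p ^ (j - 1) := by
        rw [← pow_succ']
        congr 1
        omega
      rw [e, Nat.mul_div_cancel _ (pow_pos hp.pos _)]
    refine ⟨((t ^ p ^ (j - 1) : H) : G), (t ^ p ^ (j - 1) : H).2, ?_, ?_⟩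
    · intro h hh
      have h2 := mem_center_iff.mp (Subgroup.pow_mem _ htc (p ^ (j - 1))) ⟨h, hh⟩
      exact congrArg Subtype.val h2
    · rw [Subgroup.orderOf_coe, hto]
  -- the subgroup `V`
  let V : Subgroup G :=
    { carrier := {x | x ∈ H ∧ (∀ h ∈ H, h * x = x * h) ∧ x ^ p = 1}
      mul_mem' := by
        rintro a b ⟨ha, hac, hap⟩ ⟨hb, hbc, hbp⟩
        refine ⟨mul_mem ha hb, ?_, ?_⟩
        · intro h hh
          rw [← mul_assoc, hac h hh, mul_assoc, hbc h hh, mul_assoc]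
        · have hcomm : Commute a b := (hac b hb).symm
          rw [hcomm.mul_pow, hap, hbp, one_mul]
      one_mem' := ⟨one_mem _, by simp, one_pow _⟩
      inv_mem' := by
        rintro a ⟨ha, hac, hap⟩
        refine ⟨inv_mem ha, ?_, ?_⟩
        · intro h hh
          have h1 := hac h hh
          exact (Commute.inv_right (show Commute h a from h1))
        · rw [inv_pow, hap, inv_one] }
  have hVmem : ∀ x, x ∈ V ↔ x ∈ H ∧ (∀ h ∈ H, h * x = x * h) ∧ x ^ p = 1 := fun _ => Iff.rfl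
  have hVn : V.Normal := by
    refine ⟨fun n hn g => ?_⟩
    obtain ⟨ha, hac, hap⟩ := (hVmem n).mp hn
    refine (hVmem _).mpr ⟨hHn.conj_mem n ha g, ?_, ?_⟩
    · intro h hh
      have h1 : g⁻¹ * h * g ∈ H := by
        have := hHn.conj_mem h hh g⁻¹
        rwa [inv_inv] at this
      have h2 := hac _ h1
      calc h * (g * n * g⁻¹) = g * (g⁻¹ * h * g * n) * g⁻¹ := by group
        _ = g * (n * (g⁻¹ * h * g)) * g⁻¹ := by rw [h2]
        _ = g * n * g⁻¹ * h := by group
    · rw [conj_pow, hap, mul_one, mul_inv_cancel]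
  have hVne : V ≠ ⊥ := by
    intro h
    have hz : z ∈ V := (hVmem z).mpr ⟨hzH, hzc, by rw [← hzo]; exact pow_orderOf_eq_one z⟩
    rw [h, mem_bot] at hz
    rw [hz, orderOf_one] at hzo
    exact hp.one_lt.ne hzo
  have hVcomm : ∀ a ∈ V, ∀ b ∈ V, a * b = b * a := by
    intro a ha b hb
    exact ((hVmem a).mp ha).2.1 b ((hVmem b).mp hb).1 |>.symm
  haveI := hVn
  letI instV : CommGroup V :=
    { (inferInstance : Group V) with
      mul_comm := fun a b => Subtype.ext (hVcomm a a.2 b b.2) }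
  let ρ₀ : G →* AddMonoid.End (Additive V) :=
    { toFun := fun g => ((MulAut.conjNormal g : MulAut V) : V →* V).toAdditive
      map_one' := by
        ext a
        show (1 : G) * ((a.toMul : V) : G) * (1 : G)⁻¹ = ((a.toMul : V) : G)
        simp
      map_mul' := by
        intro g h
        ext a
        show (g * h) * ((a.toMul : V) : G) * (g * h)⁻¹ = g * (h * ((a.toMul : V) : G) * h⁻¹) * g⁻¹
        group }
  have hρ₀ : ∀ (g : G) (a : Additive V), ((ρ₀ g a).toMul : G) = g * (a.toMul : G) * g⁻¹ := fun g a => rfl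
  have hHtriv : H ≤ ρ₀.ker := by
    intro h hh
    rw [MonoidHom.mem_ker]
    ext a
    show ((ρ₀ h a).toMul : G) = ((a.toMul : V) : G)
    rw [hρ₀]
    have h1 := ((hVmem _).mp a.toMul.2).2.1 h hh
    rw [h1]
    group
  let ρ : (G ⧸ H) →* AddMonoid.End (Additive V) := QuotientGroup.lift H ρ₀ hHtriv
  have hρ : ∀ (g : G) (a : Additive V), ((ρ (QuotientGroup.mk' H g) a).toMul : G) = g * (a.toMul : G) * g⁻¹ :=
    fun g a => rfl
  have hcardV : ∀ a : Additive V, a.toMul ^ p = 1 := by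
    intro a
    apply Subtype.ext
    exact ((hVmem _).mp a.toMul.2).2.2
  have hVp : IsPGroup p V := fun x => ⟨1, by
    rw [pow_one]
    apply Subtype.ext
    exact ((hVmem _).mp x.2).2.2⟩
  have hcop : Nat.Coprime (Nat.card (Additive V)) (Nat.card (K.map (QuotientGroup.mk' H))) := by
    have h1 : Nat.card (Additive V) = Nat.card V := Nat.card_congr Additive.toMul
    rw [h1]
    obtain ⟨k, hk⟩ := IsPGroup.iff_card.mp hVp
    rw [hk]
    exact ((Nat.Prime.coprime_iff_not_dvd hp).mpr hpK).pow_left k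
  have hKfix : ∀ a : Additive V, (∀ k ∈ K.map (QuotientGroup.mk' H), ρ k a = a) → a = 0 := by
    intro a ha
    obtain ⟨x, hxK, hxH⟩ := hex
    have h1 := ha (QuotientGroup.mk' H x) ⟨x, hxK, rfl⟩
    have h2 : x * (a.toMul : G) * x⁻¹ = (a.toMul : G) := by
      rw [← hρ]
      exact congrArg (fun b : Additive V => ((b.toMul : V) : G)) h1
    have h3 := hd x hxK hxH _ ((hVmem _).mp a.toMul.2).1 (mul_inv_eq_iff_eq_mul.mp h2)
    exact Additive.toMul.injective (Subtype.ext h3)
  have hfpf' : ∀ h ∈ Cb, h ≠ 1 → ∀ k ∈ K.map (QuotientGroup.mk' H), h * k * h⁻¹ = k → k = 1 := by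
    intro h hh h1 k hk hhk
    have h2 : k ∈ (K.map (QuotientGroup.mk' H)) ⊓ centralizer {h} := by
      refine mem_inf.mpr ⟨hk, ?_⟩
      rw [mem_centralizer_singleton_iff]
      exact (mul_inv_eq_iff_eq_mul.mp hhk).symm
    rw [hfpf h hh h1, mem_bot] at h2
    exact h2
  -- a fixed point of the complement
  obtain ⟨a, ha0, hafix⟩ : ∃ a : Additive V, a ≠ 0 ∧ ∀ h ∈ Cb, ρ h a = a := by
    by_contra hno
    push Not at hno
    have hHfix : ∀ a : Additive V, (∀ h ∈ Cb, ρ h a = a) → a = 0 := by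
      intro a ha
      by_contra ha0
      obtain ⟨h, hh, hh2⟩ := hno a ha0
      exact hh2 (ha h hh)
    have hall := frob_fix_core ρ (K.map (QuotientGroup.mk' H)) Cb hKnil
      (fun h _ k hk => hKn.conj_mem k hk h) hfpf' hcop hKfix hHfix
    apply hVne
    rw [eq_bot_iff]
    intro v hv
    have h1 := hall (Additive.ofMul ⟨v, hv⟩)
    have h2 : (⟨v, hv⟩ : V) = 1 := Additive.ofMul.injective h1
    exact congrArg Subtype.val h2
  -- the element of order `q`
  have hdvd : q ∣ Nat.card (Cb.comap (QuotientGroup.mk' H)) := by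
    rw [card_comap_mk]
    exact hqC.mul_left _
  obtain ⟨y, hy⟩ := exists_prime_orderOf_dvd_card' q hdvd
  have hvo : orderOf ((a.toMul : V) : G) = p := by
    apply orderOf_eq_prime ((hVmem _).mp a.toMul.2).2.2
    intro h
    apply ha0
    exact Additive.toMul.injective (Subtype.ext h)
  have hyo : orderOf (y : G) = q := by rw [Subgroup.orderOf_coe, hy]
  have hcomm : Commute ((a.toMul : V) : G) (y : G) := by
    have h1 := hafix _ y.2
    have h2 : (y : G) * ((a.toMul : V) : G) * (y : G)⁻¹ = ((a.toMul : V) : G) := by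
      rw [← hρ]
      exact congrArg (fun b : Additive V => ((b.toMul : V) : G)) h1
    exact (mul_inv_eq_iff_eq_mul.mp h2).symm
  refine ⟨((a.toMul : V) : G) * y, ?_⟩
  rw [hcomm.orderOf_mul_eq_mul_orderOf_of_coprime (by
    rw [hvo, hyo]
    exact (Nat.coprime_primes hp hq).mpr hpq), hvo, hyo]

private theorem main {G : Type*} [Group G] [Finite G] (H K : Subgroup G) [H.Normal] [K.Normal] (hlt : H < K)
    (hK : ∃ C : Subgroup ↥K, Cfsg.IsFrobeniusComplement C ∧ Cfsg.frobeniusKernel C = (H.subgroupOf K : Set ↥K))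
    (hGH : ∃ C : Subgroup (G ⧸ H), Cfsg.IsFrobeniusComplement C ∧ Cfsg.frobeniusKernel C = (K.map (QuotientGroup.mk' H) : Set (G ⧸ H))) :
    Group.IsSolvable G ∧ Odd (Nat.card (↥K ⧸ H.subgroupOf K)) ∧
      Nat.Coprime (Nat.card (↥K ⧸ H.subgroupOf K)) (Nat.card ↥H * Nat.card (G ⧸ K)) ∧ IsCyclic (G ⧸ K) ∧
      ∀ p q : ℕ, p.Prime → q.Prime → p ≠ q → p ∣ Nat.card G → q ∣ Nat.card G →
        ((∃ g : G, orderOf g = p * q) ↔ (p ∣ Nat.card (↥K ⧸ H.subgroupOf K) ↔ q ∣ Nat.card (↥K ⧸ H.subgroupOf K))) := by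
  classical
  obtain ⟨C₁, hC₁, hker₁⟩ := hK
  obtain ⟨Cb, hCb, hker₂⟩ := hGH
  have hHK : H ≤ K := hlt.le
  obtain ⟨-, hc₁, hnil₁, hne₁, hcop₁, hfpf₁, hd₁⟩ := frob_data C₁ (H.subgroupOf K) hC₁ hker₁
  obtain ⟨hKbn, hc₂, hnil₂, hne₂, hcop₂, hfpf₂, hd₂⟩ :=
    frob_data Cb (K.map (QuotientGroup.mk' H)) hCb hker₂
  set π := QuotientGroup.mk' H with hπ
  set Kb := K.map π with hKbdef
  -- cardinalities
  have hcHK : Nat.card (H.subgroupOf K) = Nat.card H := Cfsg.Agent.Lib.Basic.card_subgroupOf_of_le hHK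
  set m := Nat.card (↥K ⧸ H.subgroupOf K) with hm
  have hm₁ : Nat.card K = m * Nat.card H := by
    have := Subgroup.card_eq_card_quotient_mul_card_subgroup (H.subgroupOf K)
    rwa [hcHK] at this
  have hHpos : 0 < Nat.card H := Nat.card_pos
  have hmC₁ : Nat.card C₁ = m := by
    have h1 := hc₁.card_mul_card
    rw [hcHK, hm₁, mul_comm] at h1
    exact Nat.eq_of_mul_eq_mul_right hHpos h1
  have hcomap : ∀ x : G, x ∈ K ↔ π x ∈ Kb := by
    intro x
    constructor
    · intro hx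
      exact ⟨x, hx, rfl⟩
    · rintro ⟨k, hk, hke⟩
      have h1 : k⁻¹ * x ∈ H := QuotientGroup.eq.mp hke
      have h2 : x = k * (k⁻¹ * x) := by group
      rw [h2]
      exact mul_mem hk (hHK h1)
  have hKbcard : Nat.card Kb = m := by
    have h1 := card_comap_mk Kb
    have h2 : Kb.comap π = K := by
      ext x
      exact (hcomap x).symm
    rw [h2, hm₁, mul_comm] at h1
    exact (Nat.eq_of_mul_eq_mul_left hHpos h1).symm
  have hmpos : 0 < m := by
    rw [← hKbcard]
    exact Nat.card_pos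
  have hCbcard : Nat.card Cb = Nat.card (G ⧸ K) := by
    have h1 := hc₂.card_mul_card
    have h2 := Subgroup.card_eq_card_quotient_mul_card_subgroup H
    have h3 := Subgroup.card_eq_card_quotient_mul_card_subgroup K
    rw [hKbcard] at h1
    rw [← h1, h3, hm₁] at h2
    have h4 : Nat.card (G ⧸ K) * (m * Nat.card H) = Nat.card Cb * (m * Nat.card H) := by
      rw [h2]
      ring
    exact (Nat.eq_of_mul_eq_mul_right (Nat.mul_pos hmpos hHpos) h4).symm
  have hcopH : m.Coprime (Nat.card H) := by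
    rw [hcHK, hmC₁] at hcop₁
    exact hcop₁.symm
  have hcopK : m.Coprime (Nat.card (G ⧸ K)) := by
    rw [hKbcard, hCbcard] at hcop₂
    exact hcop₂
  haveI hHnil : Group.IsNilpotent H := Group.nilpotent_of_mulEquiv (subgroupOfEquivOfLe hHK)
  have hdG : ∀ x ∈ K, x ∉ H → ∀ y ∈ H, x * y = y * x → y = 1 := by
    intro x hxK hxH y hyH hxy
    have h1 := hd₁ ⟨x, hxK⟩ hxH ⟨y, hHK hyH⟩ hyH (Subtype.ext hxy)
    exact congrArg Subtype.val h1
  have hex : ∃ x ∈ K, x ∉ H := SetLike.exists_of_lt hlt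
  obtain ⟨h₀, hh₀, hh₀1⟩ : ∃ h₀ ∈ H, h₀ ≠ 1 := by
    by_contra hno
    push Not at hno
    apply hne₁
    rw [eq_bot_iff]
    rintro ⟨y, hy⟩ hy2
    exact Subtype.ext (hno y hy2)
  obtain ⟨cb, hcb, hcb1⟩ : ∃ c ∈ Cb, c ≠ 1 := by
    by_contra hno
    push Not at hno
    apply hCb.1
    rw [eq_bot_iff]
    intro y hy
    exact hno y hy
  -- the order of `K / H` is odd
  have hodd : Odd m := by
    by_contra hnodd
    have hev : 2 ∣ Nat.card C₁ := by
      rw [hmC₁]
      exact even_iff_two_dvd.mp (Nat.not_odd_iff_even.mp hnodd)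
    obtain ⟨⟨s, hsC, hso, -, hsinv⟩, -⟩ := unique_involution_of_fpf hne₁ hfpf₁ hev
    have hs1 : s ≠ 1 := by
      rintro rfl
      rw [orderOf_one] at hso
      omega
    have hsH : (s : G) ∉ H := by
      intro hh
      have h1 : s ∈ (H.subgroupOf K) ⊓ C₁ := mem_inf.mpr ⟨hh, hsC⟩
      rw [hc₁.disjoint.eq_bot, mem_bot] at h1
      exact hs1 h1
    have hs2 : (s : G) * (s : G) = 1 := by
      have h1 : s ^ 2 = 1 := by rw [← hso]; exact pow_orderOf_eq_one s
      rw [pow_two] at h1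
      exact congrArg Subtype.val h1
    have hsinvs : (s : G)⁻¹ = s := inv_eq_of_mul_eq_one_left hs2
    have hinvG : ∀ h ∈ H, (s : G) * h * (s : G)⁻¹ = h⁻¹ := by
      intro h hh
      have h1 := hsinv ⟨h, hHK hh⟩ hh
      exact congrArg Subtype.val h1
    have hcentral : ∀ x : G, π x * π (s : G) = π (s : G) * π x := by
      intro x
      set w := (s : G)⁻¹ * (x * (s : G) * x⁻¹) with hw
      have hwK : w ∈ K := mul_mem (inv_mem s.2) (‹K.Normal›.conj_mem _ s.2 x)
      have hwc : ∀ h ∈ H, w * h = h * w := by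
        intro h hh
        have hh' : x⁻¹ * h * x ∈ H := by
          have := ‹H.Normal›.conj_mem h hh x⁻¹
          rwa [inv_inv] at this
        have h1 := hinvG _ hh'
        have h2 : (x * (s : G) * x⁻¹) * h * (x * (s : G) * x⁻¹)⁻¹ = h⁻¹ := by
          calc (x * (s : G) * x⁻¹) * h * (x * (s : G) * x⁻¹)⁻¹
              = x * ((s : G) * (x⁻¹ * h * x) * (s : G)⁻¹) * x⁻¹ := by group
            _ = x * (x⁻¹ * h * x)⁻¹ * x⁻¹ := by rw [h1]
            _ = h⁻¹ := by group
        have h3 := hinvG _ (inv_mem hh)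
        rw [inv_inv] at h3
        have h4 : w * h * w⁻¹ = h := by
          calc w * h * w⁻¹ = (s : G)⁻¹ * ((x * (s : G) * x⁻¹) * h * (x * (s : G) * x⁻¹)⁻¹) * (s : G) := by
                rw [hw]
                group
            _ = (s : G) * h⁻¹ * (s : G)⁻¹ := by rw [h2, hsinvs]
            _ = h := h3
        exact mul_inv_eq_iff_eq_mul.mp h4
      have hwH : w ∈ H := by
        by_contra hwH
        exact hh₀1 (hdG w hwK hwH h₀ hh₀ (hwc h₀ hh₀))
      have h1 : π w = 1 := (QuotientGroup.eq_one_iff w).mpr hwH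
      have h2 : π w = (π (s : G))⁻¹ * (π x * π (s : G) * (π x)⁻¹) := by
        rw [hw]
        simp only [map_mul, map_inv]
      rw [h2] at h1
      have h3 : π x * π (s : G) * (π x)⁻¹ = π (s : G) := by
        have := mul_eq_one_iff_eq_inv'.mp h1
        rwa [inv_inv] at this
      exact mul_inv_eq_iff_eq_mul.mp h3
    obtain ⟨x, hx⟩ := QuotientGroup.mk'_surjective H cb
    have hcbK : cb ∉ Kb := by
      intro hh
      have h1 : cb ∈ Kb ⊓ Cb := mem_inf.mpr ⟨hh, hcb⟩
      rw [hc₂.disjoint.eq_bot, mem_bot] at h1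
      exact hcb1 h1
    have h1 := hd₂ cb hcbK (π (s : G)) ((hcomap _).mp s.2) (by
      rw [← hx]
      exact hcentral x)
    exact hsH ((QuotientGroup.eq_one_iff _).mp h1)
  -- the map to `G / K`
  let θ : (G ⧸ H) →* (G ⧸ K) := QuotientGroup.map H K (MonoidHom.id G) hHK
  have hθ : ∀ x : G, θ (π x) = (x : G ⧸ K) := fun x => rfl
  have hθk : ∀ k ∈ Kb, θ k = 1 := by
    rintro _ ⟨k, hk, rfl⟩
    exact (QuotientGroup.eq_one_iff k).mpr hk
  have hπs : Function.Surjective π := QuotientGroup.mk'_surjective H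
  -- the centre of the kernel `Kb`
  let Z₁ : Subgroup (G ⧸ H) := Kb ⊓ centralizer (Kb : Set (G ⧸ H))
  have hZ₁mem : ∀ z, z ∈ Z₁ ↔ z ∈ Kb ∧ ∀ h ∈ Kb, h * z = z * h := by
    intro z
    rw [mem_inf, mem_centralizer_iff]
    rfl
  haveI hKbn' : Kb.Normal := hKbn
  haveI hZ₁n : Z₁.Normal := by
    have : (centralizer (Kb : Set (G ⧸ H))).Normal := Subgroup.normal_centralizer
    exact Subgroup.normal_inf_normal _ _
  haveI hZ₁c : IsMulCommutative Z₁ := ⟨⟨fun a b =>
    Subtype.ext (((hZ₁mem _).mp a.2).2 b ((hZ₁mem _).mp b.2).1).symm⟩⟩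
  have hZ₁ne : Z₁ ≠ ⊥ := by
    haveI := hnil₂
    have hKbne : (⊤ : Subgroup Kb) ≠ ⊥ := by
      intro h
      apply hne₂
      rw [eq_bot_iff]
      intro y hy
      have h1 : (⟨y, hy⟩ : Kb) ∈ (⊤ : Subgroup Kb) := trivial
      rw [h, mem_bot] at h1
      exact congrArg Subtype.val h1
    have h1 := normal_inf_center_ne_bot (⊤ : Subgroup Kb) hKbne
    obtain ⟨⟨t, ht⟩, ht1⟩ := Subgroup.ne_bot_iff_exists_ne_one.mp h1
    intro hbot
    apply ht1
    have h2 : (t : G ⧸ H) ∈ Z₁ := by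
      refine (hZ₁mem _).mpr ⟨t.2, ?_⟩
      intro h hh
      have h3 := mem_center_iff.mp (mem_inf.mp ht).2 ⟨h, hh⟩
      exact congrArg Subtype.val h3
    rw [hbot, mem_bot] at h2
    exact Subtype.ext (Subtype.ext h2)
  -- `Z₁` is cyclic
  have hZ₁cyc : IsCyclic Z₁ := by
    let ψ : ↥K →* (G ⧸ H) := π.comp K.subtype
    have hψk : ∀ u : ↥K, ψ u = 1 ↔ u ∈ H.subgroupOf K := by
      intro u
      exact QuotientGroup.eq_one_iff (u : G)
    have hψinj : ∀ u ∈ C₁, ∀ v ∈ C₁, ψ u = ψ v → u = v := by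
      intro u hu v hv huv
      have h1 : ψ (u⁻¹ * v) = 1 := by rw [map_mul, map_inv, huv, inv_mul_cancel]
      have h2 : u⁻¹ * v ∈ (H.subgroupOf K) ⊓ C₁ :=
        mem_inf.mpr ⟨(hψk _).mp h1, mul_mem (inv_mem hu) hv⟩
      rw [hc₁.disjoint.eq_bot, mem_bot] at h2
      exact (inv_mul_eq_one.mp h2)
    let A' : Subgroup ↥K := (Z₁.comap ψ) ⊓ C₁
    let V₁ : Subgroup ↥K := (H.subgroupOf K) ⊓ centralizer ((H.subgroupOf K : Subgroup ↥K) : Set ↥K)
    have hV₁mem : ∀ z, z ∈ V₁ ↔ z ∈ H.subgroupOf K ∧ ∀ h ∈ H.subgroupOf K, h * z = z * h := by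
      intro z
      rw [mem_inf, mem_centralizer_iff]
      rfl
    haveI hV₁c : IsMulCommutative V₁ := ⟨⟨fun a b =>
      Subtype.ext (((hV₁mem _).mp a.2).2 b ((hV₁mem _).mp b.2).1).symm⟩⟩
    haveI hHKn : (H.subgroupOf K).Normal := inferInstance
    haveI hV₁n : V₁.Normal := by
      have : (centralizer ((H.subgroupOf K : Subgroup ↥K) : Set ↥K)).Normal :=
        Subgroup.normal_centralizer
      exact Subgroup.normal_inf_normal _ _
    have hV₁ne : V₁ ≠ ⊥ := by
      haveI := hnil₁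
      have hne' : (⊤ : Subgroup (H.subgroupOf K)) ≠ ⊥ := by
        intro h
        apply hne₁
        rw [eq_bot_iff]
        intro y hy
        have h1 : (⟨y, hy⟩ : H.subgroupOf K) ∈ (⊤ : Subgroup (H.subgroupOf K)) := trivial
        rw [h, mem_bot] at h1
        exact congrArg Subtype.val h1
      have h1 := normal_inf_center_ne_bot (⊤ : Subgroup (H.subgroupOf K)) hne'
      obtain ⟨⟨t, ht⟩, ht1⟩ := Subgroup.ne_bot_iff_exists_ne_one.mp h1
      intro hbot
      apply ht1
      have h2 : (t : ↥K) ∈ V₁ := by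
        refine (hV₁mem _).mpr ⟨t.2, ?_⟩
        intro h hh
        have h3 := mem_center_iff.mp (mem_inf.mp ht).2 ⟨h, hh⟩
        exact congrArg Subtype.val h3
      rw [hbot, mem_bot] at h2
      exact Subtype.ext (Subtype.ext h2)
    have hA'c : IsMulCommutative A' := ⟨⟨fun a b => by
      apply Subtype.ext
      have ha := mem_inf.mp a.2
      have hb := mem_inf.mp b.2
      apply hψinj _ (mul_mem ha.2 hb.2) _ (mul_mem hb.2 ha.2)
      rw [map_mul, map_mul]
      exact ((hZ₁mem _).mp ha.1).2 _ ((hZ₁mem _).mp hb.1).1 |>.symm⟩⟩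
    have hcyc : IsCyclic A' := by
      apply isCyclic_of_fpf A' V₁ hV₁ne
      · rw [Subgroup.normalizer_eq_top]
        exact le_top
      · intro a ha ha1
        rw [eq_bot_iff]
        intro v hv
        obtain ⟨hv1, hv2⟩ := mem_inf.mp hv
        have h1 : v ∈ (H.subgroupOf K) ⊓ centralizer {a} :=
          mem_inf.mpr ⟨((hV₁mem _).mp hv1).1, hv2⟩
        rw [hfpf₁ a (mem_inf.mp ha).2 ha1] at h1
        exact h1
      · exact Or.inl hA'c
    have hZ₁eq : A'.map ψ = Z₁ := by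
      apply le_antisymm
      · rintro _ ⟨a, ha, rfl⟩
        exact (mem_inf.mp ha).1
      · intro z hz
        obtain ⟨x, hxK, hxz⟩ := ((hZ₁mem _).mp hz).1
        have hsup : ∃ h ∈ H.subgroupOf K, ∃ c ∈ C₁, h * c = (⟨x, hxK⟩ : ↥K) := by
          have h1 := hc₁.sup_eq_top
          have h2 : (⟨x, hxK⟩ : ↥K) ∈ (H.subgroupOf K) ⊔ C₁ := by rw [h1]; trivial
          exact Subgroup.mem_sup_of_normal_left.mp h2
        obtain ⟨h, hh, c, hcC, hc⟩ := hsup
        have h3 : ψ c = z := by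
          rw [← hxz]
          have h4 : ψ (h * c) = ψ ⟨x, hxK⟩ := by rw [hc]
          rw [map_mul, (hψk h).mpr hh, one_mul] at h4
          exact h4
        refine ⟨c, mem_inf.mpr ⟨?_, hcC⟩, h3⟩
        show ψ c ∈ Z₁
        rw [h3]
        exact hz
    have := isCyclic_of_surjective (ψ.subgroupMap A') (ψ.subgroupMap_surjective A')
    rwa [hZ₁eq] at this
  -- the complement is abelian and cyclic
  obtain ⟨z₀, hz₀⟩ := IsCyclic.exists_generator (α := Z₁)
  have hz₀1 : (z₀ : G ⧸ H) ≠ 1 := by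
    intro h
    apply hZ₁ne
    rw [eq_bot_iff]
    intro y hy
    obtain ⟨i, hi⟩ := Subgroup.mem_zpowers_iff.mp (hz₀ ⟨y, hy⟩)
    have h1 : z₀ = 1 := Subtype.ext h
    rw [h1, one_zpow] at hi
    exact (congrArg Subtype.val hi).symm
  have hpowers : ∀ c : G ⧸ H, ∃ k : ℤ, c * (z₀ : G ⧸ H) * c⁻¹ = (z₀ : G ⧸ H) ^ k := by
    intro c
    obtain ⟨k, hk⟩ := Subgroup.mem_zpowers_iff.mp (hz₀ ⟨_, hZ₁n.conj_mem _ z₀.2 c⟩)
    refine ⟨k, ?_⟩
    exact (congrArg Subtype.val hk).symm
  have hCbab : ∀ c ∈ Cb, ∀ d ∈ Cb, c * d = d * c := by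
    intro c hc d hd
    obtain ⟨i, hi⟩ := hpowers c
    obtain ⟨j, hj⟩ := hpowers d
    have h1 : (c * d) * (z₀ : G ⧸ H) * (c * d)⁻¹ = (z₀ : G ⧸ H) ^ (i * j) := by
      calc (c * d) * (z₀ : G ⧸ H) * (c * d)⁻¹ = c * (d * (z₀ : G ⧸ H) * d⁻¹) * c⁻¹ := by group
        _ = c * (z₀ : G ⧸ H) ^ j * c⁻¹ := by rw [hj]
        _ = (c * (z₀ : G ⧸ H) * c⁻¹) ^ j := by rw [conj_zpow]
        _ = _ := by rw [hi, zpow_mul]
    have h2 : (d * c) * (z₀ : G ⧸ H) * (d * c)⁻¹ = (z₀ : G ⧸ H) ^ (i * j) := by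
      calc (d * c) * (z₀ : G ⧸ H) * (d * c)⁻¹ = d * (c * (z₀ : G ⧸ H) * c⁻¹) * d⁻¹ := by group
        _ = d * (z₀ : G ⧸ H) ^ i * d⁻¹ := by rw [hi]
        _ = (d * (z₀ : G ⧸ H) * d⁻¹) ^ i := by rw [conj_zpow]
        _ = _ := by rw [hj, ← zpow_mul, mul_comm]
    by_contra hne
    set w := (d * c)⁻¹ * (c * d) with hw
    have hwC : w ∈ Cb := mul_mem (inv_mem (mul_mem hd hc)) (mul_mem hc hd)
    have hw1 : w ≠ 1 := by
      intro h
      apply hne
      exact (inv_mul_eq_one.mp h).symm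
    have hwz : w * (z₀ : G ⧸ H) * w⁻¹ = z₀ := by
      have h3 : (d * c) * (w * (z₀ : G ⧸ H) * w⁻¹) * (d * c)⁻¹ =
          (d * c) * (z₀ : G ⧸ H) * (d * c)⁻¹ := by
        rw [h2, ← h1, hw]
        group
      have h4 := mul_right_cancel h3
      exact mul_left_cancel h4
    have h5 : (z₀ : G ⧸ H) ∈ Kb ⊓ centralizer {w} := by
      refine mem_inf.mpr ⟨((hZ₁mem _).mp z₀.2).1, ?_⟩
      rw [mem_centralizer_singleton_iff]
      exact (mul_inv_eq_iff_eq_mul.mp hwz).symm
    rw [hfpf₂ w hwC hw1, mem_bot] at h5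
    exact hz₀1 h5
  have hCbc : IsMulCommutative Cb := ⟨⟨fun a b => Subtype.ext (hCbab a a.2 b b.2)⟩⟩
  have hCbcyc : IsCyclic Cb := by
    apply isCyclic_of_fpf Cb Z₁ hZ₁ne
    · rw [Subgroup.normalizer_eq_top]
      exact le_top
    · intro a ha ha1
      rw [eq_bot_iff]
      intro v hv
      obtain ⟨hv1, hv2⟩ := mem_inf.mp hv
      have h1 : v ∈ Kb ⊓ centralizer {a} := mem_inf.mpr ⟨((hZ₁mem _).mp hv1).1, hv2⟩
      rw [hfpf₂ a ha ha1] at h1
      exact h1
    · exact Or.inl hCbc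
  have hGKcyc : IsCyclic (G ⧸ K) := by
    apply isCyclic_of_surjective (θ.comp Cb.subtype)
    intro t
    obtain ⟨x, rfl⟩ := QuotientGroup.mk'_surjective K t
    have h2 : π x ∈ Kb ⊔ Cb := by
      rw [hc₂.sup_eq_top]
      trivial
    obtain ⟨k, hk, c, hcC, hkc⟩ := Subgroup.mem_sup_of_normal_left.mp h2
    refine ⟨⟨c, hcC⟩, ?_⟩
    show θ c = _
    have h3 : θ (k * c) = θ (π x) := by rw [hkc]
    rw [map_mul, hθk k hk, one_mul] at h3
    exact h3
  have hGKcomm : ∀ a b : G ⧸ K, a * b = b * a := (IsCyclic.commGroup (α := G ⧸ K)).mul_comm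
  haveI hGKsolv : Group.IsSolvable (G ⧸ K) := Group.isSolvable_of_comm hGKcomm
  haveI hKbsolv : Group.IsSolvable Kb := by
    haveI := hnil₂
    exact inferInstance
  haveI hHsolv : Group.IsSolvable H := inferInstance
  have hGbsolv : Group.IsSolvable (G ⧸ H) := by
    apply Group.isSolvable_of_ker_le_range Kb.subtype θ
    intro t ht
    obtain ⟨x, rfl⟩ := hπs t
    rw [MonoidHom.mem_ker, hθ] at ht
    have hxK : x ∈ K := (QuotientGroup.eq_one_iff x).mp ht
    rw [Subgroup.range_subtype]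
    exact (hcomap x).mp hxK
  have hGsolv : Group.IsSolvable G := by
    haveI := hGbsolv
    apply Group.isSolvable_of_ker_le_range H.subtype π
    rw [hπ, QuotientGroup.ker_mk', Subgroup.range_subtype]
  refine ⟨hGsolv, hodd, hcopH.mul_right hcopK, hGKcyc, ?_⟩
  -- the prime graph
  have hkey : ∀ (p q : ℕ) (g : G), p.Prime → q.Prime → p ≠ q → orderOf g = p * q → p ∣ m → q ∣ m := by
    intro p q g hp hq hpq hg hpm
    by_contra hqm
    have hd1 : q ∣ orderOf g := by rw [hg]; exact Dvd.intro_left p rfl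
    have hd2 : p ∣ orderOf g := by rw [hg]; exact Dvd.intro q rfl
    have hxo : orderOf (g ^ q) = p := by
      rw [orderOf_pow_of_dvd hq.ne_zero hd1, hg, Nat.mul_div_cancel _ hq.pos]
    have hyo : orderOf (g ^ p) = q := by
      rw [orderOf_pow_of_dvd hp.ne_zero hd2, hg, Nat.mul_div_cancel_left _ hp.pos]
    set x := g ^ q with hx
    set y := g ^ p with hy
    have hcomm : x * y = y * x := by
      rw [hx, hy, ← pow_add, ← pow_add, add_comm]
    have hxK : x ∈ K := by
      have h1 : orderOf (x : G ⧸ K) ∣ p := by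
        rw [← hxo]
        exact orderOf_map_dvd (QuotientGroup.mk' K) x
      have h2 : orderOf (x : G ⧸ K) ∣ Nat.card (G ⧸ K) := orderOf_dvd_natCard _
      have h3 : p.Coprime (Nat.card (G ⧸ K)) := Nat.Coprime.coprime_dvd_left hpm hcopK
      have h4 := Nat.eq_one_of_dvd_coprimes h3 h1 h2
      exact (QuotientGroup.eq_one_iff x).mp (orderOf_eq_one_iff.mp h4)
    have hxH : x ∉ H := by
      intro h
      have h1 : p ∣ Nat.card H := by
        rw [← hxo]
        exact Subgroup.orderOf_dvd_natCard H h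
      have h3 : p.Coprime (Nat.card H) := Nat.Coprime.coprime_dvd_left hpm hcopH
      exact hp.one_lt.ne' (Nat.eq_one_of_dvd_coprimes h3 dvd_rfl h1)
    have hπx1 : π x ≠ 1 := fun h => hxH ((QuotientGroup.eq_one_iff x).mp h)
    have hcommb : π y * π x = π x * π y := by
      rw [← map_mul, ← map_mul, hcomm]
    have hyKb : π y ∈ Kb := by
      by_contra hh
      exact hπx1 (hd₂ (π y) hh (π x) ((hcomap x).mp hxK) hcommb)
    have hyK : y ∈ K := (hcomap y).mpr hyKb
    have hyH : y ∈ H := by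
      by_contra hh
      have h1 : orderOf (π y) ∣ q := by
        rw [← hyo]
        exact orderOf_map_dvd π y
      have h2 : orderOf (π y) ≠ 1 := by
        intro h3
        exact hh ((QuotientGroup.eq_one_iff y).mp (orderOf_eq_one_iff.mp h3))
      have h3 : orderOf (π y) = q := ((Nat.dvd_prime hq).mp h1).resolve_left h2
      apply hqm
      rw [← h3, ← hKbcard]
      exact Subgroup.orderOf_dvd_natCard Kb hyKb
    have hy1 := hdG x hxK hxH y hyH hcomm
    rw [hy1, orderOf_one] at hyo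
    exact hq.one_lt.ne hyo
  intro p q hp hq hpq hpG hqG
  constructor
  · rintro ⟨g, hg⟩
    exact ⟨hkey p q g hp hq hpq hg, hkey q p g hq hp hpq.symm (by rw [hg, mul_comm])⟩
  · intro hiff
    haveI hfp : Fact p.Prime := ⟨hp⟩
    haveI hfq : Fact q.Prime := ⟨hq⟩
    have hcopr : (Nat.card H * m * Nat.card (G ⧸ K)) = Nat.card G := by
      have h3 := Subgroup.card_eq_card_quotient_mul_card_subgroup K
      rw [h3, hm₁]
      ring
    by_cases hpm : p ∣ m
    · have hqm : q ∣ m := hiff.mp hpm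
      haveI := hnil₂
      obtain ⟨x, hx⟩ := exists_prime_orderOf_dvd_card' (G := Kb) p (by rw [hKbcard]; exact hpm)
      obtain ⟨y, hy⟩ := exists_prime_orderOf_dvd_card' (G := Kb) q (by rw [hKbcard]; exact hqm)
      have hcoprime : (orderOf x).Coprime (orderOf y) := by
        rw [hx, hy]
        exact (Nat.coprime_primes hp hq).mpr hpq
      have hxy : Commute x y := commute_of_coprime_of_nilpotent x y hcoprime
      have hord : orderOf ((x * y : Kb) : G ⧸ H) = p * q := by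
        rw [Subgroup.orderOf_coe, hxy.orderOf_mul_eq_mul_orderOf_of_coprime hcoprime, hx, hy]
      obtain ⟨t, -, ht⟩ := (x * y : Kb).2
      have h1 : p * q ∣ orderOf t := by
        rw [← hord, ← ht]
        exact orderOf_map_dvd π t
      exact exists_order_of_dvd h1
    · have hqm : ¬ q ∣ m := fun h => hpm (hiff.mpr h)
      have hsplit : ∀ r : ℕ, r.Prime → r ∣ Nat.card G → ¬ r ∣ m → r ∣ Nat.card H ∨ r ∣ Nat.card (G ⧸ K) := by
        intro r hr hrG hrm
        rw [← hcopr] at hrG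
        rcases (Nat.Prime.dvd_mul hr).mp hrG with h | h
        · rcases (Nat.Prime.dvd_mul hr).mp h with h | h
          · exact Or.inl h
          · exact absurd h hrm
        · exact Or.inr h
      have hnKb : ∀ r : ℕ, ¬ r ∣ m → ¬ r ∣ Nat.card Kb := by
        intro r hr
        rwa [hKbcard]
      rcases hsplit p hp hpG hpm with hpH | hpK <;> rcases hsplit q hq hqG hqm with hqH | hqK
      · -- both divide `|H|`
        obtain ⟨x, hx⟩ := exists_prime_orderOf_dvd_card' (G := H) p hpH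
        obtain ⟨y, hy⟩ := exists_prime_orderOf_dvd_card' (G := H) q hqH
        have hcoprime : (orderOf x).Coprime (orderOf y) := by
          rw [hx, hy]
          exact (Nat.coprime_primes hp hq).mpr hpq
        have hxy : Commute x y := commute_of_coprime_of_nilpotent x y hcoprime
        refine ⟨((x * y : H) : G), ?_⟩
        rw [Subgroup.orderOf_coe, hxy.orderOf_mul_eq_mul_orderOf_of_coprime hcoprime, hx, hy]
      · exact mixed H K Cb hHnil hnil₂ hKbn hfpf₂ hdG hex hp hq hpq hpH (hnKb p hpm)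
          (by rw [hCbcard]; exact hqK)
      · obtain ⟨g, hg⟩ := mixed H K Cb hHnil hnil₂ hKbn hfpf₂ hdG hex hq hp hpq.symm hqH (hnKb q hqm)
          (by rw [hCbcard]; exact hpK)
        exact ⟨g, by rw [hg, mul_comm]⟩
      · -- both divide `|G / K|`
        obtain ⟨g₀, hg₀⟩ := IsCyclic.exists_generator (α := G ⧸ K)
        have h1 : p * q ∣ orderOf g₀ := by
          rw [orderOf_eq_card_of_forall_mem_zpowers hg₀]
          exact Nat.Coprime.mul_dvd_of_dvd_of_dvd ((Nat.coprime_primes hp hq).mpr hpq) hpK hqK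
        obtain ⟨t, ht⟩ := exists_order_of_dvd h1
        obtain ⟨x, rfl⟩ := QuotientGroup.mk'_surjective K t
        have h2 : p * q ∣ orderOf x := by
          rw [← ht]
          exact orderOf_map_dvd _ x
        exact exists_order_of_dvd h2

end aux


/-- Let G be a 2-Frobenius group: it has normal subgroups H < K with K a Frobenius group with kernel H and G/H a Frobenius group with kernel K/H. Then G is solvable; K/H has odd order coprime to the order of H and to the order of G/K (it is the image of an odd-order Hall subgroup); G/K is cyclic; and the prime graph of G has exactly two connected components, both complete: for distinct primes p, q dividing the order of G, G has an element of order pq exactly when p and q either both divide the order of K/H or both do not. -/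
theorem result {G : Type*} [Group G] [Finite G] (H K : Subgroup G) [H.Normal] [K.Normal] (hlt : H < K)
    (hK : ∃ C : Subgroup ↥K, Cfsg.IsFrobeniusComplement C ∧ Cfsg.frobeniusKernel C = (H.subgroupOf K : Set ↥K))
    (hGH : ∃ C : Subgroup (G ⧸ H), Cfsg.IsFrobeniusComplement C ∧ Cfsg.frobeniusKernel C = (K.map (QuotientGroup.mk' H) : Set (G ⧸ H))) :
    Group.IsSolvable G ∧ Odd (Nat.card (↥K ⧸ H.subgroupOf K)) ∧
      Nat.Coprime (Nat.card (↥K ⧸ H.subgroupOf K)) (Nat.card ↥H * Nat.card (G ⧸ K)) ∧ IsCyclic (G ⧸ K) ∧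
      ∀ p q : ℕ, p.Prime → q.Prime → p ≠ q → p ∣ Nat.card G → q ∣ Nat.card G →
        ((∃ g : G, orderOf g = p * q) ↔ (p ∣ Nat.card (↥K ⧸ H.subgroupOf K) ↔ q ∣ Nat.card (↥K ⧸ H.subgroupOf K))) := by
  exact main H K hlt hK hGH

end Cfsg.Agent.S4001
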