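import Cfsg.Statements.S4010
import Cfsg.Agent.Lib.Basic.Frattini
import Cfsg.Agent.Lib.Components.Layer

set_option autoImplicit false
open Cfsg

namespace Cfsg.Agent.S4010

section aux

open Subgroup Module
open scoped commutatorElement

universe w x

private theorem sigma_mul_inv {K V X : Type*} [Field K] [AddCommGroup V] [Module K V] [Group X]
    (σ : X →* End K V) (g : X) (v : V) : σ g (σ g⁻¹ v) = v := by
  rw [← Module.End.mul_apply, ← map_mul, mul_inv_cancel, map_one]
  rfl

private theorem sigma_inv_mul {K V X : Type*} [Field K] [AddCommGroup V] [Module K V] [Group X]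
    (σ : X →* End K V) (g : X) (v : V) : σ g⁻¹ (σ g v) = v := by
  rw [← Module.End.mul_apply, ← map_mul, inv_mul_cancel, map_one]
  rfl

/-- Restriction of a representation to an invariant subspace. -/
private def restr {K V X : Type*} [Field K] [AddCommGroup V] [Module K V] [Group X]
    (σ : X →* End K V) (U : Submodule K V) (hU : ∀ g, ∀ v ∈ U, σ g v ∈ U) : X →* End K U where
  toFun g := (σ g).restrict (hU g)
  map_one' := by
    ext v
    simp
  map_mul' a b := by
    ext v
    simp

private theorem restr_apply {K V X : Type*} [Field K] [AddCommGroup V] [Module K V] [Group X]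
    (σ : X →* End K V) (U : Submodule K V) (hU : ∀ g, ∀ v ∈ U, σ g v ∈ U) (g : X) (v : U) :
    ((restr σ U hU g v : U) : V) = σ g v := rfl

/-- The representation on a quotient. -/
private def quot {K V X : Type*} [Field K] [AddCommGroup V] [Module K V] [Group X]
    (σ : X →* End K V) (U : Submodule K V) (hU : ∀ g, ∀ v ∈ U, σ g v ∈ U) : X →* End K (V ⧸ U) where
  toFun g := U.mapQ U (σ g) (fun v hv => hU g v hv)
  map_one' := by
    apply Submodule.linearMap_qext
    ext v
    simp
  map_mul' a b := by
    apply Submodule.linearMap_qext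
    ext v
    simp

private theorem quot_mk {K V X : Type*} [Field K] [AddCommGroup V] [Module K V] [Group X]
    (σ : X →* End K V) (U : Submodule K V) (hU : ∀ g, ∀ v ∈ U, σ g v ∈ U) (g : X) (v : V) :
    quot σ U hU g (U.mkQ v) = U.mkQ (σ g v) := rfl

/-- Fixed vectors of `p`-groups in characteristic `p`. -/
private theorem exists_fixed {K : Type w} [Field K] {p : ℕ} [hp : Fact p.Prime] (hpK : (p : K) = 0)
    {W : Type x} [AddCommGroup W] [Module K W] [Nontrivial W] (n : ℕ) :
    ∀ (X : Type*) [Group X] [Finite X], Nat.card X = n → IsPGroup p X → ∀ σ : X →* End K W,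
      ∃ w : W, w ≠ 0 ∧ ∀ g, σ g w = w := by
  induction n using Nat.strong_induction_on with
  | _ n ih =>
    intro X _ _ hn hX σ
    by_cases hX1 : (⊥ : Subgroup X) = ⊤
    · obtain ⟨w, hw⟩ := exists_ne (0 : W)
      refine ⟨w, hw, fun g => ?_⟩
      have hg : g ∈ (⊥ : Subgroup X) := by
        rw [hX1]
        exact mem_top g
      rw [mem_bot] at hg
      rw [hg, map_one]
      rfl
    haveI : Group.IsNilpotent X := hX.isNilpotent
    obtain ⟨M, hM, -⟩ := Cfsg.Agent.Lib.Basic.exists_isCoatom_ge (K := (⊥ : Subgroup X)) hX1
    haveI hMn : M.Normal := Cfsg.Agent.Lib.Basic.isCoatom_normal_of_isNilpotent hM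
    have hMlt : Nat.card M < n := by
      rw [← hn]
      exact Cfsg.Agent.Lib.Components.card_lt_of_lt' (A := M) (B := ⊤) (lt_top_iff_ne_top.mpr hM.1) |>.trans_eq (Subgroup.card_top)
    obtain ⟨w₁, hw₁, hfix⟩ := ih _ hMlt M rfl (hX.to_subgroup M) (σ.comp M.subtype)
    have hfix' : ∀ m ∈ M, σ m w₁ = w₁ := fun m hm => hfix ⟨m, hm⟩
    obtain ⟨y, -, hy⟩ : ∃ y, y ∈ (⊤ : Subgroup X) ∧ y ∉ M := SetLike.exists_of_lt (lt_top_iff_ne_top.mpr hM.1)
    set u : End K W := σ y - 1 with hu
    have hufix : ∀ w : W, (∀ m ∈ M, σ m w = w) → ∀ m ∈ M, σ m (u w) = u w := by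
      intro w hw m hm
      have h1 : y⁻¹ * m * y ∈ M := by
        have := hMn.conj_mem m hm y⁻¹
        simpa using this
      have h2 : σ m (σ y w) = σ y w := by
        have e : m * y = y * (y⁻¹ * m * y) := by group
        rw [← Module.End.mul_apply, ← map_mul, e, map_mul, Module.End.mul_apply, hw _ h1]
      simp only [hu, LinearMap.sub_apply, Module.End.one_apply, map_sub, h2, hw m hm]
    have hiter : ∀ k : ℕ, ∀ m ∈ M, σ m ((u ^ k) w₁) = (u ^ k) w₁ := by
      intro k
      induction k with
      | zero =>
        intro m hm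
        simpa using hfix' m hm
      | succ k ihk =>
        intro m hm
        rw [pow_succ', Module.End.mul_apply]
        exact hufix _ ihk m hm
    haveI hchar : CharP K p := by
      obtain ⟨q, hq⟩ := CharP.exists K
      have h1 : q ∣ p := (CharP.cast_eq_zero_iff K q p).mp hpK
      rcases (Nat.dvd_prime hp.out).1 h1 with h2 | h2
      · subst h2
        exact absurd (CharP.char_is_prime_or_zero K 1) (by simp [Nat.not_prime_one])
      · rwa [h2] at hq
    haveI hcharE : CharP (End K W) p :=
      charP_of_injective_algebraMap (algebraMap K (End K W)).injective p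
    obtain ⟨e, he⟩ := hX y
    have hnil : u ^ p ^ e = 0 := by
      rw [hu, sub_pow_char_pow_of_commute p e (Commute.one_right _), one_pow, ← map_pow, he, map_one, sub_self]
    have hex : ∃ k, (u ^ k) w₁ = 0 := ⟨p ^ e, by rw [hnil]; rfl⟩
    classical
    set k₀ := Nat.find hex with hk₀
    have hk₀0 : k₀ ≠ 0 := by
      intro h
      have := Nat.find_spec hex
      rw [← hk₀, h, pow_zero] at this
      exact hw₁ this
    obtain ⟨k, hk⟩ := Nat.exists_eq_succ_of_ne_zero hk₀0
    have hkne : (u ^ k) w₁ ≠ 0 := Nat.find_min hex (by omega)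
    have hk1 : u ((u ^ k) w₁) = 0 := by
      have := Nat.find_spec hex
      rw [← hk₀, hk, Nat.succ_eq_add_one, pow_succ', Module.End.mul_apply] at this
      exact this
    have hyfix : σ y ((u ^ k) w₁) = (u ^ k) w₁ := by
      have : (σ y - 1) ((u ^ k) w₁) = 0 := hk1
      rw [LinearMap.sub_apply, Module.End.one_apply, sub_eq_zero] at this
      exact this
    refine ⟨(u ^ k) w₁, hkne, ?_⟩
    -- the stabilizer
    let S : Subgroup X :=
      { carrier := {g | σ g ((u ^ k) w₁) = (u ^ k) w₁}
        one_mem' := by
          show σ 1 _ = _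
          rw [map_one]
          rfl
        mul_mem' := by
          intro a b ha hb
          show σ (a * b) _ = _
          rw [map_mul, Module.End.mul_apply, hb, ha]
        inv_mem' := by
          intro a ha
          show σ a⁻¹ _ = _
          have : σ a⁻¹ (σ a ((u ^ k) w₁)) = (u ^ k) w₁ := sigma_inv_mul σ a _
          rwa [ha] at this }
    have hMS : M ≤ S := fun m hm => hiter k m hm
    have hyS : y ∈ S := hyfix
    have hStop : S = ⊤ := by
      apply hM.2
      refine lt_of_le_of_ne hMS ?_
      rintro rfl
      exact hy hyS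
    intro g
    have : g ∈ S := by
      rw [hStop]
      exact mem_top g
    exact this

/-- An invariant subspace of every dimension in characteristic `p`. -/
private theorem exists_invariant {K : Type w} [Field K] {p : ℕ} [hp : Fact p.Prime] (hpK : (p : K) = 0)
    {V : Type x} [AddCommGroup V] [Module K V] [FiniteDimensional K V]
    {X : Type*} [Group X] [Finite X] (hX : IsPGroup p X) (σ : X →* End K V) (d : ℕ) (hd : d ≤ finrank K V) :
    ∃ U : Submodule K V, (∀ g, ∀ v ∈ U, σ g v ∈ U) ∧ finrank K U = d := by
  induction d with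
  | zero =>
    refine ⟨⊥, fun g v hv => ?_, by simp⟩
    rw [Submodule.mem_bot] at hv ⊢
    rw [hv, map_zero]
  | succ d ih =>
    obtain ⟨U, hU, hUd⟩ := ih (by omega)
    have hUne : U ≠ ⊤ := by
      rintro rfl
      rw [finrank_top] at hUd
      omega
    haveI hnt : Nontrivial (V ⧸ U) := Submodule.Quotient.nontrivial_iff.mpr hUne
    obtain ⟨w, hw, hwfix⟩ := exists_fixed hpK (W := V ⧸ U) _ X rfl hX (quot σ U hU)
    obtain ⟨v, rfl⟩ := U.mkQ_surjective w
    have hvU : v ∉ U := by
      intro h
      apply hw
      rw [Submodule.mkQ_apply, Submodule.Quotient.mk_eq_zero]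
      exact h
    refine ⟨U ⊔ Submodule.span K {v}, ?_, ?_⟩
    · intro g y hy
      obtain ⟨a, ha, b, hb, rfl⟩ := Submodule.mem_sup.mp hy
      rw [map_add]
      refine add_mem (Submodule.mem_sup_left (hU g a ha)) ?_
      obtain ⟨c, rfl⟩ := Submodule.mem_span_singleton.mp hb
      rw [map_smul]
      apply Submodule.smul_mem
      have h1 := hwfix g
      rw [quot_mk, Submodule.mkQ_apply, Submodule.mkQ_apply, Submodule.Quotient.eq] at h1
      have h2 : σ g v = (σ g v - v) + v := by abel
      rw [h2]
      exact add_mem (Submodule.mem_sup_left h1) (Submodule.mem_sup_right (Submodule.mem_span_singleton_self v))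
    · rw [Submodule.finrank_sup_span_singleton hvU, hUd]

/-- Derived series under a subgroup containing the commutator subgroup. -/
private theorem derived_le_map {X : Type*} [Group X] (M : Subgroup X) (hM : commutator X ≤ M) (m : ℕ) :
    derivedSeries X (m + 1) ≤ (derivedSeries M m).map M.subtype := by
  induction m with
  | zero =>
    rw [derivedSeries_one]
    have : (derivedSeries M 0).map M.subtype = M := by
      rw [derivedSeries_zero, ← MonoidHom.range_eq_map]
      exact Subgroup.range_subtype M
    rw [this]
    exact hM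
  | succ m ihm =>
    rw [derivedSeries_succ, derivedSeries_succ M, Subgroup.map_commutator]
    exact Subgroup.commutator_mono ihm ihm

/-- The characteristic `p` bound. -/
private theorem char_case {K : Type w} [Field K] {p : ℕ} [hp : Fact p.Prime] (hpK : (p : K) = 0) (m : ℕ) :
    ∀ {V : Type w} [AddCommGroup V] [Module K V] [FiniteDimensional K V]
      {X : Type x} [Group X] [Finite X] (_ : IsPGroup p X) (σ : X →* End K V),
      finrank K V ≤ 2 ^ m → ∀ g ∈ derivedSeries X m, σ g = 1 := by
  induction m with
  | zero =>
    intro V _ _ _ X _ _ hX σ hd g _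
    rcases Nat.lt_or_ge (finrank K V) 1 with h0 | h1
    · have h2 : finrank K V = 0 := by omega
      haveI : Subsingleton V := Module.finrank_zero_iff.mp h2
      exact Subsingleton.elim _ _
    · have h2 : finrank K V = 1 := by
        simp only [pow_zero] at hd
        omega
      haveI : Nontrivial V := Module.nontrivial_of_finrank_pos (R := K) (by omega)
      obtain ⟨w, hw, hfix⟩ := exists_fixed hpK (W := V) _ X rfl hX σ
      have hspan : ∀ v : V, ∃ c : K, c • w = v := (finrank_eq_one_iff_of_nonzero' w hw).mp h2
      ext v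
      obtain ⟨c, rfl⟩ := hspan v
      rw [map_smul, hfix]
      rfl
  | succ m ih =>
    intro V _ _ _ X _ _ hX σ hd g hg
    obtain ⟨U, hU, hUd⟩ := exists_invariant hpK hX σ (finrank K V / 2) (Nat.div_le_self _ _)
    have hUle : finrank K U ≤ 2 ^ m := by
      rw [hUd, pow_succ] at *
      omega
    have hQle : finrank K (V ⧸ U) ≤ 2 ^ m := by
      have h1 := Submodule.finrank_quotient_add_finrank U
      rw [hUd] at h1
      rw [pow_succ] at hd
      omega
    have h1 := ih hX (restr σ U hU) hUle
    have h2 := ih hX (quot σ U hU) hQle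
    -- the action on `U` and on `V/U` is trivial
    have hU1 : ∀ a ∈ derivedSeries X m, ∀ v ∈ U, σ a v = v := by
      intro a ha v hv
      have h3 := h1 a ha
      have h4 := congrArg (fun f : End K U => ((f ⟨v, hv⟩ : U) : V)) h3
      exact h4
    have hQ1 : ∀ a ∈ derivedSeries X m, ∀ v : V, σ a v - v ∈ U := by
      intro a ha v
      have h3 := h2 a ha
      have h4 : quot σ U hU a (U.mkQ v) = U.mkQ v := by
        rw [h3]
        rfl
      rw [quot_mk, Submodule.mkQ_apply, Submodule.mkQ_apply, Submodule.Quotient.eq] at h4
      exact h4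
    have hcomm : ∀ a ∈ derivedSeries X m, ∀ b ∈ derivedSeries X m, σ a * σ b = σ b * σ a := by
      intro a ha b hb
      ext v
      rw [Module.End.mul_apply, Module.End.mul_apply]
      have e1 : σ a (σ b v) = σ a (σ b v - v) + σ a v := by
        rw [map_sub]
        abel
      have e2 : σ b (σ a v) = σ b (σ a v - v) + σ b v := by
        rw [map_sub]
        abel
      rw [e1, e2, hU1 a ha _ (hQ1 b hb v), hU1 b hb _ (hQ1 a ha v)]
      abel
    rw [derivedSeries_succ] at hg
    have hle : ⁅derivedSeries X m, derivedSeries X m⁆ ≤ σ.ker := by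
      rw [Subgroup.commutator_le]
      intro a ha b hb
      rw [MonoidHom.mem_ker, commutatorElement_def, map_mul, map_mul, map_mul]
      have hinv : σ a⁻¹ * σ b⁻¹ = σ (b * a)⁻¹ := by
        rw [← map_mul, mul_inv_rev]
      rw [mul_assoc (σ a * σ b), hinv, hcomm a ha b hb, ← map_mul, ← map_mul, mul_inv_cancel, map_one]
    exact hle hg

private theorem iSup_eigen {K : Type w} [Field K] [IsAlgClosed K] {V : Type w} [AddCommGroup V] [Module K V]
    [FiniteDimensional K V] {p : ℕ} [hp : Fact p.Prime] (hpK : (p : K) ≠ 0) (u : End K V) (e : ℕ)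
    (hu : u ^ p ^ e = 1) : ⨆ μ : K, u.eigenspace μ = ⊤ := by
  apply Module.End.IsSemisimple.iSup_eigenspace_eq_top
  apply Module.End.isSemisimple_of_squarefree_aeval_eq_zero (p := Polynomial.X ^ (p ^ e) - Polynomial.C 1)
  · exact (Polynomial.separable_X_pow_sub_C 1 (by push_cast; exact pow_ne_zero _ hpK) one_ne_zero).squarefree
  · simp [hu]

private theorem eq_one_of_eigen {K : Type w} [Field K] {V : Type w} [AddCommGroup V] [Module K V]
    (u w : End K V) (hu : ⨆ μ : K, u.eigenspace μ = ⊤) (h : ∀ μ, ∀ v ∈ u.eigenspace μ, w v = v) : w = 1 := by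
  ext v
  have hv : v ∈ ⨆ μ : K, u.eigenspace μ := by
    rw [hu]
    trivial
  induction hv using Submodule.iSup_induction' with
  | mem μ x hx => exact h μ x hx
  | zero => simp
  | add x y _ _ hx hy =>
    rw [map_add, hx, hy]
    rfl

/-- The bound when `p` is invertible in the algebraically closed field `K`. -/
private theorem nonchar_case {K : Type w} [Field K] [IsAlgClosed K] {p : ℕ} [hp : Fact p.Prime] (hpK : (p : K) ≠ 0)
    (d : ℕ) :
    ∀ (m : ℕ) {V : Type w} [AddCommGroup V] [Module K V] [FiniteDimensional K V]
      {X : Type x} [Group X] [Finite X] (_ : IsPGroup p X) (σ : X →* End K V),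
      finrank K V = d → d < 2 ^ m → ∀ g ∈ derivedSeries X m, σ g = 1 := by
  induction d using Nat.strong_induction_on with
  | _ d ih =>
    intro m V _ _ _ X _ _ hX σ hd hdm g hg
    rcases Nat.eq_zero_or_pos d with h0 | hdpos
    · haveI : Subsingleton V := Module.finrank_zero_iff.mp (hd.trans h0)
      exact Subsingleton.elim _ _
    haveI : Nontrivial V := Module.nontrivial_of_finrank_pos (R := K) (by omega)
    rcases m with _ | m
    · simp only [pow_zero] at hdm
      omega
    by_cases hab : ∀ a b, σ a * σ b = σ b * σ a
    · have h1 : commutator X ≤ σ.ker := by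
        rw [_root_.commutator_def, Subgroup.commutator_le]
        intro a _ b _
        rw [MonoidHom.mem_ker, commutatorElement_def, map_mul, map_mul, map_mul, hab a b, mul_assoc,
          ← map_mul, ← map_mul, ← map_mul]
        have e : b * a * (a⁻¹ * b⁻¹) = 1 := by group
        rw [e, map_one]
      have h2 : g ∈ derivedSeries X 1 := derivedSeries_antitone X (by omega : 1 ≤ m + 1) hg
      rw [derivedSeries_one] at h2
      exact h1 h2
    have hinvl : ∀ z, σ z⁻¹ * σ z = 1 := fun z => by rw [← map_mul, inv_mul_cancel, map_one]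
    have hinvr : ∀ z, σ z * σ z⁻¹ = 1 := fun z => by rw [← map_mul, mul_inv_cancel, map_one]
    -- elements acting centrally
    let C : Subgroup X :=
      { carrier := {z | ∀ y, σ z * σ y = σ y * σ z}
        one_mem' := fun y => by simp
        mul_mem' := by
          intro a b ha hb y
          rw [map_mul, mul_assoc, hb y, ← mul_assoc, ha y, mul_assoc]
        inv_mem' := by
          intro a ha y
          calc σ a⁻¹ * σ y = σ a⁻¹ * σ y * (σ a * σ a⁻¹) := by rw [hinvr, mul_one]
            _ = σ a⁻¹ * (σ y * σ a) * σ a⁻¹ := by simp only [mul_assoc]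
            _ = σ a⁻¹ * (σ a * σ y) * σ a⁻¹ := by rw [ha y]
            _ = (σ a⁻¹ * σ a) * σ y * σ a⁻¹ := by simp only [mul_assoc]
            _ = σ y * σ a⁻¹ := by rw [hinvl, one_mul] }
    have hCmem : ∀ z, z ∈ C ↔ ∀ y, σ z * σ y = σ y * σ z := fun z => Iff.rfl
    have hCne : C ≠ ⊤ := by
      intro h
      apply hab
      intro a b
      have : a ∈ C := by
        rw [h]
        exact mem_top a
      exact this b
    haveI hCn : C.Normal := by
      constructor
      intro z hz h
      have e : σ (h * z * h⁻¹) = σ z := by
        rw [map_mul, map_mul, ← hz h, mul_assoc, hinvr, mul_one]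
      intro y
      rw [e]
      exact hz y
    by_cases hscal : ∀ z ∈ C, ∃ c : K, σ z = c • 1
    · -- the main case
      have hY : IsPGroup p (X ⧸ C) := hX.to_quotient C
      haveI hYnt : Nontrivial (X ⧸ C) := QuotientGroup.nontrivial_iff.mpr hCne
      haveI := hY.center_nontrivial
      obtain ⟨⟨y, hy⟩, hy1⟩ := exists_ne (1 : Subgroup.center (X ⧸ C))
      obtain ⟨x, rfl⟩ := QuotientGroup.mk'_surjective C y
      have hxC : x ∉ C := by
        intro h
        apply hy1
        apply Subtype.ext
        exact (QuotientGroup.eq_one_iff x).mpr h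
      have hcommC : ∀ y : X, y * x * y⁻¹ * x⁻¹ ∈ C := by
        intro y
        rw [← QuotientGroup.eq_one_iff]
        have h1 := (Subgroup.mem_center_iff.mp hy) (QuotientGroup.mk' C y)
        have h2 : QuotientGroup.mk' C (y * x * y⁻¹ * x⁻¹) = 1 := by
          rw [map_mul, map_mul, map_mul, map_inv, map_inv, h1]
          group
        exact h2
      choose lam hlam using fun y => hscal _ (hcommC y)
      have hL : ∀ y, σ y * σ x = lam y • (σ x * σ y) := by
        intro y
        have e : y * x = (y * x * y⁻¹ * x⁻¹) * (x * y) := by group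
        rw [← map_mul, e, map_mul, hlam, map_mul, smul_mul_assoc, one_mul]
      have hlam0 : ∀ y, lam y ≠ 0 := by
        intro y h0
        have h1 := hL y
        rw [h0, zero_smul, ← map_mul] at h1
        have h2 : σ (y * x) * σ (y * x)⁻¹ = 1 := hinvr _
        rw [h1, zero_mul] at h2
        exact zero_ne_one h2
      -- the elements commuting with `σ x`
      let M : Subgroup X :=
        { carrier := {z | σ z * σ x = σ x * σ z}
          one_mem' := by simp
          mul_mem' := by
            intro a b ha hb
            show σ (a * b) * σ x = σ x * σ (a * b)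
            rw [map_mul, mul_assoc, hb, ← mul_assoc, ha, mul_assoc]
          inv_mem' := by
            intro a ha
            show σ a⁻¹ * σ x = σ x * σ a⁻¹
            calc σ a⁻¹ * σ x = σ a⁻¹ * σ x * (σ a * σ a⁻¹) := by rw [hinvr, mul_one]
              _ = σ a⁻¹ * (σ x * σ a) * σ a⁻¹ := by simp only [mul_assoc]
              _ = σ a⁻¹ * (σ a * σ x) * σ a⁻¹ := by rw [ha]
              _ = (σ a⁻¹ * σ a) * σ x * σ a⁻¹ := by simp only [mul_assoc]
              _ = σ x * σ a⁻¹ := by rw [hinvl, one_mul] }
      have hLmul : ∀ a b (c e : K), σ a * σ x = c • (σ x * σ a) → σ b * σ x = e • (σ x * σ b) →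
          σ (a * b) * σ x = (c * e) • (σ x * σ (a * b)) := by
        intro a b c e ha hb
        rw [map_mul, mul_assoc, hb, mul_smul_comm, ← mul_assoc, ha, smul_mul_assoc, smul_smul, mul_assoc,
          mul_comm e c]
      have hLinv : ∀ a (c : K), c ≠ 0 → σ a * σ x = c • (σ x * σ a) → σ a⁻¹ * σ x = c⁻¹ • (σ x * σ a⁻¹) := by
        intro a c hc ha
        have h1 : σ x * σ a⁻¹ = c • (σ a⁻¹ * σ x) := by
          calc σ x * σ a⁻¹ = (σ a⁻¹ * σ a) * (σ x * σ a⁻¹) := by rw [hinvl, one_mul]
            _ = σ a⁻¹ * (σ a * σ x) * σ a⁻¹ := by simp only [mul_assoc]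
            _ = σ a⁻¹ * (c • (σ x * σ a)) * σ a⁻¹ := by rw [ha]
            _ = c • (σ a⁻¹ * σ x * (σ a * σ a⁻¹)) := by
              rw [mul_smul_comm, smul_mul_assoc]
              simp only [mul_assoc]
            _ = c • (σ a⁻¹ * σ x) := by rw [hinvr, mul_one]
        rw [h1, smul_smul, inv_mul_cancel₀ hc, one_smul]
      have hcommM : commutator X ≤ M := by
        rw [_root_.commutator_def, Subgroup.commutator_le]
        intro a _ b _
        show σ ⁅a, b⁆ * σ x = σ x * σ ⁅a, b⁆
        rw [commutatorElement_def]
        have h1 := hLmul _ _ _ _ (hLmul _ _ _ _ (hLmul _ _ _ _ (hL a) (hL b))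
          (hLinv a _ (hlam0 a) (hL a))) (hLinv b _ (hlam0 b) (hL b))
        have e : lam a * lam b * (lam a)⁻¹ * (lam b)⁻¹ = 1 := by
          field_simp [hlam0 a, hlam0 b]
        rw [e, one_smul] at h1
        exact h1
      -- a non-commuting element
      obtain ⟨g₀, hg₀⟩ : ∃ g₀, σ x * σ g₀ ≠ σ g₀ * σ x := by
        by_contra hcon
        push Not at hcon
        exact hxC hcon
      set l₀ := lam g₀ with hl₀
      have hl₀1 : l₀ ≠ 1 := by
        intro h
        apply hg₀
        rw [hL g₀, ← hl₀, h, one_smul]
      obtain ⟨e, he⟩ := hX x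
      have hxpow : σ x ^ p ^ e = 1 := by
        rw [← map_pow, he, map_one]
      have hsup := iSup_eigen hpK (σ x) e hxpow
      have hg' : g ∈ (derivedSeries M m).map M.subtype := derived_le_map M hcommM m hg
      obtain ⟨h, hh, rfl⟩ := hg'
      apply eq_one_of_eigen (σ x) _ hsup
      intro μ v hv
      -- the dimension bound
      set E := (σ x).eigenspace μ with hE
      have hinvM : ∀ y : M, ∀ w ∈ E, (σ.comp M.subtype) y w ∈ E := by
        intro y w hw
        have h1 : σ x w = μ • w := Module.End.mem_eigenspace_iff.mp hw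
        rw [hE, Module.End.mem_eigenspace_iff]
        change σ x (σ y.1 w) = μ • σ y.1 w
        have h2 : σ y.1 * σ x = σ x * σ y.1 := y.2
        rw [← Module.End.mul_apply, ← h2, Module.End.mul_apply, h1, map_smul]
      have hdim : 2 * finrank K E ≤ d := by
        by_cases hμ : μ = 0
        · have hker : E = ⊥ := by
            rw [eq_bot_iff]
            intro w hw
            have h1 : σ x w = μ • w := Module.End.mem_eigenspace_iff.mp hw
            rw [hμ, zero_smul] at h1
            have h2 : σ x⁻¹ (σ x w) = w := sigma_inv_mul σ x w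
            rw [h1, map_zero] at h2
            exact h2.symm
          rw [hker, finrank_bot]
          omega
        · set μ' := l₀⁻¹ * μ with hμ'
          have hne : μ' ≠ μ := by
            intro h
            have h1 : l₀⁻¹ = 1 := by
              have := mul_right_cancel₀ hμ (h.trans (one_mul μ).symm)
              exact this
            apply hl₀1
            rw [← inv_inv l₀, h1, inv_one]
          have hmap : ∀ w ∈ E, σ g₀ w ∈ (σ x).eigenspace μ' := by
            intro w hw
            have h1 : σ x w = μ • w := Module.End.mem_eigenspace_iff.mp hw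
            rw [Module.End.mem_eigenspace_iff]
            have h2 := congrArg (fun f : End K V => f w) (hL g₀)
            simp only [Module.End.mul_apply, LinearMap.smul_apply, h1, map_smul] at h2
            rw [hμ', mul_smul, h2, ← hl₀, smul_smul, inv_mul_cancel₀ (hlam0 g₀), one_smul]
          have hinj : Function.Injective ((σ g₀).restrict hmap) := by
            intro a b hab
            have h1 := congrArg Subtype.val hab
            have h2 : σ g₀ a.1 = σ g₀ b.1 := h1
            apply Subtype.ext
            have h3 := congrArg (σ g₀⁻¹) h2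
            rwa [sigma_inv_mul, sigma_inv_mul] at h3
          have hle := LinearMap.finrank_le_finrank_of_injective hinj
          have hdisj : E ⊓ (σ x).eigenspace μ' = ⊥ := by
            rw [eq_bot_iff]
            rintro w ⟨hw1, hw2⟩
            have h1 : σ x w = μ • w := Module.End.mem_eigenspace_iff.mp hw1
            have h2 : σ x w = μ' • w := Module.End.mem_eigenspace_iff.mp hw2
            have h3 : (μ - μ') • w = 0 := by
              rw [sub_smul, ← h1, ← h2, sub_self]
            rcases smul_eq_zero.mp h3 with h4 | h4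
            · exact absurd (sub_eq_zero.mp h4).symm hne
            · exact h4
          have hsum := Submodule.finrank_sup_add_finrank_inf_eq E ((σ x).eigenspace μ')
          rw [hdisj, finrank_bot, add_zero] at hsum
          have hle2 : finrank K ↥(E ⊔ (σ x).eigenspace μ') ≤ d := by
            rw [← hd]
            exact Submodule.finrank_le _
          omega
      have hlt : finrank K E < d := by omega
      have hlt2 : finrank K E < 2 ^ m := by
        rw [pow_succ] at hdm
        omega
      have h1 := ih _ hlt m (hX.to_subgroup M) (restr (σ.comp M.subtype) E hinvM) rfl hlt2 h hh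
      have h2 := congrArg (fun f : End K E => ((f ⟨v, hv⟩ : E) : V)) h1
      exact h2
    · -- a central non-scalar element
      push Not at hscal
      obtain ⟨z, hzC, hz⟩ := hscal
      obtain ⟨e, he⟩ := hX z
      have hzpow : σ z ^ p ^ e = 1 := by
        rw [← map_pow, he, map_one]
      have hsup := iSup_eigen hpK (σ z) e hzpow
      apply eq_one_of_eigen (σ z) _ hsup
      intro μ v hv
      set E := (σ z).eigenspace μ with hE
      have hinv : ∀ y : X, ∀ w ∈ E, σ y w ∈ E := by
        intro y w hw
        have h1 : σ z w = μ • w := Module.End.mem_eigenspace_iff.mp hw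
        rw [hE, Module.End.mem_eigenspace_iff, ← Module.End.mul_apply, hzC y, Module.End.mul_apply, h1, map_smul]
      have hne : E ≠ ⊤ := by
        intro h
        apply hz μ
        ext w
        have hw : w ∈ E := by
          rw [h]
          trivial
        have h1 : σ z w = μ • w := Module.End.mem_eigenspace_iff.mp hw
        rw [h1]
        rfl
      have hlt : finrank K E < d := by
        rw [← hd]
        exact Submodule.finrank_lt hne
      have h1 := ih _ hlt (m + 1) hX (restr σ E hinv) rfl (hlt.trans hdm) g hg
      have h2 := congrArg (fun f : End K E => ((f ⟨v, hv⟩ : E) : V)) h1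
      exact h2

end aux

/-- Let F be a field, n ≥ 1, and P a finite p-group (p a prime) admitting an injective homomorphism into the general linear group of degree n over F. Then the derived length of P is at most ⌊log₂ n⌋ + 1: that term of the derived series of P is trivial. -/
theorem result {P : Type*} [Group P] [Finite P] (p : ℕ) [Fact p.Prime] (hP : IsPGroup p P) (F : Type*) [Field F] (n : ℕ) (hn : 1 ≤ n) (ρ : P →* Matrix.GeneralLinearGroup (Fin n) F) (hρ : Function.Injective ρ) : derivedSeries P (Nat.log 2 n + 1) = ⊥ := by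
  have hn' : n < 2 ^ (Nat.log 2 n + 1) := Nat.lt_pow_succ_log_self (by norm_num) n
  let K := AlgebraicClosure F
  let σ : P →* Module.End K (Fin n → K) :=
    (Matrix.toLinAlgEquiv' (R := K) (n := Fin n)).toMulEquiv.toMonoidHom.comp
      ((Units.coeHom (Matrix (Fin n) (Fin n) K)).comp
        ((Matrix.GeneralLinearGroup.map (n := Fin n) (algebraMap F K)).comp ρ))
  have hσ : ∀ g, σ g = 1 → g = 1 := by
    intro g hg
    have h1 : ((Matrix.GeneralLinearGroup.map (n := Fin n) (algebraMap F K) (ρ g) : Matrix.GeneralLinearGroup (Fin n) K) : Matrix (Fin n) (Fin n) K) = 1 := by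
      apply (Matrix.toLinAlgEquiv' (R := K) (n := Fin n)).injective
      rw [map_one]
      exact hg
    have h2 : ρ g = 1 := by
      apply Units.ext
      ext i j
      have h3 := congrFun (congrFun h1 i) j
      have hinj : Function.Injective (algebraMap F K) := (algebraMap F K).injective
      apply hinj
      rw [Matrix.GeneralLinearGroup.map_apply] at h3
      rw [h3]
      simp [Matrix.one_apply]
    apply hρ
    rw [h2, map_one]
  rw [eq_bot_iff]
  intro g hg
  rw [Subgroup.mem_bot]
  apply hσ
  have hfin : Module.finrank K (Fin n → K) = n := by simp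
  by_cases hpK : (p : K) = 0
  · exact char_case hpK _ hP σ (by rw [hfin]; exact hn'.le) g hg
  · exact nonchar_case hpK n _ hP σ hfin hn' g hg

end Cfsg.Agent.S4010
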