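import Cfsg.Statements.S4013
import Cfsg.Agent.Lib.Struct.Basic

set_option autoImplicit false
open Cfsg

namespace Cfsg.Agent.S4013


/-- Let G be a finite p-group (p prime) and N < M normal subgroups of G such that for some g ∈ M ∖ N the conjugacy class of g is exactly M ∖ N. Then p = 2 and N has index 2 in M. -/
theorem result {G : Type*} [Group G] [Finite G] (p : ℕ) [Fact p.Prime] (hG : IsPGroup p G) (N M : Subgroup G) [N.Normal] [M.Normal] (hNM : N < M) (g : G) (hgM : g ∈ M) (hgN : g ∉ N) (hcl : {h : G | IsConj g h} = (M : Set G) \ (N : Set G)) : p = 2 ∧ N.relIndex M = 2 := by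
  classical
  have hp := (Fact.out : p.Prime)
  -- the size of the class
  have hclass : Nat.card {h : G // IsConj g h} = (Subgroup.centralizer ({g} : Set G)).index :=
    Cfsg.Agent.Lib.Struct.card_isConj_eq_index g
  obtain ⟨n, hn⟩ := IsPGroup.iff_card.mp hG
  have hdvd : (Subgroup.centralizer ({g} : Set G)).index ∣ p ^ n := by
    rw [← hn]; exact Subgroup.index_dvd_card _
  have hcard : Nat.card {h : G // IsConj g h} = Nat.card M - Nat.card N := by
    have h1 : Nat.card {h : G // IsConj g h} = Set.ncard ((M : Set G) \ (N : Set G)) := by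
      rw [← hcl, ← Nat.card_coe_set_eq]; rfl
    rw [h1, Set.ncard_diff (hNM.le) ]
    simp only [Set.ncard_coe_finset, ← Nat.card_coe_set_eq]
    rfl
  -- write |M| = |N| * k
  set k := N.relIndex M with hk
  have hMN : Nat.card M = Nat.card N * k := by
    rw [hk, ← Subgroup.relIndex_bot_left M, ← Subgroup.relIndex_bot_left N]
    exact (Subgroup.relIndex_mul_relIndex ⊥ N M bot_le hNM.le).symm
  have hk1 : k ≠ 1 := by
    intro h
    rw [hk, Subgroup.relIndex_eq_one] at h
    exact hNM.not_ge h
  have hNpos : 0 < Nat.card N := Nat.card_pos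
  have hkpos : 0 < k := by
    rcases Nat.eq_zero_or_pos k with h0 | h0
    · rw [h0, mul_zero] at hMN
      have : 0 < Nat.card M := Nat.card_pos
      omega
    · exact h0
  have hval : Nat.card N * (k - 1) ∣ p ^ n := by
    have : Nat.card N * (k - 1) = Nat.card M - Nat.card N := by
      rw [hMN, Nat.mul_sub, mul_one]
    rw [this, ← hcard, hclass]; exact hdvd
  have hk2 : k ∣ p ^ n := by
    have h1 : k ∣ Nat.card M := ⟨Nat.card N, by rw [hMN, mul_comm]⟩
    rw [← hn]
    exact h1.trans (Subgroup.card_subgroup_dvd_card M)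
  -- k - 1 and k coprime p-powers
  have hk3 : k - 1 ∣ p ^ n := (Dvd.intro_left _ rfl).trans hval
  have hkm : k - 1 = 1 := by
    obtain ⟨a, _, ha⟩ := (Nat.dvd_prime_pow hp).mp hk2
    obtain ⟨b, _, hb⟩ := (Nat.dvd_prime_pow hp).mp hk3
    rcases Nat.eq_zero_or_pos b with h0 | h0
    · rw [h0, pow_zero] at hb; exact hb
    · exfalso
      have h1 : p ∣ k - 1 := by rw [hb]; exact dvd_pow_self p h0.ne'
      have ha0 : a ≠ 0 := by
        rintro rfl
        simp at ha
        exact hk1 ha
      have h2 : p ∣ k := by rw [ha]; exact dvd_pow_self p ha0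
      have h3 : p ∣ k - (k - 1) := Nat.dvd_sub h2 h1
      have h4 : k - (k - 1) = 1 := by omega
      rw [h4] at h3
      exact hp.one_lt.ne' (Nat.dvd_one.mp h3)
  have hk4 : k = 2 := by omega
  refine ⟨?_, hk4⟩
  have : p ∣ 2 := by
    obtain ⟨a, _, ha⟩ := (Nat.dvd_prime_pow hp).mp hk2
    have ha0 : a ≠ 0 := by
      rintro rfl
      simp at ha
      exact hk1 ha
    rw [hk4] at ha
    rw [ha]; exact dvd_pow_self p ha0
  exact (Nat.prime_dvd_prime_iff_eq hp Nat.prime_two).mp this

end Cfsg.Agent.S4013
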