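import Cfsg.Statements.S4014
import Cfsg.Agent.Lib.Basic.Frattini

set_option autoImplicit false
open Cfsg

namespace Cfsg.Agent.S4014

section aux

open Subgroup
open scoped commutatorElement

/-- A subgroup of index at most `p ^ k` of a `p`-group contains the `k`-th derived subgroup. -/
private theorem derived_le_of_index {p : ℕ} [hp : Fact p.Prime] (k : ℕ) :
    ∀ (X : Type) [Group X] [Finite X], IsPGroup p X → ∀ S : Subgroup X, S.index ≤ p ^ k →
      derivedSeries X k ≤ S := by
  induction k with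
  | zero =>
    intro X _ _ _ S hS
    have h0 : S.index ≠ 0 := Subgroup.index_ne_zero_of_finite
    have h1 : S.index = 1 := by
      simp only [pow_zero] at hS
      omega
    rw [Subgroup.index_eq_one.mp h1]
    exact le_top
  | succ k ih =>
    intro X _ _ hX S hS
    by_cases hStop : S = ⊤
    · rw [hStop]
      exact le_top
    haveI : Group.IsNilpotent X := hX.isNilpotent
    obtain ⟨M, hM, hSM⟩ := Cfsg.Agent.Lib.Basic.exists_isCoatom_ge hStop
    haveI hMn : M.Normal := Cfsg.Agent.Lib.Basic.isCoatom_normal_of_isNilpotent hM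
    have hcomm : commutator X ≤ M := Cfsg.Agent.Lib.Basic.commutator_le_of_isCoatom_of_isNilpotent hM
    have hMidx : M.index.Prime := Cfsg.Agent.Lib.Basic.index_prime_of_isCoatom_of_isNilpotent hM
    have hMidx2 : M.index = p := by
      have h1 : M.index ∣ Nat.card X := Subgroup.index_dvd_card M
      obtain ⟨n, hn⟩ := IsPGroup.iff_card.mp hX
      rw [hn] at h1
      have h2 := (Nat.prime_dvd_prime_iff_eq hMidx hp.out).mp (hMidx.dvd_of_dvd_pow h1)
      exact h2
    have hrel : S.relIndex M * M.index = S.index := Subgroup.relIndex_mul_index hSM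
    have hrel2 : (S.subgroupOf M).index ≤ p ^ k := by
      have h1 : S.relIndex M * p ≤ p ^ k * p := by
        rw [← hMidx2, hrel, hMidx2, ← pow_succ]
        exact hS
      exact Nat.le_of_mul_le_mul_right h1 hp.out.pos
    have hM' : IsPGroup p M := hX.to_subgroup M
    have h1 := ih M hM' (S.subgroupOf M) hrel2
    have hkey : ∀ m, derivedSeries X (m + 1) ≤ (derivedSeries M m).map M.subtype := by
      intro m
      induction m with
      | zero =>
        rw [derivedSeries_one]
        have : (derivedSeries M 0).map M.subtype = M := by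
          rw [derivedSeries_zero, ← MonoidHom.range_eq_map]
          exact Subgroup.range_subtype M
        rw [this]
        exact hcomm
      | succ m ihm =>
        rw [derivedSeries_succ, derivedSeries_succ M, Subgroup.map_commutator]
        exact Subgroup.commutator_mono ihm ihm
    refine (hkey k).trans ?_
    rintro _ ⟨y, hy, rfl⟩
    exact mem_subgroupOf.mp (h1 hy)


/-- The wreath product of `W` with `C_p`, acting on `ZMod p × Ω`. -/
private def wr {p : ℕ} {Ω : Type} (W : Subgroup (Equiv.Perm Ω)) : Subgroup (Equiv.Perm (ZMod p × Ω)) where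
  carrier := {g | ∃ (c : ZMod p) (f : ZMod p → Equiv.Perm Ω), (∀ i, f i ∈ W) ∧ ∀ i w, g (i, w) = (i + c, f i w)}
  one_mem' := ⟨0, fun _ => 1, fun _ => one_mem _, fun i w => by simp⟩
  mul_mem' := by
    rintro a b ⟨c, f, hf, ha⟩ ⟨d, h, hh, hb⟩
    refine ⟨d + c, fun i => f (i + d) * h i, fun i => mul_mem (hf _) (hh _), fun i w => ?_⟩
    rw [Equiv.Perm.mul_apply, hb, ha, Equiv.Perm.mul_apply, add_assoc]
  inv_mem' := by
    rintro a ⟨c, f, hf, ha⟩
    refine ⟨-c, fun i => (f (i + -c))⁻¹, fun i => inv_mem (hf _), fun i w => ?_⟩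
    rw [Equiv.Perm.inv_eq_iff_eq, ha]
    simp

private theorem mem_wr {p : ℕ} {Ω : Type} (W : Subgroup (Equiv.Perm Ω)) {g : Equiv.Perm (ZMod p × Ω)} :
    g ∈ wr W ↔ ∃ (c : ZMod p) (f : ZMod p → Equiv.Perm Ω), (∀ i, f i ∈ W) ∧ ∀ i w, g (i, w) = (i + c, f i w) :=
  Iff.rfl

private theorem wr_isPGroup {p : ℕ} [hp : Fact p.Prime] {Ω : Type} [Finite Ω] (W : Subgroup (Equiv.Perm Ω))
    (hW : IsPGroup p W) : IsPGroup p (wr (p := p) W) := by
  rintro ⟨g, c, f, hf, hg⟩
  have hpow : ∀ m : ℕ, ∃ F : ZMod p → Equiv.Perm Ω, (∀ i, F i ∈ W) ∧ ∀ i w, (g ^ m) (i, w) = (i + m • c, F i w) := by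
    intro m
    induction m with
    | zero => exact ⟨fun _ => 1, fun _ => one_mem _, fun i w => by simp⟩
    | succ m ih =>
      obtain ⟨F, hF, hFe⟩ := ih
      refine ⟨fun i => F (i + c) * f i, fun i => mul_mem (hF _) (hf _), fun i w => ?_⟩
      rw [pow_succ, Equiv.Perm.mul_apply, hg, hFe, Equiv.Perm.mul_apply, succ_nsmul]
      congr 1
      ring
  obtain ⟨F, hF, hFe⟩ := hpow p
  have hp0 : p • c = 0 := by
    rw [nsmul_eq_mul, CharP.cast_eq_zero, zero_mul]
  simp only [hp0, add_zero] at hFe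
  have hpow2 : ∀ m : ℕ, ∀ i w, ((g ^ p) ^ m) (i, w) = (i, (F i ^ m) w) := by
    intro m
    induction m with
    | zero => intro i w; simp
    | succ m ih =>
      intro i w
      rw [pow_succ, Equiv.Perm.mul_apply, hFe, ih, pow_succ, Equiv.Perm.mul_apply]
  obtain ⟨s, hs⟩ := IsPGroup.iff_card.mp hW
  have hFt : ∀ i, F i ^ p ^ s = 1 := by
    intro i
    have h1 := pow_card_eq_one' (G := W) (x := ⟨F i, hF i⟩)
    rw [hs] at h1
    exact congrArg Subtype.val h1
  refine ⟨s + 1, ?_⟩
  apply Subtype.ext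
  have h2 : g ^ p ^ (s + 1) = 1 := by
    rw [pow_succ', pow_mul]
    ext ⟨i, w⟩
    · rw [hpow2, hFt]
      rfl
    · rw [hpow2, hFt]
      rfl
  exact h2

private theorem wr_derived {p : ℕ} [hp : Fact p.Prime] {Ω : Type} (W : Subgroup (Equiv.Perm Ω)) (m : ℕ) :
    ∀ a : W, a ∈ derivedSeries W m → ∃ d : wr (p := p) W, d ∈ derivedSeries (wr (p := p) W) (m + 1) ∧
      ∀ w, d.1 (1, w) = (1, a.1 w) := by
  classical
  induction m with
  | zero =>
    intro a _
    -- the shift
    let σ : Equiv.Perm (ZMod p × Ω) := (Equiv.addRight (1 : ZMod p)).prodCongr (Equiv.refl Ω)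
    have hσ : ∀ i w, σ (i, w) = (i + 1, w) := fun i w => rfl
    have hσm : σ ∈ wr (p := p) W := ⟨1, fun _ => 1, fun _ => one_mem _, fun i w => by simp [hσ]⟩
    have hσi : ∀ i w, σ⁻¹ (i, w) = (i + -1, w) := by
      intro i w
      rw [Equiv.Perm.inv_eq_iff_eq, hσ]
      simp
    -- the base element
    let b : Equiv.Perm (ZMod p × Ω) := Equiv.prodShear (Equiv.refl _) (fun i => if i = 0 then a.1 else 1)
    have hb : ∀ i w, b (i, w) = (i, (if i = 0 then a.1 else 1 : Equiv.Perm Ω) w) := fun i w => rfl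
    have hbm : b ∈ wr (p := p) W := by
      refine ⟨0, fun i => if i = 0 then a.1 else 1, fun i => ?_, fun i w => ?_⟩
      · show (if i = 0 then a.1 else 1) ∈ W
        split_ifs
        · exact a.2
        · exact one_mem _
      · rw [hb, add_zero]
    have hbi1 : ∀ w, b⁻¹ (1, w) = (1, w) := by
      intro w
      rw [Equiv.Perm.inv_eq_iff_eq, hb]
      simp
    refine ⟨⁅(⟨σ, hσm⟩ : wr (p := p) W), (⟨b, hbm⟩ : wr (p := p) W)⁆, ?_, ?_⟩
    · rw [zero_add, derivedSeries_one]
      rw [_root_.commutator_def]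
      exact Subgroup.commutator_mem_commutator (mem_top _) (mem_top _)
    · intro w
      have : (⁅(⟨σ, hσm⟩ : wr (p := p) W), (⟨b, hbm⟩ : wr (p := p) W)⁆ : wr (p := p) W).1 = σ * b * σ⁻¹ * b⁻¹ := rfl
      rw [this]
      simp only [Equiv.Perm.mul_apply]
      rw [hbi1, hσi, hb, hσ]
      simp
  | succ m ih =>
    have hact_inv : ∀ (d : Equiv.Perm (ZMod p × Ω)) (a : Equiv.Perm Ω), (∀ w, d (1, w) = (1, a w)) →
        ∀ w, d⁻¹ (1, w) = (1, a⁻¹ w) := by
      intro d a hd w
      rw [Equiv.Perm.inv_eq_iff_eq, hd]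
      simp
    let A : Subgroup W :=
      { carrier := {a | ∃ d : wr (p := p) W, d ∈ derivedSeries (wr (p := p) W) (m + 1 + 1) ∧ ∀ w, d.1 (1, w) = (1, a.1 w)}
        one_mem' := ⟨1, one_mem _, fun w => rfl⟩
        mul_mem' := by
          rintro a b ⟨d, hd, hda⟩ ⟨e, he, heb⟩
          refine ⟨d * e, mul_mem hd he, fun w => ?_⟩
          have e1 : (d * e).1 = d.1 * e.1 := rfl
          rw [e1, Equiv.Perm.mul_apply, heb, hda]
          rfl
        inv_mem' := by
          rintro a ⟨d, hd, hda⟩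
          refine ⟨d⁻¹, inv_mem hd, fun w => ?_⟩
          have e1 : (d⁻¹).1 = d.1⁻¹ := rfl
          rw [e1, hact_inv _ _ hda]
          rfl }
    have hle : derivedSeries W (m + 1) ≤ A := by
      rw [derivedSeries_succ, Subgroup.commutator_le]
      intro a₁ ha₁ a₂ ha₂
      obtain ⟨d₁, hd₁, h₁⟩ := ih a₁ ha₁
      obtain ⟨d₂, hd₂, h₂⟩ := ih a₂ ha₂
      refine ⟨⁅d₁, d₂⁆, ?_, fun w => ?_⟩
      · rw [derivedSeries_succ]
        exact Subgroup.commutator_mem_commutator hd₁ hd₂
      · have e1 : (⁅d₁, d₂⁆ : wr (p := p) W).1 = d₁.1 * d₂.1 * d₁.1⁻¹ * d₂.1⁻¹ := rfl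
        have e2 : (⁅a₁, a₂⁆ : W).1 = a₁.1 * a₂.1 * a₁.1⁻¹ * a₂.1⁻¹ := rfl
        rw [e1, e2]
        simp only [Equiv.Perm.mul_apply]
        rw [hact_inv _ _ h₂, hact_inv _ _ h₁, h₂, h₁]
    exact fun a ha => hle ha

/-- An iterated wreath product with nontrivial `j`-th derived subgroup. -/
private theorem exists_wreath {p : ℕ} [hp : Fact p.Prime] (j : ℕ) :
    ∃ (Ω : Type) (_ : Fintype Ω) (W : Subgroup (Equiv.Perm Ω)), Fintype.card Ω = p ^ (j + 1) ∧ IsPGroup p W ∧
      derivedSeries W j ≠ ⊥ := by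
  induction j with
  | zero =>
    haveI : NeZero p := ⟨hp.out.ne_zero⟩
    let σ : Equiv.Perm (ZMod p) := Equiv.addRight (1 : ZMod p)
    have hσp : σ ^ p = 1 := by
      have h : ∀ m : ℕ, ∀ i, (σ ^ m) i = i + m := by
        intro m
        induction m with
        | zero => intro i; simp
        | succ m ih =>
          intro i
          rw [pow_succ, Equiv.Perm.mul_apply, ih]
          simp only [σ, Equiv.coe_addRight]
          push_cast
          ring
      ext i
      rw [h]
      simp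
    have hσ1 : σ ≠ 1 := by
      intro h
      have h1 : σ 0 = 0 := by rw [h]; rfl
      simp only [σ, Equiv.coe_addRight, zero_add] at h1
      exact one_ne_zero h1
    refine ⟨ZMod p, ZMod.fintype p, zpowers σ, by simp [ZMod.card], ?_, ?_⟩
    · rintro ⟨g, hg⟩
      obtain ⟨i, rfl⟩ := mem_zpowers_iff.mp hg
      refine ⟨1, ?_⟩
      apply Subtype.ext
      show (σ ^ i) ^ p ^ 1 = 1
      rw [pow_one, ← zpow_natCast, ← zpow_mul, mul_comm, zpow_mul, zpow_natCast, hσp, one_zpow]
    · rw [derivedSeries_zero]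
      intro h
      have h1 : (⟨σ, mem_zpowers σ⟩ : zpowers σ) ∈ (⊤ : Subgroup (zpowers σ)) := mem_top _
      rw [h, mem_bot] at h1
      exact hσ1 (congrArg Subtype.val h1)
  | succ j ih =>
    obtain ⟨Ω, hΩ, W, hcard, hW, hne⟩ := ih
    refine ⟨ZMod p × Ω, inferInstance, wr (p := p) W, ?_, wr_isPGroup W hW, ?_⟩
    · haveI : NeZero p := ⟨hp.out.ne_zero⟩
      rw [Fintype.card_prod, ZMod.card, hcard, pow_succ' p (j + 1)]
    · obtain ⟨⟨a, ha⟩, ha1'⟩ := Subgroup.ne_bot_iff_exists_ne_one.mp hne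
      have ha1 : a ≠ 1 := fun e => ha1' (Subtype.ext e)
      obtain ⟨d, hd, hda⟩ := wr_derived (p := p) W j a ha
      intro h
      rw [h, mem_bot] at hd
      apply ha1
      apply Subtype.ext
      ext w
      have h1 := hda w
      rw [hd] at h1
      have h2 : w = a.1 w := by
        have := congrArg Prod.snd h1
        exact this
      exact h2.symm

end aux

/-- Let p be a prime, n ≥ 1, and P a Sylow p-subgroup of the symmetric group on n letters. Then the derived length of P is exactly k = ⌊log_p n⌋ (the largest k with p^k ≤ n): the k-th derived subgroup of P is trivial and, when k ≥ 1, the (k−1)-st is not. -/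
theorem result (p : ℕ) [Fact p.Prime] (n : ℕ) (hn : 1 ≤ n) (P : Sylow p (Equiv.Perm (Fin n))) : derivedSeries ↥(P : Subgroup (Equiv.Perm (Fin n))) (Nat.log p n) = ⊥ ∧ (1 ≤ Nat.log p n → derivedSeries ↥(P : Subgroup (Equiv.Perm (Fin n))) (Nat.log p n - 1) ≠ ⊥) := by
  have hpp : p.Prime := Fact.out
  constructor
  · rw [eq_bot_iff]
    rintro ⟨g, hgP⟩ hg
    rw [Subgroup.mem_bot]
    apply Subtype.ext
    ext i
    let S : Subgroup ↥(P : Subgroup (Equiv.Perm (Fin n))) := MulAction.stabilizer ↥(P : Subgroup (Equiv.Perm (Fin n))) i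
    have hidx : S.index ≤ p ^ (Nat.log p n) := by
      have h1 : S.index = (MulAction.orbit ↥(P : Subgroup (Equiv.Perm (Fin n))) i).ncard := MulAction.index_stabilizer _ i
      have h2 : S.index ≤ n := by
        rw [h1]
        have := Set.ncard_le_card (MulAction.orbit ↥(P : Subgroup (Equiv.Perm (Fin n))) i)
        simpa using this
      have h3 : S.index ∣ Nat.card ↥(P : Subgroup (Equiv.Perm (Fin n))) := Subgroup.index_dvd_card S
      obtain ⟨m, hm⟩ := IsPGroup.iff_card.mp P.isPGroup'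
      rw [hm] at h3
      obtain ⟨a, -, ha⟩ := (Nat.dvd_prime_pow hpp).1 h3
      rw [ha] at h2 ⊢
      exact Nat.pow_le_pow_right hpp.pos (Nat.le_log_of_pow_le hpp.one_lt h2)
    have h4 := derived_le_of_index _ _ P.isPGroup' S hidx hg
    have h5 : (⟨g, hgP⟩ : ↥(P : Subgroup (Equiv.Perm (Fin n)))) • i = i := h4
    exact congrArg Fin.val h5
  · intro hk h
    obtain ⟨Ω, hΩ, W, hcard, hW, hne⟩ := exists_wreath (p := p) (Nat.log p n - 1)
    have hcard' : Fintype.card Ω ≤ Fintype.card (Fin n) := by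
      rw [hcard, Nat.sub_add_cancel hk, Fintype.card_fin]
      exact Nat.pow_log_le_self p (by omega)
    obtain ⟨e⟩ := Function.Embedding.nonempty_of_card_le hcard'
    let φ : Equiv.Perm Ω →* Equiv.Perm (Fin n) := Equiv.Perm.viaEmbeddingHom e
    have hφ : Function.Injective φ := Equiv.Perm.viaEmbeddingHom_injective e
    have hWm : IsPGroup p (W.map φ) := hW.map φ
    obtain ⟨Q, hQ⟩ := hWm.exists_le_sylow
    let f : ↥W →* ↥(Q : Subgroup (Equiv.Perm (Fin n))) :=
      { toFun := fun w => ⟨φ w, hQ ⟨w, w.2, rfl⟩⟩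
        map_one' := Subtype.ext (map_one φ)
        map_mul' := fun a b => Subtype.ext (map_mul φ _ _) }
    have hf : Function.Injective f := by
      intro a b hab
      apply Subtype.ext
      exact hφ (congrArg Subtype.val hab)
    have h2 : derivedSeries ↥(Q : Subgroup (Equiv.Perm (Fin n))) (Nat.log p n - 1) = ⊥ := by
      have h3 := map_derivedSeries_eq (f := (Sylow.equiv P Q).toMonoidHom) (Sylow.equiv P Q).surjective (Nat.log p n - 1)
      rw [← h3, h, Subgroup.map_bot]
    have h3 := map_derivedSeries_le_derivedSeries f (Nat.log p n - 1)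
    rw [h2, le_bot_iff, Subgroup.map_eq_bot_iff_of_injective _ hf] at h3
    exact hne h3

end Cfsg.Agent.S4014
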