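import Cfsg.Statements.S4022
import Cfsg.Agent.Lib.Basic.Hall
import Cfsg.Agent.Lib.Basic.Solv1
import Cfsg.Agent.Lib.Basic.MinNormal
import Cfsg.Agent.Lib.OddLocal.Sup
import Cfsg.Agent.Lib.Basic.SchurZassenhaus

set_option autoImplicit false
open Cfsg

namespace Cfsg.Agent.S4022

section aux
open Subgroup Cfsg.Agent.Lib.Basic Cfsg.Agent.Lib.OddLocal

universe u

private theorem mem_cj {G : Type*} [Group G] {H : Subgroup G} {g x : G} :
    x ∈ H.map (MulAut.conj g).toMonoidHom ↔ g⁻¹ * x * g ∈ H := by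
  constructor
  · rintro ⟨y, hy, rfl⟩
    have : g⁻¹ * ((MulAut.conj g).toMonoidHom y) * g = y := by
      show g⁻¹ * (g * y * g⁻¹) * g = y
      group
    rwa [this]
  · intro h
    refine ⟨_, h, ?_⟩
    show g * (g⁻¹ * x * g) * g⁻¹ = x
    group

private theorem card_cj {G : Type*} [Group G] (H : Subgroup G) (g : G) :
    Nat.card (H.map (MulAut.conj g).toMonoidHom) = Nat.card H :=
  (Nat.card_congr (H.equivMapOfInjective _ (MulAut.conj g).injective).toEquiv).symm

private theorem cj_mul {G : Type*} [Group G] (H : Subgroup G) (a b : G) :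
    H.map (MulAut.conj (a * b)).toMonoidHom =
      (H.map (MulAut.conj b).toMonoidHom).map (MulAut.conj a).toMonoidHom := by
  ext x
  rw [mem_cj, mem_cj, mem_cj]
  have : (a * b)⁻¹ * x * (a * b) = b⁻¹ * (a⁻¹ * x * a) * b := by group
  rw [this]

private theorem cj_normal {G : Type*} [Group G] (N : Subgroup G) [hN : N.Normal] (g : G) :
    N.map (MulAut.conj g).toMonoidHom = N := by
  ext x
  rw [mem_cj]
  constructor
  · intro h
    have := hN.conj_mem _ h g
    have e : g * (g⁻¹ * x * g) * g⁻¹ = x := by group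
    rwa [e] at this
  · intro h
    have := hN.conj_mem _ h g⁻¹
    have e : g⁻¹ * x * g⁻¹⁻¹ = g⁻¹ * x * g := by group
    rwa [e] at this

private theorem exists_lift {G G' : Type*} [Group G] [Group G'] [Finite G] (f : G →* G')
    (hf : Function.Surjective f) (q : ℕ) [Fact q.Prime] (A : Subgroup G') (hA : IsPGroup q A) :
    ∃ A₀ : Subgroup G, IsPGroup q A₀ ∧ A₀.map f = A ∧
      Nat.card A₀ = q ^ (Nat.card (A.comap f)).factorization q := by
  let P : Sylow q (A.comap f) := default
  refine ⟨(P : Subgroup (A.comap f)).map (A.comap f).subtype, P.isPGroup'.map _, ?_, ?_⟩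
  · let φ : A.comap f →* A := f.subgroupComap A
    have hφ : Function.Surjective φ := f.subgroupComap_surjective_of_surjective A hf
    let P' := P.mapSurjective hφ
    have htopp : IsPGroup q (⊤ : Subgroup A) := by
      rintro ⟨x, _⟩
      obtain ⟨k, hk⟩ := hA x
      exact ⟨k, Subtype.ext hk⟩
    have htop : (⊤ : Subgroup A) = P' := P'.is_maximal' htopp le_top
    apply le_antisymm
    · rintro _ ⟨_, ⟨y, hy, rfl⟩, rfl⟩
      exact y.2
    · intro a ha
      have ha' : (⟨a, ha⟩ : A) ∈ (P' : Subgroup A) := by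
        rw [← htop]
        trivial
      obtain ⟨y, hy, hya⟩ := ha'
      refine ⟨(y : G), ⟨y, hy, rfl⟩, ?_⟩
      exact congrArg Subtype.val hya
  · rw [← P.card_eq_multiplicity]
    exact (Nat.card_congr ((P : Subgroup (A.comap f)).equivMapOfInjective _
      (Subtype.coe_injective)).toEquiv).symm

private theorem hD_quot {G : Type*} [Group G] [Finite G] (N : Subgroup G) [N.Normal]
    (hD : ∀ p : ℕ, p.Prime → ∀ H K : Subgroup G, IsPGroup p H → IsPGroup p K →
      Nat.card H = Nat.card K → ∃ g : G, K = H.map (MulAut.conj g).toMonoidHom) :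
    ∀ p : ℕ, p.Prime → ∀ H K : Subgroup (G ⧸ N), IsPGroup p H → IsPGroup p K →
      Nat.card H = Nat.card K → ∃ g : G ⧸ N, K = H.map (MulAut.conj g).toMonoidHom := by
  intro q hq A B hA hB hAB
  haveI : Fact q.Prime := ⟨hq⟩
  obtain ⟨A₀, hA₀, hmA, hcA⟩ :=
    exists_lift (QuotientGroup.mk' N) (QuotientGroup.mk'_surjective N) q A hA
  obtain ⟨B₀, hB₀, hmB, hcB⟩ :=
    exists_lift (QuotientGroup.mk' N) (QuotientGroup.mk'_surjective N) q B hB
  have hc : Nat.card A₀ = Nat.card B₀ := by
    rw [hcA, hcB, card_comap_mk, card_comap_mk, hAB]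
  obtain ⟨g, hg⟩ := hD q hq A₀ B₀ hA₀ hB₀ hc
  refine ⟨QuotientGroup.mk' N g, ?_⟩
  rw [← hmA, ← hmB, hg, Subgroup.map_map, Subgroup.map_map]
  congr 1

private theorem hc_quot {G : Type*} [Group G] [Finite G] (N : Subgroup G) [N.Normal] (r : ℕ)
    (hc : ∀ q : ℕ, q.Prime → q ≠ r → ∀ A : Subgroup G, IsPGroup q A → IsCyclic A) :
    ∀ q : ℕ, q.Prime → q ≠ r → ∀ A : Subgroup (G ⧸ N), IsPGroup q A → IsCyclic A := by
  intro q hq hqr A hA
  haveI : Fact q.Prime := ⟨hq⟩
  obtain ⟨A₀, hA₀, hmA, -⟩ :=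
    exists_lift (QuotientGroup.mk' N) (QuotientGroup.mk'_surjective N) q A hA
  haveI := hc q hq hqr A₀ hA₀
  rw [← hmA]
  exact isCyclic_of_surjective _ ((QuotientGroup.mk' N).subgroupMap_surjective A₀)

private theorem hc_sub {G : Type*} [Group G] [Finite G] (Y : Subgroup G) (r : ℕ)
    (hc : ∀ q : ℕ, q.Prime → q ≠ r → ∀ A : Subgroup G, IsPGroup q A → IsCyclic A) :
    ∀ q : ℕ, q.Prime → q ≠ r → ∀ A : Subgroup Y, IsPGroup q A → IsCyclic A := by
  intro q hq hqr A hA
  haveI := hc q hq hqr (A.map Y.subtype) (hA.map _)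
  exact isCyclic_of_injective (A.equivMapOfInjective Y.subtype Subtype.coe_injective).toMonoidHom
    (A.equivMapOfInjective Y.subtype Subtype.coe_injective).injective

private theorem conj_of_cyc {G : Type*} [Group G] [Finite G] (q : ℕ) [Fact q.Prime]
    (hc : ∀ A : Subgroup G, IsPGroup q A → IsCyclic A)
    (A B : Subgroup G) (hA : IsPGroup q A) (hB : IsPGroup q B) (h : Nat.card A = Nat.card B) :
    ∃ g : G, B = A.map (MulAut.conj g).toMonoidHom := by
  obtain ⟨P₁, h₁⟩ := hA.exists_le_sylow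
  obtain ⟨P₂, h₂⟩ := hB.exists_le_sylow
  obtain ⟨g, hg⟩ := MulAction.exists_smul_eq G P₁ P₂
  refine ⟨g, ?_⟩
  have hP₂ : IsCyclic (P₂ : Subgroup G) := hc _ P₂.isPGroup'
  refine (eq_of_card_eq_of_le_isCyclic hP₂ ?_ h₂ ?_).symm
  · rw [← hg]
    show A.map (MulAut.conj g).toMonoidHom ≤ (P₁ : Subgroup G).map (MulAut.conj g).toMonoidHom
    exact Subgroup.map_mono h₁
  · rw [card_cj, h]

private theorem hall_in {G : Type*} [Group G] [Finite G] [Group.IsSolvable G] (r : ℕ)
    [Fact r.Prime] (Γ : Subgroup G) :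
    ∃ Y : Subgroup G, Y ≤ Γ ∧ (Nat.card Y).Coprime r ∧ ∀ E : Subgroup G, E ≤ Γ →
      (Nat.card E).Coprime r → ∃ a ∈ Γ, E.map (MulAut.conj a).toMonoidHom ≤ Y := by
  have hpos : Nat.card Γ ≠ 0 := Nat.card_pos.ne'
  have hr : r.Prime := Fact.out
  set e := (Nat.card Γ).factorization r with he
  set m := Nat.card Γ / r ^ e with hm'
  have hm : r ^ e * m = Nat.card Γ := Nat.ordProj_mul_ordCompl_eq_self _ _
  have hmc : m.Coprime r := (Nat.coprime_ordCompl hr hpos).symm
  obtain ⟨Y', hY'⟩ := hall_exists _ m (r ^ e) (G := Γ) rfl (by rw [← hm]; ring) (hmc.pow_right e)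
  have hidx : Y'.index = r ^ e := by
    have h1 := Y'.card_mul_index
    rw [hY', ← hm, mul_comm] at h1
    have hmpos : 0 < m := Nat.pos_of_ne_zero (by
      rintro h0
      rw [h0] at hm
      simp at hm
      exact hpos hm.symm)
    exact Nat.eq_of_mul_eq_mul_right hmpos h1
  refine ⟨Y'.map Γ.subtype, map_subtype_le _, ?_, ?_⟩
  · have h3 : Nat.card (Y'.map Γ.subtype) = Nat.card Y' :=
      (Nat.card_congr (Y'.equivMapOfInjective _ Subtype.coe_injective).toEquiv).symm
    rw [h3, hY']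
    exact hmc
  · intro E hE hEc
    obtain ⟨g, hg⟩ := hall_le_conj _ Y' (E.subgroupOf Γ) rfl
      (by rw [hY', hidx]; exact hmc.pow_right e)
      (by rw [Cfsg.Agent.Lib.Basic.card_subgroupOf_of_le hE, hidx]; exact hEc.pow_right e)
    refine ⟨((g⁻¹ : Γ) : G), (g⁻¹ : Γ).2, ?_⟩
    intro x hx
    rw [mem_cj] at hx
    have hx' : (g : G) * x * (g : G)⁻¹ ∈ E := by
      have e1 : ((g⁻¹ : Γ) : G)⁻¹ * x * ((g⁻¹ : Γ) : G) = (g : G) * x * (g : G)⁻¹ := by
        simp
      rwa [e1] at hx
    have hmem : (⟨_, hE hx'⟩ : Γ) ∈ E.subgroupOf Γ := hx'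
    obtain ⟨y, hy, hye⟩ := hg hmem
    have hye' : (g : G) * (y : G) * (g : G)⁻¹ = (g : G) * x * (g : G)⁻¹ :=
      congrArg Subtype.val hye
    have hyx : (y : G) = x := by
      have := mul_right_cancel hye'
      exact mul_left_cancel this
    exact ⟨y, hy, hyx⟩

private theorem hall_sub {G : Type*} [Group G] [Finite G] [Group.IsSolvable G] (r : ℕ)
    [Fact r.Prime] (L : Subgroup G) :
    ∃ E : Subgroup G, E ≤ L ∧ Nat.card E = Nat.card L / r ^ (Nat.card L).factorization r := by
  have hpos : Nat.card L ≠ 0 := Nat.card_pos.ne'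
  have hr : r.Prime := Fact.out
  have hm : r ^ (Nat.card L).factorization r * (Nat.card L / r ^ (Nat.card L).factorization r)
      = Nat.card L := Nat.ordProj_mul_ordCompl_eq_self _ _
  have hmc : (Nat.card L / r ^ (Nat.card L).factorization r).Coprime r :=
    (Nat.coprime_ordCompl hr hpos).symm
  obtain ⟨E', hE'⟩ := hall_exists _ (Nat.card L / r ^ (Nat.card L).factorization r)
    (r ^ (Nat.card L).factorization r) (G := L) rfl (by
      conv_lhs => rw [← hm]
      ring) (hmc.pow_right _)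
  refine ⟨E'.map L.subtype, map_subtype_le _, ?_⟩
  rw [← hE']
  exact (Nat.card_congr (E'.equivMapOfInjective _ Subtype.coe_injective).toEquiv).symm

private theorem case_A {G : Type*} [Group G] [Finite G] [Group.IsSolvable G]
    (N : Subgroup G) [hN : N.Normal] (p : ℕ) [hp : Fact p.Prime] (hNc : Nat.card N = p)
    (hD : ∀ p : ℕ, p.Prime → ∀ H K : Subgroup G, IsPGroup p H → IsPGroup p K →
      Nat.card H = Nat.card K → ∃ g : G, K = H.map (MulAut.conj g).toMonoidHom)
    (hQ : ∀ H K : Subgroup (G ⧸ N), Nat.card H = Nat.card K →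
      ∃ g : G ⧸ N, K = H.map (MulAut.conj g).toMonoidHom)
    (H K : Subgroup G) (hHK : Nat.card H = Nat.card K) :
    ∃ g : G, K = H.map (MulAut.conj g).toMonoidHom := by
  have hNp : IsPGroup p N := IsPGroup.of_card (n := 1) (by rw [hNc, pow_one])
  have hdiv : ∀ L : Subgroup G, p ∣ Nat.card L → N ≤ L := by
    intro L hL
    obtain ⟨x, hx⟩ := exists_prime_orderOf_dvd_card' p hL
    have hcT : Nat.card (zpowers (x : G)) = p := by
      rw [Nat.card_zpowers, Subgroup.orderOf_coe, hx]
    have hTp : IsPGroup p (zpowers (x : G)) := IsPGroup.of_card (n := 1) (by rw [hcT, pow_one])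
    obtain ⟨g, hg⟩ := hD p hp.out _ N hTp hNp (by rw [hcT, hNc])
    intro y hy
    have h1 : g * y * g⁻¹ ∈ N := hN.conj_mem y hy g
    rw [hg, mem_cj] at h1
    have h2 : g⁻¹ * (g * y * g⁻¹) * g = y := by group
    rw [h2] at h1
    exact (zpowers_le.mpr x.2) h1
  have hcop : ∀ L : Subgroup G, ¬ p ∣ Nat.card L → Nat.card ↥(N ⊔ L) = p * Nat.card L := by
    intro L hL
    have h1 := card_sup_mul_card_inf_of_normal N L hN
    have hdisj : Disjoint N L := Subgroup.disjoint_of_coprime_natCard (by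
      rw [hNc]
      exact (Nat.Prime.coprime_iff_not_dvd hp.out).mpr hL)
    rw [hdisj.eq_bot, Subgroup.card_bot, mul_one, hNc] at h1
    exact h1
  set π := QuotientGroup.mk' N with hπ
  have hcomap : ∀ (L : Subgroup G) (x : G), x ∈ L ⊔ N ↔ π x ∈ L.map π := by
    intro L x
    rw [← Subgroup.mem_comap, Subgroup.comap_map_eq, QuotientGroup.ker_mk']
  have hcardm : ∀ L : Subgroup G, Nat.card N * Nat.card (L.map π) = Nat.card ↥(L ⊔ N) := by
    intro L
    rw [← card_comap_mk (L.map π), Subgroup.comap_map_eq, QuotientGroup.ker_mk']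
  have hsupc : Nat.card ↥(H ⊔ N) = Nat.card ↥(K ⊔ N) := by
    by_cases hpH : p ∣ Nat.card H
    · have hpK : p ∣ Nat.card K := hHK ▸ hpH
      rw [sup_eq_left.mpr (hdiv H hpH), sup_eq_left.mpr (hdiv K hpK), hHK]
    · have hpK : ¬ p ∣ Nat.card K := hHK ▸ hpH
      rw [sup_comm H, sup_comm K, hcop H hpH, hcop K hpK, hHK]
  have hmapc : Nat.card (H.map π) = Nat.card (K.map π) := by
    apply Nat.eq_of_mul_eq_mul_left (Nat.card_pos (α := N))
    rw [hcardm, hcardm, hsupc]
  obtain ⟨gb, hgb⟩ := hQ _ _ hmapc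
  obtain ⟨g, rfl⟩ := QuotientGroup.mk'_surjective N gb
  have hsup : K ⊔ N = (H ⊔ N).map (MulAut.conj g).toMonoidHom := by
    ext x
    rw [hcomap, hgb, mem_cj, mem_cj, hcomap, map_mul, map_mul, map_inv]
  by_cases hpH : p ∣ Nat.card H
  · have hpK : p ∣ Nat.card K := hHK ▸ hpH
    rw [sup_eq_left.mpr (hdiv H hpH), sup_eq_left.mpr (hdiv K hpK)] at hsup
    exact ⟨g, hsup⟩
  · have hpK : ¬ p ∣ Nat.card K := hHK ▸ hpH
    have hsup' : H.map (MulAut.conj g).toMonoidHom ⊔ N = K ⊔ N := by
      rw [hsup, Subgroup.map_sup, cj_normal N g]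
    have hnormtop : ∀ L : Subgroup G, L ≤ normalizer (N : Set G) := by
      intro L
      rw [Subgroup.normalizer_eq_top]
      exact le_top
    obtain ⟨a, -, ha⟩ := schurZassenhaus_conj_rel N (H.map (MulAut.conj g).toMonoidHom) K
      (hnormtop _) (hnormtop _)
      (by
        rw [hNc, card_cj]
        exact (Nat.Prime.coprime_iff_not_dvd hp.out).mpr hpH)
      (by
        rw [hNc]
        exact (Nat.Prime.coprime_iff_not_dvd hp.out).mpr hpK)
      hsup' (Or.inl inferInstance)
    refine ⟨a * g, ?_⟩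
    rw [cj_mul]
    exact ha.symm

private theorem case_B {G : Type*} [Group G] [Finite G] [Group.IsSolvable G] (r : ℕ)
    [hr : Fact r.Prime]
    (hD : ∀ p : ℕ, p.Prime → ∀ H K : Subgroup G, IsPGroup p H → IsPGroup p K →
      Nat.card H = Nat.card K → ∃ g : G, K = H.map (MulAut.conj g).toMonoidHom)
    (hO : pPrimeCore r G = ⊥)
    (hY : ∀ Y : Subgroup G, (Nat.card Y).Coprime r → ∀ A B : Subgroup G, A ≤ Y → B ≤ Y →
      Nat.card A = Nat.card B → ∃ y ∈ Y, B = A.map (MulAut.conj y).toMonoidHom)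
    (H K : Subgroup G) (hHK : Nat.card H = Nat.card K) :
    ∃ g : G, K = H.map (MulAut.conj g).toMonoidHom := by
  set V := pCore r G with hV
  have hF : fittingSubgroup G = V := fittingSubgroup_eq_pCore_of_pPrimeCore_eq_bot r hO
  have hCV : centralizer (V : Set G) ≤ V := by
    rw [← hF]
    exact centralizer_fittingSubgroup_le
  have hVp : IsPGroup r V := pCore_isPGroup r
  haveI hVn : V.Normal := pCore_normal (G := G) r
  obtain ⟨m, hm⟩ := IsPGroup.iff_card.mp hVp
  have hVu : ∀ X : Subgroup G, Nat.card X = Nat.card V → X = V := by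
    intro X hX
    have hXp : IsPGroup r X := IsPGroup.of_card (n := m) (by rw [hX, hm])
    obtain ⟨g, hg⟩ := hD r hr.out V X hVp hXp hX.symm
    rw [hg, cj_normal]
  have hrelt : ∀ x : G, IsPGroup r (zpowers x) → x ∈ V := by
    intro x hx
    obtain ⟨k, hk⟩ := IsPGroup.iff_card.mp hx
    by_cases hle : k ≤ m
    · have hdvd : r ^ m ∣ Nat.card G := by
        rw [← hm]
        exact Subgroup.card_subgroup_dvd_card V
      obtain ⟨X, hX, hxX⟩ := Sylow.exists_subgroup_card_pow_prime_le r hdvd (zpowers x) hk hle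
      have h1 := hVu X (by rw [hX, hm])
      rw [h1] at hxX
      exact hxX (mem_zpowers x)
    · have hdvd : r ^ m ∣ Nat.card (zpowers x) := by
        rw [hk]
        exact pow_dvd_pow _ (by omega)
      obtain ⟨X', hX'⟩ := Sylow.exists_subgroup_card_pow_prime r hdvd
      have hX : Nat.card (X'.map (zpowers x).subtype) = Nat.card V := by
        rw [hm, ← hX']
        exact (Nat.card_congr (X'.equivMapOfInjective _ Subtype.coe_injective).toEquiv).symm
      have hVle : V ≤ zpowers x := by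
        rw [← hVu _ hX]
        exact map_subtype_le _
      apply hCV
      rw [mem_centralizer_iff]
      intro v hv
      obtain ⟨i, rfl⟩ := Subgroup.mem_zpowers_iff.mp (hVle hv)
      exact ((Commute.refl x).zpow_left i)
  have hrsub : ∀ P : Subgroup G, IsPGroup r P → P ≤ V := by
    intro P hP x hx
    exact hrelt x (hP.to_le (zpowers_le.mpr hx))
  have hcardD : ∀ L : Subgroup G,
      Nat.card ↥(L ⊓ V) = r ^ (Nat.card L).factorization r := by
    intro L
    have hS₀ : IsPGroup r ((L ⊓ V).subgroupOf L) := by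
      have h0 : IsPGroup r ↥(L ⊓ V) := hVp.to_le inf_le_right
      have h1 := Cfsg.Agent.Lib.Basic.card_subgroupOf_of_le (A := L ⊓ V) (B := L) inf_le_left
      obtain ⟨k, hk⟩ := IsPGroup.iff_card.mp h0
      exact IsPGroup.of_card (n := k) (by rw [h1, hk])
    obtain ⟨S, hS⟩ := hS₀.exists_le_sylow
    rw [← S.card_eq_multiplicity]
    apply le_antisymm
    · rw [← Cfsg.Agent.Lib.Basic.card_subgroupOf_of_le (A := L ⊓ V) (B := L) inf_le_left]
      exact Subgroup.card_le_of_le hS
    · have h2 : (S : Subgroup L).map L.subtype ≤ L ⊓ V :=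
        le_inf (map_subtype_le _) (hrsub _ (S.isPGroup'.map _))
      have h3 := Subgroup.card_le_of_le h2
      have h4 : Nat.card ((S : Subgroup L).map L.subtype) = Nat.card (S : Subgroup L) :=
        (Nat.card_congr ((S : Subgroup L).equivMapOfInjective _ Subtype.coe_injective).toEquiv).symm
      rwa [h4] at h3
  obtain ⟨g, hg⟩ := hD r hr.out (H ⊓ V) (K ⊓ V) (hVp.to_le inf_le_right) (hVp.to_le inf_le_right)
    (by rw [hcardD, hcardD, hHK])
  set H₁ := H.map (MulAut.conj g).toMonoidHom with hH₁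
  have hVc : ∀ (x : G), g⁻¹ * x * g ∈ V ↔ x ∈ V := by
    intro x
    have := cj_normal V g
    conv_rhs => rw [← this]
    rw [mem_cj]
  have hH₁V : H₁ ⊓ V = K ⊓ V := by
    ext x
    rw [hg, mem_inf, mem_cj, mem_cj, mem_inf, hVc]
  set D := K ⊓ V with hDdef
  have hnorm : ∀ L : Subgroup G, L ⊓ V = D → L ≤ normalizer (D : Set G) := by
    intro L hL x hx
    rw [Subgroup.mem_normalizer_iff'']
    intro h
    rw [← hL, mem_inf, mem_inf]
    constructor
    · rintro ⟨h1, h2⟩
      refine ⟨mul_mem (mul_mem (inv_mem hx) h1) hx, ?_⟩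
      have := hVn.conj_mem h h2 x⁻¹
      rwa [inv_inv] at this
    · rintro ⟨h1, h2⟩
      have e : h = x * (x⁻¹ * h * x) * x⁻¹ := by group
      refine ⟨?_, ?_⟩
      · rw [e]
        exact mul_mem (mul_mem hx h1) (inv_mem hx)
      · rw [e]
        exact hVn.conj_mem _ h2 x
  have hH₁Γ : H₁ ≤ normalizer (D : Set G) := hnorm H₁ hH₁V
  have hKΓ : K ≤ normalizer (D : Set G) := hnorm K rfl
  obtain ⟨Y, hYΓ, hYc, hYd⟩ := hall_in r (normalizer (D : Set G))
  have hcH₁ : Nat.card H₁ = Nat.card K := by rw [hH₁, card_cj, hHK]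
  obtain ⟨E₁, hE₁, hcE₁⟩ := hall_sub r H₁
  obtain ⟨E₂, hE₂, hcE₂⟩ := hall_sub r K
  rw [hcH₁] at hcE₁
  set M := Nat.card K / r ^ (Nat.card K).factorization r with hM
  have hpos : Nat.card K ≠ 0 := Nat.card_pos.ne'
  have hMc : M.Coprime r := (Nat.coprime_ordCompl hr.out hpos).symm
  obtain ⟨a, ha, haY⟩ := hYd E₁ (hE₁.trans hH₁Γ) (by rw [hcE₁]; exact hMc)
  obtain ⟨b, hb, hbY⟩ := hYd E₂ (hE₂.trans hKΓ) (by rw [hcE₂]; exact hMc)
  obtain ⟨y, hy, hyE⟩ := hY Y hYc _ _ haY hbY (by rw [card_cj, card_cj, hcE₁, hcE₂])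
  set x := b⁻¹ * y * a with hx
  have hxΓ : x ∈ normalizer (D : Set G) := mul_mem (mul_mem (inv_mem hb) (hYΓ hy)) ha
  have hcj1 : ∀ L : Subgroup G, L.map (MulAut.conj (1 : G)).toMonoidHom = L := by
    intro L
    ext z
    rw [mem_cj]
    simp
  have hE₂x : E₂ = E₁.map (MulAut.conj x).toMonoidHom := by
    rw [hx, cj_mul E₁ (b⁻¹ * y) a, cj_mul _ b⁻¹ y, ← hyE, ← cj_mul, inv_mul_cancel, hcj1]
  have hDT : D ≤ H₁.map (MulAut.conj x).toMonoidHom := by
    intro d hd
    rw [mem_cj]
    have h1 : x⁻¹ * d * x ∈ D := (Subgroup.mem_normalizer_iff''.mp hxΓ d).mp hd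
    rw [← hH₁V] at h1
    exact (mem_inf.mp h1).1
  have hE₂T : E₂ ≤ H₁.map (MulAut.conj x).toMonoidHom := by
    rw [hE₂x]
    exact Subgroup.map_mono hE₁
  have hKsup : D ⊔ E₂ = K := by
    apply Subgroup.eq_of_le_of_card_ge (sup_le inf_le_left hE₂)
    have h1 : r ^ (Nat.card K).factorization r ∣ Nat.card ↥(D ⊔ E₂) := by
      rw [← hcardD K]
      exact Subgroup.card_dvd_of_le le_sup_left
    have h2 : M ∣ Nat.card ↥(D ⊔ E₂) := by
      rw [← hcE₂]
      exact Subgroup.card_dvd_of_le le_sup_right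
    have h3 : r ^ (Nat.card K).factorization r * M ∣ Nat.card ↥(D ⊔ E₂) :=
      Nat.Coprime.mul_dvd_of_dvd_of_dvd (hMc.pow_right _).symm h1 h2
    rw [hM, Nat.ordProj_mul_ordCompl_eq_self] at h3
    exact Nat.le_of_dvd Nat.card_pos h3
  have hKT : K ≤ H₁.map (MulAut.conj x).toMonoidHom := by
    rw [← hKsup]
    exact sup_le hDT hE₂T
  refine ⟨x * g, ?_⟩
  rw [cj_mul, ← hH₁]
  apply Subgroup.eq_of_le_of_card_ge hKT
  rw [card_cj, hcH₁]

private theorem main_aux : ∀ (n : ℕ) {G : Type u} [Group G] [Finite G] [Group.IsSolvable G],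
    Nat.card G = n →
    ∀ (_ : ∀ p : ℕ, p.Prime → ∀ H K : Subgroup G, IsPGroup p H → IsPGroup p K →
      Nat.card H = Nat.card K → ∃ g : G, K = H.map (MulAut.conj g).toMonoidHom)
    (r : ℕ) [Fact r.Prime]
    (_ : ∀ q : ℕ, q.Prime → q ≠ r → ∀ A : Subgroup G, IsPGroup q A → IsCyclic A)
    (H K : Subgroup G), Nat.card H = Nat.card K →
    ∃ g : G, K = H.map (MulAut.conj g).toMonoidHom := by
  intro n
  induction n using Nat.strong_induction_on with
  | _ n ih =>
  intro G _ _ _ hn hD r hr hc H K hHK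
  by_cases hnt : Nontrivial G
  swap
  · haveI hs : Subsingleton G := not_nontrivial_iff_subsingleton.mp hnt
    exact ⟨1, Subsingleton.elim _ _⟩
  by_cases hO : pPrimeCore r G = ⊥
  · -- Case B
    have hrdvd : r ∣ Nat.card G := by
      by_contra hnd
      have h1 := pCore_eq_bot_of_not_dvd (G := G) (p := r) hnd
      have hF : fittingSubgroup G = pCore r G := fittingSubgroup_eq_pCore_of_pPrimeCore_eq_bot r hO
      have h2 : centralizer (fittingSubgroup G : Set G) ≤ fittingSubgroup G :=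
        centralizer_fittingSubgroup_le
      rw [hF, h1] at h2
      have h3 : (⊤ : Subgroup G) ≤ ⊥ := by
        intro x _
        apply h2
        rw [mem_centralizer_iff]
        intro y hy
        have : y = 1 := hy
        rw [this, one_mul, mul_one]
      have h4 : (⊥ : Subgroup G) = ⊤ := le_antisymm bot_le h3
      exact bot_ne_top h4
    refine case_B r hD hO ?_ H K hHK
    intro Y hYc A B hA hB hAB
    have hlt : Nat.card Y < Nat.card G := by
      apply lt_of_le_of_ne (Subgroup.card_le_card_group Y)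
      intro heq
      rw [heq] at hYc
      have := Nat.Coprime.eq_one_of_dvd hYc.symm hrdvd
      exact (Fact.out : r.Prime).one_lt.ne' this
    have hcY := hc_sub Y r hc
    have hDY : ∀ p : ℕ, p.Prime → ∀ H K : Subgroup Y, IsPGroup p H → IsPGroup p K →
        Nat.card H = Nat.card K → ∃ g : Y, K = H.map (MulAut.conj g).toMonoidHom := by
      intro q hq A' B' hA' hB' hAB'
      haveI : Fact q.Prime := ⟨hq⟩
      by_cases hqr : q = r
      · subst hqr
        have hbot : ∀ C : Subgroup Y, IsPGroup q C → C = ⊥ := by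
          intro C hC
          obtain ⟨k, hk⟩ := IsPGroup.iff_card.mp hC
          apply Subgroup.eq_bot_of_card_eq
          have h1 : Nat.card C ∣ Nat.card Y := Subgroup.card_subgroup_dvd_card C
          have h2 : (Nat.card C).Coprime q := Nat.Coprime.coprime_dvd_left h1 hYc
          rw [hk] at h2 ⊢
          rcases Nat.eq_zero_or_pos k with rfl | hk0
          · simp
          · have h3 := Nat.Coprime.eq_one_of_dvd h2.symm (dvd_pow_self q hk0.ne')
            exact absurd h3 hq.one_lt.ne'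
        refine ⟨1, ?_⟩
        rw [hbot B' hB', hbot A' hA', Subgroup.map_bot]
      · exact conj_of_cyc q (hcY q hq hqr) A' B' hA' hB' hAB'
    obtain ⟨y, hy⟩ := ih _ (hn ▸ hlt) (G := Y) rfl hDY r hcY (A.subgroupOf Y) (B.subgroupOf Y)
      (by rw [Cfsg.Agent.Lib.Basic.card_subgroupOf_of_le hA,
          Cfsg.Agent.Lib.Basic.card_subgroupOf_of_le hB, hAB])
    refine ⟨y, y.2, ?_⟩
    ext x
    rw [mem_cj]
    constructor
    · intro hx
      have h1 : (⟨x, hB hx⟩ : Y) ∈ B.subgroupOf Y := hx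
      rw [hy, mem_cj] at h1
      exact h1
    · intro hx
      have hxY : x ∈ Y := by
        have h1 := hA hx
        have e : x = (y : G) * ((y : G)⁻¹ * x * y) * (y : G)⁻¹ := by group
        rw [e]
        exact mul_mem (mul_mem y.2 h1) (inv_mem y.2)
      have h1 : (⟨x, hxY⟩ : Y) ∈ B.subgroupOf Y := by
        rw [hy, mem_cj]
        exact hx
      exact h1
  · -- Case A
    obtain ⟨M, hM, hMO⟩ := exists_isMinNormal_le (pPrimeCore_normal (G := G) r) hO
    obtain ⟨hMc, p, hp, hMp⟩ := hM.isPGroup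
    haveI hfp : Fact p.Prime := ⟨hp⟩
    haveI hMn : M.Normal := hM.1
    have hpr : p ≠ r := by
      rintro rfl
      obtain ⟨k, hk⟩ := IsPGroup.iff_card.mp hMp
      have h1 : Nat.card M ∣ Nat.card (pPrimeCore p G) := Subgroup.card_dvd_of_le hMO
      have h2 : (Nat.card M).Coprime p := Nat.Coprime.coprime_dvd_left h1 (pPrimeCore_coprime p)
      apply hM.2.1
      apply Subgroup.eq_bot_of_card_eq
      rw [hk] at h2 ⊢
      rcases Nat.eq_zero_or_pos k with rfl | hk0
      · simp
      · have h3 := Nat.Coprime.eq_one_of_dvd h2.symm (dvd_pow_self p hk0.ne')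
        exact absurd h3 hp.one_lt.ne'
    have hMcyc := hc p hp hpr M hMp
    have hdvd : p ∣ Nat.card M := by
      obtain ⟨k, hk⟩ := IsPGroup.iff_card.mp hMp
      rcases Nat.eq_zero_or_pos k with rfl | hk0
      · exfalso
        apply hM.2.1
        apply Subgroup.eq_bot_of_card_eq
        simpa using hk
      · rw [hk]
        exact dvd_pow_self p hk0.ne'
    obtain ⟨x, hx⟩ := exists_prime_orderOf_dvd_card' p hdvd
    have hcT : Nat.card (zpowers (x : G)) = p := by
      rw [Nat.card_zpowers, Subgroup.orderOf_coe, hx]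
    have hTM : zpowers (x : G) ≤ M := zpowers_le.mpr x.2
    have hTn : (zpowers (x : G)).Normal := by
      refine ⟨fun n hn g => ?_⟩
      have h1 : (zpowers (x : G)).map (MulAut.conj g).toMonoidHom = zpowers (x : G) := by
        apply eq_of_card_eq_of_le_isCyclic hMcyc _ hTM (card_cj _ _)
        have h2 := Subgroup.map_mono (f := (MulAut.conj g).toMonoidHom) hTM
        rwa [cj_normal M g] at h2
      rw [← h1]
      exact ⟨n, hn, rfl⟩
    have hTM' : zpowers (x : G) = M := by
      rcases hM.2.2 _ hTn hTM with h | h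
      · exfalso
        rw [h, Subgroup.card_bot] at hcT
        exact hp.one_lt.ne hcT
      · exact h
    have hMcard : Nat.card M = p := by rw [← hTM', hcT]
    refine case_A M p hMcard hD ?_ H K hHK
    intro A B hAB
    have hlt : Nat.card (G ⧸ M) < n := by
      rw [← hn]
      have h1 := Subgroup.card_eq_card_quotient_mul_card_subgroup M
      rw [h1, hMcard]
      exact lt_mul_of_one_lt_right Nat.card_pos hp.one_lt
    exact ih _ hlt rfl (hD_quot M hD) r (hc_quot M r hc) A B hAB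

end aux


/-- Let G be a finite solvable group in which, for every prime p, any two p-subgroups of the same order are conjugate, and suppose the Sylow p-subgroups of G are cyclic for all primes p with at most one exception. Then any two subgroups of G of the same order are conjugate. -/
theorem result {G : Type*} [Group G] [Finite G]
    [Group.IsSolvable G] (hD : ∀ p : ℕ, p.Prime → ∀ H K : Subgroup G, IsPGroup p H → IsPGroup p K → Nat.card H = Nat.card K →
      ∃ g : G, K = H.map (MulAut.conj g).toMonoidHom)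
    (r : ℕ) (hcyc : ∀ p : ℕ, p.Prime → p ≠ r → ∀ P : Sylow p G, IsCyclic P) :
    ∀ H K : Subgroup G, Nat.card H = Nat.card K → ∃ g : G, K = H.map (MulAut.conj g).toMonoidHom := by
  have hcy : ∀ q : ℕ, q.Prime → q ≠ r → ∀ A : Subgroup G, IsPGroup q A → IsCyclic A := by
    intro q hq hqr A hA
    haveI : Fact q.Prime := ⟨hq⟩
    obtain ⟨P, hP⟩ := hA.exists_le_sylow
    haveI := hcyc q hq hqr P
    exact isCyclic_of_injective (Subgroup.inclusion hP) (Subgroup.inclusion_injective hP)
  by_cases hr : r.Prime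
  · haveI : Fact r.Prime := ⟨hr⟩
    exact main_aux _ rfl hD r hcy
  · haveI : Fact (2 : ℕ).Prime := ⟨Nat.prime_two⟩
    refine main_aux _ rfl hD 2 ?_
    intro q hq _ A hA
    exact hcy q hq (by rintro rfl; exact hr hq) A hA

end Cfsg.Agent.S4022
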