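import Cfsg.Statements.S4023
import Cfsg.Agent.Lib.PGroups.ExpP
import Cfsg.Agent.Lib.OddLocal.UniqueP2

set_option autoImplicit false
open Cfsg

namespace Cfsg.Agent.S4023

open Subgroup Cfsg.Agent.Lib.PGroups Cfsg.Agent.Lib.OddLocal

private def chi (m : ℕ) (hm : Even m) : QuaternionGroup m →* Multiplicative (ZMod 2) :=
  let c : ZMod (2 * m) →+* ZMod 2 := ZMod.castHom (Dvd.intro m rfl) (ZMod 2)
  have hc : c (m : ZMod (2 * m)) = 0 := by
    rw [map_natCast]
    exact (ZMod.natCast_eq_zero_iff m 2).mpr hm.two_dvd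
  { toFun := fun g => match g with
      | QuaternionGroup.a i => Multiplicative.ofAdd (c i)
      | QuaternionGroup.xa i => Multiplicative.ofAdd (c i)
    map_one' := by
      show Multiplicative.ofAdd (c 0) = 1
      simp
    map_mul' := by
      rintro (i | i) (j | j)
      · show Multiplicative.ofAdd (c (i + j)) = _
        rw [map_add]; rfl
      · show Multiplicative.ofAdd (c (j - i)) = _
        rw [map_sub, CharTwo.sub_eq_add, add_comm]; rfl
      · show Multiplicative.ofAdd (c (i + j)) = _
        rw [map_add]; rfl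
      · show Multiplicative.ofAdd (c ((m : ZMod (2 * m)) + j - i)) = _
        rw [map_sub, map_add, hc, zero_add, CharTwo.sub_eq_add, add_comm]; rfl }

private theorem quaternion_aux (n : ℕ) (hn : 2 ≤ n) :
    ∃ M N : Subgroup (QuaternionGroup (2 ^ n)), Nat.card M = Nat.card N ∧
      (∀ a ∈ M, ∀ b ∈ M, a * b = b * a) ∧ ∃ a ∈ N, ∃ b ∈ N, a * b ≠ b * a := by
  have hm : Even (2 ^ n) := (Nat.even_pow' (by omega)).mpr (by norm_num)
  haveI : NeZero (2 ^ n) := ⟨by positivity⟩
  let χ := chi (2 ^ n) hm
  refine ⟨zpowers (QuaternionGroup.a 1), χ.ker, ?_, ?_, ?_⟩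
  · have h1 : Nat.card (QuaternionGroup (2 ^ n)) = 4 * 2 ^ n := by
      rw [Nat.card_eq_fintype_card, QuaternionGroup.card]
    have h2 := Subgroup.card_mul_index χ.ker
    have h3 : χ.ker.index = 2 := by
      rw [Subgroup.index_ker]
      have hs : χ.range = ⊤ := by
        rw [MonoidHom.range_eq_top]
        intro y
        have hy : Multiplicative.toAdd y = 0 ∨ Multiplicative.toAdd y = 1 := by
          generalize Multiplicative.toAdd y = w
          revert w
          decide
        rcases hy with hy | hy
        · refine ⟨QuaternionGroup.a 0, ?_⟩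
          show Multiplicative.ofAdd _ = y
          apply Multiplicative.toAdd.injective
          simpa using hy.symm
        · refine ⟨QuaternionGroup.a 1, ?_⟩
          show Multiplicative.ofAdd _ = y
          apply Multiplicative.toAdd.injective
          simpa using hy.symm
      rw [hs, Subgroup.card_top]
      simp
    rw [Nat.card_zpowers, QuaternionGroup.orderOf_a_one]
    rw [h1, h3] at h2
    omega
  · intro a ha b hb
    obtain ⟨i, rfl⟩ := mem_zpowers_iff.mp ha
    obtain ⟨j, rfl⟩ := mem_zpowers_iff.mp hb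
    exact (Commute.refl _).zpow_zpow _ _
  · refine ⟨QuaternionGroup.a 2, ?_, QuaternionGroup.xa 0, ?_, ?_⟩
    · rw [MonoidHom.mem_ker]
      show Multiplicative.ofAdd _ = 1
      have : (ZMod.castHom (Dvd.intro (2 ^ n) rfl) (ZMod 2)) (2 : ZMod (2 * 2 ^ n)) = 0 := by
        rw [map_ofNat]
        rfl
      rw [this]
      rfl
    · rw [MonoidHom.mem_ker]
      show Multiplicative.ofAdd _ = 1
      simp
    · rw [QuaternionGroup.a_mul_xa, QuaternionGroup.xa_mul_a]
      intro h
      have h1 : (0 : ZMod (2 * 2 ^ n)) - 2 = 0 + 2 := QuaternionGroup.xa.inj h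
      have h2 : ((4 : ℕ) : ZMod (2 * 2 ^ n)) = 0 := by
        push_cast
        linear_combination -h1
      rw [ZMod.natCast_eq_zero_iff] at h2
      have h3 := Nat.le_of_dvd (by norm_num) h2
      have h4 : 2 ^ 2 ≤ 2 ^ n := Nat.pow_le_pow_right (by norm_num) hn
      omega

private theorem aux {G : Type*} [Group G] [Finite G]
    {p : ℕ} [Fact p.Prime] (hC : ∀ H K : Subgroup G, IsPGroup p H → IsPGroup p K → Nat.card H = Nat.card K →
      ∃ g : G, K = H.map (MulAut.conj g).toMonoidHom) (P : Subgroup G) (hP : IsPGroup p P) :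
    IsCyclic P ∨ Cfsg.IsElementaryAbelian p P ∨
      (p = 2 ∧ Nonempty (P ≃* QuaternionGroup 2)) ∨
      (p ≠ 2 ∧ ¬ IsMulCommutative P ∧ Nat.card P = p ^ 3 ∧ Monoid.exponent P = p) := by
  classical
  have hp1 := (Fact.out : p.Prime).one_lt
  have hpos := (Fact.out : p.Prime).pos
  -- transfer of the hypothesis to subgroups of `P`
  have hCj : ∀ M N : Subgroup P, Nat.card M = Nat.card N →
      ∃ g : G, ∀ u ∈ M, ∃ v ∈ N, (v : G) = g * u * g⁻¹ := by
    intro M N hMN
    have hinj := P.subtype_injective
    have cM : Nat.card (M.map P.subtype) = Nat.card M :=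
      (Nat.card_congr (M.equivMapOfInjective _ hinj).toEquiv).symm
    have cN : Nat.card (N.map P.subtype) = Nat.card N :=
      (Nat.card_congr (N.equivMapOfInjective _ hinj).toEquiv).symm
    obtain ⟨g, hg⟩ := hC (M.map P.subtype) (N.map P.subtype)
      (hP.to_le (map_subtype_le M)) (hP.to_le (map_subtype_le N)) (by rw [cM, cN, hMN])
    refine ⟨g, fun u hu => ?_⟩
    have h1 : g * (u : G) * g⁻¹ ∈ N.map P.subtype := by
      rw [hg]
      exact ⟨u, ⟨u, hu, rfl⟩, rfl⟩
    obtain ⟨v, hv, hv2⟩ := h1
    exact ⟨v, hv, hv2⟩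
  have hCsurj : ∀ M N : Subgroup P, Nat.card M = Nat.card N →
      ∃ g : G, ∀ v ∈ N, ∃ u ∈ M, (v : G) = g * u * g⁻¹ := by
    intro M N hMN
    obtain ⟨g, hg⟩ := hCj N M hMN.symm
    refine ⟨g⁻¹, fun v hv => ?_⟩
    obtain ⟨u, hu, huv⟩ := hg v hv
    refine ⟨u, hu, ?_⟩
    rw [huv]
    group
  have hComm : ∀ M N : Subgroup P, Nat.card M = Nat.card N → (∀ a ∈ M, ∀ b ∈ M, a * b = b * a) →
      ∀ a ∈ N, ∀ b ∈ N, a * b = b * a := by
    intro M N hMN hM a ha b hb
    obtain ⟨g, hg⟩ := hCsurj M N hMN
    obtain ⟨u, hu, hua⟩ := hg a ha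
    obtain ⟨v, hv, hvb⟩ := hg b hb
    apply Subtype.ext
    have h1 : (u * v : P) = v * u := hM u hu v hv
    have h2 : ((u : G) * (v : G)) = (v : G) * (u : G) := congrArg Subtype.val h1
    show (a : G) * (b : G) = (b : G) * (a : G)
    rw [hua, hvb]
    calc g * (u : G) * g⁻¹ * (g * (v : G) * g⁻¹) = g * ((u : G) * (v : G)) * g⁻¹ := by group
      _ = g * ((v : G) * (u : G)) * g⁻¹ := by rw [h2]
      _ = _ := by group
  by_cases hexp : ∀ a : P, a ^ p = 1
  · -- exponent p
    by_cases hcomm : ∀ a b : P, a * b = b * a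
    · right; left
      refine ⟨⟨⟨fun a b => hcomm a b⟩⟩, fun a ha => ?_⟩
      have := hexp ⟨a, ha⟩
      exact congrArg Subtype.val this
    · right; right; right
      push Not at hcomm
      obtain ⟨a, b, hab⟩ := hcomm
      have hp2 : p ≠ 2 := by
        rintro rfl
        apply hab
        have hinv : ∀ x : P, x⁻¹ = x := fun x => inv_eq_of_mul_eq_one_left (by rw [← pow_two]; exact hexp x)
        calc a * b = (a * b)⁻¹ := (hinv _).symm
          _ = b⁻¹ * a⁻¹ := mul_inv_rev _ _
          _ = b * a := by rw [hinv, hinv]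
      obtain ⟨k, hk⟩ := IsPGroup.iff_card.mp hP
      obtain ⟨M, hM, x, hx, y, hy, hxy⟩ := exists_nonabelian_cube hP hexp ⟨a, b, hab⟩
      have hk3 : 3 ≤ k := by
        by_contra h
        have h1 : k ≤ 2 := by omega
        exact hab (comm_of_card_pow_le (⊤ : Subgroup P) (by rw [Subgroup.card_top]; exact hk) h1 (mem_top a) (mem_top b))
      have hk4 : k = 3 := by
        by_contra h
        have h1 : 4 ≤ k := by omega
        have h2 : p ^ 4 ≤ Nat.card P := by
          rw [hk]
          exact Nat.pow_le_pow_right hpos h1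
        obtain ⟨N, hN, hNc⟩ := exists_abelian_cube hP hexp h2
        exact hxy (hComm N M (by rw [hN, hM]) hNc x hx y hy)
      refine ⟨hp2, ?_, by rw [hk, hk4], ?_⟩
      · intro hc
        exact hab (hc.is_comm.comm a b)
      · haveI : Nontrivial P := by
          rw [← Finite.one_lt_card_iff_nontrivial, hk, hk4]
          exact Nat.one_lt_pow (by norm_num) hp1
        rw [Monoid.exponent_eq_prime_iff Fact.out]
        intro g hg
        exact orderOf_eq_prime (hexp g) hg
  · -- an element of order at least p²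
    push Not at hexp
    obtain ⟨x, hx⟩ := hexp
    obtain ⟨k, hk⟩ := IsPGroup.iff_orderOf.mp hP x
    have hk2 : 2 ≤ k := by
      by_contra h
      apply hx
      have h1 : orderOf x ∣ p := by
        rw [hk]
        have h2 : k ≤ 1 := by omega
        calc p ^ k ∣ p ^ 1 := pow_dvd_pow _ h2
          _ = p := pow_one p
      exact orderOf_dvd_iff_pow_eq_one.mp h1
    set x2 : P := x ^ (p ^ (k - 2)) with hx2
    have hx2o : orderOf x2 = p ^ 2 := by
      rw [hx2, orderOf_pow_of_dvd (by positivity) (by rw [hk]; exact pow_dvd_pow _ (by omega)), hk,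
        Nat.pow_div (by omega) hpos]
      congr 1
      omega
    haveI : Nontrivial P := by
      refine ⟨⟨x, 1, ?_⟩⟩
      rintro rfl
      exact hx (one_pow _)
    have hcn := hP.center_nontrivial
    have hdvd : p ∣ Nat.card (center P) := by
      obtain ⟨j, hj⟩ := IsPGroup.iff_card.mp (hP.to_subgroup (center P))
      have hj0 : j ≠ 0 := by
        rintro rfl
        have : Nat.card (center P) = 1 := by simpa using hj
        have h2 := Finite.one_lt_card_iff_nontrivial.mpr hcn
        omega
      rw [hj]
      exact dvd_pow_self p hj0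
    obtain ⟨z', hz'⟩ := exists_prime_orderOf_dvd_card' p hdvd
    set z : P := z'.1 with hz
    have hzo : orderOf z = p := by
      rw [hz, Subgroup.orderOf_coe]
      exact hz'
    have hzc : ∀ y : P, z * y = y * z := fun y => (mem_center_iff.mp z'.2 y).symm
    have hzp : z ^ p = 1 := orderOf_dvd_iff_pow_eq_one.mp hzo.dvd
    have hall : ∀ a : P, a ^ p = 1 → a ∈ zpowers z := by
      intro a ha
      by_contra hnot
      let K : Subgroup P := zpowers z ⊔ zpowers a
      have hn : zpowers a ≤ normalizer (zpowers z : Set P) := by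
        apply le_normalizer_of_comm
        intro u hu v _
        obtain ⟨i, rfl⟩ := mem_zpowers_iff.mp hu
        exact (Commute.zpow_left (show Commute z v from hzc v) i).eq
      have hK1 : Nat.card K ≤ p ^ 2 := by
        refine (card_sup_le_of_le_normalizer hn).trans ?_
        rw [pow_two]
        exact Nat.mul_le_mul (card_zpowers_le_of_pow hpos hzp) (card_zpowers_le_of_pow hpos ha)
      have hK2 : zpowers z < K := by
        refine lt_of_le_of_ne le_sup_left ?_
        intro h
        exact hnot (h ▸ (mem_sup_right (mem_zpowers a) : a ∈ K))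
      obtain ⟨j, hj⟩ := IsPGroup.iff_card.mp (hP.to_subgroup K)
      have hj2 : j = 2 := by
        have h1 := card_lt_of_lt' hK2
        rw [Nat.card_zpowers, hzo, hj] at h1
        have h2 : p ^ 1 < p ^ j := by simpa using h1
        have h3 := (Nat.pow_lt_pow_iff_right hp1).mp h2
        rw [hj] at hK1
        have h4 := (Nat.pow_le_pow_iff_right hp1).mp hK1
        omega
      have hKexp : ∀ u ∈ K, u ^ p = 1 := by
        intro u hu
        obtain ⟨b, hb, c, hc, rfl⟩ := mem_sup_of_le_normalizer hn hu
        obtain ⟨i, rfl⟩ := mem_zpowers_iff.mp hb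
        obtain ⟨i', rfl⟩ := mem_zpowers_iff.mp hc
        have hcomm : Commute (z ^ i) (a ^ i') :=
          Commute.zpow_zpow (show Commute z a from hzc a) i i'
        rw [hcomm.mul_pow, ← zpow_natCast, ← zpow_natCast, ← zpow_mul, ← zpow_mul, mul_comm i, mul_comm i',
          zpow_mul, zpow_mul, zpow_natCast, zpow_natCast, hzp, ha, one_zpow, one_zpow, one_mul]
      obtain ⟨g, hg⟩ := hCj (zpowers x2) K (by rw [Nat.card_zpowers, hx2o, hj, hj2])
      obtain ⟨v, hv, hvv⟩ := hg x2 (mem_zpowers x2)
      have h1 : orderOf v = p ^ 2 := by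
        have h2 : orderOf (v : G) = orderOf (x2 : G) := by
          rw [hvv]
          have := orderOf_injective (MulAut.conj g).toMonoidHom (MulAut.conj g).injective (x2 : G)
          simpa [MulAut.conj_apply] using this
        rw [Subgroup.orderOf_coe, Subgroup.orderOf_coe, hx2o] at h2
        exact h2
      have h3 := orderOf_dvd_of_pow_eq_one (hKexp v hv)
      rw [h1] at h3
      have h4 : p ^ 2 ∣ p ^ 1 := by simpa using h3
      have h5 := (Nat.pow_dvd_pow_iff_le_right hp1).mp h4
      omega
    have huniq : UniqueP p P := by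
      have aux : ∀ H : Subgroup P, Nat.card H = p → H = zpowers z := by
        intro H hH
        refine Subgroup.eq_of_le_of_card_ge ?_ ?_
        · intro a ha
          apply hall
          have h1 := pow_card_eq_one' (G := H) (x := ⟨a, ha⟩)
          rw [hH] at h1
          exact congrArg Subtype.val h1
        · rw [Nat.card_zpowers, hzo, hH]
      intro H K hH hK
      rw [aux H hH, aux K hK]
    by_cases hp2 : p = 2
    · subst hp2
      rcases cyclic_or_quaternion hP huniq with h | ⟨n, ⟨φ⟩⟩
      · left
        exact h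
      · rcases n with _ | _ | n
        · left
          haveI := QuaternionGroup.quaternionGroup_one_isCyclic
          exact isCyclic_of_surjective φ.symm φ.symm.surjective
        · right; right; left
          exact ⟨rfl, ⟨φ⟩⟩
        · exfalso
          obtain ⟨M, N, hMN, hM, a, ha, b, hb, hab⟩ := quaternion_aux (n + 1 + 1) (by omega)
          have hinj : Function.Injective φ.symm.toMonoidHom := φ.symm.injective
          have cM : Nat.card (M.map φ.symm.toMonoidHom) = Nat.card M :=
            (Nat.card_congr (M.equivMapOfInjective _ hinj).toEquiv).symm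
          have cN : Nat.card (N.map φ.symm.toMonoidHom) = Nat.card N :=
            (Nat.card_congr (N.equivMapOfInjective _ hinj).toEquiv).symm
          have h1 := hComm (M.map φ.symm.toMonoidHom) (N.map φ.symm.toMonoidHom) (by rw [cM, cN, hMN]) (by
            rintro _ ⟨u, hu, rfl⟩ _ ⟨v, hv, rfl⟩
            rw [← map_mul, ← map_mul, hM u hu v hv])
            (φ.symm a) ⟨a, ha, rfl⟩ (φ.symm b) ⟨b, hb, rfl⟩
          apply hab
          have h2 := congrArg φ h1
          simpa using h2
    · left
      exact isCyclic_of_uniqueP_odd hp2 _ P rfl hP huniq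


/-- Let p be a prime and G a finite group in which any two p-subgroups of the same order are conjugate, with Sylow p-subgroup P. Then P is cyclic, or elementary abelian, or p = 2 and P is a quaternion group of order 8, or p is odd and P is non-abelian of order p³ and exponent p. -/
theorem result {G : Type*} [Group G] [Finite G]
    {p : ℕ} [Fact p.Prime] (hC : ∀ H K : Subgroup G, IsPGroup p H → IsPGroup p K → Nat.card H = Nat.card K →
      ∃ g : G, K = H.map (MulAut.conj g).toMonoidHom) (P : Sylow p G) :
    IsCyclic P ∨ Cfsg.IsElementaryAbelian p (P : Subgroup G) ∨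
      (p = 2 ∧ Nonempty ((P : Subgroup G) ≃* QuaternionGroup 2)) ∨
      (p ≠ 2 ∧ ¬ IsMulCommutative P ∧ Nat.card P = p ^ 3 ∧ Monoid.exponent P = p) := by
  exact aux hC (P : Subgroup G) P.isPGroup'

end Cfsg.Agent.S4023
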