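import Cfsg.Statements.S4024
import Cfsg.Agent.S4023
import Cfsg.Agent.Lib.PLocal.PSeries
import Cfsg.Agent.Lib.Coprime.PLen
import Cfsg.Agent.Lib.OddLocal.PLength

set_option autoImplicit false
open Cfsg

namespace Cfsg.Agent.S4024

open Subgroup Cfsg Cfsg.Agent.Lib.OddLocal

/-- The bottom of the upper `p`-series of a `p`-soluble group of order divisible by `p`. -/
private theorem section_aux {H : Type*} [Group H] [Finite H] {p : ℕ} [hp : Fact p.Prime]
    (hsolv : IsPSolvable p H) (hdiv : p ∣ Nat.card H) :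
    (∃ t : ℕ, (upperPSeries p H 1).1.relIndex (upperPSeries p H 2).1 = p ^ t) ∧
      (upperPSeries p H 1).1 ≤ (upperPSeries p H 2).1 ∧
      (Nat.card (upperPSeries p H 1).1).Coprime p ∧ p ∣ Nat.card (upperPSeries p H 2).1 := by
  have hT1 : (upperPSeries p H 1).1 = pPrimeCore p H := upperPSeries_one p
  have hcop : (Nat.card (upperPSeries p H 1).1).Coprime p := by
    rw [hT1]
    exact Cfsg.Agent.Lib.Basic.pPrimeCore_coprime p
  have hle : (upperPSeries p H 1).1 ≤ (upperPSeries p H 2).1 := Cfsg.Agent.Lib.PLocal.upper_le_succ 1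
  have hT2 : (upperPSeries p H 2).1 = (pCore p (H ⧸ (upperPSeries p H 1).1)).comap (QuotientGroup.mk' _) :=
    Cfsg.Agent.Lib.PLocal.upper_succ_odd p H 0
  have hrel : (upperPSeries p H 1).1.relIndex (upperPSeries p H 2).1 =
      Nat.card (pCore p (H ⧸ (upperPSeries p H 1).1)) := by
    rw [← Cfsg.Agent.Lib.PLocal.card_map_mk'_eq_relIndex]
    conv_lhs => rw [hT2]
    rw [Subgroup.map_comap_eq_self_of_surjective (QuotientGroup.mk'_surjective _)]
  obtain ⟨t, ht⟩ := IsPGroup.iff_card.mp (Cfsg.Agent.Lib.Basic.pCore_isPGroup (G := H ⧸ (upperPSeries p H 1).1) p)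
  refine ⟨⟨t, by rw [hrel, ht]⟩, hle, hcop, ?_⟩
  -- T₁ is a proper subgroup
  have hne : (upperPSeries p H 1).1 ≠ ⊤ := by
    intro h
    rw [h, Subgroup.card_top] at hcop
    exact (Nat.Prime.coprime_iff_not_dvd hp.out).mp hcop.symm hdiv
  have hnt : Nontrivial (H ⧸ (upperPSeries p H 1).1) := QuotientGroup.nontrivial_iff.mpr hne
  have hsq := Cfsg.Agent.Lib.Coprime.isPSolvable_map (QuotientGroup.mk' (upperPSeries p H 1).1)
    (QuotientGroup.mk'_surjective _) hsolv
  obtain ⟨N, hNn, hNb, hN⟩ := Cfsg.Agent.Lib.Coprime.IsPSolvable_exists_normal hsq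
  have ht0 : t ≠ 0 := by
    rintro rfl
    have h1 : pCore p (H ⧸ (upperPSeries p H 1).1) = ⊥ := by
      rw [← Subgroup.card_eq_one]
      simpa using ht
    rcases hN with hN | hN
    · exact hNb (le_bot_iff.mp (h1 ▸ Cfsg.Agent.Lib.Components.le_pCore hNn hN))
    · have h2 := Cfsg.Agent.Lib.PLocal.pPrimeCore_upper_eq_bot (G := H) (p := p) 0
      exact hNb (le_bot_iff.mp (h2 ▸ Cfsg.Agent.Lib.Components.le_pPrimeCore hNn hN))
  have h3 := Cfsg.Agent.Lib.Coprime.card_mul_relIndex hle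
  rw [hrel, ht] at h3
  rw [← h3]
  exact Dvd.dvd.mul_left (dvd_pow_self p ht0) _


/-- Let p be an odd prime and G a finite group in which any two p-subgroups of the same order are conjugate, with Sylow p-subgroup P. If H is a normal p-solvable subgroup of G whose order is divisible by p, then P is abelian, and either P ≤ H or P is cyclic. -/
theorem result {G : Type*} [Group G] [Finite G]
    {p : ℕ} [Fact p.Prime] (hp : p ≠ 2) (hC : ∀ H K : Subgroup G, IsPGroup p H → IsPGroup p K → Nat.card H = Nat.card K →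
      ∃ g : G, K = H.map (MulAut.conj g).toMonoidHom) (P : Sylow p G)
    (H : Subgroup G) [H.Normal] (hsolv : Cfsg.IsPSolvable p H) (hdiv : p ∣ Nat.card H) :
    IsMulCommutative P ∧ ((P : Subgroup G) ≤ H ∨ IsCyclic P) := by
  classical
  have hpp : p.Prime := Fact.out
  by_cases hcyc : IsCyclic P
  · refine ⟨?_, Or.inr hcyc⟩
    letI := IsCyclic.commGroup (α := P)
    exact ⟨⟨mul_comm⟩⟩
  have hexp : ∀ a ∈ (P : Subgroup G), a ^ p = 1 := by
    rcases Cfsg.Agent.S4023.result hC P with h | h | h | h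
    · exact absurd h hcyc
    · exact h.2
    · exact absurd h.1 hp
    · intro a ha
      have h1 := Monoid.pow_exponent_eq_one (⟨a, ha⟩ : (P : Subgroup G))
      rw [h.2.2.2] at h1
      exact congrArg Subtype.val h1
  -- the section in `H`
  haveI : Finite H := inferInstance
  obtain ⟨⟨t, ht⟩, hle, hcop, hdvd⟩ := section_aux hsolv hdiv
  haveI hchar1 : (upperPSeries p H 1).1.Characteristic := Cfsg.Agent.Lib.Coprime.PLen.series_characteristic 1
  haveI hchar2 : (upperPSeries p H 2).1.Characteristic := Cfsg.Agent.Lib.Coprime.PLen.series_characteristic 2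
  let K : Subgroup G := (upperPSeries p H 1).1.map H.subtype
  let L : Subgroup G := (upperPSeries p H 2).1.map H.subtype
  haveI hKn : K.Normal := Cfsg.Agent.Lib.Coprime.PLen.normal_map_of_characteristic _
  haveI hLn : L.Normal := Cfsg.Agent.Lib.Coprime.PLen.normal_map_of_characteristic _
  have hKL : K ≤ L := Subgroup.map_mono hle
  have hLH : L ≤ H := map_subtype_le _
  have cK : Nat.card K = Nat.card (upperPSeries p H 1).1 :=
    (Nat.card_congr (((upperPSeries p H 1).1).equivMapOfInjective _ H.subtype_injective).toEquiv).symm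
  have cL : Nat.card L = Nat.card (upperPSeries p H 2).1 :=
    (Nat.card_congr (((upperPSeries p H 2).1).equivMapOfInjective _ H.subtype_injective).toEquiv).symm
  have hKcop : (Nat.card K).Coprime p := by rw [cK]; exact hcop
  have hLdvd : p ∣ Nat.card L := by rw [cL]; exact hdvd
  have hKLrel : Nat.card L = Nat.card K * p ^ t := by
    rw [cL, cK, ← ht]
    exact (Cfsg.Agent.Lib.Coprime.card_mul_relIndex hle).symm
  -- every element of order dividing `p` lies in `L`
  obtain ⟨y, hy⟩ := exists_prime_orderOf_dvd_card' p hLdvd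
  have hyo : orderOf (y : G) = p := by rw [Subgroup.orderOf_coe]; exact hy
  have hallL : ∀ x : G, x ^ p = 1 → x ∈ L := by
    intro x hx
    by_cases hx1 : x = 1
    · rw [hx1]; exact one_mem _
    have hxo : orderOf x = p := orderOf_eq_prime hx hx1
    obtain ⟨g, hg⟩ := hC (zpowers (y : G)) (zpowers x)
      (IsPGroup.of_card (n := 1) (by rw [Nat.card_zpowers, hyo, pow_one]))
      (IsPGroup.of_card (n := 1) (by rw [Nat.card_zpowers, hxo, pow_one]))
      (by rw [Nat.card_zpowers, Nat.card_zpowers, hyo, hxo])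
    have h1 : x ∈ zpowers x := mem_zpowers x
    rw [hg] at h1
    obtain ⟨u, hu, rfl⟩ := h1
    obtain ⟨i, rfl⟩ := mem_zpowers_iff.mp hu
    have h2 : (y : G) ^ i ∈ L := L.zpow_mem y.2 i
    exact hLn.conj_mem _ h2 g
  have hPL : (P : Subgroup G) ≤ L := fun a ha => hallL a (hexp a ha)
  refine ⟨?_, Or.inl (hPL.trans hLH)⟩
  -- L = K P
  have hdisj : K ⊓ (P : Subgroup G) = ⊥ := by
    have hcc : (Nat.card K).Coprime (Nat.card (P : Subgroup G)) := by
      obtain ⟨n, hn⟩ := IsPGroup.iff_card.mp P.isPGroup'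
      rw [hn]
      exact Nat.Coprime.pow_right _ hKcop
    exact (Subgroup.disjoint_of_coprime_natCard hcc).eq_bot
  have hnorm : (P : Subgroup G) ≤ normalizer (K : Set G) :=
    (le_top).trans (Subgroup.normalizer_eq_top_iff.mpr hKn).ge
  have hsup : K ⊔ (P : Subgroup G) = L := by
    refine Subgroup.eq_of_le_of_card_ge (sup_le hKL hPL) ?_
    rw [card_sup_of_disjoint hnorm hdisj, hKLrel]
    apply Nat.mul_le_mul_left
    have h1 : p ^ t ∣ Nat.card G := by
      have h2 : p ^ t ∣ Nat.card L := by rw [hKLrel]; exact dvd_mul_left _ _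
      exact h2.trans (Subgroup.card_subgroup_dvd_card L)
    exact Nat.le_of_dvd Nat.card_pos (P.pow_dvd_card_of_pow_dvd_card h1)
  -- Frattini
  let PL : Sylow p L := P.subtype hPL
  have hmapPL : (PL : Subgroup L).map L.subtype = P := by
    rw [Sylow.coe_subtype, Subgroup.map_subgroupOf_eq_of_le hPL]
  have hfr := Sylow.normalizer_sup_eq_top PL
  rw [hmapPL] at hfr
  have hGdec : ∀ g : G, ∃ l ∈ L, ∃ n ∈ normalizer ((P : Subgroup G) : Set G), g = l * n := by
    intro g
    have h1 : g ∈ normalizer ((P : Subgroup G) : Set G) ⊔ L := by rw [hfr]; trivial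
    obtain ⟨n, hn, l, hl, rfl⟩ := mem_sup_of_le_normalizer' (A := L) (B := normalizer ((P : Subgroup G) : Set G))
      ((le_top).trans (Subgroup.normalizer_eq_top_iff.mpr hLn).ge) (by rwa [sup_comm] at h1)
    exact ⟨n * l * n⁻¹, hLn.conj_mem l hl n, n, hn, by group⟩
  -- a central element of order p
  have hPg : IsPGroup p (P : Subgroup G) := P.isPGroup'
  have hnt : ∃ w ∈ (P : Subgroup G), w ≠ 1 := by
    by_contra hcon
    push Not at hcon
    apply hcyc
    have : Subsingleton (P : Subgroup G) := ⟨fun a b => Subtype.ext (by rw [hcon a.1 a.2, hcon b.1 b.2])⟩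
    exact isCyclic_of_subsingleton
  obtain ⟨w, hw, hw1⟩ := hnt
  have hcn : Nontrivial (center (P : Subgroup G)) := by
    haveI : Nontrivial (P : Subgroup G) := ⟨⟨⟨w, hw⟩, 1, fun h => hw1 (congrArg Subtype.val h)⟩⟩
    exact hPg.center_nontrivial
  obtain ⟨z0, hz0⟩ := exists_ne (1 : center (P : Subgroup G))
  have hzP : (z0 : (P : Subgroup G)).1 ∈ (P : Subgroup G) := z0.1.2
  set z : G := (z0 : (P : Subgroup G)).1 with hz
  have hz1 : z ≠ 1 := by
    intro h
    apply hz0
    apply Subtype.ext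
    apply Subtype.ext
    exact h
  have hzc : ∀ u ∈ (P : Subgroup G), z * u = u * z := by
    intro u hu
    have h1 := (mem_center_iff.mp z0.2 ⟨u, hu⟩).symm
    exact congrArg Subtype.val h1
  have hzo : orderOf z = p := orderOf_eq_prime (hexp z hzP) hz1
  have hcentral : ∀ x ∈ (P : Subgroup G), ∀ u ∈ (P : Subgroup G), x * u = u * x := by
    intro x hx u hu
    by_cases hx1 : x = 1
    · simp [hx1]
    have hxo : orderOf x = p := orderOf_eq_prime (hexp x hx) hx1
    obtain ⟨g, hg⟩ := hC (zpowers z) (zpowers x)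
      (IsPGroup.of_card (n := 1) (by rw [Nat.card_zpowers, hzo, pow_one]))
      (IsPGroup.of_card (n := 1) (by rw [Nat.card_zpowers, hxo, pow_one]))
      (by rw [Nat.card_zpowers, Nat.card_zpowers, hzo, hxo])
    have h1 : x ∈ zpowers x := mem_zpowers x
    rw [hg] at h1
    obtain ⟨v, hv, hvx⟩ := h1
    obtain ⟨i, rfl⟩ := mem_zpowers_iff.mp hv
    obtain ⟨l, hl, n, hn, hgln⟩ := hGdec g
    set z' := n * z ^ i * n⁻¹ with hz'
    have hz'P : z' ∈ (P : Subgroup G) :=
      (Subgroup.mem_normalizer_iff.mp hn _).mp ((P : Subgroup G).zpow_mem hzP i)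
    have hz'c : ∀ u ∈ (P : Subgroup G), z' * u = u * z' := by
      intro u hu
      have h2 : n⁻¹ * u * n ∈ (P : Subgroup G) := (Subgroup.mem_normalizer_iff''.mp hn u).mp hu
      have h3 : z ^ i * (n⁻¹ * u * n) = (n⁻¹ * u * n) * z ^ i :=
        (Commute.zpow_left (show Commute z (n⁻¹ * u * n) from hzc _ h2) i).eq
      calc z' * u = n * (z ^ i * (n⁻¹ * u * n)) * n⁻¹ := by rw [hz']; group
        _ = n * ((n⁻¹ * u * n) * z ^ i) * n⁻¹ := by rw [h3]
        _ = u * z' := by rw [hz']; group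
    rw [← hsup] at hl
    obtain ⟨k, hk, u0, hu0, rfl⟩ := mem_sup_of_le_normalizer hnorm hl
    have hx2 : x = k * z' * k⁻¹ := by
      have h4 : x = g * z ^ i * g⁻¹ := hvx.symm
      rw [h4, hgln]
      calc k * u0 * n * z ^ i * (k * u0 * n)⁻¹ = k * (u0 * z' * u0⁻¹) * k⁻¹ := by rw [hz']; group
        _ = k * (z' * u0 * u0⁻¹) * k⁻¹ := by rw [(hz'c u0 hu0).symm]
        _ = _ := by group
    have h5 : x * z'⁻¹ ∈ K := by
      have h6 : z' * k⁻¹ * z'⁻¹ ∈ K := hKn.conj_mem _ (K.inv_mem hk) z'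
      have h7 : x * z'⁻¹ = k * (z' * k⁻¹ * z'⁻¹) := by rw [hx2]; group
      rw [h7]
      exact K.mul_mem hk h6
    have h8 : x * z'⁻¹ ∈ (P : Subgroup G) := (P : Subgroup G).mul_mem hx ((P : Subgroup G).inv_mem hz'P)
    have h9 : x * z'⁻¹ ∈ K ⊓ (P : Subgroup G) := ⟨h5, h8⟩
    rw [hdisj, Subgroup.mem_bot, mul_inv_eq_one] at h9
    rw [h9]
    exact hz'c u hu
  exact ⟨⟨fun a b => Subtype.ext (hcentral a.1 a.2 b.1 b.2)⟩⟩

end Cfsg.Agent.S4024
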