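import Cfsg.Statements.S4028
import Cfsg.Agent.Lib.PGroups.Norm
import Cfsg.Agent.Lib.Basic.Conj

set_option autoImplicit false
open Cfsg

namespace Cfsg.Agent.S4028

open Cfsg.Agent.Lib.PGroups Cfsg.Agent.Lib.Basic

/-- Let G be a finite group with Sylow 2-subgroup P. Then N_G(⟨x⟩) = C_G(x) holds for every 2-element x of G if and only if N_P(⟨y⟩) = C_P(y) holds for every y ∈ P (computed inside P). -/
theorem result {G : Type*} [Group G] [Finite G] (P : Sylow 2 G) :
    (∀ x : G, (∀ r : ℕ, r.Prime → r ∣ orderOf x → r = 2) →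
      Subgroup.normalizer ((Subgroup.zpowers x : Subgroup G) : Set G) ≤ Subgroup.centralizer {x}) ↔
    (∀ y : ↥(P : Subgroup G), Subgroup.normalizer ((Subgroup.zpowers y : Subgroup ↥(P : Subgroup G)) : Set ↥(P : Subgroup G)) ≤
        Subgroup.centralizer {y}) := by
  classical
  constructor
  · intro h y u hu
    have h1 : (y : G) ∈ Subgroup.zpowers (y : G) := Subgroup.mem_zpowers _
    have hy2 : ∀ r : ℕ, r.Prime → r ∣ orderOf (y : G) → r = 2 := by
      intro r hr hd
      obtain ⟨k, hk⟩ := exists_orderOf_of_mem_isPGroup P.isPGroup' y.2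
      rw [hk] at hd
      exact (Nat.prime_dvd_prime_iff_eq hr Nat.prime_two).mp (hr.dvd_of_dvd_pow hd)
    have h2 : (u : G) ∈ Subgroup.normalizer ((Subgroup.zpowers (y : G) : Subgroup G) : Set G) := by
      rw [mem_normalizer_zpowers_iff]
      have h3 := (mem_normalizer_zpowers_iff.mp hu)
      obtain ⟨k, hk⟩ := Subgroup.mem_zpowers_iff.mp h3
      refine Subgroup.mem_zpowers_iff.mpr ⟨k, ?_⟩
      have := congrArg Subtype.val hk
      simpa using this
    have h4 := h (y : G) hy2 h2
    rw [Subgroup.mem_centralizer_singleton_iff] at h4 ⊢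
    exact Subtype.ext h4
  · intro h x hx g hg
    obtain ⟨k, hk⟩ := exists_orderOf_eq_pow_of_prime_dvd hx
    rw [mem_normalizer_zpowers_iff] at hg
    obtain ⟨a, b, hab, -, ha, hb, ha2, hb2⟩ := exists_pPart 2 g
    have hzn : ∀ c ∈ Subgroup.zpowers g, c ∈ Subgroup.normalizer ((Subgroup.zpowers x : Subgroup G) : Set G) := by
      have : Subgroup.zpowers g ≤ Subgroup.normalizer ((Subgroup.zpowers x : Subgroup G) : Set G) :=
        (Subgroup.zpowers_le).mpr (mem_normalizer_zpowers_iff.mpr hg)
      exact fun c hc => this hc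
    have hbc : Commute b x := by
      refine commute_of_odd_of_normalizes ?_ hk (mem_normalizer_zpowers_iff.mp (hzn b hb2))
      exact Nat.odd_iff.mpr (by omega)
    have hac : Commute a x := by
      have hz1 : IsPGroup 2 (Subgroup.zpowers a) := isPGroup_zpowers_iff.mpr ha
      have hz2 : IsPGroup 2 (Subgroup.zpowers x) := isPGroup_zpowers_iff.mpr ⟨k, hk⟩
      have hz3 : Subgroup.zpowers a ≤ Subgroup.normalizer ((Subgroup.zpowers x : Subgroup G) : Set G) :=
        (Subgroup.zpowers_le).mpr (hzn a ha2)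
      have hz4 := hz1.to_sup_of_normal_right' hz2 hz3
      obtain ⟨S, hS⟩ := hz4.exists_le_sylow
      obtain ⟨c, rfl⟩ := MulAction.exists_smul_eq G P S
      rw [Sylow.coe_subgroup_smul] at hS
      have h1 : c⁻¹ * a * c ∈ (P : Subgroup G) := by
        have := hS ((le_sup_left : Subgroup.zpowers a ≤ _) (Subgroup.mem_zpowers a))
        exact mem_conj_smul.mp this
      have h2 : c⁻¹ * x * c ∈ (P : Subgroup G) := by
        have := hS ((le_sup_right : Subgroup.zpowers x ≤ _) (Subgroup.mem_zpowers x))
        exact mem_conj_smul.mp this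
      let u : (P : Subgroup G) := ⟨_, h1⟩
      let y : (P : Subgroup G) := ⟨_, h2⟩
      have h3 : u ∈ Subgroup.normalizer ((Subgroup.zpowers y : Subgroup _) : Set _) := by
        rw [mem_normalizer_zpowers_iff]
        obtain ⟨t, ht⟩ := Subgroup.mem_zpowers_iff.mp (mem_normalizer_zpowers_iff.mp (hzn a ha2))
        refine Subgroup.mem_zpowers_iff.mpr ⟨t, ?_⟩
        apply Subtype.ext
        simp only [u, y, Subgroup.coe_mul, Subgroup.coe_inv, Subgroup.coe_zpow]
        have h4 : (c⁻¹ * x * c) ^ t = c⁻¹ * x ^ t * c := by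
          simpa using conj_zpow (a := c⁻¹) (b := x) (i := t)
        rw [h4, ht]; group
      have hc5 := h y h3
      rw [Subgroup.mem_centralizer_singleton_iff] at hc5
      have h5 := congrArg Subtype.val hc5
      simp only [u, y, Subgroup.coe_mul] at h5
      have h6 : c⁻¹ * (a * x) * c = c⁻¹ * (x * a) * c := by
        calc c⁻¹ * (a * x) * c = c⁻¹ * a * c * (c⁻¹ * x * c) := by group
          _ = c⁻¹ * x * c * (c⁻¹ * a * c) := h5
          _ = _ := by group
      exact mul_left_cancel (mul_right_cancel h6)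
    rw [Subgroup.mem_centralizer_singleton_iff, hab]
    exact (hac.mul_left hbc).eq

end Cfsg.Agent.S4028
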