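import Cfsg.Statements.S4029
import Cfsg.Agent.Lib.PGroups.SignAction
import Cfsg.Agent.Lib.Char.BrauerPerm

set_option autoImplicit false
open Cfsg

namespace Cfsg.Agent.S4029

open Cfsg.Agent.Lib.PGroups Cfsg.Agent.Lib.Char in
private theorem aux1 {P : Type*} [Group P] [Finite P] (hP : IsPGroup 2 P) :
    Nat.card (P ⧸ frattini P) ≤ Nat.card {C : ConjClasses P // ∀ g : P, ConjClasses.mk g = C → IsConj g g⁻¹} := by
  classical
  haveI : Fintype P := Fintype.ofFinite _
  refine (card_frattini_quot_le hP).trans ?_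
  rw [← card_real_irr_eq_card_real_classes]
  haveI : Finite {χ : IrrCharacter P // ∀ g : P, ((χ : P → ℂ) g).im = 0} := inferInstance
  refine Nat.card_le_card_of_injective (fun l : P →* ℤˣ => ⟨⟨sgnC l, ?_⟩, ?_⟩) ?_
  · have h := isIrrCharacter_sgn_mul l (isIrrCharacter_one (G := P))
    have e : (fun g => sgnC l g * (1 : ℂ)) = sgnC l := by
      funext g; simp
    rwa [e] at h
  · intro g
    simp [sgnC]
  · intro l m h
    refine MonoidHom.ext fun g => ?_
    have h1 : sgnC l g = sgnC m g := congrFun (congrArg (fun z : {χ : IrrCharacter P // ∀ g : P, ((χ : P → ℂ) g).im = 0} => z.1.1) h) g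
    have h2 : ((l g : ℤ) : ℂ) = ((m g : ℤ) : ℂ) := h1
    have h3 : (l g : ℤ) = (m g : ℤ) := by exact_mod_cast h2
    exact Units.ext h3

private theorem aux2 {P : Type*} [Group P]
    (hirr : ∀ y : P, Subgroup.normalizer ((Subgroup.zpowers y : Subgroup P) : Set P) ≤ Subgroup.centralizer {y})
    (g : P) (hg : IsConj g g⁻¹) : g * g = 1 := by
  obtain ⟨c, hc⟩ := isConj_iff.mp hg
  have hmem : c ∈ Subgroup.normalizer ((Subgroup.zpowers g : Subgroup P) : Set P) := by
    rw [Subgroup.mem_normalizer_iff]
    intro h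
    have key : ∀ n : ℤ, c * g ^ n * c⁻¹ = g ^ (-n) := by
      intro n
      have : c * g ^ n * c⁻¹ = (c * g * c⁻¹) ^ n := by
        rw [conj_zpow]
      rw [this, hc]
      simp
    constructor
    · intro hh
      obtain ⟨n, rfl⟩ := Subgroup.mem_zpowers_iff.mp hh
      show c * g ^ n * c⁻¹ ∈ Subgroup.zpowers g
      rw [key]
      exact Subgroup.zpow_mem_zpowers g _
    · intro hh
      obtain ⟨n, hn⟩ := Subgroup.mem_zpowers_iff.mp hh
      have h2 : c * g ^ (-n) * c⁻¹ = c * h * c⁻¹ := by
        rw [key, neg_neg, hn]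
      have h3 : g ^ (-n) = h := by
        simpa using h2
      show h ∈ Subgroup.zpowers g
      rw [← h3]
      exact Subgroup.zpow_mem_zpowers g _
  have h1 := hirr g hmem
  have h2 : g * c = c * g := Subgroup.mem_centralizer_iff.mp h1 g (Set.mem_singleton g)
  have h3 : c * g * c⁻¹ = g := by
    rw [← h2]; group
  rw [h3] at hc
  nth_rw 1 [hc]
  simp

private theorem aux3 {P : Type*} [Group P] [Finite P]
    (hirr : ∀ y : P, Subgroup.normalizer ((Subgroup.zpowers y : Subgroup P) : Set P) ≤ Subgroup.centralizer {y}) :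
    Nat.card {C : ConjClasses P // ∀ g : P, ConjClasses.mk g = C → IsConj g g⁻¹} ≤
      Nat.card {c : ConjClasses P // ∃ y : P, ConjClasses.mk y = c ∧ orderOf y = 2} + 1 := by
  classical
  rw [← Finite.card_option]
  refine Nat.card_le_card_of_injective (fun C => if h : C.1 = ConjClasses.mk 1 then none else some ⟨C.1, ?_⟩) ?_
  · obtain ⟨g, hg⟩ := ConjClasses.mk_surjective C.1
    refine ⟨g, hg, ?_⟩
    have h1 := aux2 hirr g (C.2 g hg)
    have h2 : g ≠ 1 := by
      rintro rfl
      exact h hg.symm
    exact orderOf_eq_prime (by rw [pow_two]; exact h1) h2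
  · intro C D hCD
    by_cases h : C.1 = ConjClasses.mk 1
    · by_cases h' : D.1 = ConjClasses.mk 1
      · exact Subtype.ext (h.trans h'.symm)
      · simp [h, h'] at hCD
    · by_cases h' : D.1 = ConjClasses.mk 1
      · simp [h, h'] at hCD
      · simp only [h, h', dite_false, Option.some.injEq, Subtype.mk.injEq] at hCD
        exact Subtype.ext hCD

private theorem aux4 {P : Type*} [Group P] [Finite P] :
    Nat.card {c : ConjClasses P // ∃ y : P, ConjClasses.mk y = c ∧ orderOf y = 2} + 1 ≤
      Nat.card (Subgroup.closure {y : P | orderOf y = 2}) := by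
  classical
  rw [← Finite.card_option]
  have hrep : ∀ c : {c : ConjClasses P // ∃ y : P, ConjClasses.mk y = c ∧ orderOf y = 2},
      ∃ y : P, ConjClasses.mk y = c.1 ∧ orderOf y = 2 := fun c => c.2
  choose rep hrep1 hrep2 using hrep
  refine Nat.card_le_card_of_injective (fun o => match o with
    | none => (1 : Subgroup.closure {y : P | orderOf y = 2})
    | some c => ⟨rep c, Subgroup.subset_closure (hrep2 c)⟩) ?_
  rintro (_ | c) (_ | d) h
  · rfl
  · exfalso
    have h1 : (1 : P) = rep d := congrArg (fun z : Subgroup.closure {y : P | orderOf y = 2} => z.1) h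
    have h2 := hrep2 d
    rw [← h1] at h2
    simp at h2
  · exfalso
    have h1 : rep c = (1 : P) := congrArg (fun z : Subgroup.closure {y : P | orderOf y = 2} => z.1) h
    have h2 := hrep2 c
    rw [h1] at h2
    simp at h2
  · have h1 : rep c = rep d := congrArg (fun z : Subgroup.closure {y : P | orderOf y = 2} => z.1) h
    have h2 : c.1 = d.1 := by
      rw [← hrep1 c, ← hrep1 d, h1]
    exact congrArg some (Subtype.ext h2)


/-- Let P be a finite 2-group in which N_P(⟨y⟩) = C_P(y) for every y ∈ P. If s is the number of conjugacy classes of involutions of P, then #(P/Φ(P)) ≤ s + 1; in particular the subgroup generated by the involutions of P has order at least #(P/Φ(P)). -/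
theorem result {P : Type*} [Group P] [Finite P] (hP : IsPGroup 2 P)
    (hirr : ∀ y : P, Subgroup.normalizer ((Subgroup.zpowers y : Subgroup P) : Set P) ≤ Subgroup.centralizer {y}) :
    Nat.card (P ⧸ frattini P) ≤ Nat.card {c : ConjClasses P // ∃ y : P, ConjClasses.mk y = c ∧ orderOf y = 2} + 1 ∧
    Nat.card (P ⧸ frattini P) ≤ Nat.card (Subgroup.closure {y : P | orderOf y = 2}) := by
  have h := (aux1 hP).trans (aux3 hirr)
  exact ⟨h, h.trans aux4⟩

end Cfsg.Agent.S4029
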