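import Cfsg.Statements.S4032
import Cfsg.Agent.Lib.PGroups.Norm

set_option autoImplicit false
open Cfsg

namespace Cfsg.Agent.S4032

open Cfsg.Agent.Lib.PGroups

/-- Let π be a set of primes and G a finite group in which N_G(⟨x⟩) = C_G(x) for every π-element x. If N is a normal subgroup of G whose order is divisible by no prime of π, then G/N has the same property: N_{G/N}(⟨y⟩) = C_{G/N}(y) for every π-element y of G/N. -/
theorem result {G : Type*} [Group G] [Finite G] (π : Set ℕ)
    (hirr : ∀ x : G, (∀ r : ℕ, r.Prime → r ∣ orderOf x → r ∈ π) →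
      Subgroup.normalizer ((Subgroup.zpowers x : Subgroup G) : Set G) ≤ Subgroup.centralizer {x})
    (N : Subgroup G) [N.Normal] (hN : ∀ r : ℕ, r.Prime → r ∣ Nat.card N → r ∉ π) :
    ∀ y : G ⧸ N, (∀ r : ℕ, r.Prime → r ∣ orderOf y → r ∈ π) →
      Subgroup.normalizer ((Subgroup.zpowers y : Subgroup (G ⧸ N)) : Set (G ⧸ N)) ≤ Subgroup.centralizer {y} := by
  classical
  intro y hy g' hg'
  rw [mem_normalizer_zpowers_iff] at hg'
  -- suffices: g' commutes with the primary powers of y
  have hsuff : y ∈ Subgroup.centralizer ({g'} : Set (G ⧸ N)) := by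
    apply mem_of_primary_powers
    intro a ha hpp
    obtain ⟨q, j, hq, hj, hqj⟩ := hpp
    have hq' : q.Prime := hq.nat_prime
    have : Fact q.Prime := ⟨hq'⟩
    have hqa : q ∣ orderOf a := by rw [← hqj]; exact dvd_pow_self q hj.ne'
    have hqy : q ∣ orderOf y := hqa.trans (orderOf_dvd_of_mem_zpowers ha)
    have hqπ : q ∈ π := hy q hq' hqy
    have hqN : (Nat.card N).Coprime q :=
      ((Nat.Prime.coprime_iff_not_dvd hq').mpr (fun hd => hN q hq' hd hqπ)).symm
    -- g' normalizes ⟨a⟩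
    obtain ⟨t, rfl⟩ := Subgroup.mem_zpowers_iff.mp ha
    obtain ⟨k, hk⟩ := Subgroup.mem_zpowers_iff.mp hg'
    have hka : g' * (y ^ t) * g'⁻¹ = (y ^ t) ^ k := by
      rw [← conj_zpow, ← hk, ← zpow_mul, ← zpow_mul, mul_comm]
    -- lifts
    have hf : Function.Surjective (QuotientGroup.mk' N) := QuotientGroup.mk'_surjective N
    obtain ⟨x, hx, hxq⟩ := exists_pElement_lift (p := q) (QuotientGroup.mk' N) hf (y := y ^ t) ⟨j, hqj.symm⟩
    obtain ⟨g, rfl⟩ := hf g'
    have hxk : ∃ m : ℕ, orderOf (x ^ k) = q ^ m := by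
      have h1 := isPGroup_zpowers_iff.mpr hxq
      have h2 : x ^ k ∈ Subgroup.zpowers x := zpow_mem (Subgroup.mem_zpowers x) k
      exact exists_orderOf_of_mem_isPGroup h1 h2
    have hgx : ∃ m : ℕ, orderOf (g * x * g⁻¹) = q ^ m := by
      rw [orderOf_conj_eq]; exact hxq
    have hcos : (x ^ k)⁻¹ * (g * x * g⁻¹) ∈ N := by
      rw [← QuotientGroup.ker_mk' N, MonoidHom.mem_ker, map_mul, map_inv, map_zpow, hx, map_mul, map_mul, map_inv, hx, hka]
      simp
    obtain ⟨n, hn, hgn⟩ := conj_of_pElement_coset N hqN hxk hgx hcos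
    -- n⁻¹ g normalizes ⟨x⟩
    have hxπ : ∀ r : ℕ, r.Prime → r ∣ orderOf x → r ∈ π := by
      intro r hr hd
      obtain ⟨m, hm⟩ := hxq
      rw [hm] at hd
      rw [(Nat.prime_dvd_prime_iff_eq hr hq').mp (hr.dvd_of_dvd_pow hd)]
      exact hqπ
    have hmem : n⁻¹ * g ∈ Subgroup.normalizer ((Subgroup.zpowers x : Subgroup G) : Set G) := by
      rw [mem_normalizer_zpowers_iff]
      refine Subgroup.mem_zpowers_iff.mpr ⟨k, ?_⟩
      calc x ^ k = n⁻¹ * (n * x ^ k * n⁻¹) * n := by group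
        _ = n⁻¹ * (g * x * g⁻¹) * n := by rw [hgn]
        _ = _ := by group
    have hcomm := hirr x hxπ hmem
    rw [Subgroup.mem_centralizer_singleton_iff] at hcomm
    rw [Subgroup.mem_centralizer_singleton_iff, ← hx]
    have hn1 : QuotientGroup.mk' N n = 1 := by
      rw [← MonoidHom.mem_ker, QuotientGroup.ker_mk']; exact hn
    have h3 := congrArg (QuotientGroup.mk' N) hcomm
    simp only [map_mul, map_inv, hn1, inv_one, one_mul] at h3
    exact h3.symm
  rw [Subgroup.mem_centralizer_singleton_iff] at hsuff ⊢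
  exact hsuff.symm

end Cfsg.Agent.S4032
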