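import Cfsg.Statements.S4034
import Cfsg.Agent.Lib.PGroups.ClassLemmas
import Cfsg.Agent.Lib.Char.Burnside
import Cfsg.Agent.Lib.Basic.Hall
import Cfsg.Agent.Lib.Basic.Solv1
import Cfsg.Agent.Lib.Basic.Conj

set_option autoImplicit false
open Cfsg

namespace Cfsg.Agent.S4034

open Subgroup Cfsg.Agent.Lib.PGroups

universe u

private def Hyp (p : ℕ) (G : Type*) [Group G] : Prop :=
  ∀ x : G, ¬ p ∣ orderOf x → ∃ k : ℕ, (centralizer ({x} : Set G)).index = p ^ k

private theorem Hyp.quot {p : ℕ} [Fact p.Prime] {G : Type*} [Group G] [Finite G] (h : Hyp p G)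
    {Q : Type*} [Group Q] (f : G →* Q) (hf : Function.Surjective f) : Hyp p Q := by
  intro q hq
  obtain ⟨x, rfl, hx⟩ := exists_coprime_lift f hf q hq
  obtain ⟨k, hk⟩ := h x hx
  have h1 := index_centralizer_map_dvd f hf x
  rw [hk] at h1
  obtain ⟨j, -, hj⟩ := (Nat.dvd_prime_pow (Fact.out : p.Prime)).mp h1
  exact ⟨j, hj⟩

private theorem Hyp.normal {p : ℕ} [Fact p.Prime] {G : Type*} [Group G] [Finite G] (h : Hyp p G)
    (N : Subgroup G) [N.Normal] : Hyp p N := by
  intro x hx
  have hx' : ¬ p ∣ orderOf (x : G) := by rwa [Subgroup.orderOf_coe]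
  obtain ⟨k, hk⟩ := h x hx'
  have h1 := index_centralizer_normal_dvd N x
  rw [hk] at h1
  obtain ⟨j, -, hj⟩ := (Nat.dvd_prime_pow (Fact.out : p.Prime)).mp h1
  exact ⟨j, hj⟩

private theorem solvable_of_normal_quot {G : Type*} [Group G] (N : Subgroup G) [N.Normal]
    (h1 : Group.IsSolvable N) (h2 : Group.IsSolvable (G ⧸ N)) : Group.IsSolvable G :=
  solvable_of_ker_le_range N.subtype (QuotientGroup.mk' N) (by
    rw [QuotientGroup.ker_mk', Subgroup.range_subtype])

private theorem isPGroup_of_no_regular {p : ℕ} [Fact p.Prime] {G : Type*} [Group G] [Finite G]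
    (h : ∀ x : G, x ≠ 1 → p ∣ orderOf x) : IsPGroup p G := by
  rw [IsPGroup.iff_card]
  have hne : Nat.card G ≠ 0 := Nat.card_pos.ne'
  refine ⟨_, Nat.eq_prime_pow_of_unique_prime_dvd hne ?_⟩
  intro q hq hqG
  haveI : Fact q.Prime := ⟨hq⟩
  obtain ⟨x, hx⟩ := exists_prime_orderOf_dvd_card' q hqG
  have hx1 : x ≠ 1 := by
    rintro rfl
    rw [orderOf_one] at hx
    exact hq.one_lt.ne hx
  have := h x hx1
  rw [hx] at this
  exact ((Nat.prime_dvd_prime_iff_eq Fact.out hq).mp this).symm

private theorem solv_of_hyp {p : ℕ} [Fact p.Prime] : ∀ (n : ℕ) (G : Type u) [Group G] [Finite G],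
    Nat.card G = n → Hyp p G → Group.IsSolvable G := by
  intro n
  induction n using Nat.strong_induction_on with
  | _ n IH =>
  intro G _ _ hn hyp
  by_cases htriv : Subsingleton G
  · infer_instance
  rw [not_subsingleton_iff_nontrivial] at htriv
  by_cases hsimple : ∀ N : Subgroup G, N.Normal → N = ⊥ ∨ N = ⊤
  · haveI : IsSimpleGroup G := ⟨hsimple⟩
    by_cases hreg : ∃ x : G, x ≠ 1 ∧ ¬ p ∣ orderOf x
    · obtain ⟨x, hx1, hx2⟩ := hreg
      obtain ⟨k, hk⟩ := hyp x hx2
      have hprime := Cfsg.Agent.Lib.Char.prime_card_of_class_prime_pow p k Fact.out x hx1 hk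
      haveI : Fact (Nat.card G).Prime := ⟨hprime⟩
      haveI := isCyclic_of_prime_card (p := Nat.card G) rfl
      haveI : IsMulCommutative G := IsCyclic.isMulCommutative
      letI : CommGroup G := { (inferInstance : Group G) with mul_comm := fun a b => IsMulCommutative.is_comm.comm a b }
      infer_instance
    · push Not at hreg
      have hP : IsPGroup p G := isPGroup_of_no_regular hreg
      haveI := hP.isNilpotent
      infer_instance
  · push Not at hsimple
    obtain ⟨N, hN, hN1, hN2⟩ := hsimple
    haveI := hN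
    have hlt1 : Nat.card N < n := by
      rw [← hn]
      have h1 : N < ⊤ := lt_top_iff_ne_top.mpr hN2
      have h2 : Nat.card N < Nat.card (⊤ : Subgroup G) := by
        have := Set.ncard_lt_ncard (SetLike.coe_ssubset_coe.mpr h1) (Set.toFinite _)
        rwa [← Nat.card_coe_set_eq, ← Nat.card_coe_set_eq] at this
      rwa [Subgroup.card_top] at h2
    have hlt2 : Nat.card (G ⧸ N) < n := by
      rw [← hn, Subgroup.card_eq_card_quotient_mul_card_subgroup N]
      have h1 : 1 < Nat.card N := by
        have h2 : Nat.card N ≠ 1 := fun h => hN1 (Subgroup.card_eq_one.mp h)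
        have h3 : 0 < Nat.card N := Nat.card_pos
        omega
      have h4 : 0 < Nat.card (G ⧸ N) := Nat.card_pos
      nlinarith
    exact solvable_of_normal_quot N (IH _ hlt1 N rfl (hyp.normal N))
      (IH _ hlt2 (G ⧸ N) rfl (hyp.quot (QuotientGroup.mk' N) (QuotientGroup.mk'_surjective N)))

private theorem ab_of_hyp {p : ℕ} [Fact p.Prime] : ∀ (n : ℕ) (G : Type u) [Group G] [Finite G],
    Nat.card G = n → Group.IsSolvable G → Hyp p G →
      ∀ H : Subgroup G, ¬ p ∣ Nat.card H → (∃ k : ℕ, H.index = p ^ k) → IsMulCommutative H := by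
  intro n
  induction n using Nat.strong_induction_on with
  | _ n IH =>
  intro G _ _ hn hs hyp H hH hHi
  have hp : p.Prime := Fact.out
  by_cases hM : Cfsg.pCore p G = ⊥
  · -- `O_p(G) = 1`
    set F := Cfsg.fittingSubgroup G with hF
    haveI hFc : F.Characteristic := Cfsg.Agent.Lib.Basic.fittingSubgroup_characteristic
    haveI hFn : F.Normal := Subgroup.normal_of_characteristic F
    have hFnil : Group.IsNilpotent F := Cfsg.Agent.Lib.Basic.fittingSubgroup_isNilpotent
    have hFp : ¬ p ∣ Nat.card F := by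
      intro hd
      obtain ⟨S⟩ : Nonempty (Sylow p F) := inferInstance
      have h1 := Cfsg.Agent.Lib.Basic.sylow_map_le_pCore_of_nilpotent hFn hFnil p S
      rw [hM] at h1
      have h2 : (S : Subgroup F) = ⊥ := by
        exact (Subgroup.map_eq_bot_iff_of_injective _ Subtype.val_injective).mp (le_bot_iff.mp h1)
      exact Sylow.ne_bot_of_dvd_card S hd h2
    have hreg : ∀ y : G, ¬ p ∣ orderOf y → y ∈ F ∧ ∀ z ∈ F, z * y = y * z := by
      intro y hy
      obtain ⟨k, hk⟩ := hyp y hy
      have h1 : (centralizer ({y} : Set G)).relIndex F ∣ (centralizer ({y} : Set G)).index := by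
        rw [← Cfsg.Agent.Lib.Basic.relIndex_sup_of_normal (centralizer ({y} : Set G)) F]
        rw [← Subgroup.relIndex_mul_index (le_sup_left : centralizer ({y} : Set G) ≤ centralizer ({y} : Set G) ⊔ F)]
        exact Dvd.intro _ rfl
      rw [hk] at h1
      have h2 : (centralizer ({y} : Set G)).relIndex F ∣ Nat.card F := Subgroup.relIndex_dvd_card _ _
      have h3 : (centralizer ({y} : Set G)).relIndex F = 1 := by
        obtain ⟨j, -, hj⟩ := (Nat.dvd_prime_pow hp).mp h1
        rw [hj] at h2 ⊢
        rcases Nat.eq_zero_or_pos j with h0 | h0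
        · rw [h0, pow_zero]
        · exfalso
          exact hFp ((dvd_pow_self p h0.ne').trans h2)
      have h4 : F ≤ centralizer ({y} : Set G) := Subgroup.relIndex_eq_one.mp h3
      have h5 : ∀ z ∈ F, z * y = y * z := fun z hz => mem_centralizer_singleton_iff.mp (h4 hz)
      refine ⟨?_, h5⟩
      apply Cfsg.Agent.Lib.Basic.centralizer_fittingSubgroup_le
      rw [mem_centralizer_iff]
      intro z hz
      exact h5 z hz
    have hHreg : ∀ a : H, ¬ p ∣ orderOf (a : G) := by
      intro a hd
      rw [Subgroup.orderOf_coe] at hd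
      exact hH (hd.trans (orderOf_dvd_natCard a))
    constructor
    constructor
    intro a b
    apply Subtype.ext
    have h1 := (hreg b (hHreg b)).1
    exact (hreg a (hHreg a)).2 b h1 |>.symm
  · -- pass to `G / O_p(G)`
    set M := Cfsg.pCore p G with hMdef
    haveI hMc : M.Characteristic := Cfsg.Agent.Lib.Basic.pCore_characteristic p
    haveI hMn : M.Normal := Subgroup.normal_of_characteristic M
    have hMp : IsPGroup p M := Cfsg.Agent.Lib.Basic.pCore_isPGroup p
    have hlt : Nat.card (G ⧸ M) < n := by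
      rw [← hn, Subgroup.card_eq_card_quotient_mul_card_subgroup M]
      have h1 : 1 < Nat.card M := by
        have h2 : Nat.card M ≠ 1 := fun h => hM (Subgroup.card_eq_one.mp h)
        have h3 : 0 < Nat.card M := Nat.card_pos
        omega
      have h4 : 0 < Nat.card (G ⧸ M) := Nat.card_pos
      nlinarith
    have hsurj := QuotientGroup.mk'_surjective M
    haveI hsQ : Group.IsSolvable (G ⧸ M) := solvable_of_surjective hsurj
    have hcm : Nat.card (H.map (QuotientGroup.mk' M)) ∣ Nat.card H :=
      Subgroup.card_dvd_of_surjective _ ((QuotientGroup.mk' M).subgroupMap_surjective H)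
    have hidx : (H.map (QuotientGroup.mk' M)).index ∣ H.index := Subgroup.index_map_dvd _ hsurj
    have hQ := IH _ hlt (G ⧸ M) rfl hsQ (hyp.quot (QuotientGroup.mk' M) hsurj)
      (H.map (QuotientGroup.mk' M)) (fun h => hH (h.trans hcm)) (by
        obtain ⟨k, hk⟩ := hHi
        rw [hk] at hidx
        obtain ⟨j, -, hj⟩ := (Nat.dvd_prime_pow hp).mp hidx
        exact ⟨j, hj⟩)
    have htriv : ∀ z : G, z ∈ H → z ∈ M → z = 1 := by
      intro z hzH hzM
      obtain ⟨j, hj⟩ := hMp ⟨z, hzM⟩
      have h1 : z ^ p ^ j = 1 := by simpa [Subtype.ext_iff] using hj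
      have h2 : orderOf z ∣ p ^ j := orderOf_dvd_of_pow_eq_one h1
      have h3 : orderOf z ∣ Nat.card H := by
        have := orderOf_dvd_natCard (⟨z, hzH⟩ : H)
        rwa [Subgroup.orderOf_mk] at this
      have h4 : (orderOf z).Coprime (p ^ j) :=
        Nat.Coprime.coprime_dvd_left h3
          (Nat.Coprime.pow_right j ((Nat.Prime.coprime_iff_not_dvd hp).mpr hH).symm)
      exact orderOf_eq_one_iff.mp (Nat.Coprime.eq_one_of_dvd h4 h2)
    constructor
    constructor
    rintro ⟨a, ha⟩ ⟨b, hb⟩
    apply Subtype.ext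
    show a * b = b * a
    have hcomm := hQ.is_comm.comm (⟨QuotientGroup.mk' M a, ⟨a, ha, rfl⟩⟩ : H.map (QuotientGroup.mk' M))
      ⟨QuotientGroup.mk' M b, ⟨b, hb, rfl⟩⟩
    have h1 : (QuotientGroup.mk' M) (a * b) = (QuotientGroup.mk' M) (b * a) := by
      rw [map_mul, map_mul]
      exact congrArg Subtype.val hcomm
    have h1' : ((a * b : G) : G ⧸ M) = ((b * a : G) : G ⧸ M) := h1
    have h2 : (a * b)⁻¹ * (b * a) ∈ M := QuotientGroup.eq.mp h1'
    have h3 : (a * b)⁻¹ * (b * a) = 1 :=
      htriv _ (mul_mem (inv_mem (mul_mem ha hb)) (mul_mem hb ha)) h2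
    exact inv_mul_eq_one.mp h3

private theorem solv_of_ab {p : ℕ} [Fact p.Prime] : ∀ (n : ℕ) (G : Type u) [Group G] [Finite G],
    Nat.card G = n → ∀ H : Subgroup G, IsMulCommutative H → ¬ p ∣ Nat.card H →
      (∃ k : ℕ, H.index = p ^ k) → Group.IsSolvable G := by
  intro n
  induction n using Nat.strong_induction_on with
  | _ n IH =>
  intro G _ _ hn H hab hH hHi
  have hp : p.Prime := Fact.out
  by_cases htriv : Subsingleton G
  · infer_instance
  rw [not_subsingleton_iff_nontrivial] at htriv
  by_cases hsimple : ∀ N : Subgroup G, N.Normal → N = ⊥ ∨ N = ⊤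
  · haveI : IsSimpleGroup G := ⟨hsimple⟩
    by_cases hbot : H = ⊥
    · subst hbot
      obtain ⟨k, hk⟩ := hHi
      have h1 := Subgroup.index_mul_card (⊥ : Subgroup G)
      rw [hk, Subgroup.card_bot, mul_one] at h1
      have hP' : IsPGroup p G := IsPGroup.of_card h1.symm
      haveI := hP'.isNilpotent
      infer_instance
    · obtain ⟨⟨x, hxH⟩, hx1⟩ := Subgroup.ne_bot_iff_exists_ne_one.mp hbot
      have hx1' : x ≠ 1 := fun h => hx1 (Subtype.ext h)
      have hle : H ≤ centralizer ({x} : Set G) := by
        intro y hy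
        rw [mem_centralizer_singleton_iff]
        have := hab.is_comm.comm (⟨y, hy⟩ : H) ⟨x, hxH⟩
        exact congrArg Subtype.val this
      have hd := Subgroup.index_dvd_of_le hle
      obtain ⟨k, hk⟩ := hHi
      rw [hk] at hd
      obtain ⟨j, -, hj⟩ := (Nat.dvd_prime_pow hp).mp hd
      have hprime := Cfsg.Agent.Lib.Char.prime_card_of_class_prime_pow p j hp x hx1' hj
      haveI : Fact (Nat.card G).Prime := ⟨hprime⟩
      haveI := isCyclic_of_prime_card (p := Nat.card G) rfl
      haveI : IsMulCommutative G := IsCyclic.isMulCommutative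
      letI : CommGroup G := { (inferInstance : Group G) with mul_comm := fun a b => IsMulCommutative.is_comm.comm a b }
      infer_instance
  · push Not at hsimple
    obtain ⟨N, hN, hN1, hN2⟩ := hsimple
    haveI := hN
    have hlt1 : Nat.card N < n := by
      rw [← hn]
      have h1 : N < ⊤ := lt_top_iff_ne_top.mpr hN2
      have h2 : Nat.card N < Nat.card (⊤ : Subgroup G) := by
        have := Set.ncard_lt_ncard (SetLike.coe_ssubset_coe.mpr h1) (Set.toFinite _)
        rwa [← Nat.card_coe_set_eq, ← Nat.card_coe_set_eq] at this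
      rwa [Subgroup.card_top] at h2
    have hlt2 : Nat.card (G ⧸ N) < n := by
      rw [← hn, Subgroup.card_eq_card_quotient_mul_card_subgroup N]
      have h1 : 1 < Nat.card N := by
        have h2 : Nat.card N ≠ 1 := fun h => hN1 (Subgroup.card_eq_one.mp h)
        have h3 : 0 < Nat.card N := Nat.card_pos
        omega
      have h4 : 0 < Nat.card (G ⧸ N) := Nat.card_pos
      nlinarith
    have hsurj := QuotientGroup.mk'_surjective N
    obtain ⟨k, hk⟩ := hHi
    apply solvable_of_normal_quot N
    · apply IH _ hlt1 N rfl (H.subgroupOf N)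
      · constructor
        constructor
        rintro ⟨⟨a, ha⟩, ha'⟩ ⟨⟨b, hb⟩, hb'⟩
        apply Subtype.ext
        apply Subtype.ext
        have := hab.is_comm.comm (⟨a, ha'⟩ : H) ⟨b, hb'⟩
        show a * b = b * a
        exact congrArg Subtype.val this
      · intro hd
        apply hH
        have h1 : Nat.card (H.subgroupOf N) ∣ Nat.card H := by
          have e : Nat.card (H.subgroupOf N) = Nat.card (H ⊓ N : Subgroup G) := by
            rw [← Subgroup.subgroupOf_map_subtype]
            exact (Subgroup.card_map_of_injective Subtype.val_injective).symm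
          rw [e]
          exact Subgroup.card_dvd_of_le inf_le_left
        exact hd.trans h1
      · have h1 : H.relIndex N ∣ H.index := by
          rw [← Cfsg.Agent.Lib.Basic.relIndex_sup_of_normal H N]
          rw [← Subgroup.relIndex_mul_index (le_sup_left : H ≤ H ⊔ N)]
          exact Dvd.intro _ rfl
        rw [hk] at h1
        obtain ⟨j, -, hj⟩ := (Nat.dvd_prime_pow hp).mp h1
        exact ⟨j, hj⟩
    · apply IH _ hlt2 (G ⧸ N) rfl (H.map (QuotientGroup.mk' N))
      · constructor
        constructor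
        rintro ⟨_, a, ha, rfl⟩ ⟨_, b, hb, rfl⟩
        apply Subtype.ext
        show QuotientGroup.mk' N a * QuotientGroup.mk' N b = QuotientGroup.mk' N b * QuotientGroup.mk' N a
        rw [← map_mul, ← map_mul]
        have := hab.is_comm.comm (⟨a, ha⟩ : H) ⟨b, hb⟩
        rw [show a * b = b * a from congrArg Subtype.val this]
      · intro hd
        exact hH (hd.trans (Subgroup.card_dvd_of_surjective _ ((QuotientGroup.mk' N).subgroupMap_surjective H)))
      · have h1 : (H.map (QuotientGroup.mk' N)).index ∣ H.index := Subgroup.index_map_dvd _ hsurj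
        rw [hk] at h1
        obtain ⟨j, -, hj⟩ := (Nat.dvd_prime_pow hp).mp h1
        exact ⟨j, hj⟩


/-- Let G be a finite group and p a prime. Every conjugacy class of p-regular elements of G (elements of order prime to p) has p-power size if and only if G has an abelian p-complement, i.e. an abelian subgroup of order prime to p and p-power index. -/
theorem result {G : Type*} [Group G] [Finite G] {p : ℕ} (hp : p.Prime) :
    (∀ x : G, (orderOf x).Coprime p → ∃ k : ℕ, (ConjClasses.mk x).carrier.ncard = p ^ k) ↔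
    (∃ H : Subgroup G, IsMulCommutative H ∧ ¬ p ∣ Nat.card H ∧ ∃ k : ℕ, H.index = p ^ k) := by
  haveI : Fact p.Prime := ⟨hp⟩
  constructor
  · intro h
    have hyp : Hyp p G := by
      intro x hx
      obtain ⟨k, hk⟩ := h x ((Nat.coprime_comm).mp ((Nat.Prime.coprime_iff_not_dvd hp).mpr hx))
      rw [carrier_ncard_eq_index] at hk
      exact ⟨k, hk⟩
    haveI hs : Group.IsSolvable G := solv_of_hyp _ G rfl hyp
    set N := Nat.card G with hNdef
    have hN : N ≠ 0 := Nat.card_pos.ne'
    have hNet : N / p ^ N.factorization p * p ^ N.factorization p = N := by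
      rw [mul_comm]; exact Nat.ordProj_mul_ordCompl_eq_self N p
    have hpt : ¬ p ∣ N / p ^ N.factorization p := Nat.not_dvd_ordCompl hp hN
    have hcop : (N / p ^ N.factorization p).Coprime (p ^ N.factorization p) :=
      (Nat.Coprime.pow_left _ ((Nat.Prime.coprime_iff_not_dvd hp).mpr hpt)).symm
    obtain ⟨H, hH⟩ := Cfsg.Agent.Lib.Basic.hall_exists _ (N / p ^ N.factorization p)
      (p ^ N.factorization p) rfl hNet.symm hcop
    have hindex : H.index = p ^ N.factorization p := by
      have h1 := Subgroup.card_mul_index H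
      rw [hH] at h1
      have ht : 0 < N / p ^ N.factorization p := Nat.pos_of_ne_zero (by
        intro h0
        rw [h0] at hpt
        simp at hpt)
      exact Nat.eq_of_mul_eq_mul_left ht (h1.trans hNet.symm)
    have hHp : ¬ p ∣ Nat.card H := by rw [hH]; exact hpt
    exact ⟨H, ab_of_hyp _ G rfl hs hyp H hHp ⟨_, hindex⟩, hHp, _, hindex⟩
  · rintro ⟨H, hab, hHp, k, hk⟩ x hx
    haveI hs : Group.IsSolvable G := solv_of_ab _ G rfl H hab hHp ⟨k, hk⟩
    have hco1 : (Nat.card H).Coprime H.index := by
      rw [hk]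
      exact Nat.Coprime.pow_right _ ((Nat.coprime_comm).mp ((Nat.Prime.coprime_iff_not_dvd hp).mpr hHp))
    have hco2 : (Nat.card (zpowers x)).Coprime H.index := by
      rw [hk, Nat.card_zpowers]
      exact Nat.Coprime.pow_right _ hx
    obtain ⟨g, hg⟩ := Cfsg.Agent.Lib.Basic.hall_le_conj _ H (zpowers x) rfl hco1 hco2
    have hxm : g⁻¹ * x * g ∈ H := Cfsg.Agent.Lib.Basic.mem_conj_smul.mp (hg (mem_zpowers x))
    have hle : H ≤ centralizer ({g⁻¹ * x * g} : Set G) := by
      intro y hy
      rw [mem_centralizer_singleton_iff]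
      have := hab.is_comm.comm (⟨y, hy⟩ : H) ⟨_, hxm⟩
      exact congrArg Subtype.val this
    have hd := Subgroup.index_dvd_of_le hle
    rw [hk] at hd
    obtain ⟨j, -, hj⟩ := (Nat.dvd_prime_pow hp).mp hd
    refine ⟨j, ?_⟩
    have hmk : ConjClasses.mk x = ConjClasses.mk (g⁻¹ * x * g) := by
      rw [ConjClasses.mk_eq_mk_iff_isConj, isConj_iff]
      exact ⟨g⁻¹, by group⟩
    rw [hmk, carrier_ncard_eq_index, hj]

end Cfsg.Agent.S4034
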