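import Cfsg.Statements.S4036
import Cfsg.Agent.Lib.PGroups.Fixed

set_option autoImplicit false
open Cfsg

namespace Cfsg.Agent.S4036

open Cfsg.Agent.Lib.PGroups

/-- Let P be a finite abelian p-group and K a group of automorphisms of P (a subgroup of Aut P) whose order is divisible by p. If all non-identity elements of K have the same fixed-point subgroup on P, then K has no non-trivial normal subgroup of order prime to p. -/
theorem result {P : Type*} [CommGroup P] [Finite P] {p : ℕ}
    [Fact p.Prime] (hP : IsPGroup p P) (K : Subgroup (MulAut P)) (hK : p ∣ Nat.card K)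
    (hfix : ∀ x y : MulAut P, x ∈ K → y ∈ K → x ≠ 1 → y ≠ 1 → ∀ v : P, x v = v ↔ y v = v) :
    ∀ N : Subgroup ↥K, N.Normal → ¬ p ∣ Nat.card N → N = ⊥ := by
  classical
  intro N hN hpN
  by_contra hne
  have := hN
  have := Fintype.ofFinite N
  have hp' : p.Prime := Fact.out
  obtain ⟨x, hx⟩ := exists_prime_orderOf_dvd_card' p hK
  have hx1 : (x : MulAut P) ≠ 1 := by
    intro h
    have : x = 1 := Subtype.ext h
    rw [this, orderOf_one] at hx
    exact hp'.one_lt.ne hx
  obtain ⟨n₀', hn₀'⟩ := (Subgroup.ne_bot_iff_exists_ne_one).mp hne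
  have hn₀1 : ((n₀' : K) : MulAut P) ≠ 1 := by
    intro h
    apply hn₀'
    exact Subtype.ext (Subtype.ext h)
  set n₀ : MulAut P := ((n₀' : K) : MulAut P) with hn₀def
  -- the norm map
  let T : P →* P :=
    { toFun := fun v => ∏ n : N, ((n : K) : MulAut P) v
      map_one' := by simp
      map_mul' := by intro a b; simp [Finset.prod_mul_distrib] }
  have hT : ∀ v, T v = ∏ n : N, ((n : K) : MulAut P) v := fun _ => rfl
  have hTfix : ∀ (m : N) (v : P), ((m : K) : MulAut P) (T v) = T v := by
    intro m v
    rw [hT, map_prod]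
    refine Fintype.prod_equiv (Equiv.mulLeft m) _ _ ?_
    intro n
    simp [MulAut.mul_apply]
  have hTx : ∀ v, (x : MulAut P) (T v) = T ((x : MulAut P) v) := by
    intro v
    rw [hT, hT, map_prod]
    refine Fintype.prod_equiv (MulAut.conjNormal x).toEquiv _ _ ?_
    intro n
    simp [MulAut.mul_apply]
  have hTx2 : ∀ v, (x : MulAut P) (T v) = T v := by
    intro v
    exact ((hfix n₀ (x : MulAut P) n₀'.1.2 x.2 hn₀1 hx1 (T v)).mp (hTfix n₀' v))
  -- elements fixed by x are fixed by N and killed only if trivial
  have hfixT : ∀ v, (x : MulAut P) v = v → T v = 1 → v = 1 := by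
    intro v hv hTv
    have h1 : ∀ n : N, ((n : K) : MulAut P) v = v := by
      intro n
      by_cases hn1 : ((n : K) : MulAut P) = 1
      · rw [hn1]; rfl
      · exact (hfix (x : MulAut P) _ x.2 n.1.2 hx1 hn1 v).mp hv
    have h2 : T v = v ^ Nat.card N := by
      rw [hT, Finset.prod_congr rfl (fun n _ => h1 n), Finset.prod_const, Finset.card_univ,
        Nat.card_eq_fintype_card]
    rw [h2] at hTv
    obtain ⟨k, hk⟩ := hP v
    have h3 := orderOf_dvd_of_pow_eq_one hTv
    have h4 := orderOf_dvd_of_pow_eq_one hk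
    have h5 : (Nat.card N).Coprime (p ^ k) :=
      Nat.Coprime.pow_right k ((Nat.Prime.coprime_iff_not_dvd hp').mpr hpN).symm
    exact orderOf_eq_one_iff.mp (Nat.eq_one_of_dvd_coprimes h5 h3 h4)
  -- the kernel is trivial
  have hker : T.ker = ⊥ := by
    by_contra hV
    have hVp : IsPGroup p T.ker := hP.to_subgroup T.ker
    have hc : p ∣ Nat.card T.ker := by
      obtain ⟨k, hk⟩ := IsPGroup.iff_card.mp hVp
      rw [hk]
      apply dvd_pow_self
      rintro rfl
      rw [pow_zero] at hk
      exact hV (Subgroup.eq_bot_of_card_eq _ hk)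
    let f : Function.End T.ker := fun v => ⟨(x : MulAut P) v, by
      rw [MonoidHom.mem_ker, ← hTx, MonoidHom.mem_ker.mp v.2, map_one]⟩
    have hfpow : ∀ (k : ℕ) (v : T.ker), (((f ^ k) v : T.ker) : P) = ((x : MulAut P) ^ k) (v : P) := by
      intro k
      induction k with
      | zero => intro v; simp; rfl
      | succ k ih =>
        intro v
        rw [pow_succ]
        have : (f ^ k * f) v = (f ^ k) (f v) := rfl
        rw [this, ih, pow_succ, MulAut.mul_apply]
    have hf : f ^ p ^ 1 = 1 := by
      rw [pow_one]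
      funext v
      apply Subtype.ext
      rw [hfpow]
      have h1 : (x : MulAut P) ^ p = 1 := by
        have : x ^ p = 1 := by rw [← hx, pow_orderOf_eq_one]
        exact congrArg Subtype.val this
      rw [h1]; rfl
    have hb : f 1 = 1 := by
      apply Subtype.ext
      change (x : MulAut P) 1 = 1
      exact map_one _
    obtain ⟨c, hc1, hc2⟩ := exists_ne_fixed_of_pow hf hc hb
    apply hc1
    apply Subtype.ext
    exact hfixT c (congrArg Subtype.val hc2) (MonoidHom.mem_ker.mp c.2)
  have hinj : Function.Injective T := (MonoidHom.ker_eq_bot_iff T).mp hker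
  have hsurj : Function.Surjective T := Finite.injective_iff_surjective.mp hinj
  apply hx1
  ext v
  obtain ⟨u, rfl⟩ := hsurj v
  exact hTx2 u

end Cfsg.Agent.S4036
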