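import Cfsg.Statements.S4039
import Cfsg.Agent.Lib.PGroups.NilpMax

set_option autoImplicit false
open Cfsg

namespace Cfsg.Agent.S4039


/-- A finite group possessing a maximal subgroup that is nilpotent of class at most 2 is solvable. -/
theorem result {G : Type*} [Group G] [Finite G]
    (M : Subgroup G) (hmax : IsCoatom M) (hnil : Group.IsNilpotent M) (hcl : Group.nilpotencyClass ↥M ≤ 2) :
    Group.IsSolvable G := by
  refine Cfsg.Agent.Lib.PGroups.isSolvable_of_nilpotent_coatom_induction (fun X _ M => Group.nilpotencyClass M ≤ 2) ?_ ?_ _ G M rfl hmax hnil hcl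
  · intro X _ _ M N _ hn h
    haveI := hn
    exact (Group.nilpotencyClass_le_of_surjective ((QuotientGroup.mk' N).subgroupMap M)
      ((QuotientGroup.mk' N).subgroupMap_surjective M)).trans h
  · intro X _ _ M hM hnil hcl hcf q hq hd
    haveI : Fact q.Prime := ⟨hq⟩
    haveI := hnil
    refine Cfsg.Agent.Lib.PGroups.hasNormalPComplement_of_class_two hM hnil hcf ?_ q hd
    intro a ha b hb c hc
    have h := (Subgroup.upperCentralSeries_eq_top_iff_nilpotencyClass_le (G := M)).mpr hcl
    have ha' : (⟨a, ha⟩ : M) ∈ Subgroup.upperCentralSeries M 2 := by rw [h]; trivial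
    have h2 := (Subgroup.mem_upperCentralSeries_succ_iff (G := M)).mp ha' ⟨b, hb⟩
    rw [show (1 : ℕ) = 1 from rfl, Subgroup.upperCentralSeries_one] at h2
    exact congrArg Subtype.val ((Subgroup.mem_center_iff.mp h2) ⟨c, hc⟩)

end Cfsg.Agent.S4039
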