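import Cfsg.Statements.S4043
import Cfsg.Agent.Lib.PGroups.ConjFixed
import Cfsg.Agent.Lib.Basic.SchurZassenhaus
import Cfsg.Agent.Lib.Basic.CoprimeAction2

set_option autoImplicit false
open Cfsg

namespace Cfsg.Agent.S4043

open Subgroup Cfsg.Agent.Lib.Basic Cfsg.Agent.Lib.PGroups
open scoped Pointwise

private lemma key {G : Type*} [Group G] [Finite G] {p : ℕ} [hp : Fact p.Prime]
    (N : Subgroup G) [hNn : N.Normal] (hN : IsPGroup p N) (A B O S : Subgroup G)
    (hAO : A ≤ normalizer (O : Set G)) (hBO : B ≤ normalizer (O : Set G)) (hOA : O ≤ A)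
    (hOc : (Nat.card O).Coprime p) (hS : S ≤ A) (hSp : IsPGroup p S)
    (hA : ∀ a ∈ A, ∃ o ∈ O, ∃ s ∈ S, a = o * s)
    (hsup : ∀ g : G, ∃ n ∈ N, ∃ a ∈ A, g = n * a)
    (hC : ∀ n : G, n ∈ N → (∀ a : G, a ∈ A → a * n * a⁻¹ = n) → n = 1) : B ≤ A := by
  set C := N ⊓ centralizer (O : Set G) with hCdef
  have hdisj : ∀ u : G, u ∈ N → u ∈ O → u = 1 := by
    intro u hu hu'
    have hd : Disjoint N O := Subgroup.disjoint_of_coprime_natCard (by
      obtain ⟨k, hk⟩ := IsPGroup.iff_card.mp hN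
      rw [hk]
      exact (Nat.Coprime.pow_left _ hOc.symm))
    exact (Subgroup.disjoint_def.mp hd) hu hu'
  have hCbot : C = ⊥ := by
    by_contra hne
    have hCp : IsPGroup p C := hN.to_le inf_le_left
    have hSC : S ≤ normalizer (C : Set G) := by
      intro s hs
      rw [mem_normalizer_iff]
      intro x
      have hsA := hS hs
      have hsO : ∀ y : G, y ∈ O ↔ s * y * s⁻¹ ∈ O := mem_normalizer_iff.mp (hAO hsA)
      constructor
      · intro hx
        obtain ⟨hxN, hxC⟩ := Subgroup.mem_inf.mp hx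
        refine Subgroup.mem_inf.mpr ⟨hNn.conj_mem _ hxN _, ?_⟩
        rw [mem_centralizer_iff] at hxC ⊢
        intro y hy
        have h1 : s⁻¹ * y * s ∈ O := by
          have := (hsO (s⁻¹ * y * s)).mpr (by simpa [mul_assoc] using hy)
          exact this
        have h2 := hxC _ h1
        calc y * (s * x * s⁻¹) = s * (s⁻¹ * y * s * x) * s⁻¹ := by group
          _ = s * (x * (s⁻¹ * y * s)) * s⁻¹ := by rw [h2]
          _ = _ := by group
      · intro hx
        obtain ⟨hxN, hxC⟩ := Subgroup.mem_inf.mp hx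
        refine Subgroup.mem_inf.mpr ⟨?_, ?_⟩
        · have := hNn.conj_mem _ hxN s⁻¹
          simpa [mul_assoc] using this
        · rw [mem_centralizer_iff] at hxC ⊢
          intro y hy
          have h1 := hxC _ ((hsO y).mp hy)
          have h2 : s * (y * x) * s⁻¹ = s * (x * y) * s⁻¹ := by
            calc s * (y * x) * s⁻¹ = (s * y * s⁻¹) * (s * x * s⁻¹) := by group
              _ = (s * x * s⁻¹) * (s * y * s⁻¹) := h1
              _ = _ := by group
          have h3 := mul_left_cancel (mul_right_cancel h2)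
          exact h3
    obtain ⟨z, hzC, hz1, hz⟩ := exists_ne_one_fixed_of_isPGroup hSC hCp hSp hne
    apply hz1
    apply hC z (Subgroup.mem_inf.mp hzC).1
    intro a ha
    obtain ⟨o, ho, s, hs, rfl⟩ := hA a ha
    have h1 := hz s hs
    have h2 : o * z = z * o := by
      have := (Subgroup.mem_inf.mp hzC).2
      rw [mem_centralizer_iff] at this
      exact this o ho
    calc o * s * z * (o * s)⁻¹ = o * (s * z * s⁻¹) * o⁻¹ := by group
      _ = o * z * o⁻¹ := by rw [h1]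
      _ = z := by rw [h2]; group
  intro x hx
  obtain ⟨n, hn, a, ha, rfl⟩ := hsup x
  have hnO : n ∈ normalizer (O : Set G) := by
    have h1 := mul_mem (hBO hx) (inv_mem (hAO ha))
    simpa [mul_assoc] using h1
  have hnC : n ∈ C := by
    refine Subgroup.mem_inf.mpr ⟨hn, ?_⟩
    rw [mem_centralizer_iff]
    intro y hy
    have h1 : n * y * n⁻¹ ∈ O := (mem_normalizer_iff.mp hnO y).mp hy
    have h2 : n * y * n⁻¹ * y⁻¹ ∈ O := mul_mem h1 (inv_mem hy)
    have h3 : n * y * n⁻¹ * y⁻¹ ∈ N := by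
      have := hNn.conj_mem _ (inv_mem hn) y
      have h4 : n * y * n⁻¹ * y⁻¹ = n * (y * n⁻¹ * y⁻¹) := by group
      rw [h4]
      exact mul_mem hn this
    have h4 := hdisj _ h3 h2
    rw [mul_inv_eq_one, mul_inv_eq_iff_eq_mul] at h4
    exact h4.symm
  rw [hCbot] at hnC
  have h1 : n = 1 := by simpa using hnC
  rw [h1, one_mul]
  exact ha

private lemma le_sup_of_coprime {G : Type*} [Group G] [Finite G] {p : ℕ} [hp : Fact p.Prime]
    (N : Subgroup G) [hNn : N.Normal] (A O S H : Subgroup G)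
    (hAO : A ≤ normalizer (O : Set G))
    (hS : S ≤ A) (hSp : IsPGroup p S)
    (hA : ∀ a ∈ A, ∃ o ∈ O, ∃ s ∈ S, a = o * s)
    (hsup : ∀ g : G, ∃ n ∈ N, ∃ a ∈ A, g = n * a)
    (hH : (Nat.card H).Coprime p) : H ≤ N ⊔ O := by
  have hLn : (N ⊔ O).Normal := by
    rw [← Subgroup.normalizer_eq_top_iff, eq_top_iff]
    intro g _
    obtain ⟨n, hn, a, ha, rfl⟩ := hsup g
    refine mul_mem (Subgroup.le_normalizer (le_sup_left (a := N) (b := O) hn)) ?_
    have h1 : A ≤ normalizer ((N : Subgroup G) : Set G) := by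
      rw [Subgroup.normalizer_eq_top_iff.mpr hNn]; exact le_top
    exact le_normalizer_sup h1 hAO ha
  intro x hx
  obtain ⟨n, hn, a, ha, rfl⟩ := hsup x
  obtain ⟨o, ho, s, hs, rfl⟩ := hA a ha
  have hL : ∀ y : G, y ∈ N ⊔ O ↔ (QuotientGroup.mk y : G ⧸ (N ⊔ O)) = 1 := by
    intro y
    exact (QuotientGroup.eq_one_iff y).symm
  rw [hL]
  have h1 : (QuotientGroup.mk (n * (o * s)) : G ⧸ (N ⊔ O)) = (QuotientGroup.mk s : G ⧸ (N ⊔ O)) := by
    rw [← mul_assoc, QuotientGroup.mk_mul]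
    have h2 : n * o ∈ N ⊔ O := mul_mem (le_sup_left (a := N) (b := O) hn) (le_sup_right (a := N) (b := O) ho)
    rw [(hL _).mp h2, one_mul]
  have h3 : (QuotientGroup.mk (n * (o * s)) : G ⧸ (N ⊔ O)) ^ Nat.card H = 1 := by
    rw [← QuotientGroup.mk_pow]
    have : (n * (o * s)) ^ Nat.card H = 1 := by
      have := pow_card_eq_one' (x := (⟨_, hx⟩ : H))
      exact congrArg Subtype.val this
    rw [this]
    rfl
  obtain ⟨k, hk⟩ := hSp ⟨s, hs⟩
  have hk' : s ^ p ^ k = 1 := congrArg Subtype.val hk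
  have h4 : (QuotientGroup.mk (n * (o * s)) : G ⧸ (N ⊔ O)) ^ p ^ k = 1 := by
    rw [h1, ← QuotientGroup.mk_pow, hk']
    rfl
  have h5 : Nat.gcd (Nat.card H) (p ^ k) = 1 := Nat.Coprime.pow_right _ hH
  have h6 := pow_gcd_eq_one.mpr ⟨h3, h4⟩
  rwa [h5, pow_one] at h6


/-- Let G be a finite group that is the semidirect product of a normal p-subgroup N by a subgroup A, and also of N by a subgroup A₁, where p is a prime and A and A₁ both have normal p-complements. If C_N(A) = C_N(A₁) = 1, then A₁ is conjugate to A by an element of N. -/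
theorem result {G : Type*} [Group G] [Finite G] {p : ℕ}
    [Fact p.Prime] (N : Subgroup G) [N.Normal] (hN : IsPGroup p N) (A A₁ : Subgroup G)
    (hA : A.IsComplement' N) (hA₁ : A₁.IsComplement' N)
    (hAp : Cfsg.HasNormalPComplement p A) (hA₁p : Cfsg.HasNormalPComplement p A₁)
    (hC : ∀ n : G, n ∈ N → (∀ a : G, a ∈ A → a * n * a⁻¹ = n) → n = 1)
    (hC₁ : ∀ n : G, n ∈ N → (∀ a : G, a ∈ A₁ → a * n * a⁻¹ = n) → n = 1) :
    ∃ n : G, n ∈ N ∧ A₁ = A.map (MulAut.conj n).toMonoidHom := by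
  classical
  obtain ⟨P, K, hKn, hK⟩ := hAp
  obtain ⟨P₁, K₁, hK₁n, hK₁⟩ := hA₁p
  set O := K.map A.subtype with hO
  set S := (P : Subgroup A).map A.subtype with hS
  set O₁ := K₁.map A₁.subtype with hO₁
  set S₁ := (P₁ : Subgroup A₁).map A₁.subtype with hS₁
  have hOcard : (Nat.card O).Coprime p := by
    have h1 : Nat.card O = Nat.card K := Nat.card_congr (Subgroup.equivMapOfInjective K A.subtype A.subtype_injective).symm.toEquiv
    rw [h1, ← hK.index_eq_card]
    exact ((Nat.Prime.coprime_iff_not_dvd Fact.out).mpr P.not_dvd_index).symm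
  have hO₁card : (Nat.card O₁).Coprime p := by
    have h1 : Nat.card O₁ = Nat.card K₁ := Nat.card_congr (Subgroup.equivMapOfInjective K₁ A₁.subtype A₁.subtype_injective).symm.toEquiv
    rw [h1, ← hK₁.index_eq_card]
    exact ((Nat.Prime.coprime_iff_not_dvd Fact.out).mpr P₁.not_dvd_index).symm
  have hSp : IsPGroup p S := P.2.map _
  have hS₁p : IsPGroup p S₁ := P₁.2.map _
  have hSA : S ≤ A := by
    rintro _ ⟨x, -, rfl⟩
    exact x.2
  have hS₁A : S₁ ≤ A₁ := by
    rintro _ ⟨x, -, rfl⟩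
    exact x.2
  have hOA : O ≤ A := by
    rintro _ ⟨x, -, rfl⟩
    exact x.2
  have hO₁A : O₁ ≤ A₁ := by
    rintro _ ⟨x, -, rfl⟩
    exact x.2
  have gen : ∀ (A' : Subgroup G) (K' : Subgroup A') (P' : Subgroup A'), K'.Normal → K'.IsComplement' P' →
      A' ≤ normalizer ((K'.map A'.subtype : Subgroup G) : Set G) ∧
      ∀ a ∈ A', ∃ o ∈ K'.map A'.subtype, ∃ s ∈ P'.map A'.subtype, a = o * s := by
    intro A' K' P' hn hc
    constructor
    · intro a ha
      rw [mem_normalizer_iff]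
      intro y
      constructor
      · rintro ⟨k, hk, rfl⟩
        exact ⟨⟨a, ha⟩ * k * ⟨a, ha⟩⁻¹, hn.conj_mem _ hk _, rfl⟩
      · rintro ⟨k, hk, e⟩
        have hy : y = ((⟨a, ha⟩⁻¹ * k * ⟨a, ha⟩ : A') : G) := by
          have : a * y * a⁻¹ = k := e.symm
          simp only [Subgroup.coe_mul, InvMemClass.coe_inv]
          rw [← this]
          group
        rw [hy]
        refine ⟨⟨a, ha⟩⁻¹ * k * ⟨a, ha⟩, ?_, rfl⟩
        have := hn.conj_mem _ hk (⟨a, ha⟩⁻¹ : A')
        simpa using this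
    · intro a ha
      obtain ⟨⟨k, s⟩, e⟩ := hc.2 ⟨a, ha⟩
      refine ⟨(k : A'), ⟨k, k.2, rfl⟩, (s : A'), ⟨s, s.2, rfl⟩, ?_⟩
      have := congrArg Subtype.val e
      exact this.symm
  obtain ⟨hAO, hAfac⟩ := gen A K P hKn hK
  obtain ⟨hA₁O, hA₁fac⟩ := gen A₁ K₁ P₁ hK₁n hK₁
  have split : ∀ (B : Subgroup G), B.IsComplement' N → ∀ g : G, ∃ n ∈ N, ∃ a ∈ B, g = n * a := by
    intro B hB g
    have hg : g⁻¹ ∈ B ⊔ N := by rw [hB.sup_eq_top]; exact Subgroup.mem_top _
    obtain ⟨h', hh', m', hm', e⟩ := Subgroup.mem_sup_of_normal_right.mp hg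
    refine ⟨m'⁻¹, inv_mem hm', h'⁻¹, inv_mem hh', ?_⟩
    rw [← mul_inv_rev, e, inv_inv]
  have h1 : O₁ ≤ N ⊔ O := le_sup_of_coprime N A O S O₁ hAO hSA hSp hAfac (split A hA) hO₁card
  have h2 : O ≤ N ⊔ O₁ := le_sup_of_coprime N A₁ O₁ S₁ O hA₁O hS₁A hS₁p hA₁fac (split A₁ hA₁) hOcard
  have hsupeq : O ⊔ N = O₁ ⊔ N := by
    apply le_antisymm
    · exact sup_le (h2.trans (by rw [sup_comm])) le_sup_right
    · exact sup_le (h1.trans (by rw [sup_comm])) le_sup_right
  have hNnorm : normalizer ((N : Subgroup G) : Set G) = ⊤ := Subgroup.normalizer_eq_top_iff.mpr ‹N.Normal›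
  have hNcard : (Nat.card N).Coprime (Nat.card O) := by
    obtain ⟨k, hk⟩ := IsPGroup.iff_card.mp hN
    rw [hk]
    exact Nat.Coprime.pow_left _ hOcard.symm
  have hN₁card : (Nat.card N).Coprime (Nat.card O₁) := by
    obtain ⟨k, hk⟩ := IsPGroup.iff_card.mp hN
    rw [hk]
    exact Nat.Coprime.pow_left _ hO₁card.symm
  obtain ⟨c, hcN, hc⟩ := schurZassenhaus_conj_rel N O O₁ (by rw [hNnorm]; exact le_top)
    (by rw [hNnorm]; exact le_top) hNcard hN₁card hsupeq (Or.inl (by haveI := hN.isNilpotent; infer_instance))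
  have hBdef : MulAut.conj c • A = A.map (MulAut.conj c).toMonoidHom := by
    rw [conj_smul_eq_map]
  have hBO₁ : (MulAut.conj c • A : Subgroup G) ≤ normalizer (O₁ : Set G) := by
    intro x hx
    rw [← hc]
    rw [mem_conj_smul] at hx
    have h3 := hAO hx
    rw [mem_normalizer_iff] at h3 ⊢
    intro y
    rw [mem_conj_smul, mem_conj_smul]
    have h4 := h3 (c⁻¹ * y * c)
    rw [h4]
    have : c⁻¹ * x * c * (c⁻¹ * y * c) * (c⁻¹ * x * c)⁻¹ = c⁻¹ * (x * y * x⁻¹) * c := by group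
    rw [this]
  have hle : (MulAut.conj c • A : Subgroup G) ≤ A₁ :=
    key N hN A₁ _ O₁ S₁ hA₁O hBO₁ hO₁A hO₁card hS₁A hS₁p hA₁fac (split A₁ hA₁) hC₁
  have hcard : Nat.card (MulAut.conj c • A : Subgroup G) = Nat.card A₁ := by
    rw [card_conj_smul, ← hA.index_eq_card, ← hA₁.index_eq_card]
  have heq : (MulAut.conj c • A : Subgroup G) = A₁ := Subgroup.eq_of_le_of_card_ge hle hcard.ge
  refine ⟨c, hcN, ?_⟩
  rw [← heq, hBdef]

end Cfsg.Agent.S4043
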