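import Cfsg.Statements.S4049
import Cfsg.Agent.Lib.PGroups.NoInvert

set_option autoImplicit false
open Cfsg

namespace Cfsg.Agent.S4049


/-- Let G be a finite group such that N_G(H)/C_G(H) has odd order for every nontrivial subgroup H of odd order. Then the Sylow 2-subgroups of G are normal. -/
theorem result {G : Type*} [Group G] [Finite G]
    (hhom : ∀ H : Subgroup G, H ≠ ⊥ → ¬ 2 ∣ Nat.card ↥H →
        ¬ 2 ∣ (Subgroup.centralizer (H : Set G)).relIndex (Subgroup.normalizer (H : Set G))) (P : Sylow 2 G) :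
    (P : Subgroup G).Normal := by
  refine Cfsg.Agent.Lib.PGroups.sylow_normal_of_noInvert _ G rfl ?_ P
  intro x hx g hg hg2
  by_contra hgC
  have hx1 : Subgroup.zpowers x ≠ ⊥ := by
    intro hb
    rw [Subgroup.zpowers_eq_bot] at hb
    apply hgC
    rw [hb, Subgroup.mem_centralizer_singleton_iff]
    simp
  have hcard : ¬ 2 ∣ Nat.card (Subgroup.zpowers x) := by
    rw [Nat.card_zpowers]
    exact fun hd => (Nat.not_even_iff_odd.mpr hx) (even_iff_two_dvd.mpr hd)
  have h1 := hhom _ hx1 hcard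
  apply h1
  have hCeq : Subgroup.centralizer ((Subgroup.zpowers x : Subgroup G) : Set G) = Subgroup.centralizer {x} := by
    rw [Subgroup.zpowers_eq_closure, Subgroup.centralizer_closure]
  rw [hCeq]
  set N := Subgroup.normalizer ((Subgroup.zpowers x : Subgroup G) : Set G) with hN
  set C := Subgroup.centralizer ({x} : Set G) with hC
  have hnorm : (C.subgroupOf N).Normal := by
    constructor
    rintro ⟨c, hcN⟩ hc ⟨n, hn⟩
    rw [Subgroup.mem_subgroupOf] at hc ⊢
    have hc' : c * x = x * c := Subgroup.mem_centralizer_singleton_iff.mp hc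
    show n * c * n⁻¹ ∈ C
    rw [← hCeq, Subgroup.mem_centralizer_iff]
    intro h hh
    have h2 : n⁻¹ * h * n ∈ Subgroup.zpowers x := by
      have := (Subgroup.mem_normalizer_iff.mp (inv_mem hn) h).mp hh
      simpa using this
    have h3 : c ∈ Subgroup.centralizer ((Subgroup.zpowers x : Subgroup G) : Set G) := by
      rw [hCeq]; exact hc
    have h4 := (Subgroup.mem_centralizer_iff.mp h3) _ h2
    have h5 : h * (n * c * n⁻¹) = n * ((n⁻¹ * h * n) * c) * n⁻¹ := by group
    have h6 : n * c * n⁻¹ * h = n * (c * (n⁻¹ * h * n)) * n⁻¹ := by group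
    rw [h5, h6, h4]
  have h2 : ((⟨g, hg⟩ : N) : N) ∉ C.subgroupOf N := by
    rw [Subgroup.mem_subgroupOf]; exact hgC
  let gb : N ⧸ C.subgroupOf N := QuotientGroup.mk ⟨g, hg⟩
  have hgb1 : gb ≠ 1 := by
    intro he
    exact h2 ((QuotientGroup.eq_one_iff _).mp he)
  have hgb2 : gb ^ 2 = 1 := by
    have : gb ^ 2 = QuotientGroup.mk (⟨g, hg⟩ ^ 2 : N) := rfl
    rw [this, QuotientGroup.eq_one_iff, Subgroup.mem_subgroupOf]
    exact hg2
  have h3 : orderOf gb = 2 := orderOf_eq_prime hgb2 hgb1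
  have h4 : orderOf gb ∣ Nat.card (N ⧸ C.subgroupOf N) := orderOf_dvd_natCard gb
  rw [h3] at h4
  exact h4

end Cfsg.Agent.S4049
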