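import Cfsg.Statements.S4056
import Cfsg.Agent.Lib.Basic.Frattini

set_option autoImplicit false
open Cfsg

namespace Cfsg.Agent.S4056

private theorem key {P : Type*} [Group P] (hc : ∀ x y : P, x * y * x⁻¹ * y⁻¹ ∈ Subgroup.center P)
    (h4 : ∀ x : P, x ^ 4 = 1) (x y : P) :
    (x * y * x⁻¹ * y⁻¹) ^ 2 = 1 := by
  set c := x * y * x⁻¹ * y⁻¹ with hcdef
  have hcm : ∀ g : P, c * g = g * c := fun g => (Subgroup.mem_center_iff.mp (hc x y) g).symm
  have h1 : x * y = c * (y * x) := by rw [hcdef]; group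
  have e1 : ∀ n : ℕ, x * y ^ n = c ^ n * (y ^ n * x) := by
    intro n
    induction n with
    | zero => simp
    | succ n ih =>
      calc x * y ^ (n + 1) = (x * y ^ n) * y := by rw [pow_succ]; group
        _ = c ^ n * (y ^ n * (x * y)) := by rw [ih]; group
        _ = c ^ n * (y ^ n * (c * (y * x))) := by rw [h1]
        _ = c ^ n * (c * (y ^ n * (y * x))) := by
            rw [← mul_assoc (y ^ n) c, ← hcm (y ^ n), mul_assoc c]
        _ = c ^ (n + 1) * (y ^ (n + 1) * x) := by rw [pow_succ c, pow_succ y]; group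
  have hc4 : c ^ 4 = 1 := by
    have := e1 4
    rw [h4 y, mul_one, one_mul] at this
    exact (mul_eq_right.mp this.symm)
  have e2 : x * y ^ 2 = c ^ 2 * (y ^ 2 * x) := e1 2
  have e3 : x ^ 2 * y ^ 2 = y ^ 2 * x ^ 2 := by
    have hcm2 : ∀ g : P, c ^ 2 * g = g * c ^ 2 := by
      intro g
      have : Commute c g := hcm g
      exact (this.pow_left 2).eq
    calc x ^ 2 * y ^ 2 = x * (x * y ^ 2) := by rw [pow_two x]; group
      _ = x * (c ^ 2 * (y ^ 2 * x)) := by rw [e2]
      _ = c ^ 2 * ((x * y ^ 2) * x) := by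
          rw [← mul_assoc x (c ^ 2), ← hcm2 x]; group
      _ = c ^ 2 * (c ^ 2 * (y ^ 2 * x) * x) := by rw [e2]
      _ = (c ^ 2 * c ^ 2) * (y ^ 2 * x ^ 2) := by rw [pow_two x]; group
      _ = y ^ 2 * x ^ 2 := by
          rw [← pow_add, show 2 + 2 = 4 from rfl, hc4, one_mul]
  have e4 : (x * y) * (x * y) = c⁻¹ * (x ^ 2 * y ^ 2) := by
    have h2 : y * x = c⁻¹ * (x * y) := by rw [h1]; group
    have hcmi : ∀ g : P, c⁻¹ * g = g * c⁻¹ := by
      intro g
      have : Commute c g := hcm g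
      exact this.inv_left.eq
    calc (x * y) * (x * y) = x * (y * x) * y := by group
      _ = x * (c⁻¹ * (x * y)) * y := by rw [h2]
      _ = c⁻¹ * (x ^ 2 * y ^ 2) := by
          rw [← mul_assoc x c⁻¹, ← hcmi x, pow_two, pow_two]; group
  have h8 : ((x * y) * (x * y)) * ((x * y) * (x * y)) = 1 := by
    have := h4 (x * y)
    rw [show (x * y) ^ 4 = ((x * y) * (x * y)) * ((x * y) * (x * y)) by
      rw [pow_succ, pow_succ, pow_succ, pow_one]; group] at this
    exact this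
  rw [e4] at h8
  have hcmi : ∀ g : P, c⁻¹ * g = g * c⁻¹ := by
    intro g
    have : Commute c g := hcm g
    exact this.inv_left.eq
  have h9 : c⁻¹ * (x ^ 2 * y ^ 2) * (c⁻¹ * (x ^ 2 * y ^ 2)) = c⁻¹ * c⁻¹ * ((x ^ 2 * y ^ 2) * (x ^ 2 * y ^ 2)) := by
    rw [mul_assoc c⁻¹ (x ^ 2 * y ^ 2), ← mul_assoc (x ^ 2 * y ^ 2) c⁻¹, ← hcmi (x ^ 2 * y ^ 2)]
    group
  have h10 : (x ^ 2 * y ^ 2) * (x ^ 2 * y ^ 2) = 1 := by
    calc (x ^ 2 * y ^ 2) * (x ^ 2 * y ^ 2) = x ^ 2 * (y ^ 2 * x ^ 2) * y ^ 2 := by group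
      _ = x ^ 2 * (x ^ 2 * y ^ 2) * y ^ 2 := by rw [e3]
      _ = x ^ 4 * y ^ 4 := by
          rw [show (4 : ℕ) = 2 + 2 from rfl, pow_add, pow_add]; group
      _ = 1 := by rw [h4, h4, one_mul]
  rw [h9, h10, mul_one] at h8
  rw [pow_two]
  have : (c * c)⁻¹ = 1 := by rw [mul_inv_rev]; exact h8
  exact inv_eq_one.mp this

private theorem sq_central {P : Type*} [Group P] (hc : ∀ x y : P, x * y * x⁻¹ * y⁻¹ ∈ Subgroup.center P)
    (h2 : ∀ x y : P, (x * y * x⁻¹ * y⁻¹) ^ 2 = 1) (x y : P) : y * x ^ 2 = x ^ 2 * y := by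
  set c := x * y * x⁻¹ * y⁻¹ with hcdef
  have hcm : ∀ g : P, c * g = g * c := fun g => (Subgroup.mem_center_iff.mp (hc x y) g).symm
  have h1 : x * y = c * (y * x) := by rw [hcdef]; group
  have hc2 : c * c = 1 := by rw [← pow_two]; exact h2 x y
  calc y * x ^ 2 = (c * c) * (y * x ^ 2) := by rw [hc2, one_mul]
    _ = c * (c * (y * x)) * x := by rw [pow_two]; group
    _ = c * (x * y) * x := by rw [h1]
    _ = x * (c * y) * x := by rw [← mul_assoc, hcm x]; group
    _ = x * (y * c) * x := by rw [hcm y]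
    _ = x * (c * y * x) := by rw [hcm y]; group
    _ = x * (x * y) := by rw [h1, mul_assoc c]
    _ = x ^ 2 * y := by rw [pow_two]; group


/-- In a finite 2-group of nilpotency class at most 2 and exponent dividing 4, the Frattini subgroup lies in the centre and is elementary abelian. -/
theorem result {P : Type*} [Group P] [Finite P] (hP : IsPGroup 2 P)
    (hcl : Group.nilpotencyClass P ≤ 2) (hexp : Monoid.exponent P ∣ 4) :
    frattini P ≤ Subgroup.center P ∧ Cfsg.IsElementaryAbelian 2 (frattini P) := by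
  classical
  haveI : Group.IsNilpotent P := hP.isNilpotent
  have htop : upperCentralSeries P 2 = ⊤ := upperCentralSeries_eq_top_iff_nilpotencyClass_le.mpr hcl
  have hc : ∀ x y : P, x * y * x⁻¹ * y⁻¹ ∈ Subgroup.center P := by
    intro x y
    have hx : x ∈ upperCentralSeries P 2 := by rw [htop]; trivial
    have := (mem_upperCentralSeries_succ_iff (G := P) (n := 1) (x := x)).mp hx y
    rwa [upperCentralSeries_one] at this
  have h4 : ∀ x : P, x ^ 4 = 1 := fun x =>
    Monoid.exponent_dvd_iff_forall_pow_eq_one.mp hexp x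
  have h2 : ∀ x y : P, (x * y * x⁻¹ * y⁻¹) ^ 2 = 1 := key hc h4
  -- the subgroup of central involutions
  let N : Subgroup P :=
    { carrier := {z | z ∈ Subgroup.center P ∧ z ^ 2 = 1}
      mul_mem' := by
        rintro a b ⟨ha, ha2⟩ ⟨hb, hb2⟩
        refine ⟨mul_mem ha hb, ?_⟩
        have : Commute a b := (Subgroup.mem_center_iff.mp ha b).symm
        rw [this.mul_pow, ha2, hb2, one_mul]
      one_mem' := ⟨one_mem _, one_pow _⟩
      inv_mem' := by
        rintro a ⟨ha, ha2⟩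
        exact ⟨inv_mem ha, by rw [inv_pow, ha2, inv_one]⟩ }
  have hN : frattini P ≤ N := by
    apply Cfsg.Agent.Lib.Basic.frattini_le_of_commutator_le_of_pow_mem Nat.prime_two N
    · rw [commutator_def, Subgroup.commutator_le]
      intro x _ y _
      exact ⟨hc x y, h2 x y⟩
    · intro x
      refine ⟨?_, ?_⟩
      · rw [Subgroup.mem_center_iff]
        intro y
        exact sq_central hc h2 x y
      · rw [← pow_mul]; exact h4 x
  refine ⟨fun z hz => (hN hz).1, ?_⟩
  refine ⟨⟨⟨?_⟩⟩, fun a ha => (hN ha).2⟩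
  rintro ⟨a, ha⟩ ⟨b, hb⟩
  apply Subtype.ext
  exact (Subgroup.mem_center_iff.mp (hN ha).1 b).symm

end Cfsg.Agent.S4056
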