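import Cfsg.Statements.S4065

set_option autoImplicit false
open Cfsg

namespace Cfsg.Agent.S4065

theorem comm_of_comm_nonscalar {F : Type*} [Field F] (A B C : Matrix (Fin 2) (Fin 2) F)
    (hA : ¬ (A 0 1 = 0 ∧ A 1 0 = 0 ∧ A 0 0 = A 1 1)) (hAB : A * B = B * A) (hAC : A * C = C * A) :
    B * C = C * B := by
  have e00 := congrFun (congrFun hAB 0) 0
  have e01 := congrFun (congrFun hAB 0) 1
  have e10 := congrFun (congrFun hAB 1) 0
  have f00 := congrFun (congrFun hAC 0) 0
  have f01 := congrFun (congrFun hAC 0) 1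
  have f10 := congrFun (congrFun hAC 1) 0
  simp only [Matrix.mul_apply, Fin.sum_univ_two] at e00 e01 e10 f00 f01 f10
  generalize A 0 0 = a at *
  generalize A 0 1 = b at *
  generalize A 1 0 = c at *
  generalize A 1 1 = d at *
  generalize hBe : B 0 0 = e at *
  generalize hBf : B 0 1 = f at *
  generalize hBg : B 1 0 = g at *
  generalize hBh : B 1 1 = h at *
  generalize hCe : C 0 0 = e' at *
  generalize hCf : C 0 1 = f' at *
  generalize hCg : C 1 0 = g' at *
  generalize hCh : C 1 1 = h' at *
  have E1 : b * g = c * f := by linear_combination e00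
  have E2 : f * (a - d) = b * (e - h) := by linear_combination e01
  have E3 : g * (a - d) = c * (e - h) := by linear_combination (-1 : F) * e10
  have E1' : b * g' = c * f' := by linear_combination f00
  have E2' : f' * (a - d) = b * (e' - h') := by linear_combination f01
  have E3' : g' * (a - d) = c * (e' - h') := by linear_combination (-1 : F) * f10
  have hgoal : f * g' = g * f' ∧ f * (e' - h') = f' * (e - h) ∧ g * (e' - h') = g' * (e - h) := by
    by_cases hb : b = 0
    · by_cases hc : c = 0
      · have hs : a - d ≠ 0 := fun h0 => hA ⟨hb, hc, sub_eq_zero.mp h0⟩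
        refine ⟨mul_left_cancel₀ hs ?_, mul_left_cancel₀ hs ?_, mul_left_cancel₀ hs ?_⟩
        · linear_combination g' * E2 - f' * E3 + (e - h) * E1'
        · linear_combination (e' - h') * E2 - (e - h) * E2'
        · linear_combination (e' - h') * E3 - (e - h) * E3'
      · have G3 : g * (e' - h') = g' * (e - h) := mul_left_cancel₀ hc (by
          linear_combination (-g) * E3' + g' * E3)
        refine ⟨mul_left_cancel₀ hc ?_, mul_left_cancel₀ hc ?_, G3⟩
        · linear_combination (-g') * E1 + g * E1'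
        · linear_combination (-(e' - h')) * E1 + (e - h) * E1' + b * G3
    · have G2 : f * (e' - h') = f' * (e - h) := mul_left_cancel₀ hb (by
        linear_combination (-f) * E2' + f' * E2)
      refine ⟨mul_left_cancel₀ hb ?_, G2, mul_left_cancel₀ hb ?_⟩
      · linear_combination f * E1' - f' * E1
      · linear_combination (e' - h') * E1 - (e - h) * E1' + c * G2
  obtain ⟨G1, G2, G3⟩ := hgoal
  ext i j
  fin_cases i <;> fin_cases j <;> simp only [Matrix.mul_apply, Fin.sum_univ_two, Fin.zero_eta, Fin.mk_one, Fin.isValue]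
  all_goals simp only [hBe, hBf, hBg, hBh, hCe, hCf, hCg, hCh]
  · linear_combination G1
  · linear_combination (-1 : F) * G2
  · linear_combination G3
  · linear_combination (-1 : F) * G1

section
variable (n : ℕ)

local notation "F" => GaloisField 2 n
local notation "SLG" => Matrix.SpecialLinearGroup (Fin 2) (GaloisField 2 n)

theorem center_eq_bot : Subgroup.center SLG = ⊥ := by
  rw [eq_bot_iff]
  intro A hA
  rw [Matrix.SpecialLinearGroup.mem_center_iff] at hA
  obtain ⟨r, hr, hrA⟩ := hA
  have h2 : r ^ 2 = 1 := by simpa using hr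
  have h3 : (r + 1) * (r + 1) = 0 := by
    have h4 : (2 : F) = 0 := CharTwo.two_eq_zero
    linear_combination h2 + (r + 1) * h4
  have h5 : r + 1 = 0 := by simpa using h3
  have h6 : r = 1 := by
    have : r = -1 := eq_neg_of_add_eq_zero_left h5
    rw [this, CharTwo.neg_eq]
  rw [Subgroup.mem_bot]
  apply Subtype.ext
  rw [← hrA, h6]
  simp

theorem comm_psl {u v w : Matrix.ProjectiveSpecialLinearGroup (Fin 2) F} (hu : u ≠ 1) (hv : v * u = u * v)
    (hw : w * u = u * w) : v * w = w * v := by
  obtain ⟨u', rfl⟩ := QuotientGroup.mk_surjective u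
  obtain ⟨v', rfl⟩ := QuotientGroup.mk_surjective v
  obtain ⟨w', rfl⟩ := QuotientGroup.mk_surjective w
  have hlift : ∀ a b : SLG, ((a : Matrix.ProjectiveSpecialLinearGroup (Fin 2) F) * (b : Matrix.ProjectiveSpecialLinearGroup (Fin 2) F) =
      (b : Matrix.ProjectiveSpecialLinearGroup (Fin 2) F) * (a : Matrix.ProjectiveSpecialLinearGroup (Fin 2) F)) → a * b = b * a := by
    intro a b h
    have h1 : ((a * b : SLG) : Matrix.ProjectiveSpecialLinearGroup (Fin 2) F) = ((b * a : SLG) : Matrix.ProjectiveSpecialLinearGroup (Fin 2) F) := h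
    have h2 := QuotientGroup.eq.mp h1
    rw [center_eq_bot n, Subgroup.mem_bot] at h2
    exact inv_mul_eq_one.mp h2
  have hv' := hlift _ _ hv
  have hw' := hlift _ _ hw
  have hu' : u' ≠ 1 := fun h => hu (by rw [h]; rfl)
  have hns : ¬ ((u' : Matrix (Fin 2) (Fin 2) F) 0 1 = 0 ∧ (u' : Matrix (Fin 2) (Fin 2) F) 1 0 = 0 ∧
      (u' : Matrix (Fin 2) (Fin 2) F) 0 0 = (u' : Matrix (Fin 2) (Fin 2) F) 1 1) := by
    rintro ⟨h1, h2, h3⟩
    apply hu'
    have hdet := u'.2
    rw [Matrix.det_fin_two, h1, h2, ← h3] at hdet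
    have h4 : ((u' : Matrix (Fin 2) (Fin 2) F) 0 0 + 1) * ((u' : Matrix (Fin 2) (Fin 2) F) 0 0 + 1) = 0 := by
      have h5 : (2 : F) = 0 := CharTwo.two_eq_zero
      linear_combination hdet + ((u' : Matrix (Fin 2) (Fin 2) F) 0 0 + 1) * h5
    have h6 : (u' : Matrix (Fin 2) (Fin 2) F) 0 0 + 1 = 0 := by simpa using h4
    have h7 : (u' : Matrix (Fin 2) (Fin 2) F) 0 0 = 1 := by
      have : (u' : Matrix (Fin 2) (Fin 2) F) 0 0 = -1 := eq_neg_of_add_eq_zero_left h6
      rw [this, CharTwo.neg_eq]
    apply Subtype.ext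
    ext i j
    fin_cases i <;> fin_cases j <;> simp [h1, h2, h7, ← h3]
  have hm := comm_of_comm_nonscalar (u' : Matrix (Fin 2) (Fin 2) F) v' w' hns
    (by have := congrArg Subtype.val hv'; exact this.symm)
    (by have := congrArg Subtype.val hw'; exact this.symm)
  have hs : v' * w' = w' * v' := Subtype.ext hm
  show ((v' * w' : SLG) : Matrix.ProjectiveSpecialLinearGroup (Fin 2) F) = ((w' * v' : SLG) : Matrix.ProjectiveSpecialLinearGroup (Fin 2) F)
  rw [hs]

end


/-- Let F be a finite field with 2ⁿ elements, n ≥ 2. In PSL₂(F) the centralizer of every element meets each of its conjugates by elements outside its normalizer trivially. -/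
theorem result (n : ℕ) (hn : 2 ≤ n)
    (x : Matrix.ProjectiveSpecialLinearGroup (Fin 2) (GaloisField 2 n)) :
    Cfsg.IsTISubset (Subgroup.centralizer ({x} : Set (Matrix.ProjectiveSpecialLinearGroup (Fin 2) (GaloisField 2 n))) :
      Set (Matrix.ProjectiveSpecialLinearGroup (Fin 2) (GaloisField 2 n))) := by
  classical
  intro g hg y hy hgy
  by_contra hy1
  have hx1 : x ≠ 1 := by
    rintro rfl
    apply hg
    rw [Subgroup.mem_normalizer_iff]
    intro t
    simp [Subgroup.mem_centralizer_singleton_iff]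
  have hy' : y * x = x * y := Subgroup.mem_centralizer_singleton_iff.mp hy
  have hgy' : (g * y * g⁻¹) * x = x * (g * y * g⁻¹) := Subgroup.mem_centralizer_singleton_iff.mp hgy
  have hg1 : g * y * g⁻¹ ≠ 1 := by
    intro h
    apply hy1
    have : y = g⁻¹ * (g * y * g⁻¹) * g := by group
    rw [this, h]
    group
  -- centralizers agree
  have hC : ∀ u, u ≠ 1 → u * x = x * u → ∀ t, t * x = x * t ↔ t * u = u * t := by
    intro u hu hux t
    constructor
    · intro htx
      exact comm_psl n hx1 htx hux
    · intro htu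
      have hux' : x * u = u * x := hux.symm
      exact comm_psl n hu htu hux'
  apply hg
  rw [Subgroup.mem_normalizer_iff]
  intro t
  rw [Subgroup.mem_centralizer_singleton_iff, Subgroup.mem_centralizer_singleton_iff]
  rw [hC y hy1 hy' t, hC _ hg1 hgy' (g * t * g⁻¹)]
  constructor
  · intro h
    calc g * t * g⁻¹ * (g * y * g⁻¹) = g * (t * y) * g⁻¹ := by group
      _ = g * (y * t) * g⁻¹ := by rw [h]
      _ = g * y * g⁻¹ * (g * t * g⁻¹) := by group
  · intro h
    have h2 : g * (t * y) * g⁻¹ = g * (y * t) * g⁻¹ := by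
      calc g * (t * y) * g⁻¹ = g * t * g⁻¹ * (g * y * g⁻¹) := by group
        _ = g * y * g⁻¹ * (g * t * g⁻¹) := h
        _ = g * (y * t) * g⁻¹ := by group
    exact mul_left_cancel (mul_right_cancel h2)

end Cfsg.Agent.S4065
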