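import Cfsg.Statements.S4066
import Cfsg.Agent.Lib.PGroups.Cyclic

set_option autoImplicit false
open Cfsg

namespace Cfsg.Agent.S4066

open Cfsg.Agent.Lib.PGroups Cfsg.Agent.Lib.Basic

/-- Let G be a finite group in which the centralizer of every element meets each of its conjugates by elements outside its normalizer trivially. Then any two distinct Sylow p-subgroups of G, for any prime p, intersect trivially. -/
theorem result {G : Type*} [Group G] [Finite G] (hTI : ∀ x : G, Cfsg.IsTISubset (Subgroup.centralizer ({x} : Set G) : Set G))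
    {p : ℕ} [Fact p.Prime] (P Q : Sylow p G) (hPQ : P ≠ Q) : (P : Subgroup G) ⊓ (Q : Subgroup G) = ⊥ := by
  classical
  by_contra hne
  obtain ⟨x, ⟨hxP, hxQ⟩, hx1⟩ := (Subgroup.ne_bot_iff_exists_ne_one).mp hne |>.elim
    (fun a h => (⟨a.1, a.2, fun h' => h (Subtype.ext h')⟩ : ∃ x, x ∈ (P : Subgroup G) ⊓ (Q : Subgroup G) ∧ x ≠ 1))
  -- a central element of P
  have hPnt : Nontrivial (P : Subgroup G) := ⟨⟨⟨x, hxP⟩, 1, fun h => hx1 (congrArg Subtype.val h)⟩⟩
  have hcn := P.isPGroup'.center_nontrivial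
  obtain ⟨z', hz'⟩ := exists_ne (1 : Subgroup.center (P : Subgroup G))
  set z : G := ((z' : (P : Subgroup G)) : G) with hz
  have hz1 : z ≠ 1 := by
    intro h
    apply hz'
    exact Subtype.ext (Subtype.ext h)
  have hzP : ∀ w ∈ (P : Subgroup G), w * z = z * w := by
    intro w hw
    have := (Subgroup.mem_center_iff.mp z'.2) ⟨w, hw⟩
    exact congrArg Subtype.val this
  have hPW : (P : Subgroup G) ≤ Subgroup.centralizer ({z} : Set G) := fun w hw =>
    Subgroup.mem_centralizer_singleton_iff.mpr (hzP w hw)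
  obtain ⟨h, rfl⟩ := MulAction.exists_smul_eq G P Q
  rw [Sylow.coe_subgroup_smul] at hxQ
  have hy : h⁻¹ * x * h ∈ (P : Subgroup G) := mem_conj_smul.mp hxQ
  have hyne : h⁻¹ * x * h ≠ 1 := by
    intro h0
    apply hx1
    have : x = h * (h⁻¹ * x * h) * h⁻¹ := by group
    rw [this, h0]; group
  -- h normalizes C(z)
  have hhN : h ∈ Subgroup.normalizer ((Subgroup.centralizer ({z} : Set G) : Subgroup G) : Set G) := by
    by_contra hhN
    apply hyne
    refine hTI z h hhN _ (hPW hy) ?_
    have : h * (h⁻¹ * x * h) * h⁻¹ = x := by group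
    rw [this]
    exact hPW hxP
  have hQW : ∀ w ∈ (P : Subgroup G), h * w * h⁻¹ ∈ Subgroup.centralizer ({z} : Set G) := fun w hw =>
    (Subgroup.mem_normalizer_iff.mp hhN w).mp (hPW hw)
  -- W normalizes C(w) for w in W
  have hWN : ∀ w ∈ Subgroup.centralizer ({z} : Set G), ∀ c ∈ Subgroup.centralizer ({z} : Set G),
      c ∈ Subgroup.normalizer ((Subgroup.centralizer ({w} : Set G) : Subgroup G) : Set G) := by
    intro w hw c hc
    by_contra hcN
    apply hz1
    refine hTI w c hcN z ?_ ?_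
    · exact Subgroup.mem_centralizer_singleton_iff.mpr (Subgroup.mem_centralizer_singleton_iff.mp hw).symm
    · have h1 : c * z * c⁻¹ = z := by
        rw [Subgroup.mem_centralizer_singleton_iff.mp hc]; group
      rw [h1]
      exact Subgroup.mem_centralizer_singleton_iff.mpr (Subgroup.mem_centralizer_singleton_iff.mp hw).symm
  -- conjugates of w under W commute
  have hcomm : ∀ w ∈ Subgroup.centralizer ({z} : Set G), ∀ c ∈ Subgroup.centralizer ({z} : Set G),
      (c * w * c⁻¹) * w = w * (c * w * c⁻¹) := by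
    intro w hw c hc
    have h1 := (Subgroup.mem_normalizer_iff.mp (hWN w hw c hc) w).mp
      (Subgroup.mem_centralizer_singleton_iff.mpr rfl)
    exact Subgroup.mem_centralizer_singleton_iff.mp h1
  -- key: a p-element of W lies in P
  have hkey : ∀ w ∈ Subgroup.centralizer ({z} : Set G), (∃ k : ℕ, orderOf w = p ^ k) → w ∈ (P : Subgroup G) := by
    intro w hw hwp
    let S : Set G := {v | ∃ c ∈ Subgroup.centralizer ({z} : Set G), v = c * w * c⁻¹}
    have hS1 : ∀ a ∈ S, ∀ b ∈ S, a * b = b * a := by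
      rintro a ⟨c, hc, rfl⟩ b ⟨d, hd, rfl⟩
      have hcd : c⁻¹ * d ∈ Subgroup.centralizer ({z} : Set G) :=
        Subgroup.mul_mem _ (Subgroup.inv_mem _ hc) hd
      have h1 := hcomm w hw _ hcd
      have h2 : c * (((c⁻¹ * d) * w * (c⁻¹ * d)⁻¹) * w) * c⁻¹ = c * (w * ((c⁻¹ * d) * w * (c⁻¹ * d)⁻¹)) * c⁻¹ := by
        rw [h1]
      have e1 : c * (((c⁻¹ * d) * w * (c⁻¹ * d)⁻¹) * w) * c⁻¹ = (d * w * d⁻¹) * (c * w * c⁻¹) := by group
      have e2 : c * (w * ((c⁻¹ * d) * w * (c⁻¹ * d)⁻¹)) * c⁻¹ = (c * w * c⁻¹) * (d * w * d⁻¹) := by group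
      rw [e1, e2] at h2
      exact h2.symm
    have hS2 : ∀ a ∈ S, ∃ k : ℕ, a ^ p ^ k = 1 := by
      rintro a ⟨c, hc, rfl⟩
      rw [exists_pow_eq_one_iff_orderOf, orderOf_conj_eq]
      exact hwp
    have hA := isPGroup_closure_of_commute hS1 hS2
    have hAN : (P : Subgroup G) ≤ Subgroup.normalizer ((Subgroup.closure S : Subgroup G) : Set G) := by
      intro u hu
      apply mem_normalizer_of_conj_le'
      intro v hv
      induction hv using Subgroup.closure_induction with
      | mem y hy =>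
        obtain ⟨c, hc, rfl⟩ := hy
        apply Subgroup.subset_closure
        exact ⟨u * c, Subgroup.mul_mem _ (hPW hu) hc, by group⟩
      | one => simp
      | mul a b _ _ ha hb =>
        have : u * (a * b) * u⁻¹ = (u * a * u⁻¹) * (u * b * u⁻¹) := by group
        rw [this]; exact Subgroup.mul_mem _ ha hb
      | inv a _ ha =>
        have : u * a⁻¹ * u⁻¹ = (u * a * u⁻¹)⁻¹ := by group
        rw [this]; exact Subgroup.inv_mem _ ha
    have hsup := P.isPGroup'.to_sup_of_normal_right' hA hAN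
    have hmax := P.is_maximal' hsup le_sup_left
    have hwS : w ∈ Subgroup.closure S :=
      Subgroup.subset_closure ⟨1, Subgroup.one_mem _, by group⟩
    rw [← hmax]
    exact (le_sup_right : Subgroup.closure S ≤ _) hwS
  -- conclude
  have hle : ∀ w ∈ (P : Subgroup G), h * w * h⁻¹ ∈ (P : Subgroup G) := by
    intro w hw
    apply hkey _ (hQW w hw)
    rw [orderOf_conj_eq]
    exact exists_orderOf_of_mem_isPGroup P.isPGroup' hw
  have hN := mem_normalizer_of_conj_le' _ h hle
  exact absurd (Sylow.smul_eq_iff_mem_normalizer.mpr hN).symm hPQ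

end Cfsg.Agent.S4066
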