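import Cfsg.Statements.S4071
import Cfsg.Agent.Lib.PGroups.Parts
import Cfsg.Agent.Lib.Coprime.Action

set_option autoImplicit false
open Cfsg

namespace Cfsg.Agent.S4071

open Subgroup Cfsg.Agent.Lib.PGroups

private theorem pow_eq_one_of_comm {G : Type*} [Group G] {g u d : G} (hd : d = u⁻¹ * (g * u * g⁻¹))
    (hgd : g * d = d * g) {n : ℕ} (hn : g ^ n = 1) : d ^ n = 1 := by
  have e1 : g * u * g⁻¹ = u * d := by rw [hd]; group
  have key : ∀ k : ℕ, g ^ k * u * (g ^ k)⁻¹ = u * d ^ k := by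
    intro k
    induction k with
    | zero => simp
    | succ k ih =>
      have h1 : g ^ (k + 1) * u * (g ^ (k + 1))⁻¹ = g * (g ^ k * u * (g ^ k)⁻¹) * g⁻¹ := by
        rw [pow_succ']; group
      rw [h1, ih]
      have hgdk : g * d ^ k * g⁻¹ = d ^ k := by
        have hc : Commute g d := hgd
        rw [(hc.pow_right k).eq]; group
      calc g * (u * d ^ k) * g⁻¹ = (g * u * g⁻¹) * (g * d ^ k * g⁻¹) := by group
        _ = u * d * d ^ k := by rw [e1, hgdk]
        _ = u * d ^ (k + 1) := by rw [pow_succ', mul_assoc]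
  have h2 := key n
  rw [hn] at h2
  simp only [one_mul, inv_one, mul_one] at h2
  exact (mul_eq_left.mp h2.symm)

private theorem backward {G : Type*} [Group G] [Finite G] {x : G} {A : Subgroup G} {p : ℕ} (hp : p.Prime)
    (hAn : A.Normal) (hAc : IsMulCommutative A) (k : ℕ) (hk : orderOf x = p ^ k)
    (hcompl : (zpowers x).IsComplement' A) (hxp : x ^ p ∈ center G)
    (hfpf : ∀ a : G, a ∈ A → a ≠ 1 → x * a * x⁻¹ ≠ a) (H : Subgroup G) (hH : ¬ IsMulCommutative H) :
    normalizer (H : Set G) = H := by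
  classical
  haveI := hAn
  have hcomm : ∀ a ∈ A, ∀ b ∈ A, a * b = b * a := by
    intro a ha b hb
    exact congrArg Subtype.val (hAc.is_comm.comm ⟨a, ha⟩ ⟨b, hb⟩)
  have hsup : A ⊔ zpowers x = ⊤ := by rw [sup_comm]; exact hcompl.sup_eq_top
  have hle : zpowers x ≤ normalizer (A : Set G) := by
    rw [normalizer_eq_top_iff.mpr hAn]; exact le_top
  have hdec : ∀ y : G, ∃ a ∈ A, ∃ i : ℕ, y = a * x ^ i := by
    intro y
    have hy : y ∈ A ⊔ zpowers x := by rw [hsup]; trivial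
    obtain ⟨a, ha, z, hz, rfl⟩ := (Cfsg.Agent.Lib.Coprime.mem_sup_iff_of_le_normalizer hle y).mp hy
    have hz' : z ∈ Submonoid.powers x := mem_powers_iff_mem_zpowers.mpr hz
    obtain ⟨i, rfl⟩ := hz'
    exact ⟨a, ha, i, rfl⟩
  -- an element of `H` involving a generator
  obtain ⟨u, huH, a, haA, i, hu, hpi⟩ : ∃ u ∈ H, ∃ a ∈ A, ∃ i : ℕ, u = a * x ^ i ∧ ¬ p ∣ i := by
    by_contra hno
    push Not at hno
    apply hH
    refine ⟨⟨fun u v => Subtype.ext ?_⟩⟩
    obtain ⟨a, ha, i, hi⟩ := hdec u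
    obtain ⟨b, hb, j, hj⟩ := hdec v
    obtain ⟨m, rfl⟩ := hno u u.2 a ha i hi
    obtain ⟨n, rfl⟩ := hno v v.2 b hb j hj
    show (u : G) * v = v * u
    rw [hi, hj]
    have c1 : x ^ (p * m) ∈ center G := by rw [pow_mul]; exact pow_mem hxp m
    have c2 : x ^ (p * n) ∈ center G := by rw [pow_mul]; exact pow_mem hxp n
    have hc1 := mem_center_iff.mp c1
    have hc2 := mem_center_iff.mp c2
    calc a * x ^ (p * m) * (b * x ^ (p * n)) = a * (x ^ (p * m) * b) * x ^ (p * n) := by group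
      _ = a * (b * x ^ (p * m)) * x ^ (p * n) := by rw [hc1 b]
      _ = (a * b) * (x ^ (p * m) * x ^ (p * n)) := by group
      _ = (b * a) * (x ^ (p * n) * x ^ (p * m)) := by rw [hcomm a ha b hb, hc1 (x ^ (p * n))]
      _ = b * (a * x ^ (p * n)) * x ^ (p * m) := by group
      _ = b * (x ^ (p * n) * a) * x ^ (p * m) := by rw [hc2 a]
      _ = b * x ^ (p * n) * (a * x ^ (p * m)) := by group
  have hcop : i.Coprime (orderOf x) := by
    rw [hk]
    exact Nat.Coprime.pow_right k ((Nat.coprime_comm).mp ((Nat.Prime.coprime_iff_not_dvd hp).mpr hpi))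
  obtain ⟨m, hm⟩ := exists_pow_eq_self_of_coprime hcop
  have hu' : u ^ m * x⁻¹ ∈ A := by
    rw [← QuotientGroup.eq_one_iff]
    have e1 : ((u ^ m * x⁻¹ : G) : G ⧸ A) = QuotientGroup.mk' A (u ^ m * x⁻¹) := rfl
    rw [e1, map_mul, map_pow, map_inv, hu, map_mul]
    have e2 : QuotientGroup.mk' A a = 1 := (QuotientGroup.eq_one_iff a).mpr haA
    rw [e2, one_mul, ← map_pow, hm]
    exact mul_inv_cancel _
  have hstab : ∀ t ∈ A, t * x * t⁻¹ = x → t = 1 := by
    intro t ht h1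
    by_contra ht1
    apply hfpf t ht ht1
    rw [mul_inv_eq_iff_eq_mul] at h1 ⊢
    exact h1.symm
  -- conjugating `x` into `H`
  obtain ⟨c, hcA, hc⟩ : ∃ c ∈ A, c * x * c⁻¹ = u ^ m := by
    let f : A → A := fun c => ⟨c * (x * (c : G)⁻¹ * x⁻¹), A.mul_mem c.2 (hAn.conj_mem _ (A.inv_mem c.2) x)⟩
    have hf : Function.Injective f := by
      intro b c hbc
      have h1 : (b : G) * (x * (b : G)⁻¹ * x⁻¹) = c * (x * (c : G)⁻¹ * x⁻¹) := congrArg Subtype.val hbc
      have h2 : ((c : G)⁻¹ * b) * x * ((c : G)⁻¹ * b)⁻¹ = x := by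
        have e : (b : G) * x * (b : G)⁻¹ = c * x * (c : G)⁻¹ := by
          have := congrArg (fun z => z * x) h1
          simp only [mul_assoc, inv_mul_cancel, mul_one] at this
          simp only [mul_assoc]
          exact this
        calc ((c : G)⁻¹ * b) * x * ((c : G)⁻¹ * b)⁻¹ = (c : G)⁻¹ * ((b : G) * x * (b : G)⁻¹) * c := by group
          _ = (c : G)⁻¹ * (c * x * (c : G)⁻¹) * c := by rw [e]
          _ = x := by group
      have h3 := hstab _ (A.mul_mem (A.inv_mem c.2) b.2) h2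
      apply Subtype.ext
      rw [inv_mul_eq_one] at h3
      exact h3.symm
    have hfs := Finite.surjective_of_injective hf
    obtain ⟨c, hc⟩ := hfs ⟨u ^ m * x⁻¹, hu'⟩
    refine ⟨c, c.2, ?_⟩
    have h1 : (c : G) * (x * (c : G)⁻¹ * x⁻¹) = u ^ m * x⁻¹ := congrArg Subtype.val hc
    have h2 := congrArg (fun z => z * x) h1
    simp only [mul_assoc, inv_mul_cancel, mul_one] at h2
    simp only [mul_assoc]
    exact h2
  set y : G := c * x * c⁻¹ with hy
  have hyH : y ∈ H := by rw [hc]; exact pow_mem huH m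
  have hstab' : ∀ t ∈ A, t * y * t⁻¹ = y → t = 1 := by
    intro t ht h1
    have h2 : (c⁻¹ * t * c) * x * (c⁻¹ * t * c)⁻¹ = x := by
      calc (c⁻¹ * t * c) * x * (c⁻¹ * t * c)⁻¹ = c⁻¹ * (t * (c * x * c⁻¹) * t⁻¹) * c := by group
        _ = c⁻¹ * (c * x * c⁻¹) * c := by rw [← hy, h1]
        _ = x := by group
    have h3 := hstab _ (by simpa using hAn.conj_mem t ht c⁻¹) h2
    have : t = c * (c⁻¹ * t * c) * c⁻¹ := by group
    rw [this, h3]; group
  have hdec' : ∀ g : G, ∃ a ∈ A, ∃ i : ℕ, g = a * y ^ i := by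
    intro g
    obtain ⟨a, ha, i, hi⟩ := hdec (c⁻¹ * g * c)
    refine ⟨c * a * c⁻¹, hAn.conj_mem a ha c, i, ?_⟩
    have e : y ^ i = c * x ^ i * c⁻¹ := by rw [hy, conj_pow]
    rw [e]
    calc g = c * (c⁻¹ * g * c) * c⁻¹ := by group
      _ = c * (a * x ^ i) * c⁻¹ := by rw [hi]
      _ = c * a * c⁻¹ * (c * x ^ i * c⁻¹) := by group
  apply le_antisymm _ le_normalizer
  intro g hg
  have hg : g ∈ normalizer (H : Set G) := hg
  obtain ⟨b, hb, j, rfl⟩ := hdec' g
  have hyj : y ^ j ∈ H := pow_mem hyH j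
  have hnb : b ∈ normalizer (H : Set G) := by
    have h0 : y ^ j ∈ normalizer (H : Set G) := le_normalizer hyj
    have h1 := Subgroup.mul_mem _ hg (Subgroup.inv_mem _ h0)
    simpa using h1
  suffices hbH : b ∈ H from mul_mem hbH hyj
  have h1 : b * y * b⁻¹ ∈ H := (mem_normalizer_iff.mp hnb y).mp hyH
  have hd : b * y * b⁻¹ * y⁻¹ ∈ H ⊓ A := by
    refine Subgroup.mem_inf.mpr ⟨H.mul_mem h1 (H.inv_mem hyH), ?_⟩
    have e : b * y * b⁻¹ * y⁻¹ = b * (y * b⁻¹ * y⁻¹) := by group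
    rw [e]
    exact A.mul_mem hb (hAn.conj_mem _ (A.inv_mem hb) y)
  let f : ↥(H ⊓ A) → ↥(H ⊓ A) := fun c => ⟨c * y * (c : G)⁻¹ * y⁻¹, by
    refine Subgroup.mem_inf.mpr ⟨H.mul_mem (H.mul_mem (H.mul_mem c.2.1 hyH) (H.inv_mem c.2.1)) (H.inv_mem hyH), ?_⟩
    have e : (c : G) * y * (c : G)⁻¹ * y⁻¹ = c * (y * (c : G)⁻¹ * y⁻¹) := by group
    rw [e]
    exact A.mul_mem c.2.2 (hAn.conj_mem _ (A.inv_mem c.2.2) y)⟩
  have hfinj : ∀ s t : G, s ∈ A → t ∈ A → s * y * s⁻¹ = t * y * t⁻¹ → s = t := by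
    intro s t hs ht hst
    have h2 : (t⁻¹ * s) * y * (t⁻¹ * s)⁻¹ = y := by
      calc (t⁻¹ * s) * y * (t⁻¹ * s)⁻¹ = t⁻¹ * (s * y * s⁻¹) * t := by group
        _ = t⁻¹ * (t * y * t⁻¹) * t := by rw [hst]
        _ = y := by group
    have h3 := hstab' _ (A.mul_mem (A.inv_mem ht) hs) h2
    rw [inv_mul_eq_one] at h3
    exact h3.symm
  have hf : Function.Injective f := by
    intro s t hst
    have h2 : (s : G) * y * (s : G)⁻¹ * y⁻¹ = t * y * (t : G)⁻¹ * y⁻¹ := congrArg Subtype.val hst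
    exact Subtype.ext (hfinj _ _ s.2.2 t.2.2 (mul_right_cancel h2))
  obtain ⟨s, hs⟩ := Finite.surjective_of_injective hf ⟨_, hd⟩
  have h2 : (s : G) * y * (s : G)⁻¹ * y⁻¹ = b * y * b⁻¹ * y⁻¹ := congrArg Subtype.val hs
  have h3 := hfinj _ _ s.2.2 hb (mul_right_cancel h2)
  rw [← h3]
  exact s.2.1

private theorem forward {G : Type*} [Group G] [Finite G] [Group.IsSolvable G] (hnn : ¬ Group.IsNilpotent G)
    (hS : ∀ H : Subgroup G, ¬ IsMulCommutative H → Subgroup.normalizer (H : Set G) = H) :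
    ∃ (x : G) (A : Subgroup G) (p : ℕ), p.Prime ∧ A.Normal ∧ IsMulCommutative A ∧ (∃ k : ℕ, orderOf x = p ^ k) ∧
      ¬ p ∣ Nat.card A ∧ (Subgroup.zpowers x).IsComplement' A ∧ x ^ p ∈ Subgroup.center G ∧
      ∀ a : G, a ∈ A → a ≠ 1 → x * a * x⁻¹ ≠ a := by
  classical
  have hnt : Nontrivial G := by
    by_contra hnt
    rw [not_nontrivial_iff_subsingleton] at hnt
    exact hnn inferInstance
  have hprop : ∀ N : Subgroup G, N.Normal → N ≠ ⊤ → IsMulCommutative N := by
    intro N hN hNt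
    by_contra hc
    apply hNt
    have h1 := hS N hc
    rw [Subgroup.normalizer_eq_top_iff.mpr hN] at h1
    exact h1.symm
  have hcom : commutator G ≠ ⊤ := (Group.IsSolvable.commutator_lt_top_of_nontrivial G).ne
  obtain ⟨M, hNM, hMmax⟩ := (Set.toFinite {K : Subgroup G | K.Normal ∧ K ≠ ⊤}).exists_le_maximal
    (show commutator G ∈ {K : Subgroup G | K.Normal ∧ K ≠ ⊤} from ⟨inferInstance, hcom⟩)
  obtain ⟨hMn, hMt⟩ := hMmax.1
  haveI := hMn
  have hMc := hprop M hMn hMt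
  have hMcomm : ∀ a ∈ M, ∀ b ∈ M, a * b = b * a := by
    intro a ha b hb
    exact congrArg Subtype.val (hMc.is_comm.comm ⟨a, ha⟩ ⟨b, hb⟩)
  -- the quotient has prime order
  have hQc : ∀ a b : G ⧸ M, a * b = b * a := by
    intro a b
    obtain ⟨a, rfl⟩ := QuotientGroup.mk_surjective a
    obtain ⟨b, rfl⟩ := QuotientGroup.mk_surjective b
    have h1 : a * b * a⁻¹ * b⁻¹ ∈ M := hNM (Subgroup.commutator_mem_commutator (mem_top a) (mem_top b))
    have h2 : (((a * b * a⁻¹ * b⁻¹ : G)) : G ⧸ M) = 1 := (QuotientGroup.eq_one_iff _).mpr h1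
    have e : ((a * b * a⁻¹ * b⁻¹ : G) : G ⧸ M) = QuotientGroup.mk' M (a * b * a⁻¹ * b⁻¹) := rfl
    rw [e] at h2
    simp only [map_mul, map_inv] at h2
    have h3 : QuotientGroup.mk' M a * QuotientGroup.mk' M b = QuotientGroup.mk' M b * QuotientGroup.mk' M a := by
      rw [mul_inv_eq_one, mul_inv_eq_iff_eq_mul] at h2
      exact h2
    exact h3
  have hS1 : Nat.card (G ⧸ M) ≠ 1 := by
    intro h0
    rw [← Subgroup.index_eq_card, Subgroup.index_eq_one] at h0
    exact hMt h0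
  obtain ⟨p, hpp, hpd⟩ := Nat.exists_prime_and_dvd hS1
  haveI hpf := Fact.mk hpp
  obtain ⟨z, hz⟩ := exists_prime_orderOf_dvd_card' p hpd
  have hz1 : z ≠ 1 := by
    rintro rfl
    rw [orderOf_one] at hz
    exact hpp.one_lt.ne hz
  have hztop : zpowers z = ⊤ := by
    by_contra hne
    let L : Subgroup (G ⧸ M) := zpowers z
    haveI hLn : L.Normal := ⟨fun n hn g => by
      have : g * n * g⁻¹ = n := by rw [hQc g n]; group
      rw [this]; exact hn⟩
    have hmem : L.comap (QuotientGroup.mk' M) ∈ {K : Subgroup G | K.Normal ∧ K ≠ ⊤} := by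
      refine ⟨inferInstance, ?_⟩
      intro h0
      apply hne
      rw [eq_top_iff]
      intro y _
      obtain ⟨g, rfl⟩ := QuotientGroup.mk_surjective y
      have hg : g ∈ L.comap (QuotientGroup.mk' M) := by rw [h0]; exact mem_top g
      exact hg
    have hle : M ≤ L.comap (QuotientGroup.mk' M) := by
      intro m hm
      have e : (QuotientGroup.mk' M) m = 1 := (QuotientGroup.eq_one_iff m).mpr hm
      rw [mem_comap, e]
      exact one_mem _
    have hge := hMmax.le_of_ge hmem hle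
    apply hz1
    obtain ⟨g, rfl⟩ := QuotientGroup.mk_surjective z
    have hg : g ∈ L.comap (QuotientGroup.mk' M) := mem_zpowers _
    exact (QuotientGroup.eq_one_iff g).mpr (hge hg)
  have hcardS : Nat.card (G ⧸ M) = p := by
    rw [← hz, ← Nat.card_zpowers, hztop]
    exact (Nat.card_congr Subgroup.topEquiv.toEquiv).symm
  -- a `p`-element outside `M`
  obtain ⟨g, hgM⟩ : ∃ g : G, g ∉ M := by
    by_contra hall
    push Not at hall
    exact hMt (eq_top_iff.mpr fun g _ => hall g)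
  obtain ⟨x, b, hgb, hcb, ⟨k, hk⟩, hb, -, -⟩ := exists_pPart p g
  have hbM : b ∈ M := by
    rw [← QuotientGroup.eq_one_iff]
    have h1 : orderOf (b : G ⧸ M) ∣ p := by
      rw [← hcardS]; exact orderOf_dvd_natCard _
    have h2 : orderOf (b : G ⧸ M) ∣ orderOf b := by
      have e : (b : G ⧸ M) = QuotientGroup.mk' M b := rfl
      rw [e]; exact orderOf_map_dvd _ _
    have hc : Nat.Coprime p (orderOf b) := (Nat.Prime.coprime_iff_not_dvd hpp).mpr hb
    exact orderOf_eq_one_iff.mp (Nat.eq_one_of_dvd_coprimes hc h1 h2)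
  have hxM : x ∉ M := by
    intro hx
    apply hgM
    rw [hgb]
    exact M.mul_mem hx hbM
  -- `G = M⟨x⟩`
  have hdecM : ∀ y : G, ∃ m ∈ M, ∃ i : ℕ, y = m * x ^ i := by
    intro y
    have hxz : zpowers (x : G ⧸ M) = ⊤ := by
      exact zpowers_eq_top_of_prime_card hcardS (by
        intro h0
        exact hxM ((QuotientGroup.eq_one_iff x).mp h0))
    have hy : (y : G ⧸ M) ∈ zpowers (x : G ⧸ M) := by rw [hxz]; trivial
    have hy' : (y : G ⧸ M) ∈ Submonoid.powers (x : G ⧸ M) := mem_powers_iff_mem_zpowers.mpr hy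
    obtain ⟨i, hi⟩ := hy'
    refine ⟨y * (x ^ i)⁻¹, ?_, i, by group⟩
    rw [← QuotientGroup.eq_one_iff]
    have e : ((y * (x ^ i)⁻¹ : G) : G ⧸ M) = QuotientGroup.mk' M (y * (x ^ i)⁻¹) := rfl
    rw [e, map_mul, map_inv, map_pow]
    have e2 : QuotientGroup.mk' M y = (x : G ⧸ M) ^ i := hi.symm
    rw [e2]
    exact mul_inv_cancel _
  have hxpM : x ^ p ∈ M := by
    rw [← QuotientGroup.eq_one_iff]
    have e : ((x ^ p : G) : G ⧸ M) = (x : G ⧸ M) ^ p := rfl
    rw [e, ← hcardS]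
    exact pow_card_eq_one'
  -- the `p'`-part of `M`
  let A : Subgroup G :=
    { carrier := {a | a ∈ M ∧ ¬ p ∣ orderOf a}
      one_mem' := ⟨one_mem _, by rw [orderOf_one]; exact hpp.one_lt.ne' ∘ Nat.dvd_one.mp⟩
      mul_mem' := by
        rintro a b ⟨ha, ha'⟩ ⟨hb, hb'⟩
        refine ⟨M.mul_mem ha hb, fun h => ?_⟩
        have hc : Commute a b := hMcomm a ha b hb
        have h1 := h.trans hc.orderOf_mul_dvd_mul_orderOf
        rcases (Nat.Prime.dvd_mul hpp).mp h1 with h2 | h2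
        · exact ha' h2
        · exact hb' h2
      inv_mem' := by
        rintro a ⟨ha, ha'⟩
        exact ⟨M.inv_mem ha, by rwa [orderOf_inv]⟩ }
  have hAmem : ∀ a, a ∈ A ↔ a ∈ M ∧ ¬ p ∣ orderOf a := fun a => Iff.rfl
  have hAM : A ≤ M := fun a ha => ha.1
  have hAn : A.Normal := ⟨fun a ha g => ⟨hMn.conj_mem a ha.1 g, by rw [orderOf_conj_eq]; exact ha.2⟩⟩
  haveI := hAn
  have hAcomm : ∀ a ∈ A, ∀ b ∈ A, a * b = b * a := fun a ha b hb => hMcomm a ha.1 b hb.1
  have hAc : IsMulCommutative A := ⟨⟨fun a b => Subtype.ext (hAcomm a a.2 b b.2)⟩⟩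
  have hAp : ¬ p ∣ Nat.card A := by
    intro h
    obtain ⟨a, ha⟩ := exists_prime_orderOf_dvd_card' p h
    apply a.2.2
    rw [← Subgroup.orderOf_coe] at ha
    rw [ha]
  -- the quotient by `A` is a `p`-group
  have hQp : IsPGroup p (G ⧸ A) := by
    intro y
    obtain ⟨y, rfl⟩ := QuotientGroup.mk_surjective y
    have hy : y ^ p ∈ M := by
      rw [← QuotientGroup.eq_one_iff]
      have e : ((y ^ p : G) : G ⧸ M) = (y : G ⧸ M) ^ p := rfl
      rw [e, ← hcardS]
      exact pow_card_eq_one'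
    obtain ⟨s, t, hst, hc, ⟨j, hj⟩, ht, -, htz⟩ := exists_pPart p (y ^ p)
    have htM : t ∈ M := by
      have : zpowers (y ^ p) ≤ M := by rw [zpowers_le]; exact hy
      exact this htz
    have htA : t ∈ A := ⟨htM, ht⟩
    refine ⟨j + 1, ?_⟩
    have e : (y : G ⧸ A) ^ p ^ (j + 1) = ((((y ^ p) ^ p ^ j : G)) : G ⧸ A) := by
      rw [pow_succ', pow_mul]
      rfl
    rw [e, hst, hc.mul_pow]
    have hs : s ^ p ^ j = 1 := by rw [← hj]; exact pow_orderOf_eq_one s
    rw [hs, one_mul]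
    exact (QuotientGroup.eq_one_iff _).mpr (pow_mem htA _)
  have hQnil : Group.IsNilpotent (G ⧸ A) := hQp.isNilpotent
  -- `x` does not centralise `A`
  have hxA : ∃ a ∈ A, x * a ≠ a * x := by
    by_contra hall
    push Not at hall
    apply hnn
    refine Subgroup.isNilpotent_of_ker_le_center (QuotientGroup.mk' A) ?_
    rw [QuotientGroup.ker_mk']
    intro a ha
    rw [mem_center_iff]
    intro y
    obtain ⟨m, hm, i, rfl⟩ := hdecM y
    have hc : Commute x a := hall a ha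
    calc m * x ^ i * a = m * (x ^ i * a) := by group
      _ = m * (a * x ^ i) := by rw [(hc.pow_left i).eq]
      _ = (m * a) * x ^ i := by group
      _ = (a * m) * x ^ i := by rw [hMcomm m hm a ha.1]
      _ = a * (m * x ^ i) := by group
  -- `G = A⟨x⟩`
  let T : Subgroup G := A ⊔ zpowers x
  have hAT : A ≤ T := le_sup_left
  have hxT : x ∈ T := (le_sup_right : zpowers x ≤ T) (mem_zpowers x)
  have hTna : ¬ IsMulCommutative T := by
    intro hT
    obtain ⟨a, ha, hne⟩ := hxA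
    apply hne
    exact congrArg Subtype.val (hT.is_comm.comm ⟨x, hxT⟩ ⟨a, hAT ha⟩)
  have hTtop : T = ⊤ := by
    have hmem : ∀ w : G, (QuotientGroup.mk' A) w ∈ T.map (QuotientGroup.mk' A) ↔ w ∈ T := by
      intro w
      constructor
      · rintro ⟨t, ht, hte⟩
        have h1 : t⁻¹ * w ∈ A := QuotientGroup.eq.mp hte
        have : w = t * (t⁻¹ * w) := by group
        rw [this]
        exact T.mul_mem ht (hAT h1)
      · intro hw
        exact ⟨w, hw, rfl⟩
    have hnorm : normalizer ((T.map (QuotientGroup.mk' A) : Subgroup (G ⧸ A)) : Set (G ⧸ A)) =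
        T.map (QuotientGroup.mk' A) := by
      apply le_antisymm _ le_normalizer
      intro y hy
      obtain ⟨h, rfl⟩ := QuotientGroup.mk_surjective y
      have hh : h ∈ normalizer (T : Set G) := by
        rw [mem_normalizer_iff]
        intro w
        have e := mem_normalizer_iff.mp hy ((QuotientGroup.mk' A) w)
        rw [← hmem w, e, ← hmem (h * w * h⁻¹)]
        simp only [map_mul, map_inv]
        rfl
      rw [hS T hTna] at hh
      exact (hmem h).mpr hh
    have h1 := (normalizerCondition_iff_only_full_group_self_normalizing.mp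
      (Group.normalizerCondition_of_isNilpotent (G := G ⧸ A))) _ hnorm
    rw [eq_top_iff]
    intro w _
    rw [← hmem w, h1]
    trivial
  have hdecA : ∀ y : G, ∃ a ∈ A, ∃ i : ℕ, y = a * x ^ i := by
    intro y
    have hle : zpowers x ≤ normalizer (A : Set G) := by
      rw [normalizer_eq_top_iff.mpr hAn]; exact le_top
    have hy : y ∈ T := by rw [hTtop]; trivial
    obtain ⟨a, ha, z, hz, rfl⟩ := (Cfsg.Agent.Lib.Coprime.mem_sup_iff_of_le_normalizer hle y).mp hy
    have hz' : z ∈ Submonoid.powers x := mem_powers_iff_mem_zpowers.mpr hz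
    obtain ⟨i, rfl⟩ := hz'
    exact ⟨a, ha, i, rfl⟩
  have hdisj : ∀ w ∈ A, w ∈ zpowers x → w = 1 := by
    intro w hw hwz
    have h1 : orderOf w ∣ orderOf x := by
      have := orderOf_dvd_natCard (G := zpowers x) ⟨w, hwz⟩
      rw [Nat.card_zpowers, Subgroup.orderOf_mk] at this
      exact this
    rw [hk] at h1
    have hc : Nat.Coprime (orderOf w) (p ^ k) :=
      Nat.Coprime.pow_right k ((Nat.coprime_comm).mp ((Nat.Prime.coprime_iff_not_dvd hpp).mpr hw.2))
    exact orderOf_eq_one_iff.mp (Nat.eq_one_of_dvd_coprimes hc (dvd_refl _) h1)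
  -- `x` acts without fixed points
  have hgA : ∀ u ∈ A, x * u * x⁻¹ ∈ A := fun u hu => hAn.conj_mem u hu x
  let E : Subgroup G :=
    { carrier := {d | ∃ u ∈ A, d = u⁻¹ * (x * u * x⁻¹)}
      one_mem' := ⟨1, A.one_mem, by simp⟩
      mul_mem' := by
        rintro a b ⟨u, hu, rfl⟩ ⟨v, hv, rfl⟩
        refine ⟨u * v, A.mul_mem hu hv, ?_⟩
        have e1 : x * (u * v) * x⁻¹ = (x * u * x⁻¹) * (x * v * x⁻¹) := by group
        have e2 := hAcomm _ (hgA u hu) _ (A.inv_mem hv)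
        have e3 := hAcomm _ (A.inv_mem hu) _ (A.inv_mem hv)
        rw [e1, mul_inv_rev, ← e3]
        calc u⁻¹ * (x * u * x⁻¹) * (v⁻¹ * (x * v * x⁻¹))
            = u⁻¹ * ((x * u * x⁻¹) * v⁻¹) * (x * v * x⁻¹) := by group
          _ = u⁻¹ * (v⁻¹ * (x * u * x⁻¹)) * (x * v * x⁻¹) := by rw [e2]
          _ = u⁻¹ * v⁻¹ * (x * u * x⁻¹ * (x * v * x⁻¹)) := by group
      inv_mem' := by
        rintro a ⟨u, hu, rfl⟩
        refine ⟨u⁻¹, A.inv_mem hu, ?_⟩
        have e2 := hAcomm _ (A.inv_mem (hgA u hu)) _ hu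
        have e3 : x * u⁻¹ * x⁻¹ = (x * u * x⁻¹)⁻¹ := by group
        rw [mul_inv_rev, inv_inv, e3]
        exact e2 }
  have hEA : E ≤ A := by
    rintro d ⟨u, hu, rfl⟩
    exact A.mul_mem (A.inv_mem hu) (hgA u hu)
  have hxE : zpowers x ≤ normalizer (E : Set G) := by
    rw [zpowers_le]
    refine mem_normalizer_of_conj_le' E x ?_
    rintro d ⟨u, hu, rfl⟩
    refine ⟨x * u * x⁻¹, hgA u hu, ?_⟩
    group
  let W : Subgroup G := E ⊔ zpowers x
  have hnpow : x ^ orderOf x = 1 := pow_orderOf_eq_one x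
  have hEtriv : ∀ d ∈ E, x * d = d * x → d = 1 := by
    rintro d ⟨u, hu, hdu⟩ hc
    have h1 := pow_eq_one_of_comm hdu hc hnpow
    have hdA : d ∈ A := hEA ⟨u, hu, hdu⟩
    have h3 : orderOf d ∣ orderOf x := orderOf_dvd_of_pow_eq_one h1
    rw [hk] at h3
    have hco : Nat.Coprime (orderOf d) (p ^ k) :=
      Nat.Coprime.pow_right k ((Nat.coprime_comm).mp ((Nat.Prime.coprime_iff_not_dvd hpp).mpr hdA.2))
    exact orderOf_eq_one_iff.mp (Nat.eq_one_of_dvd_coprimes hco (dvd_refl _) h3)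
  have hxW : x ∈ W := (le_sup_right : zpowers x ≤ W) (mem_zpowers x)
  have hEW : E ≤ W := le_sup_left
  have hWna : ¬ IsMulCommutative W := by
    intro hW
    obtain ⟨a, ha, hne⟩ := hxA
    apply hne
    have hdE : a⁻¹ * (x * a * x⁻¹) ∈ E := ⟨a, ha, rfl⟩
    have hc : x * (a⁻¹ * (x * a * x⁻¹)) = (a⁻¹ * (x * a * x⁻¹)) * x :=
      congrArg Subtype.val (hW.is_comm.comm ⟨x, hxW⟩ ⟨_, hEW hdE⟩)
    have h1 := hEtriv _ hdE hc
    rw [inv_mul_eq_one] at h1
    have h2 := h1.symm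
    rw [mul_inv_eq_iff_eq_mul] at h2
    exact h2
  have hAW : A ≤ W := by
    intro a ha
    rw [← hS W hWna]
    refine mem_normalizer_of_conj_le' W a ?_
    intro w hw
    have hle : W ≤ W.comap (MulAut.conj a).toMonoidHom := by
      refine sup_le ?_ ?_
      · intro e he
        have : a * e * a⁻¹ = e := by
          rw [hAcomm a ha e (hEA he)]; group
        show a * e * a⁻¹ ∈ W
        rw [this]
        exact hEW he
      · rw [zpowers_le]
        show a * x * a⁻¹ ∈ W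
        have hdE : a * (x * a⁻¹ * x⁻¹) ∈ E := ⟨a⁻¹, A.inv_mem ha, by simp⟩
        have e : a * x * a⁻¹ = a * (x * a⁻¹ * x⁻¹) * x := by group
        rw [e]
        exact W.mul_mem (hEW hdE) hxW
    exact hle hw
  have hAE : A ≤ E := by
    intro a ha
    obtain ⟨e, he, z, hz, hae⟩ := (Cfsg.Agent.Lib.Coprime.mem_sup_iff_of_le_normalizer hxE a).mp (hAW ha)
    have hzA : z ∈ A := by
      have : z = e⁻¹ * a := by rw [hae]; group
      rw [this]
      exact A.mul_mem (A.inv_mem (hEA he)) ha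
    have hz1 := hdisj z hzA hz
    rw [hz1, mul_one] at hae
    rw [hae]
    exact he
  have hfpf : ∀ a : G, a ∈ A → a ≠ 1 → x * a * x⁻¹ ≠ a := by
    let f : A → A := fun u => ⟨(u : G)⁻¹ * (x * u * x⁻¹), A.mul_mem (A.inv_mem u.2) (hgA u u.2)⟩
    have hfs : Function.Surjective f := by
      intro a
      obtain ⟨u, hu, hd⟩ := hAE a.2
      exact ⟨⟨u, hu⟩, Subtype.ext hd.symm⟩
    have hfi : Function.Injective f := Finite.injective_iff_surjective.mpr hfs
    intro a ha ha1 hfix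
    have : f ⟨a, ha⟩ = f 1 := by
      apply Subtype.ext
      show a⁻¹ * (x * a * x⁻¹) = ((1 : A) : G)⁻¹ * (x * ((1 : A) : G) * x⁻¹)
      rw [hfix]
      simp
    have h2 := hfi this
    exact ha1 (congrArg Subtype.val h2)
  -- assembling
  refine ⟨x, A, p, hpp, hAn, hAc, ⟨k, hk⟩, hAp, ?_, ?_, hfpf⟩
  · refine isComplement'_of_disjoint_and_mul_eq_univ ?_ ?_
    · rw [Subgroup.disjoint_def]
      intro w hw hw'
      exact hdisj w hw' hw
    · rw [Set.eq_univ_iff_forall]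
      intro y
      obtain ⟨a, ha, i, hi⟩ := hdecA y
      refine Set.mem_mul.mpr ⟨x ^ i, pow_mem (mem_zpowers x) i, (x ^ i)⁻¹ * a * x ^ i, ?_, ?_⟩
      · have := hAn.conj_mem a ha (x ^ i)⁻¹
        simpa using this
      · rw [hi]; group
  · rw [mem_center_iff]
    intro y
    obtain ⟨a, ha, i, rfl⟩ := hdecA y
    have h1 : a * x ^ p = x ^ p * a := hMcomm a ha.1 _ hxpM
    have h2 : Commute (x ^ i) (x ^ p) := (Commute.refl x).pow_pow i p
    calc a * x ^ i * x ^ p = a * (x ^ i * x ^ p) := by group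
      _ = a * (x ^ p * x ^ i) := by rw [h2.eq]
      _ = (a * x ^ p) * x ^ i := by group
      _ = (x ^ p * a) * x ^ i := by rw [h1]
      _ = x ^ p * (a * x ^ i) := by group


/-- Let G be a finite solvable non-nilpotent group. Every non-abelian subgroup of G is self-normalizing if and only if G is a semidirect product ⟨x⟩ ⋉ A in which ⟨x⟩ is a p-group for some prime p, A is a normal abelian subgroup of order prime to p, x^p is central in G, and x acts fixed-point-freely on A (no non-identity element of A commutes with x). -/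
theorem result {G : Type*} [Group G] [Finite G]
    [Group.IsSolvable G] (hnn : ¬ Group.IsNilpotent G) :
    (∀ H : Subgroup G, ¬ IsMulCommutative H → Subgroup.normalizer (H : Set G) = H) ↔
    ∃ (x : G) (A : Subgroup G) (p : ℕ), p.Prime ∧ A.Normal ∧ IsMulCommutative A ∧ (∃ k : ℕ, orderOf x = p ^ k) ∧
      ¬ p ∣ Nat.card A ∧ (Subgroup.zpowers x).IsComplement' A ∧ x ^ p ∈ Subgroup.center G ∧
      ∀ a : G, a ∈ A → a ≠ 1 → x * a * x⁻¹ ≠ a := by
  constructor
  · exact forward hnn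
  · rintro ⟨x, A, p, hp, hAn, hAc, ⟨k, hk⟩, -, hcompl, hxp, hfpf⟩ H hH
    exact backward hp hAn hAc k hk hcompl hxp hfpf H hH

end Cfsg.Agent.S4071
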