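import Cfsg.Statements.S4072
import Cfsg.Agent.Lib.Transfer.Frobenius
import Cfsg.Agent.Lib.Coprime.Action

set_option autoImplicit false
open Cfsg

namespace Cfsg.Agent.S4072

open Subgroup Cfsg.Agent.Lib.Transfer

private theorem pow_eq_one_of_comm {G : Type*} [Group G] {g u d : G} (hd : d = u⁻¹ * (g * u * g⁻¹))
    (hgd : g * d = d * g) {n : ℕ} (hn : g ^ n = 1) : d ^ n = 1 := by
  have e1 : g * u * g⁻¹ = u * d := by rw [hd]; group
  have key : ∀ k : ℕ, g ^ k * u * (g ^ k)⁻¹ = u * d ^ k := by
    intro k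
    induction k with
    | zero => simp
    | succ k ih =>
      have h1 : g ^ (k + 1) * u * (g ^ (k + 1))⁻¹ = g * (g ^ k * u * (g ^ k)⁻¹) * g⁻¹ := by
        rw [pow_succ']; group
      rw [h1, ih]
      have hgdk : g * d ^ k * g⁻¹ = d ^ k := by
        have hc : Commute g d := hgd
        rw [(hc.pow_right k).eq]; group
      calc g * (u * d ^ k) * g⁻¹ = (g * u * g⁻¹) * (g * d ^ k * g⁻¹) := by group
        _ = u * d * d ^ k := by rw [e1, hgdk]
        _ = u * d ^ (k + 1) := by rw [pow_succ', mul_assoc]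
  have h2 := key n
  rw [hn] at h2
  simp only [one_mul, inv_one, mul_one] at h2
  exact (mul_eq_left.mp h2.symm)

private theorem stable_of_central {G : Type*} [Group G] [Finite G]
    (hS : ∀ H : Subgroup G, ¬ IsMulCommutative H → normalizer (H : Set G) = H) {p : ℕ} [hp : Fact p.Prime]
    {z : G} (hz : z ∈ center G) (hzo : orderOf z = p) : FrobeniusStable p G := by
  classical
  intro D hD g hgN hgc
  by_cases hDc : IsMulCommutative D
  · by_contra hgC
    have hcomm : ∀ a ∈ D, ∀ b ∈ D, a * b = b * a := by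
      intro a ha b hb
      have := congrArg Subtype.val (hDc.is_comm.comm ⟨a, ha⟩ ⟨b, hb⟩)
      exact this
    have hgD : ∀ u ∈ D, g * u * g⁻¹ ∈ D := fun u hu => (mem_normalizer_iff.mp hgN u).mp hu
    have hgD' : ∀ u ∈ D, g⁻¹ * u * g ∈ D := by
      intro u hu
      have := (mem_normalizer_iff.mp hgN (g⁻¹ * u * g)).mpr (by
        have e : g * (g⁻¹ * u * g) * g⁻¹ = u := by group
        rw [e]; exact hu)
      exact this
    let E : Subgroup G :=
      { carrier := {d | ∃ u ∈ D, d = u⁻¹ * (g * u * g⁻¹)}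
        one_mem' := ⟨1, D.one_mem, by simp⟩
        mul_mem' := by
          rintro a b ⟨u, hu, rfl⟩ ⟨v, hv, rfl⟩
          refine ⟨u * v, D.mul_mem hu hv, ?_⟩
          have e1 : g * (u * v) * g⁻¹ = (g * u * g⁻¹) * (g * v * g⁻¹) := by group
          have e2 := hcomm _ (hgD u hu) _ (D.inv_mem hv)
          have e3 := hcomm _ (D.inv_mem hu) _ (D.inv_mem hv)
          rw [e1, mul_inv_rev, ← e3]
          calc u⁻¹ * (g * u * g⁻¹) * (v⁻¹ * (g * v * g⁻¹))
              = u⁻¹ * ((g * u * g⁻¹) * v⁻¹) * (g * v * g⁻¹) := by group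
            _ = u⁻¹ * (v⁻¹ * (g * u * g⁻¹)) * (g * v * g⁻¹) := by rw [e2]
            _ = u⁻¹ * v⁻¹ * (g * u * g⁻¹ * (g * v * g⁻¹)) := by group
        inv_mem' := by
          rintro a ⟨u, hu, rfl⟩
          refine ⟨u⁻¹, D.inv_mem hu, ?_⟩
          have e2 := hcomm _ (D.inv_mem (hgD u hu)) _ hu
          have e3 : g * u⁻¹ * g⁻¹ = (g * u * g⁻¹)⁻¹ := by group
          rw [mul_inv_rev, inv_inv, e3]
          exact e2 }
    have hED : E ≤ D := by
      rintro d ⟨u, hu, rfl⟩
      exact D.mul_mem (D.inv_mem hu) (hgD u hu)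
    have hgE : zpowers g ≤ normalizer (E : Set G) := by
      rw [zpowers_le, mem_normalizer_iff]
      intro d
      constructor
      · rintro ⟨u, hu, rfl⟩
        refine ⟨g * u * g⁻¹, hgD u hu, ?_⟩
        group
      · rintro ⟨u, hu, hd⟩
        refine ⟨g⁻¹ * u * g, hgD' u hu, ?_⟩
        have e : d = g⁻¹ * (g * d * g⁻¹) * g := by group
        rw [e, hd]
        group
    let W : Subgroup G := E ⊔ zpowers g
    have hnpow : g ^ orderOf g = 1 := pow_orderOf_eq_one g
    have hEtriv : ∀ d ∈ E, g * d = d * g → d = 1 := by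
      rintro d hd hc
      obtain ⟨u, hu, hdu⟩ := hd
      have h1 := pow_eq_one_of_comm hdu hc hnpow
      have hdD : d ∈ D := hED ⟨u, hu, hdu⟩
      obtain ⟨m, hm⟩ := hD ⟨d, hdD⟩
      have hm' : d ^ p ^ m = 1 := congrArg Subtype.val hm
      have h2 : orderOf d ∣ p ^ m := orderOf_dvd_of_pow_eq_one hm'
      have h3 : orderOf d ∣ orderOf g := orderOf_dvd_of_pow_eq_one h1
      have h4 : Nat.Coprime (orderOf g) (p ^ m) := Nat.Coprime.pow_right m hgc
      exact orderOf_eq_one_iff.mp (Nat.eq_one_of_dvd_coprimes h4 h3 h2)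
    have hWna : ¬ IsMulCommutative W := by
      intro hW
      apply hgC
      rw [mem_centralizer_iff]
      intro u hu
      have hdE : u⁻¹ * (g * u * g⁻¹) ∈ E := ⟨u, hu, rfl⟩
      have hc : g * (u⁻¹ * (g * u * g⁻¹)) = (u⁻¹ * (g * u * g⁻¹)) * g := by
        have := congrArg Subtype.val (hW.is_comm.comm ⟨g, (le_sup_right : zpowers g ≤ W) (mem_zpowers g)⟩
          ⟨_, (le_sup_left : E ≤ W) hdE⟩)
        exact this
      have h1 := hEtriv _ hdE hc
      have h2 : g * u * g⁻¹ = u := by
        have := mul_eq_one_iff_eq_inv.mp h1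
        rw [inv_mul_eq_one] at h1
        exact h1.symm
      have h3 : g * u = u * g := by
        rw [mul_inv_eq_iff_eq_mul] at h2
        exact h2
      exact h3.symm
    have hzW : z ∈ W := by
      rw [← hS W hWna]
      exact center_le_normalizer _ hz
    obtain ⟨e, he, y, hy, hzy⟩ := (Cfsg.Agent.Lib.Coprime.mem_sup_iff_of_le_normalizer hgE _).mp hzW
    obtain ⟨k, rfl⟩ := mem_zpowers_iff.mp hy
    have heD := hED he
    obtain ⟨a, ha⟩ := hD ⟨e, heD⟩
    have ha' : e ^ p ^ a = 1 := congrArg Subtype.val ha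
    have hy1 : g ^ k = e⁻¹ * z := by rw [hzy]; group
    have hzc : Commute e⁻¹ z := by
      have := mem_center_iff.mp hz e⁻¹
      exact this
    have hy2 : (g ^ k) ^ p ^ (a + 1) = 1 := by
      rw [hy1, hzc.mul_pow]
      have h1 : e⁻¹ ^ p ^ (a + 1) = 1 := by
        rw [inv_pow, pow_succ, pow_mul, ha']; simp
      have h2 : z ^ p ^ (a + 1) = 1 := by
        have h0 : z ^ p = 1 := by rw [← hzo]; exact pow_orderOf_eq_one z
        rw [pow_succ', pow_mul, h0, one_pow]
      rw [h1, h2, one_mul]
    have hy3 : orderOf (g ^ k) ∣ p ^ (a + 1) := orderOf_dvd_of_pow_eq_one hy2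
    have hy4 : orderOf (g ^ k) ∣ orderOf g := by
      have := orderOf_dvd_natCard (G := zpowers g) ⟨g ^ k, zpow_mem_zpowers g k⟩ 
      rw [Nat.card_zpowers, Subgroup.orderOf_mk] at this
      exact this
    have hy5 : g ^ k = 1 :=
      orderOf_eq_one_iff.mp (Nat.eq_one_of_dvd_coprimes (Nat.Coprime.pow_right (a + 1) hgc) hy4 hy3)
    have hze : z = e := by
      rw [hy5, mul_one] at hzy
      exact hzy
    have hz1 : z = 1 := hEtriv z (hze ▸ he) (mem_center_iff.mp hz g)
    rw [hz1, orderOf_one] at hzo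
    exact hp.out.one_lt.ne hzo
  · have hgD : g ∈ D := by
      have := hS D hDc
      rw [this] at hgN
      exact hgN
    obtain ⟨m, hm⟩ := hD ⟨g, hgD⟩
    have hm' : g ^ p ^ m = 1 := congrArg Subtype.val hm
    have h2 : orderOf g ∣ p ^ m := orderOf_dvd_of_pow_eq_one hm'
    have h3 : g = 1 := orderOf_eq_one_iff.mp (Nat.eq_one_of_dvd_coprimes (Nat.Coprime.pow_right m hgc) (dvd_refl _) h2)
    rw [h3]
    exact one_mem _

private theorem normalizer_zpowers_le {G : Type*} [Group G] [Finite G]
    (hS : ∀ H : Subgroup G, ¬ IsMulCommutative H → normalizer (H : Set G) = H) (M : Subgroup G) [hM : M.Normal]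
    (hC : centralizer (M : Set G) ≤ M) (x : G ⧸ M) (hx : x ≠ 1) :
    normalizer ((zpowers x : Subgroup (G ⧸ M)) : Set (G ⧸ M)) ≤ zpowers x := by
  intro y hy
  obtain ⟨g, rfl⟩ := QuotientGroup.mk_surjective x
  obtain ⟨h, rfl⟩ := QuotientGroup.mk_surjective y
  let W : Subgroup G := (zpowers ((g : G ⧸ M))).comap (QuotientGroup.mk' M)
  have hgM : g ∉ M := fun h0 => hx ((QuotientGroup.eq_one_iff g).mpr h0)
  have hgC : g ∉ centralizer (M : Set G) := fun h0 => hgM (hC h0)
  have hWna : ¬ IsMulCommutative W := by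
    intro hW
    apply hgC
    rw [mem_centralizer_iff]
    intro m hm
    have hmW : m ∈ W := by
      show ((m : G ⧸ M)) ∈ zpowers ((g : G ⧸ M))
      rw [(QuotientGroup.eq_one_iff m).mpr hm]
      exact one_mem _
    have hgW : g ∈ W := by
      show ((g : G ⧸ M)) ∈ zpowers ((g : G ⧸ M))
      exact mem_zpowers _
    exact congrArg Subtype.val (hW.is_comm.comm ⟨m, hmW⟩ ⟨g, hgW⟩)
  have hhW : h ∈ normalizer (W : Set G) := by
    rw [mem_normalizer_iff]
    intro w
    have e := mem_normalizer_iff.mp hy ((w : G ⧸ M))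
    exact e
  rw [hS W hWna] at hhW
  exact hhW

private theorem sylow_central_of_normalizer {S : Type*} [Group S] [Finite S]
    (hA : ∀ x : S, x ≠ 1 → normalizer ((zpowers x : Subgroup S) : Set S) ≤ zpowers x) {p : ℕ} [Fact p.Prime]
    (hp : p ∣ Nat.card S) (T : Sylow p S) :
    normalizer ((T : Subgroup S) : Set S) ≤ centralizer ((T : Subgroup S) : Set S) := by
  have hTne : Nontrivial (T : Subgroup S) := by
    have h1 : p ^ 1 ∣ Nat.card (T : Subgroup S) := T.pow_dvd_card_of_pow_dvd_card (by simpa using hp)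
    have h2 : 1 < Nat.card (T : Subgroup S) := by
      have h3 := Nat.le_of_dvd Nat.card_pos h1
      have h4 := (Fact.out : p.Prime).one_lt
      rw [pow_one] at h3
      omega
    exact Finite.one_lt_card_iff_nontrivial.mp h2
  haveI hnt := T.isPGroup'.center_nontrivial
  obtain ⟨z, hz⟩ := exists_ne (1 : center (T : Subgroup S))
  have hz1 : ((z : (T : Subgroup S)) : S) ≠ 1 := by
    intro h0
    apply hz
    exact Subtype.ext (Subtype.ext h0)
  have hTz : (T : Subgroup S) ≤ zpowers ((z : (T : Subgroup S)) : S) := by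
    intro t ht
    apply hA _ hz1
    rw [mem_normalizer_iff]
    intro w
    have hcomm : t * ((z : (T : Subgroup S)) : S) = ((z : (T : Subgroup S)) : S) * t := by
      have := mem_center_iff.mp z.2 ⟨t, ht⟩
      exact congrArg Subtype.val this
    constructor
    · intro hw
      obtain ⟨k, rfl⟩ := mem_zpowers_iff.mp hw
      refine mem_zpowers_iff.mpr ⟨k, ?_⟩
      have hc : Commute t ((z : (T : Subgroup S)) : S) := hcomm
      rw [(hc.zpow_right k).eq]
      group
    · intro hw
      obtain ⟨k, hk⟩ := mem_zpowers_iff.mp hw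
      refine mem_zpowers_iff.mpr ⟨k, ?_⟩
      have hc : Commute t ((z : (T : Subgroup S)) : S) := hcomm
      have e : t * ((z : (T : Subgroup S)) : S) ^ k * t⁻¹ = ((z : (T : Subgroup S)) : S) ^ k := by
        rw [(hc.zpow_right k).eq]; group
      have e2 : t * ((z : (T : Subgroup S)) : S) ^ k * t⁻¹ = t * w * t⁻¹ := e.trans hk
      exact mul_left_cancel (mul_right_cancel e2)
  have hzT : zpowers ((z : (T : Subgroup S)) : S) ≤ (T : Subgroup S) := by
    rw [zpowers_le]; exact (z : (T : Subgroup S)).2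
  have hTeq : (T : Subgroup S) = zpowers ((z : (T : Subgroup S)) : S) := le_antisymm hTz hzT
  intro y hy
  rw [hTeq] at hy
  have hyT : y ∈ (T : Subgroup S) := hzT (hA _ hz1 hy)
  rw [mem_centralizer_iff]
  intro t ht
  have ht' : t ∈ zpowers ((z : (T : Subgroup S)) : S) := hTz ht
  obtain ⟨k, rfl⟩ := mem_zpowers_iff.mp ht'
  have hc : Commute y ((z : (T : Subgroup S)) : S) := by
    have := mem_center_iff.mp z.2 ⟨y, hyT⟩
    exact congrArg Subtype.val this
  exact (hc.zpow_right k).eq.symm

private theorem solvable_of_ab {G : Type*} [Group G] (N : Subgroup G) [N.Normal] (hN : IsMulCommutative N)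
    (hQ : Group.IsSolvable (G ⧸ N)) : Group.IsSolvable G := by
  haveI : Group.IsSolvable N := Group.isSolvable_of_comm (fun a b => hN.is_comm.comm a b)
  refine Group.isSolvable_of_ker_le_range N.subtype (QuotientGroup.mk' N) ?_
  rw [QuotientGroup.ker_mk', Subgroup.range_subtype]


/-- A finite group in which every non-abelian subgroup is self-normalizing is solvable or simple. -/
theorem result {G : Type*} [Group G] [Finite G] (hS : ∀ H : Subgroup G, ¬ IsMulCommutative H → Subgroup.normalizer (H : Set G) = H) :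
    Group.IsSolvable G ∨ IsSimpleGroup G := by
  classical
  by_cases hsolv : Group.IsSolvable G
  · exact Or.inl hsolv
  right
  by_contra hns
  have hnt : Nontrivial G := by
    by_contra hnt
    rw [not_nontrivial_iff_subsingleton] at hnt
    exact hsolv inferInstance
  -- every proper normal subgroup is abelian
  have hprop : ∀ N : Subgroup G, N.Normal → N ≠ ⊤ → IsMulCommutative N := by
    intro N hN hNt
    by_contra hc
    apply hNt
    have h1 := hS N hc
    rw [Subgroup.normalizer_eq_top_iff.mpr hN] at h1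
    exact h1.symm
  -- a nontrivial proper normal subgroup
  obtain ⟨N, hNn, hNb, hNt⟩ : ∃ N : Subgroup G, N.Normal ∧ N ≠ ⊥ ∧ N ≠ ⊤ := by
    by_contra hno
    push Not at hno
    apply hns
    refine ⟨fun N hN => ?_⟩
    by_cases hb : N = ⊥
    · exact Or.inl hb
    · exact Or.inr (hno N hN hb)
  by_cases hZ : center G = ⊥
  · -- trivial centre
    obtain ⟨M, hNM, hMmax⟩ := (Set.toFinite {K : Subgroup G | K.Normal ∧ K ≠ ⊤}).exists_le_maximal
      (show N ∈ {K : Subgroup G | K.Normal ∧ K ≠ ⊤} from ⟨hNn, hNt⟩)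
    obtain ⟨hMn, hMt⟩ := hMmax.1
    haveI := hMn
    have hMc := hprop M hMn hMt
    have hMb : M ≠ ⊥ := by
      intro h0
      apply hNb
      rw [h0] at hNM
      exact le_bot_iff.mp hNM
    have hMcent : M ≤ centralizer (M : Set G) := by
      intro a ha
      rw [mem_centralizer_iff]
      intro b hb
      exact congrArg Subtype.val (hMc.is_comm.comm ⟨b, hb⟩ ⟨a, ha⟩)
    have hCt : centralizer (M : Set G) ≠ ⊤ := by
      intro h0
      apply hMb
      rw [eq_bot_iff, ← hZ]
      intro a ha
      rw [mem_center_iff]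
      intro b
      have hb : b ∈ centralizer (M : Set G) := by rw [h0]; exact mem_top b
      exact (mem_centralizer_iff.mp hb a ha).symm
    have hC : centralizer (M : Set G) ≤ M :=
      hMmax.le_of_ge (show centralizer (M : Set G) ∈ {K : Subgroup G | K.Normal ∧ K ≠ ⊤} from
        ⟨inferInstance, hCt⟩) hMcent
    have hA := normalizer_zpowers_le hS M hC
    have hS1 : Nat.card (G ⧸ M) ≠ 1 := by
      intro h0
      rw [← Subgroup.index_eq_card, Subgroup.index_eq_one] at h0
      exact hMt h0
    obtain ⟨p, hpp, hpd⟩ := Nat.exists_prime_and_dvd hS1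
    haveI := Fact.mk hpp
    let T : Sylow p (G ⧸ M) := default
    have hT := sylow_central_of_normalizer hA hpd T
    let K := (MonoidHom.transferSylow T hT).ker
    have hKt : K ≠ ⊤ := by
      intro h0
      have h1 := MonoidHom.not_dvd_card_ker_transferSylow T hT
      apply h1
      have : Nat.card ↥((MonoidHom.transferSylow T hT).ker) = Nat.card (G ⧸ M) := by
        show Nat.card K = _
        rw [h0]; exact Nat.card_congr Subgroup.topEquiv.toEquiv
      rw [this]; exact hpd
    have hKb : K = ⊥ := by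
      have hle : M ≤ K.comap (QuotientGroup.mk' M) := by
        intro m hm
        have e : (QuotientGroup.mk' M) m = 1 := (QuotientGroup.eq_one_iff m).mpr hm
        rw [mem_comap, e]
        exact one_mem _
      have hmem : K.comap (QuotientGroup.mk' M) ∈ {K : Subgroup G | K.Normal ∧ K ≠ ⊤} := by
        refine ⟨inferInstance, ?_⟩
        intro h0
        apply hKt
        rw [eq_top_iff]
        intro x _
        obtain ⟨g, rfl⟩ := QuotientGroup.mk_surjective x
        have hg : g ∈ K.comap (QuotientGroup.mk' M) := by rw [h0]; exact mem_top g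
        exact hg
      have hge := hMmax.le_of_ge hmem hle
      rw [eq_bot_iff]
      intro x hx
      obtain ⟨g, rfl⟩ := QuotientGroup.mk_surjective x
      have hg : g ∈ M := hge hx
      rw [mem_bot]
      exact (QuotientGroup.eq_one_iff g).mpr hg
    have hinj : Function.Injective (MonoidHom.transferSylow T hT) :=
      (MonoidHom.ker_eq_bot_iff _).mp hKb
    have hTc : ∀ a b : (T : Subgroup (G ⧸ M)), a * b = b * a := by
      intro a b
      have h1 := hT (le_normalizer a.2)
      have := mem_centralizer_iff.mp h1 b b.2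
      exact Subtype.ext this.symm
    have hQc : ∀ a b : G ⧸ M, a * b = b * a := by
      intro a b
      apply hinj
      rw [map_mul, map_mul]
      exact hTc _ _
    exact hsolv (solvable_of_ab M hMc (Group.isSolvable_of_comm hQc))
  · -- nontrivial centre
    have hZnt : Nat.card (center G) ≠ 1 := by
      intro h0
      exact hZ (Subgroup.card_eq_one.mp h0)
    obtain ⟨p, hpp, hpd⟩ := Nat.exists_prime_and_dvd hZnt
    haveI := Fact.mk hpp
    obtain ⟨z, hz⟩ := exists_prime_orderOf_dvd_card' p hpd
    have hzo : orderOf (z : G) = p := by rw [Subgroup.orderOf_coe]; exact hz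
    obtain ⟨P, K, hKn, hKc⟩ := hasNormalPComplement_of_stable (stable_of_central hS z.2 hzo)
    haveI := hKn
    have hpG : p ∣ Nat.card G := by rw [← hzo]; exact orderOf_dvd_natCard _
    have hKt : K ≠ ⊤ := by
      intro h0
      have h1 : K.index = Nat.card (P : Subgroup G) := hKc.symm.index_eq_card
      rw [h0, Subgroup.index_top] at h1
      have h2 : p ^ 1 ∣ Nat.card (P : Subgroup G) := P.pow_dvd_card_of_pow_dvd_card (by simpa using hpG)
      rw [← h1] at h2
      have := Nat.le_of_dvd one_pos h2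
      have h5 := hpp.one_lt
      rw [pow_one] at this
      omega
    have hKab := hprop K hKn hKt
    have hQp : IsPGroup p (G ⧸ K) := by
      rw [IsPGroup.iff_card]
      rw [← Subgroup.index_eq_card, hKc.symm.index_eq_card]
      exact IsPGroup.iff_card.mp P.isPGroup'
    haveI := hQp.isNilpotent
    exact hsolv (solvable_of_ab K hKab inferInstance)

end Cfsg.Agent.S4072
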