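import Cfsg.Statements.S4074
import Mathlib

set_option autoImplicit false
open Cfsg

namespace Cfsg.Agent.S4074

open DihedralGroup

/-- The parity homomorphism for even `n`. -/
def par (n : ℕ) (h : 2 ∣ n) : DihedralGroup n →* Multiplicative (ZMod 2) where
  toFun g := match g with
    | r i => Multiplicative.ofAdd (ZMod.castHom h (ZMod 2) i)
    | sr i => Multiplicative.ofAdd (ZMod.castHom h (ZMod 2) i)
  map_one' := by
    change Multiplicative.ofAdd (ZMod.castHom h (ZMod 2) 0) = 1
    simp
  map_mul' := by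
    have hneg : ∀ a : ZMod 2, -a = a := by decide
    rintro (a | a) (b | b)
    · simp only [r_mul_r, map_add, ofAdd_add]
    · simp only [r_mul_sr, map_sub, ← ofAdd_add]
      rw [sub_eq_add_neg, hneg, add_comm]
    · simp only [sr_mul_r, map_add, ofAdd_add]
    · simp only [sr_mul_sr, map_sub, ← ofAdd_add]
      rw [sub_eq_add_neg, hneg, add_comm]

theorem ne_of_even {n : ℕ} (hn : 2 < n) (h2 : Even n) (h4 : n ≠ 4) :
    ¬ ∀ H : Subgroup (DihedralGroup n), ¬ IsMulCommutative H →
      Subgroup.normalizer (H : Set (DihedralGroup n)) = H := by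
  intro hall
  have h2d : 2 ∣ n := h2.two_dvd
  have : NeZero n := ⟨by omega⟩
  set H := (par n h2d).ker with hH
  have hN : H.Normal := MonoidHom.normal_ker _
  have hone : ((ZMod.castHom h2d (ZMod 2)) (1 : ZMod n)) = 1 := map_one _
  have hnt : H ≠ ⊤ := by
    intro ht
    have h1 : r 1 ∈ H := by rw [ht]; trivial
    rw [hH, MonoidHom.mem_ker] at h1
    have h3 : (par n h2d) (r 1) = Multiplicative.ofAdd (ZMod.castHom h2d (ZMod 2) 1) := rfl
    rw [h3, hone] at h1
    exact absurd h1 (by decide)
  have h2mem : r 2 ∈ H := by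
    rw [hH, MonoidHom.mem_ker]
    have h3 : (par n h2d) (r 2) = Multiplicative.ofAdd (ZMod.castHom h2d (ZMod 2) 2) := rfl
    rw [h3, map_ofNat]
    rfl
  have h0mem : sr 0 ∈ H := by
    rw [hH, MonoidHom.mem_ker]
    have h3 : (par n h2d) (sr 0) = Multiplicative.ofAdd (ZMod.castHom h2d (ZMod 2) 0) := rfl
    rw [h3, map_zero]
    rfl
  have hnc : ¬ IsMulCommutative H := by
    intro hc
    have h5 : (⟨r 2, h2mem⟩ : H) * ⟨sr 0, h0mem⟩ = ⟨sr 0, h0mem⟩ * ⟨r 2, h2mem⟩ := hc.is_comm.comm _ _
    have h6 := congrArg Subtype.val h5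
    simp only [Subgroup.coe_mul, r_mul_sr, sr_mul_r] at h6
    have h7 : (0 : ZMod n) - 2 = 0 + 2 := sr.inj h6
    have h8 : ((4 : ℕ) : ZMod n) = 0 := by
      have : ((4 : ℕ) : ZMod n) = 2 + 2 := by push_cast; ring
      rw [this]
      have h9 : (2 : ZMod n) = -2 := by
        have : (0 : ZMod n) - 2 = -2 := by ring
        rw [this] at h7
        have h10 : (0 : ZMod n) + 2 = 2 := by ring
        rw [h10] at h7
        exact h7.symm
      nth_rw 1 [h9]
      ring
    rw [ZMod.natCast_eq_zero_iff] at h8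
    have h9 : n ≤ 4 := Nat.le_of_dvd (by norm_num) h8
    obtain ⟨m, rfl⟩ := h2
    omega
  have h1 := hall H hnc
  rw [Subgroup.normalizer_eq_top_iff.mpr hN] at h1
  exact hnt h1.symm

theorem odd_case {n : ℕ} (hodd : Odd n) (H : Subgroup (DihedralGroup n)) (hnc : ¬ IsMulCommutative H) :
    Subgroup.normalizer (H : Set (DihedralGroup n)) = H := by
  classical
  -- H has a reflection
  obtain ⟨j, hj⟩ : ∃ j, sr j ∈ H := by
    by_contra hno
    push Not at hno
    apply hnc
    refine ⟨⟨fun a b => Subtype.ext ?_⟩⟩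
    obtain ⟨a, ha⟩ := a
    obtain ⟨b, hb⟩ := b
    cases a with
    | r i =>
      cases b with
      | r k => simp [r_mul_r, add_comm]
      | sr k => exact absurd hb (hno k)
    | sr i => exact absurd ha (hno i)
  obtain ⟨m, hm⟩ := hodd
  have hB : ∀ k : ZMod n, r k ∈ Subgroup.normalizer (H : Set (DihedralGroup n)) → r k ∈ H := by
    intro k hk
    have h1 : r k * sr j * (r k)⁻¹ ∈ H := (Subgroup.mem_normalizer_iff.mp hk _).mp hj
    have h2 : sr j * (r k * sr j * (r k)⁻¹) ∈ H := H.mul_mem hj h1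
    have h3 : sr j * (r k * sr j * (r k)⁻¹) = r (-(k + k)) := by
      simp only [inv_r, r_mul_sr, sr_mul_r, sr_mul_sr]
      congr 1; ring
    rw [h3] at h2
    have h4 : (r (-(k + k))) ^ (m + 1) ∈ H := pow_mem h2 _
    rw [r_pow] at h4
    have h5 : (((m + 1 : ℕ) : ZMod n)) * 2 = 1 := by
      have : (((m + 1 : ℕ) * 2 : ℕ) : ZMod n) = ((n + 1 : ℕ) : ZMod n) := by
        congr 1; omega
      push_cast at this ⊢
      rw [this]; simp
    have h6 : -(k + k) * ((m + 1 : ℕ) : ZMod n) = -k := by
      calc -(k + k) * ((m + 1 : ℕ) : ZMod n) = -k * (((m + 1 : ℕ) : ZMod n) * 2) := by ring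
        _ = -k := by rw [h5, mul_one]
    rw [h6] at h4
    have h7 := H.inv_mem h4
    rwa [inv_r, neg_neg] at h7
  apply le_antisymm _ Subgroup.le_normalizer
  intro g hg
  cases g with
  | r k => exact hB k hg
  | sr k =>
    have h1 : sr k * sr j ∈ Subgroup.normalizer (H : Set (DihedralGroup n)) :=
      Subgroup.mul_mem _ hg (Subgroup.le_normalizer hj)
    rw [sr_mul_sr] at h1
    have h2 := hB _ h1
    have h3 : sr k = r (j - k) * sr j := by
      rw [r_mul_sr]; congr 1; ring
    rw [h3]
    exact H.mul_mem h2 hj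

theorem four_case (H : Subgroup (DihedralGroup 4)) (hnc : ¬ IsMulCommutative H) :
    Subgroup.normalizer (H : Set (DihedralGroup 4)) = H := by
  classical
  have hcard : Nat.card H ∣ 8 := by
    have := Subgroup.card_subgroup_dvd_card H
    rwa [DihedralGroup.nat_card] at this
  have hcomm : ∀ (q : ℕ), Nat.card H = q → (q = 1 ∨ q = 2 ∨ q = 4) → IsMulCommutative H := by
    intro q hq hcases
    have : Fact (Nat.Prime 2) := ⟨Nat.prime_two⟩
    rcases hcases with rfl | rfl | rfl
    · have := (Nat.card_eq_one_iff_unique.mp hq).1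
      exact ⟨⟨fun a b => Subsingleton.elim _ _⟩⟩
    · have := isCyclic_of_prime_card (p := 2) hq
      let _ := IsCyclic.commGroup (α := H)
      exact ⟨⟨fun a b => mul_comm a b⟩⟩
    · exact IsPGroup.isMulCommutative_of_card_eq_prime_sq (p := 2) (by rw [hq]; norm_num)
  have h8 : Nat.card H = 8 := by
    have hdiv : Nat.card H ∈ Nat.divisors 8 := Nat.mem_divisors.mpr ⟨hcard, by norm_num⟩
    have hd : Nat.divisors 8 = {1, 2, 4, 8} := by decide
    rw [hd] at hdiv
    simp only [Finset.mem_insert, Finset.mem_singleton] at hdiv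
    rcases hdiv with h | h | h | h
    · exact absurd (hcomm _ rfl (Or.inl h)) hnc
    · exact absurd (hcomm _ rfl (Or.inr (Or.inl h))) hnc
    · exact absurd (hcomm _ rfl (Or.inr (Or.inr h))) hnc
    · exact h
  have htop : H = ⊤ := by
    apply Subgroup.eq_top_of_card_eq
    rw [h8, DihedralGroup.nat_card]
  rw [htop]
  exact Subgroup.normalizer_eq_top_iff.mpr inferInstance

/-- For n > 2, every non-abelian subgroup of the dihedral group of order 2n is self-normalizing if and only if n = 4 or n is odd. -/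
theorem result (n : ℕ) (hn : 2 < n) :
    (∀ H : Subgroup (DihedralGroup n), ¬ IsMulCommutative H → Subgroup.normalizer (H : Set (DihedralGroup n)) = H) ↔
    (n = 4 ∨ Odd n) := by
  constructor
  · intro h
    by_contra hcon
    push Not at hcon
    exact ne_of_even hn (Nat.not_odd_iff_even.mp hcon.2) hcon.1 h
  · rintro (rfl | hodd) H hH
    · exact four_case H hH
    · exact odd_case hodd H hH

end Cfsg.Agent.S4074
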