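import Cfsg.Statements.S4075
import Cfsg.Agent.Lib.PGroups.Cyclic

set_option autoImplicit false
open Cfsg

namespace Cfsg.Agent.S4075

open Cfsg.Agent.Lib.PGroups

/-- Let G be a finite nilpotent group. Every non-abelian subgroup of G is self-normalizing if and only if G is abelian or G is a minimal non-abelian p-group for some prime p (non-abelian of prime-power order with every proper subgroup abelian). -/
theorem result {G : Type*} [Group G] [Finite G]
    [Group.IsNilpotent G] :
    (∀ H : Subgroup G, ¬ IsMulCommutative H → Subgroup.normalizer (H : Set G) = H) ↔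
    (IsMulCommutative G ∨ (IsPrimePow (Nat.card G) ∧ ¬ IsMulCommutative G ∧ ∀ H : Subgroup G, H ≠ ⊤ → IsMulCommutative H)) := by
  classical
  have hT := (Group.isNilpotent_of_finite_tfae (G := G)).out 0 3
  have hT1 := (Group.isNilpotent_of_finite_tfae (G := G)).out 0 1
  have hnor := (hT1.mp ‹_›)
  have hSyl := (hT.mp ‹_›)
  constructor
  · intro h
    by_cases hc : IsMulCommutative G
    · exact Or.inl hc
    right
    have hprop : ∀ H : Subgroup G, H ≠ ⊤ → IsMulCommutative H := by
      intro H hH
      by_contra hnc
      have h1 := h H hnc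
      have h2 := hnor H (lt_top_iff_ne_top.mpr hH)
      rw [h1] at h2
      exact lt_irrefl _ h2
    refine ⟨?_, hc, hprop⟩
    by_contra hpp
    apply hc
    -- all Sylow subgroups are proper
    have hSP : ∀ (p : ℕ) [Fact p.Prime] (P : Sylow p G), (P : Subgroup G) ≠ ⊤ := by
      intro p hp P hPt
      apply hpp
      have hcard : Nat.card G = Nat.card (P : Subgroup G) := by
        rw [hPt]; exact (Subgroup.card_top).symm
      obtain ⟨k, hk⟩ := IsPGroup.iff_card.mp P.isPGroup'
      rw [hcard, hk]
      refine hp.out.isPrimePow.pow ?_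
      rintro rfl
      rw [pow_zero] at hk
      rw [hk] at hcard
      have hsub := (Nat.card_eq_one_iff_unique.mp hcard).1
      apply hc
      constructor
      constructor
      intro a b
      exact Subsingleton.elim _ _
    have hprim : ∀ a b : G, IsPrimePow (orderOf a) → IsPrimePow (orderOf b) → a * b = b * a := by
      rintro a b ⟨q, i, hq, hi, hqi⟩ ⟨r, j, hr, hj, hrj⟩
      have hq' := hq.nat_prime
      have hr' := hr.nat_prime
      have : Fact q.Prime := ⟨hq'⟩
      have : Fact r.Prime := ⟨hr'⟩
      obtain ⟨Q⟩ : Nonempty (Sylow q G) := inferInstance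
      obtain ⟨R⟩ : Nonempty (Sylow r G) := inferInstance
      have hQn := hSyl q inferInstance Q
      have hRn := hSyl r inferInstance R
      have haQ : a ∈ (Q : Subgroup G) := mem_sylow_of_mem_normalizer Q ⟨i, hqi.symm⟩ (by
        rw [Subgroup.normalizer_eq_top_iff.mpr hQn]; trivial)
      have hbR : b ∈ (R : Subgroup G) := mem_sylow_of_mem_normalizer R ⟨j, hrj.symm⟩ (by
        rw [Subgroup.normalizer_eq_top_iff.mpr hRn]; trivial)
      by_cases hqr : q = r
      · subst hqr
        have hbQ : b ∈ (Q : Subgroup G) := mem_sylow_of_mem_normalizer Q ⟨j, hrj.symm⟩ (by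
          rw [Subgroup.normalizer_eq_top_iff.mpr hQn]; trivial)
        have hc2 := hprop _ (hSP q Q)
        exact congrArg Subtype.val (hc2.is_comm.comm ⟨a, haQ⟩ ⟨b, hbQ⟩)
      · have hdis : Disjoint (Q : Subgroup G) (R : Subgroup G) := by
          exact IsPGroup.disjoint_of_ne q r hqr _ _ Q.isPGroup' R.isPGroup'
        exact Subgroup.commute_of_normal_of_disjoint _ _ hQn hRn hdis a b haQ hbR
    refine ⟨⟨fun x y => ?_⟩⟩
    have h1 : x ∈ Subgroup.centralizer ({y} : Set G) := by
      apply mem_of_primary_powers
      intro a _ ha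
      rw [Subgroup.mem_centralizer_singleton_iff]
      have h2 : y ∈ Subgroup.centralizer ({a} : Set G) := by
        apply mem_of_primary_powers
        intro b _ hb
        rw [Subgroup.mem_centralizer_singleton_iff]
        exact hprim b a hb ha
      exact (Subgroup.mem_centralizer_singleton_iff.mp h2).symm
    exact Subgroup.mem_centralizer_singleton_iff.mp h1
  · rintro (hab | ⟨-, -, hprop⟩) H hH
    · exfalso
      apply hH
      exact ⟨⟨fun a b => Subtype.ext (hab.is_comm.comm _ _)⟩⟩
    · by_cases hHt : H = ⊤
      · subst hHt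
        exact Subgroup.normalizer_eq_top_iff.mpr inferInstance
      · exact absurd (hprop H hHt) hH

end Cfsg.Agent.S4075
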