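import Cfsg.Statements.S4080
import Mathlib

set_option autoImplicit false
open Cfsg

namespace Cfsg.Agent.S4080

theorem nilp_two_mat {F : Type*} [Field F] (N : Matrix (Fin 2) (Fin 2) F) (h : IsNilpotent N) : N ^ 2 = 0 := by
  have htr : N.trace = 0 := by
    have := Matrix.isNilpotent_trace_of_isNilpotent h
    exact this.eq_zero
  have hdet : N.det = 0 := by
    obtain ⟨k, hk⟩ := h
    have h1 := congrArg Matrix.det hk
    rw [Matrix.det_pow] at h1
    have h2 : k ≠ 0 := by
      rintro rfl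
      simp at h1
    rw [Matrix.det_zero] at h1
    exact pow_eq_zero_iff h2 |>.mp h1
  ext i j
  rw [Matrix.trace_fin_two] at htr
  rw [Matrix.det_fin_two] at hdet
  have h00 : N 1 1 = - N 0 0 := by linear_combination htr
  fin_cases i <;> fin_cases j <;> simp [pow_two, Matrix.mul_apply, Fin.sum_univ_two, h00]
  all_goals first | ring1 | linear_combination -hdet + N 0 0 * htr

theorem exists_mul_of_castHom {p : ℕ} [Fact p.Prime] (e : ZMod (p ^ 2))
    (h : ZMod.castHom (Dvd.intro_left (p ^ 1) (by ring : p ^ 1 * p = p ^ 2) : p ∣ p ^ 2) (ZMod p) e = 0) :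
    ∃ c : ZMod (p ^ 2), e = (p : ZMod (p ^ 2)) * c := by
  have hpos : NeZero (p ^ 2) := ⟨pow_ne_zero _ (Fact.out : p.Prime).ne_zero⟩
  have h1 : (e.val : ZMod (p ^ 2)) = e := ZMod.natCast_zmod_val e
  have h2 : ((e.val : ℕ) : ZMod p) = 0 := by
    rw [← h, ZMod.castHom_apply]
    nth_rw 2 [← h1]
    exact (ZMod.cast_natCast (Dvd.intro_left (p ^ 1) (by ring : p ^ 1 * p = p ^ 2)) _).symm
  rw [ZMod.natCast_eq_zero_iff] at h2
  obtain ⟨k, hk⟩ := h2
  refine ⟨(k : ZMod (p ^ 2)), ?_⟩
  rw [← h1, hk]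
  push_cast
  rfl

/-- Let p > 3 be a prime and L the direct product of two cyclic groups of order p². Every automorphism of L of order p fixes every element of order p of L. -/
theorem result {p : ℕ} [Fact p.Prime] (hp : 3 < p)
    (a : MulAut (Multiplicative (ZMod (p ^ 2) × ZMod (p ^ 2)))) (ha : orderOf a = p)
    (x : Multiplicative (ZMod (p ^ 2) × ZMod (p ^ 2))) (hx : orderOf x = p) : a x = x := by
  classical
  have hp := (Fact.out : p.Prime)
  have : NeZero (p ^ 2) := ⟨pow_ne_zero _ hp.ne_zero⟩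
  have hpp : (p : ZMod (p ^ 2)) * (p : ZMod (p ^ 2)) = 0 := by
    have := ZMod.natCast_self (p ^ 2)
    push_cast at this
    rw [← pow_two]; exact this
  -- the additive map
  let F : ZMod (p ^ 2) × ZMod (p ^ 2) →+ ZMod (p ^ 2) × ZMod (p ^ 2) :=
    { toFun := fun v => (a (Multiplicative.ofAdd v)).toAdd
      map_zero' := by simp
      map_add' := by intro u v; simp }
  have hFdef : ∀ v, F v = (a (Multiplicative.ofAdd v)).toAdd := fun _ => rfl
  let M : Matrix (Fin 2) (Fin 2) (ZMod (p ^ 2)) :=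
    !![(F (1, 0)).1, (F (0, 1)).1; (F (1, 0)).2, (F (0, 1)).2]
  have hF : ∀ u w : ZMod (p ^ 2), F (u, w) = (M 0 0 * u + M 0 1 * w, M 1 0 * u + M 1 1 * w) := by
    intro u w
    have h1 : ((u, w) : ZMod (p ^ 2) × ZMod (p ^ 2)) = u.val • ((1, 0) : ZMod (p ^ 2) × ZMod (p ^ 2)) + w.val • ((0, 1) : ZMod (p ^ 2) × ZMod (p ^ 2)) := by
      ext <;> simp
    rw [h1, map_add, map_nsmul, map_nsmul]
    ext
    · simp [M, mul_comm]
    · simp [M, mul_comm]
  let toV : ZMod (p ^ 2) × ZMod (p ^ 2) → (Fin 2 → ZMod (p ^ 2)) := fun v => ![v.1, v.2]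
  have hM : ∀ v, toV (F v) = M.mulVec (toV v) := by
    rintro ⟨u, w⟩
    rw [hF]
    ext i
    fin_cases i <;> simp [toV, Matrix.mulVec, dotProduct, Fin.sum_univ_two]
  have hiter : ∀ (k : ℕ) v, toV ((a ^ k) (Multiplicative.ofAdd v)).toAdd = (M ^ k).mulVec (toV v) := by
    intro k
    induction k with
    | zero => intro v; simp
    | succ k ih =>
      intro v
      rw [pow_succ a k, MulAut.mul_apply, pow_succ M k, ← Matrix.mulVec_mulVec, ← hM, ← ih (F v)]
      rfl
  have hMp : M ^ p = 1 := by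
    have hap : a ^ p = 1 := by
      have := pow_orderOf_eq_one a
      rwa [ha] at this
    apply Matrix.mulVec_injective
    funext w
    have h1 := hiter p (w 0, w 1)
    rw [hap] at h1
    have h2 : toV (w 0, w 1) = w := by
      ext i; fin_cases i <;> rfl
    rw [h2] at h1
    rw [← h1, Matrix.one_mulVec]
    exact h2
  -- reduction modulo p
  have hdvd : p ∣ p ^ 2 := Dvd.intro_left (p ^ 1) (by ring : p ^ 1 * p = p ^ 2)
  let Φ := (ZMod.castHom hdvd (ZMod p)).mapMatrix (m := Fin 2)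
  set N := M - 1 with hN
  have hN1 : (N + 1) ^ p = 1 := by rw [hN, sub_add_cancel]; exact hMp
  have h1 : (Φ N + 1) ^ p = 1 := by
    have := congrArg Φ hN1
    rwa [map_pow, map_add, map_one] at this
  have h2 : (Φ N) ^ p = 0 := by
    rw [add_pow_expChar_of_commute (p := p) (Commute.one_right _), one_pow] at h1
    exact add_eq_right.mp h1
  have h3 : (Φ N) ^ 2 = 0 := nilp_two_mat _ ⟨p, h2⟩
  have h4 : Φ (N ^ 2) = 0 := by rwa [map_pow]
  have h5 : ∀ i j, ∃ c, (N ^ 2) i j = (p : ZMod (p ^ 2)) * c := fun i j =>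
    exists_mul_of_castHom _ (by
      have := congrFun (congrFun h4 i) j
      exact this)
  choose C hC using h5
  have hpN2 : p • N ^ 2 = 0 := by
    ext i j
    rw [Matrix.smul_apply, hC, nsmul_eq_mul, ← mul_assoc, hpp, zero_mul]
    rfl
  have hN4 : N ^ 4 = 0 := by
    have : N ^ 4 = N ^ 2 * N ^ 2 := by rw [← pow_add]
    rw [this]
    ext i j
    rw [Matrix.mul_apply, Fin.sum_univ_two, hC, hC, hC, hC]
    have e : ∀ c d : ZMod (p ^ 2), (p : ZMod (p ^ 2)) * c * ((p : ZMod (p ^ 2)) * d) = 0 := by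
      intro c d
      calc _ = ((p : ZMod (p ^ 2)) * p) * (c * d) := by ring
        _ = 0 := by rw [hpp, zero_mul]
    rw [e, e, add_zero]
    rfl
  have hvan : ∀ m ∈ Finset.range (p + 1), m ∉ Finset.range 2 →
      N ^ m * 1 ^ (p - m) * ((p.choose m : ℕ) : Matrix (Fin 2) (Fin 2) (ZMod (p ^ 2))) = 0 := by
    intro m hm hm2
    rw [Finset.mem_range] at hm hm2
    rw [one_pow, mul_one, ← nsmul_eq_mul']
    rcases Nat.lt_or_ge m p with hlt | hge
    · obtain ⟨t, ht⟩ := hp.dvd_choose_self (by omega) hlt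
      rw [ht, mul_comm, mul_smul]
      have : p • N ^ m = 0 := by
        have h6 : N ^ m = N ^ (m - 2) * N ^ 2 := by rw [← pow_add]; congr 1; omega
        rw [h6, ← mul_smul_comm, hpN2, mul_zero]
      rw [this, smul_zero]
    · have hmp : m = p := by omega
      subst hmp
      have h6 : N ^ m = N ^ (m - 4) * N ^ 4 := by rw [← pow_add]; congr 1; omega
      rw [h6, hN4, mul_zero, smul_zero]
  have hexp : (N + 1) ^ p = 1 + p • N := by
    rw [(Commute.one_right N).add_pow, ← Finset.sum_subset (s₁ := Finset.range 2) (by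
      intro m hm
      simp only [Finset.mem_range] at hm ⊢
      omega) hvan]
    simp [Finset.sum_range_succ]
    exact (Nat.commute_cast N p).eq
  have hpN : p • N = 0 := by
    rw [hN1] at hexp
    exact left_eq_add.mp hexp
  -- the element x
  have hxp : p • x.toAdd = 0 := by
    have h6 : x ^ p = 1 := by
      have := pow_orderOf_eq_one x
      rwa [hx] at this
    have h7 := congrArg Multiplicative.toAdd h6
    simpa using h7
  have hdiv : ∀ e : ZMod (p ^ 2), p • e = 0 → ∃ c : ZMod (p ^ 2), e = (p : ZMod (p ^ 2)) * c := by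
    intro e he
    have h8 : ((p * e.val : ℕ) : ZMod (p ^ 2)) = 0 := by
      push_cast
      rw [ZMod.natCast_zmod_val, ← nsmul_eq_mul]
      exact he
    rw [ZMod.natCast_eq_zero_iff] at h8
    have h8' : p * p ∣ p * e.val := (by rw [pow_two] : p * p ∣ p ^ 2).trans h8
    obtain ⟨k, hk⟩ := Nat.dvd_of_mul_dvd_mul_left hp.pos h8'
    refine ⟨(k : ZMod (p ^ 2)), ?_⟩
    calc e = (e.val : ZMod (p ^ 2)) := (ZMod.natCast_zmod_val e).symm
      _ = ((p * k : ℕ) : ZMod (p ^ 2)) := by rw [hk]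
      _ = _ := by push_cast; rfl
  obtain ⟨c₁, hc₁⟩ := hdiv x.toAdd.1 (by
    have := congrArg Prod.fst hxp
    simpa using this)
  obtain ⟨c₂, hc₂⟩ := hdiv x.toAdd.2 (by
    have := congrArg Prod.snd hxp
    simpa using this)
  have hv : toV x.toAdd = p • ![c₁, c₂] := by
    ext i
    fin_cases i
    · simp [toV, hc₁, nsmul_eq_mul]
    · simp [toV, hc₂, nsmul_eq_mul]
  have hNv : N.mulVec (toV x.toAdd) = 0 := by
    rw [hv, Matrix.mulVec_smul, ← Matrix.smul_mulVec, hpN, Matrix.zero_mulVec]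
  have hMv : M.mulVec (toV x.toAdd) = toV x.toAdd := by
    have h9 : M = N + 1 := by rw [hN, sub_add_cancel]
    rw [h9, Matrix.add_mulVec, hNv, zero_add, Matrix.one_mulVec]
  have h10 : toV (F x.toAdd) = toV x.toAdd := by rw [hM, hMv]
  have h11 : F x.toAdd = x.toAdd := by
    have h12 := congrFun h10 0
    have h13 := congrFun h10 1
    exact Prod.ext h12 h13
  exact h11

end Cfsg.Agent.S4080
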