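import Cfsg.Statements.S4081
import Cfsg.Agent.Lib.PGroups.ThreeOrb3
import Cfsg.Agent.Lib.Char.Burnside
import Cfsg.Agent.Lib.Basic.FrobNorm

set_option autoImplicit false
open Cfsg

namespace Cfsg.Agent.S4081

open Subgroup Cfsg.Agent.Lib.PGroups
open scoped commutatorElement

private theorem qmk_eq_iff {G : Type*} [Group G] (a b : G) :
    (Quotient.mk'' a : MulAction.orbitRel.Quotient (MulAut G) G) = Quotient.mk'' b ↔
      ∃ α : MulAut G, α b = a := by
  rw [Quotient.eq'', MulAction.orbitRel_apply]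
  rfl

private theorem exists_restrict {G : Type*} [Group G] (D : Subgroup G)
    (hD : ∀ (β : MulAut G), ∀ g ∈ D, β g ∈ D) (α : MulAut G) :
    ∃ φ : D ≃* D, ∀ u : D, ((φ u : D) : G) = α u := by
  refine ⟨{ toFun := fun u => ⟨α u, hD α u u.2⟩
            invFun := fun u => ⟨α⁻¹ u, hD α⁻¹ u u.2⟩
            left_inv := fun u => Subtype.ext (by simp)
            right_inv := fun u => Subtype.ext (by simp)
            map_mul' := fun a b => Subtype.ext (by simp) }, fun u => rfl⟩

private theorem order_mul_commute {G : Type*} [Group G] {p q : ℕ} (hpq : p ≠ q) (hp : p.Prime)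
    (hq : q.Prime) {x y : G} (hx : orderOf x = q) (hy : orderOf y = p) (h : x * y = y * x) :
    orderOf (x * y) = q * p := by
  have hc : Commute x y := h
  rw [hc.orderOf_mul_eq_mul_orderOf_of_coprime, hx, hy]
  rw [hx, hy]
  exact (Nat.coprime_primes hq hp).mpr hpq.symm

private theorem no_commuting {G : Type*} [Group G] {p q : ℕ} (hpq : p ≠ q) (hp' : p.Prime)
    (hq' : q.Prime) (hord : ∀ g : G, orderOf g = 1 ∨ orderOf g = p ∨ orderOf g = q) :
    ∀ x y : G, orderOf x = q → orderOf y = p → x * y ≠ y * x := by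
  intro x y hx hy h
  have h1 := order_mul_commute hpq hp' hq' hx hy h
  rcases hord (x * y) with h2 | h2 | h2
  · rw [h1] at h2
    have := Nat.eq_one_of_mul_eq_one_right h2
    exact hq'.one_lt.ne' this
  · rw [h1] at h2
    have h3 : q * p = 1 * p := by rw [h2, one_mul]
    have := Nat.eq_of_mul_eq_mul_right hp'.pos h3
    exact hq'.one_lt.ne' this
  · rw [h1] at h2
    have h3 : q * p = q * 1 := by rw [h2, mul_one]
    have := Nat.eq_of_mul_eq_mul_left hq'.pos h3
    exact hp'.one_lt.ne' this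

private theorem forward_core {G : Type*} [Group G] [Finite G] {p q : ℕ} [hp : Fact p.Prime]
    [hq : Fact q.Prime] (hpq : p ≠ q)
    (hsolv : Group.IsSolvable G)
    (hord : ∀ g : G, orderOf g = 1 ∨ orderOf g = p ∨ orderOf g = q)
    (hK : ∀ a b : G, orderOf a = orderOf b → ∃ α : MulAut G, α a = b)
    (hqd : q ∣ Nat.card G)
    (u : G) (hu : u ∈ commutator G) (huo : orderOf u = p) :
    ∃ (n : ℕ), 1 ≤ n ∧ Nat.card G = p ^ n * q ∧
      (∀ P : Sylow p G, (P : Subgroup G).Normal ∧ Cfsg.IsElementaryAbelian p (P : Subgroup G)) ∧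
      orderOf (p : ZMod q) = q - 1 ∧
      ∀ x y : G, orderOf x = q → orderOf y = p → x * y * x⁻¹ ≠ y := by
  classical
  have hp' : p.Prime := hp.out
  have hq' : q.Prime := hq.out
  have hu1 : u ≠ 1 := by
    intro h
    rw [h, orderOf_one] at huo
    exact hp'.one_lt.ne huo
  have hnt : Nontrivial G := ⟨⟨u, 1, hu1⟩⟩
  have hnoc := no_commuting hpq hp' hq' hord
  have hfpf : ∀ x y : G, orderOf x = q → orderOf y = p → x * y * x⁻¹ ≠ y := by
    intro x y hx hy h
    apply hnoc x y hx hy
    calc x * y = (x * y * x⁻¹) * x := by group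
      _ = y * x := by rw [h]
  set D := commutator G with hDdef
  haveI hDn : D.Normal := inferInstance
  have hDchar : ∀ (β : MulAut G), ∀ g ∈ D, β g ∈ D := by
    intro β g hg
    have h1 := (inferInstance : D.Characteristic).fixed β
    have h2 : g ∈ D.comap β.toMonoidHom := by rw [h1]; exact hg
    exact h2
  have hDtop : D ≠ ⊤ := (Group.IsSolvable.commutator_lt_top_of_nontrivial G).ne
  have hpin : ∀ g : G, orderOf g = p → g ∈ D := by
    intro g hg
    obtain ⟨α, rfl⟩ := hK u g (huo.trans hg.symm)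
    exact hDchar α u hu
  have hqout : ∀ g : G, orderOf g = q → g ∉ D := by
    intro g hg hgD
    apply hDtop
    rw [eq_top_iff]
    intro h _
    rcases hord h with h1 | h1 | h1
    · rw [orderOf_eq_one_iff.mp h1]; exact one_mem _
    · exact hpin h h1
    · obtain ⟨α, rfl⟩ := hK g h (hg.trans h1.symm)
      exact hDchar α g hgD
  have hexp : ∀ g ∈ D, g ^ p = 1 := by
    intro g hg
    rcases hord g with h1 | h1 | h1
    · rw [orderOf_eq_one_iff.mp h1, one_pow]
    · rw [← h1]; exact pow_orderOf_eq_one g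
    · exact absurd hg (hqout g h1)
  have hDp : IsPGroup p D := by
    intro g
    refine ⟨1, Subtype.ext ?_⟩
    simpa using hexp g g.2
  have hsyl : ∀ P : Sylow p G, (P : Subgroup G) = D := by
    intro P
    have hle : (P : Subgroup G) ≤ D := by
      intro g hg
      obtain ⟨k, hk⟩ := P.2 (⟨g, hg⟩ : (P : Subgroup G))
      have hk' : g ^ p ^ k = 1 := congrArg Subtype.val hk
      rcases hord g with h1 | h1 | h1
      · rw [orderOf_eq_one_iff.mp h1]; exact one_mem _
      · exact hpin g h1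
      · exfalso
        have h2 : q ∣ p ^ k := h1 ▸ orderOf_dvd_of_pow_eq_one hk'
        have h3 := hq'.dvd_of_dvd_pow h2
        exact hpq ((Nat.prime_dvd_prime_iff_eq hq' hp').mp h3).symm
    exact (P.is_maximal' hDp hle).symm
  have hDne : D ≠ ⊥ := by
    intro h
    rw [h] at hu
    exact hu1 (Subgroup.mem_bot.mp hu)
  haveI hDnt : Nontrivial D := (Subgroup.nontrivial_iff_ne_bot _).mpr hDne
  -- `D` is abelian
  haveI hcnt := hDp.center_nontrivial
  obtain ⟨⟨z, hz⟩, hz1⟩ := exists_ne (1 : ↥(Subgroup.center D))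
  have hz1' : (z : G) ≠ 1 := by
    intro h
    apply hz1
    apply Subtype.ext
    apply Subtype.ext
    exact h
  have hordp : ∀ g ∈ D, g ≠ 1 → orderOf g = p := fun g hg h1 => orderOf_eq_prime (hexp g hg) h1
  have hDcG : ∀ a ∈ D, ∀ b ∈ D, a * b = b * a := by
    intro a ha b hb
    by_cases ha1 : a = 1
    · rw [ha1, one_mul, mul_one]
    obtain ⟨α, hα⟩ := hK (z : G) a ((hordp _ z.2 hz1').trans (hordp a ha ha1).symm)
    have hb' : α⁻¹ b ∈ D := hDchar α⁻¹ b hb
    have h1 : (z : G) * α⁻¹ b = α⁻¹ b * z := by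
      have := (Subgroup.mem_center_iff.mp hz) ⟨α⁻¹ b, hb'⟩
      exact (congrArg Subtype.val this).symm
    have h2 := congrArg α h1
    rw [map_mul, map_mul, hα] at h2
    simpa using h2
  have hDc : ∀ a b : D, a * b = b * a := fun a b => Subtype.ext (hDcG a a.2 b b.2)
  haveI hDcomm : IsMulCommutative D := ⟨⟨hDc⟩⟩
  -- the Sylow `q`-subgroup
  obtain ⟨Q⟩ : Nonempty (Sylow q G) := inferInstance
  have hQ2 : ∀ a ∈ (Q : Subgroup G), orderOf a = 1 ∨ orderOf a = q := by
    intro a ha
    obtain ⟨k, hk⟩ := Q.2 (⟨a, ha⟩ : (Q : Subgroup G))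
    have hk' : a ^ q ^ k = 1 := congrArg Subtype.val hk
    rcases hord a with h1 | h1 | h1
    · exact Or.inl h1
    · exfalso
      have h2 : p ∣ q ^ k := h1 ▸ orderOf_dvd_of_pow_eq_one hk'
      have h3 := hp'.dvd_of_dvd_pow h2
      exact hpq ((Nat.prime_dvd_prime_iff_eq hp' hq').mp h3)
    · exact Or.inr h1
  have hDQ : ∀ a ∈ D, a ∈ (Q : Subgroup G) → a = 1 := by
    intro a ha haQ
    by_contra h1
    rcases hQ2 a haQ with h2 | h2
    · exact h1 (orderOf_eq_one_iff.mp h2)
    · exact hqout a h2 ha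
  have hQc : ∀ a b : (Q : Subgroup G), a * b = b * a := by
    intro a b
    have h1 : ⁅(a : G), (b : G)⁆ ∈ D :=
      Subgroup.commutator_mem_commutator (Subgroup.mem_top _) (Subgroup.mem_top _)
    have h2 : ⁅(a : G), (b : G)⁆ ∈ (Q : Subgroup G) := by
      rw [commutatorElement_def]
      exact mul_mem (mul_mem (mul_mem a.2 b.2) (inv_mem a.2)) (inv_mem b.2)
    have h3 := hDQ _ h1 h2
    apply Subtype.ext
    exact commutatorElement_eq_one_iff_mul_comm.mp h3
  have hcyc : IsCyclic (Q : Subgroup G) := by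
    refine Cfsg.Agent.Lib.Basic.isCyclic_of_fpf (Q : Subgroup G) D hDne ?_ ?_ (Or.inl ⟨⟨hQc⟩⟩)
    · rw [Subgroup.normalizer_eq_top]
      exact le_top
    · intro a ha ha1
      rw [eq_bot_iff]
      intro b hb
      obtain ⟨hb1, hb2⟩ := Subgroup.mem_inf.mp hb
      rw [Subgroup.mem_bot]
      by_contra hb3
      have hao : orderOf a = q := by
        rcases hQ2 a ha with h2 | h2
        · exact absurd (orderOf_eq_one_iff.mp h2) ha1
        · exact h2
      apply hnoc a b hao (hordp b hb1 hb3)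
      exact (Subgroup.mem_centralizer_singleton_iff.mp hb2).symm
  have hQne : (Q : Subgroup G) ≠ ⊥ := Q.ne_bot_of_dvd_card hqd
  have hcardQ : Nat.card (Q : Subgroup G) = q := by
    obtain ⟨g, hg⟩ := hcyc.exists_generator
    have h1 := orderOf_eq_card_of_forall_mem_zpowers hg
    rw [← h1, ← Subgroup.orderOf_coe]
    rcases hQ2 (g : G) g.2 with h2 | h2
    · exfalso
      apply hQne
      rw [← Subgroup.card_eq_one, ← h1, ← Subgroup.orderOf_coe, h2]
    · exact h2
  -- the index
  obtain ⟨P⟩ : Nonempty (Sylow p G) := inferInstance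
  have hPD := hsyl P
  have hndvd : ¬ p ∣ D.index := by
    have := P.not_dvd_index
    rwa [hPD] at this
  have hidx : D.index = q := by
    have hi0 : D.index ≠ 0 := Subgroup.index_ne_zero_of_finite
    have huniq : ∀ {d : ℕ}, d.Prime → d ∣ D.index → d = q := by
      intro d hd hdv
      haveI : Fact d.Prime := ⟨hd⟩
      have h1 : d ∣ Nat.card G := hdv.trans (Subgroup.index_dvd_card D)
      obtain ⟨w, hw⟩ := exists_prime_orderOf_dvd_card' d h1
      rcases hord w with h2 | h2 | h2
      · exact absurd (hw.symm.trans h2) hd.one_lt.ne'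
      · rw [hw] at h2
        rw [h2] at hdv
        exact absurd hdv hndvd
      · rw [hw] at h2
        exact h2
    have h1 := Nat.eq_prime_pow_of_unique_prime_dvd hi0 huniq
    set l := D.index.primeFactorsList.length with hl
    have h2 : q ^ l ∣ Nat.card G := h1 ▸ Subgroup.index_dvd_card D
    have h3 := Sylow.pow_dvd_card_of_pow_dvd_card Q h2
    rw [hcardQ] at h3
    have h4 : l ≤ 1 := by
      have h5 : q ^ l ∣ q ^ 1 := by rwa [pow_one]
      exact (Nat.pow_dvd_pow_iff_le_right hq'.one_lt).mp h5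
    have h6 : l ≠ 0 := by
      intro h0
      rw [h0, pow_zero] at h1
      exact hDtop (Subgroup.index_eq_one.mp h1)
    have h7 : l = 1 := by omega
    rw [h1, h7, pow_one]
  obtain ⟨n, hn⟩ := IsPGroup.iff_card.mp hDp
  have hn1 : 1 ≤ n := by
    rcases Nat.eq_zero_or_pos n with h | h
    · rw [h, pow_zero] at hn
      exact absurd (Subgroup.card_eq_one.mp hn) hDne
    · exact h
  have hcardG : Nat.card G = p ^ n * q := by
    rw [← Subgroup.card_mul_index D, hn, hidx]
  refine ⟨n, hn1, hcardG, ?_, ?_, hfpf⟩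
  · intro P'
    rw [hsyl P']
    exact ⟨hDn, hDcomm, hexp⟩
  -- the primitive root
  obtain ⟨y, hy⟩ := exists_prime_orderOf_dvd_card' q hqd
  have hyq : y ^ q = 1 := hy ▸ pow_orderOf_eq_one y
  have hcomp : D.IsComplement' (Subgroup.zpowers y) := by
    refine Subgroup.isComplement'_of_coprime ?_ ?_
    · rw [hn, Nat.card_zpowers, hy, hcardG]
    · rw [hn, Nat.card_zpowers, hy]
      exact Nat.Coprime.pow_left n ((Nat.coprime_primes hp' hq').mpr hpq)
  refine orderOf_natCast_of_group_transitive hpq D hDc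
    (fun a => Subtype.ext (by simpa using hexp a a.2)) hDne y hyq ?_ ?_ ?_
  · refine ⟨⟨u, hu⟩, fun h => ?_⟩
    have h1 := congrArg Subtype.val h
    rw [MulAut.conjNormal_apply] at h1
    exact hfpf y u hy huo h1
  · intro k hk0 hkq
    have hco : (orderOf y).Coprime k := by
      rw [hy]
      exact (Nat.Prime.coprime_iff_not_dvd hq').mpr (Nat.not_dvd_of_pos_of_lt hk0 hkq)
    have hyk : orderOf (y ^ k) = orderOf y := hco.orderOf_pow
    obtain ⟨α, hα⟩ := hK y (y ^ k) hyk.symm
    obtain ⟨φ, hφ⟩ := exists_restrict D hDchar α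
    refine ⟨φ, fun w => Subtype.ext ?_⟩
    rw [hφ, MulAut.conjNormal_apply, MulAut.conjNormal_apply, hφ]
    simp [hα]
  · intro v w hv hw
    have hv' : (v : G) ≠ 1 := fun h => hv (Subtype.ext h)
    have hw' : (w : G) ≠ 1 := fun h => hw (Subtype.ext h)
    obtain ⟨α, hα⟩ := hK (v : G) (w : G) ((hordp _ v.2 hv').trans (hordp _ w.2 hw').symm)
    obtain ⟨φ, hφ⟩ := exists_restrict D hDchar α
    obtain ⟨⟨d, x⟩, hdx⟩ := hcomp.2 (α y)
    have hdx' : (d : G) * (x : G) = α y := hdx
    obtain ⟨k, hk⟩ := (mem_powers_iff_mem_zpowers).mpr x.2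
    have hk' : (x : G) = y ^ k := hk.symm
    refine ⟨φ, k, Subtype.ext (by rw [hφ, hα]), fun t => Subtype.ext ?_⟩
    rw [hφ, MulAut.conjNormal_apply, MulAut.conjNormal_apply, hφ]
    have h1 : α t ∈ D := hDchar α t t.2
    have h2 : y ^ k * α t * (y ^ k)⁻¹ ∈ D := hDn.conj_mem _ h1 _
    have h3 := hDcG d d.2 _ h2
    have h4 : α (y * (t : G) * y⁻¹) = (d : G) * (y ^ k * α t * (y ^ k)⁻¹) * (d : G)⁻¹ := by
      simp only [map_mul, map_inv, ← hdx', hk']
      group
    rw [h4, h3]
    group

private theorem forward {G : Type*} [Group G] [Finite G] (hnpp : ¬ IsPrimePow (Nat.card G))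
    (hnt : Nat.card G ≠ 1)
    (h3 : Nat.card (MulAction.orbitRel.Quotient (MulAut G) G) = 3) :
    ∃ (p q n : ℕ) (_ : Fact p.Prime) (_ : Fact q.Prime), p ≠ q ∧ 1 ≤ n ∧ Nat.card G = p ^ n * q ∧
      (∀ P : Sylow p G, (P : Subgroup G).Normal ∧ Cfsg.IsElementaryAbelian p (P : Subgroup G)) ∧
      orderOf (p : ZMod q) = q - 1 ∧
      ∀ x y : G, orderOf x = q → orderOf y = p → x * y * x⁻¹ ≠ y := by
  classical
  have hc0 : Nat.card G ≠ 0 := Nat.card_pos.ne'
  set r := (Nat.card G).minFac with hr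
  have hrp : r.Prime := Nat.minFac_prime hnt
  have hrd : r ∣ Nat.card G := Nat.minFac_dvd _
  obtain ⟨s, hsp, hsd, hsr⟩ : ∃ s : ℕ, s.Prime ∧ s ∣ Nat.card G ∧ s ≠ r := by
    by_contra hall
    push Not at hall
    have h1 := Nat.eq_prime_pow_of_unique_prime_dvd hc0 (fun {d} hd hdv => hall d hd hdv)
    apply hnpp
    refine ⟨r, _, hrp.prime, ?_, h1.symm⟩
    rcases Nat.eq_zero_or_pos (Nat.card G).primeFactorsList.length with h | h
    · rw [h, pow_zero] at h1
      exact absurd h1 hnt
    · exact h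
  haveI : Fact r.Prime := ⟨hrp⟩
  haveI : Fact s.Prime := ⟨hsp⟩
  obtain ⟨x, hx⟩ := exists_prime_orderOf_dvd_card' r hrd
  obtain ⟨z, hz⟩ := exists_prime_orderOf_dvd_card' s hsd
  let mk : G → MulAction.orbitRel.Quotient (MulAut G) G := fun g => Quotient.mk'' g
  have hmk : ∀ a b : G, mk a = mk b → orderOf a = orderOf b := by
    intro a b h
    obtain ⟨α, rfl⟩ := (qmk_eq_iff a b).mp h
    exact MulEquiv.orderOf_eq α b
  haveI : Finite (MulAction.orbitRel.Quotient (MulAut G) G) := Quotient.finite _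
  haveI := Fintype.ofFinite (MulAction.orbitRel.Quotient (MulAut G) G)
  have hne1 : mk 1 ≠ mk x := fun h => by
    have := hmk _ _ h
    rw [orderOf_one, hx] at this
    exact hrp.one_lt.ne this
  have hne2 : mk 1 ≠ mk z := fun h => by
    have := hmk _ _ h
    rw [orderOf_one, hz] at this
    exact hsp.one_lt.ne this
  have hne3 : mk x ≠ mk z := fun h => by
    have := hmk _ _ h
    rw [hx, hz] at this
    exact hsr this.symm
  have huniv : ({mk 1, mk x, mk z} : Finset _) = Finset.univ := by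
    refine Finset.eq_univ_of_card _ ?_
    rw [Finset.card_eq_three.mpr ⟨_, _, _, hne1, hne2, hne3, rfl⟩, ← Nat.card_eq_fintype_card, h3]
  have hcases : ∀ g : G, g = 1 ∨ (∃ α : MulAut G, α x = g) ∨ (∃ α : MulAut G, α z = g) := by
    intro g
    have h1 : mk g ∈ ({mk 1, mk x, mk z} : Finset _) := by rw [huniv]; exact Finset.mem_univ _
    simp only [Finset.mem_insert, Finset.mem_singleton] at h1
    rcases h1 with h1 | h1 | h1
    · left
      obtain ⟨α, hα⟩ := (qmk_eq_iff g 1).mp h1
      rw [← hα, map_one]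
    · right; left
      exact (qmk_eq_iff g x).mp h1
    · right; right
      exact (qmk_eq_iff g z).mp h1
  have hord : ∀ g : G, orderOf g = 1 ∨ orderOf g = r ∨ orderOf g = s := by
    intro g
    rcases hcases g with h | ⟨α, h⟩ | ⟨α, h⟩
    · left; rw [h, orderOf_one]
    · right; left; rw [← h, MulEquiv.orderOf_eq, hx]
    · right; right; rw [← h, MulEquiv.orderOf_eq, hz]
  have hK : ∀ a b : G, orderOf a = orderOf b → ∃ α : MulAut G, α a = b := by
    intro a b hab
    rcases hcases a with ha | ⟨α, ha⟩ | ⟨α, ha⟩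
    · rw [ha, orderOf_one] at hab
      have := orderOf_eq_one_iff.mp hab.symm
      exact ⟨1, by rw [ha, this]; rfl⟩
    · have hao : orderOf a = r := by rw [← ha, MulEquiv.orderOf_eq, hx]
      rcases hcases b with hb | ⟨β, hb⟩ | ⟨β, hb⟩
      · rw [hb, orderOf_one, hao] at hab
        exact absurd hab hrp.one_lt.ne'
      · refine ⟨β * α⁻¹, ?_⟩
        rw [MulAut.mul_apply, ← hb, ← ha]
        simp
      · have hbo : orderOf b = s := by rw [← hb, MulEquiv.orderOf_eq, hz]
        rw [hao, hbo] at hab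
        exact absurd hab.symm hsr
    · have hao : orderOf a = s := by rw [← ha, MulEquiv.orderOf_eq, hz]
      rcases hcases b with hb | ⟨β, hb⟩ | ⟨β, hb⟩
      · rw [hb, orderOf_one, hao] at hab
        exact absurd hab hsp.one_lt.ne'
      · have hbo : orderOf b = r := by rw [← hb, MulEquiv.orderOf_eq, hx]
        rw [hao, hbo] at hab
        exact absurd hab hsr
      · refine ⟨β * α⁻¹, ?_⟩
        rw [MulAut.mul_apply, ← hb, ← ha]
        simp
  have hsolv : Group.IsSolvable G := by
    obtain ⟨a, m, hm, hcard⟩ := Nat.exists_eq_pow_mul_and_not_dvd hc0 r hrp.ne_one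
    have hm0 : m ≠ 0 := by
      intro h
      rw [h, mul_zero] at hcard
      exact hc0 hcard
    have huq : ∀ {d : ℕ}, d.Prime → d ∣ m → d = s := by
      intro d hd hdv
      haveI : Fact d.Prime := ⟨hd⟩
      have h1 : d ∣ Nat.card G := by
        rw [hcard]
        exact hdv.trans (Nat.dvd_mul_left _ _)
      obtain ⟨w, hw⟩ := exists_prime_orderOf_dvd_card' d h1
      rcases hord w with h2 | h2 | h2
      · exact absurd (hw.symm.trans h2) hd.one_lt.ne'
      · rw [hw] at h2
        rw [h2] at hdv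
        exact absurd hdv hm
      · rw [hw] at h2
        exact h2
    have h1 := Nat.eq_prime_pow_of_unique_prime_dvd hm0 huq
    exact Cfsg.Agent.Lib.Char.isSolvable_of_card_eq_aux hrp hsp _ G rfl ⟨a, _, by rw [hcard, ← h1]⟩
  obtain ⟨u, hu, hu1⟩ : ∃ u ∈ commutator G, u ≠ 1 := by
    by_contra hall
    push Not at hall
    have h1 : ⁅x, z⁆ ∈ commutator G :=
      Subgroup.commutator_mem_commutator (Subgroup.mem_top _) (Subgroup.mem_top _)
    have h2 := commutatorElement_eq_one_iff_mul_comm.mp (hall _ h1)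
    exact no_commuting hsr.symm hrp hsp hord z x hz hx h2.symm
  rcases hord u with h | h | h
  · exact absurd (orderOf_eq_one_iff.mp h) hu1
  · obtain ⟨n, h1, h2, h3', h4, h5⟩ := forward_core (p := r) (q := s) hsr.symm hsolv hord hK hsd u hu h
    exact ⟨r, s, n, ⟨hrp⟩, ⟨hsp⟩, hsr.symm, h1, h2, h3', h4, h5⟩
  · have hord' : ∀ g : G, orderOf g = 1 ∨ orderOf g = s ∨ orderOf g = r := by
      intro g
      rcases hord g with h1 | h1 | h1
      · exact Or.inl h1
      · exact Or.inr (Or.inr h1)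
      · exact Or.inr (Or.inl h1)
    obtain ⟨n, h1, h2, h3', h4, h5⟩ := forward_core (p := s) (q := r) hsr hsolv hord' hK hrd u hu h
    exact ⟨s, r, n, ⟨hsp⟩, ⟨hrp⟩, hsr, h1, h2, h3', h4, h5⟩

private theorem backward {G : Type*} [Group G] [Finite G] {p q n : ℕ} [hp : Fact p.Prime]
    [hq : Fact q.Prime] (hpq : p ≠ q) (hn : 1 ≤ n) (hcard : Nat.card G = p ^ n * q)
    (hsyl : ∀ P : Sylow p G, (P : Subgroup G).Normal ∧ Cfsg.IsElementaryAbelian p (P : Subgroup G))
    (hord : orderOf (p : ZMod q) = q - 1)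
    (hfp : ∀ x y : G, orderOf x = q → orderOf y = p → x * y * x⁻¹ ≠ y) :
    Nat.card (MulAction.orbitRel.Quotient (MulAut G) G) = 3 := by
  classical
  have hp' : p.Prime := hp.out
  have hq' : q.Prime := hq.out
  obtain ⟨P⟩ : Nonempty (Sylow p G) := inferInstance
  obtain ⟨hPn, hPc, hPe⟩ := hsyl P
  set D : Subgroup G := (P : Subgroup G) with hD
  haveI hDn : D.Normal := hPn
  have hc : ∀ a b : D, a * b = b * a := fun a b => hPc.is_comm.comm a b
  have he : ∀ a : D, a ^ p = 1 := fun a => Subtype.ext (by simpa using hPe a a.2)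
  have hqco : Nat.Coprime p q := (Nat.coprime_primes hp' hq').mpr hpq
  have hcardD : Nat.card D = p ^ n := by
    obtain ⟨m, hm⟩ := IsPGroup.iff_card.mp P.2
    have h1 : p ^ n ∣ Nat.card D := Sylow.pow_dvd_card_of_pow_dvd_card P (hcard ▸ Nat.dvd_mul_right _ _)
    have h2 : p ^ m ∣ p ^ n * q := hm ▸ hcard ▸ Subgroup.card_subgroup_dvd_card D
    have h3 : p ^ m ∣ p ^ n := Nat.Coprime.dvd_of_dvd_mul_right (Nat.Coprime.pow_left m hqco) h2
    exact Nat.dvd_antisymm (hm ▸ h3) h1
  have hDne : D ≠ ⊥ := by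
    intro h
    rw [h, Subgroup.card_bot] at hcardD
    have h1 : 1 < p ^ n := Nat.one_lt_pow (by omega) hp'.one_lt
    omega
  obtain ⟨y, hy⟩ := exists_prime_orderOf_dvd_card' q (hcard ▸ Nat.dvd_mul_left q _)
  have hyq : y ^ q = 1 := hy ▸ pow_orderOf_eq_one y
  have hcomp : D.IsComplement' (Subgroup.zpowers y) := by
    refine Subgroup.isComplement'_of_coprime ?_ ?_
    · rw [hcardD, Nat.card_zpowers, hy, hcard]
    · rw [hcardD, Nat.card_zpowers, hy]
      exact Nat.Coprime.pow_left n hqco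
  have hord1 : ∀ u : D, u ≠ 1 → orderOf (u : G) = p := by
    intro u hu
    refine orderOf_eq_prime (by simpa using hPe u u.2) (fun h => hu (Subtype.ext h))
  have hfpfx : ∀ (x : G), orderOf x = q → ∀ u : D, MulAut.conjNormal x u = u → u = 1 := by
    intro x hx u h
    by_contra hu
    have h1 := congrArg Subtype.val h
    rw [MulAut.conjNormal_apply] at h1
    exact hfp x u hx (hord1 u hu) h1
  obtain ⟨ha, φB, hB⟩ := group_auts_of_primitive hpq D hc he hDne y hyq (hfpfx y hy) hord
  -- automorphisms of `G`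
  have hA : ∀ v w : D, v ≠ 1 → w ≠ 1 → ∃ α : MulAut G, α v = w := by
    intro v w hv hw
    obtain ⟨φ, hφ, hφT⟩ := ha v w hv hw
    obtain ⟨α, hα, -⟩ := exists_aut_extending (k := 1) hcomp (by simp) φ (by simpa using hφT)
    exact ⟨α, by rw [hα, hφ]⟩
  obtain ⟨αB, -, hαB⟩ := exists_aut_extending (k := p) hcomp (by rw [hy]; exact hqco) φB hB
  have hPow : ∀ j : ℕ, ∃ α : MulAut G, α y = y ^ (p ^ j) := by
    intro j
    induction j with
    | zero => exact ⟨1, by simp⟩
    | succ j ih =>
      obtain ⟨α, hα⟩ := ih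
      refine ⟨(αB : MulAut G) * α, ?_⟩
      rw [MulAut.mul_apply, hα, map_pow]
      show αB y ^ (p ^ j) = _
      rw [hαB, ← pow_mul, pow_succ, mul_comm]
  have hpne : (p : ZMod q) ≠ 0 := by
    intro h
    rw [ZMod.natCast_eq_zero_iff] at h
    exact hpq ((Nat.prime_dvd_prime_iff_eq hq' hp').mp h).symm
  have hPowI : ∀ i : ℕ, ¬ q ∣ i → ∃ α : MulAut G, α y = y ^ i := by
    intro i hi
    have hine : (i : ZMod q) ≠ 0 := by
      intro h
      exact hi ((ZMod.natCast_eq_zero_iff _ _).mp h)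
    let u : (ZMod q)ˣ := Units.mk0 (p : ZMod q) hpne
    have hou : orderOf u = q - 1 := by
      rw [← orderOf_units, Units.val_mk0, hord]
    have htop : Subgroup.zpowers u = ⊤ := by
      refine Subgroup.eq_top_of_card_eq _ ?_
      rw [Nat.card_zpowers, hou, Nat.card_eq_fintype_card, ZMod.card_units q]
    have hm : Units.mk0 (i : ZMod q) hine ∈ Subgroup.zpowers u := by rw [htop]; trivial
    obtain ⟨j, hj⟩ := (mem_powers_iff_mem_zpowers).mpr hm
    have hj' : ((p ^ j : ℕ) : ZMod q) = (i : ZMod q) := by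
      have := congrArg Units.val hj
      simpa [u] using this
    rw [ZMod.natCast_eq_natCast_iff] at hj'
    obtain ⟨α, hα⟩ := hPow j
    refine ⟨α, ?_⟩
    rw [hα]
    rw [pow_eq_pow_iff_modEq, hy]
    exact hj'
  -- outside `D`
  have hout : ∀ g : G, g ∉ D → ∃ α : MulAut G, α y = g := by
    intro g hg
    obtain ⟨⟨d, x⟩, hdx⟩ := hcomp.2 g
    have hdx' : (d : G) * (x : G) = g := hdx
    obtain ⟨i, hi⟩ := (mem_powers_iff_mem_zpowers).mpr x.2
    have hi' : (x : G) = y ^ i := hi.symm
    have hqi : ¬ q ∣ i := by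
      intro h
      apply hg
      have h1 : y ^ i = 1 := by
        rw [← hy] at h
        exact orderOf_dvd_iff_pow_eq_one.mp h
      rw [← hdx', hi', h1, mul_one]
      exact d.2
    have hxo : orderOf (x : G) = q := by
      have hco : (orderOf y).Coprime i := by
        rw [hy]
        exact (Nat.Prime.coprime_iff_not_dvd hq').mpr hqi
      rw [hi', hco.orderOf_pow, hy]
    let τ : D → D := fun w => w * (MulAut.conjNormal (x : G) w)⁻¹
    have hτinj : Function.Injective τ := by
      intro w w' hw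
      have h1 : w'⁻¹ * w = MulAut.conjNormal (x : G) (w'⁻¹ * w) := by
        rw [map_mul, map_inv]
        have h2 : w * (MulAut.conjNormal (x : G) w)⁻¹ = w' * (MulAut.conjNormal (x : G) w')⁻¹ := hw
        have h3 : w = w' * (MulAut.conjNormal (x : G) w')⁻¹ * MulAut.conjNormal (x : G) w := by
          rw [← h2]; group
        calc w'⁻¹ * w = w'⁻¹ * (w' * (MulAut.conjNormal (x : G) w')⁻¹ * MulAut.conjNormal (x : G) w) := by
              rw [← h3]
          _ = (MulAut.conjNormal (x : G) w')⁻¹ * MulAut.conjNormal (x : G) w := by group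
      have h4 := hfpfx x hxo _ h1.symm
      exact (inv_mul_eq_one.mp h4).symm
    obtain ⟨w, hw⟩ := (Finite.injective_iff_surjective.mp hτinj) d
    obtain ⟨α₀, hα₀⟩ := hPowI i hqi
    refine ⟨MulAut.conj (w : G) * α₀, ?_⟩
    rw [MulAut.mul_apply, hα₀, MulAut.conj_apply, ← hi', ← hdx', ← hw]
    show _ = ((w * (MulAut.conjNormal (x : G) w)⁻¹ : D) : G) * (x : G)
    rw [Subgroup.coe_mul, Subgroup.coe_inv, MulAut.conjNormal_apply]
    group
  -- counting
  obtain ⟨u₀, hu₀⟩ : ∃ u₀ : D, u₀ ≠ 1 := by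
    haveI : Nontrivial D := (Subgroup.nontrivial_iff_ne_bot _).mpr hDne
    exact exists_ne _
  let mk : G → MulAction.orbitRel.Quotient (MulAut G) G := fun g => Quotient.mk'' g
  have hmk : ∀ a b : G, mk a = mk b → orderOf a = orderOf b := by
    intro a b h
    obtain ⟨α, rfl⟩ := (qmk_eq_iff a b).mp h
    exact MulEquiv.orderOf_eq α b
  haveI : Finite (MulAction.orbitRel.Quotient (MulAut G) G) := Quotient.finite _
  haveI := Fintype.ofFinite (MulAction.orbitRel.Quotient (MulAut G) G)
  have hou₀ := hord1 u₀ hu₀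
  have hne1 : mk 1 ≠ mk u₀ := fun h => by
    have := hmk _ _ h
    rw [orderOf_one, hou₀] at this
    exact hp'.one_lt.ne this
  have hne2 : mk 1 ≠ mk y := fun h => by
    have := hmk _ _ h
    rw [orderOf_one, hy] at this
    exact hq'.one_lt.ne this
  have hne3 : mk u₀ ≠ mk y := fun h => by
    have := hmk _ _ h
    rw [hou₀, hy] at this
    exact hpq this
  have huniv : (Finset.univ : Finset (MulAction.orbitRel.Quotient (MulAut G) G)) =
      {mk 1, mk u₀, mk y} := by
    symm
    refine Finset.eq_univ_iff_forall.mpr fun c => ?_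
    induction c using Quotient.inductionOn' with
    | h g =>
      simp only [Finset.mem_insert, Finset.mem_singleton]
      by_cases hgD : g ∈ D
      · by_cases hg1 : g = 1
        · left; rw [hg1]
        · right; left
          have hg1' : (⟨g, hgD⟩ : D) ≠ 1 := fun h => hg1 (congrArg Subtype.val h)
          obtain ⟨α, hα⟩ := hA u₀ ⟨g, hgD⟩ hu₀ hg1'
          exact (qmk_eq_iff g u₀).mpr ⟨α, hα⟩
      · right; right
        obtain ⟨α, hα⟩ := hout g hgD
        exact (qmk_eq_iff g y).mpr ⟨α, hα⟩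
  rw [Nat.card_eq_fintype_card, ← Finset.card_univ]
  exact Finset.card_eq_three.mpr ⟨_, _, _, hne1, hne2, hne3, huniv⟩


/-- Let G be a finite group whose order is not a prime power. Then the automorphism group of G has exactly three orbits on G if and only if there are distinct primes p, q with #G = pⁿ·q (n ≥ 1) such that G has a normal elementary abelian Sylow p-subgroup P, p is a primitive root modulo q (the multiplicative order of p mod q is q − 1), and every element of order q of G acts on P without non-identity fixed points. -/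
theorem result {G : Type*} [Group G] [Finite G] (hnpp : ¬ IsPrimePow (Nat.card G)) (hnt : Nat.card G ≠ 1) :
    Nat.card (MulAction.orbitRel.Quotient (MulAut G) G) = 3 ↔
    ∃ (p q n : ℕ) (_ : Fact p.Prime) (_ : Fact q.Prime), p ≠ q ∧ 1 ≤ n ∧ Nat.card G = p ^ n * q ∧
      (∀ P : Sylow p G, (P : Subgroup G).Normal ∧ Cfsg.IsElementaryAbelian p (P : Subgroup G)) ∧
      orderOf (p : ZMod q) = q - 1 ∧
      ∀ x y : G, orderOf x = q → orderOf y = p → x * y * x⁻¹ ≠ y := by
  constructor
  · exact forward hnpp hnt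
  · rintro ⟨p, q, n, hp, hq, hpq, hn, hcard, hsyl, hord, hfp⟩
    exact backward hpq hn hcard hsyl hord hfp

end Cfsg.Agent.S4081
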