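import Cfsg.Statements.S4082
import Cfsg.Agent.Lib.PGroups.CycSub
import Cfsg.Agent.Lib.PGroups.ConjFixed
import Cfsg.Agent.Lib.TwoGroups.Present

set_option autoImplicit false
open Cfsg

namespace Cfsg.Agent.S4082

open Subgroup Cfsg Cfsg.Agent.Lib.Basic Cfsg.Agent.Lib.PGroups

private def LHS (G : Type*) [Group G] (p : ℕ) : Prop :=
  ∀ H : Subgroup G, (∀ S : Sylow p ↥H, (S : Subgroup ↥H).Normal) →
        (∀ (S : Sylow p ↥H) [(S : Subgroup ↥H).Normal], IsCyclic (↥H ⧸ (S : Subgroup ↥H))) →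
        IsCyclic H ∨ (∃ n : ℕ, Nonempty (H ≃* DihedralGroup (p ^ n)))

private theorem dihedral_outside {H : Type*} [Group H] [Finite H] {p : ℕ} [hfp : Fact p.Prime] (hp : p ≠ 2) {n : ℕ}
    (e : H ≃* DihedralGroup (p ^ n)) (S : Subgroup H) (hS : IsPGroup p S) (hcard : Nat.card S = p ^ n)
    {h : H} (hh : h ∉ S) : h * h = 1 ∧ ∀ s ∈ S, h * s * h⁻¹ = s⁻¹ := by
  classical
  haveI hne : NeZero (p ^ n) := ⟨pow_ne_zero _ hfp.out.ne_zero⟩
  have hrot : ∀ s ∈ S, ∃ i : ZMod (p ^ n), e s = DihedralGroup.r i := by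
    intro s hs
    rcases hes : e s with i | i
    · exact ⟨i, rfl⟩
    · exfalso
      have h2 : orderOf (e s) = 2 := by rw [hes]; exact DihedralGroup.orderOf_sr i
      have h3 : orderOf s = 2 := by rw [← MulEquiv.orderOf_eq e s]; exact h2
      obtain ⟨k, hk⟩ := exists_orderOf_of_mem_isPGroup hS hs
      rw [h3] at hk
      have hk0 : k ≠ 0 := by
        rintro rfl
        simp at hk
      have h4 : p ∣ 2 := by
        rw [hk]
        exact dvd_pow_self p hk0
      exact hp ((Nat.prime_dvd_prime_iff_eq hfp.out Nat.prime_two).mp h4)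
  have hmapeq : S.map e.toMonoidHom = zpowers (DihedralGroup.r (1 : ZMod (p ^ n))) := by
    apply Subgroup.eq_of_le_of_card_ge
    · rintro _ ⟨s, hs, rfl⟩
      obtain ⟨i, hi⟩ := hrot s hs
      have h1 : e.toMonoidHom s = e s := rfl
      rw [h1, hi]
      refine Subgroup.mem_zpowers_iff.mpr ⟨(i.val : ℤ), ?_⟩
      rw [DihedralGroup.r_one_zpow]
      simp
    · rw [Nat.card_zpowers, DihedralGroup.orderOf_r_one]
      exact hcard.symm.le.trans (Nat.card_congr (S.equivMapOfInjective _ e.injective).toEquiv).le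
  have hnot : ∃ a : ZMod (p ^ n), e h = DihedralGroup.sr a := by
    rcases hes : e h with j | a
    · exfalso
      have h1 : DihedralGroup.r j ∈ zpowers (DihedralGroup.r (1 : ZMod (p ^ n))) := by
        refine Subgroup.mem_zpowers_iff.mpr ⟨(j.val : ℤ), ?_⟩
        rw [DihedralGroup.r_one_zpow]
        simp
      rw [← hmapeq, ← hes] at h1
      obtain ⟨s, hs, hse⟩ := h1
      have : s = h := e.injective hse
      exact hh (this ▸ hs)
    · exact ⟨a, rfl⟩
  obtain ⟨a, ha⟩ := hnot
  constructor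
  · apply e.injective
    rw [map_mul, ha, DihedralGroup.sr_mul_self, map_one]
  · intro s hs
    obtain ⟨i, hi⟩ := hrot s hs
    apply e.injective
    rw [map_mul, map_mul, map_inv, map_inv, ha, hi, DihedralGroup.inv_sr, DihedralGroup.inv_r,
      DihedralGroup.sr_mul_r, DihedralGroup.sr_mul_sr]
    congr 1
    ring

private theorem key_M {G : Type*} [Group G] [Finite G] {p : ℕ} [hfp : Fact p.Prime] (hp : p ≠ 2) (hL : LHS G p)
    {T : Subgroup G} (hT : IsPGroup p T) {z : G} (hzN : z ∈ normalizer (T : Set G)) (hzp : ¬ p ∣ orderOf z)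
    {t₀ : G} (ht₀ : t₀ ∈ T) (hzc : z * t₀ * z⁻¹ ≠ t₀) : z * z = 1 ∧ ∀ t ∈ T, z * t * z⁻¹ = t⁻¹ := by
  classical
  set H : Subgroup G := T ⊔ zpowers z with hH
  have hsyl := sylow_eq_sup_zpowers hT hzN hzp
  have hnorm := normal_subgroupOf_sup_zpowers hzN
  have hzH : z ∈ H := (le_sup_right : zpowers z ≤ H) (mem_zpowers z)
  have htH : t₀ ∈ H := (le_sup_left : T ≤ H) ht₀
  rcases hL H (fun S => by rw [hsyl S]; exact hnorm)
    (fun S _ => isCyclic_quotient_sup_zpowers hzN _ (le_sylow_sup_zpowers hT hzN S)) with hc | ⟨n, ⟨e⟩⟩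
  · exfalso
    apply hzc
    have h1 := comm_of_isCyclic (⟨z, hzH⟩ : H) ⟨t₀, htH⟩
    have h2 : z * t₀ = t₀ * z := congrArg Subtype.val h1
    rw [h2, mul_inv_cancel_right]
  · set T' : Subgroup H := T.subgroupOf H with hT'
    have hT'p : IsPGroup p T' := hT.comap_of_injective _ H.subtype_injective
    have hcardH : Nat.card H = 2 * p ^ n := by
      rw [Nat.card_congr e.toEquiv, DihedralGroup.nat_card]
    obtain ⟨a, ha⟩ := IsPGroup.iff_card.mp hT'p
    have hidx : ¬ p ∣ T'.index := by
      rw [← hsyl default]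
      exact Sylow.not_dvd_index _
    have hmul : T'.index * Nat.card T' = 2 * p ^ n := by rw [T'.index_mul_card, hcardH]
    rw [ha] at hmul
    have hpodd : Nat.Coprime p 2 := (Nat.coprime_primes hfp.out Nat.prime_two).mpr hp
    have h1 : p ^ a ∣ p ^ n := by
      have : p ^ a ∣ 2 * p ^ n := hmul ▸ dvd_mul_left _ _
      exact (hpodd.pow_left a).dvd_of_dvd_mul_left this
    have h2 : p ^ n ∣ p ^ a := by
      have : p ^ n ∣ T'.index * p ^ a := by rw [hmul]; exact dvd_mul_left _ _
      exact (((Nat.Prime.coprime_iff_not_dvd hfp.out).mpr hidx).pow_left n).dvd_of_dvd_mul_left this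
    have hcardT' : Nat.card T' = p ^ n := by rw [ha]; exact Nat.dvd_antisymm h1 h2
    have hnot : (⟨z, hzH⟩ : H) ∉ T' := by
      intro hz
      have hzT : z ∈ T := mem_subgroupOf.mp hz
      obtain ⟨k, hk⟩ := exists_orderOf_of_mem_isPGroup hT hzT
      rcases k with _ | k
      · rw [pow_zero, orderOf_eq_one_iff] at hk
        apply hzc
        rw [hk]
        simp
      · exact hzp (hk ▸ dvd_pow_self p (Nat.succ_ne_zero k))
    obtain ⟨h3, h4⟩ := dihedral_outside hp e T' hT'p hcardT' hnot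
    refine ⟨congrArg Subtype.val h3, fun t ht => ?_⟩
    have htH' : t ∈ H := (le_sup_left : T ≤ H) ht
    exact congrArg Subtype.val (h4 ⟨t, htH'⟩ (mem_subgroupOf.mpr ht))

private theorem sylow_conj {G : Type*} [Group G] [Finite G] {p : ℕ} [hfp : Fact p.Prime] (P : Sylow p G)
    {A : Subgroup G} (hA : IsPGroup p A) : ∃ g : G, ∀ x ∈ A, g⁻¹ * x * g ∈ (P : Subgroup G) := by
  obtain ⟨Q, hQ⟩ := hA.exists_le_sylow
  obtain ⟨g, hg⟩ := MulAction.exists_smul_eq G P Q
  refine ⟨g, fun x hx => ?_⟩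
  have h1 : x ∈ (Q : Subgroup G) := hQ hx
  rw [← hg, Sylow.coe_subgroup_smul, Subgroup.mem_smul_pointwise_iff_exists] at h1
  obtain ⟨y, hy, hy'⟩ := h1
  simp only [MulAut.smul_def, MulAut.conj_apply] at hy'
  have : g⁻¹ * x * g = y := by
    rw [← hy']
    group
  rwa [this]

private theorem isCyclic_of_conj {G : Type*} [Group G] [Finite G] {P A : Subgroup G} (hP : IsCyclic P) {g : G}
    (h : ∀ x ∈ A, g⁻¹ * x * g ∈ P) : IsCyclic A := by
  let f : A →* P := ((MulAut.conj g⁻¹).toMonoidHom.comp A.subtype).codRestrict P (fun x => by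
    have := h x x.2
    simpa using this)
  refine isCyclic_of_injective f ?_
  intro a b hab
  have h1 : g⁻¹ * (a : G) * g = g⁻¹ * (b : G) * g := by
    have := congrArg Subtype.val hab
    simpa [f] using this
  exact Subtype.ext (mul_left_cancel (mul_right_cancel h1))

private theorem forward {G : Type*} [Group G] [Finite G] {p : ℕ} [hfp : Fact p.Prime] (hp : p ≠ 2) (P : Sylow p G)
    (hL : LHS G p) :
    (IsCyclic P ∧
      (Subgroup.normalizer ((P : Subgroup G) : Set G) = Subgroup.centralizer ((P : Subgroup G) : Set G) ∨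
       ((Subgroup.centralizer ((P : Subgroup G) : Set G)).relIndex (Subgroup.normalizer ((P : Subgroup G) : Set G)) = 2 ∧
        ∀ Q : Subgroup G, Q ≤ P → Nat.card Q = p →
          IsMulCommutative ↥(Subgroup.centralizer (Q : Set G)) ∧
          ∀ x : G, x ∈ Subgroup.normalizer (Q : Set G) → x ∉ Subgroup.centralizer (Q : Set G) →
            orderOf x = 2 ∧ ∀ c : G, c ∈ Subgroup.centralizer (Q : Set G) → x * c * x⁻¹ = c⁻¹))) := by
  classical
  -- `P` is cyclic
  have hPcyc : IsCyclic (P : Subgroup G) := by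
    have hSt : ∀ S : Sylow p ↥(P : Subgroup G), (S : Subgroup ↥(P : Subgroup G)) = ⊤ := by
      intro S
      have hpg : IsPGroup p ↥(⊤ : Subgroup ↥(P : Subgroup G)) := fun x =>
        (P.isPGroup' x.1).imp (fun k h => Subtype.ext h)
      exact (S.is_maximal' hpg le_top).symm
    have hq : ∀ (S : Sylow p ↥(P : Subgroup G)) [(S : Subgroup ↥(P : Subgroup G)).Normal],
        IsCyclic (↥(P : Subgroup G) ⧸ (S : Subgroup ↥(P : Subgroup G))) := by
      intro S _
      refine ⟨⟨1, fun x => ?_⟩⟩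
      obtain ⟨a, rfl⟩ := QuotientGroup.mk_surjective x
      have ha : a ∈ (S : Subgroup ↥(P : Subgroup G)) := by
        rw [hSt S]
        exact mem_top a
      rw [(QuotientGroup.eq_one_iff a).mpr ha]
      exact ⟨0, by simp⟩
    rcases hL (P : Subgroup G) (fun S => by rw [hSt S]; infer_instance) hq with h | ⟨n, ⟨e⟩⟩
    · exact h
    · exfalso
      have h1 : Nat.card (P : Subgroup G) = 2 * p ^ n := by
        rw [Nat.card_congr e.toEquiv, DihedralGroup.nat_card]
      obtain ⟨k, hk⟩ := IsPGroup.iff_card.mp P.isPGroup'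
      have h2 : 2 ∣ p ^ k := by
        rw [← hk, h1]
        exact dvd_mul_right _ _
      have h3 := (Nat.prime_dvd_prime_iff_eq Nat.prime_two hfp.out).mp (Nat.prime_two.dvd_of_dvd_pow h2)
      exact hp h3.symm
  have hPcomm : ∀ a ∈ (P : Subgroup G), ∀ b ∈ (P : Subgroup G), a * b = b * a := fun a ha b hb =>
    congrArg Subtype.val (comm_of_isCyclic (⟨a, ha⟩ : (P : Subgroup G)) ⟨b, hb⟩)
  -- action on `P`
  have hact : ∀ y ∈ normalizer ((P : Subgroup G) : Set G), y ∈ centralizer ((P : Subgroup G) : Set G) ∨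
      ∀ s ∈ (P : Subgroup G), y * s * y⁻¹ = s⁻¹ := by
    intro y hy
    obtain ⟨a, b, hab, hc, hk, hb, ha, hbz⟩ := exists_pPart p y
    have hzle : zpowers y ≤ normalizer ((P : Subgroup G) : Set G) := by rwa [zpowers_le]
    have haN := hzle ha
    have hbN := hzle hbz
    have haP : a ∈ (P : Subgroup G) := by
      have h1 : a ∈ zpowers a ⊓ normalizer ((P : Subgroup G) : Set G) :=
        Subgroup.mem_inf.mpr ⟨mem_zpowers a, haN⟩
      have h3 := SetLike.le_def.mp ((isPGroup_zpowers_iff.mpr hk).inf_normalizer_sylow P).le h1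
      exact (Subgroup.mem_inf.mp h3).2
    by_cases hbc : ∀ s ∈ (P : Subgroup G), b * s * b⁻¹ = s
    · left
      rw [Subgroup.mem_centralizer_iff]
      intro s hs
      have h1 := hbc s hs
      have h2 : b * s = s * b := by
        rw [mul_inv_eq_iff_eq_mul] at h1
        exact h1
      rw [hab]
      calc s * (a * b) = (s * a) * b := by group
        _ = (a * s) * b := by rw [hPcomm s hs a haP]
        _ = a * (s * b) := by group
        _ = a * (b * s) := by rw [h2]
        _ = a * b * s := by group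
    · right
      push Not at hbc
      obtain ⟨t₀, ht₀, hne⟩ := hbc
      obtain ⟨-, hinv⟩ := key_M hp hL P.isPGroup' hbN hb ht₀ hne
      intro s hs
      rw [hab]
      have h1 : a * b * s * (a * b)⁻¹ = a * (b * s * b⁻¹) * a⁻¹ := by group
      rw [h1, hinv s hs, hPcomm a haP _ ((P : Subgroup G).inv_mem hs), mul_inv_cancel_right]
  refine ⟨hPcyc, ?_⟩
  by_cases hNC : normalizer ((P : Subgroup G) : Set G) = centralizer ((P : Subgroup G) : Set G)
  · exact Or.inl hNC
  right
  have hCN : centralizer ((P : Subgroup G) : Set G) ≤ normalizer ((P : Subgroup G) : Set G) := by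
    intro x hx
    apply mem_normalizer_of_forall_commute
    intro z hz
    exact ((Subgroup.mem_centralizer_iff.mp hx) z hz).symm
  obtain ⟨y₀, hy₀N, hy₀C⟩ : ∃ y₀ ∈ normalizer ((P : Subgroup G) : Set G), y₀ ∉ centralizer ((P : Subgroup G) : Set G) := by
    by_contra hcon
    push Not at hcon
    exact hNC (le_antisymm hcon hCN)
  have hy₀inv : ∀ s ∈ (P : Subgroup G), y₀ * s * y₀⁻¹ = s⁻¹ := (hact y₀ hy₀N).resolve_left hy₀C
  refine ⟨?_, ?_⟩
  · -- the index
    rw [Subgroup.relIndex, Subgroup.index_eq_two_iff]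
    refine ⟨⟨y₀, hy₀N⟩, fun b => ?_⟩
    simp only [mem_subgroupOf, Subgroup.coe_mul]
    -- an element not commuting with `y₀`
    obtain ⟨s₀, hs₀, hs₀ne⟩ : ∃ s₀ ∈ (P : Subgroup G), s₀⁻¹ ≠ s₀ := by
      by_contra hcon
      push Not at hcon
      apply hy₀C
      rw [Subgroup.mem_centralizer_iff]
      intro s hs
      have h1 := hy₀inv s hs
      rw [hcon s hs, mul_inv_eq_iff_eq_mul] at h1
      exact h1.symm
    have hmem : ∀ c : G, c ∈ centralizer ((P : Subgroup G) : Set G) ↔ ∀ s ∈ (P : Subgroup G), c * s * c⁻¹ = s := by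
      intro c
      rw [Subgroup.mem_centralizer_iff]
      refine ⟨fun h s hs => ?_, fun h s hs => ?_⟩
      · rw [← h s hs, mul_inv_cancel_right]
      · have := h s hs
        rw [mul_inv_eq_iff_eq_mul] at this
        exact this.symm
    by_cases hb : (b : G) ∈ centralizer ((P : Subgroup G) : Set G)
    · right
      refine ⟨hb, fun hbm => ?_⟩
      have h1 := (hmem _).mp hbm s₀ hs₀
      have h2 : (b : G) * y₀ * s₀ * ((b : G) * y₀)⁻¹ = (b : G) * (y₀ * s₀ * y₀⁻¹) * (b : G)⁻¹ := by group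
      rw [h2, hy₀inv s₀ hs₀, (hmem _).mp hb _ ((P : Subgroup G).inv_mem hs₀)] at h1
      exact hs₀ne h1
    · left
      refine ⟨?_, hb⟩
      have hbinv := (hact b b.2).resolve_left hb
      rw [hmem]
      intro s hs
      have h2 : (b : G) * y₀ * s * ((b : G) * y₀)⁻¹ = (b : G) * (y₀ * s * y₀⁻¹) * (b : G)⁻¹ := by group
      rw [h2, hy₀inv s hs, hbinv _ ((P : Subgroup G).inv_mem hs), inv_inv]
  · intro Q hQP hQc
    have hQp : IsPGroup p Q := P.isPGroup'.to_le hQP
    -- generator
    have hQne : Q ≠ ⊥ := by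
      rintro rfl
      rw [Subgroup.card_bot] at hQc
      exact hfp.out.one_lt.ne hQc
    obtain ⟨w, hwQ, hw1⟩ := (Subgroup.bot_or_exists_ne_one Q).resolve_left hQne
    have hwo : orderOf w = p := by
      have h1 : orderOf w ∣ p := hQc ▸ Subgroup.orderOf_dvd_natCard Q hwQ
      rcases (Nat.dvd_prime hfp.out).mp h1 with h | h
      · exact absurd (orderOf_eq_one_iff.mp h) hw1
      · exact h
    have hQz : Q = zpowers w := by
      symm
      apply Subgroup.eq_of_le_of_card_ge ((Subgroup.zpowers_le).mpr hwQ)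
      rw [hQc, Nat.card_zpowers, hwo]
    -- elements commuting with `w` centralise `Q`
    have hcz : ∀ c : G, c * w = w * c → c ∈ centralizer (Q : Set G) := by
      intro c hc
      rw [Subgroup.mem_centralizer_iff]
      intro q hq
      rw [hQz] at hq
      obtain ⟨i, rfl⟩ := Subgroup.mem_zpowers_iff.mp hq
      have : Commute c w := hc
      exact (this.zpow_right i).eq.symm
    have hxx : ∀ x ∈ normalizer (Q : Set G), x ∉ centralizer (Q : Set G) → x * x = 1 := by
      intro x hx hxC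
      obtain ⟨a, b, hab, hc, hk, hb, ha, hbz⟩ := exists_pPart p x
      have hzle : zpowers x ≤ normalizer (Q : Set G) := by rwa [zpowers_le]
      have haN := hzle ha
      have hbN := hzle hbz
      -- `a` centralises `Q`
      have haC : a ∈ centralizer (Q : Set G) := by
        have hSC : zpowers a ≤ normalizer (Q : Set G) := by rwa [zpowers_le]
        obtain ⟨w', hw'Q, hw'1, hw'⟩ := Cfsg.Agent.Lib.PGroups.exists_ne_one_fixed_of_isPGroup hSC hQp
          (isPGroup_zpowers_iff.mpr hk) hQne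
        rw [hQz] at hw'Q
        obtain ⟨i, rfl⟩ := Subgroup.mem_zpowers_iff.mp hw'Q
        -- `w ^ i` generates
        have h1 : Nat.card (zpowers (w ^ i)) = p := by
          rw [Nat.card_zpowers]
          have h2 : orderOf (w ^ i) ∣ p := by
            rw [← hwo]
            exact orderOf_dvd_of_pow_eq_one (by
              rw [← zpow_natCast, ← zpow_mul, mul_comm, zpow_mul, zpow_natCast, pow_orderOf_eq_one, one_zpow])
          rcases (Nat.dvd_prime hfp.out).mp h2 with h | h
          · exact absurd (orderOf_eq_one_iff.mp h) hw'1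
          · exact h
        have hQz2 : Q = zpowers (w ^ i) := by
          symm
          apply Subgroup.eq_of_le_of_card_ge
          · rw [hQz, zpowers_le]
            exact zpow_mem (mem_zpowers w) i
          · rw [hQc, h1]
        rw [Subgroup.mem_centralizer_iff]
        intro q hq
        rw [hQz2] at hq
        obtain ⟨j, rfl⟩ := Subgroup.mem_zpowers_iff.mp hq
        have h2 : Commute a (w ^ i) := by
          have h3 := hw' a (mem_zpowers a)
          rw [mul_inv_eq_iff_eq_mul] at h3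
          exact h3
        exact (h2.zpow_right j).eq.symm
      have hbC : b ∉ centralizer (Q : Set G) := by
        intro hbC
        apply hxC
        rw [hab]
        exact Subgroup.mul_mem _ haC hbC
      -- `b` inverts `Q`
      have hbne : b * w * b⁻¹ ≠ w := by
        intro h
        rw [mul_inv_eq_iff_eq_mul] at h
        exact hbC (hcz b h)
      obtain ⟨hb2, -⟩ := key_M hp hL hQp hbN hb hwQ hbne
      -- `a = 1`
      have ha1 : a = 1 := by
        by_contra ha1
        obtain ⟨k', hk'⟩ := hk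
        have hk0 : k' ≠ 0 := by
          rintro rfl
          rw [pow_zero] at hk'
          exact ha1 (orderOf_eq_one_iff.mp hk')
        have hpd : p ∣ orderOf a := by
          rw [hk']; exact dvd_pow_self p hk0
        set w' := a ^ (orderOf a / p) with hw'
        have hw'o : orderOf w' = p := orderOf_pow_orderOf_div (orderOf_pos a).ne' hpd
        have hw'z : w' ∈ zpowers a := Subgroup.npow_mem_zpowers a _
        have hcomm' : zpowers w' ≤ normalizer (Q : Set G) := by
          rw [zpowers_le]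
          apply mem_normalizer_of_forall_commute
          intro q hq
          have h5 : w' ∈ centralizer (Q : Set G) := Subgroup.pow_mem _ haC _
          exact ((Subgroup.mem_centralizer_iff.mp h5) q hq).symm
        have hpg : IsPGroup p ↥(Q ⊔ zpowers w') :=
          IsPGroup.to_sup_of_normal_left' hQp (isPGroup_zpowers_iff.mpr ⟨1, by rw [hw'o, pow_one]⟩) hcomm'
        obtain ⟨P', hP'⟩ := hpg.exists_le_sylow
        haveI hP'c : IsCyclic (P' : Subgroup G) :=
          isCyclic_of_surjective (P.equiv P').toMonoidHom (P.equiv P').surjective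
        have hQle : Q ≤ (P' : Subgroup G) := le_sup_left.trans hP'
        have hw'le : zpowers w' ≤ (P' : Subgroup G) := le_sup_right.trans hP'
        have heq : Q.subgroupOf (P' : Subgroup G) = (zpowers w').subgroupOf (P' : Subgroup G) := by
          apply eq_of_card_eq_of_isCyclic
          rw [Nat.card_congr (Subgroup.subgroupOfEquivOfLe hQle).toEquiv,
            Nat.card_congr (Subgroup.subgroupOfEquivOfLe hw'le).toEquiv, hQc, Nat.card_zpowers, hw'o]
        have hw_mem : w ∈ zpowers w' := by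
          have h1 : (⟨w, hQle hwQ⟩ : (P' : Subgroup G)) ∈ Q.subgroupOf (P' : Subgroup G) := mem_subgroupOf.mpr hwQ
          rw [heq] at h1
          exact mem_subgroupOf.mp h1
        obtain ⟨i, hi⟩ := Subgroup.mem_zpowers_iff.mp hw_mem
        apply hbC
        apply hcz
        have h6 : Commute b w' := (hc.symm).pow_right _
        rw [← hi]
        exact (h6.zpow_right i).eq
      rw [hab, ha1, one_mul]
      exact hb2
    have hCQN : centralizer (Q : Set G) ≤ normalizer (Q : Set G) := by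
      intro c hc
      apply mem_normalizer_of_forall_commute
      intro z hz
      exact ((Subgroup.mem_centralizer_iff.mp hc) z hz).symm
    have hinvC : ∀ x ∈ normalizer (Q : Set G), x ∉ centralizer (Q : Set G) →
        ∀ c ∈ centralizer (Q : Set G), x * c * x⁻¹ = c⁻¹ := by
      intro x hx hxC c hc
      have h1 : x * c ∈ normalizer (Q : Set G) := Subgroup.mul_mem _ hx (hCQN hc)
      have h2 : x * c ∉ centralizer (Q : Set G) := fun h => hxC (by
        have := Subgroup.mul_mem _ h (Subgroup.inv_mem _ hc)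
        simpa using this)
      have h3 := hxx _ h1 h2
      have h4 := hxx x hx hxC
      have hxinv : x⁻¹ = x := inv_eq_of_mul_eq_one_left h4
      rw [hxinv, eq_inv_iff_mul_eq_one]
      rw [← h3]
      group
    have hy₀Q : y₀ ∈ normalizer (Q : Set G) := by
      apply mem_normalizer_of_conj_le'
      intro q hq
      rw [hy₀inv q (hQP hq)]
      exact Q.inv_mem hq
    have hy₀QC : y₀ ∉ centralizer (Q : Set G) := by
      intro h
      have h1 := (Subgroup.mem_centralizer_iff.mp h) w hwQ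
      have h2 := hy₀inv w (hQP hwQ)
      rw [← h1, mul_inv_cancel_right] at h2
      have h3 : w * w = 1 := by
        nth_rewrite 1 [h2]
        exact inv_mul_cancel w
      have h4 : orderOf w ∣ 2 := orderOf_dvd_of_pow_eq_one (by rw [pow_two]; exact h3)
      rw [hwo] at h4
      exact hp ((Nat.prime_dvd_prime_iff_eq hfp.out Nat.prime_two).mp h4)
    refine ⟨⟨⟨fun a b => Subtype.ext ?_⟩⟩, fun x hx hxC => ?_⟩
    · have h0 := hinvC y₀ hy₀Q hy₀QC
      have h1 := h0 ((a : G) * b) (Subgroup.mul_mem _ a.2 b.2)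
      have h2 : y₀ * ((a : G) * b) * y₀⁻¹ = (y₀ * a * y₀⁻¹) * (y₀ * b * y₀⁻¹) := by group
      rw [h2, h0 a a.2, h0 b b.2, mul_inv_rev] at h1
      have h3 := congrArg (fun z => z⁻¹) h1
      simp only [mul_inv_rev, inv_inv] at h3
      exact h3.symm
    · refine ⟨?_, hinvC x hx hxC⟩
      haveI : Fact (Nat.Prime 2) := ⟨Nat.prime_two⟩
      refine orderOf_eq_prime (by rw [pow_two]; exact hxx x hx hxC) ?_
      rintro rfl
      exact hxC (Subgroup.one_mem _)

private theorem dihedral_of {X : Type*} [Group X] [Finite X] {p : ℕ} [hfp : Fact p.Prime] (S : Subgroup X)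
    (hSp : IsPGroup p S) (hSc : IsCyclic S) {b : X} (hbp : ¬ p ∣ orderOf b)
    (hdec : ∀ h : X, ∃ s ∈ S, ∃ k : ℤ, h = s * b ^ k) (hb2 : b * b = 1) (hinv : ∀ s ∈ S, b * s * b⁻¹ = s⁻¹)
    (hb1 : b ≠ 1) : ∃ n : ℕ, Nonempty (X ≃* DihedralGroup (p ^ n)) := by
  classical
  obtain ⟨k, hk⟩ := IsPGroup.iff_card.mp hSp
  refine ⟨k, ?_⟩
  haveI hne : NeZero (p ^ k) := ⟨pow_ne_zero _ hfp.out.ne_zero⟩
  obtain ⟨s₀, hs₀⟩ := IsCyclic.exists_generator (α := S)
  have hord : orderOf (s₀ : X) = p ^ k := by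
    rw [Subgroup.orderOf_coe, ← hk]
    exact orderOf_eq_card_of_forall_mem_zpowers hs₀
  have hbS : b ∉ S := by
    intro hb
    obtain ⟨j, hj⟩ := exists_orderOf_of_mem_isPGroup hSp hb
    rcases j with _ | j
    · rw [pow_zero, orderOf_eq_one_iff] at hj
      exact hb1 hj
    · exact hbp (hj ▸ dvd_pow_self p (Nat.succ_ne_zero j))
  have hzs : zpowers (s₀ : X) ≤ S := (Subgroup.zpowers_le).mpr s₀.2
  have hbo : orderOf b = 2 := by
    haveI : Fact (Nat.Prime 2) := ⟨Nat.prime_two⟩
    exact orderOf_eq_prime (by rw [pow_two]; exact hb2) hb1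
  have htop : S ⊔ zpowers b = ⊤ := by
    rw [eq_top_iff]
    intro h _
    obtain ⟨s, hs, k, rfl⟩ := hdec h
    exact Subgroup.mul_mem _ ((le_sup_left : S ≤ _) hs) ((le_sup_right : zpowers b ≤ _) (zpow_mem (mem_zpowers b) k))
  have hN : zpowers b ≤ normalizer (S : Set X) := by
    rw [zpowers_le]
    apply mem_normalizer_of_conj_le'
    intro w hw
    rw [hinv w hw]
    exact S.inv_mem hw
  have hle := card_sup_le_of_le_normalizer hN
  rw [htop, Subgroup.card_top, Nat.card_zpowers, hbo, hk] at hle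
  have hidx := S.index_mul_card
  rw [hk] at hidx
  have hpos : 0 < p ^ k := Nat.pos_of_ne_zero hne.out
  have hidx2 : S.index = 2 := by
    have h1 : S.index ≤ 2 := by
      by_contra hcon
      push Not at hcon
      have : 3 * p ^ k ≤ S.index * p ^ k := Nat.mul_le_mul_right _ hcon
      omega
    have h2 : S.index ≠ 1 := by
      intro h
      rw [Subgroup.index_eq_one] at h
      exact hbS (h ▸ mem_top b)
    have h3 : S.index ≠ 0 := Subgroup.index_ne_zero_of_finite
    omega
  refine Cfsg.Agent.Lib.TwoGroups.nonempty_mulEquiv_dihedral_of (s₀ : X) b hord hb2 (hinv _ s₀.2) (fun h => hbS (hzs h)) ?_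
  rw [← hidx, hidx2]

private theorem dichotomy1 {G : Type*} [Group G] [Finite G] {p : ℕ} [hfp : Fact p.Prime] (P : Sylow p G)
    (hPc : IsCyclic P)
    (hNC : Subgroup.normalizer ((P : Subgroup G) : Set G) = Subgroup.centralizer ((P : Subgroup G) : Set G))
    (A : Subgroup G) (hA : IsPGroup p A) {b : G} (hb : b ∈ normalizer (A : Set G)) : ∀ s ∈ A, b * s * b⁻¹ = s := by
  classical
  have hP : normalizer ((P : Subgroup G) : Set G) ≤ centralizer ((P : Subgroup G) : Set G) := hNC.le
  haveI hPc' : IsCyclic (P : Subgroup G) := hPc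
  intro s hs
  have hker : b * s * b⁻¹ * s⁻¹ ∈ (MonoidHom.transferSylow P hP).ker := by
    rw [MonoidHom.mem_ker, map_mul, map_mul, map_mul, map_inv, map_inv]
    have := comm_of_isCyclic (MonoidHom.transferSylow P hP b) (MonoidHom.transferSylow P hP s)
    rw [this]
    group
  have hmemA : b * s * b⁻¹ * s⁻¹ ∈ A :=
    A.mul_mem ((mem_normalizer_iff.mp hb s).mp hs) (A.inv_mem hs)
  obtain ⟨k, hk⟩ := exists_orderOf_of_mem_isPGroup hA hmemA
  have hd := Subgroup.orderOf_dvd_natCard _ hker
  have hnot := MonoidHom.not_dvd_card_ker_transferSylow P hP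
  rcases k with _ | k
  · rw [pow_zero, orderOf_eq_one_iff, mul_inv_eq_one] at hk
    exact hk
  · exact absurd ((hk ▸ dvd_pow_self p (Nat.succ_ne_zero k)).trans hd) hnot

private theorem dichotomy2 {G : Type*} [Group G] [Finite G] {p : ℕ} [hfp : Fact p.Prime] (P : Sylow p G)
    (hPc : IsCyclic P)
    (hR : ∀ Q : Subgroup G, Q ≤ P → Nat.card Q = p →
          IsMulCommutative ↥(Subgroup.centralizer (Q : Set G)) ∧
          ∀ x : G, x ∈ Subgroup.normalizer (Q : Set G) → x ∉ Subgroup.centralizer (Q : Set G) →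
            orderOf x = 2 ∧ ∀ c : G, c ∈ Subgroup.centralizer (Q : Set G) → x * c * x⁻¹ = c⁻¹)
    (A : Subgroup G) (hA : IsPGroup p A) {b : G} (hb : b ∈ normalizer (A : Set G)) :
    (∀ s ∈ A, b * s * b⁻¹ = s) ∨ (b * b = 1 ∧ ∀ s ∈ A, b * s * b⁻¹ = s⁻¹) := by
  classical
  by_cases hall : ∀ s ∈ A, b * s * b⁻¹ = s
  · exact Or.inl hall
  right
  push Not at hall
  obtain ⟨s₁, hs₁, hs₁ne⟩ := hall
  obtain ⟨g, hg⟩ := sylow_conj P hA
  haveI hAc : IsCyclic A := isCyclic_of_conj (P := (P : Subgroup G)) hPc hg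
  obtain ⟨s₀, hs₀⟩ := IsCyclic.exists_generator (α := A)
  have hgen : ∀ s ∈ A, ∃ i : ℤ, (s₀ : G) ^ i = s := by
    intro s hs
    obtain ⟨i, hi⟩ := Subgroup.mem_zpowers_iff.mp (hs₀ ⟨s, hs⟩)
    exact ⟨i, by simpa using congrArg Subtype.val hi⟩
  have hord : orderOf (s₀ : G) = Nat.card A := by
    rw [Subgroup.orderOf_coe]
    exact orderOf_eq_card_of_forall_mem_zpowers hs₀
  have hs₁1 : s₁ ≠ 1 := by
    rintro rfl
    apply hs₁ne
    simp
  obtain ⟨a, ha⟩ := IsPGroup.iff_card.mp hA
  have ha0 : a ≠ 0 := by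
    rintro rfl
    rw [pow_zero] at ha
    have hAbot : A = ⊥ := Subgroup.card_eq_one.mp ha
    exact hs₁1 (by simpa [hAbot] using hs₁)
  have hpd : p ∣ orderOf (s₀ : G) := by
    rw [hord, ha]
    exact dvd_pow_self p ha0
  set w₁ := (s₀ : G) ^ (orderOf (s₀ : G) / p) with hw₁
  have hw₁o : orderOf w₁ = p := orderOf_pow_orderOf_div (orderOf_pos _).ne' hpd
  have hw₁A : w₁ ∈ A := A.pow_mem s₀.2 _
  set w₀ := g⁻¹ * w₁ * g with hw₀
  have hw₀P : w₀ ∈ (P : Subgroup G) := hg _ hw₁A
  have hw₀o : orderOf w₀ = p := by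
    rw [hw₀]
    have := orderOf_conj_eq g⁻¹ w₁
    simpa [hw₁o] using this
  obtain ⟨hCab, hX⟩ := hR (zpowers w₀) ((Subgroup.zpowers_le).mpr hw₀P) (by rw [Nat.card_zpowers, hw₀o])
  -- the conjugate of `b`
  set x := g⁻¹ * b * g with hx
  have hmemC : ∀ c : G, c * w₀ = w₀ * c → c ∈ centralizer ((zpowers w₀ : Subgroup G) : Set G) := by
    intro c hc
    rw [Subgroup.mem_centralizer_iff]
    intro q hq
    obtain ⟨i, rfl⟩ := Subgroup.mem_zpowers_iff.mp hq
    have : Commute c w₀ := hc
    exact (this.zpow_right i).eq.symm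
  have hsC : ∀ s ∈ A, g⁻¹ * s * g ∈ centralizer ((zpowers w₀ : Subgroup G) : Set G) := by
    intro s hs
    apply hmemC
    obtain ⟨i, rfl⟩ := hgen s hs
    have h1 : (s₀ : G) ^ i * w₁ = w₁ * (s₀ : G) ^ i := by
      rw [hw₁]
      exact ((Commute.refl (s₀ : G)).zpow_left i |>.pow_right _).eq
    rw [hw₀]
    calc g⁻¹ * (s₀ : G) ^ i * g * (g⁻¹ * w₁ * g) = g⁻¹ * ((s₀ : G) ^ i * w₁) * g := by group
      _ = g⁻¹ * (w₁ * (s₀ : G) ^ i) * g := by rw [h1]
      _ = g⁻¹ * w₁ * g * (g⁻¹ * (s₀ : G) ^ i * g) := by group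
  have hxN : x ∈ normalizer ((zpowers w₀ : Subgroup G) : Set G) := by
    apply mem_normalizer_of_conj_le'
    intro w hw
    obtain ⟨i, rfl⟩ := Subgroup.mem_zpowers_iff.mp hw
    rw [← conj_zpow]
    refine zpow_mem ?_ i
    obtain ⟨j, hj⟩ := hgen _ ((mem_normalizer_iff.mp hb (s₀ : G)).mp s₀.2)
    have h1 : b * w₁ * b⁻¹ = w₁ ^ j := by
      rw [hw₁, ← conj_pow, ← hj, ← zpow_natCast, ← zpow_natCast, ← zpow_mul, ← zpow_mul, mul_comm]
    have h2 : x * w₀ * x⁻¹ = w₀ ^ j := by
      have h3 : x * w₀ * x⁻¹ = g⁻¹ * (b * w₁ * b⁻¹) * g := by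
        rw [hx, hw₀]
        group
      rw [h3, h1, hw₀]
      have h5 := conj_zpow (a := g⁻¹) (b := w₁) (i := j)
      simpa using h5.symm
    rw [h2]
    exact zpow_mem (mem_zpowers w₀) j
  by_cases hxC : x ∈ centralizer ((zpowers w₀ : Subgroup G) : Set G)
  · exfalso
    apply hs₁ne
    have h1 := hCab.is_comm.comm ⟨x, hxC⟩ ⟨_, hsC s₁ hs₁⟩
    have h2 : x * (g⁻¹ * s₁ * g) = (g⁻¹ * s₁ * g) * x := congrArg Subtype.val h1
    have h3 : g⁻¹ * (b * s₁) * g = g⁻¹ * (s₁ * b) * g := by
      calc g⁻¹ * (b * s₁) * g = x * (g⁻¹ * s₁ * g) := by rw [hx]; group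
        _ = (g⁻¹ * s₁ * g) * x := h2
        _ = g⁻¹ * (s₁ * b) * g := by rw [hx]; group
    have h4 : b * s₁ = s₁ * b := mul_left_cancel (mul_right_cancel h3)
    rw [h4, mul_inv_cancel_right]
  · obtain ⟨hordx, hinv⟩ := hX x hxN hxC
    constructor
    · have h1 : x * x = 1 := by
        rw [← pow_two, ← hordx, pow_orderOf_eq_one]
      have h2 : g⁻¹ * (b * b) * g = g⁻¹ * 1 * g := by
        calc g⁻¹ * (b * b) * g = x * x := by rw [hx]; group
          _ = 1 := h1
          _ = g⁻¹ * 1 * g := by group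
      exact mul_left_cancel (mul_right_cancel h2)
    · intro s hs
      have h1 := hinv _ (hsC s hs)
      have h2 : g⁻¹ * (b * s * b⁻¹) * g = g⁻¹ * s⁻¹ * g := by
        calc g⁻¹ * (b * s * b⁻¹) * g = x * (g⁻¹ * s * g) * x⁻¹ := by rw [hx]; group
          _ = (g⁻¹ * s * g)⁻¹ := h1
          _ = g⁻¹ * s⁻¹ * g := by group
      exact mul_left_cancel (mul_right_cancel h2)


/-- Let p be an odd prime and G a finite group with Sylow p-subgroup P. Say that G has restricted p-by-cyclic subgroups when every subgroup H of G whose Sylow p-subgroup is normal in H with cyclic quotient is itself cyclic or dihedral of order 2pⁿ for some n. Then G has restricted p-by-cyclic subgroups if and only if P is cyclic and one of the following holds: (1) N_G(P) = C_G(P); or (2) N_G(P)/C_G(P) has order 2 and, for the subgroup Q of order p of P, the centralizer C_G(Q) is abelian and every element of N_G(Q) outside C_G(Q) is an involution inverting every element of C_G(Q). -/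
theorem result {G : Type*} [Group G] [Finite G] {p : ℕ}
    [Fact p.Prime] (hp : p ≠ 2) (P : Sylow p G) :
    (∀ H : Subgroup G, (∀ S : Sylow p ↥H, (S : Subgroup ↥H).Normal) →
        (∀ (S : Sylow p ↥H) [(S : Subgroup ↥H).Normal], IsCyclic (↥H ⧸ (S : Subgroup ↥H))) →
        IsCyclic H ∨ (∃ n : ℕ, Nonempty (H ≃* DihedralGroup (p ^ n)))) ↔
    (IsCyclic P ∧
      (Subgroup.normalizer ((P : Subgroup G) : Set G) = Subgroup.centralizer ((P : Subgroup G) : Set G) ∨
       ((Subgroup.centralizer ((P : Subgroup G) : Set G)).relIndex (Subgroup.normalizer ((P : Subgroup G) : Set G)) = 2 ∧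
        ∀ Q : Subgroup G, Q ≤ P → Nat.card Q = p →
          IsMulCommutative ↥(Subgroup.centralizer (Q : Set G)) ∧
          ∀ x : G, x ∈ Subgroup.normalizer (Q : Set G) → x ∉ Subgroup.centralizer (Q : Set G) →
            orderOf x = 2 ∧ ∀ c : G, c ∈ Subgroup.centralizer (Q : Set G) → x * c * x⁻¹ = c⁻¹))) := by
  classical
  refine ⟨fun hL => forward hp P hL, ?_⟩
  rintro ⟨hPc, hcase⟩ H hn hc
  let S : Sylow p ↥H := default
  haveI hSn := hn S
  obtain ⟨b, hbp, hdec⟩ := exists_complement_gen S (hc S)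
  set A : Subgroup G := (S : Subgroup H).map H.subtype with hA
  have hAp : IsPGroup p A := S.isPGroup'.map _
  have hbN : (b : G) ∈ normalizer (A : Set G) := by
    apply mem_normalizer_of_conj_le'
    rintro _ ⟨s, hs, rfl⟩
    exact ⟨b * s * b⁻¹, hSn.conj_mem s hs b, rfl⟩
  obtain ⟨g, hg⟩ := sylow_conj P hAp
  haveI hAc : IsCyclic A := isCyclic_of_conj (P := (P : Subgroup G)) hPc hg
  have hSc : IsCyclic (S : Subgroup H) :=
    isCyclic_of_injective ((S : Subgroup H).equivMapOfInjective _ H.subtype_injective).toMonoidHom (MulEquiv.injective _)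
  have hcyc : (∀ s ∈ A, (b : G) * s * (b : G)⁻¹ = s) → IsCyclic H := by
    intro hall
    refine isCyclic_of_commute_gen (S : Subgroup H) S.isPGroup' hSc hbp (fun s hs => Subtype.ext ?_) hdec
    have h1 := hall (s : G) ⟨s, hs, rfl⟩
    rw [mul_inv_eq_iff_eq_mul] at h1
    exact h1
  rcases hcase with h1 | ⟨-, h2⟩
  · exact Or.inl (hcyc (dichotomy1 P hPc h1 A hAp hbN))
  · rcases dichotomy2 P hPc h2 A hAp hbN with h | ⟨hb2, hinv⟩
    · exact Or.inl (hcyc h)
    · by_cases hb1 : b = 1
      · left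
        apply hcyc
        intro s _
        rw [hb1]
        simp
      · right
        exact dihedral_of (S : Subgroup H) S.isPGroup' hSc hbp hdec (Subtype.ext hb2)
          (fun s hs => Subtype.ext (hinv (s : G) ⟨s, hs, rfl⟩)) hb1

end Cfsg.Agent.S4082
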