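import Cfsg.Statements.S4083
import Cfsg.Agent.Lib.PGroups.CycSub2

set_option autoImplicit false
open Cfsg

namespace Cfsg.Agent.S4083

open Subgroup Cfsg Cfsg.Agent.Lib.Basic Cfsg.Agent.Lib.PGroups

private def LHS (G : Type*) [Group G] : Prop :=
  ∀ H : Subgroup G, (∀ S : Sylow 2 ↥H, (S : Subgroup ↥H).Normal) →
        (∀ (S : Sylow 2 ↥H) [(S : Subgroup ↥H).Normal], IsCyclic (↥H ⧸ (S : Subgroup ↥H))) →
        IsCyclic H ∨ (∃ n : ℕ, Nonempty (H ≃* DihedralGroup (2 ^ n))) ∨ Nonempty (H ≃* alternatingGroup (Fin 4))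

private theorem comm_of_sq {X : Type*} [Group X] {K : Subgroup X} (hK : ∀ k ∈ K, k ^ 2 = 1) {a b : X} (ha : a ∈ K)
    (hb : b ∈ K) : a * b = b * a := by
  have h1 := hK _ (K.mul_mem ha hb)
  have h2 := hK a ha
  have h3 := hK b hb
  rw [pow_two] at h1 h2 h3
  have ainv : a⁻¹ = a := inv_eq_of_mul_eq_one_left h2
  have binv : b⁻¹ = b := inv_eq_of_mul_eq_one_left h3
  have h4 : (a * b)⁻¹ = a * b := inv_eq_of_mul_eq_one_left h1
  rw [mul_inv_rev, ainv, binv] at h4
  exact h4.symm

private theorem forward {G : Type*} [Group G] [Finite G] (P : Sylow 2 G) (hL : LHS G) :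
    (IsCyclic P ∨
      ((∃ n : ℕ, 1 ≤ n ∧ Nonempty ((P : Subgroup G) ≃* DihedralGroup (2 ^ n))) ∧
        ∀ K : Subgroup G, K ≤ P → Nat.card K = 4 → (∀ k ∈ K, k ^ 2 = 1) → Subgroup.centralizer (K : Set G) = K)) := by
  classical
  haveI hf2 : Fact (Nat.Prime 2) := ⟨Nat.prime_two⟩
  have hSt : ∀ S : Sylow 2 ↥(P : Subgroup G), (S : Subgroup ↥(P : Subgroup G)) = ⊤ := by
    intro S
    have hpg : IsPGroup 2 ↥(⊤ : Subgroup ↥(P : Subgroup G)) := fun x =>
      (P.isPGroup' x.1).imp (fun k h => Subtype.ext h)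
    exact (S.is_maximal' hpg le_top).symm
  have hq : ∀ (S : Sylow 2 ↥(P : Subgroup G)) [(S : Subgroup ↥(P : Subgroup G)).Normal],
      IsCyclic (↥(P : Subgroup G) ⧸ (S : Subgroup ↥(P : Subgroup G))) := by
    intro S _
    refine ⟨⟨1, fun x => ?_⟩⟩
    obtain ⟨a, rfl⟩ := QuotientGroup.mk_surjective x
    have ha : a ∈ (S : Subgroup ↥(P : Subgroup G)) := by
      rw [hSt S]
      exact mem_top a
    rw [(QuotientGroup.eq_one_iff a).mpr ha]
    exact ⟨0, by simp⟩
  rcases hL (P : Subgroup G) (fun S => by rw [hSt S]; infer_instance) hq with h | ⟨n, ⟨e⟩⟩ | ⟨⟨e⟩⟩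
  · exact Or.inl h
  · rcases n with _ | n
    · left
      have h1 : IsCyclic (DihedralGroup (2 ^ 0)) := DihedralGroup.isCyclic_iff.mpr (by simp)
      exact isCyclic_of_surjective e.symm.toMonoidHom e.symm.surjective
    · right
      refine ⟨⟨n + 1, by omega, ⟨e⟩⟩, ?_⟩
      intro K hKP hKc hKe
      have hKp : IsPGroup 2 K := P.isPGroup'.to_le hKP
      have hKC : K ≤ centralizer (K : Set G) := by
        intro a ha
        rw [Subgroup.mem_centralizer_iff]
        intro b hb
        exact comm_of_sq hKe hb ha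
      apply le_antisymm _ hKC
      intro x hx
      have hxN : x ∈ normalizer (K : Set G) := by
        apply mem_normalizer_of_forall_commute
        intro z hz
        exact ((Subgroup.mem_centralizer_iff.mp hx) z hz).symm
      have hxc : ∀ z ∈ K, Commute z x := fun z hz => (Subgroup.mem_centralizer_iff.mp hx) z hz
      set H : Subgroup G := K ⊔ zpowers x with hH
      have hN : zpowers x ≤ normalizer (K : Set G) := by rwa [zpowers_le]
      have hHc : ∀ u v : H, u * v = v * u := by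
        intro u v
        obtain ⟨t₁, ht₁, y₁, hy₁, h₁⟩ := Cfsg.Agent.Lib.Components.exists_mul_of_mem_sup_of_le_normalizer hN u.2
        obtain ⟨t₂, ht₂, y₂, hy₂, h₂⟩ := Cfsg.Agent.Lib.Components.exists_mul_of_mem_sup_of_le_normalizer hN v.2
        obtain ⟨i, rfl⟩ := Subgroup.mem_zpowers_iff.mp hy₁
        obtain ⟨j, rfl⟩ := Subgroup.mem_zpowers_iff.mp hy₂
        apply Subtype.ext
        show (u : G) * v = v * u
        rw [h₁, h₂]
        have c1 : Commute t₁ t₂ := comm_of_sq hKe ht₁ ht₂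
        have c2 : Commute t₁ (x ^ j) := (hxc t₁ ht₁).zpow_right j
        have c3 : Commute (x ^ i) t₂ := ((hxc t₂ ht₂).zpow_right i).symm
        have c4 : Commute (x ^ i) (x ^ j) := (Commute.refl x).zpow_zpow i j
        exact ((c1.mul_right c2).mul_left (c3.mul_right c4)).eq
      have hHn : ∀ U : Subgroup H, U.Normal := fun U => ⟨fun n hn g => by
        have : g * n * g⁻¹ = n := by rw [hHc g n, mul_inv_cancel_right]
        rwa [this]⟩
      have hcardK' : Nat.card (K.subgroupOf H) = 4 := by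
        rw [Nat.card_congr (Subgroup.subgroupOfEquivOfLe (le_sup_left : K ≤ H)).toEquiv, hKc]
      rcases hL H (fun S => hHn _) (fun S _ => isCyclic_quotient_sup_zpowers hxN _ (le_sylow_sup_zpowers hKp hxN S)) with
        hc | ⟨m, ⟨e'⟩⟩ | ⟨⟨e'⟩⟩
      · exfalso
        have hcyc : IsCyclic (K.subgroupOf H) := inferInstance
        obtain ⟨g₀, hg₀⟩ := IsCyclic.exists_generator (α := K.subgroupOf H)
        have h1 : orderOf g₀ = 4 := by
          rw [orderOf_eq_card_of_forall_mem_zpowers hg₀, hcardK']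
        have h2 : g₀ ^ 2 = 1 := by
          apply Subtype.ext
          apply Subtype.ext
          exact hKe _ (mem_subgroupOf.mp g₀.2)
        have h3 := orderOf_dvd_of_pow_eq_one h2
        rw [h1] at h3
        omega
      · have hcomm : IsMulCommutative (DihedralGroup (2 ^ m)) := ⟨⟨fun a b => by
          apply e'.symm.injective
          rw [map_mul, map_mul]
          exact hHc _ _⟩⟩
        have h2m := DihedralGroup.commutative_iff.mp hcomm
        have hcardH : Nat.card H = 2 * 2 ^ m := by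
          rw [Nat.card_congr e'.toEquiv, DihedralGroup.nat_card]
        have hle : Nat.card H ≤ 4 := by
          rw [hcardH]
          rcases h2m with h | h <;> omega
        have htop : K.subgroupOf H = ⊤ := by
          apply Subgroup.eq_top_of_le_card
          rw [hcardK']
          exact hle
        have hxH : x ∈ H := (le_sup_right : zpowers x ≤ H) (mem_zpowers x)
        have : (⟨x, hxH⟩ : H) ∈ K.subgroupOf H := by rw [htop]; exact mem_top _
        exact mem_subgroupOf.mp this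
      · exfalso
        have hcomm : IsMulCommutative (alternatingGroup (Fin 4)) := ⟨⟨fun a b => by
          apply e'.symm.injective
          rw [map_mul, map_mul]
          exact hHc _ _⟩⟩
        have := alternatingGroup.isMulCommutative_iff_card_le_three.mp hcomm
        simp at this
  · exfalso
    have h1 := two_mul_nat_card_alternatingGroup (α := Fin 4)
    have h2 : Nat.card (Equiv.Perm (Fin 4)) = 24 := by
      rw [Nat.card_eq_fintype_card, Fintype.card_perm]
      rfl
    rw [h2, ← Nat.card_congr e.toEquiv] at h1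
    obtain ⟨k, hk⟩ := IsPGroup.iff_card.mp P.isPGroup'
    rw [hk] at h1
    have h3 : 2 ^ k = 12 := by omega
    have h4 : (3 : ℕ) ∣ 2 ^ k := by rw [h3]; norm_num
    have h5 := (Nat.prime_dvd_prime_iff_eq Nat.prime_three Nat.prime_two).mp (Nat.prime_three.dvd_of_dvd_pow h4)
    omega


private theorem main_back {G : Type*} [Group G] [Finite G] (P : Sylow 2 G) {n : ℕ}
    (e : (P : Subgroup G) ≃* DihedralGroup (2 ^ n))
    (hK : ∀ K : Subgroup G, K ≤ P → Nat.card K = 4 → (∀ k ∈ K, k ^ 2 = 1) → Subgroup.centralizer (K : Set G) = K)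
    (A : Subgroup G) (hA : IsPGroup 2 A) (hAnc : ¬ IsCyclic A) {b : G} (hbN : b ∈ normalizer (A : Set G))
    (hbo : ¬ 2 ∣ orderOf b) :
    ∃ ρ σ : G, ρ ∈ A ∧ σ ∈ A ∧ orderOf ρ * 2 = Nat.card A ∧ σ * σ = 1 ∧ σ * ρ * σ⁻¹ = ρ⁻¹ ∧ σ ∉ zpowers ρ ∧
      (b = 1 ∨ (Nat.card A = 4 ∧ orderOf b = 3 ∧ ∃ s ∈ A, b * s ≠ s * b)) := by
  classical
  haveI hf2 : Fact (Nat.Prime 2) := ⟨Nat.prime_two⟩
  obtain ⟨g, hg⟩ := sylow_conj' P hA
  haveI hne : NeZero (2 ^ n) := ⟨by positivity⟩
  let φ : A →* DihedralGroup (2 ^ n) := e.toMonoidHom.comp (conjIntoHom hg)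
  have hφ : Function.Injective φ := e.injective.comp (conjIntoHom_injective hg)
  obtain ⟨ρ', σ', h1, h2, h3, h4, h5⟩ := dihedral_sub φ hφ hAnc
  obtain ⟨ρ, hρA⟩ := ρ'
  obtain ⟨σ, hσA⟩ := σ'
  have h1' : orderOf ρ * 2 = Nat.card A := by
    have := Subgroup.orderOf_mk ρ hρA
    rw [← this]
    exact h1
  have h2' : σ * σ = 1 := congrArg Subtype.val h2
  have h3' : σ * ρ * σ⁻¹ = ρ⁻¹ := congrArg Subtype.val h3
  have h4' : σ ∉ zpowers ρ := by
    intro h
    obtain ⟨i, hi⟩ := Subgroup.mem_zpowers_iff.mp h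
    apply h4
    refine Subgroup.mem_zpowers_iff.mpr ⟨i, Subtype.ext ?_⟩
    simpa using hi
  have h5' : ∀ u ∈ A, u ∈ zpowers ρ ∨ u * σ ∈ zpowers ρ := by
    intro u hu
    rcases h5 ⟨u, hu⟩ with h | h
    · left
      obtain ⟨i, hi⟩ := Subgroup.mem_zpowers_iff.mp h
      exact Subgroup.mem_zpowers_iff.mpr ⟨i, by simpa using congrArg Subtype.val hi⟩
    · right
      obtain ⟨i, hi⟩ := Subgroup.mem_zpowers_iff.mp h
      exact Subgroup.mem_zpowers_iff.mpr ⟨i, by simpa using congrArg Subtype.val hi⟩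
  refine ⟨ρ, σ, hρA, hσA, h1', h2', h3', h4', ?_⟩
  have hzρA : zpowers ρ ≤ A := (Subgroup.zpowers_le).mpr hρA
  obtain ⟨m, hm⟩ := exists_orderOf_of_mem_isPGroup hA hρA
  have hρ1 : orderOf ρ ≠ 1 := by
    intro h
    apply hAnc
    rw [h, one_mul] at h1'
    exact isCyclic_of_prime_card h1'.symm
  have hm0 : m ≠ 0 := by
    rintro rfl
    rw [pow_zero] at hm
    exact hρ1 hm
  have h2dvd : 2 ∣ orderOf ρ := by
    rw [hm]
    exact dvd_pow_self 2 hm0
  set t := ρ ^ (orderOf ρ / 2) with ht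
  have hto : orderOf t = 2 := orderOf_pow_orderOf_div (orderOf_pos ρ).ne' h2dvd
  have htz : t ∈ zpowers ρ := Subgroup.npow_mem_zpowers ρ _
  have htA : t ∈ A := hzρA htz
  have ht2 : t ^ 2 = 1 := orderOf_dvd_iff_pow_eq_one.mp (dvd_of_eq hto)
  have htinv : t⁻¹ = t := inv_eq_of_mul_eq_one_left (by rw [← pow_two]; exact ht2)
  have hσinv : σ⁻¹ = σ := inv_eq_of_mul_eq_one_left h2'
  have hσρ : ∀ i : ℤ, σ * ρ ^ i * σ⁻¹ = (ρ ^ i)⁻¹ := by
    intro i
    rw [← conj_zpow, h3', inv_zpow]
  have hσt : σ * t = t * σ := by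
    have h6 := hσρ (orderOf ρ / 2 : ℕ)
    rw [zpow_natCast, ← ht, htinv, mul_inv_eq_iff_eq_mul] at h6
    exact h6
  have hσ1 : σ ≠ 1 := by
    rintro rfl
    exact h4' (Subgroup.one_mem _)
  have hσo : orderOf σ = 2 := orderOf_eq_prime (by rw [pow_two]; exact h2') hσ1
  have hN : zpowers σ ≤ normalizer ((zpowers t : Subgroup G) : Set G) := by
    rw [zpowers_le]
    apply mem_normalizer_of_forall_commute
    intro z hz
    obtain ⟨i, rfl⟩ := Subgroup.mem_zpowers_iff.mp hz
    have : Commute σ t := hσt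
    exact (this.zpow_right i).eq
  have hinf : zpowers t ⊓ zpowers σ = ⊥ := by
    rw [eq_bot_iff]
    intro x hx
    rw [Subgroup.mem_bot]
    obtain ⟨j, rfl⟩ := Subgroup.mem_zpowers_iff.mp (Subgroup.mem_inf.mp hx).2
    have hx1 := (Subgroup.mem_inf.mp hx).1
    have hsq : σ ^ 2 = 1 := by rw [pow_two]; exact h2'
    rcases j.even_or_odd' with ⟨c, rfl | rfl⟩
    · rw [zpow_mul, zpow_ofNat, hsq, one_zpow]
    · exfalso
      rw [zpow_add, zpow_mul, zpow_ofNat, hsq, one_zpow, one_mul, zpow_one] at hx1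
      exact h4' (((Subgroup.zpowers_le).mpr htz) hx1)
  have hKcard : Nat.card ↥(zpowers t ⊔ zpowers σ) = 4 := by
    have h6 := Cfsg.Agent.Lib.OddLocal.card_sup_mul_card_inf hN
    rw [hinf, Subgroup.card_bot, mul_one, Nat.card_zpowers, Nat.card_zpowers, hto, hσo] at h6
    exact h6
  have hKexp : ∀ k ∈ zpowers t ⊔ zpowers σ, k ^ 2 = 1 := by
    intro k hk
    obtain ⟨x, hx, y, hy, rfl⟩ := Cfsg.Agent.Lib.Components.exists_mul_of_mem_sup_of_le_normalizer hN hk
    obtain ⟨i, rfl⟩ := Subgroup.mem_zpowers_iff.mp hx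
    obtain ⟨j, rfl⟩ := Subgroup.mem_zpowers_iff.mp hy
    have hc : Commute (t ^ i) (σ ^ j) := by
      have : Commute t σ := hσt.symm
      exact this.zpow_zpow i j
    rw [hc.mul_pow, ← zpow_natCast, ← zpow_mul, mul_comm, zpow_mul, zpow_natCast, ht2, one_zpow,
      ← zpow_natCast, ← zpow_mul, mul_comm, zpow_mul, zpow_natCast, pow_two σ, h2', one_zpow, one_mul]
  have hKA : zpowers t ⊔ zpowers σ ≤ A :=
    sup_le ((Subgroup.zpowers_le).mpr htA) ((Subgroup.zpowers_le).mpr hσA)
  set K : Subgroup G := zpowers t ⊔ zpowers σ with hKdef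
  have hKC : ∀ x : G, (∀ k ∈ K, x * k = k * x) → x ∈ K := by
    intro x hx
    set K₀ : Subgroup G := K.map (MulAut.conj g⁻¹).toMonoidHom with hK₀
    have hK₀P : K₀ ≤ (P : Subgroup G) := by
      rintro _ ⟨k, hk, rfl⟩
      have := hg k (hKA hk)
      simpa using this
    have hK₀c : Nat.card K₀ = 4 :=
      (Nat.card_congr (K.equivMapOfInjective _ (MulAut.conj g⁻¹).injective).toEquiv).symm.trans hKcard
    have hK₀e : ∀ k ∈ K₀, k ^ 2 = 1 := by
      rintro _ ⟨k, hk, rfl⟩
      rw [← map_pow, hKexp k hk, map_one]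
    have hCK := hK K₀ hK₀P hK₀c hK₀e
    have hmem : g⁻¹ * x * g ∈ centralizer (K₀ : Set G) := by
      rw [Subgroup.mem_centralizer_iff]
      rintro _ ⟨k, hk, rfl⟩
      have h7 : (MulAut.conj g⁻¹).toMonoidHom k = g⁻¹ * k * g := by simp
      rw [SetLike.mem_coe] at hk
      rw [h7]
      calc g⁻¹ * k * g * (g⁻¹ * x * g) = g⁻¹ * (k * x) * g := by group
        _ = g⁻¹ * (x * k) * g := by rw [hx k hk]
        _ = g⁻¹ * x * g * (g⁻¹ * k * g) := by group
    rw [hCK] at hmem
    obtain ⟨k, hk, hkx⟩ := hmem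
    have h7 : g⁻¹ * k * g = g⁻¹ * x * g := by simpa using hkx
    have h8 : k = x := mul_left_cancel (mul_right_cancel h7)
    rwa [← h8]
  have hcop2 : (orderOf b).Coprime 2 := ((Nat.Prime.coprime_iff_not_dvd Nat.prime_two).mpr hbo).symm
  by_cases hbc : ∀ s ∈ A, b * s = s * b
  · left
    have hbK : b ∈ K := hKC b (fun k hk => hbc k (hKA hk))
    have h6 := hKexp b hbK
    have h7 := orderOf_dvd_of_pow_eq_one h6
    exact orderOf_eq_one_iff.mp (Nat.Coprime.eq_one_of_dvd hcop2 h7)
  right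
  have hρ2 : orderOf ρ = 2 := by
    by_contra hne2
    apply hbc
    -- elements outside the rotations are involutions
    have hu2 : ∀ u ∈ A, u ∉ zpowers ρ → u * u = 1 := by
      intro u hu hun
      have h6 := (h5' u hu).resolve_left hun
      obtain ⟨i, hi⟩ := Subgroup.mem_zpowers_iff.mp h6
      have hue : u = ρ ^ i * σ := by
        rw [hi, mul_assoc, h2', mul_one]
      have h7 := hσρ i
      rw [hσinv] at h7
      rw [hue]
      calc ρ ^ i * σ * (ρ ^ i * σ) = ρ ^ i * (σ * ρ ^ i * σ) := by group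
        _ = 1 := by rw [h7, mul_inv_cancel]
    have hbρ : b * ρ * b⁻¹ ∈ zpowers ρ := by
      by_contra hcon
      have h6 := hu2 _ ((mem_normalizer_iff.mp hbN ρ).mp hρA) hcon
      have h7 : b * (ρ * ρ) * b⁻¹ = 1 := by
        calc b * (ρ * ρ) * b⁻¹ = b * ρ * b⁻¹ * (b * ρ * b⁻¹) := by group
          _ = 1 := h6
      have h8 : ρ * ρ = 1 := by
        rw [mul_inv_eq_one] at h7
        exact mul_left_cancel (a := b) (by rw [h7, mul_one])
      have h9 : orderOf ρ ∣ 2 := orderOf_dvd_of_pow_eq_one (by rw [pow_two]; exact h8)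
      rcases (Nat.dvd_prime Nat.prime_two).mp h9 with h | h
      · exact hρ1 h
      · exact hne2 h
    have hNρ : b ∈ normalizer ((zpowers ρ : Subgroup G) : Set G) := by
      apply mem_normalizer_of_conj_le'
      intro w hw
      obtain ⟨i, rfl⟩ := Subgroup.mem_zpowers_iff.mp hw
      rw [← conj_zpow]
      exact zpow_mem hbρ i
    have hzp : IsPGroup 2 (zpowers ρ) := isPGroup_zpowers_iff.mpr ⟨m, hm⟩
    have hbc1 : ∀ c ∈ zpowers ρ, b * c * b⁻¹ = c := fun c hc =>
      commute_of_cyclic_two _ inferInstance hzp hNρ hbo hc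
    -- the reflection
    have hσ' : b * σ * b⁻¹ = σ := by
      set u := b * σ * b⁻¹ with hu
      have huA : u ∈ A := (mem_normalizer_iff.mp hbN σ).mp hσA
      have hun : u ∉ zpowers ρ := by
        intro h
        apply h4'
        have h6 := hbc1 u h
        have h7 : σ = u := by
          have h8 : b * σ * b⁻¹ = b * u * b⁻¹ := by rw [h6]
          exact mul_left_cancel (mul_right_cancel h8)
        rwa [h7]
      have h6 := (h5' u huA).resolve_left hun
      set c := u * σ with hc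
      have huc : u = c * σ := by
        rw [hc, mul_assoc, h2', mul_one]
      have hIter : ∀ k : ℕ, b ^ k * σ * (b ^ k)⁻¹ = c ^ k * σ := by
        intro k
        induction k with
        | zero => simp
        | succ k ih =>
          have h7 : b * c ^ k * b⁻¹ = c ^ k := hbc1 _ (Subgroup.pow_mem _ h6 k)
          calc b ^ (k + 1) * σ * (b ^ (k + 1))⁻¹ = b * (b ^ k * σ * (b ^ k)⁻¹) * b⁻¹ := by
                rw [pow_succ']; group
            _ = b * (c ^ k * σ) * b⁻¹ := by rw [ih]
            _ = (b * c ^ k * b⁻¹) * (b * σ * b⁻¹) := by group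
            _ = c ^ k * (c * σ) := by rw [h7, ← hu, ← huc]
            _ = c ^ (k + 1) * σ := by rw [pow_succ]; group
      have h7 := hIter (orderOf b)
      rw [pow_orderOf_eq_one, one_mul, inv_one, mul_one] at h7
      have h8 : c ^ orderOf b = 1 := by
        have h9 : σ * σ⁻¹ = c ^ orderOf b * σ * σ⁻¹ := by rw [← h7]
        simpa using h9.symm
      obtain ⟨a, ha⟩ := exists_orderOf_of_mem_isPGroup hzp h6
      have h9 := orderOf_dvd_of_pow_eq_one h8
      rw [ha] at h9
      have hc1 : c = 1 := by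
        rcases a with _ | a
        · rw [pow_zero, orderOf_eq_one_iff] at ha
          exact ha
        · exact absurd ((dvd_pow_self 2 (Nat.succ_ne_zero a)).trans h9) hbo
      rw [huc, hc1, one_mul]
    intro s hs
    have hconj : b * s * b⁻¹ = s := by
      rcases h5' s hs with h | h
      · exact hbc1 s h
      · have hse : s = (s * σ) * σ := by rw [mul_assoc, h2', mul_one]
        have h7 := hbc1 _ h
        rw [hse]
        calc b * (s * σ * σ) * b⁻¹ = (b * (s * σ) * b⁻¹) * (b * σ * b⁻¹) := by group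
          _ = s * σ * σ := by rw [h7, hσ']
    rw [mul_inv_eq_iff_eq_mul] at hconj
    exact hconj
  have hA4 : Nat.card A = 4 := by rw [← h1', hρ2]
  push Not at hbc
  refine ⟨hA4, ?_, hbc⟩
  -- the order of `b`
  have hKeqA : K = A := Subgroup.eq_of_le_of_card_ge hKA (by rw [hA4, hKcard])
  letI : Fintype A := Fintype.ofFinite A
  set α : MulAut A := Subgroup.normalizerMonoidHom A ⟨b, hbN⟩ with hα
  have hperm : Nat.card (Equiv.Perm A) = 24 := by
    rw [Nat.card_eq_fintype_card, Fintype.card_perm, ← Nat.card_eq_fintype_card, hA4]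
    rfl
  have hα24 : α ^ 24 = 1 := by
    have hinj : Function.Injective (MulAut.toPerm A) := fun a b h => by
      ext x
      exact congrArg (fun e : Equiv.Perm A => ((e x : A) : G)) h
    apply hinj
    rw [map_pow, map_one]
    have := pow_card_eq_one' (x := MulAut.toPerm A α)
    rwa [hperm] at this
  have hb24 : ∀ s ∈ A, b ^ 24 * s = s * b ^ 24 := by
    intro s hs
    have h6 : (α ^ 24) ⟨s, hs⟩ = ⟨s, hs⟩ := by rw [hα24]; rfl
    rw [hα, ← map_pow] at h6
    have h7 : (b ^ 24) * s * (b ^ 24)⁻¹ = s := by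
      have := congrArg Subtype.val h6
      simpa using this
    rw [mul_inv_eq_iff_eq_mul] at h7
    exact h7
  have hbK : b ^ 24 ∈ K := hKC _ (fun k hk => hb24 k (hKA hk))
  have h6 := hKexp _ hbK
  have h7 : orderOf b ∣ 16 * 3 := orderOf_dvd_of_pow_eq_one (by rw [← h6]; rw [← pow_mul])
  have h8 : orderOf b ∣ 3 := by
    have hc16 : (orderOf b).Coprime 16 := by
      have : (16 : ℕ) = 2 ^ 4 := by norm_num
      rw [this]
      exact hcop2.pow_right 4
    exact hc16.dvd_of_dvd_mul_left h7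
  rcases (Nat.dvd_prime Nat.prime_three).mp h8 with h | h
  · exfalso
    obtain ⟨s, hs, hne⟩ := hbc
    rw [orderOf_eq_one_iff.mp h] at hne
    simp at hne
  · exact h


/-- Let G be a finite group with Sylow 2-subgroup P. Every subgroup H of G whose Sylow 2-subgroup is normal in H with cyclic quotient is cyclic, dihedral of 2-power order, or isomorphic to the alternating group of degree 4, if and only if either P is cyclic, or P is dihedral (of order at least 4) and every elementary abelian subgroup K of order 4 of P satisfies C_G(K) = K. -/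
theorem result {G : Type*} [Group G] [Finite G] (P : Sylow 2 G) :
    (∀ H : Subgroup G, (∀ S : Sylow 2 ↥H, (S : Subgroup ↥H).Normal) →
        (∀ (S : Sylow 2 ↥H) [(S : Subgroup ↥H).Normal], IsCyclic (↥H ⧸ (S : Subgroup ↥H))) →
        IsCyclic H ∨ (∃ n : ℕ, Nonempty (H ≃* DihedralGroup (2 ^ n))) ∨ Nonempty (H ≃* alternatingGroup (Fin 4))) ↔
    (IsCyclic P ∨
      ((∃ n : ℕ, 1 ≤ n ∧ Nonempty ((P : Subgroup G) ≃* DihedralGroup (2 ^ n))) ∧
        ∀ K : Subgroup G, K ≤ P → Nat.card K = 4 → (∀ k ∈ K, k ^ 2 = 1) → Subgroup.centralizer (K : Set G) = K)) := by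
  classical
  haveI hf2 : Fact (Nat.Prime 2) := ⟨Nat.prime_two⟩
  refine ⟨fun hL => forward P hL, ?_⟩
  intro hR H hn hc
  let S : Sylow 2 ↥H := default
  haveI hSn := hn S
  obtain ⟨b, hbo, hdec⟩ := exists_complement_gen S (hc S)
  set A : Subgroup G := (S : Subgroup H).map H.subtype with hA
  have hAp : IsPGroup 2 A := S.isPGroup'.map _
  have hbN : (b : G) ∈ normalizer (A : Set G) := by
    apply mem_normalizer_of_conj_le'
    rintro _ ⟨s, hs, rfl⟩
    exact ⟨b * s * b⁻¹, hSn.conj_mem s hs b, rfl⟩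
  have hbo' : ¬ 2 ∣ orderOf (b : G) := by
    rw [Subgroup.orderOf_coe]
    exact hbo
  have hAcyc : IsCyclic A → IsCyclic H := by
    intro hAc
    have hSc : IsCyclic (S : Subgroup H) :=
      isCyclic_of_injective ((S : Subgroup H).equivMapOfInjective _ H.subtype_injective).toMonoidHom (MulEquiv.injective _)
    refine isCyclic_of_commute_gen (S : Subgroup H) S.isPGroup' hSc hbo (fun s hs => Subtype.ext ?_) hdec
    have h1 := commute_of_cyclic_two A hAc hAp hbN hbo' (c := (s : G)) ⟨s, hs, rfl⟩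
    rw [mul_inv_eq_iff_eq_mul] at h1
    exact h1
  by_cases hAc : IsCyclic A
  · exact Or.inl (hAcyc hAc)
  rcases hR with hPc | ⟨⟨n, -, ⟨e⟩⟩, hK⟩
  · exfalso
    obtain ⟨g, hg⟩ := sylow_conj' P hAp
    exact hAc (isCyclic_of_conj' (P := (P : Subgroup G)) hPc hg)
  obtain ⟨ρ, σ, hρ, hσ, h1, h2, h3, h4, h5⟩ := main_back P e hK A hAp hAc hbN hbo'
  have hcardAS : Nat.card A = Nat.card (S : Subgroup H) :=
    (Nat.card_congr ((S : Subgroup H).equivMapOfInjective _ H.subtype_injective).toEquiv).symm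
  rcases h5 with hb1 | ⟨hA4, hb3, s, hs, hsne⟩
  · right
    left
    have hb1' : b = 1 := Subtype.ext hb1
    have hStop : (S : Subgroup H) = ⊤ := by
      rw [eq_top_iff]
      intro h _
      obtain ⟨s, hs, k, rfl⟩ := hdec h
      rw [hb1', one_zpow, mul_one]
      exact hs
    obtain ⟨m, hm⟩ := exists_orderOf_of_mem_isPGroup hAp hρ
    obtain ⟨ρ', hρ', rfl⟩ := hρ
    obtain ⟨σ', hσ', rfl⟩ := hσ
    haveI hne : NeZero (2 ^ m) := ⟨by positivity⟩
    refine ⟨m, Cfsg.Agent.Lib.TwoGroups.nonempty_mulEquiv_dihedral_of ρ' σ' ?_ (Subtype.ext h2) (Subtype.ext h3) ?_ ?_⟩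
    · have := Subgroup.orderOf_coe ρ'
      simp only [Subgroup.subtype_apply] at hm
      rw [← this]
      exact hm
    · intro h
      apply h4
      obtain ⟨i, hi⟩ := Subgroup.mem_zpowers_iff.mp h
      refine Subgroup.mem_zpowers_iff.mpr ⟨i, ?_⟩
      simpa using congrArg Subtype.val hi
    · have h6 : Nat.card H = Nat.card (S : Subgroup H) := by
        rw [hStop, Subgroup.card_top]
      rw [h6, ← hcardAS, ← h1, hm, mul_comm]
  · right
    right
    have hb3' : orderOf b = 3 := by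
      rw [← Subgroup.orderOf_coe]
      exact hb3
    have hS4 : Nat.card (S : Subgroup H) = 4 := by rw [← hcardAS, hA4]
    have hcardH : Nat.card H = 12 := by
      have htop : (S : Subgroup H) ⊔ zpowers b = ⊤ := by
        rw [eq_top_iff]
        intro h _
        obtain ⟨s, hs, k, rfl⟩ := hdec h
        exact Subgroup.mul_mem _ ((le_sup_left : (S : Subgroup H) ≤ _) hs)
          ((le_sup_right : zpowers b ≤ _) (zpow_mem (mem_zpowers b) k))
      have hN : zpowers b ≤ normalizer ((S : Subgroup H) : Set H) := by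
        rw [normalizer_eq_top_iff.mpr hSn]
        exact le_top
      have hle := card_sup_le_of_le_normalizer hN
      rw [htop, Subgroup.card_top, Nat.card_zpowers, hb3', hS4] at hle
      have hd4 : 4 ∣ Nat.card H := hS4 ▸ Subgroup.card_subgroup_dvd_card (S : Subgroup H)
      have hd3 : 3 ∣ Nat.card H := hb3' ▸ orderOf_dvd_natCard b
      have hd12 : 12 ∣ Nat.card H := Nat.Coprime.mul_dvd_of_dvd_of_dvd (by norm_num : Nat.Coprime 4 3) hd4 hd3
      exact le_antisymm hle (Nat.le_of_dvd Nat.card_pos hd12)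
    haveI hf3 : Fact (Nat.Prime 3) := ⟨Nat.prime_three⟩
    refine nonempty_mulEquiv_alternating_of hcardH b hb3' ?_
    intro x hx hconj
    by_contra hx1
    -- `x` generates
    have hxo : orderOf x = 3 := by
      have h6 : orderOf x ∣ 3 := by
        rw [← hb3', ← Nat.card_zpowers b]
        exact Subgroup.orderOf_dvd_natCard _ hx
      rcases (Nat.dvd_prime Nat.prime_three).mp h6 with h | h
      · exact absurd (orderOf_eq_one_iff.mp h) hx1
      · exact h
    have hzz : zpowers x = zpowers b := by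
      apply Subgroup.eq_of_le_of_card_ge ((Subgroup.zpowers_le).mpr hx)
      rw [Nat.card_zpowers, Nat.card_zpowers, hxo, hb3']
    obtain ⟨s', hs', rfl⟩ := hs
    have hcx : ∀ y ∈ (S : Subgroup H), y * x = x * y := by
      intro y hy
      have h6 : y * x * y⁻¹ * x⁻¹ ∈ zpowers b := by
        refine Subgroup.mul_mem _ (hconj y) (Subgroup.inv_mem _ hx)
      have h7 : y * x * y⁻¹ * x⁻¹ ∈ (S : Subgroup H) := by
        have h8 := hSn.conj_mem y⁻¹ (Subgroup.inv_mem _ hy) x
        have h9 := Subgroup.mul_mem _ hy h8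
        have h10 : y * (x * y⁻¹ * x⁻¹) = y * x * y⁻¹ * x⁻¹ := by group
        rwa [h10] at h9
      obtain ⟨k, hk⟩ := exists_orderOf_of_mem_isPGroup S.isPGroup' h7
      have h8 : orderOf (y * x * y⁻¹ * x⁻¹) ∣ 3 := by
        rw [← hb3', ← Nat.card_zpowers b]
        exact Subgroup.orderOf_dvd_natCard _ h6
      rw [hk] at h8
      have h9 : y * x * y⁻¹ * x⁻¹ = 1 := by
        rcases k with _ | k
        · rw [pow_zero, orderOf_eq_one_iff] at hk
          exact hk
        · exfalso
          have h10 := (dvd_pow_self 2 (Nat.succ_ne_zero k)).trans h8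
          omega
      rw [mul_inv_eq_one, mul_inv_eq_iff_eq_mul] at h9
      exact h9
    apply hsne
    have hbz : b ∈ zpowers x := by rw [hzz]; exact mem_zpowers b
    obtain ⟨i, rfl⟩ := Subgroup.mem_zpowers_iff.mp hbz
    have h6 : Commute x s' := (hcx s' hs').symm
    have h7 := (h6.zpow_left i).eq
    exact congrArg Subtype.val h7

end Cfsg.Agent.S4083
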