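import Cfsg.Statements.S4084
import Mathlib

set_option autoImplicit false
open Cfsg

namespace Cfsg.Agent.S4084

theorem one_side {G H : Type*} [Group G] [Finite G] [Group H] [Finite H] (e : G ≃ H)
    (he : ∀ x y : G, Commute x y ↔ Commute (e x) (e y))
    {p q : ℕ} (hp : p.Prime) (hq : q.Prime) (hpq : p ≠ q) (g : G) (hg : orderOf g = p * q) :
    ∃ h : H, orderOf h = p * q := by
  classical
  have : Fact p.Prime := ⟨hp⟩
  have : Fact q.Prime := ⟨hq⟩
  let T : Subgroup G := Subgroup.centralizer (Subgroup.centralizer ({g} : Set G) : Set G)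
  let T' : Subgroup H := Subgroup.centralizer (Subgroup.centralizer ({e g} : Set H) : Set H)
  have hmem : ∀ u : G, u ∈ T ↔ e u ∈ T' := by
    intro u
    simp only [T, T', Subgroup.mem_centralizer_iff, SetLike.mem_coe, Set.mem_singleton_iff, forall_eq]
    constructor
    · intro h y hy
      obtain ⟨y, rfl⟩ := e.surjective y
      have h1 : g * y = y * g := (he g y).mpr hy
      exact (he y u).mp (h y h1)
    · intro h y hy
      have h1 : e g * e y = e y * e g := (he g y).mp hy
      exact (he y u).mpr (h (e y) h1)
  have hcard : Nat.card T = Nat.card T' :=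
    Nat.card_congr (Equiv.subtypeEquiv e hmem)
  have hgT : g ∈ T := by
    simp only [T, Subgroup.mem_centralizer_iff, SetLike.mem_coe, Set.mem_singleton_iff, forall_eq]
    exact fun y hy => hy.symm
  have hd : p * q ∣ Nat.card T' := by
    rw [← hcard, ← hg]
    exact Subgroup.orderOf_dvd_natCard T hgT
  obtain ⟨a, ha⟩ := exists_prime_orderOf_dvd_card' p ((Dvd.intro _ rfl).trans hd)
  obtain ⟨b, hb⟩ := exists_prime_orderOf_dvd_card' q ((Dvd.intro_left _ rfl).trans hd)
  have hac : (a : H) ∈ Subgroup.centralizer ({e g} : Set H) := by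
    have := a.2
    simp only [T', Subgroup.mem_centralizer_iff, SetLike.mem_coe, Set.mem_singleton_iff, forall_eq] at this
    rw [Subgroup.mem_centralizer_singleton_iff]
    exact (this (e g) rfl).symm
  have hcomm : Commute (b : H) (a : H) := by
    have := b.2
    simp only [T', Subgroup.mem_centralizer_iff, SetLike.mem_coe] at this
    exact (this a hac).symm
  refine ⟨(b : H) * a, ?_⟩
  rw [hcomm.orderOf_mul_eq_mul_orderOf_of_coprime, Subgroup.orderOf_coe, Subgroup.orderOf_coe, ha, hb, mul_comm]
  rw [Subgroup.orderOf_coe, Subgroup.orderOf_coe, ha, hb]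
  exact (Nat.coprime_primes hq hp).mpr hpq.symm

/-- Let G and H be finite groups whose commuting graphs are isomorphic: there is a bijection e : G → H with x, y commuting exactly when e(x), e(y) commute. Then G and H have the same prime graph: for distinct primes p, q, G has an element of order pq if and only if H does (and #G = #H, so the prime divisors agree). -/
theorem result {G H : Type*} [Group G] [Finite G] [Group H] [Finite H] (e : G ≃ H)
    (he : ∀ x y : G, Commute x y ↔ Commute (e x) (e y))
    {p q : ℕ} (hp : p.Prime) (hq : q.Prime) (hpq : p ≠ q) :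
    (∃ g : G, orderOf g = p * q) ↔ (∃ h : H, orderOf h = p * q) := by
  constructor
  · rintro ⟨g, hg⟩
    exact one_side e he hp hq hpq g hg
  · rintro ⟨h, hh⟩
    refine one_side e.symm ?_ hp hq hpq h hh
    intro x y
    have := he (e.symm x) (e.symm y)
    simp only [Equiv.apply_symm_apply] at this
    exact this.symm

end Cfsg.Agent.S4084
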