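import Cfsg.Statements.S4085
import Cfsg.Agent.Lib.Basic.ZGroup

set_option autoImplicit false
open Cfsg

namespace Cfsg.Agent.S4085

open Subgroup

private theorem totient_bound : ∀ n : ℕ, n ≤ 2 * (n.totient) ^ 2 ∧ (Odd n → n ≤ (n.totient) ^ 2) := by
  intro n
  induction n using Nat.recOnPosPrimePosCoprime with
  | prime_pow r k hr hk =>
    obtain ⟨j, rfl⟩ : ∃ j, k = j + 1 := ⟨k - 1, by omega⟩
    rw [Nat.totient_prime_pow_succ hr]
    have hr2 := hr.two_le
    have hpos : 0 < r ^ j := by positivity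
    rcases hr2.eq_or_lt with h2 | h3
    · subst h2
      refine ⟨?_, ?_⟩
      · simp only [Nat.add_one_sub_one, mul_one, pow_succ] 
        nlinarith [hpos, Nat.mul_le_mul hpos.le hpos.le]
      · intro h
        exact absurd h (by simp [Nat.even_pow, parity_simps])
    · obtain ⟨s, rfl⟩ : ∃ s, r = s + 3 := ⟨r - 3, by omega⟩
      have h4 : s + 3 - 1 = s + 2 := by omega
      rw [h4]
      have h5 : (s + 3) ^ (j + 1) ≤ ((s + 3) ^ j * (s + 2)) ^ 2 := by
        have h6 : (s + 3) ≤ (s + 3) ^ j * (s + 2) ^ 2 := by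
          have : (s + 3) ≤ (s + 2) ^ 2 := by nlinarith
          exact this.trans (Nat.le_mul_of_pos_left _ hpos)
        calc (s + 3) ^ (j + 1) = (s + 3) ^ j * (s + 3) := pow_succ _ _
          _ ≤ (s + 3) ^ j * ((s + 3) ^ j * (s + 2) ^ 2) := Nat.mul_le_mul_left _ h6
          _ = ((s + 3) ^ j * (s + 2)) ^ 2 := by ring
      exact ⟨h5.trans (by omega), fun _ => h5⟩
  | zero => simp
  | one => simp
  | coprime a b _ _ hab iha ihb =>
    rw [Nat.totient_mul hab]
    have hodd : Odd (a * b) → a * b ≤ (a.totient * b.totient) ^ 2 := by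
      intro h
      obtain ⟨h1, h2⟩ := Nat.odd_mul.mp h
      rw [mul_pow]
      exact Nat.mul_le_mul (iha.2 h1) (ihb.2 h2)
    refine ⟨?_, hodd⟩
    rcases Nat.even_or_odd a with ha | ha
    · rcases Nat.even_or_odd b with hb | hb
      · exfalso
        have h1 := Nat.dvd_gcd ha.two_dvd hb.two_dvd
        rw [hab.gcd_eq_one] at h1
        omega
      · rw [mul_pow, ← mul_assoc]
        exact Nat.mul_le_mul iha.1 (ihb.2 hb)
    · rcases Nat.even_or_odd b with hb | hb
      · rw [mul_pow, mul_comm 2, mul_assoc]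
        exact Nat.mul_le_mul (iha.2 ha) (by rw [mul_comm]; exact ihb.1)
      · exact (hodd (ha.mul hb)).trans (by omega)

section
variable {G : Type*} [Group G]

/-- Adjacency in the power graph. -/
private def PAdj (x y : G) : Prop := x ∈ zpowers y ∨ y ∈ zpowers x

private theorem padj_iff (x y : G) : PAdj x y ↔ (zpowers x ≤ zpowers y ∨ zpowers y ≤ zpowers x) := by
  unfold PAdj
  rw [zpowers_le, zpowers_le]

private theorem PAdj.symm {x y : G} (h : PAdj x y) : PAdj y x := h.elim Or.inr Or.inl

private theorem padj_refl (x : G) : PAdj x x := Or.inl (mem_zpowers x)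

/-- Generators of the cyclic subgroup generated by `s`. -/
private def gens (s : G) : Set G := {t | zpowers t = zpowers s}

private theorem padj_congr_left {s t : G} (h : t ∈ gens s) (z : G) : PAdj t z ↔ PAdj s z := by
  have h' : zpowers t = zpowers s := h
  rw [padj_iff, padj_iff, h']

private theorem padj_congr_right {s t : G} (h : t ∈ gens s) (z : G) : PAdj z t ↔ PAdj z s := by
  have h' : zpowers t = zpowers s := h
  rw [padj_iff, padj_iff, h']

private theorem self_mem_gens (s : G) : s ∈ gens s := rfl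

private theorem gens_symm {s t : G} (h : t ∈ gens s) : s ∈ gens t := (show zpowers t = zpowers s from h).symm

private theorem gens_trans {s t r : G} (h : t ∈ gens s) (h2 : r ∈ gens t) : r ∈ gens s :=
  (show zpowers r = zpowers t from h2).trans h

private theorem card_gens [Finite G] (s : G) : Nat.card (gens s) = (orderOf s).totient := by
  classical
  haveI : Fintype (zpowers s) := Fintype.ofFinite _
  have h1 := IsCyclic.card_orderOf_eq_totient (α := zpowers s) (d := orderOf s) (by
    rw [← Nat.card_eq_fintype_card, Nat.card_zpowers])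
  rw [← h1, ← Fintype.card_coe, ← Nat.card_eq_fintype_card]
  refine Nat.card_congr ⟨fun t => ⟨⟨t.1, ?_⟩, ?_⟩, fun a => ⟨a.1.1, ?_⟩, ?_, ?_⟩
  · have : t.1 ∈ zpowers t.1 := mem_zpowers _
    rwa [show zpowers t.1 = zpowers s from t.2] at this
  · simp only [Finset.mem_filter, Finset.mem_univ, true_and, Subgroup.orderOf_mk]
    rw [← Nat.card_zpowers, ← Nat.card_zpowers s, show zpowers t.1 = zpowers s from t.2]
  · have h2 : orderOf a.1 = orderOf s := (Finset.mem_filter.mp a.2).2
    have h3 : zpowers a.1.1 ≤ zpowers s := zpowers_le.mpr a.1.2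
    refine Subgroup.eq_of_le_of_card_ge h3 ?_
    rw [Nat.card_zpowers, Nat.card_zpowers]
    have h4 : orderOf a.1.1 = orderOf a.1 := Subgroup.orderOf_coe a.1
    omega
  · intro t
    rfl
  · intro a
    rfl

/-- In a cyclic subgroup, divisibility of orders decides membership. -/
private theorem mem_zpowers_of_dvd [Finite G] {w a b : G} (ha : a ∈ zpowers w) (hb : b ∈ zpowers w)
    (h : orderOf a ∣ orderOf b) : a ∈ zpowers b := by
  have h1 := Cfsg.Agent.Lib.Basic.mem_zpowers_of_pow_eq_one_of_isCyclic (C := zpowers w)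
    (v := ⟨b, hb⟩) (u := ⟨a, ha⟩) (r := orderOf b) (Subgroup.orderOf_mk b hb) (orderOf_pos b) (by
      apply Subtype.ext
      simp [orderOf_dvd_iff_pow_eq_one.mp h])
  obtain ⟨k, hk⟩ := Subgroup.mem_zpowers_iff.mp h1
  refine Subgroup.mem_zpowers_iff.mpr ⟨k, ?_⟩
  have := congrArg Subtype.val hk
  simpa using this

private theorem order_u [Finite G] {p q : ℕ} (hq : q.Prime) {g : G} (hg : orderOf g = p * q) :
    orderOf (g ^ q) = p := by
  rw [orderOf_pow_of_dvd hq.ne_zero (by rw [hg]; exact dvd_mul_left _ _), hg]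
  exact Nat.mul_div_cancel _ hq.pos

private theorem not_padj_uv [Finite G] {p q : ℕ} (hp : p.Prime) (hq : q.Prime) (hpq : p ≠ q) {g : G}
    (hg : orderOf g = p * q) : ¬ PAdj (g ^ q) (g ^ p) := by
  have h1 := order_u hq hg
  have h2 := order_u (p := q) (q := p) hp (by rw [hg, mul_comm])
  rintro (h | h)
  · have := orderOf_dvd_of_mem_zpowers h
    rw [h1, h2] at this
    exact hpq ((Nat.prime_dvd_prime_iff_eq hp hq).mp this)
  · have := orderOf_dvd_of_mem_zpowers h
    rw [h1, h2] at this
    exact hpq ((Nat.prime_dvd_prime_iff_eq hq hp).mp this).symm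

private theorem g2 [Finite G] {p q : ℕ} (hp : p.Prime) (hq : q.Prime) (hpq : p ≠ q) {g : G}
    (hg : orderOf g = p * q) (t : G) (ht : PAdj t g) : t ∈ gens (g ^ q) ∨ PAdj t (g ^ p) := by
  have h1 := order_u hq hg
  have h2 := order_u (p := q) (q := p) hp (by rw [hg, mul_comm])
  have hv : g ^ p ∈ zpowers g := npow_mem_zpowers g p
  have hu : g ^ q ∈ zpowers g := npow_mem_zpowers g q
  rcases ht with ht | ht
  · have hd := orderOf_dvd_of_mem_zpowers ht
    rw [hg] at hd
    by_cases hqt : q ∣ orderOf t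
    · right
      right
      exact mem_zpowers_of_dvd hv ht (by rwa [h2])
    · have hc : (orderOf t).Coprime q := ((Nat.Prime.coprime_iff_not_dvd hq).mpr hqt).symm
      have hdp : orderOf t ∣ p := hc.dvd_of_dvd_mul_right hd
      rcases (Nat.dvd_prime hp).mp hdp with h | h
      · right
        left
        rw [orderOf_eq_one_iff.mp h]
        exact one_mem _
      · left
        have h3 : t ∈ zpowers (g ^ q) := mem_zpowers_of_dvd ht hu (by rw [h, h1])
        refine Subgroup.eq_of_le_of_card_ge (zpowers_le.mpr h3) ?_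
        rw [Nat.card_zpowers, Nat.card_zpowers, h, h1]
  · right
    right
    exact (zpowers_le.mpr ht) hv

private theorem twin_mem_gens [Finite G] {p q : ℕ} (hp : p.Prime) (hq : q.Prime) (hpq : p ≠ q) {g : G}
    (hg : orderOf g = p * q) {t : G} (h : ∀ z, PAdj t z ↔ PAdj (g ^ q) z) : t ∈ gens (g ^ q) := by
  have h1 : PAdj t g := (h g).mpr (Or.inl (npow_mem_zpowers g q))
  rcases g2 hp hq hpq hg t h1 with h2 | h2
  · exact h2
  · exact absurd ((h _).mp h2) (not_padj_uv hp hq hpq hg)

end

section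
variable {G H : Type*} [Group G] [Finite G] [Group H] [Finite H]

private theorem twin_image (e : G ≃ H) (he : ∀ x y, PAdj x y ↔ PAdj (e x) (e y)) {s t : G} (h : t ∈ gens s) (z : H) :
    PAdj (e t) z ↔ PAdj (e s) z := by
  obtain ⟨z0, rfl⟩ := e.surjective z
  rw [← he, ← he]
  exact padj_congr_left h z0

private theorem gens_sub (e : G ≃ H) (he : ∀ x y, PAdj x y ↔ PAdj (e x) (e y)) {p q : ℕ} (hp : p.Prime) (hq : q.Prime)
    (hpq : p ≠ q) {g : G} (hg : orderOf g = p * q) {x : G} (hx : x ∈ gens (g ^ q)) {t' : H} (ht : t' ∈ gens (e x)) :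
    t' ∈ e '' gens (g ^ q) := by
  obtain ⟨t, rfl⟩ := e.surjective t'
  refine ⟨t, ?_, rfl⟩
  refine twin_mem_gens hp hq hpq hg fun z => ?_
  rw [he t z, ← padj_congr_left hx z, he x z]
  exact padj_congr_left ht (e z)

private theorem fact1 (e : G ≃ H) (he : ∀ x y, PAdj x y ↔ PAdj (e x) (e y)) {p q : ℕ} (hp : p.Prime) (hq : q.Prime)
    (hpq : p ≠ q) {g : G} (hg : orderOf g = p * q) {w : G} (hw : w ∈ gens g) {y : G} (hy : y ∈ gens (g ^ p)) {s : H}
    (hs : s ∈ zpowers (e w)) : s ∈ e '' gens (g ^ q) ∨ PAdj s (e y) := by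
  obtain ⟨t, rfl⟩ := e.surjective s
  have h1 : PAdj t w := (he t w).mpr (Or.inl hs)
  have h2 : PAdj t g := (padj_congr_right hw t).mp h1
  rcases g2 hp hq hpq hg t h2 with h3 | h3
  · exact Or.inl ⟨t, h3, rfl⟩
  · right
    rw [← he]
    exact (padj_congr_right hy t).mpr h3

/-- The arithmetic in the cyclic group. -/
private theorem key_prime {x' y' w' : H} (hx : x' ∈ zpowers w') (hy : y' ∈ zpowers w') (hn : ¬ PAdj x' y')
    (X' : Set H) (htw : ∀ z ∈ X', ∀ c, PAdj z c ↔ PAdj x' c) (hf : ∀ s ∈ zpowers w', s ∈ X' ∨ PAdj s y') :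
    ∃ l k : ℕ, l.Prime ∧ l ^ k ∣ orderOf x' ∧ ¬ l ^ k ∣ orderOf y' ∧ ∀ r : ℕ, r.Prime → r ∣ orderOf x' → r = l := by
  have hab : ¬ orderOf x' ∣ orderOf y' := fun h => hn (Or.inl (mem_zpowers_of_dvd hx hy h))
  have hb0 : orderOf y' ≠ 0 := (orderOf_pos y').ne'
  have ha0 : orderOf x' ≠ 0 := (orderOf_pos x').ne'
  rw [Nat.dvd_iff_prime_pow_dvd_dvd] at hab
  push Not at hab
  obtain ⟨l, k, hl, hk1, hk2⟩ := hab
  refine ⟨l, k, hl, hk1, hk2, ?_⟩
  have hk0 : k ≠ 0 := by
    rintro rfl
    simp at hk2
  have hzord : orderOf (x' ^ (orderOf x' / l ^ k)) = l ^ k := orderOf_pow_orderOf_div ha0 hk1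
  set z := x' ^ (orderOf x' / l ^ k) with hz
  have hzx : z ∈ zpowers x' := npow_mem_zpowers _ _
  have hzw : z ∈ zpowers w' := zpowers_le.mpr hx hzx
  have hzX : z ∈ X' := by
    rcases hf z hzw with h | h
    · exact h
    · exfalso
      rcases h with h | h
      · have := orderOf_dvd_of_mem_zpowers h
        rw [hzord] at this
        exact hk2 this
      · exact hn (Or.inr ((zpowers_le.mpr hzx) h))
  intro r hr hra
  have hsord : orderOf (x' ^ (orderOf x' / r)) = r := orderOf_pow_orderOf_div ha0 hra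
  set s := x' ^ (orderOf x' / r) with hs
  have hsx : s ∈ zpowers x' := npow_mem_zpowers _ _
  have h1 : PAdj z s := (htw z hzX s).mpr (Or.inr hsx)
  rcases h1 with h1 | h1
  · have := orderOf_dvd_of_mem_zpowers h1
    rw [hzord, hsord] at this
    have h2 : l ∣ r := (dvd_pow_self l hk0).trans this
    exact ((Nat.prime_dvd_prime_iff_eq hl hr).mp h2).symm
  · have := orderOf_dvd_of_mem_zpowers h1
    rw [hzord, hsord] at this
    have h2 := hr.dvd_of_dvd_pow this
    exact (Nat.prime_dvd_prime_iff_eq hr hl).mp h2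

private theorem coprime_orders {x' y' w' : H} (hx : x' ∈ zpowers w') (hy : y' ∈ zpowers w') (hn : ¬ PAdj x' y')
    (X' Y' : Set H) (htw : ∀ z ∈ X', ∀ c, PAdj z c ↔ PAdj x' c) (htw2 : ∀ z ∈ Y', ∀ c, PAdj z c ↔ PAdj y' c)
    (hf : ∀ s ∈ zpowers w', s ∈ X' ∨ PAdj s y') (hf2 : ∀ s ∈ zpowers w', s ∈ Y' ∨ PAdj s x') :
    (orderOf x').Coprime (orderOf y') := by
  obtain ⟨l, k, hl, h1, h2, h3⟩ := key_prime hx hy hn X' htw hf
  obtain ⟨l2, k2, hl2, h12, h22, h32⟩ := key_prime hy hx (fun h => hn h.symm) Y' htw2 hf2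
  refine Nat.Coprime.symm (Nat.coprime_of_dvd fun r hr hr1 hr2 => ?_)
  have e1 := h3 r hr hr2
  have e2 := h32 r hr hr1
  have e3 : l2 = l := e2.symm.trans e1
  subst e3
  rcases le_total k k2 with hk | hk
  · exact h2 ((pow_dvd_pow _ hk).trans h12)
  · exact h22 ((pow_dvd_pow _ hk).trans h1)

/-- Final count in the cyclic case. -/
private theorem order_eq {x' y' : H} (X' : Set H) (hn : ¬ PAdj x' y') (hc : (orderOf x').Coprime (orderOf y'))
    (hfx : ∀ s ∈ zpowers x', s ∈ X' ∨ PAdj s y')
    (htw : ∀ z ∈ X', ∀ c, PAdj z c ↔ PAdj x' c) (hmax : ∀ z ∈ X', orderOf z ≤ orderOf x') :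
    X'.ncard + 1 = orderOf x' := by
  classical
  have hsub : X' = ((zpowers x' : Subgroup H) : Set H) \ {1} := by
    ext z
    constructor
    · intro hz
      have h1 : PAdj z x' := (htw z hz x').mpr (padj_refl x')
      have hzx : z ∈ zpowers x' := by
        rcases h1 with h1 | h1
        · exact h1
        · have h2 := orderOf_dvd_of_mem_zpowers h1
          have h3 : orderOf z = orderOf x' := le_antisymm (hmax z hz) (Nat.le_of_dvd (orderOf_pos z) h2)
          have h4 : zpowers z = zpowers x' := (Subgroup.eq_of_le_of_card_ge (zpowers_le.mpr h1) (by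
            rw [Nat.card_zpowers, Nat.card_zpowers, h3])).symm
          rw [← h4]
          exact mem_zpowers z
      refine ⟨hzx, ?_⟩
      rintro rfl
      have h5 : PAdj (1 : H) y' := Or.inl (one_mem _)
      exact hn ((htw 1 hz y').mp h5)
    · rintro ⟨h1, h2⟩
      rcases hfx z h1 with h3 | h3
      · exact h3
      · exfalso
        rcases h3 with h3 | h3
        · have h4 := orderOf_dvd_of_mem_zpowers h1
          have h5 := orderOf_dvd_of_mem_zpowers h3
          have h6 : orderOf z = 1 := Nat.eq_one_of_dvd_coprimes hc h4 h5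
          exact h2 (orderOf_eq_one_iff.mp h6)
        · exact hn (Or.inr ((zpowers_le.mpr h1) h3))
  rw [hsub]
  have h1 : ((1 : H) ∈ ((zpowers x' : Subgroup H) : Set H)) := one_mem _
  have hfin : (((zpowers x' : Subgroup H) : Set H)).Finite := Set.toFinite _
  rw [← Nat.card_zpowers, Set.ncard_diff_singleton_add_one h1 hfin]
  exact Nat.card_coe_set_eq _

private theorem main_dir (e : G ≃ H) (he : ∀ x y, PAdj x y ↔ PAdj (e x) (e y)) {p q : ℕ} (hp : p.Prime) (hq : q.Prime)
    (hpq : p ≠ q) {g : G} (hg : orderOf g = p * q) : ∃ h : H, orderOf h = p * q := by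
  classical
  have hg' : orderOf g = q * p := by rw [hg, mul_comm]
  set u := g ^ q with hu
  set v := g ^ p with hv
  set X' : Set H := e '' gens u with hX'
  set Y' : Set H := e '' gens v with hY'
  set W' : Set H := e '' gens g with hW'
  have hcX : X'.ncard = p - 1 := by
    rw [hX', Set.ncard_image_of_injective _ e.injective, ← Nat.card_coe_set_eq, card_gens, order_u hq hg,
      Nat.totient_prime hp]
  have hcY : Y'.ncard = q - 1 := by
    rw [hY', Set.ncard_image_of_injective _ e.injective, ← Nat.card_coe_set_eq, card_gens, order_u hp hg',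
      Nat.totient_prime hq]
  have hcW : W'.ncard = (p - 1) * (q - 1) := by
    rw [hW', Set.ncard_image_of_injective _ e.injective, ← Nat.card_coe_set_eq, card_gens, hg,
      Nat.totient_mul ((Nat.coprime_primes hp hq).mpr hpq), Nat.totient_prime hp, Nat.totient_prime hq]
  obtain ⟨x', hx'X, hx'max⟩ := Set.exists_max_image X' (orderOf : H → ℕ) (Set.toFinite _) ⟨e u, u, self_mem_gens u, rfl⟩
  obtain ⟨y', hy'Y, hy'max⟩ := Set.exists_max_image Y' (orderOf : H → ℕ) (Set.toFinite _) ⟨e v, v, self_mem_gens v, rfl⟩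
  obtain ⟨x, hxg, rfl⟩ := hx'X
  obtain ⟨y, hyg, rfl⟩ := hy'Y
  have hn : ¬ PAdj (e x) (e y) := by
    rw [← he, padj_congr_left hxg, padj_congr_right hyg]
    exact not_padj_uv hp hq hpq hg
  have htwX : ∀ z ∈ X', ∀ c, PAdj z c ↔ PAdj (e x) c := by
    rintro _ ⟨z, hz, rfl⟩ c
    rw [twin_image e he hz c, twin_image e he hxg c]
  have htwY : ∀ z ∈ Y', ∀ c, PAdj z c ↔ PAdj (e y) c := by
    rintro _ ⟨z, hz, rfl⟩ c
    rw [twin_image e he hz c, twin_image e he hyg c]
  have hadjW : ∀ w ∈ gens g, PAdj (e w) (e x) ∧ PAdj (e w) (e y) := by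
    intro w hw
    constructor
    · rw [← he, padj_congr_left hw, padj_congr_right hxg]
      exact Or.inr (npow_mem_zpowers _ _)
    · rw [← he, padj_congr_left hw, padj_congr_right hyg]
      exact Or.inr (npow_mem_zpowers _ _)
  by_cases hA : ∃ w ∈ gens g, e x ∈ zpowers (e w) ∧ e y ∈ zpowers (e w)
  · obtain ⟨w, hw, hxw, hyw⟩ := hA
    have hf := fun s (hs : s ∈ zpowers (e w)) => fact1 e he hp hq hpq hg hw hyg hs
    have hf2 := fun s (hs : s ∈ zpowers (e w)) => fact1 e he hq hp hpq.symm hg' hw hxg hs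
    have hc := coprime_orders hxw hyw hn X' Y' htwX htwY hf hf2
    have h1 := order_eq X' hn hc (fun s hs => hf s (zpowers_le.mpr hxw hs)) htwX hx'max
    have h2 := order_eq (x' := e y) (y' := e x) Y' (fun h => hn h.symm) hc.symm
      (fun s hs => hf2 s (zpowers_le.mpr hyw hs)) htwY hy'max
    rw [hcX] at h1
    rw [hcY] at h2
    have h3 : orderOf (e x) = p := by
      have := hp.pos
      omega
    have h4 : orderOf (e y) = q := by
      have := hq.pos
      omega
    refine ⟨e x * e y, ?_⟩
    have hcomm : Commute (e x) (e y) := by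
      obtain ⟨m, hm⟩ := Subgroup.mem_zpowers_iff.mp hxw
      obtain ⟨n, hn'⟩ := Subgroup.mem_zpowers_iff.mp hyw
      rw [← hm, ← hn']
      exact (Commute.refl _).zpow_zpow _ _
    rw [hcomm.orderOf_mul_eq_mul_orderOf_of_coprime hc, h3, h4]
  · exfalso
    push Not at hA
    -- all of W' lies in the intersection
    let D : Subgroup H := zpowers (e x) ⊓ zpowers (e y)
    have hWD : W' ⊆ (D : Set H) := by
      rintro _ ⟨w, hw, rfl⟩
      have h1 := (hadjW w hw).1
      have h2 := (hadjW w hw).2
      have hx1 : e w ∈ zpowers (e x) := by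
        rcases h1 with h | h
        · exact h
        · have h3 := hA w hw h
          rcases h2 with h4 | h4
          · exfalso
            exact hn (Or.inl ((zpowers_le.mpr h4) h))
          · exact absurd h4 h3
      have hy1 : e w ∈ zpowers (e y) := by
        rcases h2 with h | h
        · exact h
        · rcases h1 with h4 | h4
          · exfalso
            exact hn (Or.inr ((zpowers_le.mpr h4) h))
          · exact absurd h (hA w hw h4)
      exact ⟨hx1, hy1⟩
    have hD : (p - 1) * (q - 1) ≤ Nat.card D := by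
      have h0 : Nat.card D = (D : Set H).ncard := Nat.card_coe_set_eq (D : Set H)
      rw [← hcW, h0]
      exact Set.ncard_le_ncard hWD (Set.toFinite _)
    have hax : ∀ (x y : H), ¬ PAdj x y → 2 * Nat.card (zpowers x ⊓ zpowers y : Subgroup H) ≤ orderOf x := by
      intro x y hxy
      have h1 : (zpowers x ⊓ zpowers y : Subgroup H) ≤ zpowers x := inf_le_left
      obtain ⟨k, hk⟩ := Subgroup.card_dvd_of_le h1
      rw [Nat.card_zpowers] at hk
      have hk1 : k ≠ 1 := by
        rintro rfl
        rw [mul_one] at hk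
        have h2 := Subgroup.eq_of_le_of_card_ge h1 (by rw [Nat.card_zpowers, hk])
        have h3 : x ∈ (zpowers x ⊓ zpowers y : Subgroup H) := by
          rw [h2]
          exact mem_zpowers x
        exact hxy (Or.inl h3.2)
      have hk0 : k ≠ 0 := by
        rintro rfl
        rw [mul_zero] at hk
        exact (orderOf_pos x).ne' hk
      rw [hk, mul_comm]
      exact Nat.mul_le_mul_left _ (by omega)
    have h1 := hax (e x) (e y) hn
    have h2 := hax (e y) (e x) (fun h => hn h.symm)
    have hD2 : (zpowers (e y) ⊓ zpowers (e x) : Subgroup H) = D := inf_comm _ _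
    rw [hD2] at h2
    have htot : ∀ (x0 : G), x0 ∈ gens u → (orderOf (e x0)).totient ≤ p - 1 := by
      intro x0 hx0
      rw [← card_gens, Nat.card_coe_set_eq, ← hcX]
      exact Set.ncard_le_ncard (fun t ht => gens_sub e he hp hq hpq hg hx0 ht) (Set.toFinite _)
    have htot2 : ∀ (x0 : G), x0 ∈ gens v → (orderOf (e x0)).totient ≤ q - 1 := by
      intro x0 hx0
      rw [← card_gens, Nat.card_coe_set_eq, ← hcY]
      exact Set.ncard_le_ncard (fun t ht => gens_sub e he hq hp hpq.symm hg' hx0 ht) (Set.toFinite _)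
    have h3 := (totient_bound (orderOf (e x))).1
    have h4 := (totient_bound (orderOf (e y))).1
    have h5 := htot x hxg
    have h6 := htot2 y hyg
    have h7 : orderOf (e x) ≤ 2 * (p - 1) ^ 2 := h3.trans (Nat.mul_le_mul_left _ (Nat.pow_le_pow_left h5 2))
    have h8 : orderOf (e y) ≤ 2 * (q - 1) ^ 2 := h4.trans (Nat.mul_le_mul_left _ (Nat.pow_le_pow_left h6 2))
    have hp1 : 0 < p - 1 := by have := hp.two_le; omega
    have hq1 : 0 < q - 1 := by have := hq.two_le; omega
    have h9 : (p - 1) * (q - 1) ≤ (p - 1) ^ 2 := by linarith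
    have h10 : (p - 1) * (q - 1) ≤ (q - 1) ^ 2 := by linarith
    have h11 : q - 1 ≤ p - 1 := by
      rw [pow_two] at h9
      exact Nat.le_of_mul_le_mul_left h9 hp1
    have h12 : p - 1 ≤ q - 1 := by
      rw [pow_two] at h10
      exact Nat.le_of_mul_le_mul_right h10 hq1
    omega

end


/-- Let G and H be finite groups whose power graphs are isomorphic: there is a bijection e : G → H such that, for all x, y, one of x, y is a power of the other exactly when one of e(x), e(y) is a power of the other. Then G and H have the same prime graph: for distinct primes p, q, G has an element of order pq if and only if H does. -/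
theorem result {G H : Type*} [Group G] [Finite G] [Group H] [Finite H] (e : G ≃ H)
    (he : ∀ x y : G, (x ∈ Subgroup.zpowers y ∨ y ∈ Subgroup.zpowers x) ↔
      (e x ∈ Subgroup.zpowers (e y) ∨ e y ∈ Subgroup.zpowers (e x)))
    {p q : ℕ} (hp : p.Prime) (hq : q.Prime) (hpq : p ≠ q) :
    (∃ g : G, orderOf g = p * q) ↔ (∃ h : H, orderOf h = p * q) := by
  have hconv : ∀ (x y : G), PAdj x y ↔ PAdj (e x) (e y) := fun x y => he x y
  have hconv2 : ∀ (x y : H), PAdj x y ↔ PAdj (e.symm x) (e.symm y) := by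
    intro x y
    have := hconv (e.symm x) (e.symm y)
    simpa using this.symm
  constructor
  · rintro ⟨g, hg⟩
    exact main_dir e hconv hp hq hpq hg
  · rintro ⟨h, hh⟩
    exact main_dir e.symm hconv2 hp hq hpq hh

end Cfsg.Agent.S4085
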