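import Cfsg.Statements.S4086
import Mathlib

set_option autoImplicit false
open Cfsg

namespace Cfsg.Agent.S4086

theorem mem_zpowers_of_gcd_dvd {G : Type*} [Group G] (c : G) (i j : ℤ)
    (h : ((Int.gcd (orderOf c) j : ℕ) : ℤ) ∣ i) : c ^ i ∈ Subgroup.zpowers (c ^ j) := by
  obtain ⟨t, rfl⟩ := h
  rw [Int.gcd_eq_gcd_ab, zpow_mul, zpow_add, zpow_mul, zpow_natCast, pow_orderOf_eq_one, one_zpow, one_mul,
    zpow_mul]
  exact zpow_mem (zpow_mem (Subgroup.mem_zpowers _) _) _

theorem chain {G : Type*} [Group G] (c : G) (h : c ≠ 1 → IsPrimePow (orderOf c)) (i j : ℤ) :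
    c ^ i ∈ Subgroup.zpowers (c ^ j) ∨ c ^ j ∈ Subgroup.zpowers (c ^ i) := by
  by_cases hc1 : c = 1
  · left
    simp [hc1]
  obtain ⟨r, n, hr, hn, hrn⟩ := h hc1
  have hr' : r.Prime := hr.nat_prime
  have hgen : ∀ i : ℤ, Int.gcd (orderOf c) i ∣ r ^ n := by
    intro i
    rw [hrn]
    exact_mod_cast Int.gcd_dvd_left (orderOf c : ℤ) i
  obtain ⟨s, _, hs⟩ := (Nat.dvd_prime_pow hr').mp (hgen i)
  obtain ⟨t, _, ht⟩ := (Nat.dvd_prime_pow hr').mp (hgen j)
  rcases le_total s t with hst | hst
  · right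
    apply mem_zpowers_of_gcd_dvd
    have h1 : Int.gcd (orderOf c) i ∣ Int.gcd (orderOf c) j := by
      rw [hs, ht]; exact Nat.pow_dvd_pow r hst
    exact (Int.natCast_dvd_natCast.mpr h1).trans (Int.gcd_dvd_right ..)
  · left
    apply mem_zpowers_of_gcd_dvd
    have h1 : Int.gcd (orderOf c) j ∣ Int.gcd (orderOf c) i := by
      rw [hs, ht]; exact Nat.pow_dvd_pow r hst
    exact (Int.natCast_dvd_natCast.mpr h1).trans (Int.gcd_dvd_right ..)


/-- For a finite group G the following are equivalent: every non-identity element has prime-power order; whenever two elements generate a cyclic subgroup, one of them is a power of the other (the enhanced power graph of G coincides with its power graph). -/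
theorem result {G : Type*} [Group G] [Finite G] :
    (∀ g : G, g ≠ 1 → IsPrimePow (orderOf g)) ↔
    (∀ x y : G, IsCyclic ↥(Subgroup.closure ({x, y} : Set G)) → (x ∈ Subgroup.zpowers y ∨ y ∈ Subgroup.zpowers x)) := by
  classical
  constructor
  · intro h x y hcyc
    obtain ⟨c₀, hc₀⟩ := IsCyclic.exists_generator (α := Subgroup.closure ({x, y} : Set G))
    have hgen : ∀ u ∈ Subgroup.closure ({x, y} : Set G), ∃ k : ℤ, u = (c₀ : G) ^ k := by
      intro u hu
      obtain ⟨k, hk⟩ := Subgroup.mem_zpowers_iff.mp (hc₀ ⟨u, hu⟩)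
      refine ⟨k, ?_⟩
      have := congrArg Subtype.val hk
      simpa using this.symm
    obtain ⟨i, hi⟩ := hgen x (Subgroup.subset_closure (by simp))
    obtain ⟨j, hj⟩ := hgen y (Subgroup.subset_closure (by simp))
    have := chain (c₀ : G) (h _) i j
    rw [← hi, ← hj] at this
    exact this
  · intro h g hg
    by_contra hpp
    have hn1 : orderOf g ≠ 1 := fun h1 => hg (orderOf_eq_one_iff.mp h1)
    have hn0 : orderOf g ≠ 0 := (orderOf_pos g).ne'
    obtain ⟨r, hr, hrd⟩ := Nat.exists_prime_and_dvd hn1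
    obtain ⟨k, m, hm, hk⟩ := Nat.exists_eq_pow_mul_and_not_dvd hn0 r hr.ne_one
    have hk1 : k ≠ 0 := by
      rintro rfl
      apply hm
      simpa [hk] using hrd
    have hm1 : m ≠ 1 := by
      rintro rfl
      apply hpp
      rw [hk, mul_one]
      exact hr.isPrimePow.pow hk1
    have hm0 : m ≠ 0 := by
      rintro rfl
      rw [mul_zero] at hk
      exact hn0 hk
    have hrk : r ^ k ≠ 0 := pow_ne_zero _ hr.ne_zero
    have hoa : orderOf (g ^ m) = r ^ k := by
      rw [orderOf_pow_of_dvd hm0 ⟨r ^ k, by rw [hk, mul_comm]⟩, hk]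
      exact Nat.mul_div_cancel _ (Nat.pos_of_ne_zero hm0)
    have hob : orderOf (g ^ r ^ k) = m := by
      rw [orderOf_pow_of_dvd hrk ⟨m, hk⟩, hk]
      exact Nat.mul_div_cancel_left _ (Nat.pos_of_ne_zero hrk)
    have hle : Subgroup.closure ({g ^ m, g ^ r ^ k} : Set G) ≤ Subgroup.zpowers g := by
      rw [Subgroup.closure_le]
      rintro u (rfl | rfl)
      · exact Subgroup.npow_mem_zpowers g _
      · exact Subgroup.npow_mem_zpowers g _
    have hcyc : IsCyclic (Subgroup.closure ({g ^ m, g ^ r ^ k} : Set G)) :=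
      isCyclic_of_injective (Subgroup.inclusion hle) (Subgroup.inclusion_injective hle)
    rcases h _ _ hcyc with h1 | h1
    · have h2 := orderOf_dvd_of_mem_zpowers h1
      rw [hoa, hob] at h2
      exact hm ((dvd_pow_self r hk1).trans h2)
    · have h2 := orderOf_dvd_of_mem_zpowers h1
      rw [hoa, hob] at h2
      have h3 : m.Coprime (r ^ k) :=
        (Nat.Coprime.pow_left k ((Nat.Prime.coprime_iff_not_dvd hr).mpr hm)).symm
      exact hm1 (h3.eq_one_of_dvd h2)

end Cfsg.Agent.S4086
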