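import Cfsg.Statements.S4088
import Cfsg.Agent.Lib.PGroups.Subnormalizer

set_option autoImplicit false
open Cfsg

namespace Cfsg.Agent.S4088

section aux

open Subgroup Cfsg

private theorem card_of_fibers {A B : Type*} [Finite A] [Finite B] (f : A → B) (c : ℕ)
    (hf : ∀ b, Nat.card {a // f a = b} = c) : Nat.card A = Nat.card B * c := by
  haveI := Fintype.ofFinite B
  have h1 := Nat.card_congr (Equiv.sigmaFiberEquiv f)
  rw [← h1, Nat.card_sigma]
  simp_rw [hf]
  rw [Finset.sum_const, Finset.card_univ, ← Nat.card_eq_fintype_card, smul_eq_mul]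

private theorem second {G : Type*} [Group G] [Finite G] (p : ℕ) [Fact p.Prime]
    (H : Subgroup G) (P : Sylow p G) :
    Nat.card {Q : Sylow p G // H ≤ (Q : Subgroup G)} * Nat.card (normalizer ((P : Subgroup G) : Set G)) =
      Nat.card {K : Subgroup G // K ≤ (P : Subgroup G) ∧ ∃ g : G, K = H.map (MulAut.conj g).toMonoidHom} *
        Nat.card (normalizer (H : Set G)) := by
  let A := {g : G // H.map (MulAut.conj g).toMonoidHom ≤ (P : Subgroup G)}
  -- fibres over the conjugates of `H`
  have h1 : Nat.card A = Nat.card {K : Subgroup G // K ≤ (P : Subgroup G) ∧ ∃ g : G, K = H.map (MulAut.conj g).toMonoidHom} *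
      Nat.card (normalizer (H : Set G)) := by
    refine card_of_fibers (fun a : A => (⟨H.map (MulAut.conj a.1).toMonoidHom, a.2, a.1, rfl⟩ :
      {K : Subgroup G // K ≤ (P : Subgroup G) ∧ ∃ g : G, K = H.map (MulAut.conj g).toMonoidHom})) _ ?_
    rintro ⟨K, hKP, b, rfl⟩
    refine Nat.card_congr ⟨fun a => ⟨b⁻¹ * a.1.1, ?_⟩, fun n => ⟨⟨b * n.1, ?_⟩, ?_⟩, ?_, ?_⟩
    · have h := congrArg Subtype.val a.2
      simp only at h
      rw [mem_normalizer_iff]
      have h2 : ∀ c d : G, H.map (MulAut.conj c).toMonoidHom = H.map (MulAut.conj d).toMonoidHom →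
          ∀ x : G, (x ∈ H → d⁻¹ * c * x * (d⁻¹ * c)⁻¹ ∈ H) := by
        intro c d hcd x hx
        have h3 : c * x * c⁻¹ ∈ H.map (MulAut.conj c).toMonoidHom := ⟨x, hx, by simp⟩
        rw [hcd] at h3
        obtain ⟨y, hy, he⟩ := h3
        have h4 : d⁻¹ * c * x * (d⁻¹ * c)⁻¹ = y := by
          simp only [MulEquiv.toMonoidHom_eq_coe, MonoidHom.coe_coe, MulAut.conj_apply] at he
          have : c * x * c⁻¹ = d * y * d⁻¹ := he.symm
          calc d⁻¹ * c * x * (d⁻¹ * c)⁻¹ = d⁻¹ * (c * x * c⁻¹) * d := by group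
            _ = y := by rw [this]; group
        rw [h4]
        exact hy
      intro x
      constructor
      · intro hx
        exact h2 a.1.1 b h x hx
      · intro hx
        have h5 := h2 b a.1.1 h.symm _ hx
        have h6 : a.1.1⁻¹ * b * ((b⁻¹ * a.1.1) * x * (b⁻¹ * a.1.1)⁻¹) * (a.1.1⁻¹ * b)⁻¹ = x := by group
        rwa [h6] at h5
    · have hn := n.2
      have : H.map (MulAut.conj (b * n.1)).toMonoidHom = H.map (MulAut.conj b).toMonoidHom := by
        ext y
        constructor
        · rintro ⟨x, hx, rfl⟩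
          exact ⟨n.1 * x * n.1⁻¹, (mem_normalizer_iff.mp hn x).mp hx, by simp [mul_assoc]⟩
        · rintro ⟨x, hx, rfl⟩
          have h7 : n.1⁻¹ * x * n.1⁻¹⁻¹ ∈ H := (mem_normalizer_iff.mp (inv_mem hn) x).mp hx
          exact ⟨n.1⁻¹ * x * n.1⁻¹⁻¹, h7, by simp [mul_assoc]⟩
      rw [this]
      exact hKP
    · have hn := n.2
      apply Subtype.ext
      simp only
      ext y
      constructor
      · rintro ⟨x, hx, rfl⟩
        exact ⟨n.1 * x * n.1⁻¹, (mem_normalizer_iff.mp hn x).mp hx, by simp [mul_assoc]⟩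
      · rintro ⟨x, hx, rfl⟩
        have h7 : n.1⁻¹ * x * n.1⁻¹⁻¹ ∈ H := (mem_normalizer_iff.mp (inv_mem hn) x).mp hx
        exact ⟨n.1⁻¹ * x * n.1⁻¹⁻¹, h7, by simp [mul_assoc]⟩
    · intro a
      apply Subtype.ext
      apply Subtype.ext
      simp
    · intro n
      apply Subtype.ext
      simp
  -- fibres over the Sylow subgroups containing `H`
  have h2 : Nat.card A = Nat.card {Q : Sylow p G // H ≤ (Q : Subgroup G)} *
      Nat.card (normalizer ((P : Subgroup G) : Set G)) := by
    have hmem : ∀ a : A, H ≤ ((a.1⁻¹ • P : Sylow p G) : Subgroup G) := by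
      intro a x hx
      have h3 : a.1 * x * a.1⁻¹ ∈ (P : Subgroup G) := a.2 ⟨x, hx, by simp⟩
      rw [Sylow.coe_subgroup_smul]
      exact ⟨a.1 * x * a.1⁻¹, h3, by simp [mul_assoc]⟩
    refine card_of_fibers (fun a : A => (⟨a.1⁻¹ • P, hmem a⟩ : {Q : Sylow p G // H ≤ (Q : Subgroup G)})) _ ?_
    rintro ⟨Q, hHQ⟩
    obtain ⟨b, rfl⟩ := MulAction.exists_smul_eq G P Q
    refine Nat.card_congr ⟨fun a => ⟨a.1.1 * b, ?_⟩, fun n => ⟨⟨n.1 * b⁻¹, ?_⟩, ?_⟩, ?_, ?_⟩
    · have h := congrArg Subtype.val a.2
      simp only at h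
      have h4 : (a.1.1 * b) • P = P := by
        rw [mul_smul]
        have h' := congrArg (fun S => a.1.1 • S) h
        simp only [smul_inv_smul] at h'
        exact h'.symm
      exact Sylow.smul_eq_iff_mem_normalizer.mp h4
    · rintro _ ⟨x, hx, rfl⟩
      have h3 := hHQ hx
      rw [Sylow.coe_subgroup_smul] at h3
      obtain ⟨y, hy, he⟩ := h3
      have hy' : y = b⁻¹ * x * b := by
        have : b * y * b⁻¹ = x := by simpa using he
        rw [← this]; group
      subst hy'
      have h5 := (mem_normalizer_iff.mp n.2 (b⁻¹ * x * b)).mp hy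
      have h6 : (MulAut.conj (n.1 * b⁻¹)).toMonoidHom x = n.1 * (b⁻¹ * x * b) * n.1⁻¹ := by
        simp [mul_assoc]
      rw [h6]
      exact h5
    · apply Subtype.ext
      simp only
      rw [mul_inv_rev, inv_inv, mul_smul]
      have : n.1⁻¹ • P = P := Sylow.smul_eq_iff_mem_normalizer.mpr (inv_mem n.2)
      rw [this]
    · intro a
      apply Subtype.ext
      apply Subtype.ext
      simp
    · intro n
      apply Subtype.ext
      simp
  rw [← h1, ← h2]

private theorem main {G : Type*} [Group G] [Finite G] (p : ℕ) [Fact p.Prime]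
    (H : Subgroup G) (hH : IsPGroup p H) (P : Sylow p G) :
    Nat.card {g : G // ((H).subgroupOf (H ⊔ Subgroup.zpowers g)).IsSubnormal} =
        Nat.card {Q : Sylow p G // H ≤ (Q : Subgroup G)} * Nat.card (Subgroup.normalizer ((P : Subgroup G) : Set G)) ∧
    Nat.card {g : G // ((H).subgroupOf (H ⊔ Subgroup.zpowers g)).IsSubnormal} =
        Nat.card {K : Subgroup G // K ≤ (P : Subgroup G) ∧ ∃ g : G, K = H.map (MulAut.conj g).toMonoidHom} *
          Nat.card (Subgroup.normalizer (H : Set G)) := by
  have h1 := Cfsg.Agent.Lib.PGroups.Subnormalizer.card_subnormalizer p H hH P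
  exact ⟨h1, h1.trans (second p H P)⟩

end aux

/-- Let G be a finite group, p a prime dividing the order of G, H a p-subgroup of G and P a Sylow p-subgroup of G. Call the subnormalizer of H the set of elements g of G such that H is subnormal in the subgroup generated by H and g. Then the number of elements of the subnormalizer of H equals the number of Sylow p-subgroups of G containing H times the order of N_G(P), and also equals the number of conjugates of H contained in P times the order of N_G(H). -/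
theorem result {G : Type*} [Group G] [Finite G] (p : ℕ) [Fact p.Prime]
    (hp : p ∣ Nat.card G) (H : Subgroup G) (hH : IsPGroup p H) (P : Sylow p G) :
    Nat.card {g : G // ((H).subgroupOf (H ⊔ Subgroup.zpowers g)).IsSubnormal} =
        Nat.card {Q : Sylow p G // H ≤ (Q : Subgroup G)} * Nat.card (Subgroup.normalizer ((P : Subgroup G) : Set G)) ∧
    Nat.card {g : G // ((H).subgroupOf (H ⊔ Subgroup.zpowers g)).IsSubnormal} =
        Nat.card {K : Subgroup G // K ≤ (P : Subgroup G) ∧ ∃ g : G, K = H.map (MulAut.conj g).toMonoidHom} *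
          Nat.card (Subgroup.normalizer (H : Set G)) := by
  exact main p H hH P

end Cfsg.Agent.S4088
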