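import Cfsg.Statements.S4089
import Cfsg.Agent.Lib.PGroups.Parts
import Cfsg.Agent.Lib.Basic.Core
import Cfsg.Agent.Lib.Basic.Index2

set_option autoImplicit false
open Cfsg

namespace Cfsg.Agent.S4089

open Subgroup Cfsg Cfsg.Agent.Lib.Basic Cfsg.Agent.Lib.PGroups

private theorem growth {X : Type*} [Group X] [Finite X] {p : ℕ} [Fact p.Prime] {A B : Subgroup X}
    (hAB : A < B) (hB : IsPGroup p B) : ∃ b ∈ B, b ∉ A ∧ b ∈ normalizer (A : Set X) := by
  haveI : Group.IsNilpotent B := hB.isNilpotent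
  have hcond := Group.normalizerCondition_of_isNilpotent (G := B)
  have hlt : A.subgroupOf B < ⊤ := by
    rw [lt_top_iff_ne_top]
    intro h
    rw [subgroupOf_eq_top] at h
    exact absurd h (not_le_of_gt hAB)
  have h2 := hcond _ hlt
  obtain ⟨b, hb1, hb2⟩ := SetLike.exists_of_lt h2
  refine ⟨b, b.2, fun h => hb2 (mem_subgroupOf.mpr h), ?_⟩
  apply mem_normalizer_of_conj_le'
  intro w hw
  have hwB : w ∈ B := hAB.le hw
  have h3 := (mem_normalizer_iff.mp hb1 ⟨w, hwB⟩).mp (mem_subgroupOf.mpr hw)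
  exact mem_subgroupOf.mp h3

private theorem isSubnormal_of_le {L : Type*} [Group L] [Finite L] {p : ℕ} [Fact p.Prime] (B : Subgroup L)
    (hB : B.Normal) (hBp : IsPGroup p B) (A : Subgroup L) : A ≤ B → A.IsSubnormal := by
  refine WellFoundedGT.induction (motive := fun A : Subgroup L => A ≤ B → A.IsSubnormal) A ?_
  intro A ih hAle
  by_cases h : A = B
  · subst h
    exact Normal.isSubnormal hB
  have hlt : A < B := lt_of_le_of_ne hAle h
  obtain ⟨b, hbB, hbA, hbN⟩ := growth hlt hBp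
  have hAA' : A ≤ normalizer (A : Set L) ⊓ B := le_inf le_normalizer hAle
  have hlt' : A < normalizer (A : Set L) ⊓ B :=
    lt_of_le_of_ne hAA' (fun e => hbA (e ▸ Subgroup.mem_inf.mpr ⟨hbN, hbB⟩))
  have h' := ih _ hlt' inf_le_right
  exact IsSubnormal.step A _ hAA' h' ((normal_subgroupOf_iff_le_normalizer hAA').mpr inf_le_left)

private theorem le_pCore_of_subnormal {L : Type*} [Group L] [Finite L] {p : ℕ} [Fact p.Prime] {H : Subgroup L}
    (hs : H.IsSubnormal) : ∀ Q : Subgroup L, IsPGroup p Q → Q ≤ H → H ≤ normalizer (Q : Set L) →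
      Q ≤ pCore p L := by
  induction hs with
  | top =>
    intro Q hQ _ hN
    exact le_pCore (normalizer_eq_top_iff.mp (top_le_iff.mp hN)) hQ
  | step H K hle hK hn ih =>
    intro Q hQ hQH hHN
    haveI := pCore_characteristic (G := H) p
    have hQ₁p : IsPGroup p ((pCore p H).map H.subtype) := (pCore_isPGroup p).map _
    have hQQ₁ : Q ≤ (pCore p H).map H.subtype := by
      have h1 : Q.subgroupOf H ≤ pCore p H :=
        le_pCore ((normal_subgroupOf_iff_le_normalizer hQH).mpr hHN) (hQ.comap_of_injective H.subtype H.subtype_injective)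
      intro x hx
      exact ⟨⟨x, hQH hx⟩, h1 (mem_subgroupOf.mpr hx), rfl⟩
    have hQ₁K : (pCore p H).map H.subtype ≤ K := (map_subtype_le _).trans hle
    have hKN : K ≤ normalizer (((pCore p H).map H.subtype : Subgroup L) : Set L) :=
      ((normal_subgroupOf_iff_le_normalizer hle).mp hn).trans (le_normalizer_map_of_characteristic _)
    exact hQQ₁.trans (ih _ hQ₁p hQ₁K hKN)

private theorem mem_normalizer_core {X : Type*} [Group X] [Finite X] {p : ℕ} [Fact p.Prime] (L : Subgroup X) {g : X}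
    (hg : g ∈ L) : g ∈ normalizer (((pCore p L).map L.subtype : Subgroup X) : Set X) := by
  apply mem_normalizer_of_conj_le'
  rintro w ⟨w', hw', rfl⟩
  exact ⟨(⟨g, hg⟩ : L) * w' * (⟨g, hg⟩ : L)⁻¹, (pCore_normal p).conj_mem w' hw' _, rfl⟩

private theorem forward {G : Type*} [Group G] [Finite G] (p : ℕ) [Fact p.Prime]
    (H : Subgroup G) (hH : IsPGroup p H) (g : G) (hs : ((H).subgroupOf (H ⊔ Subgroup.zpowers g)).IsSubnormal) :
    ∃ R : Subgroup G, H ≤ R ∧ (Cfsg.pCore p (Subgroup.normalizer (R : Set G))).map (Subgroup.normalizer (R : Set G)).subtype = R ∧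
      g ∈ Subgroup.normalizer (R : Set G) := by
  set L : Subgroup G := H ⊔ Subgroup.zpowers g with hL
  have hA : H.subgroupOf L ≤ pCore p L :=
    le_pCore_of_subnormal hs _ (hH.comap_of_injective L.subtype L.subtype_injective) le_rfl le_normalizer
  have hHR₀ : H ≤ (pCore p L).map L.subtype := fun h hh =>
    ⟨⟨h, (le_sup_left : H ≤ L) hh⟩, hA (mem_subgroupOf.mpr hh), rfl⟩
  have hR₀p : IsPGroup p ((pCore p L).map L.subtype) := (pCore_isPGroup p).map L.subtype
  have hgL : g ∈ L := (le_sup_right : zpowers g ≤ L) (mem_zpowers g)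
  have hgN := mem_normalizer_core (p := p) L hgL
  have hne : (pCore p L).map L.subtype ∈ {R : Subgroup G | H ≤ R ∧ IsPGroup p R ∧ g ∈ normalizer (R : Set G)} :=
    ⟨hHR₀, hR₀p, hgN⟩
  obtain ⟨R, -, hMax⟩ := (Set.toFinite {R : Subgroup G | H ≤ R ∧ IsPGroup p R ∧ g ∈ normalizer (R : Set G)}).exists_le_maximal hne
  obtain ⟨hHR, hRp, hgR⟩ := hMax.prop
  have hRRn : R ≤ (pCore p (normalizer (R : Set G))).map (normalizer (R : Set G)).subtype := by
    have h1 : R.subgroupOf (normalizer (R : Set G)) ≤ pCore p (normalizer (R : Set G)) :=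
      le_pCore ((normal_subgroupOf_iff_le_normalizer le_normalizer).mpr le_rfl)
        (hRp.comap_of_injective _ (normalizer (R : Set G)).subtype_injective)
    intro x hx
    exact ⟨⟨x, le_normalizer hx⟩, h1 (mem_subgroupOf.mpr hx), rfl⟩
  have hmem : (pCore p (normalizer (R : Set G))).map (normalizer (R : Set G)).subtype ∈
      {R : Subgroup G | H ≤ R ∧ IsPGroup p R ∧ g ∈ normalizer (R : Set G)} :=
    ⟨hHR.trans hRRn, (pCore_isPGroup p).map _, mem_normalizer_core (p := p) _ hgR⟩
  exact ⟨R, hHR, le_antisymm (hMax.le_of_ge hmem hRRn) hRRn, hgR⟩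

private theorem backward {G : Type*} [Group G] [Finite G] (p : ℕ) [Fact p.Prime]
    (H : Subgroup G) (g : G) (R : Subgroup G) (hHR : H ≤ R)
    (hR : (Cfsg.pCore p (Subgroup.normalizer (R : Set G))).map (Subgroup.normalizer (R : Set G)).subtype = R)
    (hg : g ∈ Subgroup.normalizer (R : Set G)) :
    ((H).subgroupOf (H ⊔ Subgroup.zpowers g)).IsSubnormal := by
  set L : Subgroup G := H ⊔ Subgroup.zpowers g with hL
  have hRp : IsPGroup p R := by
    rw [← hR]
    exact (pCore_isPGroup p).map _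
  have hLN : L ≤ normalizer (R : Set G) :=
    sup_le (hHR.trans le_normalizer) ((Subgroup.zpowers_le).mpr hg)
  have hBn : (R.subgroupOf L).Normal := by
    refine ⟨fun x hx y => ?_⟩
    rw [mem_subgroupOf] at hx ⊢
    exact (mem_normalizer_iff.mp (hLN y.2) x).mp hx
  have hBp : IsPGroup p (R.subgroupOf L) := hRp.comap_of_injective L.subtype L.subtype_injective
  refine isSubnormal_of_le _ hBn hBp _ ?_
  intro x hx
  rw [mem_subgroupOf] at hx ⊢
  exact hHR hx

/-- A radical `p`-subgroup containing `H` contains the intersection of the Sylow subgroups containing `H`. -/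
private theorem sInf_le_radical {G : Type*} [Group G] [Finite G] (p : ℕ) [Fact p.Prime]
    (H : Subgroup G) (R : Subgroup G) (hHR : H ≤ R)
    (hR : (Cfsg.pCore p (Subgroup.normalizer (R : Set G))).map (Subgroup.normalizer (R : Set G)).subtype = R) :
    sInf {K : Subgroup G | ∃ Q : Sylow p G, H ≤ (Q : Subgroup G) ∧ K = (Q : Subgroup G)} ≤ R := by
  classical
  have hRp : IsPGroup p R := by
    rw [← hR]
    exact (pCore_isPGroup p).map _
  set J : Subgroup G := sInf {K : Subgroup G | ∃ Q : Sylow p G, R ≤ (Q : Subgroup G) ∧ K = (Q : Subgroup G)} with hJ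
  have hle : sInf {K : Subgroup G | ∃ Q : Sylow p G, H ≤ (Q : Subgroup G) ∧ K = (Q : Subgroup G)} ≤ J := by
    apply sInf_le_sInf
    rintro K ⟨Q, hQ, rfl⟩
    exact ⟨Q, hHR.trans hQ, rfl⟩
  refine hle.trans ?_
  have hRJ : R ≤ J := by
    apply le_sInf
    rintro K ⟨Q, hQ, rfl⟩
    exact hQ
  obtain ⟨Q₀, hQ₀⟩ := hRp.exists_le_sylow
  have hJp : IsPGroup p J := Q₀.isPGroup'.to_le (sInf_le ⟨Q₀, hQ₀, rfl⟩)
  by_contra hnot
  have hlt : R < J := lt_of_le_of_ne hRJ (fun e => hnot (e ▸ le_rfl))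
  obtain ⟨b, hbJ, hbR, hbN⟩ := growth hlt hJp
  apply hbR
  set N : Subgroup G := normalizer (R : Set G) with hN
  have hmem : (⟨b, hbN⟩ : N) ∈ pCore p N := by
    rw [pCore_eq_iInf_sylow, Subgroup.mem_iInf]
    intro T
    obtain ⟨Q, hQ⟩ := (T.isPGroup'.map N.subtype).exists_le_sylow
    -- `R` lies in `T`
    have hRT : R ≤ (T : Subgroup N).map N.subtype := by
      rw [← hR]
      exact Subgroup.map_mono (pCore_le_sylow T)
    have hbQ : b ∈ (Q : Subgroup G) := by
      have : J ≤ (Q : Subgroup G) := sInf_le ⟨Q, hRT.trans hQ, rfl⟩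
      exact this hbJ
    -- maximality of `T`
    have hpg : IsPGroup p ((Q : Subgroup G).subgroupOf N) :=
      Q.isPGroup'.comap_of_injective N.subtype N.subtype_injective
    have hTle : (T : Subgroup N) ≤ (Q : Subgroup G).subgroupOf N := by
      intro x hx
      rw [mem_subgroupOf]
      exact hQ ⟨x, hx, rfl⟩
    have heq := T.is_maximal' hpg hTle
    rw [← heq]
    exact mem_subgroupOf.mpr hbQ
  rw [← hR]
  exact ⟨_, hmem, rfl⟩


/-- Let G be a finite group, p a prime and H a p-subgroup of G. Then the set of elements g of G such that H is subnormal in the subgroup generated by H and g is the union of the normalizers N_G(R) over the subgroups R of G containing H with R = O_p(N_G(R)); and this set does not change when H is replaced by the intersection of all Sylow p-subgroups of G containing H. -/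
theorem result {G : Type*} [Group G] [Finite G] (p : ℕ) [Fact p.Prime]
    (H : Subgroup G) (hH : IsPGroup p H) :
    {g : G | ((H).subgroupOf (H ⊔ Subgroup.zpowers g)).IsSubnormal} =
      {g : G | ∃ R : Subgroup G, H ≤ R ∧ (Cfsg.pCore p (Subgroup.normalizer (R : Set G))).map (Subgroup.normalizer (R : Set G)).subtype = R ∧ g ∈ Subgroup.normalizer (R : Set G)} ∧
    ∀ g : G, (((H).subgroupOf (H ⊔ Subgroup.zpowers g)).IsSubnormal ↔
      (((sInf {K : Subgroup G | ∃ Q : Sylow p G, H ≤ (Q : Subgroup G) ∧ K = (Q : Subgroup G)})).subgroupOf ((sInf {K : Subgroup G | ∃ Q : Sylow p G, H ≤ (Q : Subgroup G) ∧ K = (Q : Subgroup G)}) ⊔ Subgroup.zpowers g)).IsSubnormal) := by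
  classical
  have hI : ∀ g : G, ((H).subgroupOf (H ⊔ Subgroup.zpowers g)).IsSubnormal →
      (((sInf {K : Subgroup G | ∃ Q : Sylow p G, H ≤ (Q : Subgroup G) ∧ K = (Q : Subgroup G)})).subgroupOf ((sInf {K : Subgroup G | ∃ Q : Sylow p G, H ≤ (Q : Subgroup G) ∧ K = (Q : Subgroup G)}) ⊔ Subgroup.zpowers g)).IsSubnormal := by
    intro g hs
    obtain ⟨R, hHR, hR, hg⟩ := forward p H hH g hs
    exact backward p _ g R (sInf_le_radical p H R hHR hR) hR hg
  have hHI : H ≤ sInf {K : Subgroup G | ∃ Q : Sylow p G, H ≤ (Q : Subgroup G) ∧ K = (Q : Subgroup G)} := by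
    apply le_sInf
    rintro K ⟨Q, hQ, rfl⟩
    exact hQ
  obtain ⟨Q₀, hQ₀⟩ := hH.exists_le_sylow
  have hIp : IsPGroup p ↥(sInf {K : Subgroup G | ∃ Q : Sylow p G, H ≤ (Q : Subgroup G) ∧ K = (Q : Subgroup G)}) :=
    Q₀.isPGroup'.to_le (sInf_le ⟨Q₀, hQ₀, rfl⟩)
  refine ⟨?_, fun g => ⟨hI g, fun hs => ?_⟩⟩
  · ext g
    constructor
    · intro hs
      exact forward p H hH g hs
    · rintro ⟨R, hHR, hR, hg⟩
      exact backward p H g R hHR hR hg
  · obtain ⟨R, hIR, hR, hg⟩ := forward p _ hIp g hs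
    exact backward p H g R (hHI.trans hIR) hR hg

end Cfsg.Agent.S4089
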