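import Cfsg.Statements.S4090
import Cfsg.Agent.Lib.PGroups.Subnormalizer2

set_option autoImplicit false
open scoped BigOperators
open Cfsg

namespace Cfsg.Agent.S4090

section aux

open Subgroup Cfsg Cfsg.Agent.Lib.PGroups.Subnormalizer

private theorem main {G : Type*} [Group G] [Finite G] (p : ℕ) [Fact p.Prime]
    (H : Subgroup G) (hH : IsPGroup p H) (P : Sylow p G)
    (n : ℕ) (M : Fin (n + 1) → Subgroup G) (h0 : M 0 = ⊥) (hn : M (Fin.last n) = ⊤) (hmono : Monotone M)
    (hnormal : ∀ i, (M i).Normal)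
    (hfac : ∀ i : Fin n, (∃ m : ℕ, (M i.castSucc).relIndex (M i.succ) = p ^ m) ∨ ((M i.castSucc).relIndex (M i.succ)).Coprime p) :
    Nat.card {g : G // ((H).subgroupOf (H ⊔ Subgroup.zpowers g)).IsSubnormal} =
      Nat.card (P : Subgroup G) *
        ∏ i : Fin n, (if ((M i.castSucc).relIndex (M i.succ)).Coprime p then
          Nat.card {u : G // u ∈ M i.succ ∧ ∀ h ∈ H, h * u * h⁻¹ * u⁻¹ ∈ M i.castSucc} / Nat.card (M i.castSucc)
          else 1) := by
  set N : ℕ → Subgroup G := fun k => if h : k ≤ n then M ⟨k, by omega⟩ else ⊤ with hN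
  have hNi : ∀ i : Fin n, N i = M i.castSucc := by
    intro i
    have : (i : ℕ) ≤ n := i.2.le
    simp only [hN, this, dif_pos]
    rfl
  have hNs : ∀ i : Fin n, N (i + 1) = M i.succ := by
    intro i
    have : (i : ℕ) + 1 ≤ n := i.2
    simp only [hN, this, dif_pos]
    rfl
  have hNn : ∀ i, (N i).Normal := by
    intro i
    by_cases h : i ≤ n
    · simp only [hN, h, dif_pos]
      exact hnormal _
    · simp only [hN, h, dif_neg, not_false_eq_true]
      exact inferInstance
  have h1 := series H hH P n N hNn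
    (by
      have : (0 : ℕ) ≤ n := Nat.zero_le _
      simp only [hN, this, dif_pos]
      exact h0)
    (by
      simp only [hN, le_refl, dif_pos]
      exact hn)
    (by
      intro i hi
      have h1 := hNi ⟨i, hi⟩
      have h2 := hNs ⟨i, hi⟩
      simp only at h1 h2
      rw [h1, h2]
      exact hmono (Fin.castSucc_lt_succ).le)
    (by
      intro i hi
      have h1 := hNi ⟨i, hi⟩
      have h2 := hNs ⟨i, hi⟩
      simp only at h1 h2
      rw [h1, h2]
      exact hfac ⟨i, hi⟩)
  have h2 : Nat.card {g : G // ((H).subgroupOf (H ⊔ Subgroup.zpowers g)).IsSubnormal} = cnt H (P : Subgroup G) := by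
    rw [card_subnormalizer p H hH P, cnt_sylow]
  rw [h2, h1, ← Fin.prod_univ_eq_prod_range
    (fun i => if ((N i).relIndex (N (i + 1))).Coprime p then
        Nat.card {u : G // u ∈ N (i + 1) ∧ ∀ h ∈ H, h * u * h⁻¹ * u⁻¹ ∈ N i} / Nat.card (N i)
        else 1) n]
  congr 1
  refine Finset.prod_congr rfl fun i _ => ?_
  simp only [hNi, hNs]

end aux

/-- Let G be a finite p-solvable group, H a p-subgroup of G and P a Sylow p-subgroup, and fix a chain of normal subgroups 1 = M₀ ≤ M₁ ≤ ⋯ ≤ Mₙ = G of G each of whose factors is a p-group or a p'-group. Then the number of elements g of G such that H is subnormal in the subgroup generated by H and g equals the order of P times the product, over the factors Mᵢ₊₁/Mᵢ of order prime to p, of the order of the centralizer of H in Mᵢ₊₁/Mᵢ (counted as the number of u ∈ Mᵢ₊₁ with [h, u] ∈ Mᵢ for all h ∈ H, divided by the order of Mᵢ). -/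
theorem result {G : Type*} [Group G] [Finite G] (p : ℕ) [Fact p.Prime]
    (hG : Cfsg.IsPSolvable p G) (H : Subgroup G) (hH : IsPGroup p H) (P : Sylow p G)
    (n : ℕ) (M : Fin (n + 1) → Subgroup G) (h0 : M 0 = ⊥) (hn : M (Fin.last n) = ⊤) (hmono : Monotone M)
    (hnormal : ∀ i, (M i).Normal)
    (hfac : ∀ i : Fin n, (∃ m : ℕ, (M i.castSucc).relIndex (M i.succ) = p ^ m) ∨ ((M i.castSucc).relIndex (M i.succ)).Coprime p) :
    Nat.card {g : G // ((H).subgroupOf (H ⊔ Subgroup.zpowers g)).IsSubnormal} =
      Nat.card (P : Subgroup G) *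
        ∏ i : Fin n, (if ((M i.castSucc).relIndex (M i.succ)).Coprime p then
          Nat.card {u : G // u ∈ M i.succ ∧ ∀ h ∈ H, h * u * h⁻¹ * u⁻¹ ∈ M i.castSucc} / Nat.card (M i.castSucc)
          else 1) := by
  exact main p H hH P n M h0 hn hmono hnormal hfac

end Cfsg.Agent.S4090
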