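import Cfsg.Statements.S4091
import Cfsg.Agent.Lib.PGroups.PElem4
import Cfsg.Agent.Lib.Coprime.PSolvable
import Cfsg.Agent.Lib.PGroups.CycP2
import Cfsg.Agent.Lib.Basic.Core

set_option autoImplicit false
open Cfsg

namespace Cfsg.Agent.S4091

section aux

open Subgroup Cfsg.Agent.Lib.Basic Cfsg.Agent.Lib.PGroups Cfsg.Agent.Lib.PGroups.PElem
  Cfsg.Agent.Lib.Coprime Cfsg.Agent.Lib.PGroups.CycP

universe u

private theorem isPSolvable_sub {p : ℕ} [hp : Fact p.Prime] {G : Type*} [Group G] [Finite G]
    (h : IsPSolvable p G) (I : Subgroup G) : IsPSolvable p I := by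
  obtain ⟨n, H, h0, hl, hm, hn, hs⟩ := h
  refine ⟨n, fun i => (H i).subgroupOf I, ?_, ?_, fun i j hij => Subgroup.subgroupOf_mono I (hm hij),
    fun i => ?_, fun i => ?_⟩
  · show (H 0).subgroupOf I = ⊥
    rw [h0, Subgroup.bot_subgroupOf]
  · show (H (Fin.last n)).subgroupOf I = ⊤
    rw [hl, Subgroup.top_subgroupOf]
  · haveI := hn i
    exact Subgroup.normal_subgroupOf
  · have hle : H i.castSucc ≤ H i.succ := hm (Fin.castSucc_lt_succ).le
    haveI hAn := hn i.castSucc
    have hd : ((H i.castSucc).subgroupOf I).relIndex ((H i.succ).subgroupOf I) ∣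
        (H i.castSucc).relIndex (H i.succ) := by
      have h1 : ((H i.castSucc).subgroupOf I).relIndex ((H i.succ).subgroupOf I) =
          (H i.castSucc).relIndex (H i.succ ⊓ I) := by
        have h2 : (H i.castSucc).subgroupOf I = (H i.castSucc ⊓ I).subgroupOf I := by
          rw [Subgroup.inf_subgroupOf_right]
        have h3 : (H i.succ).subgroupOf I = (H i.succ ⊓ I).subgroupOf I := by
          rw [Subgroup.inf_subgroupOf_right]
        rw [h2, h3, Subgroup.relIndex_subgroupOf (inf_le_right : H i.succ ⊓ I ≤ I)]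
        have h4 : H i.castSucc ⊓ I = H i.castSucc ⊓ (H i.succ ⊓ I) := by
          rw [← inf_assoc, inf_eq_left.mpr hle]
        rw [h4, Subgroup.inf_relIndex_right]
      rw [h1, ← Subgroup.relIndex_sup_left]
      have h5 : H i.castSucc ⊔ (H i.succ ⊓ I) ≤ H i.succ := sup_le hle inf_le_left
      rw [← Subgroup.relIndex_mul_relIndex _ _ _ (le_sup_left : H i.castSucc ≤ H i.castSucc ⊔ (H i.succ ⊓ I)) h5]
      exact dvd_mul_right _ _
    rcases hs i with ⟨m, hm'⟩ | hc
    · left
      rw [hm'] at hd
      obtain ⟨k, -, hk⟩ := (Nat.dvd_prime_pow hp.out).mp hd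
      exact ⟨k, hk⟩
    · right
      exact Nat.Coprime.coprime_dvd_left hd hc

private theorem pe_mk_iff {G : Type*} [Group G] [Finite G] {p : ℕ} [hp : Fact p.Prime]
    (N : Subgroup G) [hN : N.Normal] (hNp : IsPGroup p N) (g : G) :
    PE p g ↔ PE p ((g : G) : G ⧸ N) := by
  constructor
  · rintro ⟨k, hk⟩
    have h1 : orderOf ((g : G) : G ⧸ N) ∣ p ^ k := by
      rw [← hk]
      exact orderOf_map_dvd (QuotientGroup.mk' N) g
    obtain ⟨j, -, hj⟩ := (Nat.dvd_prime_pow hp.out).mp h1
    exact ⟨j, hj⟩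
  · rintro ⟨k, hk⟩
    have h1 : ((g ^ p ^ k : G) : G ⧸ N) = 1 := by
      rw [QuotientGroup.mk_pow, ← hk, pow_orderOf_eq_one]
    have h2 : g ^ p ^ k ∈ N := (QuotientGroup.eq_one_iff _).mp h1
    obtain ⟨j, hj⟩ := hNp ⟨_, h2⟩
    have h3 : g ^ p ^ (k + j) = 1 := by
      have := congrArg Subtype.val hj
      simp only [Subgroup.coe_pow, Subgroup.coe_one] at this
      rw [pow_add, pow_mul]
      exact this
    obtain ⟨i, -, hi⟩ := (Nat.dvd_prime_pow hp.out).mp (orderOf_dvd_of_pow_eq_one h3)
    exact ⟨i, hi⟩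

private theorem quot_step {G : Type u} [Group G] [Finite G] {p : ℕ} [hp : Fact p.Prime]
    (N : Subgroup G) [hN : N.Normal] (hNp : IsPGroup p N)
    (ih : ∀ P : Sylow p (G ⧸ N), Nat.card (P : Subgroup (G ⧸ N)) ^ p * Nat.card (Sylow p (G ⧸ N)) ^ (p - 1) ≤
      Nat.card {g : G ⧸ N // PE p g} ^ p)
    (P : Sylow p G) : Nat.card (P : Subgroup G) ^ p * Nat.card (Sylow p G) ^ (p - 1) ≤
      Nat.card {g : G // PE p g} ^ p := by
  classical
  have hf : Function.Surjective (QuotientGroup.mk' N) := QuotientGroup.mk'_surjective N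
  have hNP : ∀ S : Sylow p G, N ≤ S := fun S => normal_pGroup_le_sylow hN hNp S
  have h1 : Nat.card (P : Subgroup G) = Nat.card ((P.mapSurjective hf : Sylow p (G ⧸ N)) : Subgroup (G ⧸ N)) * Nat.card N := by
    have := card_eq_map_mul_inf (QuotientGroup.mk' N) (P : Subgroup G)
    rw [QuotientGroup.ker_mk', inf_eq_right.mpr (hNP P)] at this
    rw [this, Sylow.coe_mapSurjective]
  have h2 : Nat.card (Sylow p G) = Nat.card (Sylow p (G ⧸ N)) := by
    refine Nat.card_congr (Equiv.ofBijective (fun S => S.mapSurjective hf)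
      ⟨?_, Sylow.mapSurjective_surjective hf p⟩)
    intro S T hST
    apply Sylow.ext
    have h3 := congrArg (fun X : Sylow p (G ⧸ N) => (X : Subgroup (G ⧸ N))) hST
    simp only [Sylow.coe_mapSurjective] at h3
    exact Subgroup.map_injective_of_ker_le _ (by rw [QuotientGroup.ker_mk']; exact hNP S)
      (by rw [QuotientGroup.ker_mk']; exact hNP T) h3
  have h3 : Nat.card {g : G // PE p g} = Nat.card {c : G ⧸ N // PE p c} * Nat.card N := by
    have e : {g : G // PE p g} ≃ {c : G ⧸ N // PE p c} × N :=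
      (Equiv.subtypeEquiv (p := fun g : G => PE p g) (q := fun s : (G ⧸ N) × N => PE p s.1)
        (Subgroup.groupEquivQuotientProdSubgroup (s := N)) (fun g => pe_mk_iff N hNp g)).trans
        Equiv.prodSubtypeFstEquivSubtypeProd
    rw [Nat.card_congr e, Nat.card_prod]
  have h4 := ih (P.mapSurjective hf)
  rw [h1, h2, h3]
  calc (Nat.card ((P.mapSurjective hf : Sylow p (G ⧸ N)) : Subgroup (G ⧸ N)) * Nat.card N) ^ p *
        Nat.card (Sylow p (G ⧸ N)) ^ (p - 1)
      = (Nat.card ((P.mapSurjective hf : Sylow p (G ⧸ N)) : Subgroup (G ⧸ N)) ^ p *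
        Nat.card (Sylow p (G ⧸ N)) ^ (p - 1)) * Nat.card N ^ p := by
        rw [mul_pow]; ring
    _ ≤ Nat.card {g : G ⧸ N // PE p g} ^ p * Nat.card N ^ p := Nat.mul_le_mul_right _ h4
    _ = _ := by rw [mul_pow]

private theorem pprime_step {G : Type u} [Group G] [Finite G] {p : ℕ} [hp : Fact p.Prime]
    (hc : (Nat.card G).Coprime p) (P : Sylow p G) :
    Nat.card (P : Subgroup G) ^ p * Nat.card (Sylow p G) ^ (p - 1) ≤
      Nat.card {g : G // PE p g} ^ p := by
  have hnd : ¬ p ∣ Nat.card G := fun hd => by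
    have : p ∣ 1 := by
      rw [← Nat.Coprime.gcd_eq_one hc]
      exact Nat.dvd_gcd hd dvd_rfl
    exact hp.out.one_lt.ne' (Nat.dvd_one.mp this)
  have h1 : ∀ S : Sylow p G, Nat.card (S : Subgroup G) = 1 := by
    intro S
    rw [S.card_eq_multiplicity, Nat.factorization_eq_zero_of_not_dvd hnd, pow_zero]
  have h2 : Nat.card (Sylow p G) = 1 := by
    haveI : Subsingleton (Sylow p G) := ⟨fun S T => Sylow.ext (by
      rw [(Subgroup.card_eq_one).mp (h1 S), (Subgroup.card_eq_one).mp (h1 T)])⟩
    exact Nat.card_of_subsingleton P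
  rw [h1 P, h2]
  haveI : Nonempty {g : G // PE p g} := ⟨⟨1, 0, by simp⟩⟩
  simpa using Nat.one_le_iff_ne_zero.mpr (pow_ne_zero p (Nat.card_pos (α := {g : G // PE p g})).ne')

private theorem core_step {G : Type u} [Group G] [Finite G] {p : ℕ} [hp : Fact p.Prime]
    (K R Q : Subgroup G) [hKn : K.Normal] [hRn : R.Normal] (hK : (Nat.card K).Coprime p)
    (hQ : IsPGroup p Q) (hQR : Q ≤ R) (hcard : Nat.card R = Nat.card K * Nat.card Q)
    (htop : normalizer (Q : Set G) ⊔ K = ⊤)
    (ih : ∀ P : Sylow p (normalizer (Q : Set G)), Nat.card (P : Subgroup (normalizer (Q : Set G))) ^ p *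
        Nat.card (Sylow p (normalizer (Q : Set G))) ^ (p - 1) ≤
      Nat.card {g : normalizer (Q : Set G) // PE p g} ^ p)
    (P : Sylow p G) : Nat.card (P : Subgroup G) ^ p * Nat.card (Sylow p G) ^ (p - 1) ≤
      Nat.card {g : G // PE p g} ^ p := by
  classical
  set L : Subgroup G := normalizer (Q : Set G) with hL
  obtain ⟨P₀, hQP₀⟩ := hQ.exists_le_sylow
  have hQ₁ : (P₀ : Subgroup G) ⊓ R = Q := by
    symm
    refine Subgroup.eq_of_le_of_card_ge (le_inf hQP₀ hQR) ?_
    have hp₁ : IsPGroup p ↥((P₀ : Subgroup G) ⊓ R) := P₀.2.to_le inf_le_left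
    obtain ⟨a, ha⟩ := IsPGroup.iff_card.mp hp₁
    have h1 : Nat.card ↥((P₀ : Subgroup G) ⊓ R) ∣ Nat.card K * Nat.card Q := by
      rw [← hcard]
      exact Subgroup.card_dvd_of_le inf_le_right
    have h2 : (Nat.card ↥((P₀ : Subgroup G) ⊓ R)).Coprime (Nat.card K) := by
      rw [ha]
      exact (hK.symm).pow_left a
    exact Nat.le_of_dvd Nat.card_pos (h2.dvd_of_dvd_mul_left h1)
  have hNL : normalizer ((P₀ : Subgroup G) : Set G) ≤ L := by
    intro g hg
    rw [hL, Subgroup.mem_normalizer_iff]
    intro h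
    rw [← hQ₁, Subgroup.mem_inf, Subgroup.mem_inf, Subgroup.mem_normalizer_iff.mp hg h]
    refine and_congr_right fun _ => ?_
    constructor
    · intro hh; exact hRn.conj_mem _ hh g
    · intro hh
      have := hRn.conj_mem _ hh g⁻¹
      simpa [mul_assoc] using this
  have hP₀L : (P₀ : Subgroup G) ≤ L := Subgroup.le_normalizer.trans hNL
  set P₁ : Sylow p L := P₀.subtype hP₀L with hP₁
  set m : ℕ := (K ⊓ L).relIndex K with hm
  have hmK : Nat.card K = Nat.card ↥(K ⊓ L) * m := by
    have h1 := Subgroup.card_mul_index ((K ⊓ L).subgroupOf K)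
    have h2 : Nat.card ((K ⊓ L).subgroupOf K) = Nat.card ↥(K ⊓ L) :=
      Nat.card_congr (subgroupOfEquivOfLe inf_le_left).toEquiv
    rw [h2] at h1
    exact h1.symm
  have hGL : Nat.card G = Nat.card L * m := by
    have h1 := card_eq_map_mul_inf (QuotientGroup.mk' K) L
    rw [QuotientGroup.ker_mk', inf_comm] at h1
    have h2 : L.map (QuotientGroup.mk' K) = ⊤ := by
      rw [eq_top_iff]
      intro c _
      obtain ⟨g, rfl⟩ := QuotientGroup.mk_surjective c
      have hg : g ∈ L ⊔ K := by rw [htop]; trivial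
      obtain ⟨l, hl, k, hk, rfl⟩ := Subgroup.mem_sup_of_normal_right.mp hg
      refine ⟨l, hl, ?_⟩
      show ((l : G) : G ⧸ K) = ((l * k : G) : G ⧸ K)
      rw [QuotientGroup.eq]
      simpa using hk
    rw [h2, Subgroup.card_top] at h1
    rw [h1, Subgroup.card_eq_card_quotient_mul_card_subgroup K, hmK]
    ring
  have hNcard : Nat.card (normalizer ((P₁ : Subgroup L) : Set L)) =
      Nat.card (normalizer ((P₀ : Subgroup G) : Set G)) := by
    rw [hP₁, Sylow.coe_subtype, ← Subgroup.subgroupOf_normalizer_eq hP₀L]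
    exact Nat.card_congr (subgroupOfEquivOfLe hNL).toEquiv
  have hn : Nat.card (Sylow p G) = Nat.card (Sylow p L) * m := by
    have h1 := Subgroup.card_mul_index (normalizer ((P₀ : Subgroup G) : Set G))
    have h2 := Subgroup.card_mul_index (normalizer ((P₁ : Subgroup L) : Set L))
    have h1' : Nat.card (Sylow p G) = (normalizer ((P₀ : Subgroup G) : Set G)).index :=
      Sylow.card_eq_index_normalizer P₀
    have h2' : Nat.card (Sylow p L) = (normalizer ((P₁ : Subgroup L) : Set L)).index :=
      Sylow.card_eq_index_normalizer P₁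
    rw [← h1'] at h1
    rw [← h2'] at h2
    rw [hNcard] at h2
    rw [hGL, ← h2] at h1
    have h3 : 0 < Nat.card (normalizer ((P₀ : Subgroup G) : Set G)) := Nat.card_pos
    have h4 : Nat.card (normalizer ((P₀ : Subgroup G) : Set G)) * Nat.card (Sylow p G) =
        Nat.card (normalizer ((P₀ : Subgroup G) : Set G)) * (Nat.card (Sylow p L) * m) := by
      rw [h1]; ring
    exact Nat.eq_of_mul_eq_mul_left h3 h4
  have hcardP : Nat.card (P : Subgroup G) = Nat.card (P₁ : Subgroup L) := by
    rw [P.card_eq_multiplicity, ← P₀.card_eq_multiplicity, hP₁, Sylow.coe_subtype]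
    exact (Nat.card_congr (subgroupOfEquivOfLe hP₀L).toEquiv).symm
  have hc := count_main K Q hK hQ htop m hmK
  have hi := ih P₁
  rw [hcardP, hn, mul_pow]
  calc Nat.card (P₁ : Subgroup L) ^ p * (Nat.card (Sylow p L) ^ (p - 1) * m ^ (p - 1))
      = (Nat.card (P₁ : Subgroup L) ^ p * Nat.card (Sylow p L) ^ (p - 1)) * m ^ (p - 1) := by ring
    _ ≤ Nat.card {g : L // PE p g} ^ p * m ^ (p - 1) := Nat.mul_le_mul_right _ hi
    _ ≤ _ := hc

private theorem main_ind {p : ℕ} [hp : Fact p.Prime] : ∀ (n : ℕ) (G : Type u) [Group G] [Finite G],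
    Nat.card G = n → IsPSolvable p G → ∀ P : Sylow p G,
      Nat.card (P : Subgroup G) ^ p * Nat.card (Sylow p G) ^ (p - 1) ≤
        Nat.card {g : G // PE p g} ^ p := by
  intro n
  induction n using Nat.strong_induction_on with
  | _ n ih =>
    intro G _ _ hn hG P
    classical
    by_cases hN : ∃ N : Subgroup G, N.Normal ∧ N ≠ ⊥ ∧ IsPGroup p N
    · obtain ⟨N, hNn, hN1, hNp⟩ := hN
      haveI := hNn
      refine quot_step N hNp (ih _ ?_ (G ⧸ N) rfl
        (isPSolvable_map (QuotientGroup.mk' N) (QuotientGroup.mk'_surjective N) hG)) P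
      have h1 := Subgroup.card_eq_card_quotient_mul_card_subgroup N
      have h2 : 1 < Nat.card N := (Subgroup.one_lt_card_iff_ne_bot N).mpr hN1
      rw [← hn, h1]
      exact lt_mul_of_one_lt_right Nat.card_pos h2
    · let KK : Set (Subgroup G) := {K | K.Normal ∧ (Nat.card K).Coprime p}
      have hne : KK.Nonempty := ⟨⊥, inferInstance, by simp⟩
      obtain ⟨K, ⟨hKn, hKc⟩, hKmax⟩ := (Set.toFinite KK).exists_maximal hne
      haveI := hKn
      by_cases hKt : K = ⊤
      · refine pprime_step ?_ P
        rw [hKt, Subgroup.card_top] at hKc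
        exact hKc
      haveI : Nontrivial (G ⧸ K) := QuotientGroup.nontrivial_iff.mpr hKt
      obtain ⟨Nb, hNbn, hNb1, hNbc⟩ := IsPSolvable_exists_normal
        (isPSolvable_map (QuotientGroup.mk' K) (QuotientGroup.mk'_surjective K) hG)
      haveI := hNbn
      set R : Subgroup G := Nb.comap (QuotientGroup.mk' K) with hR
      haveI hRn : R.Normal := Subgroup.Normal.comap hNbn _
      have hcardR : Nat.card R = Nat.card K * Nat.card Nb := card_comap_mk K Nb
      have hKR : K ≤ R := by
        intro k hk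
        show ((k : G) : G ⧸ K) ∈ Nb
        rw [(QuotientGroup.eq_one_iff k).mpr hk]
        exact one_mem _
      have hNb1' : 1 < Nat.card Nb := (Subgroup.one_lt_card_iff_ne_bot Nb).mpr hNb1
      rcases hNbc with hNbp | hNbc
      · -- the `p`-group case
        obtain ⟨a, ha⟩ := IsPGroup.iff_card.mp hNbp
        obtain ⟨Q₀⟩ : Nonempty (Sylow p R) := inferInstance
        set Q : Subgroup G := (Q₀ : Subgroup R).map R.subtype with hQdef
        have hQR : Q ≤ R := Subgroup.map_subtype_le _
        have hQp : IsPGroup p Q := Q₀.2.map _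
        have hnd : ¬ p ∣ Nat.card K := fun hd => by
          have : p ∣ 1 := by
            rw [← Nat.Coprime.gcd_eq_one hKc]
            exact Nat.dvd_gcd hd dvd_rfl
          exact hp.out.one_lt.ne' (Nat.dvd_one.mp this)
        have hQcard : Nat.card Q = Nat.card Nb := by
          have h1 : Nat.card Q = Nat.card (Q₀ : Subgroup R) :=
            Subgroup.card_map_of_injective R.subtype_injective
          rw [h1, Q₀.card_eq_multiplicity, hcardR, ha]
          rw [Nat.factorization_mul Nat.card_pos.ne' (pow_ne_zero _ hp.out.ne_zero),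
            Nat.Prime.factorization_pow hp.out]
          simp [Nat.factorization_eq_zero_of_not_dvd hnd]
        have hdisj : ∀ q ∈ Q, q ∈ K → q = 1 := by
          intro q hq hqK
          obtain ⟨k, hk⟩ := hQp ⟨q, hq⟩
          have hk' : q ^ p ^ k = 1 := by
            have := congrArg Subtype.val hk
            simpa using this
          exact eq_one_of_mem_of_pow_eq_one hKc hqK hk'
        have hQK : Q ⊓ K = ⊥ := by
          rw [eq_bot_iff]
          intro q hq
          exact Subgroup.mem_bot.mpr (hdisj q hq.1 hq.2)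
        have hmapQ : Q.map (QuotientGroup.mk' K) = Nb := by
          refine Subgroup.eq_of_le_of_card_ge ?_ ?_
          · rintro _ ⟨q, hq, rfl⟩
            exact hQR hq
          · have h1 := card_eq_map_mul_inf (QuotientGroup.mk' K) Q
            rw [QuotientGroup.ker_mk', hQK, Subgroup.card_bot, mul_one] at h1
            rw [← h1, hQcard]
        have hRle : R ≤ Q ⊔ K := by
          intro r hr
          have h1 : ((r : G) : G ⧸ K) ∈ Q.map (QuotientGroup.mk' K) := by
            rw [hmapQ]; exact hr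
          obtain ⟨q, hq, hqr⟩ := h1
          have h2 : q⁻¹ * r ∈ K := QuotientGroup.eq.mp hqr
          have h3 : r = q * (q⁻¹ * r) := by group
          rw [h3]
          exact mul_mem ((le_sup_left : Q ≤ _) hq) ((le_sup_right : K ≤ _) h2)
        have htop : normalizer (Q : Set G) ⊔ K = ⊤ := by
          have h1 : normalizer (Q : Set G) ⊔ R = ⊤ := Sylow.normalizer_sup_eq_top Q₀
          rw [eq_top_iff, ← h1]
          refine sup_le le_sup_left (hRle.trans (sup_le ?_ le_sup_right))
          exact Subgroup.le_normalizer.trans le_sup_left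
        have hQ1 : Q ≠ ⊥ := by
          intro h
          rw [← Subgroup.card_le_one_iff_eq_bot] at h
          rw [hQcard] at h
          omega
        have hLne : normalizer (Q : Set G) ≠ ⊤ := by
          intro h
          apply hN
          exact ⟨Q, Subgroup.normalizer_eq_top_iff.mp h, hQ1, hQp⟩
        have hlt : Nat.card (normalizer (Q : Set G)) < n := by
          rw [← hn]
          refine lt_of_le_of_ne (Nat.card_le_card_of_injective _ Subtype.coe_injective) ?_
          intro h
          exact hLne (Subgroup.eq_top_of_card_eq _ h)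
        refine core_step K R Q hKc hQp hQR ?_ htop
          (ih _ hlt _ rfl (isPSolvable_sub hG _)) P
        rw [hcardR, hQcard]
      · -- the `p'`-case is impossible
        exfalso
        have hRc : (Nat.card R).Coprime p := by
          rw [hcardR]
          exact Nat.Coprime.mul_left hKc hNbc
        have hRK := hKmax ⟨hRn, hRc⟩ hKR
        apply hNb1
        rw [eq_bot_iff]
        intro c hc
        obtain ⟨g, rfl⟩ := QuotientGroup.mk_surjective c
        have : g ∈ K := hRK hc
        exact Subgroup.mem_bot.mpr ((QuotientGroup.eq_one_iff g).mpr this)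

end aux


/-- Let G be a finite p-solvable group, P a Sylow p-subgroup of G, u the number of p-elements of G (elements of p-power order, the identity included) and n the number of Sylow p-subgroups of G. Then u/#P ≥ n^((p−1)/p), stated as u^p ≥ #P^p · n^(p−1). -/
theorem result {G : Type*} [Group G] [Finite G] (p : ℕ) [Fact p.Prime]
    (hG : Cfsg.IsPSolvable p G) (P : Sylow p G) :
    Nat.card (P : Subgroup G) ^ p * Nat.card (Sylow p G) ^ (p - 1) ≤ Nat.card {g : G // ∃ k : ℕ, orderOf g = p ^ k} ^ p := by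
  exact main_ind _ G rfl hG P

end Cfsg.Agent.S4091
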