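import Cfsg.Statements.S4092
import Mathlib
import Cfsg.Agent.Lib.PGroups.Parts

set_option autoImplicit false
open Cfsg

namespace Cfsg.Agent.S4092

open Subgroup

private def pelt (p : ℕ) {G : Type*} [Group G] (g : G) : Prop := ∃ k : ℕ, orderOf g = p ^ k

private theorem pelt_iff {p : ℕ} [Fact p.Prime] {G : Type*} [Group G] {g : G} :
    pelt p g ↔ ∃ k : ℕ, g ^ p ^ k = 1 :=
  Cfsg.Agent.Lib.PGroups.exists_pow_eq_one_iff_orderOf.symm

private theorem pelt_of_mem {p : ℕ} [Fact p.Prime] {G : Type*} [Group G] {R : Subgroup G}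
    (hR : IsPGroup p R) {g : G} (hg : g ∈ R) : pelt p g := by
  obtain ⟨k, hk⟩ := hR ⟨g, hg⟩
  exact pelt_iff.mpr ⟨k, by simpa [Subtype.ext_iff] using hk⟩

private theorem ncard_split {G : Type*} [Finite G] (A B : Set G) (h : B ⊆ A) :
    A.ncard = B.ncard + (A \ B).ncard := by
  have := Set.ncard_diff_add_ncard_of_subset h (Set.toFinite A)
  omega

private theorem exists_growth {G : Type*} [Group G] [Finite G] {p : ℕ} [Fact p.Prime]
    {D R : Subgroup G} (hR : IsPGroup p R) (hDR : D < R) :
    ∃ r ∈ R, r ∉ D ∧ r ∈ normalizer (D : Set G) := by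
  haveI : Group.IsNilpotent R := hR.isNilpotent
  have hne : D.subgroupOf R < ⊤ := by
    rw [lt_top_iff_ne_top]
    intro h
    rw [Subgroup.subgroupOf_eq_top] at h
    exact absurd h (not_le_of_gt hDR)
  have hgrow := Group.normalizerCondition_of_isNilpotent (G := R) (D.subgroupOf R) hne
  obtain ⟨⟨r, hr⟩, hr1, hr2⟩ := SetLike.exists_of_lt hgrow
  refine ⟨r, hr, ?_, ?_⟩
  · intro hrD
    exact hr2 (by simpa [Subgroup.mem_subgroupOf] using hrD)
  · apply Cfsg.Agent.Lib.PGroups.mem_normalizer_of_conj_le'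
    intro w hw
    have hw' : (⟨w, hDR.le hw⟩ : R) ∈ D.subgroupOf R := by simpa [Subgroup.mem_subgroupOf] using hw
    have := (Subgroup.mem_normalizer_iff.mp hr1 ⟨w, hDR.le hw⟩).mp hw'
    simpa [Subgroup.mem_subgroupOf] using this

private def conjS {G : Type*} [Group G] (z : G) (H : Subgroup G) : Subgroup G :=
  H.map (MulAut.conj z).toMonoidHom

private theorem mem_conjS {G : Type*} [Group G] {z x : G} {H : Subgroup G} :
    x ∈ conjS z H ↔ z⁻¹ * x * z ∈ H := by
  constructor
  · rintro ⟨w, hw, rfl⟩
    simpa [mul_assoc] using hw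
  · intro h
    refine ⟨_, h, ?_⟩
    simp [mul_assoc]

private theorem mem_normalizer_conj {G : Type*} [Group G] {z y : G} {H : Subgroup G}
    (hy : y ∈ normalizer (H : Set G)) : z * y * z⁻¹ ∈ normalizer ((conjS z H : Subgroup G) : Set G) := by
  rw [Subgroup.mem_normalizer_iff] at hy ⊢
  intro h
  rw [mem_conjS, mem_conjS]
  have := hy (z⁻¹ * h * z)
  rw [this]
  have e : z⁻¹ * (z * y * z⁻¹ * h * (z * y * z⁻¹)⁻¹) * z = y * (z⁻¹ * h * z) * y⁻¹ := by group
  rw [e]

private theorem mem_normalizer_sup {G : Type*} [Group G] [Finite G] {y : G} {A B : Subgroup G}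
    (hA : y ∈ normalizer (A : Set G)) (hB : y ∈ normalizer (B : Set G)) :
    y ∈ normalizer ((A ⊔ B : Subgroup G) : Set G) := by
  apply Cfsg.Agent.Lib.PGroups.mem_normalizer_of_conj_le'
  have hle : (A ⊔ B).map (MulAut.conj y).toMonoidHom ≤ A ⊔ B := by
    rw [Subgroup.map_sup]
    apply sup_le
    · rintro _ ⟨w, hw, rfl⟩
      exact Subgroup.mem_sup_left ((Subgroup.mem_normalizer_iff.mp hA w).mp hw)
    · rintro _ ⟨w, hw, rfl⟩
      exact Subgroup.mem_sup_right ((Subgroup.mem_normalizer_iff.mp hB w).mp hw)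
  intro w hw
  exact hle ⟨w, hw, rfl⟩

private theorem case_sub {G : Type*} [Group G] [Finite G] {p : ℕ} [Fact p.Prime] (R : Subgroup G)
    (hRp : IsPGroup p R) (D : Subgroup G) (hDR : D ≤ R)
    (hmaxR : ∀ E : Subgroup G, IsPGroup p E → D < E ⊓ R → E ≤ R)
    (h : p * Nat.card (R.subgroupOf (normalizer (D : Set G))) ≤
      {g : normalizer (D : Set G) | pelt p g}.ncard) :
    p * Nat.card R ≤ {g : G | pelt p g}.ncard := by
  classical
  set M := normalizer (D : Set G) with hM
  have hcardP1 : Nat.card (R.subgroupOf M) = Nat.card (R ⊓ M : Subgroup G) := by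
    rw [← Subgroup.subgroupOf_map_subtype]
    exact (Subgroup.card_map_of_injective Subtype.val_injective).symm
  let Y : Set G := {g | g ∈ M ∧ pelt p g ∧ g ∉ R}
  have hAM : {g : M | pelt p g}.ncard = Nat.card (R ⊓ M : Subgroup G) + Y.ncard := by
    have h1 : {g : M | pelt p g}.ncard = (Subtype.val '' {g : M | pelt p g}).ncard :=
      (Set.ncard_image_of_injective _ Subtype.val_injective).symm
    have h2 : Subtype.val '' {g : M | pelt p g} = {g : G | g ∈ M ∧ pelt p g} := by
      ext g
      constructor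
      · rintro ⟨⟨x, hx⟩, hx2, rfl⟩
        refine ⟨hx, ?_⟩
        obtain ⟨k, hk⟩ := hx2
        exact ⟨k, by rw [Subgroup.orderOf_mk] at hk; exact hk⟩
      · rintro ⟨hx, k, hk⟩
        exact ⟨⟨g, hx⟩, ⟨k, by rw [Subgroup.orderOf_mk]; exact hk⟩, rfl⟩
    have e1 : (((R ⊓ M : Subgroup G) : Set G)).ncard = Nat.card (R ⊓ M : Subgroup G) := by
      rw [← Nat.card_coe_set_eq]; rfl
    have e2 : {g : G | g ∈ M ∧ pelt p g} \ ((R ⊓ M : Subgroup G) : Set G) = Y := by
      ext g
      constructor
      · rintro ⟨⟨h1, h2⟩, h3⟩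
        exact ⟨h1, h2, fun hR => h3 ⟨hR, h1⟩⟩
      · rintro ⟨h1, h2, h3⟩
        exact ⟨⟨h1, h2⟩, fun hR => h3 hR.1⟩
    rw [h1, h2, ncard_split {g : G | g ∈ M ∧ pelt p g} ((R ⊓ M : Subgroup G) : Set G), e1, e2]
    intro g hg
    exact ⟨hg.2, pelt_of_mem hRp hg.1⟩
  -- the transversal
  let T := (R ⧸ (M.subgroupOf R))
  have hT : Nat.card T * Nat.card (R ⊓ M : Subgroup G) = Nat.card R := by
    have h1 := Subgroup.card_eq_card_quotient_mul_card_subgroup (M.subgroupOf R)
    rw [h1]
    congr 1
    rw [inf_comm, ← Subgroup.subgroupOf_map_subtype]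
    exact (Subgroup.card_map_of_injective Subtype.val_injective)
  let Z : Set G := {g : G | pelt p g} \ (R : Set G)
  have hinj : Nat.card T * Y.ncard ≤ Z.ncard := by
    let Φ : T × Y → Z := fun x => ⟨((x.1.out : R) : G) * x.2.1 * ((x.1.out : R) : G)⁻¹, by
      have hy := x.2.2
      constructor
      · obtain ⟨k, hk⟩ := hy.2.1
        refine ⟨k, ?_⟩
        rw [← hk]
        exact Cfsg.Agent.Lib.PGroups.orderOf_conj_eq _ _
      · intro hin
        apply hy.2.2
        have hx : ((x.1.out : R) : G) ∈ R := (x.1.out : R).2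
        have : (x.2.1 : G) = ((x.1.out : R) : G)⁻¹ * (((x.1.out : R) : G) * x.2.1 * ((x.1.out : R) : G)⁻¹) * ((x.1.out : R) : G) := by group
        rw [this]
        exact mul_mem (mul_mem (inv_mem hx) hin) hx⟩
    have hΦ : Function.Injective Φ := by
      rintro ⟨t, y⟩ ⟨t', y'⟩ heq
      have heq' := congrArg Subtype.val heq
      simp only [Φ] at heq'
      set x : G := ((t.out : R) : G) with hx
      set x' : G := ((t'.out : R) : G) with hx'
      have hxR : x ∈ R := (t.out : R).2
      have hx'R : x' ∈ R := (t'.out : R).2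
      let z : G := x⁻¹ * x'
      have hzR : z ∈ R := mul_mem (inv_mem hxR) hx'R
      have hy : (y : G) = z * y' * z⁻¹ := by
        simp only [z]
        have : (y : G) = x⁻¹ * (x * y * x⁻¹) * x := by group
        rw [this, heq']
        group
      -- `z` normalizes `D`
      have hzM : z ∈ M := by
        by_contra hz
        have hy1 : (y : G) ∈ normalizer ((conjS z D : Subgroup G) : Set G) := by
          rw [hy]
          exact mem_normalizer_conj y'.2.1
        let E : Subgroup G := D ⊔ conjS z D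
        have hyE : (y : G) ∈ normalizer (E : Set G) := mem_normalizer_sup y.2.1 hy1
        have hER : E ≤ R := by
          apply sup_le hDR
          intro w hw
          rw [mem_conjS] at hw
          have := hDR hw
          have h2 : w = z * (z⁻¹ * w * z) * z⁻¹ := by group
          rw [h2]
          exact mul_mem (mul_mem hzR this) (inv_mem hzR)
        have hEp : IsPGroup p E := hRp.to_le hER
        have hyp : IsPGroup p (zpowers (y : G)) := by
          rw [Cfsg.Agent.Lib.PGroups.isPGroup_zpowers_iff]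
          exact y.2.2.1
        have hF : IsPGroup p (E ⊔ zpowers (y : G) : Subgroup G) :=
          hEp.to_sup_of_normal_left' hyp (by
            rw [Subgroup.zpowers_le]
            exact hyE)
        have hDE : D < (E ⊔ zpowers (y : G)) ⊓ R := by
          rw [lt_iff_le_not_ge]
          constructor
          · exact le_inf (le_trans le_sup_left le_sup_left) hDR
          · intro hle
            apply hz
            apply Cfsg.Agent.Lib.PGroups.mem_normalizer_of_conj_le'
            intro w hw
            apply hle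
            refine Subgroup.mem_inf.mpr ⟨Subgroup.mem_sup_left (Subgroup.mem_sup_right (mem_conjS.mpr ?_)), ?_⟩
            · have : z⁻¹ * (z * w * z⁻¹) * z = w := by group
              rw [this]; exact hw
            · exact mul_mem (mul_mem hzR (hDR hw)) (inv_mem hzR)
        have hle := hmaxR _ hF hDE
        exact y.2.2.2 (hle (Subgroup.mem_sup_right (mem_zpowers _)))
      -- hence `t = t'`
      have htt : t = t' := by
        have : (QuotientGroup.mk (t.out : R) : T) = QuotientGroup.mk (t'.out : R) := by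
          rw [QuotientGroup.eq]
          rw [Subgroup.mem_subgroupOf]
          simpa using hzM
        have h1 : (QuotientGroup.mk (t.out : R) : T) = t := Quotient.out_eq' t
        have h2 : (QuotientGroup.mk (t'.out : R) : T) = t' := Quotient.out_eq' t'
        rw [← h1, ← h2, this]
      subst htt
      congr 1
      apply Subtype.ext
      have : x = x' := rfl
      have hz1 : z = 1 := by simp [z, this]
      rw [hz1] at hy
      simpa using hy
    have := Nat.card_le_card_of_injective Φ hΦ
    rw [Nat.card_prod, Nat.card_coe_set_eq, Nat.card_coe_set_eq] at this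
    exact this
  have htotal := ncard_split {g : G | pelt p g} (R : Set G) (fun g hg => pelt_of_mem hRp hg)
  have hRc : ((R : Set G)).ncard = Nat.card R := by rw [← Nat.card_coe_set_eq]; rfl
  rw [htotal, hRc]
  rw [hcardP1, hAM] at h
  have hZ : Z = {g : G | pelt p g} \ (R : Set G) := rfl
  rw [← hZ]
  calc p * Nat.card R = Nat.card T * (p * Nat.card (R ⊓ M : Subgroup G)) := by
        rw [← hT]; ring
    _ ≤ Nat.card T * (Nat.card (R ⊓ M : Subgroup G) + Y.ncard) := Nat.mul_le_mul_left _ h
    _ = Nat.card R + Nat.card T * Y.ncard := by rw [mul_add, hT]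
    _ ≤ Nat.card R + Z.ncard := by omega

private theorem case_quot {G : Type*} [Group G] [Finite G] {p : ℕ} [Fact p.Prime] (D R : Subgroup G)
    [D.Normal] (hDp : IsPGroup p D) (hDR : D ≤ R)
    (h : p * Nat.card (R.map (QuotientGroup.mk' D)) ≤ {g : G ⧸ D | pelt p g}.ncard) :
    p * Nat.card R ≤ {g : G | pelt p g}.ncard := by
  classical
  have hpre : ∀ X : Set (G ⧸ D), ((QuotientGroup.mk : G → G ⧸ D) ⁻¹' X).ncard = Nat.card D * X.ncard := by
    intro X
    rw [← Nat.card_coe_set_eq, Nat.card_congr (QuotientGroup.preimageMkEquivSubgroupProdSet D X),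
      Nat.card_prod, Nat.card_coe_set_eq]
  have h1 : {g : G | pelt p g} = (QuotientGroup.mk : G → G ⧸ D) ⁻¹' {g : G ⧸ D | pelt p g} := by
    ext g
    simp only [Set.mem_preimage, Set.mem_ofPred_eq]
    constructor
    · intro hg
      obtain ⟨k, hk⟩ := pelt_iff.mp hg
      exact pelt_iff.mpr ⟨k, by rw [← QuotientGroup.mk_pow, hk]; rfl⟩
    · intro hg
      obtain ⟨k, hk⟩ := pelt_iff.mp hg
      rw [← QuotientGroup.mk_pow, QuotientGroup.eq_one_iff] at hk
      obtain ⟨j, hj⟩ := hDp ⟨_, hk⟩
      refine pelt_iff.mpr ⟨k + j, ?_⟩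
      rw [pow_add, pow_mul]
      simpa [Subtype.ext_iff] using hj
  have h2 : (R : Set G) = (QuotientGroup.mk : G → G ⧸ D) ⁻¹' ((R.map (QuotientGroup.mk' D) : Subgroup (G ⧸ D)) : Set (G ⧸ D)) := by
    ext g
    constructor
    · intro hg
      exact ⟨g, hg, rfl⟩
    · rintro ⟨x, hx, hxg⟩
      have hxg' : (x : G ⧸ D) = (g : G ⧸ D) := hxg
      rw [QuotientGroup.eq] at hxg'
      have : g = x * (x⁻¹ * g) := by group
      rw [this]
      exact mul_mem hx (hDR hxg')
  have h3 : Nat.card R = Nat.card D * Nat.card (R.map (QuotientGroup.mk' D)) := by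
    have e : Nat.card R = ((R : Set G)).ncard := by rw [← Nat.card_coe_set_eq]; rfl
    rw [e, h2, hpre, ← Nat.card_coe_set_eq]
    rfl
  rw [h1, hpre, h3]
  calc p * (Nat.card D * Nat.card (R.map (QuotientGroup.mk' D)))
      = Nat.card D * (p * Nat.card (R.map (QuotientGroup.mk' D))) := by ring
    _ ≤ _ := Nat.mul_le_mul_left _ h

private theorem case_ti {G : Type*} [Group G] [Finite G] {p : ℕ} [Fact p.Prime] (R Q : Sylow p G)
    (hne : R ≠ Q) (hti : ∀ R' Q' : Sylow p G, R' ≠ Q' → (R' : Subgroup G) ⊓ Q' = ⊥) :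
    p * Nat.card (R : Subgroup G) ≤ {g : G | pelt p g}.ncard := by
  classical
  haveI := Fintype.ofFinite G
  haveI := Fintype.ofFinite (Sylow p G)
  have hp : p.Prime := Fact.out
  -- number of Sylows
  have hn : p + 1 ≤ Nat.card (Sylow p G) := by
    have h1 : Nat.card (Sylow p G) ≡ 1 [MOD p] := card_sylow_modEq_one p G
    have h2 : 1 < Nat.card (Sylow p G) := Finite.one_lt_card_iff_nontrivial.mpr ⟨⟨R, Q, hne⟩⟩
    have h3 : p ∣ Nat.card (Sylow p G) - 1 := (Nat.modEq_iff_dvd' h2.le).mp h1.symm
    have := Nat.le_of_dvd (by omega) h3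
    omega
  have hcardeq : ∀ R' : Sylow p G, Nat.card (R' : Subgroup G) = Nat.card (R : Subgroup G) := by
    intro R'
    rw [Sylow.card_eq_multiplicity, Sylow.card_eq_multiplicity]
  -- |R| ≥ p
  have hRp : p ≤ Nat.card (R : Subgroup G) := by
    obtain ⟨k, hk⟩ := IsPGroup.iff_card.mp R.isPGroup'
    rw [hk]
    rcases Nat.eq_zero_or_pos k with h0 | h0
    · exfalso
      subst h0
      rw [pow_zero] at hk
      have hQ1 := hcardeq Q
      rw [hk] at hQ1
      apply hne
      apply Sylow.ext
      rw [(Subgroup.card_eq_one.mp hk), (Subgroup.card_eq_one.mp hQ1)]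
    · calc p = p ^ 1 := (pow_one p).symm
        _ ≤ p ^ k := Nat.pow_le_pow_right hp.pos h0
  let t : Sylow p G → Finset G := fun R' => Finset.univ.filter (fun g => g ∈ (R' : Subgroup G) ∧ g ≠ 1)
  have htc : ∀ R', (t R').card + 1 = Nat.card (R : Subgroup G) := by
    intro R'
    rw [← hcardeq R']
    have : Nat.card (R' : Subgroup G) = (Finset.univ.filter (fun g => g ∈ (R' : Subgroup G))).card := by
      rw [Nat.card_eq_fintype_card, Fintype.card_subtype]
    rw [this]
    have h1 : Finset.univ.filter (fun g => g ∈ (R' : Subgroup G)) = insert 1 (t R') := by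
      ext g
      simp only [t, Finset.mem_filter, Finset.mem_univ, true_and, Finset.mem_insert]
      constructor
      · intro hg
        by_cases hg1 : g = 1
        · exact Or.inl hg1
        · exact Or.inr ⟨hg, hg1⟩
      · rintro (rfl | hg)
        · exact one_mem _
        · exact hg.1
    rw [h1, Finset.card_insert_of_notMem]
    simp [t]
  let S := Finset.univ.erase R
  have hdisj : ∀ a ∈ S, ∀ b ∈ S, a ≠ b → Disjoint (t a) (t b) := by
    intro a _ b _ hab
    rw [Finset.disjoint_left]
    intro g hga hgb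
    simp only [t, Finset.mem_filter, Finset.mem_univ, true_and] at hga hgb
    have := hti a b hab
    have hg : g ∈ (a : Subgroup G) ⊓ b := ⟨hga.1, hgb.1⟩
    rw [this] at hg
    exact hga.2 (Subgroup.mem_bot.mp hg)
  have hU : (S.biUnion t).card = ∑ a ∈ S, (t a).card := Finset.card_biUnion hdisj
  have hU2 : ∑ a ∈ S, (t a).card = S.card * (Nat.card (R : Subgroup G) - 1) := by
    rw [Finset.sum_congr rfl (fun a _ => (by have := htc a; omega : (t a).card = Nat.card (R : Subgroup G) - 1))]
    simp
  have hS : S.card = Nat.card (Sylow p G) - 1 := by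
    rw [Finset.card_erase_of_mem (Finset.mem_univ _), Finset.card_univ, Nat.card_eq_fintype_card]
  have hsub : ((S.biUnion t : Finset G) : Set G) ⊆ {g : G | pelt p g} \ (R : Set G) := by
    intro g hg
    simp only [S, t, Finset.coe_biUnion, Set.mem_iUnion, Finset.mem_coe, Finset.mem_erase, Finset.mem_filter,
      Finset.mem_univ, true_and, ne_eq, and_true, exists_prop] at hg
    obtain ⟨a, ha, hga, hg1⟩ := hg
    refine ⟨pelt_of_mem a.isPGroup' hga, fun hgR => hg1 ?_⟩
    have := hti a R ha
    have hg : g ∈ (a : Subgroup G) ⊓ R := ⟨hga, hgR⟩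
    rw [this] at hg
    exact Subgroup.mem_bot.mp hg
  have hZ : (S.biUnion t).card ≤ ({g : G | pelt p g} \ (R : Set G)).ncard := by
    rw [← Set.ncard_coe_finset]
    exact Set.ncard_le_ncard hsub (Set.toFinite _)
  have htotal := ncard_split {g : G | pelt p g} (R : Set G) (fun g hg => pelt_of_mem R.isPGroup' hg)
  have hRc : ((R : Set G)).ncard = Nat.card (R : Subgroup G) := by
    rw [← Nat.card_coe_set_eq]; rfl
  rw [htotal, hRc]
  rw [hU, hU2, hS] at hZ
  set r := Nat.card (R : Subgroup G) with hr
  have h4 : p * (r - 1) ≤ (Nat.card (Sylow p G) - 1) * (r - 1) :=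
    Nat.mul_le_mul_right _ (by omega)
  have h5 : p * r = p * (r - 1) + p := by
    obtain ⟨r', hr'⟩ : ∃ r', r = r' + 1 := ⟨r - 1, by have := hp.pos; omega⟩
    rw [hr']; simp; ring
  omega

private theorem card_lt' {G : Type*} [Group G] [Finite G] {A B : Subgroup G} (h : A < B) :
    Nat.card A < Nat.card B := by
  have := Set.ncard_lt_ncard (SetLike.coe_ssubset_coe.mpr h) (Set.toFinite _)
  rwa [← Nat.card_coe_set_eq, ← Nat.card_coe_set_eq] at this

private theorem eq_of_normal' {G : Type*} [Group G] [Finite G] {p : ℕ} [Fact p.Prime]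
    (R : Sylow p G) (h : (R : Subgroup G).Normal) (Q : Sylow p G) : Q = R := by
  obtain ⟨g, hg⟩ := MulAction.exists_smul_eq G R Q
  haveI : (R : Subgroup G).Normal := h
  rw [← hg]
  exact Sylow.smul_eq_of_normal

universe u

private theorem aux (p : ℕ) [Fact p.Prime] : ∀ (n : ℕ) (G : Type u) [Group G] [Finite G] (P : Sylow p G),
    Nat.card G = n → ¬ (P : Subgroup G).Normal →
      p * Nat.card (P : Subgroup G) ≤ {g : G | pelt p g}.ncard := by
  intro n
  induction n using Nat.strong_induction_on with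
  | _ n ih =>
  intro G _ _ P hcard hP
  classical
  have hp : p.Prime := Fact.out
  -- not a subsingleton
  have hns : ¬ Subsingleton (Sylow p G) := fun h => hP (Sylow.normal_of_subsingleton P)
  obtain ⟨R₀, Q₀, hRQ₀⟩ : ∃ R Q : Sylow p G, R ≠ Q := by
    by_contra hcon
    push Not at hcon
    exact hns ⟨hcon⟩
  -- extremal pair
  obtain ⟨⟨⟨R, Q⟩, hRQ⟩, hmax⟩ : ∃ x : {x : Sylow p G × Sylow p G // x.1 ≠ x.2},
      ∀ y : {x : Sylow p G × Sylow p G // x.1 ≠ x.2},
        Nat.card ((y.1.1 : Subgroup G) ⊓ (y.1.2 : Subgroup G) : Subgroup G) ≤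
          Nat.card ((x.1.1 : Subgroup G) ⊓ (x.1.2 : Subgroup G) : Subgroup G) := by
    haveI : Nonempty {x : Sylow p G × Sylow p G // x.1 ≠ x.2} := ⟨⟨⟨R₀, Q₀⟩, hRQ₀⟩⟩
    exact Finite.exists_max _
  simp only at hRQ hmax
  have hcardP : Nat.card (P : Subgroup G) = Nat.card (R : Subgroup G) := by
    rw [Sylow.card_eq_multiplicity, Sylow.card_eq_multiplicity]
  rw [hcardP]
  set D : Subgroup G := (R : Subgroup G) ⊓ Q with hD
  have hDR' : D ≤ R := inf_le_left
  have hDQ' : D ≤ Q := inf_le_right
  have hmax' : ∀ R' Q' : Sylow p G, R' ≠ Q' → Nat.card ((R' : Subgroup G) ⊓ Q' : Subgroup G) ≤ Nat.card D :=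
    fun R' Q' h => hmax ⟨⟨R', Q'⟩, h⟩
  have hDRlt : D < R := by
    refine lt_of_le_of_ne hDR' ?_
    intro h
    have hle : (R : Subgroup G) ≤ Q := by rw [← h]; exact hDQ'
    exact hRQ (Sylow.ext (R.is_maximal' Q.isPGroup' hle).symm)
  have hDQlt : D < Q := by
    refine lt_of_le_of_ne hDQ' ?_
    intro h
    have hle : (Q : Subgroup G) ≤ R := by rw [← h]; exact hDR'
    exact hRQ (Sylow.ext (Q.is_maximal' R.isPGroup' hle))
  have hmaxR : ∀ E : Subgroup G, IsPGroup p E → D < E ⊓ R → E ≤ R := by
    intro E hE hlt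
    obtain ⟨R', hR'⟩ := hE.exists_le_sylow
    by_cases h : R = R'
    · rw [h]; exact hR'
    · exfalso
      have h1 := hmax' R R' h
      have h2 : E ⊓ R ≤ (R : Subgroup G) ⊓ R' := by
        apply le_inf inf_le_right (le_trans inf_le_left hR')
      have h3 : D < (R : Subgroup G) ⊓ R' := lt_of_lt_of_le hlt h2
      have h4 := card_lt' h3
      omega
  by_cases hD1 : D = ⊥
  · apply case_ti R Q hRQ
    intro R' Q' h
    have h1 := hmax' R' Q' h
    rw [hD1] at h1
    rw [Subgroup.card_bot] at h1
    have hpos : 0 < Nat.card ((R' : Subgroup G) ⊓ Q' : Subgroup G) := Nat.card_pos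
    exact Subgroup.card_eq_one.mp (by omega)
  by_cases hM : normalizer (D : Set G) = ⊤
  · -- `D` is normal in `G`
    haveI hDn : D.Normal := Subgroup.normalizer_eq_top_iff.mp hM
    have hDp : IsPGroup p D := R.isPGroup'.to_le hDR'
    apply case_quot D R hDp hDR'
    have hlt : Nat.card (G ⧸ D) < n := by
      have h1 := Subgroup.card_eq_card_quotient_mul_card_subgroup D
      have h2 : 1 < Nat.card D := by
        have hpos : 0 < Nat.card D := Nat.card_pos
        have : Nat.card D ≠ 1 := fun h => hD1 (Subgroup.card_eq_one.mp h)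
        omega
      have h3 : 0 < Nat.card (G ⧸ D) := Nat.card_pos
      rw [← hcard, h1]
      nlinarith
    have hsurj : Function.Surjective (QuotientGroup.mk' D) := QuotientGroup.mk'_surjective D
    have := ih _ hlt (G ⧸ D) (R.mapSurjective hsurj) rfl ?_
    · simpa [Sylow.coe_mapSurjective] using this
    · intro hnorm
      rw [Sylow.coe_mapSurjective] at hnorm
      have h2 : (R : Subgroup G).Normal := by
        have h3 := hnorm.comap (QuotientGroup.mk' D)
        rw [Subgroup.comap_map_eq, QuotientGroup.ker_mk', sup_eq_left.mpr hDR'] at h3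
        exact h3
      exact hRQ ((eq_of_normal' R h2 R).trans (eq_of_normal' R h2 Q).symm)
  · -- induct on the normalizer
    set M := normalizer (D : Set G) with hMdef
    have hDM : D ≤ M := Subgroup.le_normalizer
    apply case_sub (R : Subgroup G) R.isPGroup' D hDR' hmaxR
    obtain ⟨r, hrR, hrD, hrM⟩ := exists_growth R.isPGroup' hDRlt
    obtain ⟨q, hqQ, hqD, hqM⟩ := exists_growth Q.isPGroup' hDQlt
    have hlt : Nat.card M < n := by
      rw [← hcard]
      have hlt2 : M < ⊤ := lt_top_iff_ne_top.mpr hM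
      have := card_lt' hlt2
      simpa using this
    -- Sylow of `M`
    let P1 : Sylow p M :=
      { toSubgroup := (R : Subgroup G).subgroupOf M
        isPGroup' := R.isPGroup'.comap_subtype
        is_maximal' := by
          intro S hS hle
          apply le_antisymm _ hle
          have hE : IsPGroup p (S.map M.subtype) := hS.map _
          have hE2 : S.map M.subtype ≤ R := by
            apply hmaxR _ hE
            rw [lt_iff_le_not_ge]
            constructor
            · apply le_inf _ hDR'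
              intro d hd
              exact ⟨⟨d, hDM hd⟩, hle (by simpa [Subgroup.mem_subgroupOf] using hDR' hd), rfl⟩
            · intro hle2
              apply hrD
              apply hle2
              refine Subgroup.mem_inf.mpr ⟨⟨⟨r, hrM⟩, hle (by simpa [Subgroup.mem_subgroupOf] using hrR), rfl⟩, hrR⟩
          intro x hx
          rw [Subgroup.mem_subgroupOf]
          exact hE2 ⟨x, hx, rfl⟩ }
    have hP1 : ¬ (P1 : Subgroup M).Normal := by
      intro hn
      have hQ1 : IsPGroup p ((Q : Subgroup G).subgroupOf M) := Q.isPGroup'.comap_subtype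
      obtain ⟨S, hS⟩ := hQ1.exists_le_sylow
      have hSP : S = P1 := eq_of_normal' P1 hn S
      rw [hSP] at hS
      have hq : (⟨q, hqM⟩ : M) ∈ (Q : Subgroup G).subgroupOf M := by
        simpa [Subgroup.mem_subgroupOf] using hqQ
      have h2 := hS hq
      have h3 : q ∈ (R : Subgroup G) := by
        have : (⟨q, hqM⟩ : M) ∈ (R : Subgroup G).subgroupOf M := h2
        simpa [Subgroup.mem_subgroupOf] using this
      exact hqD (Subgroup.mem_inf.mpr ⟨h3, hqQ⟩)
    exact ih _ hlt M P1 rfl hP1


/-- Let G be a finite group, p a prime and P a Sylow p-subgroup of G that is not normal in G. Then G has at least p·#P elements of p-power order (the identity included). -/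
theorem result {G : Type*} [Group G] [Finite G] (p : ℕ) [Fact p.Prime]
    (P : Sylow p G) (hP : ¬ (P : Subgroup G).Normal) :
    p * Nat.card (P : Subgroup G) ≤ Nat.card {g : G // ∃ k : ℕ, orderOf g = p ^ k} := by
  have h := aux.{u_1} p _ G P rfl hP
  exact h

end Cfsg.Agent.S4092
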