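import Cfsg.Statements.S4093
import Cfsg.Agent.Lib.PGroups.Count
import Cfsg.Agent.Lib.PGroups.Coset

set_option autoImplicit false
open scoped BigOperators
open Cfsg

namespace Cfsg.Agent.S4093

open Cfsg.Agent.Lib.PGroups

/-- Let G be a finite group with a normal subgroup N complementing a Sylow p-subgroup P (a normal p-complement). Then the number of elements of G of p-power order equals the sum over x ∈ P of the index of C_N(x) in N. -/
theorem result {G : Type*} [Group G] [Finite G] (p : ℕ) [Fact p.Prime]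
    (P : Sylow p G) (N : Subgroup G) [N.Normal] (hNP : N.IsComplement' (P : Subgroup G)) :
    Nat.card {g : G // ∃ k : ℕ, orderOf g = p ^ k} =
      ∑ᶠ x : (P : Subgroup G), Nat.card N / Nat.card ↥(N ⊓ Subgroup.centralizer ({(x : G)} : Set G)) := by
  classical
  have := Fintype.ofFinite (P : Subgroup G)
  have hcard : Nat.card N * Nat.card (P : Subgroup G) = Nat.card G := hNP.card_mul_card
  have hNc : (Nat.card N).Coprime p := by
    have h1 := (P : Subgroup G).card_mul_index
    have h2 : Nat.card N = (P : Subgroup G).index := by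
      have h3 : 0 < Nat.card (P : Subgroup G) := Nat.card_pos
      apply Nat.eq_of_mul_eq_mul_left h3
      rw [h1, mul_comm, hcard]
    rw [h2]
    exact (Nat.Prime.coprime_iff_not_dvd Fact.out).mpr P.not_dvd_index |>.symm
  let e : N × (P : Subgroup G) ≃ G := Equiv.ofBijective _ hNP
  have he : ∀ (n : N) (x : (P : Subgroup G)), e (n, x) = (n : G) * x := fun _ _ => rfl
  let π₀ : G → (P : Subgroup G) := fun g => (e.symm g).2
  have hπ : ∀ (n : N) (x : (P : Subgroup G)), π₀ ((n : G) * x) = x := by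
    intro n x
    change (e.symm ((n : G) * x)).2 = x
    rw [← he, e.symm_apply_apply]
  have hdec : ∀ g : G, ∃ n : N, g = (n : G) * π₀ g := by
    intro g
    refine ⟨(e.symm g).1, ?_⟩
    exact (e.apply_symm_apply g).symm
  let π : {g : G // ∃ k : ℕ, orderOf g = p ^ k} → (P : Subgroup G) := fun g => π₀ g.1
  rw [finsum_eq_sum_of_fintype]
  have h1 : Nat.card {g : G // ∃ k : ℕ, orderOf g = p ^ k} =
      ∑ x : (P : Subgroup G), Nat.card {g : {g : G // ∃ k : ℕ, orderOf g = p ^ k} // π g = x} := by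
    rw [← Nat.card_sigma]
    exact Nat.card_congr (Equiv.sigmaFiberEquiv π).symm
  rw [h1]
  apply Finset.sum_congr rfl
  intro x _
  -- the fibre over x is the N-class of x
  let D : Subgroup N := (Subgroup.centralizer ({(x : G)} : Set G)).subgroupOf N
  have hxp : ∃ k : ℕ, orderOf (x : G) = p ^ k := exists_orderOf_of_mem_isPGroup P.isPGroup' x.2
  have hconjmem : ∀ n : N, (n : G) * x * (n : G)⁻¹ * (x : G)⁻¹ ∈ N := by
    intro n
    have h2 : (n : G) * x * (n : G)⁻¹ * (x : G)⁻¹ = n * ((x : G) * (n : G)⁻¹ * (x : G)⁻¹) := by group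
    rw [h2]
    exact N.mul_mem n.2 (Subgroup.Normal.conj_mem inferInstance _ (N.inv_mem n.2) _)
  have hπconj : ∀ n : N, π₀ ((n : G) * x * (n : G)⁻¹) = x := by
    intro n
    have h2 : (n : G) * x * (n : G)⁻¹ = ((⟨_, hconjmem n⟩ : N) : G) * x := by
      simp
    rw [h2, hπ]
  let f : N → {g : {g : G // ∃ k : ℕ, orderOf g = p ^ k} // π g = x} := fun n =>
    ⟨⟨(n : G) * x * (n : G)⁻¹, by rw [orderOf_conj_eq]; exact hxp⟩, hπconj n⟩
  have hfsurj : Function.Surjective f := by
    rintro ⟨⟨g, hg⟩, hgx⟩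
    have hgx' : π₀ g = x := hgx
    obtain ⟨m, hm⟩ := hdec g
    rw [hgx'] at hm
    have hcos : (x : G)⁻¹ * g ∈ N := by
      rw [hm]
      have := Subgroup.Normal.conj_mem (inferInstance : N.Normal) m m.2 (x : G)⁻¹
      simpa [mul_assoc] using this
    obtain ⟨n, hn, hgn⟩ := conj_of_pElement_coset N hNc hxp hg hcos
    refine ⟨⟨n, hn⟩, ?_⟩
    apply Subtype.ext
    apply Subtype.ext
    exact hgn.symm
  have hfib : ∀ a b : N, f a = f b ↔ a⁻¹ * b ∈ D := by
    intro a b
    rw [Subgroup.mem_subgroupOf, Subgroup.mem_centralizer_singleton_iff]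
    constructor
    · intro h
      have h2 : (a : G) * x * (a : G)⁻¹ = (b : G) * x * (b : G)⁻¹ :=
        congrArg (fun z => (z.1.1 : G)) h
      simp only [Subgroup.coe_mul, Subgroup.coe_inv]
      calc (a : G)⁻¹ * b * x = (a : G)⁻¹ * ((b : G) * x * (b : G)⁻¹) * b := by group
        _ = (a : G)⁻¹ * ((a : G) * x * (a : G)⁻¹) * b := by rw [h2]
        _ = _ := by group
    · intro h
      apply Subtype.ext
      apply Subtype.ext
      simp only [Subgroup.coe_mul, Subgroup.coe_inv] at h
      change (a : G) * x * (a : G)⁻¹ = (b : G) * x * (b : G)⁻¹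
      calc (a : G) * x * (a : G)⁻¹ = a * ((x : G) * ((a : G)⁻¹ * b)) * (b : G)⁻¹ := by group
        _ = a * (((a : G)⁻¹ * b) * x) * (b : G)⁻¹ := by rw [h]
        _ = _ := by group
  have h3 := card_eq_mul_of_fibers f hfsurj D hfib
  have hDcard : Nat.card D = Nat.card ↥(N ⊓ Subgroup.centralizer ({(x : G)} : Set G)) := by
    apply Nat.card_congr
    refine ⟨fun z => ⟨z.1.1, z.1.2, z.2⟩, fun z => ⟨⟨z.1, z.2.1⟩, z.2.2⟩, fun z => rfl, fun z => rfl⟩
  rw [← hDcard, h3]
  have hpos : 0 < Nat.card D := Nat.card_pos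
  exact (Nat.mul_div_cancel _ hpos).symm

end Cfsg.Agent.S4093
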