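import Cfsg.Statements.S4106
import Cfsg.Agent.Lib.PGroups.PiClasses

set_option autoImplicit false
open Cfsg

namespace Cfsg.Agent.S4106


/-- Let G be a finite group, π a set of primes and m the π-part of the order of G. Then the number of conjugacy classes of G consisting of π-elements (elements whose order is divisible only by primes in π) is at most m. -/
theorem result {G : Type*} [Group G] [Finite G]
    (π : Set ℕ) (hπ : ∀ q ∈ π, q.Prime)
    (m : ℕ) (hm : m ∣ Nat.card G) (hmπ : ∀ q : ℕ, q.Prime → q ∣ m → q ∈ π)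
    (hm' : ∀ q ∈ π, ¬ q ∣ Nat.card G / m) :
    Nat.card {C : ConjClasses G // ∀ q : ℕ, q.Prime → (∃ g : G, ConjClasses.mk g = C ∧ q ∣ orderOf g) → q ∈ π} ≤ m := by
  have hpos : 0 < Nat.card G := Nat.card_pos
  have hmpos : 0 < m := Nat.pos_of_dvd_of_pos hm hpos
  apply Cfsg.Agent.Lib.PGroups.card_piCl_le m hmpos G π
  intro q hq hqp
  obtain ⟨c, hc⟩ := hm
  have hc0 : c ≠ 0 := by
    rintro rfl
    rw [mul_zero] at hc
    omega
  have hdiv : Nat.card G / m = c := by
    rw [hc]
    exact Nat.mul_div_cancel_left c hmpos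
  have hqc : ¬ q ∣ c := by
    rw [← hdiv]
    exact hm' q hq
  rw [hc, Nat.factorization_mul hmpos.ne' hc0, Finsupp.add_apply,
    Nat.factorization_eq_zero_of_not_dvd hqc, add_zero]
  exact Nat.ordProj_dvd m q

end Cfsg.Agent.S4106
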