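import Cfsg.Statements.S4108
import Cfsg.Agent.Lib.Basic.Conj

set_option autoImplicit false
open Cfsg

namespace Cfsg.Agent.S4108

open Cfsg.Agent.Lib.Basic

/-- Let G be a finite group, p a prime and N a proper non-trivial normal p-subgroup such that for every x outside N all elements of the coset xN have the same order as x. Then every non-trivial subgroup H of G of order prime to p acts fixed-point-freely on N: NH is a Frobenius group with complement H and kernel N. -/
theorem result {G : Type*} [Group G] [Finite G] (N : Subgroup G) [N.Normal] (hN1 : N ≠ ⊥) (hN2 : N ≠ ⊤)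
    (heq : ∀ x : G, x ∉ N → ∀ n ∈ N, orderOf (x * n) = orderOf x)
    (p : ℕ) [Fact p.Prime] (hNp : IsPGroup p N) :
    ∀ H : Subgroup G, H ≠ ⊥ → (Nat.card H).Coprime p →
      Cfsg.IsFrobeniusComplement (H.subgroupOf (N ⊔ H)) ∧ Cfsg.frobeniusKernel (H.subgroupOf (N ⊔ H)) = (N.subgroupOf (N ⊔ H) : Set ↥(N ⊔ H)) := by
  classical
  intro H hH1 hHp
  have hp' : p.Prime := Fact.out
  -- H ∩ N = 1
  have hHN : ∀ y, y ∈ H → y ∈ N → y = 1 := by
    intro y hyH hyN
    obtain ⟨k, hk⟩ := hNp ⟨y, hyN⟩
    have h1 : y ^ p ^ k = 1 := by simpa [Subtype.ext_iff] using hk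
    have h2 : orderOf y ∣ p ^ k := orderOf_dvd_of_pow_eq_one h1
    have h3 : orderOf y ∣ Nat.card H := Subgroup.orderOf_dvd_natCard H hyH
    exact orderOf_eq_one_iff.mp (Nat.eq_one_of_dvd_coprimes (hHp.pow_right k) h3 h2)
  -- fixed point freeness
  have hfpf : ∀ y ∈ H, y ≠ 1 → ∀ n ∈ N, y * n = n * y → n = 1 := by
    intro y hyH hy1 n hn hcomm
    have hyN : y ∉ N := fun h => hy1 (hHN y hyH h)
    have h1 := heq y hyN n hn
    obtain ⟨k, hk⟩ := hNp ⟨n, hn⟩
    have h2 : n ^ p ^ k = 1 := by simpa [Subtype.ext_iff] using hk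
    have h3 : orderOf n ∣ p ^ k := orderOf_dvd_of_pow_eq_one h2
    have h4 : orderOf y ∣ Nat.card H := Subgroup.orderOf_dvd_natCard H hyH
    have hcop : (orderOf y).Coprime (orderOf n) :=
      Nat.Coprime.coprime_dvd_left h4 (Nat.Coprime.coprime_dvd_right h3 (hHp.pow_right k))
    have h5 := Commute.orderOf_mul_eq_mul_orderOf_of_coprime hcomm hcop
    rw [h1] at h5
    have h6 : orderOf n = 1 := by
      have h7 : 0 < orderOf y := orderOf_pos y
      exact Nat.eq_of_mul_eq_mul_left h7 (by rw [mul_one]; exact h5.symm)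
    exact orderOf_eq_one_iff.mp h6
  set M := N ⊔ H with hM
  have hNM : N ≤ M := le_sup_left
  have hHM : H ≤ M := le_sup_right
  have hdecomp : ∀ g : M, ∃ n ∈ N, ∃ h ∈ H, n * h = (g : G) := fun g =>
    Subgroup.mem_sup_of_normal_left.mp g.2
  refine ⟨⟨?_, ?_, ?_⟩, ?_⟩
  · intro h
    apply hH1
    rw [eq_bot_iff]
    intro y hy
    have h1 : (⟨y, hHM hy⟩ : M) ∈ H.subgroupOf M := Subgroup.mem_subgroupOf.mpr hy
    rw [h] at h1
    have h2 := Subgroup.mem_bot.mp h1
    exact Subgroup.mem_bot.mpr (congrArg Subtype.val h2)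
  · intro h
    obtain ⟨n, hn, hn1⟩ := (Subgroup.ne_bot_iff_exists_ne_one).mp hN1 |>.elim
      (fun a h => (⟨a.1, a.2, fun h' => h (Subtype.ext h')⟩ : ∃ n, n ∈ N ∧ n ≠ 1))
    have h1 : (⟨n, hNM hn⟩ : M) ∈ H.subgroupOf M := by rw [h]; trivial
    exact hn1 (hHN n (Subgroup.mem_subgroupOf.mp h1) hn)
  · intro g hg
    rw [eq_bot_iff]
    rintro y ⟨hy1, hy2⟩
    rw [Subgroup.mem_bot]
    by_contra hyne
    obtain ⟨n, hn, h, hh, hnh⟩ := hdecomp g
    have hy2' : g⁻¹ * y * g ∈ H.subgroupOf M := mem_conj_smul.mp hy2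
    have hyH : (y : G) ∈ H := Subgroup.mem_subgroupOf.mp hy1
    have hzH : ((g : G))⁻¹ * y * g ∈ H := by
      have := Subgroup.mem_subgroupOf.mp hy2'
      simpa using this
    have h1 : n⁻¹ * y * n = h * (((g : G))⁻¹ * y * g) * h⁻¹ := by
      rw [← hnh]; group
    have h2 : n⁻¹ * y * n ∈ H := by
      rw [h1]; exact H.mul_mem (H.mul_mem hh hzH) (H.inv_mem hh)
    have h3 : (y : G)⁻¹ * (n⁻¹ * y * n) ∈ H := H.mul_mem (H.inv_mem hyH) h2
    have h4 : (y : G)⁻¹ * (n⁻¹ * y * n) ∈ N := by
      have h5 : (y : G)⁻¹ * (n⁻¹ * y * n) = ((y : G)⁻¹ * n⁻¹ * y) * n := by group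
      rw [h5]
      refine N.mul_mem ?_ hn
      have := Subgroup.Normal.conj_mem (inferInstance : N.Normal) n⁻¹ (N.inv_mem hn) (y : G)⁻¹
      simpa using this
    have h6 := hHN _ h3 h4
    have h7 : (y : G) * n = n * y := by
      have h8 : n⁻¹ * y * n = y := (inv_mul_eq_one.mp h6).symm
      calc (y : G) * n = n * (n⁻¹ * y * n) := by group
        _ = n * y := by rw [h8]
    have h9 := hfpf y hyH (fun h => hyne (Subtype.ext h)) n hn h7
    apply hg
    apply Subgroup.mem_subgroupOf.mpr
    rw [← hnh, h9, one_mul]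
    exact hh
  · ext x
    constructor
    · rintro (rfl | hx)
      · exact Subgroup.one_mem _
      · obtain ⟨n, hn, h, hh, hnh⟩ := hdecomp x
        by_cases hh1 : h = 1
        · apply Subgroup.mem_subgroupOf.mpr
          rw [← hnh, hh1, mul_one]; exact hn
        · exfalso
          -- the commutator map is bijective on N
          have hnm : ∀ m : N, (m : G) * h * (m : G)⁻¹ * h⁻¹ ∈ N := by
            intro m
            have h1 : (m : G) * h * (m : G)⁻¹ * h⁻¹ = m * (h * (m : G)⁻¹ * h⁻¹) := by group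
            rw [h1]
            exact N.mul_mem m.2 (Subgroup.Normal.conj_mem inferInstance _ (N.inv_mem m.2) h)
          let f : N → N := fun m => ⟨_, hnm m⟩
          have hf : Function.Injective f := by
            intro a b hab
            have h1 : (a : G) * h * (a : G)⁻¹ * h⁻¹ = (b : G) * h * (b : G)⁻¹ * h⁻¹ := congrArg Subtype.val hab
            have h2 : (a : G) * h * (a : G)⁻¹ = (b : G) * h * (b : G)⁻¹ := mul_right_cancel h1
            have h3 : h * ((b : G)⁻¹ * a) = ((b : G)⁻¹ * a) * h := by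
              calc h * ((b : G)⁻¹ * a) = (b : G)⁻¹ * ((b : G) * h * (b : G)⁻¹) * a := by group
                _ = (b : G)⁻¹ * ((a : G) * h * (a : G)⁻¹) * a := by rw [h2]
                _ = _ := by group
            have h4 := hfpf h hh hh1 _ (N.mul_mem (N.inv_mem b.2) a.2) h3
            apply Subtype.ext
            exact (inv_mul_eq_one.mp h4).symm
          obtain ⟨m, hm⟩ := (Finite.injective_iff_surjective.mp hf) ⟨n, hn⟩
          have hm1 : (m : G) * h * (m : G)⁻¹ * h⁻¹ = n := congrArg Subtype.val hm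
          apply hx ⟨m, hNM m.2⟩
          rw [mem_conj_smul]
          apply Subgroup.mem_subgroupOf.mpr
          have h5 : (x : G) = m * h * (m : G)⁻¹ := by
            rw [← hnh, ← hm1]; group
          simp only [Subgroup.coe_mul, Subgroup.coe_inv]
          rw [h5]
          have h6 : (m : G)⁻¹ * (m * h * (m : G)⁻¹) * m = h := by group
          rw [h6]; exact hh
    · intro hx
      have hxN : (x : G) ∈ N := Subgroup.mem_subgroupOf.mp hx
      by_cases hx1 : x = 1
      · exact Or.inl hx1
      · right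
        intro g hg
        rw [mem_conj_smul] at hg
        have h1 : ((g : G))⁻¹ * x * g ∈ H := by
          have := Subgroup.mem_subgroupOf.mp hg
          simpa using this
        have h2 : ((g : G))⁻¹ * x * g ∈ N := by
          have := Subgroup.Normal.conj_mem (inferInstance : N.Normal) x hxN (g : G)⁻¹
          simpa using this
        have h3 := hHN _ h1 h2
        apply hx1
        apply Subtype.ext
        have h4 : (x : G) = g * (((g : G))⁻¹ * x * g) * (g : G)⁻¹ := by group
        rw [h4, h3]; simp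

end Cfsg.Agent.S4108
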