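import Cfsg.Statements.S4112
import Cfsg.Agent.Lib.Coprime.Conj
import Cfsg.Agent.Lib.PGroups.Cyclic
import Cfsg.Agent.Lib.Basic.Nilpotent
import Cfsg.Agent.Lib.Struct.Basic

set_option autoImplicit false
open Cfsg

namespace Cfsg.Agent.S4112

open Cfsg.Agent.Lib.PGroups Cfsg.Agent.Lib.Basic

theorem part_one {G : Type*} [Group G] [Finite G] (N M : Subgroup G) [N.Normal] [M.Normal]
    (hcam : ∀ g : G, g ∉ N → ∀ m ∈ M, ∃ x : G, x * g * x⁻¹ = g * m)
    (hcop : N.index.Coprime (Nat.card M)) :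
    ∀ x ∈ M, x ≠ 1 → Subgroup.centralizer ({x} : Set G) ≤ N := by
  classical
  intro x hxM hx1 g hg
  apply mem_of_primary_powers
  intro a ha hpp
  obtain ⟨r, j, hr, hj, hrj⟩ := hpp
  have hr' : r.Prime := hr.nat_prime
  have : Fact r.Prime := ⟨hr'⟩
  by_contra hnot
  have hac : a ∈ Subgroup.centralizer ({x} : Set G) := (Subgroup.zpowers_le.mpr hg) ha
  -- r divides the index
  have hrd : r ∣ N.index := by
    have h1 : orderOf (QuotientGroup.mk' N a) ∣ r ^ j := by
      rw [hrj]; exact orderOf_map_dvd _ a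
    obtain ⟨i, _, hi⟩ := (Nat.dvd_prime_pow hr').mp h1
    have hi0 : i ≠ 0 := by
      rintro rfl
      rw [pow_zero, orderOf_eq_one_iff] at hi
      exact hnot ((QuotientGroup.eq_one_iff a).mp hi)
    have h2 : orderOf (QuotientGroup.mk' N a) ∣ N.index := by
      rw [Subgroup.index_eq_card]
      exact orderOf_dvd_natCard _
    rw [hi] at h2
    exact (dvd_pow_self r hi0).trans h2
  have hrM : (Nat.card M).Coprime r := by
    have h1 : ¬ r ∣ Nat.card M := fun h => hr'.one_lt.ne' (Nat.dvd_one.mp (hcop ▸ Nat.dvd_gcd hrd h))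
    exact ((Nat.Prime.coprime_iff_not_dvd hr').mpr h1).symm
  have hnm : ∀ n : M, a⁻¹ * n * a * (n : G)⁻¹ ∈ M := by
    intro n
    refine M.mul_mem ?_ (M.inv_mem n.2)
    have := Subgroup.Normal.conj_mem (inferInstance : M.Normal) n n.2 a⁻¹
    simpa using this
  let f : M → M := fun n => ⟨_, hnm n⟩
  have hfsurj : Function.Surjective f := by
    rintro ⟨m, hm⟩
    obtain ⟨y, hy⟩ := hcam a hnot m hm
    have hord : ∃ k : ℕ, orderOf (a * m) = r ^ k := ⟨j, by rw [← hy, orderOf_conj_eq, hrj]⟩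
    obtain ⟨n, hn, hnm2⟩ := conj_of_pElement_coset M hrM ⟨j, hrj.symm⟩ hord (by simpa using hm)
    refine ⟨⟨n, hn⟩, ?_⟩
    apply Subtype.ext
    change a⁻¹ * n * a * n⁻¹ = m
    calc a⁻¹ * n * a * n⁻¹ = a⁻¹ * (n * a * n⁻¹) := by group
      _ = a⁻¹ * (a * m) := by rw [hnm2]
      _ = m := by group
  have hfinj : Function.Injective f := Finite.injective_iff_surjective.mpr hfsurj
  have hcomm : a * x = x * a := (Subgroup.mem_centralizer_singleton_iff.mp hac)
  have hfx : f ⟨x, hxM⟩ = f 1 := by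
    apply Subtype.ext
    change a⁻¹ * x * a * x⁻¹ = a⁻¹ * ((1 : M) : G) * a * ((1 : M) : G)⁻¹
    have h2 : a⁻¹ * x * a = x := by rw [mul_assoc, ← hcomm]; group
    rw [h2]
    simp
  have := hfinj hfx
  exact hx1 (congrArg Subtype.val this)

theorem part_two {G : Type*} [Group G] [Finite G] (N M : Subgroup G) [N.Normal] [M.Normal]
    (h : ∀ x ∈ M, x ≠ 1 → Subgroup.centralizer ({x} : Set G) ≤ N) : N.index.Coprime (Nat.card M) := by
  classical
  by_contra hnot
  obtain ⟨r, hr, hd1, hd2⟩ := Nat.Prime.not_coprime_iff_dvd.mp hnot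
  have : Fact r.Prime := ⟨hr⟩
  obtain ⟨R⟩ : Nonempty (Sylow r G) := inferInstance
  -- R not contained in N
  have hRN : ¬ (R : Subgroup G) ≤ N := fun hle =>
    Cfsg.Agent.Lib.Struct.not_dvd_index_of_sylow_le R hle hd1
  obtain ⟨y, hyR, hyN⟩ := SetLike.not_le_iff_exists.mp hRN
  -- a central element of R inside M
  have hpg : IsPGroup r (R : Subgroup G) := R.isPGroup'
  have hnil : Group.IsNilpotent (R : Subgroup G) := hpg.isNilpotent
  let MR : Subgroup (R : Subgroup G) := M.subgroupOf R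
  have hMRn : MR.Normal := Subgroup.normal_subgroupOf
  have hMR : MR ≠ ⊥ := by
    obtain ⟨P, hP⟩ := Cfsg.Agent.Lib.Coprime.exists_sylow_map_eq_inf R M
    have hPne : (P : Subgroup M) ≠ ⊥ := P.ne_bot_of_dvd_card hd2
    obtain ⟨z, hz, hz1⟩ := (Subgroup.ne_bot_iff_exists_ne_one).mp hPne |>.elim
      (fun a h => (⟨a.1, a.2, fun h' => h (Subtype.ext h')⟩ : ∃ z, z ∈ (P : Subgroup M) ∧ z ≠ 1))
    have hzRM : (z : G) ∈ (R : Subgroup G) ⊓ M := by
      rw [← hP]; exact ⟨z, hz, rfl⟩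
    intro hbot
    have h1 : (⟨(z : G), hzRM.1⟩ : (R : Subgroup G)) ∈ MR := Subgroup.mem_subgroupOf.mpr hzRM.2
    rw [hbot, Subgroup.mem_bot] at h1
    have h2 : (z : G) = 1 := congrArg Subtype.val h1
    exact hz1 (Subtype.ext h2)
  have hinf := normal_inf_center_ne_bot MR hMR
  obtain ⟨x, ⟨hxM, hxc⟩, hx1⟩ := (Subgroup.ne_bot_iff_exists_ne_one).mp hinf |>.elim
    (fun a h => (⟨a.1, a.2, fun h' => h (Subtype.ext h')⟩ : ∃ x, x ∈ MR ⊓ Subgroup.center (R : Subgroup G) ∧ x ≠ 1))
  apply hyN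
  apply h (x : G) (Subgroup.mem_subgroupOf.mp hxM) (fun h' => hx1 (Subtype.ext h'))
  rw [Subgroup.mem_centralizer_singleton_iff]
  have := (Subgroup.mem_center_iff.mp hxc) ⟨y, hyR⟩
  exact congrArg Subtype.val this
theorem part_three {G : Type*} [Group G] [Finite G] (N M : Subgroup G) [N.Normal] [M.Normal] (hMN : M ≤ N)
    (hcop : N.index.Coprime (Nat.card M)) : ∃ H : Subgroup G, H ⊔ N = ⊤ ∧ H ⊓ M = ⊥ := by
  classical
  have hS : ({H : Subgroup G | H ⊔ N = ⊤}).Nonempty := ⟨⊤, top_sup_eq _⟩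
  obtain ⟨H, hH, hmin⟩ := (Set.toFinite _).exists_minimal hS
  refine ⟨H, hH, ?_⟩
  by_contra hne
  have hcardne : Nat.card (H ⊓ M : Subgroup G) ≠ 1 := fun h => hne (Subgroup.eq_bot_of_card_eq _ h)
  obtain ⟨r, hr, hrd⟩ := Nat.exists_prime_and_dvd hcardne
  have : Fact r.Prime := ⟨hr⟩
  have hrM : r ∣ Nat.card M := hrd.trans (Subgroup.card_dvd_of_le inf_le_right)
  have hrN : ¬ r ∣ N.index := fun h => hr.one_lt.ne' (Nat.dvd_one.mp (hcop ▸ Nat.dvd_gcd h hrM))
  let D : Subgroup H := N.subgroupOf H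
  have hDn : D.Normal := Subgroup.normal_subgroupOf
  have hDidx : D.index = N.index := by
    change N.relIndex H = N.index
    rw [← Subgroup.relIndex_sup_right H N, hH, Subgroup.relIndex_top_right]
  obtain ⟨R'⟩ : Nonempty (Sylow r D) := inferInstance
  set R : Subgroup H := (R' : Subgroup D).map D.subtype with hR
  have hFr : Subgroup.normalizer (R : Set H) ⊔ D = ⊤ := Sylow.normalizer_sup_eq_top R'
  -- minimality gives R normal in H
  have hlift : ∀ U : Subgroup H, U ⊔ D = ⊤ → U.map H.subtype ⊔ N = ⊤ := by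
    intro U hU
    rw [eq_top_iff, ← hH]
    refine sup_le ?_ le_sup_right
    intro h hh
    have h1 : (⟨h, hh⟩ : H) ∈ U ⊔ D := by rw [hU]; trivial
    obtain ⟨a, ha, b, hb, hab⟩ := Subgroup.mem_sup_of_normal_right.mp h1
    have h2 : h = (a : G) * b := by
      have := congrArg Subtype.val hab
      simpa using this.symm
    rw [h2]
    exact Subgroup.mul_mem_sup ⟨a, ha, rfl⟩ (Subgroup.mem_subgroupOf.mp hb)
  have hminU : ∀ U : Subgroup H, U ⊔ D = ⊤ → U = ⊤ := by
    intro U hU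
    have h1 := hmin (hlift U hU) (by
      rintro _ ⟨a, _, rfl⟩
      exact a.2)
    rw [eq_top_iff]
    rintro ⟨h, hh⟩ -
    obtain ⟨a, ha, h2⟩ := h1 hh
    have : a = ⟨h, hh⟩ := Subtype.ext h2
    rwa [← this]
  have hRn : R.Normal := by
    have := hminU _ hFr
    exact Subgroup.normalizer_eq_top_iff.mp this
  -- R is a normal Sylow subgroup of H
  have hRp : IsPGroup r R := R'.isPGroup'.map D.subtype
  have hRD : R ≤ D := by
    rintro _ ⟨a, _, rfl⟩
    exact a.2
  have hRidx : ¬ r ∣ R.index := by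
    have h1 : R.relIndex D * D.index = R.index := Subgroup.relIndex_mul_index hRD
    rw [← h1, hDidx]
    intro h2
    rcases (Nat.Prime.dvd_mul hr).mp h2 with h3 | h3
    · apply R'.not_dvd_index
      have h5 : R.subgroupOf D = (R' : Subgroup D) :=
        Subgroup.comap_map_eq_self_of_injective D.subtype_injective _
      have h4 : (R' : Subgroup D).index = R.relIndex D := by
        rw [Subgroup.relIndex, h5]
      rwa [h4]
    · exact hrN h3
  have hcopR : (Nat.card R).Coprime R.index := by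
    obtain ⟨k, hk⟩ := IsPGroup.iff_card.mp hRp
    rw [hk]
    exact Nat.Coprime.pow_left k ((Nat.Prime.coprime_iff_not_dvd hr).mpr hRidx)
  obtain ⟨H₂, hH₂⟩ := Subgroup.exists_right_complement'_of_coprime hcopR
  have hH₂top : H₂ = ⊤ := by
    have h2 : R ⊔ H₂ ≤ H₂ ⊔ D := sup_le (hRD.trans le_sup_right) le_sup_left
    have h3 : R ⊔ H₂ = ⊤ := hH₂.sup_eq_top
    rw [h3] at h2
    exact hminU _ (top_le_iff.mp h2)
  have hRbot : R = ⊥ := by
    have := hH₂.disjoint
    rw [hH₂top, disjoint_top] at this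
    exact this
  have hR'bot : (R' : Subgroup D) = ⊥ :=
    (Subgroup.map_eq_bot_iff_of_injective _ D.subtype_injective).mp hRbot
  have hrD : r ∣ Nat.card D := by
    have h1 : Nat.card D = Nat.card (D.map H.subtype) :=
      (Subgroup.card_map_of_injective H.subtype_injective).symm
    have h2 : D.map H.subtype = N ⊓ H := Subgroup.subgroupOf_map_subtype N H
    rw [h1, h2]
    refine hrd.trans (Subgroup.card_dvd_of_le ?_)
    exact fun x hx => ⟨hMN hx.2, hx.1⟩
  exact R'.ne_bot_of_dvd_card hrD hR'bot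

/-- Let G be a finite group and M ≤ N non-trivial proper normal subgroups such that for every g outside N the conjugacy class of g is a union of cosets of M (equivalently gm is conjugate to g for every m ∈ M). Then (1) and (2) below are equivalent, and they imply (3): (1) every g outside N acts fixed-point-freely on M, that is C_G(x) ≤ N for every x ∈ M, x ≠ 1; (2) the index of N in G is coprime to the order of M; (3) there is a subgroup H of G with HN = G and H ∩ M = 1. -/
theorem result {G : Type*} [Group G] [Finite G] (N M : Subgroup G) [N.Normal] [M.Normal] (hMN : M ≤ N) (hM1 : M ≠ ⊥) (hN2 : N ≠ ⊤)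
    (hcam : ∀ g : G, g ∉ N → ∀ m ∈ M, ∃ x : G, x * g * x⁻¹ = g * m) :
    ((∀ x ∈ M, x ≠ 1 → Subgroup.centralizer ({x} : Set G) ≤ N) ↔ N.index.Coprime (Nat.card M)) ∧
    ((∀ x ∈ M, x ≠ 1 → Subgroup.centralizer ({x} : Set G) ≤ N) → ∃ H : Subgroup G, H ⊔ N = ⊤ ∧ H ⊓ M = ⊥) := by
  refine ⟨⟨fun h => part_two N M h, fun h => part_one N M hcam h⟩, fun h => part_three N M hMN (part_two N M h)⟩

end Cfsg.Agent.S4112
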