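import Cfsg.Statements.S4115
import Cfsg.Agent.Lib.PGroups.FrobWielandt
import Cfsg.Agent.Lib.PGroups.InvNormal
import Cfsg.Agent.Lib.OddLocal.CoprimeFix
import Cfsg.Agent.Lib.Basic.Frobenius2
import Cfsg.Agent.Lib.Coprime.Sylow
import Cfsg.Agent.Lib.PGroups.Subnormalizer
import Cfsg.Agent.Lib.PGroups.Parts

set_option autoImplicit false
universe u
open Cfsg

namespace Cfsg.Agent.S4115

section aux

open Subgroup Cfsg Cfsg.Agent.Lib.PGroups.FrobWielandt Cfsg.Agent.Lib.PGroups.InvNormal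

variable {G : Type u} [Group G] [Finite G]

private theorem fwd (H X : Subgroup G) (hXe : X = normalizer (H : Set G))
    (hTI : Cfsg.IsTISubset (H : Set G))
    (hHall : (Nat.card H).Coprime (H.subgroupOf X).index)
    (K : Subgroup X) (hKn : K.Normal)
    (hKc : K.IsComplement' (H.subgroupOf X)) :
    ∃ N K₀ : Subgroup G, N.Normal ∧ N.IsComplement' H ∧ K₀ ≤ X ∧
      (∀ x ∈ X, x ∈ N ↔ x ∈ K₀) ∧ (∀ k ∈ K₀, ∀ h ∈ H, k * h = h * k) ∧
      (∀ x ∈ X, ∃ k ∈ K₀, ∃ h ∈ H, x = k * h) ∧
      (Nat.card K₀).Coprime (Nat.card H) := by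
  have hHX : H ≤ X := hXe ▸ le_normalizer
  set Ht := H.subgroupOf X with hHt
  set K₀ := K.map X.subtype with hK₀
  have hK₀X : K₀ ≤ X := map_subtype_le K
  have hmemK : ∀ x : X, (x : G) ∈ K₀ ↔ x ∈ K := by
    intro x
    constructor
    · rintro ⟨y, hy, he⟩
      have : y = x := Subtype.ext he
      exact this ▸ hy
    · intro hx
      exact ⟨x, hx, rfl⟩
  have hKsub : K₀.subgroupOf X = K := by
    ext x
    rw [mem_subgroupOf]
    exact hmemK x
  have hcH : Nat.card Ht = Nat.card H := Nat.card_congr (subgroupOfEquivOfLe hHX).toEquiv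
  have hcK₀ : Nat.card K₀ = Nat.card K :=
    Nat.card_congr (Subgroup.equivMapOfInjective K X.subtype X.subtype_injective).toEquiv.symm
  have hcX : Nat.card K₀ * Nat.card H = Nat.card X := by
    rw [hcK₀, ← hcH]
    exact hKc.card_mul_card
  have hidx : Nat.card K₀ = Ht.index := by
    have h1 := Subgroup.card_mul_index Ht
    rw [hcH, ← hcX, mul_comm] at h1
    exact (Nat.eq_of_mul_eq_mul_right Nat.card_pos h1).symm
  have hcop : (Nat.card K₀).Coprime (Nat.card H) := by
    rw [hidx]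
    exact hHall.symm
  have hHn : Ht.Normal := (normal_subgroupOf_iff_le_normalizer hHX).mpr (hXe ▸ le_rfl)
  have hcomm : ∀ k ∈ K₀, ∀ h ∈ H, k * h = h * k := by
    rintro _ ⟨k, hk, rfl⟩ h hh
    set h' : X := ⟨h, hHX hh⟩
    have hh' : h' ∈ Ht := mem_subgroupOf.mpr hh
    have h1 : k * h' * k⁻¹ * h'⁻¹ ∈ K := by
      have h2 := hKn.conj_mem _ (inv_mem hk) h'
      have e : k * h' * k⁻¹ * h'⁻¹ = k * (h' * k⁻¹ * h'⁻¹) := by group
      rw [e]
      exact mul_mem hk h2
    have h3 : k * h' * k⁻¹ * h'⁻¹ ∈ Ht :=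
      mul_mem (hHn.conj_mem _ hh' k) (inv_mem hh')
    have h4 := Subgroup.disjoint_def.mp hKc.disjoint h1 h3
    have h5 : k * h' = h' * k := by
      have e : k * h' = (k * h' * k⁻¹ * h'⁻¹) * (h' * k) := by group
      rw [e, h4, one_mul]
    exact congrArg Subtype.val h5
  have hdecomp : ∀ x ∈ X, ∃ k ∈ K₀, ∃ h ∈ H, x = k * h := by
    intro x hx
    obtain ⟨⟨k, h⟩, he⟩ := hKc.2 ⟨x, hx⟩
    refine ⟨k.1, (hmemK k.1).mpr k.2, h.1, mem_subgroupOf.mp h.2, ?_⟩
    exact (congrArg Subtype.val he).symm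
  have hinf : ∀ x, x ∈ K₀ → x ∈ H → x = 1 := by
    rintro _ ⟨k, hk, rfl⟩ hh
    have h1 := Subgroup.disjoint_def.mp hKc.disjoint hk (mem_subgroupOf.mpr hh)
    rw [h1]
    rfl
  -- the key property
  have hout : ∀ g : G, g ∉ X → ∀ t ∈ X, t ∉ K₀ → g * t * g⁻¹ ∉ X := by
    intro g hg t htX htK hgt
    obtain ⟨k, hk, h, hh, rfl⟩ := hdecomp t htX
    have hh1 : h ≠ 1 := by
      rintro rfl
      apply htK
      simpa using hk
    have hkhc : Commute k h := hcomm k hk h hh
    have hkord : k ^ Nat.card K₀ = 1 := by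
      have := pow_card_eq_one' (G := K₀) (x := ⟨k, hk⟩)
      exact congrArg Subtype.val this
    have hhord : h ^ Nat.card H = 1 := by
      have := pow_card_eq_one' (G := H) (x := ⟨h, hh⟩)
      exact congrArg Subtype.val this
    have hb1 : 1 < Nat.card H := by
      have h1 : Nat.card H ≠ 1 := by
        intro h2
        rw [h2, pow_one] at hhord
        exact hh1 hhord
      have h3 : 0 < Nat.card H := Nat.card_pos
      omega
    obtain ⟨u, -, hu⟩ := Nat.exists_mul_mod_eq_one_of_coprime hcop hb1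
    set m := Nat.card K₀ * u with hm
    have ht : (k * h) ^ m = h := by
      rw [hkhc.mul_pow, hm, pow_mul, hkord, one_pow, one_mul, pow_eq_pow_mod _ hhord, hu, pow_one]
    have hy : g * h * g⁻¹ ∈ X := by
      have h1 := pow_mem hgt m
      rw [conj_pow, ht] at h1
      exact h1
    obtain ⟨k', hk', h', hh', he⟩ := hdecomp _ hy
    have hk'h'c : Commute k' h' := hcomm k' hk' h' hh'
    have hb : (g * h * g⁻¹) ^ Nat.card H = 1 := by
      rw [conj_pow, hhord]
      simp
    have hh'ord : h' ^ Nat.card H = 1 := by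
      have := pow_card_eq_one' (G := H) (x := ⟨h', hh'⟩)
      exact congrArg Subtype.val this
    have hk'1 : k' ^ Nat.card H = 1 := by
      rw [he, hk'h'c.mul_pow, hh'ord, mul_one] at hb
      exact hb
    have hk'a : k' ^ Nat.card K₀ = 1 := by
      have := pow_card_eq_one' (G := K₀) (x := ⟨k', hk'⟩)
      exact congrArg Subtype.val this
    have hk'eq : k' = 1 := by
      have h1 := orderOf_dvd_of_pow_eq_one hk'1
      have h2 := orderOf_dvd_of_pow_eq_one hk'a
      have h3 := Nat.dvd_gcd h2 h1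
      rw [hcop] at h3
      exact orderOf_eq_one_iff.mp (Nat.dvd_one.mp h3)
    rw [hk'eq, one_mul] at he
    have hyH : g * h * g⁻¹ ∈ H := by
      rw [he]
      exact hh'
    exact hh1 (hTI g (hXe ▸ hg) h hh hyH)
  have hKn₀ : (K₀.subgroupOf X).Normal := by
    rw [hKsub]
    exact hKn
  obtain ⟨N, hNn, hNX, hNcard⟩ := frobenius_wielandt X K₀ hK₀X hKn₀ hout
  refine ⟨N, K₀, hNn, ?_, hK₀X, hNX, hcomm, hdecomp, hcop⟩
  apply isComplement'_of_card_mul_and_disjoint
  · rw [← hcX] at hNcard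
    have h1 : Nat.card K₀ * (Nat.card N * Nat.card H) = Nat.card K₀ * Nat.card G := by
      rw [← mul_assoc, mul_comm (Nat.card K₀), mul_assoc, hNcard, mul_comm]
    exact Nat.eq_of_mul_eq_mul_left Nat.card_pos h1
  · rw [Subgroup.disjoint_def]
    intro x hxN hxH
    exact hinf x ((hNX x (hHX hxH)).mp hxN) hxH

private theorem bwd (H : Subgroup G) (N : Subgroup G) (hNn : N.Normal) (hc : N.IsComplement' H) :
    ∃ K : Subgroup (Subgroup.normalizer (H : Set G)), K.Normal ∧
      K.IsComplement' (H.subgroupOf (Subgroup.normalizer (H : Set G))) := by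
  set X := normalizer (H : Set G) with hX
  have hHX : H ≤ X := le_normalizer
  refine ⟨N.subgroupOf X, hNn.subgroupOf X, ?_⟩
  apply isComplement'_of_disjoint_and_mul_eq_univ
  · rw [Subgroup.disjoint_def]
    intro x hxN hxH
    have h1 := Subgroup.disjoint_def.mp hc.disjoint (mem_subgroupOf.mp hxN) (mem_subgroupOf.mp hxH)
    exact Subtype.ext h1
  · rw [Set.eq_univ_iff_forall]
    intro x
    obtain ⟨⟨n, h⟩, he⟩ := hc.2 (x : G)
    have he' : (n : G) * (h : G) = x := he
    have hnX : (n : G) ∈ X := by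
      have e : (n : G) = x * (h : G)⁻¹ := by rw [← he']; group
      rw [e]
      exact mul_mem x.2 (inv_mem (hHX h.2))
    refine Set.mem_mul.mpr ⟨⟨n, hnX⟩, mem_subgroupOf.mpr n.2, ⟨h, hHX h.2⟩, mem_subgroupOf.mpr h.2, ?_⟩
    exact Subtype.ext he'

private theorem snd (H : Subgroup G) (hTI : Cfsg.IsTISubset (H : Set G)) (hnn : ¬ H.Normal)
    (N K₀ : Subgroup G) (hNn : N.Normal) (hc : N.IsComplement' H)
    (hK₀X : K₀ ≤ normalizer (H : Set G))
    (hNX : ∀ x ∈ normalizer (H : Set G), x ∈ N ↔ x ∈ K₀)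
    (hcomm : ∀ k ∈ K₀, ∀ h ∈ H, k * h = h * k)
    (hK₀dec : ∀ x ∈ normalizer (H : Set G), ∃ k ∈ K₀, ∃ h ∈ H, x = k * h)
    (hcop₀ : (Nat.card K₀).Coprime (Nat.card H)) :
    ∃ (F : Type u) (_ : Group F) (_ : Finite F) (C : Subgroup F), Cfsg.IsFrobeniusComplement C ∧ Nonempty (H ≃* C) := by
  classical
  set X := normalizer (H : Set G) with hX
  have hHX : H ≤ X := le_normalizer
  have hH1 : H ≠ ⊥ := by
    rintro rfl
    exact hnn inferInstance
  have hcardG : Nat.card N * Nat.card H = Nat.card G := hc.card_mul_card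
  -- `|H|` and `|N|` are coprime
  have hcop : (Nat.card N).Coprime (Nat.card H) := by
    by_contra hnot
    obtain ⟨p, hp, hpN, hpH⟩ := Nat.Prime.not_coprime_iff_dvd.mp hnot
    haveI : Fact p.Prime := ⟨hp⟩
    obtain ⟨P, hP⟩ := Cfsg.Agent.Lib.Coprime.exists_isSylowOf p H
    have hPH : P ≤ H := hP.le
    have hcP := Cfsg.Agent.Lib.Coprime.card_mul_relIndex hPH
    have hpP : p ∣ Nat.card P := by
      rw [← hcP] at hpH
      exact (hp.dvd_mul.mp hpH).resolve_right hP.not_dvd
    have hP1 : ∃ x ∈ P, x ≠ 1 := by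
      by_contra hcon
      push Not at hcon
      have : P = ⊥ := by
        rw [eq_bot_iff]
        intro x hx
        exact hcon x hx
      rw [this, Subgroup.card_bot] at hpP
      exact hp.one_lt.ne' (Nat.dvd_one.mp hpP)
    obtain ⟨x₀, hx₀, hx₀1⟩ := hP1
    obtain ⟨T, hT⟩ := hP.isP.exists_le_sylow
    have hTeq : (T : Subgroup G) = P := by
      by_contra hne
      have hlt : P < T := lt_of_le_of_ne hT (Ne.symm hne)
      obtain ⟨b, hbT, hbP, hbN⟩ := Cfsg.Agent.Lib.PGroups.Subnormalizer.growth p hlt T.isPGroup'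
      have hbX : b ∈ X := by
        by_contra hnotX
        have h1 : b * x₀ * b⁻¹ ∈ P := (mem_normalizer_iff.mp hbN x₀).mp hx₀
        exact hx₀1 (hTI b hnotX x₀ (hPH hx₀) (hPH h1))
      obtain ⟨k, hk, h, hh, rfl⟩ := hK₀dec b hbX
      have hkc : Commute k h := hcomm k hk h hh
      have hpb : IsPGroup p (T : Subgroup G) := T.isPGroup'
      obtain ⟨e, he⟩ := hpb ⟨k * h, hbT⟩
      have he' : (k * h) ^ p ^ e = 1 := congrArg Subtype.val he
      rw [hkc.mul_pow] at he'
      -- the order of `k` is a power of `p` dividing `|K₀|`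
      have hkk : k ^ p ^ e = 1 := by
        have h1 : k ^ p ^ e ∈ K₀ := pow_mem hk _
        have h2 : k ^ p ^ e ∈ H := by
          have : k ^ p ^ e = (h ^ p ^ e)⁻¹ := eq_inv_of_mul_eq_one_left he'
          rw [this]
          exact inv_mem (pow_mem hh _)
        have h3 := pow_card_eq_one' (G := K₀) (x := ⟨k ^ p ^ e, h1⟩)
        have h4 := pow_card_eq_one' (G := H) (x := ⟨k ^ p ^ e, h2⟩)
        have h5 : (k ^ p ^ e) ^ Nat.card K₀ = 1 := congrArg Subtype.val h3
        have h6 : (k ^ p ^ e) ^ Nat.card H = 1 := congrArg Subtype.val h4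
        have h7 := Nat.dvd_gcd (orderOf_dvd_of_pow_eq_one h5) (orderOf_dvd_of_pow_eq_one h6)
        rw [hcop₀] at h7
        exact orderOf_eq_one_iff.mp (Nat.dvd_one.mp h7)
      have hk1 : k = 1 := by
        have h3 := pow_card_eq_one' (G := K₀) (x := ⟨k, hk⟩)
        have h5 : k ^ Nat.card K₀ = 1 := congrArg Subtype.val h3
        have h7 := Nat.dvd_gcd (orderOf_dvd_of_pow_eq_one h5) (orderOf_dvd_of_pow_eq_one hkk)
        have hpK : (Nat.card K₀).Coprime (p ^ e) := by
          apply Nat.Coprime.pow_right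
          exact Nat.Coprime.coprime_dvd_right hpH hcop₀
        rw [hpK] at h7
        exact orderOf_eq_one_iff.mp (Nat.dvd_one.mp h7)
      subst hk1
      rw [one_mul] at hbT hbP
      have hS : (T : Subgroup G) ⊓ H = P :=
        Cfsg.Agent.Lib.Coprime.eq_of_isPGroup_of_not_dvd_relIndex (le_inf hT hPH) inf_le_right
          (T.isPGroup'.to_le inf_le_left) hP.not_dvd
      exact hbP (hS ▸ Subgroup.mem_inf.mpr ⟨hbT, hh⟩)
    -- `P` is a Sylow subgroup of `G`
    have hidx : p ∣ P.index := by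
      have h1 : P.relIndex H * H.index = P.index := Subgroup.relIndex_mul_index hPH
      have h2 : H.index = Nat.card N := by
        have h3 := Subgroup.card_mul_index H
        rw [← hcardG, mul_comm] at h3
        exact Nat.eq_of_mul_eq_mul_right Nat.card_pos h3
      rw [← h1, h2]
      exact Dvd.dvd.mul_left hpN _
    exact T.not_dvd_index (hTeq ▸ hidx)
  have hK₀N : K₀ ≤ N := fun k hk => (hNX k (hK₀X hk)).mpr hk
  have hNH : ∀ x, x ∈ N → x ∈ H → x = 1 := fun x h1 h2 => Subgroup.disjoint_def.mp hc.disjoint h1 h2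
  have hNK : ¬ N ≤ K₀ := by
    intro hle
    apply hnn
    have htop : X = ⊤ := by
      rw [eq_top_iff]
      intro g _
      obtain ⟨⟨n, h⟩, he⟩ := hc.2 g
      have he' : (n : G) * (h : G) = g := he
      rw [← he']
      exact mul_mem (hK₀X (hle n.2)) (hHX h.2)
    exact normalizer_eq_top_iff.mp htop
  have hCN : ∀ h ∈ H, h ≠ 1 → ∀ n ∈ N, n * h = h * n → n ∈ K₀ := by
    intro h hh hh1 n hn hcomm'
    have hnX : n ∈ X := by
      by_contra hnot
      apply hh1
      refine hTI n hnot h hh ?_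
      rw [hcomm', mul_inv_cancel_right]
      exact hh
    exact (hNX n hnX).mp hn
  -- a minimal invariant subgroup
  let 𝓐 : Set (Subgroup G) := {A | A ≤ N ∧ H ≤ normalizer (A : Set G) ∧ ¬ A ≤ K₀}
  have hNmem : N ∈ 𝓐 := ⟨le_rfl, normalizer_eq_top_iff.mpr hNn ▸ le_top, hNK⟩
  obtain ⟨A, -, hAmin⟩ := (Set.toFinite 𝓐).exists_le_minimal hNmem
  obtain ⟨hAN, hHA, hAK⟩ := hAmin.prop
  set B := A ⊓ K₀ with hB
  have hBA : B ≤ A := inf_le_left
  have hBN : B ≤ N := hBA.trans hAN
  -- automorphisms of `A`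
  have hconjA : ∀ h ∈ H, ∀ a ∈ A, h * a * h⁻¹ ∈ A := fun h hh a ha =>
    (mem_normalizer_iff.mp (hHA hh) a).mp ha
  let φ : H → (A ≃* A) := fun h =>
    { toFun := fun a => ⟨h.1 * a.1 * h.1⁻¹, hconjA h.1 h.2 a.1 a.2⟩
      invFun := fun a => ⟨h.1⁻¹ * a.1 * h.1, by
        have := hconjA h.1⁻¹ (inv_mem h.2) a.1 a.2
        simpa using this⟩
      left_inv := fun a => by
        apply Subtype.ext
        simp [mul_assoc]
      right_inv := fun a => by
        apply Subtype.ext
        simp [mul_assoc]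
      map_mul' := fun a b => by
        apply Subtype.ext
        simp [mul_assoc] }
  have hφ : ∀ (h : H) (a : A), ((φ h a : A) : G) = h.1 * a.1 * h.1⁻¹ := fun h a => rfl
  have hBnormal : (B.subgroupOf A).Normal := by
    refine normal_of_invariant _ A (B.subgroupOf A) φ rfl ?_ ?_
    · intro h b hb
      apply Subtype.ext
      rw [hφ]
      have hbK : (b : G) ∈ K₀ := (mem_subgroupOf.mp hb).2
      rw [← hcomm _ hbK _ h.2]
      simp
    · intro C hC
      by_cases hCtop : C = ⊤
      · exact Or.inl hCtop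
      right
      have hC₁A : C.map A.subtype ≤ A := map_subtype_le C
      have hne : C.map A.subtype ≠ A := by
        intro he
        apply hCtop
        rw [eq_top_iff]
        intro a _
        have : (a : G) ∈ C.map A.subtype := by rw [he]; exact a.2
        obtain ⟨a', ha', hae⟩ := this
        have : a' = a := Subtype.ext hae
        exact this ▸ ha'
      have hC₁K : C.map A.subtype ≤ K₀ := by
        by_contra hnot
        have hmem : C.map A.subtype ∈ 𝓐 := by
          refine ⟨hC₁A.trans hAN, ?_, hnot⟩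
          intro h hh
          apply Cfsg.Agent.Lib.PGroups.mem_normalizer_of_conj_le'
          rintro _ ⟨a, ha, rfl⟩
          refine ⟨φ ⟨h, hh⟩ a, (hC ⟨h, hh⟩ a).mp ha, rfl⟩
        exact hne (le_antisymm hC₁A (hAmin.le_of_le hmem hC₁A))
      intro a ha
      exact mem_subgroupOf.mpr (Subgroup.mem_inf.mpr ⟨a.2, hC₁K ⟨a, ha, rfl⟩⟩)
  -- the Frobenius group as a section of `G`
  set Y := A ⊔ H with hY
  have hAY : A ≤ Y := le_sup_left
  have hHY : H ≤ Y := le_sup_right
  have hBY : B ≤ Y := hBA.trans hAY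
  have hBnorm : Y ≤ normalizer (B : Set G) := by
    refine sup_le ?_ ?_
    · exact (normal_subgroupOf_iff_le_normalizer hBA).mp hBnormal
    · intro h hh
      apply Cfsg.Agent.Lib.PGroups.mem_normalizer_of_conj_le'
      intro b hb
      have hbK : b ∈ K₀ := (mem_inf.mp hb).2
      rw [← hcomm _ hbK _ hh]
      simpa using hb
  have hAnorm : Y ≤ normalizer (A : Set G) := sup_le le_normalizer hHA
  have hDn : (B.subgroupOf Y).Normal := (normal_subgroupOf_iff_le_normalizer hBY).mpr hBnorm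
  have hAn : (A.subgroupOf Y).Normal := (normal_subgroupOf_iff_le_normalizer hAY).mpr hAnorm
  let F := Y ⧸ B.subgroupOf Y
  let π : Y →* F := QuotientGroup.mk' (B.subgroupOf Y)
  have hπs : Function.Surjective π := QuotientGroup.mk'_surjective _
  have hπ1 : ∀ y : Y, π y = 1 ↔ (y : G) ∈ B := by
    intro y
    rw [QuotientGroup.mk'_apply, QuotientGroup.eq_one_iff]
    exact mem_subgroupOf
  let inc : H →* Y := Subgroup.inclusion hHY
  let ι : H →* F := π.comp inc
  have hιinj : Function.Injective ι := by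
    rw [injective_iff_map_eq_one]
    intro h hh
    have h1 := (hπ1 (inc h)).mp hh
    have h2 : (h : G) = 1 := hNH _ (hBN h1) h.2
    exact Subtype.ext h2
  let C : Subgroup F := ι.range
  let KF : Subgroup F := (A.subgroupOf Y).map π
  haveI hKFn : KF.Normal := hAn.map π hπs
  have hABdisj : ∀ (a : A) (h : H), π ⟨a, hAY a.2⟩ = ι h → (h : G) = 1 := by
    intro a h he
    have h1 : π (⟨a, hAY a.2⟩⁻¹ * inc h) = 1 := by
      rw [map_mul, map_inv, he]
      simp [ι]
    have h2 := (hπ1 _).mp h1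
    have h3 : (a : G)⁻¹ * (h : G) ∈ B := h2
    have h4 : (h : G) = (a : G) * ((a : G)⁻¹ * (h : G)) := by group
    have h5 : (h : G) ∈ A := by
      rw [h4]
      exact mul_mem a.2 (hBA h3)
    exact hNH _ (hAN h5) h.2
  have hcompl : KF.IsComplement' C := by
    apply isComplement'_of_disjoint_and_mul_eq_univ
    · rw [Subgroup.disjoint_def]
      rintro z ⟨y, hy, rfl⟩ ⟨h, hh⟩
      have h1 := hABdisj ⟨y, mem_subgroupOf.mp hy⟩ h hh.symm
      have h2 : h = 1 := Subtype.ext h1
      rw [← hh, h2, map_one]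
    · rw [Set.eq_univ_iff_forall]
      intro z
      obtain ⟨y, rfl⟩ := hπs z
      have hsup : A.subgroupOf Y ⊔ H.subgroupOf Y = ⊤ := by
        rw [← Subgroup.subgroupOf_sup hAY hHY]
        exact subgroupOf_self Y
      have hy : y ∈ ((A.subgroupOf Y ⊔ H.subgroupOf Y : Subgroup Y) : Set Y) := by
        rw [hsup]
        exact mem_top y
      rw [Subgroup.normal_mul] at hy
      obtain ⟨a, ha, h, hh, rfl⟩ := Set.mem_mul.mp hy
      refine Set.mem_mul.mpr ⟨π a, ⟨a, ha, rfl⟩, π h, ⟨⟨h, mem_subgroupOf.mp hh⟩, rfl⟩, ?_⟩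
      rw [map_mul]
  -- fixed point freeness
  have ha₀ : ∃ a₀ ∈ A, a₀ ∉ K₀ := by
    by_contra hcon
    push Not at hcon
    exact hAK hcon
  obtain ⟨a₀, ha₀A, ha₀K⟩ := ha₀
  have hKF1 : KF ≠ ⊥ := by
    intro h
    have h1 : π ⟨a₀, hAY ha₀A⟩ ∈ KF := ⟨⟨a₀, hAY ha₀A⟩, mem_subgroupOf.mpr ha₀A, rfl⟩
    rw [h, Subgroup.mem_bot, hπ1] at h1
    exact ha₀K (mem_inf.mp h1).2
  have hC1 : C ≠ ⊥ := by
    intro h
    apply hH1
    rw [eq_bot_iff]
    intro x hx
    have h1 : ι ⟨x, hx⟩ ∈ C := ⟨⟨x, hx⟩, rfl⟩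
    rw [h, Subgroup.mem_bot] at h1
    have h2 := hιinj (h1.trans (map_one ι).symm)
    exact congrArg Subtype.val h2
  have hfpf : ∀ z ∈ C, z ≠ 1 → KF ⊓ centralizer {z} = ⊥ := by
    rintro _ ⟨h, rfl⟩ hz
    have hh1 : (h : G) ≠ 1 := by
      intro h0
      apply hz
      have : h = 1 := Subtype.ext h0
      rw [this, map_one]
    rw [eq_bot_iff]
    rintro w hw
    obtain ⟨⟨y, hy, rfl⟩, hwc⟩ := Subgroup.mem_inf.mp hw
    have hyA : (y : G) ∈ A := mem_subgroupOf.mp hy
    have hcw : π y * ι h = ι h * π y := mem_centralizer_singleton_iff.mp hwc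
    -- lift to a fixed element
    have hzp : zpowers (h : G) ≤ normalizer (B : Set G) := by
      rw [zpowers_le]
      exact hBnorm (hHY h.2)
    have hcopz : (Nat.card B).Coprime (Nat.card (zpowers (h : G))) := by
      have h1 : Nat.card B ∣ Nat.card N := Subgroup.card_dvd_of_le hBN
      have h2 : Nat.card (zpowers (h : G)) ∣ Nat.card H := by
        apply Subgroup.card_dvd_of_le
        rw [zpowers_le]
        exact h.2
      exact Nat.Coprime.coprime_dvd_left h1 (Nat.Coprime.coprime_dvd_right h2 hcop)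
    obtain ⟨n, hnB, hnc⟩ := Cfsg.Agent.Lib.OddLocal.exists_mul_mem_centralizer hzp hcopz
      (Or.inr inferInstance) (y : G) (by
        rintro c hc
        obtain ⟨k, rfl⟩ := mem_zpowers_iff.mp hc
        have hcomm' : Commute (π y) (ι h ^ k) := (show Commute (π y) (ι h) from hcw).zpow_right k
        have hk : ι h ^ k = π (inc h ^ k) := by
          rw [map_zpow]
          rfl
        rw [hk] at hcomm'
        have h1 : π (y * inc h ^ k * y⁻¹ * (inc h ^ k)⁻¹) = 1 := by
          rw [map_mul, map_mul, map_mul, map_inv, map_inv, hcomm'.eq]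
          group
        have h2 := (hπ1 _).mp h1
        simpa [inc, Subgroup.coe_inclusion] using h2)
    have hnay : n * (y : G) ∈ K₀ := by
      refine hCN h.1 h.2 hh1 (n * y) (mul_mem (hBN hnB) (hAN hyA)) ?_
      have h1 := mem_centralizer_iff.mp hnc (h : G) (mem_zpowers _)
      exact h1.symm
    have hnayB : n * (y : G) ∈ B := Subgroup.mem_inf.mpr ⟨mul_mem (hBA hnB) hyA, hnay⟩
    have hyB : (y : G) ∈ B := by
      have e : (y : G) = n⁻¹ * (n * y) := by group
      rw [e]
      exact mul_mem (inv_mem hnB) hnayB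
    exact (hπ1 y).mpr hyB
  refine ⟨F, inferInstance, inferInstance, C, ?_, ⟨MonoidHom.ofInjective hιinj⟩⟩
  exact (Cfsg.Agent.Lib.Basic.isFrobeniusComplement_iff_fpf hcompl hKF1 hC1).mpr hfpf

end aux

/-- Let G be a finite group and H a subgroup that meets each of its conjugates by elements outside N_G(H) trivially and whose order is coprime to its index in N_G(H). Then H has a normal complement in N_G(H) if and only if H has a normal complement in G. Moreover, if H is not normal in G and has a normal complement in N_G(H), then H is isomorphic to a Frobenius complement of some finite Frobenius group. -/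
theorem result {G : Type u} [Group G] [Finite G] (H : Subgroup G)
    (hTI : Cfsg.IsTISubset (H : Set G)) (hHall : (Nat.card H).Coprime (H.subgroupOf (Subgroup.normalizer (H : Set G))).index) :
    ((∃ K : Subgroup (Subgroup.normalizer (H : Set G)), K.Normal ∧ K.IsComplement' (H.subgroupOf (Subgroup.normalizer (H : Set G)))) ↔
      (∃ N : Subgroup G, N.Normal ∧ N.IsComplement' H)) ∧
    (¬ H.Normal → (∃ K : Subgroup (Subgroup.normalizer (H : Set G)), K.Normal ∧ K.IsComplement' (H.subgroupOf (Subgroup.normalizer (H : Set G)))) →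
      ∃ (F : Type u) (_ : Group F) (_ : Finite F) (C : Subgroup F), Cfsg.IsFrobeniusComplement C ∧ Nonempty (H ≃* C)) := by
  refine ⟨⟨fun ⟨K, hKn, hKc⟩ => ?_, fun ⟨N, hNn, hc⟩ => bwd H N hNn hc⟩, fun hnn ⟨K, hKn, hKc⟩ => ?_⟩
  · obtain ⟨N, K₀, hNn, hc, -⟩ := fwd H _ rfl hTI hHall K hKn hKc
    exact ⟨N, hNn, hc⟩
  · obtain ⟨N, K₀, hNn, hc, hK₀X, hNX, hcomm, hdec, hcop⟩ := fwd H _ rfl hTI hHall K hKn hKc
    exact snd H hTI hnn N K₀ hNn hc hK₀X hNX hcomm hdec hcop

end Cfsg.Agent.S4115
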