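import Cfsg.Statements.S4116
import Cfsg.Agent.Lib.PGroups.Parts
import Cfsg.Agent.Lib.Basic.Frobenius
import Cfsg.Agent.Lib.Coprime.Conj

set_option autoImplicit false
open Cfsg

namespace Cfsg.Agent.S4116

open Subgroup Cfsg.Agent.Lib.Basic Cfsg.Agent.Lib.PGroups
open scoped Pointwise


/-- Let G be a finite group with a subgroup H whose order is coprime to its index (a Hall subgroup) and which meets each of its conjugates by elements outside N_G(H) trivially. Then every subgroup of G whose order is divisible only by primes dividing the order of H lies in a conjugate of H. -/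
theorem result {G : Type*} [Group G] [Finite G] (H : Subgroup G)
    (hHall : (Nat.card H).Coprime H.index) (hTI : Cfsg.IsTISubset (H : Set G))
    (K : Subgroup G) (hK : ∀ q : ℕ, q.Prime → q ∣ Nat.card K → q ∣ Nat.card H) :
    ∃ g : G, K ≤ H.map (MulAut.conj g).toMonoidHom := by
  classical
  have hTI' : ∀ g x : G, x ≠ 1 → x ∈ H → g * x * g⁻¹ ∈ H → g ∈ normalizer (H : Set G) := by
    intro g x hx hxH hg
    by_contra hn
    exact hx (hTI g hn x hxH hg)
  -- a `π`-element normalizing `H` lies in `H`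
  have hc : ∀ y : G, (∀ q : ℕ, q.Prime → q ∣ orderOf y → q ∣ Nat.card H) →
      y ∈ normalizer (H : Set G) → y ∈ H := by
    intro y hy hyN
    set N := normalizer (H : Set G) with hN
    have hle : H ≤ N := Subgroup.le_normalizer
    haveI hn : (H.subgroupOf N).Normal := Subgroup.normal_subgroupOf_of_le_normalizer le_rfl
    let ybar : N ⧸ H.subgroupOf N := ((⟨y, hyN⟩ : N) : N ⧸ H.subgroupOf N)
    have hd1 : orderOf ybar ∣ orderOf y := by
      have := orderOf_map_dvd (QuotientGroup.mk' (H.subgroupOf N)) (⟨y, hyN⟩ : N)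
      rwa [Subgroup.orderOf_mk] at this
    have hd2 : orderOf ybar ∣ H.index := by
      have h1 : orderOf ybar ∣ Nat.card (N ⧸ H.subgroupOf N) := orderOf_dvd_natCard ybar
      have h2 := Subgroup.relIndex_mul_index hle
      rw [← h2]
      exact h1.trans (Dvd.intro _ rfl)
    have hd : orderOf ybar = 1 := by
      by_contra hne
      obtain ⟨q, hq, hqd⟩ := Nat.exists_prime_and_dvd hne
      exact Nat.not_coprime_of_dvd_of_dvd hq.one_lt (hy q hq (hqd.trans hd1)) (hqd.trans hd2) hHall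
    have h3 : ybar = 1 := orderOf_eq_one_iff.mp hd
    have h4 : (⟨y, hyN⟩ : N) ∈ H.subgroupOf N := (QuotientGroup.eq_one_iff _).mp h3
    exact Subgroup.mem_subgroupOf.mp h4
  have hconjne : ∀ a x : G, x ≠ 1 → a⁻¹ * x * a ≠ 1 := by
    intro a x hx h
    apply hx
    have : x = a * (a⁻¹ * x * a) * a⁻¹ := by group
    rw [this, h]; group
  have huniq : ∀ a b x : G, x ≠ 1 → a⁻¹ * x * a ∈ H → b⁻¹ * x * b ∈ H →
      b⁻¹ * a ∈ normalizer (H : Set G) := by
    intro a b x hx ha hb
    apply hTI' (b⁻¹ * a) (a⁻¹ * x * a) (hconjne a x hx) ha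
    convert hb using 1
    group
  -- every `π`-element lies in a conjugate of `H`
  have hall : ∀ x : G, (∀ q : ℕ, q.Prime → q ∣ orderOf x → q ∣ Nat.card H) →
      ∃ b : G, b⁻¹ * x * b ∈ H := by
    intro x hx
    by_cases hx1 : x = 1
    · exact ⟨1, by simp [hx1]⟩
    obtain ⟨q, hq, hqx⟩ := Nat.exists_prime_and_dvd (fun h => hx1 (orderOf_eq_one_iff.mp h))
    haveI : Fact q.Prime := ⟨hq⟩
    obtain ⟨u, v, e, hcomm, ⟨k, hk⟩, hv, huz, hvz⟩ := exists_pPart q x
    have hu1 : u ≠ 1 := by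
      rintro rfl
      apply hv
      rw [one_mul] at e
      rwa [← e]
    have hqH := hx q hq hqx
    have hqi : ¬ q ∣ H.index := fun h =>
      Nat.not_coprime_of_dvd_of_dvd hq.one_lt hqH h hHall
    obtain ⟨g, hg⟩ := Cfsg.Agent.Lib.Coprime.exists_le_conj_of_not_dvd_index (P := zpowers u)
      (isPGroup_zpowers_iff.mpr ⟨k, hk⟩) H hqi
    have hu : g⁻¹ * u * g ∈ H := (Cfsg.Agent.Lib.Coprime.mem_conj_map H g u).mp (hg (mem_zpowers u))
    have hvN : g⁻¹ * v * g ∈ normalizer (H : Set G) := by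
      apply hTI' _ (g⁻¹ * u * g) (hconjne g u hu1) hu
      have : (g⁻¹ * v * g) * (g⁻¹ * u * g) * (g⁻¹ * v * g)⁻¹ = g⁻¹ * (v * u) * v⁻¹ * g := by group
      rw [this, ← hcomm.eq]
      convert hu using 1
      group
    have hv' : g⁻¹ * v * g ∈ H := by
      apply hc _ _ hvN
      intro q' hq' hd
      rw [orderOf_conj_inv_eq] at hd
      exact hx q' hq' (hd.trans (orderOf_dvd_of_mem_zpowers hvz))
    refine ⟨g, ?_⟩
    rw [e]
    have : g⁻¹ * (u * v) * g = (g⁻¹ * u * g) * (g⁻¹ * v * g) := by group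
    rw [this]
    exact H.mul_mem hu hv'
  have hKpi : ∀ x : K, ∀ q : ℕ, q.Prime → q ∣ orderOf (x : G) → q ∣ Nat.card H := by
    intro x q hq hd
    apply hK q hq
    rw [Subgroup.orderOf_coe] at hd
    exact hd.trans (orderOf_dvd_natCard x)
  by_cases hKbot : K = ⊥
  · refine ⟨1, ?_⟩
    rw [hKbot]
    exact bot_le
  obtain ⟨x₀, hx₀⟩ := Subgroup.ne_bot_iff_exists_ne_one.mp hKbot
  have hx₀' : (x₀ : G) ≠ 1 := fun h => hx₀ (Subtype.ext h)
  obtain ⟨a, ha⟩ := hall (x₀ : G) (hKpi x₀)
  let Lf : G → Subgroup K := fun b => (H.map (MulAut.conj b).toMonoidHom).subgroupOf K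
  have hLf : ∀ (b : G) (z : K), z ∈ Lf b ↔ b⁻¹ * (z : G) * b ∈ H := by
    intro b z
    rw [Subgroup.mem_subgroupOf]
    exact Cfsg.Agent.Lib.Coprime.mem_conj_map H b z
  have hLfd : ∀ b : G, IsConjDisjoint (Lf b) := by
    intro b g hg
    rw [eq_bot_iff]
    intro z hz
    obtain ⟨hz1, hz2⟩ := Subgroup.mem_inf.mp hz
    rw [mem_conj_smul, hLf] at hz2
    rw [hLf] at hz1
    rw [Subgroup.mem_bot]
    by_contra hz0
    have hz0' : (z : G) ≠ 1 := fun h => hz0 (Subtype.ext h)
    have h1 := huniq ((g : G) * b) b z hz0' (by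
      convert hz2 using 1
      simp only [Subgroup.coe_mul, InvMemClass.coe_inv]
      group) hz1
    have h2 : b⁻¹ * (g : G) * b ∈ normalizer (H : Set G) := by
      convert h1 using 1
      group
    have h3 : b⁻¹ * (g : G) * b ∈ H := by
      apply hc _ _ h2
      intro q hq hd
      rw [orderOf_conj_inv_eq] at hd
      exact hKpi g q hq hd
    exact hg ((hLf b g).mpr h3)
  by_cases htop : Lf a = ⊤
  · refine ⟨a, ?_⟩
    intro z hz
    have : (⟨z, hz⟩ : K) ∈ Lf a := by rw [htop]; exact Subgroup.mem_top _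
    exact Subgroup.mem_subgroupOf.mp this
  exfalso
  have hca := (hLfd a).ncard_frobU_add_index
  have hLa1 : 2 ≤ Nat.card (Lf a) := by
    have hne : Lf a ≠ ⊥ := by
      intro h
      have : x₀ ∈ Lf a := (hLf a x₀).mpr ha
      rw [h, Subgroup.mem_bot] at this
      exact hx₀ this
    haveI : Nontrivial (Lf a) := (Subgroup.nontrivial_iff_ne_bot _).mpr hne
    exact Finite.one_lt_card
  have hia : 2 * (Lf a).index ≤ Nat.card K := by
    have := Subgroup.card_mul_index (Lf a)
    rw [← this]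
    exact Nat.mul_le_mul_right _ hLa1
  have hi1 : 2 ≤ (Lf a).index := by
    have h0 : (Lf a).index ≠ 0 := Subgroup.index_ne_zero_of_finite
    have h1 : (Lf a).index ≠ 1 := fun h => htop (Subgroup.index_eq_one.mp h)
    omega
  -- the nonidentity elements
  have hne1 : ({z : K | z ≠ 1}).ncard = Nat.card K - 1 := by
    have h1 : ({z : K | z ≠ 1}) = ({1} : Set K)ᶜ := by
      ext z; simp
    rw [h1, Set.ncard_compl, Set.ncard_singleton]
  have hsub : ∀ L : Subgroup K, frobU L ⊆ {z : K | z ≠ 1} := fun L z hz => hz.1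
  obtain ⟨z, hz1, hz⟩ : ∃ z : K, z ≠ 1 ∧ z ∉ frobU (Lf a) := by
    by_contra hno
    push Not at hno
    have h2 : {z : K | z ≠ 1} ⊆ frobU (Lf a) := fun z hz => hno z hz
    have h3 := Set.ncard_le_ncard h2 (Set.toFinite _)
    omega
  have hz1' : (z : G) ≠ 1 := fun h => hz1 (Subtype.ext h)
  obtain ⟨b, hb⟩ := hall (z : G) (hKpi z)
  have hcb := (hLfd b).ncard_frobU_add_index
  have hLb1 : 2 ≤ Nat.card (Lf b) := by
    have hne : Lf b ≠ ⊥ := by
      intro h
      have : z ∈ Lf b := (hLf b z).mpr hb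
      rw [h, Subgroup.mem_bot] at this
      exact hz1 this
    haveI : Nontrivial (Lf b) := (Subgroup.nontrivial_iff_ne_bot _).mpr hne
    exact Finite.one_lt_card
  have hib : 2 * (Lf b).index ≤ Nat.card K := by
    have := Subgroup.card_mul_index (Lf b)
    rw [← this]
    exact Nat.mul_le_mul_right _ hLb1
  have hdisj : Disjoint (frobU (Lf a)) (frobU (Lf b)) := by
    rw [Set.disjoint_left]
    rintro w ⟨hw1, c, hc'⟩ ⟨-, d, hd'⟩
    apply hz
    have hw1' : (w : G) ≠ 1 := fun h => hw1 (Subtype.ext h)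
    rw [mem_conj_smul, hLf] at hc' hd'
    have h1 := huniq ((c : G) * a) ((d : G) * b) w hw1' (by
      convert hc' using 1
      simp only [Subgroup.coe_mul, InvMemClass.coe_inv]
      group) (by
      convert hd' using 1
      simp only [Subgroup.coe_mul, InvMemClass.coe_inv]
      group)
    refine ⟨hz1, d⁻¹ * c, ?_⟩
    rw [mem_conj_smul, hLf]
    set n := ((d : G) * b)⁻¹ * ((c : G) * a) with hn
    have h2 : n⁻¹ * (b⁻¹ * (z : G) * b) * n ∈ H :=
      ((mem_normalizer_iff.mp (inv_mem h1)) _).mp hb |> fun h => by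
        simpa [mul_assoc] using h
    convert h2 using 1
    rw [hn]
    simp only [Subgroup.coe_mul, InvMemClass.coe_inv]
    group
  have hU := Set.ncard_union_eq hdisj (Set.toFinite _) (Set.toFinite _)
  have hle : (frobU (Lf a) ∪ frobU (Lf b)).ncard ≤ Nat.card K - 1 := by
    rw [← hne1]
    exact Set.ncard_le_ncard (Set.union_subset (hsub _) (hsub _)) (Set.toFinite _)
  have hKpos : 0 < Nat.card K := Nat.card_pos
  omega

end Cfsg.Agent.S4116
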