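import Cfsg.Statements.S4117
import Cfsg.Agent.Lib.Coprime.Abelian

set_option autoImplicit false
open Cfsg

namespace Cfsg.Agent.S4117

open Subgroup Cfsg.Agent.Lib.Coprime
open scoped commutatorElement

private lemma mem_zpowers_of_prime_order {P : Type*} [Group P] [Finite P] [IsCyclic P] {q : ℕ}
    (hq : q.Prime) {x y : P} (hx : orderOf x = q) (hy : orderOf y = q) : x ∈ zpowers y := by
  classical
  haveI := Fintype.ofFinite P
  have h1 := IsCyclic.card_pow_eq_one_le (α := P) hq.pos
  have h2 : ((zpowers y : Subgroup P) : Set P) ⊆ {a : P | a ^ q = 1} := by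
    rintro _ ⟨k, rfl⟩
    show (y ^ k) ^ q = 1
    rw [← zpow_natCast, zpow_comm, zpow_natCast, ← hy, pow_orderOf_eq_one, one_zpow]
  have h3 : ({a : P | a ^ q = 1} : Set P).ncard ≤ ((zpowers y : Subgroup P) : Set P).ncard := by
    have e1 : ((zpowers y : Subgroup P) : Set P).ncard = q := by
      rw [← Nat.card_coe_set_eq]
      show Nat.card (zpowers y) = q
      rw [Nat.card_zpowers, hy]
    have e2 : ({a : P | a ^ q = 1} : Set P).ncard ≤ q := by
      rw [Set.ncard_eq_toFinset_card']
      convert h1 using 2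
      ext a
      simp
    omega
  have h4 := Set.eq_of_subset_of_ncard_le h2 h3 (Set.toFinite _)
  have h5 : x ∈ ((zpowers y : Subgroup P) : Set P) := by
    rw [h4]
    show x ^ q = 1
    rw [← hx, pow_orderOf_eq_one]
  exact h5

private lemma commute_commutator_of_cyclic {X : Type*} [Group X] {U : Subgroup X} (hc : IsCyclic U)
    {u v x : X} (hu : u ∈ normalizer (U : Set X)) (hv : v ∈ normalizer (U : Set X)) (hx : x ∈ U) :
    Commute ⁅u, v⁆ x := by
  obtain ⟨⟨g, hgU⟩, hgen⟩ := hc
  have hpw : ∀ y ∈ U, ∃ j : ℤ, y = g ^ j := by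
    intro y hy
    obtain ⟨j, hj⟩ := hgen ⟨y, hy⟩
    exact ⟨j, (congrArg Subtype.val hj).symm.trans (by simp)⟩
  have hact : ∀ w ∈ normalizer (U : Set X), ∃ k : ℤ, ∀ y ∈ U, w * y * w⁻¹ = y ^ k := by
    intro w hw
    obtain ⟨k, hk⟩ := hpw (w * g * w⁻¹) ((mem_normalizer_iff.mp hw g).mp hgU)
    refine ⟨k, fun y hy => ?_⟩
    obtain ⟨j, rfl⟩ := hpw y hy
    have : w * g ^ j * w⁻¹ = (w * g * w⁻¹) ^ j := by
      simp [conj_zpow]
    rw [this, hk, zpow_comm]
  obtain ⟨k, hk⟩ := hact u hu
  obtain ⟨l, hl⟩ := hact v hv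
  have hy : (v * u)⁻¹ * x * (v * u) ∈ U := by
    have h1 := (mem_normalizer_iff.mp (inv_mem (mul_mem hv hu)) x).mp hx
    simpa using h1
  set y := (v * u)⁻¹ * x * (v * u) with hydef
  have hx' : x = (v * u) * y * (v * u)⁻¹ := by rw [hydef]; group
  have h1 : (v * u) * y * (v * u)⁻¹ = (y ^ k) ^ l := by
    have : (v * u) * y * (v * u)⁻¹ = v * (u * y * u⁻¹) * v⁻¹ := by group
    rw [this, hk y hy, hl _ (zpow_mem hy k)]
  have h2 : (u * v) * y * (u * v)⁻¹ = (y ^ l) ^ k := by
    have : (u * v) * y * (u * v)⁻¹ = u * (v * y * v⁻¹) * u⁻¹ := by group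
    rw [this, hl y hy, hk _ (zpow_mem hy l)]
  have h3 : (u * v) * y * (u * v)⁻¹ = x := by
    rw [h2, hx', h1, zpow_comm]
  show ⁅u, v⁆ * x = x * ⁅u, v⁆
  rw [commutatorElement_def]
  have h4 : u * v * u⁻¹ * v⁻¹ = (u * v) * (v * u)⁻¹ := by group
  rw [h4]
  have h5 : (v * u)⁻¹ * x = y * (v * u)⁻¹ := by rw [hydef]; group
  calc (u * v) * (v * u)⁻¹ * x = (u * v) * ((v * u)⁻¹ * x) := by group
    _ = (u * v) * (y * (v * u)⁻¹) := by rw [h5]
    _ = ((u * v) * y * (u * v)⁻¹) * ((u * v) * (v * u)⁻¹) := by group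
    _ = x * ((u * v) * (v * u)⁻¹) := by rw [h3]

private lemma core {X : Type*} [Group X] [Finite X] {G A : Subgroup X} (h : CoprimeAction A G)
    (hZ : IsZGroup G) : IsMulCommutative (⁅G, A⁆ : Subgroup X) := by
  set N : Subgroup X := ⁅G, A⁆ with hN
  have hNG : N ≤ G := h.commutator_le_self
  have hAN : A ≤ normalizer (N : Set X) := h.le_normalizer_commutator
  have hGN : G ≤ normalizer (N : Set X) := h.le_normalizer_commutator'
  have hNN : ⁅N, A⁆ = N := h.commutator_commutator_eq
  haveI hZN : IsZGroup N :=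
    IsZGroup.of_injective (f := Subgroup.inclusion hNG) (Subgroup.inclusion_injective hNG)
  -- `U = [N, N]` is cyclic
  have hU : IsCyclic (⁅N, N⁆ : Subgroup X) := by
    have h1 : IsCyclic (commutator N) := IsZGroup.isCyclic_commutator N
    have h2 : (commutator N).map N.subtype = ⁅N, N⁆ := Subgroup.map_subtype_commutator N
    rw [← h2]
    exact isCyclic_of_surjective
      (Subgroup.equivMapOfInjective (commutator N) N.subtype N.subtype_injective).toMonoidHom
      (Subgroup.equivMapOfInjective (commutator N) N.subtype N.subtype_injective).surjective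
  have hUn : normalizer (N : Set X) ≤ normalizer ((⁅N, N⁆ : Subgroup X) : Set X) := by
    intro g hg
    rw [Subgroup.mem_normalizer_iff_map_conj_eq] at hg ⊢
    rw [Subgroup.map_commutator, hg]
  -- `[N, A]` centralizes `U`
  have hcen' : ⁅N, A⁆ ≤ centralizer ((⁅N, N⁆ : Subgroup X) : Set X) := by
    rw [Subgroup.commutator_le]
    intro n hn a ha
    rw [mem_centralizer_iff]
    intro x hx
    have := commute_commutator_of_cyclic hU (hUn (hGN (hNG hn))) (hUn (hAN ha)) hx
    exact this.symm.eq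
  have hcen : N ≤ centralizer ((⁅N, N⁆ : Subgroup X) : Set X) := by
    rw [hNN] at hcen'
    exact hcen'
  -- `N` is abelian
  have hle : (Abelianization.of (G := N)).ker ≤ center N := by
    rw [Abelianization.ker_of]
    intro x hx
    rw [mem_center_iff]
    intro y
    have h1 : (x : X) ∈ ⁅N, N⁆ := by
      rw [← Subgroup.map_subtype_commutator N]
      exact ⟨x, hx, rfl⟩
    have h2 := hcen y.2
    rw [mem_centralizer_iff] at h2
    exact Subtype.ext (h2 _ h1).symm
  exact MonoidHom.isMulCommutative_of_isCyclic_of_ker_le_center (Abelianization.of (G := N)) hle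

private lemma main {G A X : Type*} [Group G] [Finite G] [Group A] [Finite A]
    [MulDistribMulAction A G] [Group X] [Finite X] (i : G →* X) (j : A →* X)
    (hi : Function.Injective i) (hj : Function.Injective j)
    (hrel : ∀ (a : A) (g : G), j a * i g * (j a)⁻¹ = i (a • g))
    (hGGn : i.range.Normal)
    (hcop : (Nat.card A).Coprime (Nat.card G))
    (hcyc : ∀ (p : ℕ) [Fact p.Prime] (P : Sylow p G), IsCyclic (P : Subgroup G)) :
    (Nat.card (MulAction.fixedPoints A G : Set G)).Coprime (Nat.card G / Nat.card (MulAction.fixedPoints A G : Set G)) ∧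
    IsCyclic (Subgroup.closure {y : G | ∃ (a : A) (g : G), y = g⁻¹ * a • g}) ∧
    (Subgroup.closure {y : G | ∃ (a : A) (g : G), y = g⁻¹ * a • g}).Normal ∧
    (Subgroup.closure {y : G | ∃ (a : A) (g : G), y = g⁻¹ * a • g} : Set G) ∩ MulAction.fixedPoints A G = {1} ∧
    Subgroup.closure {y : G | ∃ (a : A) (g : G), y = g⁻¹ * a • g} ⊔ Subgroup.closure (MulAction.fixedPoints A G) = ⊤ := by
  classical
  haveI hZG : IsZGroup G := ⟨fun p hp P => by
    haveI := Fact.mk hp
    exact hcyc p P⟩
  set GG : Subgroup X := i.range with hGG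
  set AA : Subgroup X := j.range with hAA
  have hcardGG : Nat.card GG = Nat.card G := Nat.card_congr (MonoidHom.ofInjective hi).symm.toEquiv
  have hcardAA : Nat.card AA = Nat.card A := Nat.card_congr (MonoidHom.ofInjective hj).symm.toEquiv
  have hsolv : Group.IsSolvable G := inferInstance
  have hact : CoprimeAction AA GG := by
    refine ⟨?_, ?_, ?_⟩
    · rw [Subgroup.normalizer_eq_top_iff.mpr hGGn]; exact le_top
    · rw [hcardGG, hcardAA]; exact hcop
    · right
      exact solvable_of_surjective (f := (MonoidHom.ofInjective hi).toMonoidHom) (MonoidHom.ofInjective hi).surjective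
  have hZGG : IsZGroup GG := IsZGroup.of_surjective (f := (MonoidHom.ofInjective hi).toMonoidHom) (MonoidHom.ofInjective hi).surjective
  set Γ : Subgroup G := Subgroup.closure {y : G | ∃ (a : A) (g : G), y = g⁻¹ * a • g} with hΓ
  -- the fixed point subgroup
  let C : Subgroup G :=
    { carrier := MulAction.fixedPoints A G
      mul_mem' := by
        intro x y hx hy a
        rw [smul_mul', hx a, hy a]
      one_mem' := fun a => smul_one a
      inv_mem' := by
        intro x hx a
        rw [smul_inv', hx a] }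
  have hCcl : Subgroup.closure (MulAction.fixedPoints A G) = C := Subgroup.closure_eq C
  have hN : Γ.map i = ⁅GG, AA⁆ := by
    apply le_antisymm
    · rw [hΓ, MonoidHom.map_closure, Subgroup.closure_le]
      rintro _ ⟨_, ⟨a, g, rfl⟩, rfl⟩
      have : i (g⁻¹ * a • g) = ⁅i g⁻¹, j a⁆ := by
        rw [commutatorElement_def, map_mul, ← hrel, map_inv]
        group
      rw [this]
      exact Subgroup.commutator_mem_commutator ⟨_, rfl⟩ ⟨_, rfl⟩
    · rw [Subgroup.commutator_le]
      rintro _ ⟨h, rfl⟩ _ ⟨a, rfl⟩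
      have : ⁅i h, j a⁆ = i ((h⁻¹)⁻¹ * a • h⁻¹) := by
        rw [commutatorElement_def, map_mul, ← hrel, map_inv]
        simp only [inv_inv, map_inv]
        group
      rw [this]
      exact ⟨_, Subgroup.subset_closure ⟨a, h⁻¹, rfl⟩, rfl⟩
  have hCm : C.map i = GG ⊓ centralizer (AA : Set X) := by
    apply le_antisymm
    · rintro _ ⟨g, hg, rfl⟩
      refine Subgroup.mem_inf.mpr ⟨⟨g, rfl⟩, ?_⟩
      rw [mem_centralizer_iff]
      rintro _ ⟨a, rfl⟩
      have h1 := hrel a g
      rw [show a • g = g from hg a] at h1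
      rw [mul_inv_eq_iff_eq_mul] at h1
      exact h1
    · intro x hx
      obtain ⟨⟨g, rfl⟩, hc⟩ := Subgroup.mem_inf.mp hx
      refine ⟨g, ?_, rfl⟩
      intro a
      apply hi
      rw [← hrel]
      rw [mem_centralizer_iff] at hc
      rw [hc _ ⟨a, rfl⟩]
      group
  have hcomm := core hact hZGG
  have hNsup := hact.commutator_sup_centralizer
  have hact' : CoprimeAction AA (⁅GG, AA⁆ : Subgroup X) := hact.mono hact.commutator_le_self hact.le_normalizer_commutator
  have hNinf := hact'.centralizer_eq_bot_of_commutator_eq hcomm hact.commutator_commutator_eq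
  have hsup : Γ ⊔ C = ⊤ := by
    apply Subgroup.map_injective hi
    rw [Subgroup.map_sup, hN, hCm, hNsup, ← MonoidHom.range_eq_map]
  have hinf : Γ ⊓ C = ⊥ := by
    apply Subgroup.map_injective hi
    rw [Subgroup.map_inf _ _ _ hi, hN, hCm, Subgroup.map_bot, ← inf_assoc,
      inf_eq_left.mpr hact.commutator_le_self]
    exact hNinf
  have hΓn : Γ.Normal := by
    refine ⟨fun x hx h => ?_⟩
    have h1 : i x ∈ ⁅GG, AA⁆ := by
      rw [← hN]; exact ⟨x, hx, rfl⟩
    have h2 := (mem_normalizer_iff.mp (hact.le_normalizer_commutator' (⟨h, rfl⟩ : i h ∈ GG)) (i x)).mp h1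
    rw [← hN] at h2
    obtain ⟨y, hy, e⟩ := h2
    have h3 : y = h * x * h⁻¹ := hi (by rw [e]; simp)
    rwa [← h3]
  have hΓcomm : IsMulCommutative Γ := by
    refine ⟨⟨fun a b => ?_⟩⟩
    apply Subtype.ext
    apply hi
    have ha : i a ∈ ⁅GG, AA⁆ := by
      rw [← hN]; exact ⟨a, a.2, rfl⟩
    have hb : i b ∈ ⁅GG, AA⁆ := by
      rw [← hN]; exact ⟨b, b.2, rfl⟩
    have := congrArg Subtype.val (hcomm.is_comm.comm (⟨i a, ha⟩ : (⁅GG, AA⁆ : Subgroup X)) ⟨i b, hb⟩)
    simpa using this
  have hΓcyc : IsCyclic Γ := by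
    haveI : Group.IsNilpotent Γ := by
      letI : CommGroup Γ := { (inferInstance : Group Γ) with mul_comm := hΓcomm.is_comm.comm }
      exact CommGroup.isNilpotent
    infer_instance
  have hinter : (Γ : Set G) ∩ MulAction.fixedPoints A G = {1} := by
    ext x
    constructor
    · rintro ⟨h1, h2⟩
      have : x ∈ Γ ⊓ C := Subgroup.mem_inf.mpr ⟨h1, h2⟩
      rw [hinf] at this
      simpa using this
    · rintro rfl
      exact ⟨Γ.one_mem, C.one_mem⟩
  have hcompl : C.IsComplement' Γ := by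
    apply Subgroup.isComplement'_of_disjoint_and_mul_eq_univ
    · rw [disjoint_iff, inf_comm]; exact hinf
    · rw [← Subgroup.mul_normal, sup_comm, hsup]
      rfl
  have hcardC : Nat.card (MulAction.fixedPoints A G : Set G) = Nat.card C := rfl
  have hcardG : Nat.card C * Nat.card Γ = Nat.card G := hcompl.card_mul
  have hCpos : 0 < Nat.card C := Nat.card_pos
  have hdiv : Nat.card G / Nat.card C = Nat.card Γ := by
    rw [← hcardG]
    exact Nat.mul_div_cancel_left _ hCpos
  refine ⟨?_, hΓcyc, hΓn, hinter, by rw [hCcl]; exact hsup⟩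
  rw [hcardC, hdiv]
  by_contra hnc
  obtain ⟨q, hq, hqC, hqΓ⟩ := Nat.Prime.not_coprime_iff_dvd.mp hnc
  haveI : Fact q.Prime := ⟨hq⟩
  obtain ⟨c, hc⟩ := exists_prime_orderOf_dvd_card' q hqC
  obtain ⟨u, hu⟩ := exists_prime_orderOf_dvd_card' q hqΓ
  have hc' : orderOf (c : G) = q := by rw [Subgroup.orderOf_coe]; exact hc
  have hu' : orderOf (u : G) = q := by rw [Subgroup.orderOf_coe]; exact hu
  have hpg : ∀ x : G, orderOf x = q → IsPGroup q (zpowers x) := by
    intro x hx
    apply IsPGroup.of_card (n := 1)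
    rw [Nat.card_zpowers, hx, pow_one]
  obtain ⟨Q, hQ⟩ := (hpg _ hc').exists_le_sylow
  obtain ⟨Q₁, hQ₁⟩ := (hpg _ hu').exists_le_sylow
  obtain ⟨g, hg⟩ := MulAction.exists_smul_eq G Q₁ Q
  have hcQ : (c : G) ∈ (Q : Subgroup G) := hQ (mem_zpowers _)
  have huQ : (u : G) ∈ (Q₁ : Subgroup G) := hQ₁ (mem_zpowers _)
  set v := g * (u : G) * g⁻¹ with hv
  have hvQ : v ∈ (Q : Subgroup G) := by
    rw [← hg, Sylow.coe_subgroup_smul, Subgroup.mem_smul_pointwise_iff_exists]
    exact ⟨u, huQ, by simp [MulAut.smul_def, MulAut.conj_apply, hv]⟩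
  have hvΓ : v ∈ Γ := hΓn.conj_mem _ u.2 _
  have hvord : orderOf v = q := by
    rw [hv, ← hu']
    exact (SemiconjBy.orderOf_eq g (x := (u : G)) (y := g * (u : G) * g⁻¹) (by simp [SemiconjBy])).symm
  haveI hQc : IsCyclic (Q : Subgroup G) := hcyc q Q
  have h1 : (⟨(c : G), hcQ⟩ : (Q : Subgroup G)) ∈ zpowers (⟨v, hvQ⟩ : (Q : Subgroup G)) :=
    mem_zpowers_of_prime_order hq (by rw [Subgroup.orderOf_mk]; exact hc') (by rw [Subgroup.orderOf_mk]; exact hvord)
  obtain ⟨k, hk⟩ := h1
  have h2 : v ^ k = (c : G) := congrArg Subtype.val hk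
  have h3 : (c : G) ∈ Γ := by rw [← h2]; exact zpow_mem hvΓ k
  have h4 : (c : G) ∈ Γ ⊓ C := Subgroup.mem_inf.mpr ⟨h3, c.2⟩
  rw [hinf, Subgroup.mem_bot] at h4
  rw [h4, orderOf_one] at hc'
  exact hq.one_lt.ne hc'


/-- Let A be a finite group acting on the finite group G by automorphisms with the orders of A and G coprime, and suppose every Sylow subgroup of G is cyclic. Then the fixed-point subgroup C_G(A) is a Hall subgroup of G (its order is coprime to its index), the subgroup [G, A] generated by the elements g⁻¹·a(g) is cyclic and normal with [G, A] ∩ C_G(A) = 1 and [G, A]·C_G(A) = G. -/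
theorem result {G A : Type*} [Group G] [Finite G] [Group A] [Finite A]
    [MulDistribMulAction A G] (hcop : (Nat.card A).Coprime (Nat.card G))
    (hcyc : ∀ (p : ℕ) [Fact p.Prime] (P : Sylow p G), IsCyclic (P : Subgroup G)) :
    (Nat.card (MulAction.fixedPoints A G : Set G)).Coprime (Nat.card G / Nat.card (MulAction.fixedPoints A G : Set G)) ∧
    IsCyclic (Subgroup.closure {y : G | ∃ (a : A) (g : G), y = g⁻¹ * a • g}) ∧
    (Subgroup.closure {y : G | ∃ (a : A) (g : G), y = g⁻¹ * a • g}).Normal ∧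
    (Subgroup.closure {y : G | ∃ (a : A) (g : G), y = g⁻¹ * a • g} : Set G) ∩ MulAction.fixedPoints A G = {1} ∧
    Subgroup.closure {y : G | ∃ (a : A) (g : G), y = g⁻¹ * a • g} ⊔ Subgroup.closure (MulAction.fixedPoints A G) = ⊤ := by
  classical
  set φ : A →* MulAut G := MulDistribMulAction.toMulAut A G with hφ
  haveI : Finite (G ⋊[φ] A) := Finite.of_equiv _ (SemidirectProduct.equivProd (N := G) (G := A) (φ := φ)).symm
  refine main (X := G ⋊[φ] A) SemidirectProduct.inl SemidirectProduct.inr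
    SemidirectProduct.inl_injective SemidirectProduct.inr_injective ?_ ?_ hcop hcyc
  · intro a g
    have := SemidirectProduct.inl_aut (φ := φ) a g
    rw [map_inv] at this
    exact this.symm
  · rw [SemidirectProduct.range_inl_eq_ker_rightHom]
    infer_instance

end Cfsg.Agent.S4117
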