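import Cfsg.Statements.S4126
import Cfsg.Agent.Lib.PGroups.OmegaFour
import Cfsg.Agent.Lib.PGroups.Parts
import Cfsg.Agent.Lib.Transfer.Frobenius

set_option autoImplicit false
open Cfsg

namespace Cfsg.Agent.S4126

open Subgroup Cfsg.Agent.Lib.PGroups Cfsg.Agent.Lib.Transfer Cfsg.Agent.Lib.Basic

private lemma core {G : Type*} [Group G] [Finite G] (p : ℕ) [hpp : Fact p.Prime] (e : ℕ)
    (he : (e = p ∧ p ≠ 2) ∨ (e = 4 ∧ p = 2))
    (h : ∀ x : G, x ^ e = 1 → ∃ a : ℕ, (centralizer ({x} : Set G)).index = p ^ a) :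
    Cfsg.HasNormalPComplement p G := by
  classical
  have hp : p.Prime := hpp.out
  have fixOmega : ∀ {R : Type _} [Group R] [Finite R], IsPGroup p R → ∀ a : MulAut R,
      Nat.Coprime (orderOf a) p → (∀ x : R, x ^ e = 1 → a x = x) → a = 1 := by
    intro R _ _ hR a ha hfix
    rcases he with ⟨rfl, hp2⟩ | ⟨rfl, rfl⟩
    · exact eq_one_of_fix_omega hp2 hR a ha hfix
    · exact eq_one_of_fix_omega_four hR a ha hfix
  have hpe : ∀ x : G, x ^ e = 1 → ∃ k : ℕ, orderOf x = p ^ k := by
    intro x hx
    rw [← exists_pow_eq_one_iff_orderOf]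
    rcases he with ⟨rfl, hp2⟩ | ⟨rfl, rfl⟩
    · exact ⟨1, by rwa [pow_one]⟩
    · exact ⟨2, by simpa using hx⟩
  set Q := Cfsg.pCore p G with hQdef
  have hQc : Q.Characteristic := pCore_characteristic p
  haveI hQn : Q.Normal := Subgroup.normal_of_characteristic Q
  have hQp : IsPGroup p Q := pCore_isPGroup p
  have hxQ : ∀ x : G, x ^ e = 1 → x ∈ Q := by
    intro x hx
    obtain ⟨k, hk⟩ := hpe x hx
    obtain ⟨a, ha⟩ := h x hx
    have h1 := normalClosure_isPGroup_of_index hk ha
    have h2 : normalClosure ({x} : Set G) ≤ Q := le_pCore Subgroup.normalClosure_normal h1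
    exact h2 (Subgroup.subset_normalClosure (Set.mem_singleton x))
  obtain ⟨H, hHc, h1, h2, h3⟩ := exists_critical hQp
  have hH : IsPGroup p H := hQp.to_subgroup H
  have hKp : ∀ x : H, x ^ p ∈ center H := by
    intro x
    rw [mem_center_iff]
    intro y
    have h4 : ((x ^ p : H) : Q) ∈ centralizer (H : Set Q) :=
      h1 ⟨_, pow_mem_frattini hH x, rfl⟩
    apply Subtype.ext
    exact (mem_centralizer_iff.1 h4 y y.2)
  have hKc : commutator H ≤ center H := by
    intro w hw
    rw [mem_center_iff]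
    intro y
    have h4 : ((w : H) : Q) ∈ centralizer (H : Set Q) :=
      h1 ⟨_, commutator_le_frattini hH hw, rfl⟩
    apply Subtype.ext
    exact (mem_centralizer_iff.1 h4 y y.2)
  have hclosed : ∀ x y : H, x ^ e = 1 → y ^ e = 1 → (x * y) ^ e = 1 := by
    intro x y hx hy
    rcases he with ⟨rfl, hp2⟩ | ⟨rfl, rfl⟩
    · rw [mul_pow_of_pow_central hp2 hKp hKc, hx, hy, one_mul]
    · rw [mul_pow_four_of_sq_central hKp hKc, hx, hy, one_mul]
  set H' : Subgroup G := H.map Q.subtype with hH'
  have hH'n : H'.Normal := by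
    refine ⟨?_⟩
    rintro _ ⟨x, hx, rfl⟩ g
    have h4 := map_mem_of_char hHc (MulAut.conjNormal g) hx
    exact ⟨_, h4, by simp [MulAut.conjNormal_apply]⟩
  have hH'Q : H' ≤ Q := by
    rintro _ ⟨x, -, rfl⟩
    exact x.2
  let D : Subgroup G :=
    { carrier := {x | x ∈ H' ∧ x ^ e = 1}
      one_mem' := ⟨H'.one_mem, one_pow e⟩
      inv_mem' := by
        rintro x ⟨hx, hxe⟩
        exact ⟨H'.inv_mem hx, by rw [inv_pow, hxe, inv_one]⟩
      mul_mem' := by
        rintro x y ⟨hx, hxe⟩ ⟨hy, hye⟩
        refine ⟨H'.mul_mem hx hy, ?_⟩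
        obtain ⟨u, hu, rfl⟩ := hx
        obtain ⟨v, hv, rfl⟩ := hy
        have h4 : (⟨u, hu⟩ : H) ^ e = 1 := by
          apply Subtype.ext
          apply Subtype.ext
          exact hxe
        have h5 : (⟨v, hv⟩ : H) ^ e = 1 := by
          apply Subtype.ext
          apply Subtype.ext
          exact hye
        have h6 := hclosed _ _ h4 h5
        have h7 := congrArg Subtype.val (congrArg Subtype.val h6)
        exact h7 }
  have hDmem : ∀ x : G, x ∈ D ↔ x ∈ H' ∧ x ^ e = 1 := fun x => Iff.rfl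
  have hDn : D.Normal := by
    refine ⟨fun x hx g => ?_⟩
    obtain ⟨h4, h5⟩ := (hDmem x).mp hx
    refine (hDmem _).mpr ⟨hH'n.conj_mem x h4 g, ?_⟩
    rw [conj_pow, h5, mul_one, mul_inv_cancel]
  have hDp : IsPGroup p D := hQp.to_le (fun x hx => hH'Q ((hDmem x).mp hx).1)
  have hcomm : ∀ y : G, (orderOf y).Coprime p → ∀ x ∈ D, Commute y x := by
    intro y hy x hx
    exact commute_of_normal_of_index D hDn hDp (fun x hx => h x ((hDmem x).mp hx).2) y hy x hx
  -- `p'`-elements centralize `H'`
  have hcommH' : ∀ y : G, (orderOf y).Coprime p → ∀ x ∈ H', Commute y x := by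
    intro y hy x hx
    haveI := hH'n
    have ha : (orderOf (MulAut.conjNormal y : MulAut H')).Coprime p :=
      Nat.Coprime.coprime_dvd_left (orderOf_map_dvd (MulAut.conjNormal (H := H')) y) hy
    have h4 := fixOmega (hQp.to_le hH'Q) (MulAut.conjNormal y) ha (by
      intro u hu
      apply Subtype.ext
      rw [MulAut.conjNormal_apply]
      have h5 : ((u : H') : G) ^ e = 1 := by
        have := congrArg Subtype.val hu
        simpa using this
      have h6 := hcomm y hy u ((hDmem _).mpr ⟨u.2, h5⟩)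
      rw [h6.eq]
      group)
    have h5 : (MulAut.conjNormal y : MulAut H') ⟨x, hx⟩ = ⟨x, hx⟩ := by
      rw [h4]; rfl
    have h6 := congrArg Subtype.val h5
    rw [MulAut.conjNormal_apply] at h6
    show y * x = x * y
    have h7 := congrArg (· * y) h6
    simpa using h7
  -- `p'`-elements centralize `Q`
  have hcommQ : ∀ y : G, (orderOf y).Coprime p → ∀ x ∈ Q, Commute y x := by
    intro y hy x hx
    have ha : (orderOf (MulAut.conjNormal y : MulAut Q)).Coprime p :=
      Nat.Coprime.coprime_dvd_left (orderOf_map_dvd (MulAut.conjNormal (H := Q)) y) hy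
    have h4 := eq_one_of_fix_critical hQp H h2 h3 (MulAut.conjNormal y) ha (by
      intro u hu
      apply Subtype.ext
      rw [MulAut.conjNormal_apply]
      have h6 := hcommH' y hy u ⟨u, hu, rfl⟩
      rw [h6.eq]
      group)
    have h5 : (MulAut.conjNormal y : MulAut Q) ⟨x, hx⟩ = ⟨x, hx⟩ := by
      rw [h4]; rfl
    have h6 := congrArg Subtype.val h5
    rw [MulAut.conjNormal_apply] at h6
    show y * x = x * y
    have h7 := congrArg (· * y) h6
    simpa using h7
  -- Frobenius
  apply hasNormalPComplement_of_stable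
  intro D' hD' g hg hgc
  have ha : (orderOf (D'.normalizerMonoidHom ⟨g, hg⟩)).Coprime p := by
    refine Nat.Coprime.coprime_dvd_left (orderOf_map_dvd D'.normalizerMonoidHom ⟨g, hg⟩) ?_
    rw [Subgroup.orderOf_mk]
    exact hgc
  have h4 := fixOmega hD' (D'.normalizerMonoidHom ⟨g, hg⟩) ha (by
    intro u hu
    apply Subtype.ext
    have h5 : ((u : D') : G) ^ e = 1 := by
      have := congrArg Subtype.val hu
      simpa using this
    have h6 := hcommQ g hgc u (hxQ _ h5)
    show g * (u : G) * g⁻¹ = u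
    rw [h6.eq]
    group)
  rw [mem_centralizer_iff]
  intro x hx
  have h5 : (D'.normalizerMonoidHom ⟨g, hg⟩) ⟨x, hx⟩ = ⟨x, hx⟩ := by
    rw [h4]; rfl
  have h6 : g * x * g⁻¹ = x := congrArg Subtype.val h5
  have h7 := congrArg (· * g) h6
  simpa using h7.symm


/-- Let G be a finite group and p a prime. Suppose every element of order p, and when p = 2 also every element of order 4, has a conjugacy class of p-power size. Then G has a normal p-complement. -/
theorem result {G : Type*} [Group G] [Finite G] (p : ℕ) [Fact p.Prime]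
    (h : ∀ x : G, (orderOf x = p ∨ (p = 2 ∧ orderOf x = 4)) → ∃ a : ℕ, (Subgroup.centralizer ({x} : Set G)).index = p ^ a) :
    Cfsg.HasNormalPComplement p G := by
  have hp : p.Prime := Fact.out
  by_cases hp2 : p = 2
  · subst hp2
    apply core 2 4 (Or.inr ⟨rfl, rfl⟩)
    intro x hx
    have h1 : orderOf x ∣ 2 ^ 2 := orderOf_dvd_of_pow_eq_one (by simpa using hx)
    obtain ⟨j, hj, hje⟩ := (Nat.dvd_prime_pow Nat.prime_two).mp h1
    interval_cases j
    · have : x = 1 := orderOf_eq_one_iff.mp (by simpa using hje)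
      refine ⟨0, ?_⟩
      rw [this, pow_zero]
      have : centralizer ({(1 : G)} : Set G) = ⊤ := by
        ext g
        simp [mem_centralizer_singleton_iff]
      rw [this, Subgroup.index_top]
    · exact h x (Or.inl (by simpa using hje))
    · exact h x (Or.inr ⟨rfl, by simpa using hje⟩)
  · apply core p p (Or.inl ⟨rfl, hp2⟩)
    intro x hx
    have h1 : orderOf x ∣ p := orderOf_dvd_of_pow_eq_one hx
    rcases (Nat.dvd_prime hp).mp h1 with h2 | h2
    · have : x = 1 := orderOf_eq_one_iff.mp h2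
      refine ⟨0, ?_⟩
      rw [this, pow_zero]
      have : centralizer ({(1 : G)} : Set G) = ⊤ := by
        ext g
        simp [mem_centralizer_singleton_iff]
      rw [this, Subgroup.index_top]
    · exact h x (Or.inl h2)

end Cfsg.Agent.S4126
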