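import Cfsg.Statements.S4130
import Cfsg.Agent.Lib.PGroups.SqFree6
import Cfsg.Agent.Lib.Basic.Solv1
import Cfsg.Agent.Lib.Basic.ProdCLT
import Cfsg.Agent.Lib.Components.Basic

set_option autoImplicit false
open Cfsg

namespace Cfsg.Agent.S4130

section aux

open Subgroup Cfsg.Agent.Lib.PGroups Cfsg.Agent.Lib.PGroups.SqFree Cfsg.Agent.Lib.Basic
  Cfsg.Agent.Lib.Components
open scoped commutatorElement

universe u
variable {G : Type u} [Group G] [Finite G]

private theorem main (h : SF G) :
    Cfsg.IsSupersolvable G ∧ (Cfsg.fittingSubgroup G).Normal ∧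
    (∀ _h : (Cfsg.fittingSubgroup G).Normal, IsCyclic (G ⧸ Cfsg.fittingSubgroup G) ∧ Squarefree (Cfsg.fittingSubgroup G).index) ∧
    IsCyclic (commutator G) ∧ Squarefree (Nat.card (commutator G)) ∧
    Subgroup.upperCentralSeries ↥(Cfsg.fittingSubgroup G) 2 = ⊤ ∧ commutator ↥(commutator G) = ⊥ := by
  classical
  obtain ⟨hAc, hAs⟩ := h.commutator_isCyclic_squarefree
  haveI := hAc
  have hcomm : ∀ a ∈ commutator G, ∀ b ∈ commutator G, a * b = b * a := by
    intro a ha b hb
    have h1 := (IsCyclic.commGroup (α := commutator G)).mul_comm ⟨a, ha⟩ ⟨b, hb⟩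
    exact congrArg Subtype.val h1
  haveI hAmc : IsMulCommutative (commutator G) := ⟨⟨fun a b => Subtype.ext (hcomm _ a.2 _ b.2)⟩⟩
  have hcm : ∀ g g' : G, ⁅g, g'⁆ ∈ commutator G :=
    fun g g' => Subgroup.commutator_mem_commutator (mem_top g) (mem_top g')
  have hFn : (Cfsg.fittingSubgroup G).Normal := fitting_mem.1
  haveI := hFn
  haveI hFnil : Group.IsNilpotent (Cfsg.fittingSubgroup G) := fitting_isNilpotent
  have hAnil : Group.IsNilpotent (commutator G) := by
    apply isNilpotent_of_commutator_le_centralizer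
    rw [Subgroup.commutator_le]
    intro a ha b hb
    rw [commutatorElement_eq_one_iff_mul_comm.mpr (hcomm a ha b hb)]
    exact Subgroup.one_mem _
  have hAF : commutator G ≤ Cfsg.fittingSubgroup G := le_fitting inferInstance hAnil
  -- the derived subgroup is central in the Fitting subgroup
  have hAZ : ∀ a ∈ commutator G, ∀ f ∈ Cfsg.fittingSubgroup G, a * f = f * a := by
    set Z' : Subgroup G := (center (Cfsg.fittingSubgroup G)).map (Cfsg.fittingSubgroup G).subtype
      with hZ'
    set B := commutator G ⊓ Z' with hB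
    have hBA : B ≤ commutator G := inf_le_left
    have hdvd : Nat.card B ∣ Nat.card (commutator G) := Subgroup.card_dvd_of_le hBA
    obtain ⟨e, he⟩ := hdvd
    have hcop : (Nat.card B).Coprime e := by
      have h1 := hAs
      rw [he] at h1
      exact (Nat.squarefree_mul_iff.mp h1).1
    have he1 : e = 1 := by
      by_contra hne
      obtain ⟨s, hs, hsd⟩ := Nat.exists_prime_and_dvd hne
      haveI : Fact s.Prime := ⟨hs⟩
      obtain ⟨x, hx⟩ := exists_prime_orderOf_dvd_card' (G := commutator G) s
        (by rw [he]; exact hsd.trans (Dvd.intro_left _ rfl))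
      have hEn : (torsionSubgroupOf (commutator G) e).Normal := torsionSubgroupOf_normal e
      have hxs : x ^ s = 1 := by rw [← hx]; exact pow_orderOf_eq_one x
      have hxe : x.1 ^ e = 1 := by
        obtain ⟨t, rfl⟩ := hsd
        rw [pow_mul]
        have h1 : x.1 ^ s = 1 := by simpa using congrArg Subtype.val hxs
        rw [h1, one_pow]
      have hxE : x.1 ∈ torsionSubgroupOf (commutator G) e := mem_torsionSubgroupOf.mpr ⟨x.2, hxe⟩
      have hx1 : x.1 ≠ 1 := by
        intro h1
        have h2 : x = 1 := Subtype.ext h1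
        rw [h2, orderOf_one] at hx
        exact hs.one_lt.ne hx
      let E' : Subgroup (Cfsg.fittingSubgroup G) :=
        (torsionSubgroupOf (commutator G) e).subgroupOf (Cfsg.fittingSubgroup G)
      haveI : E'.Normal := hEn.subgroupOf _
      have hE' : E' ≠ ⊥ := by
        intro h1
        have h2 : (⟨x.1, hAF x.2⟩ : Cfsg.fittingSubgroup G) ∈ E' := hxE
        rw [h1, Subgroup.mem_bot] at h2
        exact hx1 (congrArg Subtype.val h2)
      have h1 := normal_inf_center_ne_bot E' hE'
      obtain ⟨w, hw, hwne⟩ := (Subgroup.bot_or_exists_ne_one _).resolve_left h1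
      have hwE := mem_torsionSubgroupOf.mp hw.1
      have hwB : w.1 ∈ B := Subgroup.mem_inf.mpr ⟨hwE.1, ⟨w, hw.2, rfl⟩⟩
      have hwd : w.1 ^ Nat.card B = 1 := by
        have h2 := pow_card_eq_one' (x := (⟨w.1, hwB⟩ : B))
        exact congrArg Subtype.val h2
      have h3 : w.1 ^ (Nat.gcd (Nat.card B) e) = 1 := pow_gcd_eq_one.mpr ⟨hwd, hwE.2⟩
      rw [hcop] at h3
      exact hwne (Subtype.ext (by simpa using h3))
    rw [he1, mul_one] at he
    have hAB : B = commutator G := Subgroup.eq_of_le_of_card_ge hBA he.le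
    intro a ha f hf
    have h1 : a ∈ B := hAB ▸ ha
    obtain ⟨z, hz, rfl⟩ := (Subgroup.mem_inf.mp h1).2
    exact (congrArg Subtype.val (Subgroup.mem_center_iff.mp hz ⟨f, hf⟩)).symm
  -- the Fitting subgroup is the centralizer of the derived subgroup
  have hFC : Cfsg.fittingSubgroup G = centralizer ((commutator G : Subgroup G) : Set G) := by
    apply le_antisymm
    · intro f hf
      rw [Subgroup.mem_centralizer_iff]
      intro a ha
      exact hAZ a ha f hf
    · apply le_fitting inferInstance
      apply isNilpotent_of_commutator_le_centralizer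
      rw [Subgroup.commutator_le]
      intro x _ y _
      rw [Subgroup.mem_centralizer_iff]
      intro c hc
      exact ((Subgroup.mem_centralizer_iff.mp hc) ⁅x, y⁆ (hcm x y)).symm
  obtain ⟨m, hm⟩ := IsCyclic.exists_generator (α := commutator G)
  have hFm : Cfsg.fittingSubgroup G = centralizer ({m.1} : Set G) := by
    rw [hFC]
    apply le_antisymm
    · apply Subgroup.centralizer_le
      intro y hy
      rw [Set.mem_singleton_iff.mp hy]
      exact m.2
    · intro x hx
      rw [Subgroup.mem_centralizer_iff]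
      intro a ha
      obtain ⟨j, hj⟩ := Subgroup.mem_zpowers_iff.mp (hm ⟨a, ha⟩)
      have h1 : a = m.1 ^ j := by
        have h2 := congrArg Subtype.val hj
        simpa using h2.symm
      rw [h1]
      have hc : Commute m.1 x := (mem_centralizer_singleton_iff.mp hx).symm
      exact hc.zpow_left j
  have hFs : Squarefree (Cfsg.fittingSubgroup G).index := by
    rw [hFm]
    exact h m.1
  have hcyc : IsCyclic (G ⧸ Cfsg.fittingSubgroup G) := by
    apply isCyclic_of_comm_squarefree
    · intro a b
      obtain ⟨x, rfl⟩ := QuotientGroup.mk'_surjective (Cfsg.fittingSubgroup G) a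
      obtain ⟨y, rfl⟩ := QuotientGroup.mk'_surjective (Cfsg.fittingSubgroup G) b
      rw [← commutatorElement_eq_one_iff_mul_comm, ← map_commutatorElement]
      exact (QuotientGroup.eq_one_iff _).mpr (hAF (hcm x y))
    · rw [← Subgroup.index_eq_card]
      exact hFs
  have hU : Subgroup.upperCentralSeries ↥(Cfsg.fittingSubgroup G) 2 = ⊤ := by
    rw [eq_top_iff]
    intro x _
    refine (Subgroup.mem_upperCentralSeries_succ_iff (n := 1)).mpr ?_
    intro y
    refine (Subgroup.mem_upperCentralSeries_succ_iff (n := 0)).mpr ?_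
    intro z
    rw [Subgroup.upperCentralSeries_zero, Subgroup.mem_bot, commutatorElement_eq_one_iff_mul_comm]
    have h1 : (⁅x, y⁆ : Cfsg.fittingSubgroup G).1 ∈ commutator G := hcm x.1 y.1
    exact Subtype.ext (hAZ _ h1 z.1 z.2)
  have hD : commutator ↥(commutator G) = ⊥ := by
    rw [eq_bot_iff, _root_.commutator_def ↥(commutator G), Subgroup.commutator_le]
    intro a _ b _
    rw [Subgroup.mem_bot, commutatorElement_eq_one_iff_mul_comm]
    exact Subtype.ext (hcomm _ a.2 _ b.2)
  have hSup : Cfsg.IsSupersolvable G := by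
    apply isSupersolvable_of_cyclic_normal (commutator G)
    exact isSupersolvable_of_commGroup _ (A := Abelianization G) rfl
  exact ⟨hSup, hFn, fun _ => ⟨hcyc, hFs⟩, hAc, hAs, hU, hD⟩

end aux


/-- Let G be a finite group all of whose conjugacy class sizes are square-free. Then G is supersolvable, G/F(G) and the derived subgroup G′ are cyclic of square-free order (F(G) the Fitting subgroup, which is normal), F(G) has nilpotency class at most 2, and G is metabelian. -/
theorem result {G : Type*} [Group G] [Finite G]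
    (h : ∀ x : G, Squarefree (Subgroup.centralizer ({x} : Set G)).index) :
    Cfsg.IsSupersolvable G ∧ (Cfsg.fittingSubgroup G).Normal ∧
    (∀ _h : (Cfsg.fittingSubgroup G).Normal, IsCyclic (G ⧸ Cfsg.fittingSubgroup G) ∧ Squarefree (Cfsg.fittingSubgroup G).index) ∧
    IsCyclic (commutator G) ∧ Squarefree (Nat.card (commutator G)) ∧
    Subgroup.upperCentralSeries ↥(Cfsg.fittingSubgroup G) 2 = ⊤ ∧ commutator ↥(commutator G) = ⊥ := by
  exact main h

end Cfsg.Agent.S4130
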