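import Cfsg.Statements.S4134
import Cfsg.Agent.Lib.PGroups.TwoClass

set_option autoImplicit false
open Cfsg

namespace Cfsg.Agent.S4134

open Subgroup Cfsg.Agent.Lib.PGroups Cfsg.Agent.Lib.PGroups.TwoClass


/-- Let G be a finite group whose conjugacy classes have exactly two sizes, 1 and n > 1. Then n is a power of a prime p and G is the direct product of a p-group and an abelian group of order prime to p: its Sylow p-subgroup P is normal with an abelian normal complement centralizing it; moreover P has an abelian normal subgroup A with P/A of exponent dividing p. -/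
theorem result {G : Type*} [Group G] [Finite G] (n : ℕ) (hn : 1 < n)
    (h : ∀ x : G, (Subgroup.centralizer ({x} : Set G)).index = 1 ∨ (Subgroup.centralizer ({x} : Set G)).index = n) (hex : ∃ x : G, (Subgroup.centralizer ({x} : Set G)).index = n) :
    ∃ (p : ℕ) (_ : Fact p.Prime) (a : ℕ), n = p ^ a ∧ ∀ P : Sylow p G, (P : Subgroup G).Normal ∧
      (∃ N : Subgroup G, N.Normal ∧ N.IsComplement' (P : Subgroup G) ∧ IsMulCommutative N ∧
        ∀ x ∈ N, ∀ y ∈ (P : Subgroup G), x * y = y * x) ∧
      ∃ A : Subgroup (P : Subgroup G), A.Normal ∧ IsMulCommutative A ∧ ∀ y : (P : Subgroup G), y ^ p ∈ A := by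
  classical
  have hn0 : n ≠ 1 := by omega
  set p := n.minFac with hpdef
  have hp : p.Prime := Nat.minFac_prime hn0
  haveI hpF : Fact p.Prime := ⟨hp⟩
  have hpn : p ∣ n := Nat.minFac_dvd n
  have huniq : ∀ {d : ℕ}, d.Prime → d ∣ n → d = p := by
    intro d hd hdn
    haveI : Fact d.Prime := ⟨hd⟩
    exact prime_unique h hdn hpn hn hex
  have hnpow := Nat.eq_prime_pow_of_unique_prime_dvd (by omega) huniq
  refine ⟨p, hpF, _, hnpow, ?_⟩
  intro P
  have hcent : ∀ (t : ℕ), t.Prime → t ≠ p → ∀ (a : G) (j : ℕ), a ^ t ^ j = 1 → a ∈ center G := by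
    intro t ht htp a j haj
    haveI : Fact t.Prime := ⟨ht⟩
    have htn : ¬ t ∣ n := fun hd => htp (huniq ht hd)
    have hz : IsPGroup t (zpowers a) :=
      isPGroup_zpowers_iff.mpr (exists_pow_eq_one_iff_orderOf.mp ⟨j, haj⟩)
    obtain ⟨T, hT⟩ := hz.exists_le_sylow
    exact mem_center_iff.mpr (central_of_not_dvd h htn T (hT (mem_zpowers a)))
  have htop : (P : Subgroup G) ⊔ center G = ⊤ := by
    by_contra hne
    have h1 : ((P : Subgroup G) ⊔ center G).index ≠ 1 := mt Subgroup.index_eq_one.mp hne
    obtain ⟨t, ht, htd⟩ := Nat.exists_prime_and_dvd h1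
    haveI : Fact t.Prime := ⟨ht⟩
    by_cases htp : t = p
    · have h2 := Subgroup.index_dvd_of_le (le_sup_left : (P : Subgroup G) ≤ (P : Subgroup G) ⊔ center G)
      rw [htp] at htd
      exact P.not_dvd_index (htd.trans h2)
    · obtain ⟨T⟩ : Nonempty (Sylow t G) := inferInstance
      have hle : (T : Subgroup G) ≤ (P : Subgroup G) ⊔ center G := by
        intro y hy
        obtain ⟨j, hj⟩ := T.isPGroup' ⟨y, hy⟩
        apply (le_sup_right : center G ≤ (P : Subgroup G) ⊔ center G)
        exact hcent t ht htp y j (by simpa using congrArg (fun z : (T : Subgroup G) => (z : G)) hj)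
      have h2 := Subgroup.index_dvd_of_le hle
      exact T.not_dvd_index (htd.trans h2)
  have hnorm : (P : Subgroup G).Normal := by
    rw [← normalizer_eq_top_iff, eq_top_iff, ← htop]
    refine sup_le le_normalizer ?_
    intro z hz
    rw [mem_normalizer_iff]
    intro a
    have h1 : z * a * z⁻¹ = a := by
      rw [(mem_center_iff.mp hz a).symm]; group
    rw [h1]
  refine ⟨hnorm, ?_, ?_⟩
  · obtain ⟨N, hN⟩ := Subgroup.exists_right_complement'_of_coprime P.card_coprime_index
    have hNc : N ≤ center G := by
      intro x hx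
      apply mem_of_primary_powers
      intro a ha hpp
      obtain ⟨t, j, ht, hj, hoa⟩ := hpp
      have ht' : t.Prime := Nat.prime_iff.mpr ht
      have haj : a ^ t ^ j = 1 := by rw [hoa]; exact pow_orderOf_eq_one a
      apply hcent t ht' _ a j haj
      intro htp
      have haN : a ∈ N := (zpowers_le.mpr hx) ha
      have h1 : orderOf a ∣ Nat.card N := Subgroup.orderOf_dvd_natCard N haN
      rw [← hN.symm.index_eq_card] at h1
      have h2 : p ∣ orderOf a := by
        rw [← hoa, ← htp]
        exact dvd_pow_self t hj.ne'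
      exact P.not_dvd_index (h2.trans h1)
    refine ⟨N, ?_, hN.symm, ?_, ?_⟩
    · constructor
      intro x hx g
      have h1 : g * x * g⁻¹ = x := by
        rw [(mem_center_iff.mp (hNc hx) g)]; group
      rw [h1]; exact hx
    · exact ⟨⟨fun a b => Subtype.ext (mem_center_iff.mp (hNc a.2) b).symm⟩⟩
    · intro x hx y _
      exact (mem_center_iff.mp (hNc hx) y).symm
  · obtain ⟨t, htP, htn, hts, htp⟩ := exists_special h hpn hex hn P
    have hPN : ∀ y ∈ (P : Subgroup G), ∀ c ∈ Cn t, y * c * y⁻¹ ∈ Cn t := by
      intro y hy c hc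
      have hz := hts y⁻¹ (inv_mem hy)
      rw [inv_inv] at hz
      set z₁ := y⁻¹ * t * y * t⁻¹ with hz₁
      have h1 : y⁻¹ * t * y = z₁ * t := by rw [hz₁]; group
      have h2 : c * z₁ = z₁ * c := (Subgroup.mem_center_iff.mp hz c)
      have h3 : c * t = t * c := mem_Cn.mp hc
      apply mem_Cn.mpr
      calc y * c * y⁻¹ * t = y * c * (y⁻¹ * t * y) * y⁻¹ := by group
        _ = y * c * (z₁ * t) * y⁻¹ := by rw [h1]
        _ = y * (c * z₁) * t * y⁻¹ := by group
        _ = y * (z₁ * c) * t * y⁻¹ := by rw [h2]
        _ = y * z₁ * (c * t) * y⁻¹ := by group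
        _ = y * z₁ * (t * c) * y⁻¹ := by rw [h3]
        _ = y * (z₁ * t) * c * y⁻¹ := by group
        _ = y * (y⁻¹ * t * y) * c * y⁻¹ := by rw [h1]
        _ = t * (y * c * y⁻¹) := by group
    set Zt : Subgroup G := Cn t ⊓ centralizer ((Cn t : Subgroup G) : Set G) with hZt
    have hZmem : ∀ a : G, a ∈ Zt ↔ a ∈ Cn t ∧ ∀ c ∈ Cn t, c * a = a * c := by
      intro a
      rw [hZt, Subgroup.mem_inf, mem_centralizer_iff]
      rfl
    refine ⟨Zt.subgroupOf (P : Subgroup G), ?_, ?_, ?_⟩
    · constructor
      intro a ha g
      rw [mem_subgroupOf] at ha ⊢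
      obtain ⟨ha1, ha2⟩ := (hZmem _).mp ha
      apply (hZmem _).mpr
      refine ⟨?_, ?_⟩
      · exact hPN g g.2 _ ha1
      · intro c hc
        have h1 : (g : G)⁻¹ * c * (g : G)⁻¹⁻¹ ∈ Cn t := hPN _ (inv_mem g.2) c hc
        rw [inv_inv] at h1
        have h2 := ha2 _ h1
        show c * ((g : G) * (a : G) * (g : G)⁻¹) = ((g : G) * (a : G) * (g : G)⁻¹) * c
        calc c * ((g : G) * (a : G) * (g : G)⁻¹)
            = (g : G) * (((g : G)⁻¹ * c * (g : G)) * (a : G)) * (g : G)⁻¹ := by group
          _ = (g : G) * ((a : G) * ((g : G)⁻¹ * c * (g : G))) * (g : G)⁻¹ := by rw [h2]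
          _ = _ := by group
    · refine ⟨⟨fun a b => ?_⟩⟩
      apply Subtype.ext
      apply Subtype.ext
      have ha := (hZmem _).mp (mem_subgroupOf.mp a.2)
      have hb := (hZmem _).mp (mem_subgroupOf.mp b.2)
      exact hb.2 _ ha.1
    · intro y
      rw [mem_subgroupOf]
      apply (hZmem _).mpr
      set u : G := (y : G) with hu
      have hpow : ((y ^ p : ↥(P : Subgroup G)) : G) = u ^ p := rfl
      rw [hpow]
      -- `u ^ p` centralizes `t`
      have hut : u ^ p ∈ Cn t := by
        have hz := hts u y.2
        set z := u * t * u⁻¹ * t⁻¹ with hzdef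
        have hzc := mem_center_iff.mp hz
        have h1 : u * t * u⁻¹ = t * z := by
          have : u * t * u⁻¹ = z * t := by rw [hzdef]; group
          rw [this, hzc t]
        have h2 := conj_pow_mul_central hzc h1 p
        -- `z ^ p = 1`
        have h3 : u * t ^ p * u⁻¹ = t ^ p * z ^ p := by
          rw [← conj_pow, h1, (show Commute t z from (hzc t)).mul_pow]
        have h4 : u * t ^ p * u⁻¹ = t ^ p := by
          rw [mem_center_iff.mp htp u]; group
        have h5 : z ^ p = 1 := by
          have := h3.symm.trans h4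
          exact mul_left_cancel (a := t ^ p) (by rw [this, mul_one])
        rw [h5, mul_one] at h2
        apply mem_Cn.mpr
        calc u ^ p * t = (u ^ p * t * (u ^ p)⁻¹) * u ^ p := by group
          _ = t * u ^ p := by rw [h2]
      refine ⟨hut, ?_⟩
      rcases h (u ^ p) with hup | hup
      · intro c _
        exact mem_center_of_idx hup c
      · change (Cn (u ^ p)).index = n at hup
        have hleu : Cn u ≤ Cn (u ^ p) := by
          intro g hg
          have h1 : Commute g u := mem_Cn.mp hg
          exact mem_Cn.mpr (h1.pow_right p)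
        have hun : (Cn u).index = n := by
          rcases h u with h1 | h1
          · exfalso
            have h2 : Cn u = ⊤ := Subgroup.index_eq_one.mp h1
            have h3 : Cn (u ^ p) = ⊤ := top_le_iff.mp (h2 ▸ hleu)
            rw [h3, Subgroup.index_top] at hup
            omega
          · exact h1
        have hCu : Cn u = Cn (u ^ p) := Cn_eq_of_le h hun hup hleu
        have htu : u * t = t * u := by
          have : t ∈ Cn (u ^ p) := mem_Cn.mpr (mem_Cn.mp hut).symm
          rw [← hCu] at this
          exact (mem_Cn.mp this).symm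
        have hvpow : (u * t) ^ p = u ^ p * t ^ p := (show Commute u t from htu).mul_pow p
        have hcp := mem_center_iff.mp htp
        have hCv : ∀ g : G, g * (u * t) = (u * t) * g → g * u ^ p = u ^ p * g := by
          intro g hg
          have h1 : Commute g (u * t) := hg
          have h2 := h1.pow_right p
          rw [hvpow] at h2
          have h3 : g * (u ^ p * t ^ p) = (u ^ p * t ^ p) * g := h2
          have h4 : (g * u ^ p) * t ^ p = (u ^ p * g) * t ^ p := by
            rw [mul_assoc, h3, mul_assoc, mul_assoc, hcp g]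
          exact mul_right_cancel h4
        have hvn : (Cn (u * t)).index = n := by
          rcases h (u * t) with h1 | h1
          · exfalso
            have h2 : ∀ g : G, g * u ^ p = u ^ p * g :=
              fun g => hCv g (mem_center_of_idx h1 g)
            have := idx_of_central h2
            omega
          · exact h1
        have hCvle : Cn (u * t) ≤ Cn (u ^ p) := fun g hg => mem_Cn.mpr (hCv g (mem_Cn.mp hg))
        have hCv2 : Cn (u * t) = Cn (u ^ p) := Cn_eq_of_le h hvn hup hCvle
        have hCt : Cn u ≤ Cn t := by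
          intro g hg
          have h1 : g ∈ Cn (u * t) := by rw [hCv2, ← hCu]; exact hg
          have h2 : Commute g (u * t) := mem_Cn.mp h1
          have h3 : Commute g u := mem_Cn.mp hg
          apply mem_Cn.mpr
          have h4 : g * (u * t) = (u * t) * g := h2
          have h5 : u * (g * t) = u * (t * g) := by
            calc u * (g * t) = (u * g) * t := by group
              _ = (g * u) * t := by rw [h3.eq]
              _ = g * (u * t) := by group
              _ = (u * t) * g := h4
              _ = u * (t * g) := by group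
          exact mul_left_cancel h5
        have hfinal : Cn t = Cn (u ^ p) := (Cn_eq_of_le h hun htn hCt).symm.trans hCu
        intro c hc
        rw [hfinal] at hc
        exact mem_Cn.mp hc

end Cfsg.Agent.S4134
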