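import Cfsg.Statements.S4142
import Cfsg.Agent.Lib.Struct.Basic

set_option autoImplicit false
open Cfsg

namespace Cfsg.Agent.S4142

open Subgroup in
theorem key {G : Type*} [Group G] [Finite G] (N : Subgroup G) [N.Normal] (g : G) :
    (∀ n ∈ N, ∃ x : G, x * g * x⁻¹ = g * n) ↔
      Nat.card (centralizer ({g} : Set G)) = Nat.card (centralizer ({(QuotientGroup.mk g : G ⧸ N)} : Set (G ⧸ N))) := by
  classical
  let q := QuotientGroup.mk' N
  have hq : Function.Surjective q := QuotientGroup.mk'_surjective N
  let C' : Subgroup (G ⧸ N) := centralizer ({(QuotientGroup.mk g : G ⧸ N)} : Set (G ⧸ N))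
  let L : Subgroup G := C'.comap q
  have hgL : g ∈ L := by
    change q g ∈ C'
    exact mem_centralizer_singleton_iff.mpr rfl
  have hLcard : Nat.card L = Nat.card N * Nat.card C' := by
    have h1 : L.index = C'.index := index_comap_of_surjective _ hq
    have h2 := L.card_mul_index
    have h3 := C'.card_mul_index
    have h4 : Nat.card G = Nat.card (G ⧸ N) * Nat.card N := card_eq_card_quotient_mul_card_subgroup N
    have h5 : 0 < C'.index := Nat.pos_of_ne_zero index_ne_zero_of_finite
    rw [h1] at h2
    rw [h4, ← h3] at h2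
    have h6 : Nat.card L * C'.index = (Nat.card N * Nat.card C') * C'.index := by
      rw [h2]; ring
    exact Nat.eq_of_mul_eq_mul_right h5 h6
  let g' : L := ⟨g, hgL⟩
  have hT := Cfsg.Agent.Lib.Struct.card_isConj_eq_index g'
  have hCcard : Nat.card (centralizer ({g'} : Set L)) = Nat.card (centralizer ({g} : Set G)) := by
    apply Nat.card_congr
    refine ⟨fun x => ⟨x.1.1, ?_⟩, fun x => ⟨⟨x.1, ?_⟩, ?_⟩, fun x => rfl, fun x => rfl⟩
    · have := mem_centralizer_singleton_iff.mp x.2
      exact mem_centralizer_singleton_iff.mpr (congrArg Subtype.val this)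
    · change q x.1 ∈ C'
      have := mem_centralizer_singleton_iff.mp x.2
      exact mem_centralizer_singleton_iff.mpr (congrArg q this)
    · have := mem_centralizer_singleton_iff.mp x.2
      exact mem_centralizer_singleton_iff.mpr (Subtype.ext this)
  have hmul := (centralizer ({g'} : Set L)).card_mul_index
  rw [← hT, hCcard, hLcard] at hmul
  have hfmem : ∀ y : {y : L // IsConj g' y}, g⁻¹ * (y.1 : G) ∈ N := by
    rintro ⟨y, hy⟩
    obtain ⟨x, hx⟩ := isConj_iff.mp hy
    have hxL : q (x : G) * q g = q g * q (x : G) :=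
      (mem_centralizer_singleton_iff.mp x.2).trans rfl
    have h1 : ((x * g' * x⁻¹ : L) : G) = (y : G) := congrArg Subtype.val hx
    rw [← QuotientGroup.ker_mk' N, MonoidHom.mem_ker, ← h1]
    simp only [Subgroup.coe_mul, Subgroup.coe_inv, map_mul, map_inv]
    change (q g)⁻¹ * (q (x : G) * q g * (q (x : G))⁻¹) = 1
    rw [hxL]; group
  let f : {y : L // IsConj g' y} → N := fun y => ⟨g⁻¹ * (y.1 : G), hfmem y⟩
  have hf : Function.Injective f := by
    intro a b hab
    have h1 : g⁻¹ * (a.1 : G) = g⁻¹ * (b.1 : G) := congrArg Subtype.val hab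
    exact Subtype.ext (Subtype.ext (mul_left_cancel h1))
  have hNpos : 0 < Nat.card N := Nat.card_pos
  constructor
  · intro hcam
    have hsurj : Function.Surjective f := by
      rintro ⟨n, hn⟩
      obtain ⟨x, hx⟩ := hcam n hn
      have hx1 : q x * q g = q g * q x := by
        have h1 := congrArg q hx
        simp only [map_mul, map_inv] at h1
        have h2 : q n = 1 := by
          rw [← MonoidHom.mem_ker, QuotientGroup.ker_mk']; exact hn
        rw [h2, mul_one] at h1
        exact mul_inv_eq_iff_eq_mul.mp h1
      have hxL : x ∈ L := by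
        change q x ∈ C'
        exact mem_centralizer_singleton_iff.mpr hx1
      have hgnL : g * n ∈ L := by
        rw [← hx]
        exact L.mul_mem (L.mul_mem hxL hgL) (L.inv_mem hxL)
      refine ⟨⟨⟨g * n, hgnL⟩, ?_⟩, ?_⟩
      · rw [isConj_iff]
        exact ⟨⟨x, hxL⟩, Subtype.ext hx⟩
      · apply Subtype.ext
        change g⁻¹ * (g * n) = n
        group
    have hcard : Nat.card {y : L // IsConj g' y} = Nat.card N :=
      Nat.card_congr (Equiv.ofBijective f ⟨hf, hsurj⟩)
    rw [hcard] at hmul
    have h7 : Nat.card (centralizer ({g} : Set G)) * Nat.card N = Nat.card C' * Nat.card N := by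
      rw [hmul]; ring
    exact Nat.eq_of_mul_eq_mul_right hNpos h7
  · intro heq n hn
    have hcard : Nat.card {y : L // IsConj g' y} = Nat.card N := by
      rw [heq] at hmul
      have h7 : Nat.card {y : L // IsConj g' y} * Nat.card C' = Nat.card N * Nat.card C' := by
        rw [← hmul]; ring
      have h8 : 0 < Nat.card C' := Nat.card_pos
      exact Nat.eq_of_mul_eq_mul_right h8 h7
    have hsurj := (Function.Injective.bijective_of_nat_card_le hf (le_of_eq hcard.symm)).2
    obtain ⟨y, hy⟩ := hsurj ⟨n, hn⟩
    have h1 : g⁻¹ * (y.1 : G) = n := congrArg Subtype.val hy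
    obtain ⟨x, hx⟩ := isConj_iff.mp y.2
    refine ⟨x, ?_⟩
    have h2 : ((x * g' * x⁻¹ : L) : G) = (y.1 : G) := congrArg Subtype.val hx
    rw [← h1, mul_inv_cancel_left]
    exact h2

/-- Let G be a finite group and N a normal subgroup. Then the conjugacy class of every element g outside N is a union of cosets of N (gn is conjugate to g for all n ∈ N) if and only if for every g outside N the centralizer of g in G has the same order as the centralizer of gN in G/N. -/
theorem result {G : Type*} [Group G] [Finite G] (N : Subgroup G) [N.Normal] :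
    (∀ g : G, g ∉ N → ∀ n ∈ N, ∃ x : G, x * g * x⁻¹ = g * n) ↔
      ∀ g : G, g ∉ N → Nat.card (Subgroup.centralizer ({g} : Set G)) =
        Nat.card (Subgroup.centralizer ({(QuotientGroup.mk g : G ⧸ N)} : Set (G ⧸ N))) := by
  exact ⟨fun h g hg => (key N g).mp (h g hg), fun h g hg => (key N g).mpr (h g hg)⟩

end Cfsg.Agent.S4142
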