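import Cfsg.Statements.S4145
import Cfsg.Agent.Lib.PGroups.CyclicSylow

set_option autoImplicit false
open Cfsg

namespace Cfsg.Agent.S4145

open Subgroup Cfsg Cfsg.Agent.Lib.PGroups


/-- Let G be a finite group with a cyclic Sylow p-subgroup and H a normal subgroup such that p divides both the order of H and the index of H. Then H has a normal p-complement and G is p-solvable. -/
theorem result {G : Type*} [Group G] [Finite G] (p : ℕ) [Fact p.Prime]
    (P : Sylow p G) (hP : IsCyclic (P : Subgroup G)) (H : Subgroup G) [H.Normal] (h1 : p ∣ Nat.card H) (h2 : p ∣ H.index) :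
    Cfsg.HasNormalPComplement p H ∧ Cfsg.IsPSolvable p G := by
  classical
  have hp := (Fact.out : p.Prime)
  obtain ⟨R, hR⟩ := Cfsg.Agent.Lib.Coprime.exists_sylow_map_eq_inf P H
  set Q := (P : Subgroup G) ⊓ H with hQ
  have hQP : Q ≤ (P : Subgroup G) := inf_le_left
  have hcardQ : Nat.card Q = Nat.card (R : Subgroup H) := by
    rw [← hR]
    exact (Nat.card_congr ((R : Subgroup H).equivMapOfInjective _ H.subtype_injective).toEquiv).symm
  have hRne : (R : Subgroup H) ≠ ⊥ := R.ne_bot_of_dvd_card h1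
  have hQ1 : Q ≠ ⊥ := by
    intro h
    rw [h, Subgroup.card_bot] at hcardQ
    exact hRne (Subgroup.card_eq_one.mp hcardQ.symm)
  have hQ2 : Q ≠ (P : Subgroup G) := by
    intro h
    have hPH : (P : Subgroup G) ≤ H := by
      rw [← h]
      exact inf_le_right
    exact P.not_dvd_index (h2.trans (Subgroup.index_dvd_of_le hPH))
  have hdiv : ∀ e : ℕ, p ^ e ∣ Nat.card H → p ^ e ∣ Nat.card Q := fun e he => by
    rw [hcardQ]
    exact R.pow_dvd_card_of_pow_dvd_card he
  have hkey : ∀ y ∈ H, y ∈ normalizer (Q : Set G) → (orderOf y).Coprime p → y ∈ centralizer (Q : Set G) := by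
    intro y hy hyN hyc
    refine mem_centralizer_of_small P hP Q hQP hQ1 hQ2 hyN hyc ?_
    intro c _ e he
    apply hdiv
    have hmem : y * c * y⁻¹ * c⁻¹ ∈ H := by
      have h3 : c * y⁻¹ * c⁻¹ ∈ H := (inferInstance : H.Normal).conj_mem y⁻¹ (H.inv_mem hy) c
      rw [show y * c * y⁻¹ * c⁻¹ = y * (c * y⁻¹ * c⁻¹) by group]
      exact H.mul_mem hy h3
    exact he.trans (Subgroup.orderOf_dvd_natCard H hmem)
  have hPcomm : ∀ a ∈ (P : Subgroup G), ∀ b ∈ (P : Subgroup G), a * b = b * a := by
    letI := IsCyclic.commGroup (α := (P : Subgroup G))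
    intro a ha b hb
    exact congrArg Subtype.val (mul_comm (⟨a, ha⟩ : (P : Subgroup G)) ⟨b, hb⟩)
  have hRG : ∀ r ∈ (R : Subgroup H), (r : G) ∈ Q := by
    intro r hr
    rw [← hR]
    exact ⟨r, hr, rfl⟩
  have hNH : normalizer ((R : Subgroup H) : Set H) ≤ centralizer ((R : Subgroup H) : Set H) := by
    intro y hy
    obtain ⟨a, b, hyab, -, ⟨k, hk⟩, hb, ha', hb'⟩ := exists_pPart p y
    have haN : a ∈ normalizer ((R : Subgroup H) : Set H) := (zpowers_le.mpr hy) ha'
    have hbN : b ∈ normalizer ((R : Subgroup H) : Set H) := (zpowers_le.mpr hy) hb'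
    have haR : a ∈ (R : Subgroup H) := mem_sylow_of_mem_normalizer R ⟨k, hk⟩ haN
    have hbQ : (b : G) ∈ normalizer (Q : Set G) := by
      apply mem_normalizer_of_conj_le'
      intro w hw
      rw [← hR] at hw ⊢
      obtain ⟨r, hr, rfl⟩ := hw
      exact ⟨b * r * b⁻¹, (Subgroup.mem_normalizer_iff.mp hbN r).mp hr, rfl⟩
    have hbc := hkey b b.2 hbQ (by
      rw [Subgroup.orderOf_coe]
      exact ((Nat.Prime.coprime_iff_not_dvd hp).mpr hb).symm)
    rw [Subgroup.mem_centralizer_iff]
    intro s hs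
    have h3 : (s : G) * (a : G) = (a : G) * (s : G) :=
      hPcomm _ (hQP (hRG s hs)) _ (hQP (hRG a haR))
    have h4 : (s : G) * (b : G) = (b : G) * (s : G) :=
      Subgroup.mem_centralizer_iff.mp hbc s (hRG s hs)
    apply Subtype.ext
    rw [hyab]
    show (s : G) * ((a : G) * (b : G)) = ((a : G) * (b : G)) * (s : G)
    rw [← mul_assoc, h3, mul_assoc, h4, mul_assoc]
  have hc := MonoidHom.ker_transferSylow_isComplement' R hNH
  refine ⟨⟨R, _, MonoidHom.normal_ker _, hc⟩, ?_⟩
  set K0 := (MonoidHom.transferSylow R hNH).ker with hK0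
  haveI hK0n : K0.Normal := MonoidHom.normal_ker _
  let K : Subgroup G := K0.map H.subtype
  have hKmem : ∀ x : G, x ∈ K ↔ x ∈ H ∧ (orderOf x).Coprime p := by
    intro x
    constructor
    · rintro ⟨d, hd, rfl⟩
      refine ⟨d.2, ?_⟩
      have := (Cfsg.Agent.Lib.Transfer.mem_iff_coprime_of_isComplement' R hc d).mp hd
      rw [← Subgroup.orderOf_coe] at this
      exact this
    · rintro ⟨hx, hxc⟩
      refine ⟨⟨x, hx⟩, ?_, rfl⟩
      show (⟨x, hx⟩ : H) ∈ K0
      rw [Cfsg.Agent.Lib.Transfer.mem_iff_coprime_of_isComplement' R hc, ← Subgroup.orderOf_coe]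
      exact hxc
  haveI hKn : K.Normal := by
    refine ⟨fun x hx g => ?_⟩
    rw [hKmem] at hx ⊢
    exact ⟨(inferInstance : H.Normal).conj_mem x hx.1 g, by
      rw [Cfsg.Agent.Lib.Transfer.orderOf_conj_eq]; exact hx.2⟩
  have hKcard : (Nat.card K).Coprime p := by
    have h3 : Nat.card K = Nat.card K0 :=
      (Nat.card_congr (K0.equivMapOfInjective _ H.subtype_injective).toEquiv).symm
    rw [h3]
    exact Cfsg.Agent.Lib.Transfer.card_coprime_of_isComplement' R hc
  refine isPSolvable_of_quotient K (Or.inr hKcard) ?_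
  have hf := QuotientGroup.mk'_surjective K
  let S' : Sylow p (G ⧸ K) := P.mapSurjective hf
  have hS'cyc : IsCyclic (S' : Subgroup (G ⧸ K)) := by
    have h3 : (S' : Subgroup (G ⧸ K)) = (P : Subgroup G).map (QuotientGroup.mk' K) := Sylow.coe_mapSurjective hf P
    rw [h3]
    exact isCyclic_of_surjective ((QuotientGroup.mk' K).subgroupMap (P : Subgroup G))
      ((QuotientGroup.mk' K).subgroupMap_surjective _)
  let Z : Subgroup (G ⧸ K) := H.map (QuotientGroup.mk' K)
  haveI hZn : Z.Normal := Subgroup.Normal.map inferInstance _ hf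
  have hrel : K.relIndex H = Nat.card (R : Subgroup H) := by
    have h3 : K.subgroupOf H = K0 := Subgroup.comap_map_eq_self_of_injective H.subtype_injective K0
    unfold Subgroup.relIndex
    rw [h3]
    exact hc.symm.index_eq_card
  have hZcard : Nat.card Z = Nat.card (R : Subgroup H) := by
    rw [← hrel]
    exact Cfsg.Agent.Lib.PLocal.card_map_mk'_eq_relIndex K H
  have hZp : IsPGroup p Z := by
    obtain ⟨k, hk⟩ := IsPGroup.iff_card.mp R.isPGroup'
    exact IsPGroup.of_card (n := k) (by rw [hZcard]; exact hk)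
  have hZ1 : Z ≠ ⊥ := by
    intro h
    have h3 : Nat.card Z = 1 := by
      rw [h, Subgroup.card_bot]
    rw [hZcard] at h3
    exact hRne (Subgroup.card_eq_one.mp h3)
  exact isPSolvable_of_normal_pSubgroup S' hS'cyc Z hZp hZ1

end Cfsg.Agent.S4145
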