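import Cfsg.Statements.S4149
import Cfsg.Agent.Lib.PGroups.CoverCount

set_option autoImplicit false
open Cfsg

namespace Cfsg.Agent.S4149

open Cfsg.Agent.Lib.PGroups


/-- Let G be a finite group that has a normal p-complement for at most one prime p dividing its order, and let σ be a natural number such that every conjugacy class size of G has at most σ distinct prime divisors. Then the number of primes dividing at least one conjugacy class size of G is at most 2σ. -/
theorem result {G : Type*} [Group G] [Finite G] (σ : ℕ)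
    (hσ : ∀ x : G, ((Subgroup.centralizer ({x} : Set G)).index).primeFactors.card ≤ σ)
    (hnil : ∀ p q : ℕ, p.Prime → q.Prime → p ∣ Nat.card G → q ∣ Nat.card G →
      Cfsg.HasNormalPComplement p G → Cfsg.HasNormalPComplement q G → p = q) :
    Nat.card {p : ℕ | p.Prime ∧ ∃ x : G, p ∣ (Subgroup.centralizer ({x} : Set G)).index} ≤ 2 * σ := by
  classical
  haveI : Fintype G := Fintype.ofFinite G
  set c : G → ℕ := fun x => (Subgroup.centralizer ({x} : Set G)).index with hc
  have hcdvd : ∀ x, c x ∣ Nat.card G := fun x => Subgroup.index_dvd_card _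
  have hcpos : ∀ x, c x ≠ 0 := fun x => Subgroup.index_ne_zero_of_finite
  set Ps : Finset ℕ := (Nat.card G).primeFactors.filter (fun r => ∃ x : G, r ∣ c x) with hPs
  have hset : {p : ℕ | p.Prime ∧ ∃ x : G, p ∣ (Subgroup.centralizer ({x} : Set G)).index} = (Ps : Set ℕ) := by
    ext r
    simp only [Set.mem_setOf_eq, hPs, Finset.coe_filter, Nat.mem_primeFactors]
    constructor
    · rintro ⟨hr, x, hx⟩
      exact ⟨⟨hr, hx.trans (hcdvd x), Nat.card_pos.ne'⟩, x, hx⟩
    · rintro ⟨⟨hr, -, -⟩, x, hx⟩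
      exact ⟨hr, x, hx⟩
  rw [hset, Nat.card_coe_set_eq, Set.ncard_coe_finset]
  have hmem : ∀ r ∈ Ps, r.Prime ∧ r ∣ Nat.card G ∧ ∃ x : G, r ∣ c x := by
    intro r hr
    rw [hPs, Finset.mem_filter, Nat.mem_primeFactors] at hr
    exact ⟨hr.1.1, hr.1.2.1, hr.2⟩
  -- the elements with class size prime to r
  set A : ℕ → Finset G := fun r => Finset.univ.filter (fun x => ¬ r ∣ c x) with hA
  have hAcard : ∀ r, ((A r).card) = {x : G | ¬ r ∣ c x}.ncard := by
    intro r
    rw [← Set.ncard_coe_finset]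
    congr 1
    ext x
    simp [hA]
  -- double counting
  have hsum : Nat.card G * (Ps.card - σ) ≤ ∑ r ∈ Ps, (A r).card := by
    have h1 : ∑ r ∈ Ps, (A r).card = ∑ x : G, (Ps.filter (fun r => ¬ r ∣ c x)).card := by
      simp only [hA, Finset.card_filter]
      rw [Finset.sum_comm]
    rw [h1, Nat.card_eq_fintype_card, ← Finset.card_univ, ← smul_eq_mul]
    apply Finset.card_nsmul_le_sum
    intro x _
    have h2 : (Ps.filter (fun r => r ∣ c x)) ⊆ (c x).primeFactors := by
      intro r hr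
      rw [Finset.mem_filter] at hr
      exact Nat.mem_primeFactors.mpr ⟨(hmem r hr.1).1, hr.2, hcpos x⟩
    have h3 := (Finset.card_le_card h2).trans (hσ x)
    have h4 := Finset.card_filter_add_card_filter_not (s := Ps) (fun r => r ∣ c x)
    omega
  -- bounds
  by_contra hcon
  push Not at hcon
  have hlt : 2 * σ < Ps.card := hcon
  obtain ⟨d, hd⟩ : ∃ d, Ps.card = σ + d := ⟨Ps.card - σ, by omega⟩
  have hdσ : σ < d := by omega
  have hsub : Ps.card - σ = d := by omega
  rw [hsub] at hsum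
  have hGpos : 0 < Nat.card G := Nat.card_pos
  by_cases hex : ∃ r ∈ Ps, Cfsg.HasNormalPComplement r G
  · obtain ⟨r₀, hr₀, hr₀c⟩ := hex
    have hother : ∀ r ∈ Ps.erase r₀, 2 * (A r).card ≤ Nat.card G := by
      intro r hr
      rw [Finset.mem_erase] at hr
      obtain ⟨hr1, hr2⟩ := hr
      obtain ⟨hrp, hrd, -⟩ := hmem r hr2
      haveI := Fact.mk hrp
      rw [hAcard]
      apply two_mul_card_not_dvd_le
      intro hcomp
      exact hr1 (hnil r r₀ hrp (hmem r₀ hr₀).1 hrd (hmem r₀ hr₀).2.1 hcomp hr₀c)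
    have hfirst : (A r₀).card + 1 ≤ Nat.card G := by
      obtain ⟨hrp, -, hx⟩ := hmem r₀ hr₀
      haveI := Fact.mk hrp
      rw [hAcard]
      exact card_not_dvd_lt hx
    have h5 : 2 * ∑ r ∈ Ps.erase r₀, (A r).card ≤ (Ps.card - 1) * Nat.card G := by
      rw [Finset.mul_sum, ← Finset.card_erase_of_mem hr₀, ← smul_eq_mul]
      exact Finset.sum_le_card_nsmul _ _ _ hother
    have h6 : ∑ r ∈ Ps, (A r).card = (A r₀).card + ∑ r ∈ Ps.erase r₀, (A r).card :=
      (Finset.add_sum_erase _ _ hr₀).symm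
    rw [h6] at hsum
    have h7 : Ps.card - 1 = σ + d - 1 := by omega
    rw [h7] at h5
    obtain ⟨e, he⟩ : ∃ e, σ + d - 1 = e := ⟨_, rfl⟩
    rw [he] at h5
    have h8 : e + 2 ≤ 2 * d := by omega
    have h9 : (e + 2) * Nat.card G ≤ 2 * d * Nat.card G := Nat.mul_le_mul_right _ h8
    nlinarith
  · push Not at hex
    have hall : ∀ r ∈ Ps, 2 * (A r).card ≤ Nat.card G := by
      intro r hr
      obtain ⟨hrp, -, -⟩ := hmem r hr
      haveI := Fact.mk hrp
      rw [hAcard]
      exact two_mul_card_not_dvd_le (hex r hr)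
    have h5 : 2 * ∑ r ∈ Ps, (A r).card ≤ Ps.card * Nat.card G := by
      rw [Finset.mul_sum, ← smul_eq_mul]
      exact Finset.sum_le_card_nsmul _ _ _ hall
    have h8 : σ + d + 1 ≤ 2 * d := by omega
    have h9 : (σ + d + 1) * Nat.card G ≤ 2 * d * Nat.card G := Nat.mul_le_mul_right _ h8
    rw [hd] at h5
    nlinarith

end Cfsg.Agent.S4149
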