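import Cfsg.Statements.S4150
import Cfsg.Agent.Lib.PGroups.AltGen7
import Cfsg.Agent.Lib.PGroups.AltGen4
import Cfsg.Agent.Lib.PGroups.AltPrimes

set_option autoImplicit false
open Cfsg

namespace Cfsg.Agent.S4150

open Subgroup Equiv.Perm MulAction Cfsg.Agent.Lib.PGroups

private theorem core {α : Type} [Fintype α] [DecidableEq α] {p q : ℕ} (hp : p.Prime) (hq : q.Prime)
    (hq5 : 5 ≤ q) (hpair : (p = 3 ∧ q = 5 ∧ Fintype.card α ≤ 6) ∨ (p = 5 ∧ q = 7 ∧ Fintype.card α ≤ 10) ∨
      (p = 11 ∧ q = 13 ∧ Fintype.card α < 22) ∨ (p + 4 ≤ q ∧ Fintype.card α < 2 * p))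
    (hpq : p < q) (hcp : Fintype.card α ≤ 2 * p) (x y : alternatingGroup α) (hx : orderOf x = p)
    (hy : orderOf y = q) :
    ∃ d : ℕ, 5 ≤ d ∧ Nonempty (closure ({x, y} : Set (alternatingGroup α)) ≃* alternatingGroup (Fin d)) := by
  classical
  have hxo : orderOf (x : Equiv.Perm α) = p := by rw [Subgroup.orderOf_coe]; exact hx
  have hyo : orderOf (y : Equiv.Perm α) = q := by rw [Subgroup.orderOf_coe]; exact hy
  have hyc : (y : Equiv.Perm α).IsCycle :=
    isCycle_of_prime_order' (by rw [hyo]; exact hq) (by rw [hyo]; omega)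
  obtain ⟨D, _, _, X, Y, hXa, hYa, hXt, hYt, hcov, hcard, ⟨e⟩⟩ := exists_reduction x y
  have hXo : orderOf X = p := by rw [← lcm_cycleType, hXt, lcm_cycleType, hxo]
  have hYo : orderOf Y = q := by rw [← lcm_cycleType, hYt, lcm_cycleType, hyo]
  have hYc : Y.IsCycle := by
    rw [← card_cycleType_eq_one, hYt, card_cycleType_eq_one]
    exact hyc
  have hYs : Y.support.card = q := by rw [← hYc.orderOf, hYo]
  have hqD : q ≤ Fintype.card D := by
    rw [← hYs]
    exact Finset.card_le_univ _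
  have hd1 : Fintype.card D < p + q := by omega
  have hd2 : Fintype.card D < 2 * q := by omega
  have hprim := isPreprimitive_closure_pair hp hXo hYc hq hYs hcov hd1 hd2
  have hGalt := closure_pair_le_alt hXa hYa
  have hXG : X ∈ closure ({X, Y} : Set (Equiv.Perm D)) := subset_closure (by simp)
  have hYG : Y ∈ closure ({X, Y} : Set (Equiv.Perm D)) := subset_closure (by simp)
  -- It suffices to identify the closure.
  have hfin : closure ({X, Y} : Set (Equiv.Perm D)) = alternatingGroup D →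
      ∃ d : ℕ, 5 ≤ d ∧ Nonempty (closure ({x, y} : Set (alternatingGroup α)) ≃* alternatingGroup (Fin d)) := by
    intro h
    obtain ⟨e'⟩ := nonempty_mulEquiv_alt_of_eq h
    exact ⟨Fintype.card D, by omega, ⟨e.trans e'⟩⟩
  have hcycle : X.IsCycle → ∃ d : ℕ, 5 ≤ d ∧ Nonempty (closure ({x, y} : Set (alternatingGroup α)) ≃* alternatingGroup (Fin d)) := by
    intro hXc
    have hXs : X.support.card = p := by rw [← hXc.orderOf, hXo]
    apply hfin
    by_cases hJ : p + 3 ≤ Fintype.card D ∨ p = 3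
    · exact closure_pair_eq_alt_of_jordan hp hXo hYc hq hYs hcov hd1 hd2 hXa hYa (Or.inl ⟨hXc, hJ⟩)
    · push Not at hJ
      obtain ⟨hJ1, hJ2⟩ := hJ
      rcases hpair with ⟨h1, -, -⟩ | ⟨rfl, rfl, h2⟩ | ⟨rfl, rfl, h2⟩ | ⟨h1, -⟩
      · exact absurd h1 hJ2
      · exact eq_alt_of_five_cycle_degree_seven (by omega) hGalt hprim hXG hXc hXs
      · exact le_antisymm hGalt (alt_le_of_eleven_cycle (by omega) hGalt hprim hXG hXc hXs)
      · omega
  by_cases hXc : X.IsCycle
  · exact hcycle hXc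
  -- Two cycles.
  obtain ⟨n, hn⟩ := cycleType_prime_order (σ := X) (by rw [hXo]; exact hp)
  have hXsum : X.support.card = (n + 1) * p := by
    rw [← sum_cycleType, hn, Multiset.sum_replicate, hXo]
    simp
  have hn1 : n ≠ 0 := by
    intro h0
    apply hXc
    rw [← card_cycleType_eq_one, hn, h0]
    simp
  have hXle : X.support.card ≤ Fintype.card D := Finset.card_le_univ _
  have h2p : 2 * p ≤ X.support.card := by
    rw [hXsum]
    have : 2 ≤ n + 1 := by omega
    exact Nat.mul_le_mul_right p this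
  have hcardD : Fintype.card D = 2 * p := by omega
  rcases hpair with ⟨rfl, rfl, h2⟩ | ⟨rfl, rfl, h2⟩ | ⟨rfl, rfl, h2⟩ | ⟨h1, h2⟩
  · rcases eq_alt_or_alt_five_of_degree_six (by omega) hGalt hprim hYG hYc hYs with h | ⟨⟨e'⟩⟩
    · exact hfin h
    · exact ⟨5, le_rfl, ⟨e.trans e'⟩⟩
  · apply hfin
    exact closure_pair_eq_alt_of_jordan hp hXo hYc hq hYs hcov hd1 hd2 hXa hYa (Or.inr (by omega))
  · omega
  · omega


/-- Let m ≥ 5. Then there are primes p < q with m/2 ≤ p and q ≤ m such that any two elements x, y of the alternating group of degree m with x of order p and y of order q generate a subgroup isomorphic to an alternating group of some degree d ≥ 5. -/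
theorem result (m : ℕ) (hm : 5 ≤ m) :
    ∃ p q : ℕ, p.Prime ∧ q.Prime ∧ m ≤ 2 * p ∧ p < q ∧ q ≤ m ∧
      ∀ x y : alternatingGroup (Fin m), orderOf x = p → orderOf y = q →
        ∃ d : ℕ, 5 ≤ d ∧ Nonempty (Subgroup.closure ({x, y} : Set (alternatingGroup (Fin m))) ≃* alternatingGroup (Fin d)) := by
  rcases Nat.lt_or_ge m 7 with h1 | h1
  · refine ⟨3, 5, Nat.prime_three, Nat.prime_five, by omega, by norm_num, by omega, ?_⟩
    intro x y hx hy
    exact core Nat.prime_three Nat.prime_five le_rfl (Or.inl ⟨rfl, rfl, by simp; omega⟩) (by norm_num)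
      (by simp; omega) x y hx hy
  rcases Nat.lt_or_ge m 11 with h2 | h2
  · refine ⟨5, 7, Nat.prime_five, by norm_num, by omega, by norm_num, by omega, ?_⟩
    intro x y hx hy
    exact core Nat.prime_five (by norm_num) (by norm_num) (Or.inr (Or.inl ⟨rfl, rfl, by simp; omega⟩))
      (by norm_num) (by simp; omega) x y hx hy
  rcases Nat.lt_or_ge m 14 with h3 | h3
  · refine ⟨7, 11, by norm_num, by norm_num, by omega, by norm_num, by omega, ?_⟩
    intro x y hx hy
    exact core (by norm_num) (by norm_num) (by norm_num)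
      (Or.inr (Or.inr (Or.inr ⟨by norm_num, by simp; omega⟩))) (by norm_num) (by simp; omega) x y hx hy
  rcases Nat.lt_or_ge m 17 with h4 | h4
  · refine ⟨11, 13, by norm_num, by norm_num, by omega, by norm_num, by omega, ?_⟩
    intro x y hx hy
    exact core (by norm_num) (by norm_num) (by norm_num)
      (Or.inr (Or.inr (Or.inl ⟨rfl, rfl, by simp; omega⟩))) (by norm_num) (by simp; omega) x y hx hy
  obtain ⟨p, q, hp, hq, h5, h6, h7⟩ := exists_primes_gap m h4
  refine ⟨p, q, hp, hq, by omega, by omega, h7, ?_⟩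
  intro x y hx hy
  have hp2 : 2 ≤ p := hp.two_le
  exact core hp hq (by omega) (Or.inr (Or.inr (Or.inr ⟨h6, by simp; omega⟩))) (by omega)
    (by simp; omega) x y hx hy

end Cfsg.Agent.S4150
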