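import Cfsg.Statements.S4151
import Cfsg.Agent.Lib.PGroups.ZAct
import Cfsg.Agent.Lib.Coprime.Partition
import Cfsg.Agent.Lib.OddLocal.UniqueP2
import Cfsg.Agent.Lib.PGroups.Cyclic

set_option autoImplicit false
open Cfsg

namespace Cfsg.Agent.S4151

open Subgroup Cfsg.Agent.Lib.PGroups Cfsg.Agent.Lib.Coprime Cfsg.Agent.Lib.OddLocal
open scoped commutatorElement

set_option linter.style.haveILetI false
set_option linter.unusedSectionVars false

section
variable {G : Type*} [Group G] [Finite G]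

private theorem mem_norm_of_conj {H : Subgroup G} (hTI : Cfsg.IsTISubset (H : Set G)) {u y : G}
    (hy : y ∈ H) (hy1 : y ≠ 1) (huy : u * y * u⁻¹ ∈ H) : u ∈ normalizer (H : Set G) := by
  by_contra hu
  exact hy1 (hTI u hu y hy huy)

/-- `H` is a Hall subgroup of `G`. -/
private theorem coprime_index (H : Subgroup G) (hTI : Cfsg.IsTISubset (H : Set G))
    (hHall : (Nat.card H).Coprime (H.subgroupOf (normalizer (H : Set G))).index) :
    (Nat.card H).Coprime H.index := by
  by_contra hn
  obtain ⟨p, hp, hpH, hpi⟩ := Nat.Prime.not_coprime_iff_dvd.mp hn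
  haveI : Fact p.Prime := ⟨hp⟩
  obtain ⟨S⟩ : Nonempty (Sylow p ↥H) := inferInstance
  let S' : Subgroup G := (S : Subgroup ↥H).map H.subtype
  have hS'H : S' ≤ H := map_subtype_le _
  have hS'p : IsPGroup p S' := S.isPGroup'.map H.subtype
  obtain ⟨T, hT⟩ := hS'p.exists_le_sylow
  have hne : S' ≠ T := by
    intro he
    have h1 : (T : Subgroup G) ≤ H := he ▸ hS'H
    exact T.not_dvd_index (hpi.trans (Subgroup.index_dvd_of_le h1))
  have hlt : S'.subgroupOf T < ⊤ := by
    refine lt_top_iff_ne_top.mpr (fun h => hne (le_antisymm hT ?_))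
    exact subgroupOf_eq_top.mp h
  haveI hTn : Group.IsNilpotent ↥(T : Subgroup G) := T.isPGroup'.isNilpotent
  have hlt2 := Group.normalizerCondition_of_isNilpotent (G := ↥(T : Subgroup G)) _ hlt
  obtain ⟨u, hun, hus⟩ := SetLike.exists_of_lt hlt2
  have hus' : (u : G) ∉ S' := fun h => hus (mem_subgroupOf.mpr h)
  have hun' : ∀ x ∈ S', (u : G) * x * (u : G)⁻¹ ∈ S' := by
    intro x hx
    have hxT : x ∈ (T : Subgroup G) := hT hx
    have h1 := (mem_normalizer_iff.mp hun ⟨x, hxT⟩).mp (mem_subgroupOf.mpr hx)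
    exact mem_subgroupOf.mp h1
  have hSne : (S : Subgroup ↥H) ≠ ⊥ := S.ne_bot_of_dvd_card hpH
  obtain ⟨y, hyS, hy1⟩ := (Subgroup.ne_bot_iff_exists_ne_one.mp hSne |>.imp fun y hy => hy) |> fun ⟨y, hy⟩ =>
    (⟨y.1, y.2, fun h => hy (Subtype.ext h)⟩ : ∃ y : ↥H, y ∈ (S : Subgroup ↥H) ∧ y ≠ 1)
  have hy'S : (y : G) ∈ S' := ⟨y, hyS, rfl⟩
  have hy'1 : (y : G) ≠ 1 := fun h => hy1 (Subtype.ext h)
  have huN : (u : G) ∈ normalizer (H : Set G) :=
    mem_norm_of_conj hTI y.2 hy'1 (hS'H (hun' _ hy'S))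
  obtain ⟨k, hk⟩ := exists_orderOf_of_mem_isPGroup T.isPGroup' u.2
  haveI hnH : (H.subgroupOf (normalizer (H : Set G))).Normal := normal_in_normalizer
  have hpow := Subgroup.pow_index_mem (H.subgroupOf (normalizer (H : Set G))) (⟨u, huN⟩ : ↥(normalizer (H : Set G)))
  have hpow' : (u : G) ^ (H.subgroupOf (normalizer (H : Set G))).index ∈ H := by
    have := mem_subgroupOf.mp hpow
    simpa only [SubmonoidClass.coe_pow] using this
  have hpn : ¬ p ∣ (H.subgroupOf (normalizer (H : Set G))).index := fun h =>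
    hp.one_lt.ne' (Nat.eq_one_of_dvd_coprimes hHall hpH h)
  have hcop : Nat.Coprime (H.subgroupOf (normalizer (H : Set G))).index (orderOf (u : G)) := by
    rw [hk]
    exact Nat.Coprime.pow_right _ ((Nat.Prime.coprime_iff_not_dvd hp).mpr hpn).symm
  obtain ⟨m, hm⟩ := exists_pow_eq_self_of_coprime hcop
  have huH : (u : G) ∈ H := by
    rw [← hm]
    exact H.pow_mem hpow' m
  have hN : (⟨u, huH⟩ : ↥H) ∈ normalizer ((S : Subgroup ↥H) : Set ↥H) := by
    apply mem_normalizer_of_conj_le'
    intro w hw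
    have hw' : (w : G) ∈ S' := ⟨w, hw, rfl⟩
    obtain ⟨z, hz, hze⟩ := hun' _ hw'
    have : (⟨u, huH⟩ : ↥H) * w * (⟨u, huH⟩ : ↥H)⁻¹ = z := Subtype.ext hze.symm
    rw [this]
    exact hz
  have hinS := mem_sylow_of_mem_normalizer S (w := ⟨u, huH⟩) ⟨k, by rw [← Subgroup.orderOf_coe]; exact hk⟩ hN
  exact hus' ⟨_, hinS, rfl⟩

/-- The largest normal subgroup of order coprime to `|H|`. -/
private theorem exists_core (H : Subgroup G) :
    ∃ O : Subgroup G, O.Normal ∧ (Nat.card O).Coprime (Nat.card H) ∧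
      ∀ K : Subgroup G, K.Normal → (Nat.card K).Coprime (Nat.card H) → K ≤ O := by
  obtain ⟨O, hO⟩ := (Set.toFinite {K : Subgroup G | K.Normal ∧ (Nat.card K).Coprime (Nat.card H)}).exists_maximal
    ⟨⊥, inferInstance, by simp⟩
  obtain ⟨hOn, hOc⟩ := hO.prop
  refine ⟨O, hOn, hOc, fun K hKn hKc => ?_⟩
  have hs : Nat.card ↥(O ⊔ K) * Nat.card ↥(O ⊓ K) = Nat.card O * Nat.card K :=
    card_sup_mul_card_inf_of_normal O K hOn
  have hd : Nat.card ↥(O ⊔ K) ∣ Nat.card O * Nat.card K := ⟨_, hs.symm⟩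
  have hc : (Nat.card ↥(O ⊔ K)).Coprime (Nat.card H) :=
    Nat.Coprime.coprime_dvd_left hd (Nat.Coprime.mul_left hOc hKc)
  have hle : O ≤ O ⊔ K := le_sup_left
  have := hO.le_of_ge (y := O ⊔ K) ⟨Subgroup.sup_normal O K, hc⟩ hle
  exact le_sup_right.trans this

private theorem sup_normalizer (H : Subgroup G) (hTI : Cfsg.IsTISubset (H : Set G))
    (hidx : (Nat.card H).Coprime H.index)
    (hsep : ∃ (n : ℕ) (M : Fin (n + 1) → Subgroup G), M 0 = ⊥ ∧ M (Fin.last n) = ⊤ ∧ Monotone M ∧ (∀ i, (M i).Normal) ∧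
      ∀ i : Fin n, (∀ q : ℕ, q.Prime → q ∣ (M i.castSucc).relIndex (M i.succ) → q ∣ Nat.card H) ∨
        ((M i.castSucc).relIndex (M i.succ)).Coprime (Nat.card H))
    (O : Subgroup G) (hOn : O.Normal) (hOc : (Nat.card O).Coprime (Nat.card H))
    (hOm : ∀ K : Subgroup G, K.Normal → (Nat.card K).Coprime (Nat.card H) → K ≤ O) :
    O ⊔ normalizer (H : Set G) = ⊤ := by
  classical
  by_cases hOt : O = ⊤
  · rw [hOt, top_sup_eq]
  obtain ⟨n, M, h0, hlast, hmono, hnorm, hfac⟩ := hsep
  have hex : ∃ i : Fin n, M i.castSucc ≤ O ∧ ¬ M i.succ ≤ O := by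
    by_contra hall
    push Not at hall
    have : ∀ i : Fin (n + 1), M i ≤ O := fun i => by
      induction i using Fin.induction with
      | zero => rw [h0]; exact bot_le
      | succ i hi => exact hall i hi
    have h1 := this (Fin.last n)
    rw [hlast] at h1
    exact hOt (top_le_iff.mp h1)
  obtain ⟨i, hi1, hi2⟩ := hex
  set A := M i.castSucc with hA
  set B := M i.succ with hB
  have hAB : A ≤ B := hmono (Fin.castSucc_lt_succ).le
  haveI hBn : B.Normal := hnorm _
  have hprimes : ∀ q : ℕ, q.Prime → q ∣ A.relIndex B → q ∣ Nat.card H := by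
    rcases hfac i with h | h
    · exact h
    · exfalso
      apply hi2
      apply hOm B hBn
      have h1 : Nat.card A * A.relIndex B = Nat.card B := Cfsg.Agent.Lib.OddLocal.card_mul_relIndex hAB
      rw [← h1]
      exact Nat.Coprime.mul_left (hOc.coprime_dvd_left (Subgroup.card_dvd_of_le hi1)) h
  let T : Subgroup G := O ⊔ B
  haveI hTn : T.Normal := Subgroup.sup_normal O B
  have hOT : O ≤ T := le_sup_left
  have hrel1 : O.relIndex T = O.relIndex B := relIndex_sup_left B O
  have hrel2 : O.relIndex B ∣ A.relIndex B := relIndex_dvd_of_le_left B hi1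
  have hprimesT : ∀ q : ℕ, q.Prime → q ∣ O.relIndex T → q ∣ Nat.card H := fun q hq hd =>
    hprimes q hq (hd.trans (hrel1 ▸ hrel2))
  have hne1 : O.relIndex T ≠ 1 := by
    intro h
    rw [Subgroup.relIndex_eq_one] at h
    exact hi2 (le_sup_right.trans h)
  obtain ⟨p, hp, hpd⟩ := Nat.exists_prime_and_dvd hne1
  have hpH := hprimesT p hp hpd
  haveI : Fact p.Prime := ⟨hp⟩
  have hpT : p ∣ Nat.card T := hpd.trans (relIndex_dvd_card _ _)
  -- A Sylow subgroup of `H` that is Sylow in `G`.
  obtain ⟨S⟩ : Nonempty (Sylow p ↥H) := inferInstance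
  have hS'p : IsPGroup p ((S : Subgroup ↥H).map H.subtype) := S.isPGroup'.map H.subtype
  have hpnH : ¬ p ∣ H.index := fun h => hp.one_lt.ne' (Nat.eq_one_of_dvd_coprimes hidx hpH h)
  have hS'i : ¬ p ∣ ((S : Subgroup ↥H).map H.subtype).index := by
    rw [Subgroup.index_map_subtype]
    intro h
    rcases (Nat.Prime.dvd_mul hp).mp h with h | h
    · exact S.not_dvd_index h
    · exact hpnH h
  let P₀ : Sylow p G := hS'p.toSylow hS'i
  have hP₀H : (P₀ : Subgroup G) ≤ H := by
    intro x hx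
    have : x ∈ (S : Subgroup ↥H).map H.subtype := (hS'p.mem_toSylow hS'i).mp hx
    exact map_subtype_le _ this
  obtain ⟨R⟩ : Nonempty (Sylow p ↥T) := inferInstance
  have hR'p : IsPGroup p ((R : Subgroup ↥T).map T.subtype) := R.isPGroup'.map T.subtype
  obtain ⟨g, hg⟩ := sylow_conj' P₀ hR'p
  have hRne : (R : Subgroup ↥T) ≠ ⊥ := R.ne_bot_of_dvd_card hpT
  obtain ⟨y₀, hy₀⟩ := Subgroup.ne_bot_iff_exists_ne_one.mp hRne
  have hy₀1 : ((y₀ : ↥T) : G) ≠ 1 := fun h => hy₀ (Subtype.ext (Subtype.ext h))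
  have hy₀R : ((y₀ : ↥T) : G) ∈ (R : Subgroup ↥T).map T.subtype := ⟨y₀, y₀.2, rfl⟩
  have hnorm2 : ∀ n ∈ normalizer (((R : Subgroup ↥T).map T.subtype : Subgroup G) : Set G),
      g⁻¹ * n * g ∈ normalizer (H : Set G) := by
    intro n hn
    have hz : g⁻¹ * ((y₀ : ↥T) : G) * g ∈ H := hP₀H (hg _ hy₀R)
    have hz1 : g⁻¹ * ((y₀ : ↥T) : G) * g ≠ 1 := by
      intro h
      apply hy₀1
      have : ((y₀ : ↥T) : G) = g * (g⁻¹ * ((y₀ : ↥T) : G) * g) * g⁻¹ := by group
      rw [this, h]
      group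
    refine mem_norm_of_conj hTI hz hz1 ?_
    have h1 := (mem_normalizer_iff.mp hn _).mp hy₀R
    have h2 := hP₀H (hg _ h1)
    have h3 : g⁻¹ * n * g * (g⁻¹ * ((y₀ : ↥T) : G) * g) * (g⁻¹ * n * g)⁻¹ =
        g⁻¹ * (n * ((y₀ : ↥T) : G) * n⁻¹) * g := by group
    rw [h3]
    exact h2
  have hfrat : T ⊔ normalizer (((R : Subgroup ↥T).map T.subtype : Subgroup G) : Set G) = ⊤ := by
    rw [sup_comm]
    have := Sylow.normalizer_sup_eq_top R
    exact this
  have hTN : T ⊔ normalizer (H : Set G) = ⊤ := by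
    rw [eq_top_iff]
    intro x _
    have hx : g * x * g⁻¹ ∈ T ⊔ normalizer (((R : Subgroup ↥T).map T.subtype : Subgroup G) : Set G) := by
      rw [hfrat]; trivial
    obtain ⟨t, ht, m, hm, hmul⟩ := mem_sup_of_le_normalizer
      (by rw [normalizer_eq_top_iff.mpr hTn]; exact le_top) hx
    have hx' : x = (g⁻¹ * t * g) * (g⁻¹ * m * g) := by
      have : x = g⁻¹ * (g * x * g⁻¹) * g := by group
      rw [this, ← hmul]
      group
    rw [hx']
    refine mul_mem_sup ?_ (hnorm2 m hm)
    have := hTn.conj_mem t ht g⁻¹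
    simpa using this
  -- `T ≤ O H`.
  have hTle : T ≤ O ⊔ H := by
    set X : Subgroup G := T ⊔ H with hX
    have hOHX : O ⊔ H ≤ X := sup_le (hOT.trans le_sup_left) le_sup_right
    have hd : (O ⊔ H).relIndex X = 1 := by
      by_contra hd1
      obtain ⟨q, hq, hqd⟩ := Nat.exists_prime_and_dvd hd1
      have hq1 : q ∣ O.relIndex X := by
        have h1 : O.relIndex (O ⊔ H) * (O ⊔ H).relIndex X = O.relIndex X :=
          relIndex_mul_relIndex _ _ _ le_sup_left hOHX
        exact hqd.trans ⟨_, by rw [← h1, mul_comm]⟩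
      have hq2 : q ∣ Nat.card H := by
        have h1 : O.relIndex T * T.relIndex X = O.relIndex X :=
          relIndex_mul_relIndex _ _ _ hOT le_sup_left
        rw [← h1] at hq1
        rcases (Nat.Prime.dvd_mul hq).mp hq1 with h | h
        · exact hprimesT q hq h
        · have h2 : T.relIndex X = T.relIndex H := relIndex_sup_left H T
          rw [h2] at h
          exact h.trans (relIndex_dvd_card _ _)
      have hq3 : q ∣ H.index := by
        have h1 : (O ⊔ H).relIndex X * X.index = (O ⊔ H).index := relIndex_mul_index hOHX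
        have h2 : (O ⊔ H).index ∣ H.index := Subgroup.index_dvd_of_le le_sup_right
        exact (hqd.trans ⟨_, h1.symm⟩).trans h2
      exact hq.one_lt.ne' (Nat.eq_one_of_dvd_coprimes hidx hq2 hq3)
    have hle : X ≤ O ⊔ H := Subgroup.relIndex_eq_one.mp hd
    exact le_sup_left.trans hle
  rw [eq_top_iff, ← hTN]
  refine sup_le (hTle.trans (sup_le le_sup_left (le_normalizer.trans le_sup_right))) le_sup_right

/-- `p`-groups all of whose abelian subgroups are cyclic have a unique subgroup of order `p`. -/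
private theorem uniqueP_of_abelian_cyclic {P : Type*} [Group P] [Finite P] {r : ℕ} [Fact r.Prime]
    (hP : IsPGroup r P) (hAb : ∀ K : Subgroup P, IsMulCommutative K → IsCyclic K) : UniqueP r P := by
  classical
  have key : ∀ X : Subgroup P, Nat.card X = r → ∀ z ∈ center P, orderOf z = r → X = zpowers z := by
    intro X hX z hzc hzo
    let Z : Subgroup P := zpowers z
    have hZc : Z ≤ center P := (zpowers_le).mpr hzc
    have hZn : Z.Normal := by
      refine ⟨fun n hn g => ?_⟩
      have := mem_center_iff.mp (hZc hn) g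
      rw [this, mul_assoc, mul_inv_cancel, mul_one]
      exact hn
    haveI hXp : Fact (Nat.card X).Prime := by rw [hX]; infer_instance
    haveI hXc : IsCyclic X := isCyclic_of_prime_card rfl
    have hcomm : IsMulCommutative ↥(X ⊔ Z) := by
      refine ⟨⟨?_⟩⟩
      rintro ⟨a, ha⟩ ⟨b, hb⟩
      have hN : X ≤ normalizer (Z : Set P) := by
        rw [normalizer_eq_top_iff.mpr hZn]; exact le_top
      have ha' : a ∈ Z ⊔ X := by rwa [sup_comm]
      have hb' : b ∈ Z ⊔ X := by rwa [sup_comm]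
      obtain ⟨a₁, ha₁, a₂, ha₂, rfl⟩ := mem_sup_of_le_normalizer' (A := Z) (B := X) hN ha'
      obtain ⟨b₁, hb₁, b₂, hb₂, rfl⟩ := mem_sup_of_le_normalizer' (A := Z) (B := X) hN hb'
      apply Subtype.ext
      have h1 : a₁ * b₁ = b₁ * a₁ := congrArg Subtype.val (mul_comm' (⟨a₁, ha₁⟩ : X) ⟨b₁, hb₁⟩)
      have h2 := mem_center_iff.mp (hZc ha₂)
      have h3 := mem_center_iff.mp (hZc hb₂)
      show a₁ * a₂ * (b₁ * b₂) = b₁ * b₂ * (a₁ * a₂)
      calc a₁ * a₂ * (b₁ * b₂) = a₁ * (a₂ * b₁) * b₂ := by group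
        _ = a₁ * (b₁ * a₂) * b₂ := by rw [h2 b₁]
        _ = (a₁ * b₁) * (a₂ * b₂) := by group
        _ = (b₁ * a₁) * (b₂ * a₂) := by rw [h1, h3 a₂]
        _ = b₁ * (a₁ * b₂) * a₂ := by group
        _ = b₁ * (b₂ * a₁) * a₂ := by rw [h3 a₁]
        _ = b₁ * b₂ * (a₁ * a₂) := by group
    have hK := hAb _ hcomm
    exact eq_of_card_eq_of_le_cyclic hK le_sup_left le_sup_right
      (by rw [hX]; show _ = Nat.card (zpowers z); rw [Nat.card_zpowers, hzo])
  intro X Y hX hY
  have hn : Nontrivial P := by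
    have : 1 < Nat.card X := by rw [hX]; exact (Fact.out : r.Prime).one_lt
    have h2 : Nat.card X ≤ Nat.card P := Nat.card_le_card_of_injective _ X.subtype_injective
    exact (Finite.one_lt_card_iff_nontrivial).mp (this.trans_le h2)
  have hcn := hP.center_nontrivial
  have hdv : r ∣ Nat.card (center P) := by
    obtain ⟨k, hk, hk'⟩ := (hP.to_subgroup (center P)).nontrivial_iff_card.mp hcn
    rw [hk']
    exact dvd_pow_self _ hk.ne'
  obtain ⟨z, hz⟩ := exists_prime_orderOf_dvd_card' r hdv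
  have hz' : orderOf (z : P) = r := by rwa [Subgroup.orderOf_coe]
  rw [key X hX z z.2 hz', key Y hY z z.2 hz']

private theorem isZGroup_of (H : Subgroup G) (hTI : Cfsg.IsTISubset (H : Set G)) (hnn : ¬ H.Normal)
    (h2 : ∀ P : Sylow 2 H, IsMulCommutative (P : Subgroup H))
    (O : Subgroup G) (hOn : O.Normal) (hOc : (Nat.card O).Coprime (Nat.card H))
    (hOs : O ⊔ normalizer (H : Set G) = ⊤) : IsZGroup ↥H := by
  classical
  have hOH : O ⊓ H = ⊥ := (disjoint_of_coprime_natCard hOc).eq_bot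
  -- fixed points
  have hfix : ∀ o ∈ O, ∀ h ∈ H, h ≠ 1 → o * h = h * o → o ∈ centralizer (H : Set G) := by
    intro o ho h hh hh1 hc
    have hoN : o ∈ normalizer (H : Set G) := by
      refine mem_norm_of_conj hTI hh hh1 ?_
      rw [hc, mul_inv_cancel_right]
      exact hh
    rw [mem_centralizer_iff]
    intro h' hh'
    have hh'' : h' ∈ H := hh'
    have h1 : o * h' * o⁻¹ * h'⁻¹ ∈ H :=
      H.mul_mem ((mem_normalizer_iff.mp hoN h').mp hh'') (H.inv_mem hh'')
    have h3 : o * (h' * o⁻¹ * h'⁻¹) ∈ O := O.mul_mem ho (hOn.conj_mem _ (O.inv_mem ho) _)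
    have h4 : o * h' * o⁻¹ * h'⁻¹ ∈ O ⊓ H := mem_inf.mpr ⟨by simpa [mul_assoc] using h3, h1⟩
    rw [hOH, mem_bot] at h4
    have h5 : o * h' * o⁻¹ = h' := mul_inv_eq_one.mp h4
    exact (mul_inv_eq_iff_eq_mul.mp h5).symm
  have hnc : ¬ O ≤ centralizer (H : Set G) := by
    intro hle
    apply hnn
    rw [← normalizer_eq_top_iff, eq_top_iff, ← hOs]
    refine sup_le (fun o ho => ?_) le_rfl
    exact mem_normalizer_of_forall_commute (fun z hz =>
      (mem_centralizer_iff.mp (hle ho) z hz).symm)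
  -- Abelian subgroups are cyclic.
  have hab : ∀ A : Subgroup G, A ≤ H → IsMulCommutative A → IsCyclic A := by
    intro A hAH hA
    by_contra hAc
    apply hnc
    have hle := le_iSup_centralizer_of_abelian_action hA _ O rfl
      (by rw [normalizer_eq_top_iff.mpr hOn]; exact le_top)
      ((hOc.coprime_dvd_right (Subgroup.card_dvd_of_le hAH)).symm)
    refine hle.trans (iSup₂_le fun B hB => ?_)
    obtain ⟨hBA, a, ha, hBa⟩ := hB
    have hBne : B ≠ ⊥ := by
      intro hb
      rw [hb, bot_sup_eq] at hBa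
      apply hAc
      rw [← hBa]
      infer_instance
    obtain ⟨y, hy⟩ := Subgroup.ne_bot_iff_exists_ne_one.mp hBne
    intro o ho
    refine hfix o (mem_inf.mp ho).1 y (hAH (hBA y.2)) (fun h => hy (Subtype.ext h)) ?_
    exact (mem_centralizer_iff.mp (mem_inf.mp ho).2 y y.2).symm
  have hab' : ∀ K : Subgroup ↥H, IsMulCommutative K → IsCyclic K := by
    intro K hK
    have e := equivMapOfInjective K H.subtype H.subtype_injective
    haveI : IsMulCommutative ↥(K.map H.subtype) := by
      refine ⟨⟨fun a b => ?_⟩⟩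
      apply e.symm.injective
      rw [map_mul, map_mul]
      exact mul_comm' _ _
    have hc := hab (K.map H.subtype) (map_subtype_le _) inferInstance
    exact isCyclic_of_surjective e.symm.toMonoidHom e.symm.surjective
  refine ⟨fun r hr P => ?_⟩
  haveI : Fact r.Prime := ⟨hr⟩
  by_cases hr2 : r = 2
  · subst hr2
    exact hab' _ (h2 P)
  · have hU : UniqueP r ↥(P : Subgroup ↥H) := by
      apply uniqueP_of_abelian_cyclic P.isPGroup'
      intro K hK
      have e := equivMapOfInjective K (P : Subgroup ↥H).subtype (P : Subgroup ↥H).subtype_injective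
      haveI : IsMulCommutative ↥(K.map (P : Subgroup ↥H).subtype) := by
        refine ⟨⟨fun a b => ?_⟩⟩
        apply e.symm.injective
        rw [map_mul, map_mul]
        exact mul_comm' _ _
      have hc := hab' (K.map (P : Subgroup ↥H).subtype) inferInstance
      exact isCyclic_of_surjective e.symm.toMonoidHom e.symm.surjective
    exact isCyclic_of_uniqueP_odd hr2 _ _ rfl P.isPGroup' hU

end


/-- Let G be a finite group and H a non-normal subgroup meeting each of its conjugates by elements outside N_G(H) trivially, with the order of H coprime to its index in N_G(H), such that G is π-separable for π the set of primes dividing the order of H (G has a chain of normal subgroups from 1 to G each of whose factors has order divisible only by primes dividing the order of H or coprime to it). Suppose a Sylow 2-subgroup of H is abelian and Q is a complement of H in N_G(H). Then C_H(Q), the subgroup of elements of H commuting with Q, has order coprime to its index in G and has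 a normal complement in G. -/
theorem result {G : Type*} [Group G] [Finite G] (H : Subgroup G)
    (hTI : Cfsg.IsTISubset (H : Set G)) (hnn : ¬ H.Normal)
    (hHall : (Nat.card H).Coprime (H.subgroupOf (Subgroup.normalizer (H : Set G))).index)
    (hsep : ∃ (n : ℕ) (M : Fin (n + 1) → Subgroup G), M 0 = ⊥ ∧ M (Fin.last n) = ⊤ ∧ Monotone M ∧ (∀ i, (M i).Normal) ∧
      ∀ i : Fin n, (∀ q : ℕ, q.Prime → q ∣ (M i.castSucc).relIndex (M i.succ) → q ∣ Nat.card H) ∨
        ((M i.castSucc).relIndex (M i.succ)).Coprime (Nat.card H))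
    (h2 : ∀ P : Sylow 2 H, IsMulCommutative (P : Subgroup H))
    (Q : Subgroup G) (hQ : Q ≤ Subgroup.normalizer (H : Set G)) (hQH : Q ⊓ H = ⊥) (hQH' : Q ⊔ H = Subgroup.normalizer (H : Set G)) :
    (Nat.card ↥(H ⊓ Subgroup.centralizer (Q : Set G))).Coprime (H ⊓ Subgroup.centralizer (Q : Set G)).index ∧
    ∃ N : Subgroup G, N.Normal ∧ N.IsComplement' (H ⊓ Subgroup.centralizer (Q : Set G)) := by
  classical
  have hidx := coprime_index H hTI hHall
  obtain ⟨O, hOn, hOc, hOm⟩ := exists_core H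
  have hOs := sup_normalizer H hTI hidx hsep O hOn hOc hOm
  haveI hZ : IsZGroup ↥H := isZGroup_of H hTI hnn h2 O hOn hOc hOs
  have hQHc : (Nat.card Q).Coprime (Nat.card H) := by
    have h1 : H.relIndex (H ⊔ Q) = H.relIndex Q := relIndex_sup_of_le_normalizer H Q hQ
    have h3 : H.relIndex Q = Nat.card Q := relIndex_eq_card_of_inf_bot _ _ (by rw [inf_comm]; exact hQH)
    have h4 : (H.subgroupOf (normalizer (H : Set G))).index = Nat.card Q := by
      rw [← hQH', sup_comm]
      show H.relIndex (H ⊔ Q) = _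
      rw [h1, h3]
    rw [h4] at hHall
    exact hHall.symm
  have hAct : CoprimeAction Q H := ⟨hQ, hQHc, Or.inr inferInstance⟩
  set W : Subgroup G := ⁅H, Q⁆ with hW
  set C : Subgroup G := H ⊓ centralizer (Q : Set G) with hC
  have hWC : W ⊔ C = H := hAct.commutator_sup_centralizer
  have hcopWC : (Nat.card W).Coprime (Nat.card C) := zgroup_coprime_commutator_centralizer hAct
  have hCH : C ≤ H := inf_le_left
  have hWH : W ≤ H := hAct.commutator_le_self
  have hQW : Q ≤ normalizer (W : Set G) := hAct.le_normalizer_commutator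
  have hHW : H ≤ normalizer (W : Set G) := hAct.le_normalizer_commutator'
  let N₁ : Subgroup G := O ⊔ (W ⊔ Q)
  have hNQ : Q ≤ normalizer (N₁ : Set G) := by
    intro q hq
    apply mem_normalizer_of_conj_le'
    have hle : N₁ ≤ N₁.comap (MulAut.conj q).toMonoidHom := by
      refine sup_le (fun o ho => ?_) (sup_le (fun w hw => ?_) (fun x hx => ?_))
      · exact (le_sup_left : O ≤ N₁) (hOn.conj_mem o ho q)
      · have := (mem_normalizer_iff.mp (hQW hq) w).mp hw
        exact (le_sup_of_le_right le_sup_left : W ≤ N₁) this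
      · have : q * x * q⁻¹ ∈ Q := Q.mul_mem (Q.mul_mem hq hx) (Q.inv_mem hq)
        exact (le_sup_of_le_right le_sup_right : Q ≤ N₁) this
    intro w hw
    exact hle hw
  have hNH : H ≤ normalizer (N₁ : Set G) := by
    intro h hh
    apply mem_normalizer_of_conj_le'
    have hle : N₁ ≤ N₁.comap (MulAut.conj h).toMonoidHom := by
      refine sup_le (fun o ho => ?_) (sup_le (fun w hw => ?_) (fun x hx => ?_))
      · exact (le_sup_left : O ≤ N₁) (hOn.conj_mem o ho h)
      · have := (mem_normalizer_iff.mp (hHW hh) w).mp hw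
        exact (le_sup_of_le_right le_sup_left : W ≤ N₁) this
      · have h1 : h * x * h⁻¹ = ⁅h, x⁆ * x := by
          rw [commutatorElement_def]; group
        show (MulAut.conj h) x ∈ N₁
        rw [MulAut.conj_apply, h1]
        exact N₁.mul_mem ((le_sup_of_le_right le_sup_left : W ≤ N₁) (commutator_mem_commutator hh hx))
          ((le_sup_of_le_right le_sup_right : Q ≤ N₁) hx)
    intro w hw
    exact hle hw
  have hN₁n : N₁.Normal := by
    rw [← normalizer_eq_top_iff, eq_top_iff, ← hOs]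
    refine sup_le (le_sup_left.trans le_normalizer) ?_
    rw [← hQH']
    exact sup_le hNQ hNH
  have hN₁C : N₁ ⊔ C = ⊤ := by
    rw [eq_top_iff, ← hOs, ← hQH']
    refine sup_le (le_sup_of_le_left le_sup_left) (sup_le ?_ ?_)
    · exact le_sup_of_le_left (le_sup_of_le_right le_sup_right)
    · rw [← hWC]
      exact sup_le (le_sup_of_le_left (le_sup_of_le_right le_sup_left)) le_sup_right
  have hcopN : (Nat.card N₁).Coprime (Nat.card C) := by
    have h1 : Nat.card ↥(O ⊔ (W ⊔ Q)) * Nat.card ↥(O ⊓ (W ⊔ Q)) = Nat.card O * Nat.card ↥(W ⊔ Q) :=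
      card_sup_mul_card_inf_of_normal _ _ hOn
    have h3 : Nat.card ↥(W ⊔ Q) * Nat.card ↥(W ⊓ Q) = Nat.card W * Nat.card Q :=
      card_sup_mul_card_inf hQW
    have hCd : Nat.card C ∣ Nat.card H := Subgroup.card_dvd_of_le hCH
    have h4 : (Nat.card ↥(W ⊔ Q)).Coprime (Nat.card C) :=
      Nat.Coprime.coprime_dvd_left ⟨_, h3.symm⟩
        (Nat.Coprime.mul_left hcopWC (hQHc.coprime_dvd_right hCd))
    exact Nat.Coprime.coprime_dvd_left ⟨_, h1.symm⟩
      (Nat.Coprime.mul_left (hOc.coprime_dvd_right hCd) h4)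
  have hinf : N₁ ⊓ C = ⊥ := (disjoint_of_coprime_natCard hcopN).eq_bot
  have hcard : Nat.card N₁ * Nat.card C = Nat.card G := by
    have h1 := card_sup_mul_card_inf_of_normal N₁ C hN₁n
    rw [hN₁C, hinf, Subgroup.card_bot, mul_one, Subgroup.card_top] at h1
    exact h1.symm
  have hidxC : C.index = Nat.card N₁ := by
    have h1 := Subgroup.card_mul_index C
    have hpos : 0 < Nat.card C := Nat.card_pos
    apply Nat.eq_of_mul_eq_mul_left hpos
    rw [h1, ← hcard, mul_comm]
  refine ⟨?_, N₁, hN₁n, isComplement'_of_coprime hcard hcopN⟩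
  rw [hidxC]
  exact hcopN.symm

end Cfsg.Agent.S4151
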