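import Cfsg.Statements.S4153
import Cfsg.Agent.Lib.PGroups.Cyclic
import Cfsg.Agent.Lib.Coprime.Conj

set_option autoImplicit false
open Cfsg

namespace Cfsg.Agent.S4153

open Cfsg.Agent.Lib.PGroups Cfsg.Agent.Lib.Coprime

theorem sylow_inf_card {G : Type*} [Group G] [Finite G] {p : ℕ} [Fact p.Prime] (N : Subgroup G) [N.Normal]
    (R : Sylow p G) : Nat.card ((R : Subgroup G) ⊓ N : Subgroup G) = p ^ (Nat.card N).factorization p := by
  obtain ⟨W, hW⟩ := exists_sylow_map_eq_inf R N
  rw [← hW, Subgroup.card_map_of_injective N.subtype_injective, Sylow.card_eq_multiplicity]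


/-- Let G be a finite group, p a prime, N a normal subgroup, P a Sylow p-subgroup of G and P̄ a Sylow p-subgroup of G/N. Count the elements of p-power order, the identity included. Then (number of such elements of G/N)/#P̄ ≤ (number of such elements of G)/#P, stated as a cross-multiplied inequality, with equality when N is central. -/
theorem result {G : Type*} [Group G] [Finite G] (p : ℕ) [Fact p.Prime] (N : Subgroup G) [N.Normal]
    (P : Sylow p G) (Pbar : Sylow p (G ⧸ N)) :
    Nat.card {g : (G ⧸ N) // ∃ k : ℕ, orderOf g = p ^ k} * Nat.card (P : Subgroup G) ≤ Nat.card {g : G // ∃ k : ℕ, orderOf g = p ^ k} * Nat.card (Pbar : Subgroup (G ⧸ N)) ∧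
    (N ≤ Subgroup.center G → Nat.card {g : (G ⧸ N) // ∃ k : ℕ, orderOf g = p ^ k} * Nat.card (P : Subgroup G) = Nat.card {g : G // ∃ k : ℕ, orderOf g = p ^ k} * Nat.card (Pbar : Subgroup (G ⧸ N))) := by
  classical
  have hp' : p.Prime := Fact.out
  set w := p ^ (Nat.card N).factorization p with hw
  have hPw : Nat.card (P : Subgroup G) = Nat.card (Pbar : Subgroup (G ⧸ N)) * w := by
    rw [Sylow.card_eq_multiplicity, Sylow.card_eq_multiplicity, hw, ← pow_add]
    congr 1
    rw [Subgroup.card_eq_card_quotient_mul_card_subgroup N,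
      Nat.factorization_mul (Nat.card_pos.ne') (Nat.card_pos.ne')]
    rfl
  have hq : Function.Surjective (QuotientGroup.mk' N) := QuotientGroup.mk'_surjective N
  let pe : G → Prop := fun g => ∃ k : ℕ, orderOf g = p ^ k
  let peQ : (G ⧸ N) → Prop := fun g => ∃ k : ℕ, orderOf g = p ^ k
  have hmap : ∀ g, pe g → peQ (QuotientGroup.mk' N g) := by
    rintro g ⟨k, hk⟩
    have h1 : orderOf (QuotientGroup.mk' N g) ∣ p ^ k := by
      rw [← hk]; exact orderOf_map_dvd _ g
    obtain ⟨j, _, hj⟩ := (Nat.dvd_prime_pow hp').mp h1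
    exact ⟨j, hj⟩
  let π : {g : G // pe g} → {q : G ⧸ N // peQ q} := fun g => ⟨QuotientGroup.mk' N g.1, hmap g.1 g.2⟩
  have := Fintype.ofFinite {q : G ⧸ N // peQ q}
  have hsum : Nat.card {g : G // pe g} = ∑ q : {q : G ⧸ N // peQ q}, Nat.card {g : {g : G // pe g} // π g = q} := by
    rw [← Nat.card_sigma]
    exact Nat.card_congr (Equiv.sigmaFiberEquiv π).symm
  have hcardQ : Nat.card {q : G ⧸ N // peQ q} = Fintype.card {q : G ⧸ N // peQ q} := Nat.card_eq_fintype_card
  have hge : ∀ q : {q : G ⧸ N // peQ q}, w ≤ Nat.card {g : {g : G // pe g} // π g = q} := by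
    rintro ⟨q, hq1⟩
    obtain ⟨x, hx, hxp⟩ := exists_pElement_lift (p := p) (QuotientGroup.mk' N) hq hq1
    obtain ⟨S, hS⟩ := (isPGroup_zpowers_iff.mpr hxp).exists_le_sylow
    have hxS : x ∈ (S : Subgroup G) := hS (Subgroup.mem_zpowers x)
    rw [hw, ← sylow_inf_card N S]
    apply Nat.card_le_card_of_injective (fun t : ((S : Subgroup G) ⊓ N : Subgroup G) =>
      (⟨⟨x * t, exists_orderOf_of_mem_isPGroup S.isPGroup' ((S : Subgroup G).mul_mem hxS t.2.1)⟩, by
        apply Subtype.ext
        change QuotientGroup.mk' N (x * t) = q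
        rw [map_mul, hx]
        have : QuotientGroup.mk' N (t : G) = 1 := by
          rw [← MonoidHom.mem_ker, QuotientGroup.ker_mk']; exact t.2.2
        rw [this, mul_one]⟩ : {g : {g : G // pe g} // π g = ⟨q, hq1⟩}))
    intro a b hab
    have h1 : x * (a : G) = x * (b : G) := congrArg (fun z => (z.1.1 : G)) hab
    exact Subtype.ext (mul_left_cancel h1)
  have hgeall : Nat.card {q : G ⧸ N // peQ q} * w ≤ Nat.card {g : G // pe g} := by
    rw [hsum, hcardQ, ← smul_eq_mul, ← Finset.card_univ, ← Finset.sum_const]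
    exact Finset.sum_le_sum (fun q _ => hge q)
  constructor
  · rw [hPw]
    calc _ = (Nat.card {q : G ⧸ N // peQ q} * w) * Nat.card (Pbar : Subgroup (G ⧸ N)) := by ring
      _ ≤ _ := Nat.mul_le_mul_right _ hgeall
  · intro hcent
    have hle : ∀ q : {q : G ⧸ N // peQ q}, Nat.card {g : {g : G // pe g} // π g = q} ≤ w := by
      rintro ⟨q, hq1⟩
      obtain ⟨x, hx, hxp⟩ := exists_pElement_lift (p := p) (QuotientGroup.mk' N) hq hq1
      obtain ⟨W⟩ : Nonempty (Sylow p N) := inferInstance
      have hWcard : Nat.card (W : Subgroup N) = w := Sylow.card_eq_multiplicity W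
      have hNcomm : ∀ a b : N, a * b = b * a := by
        intro a b
        apply Subtype.ext
        exact (Subgroup.mem_center_iff.mp (hcent a.2) b).symm
      have hWn : (W : Subgroup N).Normal := by
        constructor
        intro a ha b
        have : b * a * b⁻¹ = a := by rw [hNcomm b a]; group
        rw [this]; exact ha
      have hmemW : ∀ n : N, (∃ k : ℕ, orderOf n = p ^ k) → n ∈ (W : Subgroup N) := fun n hn =>
        mem_sylow_of_mem_normalizer W hn (by rw [Subgroup.normalizer_eq_top_iff.mpr hWn]; trivial)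
      rw [← hWcard]
      -- the map g ↦ x⁻¹ g
      have hfmem : ∀ g : {g : {g : G // pe g} // π g = ⟨q, hq1⟩}, (x : G)⁻¹ * g.1.1 ∈ N := by
        intro g
        have h0 : QuotientGroup.mk' N ((x : G)⁻¹ * g.1.1) = 1 := by
          rw [map_mul, map_inv, hx]
          have := congrArg Subtype.val g.2
          change QuotientGroup.mk' N g.1.1 = q at this
          rw [this]; group
        exact (QuotientGroup.eq_one_iff _).mp h0
      have hfW : ∀ g : {g : {g : G // pe g} // π g = ⟨q, hq1⟩},
          (⟨(x : G)⁻¹ * g.1.1, hfmem g⟩ : N) ∈ (W : Subgroup N) := by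
        intro g
        apply hmemW
        -- x⁻¹ g is a p-element: x and g commute with ... x⁻¹ g central
        have hz : ((x : G)⁻¹ * g.1.1) ∈ Subgroup.center G := hcent (hfmem g)
        obtain ⟨k₁, hk₁⟩ := hxp
        obtain ⟨k₂, hk₂⟩ := g.1.2
        have hg : (g.1.1 : G) = x * ((x : G)⁻¹ * g.1.1) := by group
        have hcm : Commute x ((x : G)⁻¹ * g.1.1) := (Subgroup.mem_center_iff.mp hz x)
        have h2 : ((x : G)⁻¹ * g.1.1) ^ p ^ (k₁ + k₂) = 1 := by
          have h3 : (g.1.1 : G) ^ p ^ (k₁ + k₂) = 1 := by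
            rw [pow_add, mul_comm, pow_mul, ← hk₂, pow_orderOf_eq_one, one_pow]
          have h4 : x ^ p ^ (k₁ + k₂) = 1 := by
            rw [pow_add, pow_mul, ← hk₁, pow_orderOf_eq_one, one_pow]
          have h5 : (x * ((x : G)⁻¹ * g.1.1)) ^ p ^ (k₁ + k₂) = 1 := by rw [← hg]; exact h3
          rw [hcm.mul_pow, h4, one_mul] at h5
          exact h5
        have h3 : orderOf (⟨(x : G)⁻¹ * g.1.1, hfmem g⟩ : N) ∣ p ^ (k₁ + k₂) := by
          rw [Subgroup.orderOf_mk]
          exact orderOf_dvd_of_pow_eq_one h2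
        obtain ⟨j, _, hj⟩ := (Nat.dvd_prime_pow hp').mp h3
        exact ⟨j, hj⟩
      apply Nat.card_le_card_of_injective
        (fun g : {g : {g : G // pe g} // π g = ⟨q, hq1⟩} => (⟨⟨(x : G)⁻¹ * g.1.1, hfmem g⟩, hfW g⟩ : (W : Subgroup N)))
      intro a b hab
      have h1 : (x : G)⁻¹ * a.1.1 = (x : G)⁻¹ * b.1.1 := congrArg (fun z => ((z : N) : G)) (congrArg Subtype.val hab)
      exact Subtype.ext (Subtype.ext (mul_left_cancel h1))
    have heq : Nat.card {g : G // pe g} = Nat.card {q : G ⧸ N // peQ q} * w := by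
      apply le_antisymm _ hgeall
      rw [hsum, hcardQ, ← smul_eq_mul, ← Finset.card_univ, ← Finset.sum_const]
      exact Finset.sum_le_sum (fun q _ => hle q)
    change Nat.card {q : G ⧸ N // peQ q} * _ = Nat.card {g : G // pe g} * _
    rw [heq, hPw]
    ring

end Cfsg.Agent.S4153
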