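import Cfsg.Statements.S4154
import Mathlib

set_option autoImplicit false
open Cfsg

namespace Cfsg.Agent.S4154


/-- Let G be a finite group and α an automorphism of G such that every element of G is the product of an element fixed by α and an element of the form g⁻¹α(g). If N is a normal α-invariant subgroup, then the automorphism ᾱ induced on G/N has the same property, and every coset fixed by ᾱ contains an element fixed by α (so the fixed points of ᾱ are the images of the fixed points of α). -/
theorem result {G : Type*} [Group G] [Finite G] (α : MulAut G)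
    (hccp : ∀ x : G, ∃ c g : G, α c = c ∧ x = c * (g⁻¹ * α g))
    (N : Subgroup G) [N.Normal] (hN : ∀ n ∈ N, α n ∈ N) :
    (∀ x : G, ∃ c g : G, c⁻¹ * α c ∈ N ∧ x⁻¹ * (c * (g⁻¹ * α g)) ∈ N) ∧
    (∀ x : G, x⁻¹ * α x ∈ N → ∃ c : G, α c = c ∧ c⁻¹ * x ∈ N) := by
  classical
  constructor
  · intro x
    obtain ⟨c, g, hc, hx⟩ := hccp x
    refine ⟨c, g, ?_, ?_⟩
    · rw [hc, inv_mul_cancel]; exact N.one_mem
    · rw [← hx, inv_mul_cancel]; exact N.one_mem
  · let Q := G ⧸ N
    let q : G →* Q := QuotientGroup.mk' N
    have hq : Function.Surjective q := QuotientGroup.mk'_surjective N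
    let β : Q →* Q := QuotientGroup.map N N α.toMonoidHom (fun n hn => hN n hn)
    have hβ : ∀ x : G, β (q x) = q (α x) := fun x => rfl
    let A : Subgroup Q := MonoidHom.eqLocus β (MonoidHom.id Q)
    have hA : ∀ u, u ∈ A ↔ β u = u := fun u => Iff.rfl
    let C : Subgroup G := MonoidHom.eqLocus α.toMonoidHom (MonoidHom.id G)
    have hC : ∀ u, u ∈ C ↔ α u = u := fun u => Iff.rfl
    let C' : Subgroup Q := C.map q
    have hC'A : C' ≤ A := by
      rintro _ ⟨c, hc, rfl⟩
      rw [hA, hβ, (hC c).mp hc]
    let θ : Q → Q := fun r => r⁻¹ * β r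
    let B : Set Q := Set.range θ
    let θ' : Q → B := Set.rangeFactorization θ
    have hθ' : Function.Surjective θ' := Set.rangeFactorization_surjective
    let s : B → Q := Function.surjInv hθ'
    have hs : ∀ b : B, θ (s b) = b := fun b => congrArg Subtype.val (Function.surjInv_eq hθ' b)
    have hcard1 : Nat.card A * Nat.card B ≤ Nat.card Q := by
      rw [← Nat.card_prod]
      apply Nat.card_le_card_of_injective (fun p : A × B => (p.1 : Q) * s p.2)
      rintro ⟨u, b⟩ ⟨u', b'⟩ h
      have h1 : (u : Q) * s b = (u' : Q) * s b' := h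
      have hθu : ∀ (v : A) (b : B), θ ((v : Q) * s b) = b := by
        intro v b
        have h2 : β (v : Q) = v := (hA v).mp v.2
        change ((v : Q) * s b)⁻¹ * β ((v : Q) * s b) = b
        rw [map_mul, h2, ← hs b]
        change _ = (s b)⁻¹ * β (s b)
        group
      have h3 : (b : Q) = b' := by
        rw [← hθu u b, h1, hθu]
      have h4 : b = b' := Subtype.ext h3
      subst h4
      have h5 : (u : Q) = u' := mul_right_cancel h1
      rw [Subtype.ext h5]
    have hcard2 : Nat.card Q ≤ Nat.card C' * Nat.card B := by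
      rw [← Nat.card_prod]
      apply Nat.card_le_card_of_surjective (fun p : C' × B => (p.1 : Q) * p.2)
      intro y
      obtain ⟨x, rfl⟩ := hq y
      obtain ⟨c, g, hc, hx⟩ := hccp x
      refine ⟨(⟨q c, c, (hC c).mpr hc, rfl⟩, ⟨θ (q g), q g, rfl⟩), ?_⟩
      change q c * ((q g)⁻¹ * β (q g)) = q x
      rw [hβ, hx]
      simp only [map_mul, map_inv]
    have hBpos : 0 < Nat.card B := by
      have : Nonempty B := ⟨⟨θ 1, 1, rfl⟩⟩
      exact Nat.card_pos
    have hle : Nat.card A ≤ Nat.card C' := by
      have : Nat.card A * Nat.card B ≤ Nat.card C' * Nat.card B := hcard1.trans hcard2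
      exact Nat.le_of_mul_le_mul_right this hBpos
    have heq : C' = A := Subgroup.eq_of_le_of_card_ge hC'A hle
    intro x hx
    have h1 : q x ∈ A := by
      rw [hA, hβ]
      have h2 : q (x⁻¹ * α x) = 1 := by
        rw [← MonoidHom.mem_ker, QuotientGroup.ker_mk']; exact hx
      rw [map_mul, map_inv] at h2
      exact (inv_mul_eq_one.mp h2).symm
    rw [← heq] at h1
    obtain ⟨c, hc, hcx⟩ := h1
    refine ⟨c, (hC c).mp hc, ?_⟩
    exact QuotientGroup.eq.mp hcx

end Cfsg.Agent.S4154
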