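import Cfsg.Statements.S4156
import Mathlib

set_option autoImplicit false
open Cfsg

namespace Cfsg.Agent.S4156

open Classical in
private noncomputable def v {n : ℕ} {F : Type*} [Field F] (a : Fin (n + 1)) (i : Fin n) : F :=
  (if i.castSucc = a then 1 else 0) - (if a = Fin.last n then 1 else 0)

private theorem sum_v {n : ℕ} {F : Type*} [Field F] (i : Fin n) (σ : Equiv.Perm (Fin (n + 1))) :
    ∑ b : Fin (n + 1), v (σ b) i = (0 : F) := by
  rw [Equiv.sum_comp σ (fun b => (v b i : F))]
  simp [v, Finset.sum_sub_distrib]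

private noncomputable def M {n : ℕ} {F : Type*} [Field F] (σ : Equiv.Perm (Fin (n + 1))) :
    Matrix (Fin n) (Fin n) F := Matrix.of fun i j => v (σ j.castSucc) i

private theorem M_mul_v {n : ℕ} {F : Type*} [Field F] (σ : Equiv.Perm (Fin (n + 1)))
    (a : Fin (n + 1)) (i : Fin n) : ∑ k, (M σ i k : F) * v a k = v (σ a) i := by
  induction a using Fin.lastCases with
  | last =>
    have h1 : ∀ k : Fin n, (v (Fin.last n) k : F) = -1 := by
      intro k
      simp [v, (Fin.castSucc_lt_last k).ne]
    have h2 := sum_v (F := F) i σ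
    rw [Fin.sum_univ_castSucc] at h2
    simp only [h1, M, Matrix.of_apply, mul_neg, mul_one, Finset.sum_neg_distrib]
    linear_combination -h2
  | cast k₀ =>
    have h1 : ∀ k : Fin n, (v k₀.castSucc k : F) = if k = k₀ then 1 else 0 := by
      intro k
      simp [v, (Fin.castSucc_lt_last k₀).ne]
    simp [M, h1]

private theorem M_mul {n : ℕ} {F : Type*} [Field F] (σ τ : Equiv.Perm (Fin (n + 1))) :
    (M (σ * τ) : Matrix (Fin n) (Fin n) F) = M σ * M τ := by
  ext i j
  rw [Matrix.mul_apply]
  simp only [M, Matrix.of_apply] at *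
  have := M_mul_v (F := F) σ (τ j.castSucc) i
  simp only [M, Matrix.of_apply] at this
  rw [this]
  rfl

private theorem M_one {n : ℕ} {F : Type*} [Field F] :
    (M (1 : Equiv.Perm (Fin (n + 1))) : Matrix (Fin n) (Fin n) F) = 1 := by
  ext i j
  simp [M, v, (Fin.castSucc_lt_last j).ne, Matrix.one_apply]

private noncomputable def Mhom (n : ℕ) (F : Type*) [Field F] :
    Equiv.Perm (Fin (n + 1)) →* Matrix (Fin n) (Fin n) F where
  toFun := M
  map_one' := M_one
  map_mul' := M_mul

private theorem det_M {n : ℕ} (hn : 5 ≤ n) {F : Type*} [Field F]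
    (a : alternatingGroup (Fin (n + 1))) : (M (a : Equiv.Perm (Fin (n + 1))) : Matrix (Fin n) (Fin n) F).det = 1 := by
  let ψ : alternatingGroup (Fin (n + 1)) →* F :=
    (Matrix.detMonoidHom).comp ((Mhom n F).comp (alternatingGroup (Fin (n + 1))).subtype)
  let ψ' : alternatingGroup (Fin (n + 1)) →* Fˣ := ψ.toHomUnits
  have h5 : 5 ≤ Nat.card (Fin (n + 1)) := by simp; omega
  have htop := commutator_alternatingGroup_eq_top (α := Fin (n + 1)) h5
  have hk : commutator (alternatingGroup (Fin (n + 1))) ≤ ψ'.ker :=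
    Abelianization.commutator_subset_ker ψ'
  rw [htop] at hk
  have ha : ψ' a = 1 := hk (Subgroup.mem_top a)
  have : (ψ' a : F) = 1 := by rw [ha]; rfl
  exact this


/-- Let n ≥ 5 and F a finite field. Then the projective special linear group PSL_n(F) contains a subgroup isomorphic to the alternating group of degree n + 1. -/
theorem result (n : ℕ) (hn : 5 ≤ n) (F : Type*) [Field F] [Finite F] :
    ∃ f : alternatingGroup (Fin (n + 1)) →* Matrix.ProjectiveSpecialLinearGroup (Fin n) F, Function.Injective f := by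
  classical
  let φ : alternatingGroup (Fin (n + 1)) →* Matrix.SpecialLinearGroup (Fin n) F :=
    { toFun := fun a => ⟨M (a : Equiv.Perm (Fin (n + 1))), det_M hn a⟩
      map_one' := by
        apply Subtype.ext
        exact M_one
      map_mul' := by
        intro a b
        apply Subtype.ext
        exact M_mul _ _ }
  refine ⟨(QuotientGroup.mk' _).comp φ, ?_⟩
  have h5 : 5 ≤ Nat.card (Fin (n + 1)) := by simp; omega
  haveI : IsSimpleGroup (alternatingGroup (Fin (n + 1))) := alternatingGroup.isSimpleGroup h5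
  set f : alternatingGroup (Fin (n + 1)) →* Matrix.ProjectiveSpecialLinearGroup (Fin n) F :=
    (QuotientGroup.mk' _).comp φ with hf
  rcases (inferInstance : (f.ker).Normal).eq_bot_or_eq_top with h | h
  · exact (MonoidHom.ker_eq_bot_iff f).mp h
  · exfalso
    -- the three-cycle (0 1 2)
    let i0 : Fin (n + 1) := ⟨0, by omega⟩
    let i1 : Fin (n + 1) := ⟨1, by omega⟩
    let i2 : Fin (n + 1) := ⟨2, by omega⟩
    have h01 : i0 ≠ i1 := by simp [i0, i1, Fin.ext_iff]
    have h12 : i1 ≠ i2 := by simp [i1, i2, Fin.ext_iff]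
    have h02 : i0 ≠ i2 := by simp [i0, i2, Fin.ext_iff]
    let σ : Equiv.Perm (Fin (n + 1)) := Equiv.swap i0 i1 * Equiv.swap i1 i2
    have hσ : σ ∈ alternatingGroup (Fin (n + 1)) := by
      rw [Equiv.Perm.mem_alternatingGroup, Equiv.Perm.sign_mul, Equiv.Perm.sign_swap h01,
        Equiv.Perm.sign_swap h12]
      simp
    have hk : (⟨σ, hσ⟩ : alternatingGroup (Fin (n + 1))) ∈ f.ker := by rw [h]; trivial
    have hc : φ ⟨σ, hσ⟩ ∈ Subgroup.center (Matrix.SpecialLinearGroup (Fin n) F) := by
      have : f ⟨σ, hσ⟩ = 1 := hk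
      rw [hf, MonoidHom.comp_apply] at this
      exact (QuotientGroup.eq_one_iff _).mp this
    rw [Matrix.SpecialLinearGroup.mem_center_iff] at hc
    obtain ⟨r, -, hr⟩ := hc
    -- compute entry (0, 2) of `M σ`: σ 2 = 0 ... column `2`
    let j0 : Fin n := ⟨0, by omega⟩
    let j2 : Fin n := ⟨2, by omega⟩
    have e : (φ ⟨σ, hσ⟩ : Matrix (Fin n) (Fin n) F) j0 j2 = M σ j0 j2 := rfl
    have e2 : (φ ⟨σ, hσ⟩ : Matrix (Fin n) (Fin n) F) j0 j2 = 0 := by
      rw [← hr]
      simp [Matrix.scalar_apply, Matrix.diagonal_apply, j0, j2, Fin.ext_iff]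
    have hj2 : j2.castSucc = i2 := by simp [j2, i2, Fin.ext_iff]
    have hj0 : j0.castSucc = i0 := by simp [j0, i0, Fin.ext_iff]
    have hσ2 : σ i2 = i0 := by
      simp only [σ, Equiv.Perm.mul_apply]
      rw [Equiv.swap_apply_right, Equiv.swap_apply_right]
    have e3 : (M σ j0 j2 : F) = 1 := by
      simp only [M, Matrix.of_apply, v]
      rw [hj2, hσ2, hj0]
      have : i0 ≠ Fin.last n := by
        simp [i0, Fin.ext_iff, Fin.last]
        omega
      simp [this]
    rw [e, e3] at e2
    exact one_ne_zero e2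

end Cfsg.Agent.S4156
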