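import Cfsg.Statements.S4160
import Cfsg.Agent.Lib.PGroups.CoverCount

set_option autoImplicit false
open Cfsg

namespace Cfsg.Agent.S4160

open Cfsg.Agent.Lib.PGroups


/-- Let G be a finite group and p ≠ q primes each dividing the size of some conjugacy class of G, such that no conjugacy class size is divisible by pq. Then G has a normal p-complement or a normal q-complement. -/
theorem result {G : Type*} [Group G] [Finite G] (p q : ℕ) (hp : p.Prime) (hq : q.Prime) (hpq : p ≠ q)
    (hp' : ∃ x : G, p ∣ (Subgroup.centralizer ({x} : Set G)).index) (hq' : ∃ x : G, q ∣ (Subgroup.centralizer ({x} : Set G)).index) (h : ∀ x : G, ¬ p * q ∣ (Subgroup.centralizer ({x} : Set G)).index) :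
    Cfsg.HasNormalPComplement p G ∨ Cfsg.HasNormalPComplement q G := by
  classical
  haveI := Fact.mk hp
  haveI := Fact.mk hq
  by_contra hcon
  rw [not_or] at hcon
  obtain ⟨h1, h2⟩ := hcon
  have hA := two_mul_card_not_dvd_le (r := p) (G := G) h1
  have hB := two_mul_card_not_dvd_le (r := q) (G := G) h2
  set A := {x : G | ¬ p ∣ (Subgroup.centralizer ({x} : Set G)).index} with hAdef
  set B := {x : G | ¬ q ∣ (Subgroup.centralizer ({x} : Set G)).index} with hBdef
  have hcov : A ∪ B = Set.univ := by
    ext x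
    simp only [Set.mem_union, Set.mem_univ, iff_true, hAdef, hBdef, Set.mem_setOf_eq]
    by_contra hc
    push Not at hc
    exact h x (Nat.Coprime.mul_dvd_of_dvd_of_dvd ((Nat.coprime_primes hp hq).mpr hpq) hc.1 hc.2)
  have hone : (1 : G) ∈ A ∩ B := by
    have h3 : (Subgroup.centralizer ({(1 : G)} : Set G)).index = 1 := by
      rw [Subgroup.index_eq_one, Subgroup.centralizer_eq_top_iff_subset]
      simp
    constructor
    · simp only [hAdef, Set.mem_setOf_eq, h3]; exact hp.one_lt.ne' ∘ Nat.dvd_one.mp
    · simp only [hBdef, Set.mem_setOf_eq, h3]; exact hq.one_lt.ne' ∘ Nat.dvd_one.mp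
  have h4 := Set.ncard_union_add_ncard_inter A B (Set.toFinite _) (Set.toFinite _)
  rw [hcov, Set.ncard_univ] at h4
  have h5 : 0 < (A ∩ B).ncard := (Set.ncard_pos (Set.toFinite _)).mpr ⟨_, hone⟩
  omega

end Cfsg.Agent.S4160
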