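import Cfsg.Statements.S4163
import Cfsg.Agent.Lib.PGroups.TwoClass

set_option autoImplicit false
open Cfsg

namespace Cfsg.Agent.S4163

section aux
open Subgroup Cfsg.Agent.Lib.PGroups.TwoClass
open scoped commutatorElement

variable {G : Type*} [Group G] [Finite G]

private theorem comm_mul_left' (a b g : G) : ⁅a * b, g⁆ = a * ⁅b, g⁆ * a⁻¹ * ⁅a, g⁆ := by
  simp only [commutatorElement_def]; group

/-- The enumeration of a conjugacy class by the cosets of the centralizer. -/
private noncomputable def conjOf (x : G) : (G ⧸ Cn x) → G := fun q => q.out * x * q.out⁻¹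

private theorem conjOf_mk (x g : G) : conjOf x (g : G ⧸ Cn x) = g * x * g⁻¹ := by
  set q : G ⧸ Cn x := (g : G ⧸ Cn x) with hq
  have h1 : (q.out)⁻¹ * g ∈ Cn x := QuotientGroup.eq.mp (by rw [QuotientGroup.out_eq'])
  have h2 : ((q.out)⁻¹ * g) * x = x * ((q.out)⁻¹ * g) := mem_Cn.mp h1
  have h3 : g * x * g⁻¹ = q.out * (((q.out)⁻¹ * g) * x * ((q.out)⁻¹ * g)⁻¹) * (q.out)⁻¹ := by group
  rw [h3, h2]
  simp only [conjOf]
  group

private theorem conjOf_injective (x : G) : Function.Injective (conjOf x) := by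
  intro q q' h
  simp only [conjOf] at h
  have h1 : (q.out)⁻¹ * q'.out ∈ Cn x := by
    apply mem_Cn.mpr
    have h2 : (q'.out) * x = q.out * x * (q.out)⁻¹ * q'.out := by
      rw [h]; group
    calc (q.out)⁻¹ * q'.out * x = (q.out)⁻¹ * ((q'.out) * x) := by group
      _ = (q.out)⁻¹ * (q.out * x * (q.out)⁻¹ * q'.out) := by rw [h2]
      _ = x * ((q.out)⁻¹ * q'.out) := by group
  have h3 := QuotientGroup.eq.mpr h1
  rwa [QuotientGroup.out_eq', QuotientGroup.out_eq'] at h3

/-- `Ω x` : the class of `x`. -/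
private def clOf (x : G) : Set G := Set.range (conjOf x)

private theorem ncard_clOf (x : G) : (clOf x).ncard = (Cn x).index := by
  rw [clOf, ← Set.image_univ, Set.ncard_image_of_injective _ (conjOf_injective x), Set.ncard_univ]
  rfl

private theorem mem_clOf (x g : G) : g * x * g⁻¹ ∈ clOf x := ⟨(g : G ⧸ Cn x), conjOf_mk x g⟩

private theorem exists_of_mem_clOf {x y : G} (h : y ∈ clOf x) : ∃ g, y = g * x * g⁻¹ := by
  obtain ⟨q, rfl⟩ := h
  exact ⟨q.out, rfl⟩

/-- The class of a commutator `⁅x, a⁆` (`a` in a normal abelian subgroup) is shorter than that of `x`. -/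
private theorem index_comm_lt (A : Subgroup G) [A.Normal] (hA : ∀ a ∈ A, ∀ b ∈ A, a * b = b * a)
    (x a : G) (ha : a ∈ A) (hb : ⁅x, a⁆ ≠ 1) : (Cn ⁅x, a⁆).index < (Cn x).index := by
  classical
  set b := ⁅x, a⁆ with hbdef
  have hbmem : ∀ y c : G, c ∈ A → ⁅y, c⁆ ∈ A := by
    intro y c hc
    rw [commutatorElement_def]
    exact mul_mem (Subgroup.Normal.conj_mem inferInstance c hc y) (inv_mem hc)
  -- representatives of cosets
  let rep : G ⧸ A → G := fun Y =>
    if h : ∃ z ∈ clOf x, (z : G ⧸ A) = Y then h.choose else 1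
  have hrep : ∀ z ∈ clOf x, rep (z : G ⧸ A) ∈ clOf x ∧
      ((rep (z : G ⧸ A) : G) : G ⧸ A) = (z : G ⧸ A) := by
    intro z hz
    have h : ∃ w ∈ clOf x, (w : G ⧸ A) = (z : G ⧸ A) := ⟨z, hz, rfl⟩
    have h1 : rep (z : G ⧸ A) = h.choose := dif_pos h
    rw [h1]
    exact h.choose_spec
  -- the map from the class of `b` to the class of `x`
  have hex : ∀ y ∈ clOf b, ∃ r : G, r ∈ clOf x ∧ r = rep (r : G ⧸ A) ∧ y * r ∈ clOf x ∧ y ∈ A := by
    intro y hy
    obtain ⟨g, rfl⟩ := exists_of_mem_clOf hy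
    set xg := g * x * g⁻¹ with hxg
    set ag := g * a * g⁻¹ with hag
    have hagA : ag ∈ A := Subgroup.Normal.conj_mem inferInstance a ha g
    have hxgcl : xg ∈ clOf x := mem_clOf x g
    obtain ⟨h1, h2⟩ := hrep xg hxgcl
    set r := rep (xg : G ⧸ A) with hr
    have hmk : xg⁻¹ * r ∈ A := QuotientGroup.eq.mp h2.symm
    set c := xg⁻¹ * r with hc
    have hrc : r = xg * c := by rw [hc]; group
    have hbg : g * b * g⁻¹ = ⁅xg, ag⁆ := by
      rw [hbdef, hxg, hag]
      simp only [commutatorElement_def]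
      group
    have hbr : ⁅xg, ag⁆ = ⁅r, ag⁆ := by
      simp only [commutatorElement_def]
      rw [hrc]
      have h3 : c * ag * c⁻¹ = ag := by rw [hA c hmk ag hagA]; group
      calc xg * ag * xg⁻¹ * ag⁻¹ = xg * (c * ag * c⁻¹) * xg⁻¹ * ag⁻¹ := by rw [h3]
        _ = _ := by group
    have hconj : ⁅r, ag⁆ * r = ag⁻¹ * r * ag⁻¹⁻¹ := by
      have h4 : r * ag * r⁻¹ ∈ A := Subgroup.Normal.conj_mem inferInstance ag hagA r
      have h5 := hA _ h4 ag⁻¹ (inv_mem hagA)
      calc ⁅r, ag⁆ * r = (r * ag * r⁻¹ * ag⁻¹) * r := by rw [commutatorElement_def]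
        _ = (ag⁻¹ * (r * ag * r⁻¹)) * r := by rw [h5]
        _ = _ := by group
    refine ⟨r, h1, ?_, ?_, ?_⟩
    · rw [h2]
    · rw [hbg, hbr, hconj]
      obtain ⟨g', hg'⟩ := exists_of_mem_clOf h1
      rw [hg']
      have : ag⁻¹ * (g' * x * g'⁻¹) * ag⁻¹⁻¹ = (ag⁻¹ * g') * x * (ag⁻¹ * g')⁻¹ := by group
      rw [this]
      exact mem_clOf x _
    · rw [hbg]; exact hbmem _ _ hagA
  choose! R hR1 hR2 hR3 hR4 using hex
  set r0 := rep ((x : G) : G ⧸ A) with hr0
  have hxcl : x ∈ clOf x := by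
    have := mem_clOf x 1
    simpa using this
  obtain ⟨hr01, hr02⟩ := hrep x hxcl
  have hsub : (fun y => y * R y) '' clOf b ⊆ clOf x \ {r0} := by
    rintro _ ⟨y, hy, rfl⟩
    refine ⟨hR3 y hy, ?_⟩
    intro he
    have he' : y * R y = r0 := he
    -- `y = 1`
    have h1 : ((R y : G) : G ⧸ A) = ((r0 : G) : G ⧸ A) := by
      apply QuotientGroup.eq.mpr
      rw [← he']
      have : (R y)⁻¹ * (y * R y) = (R y)⁻¹ * y * (R y)⁻¹⁻¹ := by group
      rw [this]
      exact Subgroup.Normal.conj_mem inferInstance y (hR4 y hy) _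
    have h2 : R y = r0 := by
      rw [hR2 y hy, h1, hr02]
    rw [h2] at he'
    have h3 : y = 1 := by simpa using he'
    rw [h3] at hy
    obtain ⟨g, hg⟩ := exists_of_mem_clOf hy
    apply hb
    have h5 : b = g⁻¹ * (g * b * g⁻¹) * g := by group
    rw [h5, ← hg]
    group
  have hinj : Set.InjOn (fun y => y * R y) (clOf b) := by
    intro y hy y' hy' he
    have he' : y * R y = y' * R y' := he
    have h1 : ((R y : G) : G ⧸ A) = ((R y' : G) : G ⧸ A) := by
      apply QuotientGroup.eq.mpr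
      have h5 : y'⁻¹ * y = R y' * (R y)⁻¹ := by
        calc y'⁻¹ * y = y'⁻¹ * (y * R y) * (R y)⁻¹ := by group
          _ = y'⁻¹ * (y' * R y') * (R y)⁻¹ := by rw [he']
          _ = _ := by group
      have h6 : (R y)⁻¹ * R y' = (R y)⁻¹ * (y'⁻¹ * y) * (R y) := by
        rw [h5]; group
      rw [h6]
      have := Subgroup.Normal.conj_mem inferInstance (y'⁻¹ * y)
        (mul_mem (inv_mem (hR4 y' hy')) (hR4 y hy)) (R y)⁻¹
      simpa using this
    have h2 : R y = R y' := by rw [hR2 y hy, h1, ← hR2 y' hy']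
    rw [h2] at he'
    exact mul_right_cancel he'
  have hcard := Set.ncard_le_ncard hsub (Set.toFinite _)
  rw [Set.InjOn.ncard_image hinj, ncard_clOf, Set.ncard_sdiff_singleton_of_mem hr01, ncard_clOf] at hcard
  have hpos : 0 < (Cn x).index := Nat.pos_of_ne_zero Subgroup.index_ne_zero_of_finite
  omega

/-- The main result, stated with `Cn`. -/
private theorem main_aux (A : Subgroup G) [A.Normal] (hA : IsMulCommutative A)
    (hCA : centralizer (A : Set G) = A) (m : ℕ) (hm1 : 1 < m)
    (hmin : ∀ x : G, 1 < (Cn x).index → m ≤ (Cn x).index) :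
    Subgroup.upperCentralSeries ↥(closure {x : G | (Cn x).index = 1 ∨ (Cn x).index = m}) 3 = ⊤ := by
  classical
  have hA' : ∀ a ∈ A, ∀ b ∈ A, a * b = b * a := by
    intro a ha b hb
    have := hA.is_comm.comm (⟨a, ha⟩ : A) ⟨b, hb⟩
    exact congrArg Subtype.val this
  set M := closure {x : G | (Cn x).index = 1 ∨ (Cn x).index = m} with hM
  -- the key: commutators with `A` are central
  have hkey : ∀ x : G, (Cn x).index = m → ∀ a ∈ A, ⁅x, a⁆ ∈ center G := by
    intro x hx a ha
    by_cases hb : ⁅x, a⁆ = 1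
    · rw [hb]; exact one_mem _
    · have h1 := index_comm_lt A hA' x a ha hb
      rw [hx] at h1
      have h2 : (Cn ⁅x, a⁆).index = 1 := by
        by_contra hne
        have hpos : 0 < (Cn ⁅x, a⁆).index := Nat.pos_of_ne_zero Subgroup.index_ne_zero_of_finite
        have := hmin ⁅x, a⁆ (by omega)
        omega
      exact mem_center_iff.mpr (mem_center_of_idx h2)
  -- the subgroup `D`
  let D : Subgroup G :=
    { carrier := {g | ∀ a ∈ A, ⁅g, a⁆ ∈ center G}
      one_mem' := by
        intro a _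
        rw [commutatorElement_one_left]; exact one_mem _
      mul_mem' := by
        intro g h hg hh a ha
        rw [comm_mul_left']
        apply mul_mem _ (hg a ha)
        rw [mem_center_iff.mp (hh a ha) g]
        have : ⁅h, a⁆ * g * g⁻¹ = ⁅h, a⁆ := by group
        rw [this]; exact hh a ha
      inv_mem' := by
        intro g hg a ha
        have h1 : ⁅g⁻¹, a⁆ = g⁻¹ * ⁅g, a⁆⁻¹ * g := by
          simp only [commutatorElement_def]; group
        rw [h1, mem_center_iff.mp (inv_mem (hg a ha)) g⁻¹]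
        have : ⁅g, a⁆⁻¹ * g⁻¹ * g = ⁅g, a⁆⁻¹ := by group
        rw [this]; exact inv_mem (hg a ha) }
  have hDmem : ∀ g, g ∈ D ↔ ∀ a ∈ A, ⁅g, a⁆ ∈ center G := fun _ => Iff.rfl
  have hMD : M ≤ D := by
    rw [hM, closure_le]
    rintro x (hx | hx)
    · intro a _
      have h1 : ⁅x, a⁆ = 1 := commutatorElement_eq_one_iff_mul_comm.mpr (mem_center_of_idx hx a).symm
      rw [h1]; exact one_mem _
    · exact hkey x hx
  -- commutators of `D` lie in `A`
  have hDA : ∀ g ∈ D, ∀ h ∈ D, ⁅g, h⁆ ∈ A := by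
    intro g hg h hh
    rw [← hCA, mem_centralizer_iff]
    intro a ha
    -- the homomorphism
    let r : D →* G := MonoidHom.mk' (fun g => ⁅(g : G), a⁆) (by
      intro u v
      show ⁅(u : G) * (v : G), a⁆ = ⁅(u : G), a⁆ * ⁅(v : G), a⁆
      rw [comm_mul_left', mem_center_iff.mp ((hDmem v).mp v.2 a ha) (u : G), mul_inv_cancel_right]
      exact (mem_center_iff.mp ((hDmem v).mp v.2 a ha) _).symm)
    have h1 : r ⁅(⟨g, hg⟩ : D), ⟨h, hh⟩⁆ = 1 := by
      rw [map_commutatorElement, commutatorElement_eq_one_iff_commute]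
      exact (mem_center_iff.mp ((hDmem h).mp hh a ha) _)
    have h2 : ⁅⁅g, h⁆, a⁆ = 1 := h1
    exact (commutatorElement_eq_one_iff_mul_comm.mp h2).symm
  -- the lower central series of `M`
  have hsucc : ∀ j, Subgroup.lowerCentralSeries (⊤ : Subgroup M) (j + 1) =
      ⁅Subgroup.lowerCentralSeries (⊤ : Subgroup M) j, (⊤ : Subgroup M)⁆ := fun j => rfl
  have hL1 : ∀ c ∈ Subgroup.lowerCentralSeries (⊤ : Subgroup M) 1, (c : G) ∈ A := by
    have h1 : Subgroup.lowerCentralSeries (⊤ : Subgroup M) 1 ≤ A.subgroupOf M := by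
      rw [hsucc, Subgroup.commutator_le]
      intro u _ v _
      rw [mem_subgroupOf]
      exact hDA _ (hMD u.2) _ (hMD v.2)
    exact fun c hc => mem_subgroupOf.mp (h1 hc)
  have hL2 : ∀ c ∈ Subgroup.lowerCentralSeries (⊤ : Subgroup M) 2, (c : G) ∈ center G := by
    have h1 : Subgroup.lowerCentralSeries (⊤ : Subgroup M) 2 ≤ (center G).subgroupOf M := by
      rw [show (2 : ℕ) = 1 + 1 from rfl, hsucc, Subgroup.commutator_le]
      intro u hu v _
      rw [mem_subgroupOf]
      have h2 := (hDmem _).mp (hMD v.2) _ (hL1 u hu)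
      have h3 : ((⁅u, v⁆ : M) : G) = ⁅(v : G), (u : G)⁆⁻¹ := by
        simp only [Subgroup.coe_mul, Subgroup.coe_inv, commutatorElement_def]
        group
      rw [h3]
      exact inv_mem h2
    exact fun c hc => mem_subgroupOf.mp (h1 hc)
  have hL3 : Subgroup.lowerCentralSeries (⊤ : Subgroup M) 3 = ⊥ := by
    rw [eq_bot_iff, show (3 : ℕ) = 2 + 1 from rfl, hsucc, Subgroup.commutator_le]
    intro u hu v _
    rw [Subgroup.mem_bot, commutatorElement_eq_one_iff_mul_comm]
    apply Subtype.ext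
    exact (mem_center_iff.mp (hL2 u hu) (v : G)).symm
  exact (lowerCentralSeries_eq_bot_iff_upperCentralSeries_eq_top).mp hL3

end aux


/-- Let G be a finite group with a normal abelian subgroup A satisfying C_G(A) = A. Suppose some conjugacy class of G has size greater than 1, let m be the smallest such size, and let M be the subgroup generated by the elements whose class has size 1 or m. Then M is nilpotent of class at most 3. -/
theorem result {G : Type*} [Group G] [Finite G]
    (A : Subgroup G) [A.Normal] (hA : IsMulCommutative A) (hCA : Subgroup.centralizer (A : Set G) = A)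
    (m : ℕ) (hm1 : 1 < m) (hm : ∃ x : G, (Subgroup.centralizer ({x} : Set G)).index = m) (hmin : ∀ x : G, 1 < (Subgroup.centralizer ({x} : Set G)).index → m ≤ (Subgroup.centralizer ({x} : Set G)).index) :
    Subgroup.upperCentralSeries ↥(Subgroup.closure {x : G | (Subgroup.centralizer ({x} : Set G)).index = 1 ∨ (Subgroup.centralizer ({x} : Set G)).index = m}) 3 = ⊤ := by
  exact main_aux A hA hCA m hm1 hmin

end Cfsg.Agent.S4163
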