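import Cfsg.Statements.S4168
import Mathlib

set_option autoImplicit false
open Cfsg

namespace Cfsg.Agent.S4168

open scoped commutatorElement

/-- Let L be a finite quasisimple group (perfect with L/Z(L) simple). Then every prime dividing the order of the centre Z(L) also divides the order of L/Z(L). -/
theorem result {L : Type*} [Group L] [Finite L] (hL : Cfsg.IsQuasisimple L)
    (p : ℕ) (hp : p.Prime) (hdiv : p ∣ Nat.card (Subgroup.center L)) : p ∣ (Subgroup.center L).index := by
  classical
  have : Fact p.Prime := ⟨hp⟩
  obtain ⟨z, hz⟩ := exists_prime_orderOf_dvd_card' p hdiv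
  have hper : commutator L = ⊤ := Group.isPerfect_def.mp hL.1
  have hkill : ∀ g : L, g ^ (Subgroup.center L).index = 1 := by
    intro g
    have h1 : commutator L ≤ (MonoidHom.transferCenterPow L).ker := by
      rw [commutator_def, Subgroup.commutator_le]
      intro a _ b _
      rw [MonoidHom.mem_ker, map_commutatorElement]
      have : MonoidHom.transferCenterPow L a * MonoidHom.transferCenterPow L b = MonoidHom.transferCenterPow L b * MonoidHom.transferCenterPow L a :=
        (inferInstance : IsMulCommutative (Subgroup.center L)).is_comm.comm _ _
      rw [commutatorElement_def, this]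
      group
    rw [hper] at h1
    have h2 := h1 (Subgroup.mem_top g)
    rw [MonoidHom.mem_ker] at h2
    have h3 := congrArg Subtype.val h2
    rw [MonoidHom.transferCenterPow_apply] at h3
    exact h3
  have h4 := hkill (z : L)
  have h5 : orderOf (z : L) = p := by rw [Subgroup.orderOf_coe, hz]
  rw [← h5]
  exact orderOf_dvd_of_pow_eq_one h4

end Cfsg.Agent.S4168
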