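import Cfsg.Statements.S4169
import Cfsg.Agent.Lib.PGroups.TwoClass

set_option autoImplicit false
open Cfsg

namespace Cfsg.Agent.S4169

section aux
open Subgroup Cfsg.Agent.Lib.PGroups Cfsg.Agent.Lib.PGroups.TwoClass Cfsg.Agent.Lib.OddLocal
open scoped commutatorElement

variable {G : Type*} [Group G] [Finite G]

private theorem comm_mul_right' (a k l : G) : ⁅a, k * l⁆ = ⁅a, k⁆ * (k * ⁅a, l⁆ * k⁻¹) := by
  simp only [commutatorElement_def]; group

private theorem comm_mul_left' (a b g : G) : ⁅a * b, g⁆ = a * ⁅b, g⁆ * a⁻¹ * ⁅a, g⁆ := by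
  simp only [commutatorElement_def]; group

/-- The homomorphism `k ↦ ⁅t, k⁆` for `t` central modulo the center. -/
private def rhoHom (t : G) (ht : ∀ k, ⁅t, k⁆ ∈ center G) : G →* G :=
  MonoidHom.mk' (fun k => ⁅t, k⁆) (by
    intro a b
    show ⁅t, a * b⁆ = ⁅t, a⁆ * ⁅t, b⁆
    rw [comm_mul_right', mem_center_iff.mp (ht b) a]
    group)

private theorem rhoHom_apply (t : G) (ht : ∀ k, ⁅t, k⁆ ∈ center G) (k : G) :
    rhoHom t ht k = ⁅t, k⁆ := rfl

private theorem ker_rhoHom (t : G) (ht : ∀ k, ⁅t, k⁆ ∈ center G) :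
    (rhoHom t ht).ker = Cn t := by
  ext k
  rw [MonoidHom.mem_ker, rhoHom_apply, commutatorElement_eq_one_iff_mul_comm, mem_Cn]
  exact eq_comm

private theorem commute_of_mem_commutator (t : G) (ht : ∀ k, ⁅t, k⁆ ∈ center G) {d : G}
    (hd : d ∈ commutator G) : d * t = t * d := by
  have hle : commutator G ≤ Cn t := by
    rw [commutator_def, Subgroup.commutator_le]
    intro a _ b _
    rw [← ker_rhoHom t ht, MonoidHom.mem_ker, map_commutatorElement,
      commutatorElement_eq_one_iff_commute]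
    exact mem_center_iff.mp (ht b) _
  exact mem_Cn.mp (hle hd)

private theorem comm_conj_eq (W a g : G) (hW : ∀ l, ⁅W, l⁆ ∈ center G) :
    ⁅a * W * a⁻¹, g⁆ = ⁅W, g⁆ := by
  have h1 : ⁅W, a⁆ * (a * W * a⁻¹) = W := by
    simp only [commutatorElement_def]; group
  have hz := mem_center_iff.mp (hW a)
  have h2 : a * W * a⁻¹ = ⁅W, a⁆⁻¹ * W := by
    rw [eq_inv_mul_iff_mul_eq]; exact h1
  rw [h2, comm_mul_left']
  have h3 : ⁅⁅W, a⁆⁻¹, g⁆ = 1 := by
    rw [commutatorElement_eq_one_iff_mul_comm]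
    have : Commute g ⁅W, a⁆⁻¹ := (show Commute g ⁅W, a⁆ from hz g).inv_right
    exact this.eq.symm
  rw [h3, mul_one]
  have : ⁅W, a⁆⁻¹ * ⁅W, g⁆ * ⁅W, a⁆⁻¹⁻¹ = ⁅W, g⁆ := by
    have h4 := mem_center_iff.mp (hW g) (⁅W, a⁆⁻¹)
    rw [h4]; group
  exact this

/-- The Hall--Witt identity in the situation at hand. -/
private theorem hall_witt_core (y g k x w d z1 z2 z3 : G)
    (F1 : k * y * k⁻¹ = w⁻¹ * y) (F2 : g * y * g⁻¹ = x⁻¹ * y) (F3 : d * y * d⁻¹ = z3⁻¹ * y)
    (F4 : g * w⁻¹ * g⁻¹ = w⁻¹ * z1) (F5 : k * x⁻¹ * k⁻¹ = x⁻¹ * z2) (F6 : g * k = d * (k * g))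
    (F7 : d * w = w * d) (F8 : d * x = x * d) (F9 : x * w = w * x)
    (c1 : ∀ a, a * z1 = z1 * a) (c2 : ∀ a, a * z2 = z2 * a) (c3 : ∀ a, a * z3 = z3 * a) :
    z2 = z1 * z3 := by
  have L : (g * k) * y * (g * k)⁻¹ = w⁻¹ * z1 * x⁻¹ * y := by
    calc (g * k) * y * (g * k)⁻¹ = g * (k * y * k⁻¹) * g⁻¹ := by group
      _ = g * (w⁻¹ * y) * g⁻¹ := by rw [F1]
      _ = (g * w⁻¹ * g⁻¹) * (g * y * g⁻¹) := by group
      _ = w⁻¹ * z1 * x⁻¹ * y := by rw [F4, F2]; group
  have F7' : d * w⁻¹ = w⁻¹ * d := (show Commute d w from F7).inv_right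
  have F8' : d * x⁻¹ = x⁻¹ * d := (show Commute d x from F8).inv_right
  have R : (d * (k * g)) * y * (d * (k * g))⁻¹ = x⁻¹ * z2 * w⁻¹ * z3⁻¹ * y := by
    calc (d * (k * g)) * y * (d * (k * g))⁻¹ = d * (k * (g * y * g⁻¹) * k⁻¹) * d⁻¹ := by group
      _ = d * (k * (x⁻¹ * y) * k⁻¹) * d⁻¹ := by rw [F2]
      _ = d * ((k * x⁻¹ * k⁻¹) * (k * y * k⁻¹)) * d⁻¹ := by group
      _ = d * (x⁻¹ * z2 * (w⁻¹ * y)) * d⁻¹ := by rw [F5, F1]
      _ = (d * x⁻¹) * z2 * w⁻¹ * y * d⁻¹ := by group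
      _ = x⁻¹ * (d * z2) * w⁻¹ * y * d⁻¹ := by rw [F8']; group
      _ = x⁻¹ * z2 * (d * w⁻¹) * y * d⁻¹ := by rw [c2 d]; group
      _ = x⁻¹ * z2 * w⁻¹ * (d * y * d⁻¹) := by rw [F7']; group
      _ = x⁻¹ * z2 * w⁻¹ * z3⁻¹ * y := by rw [F3]; group
  rw [F6, R] at L
  have h1 : x⁻¹ * z2 * w⁻¹ * z3⁻¹ = w⁻¹ * z1 * x⁻¹ := mul_right_cancel L
  have F9' : x⁻¹ * w⁻¹ = w⁻¹ * x⁻¹ := ((show Commute x w from F9).inv_left.inv_right).eq
  have h2 : z2 * z3⁻¹ * (x⁻¹ * w⁻¹) = z1 * (x⁻¹ * w⁻¹) := by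
    calc z2 * z3⁻¹ * (x⁻¹ * w⁻¹) = (x⁻¹ * z2) * w⁻¹ * z3⁻¹ := by
          have c3' : ∀ a, a * z3⁻¹ = z3⁻¹ * a := fun a => ((show Commute a z3 from c3 a).inv_right).eq
          calc z2 * z3⁻¹ * (x⁻¹ * w⁻¹) = z2 * (z3⁻¹ * (x⁻¹ * w⁻¹)) := by group
            _ = z2 * ((x⁻¹ * w⁻¹) * z3⁻¹) := by rw [c3' (x⁻¹ * w⁻¹)]
            _ = (z2 * x⁻¹) * w⁻¹ * z3⁻¹ := by group
            _ = (x⁻¹ * z2) * w⁻¹ * z3⁻¹ := by rw [c2 x⁻¹]
      _ = w⁻¹ * z1 * x⁻¹ := h1
      _ = z1 * (x⁻¹ * w⁻¹) := by rw [c1 w⁻¹, F9']; group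
  have h3 : z2 * z3⁻¹ = z1 := mul_right_cancel h2
  rw [← h3]; group

/-- The main step. -/
private theorem central_of_mem {m : ℕ} (hm : 1 < m)
    (h : ∀ x : G, (Cn x).index = 1 ∨ (Cn x).index = m)
    {y g : G} (hyG : y ∈ commutator G) (hy3 : ∀ k l : G, ⁅⁅y, k⁆, l⁆ ∈ center G) :
    ⁅y, g⁆ ∈ center G := by
  classical
  by_contra hx
  set x := ⁅y, g⁆ with hxdef
  have hxZ2 : ∀ l, ⁅x, l⁆ ∈ center G := hy3 g
  have hxG : x ∈ commutator G :=
    Subgroup.commutator_mem_commutator (mem_top _) (mem_top _)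
  have hxy : y * x = x * y := commute_of_mem_commutator x hxZ2 hyG
  have hidx_nc : ∀ a b : G, ⁅a, b⁆ ∉ center G → (Cn a).index = m ∧ (Cn b).index = m := by
    intro a b hab
    constructor
    · rcases h a with h1 | h1
      · exfalso
        apply hab
        have h2 := mem_center_of_idx h1 b
        rw [(commutatorElement_eq_one_iff_mul_comm).mpr h2.symm]
        exact one_mem _
      · exact h1
    · rcases h b with h1 | h1
      · exfalso
        apply hab
        have h2 := mem_center_of_idx h1 a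
        rw [(commutatorElement_eq_one_iff_mul_comm).mpr h2]
        exact one_mem _
      · exact h1
  have hxn : (Cn x).index = m := by
    rcases h x with h1 | h1
    · exact absurd (mem_center_iff.mpr (mem_center_of_idx h1)) hx
    · exact h1
  obtain ⟨hyn, hgn⟩ := hidx_nc y g hx
  -- the homomorphism to `G / Z`
  have hconj : ∀ W a : G, a * W * a⁻¹ = ⁅W, a⁆⁻¹ * W := by
    intro W a
    simp only [commutatorElement_def]; group
  have hmkconj : ∀ W a : G, ⁅W, a⁆ ∈ center G →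
      ((a * W * a⁻¹ : G) : G ⧸ center G) = ((W : G) : G ⧸ center G) := by
    intro W a hW
    rw [hconj, QuotientGroup.mk_mul, QuotientGroup.mk_inv,
      (QuotientGroup.eq_one_iff _).mpr hW]
    group
  let f : G →* G ⧸ center G := MonoidHom.mk' (fun k => ((⁅y, k⁆ : G) : G ⧸ center G)) (by
    intro a b
    show ((⁅y, a * b⁆ : G) : G ⧸ center G) =
      ((⁅y, a⁆ : G) : G ⧸ center G) * ((⁅y, b⁆ : G) : G ⧸ center G)
    rw [comm_mul_right', QuotientGroup.mk_mul, hmkconj _ _ (hy3 b a)])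
  have hfapply : ∀ k, f k = ((⁅y, k⁆ : G) : G ⧸ center G) := fun _ => rfl
  have hfc : ∀ a b, Commute (f a) (f b) := by
    intro a b
    rw [← commutatorElement_eq_one_iff_commute, hfapply, hfapply]
    have h1 : ⁅((⁅y, a⁆ : G) : G ⧸ center G), ((⁅y, b⁆ : G) : G ⧸ center G)⁆ =
        ((⁅⁅y, a⁆, ⁅y, b⁆⁆ : G) : G ⧸ center G) := by
      simp only [commutatorElement_def, QuotientGroup.mk_mul, QuotientGroup.mk_inv]
    rw [h1]
    exact (QuotientGroup.eq_one_iff _).mpr (hy3 a _)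
  set K : Subgroup G := f.ker with hK
  have hKmem : ∀ k, k ∈ K ↔ ⁅y, k⁆ ∈ center G := by
    intro k
    rw [hK, MonoidHom.mem_ker, hfapply, QuotientGroup.eq_one_iff]
  have hGK : commutator G ≤ K := by
    rw [commutator_def, Subgroup.commutator_le]
    intro a _ b _
    rw [hK, MonoidHom.mem_ker, map_commutatorElement, commutatorElement_eq_one_iff_commute]
    exact hfc a b
  have hCy : Cn y ≤ K := by
    intro k hk
    rw [hKmem]
    have : ⁅y, k⁆ = 1 := commutatorElement_eq_one_iff_mul_comm.mpr (mem_Cn.mp hk).symm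
    rw [this]; exact one_mem _
  let α : K →* G := MonoidHom.mk' (fun k => ⁅y, (k : G)⁆) (by
    intro a b
    show ⁅y, (a : G) * (b : G)⁆ = ⁅y, (a : G)⁆ * ⁅y, (b : G)⁆
    rw [comm_mul_right', mem_center_iff.mp ((hKmem _).mp b.2) (a : G)]
    group)
  let β : G →* G := MonoidHom.mk' (fun k => ⁅⁅y, k⁆, g⁆) (by
    intro a b
    show ⁅⁅y, a * b⁆, g⁆ = ⁅⁅y, a⁆, g⁆ * ⁅⁅y, b⁆, g⁆
    rw [comm_mul_right', comm_mul_left', comm_conj_eq _ a g (hy3 b),
      mem_center_iff.mp (hy3 b g) ⁅y, a⁆, mul_inv_cancel_right]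
    exact (mem_center_iff.mp (hy3 b g) _).symm)
  have hαapply : ∀ k : K, α k = ⁅y, (k : G)⁆ := fun _ => rfl
  have hβapply : ∀ k, β k = ⁅⁅y, k⁆, g⁆ := fun _ => rfl
  set ρ := rhoHom x hxZ2 with hρ
  have hρapply : ∀ k, ρ k = ⁅x, k⁆ := fun _ => rfl
  have hHW : ∀ k, ρ k = β k * ⁅y, ⁅g, k⁆⁆ := by
    intro k
    have hd : ⁅g, k⁆ ∈ commutator G := Subgroup.commutator_mem_commutator (mem_top _) (mem_top _)
    rw [hρapply, hβapply]
    exact hall_witt_core y g k x ⁅y, k⁆ ⁅g, k⁆ ⁅⁅y, k⁆, g⁆ ⁅x, k⁆ ⁅y, ⁅g, k⁆⁆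
      (by simp only [commutatorElement_def]; group)
      (by simp only [hxdef, commutatorElement_def]; group)
      (by simp only [commutatorElement_def]; group)
      (by simp only [commutatorElement_def]; group)
      (by simp only [commutatorElement_def]; group)
      (by simp only [commutatorElement_def]; group)
      (commute_of_mem_commutator _ (hy3 k) hd)
      (commute_of_mem_commutator _ hxZ2 hd)
      (commute_of_mem_commutator _ (hy3 k) hxG)
      (mem_center_iff.mp (hy3 k g))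
      (mem_center_iff.mp (hxZ2 k))
      (mem_center_iff.mp ((hKmem _).mp (hGK hd)))
  set A := β.range with hA
  set U := α.range with hU
  have hUc : U ≤ center G := by
    rintro _ ⟨k, rfl⟩
    exact (hKmem _).mp k.2
  have hAc : A ≤ center G := by
    rintro _ ⟨k, rfl⟩
    exact hy3 k g
  have hRle : ρ.range ≤ A ⊔ U := by
    rintro _ ⟨k, rfl⟩
    rw [hHW]
    have hd : ⁅g, k⁆ ∈ K := hGK (Subgroup.commutator_mem_commutator (mem_top _) (mem_top _))
    exact mul_mem ((le_sup_left : A ≤ A ⊔ U) ⟨k, rfl⟩)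
      ((le_sup_right : U ≤ A ⊔ U) ⟨⟨_, hd⟩, rfl⟩)
  have hUN : U ≤ normalizer (A : Set G) := by
    intro z hz
    apply mem_normalizer_of_conj_le' A z
    intro a ha
    have h1 := mem_center_iff.mp (hUc hz) a
    rw [← h1]
    have : a * z * z⁻¹ = a := by group
    rw [this]; exact ha
  have hsup := card_sup_mul_card_inf hUN
  have c1 : (Cn x).index = Nat.card ρ.range := by
    rw [← ker_rhoHom x hxZ2]; exact Subgroup.index_ker ρ
  have c2 : Nat.card A = β.ker.index := (Subgroup.index_ker β).symm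
  have hαker : α.ker = (Cn y).subgroupOf K := by
    ext k
    rw [MonoidHom.mem_ker, hαapply, commutatorElement_eq_one_iff_mul_comm, mem_subgroupOf, mem_Cn]
    exact eq_comm
  have c3 : Nat.card U = (Cn y).relIndex K := by
    rw [Subgroup.relIndex, ← hαker]; exact (Subgroup.index_ker α).symm
  have hKβ : K ≤ β.ker := by
    intro k hk
    rw [MonoidHom.mem_ker, hβapply, commutatorElement_eq_one_iff_mul_comm]
    exact (mem_center_iff.mp ((hKmem k).mp hk) g).symm
  have c4 : (Cn y).relIndex K * K.index = (Cn y).index := relIndex_mul_index hCy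
  have c5 : K.relIndex β.ker * β.ker.index = K.index := relIndex_mul_index hKβ
  have hRcard : Nat.card ρ.range ≤ Nat.card ↥(A ⊔ U) := Subgroup.card_le_of_le hRle
  have hipos : 0 < β.ker.index := Nat.pos_of_ne_zero Subgroup.index_ne_zero_of_finite
  have hupos : 0 < (Cn y).relIndex K := by
    rw [← c3]; exact Nat.card_pos
  have hrpos : 0 < K.relIndex β.ker := by
    apply Nat.pos_of_ne_zero
    intro h0
    rw [h0, zero_mul] at c5
    exact Subgroup.index_ne_zero_of_finite c5.symm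
  have hspos : 0 < Nat.card ↥(A ⊓ U) := Nat.card_pos
  have hkey : K.relIndex β.ker * Nat.card ↥(A ⊓ U) ≤ 1 := by
    have h1 : m * Nat.card ↥(A ⊓ U) ≤ Nat.card A * Nat.card U := by
      rw [← hsup]
      apply Nat.mul_le_mul_right
      rw [← hxn, c1]
      exact hRcard
    rw [c2, c3, ← hyn, ← c4, ← c5] at h1
    have h2 : (β.ker.index * (Cn y).relIndex K) * (K.relIndex β.ker * Nat.card ↥(A ⊓ U)) ≤
        (β.ker.index * (Cn y).relIndex K) * 1 := by
      calc _ = (Cn y).relIndex K * (K.relIndex β.ker * β.ker.index) * Nat.card ↥(A ⊓ U) := by ring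
        _ ≤ β.ker.index * (Cn y).relIndex K := h1
        _ = _ := by ring
    exact Nat.le_of_mul_le_mul_left h2 (Nat.mul_pos hipos hupos)
  have hr1 : K.relIndex β.ker = 1 := by
    by_contra hne
    have : 2 ≤ K.relIndex β.ker := by omega
    nlinarith
  have hs1 : Nat.card ↥(A ⊓ U) = 1 := by
    rw [hr1, one_mul] at hkey
    omega
  have hAU : A ⊓ U = ⊥ := Subgroup.eq_bot_of_card_eq _ hs1
  have hβK : β.ker ≤ K := Subgroup.relIndex_eq_one.mp hr1
  have hCxK : Cn x ≤ K := by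
    intro k hk
    have hk1 : ρ k = 1 := by
      rw [← ker_rhoHom x hxZ2] at hk
      exact hk
    rw [hHW] at hk1
    have hd : ⁅g, k⁆ ∈ K := hGK (Subgroup.commutator_mem_commutator (mem_top _) (mem_top _))
    have h2 : β k ∈ A ⊓ U := by
      refine Subgroup.mem_inf.mpr ⟨⟨k, rfl⟩, ?_⟩
      have h3 : β k = (⁅y, ⁅g, k⁆⁆)⁻¹ := eq_inv_of_mul_eq_one_left hk1
      rw [h3]
      exact inv_mem ⟨⟨_, hd⟩, rfl⟩
    rw [hAU, Subgroup.mem_bot] at h2
    exact hβK h2
  have hKg : ∀ k ∈ K, k ∈ Cn g → k ∈ Cn x := by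
    intro k hk hkg
    rw [← ker_rhoHom x hxZ2, MonoidHom.mem_ker, hHW]
    have h1 : β k = 1 := hKβ hk
    have h2 : ⁅g, k⁆ = 1 := commutatorElement_eq_one_iff_mul_comm.mpr (mem_Cn.mp hkg).symm
    rw [h1, h2, commutatorElement_one_right, mul_one]
  -- the final count
  set X := Cn x with hX
  set R' := Cn g with hR'
  have htmem : ∀ k : G, ⁅y, k⁆ ∈ X := by
    intro k
    exact mem_Cn.mpr (commute_of_mem_commutator _ (hy3 k) hxG).symm
  have hyX : y ∈ X := mem_Cn.mpr hxy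
  let cc : (G ⧸ K) × Bool → X := fun t =>
    match t with
    | (q, false) => ⟨⁅y, q.out⁆, htmem _⟩
    | (q, true) => ⟨y * ⁅y, q.out⁆, mul_mem hyX (htmem _)⟩
  have hcomm : ∀ t : (G ⧸ K) × Bool, ⁅((cc t : X) : G), g⁆ =
      β t.1.out * (if t.2 then x else 1) := by
    rintro ⟨q, _ | _⟩
    · show ⁅⁅y, q.out⁆, g⁆ = _
      simp [hβapply]
    · show ⁅y * ⁅y, q.out⁆, g⁆ = _
      simp only [if_true]
      rw [comm_mul_left', mem_center_iff.mp (hy3 _ g) y, hβapply, mul_inv_cancel_right]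
  let Φ : (G ⧸ K) × Bool → ↥X ⧸ (R'.subgroupOf X) := fun t => ((cc t : X) : ↥X ⧸ (R'.subgroupOf X))
  have hΦinj : Function.Injective Φ := by
    intro t t' htt
    have h1 : (cc t)⁻¹ * cc t' ∈ R'.subgroupOf X := QuotientGroup.eq.mp htt
    have h2 : ((cc t : X) : G)⁻¹ * ((cc t' : X) : G) ∈ R' := mem_subgroupOf.mp h1
    have h3 : ⁅((cc t : X) : G), g⁆ = ⁅((cc t' : X) : G), g⁆ := by
      set c := ((cc t : X) : G)
      set c' := ((cc t' : X) : G)
      have h4 : (c⁻¹ * c') * g = g * (c⁻¹ * c') := mem_Cn.mp h2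
      simp only [commutatorElement_def]
      have h5 : c * g * c⁻¹ = c' * g * c'⁻¹ := by
        calc c * g * c⁻¹ = c * (g * (c⁻¹ * c')) * c'⁻¹ := by group
          _ = c * ((c⁻¹ * c') * g) * c'⁻¹ := by rw [h4]
          _ = c' * g * c'⁻¹ := by group
      rw [h5]
    rw [hcomm, hcomm] at h3
    obtain ⟨q, b⟩ := t
    obtain ⟨q', b'⟩ := t'
    have hβinj : β q.out = β q'.out → q = q' := by
      intro he
      have h6 : (q.out)⁻¹ * q'.out ∈ K := by
        apply hβK
        rw [MonoidHom.mem_ker, map_mul, map_inv, he]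
        group
      have h7 := QuotientGroup.eq.mpr h6
      rwa [QuotientGroup.out_eq', QuotientGroup.out_eq'] at h7
    cases b <;> cases b' <;> simp only [if_true, if_false, Bool.false_eq_true, mul_one] at h3
    · rw [hβinj h3]
    · exfalso
      apply hx
      have : x = (β q'.out)⁻¹ * β q.out := by rw [h3]; group
      rw [this]
      exact mul_mem (inv_mem (hAc ⟨_, rfl⟩)) (hAc ⟨_, rfl⟩)
    · exfalso
      apply hx
      have : x = (β q.out)⁻¹ * β q'.out := by rw [← h3]; group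
      rw [this]
      exact mul_mem (inv_mem (hAc ⟨_, rfl⟩)) (hAc ⟨_, rfl⟩)
    · rw [hβinj (mul_right_cancel h3)]
  have hΦcard := Nat.card_le_card_of_injective Φ hΦinj
  rw [Nat.card_prod, Nat.card_eq_fintype_card (α := Bool), Fintype.card_bool] at hΦcard
  have hΦ2 : K.index * 2 ≤ R'.relIndex X := hΦcard
  have hinf : R' ⊓ K = R' ⊓ X := by
    apply le_antisymm
    · intro k hk
      have h1 := Subgroup.mem_inf.mp hk
      exact Subgroup.mem_inf.mpr ⟨h1.1, hKg k h1.2 h1.1⟩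
    · exact inf_le_inf_left _ hCxK
  have hc1 : R'.relIndex K = (R' ⊓ X).relIndex K := by
    rw [← hinf, inf_relIndex_right]
  have hc2 : (R' ⊓ X).relIndex X * X.relIndex K = (R' ⊓ X).relIndex K :=
    relIndex_mul_relIndex _ _ _ inf_le_right hCxK
  have hc3 : (R' ⊓ X).relIndex X = R'.relIndex X := inf_relIndex_right _ _
  have hc4 : X.relIndex K * K.index = X.index := relIndex_mul_index hCxK
  have hc5 : R'.relIndex K ≤ R'.index := by
    have h1 := relIndex_le_of_le_right (H := R') (K := K) (L := ⊤) le_top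
      (by rw [relIndex_top_right]; exact Subgroup.index_ne_zero_of_finite)
    rwa [relIndex_top_right] at h1
  have hXKpos : 0 < X.relIndex K := by
    apply Nat.pos_of_ne_zero
    intro h0
    rw [h0, zero_mul, hxn] at hc4
    omega
  have hKpos : 0 < K.index := Nat.pos_of_ne_zero Subgroup.index_ne_zero_of_finite
  have hfin : (K.index * 2) * X.relIndex K ≤ X.relIndex K * K.index := by
    calc (K.index * 2) * X.relIndex K ≤ R'.relIndex X * X.relIndex K :=
          Nat.mul_le_mul_right _ hΦ2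
      _ = R'.relIndex K := by rw [hc1, ← hc2, hc3]
      _ ≤ R'.index := hc5
      _ = m := hgn
      _ = X.relIndex K * K.index := by rw [hc4, hxn]
  nlinarith [Nat.mul_pos hXKpos hKpos]

private theorem main_aux {P : Type*} [Group P] [Finite P] {p : ℕ} [Fact p.Prime] (hP : IsPGroup p P)
    (m : ℕ) (hm : 1 < m) (h : ∀ x : P, (Cn x).index = 1 ∨ (Cn x).index = m) :
    Subgroup.upperCentralSeries P 3 = ⊤ := by
  classical
  haveI hnil : Group.IsNilpotent P := hP.isNilpotent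
  have hdesc : ∀ k : ℕ, Subgroup.lowerCentralSeries (⊤ : Subgroup P) (k + 4) = ⊥ →
      Subgroup.lowerCentralSeries (⊤ : Subgroup P) (k + 3) = ⊥ := by
    intro k hk
    have hsucc : ∀ j, Subgroup.lowerCentralSeries (⊤ : Subgroup P) (j + 1) =
        ⁅Subgroup.lowerCentralSeries (⊤ : Subgroup P) j, (⊤ : Subgroup P)⁆ := fun j => rfl
    have hmemc : ∀ j, ∀ a ∈ Subgroup.lowerCentralSeries (⊤ : Subgroup P) j, ∀ b : P,
        ⁅a, b⁆ ∈ Subgroup.lowerCentralSeries (⊤ : Subgroup P) (j + 1) := by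
      intro j a ha b
      rw [hsucc]
      exact Subgroup.commutator_mem_commutator ha (mem_top _)
    have h3 : ∀ a ∈ Subgroup.lowerCentralSeries (⊤ : Subgroup P) (k + 3), a ∈ center P := by
      intro a ha
      rw [mem_center_iff]
      intro b
      have h1 := hmemc _ a ha b
      rw [hk, Subgroup.mem_bot, commutatorElement_eq_one_iff_mul_comm] at h1
      exact h1.symm
    have hyG : ∀ y ∈ Subgroup.lowerCentralSeries (⊤ : Subgroup P) (k + 1), y ∈ commutator P := by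
      intro y hy
      have h1 : Subgroup.lowerCentralSeries (⊤ : Subgroup P) (k + 1) ≤
          Subgroup.lowerCentralSeries (⊤ : Subgroup P) 1 :=
        Subgroup.lowerCentralSeries_antitone _ (by omega)
      have h2 := h1 hy
      rwa [show Subgroup.lowerCentralSeries (⊤ : Subgroup P) 1 = commutator P from by
        rw [commutator_def]; rfl] at h2
    have hcent : ∀ y ∈ Subgroup.lowerCentralSeries (⊤ : Subgroup P) (k + 1), ∀ g : P, ⁅y, g⁆ ∈ center P := by
      intro y hy g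
      exact central_of_mem hm h (hyG y hy) (fun a b => h3 _ (hmemc _ _ (hmemc _ y hy a) b))
    rw [eq_bot_iff, show k + 3 = (k + 2) + 1 from rfl, hsucc, Subgroup.commutator_le]
    intro a ha b _
    rw [Subgroup.mem_bot, commutatorElement_eq_one_iff_mul_comm]
    have h4 : Subgroup.lowerCentralSeries (⊤ : Subgroup P) (k + 2) ≤ center P := by
      rw [show k + 2 = (k + 1) + 1 from rfl, hsucc, Subgroup.commutator_le]
      intro y hy g _
      exact hcent y hy g
    exact (mem_center_iff.mp (h4 ha) b).symm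
  obtain ⟨n, hn⟩ := Subgroup.nilpotent_iff_lowerCentralSeries.mp hnil
  have hall : ∀ j : ℕ, Subgroup.lowerCentralSeries (⊤ : Subgroup P) (j + 3) = ⊥ →
      Subgroup.lowerCentralSeries (⊤ : Subgroup P) 3 = ⊥ := by
    intro j
    induction j with
    | zero => exact id
    | succ j ih => exact fun h1 => ih (hdesc j h1)
  have hn3 : Subgroup.lowerCentralSeries (⊤ : Subgroup P) 3 = ⊥ := by
    apply hall n
    rw [eq_bot_iff, ← hn]
    exact Subgroup.lowerCentralSeries_antitone _ (by omega)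
  exact (lowerCentralSeries_eq_bot_iff_upperCentralSeries_eq_top).mp hn3

end aux


/-- Let P be a finite p-group whose conjugacy classes have exactly two sizes (1 and one other value). Then P has nilpotency class at most 3. -/
theorem result {P : Type*} [Group P] [Finite P] {p : ℕ} [Fact p.Prime] (hP : IsPGroup p P)
    (m : ℕ) (hm : 1 < m) (h : ∀ x : P, (Subgroup.centralizer ({x} : Set P)).index = 1 ∨ (Subgroup.centralizer ({x} : Set P)).index = m) :
    upperCentralSeries P 3 = ⊤ := by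
  exact main_aux hP m hm h

end Cfsg.Agent.S4169
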