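import Cfsg.Statements.S4172
import Cfsg.Agent.Lib.PGroups.TwoGen

set_option autoImplicit false
open Cfsg

namespace Cfsg.Agent.S4172

section aux

open Subgroup Cfsg Cfsg.Agent.Lib.PGroups.TwoGen

private theorem main {G : Type*} [Group G] [Finite G] (p : ℕ) [Fact p.Prime] (P : Sylow p G)
    (hna : ¬ IsMulCommutative (P : Subgroup G)) (hgen : (frattini ↥(P : Subgroup G)).index = p ^ 2)
    (hcore : Cfsg.pPrimeCore p G = ⊥)
    (hfrat : ((frattini ↥(P : Subgroup G)).map (P : Subgroup G).subtype).normalCore = ⊥)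
    [hFn : (Cfsg.generalizedFittingSubgroup G).Normal] :
    (Cfsg.generalizedFittingSubgroup G ≠ ⊥ ∧ ∀ K : Subgroup G, K.Normal → K ≠ ⊥ → Cfsg.generalizedFittingSubgroup G ≤ K) ∧
      IsCyclic ↥((P : Subgroup G).map (QuotientGroup.mk' (Cfsg.generalizedFittingSubgroup G))) ∧
      (¬ IsMulCommutative (Cfsg.generalizedFittingSubgroup G) → ∀ K L : Subgroup G, Cfsg.IsComponent K → Cfsg.IsComponent L → ∃ x ∈ (P : Subgroup G), L = K.map (MulAut.conj x).toMonoidHom) := by
  obtain ⟨N, hNn, hN1, hmin⟩ := exists_min_normal P hna hgen hcore hfrat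
  have hF := gfit_eq P hgen hcore hfrat N hNn hN1 hmin
  refine ⟨⟨hF ▸ hN1, fun K hK hK1 => hF ▸ hmin K hK hK1⟩, ?_, ?_⟩
  · have hF1 : Cfsg.generalizedFittingSubgroup G ≠ ⊥ := hF ▸ hN1
    obtain ⟨c, hcP, hc⟩ := exists_gen P hgen (Cfsg.generalizedFittingSubgroup G)
      (fun x _ a ha => hFn.conj_mem a ha x) (not_le_phi P hcore hfrat _ hF1)
    refine ⟨⟨⟨QuotientGroup.mk' _ c, c, hcP, rfl⟩, ?_⟩⟩
    rintro ⟨_, x, hx, rfl⟩
    obtain ⟨a, ha, i, rfl⟩ := hc x hx
    refine ⟨i, ?_⟩
    apply Subtype.ext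
    simpa using ha.1
  · intro hnc K L hK hL
    apply transitive_of_nonabelian P hna hgen hcore N hNn hmin _ K L hK hL
    intro hab
    apply hnc
    rw [hF]
    exact ⟨⟨fun a b => Subtype.ext (hab _ a.2 _ b.2)⟩⟩

end aux

/-- Let p be a prime and G a finite group with a non-commutative Sylow p-subgroup P whose Frattini subgroup has index p² in P (P is generated by two elements). Suppose G has no nontrivial normal subgroup of order prime to p and the Frattini subgroup of P contains no nontrivial normal subgroup of G. Then the generalized Fitting subgroup F*(G) is the unique minimal normal subgroup of G, the image of P in G/F*(G) is cyclic, and if F*(G) is not commutative then P permutes the components of G transitively by conjugation. -/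
theorem result {G : Type*} [Group G] [Finite G] (p : ℕ) [Fact p.Prime] (P : Sylow p G) (hna : ¬ IsMulCommutative (P : Subgroup G)) (hgen : (frattini ↥(P : Subgroup G)).index = p ^ 2) (hcore : Cfsg.pPrimeCore p G = ⊥) (hfrat : ((frattini ↥(P : Subgroup G)).map (P : Subgroup G).subtype).normalCore = ⊥) [hFn : (Cfsg.generalizedFittingSubgroup G).Normal] :
    (Cfsg.generalizedFittingSubgroup G ≠ ⊥ ∧ ∀ K : Subgroup G, K.Normal → K ≠ ⊥ → Cfsg.generalizedFittingSubgroup G ≤ K) ∧
      IsCyclic ↥((P : Subgroup G).map (QuotientGroup.mk' (Cfsg.generalizedFittingSubgroup G))) ∧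
      (¬ IsMulCommutative (Cfsg.generalizedFittingSubgroup G) → ∀ K L : Subgroup G, Cfsg.IsComponent K → Cfsg.IsComponent L → ∃ x ∈ (P : Subgroup G), L = K.map (MulAut.conj x).toMonoidHom) := by
  exact main p P hna hgen hcore hfrat

end Cfsg.Agent.S4172
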