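import Cfsg.Statements.S4176
import Cfsg.Agent.Lib.Basic.Index
import Cfsg.Agent.Lib.Coprime.PSolvable

set_option autoImplicit false
open Cfsg

namespace Cfsg.Agent.S4176

universe u v w

section aux

variable {k : Type w} [Field k]

/-- Fixed points of a subgroup, as a submodule. -/
private def fixN {H : Type u} {V : Type v} [Group H] [AddCommGroup V] [Module k V]
    (ρ : Representation k H V) (N : Subgroup H) : Submodule k V where
  carrier := {v | ∀ n ∈ N, ρ n v = v}
  add_mem' := by
    intro a b ha hb n hn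
    rw [map_add, ha n hn, hb n hn]
  zero_mem' := by
    intro n _
    exact map_zero _
  smul_mem' := by
    intro c a ha n hn
    rw [map_smul, ha n hn]

private theorem mem_fixN {H : Type u} {V : Type v} [Group H] [AddCommGroup V] [Module k V]
    (ρ : Representation k H V) (N : Subgroup H) (v : V) :
    v ∈ fixN ρ N ↔ ∀ n ∈ N, ρ n v = v := Iff.rfl

private theorem rho_conj {H : Type u} {V : Type v} [Group H] [AddCommGroup V] [Module k V]
    (ρ : Representation k H V) (g h : H) (v : V) : ρ g (ρ h v) = ρ (g * h) v := by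
  rw [map_mul]; rfl

private theorem fixN_stable {H : Type u} {V : Type v} [Group H] [AddCommGroup V] [Module k V]
    (ρ : Representation k H V) (N : Subgroup H) [hN : N.Normal] (h : H) (v : V)
    (hv : v ∈ fixN ρ N) : ρ h v ∈ fixN ρ N := by
  intro n hn
  have h1 : h⁻¹ * n * h ∈ N := by
    have := hN.conj_mem n hn h⁻¹
    simpa using this
  rw [rho_conj]
  have h2 : n * h = h * (h⁻¹ * n * h) := by group
  rw [h2, ← rho_conj, hv _ h1]

/-- The representation of the quotient on the fixed points. -/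
private noncomputable def quotRep {H : Type u} {V : Type v} [Group H] [AddCommGroup V] [Module k V]
    (ρ : Representation k H V) (N : Subgroup H) [hN : N.Normal] :
    Representation k (H ⧸ N) (fixN ρ N) :=
  QuotientGroup.lift N
    ({ toFun := fun h => (ρ h).restrict (fun v hv => fixN_stable ρ N h v hv)
       map_one' := by
         ext v
         simp
       map_mul' := by
         intro a b
         ext v
         simp } : H →* (fixN ρ N →ₗ[k] fixN ρ N))
    (by
      intro n hn
      rw [MonoidHom.mem_ker]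
      ext v
      exact v.2 n hn)

private theorem quotRep_apply {H : Type u} {V : Type v} [Group H] [AddCommGroup V] [Module k V]
    (ρ : Representation k H V) (N : Subgroup H) [hN : N.Normal] (h : H) (v : fixN ρ N) :
    ((quotRep ρ N (h : H ⧸ N) v : fixN ρ N) : V) = ρ h (v : V) := rfl

/-- A relative index into a normal subgroup divides the index. -/
private theorem relIndex_dvd_index_normal {H : Type u} [Group H] [Finite H] (A N : Subgroup H)
    [N.Normal] : A.relIndex N ∣ A.index := by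
  rw [← Cfsg.Agent.Lib.Basic.relIndex_sup_of_normal A N]
  exact Subgroup.relIndex_dvd_index_of_le le_sup_left

private theorem exists_factor {H : Type u} [Group H] [Finite H] (A B N : Subgroup H) [N.Normal]
    (hAB : A.index.Coprime B.index) (n : H) (hn : n ∈ N) :
    ∃ y, y ∈ N ∧ y ∈ B ∧ ∃ x, x ∈ N ∧ x ∈ A ∧ n = y * x := by
  have h1 : (B.subgroupOf N).index.Coprime (A.subgroupOf N).index := by
    have h2 : (A.subgroupOf N).index ∣ A.index := relIndex_dvd_index_normal A N
    have h3 : (B.subgroupOf N).index ∣ B.index := relIndex_dvd_index_normal B N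
    exact (Nat.Coprime.coprime_dvd_left h3 (Nat.Coprime.coprime_dvd_right h2 hAB.symm))
  obtain ⟨y, hy, x, hx, hyx⟩ := Cfsg.Agent.Lib.Basic.exists_mul_of_index_coprime _ _ h1 (⟨n, hn⟩ : N)
  refine ⟨y.1, y.2, Subgroup.mem_subgroupOf.mp hy, x.1, x.2, Subgroup.mem_subgroupOf.mp hx, ?_⟩
  exact congrArg Subtype.val hyx

/-- The key point of the coprime-orbit case: `b` is fixed by a normal subgroup of order
invertible in `k`. -/
private theorem mem_fixN_of_coprime {H : Type u} {V : Type v} [Group H] [Finite H] [AddCommGroup V]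
    [Module k V] (ρ : Representation k H V) (a b : V) (A B N : Subgroup H) [hN : N.Normal]
    (hA : ∀ x ∈ A, ρ x a = a) (hB : ∀ x ∈ B, ρ x b = b) (hAB : A.index.Coprime B.index)
    (hspan : Submodule.span k {u : V | ∃ h : H, ρ h a = u} = ⊤)
    (hcK : ((Nat.card ↥(N ⊓ B) : ℕ) : k) ≠ 0) : b ∈ fixN ρ N := by
  classical
  haveI : Fintype ↥(N ⊓ B) := Fintype.ofFinite _
  let K := N ⊓ B
  let O : Finset V := Finset.univ.image (fun y : ↥(N ⊓ B) => ρ y.1 a)
  let w : V := ∑ u ∈ O, u
  -- step 1
  have h1 : ∃ c : ℕ, ∑ y : ↥(N ⊓ B), ρ y.1 a = c • w := by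
    have h := Finset.sum_comp (s := (Finset.univ : Finset ↥(N ⊓ B))) (fun u : V => u)
      (fun y : ↥(N ⊓ B) => ρ y.1 a)
    have hcard : ∀ u ∈ O, (Finset.univ.filter (fun y : ↥(N ⊓ B) => ρ y.1 a = u)).card =
        (Finset.univ.filter (fun y : ↥(N ⊓ B) => ρ y.1 a = a)).card := by
      intro u hu
      obtain ⟨y₀, -, rfl⟩ := Finset.mem_image.mp hu
      refine Finset.card_bij (fun y _ => y₀⁻¹ * y) ?_ ?_ ?_
      · intro y hy
        have hy' : ρ y.1 a = ρ y₀.1 a := (Finset.mem_filter.mp hy).2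
        refine Finset.mem_filter.mpr ⟨Finset.mem_univ _, ?_⟩
        have h2 : (↑(y₀⁻¹ * y) : H) = y₀.1⁻¹ * y.1 := rfl
        rw [h2, ← rho_conj, hy', rho_conj, inv_mul_cancel, map_one]
        rfl
      · intro y _ z _ hyz
        exact mul_left_cancel hyz
      · intro z hz
        refine ⟨y₀ * z, ?_, by group⟩
        have hz' : ρ z.1 a = a := (Finset.mem_filter.mp hz).2
        refine Finset.mem_filter.mpr ⟨Finset.mem_univ _, ?_⟩
        have h2 : (↑(y₀ * z) : H) = y₀.1 * z.1 := rfl
        rw [h2, ← rho_conj, hz']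
    refine ⟨(Finset.univ.filter (fun y : ↥(N ⊓ B) => ρ y.1 a = a)).card, ?_⟩
    rw [h, Finset.smul_sum]
    refine Finset.sum_congr rfl fun u hu => ?_
    rw [hcard u hu]
  obtain ⟨c, hc⟩ := h1
  -- step 2
  have h2 : ∀ n ∈ N, ρ n w = w := by
    intro n hn
    have hmaps : ∀ u ∈ O, ρ n u ∈ O := by
      intro u hu
      obtain ⟨y, -, rfl⟩ := Finset.mem_image.mp hu
      have hny : n * y.1 ∈ N := N.mul_mem hn (Subgroup.mem_inf.mp y.2).1
      obtain ⟨y', hy'N, hy'B, x', -, hx'A, he⟩ := exists_factor A B N hAB _ hny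
      refine Finset.mem_image.mpr ⟨⟨y', Subgroup.mem_inf.mpr ⟨hy'N, hy'B⟩⟩, Finset.mem_univ _, ?_⟩
      show ρ y' a = ρ n (ρ y.1 a)
      rw [rho_conj, he, ← rho_conj, hA x' hx'A]
    have hinj : Function.Injective (ρ n) := by
      intro u v huv
      have := congrArg (ρ n⁻¹) huv
      simpa [rho_conj] using this
    have himg : O.image (ρ n) = O := by
      refine Finset.eq_of_subset_of_card_le ?_ ?_
      · intro u hu
        obtain ⟨v, hv, rfl⟩ := Finset.mem_image.mp hu
        exact hmaps v hv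
      · rw [Finset.card_image_of_injective _ hinj]
    show ρ n (∑ u ∈ O, u) = ∑ u ∈ O, u
    rw [map_sum]
    conv_rhs => rw [← himg]
    rw [Finset.sum_image (fun x _ y _ h => hinj h)]
  -- step 3 and 4
  have h3 : ∀ t ∈ B, ∑ y : ↥(N ⊓ B), ρ y.1 (ρ t a) = ρ t (∑ y : ↥(N ⊓ B), ρ y.1 a) := by
    intro t ht
    rw [map_sum]
    let e : ↥(N ⊓ B) ≃ ↥(N ⊓ B) :=
      { toFun := fun y => ⟨t⁻¹ * y.1 * t, Subgroup.mem_inf.mpr
          ⟨by simpa using hN.conj_mem y.1 (Subgroup.mem_inf.mp y.2).1 t⁻¹,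
            B.mul_mem (B.mul_mem (B.inv_mem ht) (Subgroup.mem_inf.mp y.2).2) ht⟩⟩
        invFun := fun y => ⟨t * y.1 * t⁻¹, Subgroup.mem_inf.mpr
          ⟨hN.conj_mem y.1 (Subgroup.mem_inf.mp y.2).1 t,
            B.mul_mem (B.mul_mem ht (Subgroup.mem_inf.mp y.2).2) (B.inv_mem ht)⟩⟩
        left_inv := fun y => Subtype.ext (by simp [mul_assoc])
        right_inv := fun y => Subtype.ext (by simp [mul_assoc]) }
    refine Fintype.sum_equiv e _ _ fun y => ?_
    show ρ y.1 (ρ t a) = ρ t (ρ (t⁻¹ * y.1 * t) a)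
    rw [rho_conj, rho_conj]
    congr 2
    group
  let T : V →ₗ[k] V := ∑ y : ↥(N ⊓ B), ρ y.1
  have hT : ∀ v, T v = ∑ y : ↥(N ⊓ B), ρ y.1 v := fun v => by simp [T]
  have h4 : ∀ h : H, T (ρ h a) ∈ fixN ρ N := by
    intro h
    obtain ⟨t, ht, s, hs, rfl⟩ := Cfsg.Agent.Lib.Basic.exists_mul_of_index_coprime B A hAB.symm h
    rw [← rho_conj, hA s hs, hT, h3 t ht, hc, map_nsmul]
    refine Submodule.smul_of_tower_mem _ c ?_
    exact fixN_stable ρ N t w h2
  have h5 : ∀ v, T v ∈ fixN ρ N := by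
    intro v
    have hv : v ∈ Submodule.span k {u : V | ∃ h : H, ρ h a = u} := by rw [hspan]; trivial
    have hle : Submodule.span k {u : V | ∃ h : H, ρ h a = u} ≤ (fixN ρ N).comap T := by
      rw [Submodule.span_le]
      rintro _ ⟨h, rfl⟩
      exact h4 h
    exact hle hv
  have h6 : T b = (Nat.card ↥(N ⊓ B) : k) • b := by
    rw [hT, Finset.sum_congr rfl (fun y _ => hB y.1 (Subgroup.mem_inf.mp y.2).2)]
    rw [Finset.sum_const, Finset.card_univ, Nat.card_eq_fintype_card, Nat.cast_smul_eq_nsmul]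
  have h7 := h5 b
  rw [h6] at h7
  have h8 := (fixN ρ N).smul_mem ((Nat.card ↥(N ⊓ B) : k))⁻¹ h7
  rwa [smul_smul, inv_mul_cancel₀ hcK, one_smul] at h8

/-- The averaging operator. -/
private theorem exists_average {H : Type u} {V : Type v} [Group H] [Finite H] [AddCommGroup V]
    [Module k V] (ρ : Representation k H V) (N : Subgroup H) [hN : N.Normal]
    (hc : ((Nat.card N : ℕ) : k) ≠ 0) :
    ∃ π : V →ₗ[k] V, (∀ (h : H) (v : V), ρ h (π v) = π (ρ h v)) ∧ (∀ v, π v ∈ fixN ρ N) ∧
      ∀ v ∈ fixN ρ N, π v = v := by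
  classical
  haveI : Fintype N := Fintype.ofFinite _
  let π : V →ₗ[k] V := ((Nat.card N : ℕ) : k)⁻¹ • ∑ n : N, ρ n.1
  have hπ : ∀ v, π v = ((Nat.card N : ℕ) : k)⁻¹ • ∑ n : N, ρ n.1 v := fun v => by simp [π]
  refine ⟨π, ?_, ?_, ?_⟩
  · intro h v
    rw [hπ, hπ, map_smul, map_sum]
    congr 1
    refine Fintype.sum_equiv (MulAut.conjNormal h : N ≃* N).toEquiv _ _ fun n => ?_
    show ρ h (ρ n.1 v) = ρ (h * n.1 * h⁻¹) (ρ h v)
    rw [rho_conj, rho_conj]
    congr 2
    group
  · intro v m hm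
    rw [hπ, map_smul, map_sum]
    congr 1
    refine Fintype.sum_equiv (Equiv.mulLeft (⟨m, hm⟩ : N)) _ _ fun n => ?_
    show ρ m (ρ n.1 v) = ρ (m * n.1) v
    rw [rho_conj]
  · intro v hv
    rw [hπ, Finset.sum_congr rfl (fun n _ => hv n.1 n.2), Finset.sum_const, Finset.card_univ,
      ← Nat.card_eq_fintype_card, ← Nat.cast_smul_eq_nsmul k, smul_smul, inv_mul_cancel₀ hc, one_smul]

private theorem main (p : ℕ) [Fact p.Prime] [CharP k p] : ∀ (n : ℕ) (H : Type u) [Group H] [Finite H],
    Nat.card H = n → Cfsg.IsPSolvable p H →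
    ∀ (V : Type v) [AddCommGroup V] [Module k V] (ρ : Representation k H V) (a : V) (A : Subgroup H),
      (∀ x ∈ A, ρ x a = a) → A.index.Coprime p →
      Submodule.span k {u : V | ∃ h : H, ρ h a = u} = ⊤ →
      (∃ w : V, ∀ v : V, (∀ h : H, ρ h v = v) → ∃ c : k, v = c • w) ∧
      ∀ (b : V) (B : Subgroup H), (∀ x ∈ B, ρ x b = b) → A.index.Coprime B.index →
        ∀ h : H, ρ h b = b := by
  intro n
  induction n using Nat.strong_induction_on with
  | _ n IH =>
  intro H _ _ hcard hsol V _ _ ρ a A hA hAp hspan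
  have hp' : p.Prime := Fact.out
  by_cases hH : Subsingleton H
  · have hone : ∀ h : H, h = 1 := fun h => Subsingleton.elim _ _
    refine ⟨⟨a, fun v _ => ?_⟩, fun b B _ _ h => ?_⟩
    · have hv : v ∈ Submodule.span k {u : V | ∃ h : H, ρ h a = u} := by rw [hspan]; trivial
      have hS : {u : V | ∃ h : H, ρ h a = u} = {a} := by
        ext u
        constructor
        · rintro ⟨h, rfl⟩
          rw [hone h, map_one]; rfl
        · rintro rfl
          exact ⟨1, by rw [map_one]; rfl⟩
      rw [hS, Submodule.mem_span_singleton] at hv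
      obtain ⟨c, hc⟩ := hv
      exact ⟨c, hc.symm⟩
    · rw [hone h, map_one]; rfl
  haveI : Nontrivial H := not_subsingleton_iff_nontrivial.mp hH
  obtain ⟨N, hNn, hNb, hNtype⟩ := Cfsg.Agent.Lib.Coprime.IsPSolvable_exists_normal hsol
  haveI := hNn
  have hcardQ : Nat.card (H ⧸ N) < n := by
    have h1 : Nat.card (H ⧸ N) * Nat.card N = n := by
      rw [← hcard]
      exact (Subgroup.card_eq_card_quotient_mul_card_subgroup N).symm
    have h2 : 1 < Nat.card N := by
      refine Nat.one_lt_iff_ne_zero_and_ne_one.mpr ⟨Nat.card_pos.ne', ?_⟩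
      intro h
      exact hNb (Subgroup.card_eq_one.mp h)
    have h3 : 0 < Nat.card (H ⧸ N) := Nat.card_pos
    nlinarith
  have hsolQ : Cfsg.IsPSolvable p (H ⧸ N) :=
    Cfsg.Agent.Lib.Coprime.isPSolvable_map (QuotientGroup.mk' N) (QuotientGroup.mk'_surjective N) hsol
  have key : ∀ π : V →ₗ[k] V, (∀ (h : H) (v : V), ρ h (π v) = π (ρ h v)) → (∀ v, π v ∈ fixN ρ N) →
      (∀ v ∈ fixN ρ N, π v = v) →
      (∀ (b : V) (B : Subgroup H), (∀ x ∈ B, ρ x b = b) → A.index.Coprime B.index → b ∈ fixN ρ N) →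
      ((∃ w : V, ∀ v : V, (∀ h : H, ρ h v = v) → ∃ c : k, v = c • w) ∧
      ∀ (b : V) (B : Subgroup H), (∀ x ∈ B, ρ x b = b) → A.index.Coprime B.index →
        ∀ h : H, ρ h b = b) := by
    intro π hπa hπb hπc hπd
    let mk := QuotientGroup.mk' N
    have hmk : Function.Surjective mk := QuotientGroup.mk'_surjective N
    let a₀ : fixN ρ N := ⟨π a, hπb a⟩
    let Abar : Subgroup (H ⧸ N) := A.map mk
    have hAbar : ∀ x ∈ Abar, quotRep ρ N x a₀ = a₀ := by
      rintro _ ⟨h, hh, rfl⟩
      apply Subtype.ext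
      show ρ h (π a) = π a
      rw [hπa, hA h hh]
    have hAd : Abar.index ∣ A.index := Subgroup.index_map_dvd A hmk
    have hspan₀ : Submodule.span k {u : fixN ρ N | ∃ h : H ⧸ N, quotRep ρ N h a₀ = u} = ⊤ := by
      rw [eq_top_iff]
      rintro v₀ -
      let πr : V →ₗ[k] fixN ρ N := π.codRestrict (fixN ρ N) hπb
      have hle : Submodule.span k {u : V | ∃ h : H, ρ h a = u} ≤
          (Submodule.span k {u : fixN ρ N | ∃ h : H ⧸ N, quotRep ρ N h a₀ = u}).comap πr := by
        rw [Submodule.span_le]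
        rintro _ ⟨h, rfl⟩
        refine Submodule.subset_span ⟨(h : H ⧸ N), ?_⟩
        apply Subtype.ext
        show ρ h (π a) = π (ρ h a)
        exact hπa h a
      have h1 : (v₀ : V) ∈ Submodule.span k {u : V | ∃ h : H, ρ h a = u} := by rw [hspan]; trivial
      have h2 := hle h1
      have h3 : πr (v₀ : V) = v₀ := Subtype.ext (hπc _ v₀.2)
      rw [Submodule.mem_comap, h3] at h2
      exact h2
    obtain ⟨⟨w₀, hw₀⟩, h₂⟩ := IH _ hcardQ (H ⧸ N) rfl hsolQ (fixN ρ N) (quotRep ρ N) a₀ Abar hAbar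
      (Nat.Coprime.coprime_dvd_left hAd hAp) hspan₀
    refine ⟨⟨w₀.1, fun v hv => ?_⟩, fun b B hb hAB h => ?_⟩
    · have hvN : v ∈ fixN ρ N := fun n _ => hv n
      obtain ⟨c, hc⟩ := hw₀ ⟨v, hvN⟩ (by
        intro x
        obtain ⟨h, rfl⟩ := hmk x
        apply Subtype.ext
        exact hv h)
      exact ⟨c, congrArg Subtype.val hc⟩
    · have hbN := hπd b B hb hAB
      have hBd : (B.map mk).index ∣ B.index := Subgroup.index_map_dvd B hmk
      have := h₂ ⟨b, hbN⟩ (B.map mk) (by
        rintro _ ⟨x, hx, rfl⟩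
        apply Subtype.ext
        exact hb x hx)
        (Nat.Coprime.coprime_dvd_left hAd (Nat.Coprime.coprime_dvd_right hBd hAB)) (h : H ⧸ N)
      exact congrArg Subtype.val this
  rcases hNtype with hNp | hNc
  · -- `N` is a `p`-group
    have hNA : N ≤ A := by
      have h1 : A.relIndex N ∣ A.index := relIndex_dvd_index_normal A N
      have h2 : A.relIndex N ∣ Nat.card N := Subgroup.relIndex_dvd_card A N
      obtain ⟨m, hm⟩ := IsPGroup.iff_card.mp hNp
      rw [hm] at h2
      have h3 : (A.relIndex N).Coprime p := Nat.Coprime.coprime_dvd_left h1 hAp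
      have h4 : A.relIndex N = 1 :=
        Nat.Coprime.eq_one_of_dvd (Nat.Coprime.pow_right m h3) h2
      exact Subgroup.relIndex_eq_one.mp h4
    have htop : ∀ v : V, v ∈ fixN ρ N := by
      intro v
      have hv : v ∈ Submodule.span k {u : V | ∃ h : H, ρ h a = u} := by rw [hspan]; trivial
      have hle : Submodule.span k {u : V | ∃ h : H, ρ h a = u} ≤ fixN ρ N := by
        rw [Submodule.span_le]
        rintro _ ⟨h, rfl⟩
        exact fixN_stable ρ N h a (fun n hn => hA n (hNA hn))
      exact hle hv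
    exact key LinearMap.id (fun _ _ => rfl) htop (fun _ _ => rfl) (fun b _ _ _ => htop b)
  · -- `N` is a `p'`-group
    have hcN : ((Nat.card N : ℕ) : k) ≠ 0 := by
      intro h
      have h1 := (CharP.cast_eq_zero_iff k p _).mp h
      exact hp'.coprime_iff_not_dvd.mp hNc.symm h1
    obtain ⟨π, h1, h2, h3⟩ := exists_average ρ N hcN
    refine key π h1 h2 h3 fun b B hb hAB => ?_
    refine mem_fixN_of_coprime ρ a b A B N hA hb hAB hspan ?_
    intro h
    have h4 := (CharP.cast_eq_zero_iff k p _).mp h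
    have h5 : Nat.card ↥(N ⊓ B) ∣ Nat.card N := Subgroup.card_dvd_of_le inf_le_left
    exact hp'.coprime_iff_not_dvd.mp hNc.symm (h4.trans h5)

end aux

private def stabOf {k H V : Type*} [Field k] [Group H] [AddCommGroup V] [Module k V]
    (ρ : Representation k H V) (a : V) : Subgroup H where
  carrier := {x | ρ x a = a}
  mul_mem' := by
    intro x y hx hy
    show ρ (x * y) a = a
    rw [map_mul]
    show ρ x (ρ y a) = a
    rw [show ρ y a = a from hy, show ρ x a = a from hx]
  one_mem' := by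
    show ρ 1 a = a
    rw [map_one]; rfl
  inv_mem' := by
    intro x hx
    show ρ x⁻¹ a = a
    have h1 : ρ x a = a := hx
    have h2 : ρ x⁻¹ (ρ x a) = ρ (x⁻¹ * x) a := by rw [map_mul]; rfl
    rw [h1, inv_mul_cancel, map_one] at h2
    exact h2

private theorem card_orbit {k H V : Type*} [Field k] [Group H] [Finite H] [AddCommGroup V] [Module k V]
    (ρ : Representation k H V) (a : V) :
    Nat.card {u : V | ∃ h : H, ρ h a = u} = (stabOf ρ a).index := by
  letI : MulAction H V := MulAction.compHom V (ρ : H →* Module.End k V)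
  have h1 := MulAction.index_stabilizer H a
  have h2 : stabOf ρ a = MulAction.stabilizer H a := by
    ext x
    rfl
  rw [h2, h1]
  exact (Nat.card_coe_set_eq _)


/-- Let k be a field of prime characteristic p, H a finite p-soluble group and ρ a k-linear representation of H on V. Let a be a vector that is fixed by some Sylow p-subgroup of H and whose H-orbit spans V. Then the space of H-fixed vectors has dimension at most 1, and every vector b whose H-orbit has size coprime to the size of the orbit of a is fixed by H. -/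
theorem result {k V H : Type*} [Field k] (p : ℕ) [Fact p.Prime] [CharP k p] [AddCommGroup V] [Module k V]
    [Group H] [Finite H] (hsol : Cfsg.IsPSolvable p H) (ρ : Representation k H V) (a : V)
    (hfix : ∃ P : Sylow p H, ∀ x : H, x ∈ (P : Subgroup H) → ρ x a = a)
    (hspan : Submodule.span k {u : V | ∃ h : H, ρ h a = u} = ⊤) :
    Module.finrank k ρ.invariants ≤ 1 ∧
    ∀ b : V, (Nat.card {u : V | ∃ h : H, ρ h a = u}).Coprime (Nat.card {u : V | ∃ h : H, ρ h b = u}) → ∀ h : H, ρ h b = b := by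
  classical
  obtain ⟨P, hP⟩ := hfix
  have hp' : p.Prime := Fact.out
  have hPA : (P : Subgroup H) ≤ stabOf ρ a := fun x hx => hP x hx
  have hAp : (stabOf ρ a).index.Coprime p := by
    have h1 : (stabOf ρ a).index ∣ (P : Subgroup H).index := Subgroup.index_dvd_of_le hPA
    have h2 : ¬ p ∣ (P : Subgroup H).index := P.not_dvd_index
    exact ((hp'.coprime_iff_not_dvd).mpr (fun h => h2 (h.trans h1))).symm
  obtain ⟨⟨w, hw⟩, h2⟩ := main p _ H rfl hsol V ρ a (stabOf ρ a) (fun x hx => hx) hAp hspan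
  constructor
  · have hle : ρ.invariants ≤ Submodule.span k {w} := by
      intro v hv
      obtain ⟨c, hc⟩ := hw v hv
      rw [hc]
      exact Submodule.smul_mem _ c (Submodule.mem_span_singleton_self w)
    refine (Submodule.finrank_mono hle).trans ?_
    have h5 := finrank_span_le_card (R := k) ({w} : Set V)
    simpa using h5
  · intro b hb h
    rw [card_orbit, card_orbit] at hb
    exact h2 b (stabOf ρ b) (fun x hx => hx) hb h

end Cfsg.Agent.S4176
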