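import Cfsg.Statements.S4177
import Cfsg.Agent.Lib.Basic.Index
import Cfsg.Agent.Lib.PGroups.Count

set_option autoImplicit false
open Cfsg

namespace Cfsg.Agent.S4177

open Cfsg.Agent.Lib.Basic

section avgsec
variable {k V H : Type*} [Field k] [AddCommGroup V] [Module k V] [Group H]

/-- Average over a subgroup. -/
noncomputable def avg (ρ : Representation k H V) (U : Subgroup H) [Fintype U] : V →ₗ[k] V :=
  ((Nat.card U : k)⁻¹) • ∑ l : U, ρ (l : H)

theorem avg_apply (ρ : Representation k H V) (U : Subgroup H) [Fintype U] (v : V) :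
    avg ρ U v = ((Nat.card U : k)⁻¹) • ∑ l : U, ρ (l : H) v := by
  simp [avg, LinearMap.sum_apply]

theorem avg_of_fixed (ρ : Representation k H V) (U : Subgroup H) [Fintype U]
    (hU : (Nat.card U : k) ≠ 0) (v : V) (hv : ∀ l : U, ρ (l : H) v = v) : avg ρ U v = v := by
  rw [avg_apply, Finset.sum_congr rfl (fun l _ => hv l), Finset.sum_const, Finset.card_univ,
    ← Nat.card_eq_fintype_card, ← Nat.cast_smul_eq_nsmul k, smul_smul, inv_mul_cancel₀ hU, one_smul]

theorem avg_mul (ρ : Representation k H V) (U : Subgroup H) [Fintype U] (u : U) (v : V) :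
    avg ρ U (ρ (u : H) v) = avg ρ U v := by
  rw [avg_apply, avg_apply]
  congr 1
  refine Fintype.sum_equiv (Equiv.mulRight u) _ _ ?_
  intro l
  simp [map_mul, Module.End.mul_apply]

theorem avg_fixed (ρ : Representation k H V) (U : Subgroup H) [Fintype U] (u : U) (v : V) :
    ρ (u : H) (avg ρ U v) = avg ρ U v := by
  rw [avg_apply, map_smul, map_sum]
  congr 1
  refine Fintype.sum_equiv (Equiv.mulLeft u) _ _ ?_
  intro l
  simp [map_mul, Module.End.mul_apply]

/-- The average of a vector in the span of the `U`-orbit of `a` is a multiple of the average of `a`. -/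
theorem avg_mem_span (ρ : Representation k H V) (U : Subgroup H) [Fintype U] (a v : V)
    (hv : v ∈ Submodule.span k {u : V | ∃ l : U, ρ (l : H) a = u}) :
    avg ρ U v ∈ Submodule.span k {avg ρ U a} := by
  induction hv using Submodule.span_induction with
  | mem x hx =>
    obtain ⟨l, rfl⟩ := hx
    rw [avg_mul]
    exact Submodule.mem_span_singleton_self _
  | zero => simp
  | add x y _ _ hx hy => rw [map_add]; exact Submodule.add_mem _ hx hy
  | smul c x _ hx => rw [map_smul]; exact Submodule.smul_mem _ c hx

/-- The stabilizer of a vector. -/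
def stab (ρ : Representation k H V) (a : V) : Subgroup H where
  carrier := {h | ρ h a = a}
  one_mem' := by simp
  mul_mem' := by
    intro x y hx hy
    simp only [Set.mem_ofPred_eq] at hx hy ⊢
    rw [map_mul, Module.End.mul_apply, hy, hx]
  inv_mem' := by
    intro x hx
    simp only [Set.mem_ofPred_eq] at hx ⊢
    conv_lhs => rw [← hx]
    rw [← Module.End.mul_apply, ← map_mul, inv_mul_cancel, map_one, Module.End.one_apply]

theorem mem_stab (ρ : Representation k H V) (a : V) (h : H) : h ∈ stab ρ a ↔ ρ h a = a := Iff.rfl

theorem card_orbit_eq_index [Finite H] (ρ : Representation k H V) (a : V) :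
    Nat.card {u : V | ∃ h : H, ρ h a = u} = (stab ρ a).index := by
  let f : H → {u : V | ∃ h : H, ρ h a = u} := fun h => ⟨ρ h a, h, rfl⟩
  have hf : Function.Surjective f := by
    rintro ⟨u, h, rfl⟩
    exact ⟨h, rfl⟩
  have h1 := Cfsg.Agent.Lib.PGroups.card_eq_mul_of_fibers f hf (stab ρ a) (by
    intro x y
    rw [mem_stab]
    constructor
    · intro hxy
      have h2 : ρ x a = ρ y a := congrArg Subtype.val hxy
      rw [map_mul, Module.End.mul_apply, ← h2, ← Module.End.mul_apply, ← map_mul, inv_mul_cancel,
        map_one, Module.End.one_apply]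
    · intro h2
      apply Subtype.ext
      change ρ x a = ρ y a
      rw [map_mul, Module.End.mul_apply] at h2
      conv_lhs => rw [← h2]
      rw [← Module.End.mul_apply, ← map_mul, mul_inv_cancel, map_one, Module.End.one_apply])
  have h2 := (stab ρ a).card_mul_index
  rw [h1, mul_comm] at h2
  have h3 : 0 < Nat.card (stab ρ a) := Nat.card_pos
  exact Nat.eq_of_mul_eq_mul_right h3 h2.symm

end avgsec

/-- Let k be a field whose characteristic does not divide the order of the finite group H (for instance a field of characteristic zero), and ρ a k-linear representation of H on V. Let a be a vector whose H-orbit spans V. Then the space of H-fixed vectors has dimension at most 1, and every vector b whose H-orbit has size coprime to the size of the orbit of a is fixed by H. -/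
theorem result {k V H : Type*} [Field k] [AddCommGroup V] [Module k V] [Group H] [Finite H]
    (hchar : ¬ ringChar k ∣ Nat.card H) (ρ : Representation k H V) (a : V)
    (hspan : Submodule.span k {u : V | ∃ h : H, ρ h a = u} = ⊤) :
    Module.finrank k ρ.invariants ≤ 1 ∧
    ∀ b : V, (Nat.card {u : V | ∃ h : H, ρ h a = u}).Coprime (Nat.card {u : V | ∃ h : H, ρ h b = u}) → ∀ h : H, ρ h b = b := by
  classical
  have := Fintype.ofFinite H
  have hU0 : ∀ U : Subgroup H, (Nat.card U : k) ≠ 0 := by
    intro U h
    apply hchar
    have h1 := (CharP.cast_eq_zero_iff k (ringChar k) _).mp h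
    exact h1.trans (Subgroup.card_subgroup_dvd_card U)
  constructor
  · -- dimension at most one
    have := Fintype.ofFinite (⊤ : Subgroup H)
    have hspan2 : ∀ v : V, v ∈ Submodule.span k {u : V | ∃ l : (⊤ : Subgroup H), ρ (l : H) a = u} := by
      intro v
      have : {u : V | ∃ l : (⊤ : Subgroup H), ρ (l : H) a = u} = {u : V | ∃ h : H, ρ h a = u} := by
        ext u
        constructor
        · rintro ⟨l, rfl⟩; exact ⟨l, rfl⟩
        · rintro ⟨h, rfl⟩; exact ⟨⟨h, trivial⟩, rfl⟩
      rw [this, hspan]; trivial
    have hle : ρ.invariants ≤ Submodule.span k {avg ρ (⊤ : Subgroup H) a} := by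
      intro w hw
      have h1 : avg ρ (⊤ : Subgroup H) w = w := avg_of_fixed ρ _ (hU0 _) w (fun l => hw l)
      rw [← h1]
      exact avg_mem_span ρ _ a w (hspan2 w)
    calc Module.finrank k ρ.invariants ≤ Module.finrank k (Submodule.span k {avg ρ (⊤ : Subgroup H) a}) :=
          Submodule.finrank_mono hle
      _ ≤ 1 := by simpa using finrank_span_le_card (R := k) ({avg ρ (⊤ : Subgroup H) a} : Set V)
  · intro b hcop
    -- stabilizers
    set K := stab ρ a with hK
    set L := stab ρ b with hL
    have := Fintype.ofFinite L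
    rw [card_orbit_eq_index, card_orbit_eq_index, ← hK, ← hL] at hcop
    have hdec : ∀ h : H, ∃ l ∈ L, ∃ c ∈ K, h = l * c := exists_mul_of_index_coprime L K hcop.symm
    have hsetL : {u : V | ∃ l : L, ρ (l : H) a = u} = {u : V | ∃ h : H, ρ h a = u} := by
      ext u
      constructor
      · rintro ⟨l, rfl⟩; exact ⟨l, rfl⟩
      · rintro ⟨h, rfl⟩
        obtain ⟨l, hl, c, hc, rfl⟩ := hdec h
        refine ⟨⟨l, hl⟩, ?_⟩
        rw [map_mul, Module.End.mul_apply, (mem_stab ρ a c).mp hc]
    have hb1 : avg ρ L b = b := avg_of_fixed ρ L (hU0 L) b (fun l => (mem_stab ρ b l).mp l.2)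
    have hb2 : b ∈ Submodule.span k {avg ρ L a} := by
      rw [← hb1]
      apply avg_mem_span
      rw [hsetL, hspan]; trivial
    obtain ⟨c, hc⟩ := Submodule.mem_span_singleton.mp hb2
    -- the orbit sum
    let T : Finset V := Finset.univ.image (fun h : H => ρ h a)
    have hTL : T = Finset.univ.image (fun l : L => ρ (l : H) a) := by
      ext u
      simp only [T, Finset.mem_image, Finset.mem_univ, true_and]
      constructor
      · rintro ⟨h, rfl⟩
        obtain ⟨l, hl, c, hc, rfl⟩ := hdec h
        refine ⟨⟨l, hl⟩, ?_⟩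
        rw [map_mul, Module.End.mul_apply, (mem_stab ρ a c).mp hc]
      · rintro ⟨l, rfl⟩; exact ⟨l, rfl⟩
    let d := (Finset.univ.filter (fun l : L => ρ (l : H) a = a)).card
    have hcount : ∀ u ∈ T, (Finset.univ.filter (fun l : L => ρ (l : H) a = u)).card = d := by
      intro u hu
      rw [hTL] at hu
      simp only [Finset.mem_image, Finset.mem_univ, true_and] at hu
      obtain ⟨l₀, rfl⟩ := hu
      apply Finset.card_bij (fun l _ => l₀⁻¹ * l)
      · intro l hl
        simp only [Finset.mem_filter, Finset.mem_univ, true_and] at hl ⊢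
        simp only [Subgroup.coe_mul, Subgroup.coe_inv, map_mul, Module.End.mul_apply]
        rw [hl, ← Module.End.mul_apply, ← map_mul, inv_mul_cancel, map_one, Module.End.one_apply]
      · intro x _ y _ hxy
        exact mul_left_cancel hxy
      · intro l hl
        simp only [Finset.mem_filter, Finset.mem_univ, true_and] at hl
        refine ⟨l₀ * l, ?_, by group⟩
        simp only [Finset.mem_filter, Finset.mem_univ, true_and]
        simp only [Subgroup.coe_mul, map_mul, Module.End.mul_apply]
        rw [hl]
    have hsum : ∑ l : L, ρ (l : H) a = d • ∑ u ∈ T, u := by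
      have h1 := Finset.sum_comp (s := Finset.univ) (id : V → V) (fun l : L => ρ (l : H) a)
      simp only [id] at h1
      rw [h1, ← hTL, Finset.sum_congr rfl (fun u hu => by rw [hcount u hu]), Finset.smul_sum]
    have hTinv : ∀ h : H, ρ h (∑ u ∈ T, u) = ∑ u ∈ T, u := by
      intro h
      rw [map_sum]
      refine Finset.sum_nbij' (fun u => ρ h u) (fun u => ρ h⁻¹ u) ?_ ?_ ?_ ?_ ?_
      · intro u hu
        simp only [T, Finset.mem_image, Finset.mem_univ, true_and] at hu ⊢
        obtain ⟨x, rfl⟩ := hu
        exact ⟨h * x, by rw [map_mul, Module.End.mul_apply]⟩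
      · intro u hu
        simp only [T, Finset.mem_image, Finset.mem_univ, true_and] at hu ⊢
        obtain ⟨x, rfl⟩ := hu
        exact ⟨h⁻¹ * x, by rw [map_mul, Module.End.mul_apply]⟩
      · intro u _
        rw [← Module.End.mul_apply, ← map_mul, inv_mul_cancel, map_one, Module.End.one_apply]
      · intro u _
        rw [← Module.End.mul_apply, ← map_mul, mul_inv_cancel, map_one, Module.End.one_apply]
      · intro u _
        rfl
    intro h
    rw [← hc, map_smul, avg_apply, map_smul, hsum, map_nsmul, hTinv]

end Cfsg.Agent.S4177
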