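import Cfsg.Statements.S4178

set_option autoImplicit false
open Cfsg

namespace Cfsg.Agent.S4178

private theorem index_add_one_le {H : Type*} [Group H] [Finite H] {X : Type*} [Finite X]
    (S : Subgroup H) (φ : H → X) (x0 : X) (h0 : ∀ h, φ h ≠ x0)
    (hinj : ∀ h h', φ h = φ h' → h'⁻¹ * h ∈ S) : S.index + 1 ≤ Nat.card X := by
  classical
  have : Nat.card (Option (H ⧸ S)) ≤ Nat.card X := by
    refine Nat.card_le_card_of_injective (fun o => match o with
      | none => x0
      | some q => φ q.out) ?_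
    rintro (_ | q) (_ | q') h
    · rfl
    · exact absurd h.symm (h0 _)
    · exact absurd h (h0 _)
    · have h2 := hinj _ _ h
      have h3 : (q'.out : H ⧸ S) = (q.out : H ⧸ S) := QuotientGroup.eq.mpr h2
      rw [QuotientGroup.out_eq', QuotientGroup.out_eq'] at h3
      exact congrArg some h3.symm
  rw [Finite.card_option] at this
  exact this

section
variable {F V : Type*} [Field F] [Fintype F] [AddCommGroup V] [Module F V] [FiniteDimensional F V]

private def stabS (H : Subgroup (V ≃ₗ[F] V)) (W : Submodule F V)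
    (hW : ∀ h ∈ H, ∀ w ∈ W, h w ∈ W) (v : V) : Subgroup H where
  carrier := {h | h.1 v - v ∈ W}
  one_mem' := by simp
  mul_mem' := by
    intro a b ha hb
    have ha' : a.1 v - v ∈ W := ha
    have hb' : b.1 v - v ∈ W := hb
    have h1 := hW a.1 a.2 _ hb'
    show (a * b).1 v - v ∈ W
    have e : (a * b).1 v - v = a.1 (b.1 v - v) + (a.1 v - v) := by
      simp [LinearEquiv.mul_apply]
    rw [e]
    exact W.add_mem h1 ha'
  inv_mem' := by
    intro a ha
    have ha' : a.1 v - v ∈ W := ha
    have h1 := hW a⁻¹.1 a⁻¹.2 _ ha'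
    show (a⁻¹).1 v - v ∈ W
    have e : (a⁻¹).1 v - v = - (a⁻¹).1 (a.1 v - v) := by
      have : (a⁻¹).1 (a.1 v) = v := by
        have h2 : ((a⁻¹ * a : H) : V ≃ₗ[F] V) v = v := by simp
        simpa [LinearEquiv.mul_apply] using h2
      rw [map_sub, this]
      abel
    rw [e]
    exact W.neg_mem h1

private theorem finite_gl : Finite (V ≃ₗ[F] V) := by
  have : Finite V := Module.finite_of_finite F
  exact Finite.of_injective (fun f : V ≃ₗ[F] V => (f : V → V)) DFunLike.coe_injective

private theorem index_le_of_le (H : Subgroup (V ≃ₗ[F] V)) (S : Subgroup H)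
    (hS : ∀ h ∈ S, ∃ v : V, v ≠ 0 ∧ (h : V ≃ₗ[F] V) v = v) :
    (Subgroup.closure {h : ↥H | ∃ v : V, v ≠ 0 ∧ (h : V ≃ₗ[F] V) v = v}).index ≤ S.index := by
  have := finite_gl (F := F) (V := V)
  have hle : S ≤ Subgroup.closure {h : ↥H | ∃ v : V, v ≠ 0 ∧ (h : V ≃ₗ[F] V) v = v} :=
    fun h hh => Subgroup.subset_closure (hS h hh)
  exact Nat.le_of_dvd (Nat.pos_of_ne_zero Subgroup.index_ne_zero_of_finite) (Subgroup.index_dvd_of_le hle)

/-- Orbit of a non-zero vector in an invariant subspace. -/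
private theorem index_le_sub (H : Subgroup (V ≃ₗ[F] V)) (U : Submodule F V)
    (hU : ∀ h ∈ H, ∀ w ∈ U, h w ∈ U) {v : V} (hv : v ∈ U) (hv0 : v ≠ 0) :
    (Subgroup.closure {h : ↥H | ∃ v : V, v ≠ 0 ∧ (h : V ≃ₗ[F] V) v = v}).index + 1 ≤
      Fintype.card F ^ Module.finrank F U := by
  classical
  have := finite_gl (F := F) (V := V)
  have hbot : ∀ h ∈ H, ∀ w ∈ (⊥ : Submodule F V), h w ∈ (⊥ : Submodule F V) := by
    intro h _ w hw
    rw [Submodule.mem_bot] at hw ⊢
    simp [hw]
  let S := stabS H ⊥ hbot v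
  have hS : ∀ h ∈ S, ∃ v : V, v ≠ 0 ∧ (h : V ≃ₗ[F] V) v = v := by
    intro h hh
    have h1 : h.1 v - v ∈ (⊥ : Submodule F V) := hh
    rw [Submodule.mem_bot, sub_eq_zero] at h1
    exact ⟨v, hv0, h1⟩
  have h1 := index_le_of_le H S hS
  have : Finite U := Module.finite_of_finite F
  have h2 : S.index + 1 ≤ Nat.card U := by
    refine index_add_one_le S (fun h => (⟨h.1 v, hU h.1 h.2 v hv⟩ : U)) 0 ?_ ?_
    · intro h he
      have h3 : h.1 v = 0 := congrArg Subtype.val he
      rw [map_eq_zero_iff _ h.1.injective] at h3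
      exact hv0 h3
    · intro h h' he
      have h3 : h.1 v = h'.1 v := congrArg Subtype.val he
      show (h'⁻¹ * h).1 v - v ∈ (⊥ : Submodule F V)
      rw [Submodule.mem_bot, sub_eq_zero]
      have h4 : ((h'⁻¹ * h' : H) : V ≃ₗ[F] V) v = v := by simp
      simp only [Subgroup.coe_mul, LinearEquiv.mul_apply] at h4 ⊢
      rw [h3]
      exact h4
  have h3 : Nat.card U = Fintype.card F ^ Module.finrank F U := by
    rw [← Nat.card_eq_fintype_card]; exact Module.natCard_eq_pow_finrank
  omega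

/-- Orbit of a non-zero vector in a quotient by an invariant subspace. -/
private theorem index_le_quot (H : Subgroup (V ≃ₗ[F] V)) (W : Submodule F V)
    (hW : ∀ h ∈ H, ∀ w ∈ W, h w ∈ W) (hWtop : W ≠ ⊤) :
    (Subgroup.closure {h : ↥H | ∃ v : V, v ≠ 0 ∧ (h : V ≃ₗ[F] V) v = v}).index + 1 ≤
      Fintype.card F ^ Module.finrank F (V ⧸ W) := by
  classical
  have := finite_gl (F := F) (V := V)
  obtain ⟨v, hvW⟩ : ∃ v, v ∉ W := by
    by_contra h
    push Not at h
    exact hWtop (Submodule.eq_top_iff'.mpr h)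
  let S := stabS H W hW v
  have hS : ∀ h ∈ S, ∃ v : V, v ≠ 0 ∧ (h : V ≃ₗ[F] V) v = v := by
    intro h hh
    have h1 : h.1 v - v ∈ W := hh
    by_contra hcon
    push Not at hcon
    -- T = h - 1 is injective
    let T : V →ₗ[F] V := (h.1 : V →ₗ[F] V) - LinearMap.id
    have hTinj : Function.Injective T := by
      rw [injective_iff_map_eq_zero]
      intro x hx
      by_contra hx0
      refine hcon x hx0 ?_
      have : h.1 x - x = 0 := hx
      exact sub_eq_zero.mp this
    -- T restricts to W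
    have hTW : ∀ w ∈ W, T w ∈ W := by
      intro w hw
      exact W.sub_mem (hW h.1 h.2 w hw) hw
    let TW : W →ₗ[F] W := T.restrict hTW
    have hTWinj : Function.Injective TW := by
      intro a b hab
      apply Subtype.ext
      apply hTinj
      exact congrArg Subtype.val hab
    have hTWsurj : Function.Surjective TW := LinearMap.injective_iff_surjective.mp hTWinj
    obtain ⟨w, hw⟩ := hTWsurj ⟨h.1 v - v, h1⟩
    have h2 : T w.1 = T v := congrArg Subtype.val hw
    have h3 := hTinj h2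
    exact hvW (h3 ▸ w.2)
  have h1 := index_le_of_le H S hS
  have : Finite V := Module.finite_of_finite F
  have : Finite (V ⧸ W) := Module.finite_of_finite F
  have hinv : ∀ h ∈ H, ∀ x, h x ∈ W → x ∈ W := by
    intro h hh x hx
    have h3 := hW h⁻¹ (H.inv_mem hh) _ hx
    have h4 : h⁻¹ (h x) = x := by
      have h5 : ((h⁻¹ * h : V ≃ₗ[F] V)) x = x := by simp
      simpa [LinearEquiv.mul_apply] using h5
    rwa [h4] at h3
  have h2 : S.index + 1 ≤ Nat.card (V ⧸ W) := by
    refine index_add_one_le S (fun h => (Submodule.Quotient.mk (h.1 v) : V ⧸ W)) 0 ?_ ?_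
    · intro h he
      have h3 : h.1 v ∈ W := (Submodule.Quotient.mk_eq_zero W).mp he
      exact hvW (hinv h.1 h.2 v h3)
    · intro h h' he
      have h3 : h.1 v - h'.1 v ∈ W := (Submodule.Quotient.eq W).mp he
      show (h'⁻¹ * h).1 v - v ∈ W
      apply hinv h'.1 h'.2
      have h4 : h'.1 ((h'⁻¹ * h).1 v - v) = h.1 v - h'.1 v := by
        have h5 : ((h' * (h'⁻¹ * h) : H) : V ≃ₗ[F] V) v = h.1 v := by
          simp
        simp only [Subgroup.coe_mul, LinearEquiv.mul_apply] at h5
        simp only [map_sub, Subgroup.coe_mul, LinearEquiv.mul_apply]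
        rw [h5]
      rw [h4]
      exact h3
  have h3 : Nat.card (V ⧸ W) = Fintype.card F ^ Module.finrank F (V ⧸ W) := by
    rw [← Nat.card_eq_fintype_card]; exact Module.natCard_eq_pow_finrank
  omega

end


/-- Let F be a finite field with q elements, V a non-zero finite-dimensional F-space of dimension d, H a group of invertible linear maps of V, and R the subgroup of H generated by the elements of H that fix some non-zero vector (have eigenvalue 1). Then the index of R in H is at most q^d − 1; and if H leaves invariant some proper non-zero subspace, the index is at most q^(d/2) − 1. -/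
theorem result {F V : Type*} [Field F] [Fintype F] [AddCommGroup V] [Module F V] [FiniteDimensional F V] [Nontrivial V]
    (H : Subgroup (V ≃ₗ[F] V)) :
    (Subgroup.closure {h : ↥H | ∃ v : V, v ≠ 0 ∧ (h : V ≃ₗ[F] V) v = v}).index ≤ Fintype.card F ^ Module.finrank F V - 1 ∧
    ((∃ W : Submodule F V, W ≠ ⊥ ∧ W ≠ ⊤ ∧ ∀ h ∈ H, ∀ w ∈ W, h w ∈ W) →
      ((Subgroup.closure {h : ↥H | ∃ v : V, v ≠ 0 ∧ (h : V ≃ₗ[F] V) v = v}).index : ℝ) ≤ Real.sqrt ((Fintype.card F : ℝ) ^ Module.finrank F V) - 1) := by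
  classical
  have hq : 2 ≤ Fintype.card F := Fintype.one_lt_card
  refine ⟨?_, ?_⟩
  · obtain ⟨v, hv⟩ := exists_ne (0 : V)
    have h := index_le_sub H ⊤ (by simp) (Submodule.mem_top (x := v)) hv
    rw [finrank_top] at h
    omega
  · rintro ⟨W, hbot, htop, hW⟩
    have hfr := Submodule.finrank_quotient_add_finrank W
    set d := Module.finrank F V with hd
    have hq' : (1 : ℝ) ≤ (Fintype.card F : ℝ) := by
      exact_mod_cast (by omega : 1 ≤ Fintype.card F)
    have key : ∀ m : ℕ, 2 * m ≤ d → (Subgroup.closure {h : ↥H | ∃ v : V, v ≠ 0 ∧ (h : V ≃ₗ[F] V) v = v}).index + 1 ≤ Fintype.card F ^ m →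
        ((Subgroup.closure {h : ↥H | ∃ v : V, v ≠ 0 ∧ (h : V ≃ₗ[F] V) v = v}).index : ℝ) ≤ Real.sqrt ((Fintype.card F : ℝ) ^ d) - 1 := by
      intro m hm hi
      have h1 : ((Subgroup.closure {h : ↥H | ∃ v : V, v ≠ 0 ∧ (h : V ≃ₗ[F] V) v = v}).index : ℝ) + 1 ≤ (Fintype.card F : ℝ) ^ m := by
        exact_mod_cast hi
      have h2 : (Fintype.card F : ℝ) ^ m ≤ Real.sqrt ((Fintype.card F : ℝ) ^ d) := by
        apply Real.le_sqrt_of_sq_le
        rw [← pow_mul]
        exact pow_le_pow_right₀ hq' (by omega)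
      linarith
    by_cases hcase : 2 * Module.finrank F W ≤ d
    · obtain ⟨v, hv, hv0⟩ := Submodule.exists_mem_ne_zero_of_ne_bot hbot
      exact key _ hcase (index_le_sub H W hW hv hv0)
    · exact key (Module.finrank F (V ⧸ W)) (by omega) (index_le_quot H W hW htop)

end Cfsg.Agent.S4178
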