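import Cfsg.Statements.S4186
import Mathlib

set_option autoImplicit false
open Cfsg

namespace Cfsg.Agent.S4186


/-- Let T and X be subgroups of a group with T a finite 2-group normalizing X but not centralizing it. Then some element of T inverts some non-identity element of X under conjugation. -/
theorem result {G : Type*} [Group G] (T X : Subgroup G) [Finite ↥T] (hT : IsPGroup 2 ↥T) (hTN : T ≤ Subgroup.normalizer (X : Set G)) (hTC : ¬ T ≤ Subgroup.centralizer (X : Set G)) : ∃ t ∈ T, ∃ x ∈ X, x ≠ 1 ∧ t * x * t⁻¹ = x⁻¹ := by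
  classical
  -- a moved element
  have h1 : ∃ t ∈ T, ∃ x ∈ X, t * x * t⁻¹ ≠ x := by
    by_contra hcon
    push Not at hcon
    apply hTC
    intro t ht
    rw [Subgroup.mem_centralizer_iff]
    intro x hx
    have := hcon t ht x hx
    exact (mul_inv_eq_iff_eq_mul.mp this).symm
  obtain ⟨t₀, ht₀, x, hx, hmove⟩ := h1
  obtain ⟨k, hk⟩ := hT ⟨t₀, ht₀⟩
  have hk' : t₀ ^ 2 ^ k = 1 := by simpa [Subtype.ext_iff] using hk
  -- find the last power moving x
  have h2 : ∃ j, t₀ ^ 2 ^ j * x * (t₀ ^ 2 ^ j)⁻¹ ≠ x ∧ t₀ ^ 2 ^ (j + 1) * x * (t₀ ^ 2 ^ (j + 1))⁻¹ = x := by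
    by_contra hcon
    push Not at hcon
    have h3 : ∀ j, t₀ ^ 2 ^ j * x * (t₀ ^ 2 ^ j)⁻¹ ≠ x := by
      intro j
      induction j with
      | zero => simpa using hmove
      | succ j ih => exact hcon j ih
    apply h3 k
    rw [hk']; simp
  obtain ⟨j, hj1, hj2⟩ := h2
  set s := t₀ ^ 2 ^ j with hs
  have hsT : s ∈ T := pow_mem ht₀ _
  have hss : t₀ ^ 2 ^ (j + 1) = s * s := by
    rw [pow_succ, pow_mul, pow_two]
  rw [hss] at hj2
  have hsx : s * x * s⁻¹ ∈ X := (Subgroup.mem_normalizer_iff.mp (hTN hsT) x).mp hx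
  refine ⟨s, hsT, x⁻¹ * (s * x * s⁻¹), X.mul_mem (X.inv_mem hx) hsx, ?_, ?_⟩
  · intro h
    apply hj1
    exact (inv_mul_eq_one.mp h).symm
  · have h4 : s * (s * x * s⁻¹) * s⁻¹ = x := by
      have : s * (s * x * s⁻¹) * s⁻¹ = s * s * x * (s * s)⁻¹ := by group
      rw [this]; exact hj2
    calc s * (x⁻¹ * (s * x * s⁻¹)) * s⁻¹ = (s * x⁻¹ * s⁻¹) * (s * (s * x * s⁻¹) * s⁻¹) := by group
      _ = (s * x⁻¹ * s⁻¹) * x := by rw [h4]
      _ = (x⁻¹ * (s * x * s⁻¹))⁻¹ := by group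

end Cfsg.Agent.S4186
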