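import Cfsg.Statements.S4188
import Mathlib
import Cfsg.Agent.Lib.PGroups.SignAction
import Cfsg.Agent.Lib.OddLocal.UniqueP
import Cfsg.Agent.Lib.Basic.Nilpotent
import Cfsg.Agent.Lib.Basic.CoprimeAction2

set_option autoImplicit false
open Cfsg

namespace Cfsg.Agent.S4188

section Helpers

universe u v

theorem rank_le_quot_add {P : Type u} [Group P] [Finite P] (K : Subgroup P) [K.Normal] :
    Group.rank P ≤ Group.rank (P ⧸ K) + Group.rank K := by
  classical
  obtain ⟨S, hS, hSc⟩ := Group.rank_spec K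
  obtain ⟨T, hT, hTc⟩ := Group.rank_spec (P ⧸ K)
  let U : Finset P := S.image (fun k : K => (k : P)) ∪ T.image Quotient.out
  have hU : Subgroup.closure (U : Set P) = ⊤ := by
    set H := Subgroup.closure (U : Set P) with hH
    have hK : K ≤ H := by
      intro k hk
      have h1 : (⟨k, hk⟩ : K) ∈ Subgroup.closure (S : Set K) := by rw [hSc]; trivial
      have h2 : ∀ y ∈ Subgroup.closure (S : Set K), (y : P) ∈ H := by
        intro y hy
        induction hy using Subgroup.closure_induction with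
        | mem x hx =>
          apply Subgroup.subset_closure
          simp only [U, Finset.coe_union, Finset.coe_image, Set.mem_union, Set.mem_image, Finset.mem_coe]
          exact Or.inl ⟨x, hx, rfl⟩
        | one => exact H.one_mem
        | mul x y _ _ hx hy => exact H.mul_mem hx hy
        | inv x _ hx => exact H.inv_mem hx
      exact h2 _ h1
    have hm : ∀ y ∈ Subgroup.closure (T : Set (P ⧸ K)), y ∈ H.map (QuotientGroup.mk' K) := by
      intro y hy
      induction hy using Subgroup.closure_induction with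
      | mem x hx =>
        refine ⟨Quotient.out x, ?_, Quotient.out_eq x⟩
        apply Subgroup.subset_closure
        simp only [U, Finset.coe_union, Finset.coe_image, Set.mem_union, Set.mem_image, Finset.mem_coe]
        exact Or.inr ⟨x, hx, rfl⟩
      | one => exact Subgroup.one_mem _
      | mul x y _ _ hx hy => exact Subgroup.mul_mem _ hx hy
      | inv x _ hx => exact Subgroup.inv_mem _ hx
    rw [eq_top_iff]
    intro x _
    have h1 : (x : P ⧸ K) ∈ H.map (QuotientGroup.mk' K) := hm _ (by rw [hTc]; trivial)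
    obtain ⟨h, hh, hhx⟩ := h1
    have h2 : h⁻¹ * x ∈ K := by
      rw [← QuotientGroup.eq]
      exact hhx
    have h3 : x = h * (h⁻¹ * x) := by group
    rw [h3]
    exact H.mul_mem hh (hK h2)
  calc Group.rank P ≤ U.card := Group.rank_le hU
    _ ≤ (S.image (fun k : K => (k : P))).card + (T.image Quotient.out).card := Finset.card_union_le _ _
    _ ≤ S.card + T.card := Nat.add_le_add Finset.card_image_le Finset.card_image_le
    _ = _ := by rw [hS, hT, Nat.add_comm]

theorem rank_le_succ {P : Type u} [Group P] [Finite P] (Q : Subgroup P) (x : P)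
    (h : ∀ g, g ∈ Q ∨ x⁻¹ * g ∈ Q) : Group.rank P ≤ Group.rank Q + 1 := by
  classical
  obtain ⟨S, hS, hSc⟩ := Group.rank_spec Q
  let U : Finset P := S.image (fun k : Q => (k : P)) ∪ {x}
  have hU : Subgroup.closure (U : Set P) = ⊤ := by
    set H := Subgroup.closure (U : Set P) with hH
    have hx : x ∈ H := by
      apply Subgroup.subset_closure
      simp [U]
    have hK : Q ≤ H := by
      intro k hk
      have h1 : (⟨k, hk⟩ : Q) ∈ Subgroup.closure (S : Set Q) := by rw [hSc]; trivial
      have h2 : ∀ y ∈ Subgroup.closure (S : Set Q), (y : P) ∈ H := by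
        intro y hy
        induction hy using Subgroup.closure_induction with
        | mem x hx =>
          apply Subgroup.subset_closure
          simp only [U, Finset.coe_union, Finset.coe_image, Set.mem_union, Set.mem_image, Finset.mem_coe]
          exact Or.inl ⟨x, hx, rfl⟩
        | one => exact H.one_mem
        | mul x y _ _ hx hy => exact H.mul_mem hx hy
        | inv x _ hx => exact H.inv_mem hx
      exact h2 _ h1
    rw [eq_top_iff]
    intro g _
    rcases h g with hg | hg
    · exact hK hg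
    · have h3 : g = x * (x⁻¹ * g) := by group
      rw [h3]
      exact H.mul_mem hx (hK hg)
  calc Group.rank P ≤ U.card := Group.rank_le hU
    _ ≤ (S.image (fun k : Q => (k : P))).card + ({x} : Finset P).card := Finset.card_union_le _ _
    _ ≤ S.card + 1 := Nat.add_le_add Finset.card_image_le (by simp)
    _ = _ := by rw [hS]

theorem card_hom_le {P : Type u} [Group P] [Finite P] :
    Nat.card (P →* ℤˣ) ≤ 2 ^ Group.rank P := by
  classical
  obtain ⟨S, hS, hSc⟩ := Group.rank_spec P
  let f : (P →* ℤˣ) → (S → ℤˣ) := fun φ s => φ s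
  have hf : Function.Injective f := by
    intro φ ψ h
    apply MonoidHom.eq_of_eqOn_dense hSc
    intro s hs
    exact congrFun h ⟨s, hs⟩
  have h1 : Nat.card (P →* ℤˣ) ≤ Nat.card (S → ℤˣ) := Nat.card_le_card_of_injective f hf
  have h2 : Nat.card (S → ℤˣ) = 2 ^ S.card := by
    rw [Nat.card_fun, Nat.card_eq_fintype_card (α := ℤˣ), Fintype.card_units_int, Nat.card_eq_fintype_card,
      Fintype.card_coe]
  rw [h2, hS] at h1
  exact h1

theorem index_frattini_le {P : Type u} [Group P] [Finite P] (hP : IsPGroup 2 P) :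
    (frattini P).index ≤ 2 ^ Group.rank P := by
  rw [Subgroup.index]
  letI := Fintype.ofFinite P
  exact (Cfsg.Agent.Lib.PGroups.card_frattini_quot_le hP).trans card_hom_le

/-- restriction of an automorphism action to an invariant subgroup -/
noncomputable def resHom {P : Type u} [Group P] {V : Type v} [Group V] (ρ : P →* MulAut V) (W : Subgroup V)
    (hW : ∀ g, ∀ v ∈ W, ρ g v ∈ W) : P →* MulAut W :=
  MonoidHom.mk' (fun g =>
    { toFun := fun w => ⟨ρ g w, hW g w w.2⟩
      invFun := fun w => ⟨ρ g⁻¹ w, hW g⁻¹ w w.2⟩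
      left_inv := fun w => by
        apply Subtype.ext
        change ρ g⁻¹ (ρ g (w : V)) = w
        rw [← MulAut.mul_apply, ← map_mul]; simp
      right_inv := fun w => by
        apply Subtype.ext
        change ρ g (ρ g⁻¹ (w : V)) = w
        rw [← MulAut.mul_apply, ← map_mul]; simp
      map_mul' := fun a b => by
        apply Subtype.ext
        change ρ g ((a : V) * b) = ρ g a * ρ g b
        rw [map_mul] })
    (fun a b => by
      ext w
      change ρ (a * b) (w : V) = ρ a (ρ b w)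
      rw [map_mul, MulAut.mul_apply])

theorem resHom_apply {P : Type u} [Group P] {V : Type v} [Group V] (ρ : P →* MulAut V) (W : Subgroup V)
    (hW : ∀ g, ∀ v ∈ W, ρ g v ∈ W) (g : P) (w : W) : ((resHom ρ W hW g w : W) : V) = ρ g w := rfl

theorem rank_le_of_split {V : Type v} [Group V] {P : Type u} [Group P] [Finite P] (hP : IsPGroup 2 P)
    (ρ : P →* MulAut V) (hρ : Function.Injective ρ) (W₁ W₂ : Subgroup V)
    (h₁ : ∀ g, ∀ v ∈ W₁, ρ g v ∈ W₁) (h₂ : ∀ g, ∀ v ∈ W₂, ρ g v ∈ W₂) (hsup : W₁ ⊔ W₂ = ⊤) (a b : ℕ)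
    (ih₁ : ∀ (P' : Type u) [Group P'] [Finite P'], IsPGroup 2 P' → ∀ ρ' : P' →* MulAut W₁,
      Function.Injective ρ' → Group.rank P' ≤ a)
    (ih₂ : ∀ (P' : Type u) [Group P'] [Finite P'], IsPGroup 2 P' → ∀ ρ' : P' →* MulAut W₂,
      Function.Injective ρ' → Group.rank P' ≤ b) : Group.rank P ≤ a + b := by
  let K := (resHom ρ W₁ h₁).ker
  have h3 := rank_le_quot_add K
  have h4 : Group.rank (P ⧸ K) ≤ a :=
    ih₁ _ (hP.to_quotient K) (QuotientGroup.kerLift (resHom ρ W₁ h₁)) (QuotientGroup.kerLift_injective _)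
  have h5 : Group.rank K ≤ b := by
    refine ih₂ _ (hP.to_subgroup K) ((resHom ρ W₂ h₂).comp K.subtype) ?_
    rw [injective_iff_map_eq_one]
    intro k hk
    apply Subtype.ext
    apply hρ
    rw [OneMemClass.coe_one, map_one]
    ext v
    have hv : v ∈ W₁ ⊔ W₂ := by rw [hsup]; trivial
    have key : W₁ ⊔ W₂ ≤ (MonoidHom.eqLocus (ρ k).toMonoidHom (MonoidHom.id V)) := by
      apply sup_le
      · intro w hw
        have h6 : (resHom ρ W₁ h₁) k = 1 := k.2
        have h7 := congrArg (fun f : MulAut W₁ => ((f ⟨w, hw⟩ : W₁) : V)) h6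
        exact h7
      · intro w hw
        have h7 := congrArg (fun f : MulAut W₂ => ((f ⟨w, hw⟩ : W₂) : V)) hk
        exact h7
    exact key hv
  omega

section Invol
variable {V : Type v} [CommGroup V]

def plusS (σ : MulAut V) : Subgroup V where
  carrier := {v | σ v = v}
  mul_mem' := fun {a b} ha hb => by
    simp only [Set.mem_setOf_eq] at *
    rw [map_mul, ha, hb]
  one_mem' := map_one σ
  inv_mem' := fun {a} ha => by
    simp only [Set.mem_setOf_eq] at *
    rw [map_inv, ha]

def minusS (σ : MulAut V) : Subgroup V where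
  carrier := {v | σ v = v⁻¹}
  mul_mem' := fun {a b} ha hb => by
    simp only [Set.mem_setOf_eq] at *
    rw [map_mul, ha, hb, mul_inv]
  one_mem' := by simp
  inv_mem' := fun {a} ha => by
    simp only [Set.mem_setOf_eq] at *
    rw [map_inv, ha]

theorem mem_plusS {σ : MulAut V} {v : V} : v ∈ plusS σ ↔ σ v = v := Iff.rfl
theorem mem_minusS {σ : MulAut V} {v : V} : v ∈ minusS σ ↔ σ v = v⁻¹ := Iff.rfl

theorem plus_sup_minus {p : ℕ} (hodd : Odd p) (hV : ∀ v : V, v ^ p = 1) (σ : MulAut V)
    (hσ : σ * σ = 1) : plusS σ ⊔ minusS σ = ⊤ := by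
  rw [eq_top_iff]
  intro v _
  obtain ⟨m, hm⟩ := hodd
  set u := v ^ (m + 1) with hu
  have huu : u * u = v := by
    rw [hu, ← pow_add]
    have : m + 1 + (m + 1) = p + 1 := by omega
    rw [this, pow_succ, hV, one_mul]
  have hss : ∀ w, σ (σ w) = w := fun w => by
    have := congrArg (fun f : MulAut V => f w) hσ
    simpa using this
  rw [Subgroup.mem_sup]
  refine ⟨u * σ u, ?_, u * (σ u)⁻¹, ?_, ?_⟩
  · rw [mem_plusS, map_mul, hss, mul_comm]
  · rw [mem_minusS, map_mul, map_inv, hss, mul_inv, inv_inv, mul_comm]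
  · calc u * σ u * (u * (σ u)⁻¹) = u * u * (σ u * (σ u)⁻¹) := by
          rw [mul_mul_mul_comm]
      _ = v := by rw [mul_inv_cancel, mul_one, huu]

theorem plus_inf_minus {p : ℕ} (hodd : Odd p) (hV : ∀ v : V, v ^ p = 1) (σ : MulAut V) :
    plusS σ ⊓ minusS σ = ⊥ := by
  rw [eq_bot_iff]
  intro v hv
  obtain ⟨h1, h2⟩ := Subgroup.mem_inf.mp hv
  rw [mem_plusS] at h1
  rw [mem_minusS] at h2
  rw [h1] at h2
  obtain ⟨m, hm⟩ := hodd
  have h3 : v * v = 1 := by
    nth_rw 1 [h2]
    simp
  have h4 : v ^ p = v := by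
    rw [hm, pow_succ, pow_mul, pow_two, h3, one_pow, one_mul]
  rw [Subgroup.mem_bot, ← h4, hV]

open scoped Pointwise in
theorem card_plus_minus [Finite V] {p : ℕ} (hodd : Odd p) (hV : ∀ v : V, v ^ p = 1) (σ : MulAut V)
    (hσ : σ * σ = 1) : Nat.card (plusS σ) * Nat.card (minusS σ) = Nat.card V := by
  have h1 : Disjoint (plusS σ) (minusS σ) := by
    rw [disjoint_iff]
    exact plus_inf_minus hodd hV σ
  have h2 : (plusS σ : Set V) * (minusS σ : Set V) = Set.univ := by
    rw [← Subgroup.mul_normal, plus_sup_minus hodd hV σ hσ]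
    rfl
  exact (Subgroup.isComplement'_of_disjoint_and_mul_eq_univ h1 h2).card_mul_card

end Invol

def RankBd.{w, x} (p m c : ℕ) : Prop :=
  ∀ (V : Type w) [CommGroup V] [Finite V], (∀ v : V, v ^ p = 1) → Nat.card V = p ^ m →
    ∀ (P : Type x) [Group P] [Finite P], IsPGroup 2 P → ∀ ρ : P →* MulAut V,
      Function.Injective ρ → Group.rank P ≤ c

def Bd (p n : ℕ) : ℕ := if p = 3 then (if n ≤ 1 then 1 else (3 * n - 2) / 2) else 2 * n - 1

theorem Bd_add (p a b : ℕ) (ha : 1 ≤ a) (hb : 1 ≤ b) : Bd p a + Bd p b ≤ Bd p (a + b) := by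
  unfold Bd
  split_ifs <;> omega

theorem Bd_double (p a : ℕ) (ha : 1 ≤ a) (h : p = 3 → 2 ≤ a) : 2 * Bd p a + 1 ≤ Bd p (2 * a) := by
  unfold Bd
  split_ifs <;> omega

theorem Bd_three (p n : ℕ) (hn : 2 ≤ n) (h : p = 3 → 3 ≤ n) : 3 ≤ Bd p n := by
  unfold Bd
  split_ifs <;> omega

theorem pow_Bd_le (p n : ℕ) (hp : p.Prime) (hp2 : p ≠ 2) (hn : 1 ≤ n) : 2 ^ Bd p n ≤ p ^ n - 1 := by
  have h5 : ∀ m : ℕ, 2 ^ (2 * m + 1) + 1 ≤ 5 ^ (m + 1) := by
    intro m
    induction m with
    | zero => norm_num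
    | succ k ih =>
      have h1 : 2 ^ (2 * (k + 1) + 1) = 4 * 2 ^ (2 * k + 1) := by ring
      have h2 : 5 ^ (k + 1 + 1) = 5 * 5 ^ (k + 1) := by ring
      omega
  have h3 : ∀ m : ℕ, 2 ^ ((3 * (m + 2) - 2) / 2) + 1 ≤ 3 ^ (m + 2) := by
    intro m
    induction m using Nat.strong_induction_on with
    | _ m ih =>
      match m with
      | 0 => norm_num
      | 1 => norm_num
      | k + 2 =>
        have h0 := ih k (by omega)
        have h1 : (3 * (k + 2 + 2) - 2) / 2 = (3 * (k + 2) - 2) / 2 + 3 := by omega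
        rw [h1, pow_add]
        have h2 : 3 ^ (k + 2 + 2) = 9 * 3 ^ (k + 2) := by ring
        omega
  by_cases h : p = 3
  · subst h
    obtain ⟨m, rfl⟩ : ∃ m, n = m + 1 := ⟨n - 1, by omega⟩
    rcases m with _ | m
    · simp [Bd]
    · have := h3 m
      have h6 : Bd 3 (m + 1 + 1) = (3 * (m + 2) - 2) / 2 := by
        simp [Bd]
      rw [h6]
      have h7 : m + 1 + 1 = m + 2 := rfl
      rw [h7]
      omega
  · have h5p : 5 ≤ p := by
      have := hp.two_le
      have hodd : p ≠ 4 := by
        rintro rfl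
        norm_num at hp
      omega
    obtain ⟨m, rfl⟩ : ∃ m, n = m + 1 := ⟨n - 1, by omega⟩
    have h6 : Bd p (m + 1) = 2 * m + 1 := by
      simp [Bd, h]
      omega
    rw [h6]
    have h7 := h5 m
    have h8 : 5 ^ (m + 1) ≤ p ^ (m + 1) := Nat.pow_le_pow_left h5p _
    omega

theorem card_split {V : Type v} [Group V] [Finite V] {p n : ℕ} (hp : p.Prime) (hcard : Nat.card V = p ^ n)
    (W₁ W₂ : Subgroup V) (h : Nat.card W₁ * Nat.card W₂ = Nat.card V) :
    ∃ a b, Nat.card W₁ = p ^ a ∧ Nat.card W₂ = p ^ b ∧ a + b = n := by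
  haveI : Fact p.Prime := ⟨hp⟩
  have hVp : IsPGroup p V := IsPGroup.of_card hcard
  obtain ⟨a, ha⟩ := IsPGroup.iff_card.mp (hVp.to_subgroup W₁)
  obtain ⟨b, hb⟩ := IsPGroup.iff_card.mp (hVp.to_subgroup W₂)
  refine ⟨a, b, ha, hb, ?_⟩
  rw [ha, hb, hcard, ← pow_add] at h
  exact Nat.pow_right_injective hp.two_le h

theorem exp_sub {V : Type v} [CommGroup V] {p : ℕ} (hV : ∀ v : V, v ^ p = 1) (W : Subgroup V) :
    ∀ w : W, w ^ p = 1 := fun w => Subtype.ext (by simp [hV])

theorem central_split.{w, x} {p n : ℕ} (hp : p.Prime) (hp2 : p ≠ 2)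
    (ih : ∀ m, 1 ≤ m → m < n → RankBd.{w, x} p m (Bd p m))
    (V : Type w) [CommGroup V] [Finite V] (hV : ∀ v : V, v ^ p = 1) (hcard : Nat.card V = p ^ n)
    (P : Type x) [Group P] [Finite P] (hP : IsPGroup 2 P) (ρ : P →* MulAut V)
    (hρ : Function.Injective ρ) (t : P) (ht : t ≠ 1) (ht2 : t * t = 1) (hc : ∀ g, g * t = t * g)
    (hplus : plusS (ρ t) ≠ ⊥) : Group.rank P ≤ Bd p n := by
  have hodd : Odd p := hp.odd_of_ne_two hp2
  have hσ : ρ t * ρ t = 1 := by rw [← map_mul, ht2, map_one]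
  have hsup := plus_sup_minus hodd hV (ρ t) hσ
  have hmul := card_plus_minus hodd hV (ρ t) hσ
  obtain ⟨a, b, ha, hb, hab⟩ := card_split hp hcard _ _ hmul
  have hcomm : ∀ g v, ρ t (ρ g v) = ρ g (ρ t v) := fun g v => by
    rw [← MulAut.mul_apply, ← map_mul, ← hc, map_mul, MulAut.mul_apply]
  have h₁ : ∀ g, ∀ v ∈ plusS (ρ t), ρ g v ∈ plusS (ρ t) := fun g v hv => by
    rw [mem_plusS] at hv ⊢
    rw [hcomm, hv]
  have h₂ : ∀ g, ∀ v ∈ minusS (ρ t), ρ g v ∈ minusS (ρ t) := fun g v hv => by
    rw [mem_minusS] at hv ⊢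
    rw [hcomm, hv, map_inv]
  have ha1 : 1 ≤ a := by
    by_contra hlt
    have : a = 0 := by omega
    subst this
    apply hplus
    rw [pow_zero] at ha
    exact Subgroup.eq_bot_of_card_eq _ ha
  have hb1 : 1 ≤ b := by
    by_contra hlt
    have : b = 0 := by omega
    subst this
    rw [pow_zero] at hb
    have hbot := Subgroup.eq_bot_of_card_eq _ hb
    rw [hbot, sup_bot_eq] at hsup
    apply ht
    apply hρ
    rw [map_one]
    ext v
    have : v ∈ plusS (ρ t) := by rw [hsup]; trivial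
    exact this
  have hn1 := ih a ha1 (by omega)
  have hn2 := ih b hb1 (by omega)
  have h := rank_le_of_split hP ρ hρ _ _ h₁ h₂ hsup (Bd p a) (Bd p b)
    (fun P' _ _ hP' ρ' hρ' => hn1 _ (exp_sub hV _) ha P' hP' ρ' hρ')
    (fun P' _ _ hP' ρ' hρ' => hn2 _ (exp_sub hV _) hb P' hP' ρ' hρ')
  have := Bd_add p a b ha1 hb1
  rw [hab] at this
  omega

theorem three_elts {Q : Type v} [Group Q] [Finite Q] (hQ : Nat.card Q = 3) (a : Q) (ha : a ≠ 1) (y : Q) :
    y = 1 ∨ y = a ∨ y = a⁻¹ := by
  haveI : Fact (Nat.Prime 3) := ⟨by norm_num⟩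
  have h3 : a ^ 3 = 1 := by
    have := pow_card_eq_one' (x := a)
    rwa [hQ] at this
  have ho : orderOf a = 3 := orderOf_eq_prime h3 ha
  have htop : Subgroup.zpowers a = ⊤ := by
    apply Subgroup.eq_top_of_card_eq
    rw [Nat.card_zpowers, ho, hQ]
  have hy : y ∈ Subgroup.zpowers a := by rw [htop]; trivial
  obtain ⟨k, rfl⟩ := hy
  have h4 : a ^ k = a ^ (k % 3) := by
    have := zpow_mod_orderOf a k
    rw [ho] at this
    exact_mod_cast this.symm
  have h5 : k % 3 = 0 ∨ k % 3 = 1 ∨ k % 3 = 2 := by omega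
  change a ^ k = 1 ∨ a ^ k = a ∨ a ^ k = a⁻¹
  rw [h4]
  rcases h5 with h | h | h <;> rw [h]
  · simp
  · simp
  · right; right
    rw [eq_inv_iff_mul_eq_one]
    have : a ^ (2 : ℤ) * a = a ^ 3 := by
      rw [pow_succ a 2, zpow_ofNat]
    rw [this, h3]

theorem aut_three {W : Type v} [CommGroup W] [Finite W] (hW : Nat.card W = 3) (f : MulAut W) :
    (∀ w, f w = w) ∨ (∀ w, f w = w⁻¹) := by
  haveI : Fact (Nat.Prime 3) := ⟨by norm_num⟩
  have hnt : Nontrivial W := by
    rw [← Finite.one_lt_card_iff_nontrivial, hW]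
    norm_num
  obtain ⟨a, ha⟩ := exists_ne (1 : W)
  have hfa : f a ≠ 1 := fun h => ha ((map_eq_one_iff f f.injective).mp h)
  have key : ∀ w, w = 1 ∨ w = a ∨ w = a⁻¹ := three_elts hW a ha
  rcases key (f a) with h | h | h
  · exact absurd h hfa
  · left
    intro w
    rcases key w with rfl | rfl | rfl
    · simp
    · exact h
    · rw [map_inv, h]
  · right
    intro w
    rcases key w with rfl | rfl | rfl
    · simp
    · exact h
    · rw [map_inv, h]

theorem eq_of_agree {V : Type v} [CommGroup V] {P : Type u} [Group P] (ρ : P →* MulAut V)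
    (hρ : Function.Injective ρ) (W₁ W₂ : Subgroup V) (hsup : W₁ ⊔ W₂ = ⊤) (g h : P)
    (h₁ : ∀ v ∈ W₁, ρ g v = ρ h v) (h₂ : ∀ v ∈ W₂, ρ g v = ρ h v) : g = h := by
  apply hρ
  ext v
  have hv : v ∈ W₁ ⊔ W₂ := by rw [hsup]; trivial
  have key : W₁ ⊔ W₂ ≤ (MonoidHom.eqLocus (ρ g).toMonoidHom (ρ h).toMonoidHom) :=
    sup_le (fun w hw => h₁ w hw) (fun w hw => h₂ w hw)
  exact key hv

theorem swap_case.{w₁, w₂} {p n : ℕ} (hp : p.Prime) (hp2 : p ≠ 2) (hn : 1 ≤ n)
    (V : Type w₁) [CommGroup V] [Finite V] (hV : ∀ v : V, v ^ p = 1) (hcard : Nat.card V = p ^ n)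
    (P : Type w₂) [Group P] [Finite P] (hP : IsPGroup 2 P) (ρ : P →* MulAut V)
    (hρ : Function.Injective ρ) (z e x : P) (hz2 : z * z = 1) (hzc : ∀ g, g * z = z * g)
    (hplus : plusS (ρ z) = ⊥) (he2 : e * e = 1)
    (hg : ∀ g, g * e * g⁻¹ = e ∨ g * e * g⁻¹ = e * z) (hx : x * e * x⁻¹ = e * z) :
    ∃ a, 1 ≤ a ∧ n = 2 * a ∧ (∀ c, RankBd.{w₁, w₂} p a c → Group.rank P ≤ 2 * c + 1) ∧
      (a = 1 → p = 3 → Group.rank P ≤ 2) := by
  classical
  have hodd : Odd p := hp.odd_of_ne_two hp2
  have hσz : ρ z * ρ z = 1 := by rw [← map_mul, hz2, map_one]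
  have hσe : ρ e * ρ e = 1 := by rw [← map_mul, he2, map_one]
  have hzinv : ∀ v, ρ z v = v⁻¹ := by
    have h := plus_sup_minus hodd hV (ρ z) hσz
    rw [hplus, bot_sup_eq] at h
    intro v
    have : v ∈ minusS (ρ z) := by rw [h]; trivial
    exact this
  have hex : e * x = x * e * z := by
    have h1 : x * e = e * z * x := by rw [← hx]; group
    calc e * x = e * x * (z * z) := by rw [hz2, mul_one]
      _ = e * (x * z) * z := by group
      _ = e * (z * x) * z := by rw [hzc x]
      _ = e * z * x * z := by group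
      _ = x * e * z := by rw [← h1]
  have hact : ∀ v, ρ e (ρ x v) = ρ x ((ρ e v)⁻¹) := by
    intro v
    rw [← map_inv, ← hzinv, ← MulAut.mul_apply, ← MulAut.mul_apply, ← MulAut.mul_apply, ← map_mul,
      ← map_mul, ← map_mul, hex, mul_assoc]
  set W₁ := plusS (ρ e) with hW₁
  set W₂ := minusS (ρ e) with hW₂
  have h12 : ∀ v ∈ W₁, ρ x v ∈ W₂ := fun v hv => by
    rw [hW₁, mem_plusS] at hv
    rw [hW₂, mem_minusS, hact, hv, map_inv]
  have h21 : ∀ v ∈ W₂, ρ x v ∈ W₁ := fun v hv => by
    rw [hW₂, mem_minusS] at hv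
    rw [hW₁, mem_plusS, hact, hv, inv_inv]
  have hc12 : Nat.card W₁ ≤ Nat.card W₂ :=
    Nat.card_le_card_of_injective (fun w : W₁ => (⟨ρ x w, h12 w w.2⟩ : W₂)) (fun a b hab => by
      have : ρ x (a : V) = ρ x b := congrArg Subtype.val hab
      exact Subtype.ext ((ρ x).injective this))
  have hc21 : Nat.card W₂ ≤ Nat.card W₁ :=
    Nat.card_le_card_of_injective (fun w : W₂ => (⟨ρ x w, h21 w w.2⟩ : W₁)) (fun a b hab => by
      have : ρ x (a : V) = ρ x b := congrArg Subtype.val hab
      exact Subtype.ext ((ρ x).injective this))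
  have hsup : W₁ ⊔ W₂ = ⊤ := plus_sup_minus hodd hV (ρ e) hσe
  have hmul : Nat.card W₁ * Nat.card W₂ = Nat.card V := card_plus_minus hodd hV (ρ e) hσe
  obtain ⟨a, b, ha, hb, hab⟩ := card_split hp hcard _ _ hmul
  have hab' : a = b := by
    have h1 : p ^ a = p ^ b := by rw [← ha, ← hb]; omega
    exact Nat.pow_right_injective hp.two_le h1
  subst hab'
  have ha1 : 1 ≤ a := by omega
  let Q : Subgroup P := Subgroup.centralizer ({e} : Set P)
  have hQmem : ∀ g, g ∈ Q ↔ g * e = e * g := fun g => by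
    rw [Subgroup.mem_centralizer_singleton_iff]
  have hQc : ∀ g ∈ Q, ∀ v, ρ e (ρ g v) = ρ g (ρ e v) := fun g hg v => by
    rw [← MulAut.mul_apply, ← MulAut.mul_apply, ← map_mul, ← map_mul, (hQmem g).mp hg]
  have hcoset : ∀ g, g ∈ Q ∨ x⁻¹ * g ∈ Q := by
    intro g
    rcases hg g with h | h
    · left
      rw [hQmem]
      calc g * e = g * e * g⁻¹ * g := by group
        _ = e * g := by rw [h]
    · right
      rw [hQmem]
      have h2 : g * e * g⁻¹ = x * e * x⁻¹ := by rw [h, hx]
      calc x⁻¹ * g * e = x⁻¹ * (g * e * g⁻¹) * g := by group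
        _ = x⁻¹ * (x * e * x⁻¹) * g := by rw [h2]
        _ = e * (x⁻¹ * g) := by group
  have hQ1 : ∀ (g : Q), ∀ v ∈ W₁, (ρ.comp Q.subtype) g v ∈ W₁ := fun g v hv => by
    rw [hW₁, mem_plusS] at hv ⊢
    change ρ e (ρ g v) = ρ g v
    rw [hQc g g.2, hv]
  have hQ2 : ∀ (g : Q), ∀ v ∈ W₂, (ρ.comp Q.subtype) g v ∈ W₂ := fun g v hv => by
    rw [hW₂, mem_minusS] at hv ⊢
    change ρ e (ρ g v) = (ρ g v)⁻¹
    rw [hQc g g.2, hv, map_inv]
  have hρQ : Function.Injective (ρ.comp Q.subtype) := hρ.comp Subtype.val_injective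
  refine ⟨a, ha1, by omega, ?_, ?_⟩
  · intro c hc
    have h1 := rank_le_of_split (hP.to_subgroup Q) (ρ.comp Q.subtype) hρQ W₁ W₂ hQ1 hQ2 hsup c c
      (fun P' _ _ hP' ρ' hρ' => hc _ (exp_sub hV _) ha P' hP' ρ' hρ')
      (fun P' _ _ hP' ρ' hρ' => hc _ (exp_sub hV _) hb P' hP' ρ' hρ')
    have h2 := rank_le_succ Q x hcoset
    omega
  · rintro rfl rfl
    have hc1 : Nat.card W₁ = 3 := by rw [ha, pow_one]
    have hc2 : Nat.card W₂ = 3 := by rw [hb, pow_one]
    let S : Finset P := {e, x}
    have hS : Subgroup.closure (S : Set P) = ⊤ := by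
      set H := Subgroup.closure (S : Set P) with hH
      have heH : e ∈ H := Subgroup.subset_closure (by simp [S])
      have hxH : x ∈ H := Subgroup.subset_closure (by simp [S])
      have hzH : z ∈ H := by
        have h1 : z = e⁻¹ * (x * e * x⁻¹) := by rw [hx]; group
        rw [h1]
        exact H.mul_mem (H.inv_mem heH) (H.mul_mem (H.mul_mem hxH heH) (H.inv_mem hxH))
      have hQH : ∀ g ∈ Q, g ∈ H := by
        intro g hg
        have hA1 := aut_three hc1 (resHom (ρ.comp Q.subtype) W₁ hQ1 ⟨g, hg⟩)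
        have hA2 := aut_three hc2 (resHom (ρ.comp Q.subtype) W₂ hQ2 ⟨g, hg⟩)
        have hB1 : (∀ v ∈ W₁, ρ g v = v) ∨ (∀ v ∈ W₁, ρ g v = v⁻¹) := by
          rcases hA1 with h | h
          · left
            intro v hv
            exact congrArg Subtype.val (h ⟨v, hv⟩)
          · right
            intro v hv
            exact congrArg Subtype.val (h ⟨v, hv⟩)
        have hB2 : (∀ v ∈ W₂, ρ g v = v) ∨ (∀ v ∈ W₂, ρ g v = v⁻¹) := by
          rcases hA2 with h | h
          · left
            intro v hv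
            exact congrArg Subtype.val (h ⟨v, hv⟩)
          · right
            intro v hv
            exact congrArg Subtype.val (h ⟨v, hv⟩)
        rcases hB1 with h1 | h1 <;> rcases hB2 with h2 | h2
        · have : g = 1 := eq_of_agree ρ hρ W₁ W₂ hsup g 1
            (fun v hv => by rw [h1 v hv, map_one]; rfl) (fun v hv => by rw [h2 v hv, map_one]; rfl)
          rw [this]
          exact H.one_mem
        · have : g = e := eq_of_agree ρ hρ W₁ W₂ hsup g e
            (fun v hv => by rw [h1 v hv]; exact hv.symm) (fun v hv => by rw [h2 v hv]; exact hv.symm)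
          rw [this]
          exact heH
        · have : g = e * z := eq_of_agree ρ hρ W₁ W₂ hsup g (e * z)
            (fun v hv => by
              rw [h1 v hv, map_mul, MulAut.mul_apply, hzinv, map_inv]
              have : ρ e v = v := hv
              rw [this])
            (fun v hv => by
              rw [h2 v hv, map_mul, MulAut.mul_apply, hzinv, map_inv]
              have : ρ e v = v⁻¹ := hv
              rw [this, inv_inv])
          rw [this]
          exact H.mul_mem heH hzH
        · have : g = z := eq_of_agree ρ hρ W₁ W₂ hsup g z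
            (fun v hv => by rw [h1 v hv, hzinv]) (fun v hv => by rw [h2 v hv, hzinv])
          rw [this]
          exact hzH
      rw [eq_top_iff]
      intro g _
      rcases hcoset g with h | h
      · exact hQH g h
      · have h3 : g = x * (x⁻¹ * g) := by group
        rw [h3]
        exact H.mul_mem hxH (hQH _ h)
    calc Group.rank P ≤ S.card := Group.rank_le hS
      _ ≤ 2 := Finset.card_le_two

theorem rank_le_one_of_cyclic {R : Type u} [Group R] [Finite R] (h : IsCyclic R) : Group.rank R ≤ 1 := by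
  classical
  obtain ⟨g, hg⟩ := h.exists_generator
  have h1 : Subgroup.closure (({g} : Finset R) : Set R) = ⊤ := by
    rw [Finset.coe_singleton, ← Subgroup.zpowers_eq_closure]
    rw [eq_top_iff]
    intro x _
    exact hg x
  simpa using Group.rank_le h1

theorem ker_unitsMap_cyclic (j : ℕ) :
    IsCyclic (ZMod.unitsMap (show (4 : ℕ) ∣ 2 ^ (j + 2) from Dvd.intro_left (2 ^ j) (by ring))).ker := by
  classical
  have hd : (4 : ℕ) ∣ 2 ^ (j + 2) := Dvd.intro_left (2 ^ j) (by ring)
  set f := ZMod.unitsMap hd with hf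
  have hsurj : Function.Surjective f := ZMod.unitsMap_surjective hd
  -- cardinalities
  haveI : NeZero (2 ^ (j + 2)) := ⟨by positivity⟩
  have hc1 : Nat.card (ZMod (2 ^ (j + 2)))ˣ = 2 ^ (j + 1) := by
    rw [Nat.card_eq_fintype_card, ZMod.card_units_eq_totient, Nat.totient_prime_pow_succ Nat.prime_two]
    simp
  have hc2 : Nat.card (ZMod 4)ˣ = 2 := by
    rw [Nat.card_eq_fintype_card]
    decide
  have hc3 : Nat.card f.ker = 2 ^ j := by
    have h1 := Subgroup.card_eq_card_quotient_mul_card_subgroup f.ker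
    have h2 : Nat.card ((ZMod (2 ^ (j + 2)))ˣ ⧸ f.ker) = 2 := by
      rw [Nat.card_congr (QuotientGroup.quotientKerEquivOfSurjective f hsurj).toEquiv, hc2]
    rw [hc1, h2] at h1
    rw [pow_succ] at h1
    omega
  have hcop : Nat.Coprime 5 (2 ^ (j + 2)) := by
    apply Nat.Coprime.pow_right
    norm_num
  let u : (ZMod (2 ^ (j + 2)))ˣ := ZMod.unitOfCoprime 5 hcop
  have hu : orderOf u = 2 ^ j := by
    rw [← orderOf_injective _ Units.coeHom_injective u]
    have : (Units.coeHom (ZMod (2 ^ (j + 2)))) u = (5 : ZMod (2 ^ (j + 2))) := by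
      simp [u]
    rw [this]
    exact ZMod.orderOf_five j
  have huk : u ∈ f.ker := by
    rw [MonoidHom.mem_ker]
    apply Units.ext
    rw [hf, ZMod.unitsMap_val]
    simp only [u, ZMod.coe_unitOfCoprime]
    rw [ZMod.cast_natCast hd]
    rfl
  refine ⟨⟨⟨u, huk⟩, fun y => ?_⟩⟩
  have hz : Subgroup.zpowers (⟨u, huk⟩ : f.ker) = ⊤ := by
    apply Subgroup.eq_top_of_card_eq
    rw [Nat.card_zpowers, hc3]
    rw [← hu]
    exact Subgroup.orderOf_mk u huk
  have : y ∈ Subgroup.zpowers (⟨u, huk⟩ : f.ker) := by rw [hz]; trivial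
  exact this

theorem rank_units_lemma {R : Type u} [Group R] [Finite R] (k : ℕ) (ψ : R →* (ZMod (2 ^ k))ˣ)
    (hψ : Function.Injective ψ) :
    Group.rank R ≤ 2 ∧ (IsCyclic R ∨ (3 ≤ k ∧ 4 ≤ Nat.card R)) := by
  classical
  constructor
  · by_cases hk : k < 2
    · have h1 : IsCyclic (ZMod (2 ^ k))ˣ := (ZMod.isCyclic_units_two_pow_iff k).mpr (by omega)
      have h2 : IsCyclic R := isCyclic_of_injective ψ hψ
      have := rank_le_one_of_cyclic h2
      omega
    · obtain ⟨j, rfl⟩ : ∃ j, k = j + 2 := ⟨k - 2, by omega⟩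
      have hd : (4 : ℕ) ∣ 2 ^ (j + 2) := Dvd.intro_left (2 ^ j) (by ring)
      let f : R →* (ZMod 4)ˣ := (ZMod.unitsMap hd).comp ψ
      have h1 := rank_le_quot_add f.ker
      have hq : IsCyclic (ZMod 4)ˣ := ZMod.isCyclic_units_four
      have h2 : IsCyclic (R ⧸ f.ker) :=
        isCyclic_of_injective (QuotientGroup.kerLift f) (QuotientGroup.kerLift_injective f)
      have h3 := rank_le_one_of_cyclic h2
      have hkc := ker_unitsMap_cyclic j
      have h4 : IsCyclic f.ker := by
        let g : f.ker →* (ZMod.unitsMap hd).ker :=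
          (ψ.comp f.ker.subtype).codRestrict _ (fun x => by
            have : f x = 1 := x.2
            exact this)
        refine isCyclic_of_injective g (fun a b hab => ?_)
        have : (g a : (ZMod (2 ^ (j + 2)))ˣ) = g b := congrArg Subtype.val hab
        exact Subtype.ext (hψ this)
      have h5 := rank_le_one_of_cyclic h4
      omega
  · by_cases hc : IsCyclic R
    · exact Or.inl hc
    · right
      constructor
      · by_contra hk
        apply hc
        have h1 : IsCyclic (ZMod (2 ^ k))ˣ := (ZMod.isCyclic_units_two_pow_iff k).mpr (by omega)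
        exact isCyclic_of_injective ψ hψ
      · by_contra hk
        apply hc
        have hpos : 0 < Nat.card R := Nat.card_pos
        have h4 : Nat.card R = 1 ∨ Nat.card R = 2 ∨ Nat.card R = 3 := by omega
        rcases h4 with h | h | h
        · haveI := (Nat.card_eq_one_iff_unique.mp h).1
          exact isCyclic_of_subsingleton
        · haveI : Fact (Nat.Prime 2) := ⟨Nat.prime_two⟩
          exact isCyclic_of_prime_card h
        · haveI : Fact (Nat.Prime 3) := ⟨by norm_num⟩
          exact isCyclic_of_prime_card h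

theorem cyclic_case {P : Type u} [Group P] [Finite P] (hP : IsPGroup 2 P) (A : Subgroup P) [hA : A.Normal]
    (hAc : IsCyclic A) (hC : Subgroup.centralizer (A : Set P) = A) :
    Group.rank P ≤ 3 ∧ (Group.rank P ≤ 2 ∨ 32 ≤ Nat.card P) := by
  classical
  let c : P →* MulAut A := MulAut.conjNormal
  have hker : c.ker = A := by
    have h0 : ∀ g, g ∈ A ↔ g ∈ Subgroup.centralizer (A : Set P) := fun g => by rw [hC]
    ext g
    rw [MonoidHom.mem_ker, h0, Subgroup.mem_centralizer_iff]
    constructor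
    · intro h y hy
      have h1 := congrArg (fun f : MulAut A => ((f ⟨y, hy⟩ : A) : P)) h
      simp only [c, MulAut.conjNormal_apply] at h1
      change g * y * g⁻¹ = y at h1
      calc y * g = g * y * g⁻¹ * g := by rw [h1]
        _ = g * y := by group
    · intro h
      ext y
      change g * (y : P) * g⁻¹ = y
      rw [← h y y.2]
      group
  obtain ⟨k, hk⟩ := IsPGroup.iff_card.mp (hP.to_subgroup A)
  let hK : c.ker.Normal := inferInstance
  have hcardK : Nat.card c.ker = 2 ^ k := by rw [hker, hk]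
  have hcK : IsCyclic c.ker := by rw [hker]; exact hAc
  let e : MulAut A ≃* (ZMod (2 ^ k))ˣ :=
    (IsCyclic.mulAutMulEquiv A).trans (Units.mapEquiv (RingEquiv.cast (by rw [hk])).toMulEquiv)
  let ψ : (P ⧸ c.ker) →* (ZMod (2 ^ k))ˣ := e.toMonoidHom.comp (QuotientGroup.kerLift c)
  have hψ : Function.Injective ψ := e.injective.comp (QuotientGroup.kerLift_injective c)
  obtain ⟨h1, h2⟩ := rank_units_lemma k ψ hψ
  have h3 := rank_le_quot_add c.ker
  have h4 := rank_le_one_of_cyclic hcK
  refine ⟨by omega, ?_⟩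
  rcases h2 with h2 | ⟨h5, h6⟩
  · left
    have := rank_le_one_of_cyclic h2
    omega
  · right
    have h7 := Subgroup.card_eq_card_quotient_mul_card_subgroup c.ker
    rw [h7, hcardK]
    have h8 : 8 ≤ 2 ^ k := by
      calc 8 = 2 ^ 3 := by norm_num
        _ ≤ 2 ^ k := Nat.pow_le_pow_right (by norm_num) h5
    calc 32 = 4 * 8 := by norm_num
      _ ≤ _ := Nat.mul_le_mul h6 h8

theorem dichotomy {P : Type u} [Group P] [Finite P] (hP : IsPGroup 2 P) :
    (∃ z e : P, z ≠ 1 ∧ z * z = 1 ∧ (∀ g, g * z = z * g) ∧ e ≠ 1 ∧ e * e = 1 ∧ e ≠ z ∧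
      ∀ g, g * e * g⁻¹ = e ∨ g * e * g⁻¹ = e * z) ∨
    (Group.rank P ≤ 3 ∧ (Group.rank P ≤ 2 ∨ 32 ≤ Nat.card P)) := by
  classical
  haveI : Fact (Nat.Prime 2) := ⟨Nat.prime_two⟩
  haveI : Group.IsNilpotent P := hP.isNilpotent
  let S : Set (Subgroup P) := {A | A.Normal ∧ IsMulCommutative A}
  have hSne : S.Nonempty := ⟨⊥, inferInstance, inferInstance⟩
  obtain ⟨A, hAmax⟩ := (Set.toFinite S).exists_maximal hSne
  obtain ⟨hAn, hAc⟩ := hAmax.prop
  have hCent : Subgroup.centralizer (A : Set P) = A :=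
    Cfsg.Agent.Lib.Basic.centralizer_eq_of_maximal_abelian_normal A (fun M hM hMc hAM => by
      exact le_antisymm (hAmax.le_of_ge ⟨hM, hMc⟩ hAM) hAM)
  by_cases hcyc : IsCyclic A
  · exact Or.inr (cyclic_case hP A hcyc hCent)
  left
  have hcomm : ∀ a ∈ A, ∀ b ∈ A, a * b = b * a := fun a ha b hb => by
    have := hAc.is_comm.comm (⟨a, ha⟩ : A) ⟨b, hb⟩
    exact congrArg Subtype.val this
  let Ω : Subgroup P :=
    { carrier := {a | a ∈ A ∧ a * a = 1}
      mul_mem' := fun {a b} ha hb => ⟨A.mul_mem ha.1 hb.1, by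
        calc a * b * (a * b) = a * (b * a) * b := by group
          _ = a * (a * b) * b := by rw [hcomm b hb.1 a ha.1]
          _ = (a * a) * (b * b) := by group
          _ = 1 := by rw [ha.2, hb.2, one_mul]⟩
      one_mem' := ⟨A.one_mem, one_mul 1⟩
      inv_mem' := fun {a} ha => ⟨A.inv_mem ha.1, by
        rw [← mul_inv_rev, ha.2, inv_one]⟩ }
  have hΩn : Ω.Normal := ⟨fun a ha g => ⟨hAn.conj_mem a ha.1 g, by
    calc g * a * g⁻¹ * (g * a * g⁻¹) = g * (a * a) * g⁻¹ := by group
      _ = 1 := by rw [ha.2]; group⟩⟩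
  have hAp : IsPGroup 2 A := hP.to_subgroup A
  have hAnt : Nontrivial A := by
    by_contra h
    rw [not_nontrivial_iff_subsingleton] at h
    exact hcyc isCyclic_of_subsingleton
  have hinv : ∃ a : A, orderOf a = 2 := by
    obtain ⟨k, hk⟩ := IsPGroup.iff_card.mp hAp
    have hk0 : k ≠ 0 := by
      rintro rfl
      rw [pow_zero] at hk
      have := Finite.one_lt_card_iff_nontrivial.mpr hAnt
      omega
    have h2 : 2 ∣ Nat.card A := by
      rw [hk]
      exact dvd_pow_self 2 hk0
    exact exists_prime_orderOf_dvd_card' 2 h2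
  obtain ⟨a₀, ha₀⟩ := hinv
  have ha₀1 : (a₀ : P) ≠ 1 := by
    intro h
    have : a₀ = 1 := Subtype.ext h
    rw [this, orderOf_one] at ha₀
    omega
  have ha₀2 : (a₀ : P) * a₀ = 1 := by
    have := pow_orderOf_eq_one a₀
    rw [ha₀, pow_two] at this
    exact congrArg Subtype.val this
  have hnbot : ¬ Ω ≤ ⊥ := by
    intro h
    exact ha₀1 ((Subgroup.mem_bot).mp (h ⟨a₀.2, ha₀2⟩))
  obtain ⟨z, hzΩ, hzb, hzc⟩ := Cfsg.Agent.Lib.Basic.exists_central_mod_of_isPGroup hP ⊥ Ω hnbot
  have hz1 : z ≠ 1 := fun h => hzb (by rw [h]; exact Subgroup.one_mem _)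
  have hzcomm : ∀ g, g * z = z * g := by
    intro g
    have h := hzc g
    rw [Subgroup.mem_bot, commutatorElement_eq_one_iff_commute] at h
    exact h.symm
  have hZn : (Subgroup.zpowers z).Normal := by
    refine ⟨fun y hy g => ?_⟩
    have h1 : g * y * g⁻¹ = y := by
      obtain ⟨k, rfl⟩ := hy
      have h2 : Commute g (z ^ k) := ((show Commute g z from hzcomm g)).zpow_right k
      change g * z ^ k * g⁻¹ = z ^ k
      rw [h2.eq]
      group
    rw [h1]
    exact hy
  have hzord : orderOf z = 2 := orderOf_eq_prime (by rw [pow_two]; exact hzΩ.2) hz1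
  have hZmem : ∀ y ∈ Subgroup.zpowers z, y = 1 ∨ y = z := by
    intro y hy
    rw [Subgroup.mem_zpowers_iff] at hy
    obtain ⟨k, rfl⟩ := hy
    have h4 : z ^ k = z ^ (k % 2) := by
      have := zpow_mod_orderOf z k
      rw [hzord] at this
      exact_mod_cast this.symm
    rw [h4]
    have h5 : k % 2 = 0 ∨ k % 2 = 1 := by omega
    rcases h5 with h | h <;> rw [h]
    · simp
    · simp
  have hnotZ : ¬ Ω ≤ Subgroup.zpowers z := by
    intro h
    apply hcyc
    refine Cfsg.Agent.Lib.OddLocal.isCyclic_of_comm_uniqueP hAp (fun a b => hAc.is_comm.comm a b) ?_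
    have hzA : z ∈ A := hzΩ.1
    have key : ∀ H : Subgroup A, Nat.card H = 2 → H = Subgroup.zpowers (⟨z, hzA⟩ : A) := by
      intro H hH
      obtain ⟨b, hb⟩ := exists_prime_orderOf_dvd_card' (G := H) 2 (by rw [hH])
      have hb1 : ((b : A) : P) * (b : A) = 1 := by
        have := pow_orderOf_eq_one b
        rw [hb, pow_two] at this
        exact congrArg (fun y : H => ((y : A) : P)) this
      have hbne : ((b : A) : P) ≠ 1 := by
        intro h1
        have : b = 1 := Subtype.ext (Subtype.ext h1)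
        rw [this, orderOf_one] at hb
        omega
      have hbΩ : ((b : A) : P) ∈ Ω := ⟨(b : A).2, hb1⟩
      have hbz : ((b : A) : P) = z := (hZmem _ (h hbΩ)).resolve_left hbne
      have hbz' : (b : A) = ⟨z, hzA⟩ := Subtype.ext hbz
      have hle : Subgroup.zpowers (⟨z, hzA⟩ : A) ≤ H := by
        rw [Subgroup.zpowers_le, ← hbz']
        exact b.2
      refine (Subgroup.eq_of_le_of_card_ge hle ?_).symm
      rw [hH, Nat.card_zpowers, Subgroup.orderOf_mk, hzord]
    intro H K hH hK
    rw [key H hH, key K hK]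
  obtain ⟨e, heΩ, heZ, hec⟩ := Cfsg.Agent.Lib.Basic.exists_central_mod_of_isPGroup hP (Subgroup.zpowers z) Ω hnotZ
  refine ⟨z, e, hz1, hzΩ.2, hzcomm, ?_, heΩ.2, ?_, ?_⟩
  · intro h
    exact heZ (by rw [h]; exact Subgroup.one_mem _)
  · intro h
    exact heZ (by rw [h]; exact Subgroup.mem_zpowers z)
  · intro g
    have h1 := hec g
    have h2 : g * e * g⁻¹ * e⁻¹ ∈ Subgroup.zpowers z := by
      have h3 := Subgroup.inv_mem _ h1
      rw [commutatorElement_inv] at h3
      exact h3
    rcases hZmem _ h2 with h | h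
    · left
      calc g * e * g⁻¹ = g * e * g⁻¹ * e⁻¹ * e := by group
        _ = e := by rw [h, one_mul]
    · right
      calc g * e * g⁻¹ = g * e * g⁻¹ * e⁻¹ * e := by group
        _ = z * e := by rw [h]
        _ = e * z := (hzcomm e).symm

theorem card_le_16 {V : Type v} [CommGroup V] [Finite V] (hV : ∀ v : V, v ^ 3 = 1) (hcard : Nat.card V = 9)
    {P : Type u} [Group P] [Finite P] (hP : IsPGroup 2 P) (ρ : P →* MulAut V) (hρ : Function.Injective ρ) :
    Nat.card P ≤ 16 := by
  classical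
  have hnt : Nontrivial V := by
    rw [← Finite.one_lt_card_iff_nontrivial, hcard]
    norm_num
  obtain ⟨v, hv⟩ := exists_ne (1 : V)
  haveI : Fact (Nat.Prime 3) := ⟨by norm_num⟩
  have hov : orderOf v = 3 := orderOf_eq_prime (hV v) hv
  let Y := Subgroup.zpowers v
  have hYc : Nat.card Y = 3 := by rw [Nat.card_zpowers, hov]
  obtain ⟨u, hu⟩ : ∃ u, u ∉ Y := by
    by_contra h
    push Not at h
    have : Y = ⊤ := by
      rw [eq_top_iff]
      intro x _
      exact h x
    rw [this, Subgroup.card_top, hcard] at hYc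
    omega
  have hQc : Nat.card (V ⧸ Y) = 3 := by
    have h1 := Subgroup.card_eq_card_quotient_mul_card_subgroup Y
    rw [hcard, hYc] at h1
    omega
  have hub : (u : V ⧸ Y) ≠ 1 := by
    intro h
    exact hu ((QuotientGroup.eq_one_iff u).mp h)
  have hcov : ∀ w : V, w ∈ Y ∨ w * u⁻¹ ∈ Y ∨ w * u ∈ Y := by
    intro w
    rcases three_elts hQc (u : V ⧸ Y) hub (w : V ⧸ Y) with h | h | h
    · left
      exact (QuotientGroup.eq_one_iff w).mp h
    · right; left
      have h2 : ((w * u⁻¹ : V) : V ⧸ Y) = 1 := by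
        rw [QuotientGroup.mk_mul, QuotientGroup.mk_inv, h, mul_inv_cancel]
      exact (QuotientGroup.eq_one_iff _).mp h2
    · right; right
      have h2 : ((w * u : V) : V ⧸ Y) = 1 := by
        rw [QuotientGroup.mk_mul, h, inv_mul_cancel]
      exact (QuotientGroup.eq_one_iff _).mp h2
  have hfixY : ∀ s : P, ρ s v = v → ∀ y ∈ Y, ρ s y = y := by
    intro s hs y hy
    obtain ⟨k, rfl⟩ := hy
    change ρ s (v ^ k) = v ^ k
    rw [map_zpow, hs]
  -- an element fixing `v` and `u` is trivial
  have hfix2 : ∀ s : P, ρ s v = v → ρ s u = u → s = 1 := by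
    intro s h1 h2
    apply hρ
    rw [map_one]
    ext w
    have hY := hfixY s h1
    rcases hcov w with h | h | h
    · exact hY w h
    · have h3 := hY _ h
      rw [map_mul, map_inv, h2] at h3
      exact mul_right_cancel h3
    · have h3 := hY _ h
      rw [map_mul, h2] at h3
      exact mul_right_cancel h3
  have hA : ∀ s : P, ∀ y ∈ Y, ρ s v = v → ρ s u = u * y → s = 1 := by
    intro s y hy h1 h2
    have hY := hfixY s h1
    have hs3v : ρ (s ^ 3) v = v := by
      rw [map_pow, pow_succ, pow_two, MulAut.mul_apply, MulAut.mul_apply, h1, h1, h1]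
    have hy3 : y ^ 3 = 1 := hV y
    have hs3u : ρ (s ^ 3) u = u := by
      rw [map_pow, pow_succ, pow_two, MulAut.mul_apply, MulAut.mul_apply, h2, map_mul, h2, hY y hy, map_mul,
        map_mul, h2, hY y hy]
      calc u * y * y * y = u * y ^ 3 := by rw [pow_succ, pow_two, ← mul_assoc, ← mul_assoc]
        _ = u := by rw [hy3, mul_one]
    have hs3 : s ^ 3 = 1 := hfix2 _ hs3v hs3u
    obtain ⟨k, hk⟩ := hP s
    have hd1 : orderOf s ∣ 2 ^ k := orderOf_dvd_of_pow_eq_one hk
    have hd2 : orderOf s ∣ 3 := orderOf_dvd_of_pow_eq_one hs3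
    have hcop : Nat.Coprime (2 ^ k) 3 := Nat.Coprime.pow_left k (by norm_num)
    have : orderOf s = 1 := Nat.eq_one_of_dvd_coprimes hcop hd1 hd2
    exact orderOf_eq_one_iff.mp this
  have hB : ∀ s : P, ρ s v = v → s ≠ 1 → ∃ y ∈ Y, ρ s u = u⁻¹ * y := by
    intro s h1 hs
    have hY := hfixY s h1
    rcases hcov (ρ s u) with h | h | h
    · exfalso
      apply hu
      have h2 := hY _ h
      have h3 := (ρ s).injective h2
      rw [h3] at h
      exact h
    · have h4 : u * (ρ s u * u⁻¹) = ρ s u := by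
        rw [mul_comm (ρ s u), ← mul_assoc, mul_inv_cancel, one_mul]
      exact absurd (hA s _ h h1 h4.symm) hs
    · refine ⟨_, h, ?_⟩
      rw [mul_comm (ρ s u) u, ← mul_assoc, inv_mul_cancel, one_mul]
  have hC : ∀ s s' : P, ρ s v = v → ρ s' v = v → s ≠ 1 → s' ≠ 1 → s = s' := by
    intro s s' h1 h1' hs hs'
    obtain ⟨y, hy, hsu⟩ := hB s h1 hs
    obtain ⟨y', hy', hsu'⟩ := hB s' h1' hs'
    have hinv : ∀ w, ρ s⁻¹ (ρ s w) = w := fun w => by
      rw [← MulAut.mul_apply, ← map_mul, inv_mul_cancel, map_one]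
      rfl
    have hr : s⁻¹ * s' = 1 := by
      refine hA _ (y⁻¹ * y') (Y.mul_mem (Y.inv_mem hy) hy') ?_ ?_
      · calc ρ (s⁻¹ * s') v = ρ s⁻¹ (ρ s' v) := by rw [map_mul, MulAut.mul_apply]
          _ = ρ s⁻¹ (ρ s v) := by rw [h1', h1]
          _ = v := hinv v
      · calc ρ (s⁻¹ * s') u = ρ s⁻¹ (ρ s' u) := by rw [map_mul, MulAut.mul_apply]
          _ = ρ s⁻¹ (ρ s (u * (y⁻¹ * y'))) := by
            have h5 : ρ s (u * (y⁻¹ * y')) = u⁻¹ * y' := by
              rw [map_mul (ρ s), map_mul (ρ s), map_inv (ρ s) y, hfixY s h1 y hy, hfixY s h1 y' hy', hsu]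
              group
            rw [hsu', h5]
          _ = u * (y⁻¹ * y') := hinv _
    exact inv_mul_eq_one.mp hr
  let b : V → P := fun w => if h : ∃ g, ρ g v = w then h.choose else 1
  have hb : ∀ g, ρ (b (ρ g v)) v = ρ g v := by
    intro g
    have h : ∃ g', ρ g' v = ρ g v := ⟨g, rfl⟩
    simp only [b, dif_pos h]
    exact h.choose_spec
  have hne : ∀ g, ρ g v ≠ 1 := fun g h => hv ((map_eq_one_iff (ρ g) (ρ g).injective).mp h)
  let F : P → {w : V // w ≠ 1} × Bool := fun g => (⟨ρ g v, hne g⟩, decide (g = b (ρ g v)))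
  have hF : Function.Injective F := by
    intro g g' hgg
    have h1 : ρ g v = ρ g' v := congrArg (fun q => (q.1 : V)) hgg
    have h2 : decide (g = b (ρ g v)) = decide (g' = b (ρ g' v)) := congrArg Prod.snd hgg
    rw [← h1] at h2
    set c := b (ρ g v) with hc
    have hcv : ρ c v = ρ g v := hb g
    by_cases hgc : g = c
    · have h3 : g' = c := by
        have : decide (g' = c) = true := by rw [← h2]; simpa using hgc
        simpa using this
      rw [hgc, h3]
    · have h3 : g' ≠ c := by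
        intro h4
        apply hgc
        have : decide (g = c) = true := by rw [h2]; simpa using h4
        simpa using this
      have hcinv : ∀ w, ρ c⁻¹ (ρ c w) = w := fun w => by
        rw [← MulAut.mul_apply, ← map_mul, inv_mul_cancel, map_one]
        rfl
      have hs : c⁻¹ * g = c⁻¹ * g' := by
        refine hC _ _ ?_ ?_ ?_ ?_
        · rw [map_mul, MulAut.mul_apply, ← hcv, hcinv]
        · rw [map_mul, MulAut.mul_apply, ← h1, ← hcv, hcinv]
        · intro h4
          exact hgc (inv_mul_eq_one.mp h4).symm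
        · intro h4
          exact h3 (inv_mul_eq_one.mp h4).symm
      exact mul_left_cancel hs
  have h1 : Nat.card P ≤ Nat.card ({w : V // w ≠ 1} × Bool) := Nat.card_le_card_of_injective F hF
  have h2 : Nat.card {w : V // w ≠ 1} = 8 := by
    letI := Fintype.ofFinite V
    rw [Nat.card_eq_fintype_card, Fintype.card_subtype_compl, Fintype.card_subtype_eq,
      ← Nat.card_eq_fintype_card, hcard]
  rw [Nat.card_prod, h2, Nat.card_eq_fintype_card (α := Bool), Fintype.card_bool] at h1
  exact h1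

theorem main_bound.{w₁, w₂} (p : ℕ) (hp : p.Prime) (hp2 : p ≠ 2) :
    ∀ n, 1 ≤ n → RankBd.{w₁, w₂} p n (Bd p n) := by
  intro n
  induction n using Nat.strong_induction_on with
  | _ n ih =>
    intro hn V _ _ hV hcard P _ _ hP ρ hρ
    haveI : Fact p.Prime := ⟨hp⟩
    by_cases hn1 : n = 1
    · subst hn1
      have h1 : Nat.card V = p := by rw [hcard, pow_one]
      have hcyc : IsCyclic V := isCyclic_of_prime_card h1
      have hun : IsCyclic (ZMod p)ˣ := ZMod.isCyclic_units_prime hp
      let e : MulAut V ≃* (ZMod p)ˣ :=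
        (IsCyclic.mulAutMulEquiv V).trans (Units.mapEquiv (RingEquiv.cast (by rw [h1])).toMulEquiv)
      have hP' : IsCyclic P := isCyclic_of_injective (e.toMonoidHom.comp ρ) (e.injective.comp hρ)
      have h2 := rank_le_one_of_cyclic hP'
      have h3 : Bd p 1 = 1 := by
        unfold Bd
        split_ifs <;> omega
      rw [h3]
      exact h2
    have hn2 : 2 ≤ n := by omega
    have ih' : ∀ m, 1 ≤ m → m < n → RankBd.{w₁, w₂} p m (Bd p m) := fun m hm hmn => ih m hmn hm
    rcases dichotomy hP with ⟨z, e, hz1, hz2, hzc, he1, he2, hez, hg⟩ | ⟨h3, h2⟩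
    · by_cases hpz : plusS (ρ z) ≠ ⊥
      · exact central_split hp hp2 ih' V hV hcard P hP ρ hρ z hz1 hz2 hzc hpz
      · push Not at hpz
        have hodd : Odd p := hp.odd_of_ne_two hp2
        have hzinv : ∀ v, ρ z v = v⁻¹ := by
          have h := plus_sup_minus hodd hV (ρ z) (by rw [← map_mul, hz2, map_one])
          rw [hpz, bot_sup_eq] at h
          intro v
          have : v ∈ minusS (ρ z) := by rw [h]; trivial
          exact this
        by_cases hec : ∀ g, g * e = e * g
        · have hpe : plusS (ρ e) ≠ ⊥ := by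
            intro hbot
            have h := plus_sup_minus hodd hV (ρ e) (by rw [← map_mul, he2, map_one])
            rw [hbot, bot_sup_eq] at h
            apply hez
            apply hρ
            ext v
            have : v ∈ minusS (ρ e) := by rw [h]; trivial
            rw [hzinv]
            exact this
          exact central_split hp hp2 ih' V hV hcard P hP ρ hρ e he1 he2 hec hpe
        · push Not at hec
          obtain ⟨x, hx⟩ := hec
          have hx' : x * e * x⁻¹ = e * z := by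
            rcases hg x with h | h
            · exfalso
              apply hx
              calc x * e = x * e * x⁻¹ * x := by group
                _ = e * x := by rw [h]
            · exact h
          obtain ⟨a, ha1, hna, hb1, hb2⟩ :=
            swap_case hp hp2 hn V hV hcard P hP ρ hρ z e x hz2 hzc hpz he2 hg hx'
          by_cases h3 : p = 3 ∧ a = 1
          · have h4 := hb2 h3.2 h3.1
            have h5 : Bd p n = 2 := by
              rw [hna, h3.1, h3.2]
              simp [Bd]
            rw [h5]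
            exact h4
          · have h4 := hb1 (Bd p a) (ih' a ha1 (by omega))
            have h5 := Bd_double p a ha1 (fun h => by
              by_contra hlt
              exact h3 ⟨h, by omega⟩)
            rw [hna]
            omega
    · by_cases h32 : p = 3 ∧ n = 2
      · obtain ⟨rfl, rfl⟩ := h32
        have h16 := card_le_16 hV (by rw [hcard]; norm_num) hP ρ hρ
        have h5 : Bd 3 2 = 2 := by simp [Bd]
        rw [h5]
        rcases h2 with h | h
        · exact h
        · omega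
      · have := Bd_three p n hn2 (fun h => by
          by_contra hlt
          exact h32 ⟨h, by omega⟩)
        omega

theorem main_aux {G : Type*} [Group G] [Finite G] (N P : Subgroup G) (hN : N.Normal)
    (hNab : IsMulCommutative ↥N) (hNodd : Odd (Nat.card ↥N)) (hP : IsPGroup 2 ↥P) (hdisj : N ⊓ P = ⊥)
    (hprod : N ⊔ P = ⊤) (hmin : N ≠ ⊥ ∧ ∀ M : Subgroup G, M.Normal → M ≠ ⊥ → N ≤ M) :
    (frattini ↥P).index ≤ Nat.card ↥N - 1 := by
  classical
  have hcomm : ∀ a ∈ N, ∀ b ∈ N, a * b = b * a := fun a ha b hb => by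
    have := hNab.is_comm.comm (⟨a, ha⟩ : N) ⟨b, hb⟩
    exact congrArg Subtype.val this
  have hNnt : Nontrivial N := by
    by_contra h
    rw [not_nontrivial_iff_subsingleton] at h
    exact hmin.1 (Subgroup.eq_bot_of_subsingleton N)
  obtain ⟨p, hp, hpd⟩ := Nat.exists_prime_and_dvd (Finite.one_lt_card_iff_nontrivial.mpr hNnt).ne'
  haveI : Fact p.Prime := ⟨hp⟩
  have hp2 : p ≠ 2 := by
    rintro rfl
    exact (Nat.not_even_iff_odd.mpr hNodd) (even_iff_two_dvd.mpr hpd)
  -- elementary abelian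
  let Ω : Subgroup G :=
    { carrier := {a | a ∈ N ∧ a ^ p = 1}
      mul_mem' := fun {a b} ha hb => ⟨N.mul_mem ha.1 hb.1, by
        rw [(show Commute a b from hcomm a ha.1 b hb.1).mul_pow, ha.2, hb.2, one_mul]⟩
      one_mem' := ⟨N.one_mem, one_pow p⟩
      inv_mem' := fun {a} ha => ⟨N.inv_mem ha.1, by rw [inv_pow, ha.2, inv_one]⟩ }
  have hΩn : Ω.Normal := ⟨fun a ha g => ⟨hN.conj_mem a ha.1 g, by
    rw [conj_pow, ha.2]; group⟩⟩
  have hΩb : Ω ≠ ⊥ := by
    obtain ⟨a, ha⟩ := exists_prime_orderOf_dvd_card' p hpd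
    intro hbot
    have h1 : (a : G) ∈ Ω := ⟨a.2, by
      have := pow_orderOf_eq_one a
      rw [ha] at this
      exact congrArg Subtype.val this⟩
    rw [hbot, Subgroup.mem_bot] at h1
    have h2 : a = 1 := Subtype.ext h1
    rw [h2, orderOf_one] at ha
    exact hp.one_lt.ne ha
  have hexp : ∀ a ∈ N, a ^ p = 1 := fun a ha => (hmin.2 Ω hΩn hΩb ha).2
  -- faithful action
  let M : Subgroup G := P ⊓ Subgroup.centralizer (N : Set G)
  have hMn : M.Normal := by
    refine ⟨fun m hm g => ?_⟩
    have hg : g ∈ N ⊔ P := by rw [hprod]; trivial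
    obtain ⟨n, hn, q, hq, rfl⟩ := Subgroup.mem_sup_of_normal_left.mp hg
    have hm1 : q * m * q⁻¹ ∈ P := P.mul_mem (P.mul_mem hq hm.1) (P.inv_mem hq)
    have hm2 : q * m * q⁻¹ ∈ Subgroup.centralizer (N : Set G) := by
      rw [Subgroup.mem_centralizer_iff]
      intro y hy
      have h1 : q⁻¹ * y * q ∈ N := by
        have := hN.conj_mem y hy q⁻¹
        rwa [inv_inv] at this
      have h2 := Subgroup.mem_centralizer_iff.mp hm.2 _ h1
      calc y * (q * m * q⁻¹) = q * ((q⁻¹ * y * q) * m) * q⁻¹ := by group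
        _ = q * (m * (q⁻¹ * y * q)) * q⁻¹ := by rw [h2]
        _ = q * m * q⁻¹ * y := by group
    have h3 := Subgroup.mem_centralizer_iff.mp hm2 n hn
    have h4 : n * q * m * (n * q)⁻¹ = q * m * q⁻¹ := by
      calc n * q * m * (n * q)⁻¹ = n * (q * m * q⁻¹) * n⁻¹ := by group
        _ = q * m * q⁻¹ * n * n⁻¹ := by rw [h3]
        _ = q * m * q⁻¹ := by group
    rw [h4]
    exact ⟨hm1, hm2⟩
  have hMb : M = ⊥ := by
    by_contra h
    have h1 := hmin.2 M hMn h
    apply hmin.1
    rw [eq_bot_iff, ← hdisj]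
    exact le_inf le_rfl (h1.trans inf_le_left)
  haveI := hN
  let ρ : ↥P →* MulAut ↥N := (MulAut.conjNormal).comp P.subtype
  have hρ : Function.Injective ρ := by
    rw [injective_iff_map_eq_one]
    intro x hx
    have h1 : (x : G) ∈ M := by
      refine Subgroup.mem_inf.mpr ⟨x.2, ?_⟩
      rw [Subgroup.mem_centralizer_iff]
      intro y hy
      have h2 := congrArg (fun f : MulAut N => ((f ⟨y, hy⟩ : N) : G)) hx
      change (x : G) * y * (x : G)⁻¹ = y at h2
      calc y * (x : G) = (x : G) * y * (x : G)⁻¹ * x := by rw [h2]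
        _ = (x : G) * y := by group
    rw [hMb, Subgroup.mem_bot] at h1
    exact Subtype.ext h1
  letI : CommGroup ↥N := { (inferInstance : Group ↥N) with mul_comm := fun a b => hNab.is_comm.comm a b }
  have hNexp : ∀ v : ↥N, v ^ p = 1 := fun v => Subtype.ext (by simpa using hexp v v.2)
  have hNp : IsPGroup p ↥N := fun v => ⟨1, by rw [pow_one]; exact hNexp v⟩
  obtain ⟨n, hn⟩ := IsPGroup.iff_card.mp hNp
  have hn1 : 1 ≤ n := by
    by_contra h
    have : n = 0 := by omega
    rw [this, pow_zero] at hn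
    have h2 := Finite.one_lt_card_iff_nontrivial.mpr hNnt
    omega
  have h1 : Group.rank ↥P ≤ Bd p n := main_bound p hp hp2 n hn1 ↥N hNexp hn ↥P hP ρ hρ
  have h2 := index_frattini_le hP
  have h3 := pow_Bd_le p n hp hp2 hn1
  rw [hn]
  calc (frattini ↥P).index ≤ 2 ^ Group.rank ↥P := h2
    _ ≤ 2 ^ Bd p n := Nat.pow_le_pow_right (by norm_num) h1
    _ ≤ _ := h3

end Helpers


/-- Let G be a finite group that is the semidirect product of a normal abelian subgroup N of odd order by a 2-subgroup P, and suppose N is the unique minimal normal subgroup of G. Then the index of the Frattini subgroup of P in P is at most #N − 1. -/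
theorem result {G : Type*} [Group G] [Finite G] (N P : Subgroup G) (hN : N.Normal) (hNab : IsMulCommutative ↥N) (hNodd : Odd (Nat.card ↥N)) (hP : IsPGroup 2 ↥P) (hdisj : N ⊓ P = ⊥) (hprod : N ⊔ P = ⊤) (hmin : N ≠ ⊥ ∧ ∀ M : Subgroup G, M.Normal → M ≠ ⊥ → N ≤ M) : (frattini ↥P).index ≤ Nat.card ↥N - 1 := by
  exact main_aux N P hN hNab hNodd hP hdisj hprod hmin

end Cfsg.Agent.S4188
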