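import Cfsg.Statements.S4189
import Cfsg.Agent.Lib.PGroups.Parts
import Cfsg.Agent.Lib.Transfer.MaxClass2
import Cfsg.Agent.Lib.TwoGroups.Present

set_option autoImplicit false
open Cfsg

namespace Cfsg.Agent.S4189

open Subgroup Cfsg.Agent.Lib.PGroups
open scoped commutatorElement

private theorem eq_one_of_fix {P : Type*} [Group P] [Finite P] (hP : IsPGroup 2 P) (C : Subgroup P) (hCc : IsCyclic C)
    (hCi : C.index = 2) (β : MulAut P) (hodd : ¬ 2 ∣ orderOf β) (hfix : C.map (β : P →* P) = C) : β = 1 := by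
  classical
  have hmem : ∀ x ∈ C, β x ∈ C := by
    intro x hx
    have : β x ∈ C.map (β : P →* P) := ⟨x, hx, rfl⟩
    rwa [hfix] at this
  have hmem' : ∀ x ∈ C, β⁻¹ x ∈ C := by
    intro x hx
    rw [← hfix] at hx
    obtain ⟨y, hy, rfl⟩ := hx
    have : β⁻¹ ((β : P →* P) y) = y := by simp
    rw [this]
    exact hy
  let φ : MulAut C :=
    { toFun := fun x => ⟨β x, hmem x x.2⟩
      invFun := fun x => ⟨β⁻¹ x, hmem' x x.2⟩
      left_inv := fun x => Subtype.ext (by simp)
      right_inv := fun x => Subtype.ext (by simp)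
      map_mul' := fun x y => Subtype.ext (by simp) }
  have hφ : ∀ n : ℕ, ∀ x : C, (((φ ^ n) x : C) : P) = (β ^ n) x := by
    intro n
    induction n with
    | zero => intro x; simp
    | succ n ih =>
      intro x
      rw [pow_succ, pow_succ, MulAut.mul_apply, MulAut.mul_apply, ih]
      rfl
  have hCp : IsPGroup 2 C := hP.to_subgroup C
  have hφ1 : φ = 1 := by
    have h1 : φ ^ orderOf β = 1 := by
      ext x
      rw [hφ, pow_orderOf_eq_one]
      simp
    have hd1 : orderOf φ ∣ orderOf β := orderOf_dvd_of_pow_eq_one h1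
    obtain ⟨e, he⟩ := IsPGroup.iff_card.mp hCp
    have hd2 : orderOf φ ∣ Nat.totient (Nat.card C) := by
      rw [← IsCyclic.card_mulAut]
      exact orderOf_dvd_natCard φ
    rw [he] at hd2
    have hd3 : Nat.Coprime (orderOf φ) 2 := by
      refine (Nat.coprime_comm).mp ((Nat.Prime.coprime_iff_not_dvd Nat.prime_two).mpr ?_)
      exact fun h => hodd (h.trans hd1)
    have hd4 : orderOf φ = 1 := by
      rcases Nat.eq_zero_or_pos e with rfl | he0
      · simp at hd2
        exact orderOf_eq_one_iff.mpr hd2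
      · rw [Nat.totient_prime_pow Nat.prime_two he0] at hd2
        have h5 : Nat.Coprime (orderOf φ) (2 ^ (e - 1) * (2 - 1)) := by
          simpa using Nat.Coprime.pow_right (e - 1) hd3
        exact Nat.eq_one_of_dvd_coprimes h5 (dvd_refl _) hd2
    exact orderOf_eq_one_iff.mp hd4
  have hCfix : ∀ x ∈ C, β x = x := by
    intro x hx
    have : φ ⟨x, hx⟩ = ⟨x, hx⟩ := by rw [hφ1]; rfl
    exact congrArg Subtype.val this
  ext t
  by_cases ht : t ∈ C
  · simpa using hCfix t ht
  · have hβt : β t ∉ C := by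
      intro h
      apply ht
      have := hmem' _ h
      simpa using this
    have hc : t⁻¹ * β t ∈ C := by
      rw [Subgroup.mul_mem_iff_of_index_two hCi, Subgroup.inv_mem_iff]
      exact iff_of_false ht hβt
    set c := t⁻¹ * β t with hcdef
    have hβc := hCfix c hc
    have e1 : β t = t * c := by rw [hcdef]; group
    have hpow : ∀ n : ℕ, (β ^ n) t = t * c ^ n := by
      intro n
      induction n with
      | zero => simp
      | succ n ih =>
        rw [pow_succ', MulAut.mul_apply, ih, map_mul, map_pow, hβc, e1, pow_succ']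
        group
    have h2 := hpow (orderOf β)
    rw [pow_orderOf_eq_one] at h2
    have h3 : c ^ orderOf β = 1 := by
      have h4 : t = t * c ^ orderOf β := by simpa using h2
      exact mul_eq_left.mp h4.symm
    obtain ⟨k, hk⟩ := hP c
    have hd1 : orderOf c ∣ orderOf β := orderOf_dvd_of_pow_eq_one h3
    have hd2 : orderOf c ∣ 2 ^ k := orderOf_dvd_of_pow_eq_one hk
    have hd3 : Nat.Coprime (orderOf c) (2 ^ k) := by
      refine Nat.Coprime.pow_right k ((Nat.coprime_comm).mp ((Nat.Prime.coprime_iff_not_dvd Nat.prime_two).mpr ?_))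
      exact fun h => hodd (h.trans hd1)
    have hc1 : c = 1 := orderOf_eq_one_iff.mp (Nat.eq_one_of_dvd_coprimes hd3 (dvd_refl _) hd2)
    rw [e1, hc1, mul_one]
    simp


/-- Let P be a finite non-abelian 2-group whose commutator subgroup has index 4 and whose automorphism group is not a 2-group (some automorphism has order that is not a power of 2). Then P is isomorphic to the quaternion group of order 8. -/
theorem result {P : Type*} [Group P] [Finite P] (hP : IsPGroup 2 P) (hna : ¬ IsMulCommutative P) (h4 : (commutator P).index = 4) (haut : ¬ IsPGroup 2 (MulAut P)) : Nonempty (P ≃* QuaternionGroup 2) := by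
  classical
  haveI h2p : Fact (Nat.Prime 2) := ⟨Nat.prime_two⟩
  obtain ⟨n, hn⟩ := IsPGroup.iff_card.mp hP
  have hn3 : 3 ≤ n := by
    by_contra hlt
    push Not at hlt
    have h1 : 4 ∣ 2 ^ n := by
      rw [← hn, ← Subgroup.card_mul_index (commutator P), h4]
      exact dvd_mul_left _ _
    have hn2 : n = 2 := by
      have hle : 2 ≤ n := by
        by_contra h
        have : n = 0 ∨ n = 1 := by omega
        rcases this with rfl | rfl <;> norm_num at h1
      omega
    subst hn2
    exact hna (IsPGroup.isMulCommutative_of_card_eq_prime_sq hn)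
  have hcl := Cfsg.Agent.Lib.Transfer.class_of_index_commutator n P hn3 hn h4
  obtain ⟨C, hCc, hCi⟩ := Cfsg.Agent.Lib.Transfer.exists_cyclic_index_two n P hn3 hn hcl
  -- an automorphism of odd order
  obtain ⟨β, hβ1, hβodd⟩ : ∃ β : MulAut P, β ≠ 1 ∧ ¬ 2 ∣ orderOf β := by
    haveI : Finite (MulAut P) := Finite.of_injective (fun f : MulAut P => (f : P → P)) DFunLike.coe_injective
    unfold IsPGroup at haut
    push Not at haut
    obtain ⟨α, hα⟩ := haut
    obtain ⟨a, b, hab, hc, ⟨k, hk⟩, hb, -, -⟩ := exists_pPart 2 α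
    refine ⟨b, ?_, hb⟩
    rintro rfl
    rw [mul_one] at hab
    apply hα k
    rw [hab, ← hk]
    exact pow_orderOf_eq_one a
  have hne : C.map (β : P →* P) ≠ C := fun h => hβ1 (eq_one_of_fix hP C hCc hCi β hβodd h)
  set C' : Subgroup P := C.map (β : P →* P) with hC'
  obtain ⟨a, ha⟩ := hCc.exists_generator
  obtain ⟨a0, ha0⟩ : ∃ a0 : P, a0 = (a : P) := ⟨_, rfl⟩
  have haC : a0 ∈ C := ha0 ▸ a.2
  have hCz : C = zpowers a0 := by
    apply le_antisymm
    · intro x hx
      obtain ⟨k, hk⟩ := mem_zpowers_iff.mp (ha ⟨x, hx⟩)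
      refine mem_zpowers_iff.mpr ⟨k, ?_⟩
      have := congrArg Subtype.val hk
      rw [ha0]
      exact this
    · rw [zpowers_le]; exact haC
  obtain ⟨b, hb⟩ : ∃ b : P, b = β a0 := ⟨_, rfl⟩
  have hC'z : C' = zpowers b := by
    rw [hC', hCz, MonoidHom.map_zpowers, hb]
    rfl
  have hbC' : b ∈ C' := by rw [hC'z]; exact mem_zpowers b
  have hcardC' : Nat.card C' = Nat.card C :=
    Subgroup.card_map_of_injective (f := (β : P →* P)) β.injective
  have hmulC := Subgroup.card_mul_index C
  have hmulC' := Subgroup.card_mul_index C'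
  have hC'i : C'.index = 2 := by
    rw [hcardC'] at hmulC'
    have hpos : 0 < Nat.card C := Nat.card_pos
    have h0 := hmulC
    rw [hCi] at h0
    exact Nat.eq_of_mul_eq_mul_left hpos (hmulC'.trans h0.symm)
  haveI hCn : C.Normal := Subgroup.normal_of_index_eq_two hCi
  haveI hC'n : C'.Normal := Subgroup.normal_of_index_eq_two hC'i
  have hbC : b ∉ C := by
    intro h
    apply hne
    apply Subgroup.eq_of_le_of_card_ge
    · rw [hC'z, zpowers_le]; exact h
    · exact hcardC'.ge
  have hdec : ∀ g : P, ∃ (i : ℤ) (j : ℕ), g = a0 ^ i * b ^ j := by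
    intro g
    by_cases hg : g ∈ C
    · rw [hCz] at hg
      obtain ⟨i, hi⟩ := mem_zpowers_iff.mp hg
      exact ⟨i, 0, by simp [hi]⟩
    · have h1 : g * b⁻¹ ∈ C := by
        rw [Subgroup.mul_mem_iff_of_index_two hCi, Subgroup.inv_mem_iff]
        exact iff_of_false hg hbC
      rw [hCz] at h1
      obtain ⟨i, hi⟩ := mem_zpowers_iff.mp h1
      refine ⟨i, 1, ?_⟩
      rw [hi, pow_one]
      group
  have hCcomm : ∀ x ∈ C, ∀ y ∈ C, x * y = y * x := by
    intro x hx y hy
    rw [hCz] at hx hy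
    obtain ⟨i, rfl⟩ := mem_zpowers_iff.mp hx
    obtain ⟨j, rfl⟩ := mem_zpowers_iff.mp hy
    exact ((Commute.refl a0).zpow_zpow i j).eq
  have hC'comm : ∀ x ∈ C', ∀ y ∈ C', x * y = y * x := by
    intro x hx y hy
    rw [hC'z] at hx hy
    obtain ⟨i, rfl⟩ := mem_zpowers_iff.mp hx
    obtain ⟨j, rfl⟩ := mem_zpowers_iff.mp hy
    exact ((Commute.refl b).zpow_zpow i j).eq
  obtain ⟨z, hz⟩ : ∃ z : P, z = a0 * b * a0⁻¹ * b⁻¹ := ⟨_, rfl⟩
  have hzC : z ∈ C := by
    have e : z = a0 * (b * a0⁻¹ * b⁻¹) := by rw [hz]; group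
    rw [e]
    exact C.mul_mem haC (hCn.conj_mem _ (C.inv_mem haC) b)
  have hzC' : z ∈ C' := by
    rw [hz]
    exact C'.mul_mem (hC'n.conj_mem _ hbC' a0) (C'.inv_mem hbC')
  have hza : z * a0 = a0 * z := hCcomm z hzC a0 haC
  have hzb : z * b = b * z := hC'comm z hzC' b hbC'
  have hzcent : ∀ g : P, g * z = z * g := by
    intro g
    obtain ⟨i, j, rfl⟩ := hdec g
    have c1 : Commute z (a0 ^ i) := (show Commute z a0 from hza).zpow_right i
    have c2 : Commute z (b ^ j) := (show Commute z b from hzb).pow_right j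
    exact ((c1.mul_right c2).eq).symm
  have ha2b : a0 ^ 2 * b = b * a0 ^ 2 :=
    hC'comm _ (Subgroup.sq_mem_of_index_two hC'i a0) _ hbC'
  have hzz : z * z = 1 := by
    have e1 : a0 * b * a0⁻¹ = z * b := by rw [hz]; group
    have e2 : a0 ^ 2 * b * (a0 ^ 2)⁻¹ = z * z * b := by
      calc a0 ^ 2 * b * (a0 ^ 2)⁻¹ = a0 * (a0 * b * a0⁻¹) * a0⁻¹ := by rw [pow_two]; group
        _ = a0 * z * b * a0⁻¹ := by rw [e1]; group
        _ = z * (a0 * b * a0⁻¹) := by rw [← hza]; group
        _ = z * z * b := by rw [e1]; group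
    have e3 : a0 ^ 2 * b * (a0 ^ 2)⁻¹ = b := by rw [ha2b]; group
    rw [e3] at e2
    exact (mul_eq_right.mp e2.symm)
  let N : Subgroup P := zpowers z
  haveI hNn : N.Normal := ⟨by
    intro n hn g
    obtain ⟨k, rfl⟩ := mem_zpowers_iff.mp hn
    have c1 : Commute g (z ^ k) := (show Commute g z from hzcent g).zpow_right k
    rw [c1.eq]
    simpa using hn⟩
  have hmk : (QuotientGroup.mk' N) z = 1 := (QuotientGroup.eq_one_iff z).mpr (mem_zpowers z)
  have hAB : Commute (QuotientGroup.mk' N a0) (QuotientGroup.mk' N b) := by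
    have e : a0 * b = z * (b * a0) := by rw [hz]; group
    show _ * _ = _ * _
    rw [← map_mul, e, map_mul, hmk, one_mul, map_mul]
  have hQ : ∀ g h : P, Commute (QuotientGroup.mk' N g) (QuotientGroup.mk' N h) := by
    intro g h
    obtain ⟨i, j, rfl⟩ := hdec g
    obtain ⟨k, l, rfl⟩ := hdec h
    simp only [map_mul, map_zpow, map_pow]
    refine Commute.mul_left (Commute.mul_right ?_ ?_) (Commute.mul_right ?_ ?_)
    · exact (Commute.refl _).zpow_zpow i k
    · exact (hAB.zpow_left i).pow_right l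
    · exact ((hAB.symm.pow_left j).zpow_right k)
    · exact (Commute.refl _).pow_pow j l
  have hcomN : commutator P ≤ N := by
    rw [_root_.commutator_def, Subgroup.commutator_le]
    intro g _ h _
    rw [← QuotientGroup.ker_mk' N, MonoidHom.mem_ker, commutatorElement_def]
    simp only [map_mul, map_inv]
    rw [(hQ g h).eq]
    group
  -- the order is eight
  have hzne : z ≠ 1 := by
    intro h1
    have hb : commutator P = ⊥ := by
      rw [eq_bot_iff]
      refine hcomN.trans ?_
      show zpowers z ≤ ⊥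
      rw [h1, zpowers_one_eq_bot]
    rw [hb, Subgroup.index_bot, hn] at h4
    have h5 : (2 : ℕ) ^ 3 ≤ 2 ^ n := Nat.pow_le_pow_right (by norm_num) hn3
    omega
  have hzo : orderOf z = 2 := orderOf_eq_prime (by rw [pow_two]; exact hzz) hzne
  have hcom2 : Nat.card (commutator P) ≤ 2 := by
    have h1 := Subgroup.card_le_of_le hcomN
    have h2 : Nat.card N = 2 := by
      show Nat.card (zpowers z) = 2
      rw [Nat.card_zpowers, hzo]
    omega
  have hcard8 : Nat.card P = 8 := by
    have h1 := Subgroup.card_mul_index (commutator P)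
    rw [h4] at h1
    have h5 : (2 : ℕ) ^ 3 ≤ 2 ^ n := Nat.pow_le_pow_right (by norm_num) hn3
    rw [hn] at h1 ⊢
    omega
  have hao : orderOf a0 = 4 := by
    rw [← Nat.card_zpowers, ← hCz]
    rw [hCi, hcard8] at hmulC
    omega
  have hbo : orderOf b = 4 := by
    rw [hb]
    have : orderOf (β a0) = orderOf a0 := MulEquiv.orderOf_eq β a0
    rw [this, hao]
  have key : ∀ c : P, orderOf c = 4 → z ∈ zpowers c → z = c ^ 2 := by
    intro c hc hzc
    have hzc' : z ∈ Submonoid.powers c := mem_powers_iff_mem_zpowers.mpr hzc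
    obtain ⟨k, hk⟩ := hzc'
    have hk' : c ^ (k % 4) = z := by
      rw [← hc, pow_mod_orderOf]; exact hk
    have hlt : k % 4 < 4 := Nat.mod_lt _ (by norm_num)
    have hc2 : c ^ 2 ≠ 1 := pow_ne_one_of_lt_orderOf (by norm_num) (by omega)
    have hc3 : c ^ 4 = 1 := by rw [← hc]; exact pow_orderOf_eq_one c
    generalize k % 4 = r at hk' hlt
    interval_cases r
    · rw [pow_zero] at hk'
      exact absurd hk'.symm hzne
    · rw [pow_one] at hk'
      rw [← hk'] at hzz
      rw [pow_two] at hc2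
      exact absurd hzz hc2
    · exact hk'.symm
    · exfalso
      apply hc2
      have e : (c ^ 3) * (c ^ 3) = c ^ 4 * c ^ 2 := by
        rw [← pow_add, ← pow_add]
      rw [← hk', e, hc3, one_mul] at hzz
      exact hzz
  have hza2 := key a0 hao (by rw [← hCz]; exact hzC)
  have hzb2 := key b hbo (by rw [← hC'z]; exact hzC')
  have hrel : b * a0 * b⁻¹ = a0⁻¹ := by
    have e1 : b * a0⁻¹ * b⁻¹ = a0⁻¹ * z := by rw [hz]; group
    have e2 : a0⁻¹ * z = a0 := by rw [hza2, pow_two]; group
    have e3 : b * a0 * b⁻¹ = (b * a0⁻¹ * b⁻¹)⁻¹ := by group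
    rw [e3, e1, e2]
  exact Cfsg.Agent.Lib.TwoGroups.nonempty_mulEquiv_quaternion_of (m := 2) a0 b (by rw [hao])
    (by rw [← pow_two, ← hzb2, hza2]) hrel (by rw [← hCz]; exact hbC) (by rw [hcard8])

end Cfsg.Agent.S4189
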