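import Cfsg.Statements.S4194
import Cfsg.Agent.Lib.Struct.CaminaHerzog

set_option autoImplicit false
open Cfsg

namespace Cfsg.Agent.S4194

/-- A finite group G has commutative Sylow 2-subgroups if and only if every 2-element of G (element of order a power of 2) is 2-central, that is, its centralizer contains a Sylow 2-subgroup of G. -/
theorem result {G : Type*} [Group G] [Finite G] (P : Sylow 2 G) :
    IsMulCommutative (P : Subgroup G) ↔ ∀ x : G, (∃ k : ℕ, orderOf x = 2 ^ k) → (∃ Q : Sylow 2 G, (Q : Subgroup G) ≤ Subgroup.centralizer ({x} : Set G)) := by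
  constructor
  · intro h
    exact Cfsg.Agent.Lib.Struct.CaminaHerzog.allCentral_of_abelian P h
  · intro h
    exact Cfsg.Agent.Lib.Struct.CaminaHerzog.abelian_of_allCentral h P

end Cfsg.Agent.S4194
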