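import Cfsg.Statements.S4195
import Cfsg.Agent.Lib.Struct.Basic

set_option autoImplicit false
open Cfsg

namespace Cfsg.Agent.S4195

/-- Let x be a non-identity element of a finite group G whose centralizer contains a Sylow 2-subgroup of G. If x is conjugate to its inverse, then x has order 2. -/
theorem result {G : Type*} [Group G] [Finite G] (x : G) (hx : x ≠ 1) (P : Sylow 2 G) (hP : (P : Subgroup G) ≤ Subgroup.centralizer ({x} : Set G)) (hreal : IsConj x x⁻¹) : orderOf x = 2 := by
  classical
  have hodd : ¬ 2 ∣ (Subgroup.centralizer ({x} : Set G)).index :=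
    Lib.Struct.not_dvd_index_of_sylow_le P hP
  rw [← Lib.Struct.card_isConj_eq_index] at hodd
  letI : Fintype G := Fintype.ofFinite G
  -- the inversion map on the class
  have hinv : ∀ y : {y : G // IsConj x y}, IsConj x (y : G)⁻¹ := by
    intro y
    have h1 : IsConj (x⁻¹) ((y : G)⁻¹) := by
      obtain ⟨c, hc⟩ := isConj_iff.mp y.2
      exact isConj_iff.mpr ⟨c, by rw [← hc]; group⟩
    exact hreal.trans h1
  let σ : Equiv.Perm {y : G // IsConj x y} :=
    { toFun := fun y => ⟨(y : G)⁻¹, hinv y⟩
      invFun := fun y => ⟨(y : G)⁻¹, hinv y⟩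
      left_inv := fun y => by ext; simp
      right_inv := fun y => by ext; simp }
  have hσ : σ ^ 2 = 1 := by
    ext y
    simp [σ, pow_two]
  have h2 := Equiv.Perm.two_dvd_card_support hσ
  -- so a fixed point exists
  have hfix : ∃ y : {y : G // IsConj x y}, σ y = y := by
    by_contra hno
    push Not at hno
    apply hodd
    have : σ.support = Finset.univ := by
      ext y
      simp [Equiv.Perm.mem_support, hno y]
    rw [this] at h2
    rwa [Nat.card_eq_fintype_card, ← Finset.card_univ]
  obtain ⟨y, hy⟩ := hfix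
  have hy' : (y : G)⁻¹ = y := congrArg Subtype.val hy
  have hy2 : (y : G) ^ 2 = 1 := by
    rw [pow_two]
    nth_rewrite 1 [← hy']
    simp
  have hx2 : x ^ 2 = 1 := by
    obtain ⟨c, hc⟩ := isConj_iff.mp y.2
    have : (c * x * c⁻¹) ^ 2 = 1 := by rw [hc]; exact hy2
    rw [conj_pow] at this
    exact conj_eq_one_iff.mp this
  exact orderOf_eq_prime hx2 hx

end Cfsg.Agent.S4195
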