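import Cfsg.Statements.S4196
import Cfsg.Agent.S4195

set_option autoImplicit false
open Cfsg

namespace Cfsg.Agent.S4196

theorem sylow_two_element_mem {G : Type*} [Group G] [Finite G] (x : G) (k : ℕ) (hk : orderOf x = 2 ^ k) :
    ∃ Q : Sylow 2 G, x ∈ (Q : Subgroup G) := by
  have hp : IsPGroup 2 (Subgroup.zpowers x) := by
    rw [IsPGroup.iff_card, Nat.card_zpowers, hk]
    exact ⟨k, rfl⟩
  obtain ⟨Q, hQ⟩ := hp.exists_le_sylow
  exact ⟨Q, hQ (Subgroup.mem_zpowers x)⟩

theorem conj_mem_sylow {G : Type*} [Group G] [Finite G] (P Q : Sylow 2 G) :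
    ∃ g : G, ∀ y ∈ (Q : Subgroup G), g⁻¹ * y * g ∈ (P : Subgroup G) := by
  obtain ⟨g, hg⟩ := MulAction.exists_smul_eq G P Q
  refine ⟨g, fun y hy => ?_⟩
  rw [← hg] at hy
  have : y ∈ (P : Subgroup G).map (MulAut.conj g).toMonoidHom := hy
  obtain ⟨z, hz, hzy⟩ := this
  simp only [MulEquiv.toMonoidHom_eq_coe, MonoidHom.coe_coe, MulAut.conj_apply] at hzy
  rw [← hzy]
  have e : g⁻¹ * (g * z * g⁻¹) * g = z := by group
  rw [e]
  exact hz

/-- A finite group G has elementary abelian Sylow 2-subgroups (commutative with every element squaring to the identity) if and only if every 2-element of G has a Sylow 2-subgroup in its centralizer and is conjugate to its inverse. -/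
theorem result {G : Type*} [Group G] [Finite G] (P : Sylow 2 G) :
    (IsMulCommutative (P : Subgroup G) ∧ ∀ x ∈ (P : Subgroup G), x ^ 2 = 1) ↔
      ∀ x : G, (∃ k : ℕ, orderOf x = 2 ^ k) → (∃ Q : Sylow 2 G, (Q : Subgroup G) ≤ Subgroup.centralizer ({x} : Set G)) ∧ IsConj x x⁻¹ := by
  constructor
  · rintro ⟨hcomm, hexp⟩ x ⟨k, hk⟩
    obtain ⟨Q, hxQ⟩ := sylow_two_element_mem x k hk
    obtain ⟨g, hg⟩ := conj_mem_sylow P Q
    constructor
    · refine ⟨Q, ?_⟩
      intro y hy
      rw [Subgroup.mem_centralizer_singleton_iff]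
      have h1 := hg x hxQ
      have h2 := hg y hy
      have h3 : (g⁻¹ * y * g) * (g⁻¹ * x * g) = (g⁻¹ * x * g) * (g⁻¹ * y * g) := by
        have := hcomm.is_comm.comm (⟨_, h2⟩ : (P : Subgroup G)) ⟨_, h1⟩
        simpa using congrArg Subtype.val this
      have h4 : g⁻¹ * (y * x) * g = g⁻¹ * (x * y) * g := by
        simpa [mul_assoc] using h3
      have h5 : y * x = x * y := by simpa using h4
      exact h5
    · have h1 := hexp _ (hg x hxQ)
      have h2 : x ^ 2 = 1 := by
        have e : g⁻¹ * x * g = g⁻¹ * x * (g⁻¹)⁻¹ := by simp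
        rw [e, conj_pow] at h1
        exact conj_eq_one_iff.mp h1
      have h3 : x⁻¹ = x := by
        rw [pow_two] at h2
        exact inv_eq_of_mul_eq_one_left h2
      rw [h3]
  · intro h
    have hexp : ∀ x ∈ (P : Subgroup G), x ^ 2 = 1 := by
      intro x hx
      by_cases hx1 : x = 1
      · simp [hx1]
      have hord : ∃ k : ℕ, orderOf x = 2 ^ k := by
        have := (IsPGroup.iff_orderOf.mp P.isPGroup' ⟨x, hx⟩)
        simpa using this
      obtain ⟨⟨Q, hQ⟩, hreal⟩ := h x hord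
      have := S4195.result x hx1 Q hQ hreal
      rw [← this]
      exact pow_orderOf_eq_one x
    refine ⟨?_, hexp⟩
    refine ⟨⟨fun a b => ?_⟩⟩
    have ha := hexp a a.2
    have hb := hexp b b.2
    have hab := hexp (a * b) (a * b).2
    ext
    have e1 : (a : G)⁻¹ = a := inv_eq_of_mul_eq_one_left (by simpa [pow_two] using ha)
    have e2 : (b : G)⁻¹ = b := inv_eq_of_mul_eq_one_left (by simpa [pow_two] using hb)
    have e3 : ((a : G) * b)⁻¹ = a * b := inv_eq_of_mul_eq_one_left (by simpa [pow_two] using hab)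
    rw [mul_inv_rev, e1, e2] at e3
    simpa using e3.symm

end Cfsg.Agent.S4196
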