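import Cfsg.Statements.S4250
import Cfsg.Agent.Lib.Struct.AlperinGroup

set_option autoImplicit false
open Cfsg

namespace Cfsg.Agent.S4250


open scoped commutatorElement

/-- Let P be a Sylow p-subgroup of a finite group G. Call an intersection H = P ∩ Q with a Sylow p-subgroup Q tame when N_P(H) and N_Q(H) are Sylow p-subgroups of N_G(H). Then P ∩ G′ is generated by [P, N_G(P)] together with the commutator subgroups [P ∩ Q, ⟨x⟩] for all tame intersections P ∩ Q and all p-elements x of N_G(P ∩ Q). -/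
theorem result {G : Type*} [Group G] [Finite G] (p : ℕ) [Fact p.Prime] (P : Sylow p G) :
    (P : Subgroup G) ⊓ commutator G =
      ⁅(P : Subgroup G), Subgroup.normalizer ((P : Subgroup G) : Set G)⁆ ⊔
        ⨆ (Q : Sylow p G) (_ : (¬ p ∣ ((P : Subgroup G) ⊓ Subgroup.normalizer (((P : Subgroup G) ⊓ (Q : Subgroup G) : Subgroup G) : Set G)).relIndex (Subgroup.normalizer (((P : Subgroup G) ⊓ (Q : Subgroup G) : Subgroup G) : Set G)) ∧ ¬ p ∣ ((Q : Subgroup G) ⊓ Subgroup.normalizer (((P : Subgroup G) ⊓ (Q : Subgroup G) : Subgroup G) : Set G)).relIndex (Subgroup.normalizer (((P : Subgroup G) ⊓ (Q : Subgroup G) : Subgroup G) : Set G))))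
          (x : G) (_ : x ∈ Subgroup.normalizer (((P : Subgroup G) ⊓ (Q : Subgroup G) : Subgroup G) : Set G) ∧ ∃ k : ℕ, orderOf x = p ^ k),
          ⁅(P : Subgroup G) ⊓ (Q : Subgroup G), Subgroup.zpowers x⁆ := by
  classical
  set B := ⁅(P : Subgroup G), Subgroup.normalizer ((P : Subgroup G) : Set G)⁆ ⊔
        ⨆ (Q : Sylow p G) (_ : (¬ p ∣ ((P : Subgroup G) ⊓ Subgroup.normalizer (((P : Subgroup G) ⊓ (Q : Subgroup G) : Subgroup G) : Set G)).relIndex (Subgroup.normalizer (((P : Subgroup G) ⊓ (Q : Subgroup G) : Subgroup G) : Set G)) ∧ ¬ p ∣ ((Q : Subgroup G) ⊓ Subgroup.normalizer (((P : Subgroup G) ⊓ (Q : Subgroup G) : Subgroup G) : Set G)).relIndex (Subgroup.normalizer (((P : Subgroup G) ⊓ (Q : Subgroup G) : Subgroup G) : Set G))))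
          (x : G) (_ : x ∈ Subgroup.normalizer (((P : Subgroup G) ⊓ (Q : Subgroup G) : Subgroup G) : Set G) ∧ ∃ k : ℕ, orderOf x = p ^ k),
          ⁅(P : Subgroup G) ⊓ (Q : Subgroup G), Subgroup.zpowers x⁆ with hB
  have hr : Equivalence (fun x y : G => x⁻¹ * y ∈ B) :=
    { refl := fun x => by simp [Subgroup.one_mem]
      symm := fun {x y} h => by
        have := B.inv_mem h
        simpa using this
      trans := fun {x y z} h1 h2 => by
        have := B.mul_mem h1 h2
        have e : x⁻¹ * y * (y⁻¹ * z) = x⁻¹ * z := by group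
        rwa [e] at this }
  have key := Cfsg.Agent.Lib.Struct.alperin_rel P _ hr
    (by
      intro g hg x hx
      have h1 : ⁅x⁻¹, g⁆ ∈ ⁅(P : Subgroup G), Subgroup.normalizer ((P : Subgroup G) : Set G)⁆ :=
        Subgroup.commutator_mem_commutator (Subgroup.inv_mem _ hx) hg
      have h2 := (le_sup_left : _ ≤ B) h1
      have e : x⁻¹ * (g * x * g⁻¹) = ⁅x⁻¹, g⁆ := by
        rw [commutatorElement_def]; group
      show x⁻¹ * (g * x * g⁻¹) ∈ B
      rw [e]; exact h2)
    (by
      intro Q w t1 t2 hw hpw x hx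
      have h1 : ⁅x⁻¹, w⁆ ∈ ⁅(P : Subgroup G) ⊓ (Q : Subgroup G), Subgroup.zpowers w⁆ :=
        Subgroup.commutator_mem_commutator (Subgroup.inv_mem _ hx) (Subgroup.mem_zpowers w)
      have h2 : ⁅x⁻¹, w⁆ ∈ B := by
        rw [hB]
        apply Subgroup.mem_sup_right
        exact Subgroup.mem_iSup_of_mem Q (Subgroup.mem_iSup_of_mem ⟨t1, t2⟩
          (Subgroup.mem_iSup_of_mem w (Subgroup.mem_iSup_of_mem ⟨hw, hpw⟩ h1)))
      have e : x⁻¹ * (w * x * w⁻¹) = ⁅x⁻¹, w⁆ := by
        rw [commutatorElement_def]; group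
      show x⁻¹ * (w * x * w⁻¹) ∈ B
      rw [e]; exact h2)
  apply le_antisymm
  · rw [inf_comm, Subgroup.commutator_inf_eq_focalSubgroup P, Subgroup.focalSubgroup_def, Subgroup.closure_le]
    rintro g ⟨hg, x, hx, u, rfl⟩
    have h1 : u * x⁻¹ * u⁻¹ ∈ (P : Subgroup G) := by
      have e : u * x⁻¹ * u⁻¹ = x⁻¹ * ⁅x, u⁆ := by rw [commutatorElement_def]; group
      rw [e]; exact Subgroup.mul_mem _ (Subgroup.inv_mem _ hx) hg
    have h2 := key u x⁻¹ (Subgroup.inv_mem _ hx) h1
    have e : ⁅x, u⁆ = (x⁻¹)⁻¹ * (u * x⁻¹ * u⁻¹) := by rw [commutatorElement_def]; group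
    rw [SetLike.mem_coe, e]; exact h2
  · refine sup_le ?_ ?_
    · refine le_inf ?_ (Subgroup.commutator_mono le_top le_top)
      rw [Subgroup.commutator_le]
      intro a ha g hg
      have h1 : g * a⁻¹ * g⁻¹ ∈ (P : Subgroup G) :=
        (Subgroup.mem_normalizer_iff.mp hg _).mp (Subgroup.inv_mem _ ha)
      have e : ⁅a, g⁆ = a * (g * a⁻¹ * g⁻¹) := by rw [commutatorElement_def]; group
      rw [e]; exact Subgroup.mul_mem _ ha h1
    · refine iSup_le fun Q => iSup_le fun ht => iSup_le fun x => iSup_le fun hx => ?_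
      refine le_inf ?_ (Subgroup.commutator_mono le_top le_top)
      rw [Subgroup.commutator_le]
      intro a ha t ht'
      have htN := (Subgroup.zpowers_le.mpr hx.1) ht'
      have h1 := (Subgroup.mem_normalizer_iff.mp htN _).mp (Subgroup.inv_mem _ ha)
      have e : ⁅a, t⁆ = a * (t * a⁻¹ * t⁻¹) := by rw [commutatorElement_def]; group
      rw [e]
      exact (Subgroup.mul_mem _ ha h1).1

end Cfsg.Agent.S4250
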