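import Cfsg.Statements.S4216
import Cfsg.Agent.S4250

set_option autoImplicit false
open Cfsg

namespace Cfsg.Agent.S4216


open scoped commutatorElement

/-- Grün's first Theorem: if `P` is a Sylow `p`-subgroup of the finite group `G`, then `P ∩ G'` is the subgroup generated by `P ∩ N_G(P)'` together with the subgroups `P ∩ z P' z⁻¹` for all `z ∈ G`, where `'` denotes the derived subgroup and `N_G(P)` the normalizer of `P`. -/
theorem result {G : Type*} [Group G] [Finite G] {p : ℕ} [Fact p.Prime] (P : Sylow p G) : (P : Subgroup G) ⊓ commutator G = ((P : Subgroup G) ⊓ ⁅Subgroup.normalizer ((P : Subgroup G) : Set G), Subgroup.normalizer ((P : Subgroup G) : Set G)⁆) ⊔ ⨆ z : G, (P : Subgroup G) ⊓ (⁅(P : Subgroup G), (P : Subgroup G)⁆).map (MulAut.conj z).toMonoidHom := by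
  apply le_antisymm
  · rw [Cfsg.Agent.S4250.result p P]
    refine sup_le ?_ ?_
    · refine le_trans (le_inf ?_ ?_) le_sup_left
      · rw [Subgroup.commutator_le]
        intro a ha g hg
        have h1 : g * a⁻¹ * g⁻¹ ∈ (P : Subgroup G) :=
          (Subgroup.mem_normalizer_iff.mp hg _).mp (Subgroup.inv_mem _ ha)
        have e : ⁅a, g⁆ = a * (g * a⁻¹ * g⁻¹) := by rw [commutatorElement_def]; group
        rw [e]; exact Subgroup.mul_mem _ ha h1
      · exact Subgroup.commutator_mono Subgroup.le_normalizer le_rfl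
    · refine iSup_le fun Q => iSup_le fun ht => iSup_le fun x => iSup_le fun hx => ?_
      set H := (P : Subgroup G) ⊓ (Q : Subgroup G) with hH
      set N := Subgroup.normalizer (H : Set G) with hN
      let T : Sylow p N := IsPGroup.toSylow (Cfsg.Agent.Lib.Struct.isPGroup_subgroupOf P.2) ht.1
      have hT : (T : Subgroup N) = ((P : Subgroup G) ⊓ N).subgroupOf N := rfl
      have hxp : IsPGroup p (Subgroup.zpowers (⟨x, hx.1⟩ : N)) := by
        obtain ⟨j, hj⟩ := hx.2
        refine IsPGroup.of_card (n := j) ?_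
        rw [Nat.card_zpowers, Subgroup.orderOf_mk, hj]
      obtain ⟨R, hR⟩ := hxp.exists_le_sylow
      obtain ⟨k, hk⟩ := MulAction.exists_smul_eq N T R
      set W := (P : Subgroup G).map (MulAut.conj (k : G)).toMonoidHom with hW
      have hHW : H ≤ W := by
        intro y hy
        refine (Cfsg.Agent.Lib.Struct.mem_map_conj _ _ _).mpr ?_
        have h1 : (k : G)⁻¹ * y * ((k : G)⁻¹)⁻¹ ∈ H :=
          (Subgroup.mem_normalizer_iff.mp (N.inv_mem k.2) y).mp hy
        rw [inv_inv] at h1
        exact h1.1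
      have hxW : x ∈ W := by
        refine (Cfsg.Agent.Lib.Struct.mem_map_conj _ _ _).mpr ?_
        have h1 : (⟨x, hx.1⟩ : N) ∈ R := hR (Subgroup.mem_zpowers _)
        rw [← hk] at h1
        have h2 := Cfsg.Agent.Lib.Transfer.mem_smul_sylow.mp h1
        have h3 : k⁻¹ * (⟨x, hx.1⟩ : N) * k ∈ (T : Subgroup N) := h2
        rw [hT] at h3
        exact h3.1
      have hzW : Subgroup.zpowers x ≤ W := Subgroup.zpowers_le.mpr hxW
      have h4 : ⁅H, Subgroup.zpowers x⁆ ≤ ⁅(P : Subgroup G), (P : Subgroup G)⁆.map (MulAut.conj (k : G)).toMonoidHom := by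
        rw [Subgroup.map_commutator]
        exact Subgroup.commutator_mono hHW hzW
      have h5 : ⁅H, Subgroup.zpowers x⁆ ≤ (P : Subgroup G) := by
        rw [Subgroup.commutator_le]
        intro a ha t ht'
        have htN := (Subgroup.zpowers_le.mpr hx.1) ht'
        have h1 := (Subgroup.mem_normalizer_iff.mp htN _).mp (Subgroup.inv_mem _ ha)
        have e : ⁅a, t⁆ = a * (t * a⁻¹ * t⁻¹) := by rw [commutatorElement_def]; group
        rw [e]
        exact (Subgroup.mul_mem _ ha h1).1
      exact le_sup_of_le_right (le_iSup_of_le (k : G) (le_inf h5 h4))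
  · refine sup_le (inf_le_inf_left _ (Subgroup.commutator_mono le_top le_top)) ?_
    refine iSup_le fun z => inf_le_inf_left _ ?_
    rintro _ ⟨y, hy, rfl⟩
    have h1 : y ∈ commutator G := (Subgroup.commutator_mono le_top le_top) hy
    exact Subgroup.Normal.conj_mem inferInstance y h1 z

end Cfsg.Agent.S4216
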