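import Cfsg.Statements.S4230
-- import your own Cfsg.Agent.* helpers here

set_option autoImplicit false
open Cfsg

namespace Cfsg.Agent.S4230

/-- Let p be an odd prime, q a natural number not divisible by p, and e the multiplicative order of q modulo p. For a natural number f, p divides the value at q of the f-th cyclotomic polynomial if and only if f = e·p^j for some j ≥ 0. -/
theorem result (p q f : ℕ) (hp : p.Prime) (hp2 : p ≠ 2) (hpq : ¬ p ∣ q) :
    ((p : ℤ) ∣ (Polynomial.cyclotomic f ℤ).eval (q : ℤ)) ↔ ∃ j : ℕ, f = orderOf (q : ZMod p) * p ^ j := by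
  classical
  haveI : Fact p.Prime := ⟨hp⟩
  have hq0 : (q : ZMod p) ≠ 0 := by
    rwa [Ne, ZMod.natCast_eq_zero_iff]
  have hordpos : 0 < orderOf (q : ZMod p) := by
    apply orderOf_pos_iff.mpr
    exact isOfFinOrder_iff_pow_eq_one.mpr ⟨p - 1, by have := hp.two_le; omega, ZMod.pow_card_sub_one_eq_one hq0⟩
  have hordcop : ¬ p ∣ orderOf (q : ZMod p) := by
    intro hd
    have h1 : orderOf (q : ZMod p) ∣ p - 1 := ZMod.orderOf_dvd_card_sub_one hq0
    have h2 := hd.trans h1
    have h3 := Nat.le_of_dvd (by have := hp.two_le; omega) h2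
    have := hp.two_le
    omega
  -- the key equivalence for values
  have hval : ∀ n : ℕ, ((p : ℤ) ∣ (Polynomial.cyclotomic n ℤ).eval (q : ℤ)) ↔
      (Polynomial.cyclotomic n (ZMod p)).eval (q : ZMod p) = 0 := by
    intro n
    have h := Polynomial.eval_intCast_map (Int.castRingHom (ZMod p)) (Polynomial.cyclotomic n ℤ) (q : ℤ)
    simp only [Int.cast_natCast, Polynomial.map_cyclotomic_int, eq_intCast, Int.cast_id] at h
    rw [h, ZMod.intCast_zmod_eq_zero_iff_dvd]
  rw [hval]
  by_cases hf : f = 0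
  · subst hf
    simp only [Polynomial.cyclotomic_zero, Polynomial.eval_one, one_ne_zero, false_iff]
    rintro ⟨j, hj⟩
    have := Nat.mul_pos hordpos (pow_pos hp.pos j)
    omega
  -- decompose `f`
  obtain ⟨j, m, hm, hfm⟩ : ∃ j m : ℕ, ¬ p ∣ m ∧ f = p ^ j * m := by
    obtain ⟨j, m, hm, hfm⟩ := Nat.exists_eq_pow_mul_and_not_dvd hf p hp.ne_one
    exact ⟨j, m, hm, hfm⟩
  have hcyc : (Polynomial.cyclotomic f (ZMod p)).eval (q : ZMod p) = 0 ↔
      (Polynomial.cyclotomic m (ZMod p)).eval (q : ZMod p) = 0 := by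
    rw [hfm]
    rcases Nat.eq_zero_or_pos j with hj | hj
    · subst hj; simp
    · rw [Polynomial.cyclotomic_mul_prime_pow_eq (ZMod p) hm hj, Polynomial.eval_pow]
      have : 0 < p ^ j - p ^ (j - 1) := by
        have h1 : p ^ (j - 1) < p ^ j := Nat.pow_lt_pow_right hp.one_lt (by omega)
        omega
      exact pow_eq_zero_iff (by omega)
  rw [hcyc]
  haveI : NeZero ((m : ℕ) : ZMod p) := ⟨by rwa [Ne, ZMod.natCast_eq_zero_iff]⟩
  have hroot : (Polynomial.cyclotomic m (ZMod p)).eval (q : ZMod p) = 0 ↔ orderOf (q : ZMod p) = m := by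
    change Polynomial.IsRoot _ _ ↔ _
    rw [Polynomial.isRoot_cyclotomic_iff]
    constructor
    · intro h
      exact (h.eq_orderOf).symm
    · intro h
      rw [← h]
      exact IsPrimitiveRoot.orderOf _
  rw [hroot]
  constructor
  · intro h
    exact ⟨j, by rw [hfm, h, mul_comm]⟩
  · rintro ⟨j', hj'⟩
    -- compare the decompositions
    have h1 : p ^ j * m = orderOf (q : ZMod p) * p ^ j' := by rw [← hfm, hj']
    have hc1 : (p ^ j).Coprime (orderOf (q : ZMod p)) := by
      exact Nat.Coprime.pow_left _ ((Nat.Prime.coprime_iff_not_dvd hp).mpr hordcop)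
    have hc2 : (m).Coprime (p ^ j') := by
      exact Nat.Coprime.pow_right _ ((Nat.Prime.coprime_iff_not_dvd hp).mpr hm).symm
    have h2 : orderOf (q : ZMod p) ∣ m := by
      have : orderOf (q : ZMod p) ∣ p ^ j * m := ⟨p ^ j', h1⟩
      exact (Nat.Coprime.dvd_of_dvd_mul_left hc1.symm this)
    have h3 : m ∣ orderOf (q : ZMod p) := by
      have : m ∣ orderOf (q : ZMod p) * p ^ j' := ⟨p ^ j, by rw [← h1, mul_comm]⟩
      exact Nat.Coprime.dvd_of_dvd_mul_right hc2 this
    exact Nat.dvd_antisymm h2 h3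

end Cfsg.Agent.S4230
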