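import Cfsg.Statements.S4231
import Cfsg.Agent.Lib.Struct.AutAlt

set_option autoImplicit false
open Cfsg

namespace Cfsg.Agent.S4231

/-- Let n ≥ 5 and let G be a group of automorphisms of the alternating group of degree n containing all inner automorphisms. If p ≠ q are primes and G has no element of order pq, then every Sylow p-subgroup of G is abelian or every Sylow q-subgroup of G is abelian. -/
theorem result (n : ℕ) (hn : 5 ≤ n) (G : Subgroup (MulAut (alternatingGroup (Fin n))))
    (hG : (MulAut.conj : alternatingGroup (Fin n) →* MulAut (alternatingGroup (Fin n))).range ≤ G)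
    (p q : ℕ) [Fact p.Prime] [Fact q.Prime] (hpq : p ≠ q) (h : ∀ g : G, orderOf g ≠ p * q) :
    (∀ P : Sylow p G, IsMulCommutative (P : Subgroup G)) ∨ (∀ Q : Sylow q G, IsMulCommutative (Q : Subgroup G)) := by
  have hsq : ∀ (r : ℕ) [Fact r.Prime], r ≠ 2 → (¬ ∀ P : Sylow r G, IsMulCommutative (P : Subgroup G)) → r ^ 2 ≤ n := by
    intro r _ hr2 hcon
    by_contra hsm
    exact hcon (fun P => Cfsg.Agent.Lib.Struct.AutAlt.sylow_comm_of_small n hn G r hr2 (by omega) P)
  by_contra hcon
  rw [not_or] at hcon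
  obtain ⟨hP, hQ⟩ := hcon
  have hp := (Fact.out : p.Prime)
  have hq := (Fact.out : q.Prime)
  have key : ∀ a : Equiv.Perm (Fin n), a ∈ alternatingGroup (Fin n) → orderOf a ≠ p * q := by
    intro a ha e
    obtain ⟨g, hg⟩ := Cfsg.Agent.Lib.Struct.AutAlt.exists_order_of_perm n hn G hG a ha
    exact h g (hg.trans e)
  by_cases hp2 : p = 2
  · subst hp2
    have hq2 : q ≠ 2 := Ne.symm hpq
    have h1 := hsq q hq2 hQ
    have h3 : 3 ≤ q := by
      have := hq.two_le
      omega
    have h4 : q + 4 ≤ n := by nlinarith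
    obtain ⟨a, ha, ho⟩ := Cfsg.Agent.Lib.Struct.AutAlt.exists_perm_two_odd n q hq hq2 h4
    exact key a ha ho
  by_cases hq2 : q = 2
  · subst hq2
    have h1 := hsq p hp2 hP
    have h3 : 3 ≤ p := by
      have := hp.two_le
      omega
    have h4 : p + 4 ≤ n := by nlinarith
    obtain ⟨a, ha, ho⟩ := Cfsg.Agent.Lib.Struct.AutAlt.exists_perm_two_odd n p hp hp2 h4
    exact key a ha (by rw [ho, mul_comm])
  have h1 := hsq p hp2 hP
  have h2 := hsq q hq2 hQ
  have h3 : 3 ≤ p := by
    have := hp.two_le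
    omega
  have h3' : 3 ≤ q := by
    have := hq.two_le
    omega
  have h4 : p + q ≤ n := by
    rcases le_total p q with h | h <;> nlinarith
  obtain ⟨a, ha, ho⟩ := Cfsg.Agent.Lib.Struct.AutAlt.exists_perm_odd_odd n p q hp hq hp2 hq2 hpq h4
  exact key a ha ho

end Cfsg.Agent.S4231
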