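import Cfsg.Statements.S4234
import Cfsg.Agent.Lib.Struct.PSL13
import Cfsg.Agent.Lib.Classical.PSL2Simple
import Cfsg.Agent.Lib.Classical.SL2Local
import Cfsg.Agent.Lib.Classical.SylowSL2
import Cfsg.Agent.Lib.Classical.Card2

set_option autoImplicit false
open Cfsg

namespace Cfsg.Agent.S4234

/-- Let K be isomorphic to PSL(2, 13) or to SL(2, 13) and let S be a finite abelian group of order coprime to the order of K. Then in the direct product K × S every subgroup that is not normal has a normalizer that is a maximal subgroup. -/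
theorem result {K S : Type*} [Group K] [CommGroup S] [Finite K] [Finite S]
    (hK : Nonempty (K ≃* Matrix.ProjectiveSpecialLinearGroup (Fin 2) (ZMod 13)) ∨
      Nonempty (K ≃* Matrix.SpecialLinearGroup (Fin 2) (ZMod 13)))
    (hKS : (Nat.card K).Coprime (Nat.card S)) (H : Subgroup (K × S)) (hH : ¬ H.Normal) :
    IsCoatom (Subgroup.normalizer (H : Set (K × S))) := by
  classical
  haveI : Fact (Nat.Prime 13) := ⟨by norm_num⟩

  have hodd : Odd (Fintype.card (ZMod 13)) := by rw [ZMod.card]; decide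
  have hSL : Nat.card (Matrix.SpecialLinearGroup (Fin 2) (ZMod 13)) = 2184 := by
    have := Cfsg.Agent.Lib.Classical.card_SL2_eq (F := ZMod 13)
    rw [ZMod.card] at this
    rw [this]; norm_num
  have hZ : Nat.card (Subgroup.center (Matrix.SpecialLinearGroup (Fin 2) (ZMod 13))) = 2 := by
    have := Cfsg.Agent.Lib.Classical.card_center_SL (F := ZMod 13) 2 (by norm_num)
    rw [Nat.card_zmod] at this
    rw [this]
    rfl
  have hPSLc : Nat.card (Matrix.ProjectiveSpecialLinearGroup (Fin 2) (ZMod 13)) = 1092 := by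
    have h1 := Subgroup.card_eq_card_quotient_mul_card_subgroup
      (Subgroup.center (Matrix.SpecialLinearGroup (Fin 2) (ZMod 13)))
    rw [hSL, hZ] at h1
    have h2 : Nat.card (Matrix.ProjectiveSpecialLinearGroup (Fin 2) (ZMod 13)) * 2 = 2184 := h1.symm
    omega
  haveI hsimple : IsSimpleGroup (Matrix.ProjectiveSpecialLinearGroup (Fin 2) (ZMod 13)) :=
    Cfsg.Agent.Lib.Classical.psl_isSimpleGroup_of_four_le (by rw [Nat.card_zmod]; norm_num)
  have hPSL : ∀ L : Subgroup (Matrix.ProjectiveSpecialLinearGroup (Fin 2) (ZMod 13)), L ≠ ⊥ → L ≠ ⊤ →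
      IsCoatom (Subgroup.normalizer (L : Set (Matrix.ProjectiveSpecialLinearGroup (Fin 2) (ZMod 13)))) :=
    fun L h0 h1 => Cfsg.Agent.Lib.Struct.PSL13.main hPSLc L h0 h1
  have hPSL' : ∀ L : Subgroup (Matrix.ProjectiveSpecialLinearGroup (Fin 2) (ZMod 13)), ¬ L.Normal →
      IsCoatom (Subgroup.normalizer (L : Set (Matrix.ProjectiveSpecialLinearGroup (Fin 2) (ZMod 13)))) := by
    intro L hL
    apply hPSL L
    · rintro rfl; exact hL inferInstance
    · rintro rfl; exact hL inferInstance
  have hSLq : ∀ L : Subgroup (Matrix.SpecialLinearGroup (Fin 2) (ZMod 13)), ¬ L.Normal →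
      IsCoatom (Subgroup.normalizer (L : Set (Matrix.SpecialLinearGroup (Fin 2) (ZMod 13)))) := by
    -- the non-identity central element
    have h1 : 1 < Nat.card (Subgroup.center (Matrix.SpecialLinearGroup (Fin 2) (ZMod 13))) := by omega
    haveI : Nontrivial (Subgroup.center (Matrix.SpecialLinearGroup (Fin 2) (ZMod 13))) :=
      Finite.one_lt_card_iff_nontrivial.1 h1
    obtain ⟨⟨z, hzc⟩, hz1⟩ := exists_ne (1 : Subgroup.center (Matrix.SpecialLinearGroup (Fin 2) (ZMod 13)))
    have hz1' : z ≠ 1 := fun h => hz1 (Subtype.ext h)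
    have hzm : (z : Matrix (Fin 2) (Fin 2) (ZMod 13)) = -1 := by
      rcases (Cfsg.Agent.Lib.Classical.sl2_center_iff z).1 hzc with h | h
      · exact absurd h hz1'
      · exact h
    refine Cfsg.Agent.Lib.Struct.PSL13.sl_step
      (QuotientGroup.mk' (Subgroup.center (Matrix.SpecialLinearGroup (Fin 2) (ZMod 13))))
      (QuotientGroup.mk'_surjective _) z ?_ ?_ ?_ ?_ hPSL
    · intro a
      rw [QuotientGroup.ker_mk', Cfsg.Agent.Lib.Classical.sl2_center_iff]
      constructor
      · rintro (h | h)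
        · exact Or.inl h
        · exact Or.inr (Subtype.ext (h.trans hzm.symm))
      · rintro (h | h)
        · exact Or.inl h
        · exact Or.inr (by rw [h]; exact hzm)
    · intro a
      exact (Subgroup.mem_center_iff.1 hzc a)
    · apply Subtype.ext
      show ((z ^ 2 : Matrix.SpecialLinearGroup (Fin 2) (ZMod 13)) : Matrix (Fin 2) (Fin 2) (ZMod 13)) = 1
      rw [Matrix.SpecialLinearGroup.coe_pow, hzm]
      simp
    · intro a ha
      rcases Cfsg.Agent.Lib.Classical.sq_eq_one_center hodd ha with h | h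
      · exact Or.inl h
      · exact Or.inr (Subtype.ext (h.trans hzm.symm))
  have hKq : ∀ L : Subgroup K, ¬ L.Normal → IsCoatom (Subgroup.normalizer (L : Set K)) := by
    rcases hK with ⟨⟨e⟩⟩ | ⟨⟨e⟩⟩
    · exact Cfsg.Agent.Lib.Struct.PSL13.iso_step e hPSL'
    · exact Cfsg.Agent.Lib.Struct.PSL13.iso_step e hSLq
  exact Cfsg.Agent.Lib.Struct.PSL13.product_step hKS hKq H hH

end Cfsg.Agent.S4234
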