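import Cfsg.Statements.S4238
import Cfsg.Agent.Lib.Struct.SecExp

set_option autoImplicit false
open Cfsg

namespace Cfsg.Agent.S4238

open scoped Pointwise commutatorElement

/-- Let G be a finite group and p a prime. Then G has a normal p-complement if and only if every section K = H/N of G (N a normal subgroup of a subgroup H) whose largest normal subgroup of order prime to p is trivial contains an element whose order equals the exponent of K. -/
theorem result {G : Type*} [Group G] [Finite G] (p : ℕ) [Fact p.Prime] :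
    Cfsg.HasNormalPComplement p G ↔
      ∀ (H : Subgroup G) (N : Subgroup H) [N.Normal], Cfsg.pPrimeCore p (H ⧸ N) = ⊥ →
        ∃ k : H ⧸ N, orderOf k = Monoid.exponent (H ⧸ N) := by
  constructor
  · rintro ⟨P, L, hL, hc⟩ H N _ hcore
    have hLc : (Nat.card L).Coprime p := by
      have h1 : (P : Subgroup G).index = Nat.card L := hc.index_eq_card
      rw [← h1]
      exact ((Nat.Prime.coprime_iff_not_dvd (Fact.out : p.Prime)).mpr P.not_dvd_index).symm
    -- `L ∩ H ≤ N`
    have hLH : L.subgroupOf H ≤ N := by
      let π := QuotientGroup.mk' N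
      have hπ : Function.Surjective π := QuotientGroup.mk'_surjective N
      let T : Subgroup (H ⧸ N) := (L.subgroupOf H).map π
      have hTn : T.Normal := (inferInstance : (L.subgroupOf H).Normal).map π hπ
      have hTc : (Nat.card T).Coprime p := by
        have h1 : Nat.card T ∣ Nat.card (L.subgroupOf H) := Subgroup.card_map_dvd _ _
        have h2 : Nat.card (L.subgroupOf H) ∣ Nat.card L := by
          have e : Nat.card (L.subgroupOf H) = Nat.card ((L.subgroupOf H).map H.subtype) :=
            Nat.card_congr ((L.subgroupOf H).equivMapOfInjective _ H.subtype_injective).toEquiv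
          rw [e]
          apply Subgroup.card_dvd_of_le
          rintro _ ⟨x, hx, rfl⟩
          exact hx
        exact Nat.Coprime.coprime_dvd_left (h1.trans h2) hLc
      have hT0 : T = ⊥ := by
        rw [eq_bot_iff, ← hcore]
        exact Cfsg.Agent.Lib.Components.le_pPrimeCore hTn hTc
      intro x hx
      have h3 : π x ∈ T := ⟨x, hx, rfl⟩
      rw [hT0, Subgroup.mem_bot] at h3
      exact (QuotientGroup.eq_one_iff x).mp h3
    have hpg : IsPGroup p (H ⧸ N) := by
      intro g
      obtain ⟨⟨x, hxH⟩, rfl⟩ := QuotientGroup.mk'_surjective N g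
      have hx : x ∈ ((L : Set G) * ((P : Subgroup G) : Set G)) := by
        rw [hc.mul_eq]
        trivial
      obtain ⟨n, hn, s, hs, hns⟩ := Set.mem_mul.mp hx
      obtain ⟨k, hk⟩ := P.isPGroup' ⟨s, hs⟩
      refine ⟨k, ?_⟩
      have hk' : s ^ p ^ k = 1 := congrArg Subtype.val hk
      have hpow : x ^ p ^ k ∈ L := by
        have hq : (QuotientGroup.mk' L) (x ^ p ^ k) = 1 := by
          have h0 : (QuotientGroup.mk' L) n = 1 := (QuotientGroup.eq_one_iff n).mpr hn
          rw [← hns, map_pow, map_mul, h0, one_mul, ← map_pow, hk', map_one]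
        exact (QuotientGroup.eq_one_iff _).mp hq
      have hmem : (⟨x, hxH⟩ : H) ^ p ^ k ∈ L.subgroupOf H := hpow
      have := hLH hmem
      rw [← map_pow]
      exact (QuotientGroup.eq_one_iff _).mpr this
    exact Cfsg.Agent.Lib.Struct.exists_orderOf_eq_exponent_of_isPGroup hpg
  · intro hsec
    apply Cfsg.Agent.Lib.Transfer.hasNormalPComplement_of_stable
    intro D hD g hg hgc
    by_contra hgn
    obtain ⟨y, hy, q, k, hq, hok, hyc⟩ := Cfsg.Agent.Lib.Struct.exists_prime_power_not_mem _ _ g rfl hgn
    haveI : Fact q.Prime := ⟨hq⟩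
    have hyN : y ∈ Subgroup.normalizer (D : Set G) := (Subgroup.zpowers_le.mpr hg) hy
    have hy1 : y ≠ 1 := by
      rintro rfl
      exact hyc (Subgroup.one_mem _)
    have hk0 : k ≠ 0 := by
      rintro rfl
      rw [pow_zero, orderOf_eq_one_iff] at hok
      exact hy1 hok
    have hqp : q ≠ p := by
      rintro rfl
      have h1 : q ∣ orderOf g := (hok ▸ dvd_pow_self q hk0 : q ∣ orderOf y).trans (orderOf_dvd_of_mem_zpowers hy)
      exact hq.one_lt.ne' (Nat.Coprime.eq_one_of_dvd hgc.symm h1)
    let H : Subgroup G := D ⊔ Subgroup.zpowers y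
    have hDH : D ≤ H := le_sup_left
    have hyH : y ∈ H := (le_sup_right : Subgroup.zpowers y ≤ H) (Subgroup.mem_zpowers y)
    let Q' : Subgroup H := D.subgroupOf H
    let y' : H := ⟨y, hyH⟩
    have hHN : H ≤ Subgroup.normalizer (D : Set G) :=
      sup_le Subgroup.le_normalizer (Subgroup.zpowers_le.mpr hyN)
    haveI hQ'n : Q'.Normal := Subgroup.normal_subgroupOf_of_le_normalizer hHN
    have hsupQ : Q' ⊔ Subgroup.zpowers y' = ⊤ := by
      apply Subgroup.map_injective H.subtype_injective
      rw [Subgroup.map_sup, Subgroup.map_subgroupOf_eq_of_le hDH, MonoidHom.map_zpowers,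
        ← MonoidHom.range_eq_map, Subgroup.range_subtype]
      rfl
    have hRne : ⁅Q', Subgroup.zpowers y'⁆ ≠ ⊥ := by
      intro h
      apply hyc
      rw [Subgroup.mem_centralizer_iff]
      intro d hd
      have h1 : ⁅(⟨d, hDH hd⟩ : H), y'⁆ ∈ ⁅Q', Subgroup.zpowers y'⁆ :=
        Subgroup.commutator_mem_commutator (show (⟨d, hDH hd⟩ : H) ∈ Q' from hd) (Subgroup.mem_zpowers y')
      rw [h, Subgroup.mem_bot] at h1
      have h2 := commutatorElement_eq_one_iff_mul_comm.mp h1
      exact congrArg Subtype.val h2
    let S : Set (Subgroup H) := {N | N.Normal ∧ ¬ ⁅Q', Subgroup.zpowers y'⁆ ≤ N}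
    have hbot : (⊥ : Subgroup H) ∈ S := ⟨inferInstance, fun h => hRne (le_bot_iff.mp h)⟩
    obtain ⟨N, -, hN⟩ := (Set.toFinite S).exists_le_maximal hbot
    obtain ⟨hNn, hNR⟩ := hN.prop
    haveI := hNn
    let π : H →* H ⧸ N := QuotientGroup.mk' N
    have hπ : Function.Surjective π := QuotientGroup.mk'_surjective N
    have hker : π.ker = N := QuotientGroup.ker_mk' N
    have hord : orderOf (π y') ∣ q ^ k := by
      have h1 : orderOf y' = orderOf y := Subgroup.orderOf_mk y hyH
      rw [← hok, ← h1]
      exact orderOf_map_dvd π y'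
    obtain ⟨m, -, hm⟩ := (Nat.dvd_prime_pow hq).mp hord
    haveI hQbn : (Q'.map π).Normal := hQ'n.map π hπ
    have hcomm : ⁅Q'.map π, Subgroup.zpowers (π y')⁆ = ⁅Q', Subgroup.zpowers y'⁆.map π := by
      rw [Subgroup.map_commutator, MonoidHom.map_zpowers]
    have hmain := Cfsg.Agent.Lib.Struct.section_analysis (K := H ⧸ N) (p := p) (q := q) hqp (Q'.map π)
      (IsPGroup.map hD.comap_subtype π) (π y') hm
      (by
        rw [← MonoidHom.map_zpowers, ← Subgroup.map_sup, hsupQ, ← MonoidHom.range_eq_map,
          MonoidHom.range_eq_top.mpr hπ])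
      (by
        rw [hcomm]
        intro h
        apply hNR
        rw [← hker]
        exact (Subgroup.map_eq_bot_iff _).mp h)
      (by
        intro T hT hTne
        rw [hcomm, Subgroup.map_le_iff_le_comap]
        by_contra hcon
        have hNT : N ≤ T.comap π := by
          intro x hx
          have h1 : π x = 1 := (QuotientGroup.eq_one_iff x).mpr hx
          show π x ∈ T
          rw [h1]; exact T.one_mem
        have h2 : T.comap π ≤ N := hN.le_of_ge ⟨hT.comap π, hcon⟩ hNT
        apply hTne
        rw [eq_bot_iff]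
        intro t ht
        obtain ⟨x, rfl⟩ := hπ t
        have h3 : x ∈ T.comap π := ht
        have h4 := h2 h3
        rw [Subgroup.mem_bot]
        exact (QuotientGroup.eq_one_iff x).mpr h4)
    obtain ⟨k', hk'⟩ := hsec H N hmain.1
    exact hmain.2 k' hk'

end Cfsg.Agent.S4238
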