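import Cfsg.Statements.S4244
import Cfsg.Agent.Lib.Struct.Basic

set_option autoImplicit false
open Cfsg

namespace Cfsg.Agent.S4244

/-- Let H be a subnormal subgroup of a finite group G. Then for every subgroup K of G the index of H ∩ K in H divides the index of K in G. -/
theorem result {G : Type*} [Group G] [Finite G] (H : Subgroup G) (hH : H.IsSubnormal) (K : Subgroup G) :
    (H ⊓ K).relIndex H ∣ K.index := by
  induction hH with
  | top => 
    have : ((⊤ : Subgroup G) ⊓ K).relIndex (⊤ : Subgroup G) = K.index := by
      simp [Subgroup.relIndex_top_right]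
    rw [this]
  | step H L hle hL hN ih =>
    rw [Subgroup.inf_relIndex_left] at ih ⊢
    have e1 : K.relIndex H = (K.subgroupOf L).relIndex (H.subgroupOf L) :=
      (Subgroup.relIndex_subgroupOf hle).symm
    haveI := hN
    rw [e1, Lib.Struct.relIndex_eq_relIndex_sup (H.subgroupOf L) (K.subgroupOf L)]
    refine dvd_trans ?_ ih
    exact Subgroup.relIndex_dvd_index_of_le le_sup_right

end Cfsg.Agent.S4244
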