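import Cfsg.Statements.S4251
import Cfsg.Agent.Lib.Struct.AlperinGroup
import Cfsg.Agent.Lib.Transfer.Frobenius

set_option autoImplicit false
open Cfsg

namespace Cfsg.Agent.S4251

/-- Let P be a Sylow p-subgroup of a finite group G. Call an intersection H = P ∩ Q with a Sylow p-subgroup Q tame when N_P(H) and N_Q(H) are Sylow p-subgroups of N_G(H). If N_G(H)/C_G(H) is a p-group for every nontrivial tame intersection H = P ∩ Q, then G has a normal p-complement. -/
theorem result {G : Type*} [Group G] [Finite G] (p : ℕ) [Fact p.Prime] (P : Sylow p G)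
    (h : ∀ Q : Sylow p G, (P : Subgroup G) ⊓ (Q : Subgroup G) ≠ ⊥ → (¬ p ∣ ((P : Subgroup G) ⊓ Subgroup.normalizer (((P : Subgroup G) ⊓ (Q : Subgroup G) : Subgroup G) : Set G)).relIndex (Subgroup.normalizer (((P : Subgroup G) ⊓ (Q : Subgroup G) : Subgroup G) : Set G)) ∧ ¬ p ∣ ((Q : Subgroup G) ⊓ Subgroup.normalizer (((P : Subgroup G) ⊓ (Q : Subgroup G) : Subgroup G) : Set G)).relIndex (Subgroup.normalizer (((P : Subgroup G) ⊓ (Q : Subgroup G) : Subgroup G) : Set G))) →
      IsPGroup p (Subgroup.normalizer (((P : Subgroup G) ⊓ (Q : Subgroup G) : Subgroup G) : Set G) ⧸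
        (Subgroup.centralizer (((P : Subgroup G) ⊓ (Q : Subgroup G) : Subgroup G) : Set G)).subgroupOf
          (Subgroup.normalizer (((P : Subgroup G) ⊓ (Q : Subgroup G) : Subgroup G) : Set G)))) :
    Cfsg.HasNormalPComplement p G := by
  classical
  refine Cfsg.Agent.Lib.Transfer.hasNormalPComplement_of_control P ?_
  have hr : Equivalence (fun x y : G => ∃ u ∈ (P : Subgroup G), u * x * u⁻¹ = y) :=
    { refl := fun x => ⟨1, Subgroup.one_mem _, by simp⟩
      symm := by
        rintro x y ⟨u, hu, rfl⟩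
        exact ⟨u⁻¹, Subgroup.inv_mem _ hu, by group⟩
      trans := by
        rintro x y z ⟨u, hu, rfl⟩ ⟨v, hv, rfl⟩
        exact ⟨v * u, Subgroup.mul_mem _ hv hu, by group⟩ }
  -- the local step
  have hloc : ∀ (Q : Sylow p G) (w : G),
      ¬ p ∣ ((P : Subgroup G) ⊓ Subgroup.normalizer (((P : Subgroup G) ⊓ (Q : Subgroup G) : Subgroup G) : Set G)).relIndex
        (Subgroup.normalizer (((P : Subgroup G) ⊓ (Q : Subgroup G) : Subgroup G) : Set G)) →
      ¬ p ∣ ((Q : Subgroup G) ⊓ Subgroup.normalizer (((P : Subgroup G) ⊓ (Q : Subgroup G) : Subgroup G) : Set G)).relIndex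
        (Subgroup.normalizer (((P : Subgroup G) ⊓ (Q : Subgroup G) : Subgroup G) : Set G)) →
      w ∈ Subgroup.normalizer (((P : Subgroup G) ⊓ (Q : Subgroup G) : Subgroup G) : Set G) →
      ∀ x ∈ (P : Subgroup G) ⊓ (Q : Subgroup G), ∃ u ∈ (P : Subgroup G), u * x * u⁻¹ = w * x * w⁻¹ := by
    intro Q w t1 t2 hw x hx
    by_cases hbot : (P : Subgroup G) ⊓ (Q : Subgroup G) = ⊥
    · rw [hbot, Subgroup.mem_bot] at hx
      subst hx
      exact ⟨1, Subgroup.one_mem _, by simp⟩
    have hpq := h Q hbot ⟨t1, t2⟩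
    set H := (P : Subgroup G) ⊓ (Q : Subgroup G) with hH
    set N := Subgroup.normalizer (H : Set G) with hN
    set K := (Subgroup.centralizer (H : Set G)).subgroupOf N with hK
    obtain ⟨j, hj⟩ := Cfsg.Agent.Lib.Transfer.index_eq_pow_of_isPGroup_quotient hpq
    set A := ((P : Subgroup G) ⊓ N).subgroupOf N with hA
    have hAidx : ¬ p ∣ A.index := t1
    have hsup : A ⊔ K = ⊤ := by
      have h1 : (A ⊔ K).index ∣ K.index := Subgroup.index_dvd_of_le le_sup_right
      have h2 : (A ⊔ K).index ∣ A.index := Subgroup.index_dvd_of_le le_sup_left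
      rw [hj] at h1
      obtain ⟨i, -, hi⟩ := (Nat.dvd_prime_pow (Fact.out : p.Prime)).mp h1
      have hi0 : i = 0 := by
        by_contra hne
        apply hAidx
        refine Dvd.dvd.trans ?_ h2
        rw [hi]
        exact dvd_pow_self p hne
      have hone : (A ⊔ K).index = 1 := by rw [hi, hi0, pow_zero]
      exact Subgroup.index_eq_one.mp hone
    have hw' : (⟨w, hw⟩ : N) ∈ A ⊔ K := by rw [hsup]; trivial
    obtain ⟨t, ht, c, hc, htc⟩ := Subgroup.mem_sup_of_normal_right.mp hw'
    refine ⟨t, ht.1, ?_⟩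
    have hwt : w = (t : G) * (c : G) := by
      have := congrArg Subtype.val htc
      simpa using this.symm
    have hcx : (c : G) * x = x * (c : G) := (Subgroup.mem_centralizer_iff.mp hc x hx).symm
    rw [hwt]
    calc (t : G) * x * (t : G)⁻¹ = (t : G) * (x * (c : G)) * (c : G)⁻¹ * (t : G)⁻¹ := by group
      _ = (t : G) * ((c : G) * x) * (c : G)⁻¹ * (t : G)⁻¹ := by rw [hcx]
      _ = _ := by group
  have key := Cfsg.Agent.Lib.Struct.alperin_rel P _ hr
    (by
      intro g hg x hx
      have e : (P : Subgroup G) ⊓ (P : Subgroup G) = P := inf_idem _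
      have t1 : ¬ p ∣ ((P : Subgroup G) ⊓ Subgroup.normalizer (((P : Subgroup G) ⊓ (P : Subgroup G) : Subgroup G) : Set G)).relIndex
          (Subgroup.normalizer (((P : Subgroup G) ⊓ (P : Subgroup G) : Subgroup G) : Set G)) := by
        rw [e, inf_of_le_left Subgroup.le_normalizer]
        intro hd
        apply P.not_dvd_index
        rw [← Subgroup.relIndex_mul_index (Subgroup.le_normalizer (H := (P : Subgroup G)))]
        exact Dvd.dvd.mul_right hd _
      exact hloc P g t1 t1 (by rw [e]; exact hg) x (by rw [e]; exact hx))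
    (by
      intro Q w t1 t2 hw _ x hx
      exact hloc Q w t1 t2 hw x hx)
  rintro x hx y hy ⟨g, rfl⟩
  exact key g x hx hy

end Cfsg.Agent.S4251
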