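import Cfsg.Statements.S4252
import Cfsg.Agent.Lib.Struct.Basic

set_option autoImplicit false
open Cfsg

namespace Cfsg.Agent.S4252

open scoped Pointwise

/-- Let a finite group G act on a finite set Ω with more than one point, transitively but not regularly, so that no non-identity element of G fixes two distinct points. Then the stabilizer H of any point is a Frobenius complement in G (nontrivial, proper, meeting its other conjugates trivially), and the Frobenius kernel of G with respect to H (the identity together with the elements lying in no conjugate of H) is exactly the set consisting of the identity and the elements fixing no point. -/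
theorem result {G Ω : Type*} [Group G] [Finite G] [Fintype Ω] [MulAction G Ω] (hΩ : 1 < Fintype.card Ω)
    (htrans : ∀ α β : Ω, ∃ g : G, g • α = β) (hnreg : ∃ g : G, g ≠ 1 ∧ ∃ α : Ω, g • α = α)
    (hfix : ∀ g : G, g ≠ 1 → ∀ α β : Ω, g • α = α → g • β = β → α = β) (α : Ω) :
    Cfsg.IsFrobeniusComplement (MulAction.stabilizer G α) ∧
      Cfsg.frobeniusKernel (MulAction.stabilizer G α) = {g : G | g = 1 ∨ ∀ ω : Ω, g • ω ≠ ω} := by
  obtain ⟨g0, hg0, β, hβ⟩ := hnreg
  have hstab : ∀ (g a : G) (ω : Ω), a ∈ MulAction.stabilizer G ω → True := fun _ _ _ _ => trivial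
  have hconj : ∀ (g x : G), x ∈ MulAut.conj g • MulAction.stabilizer G α ↔ x • (g • α) = g • α := by
    intro g x
    rw [Lib.Struct.mem_conj_smul, MulAction.mem_stabilizer_iff]
    simp only [mul_smul]
    rw [inv_smul_eq_iff]
  have hne : ∃ ω : Ω, ω ≠ α := by
    by_contra hcon
    push Not at hcon
    have : Fintype.card Ω ≤ 1 := Fintype.card_le_one_iff.mpr (fun a b => by rw [hcon a, hcon b])
    omega
  obtain ⟨ω0, hω0⟩ := hne
  refine ⟨⟨?_, ?_, ?_⟩, ?_⟩
  · -- nontrivial
    intro hbot
    obtain ⟨h, hh⟩ := htrans α β
    have : h⁻¹ * g0 * h ∈ MulAction.stabilizer G α := by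
      rw [MulAction.mem_stabilizer_iff]
      simp only [mul_smul]
      rw [hh, hβ, inv_smul_eq_iff, hh]
    rw [hbot, Subgroup.mem_bot] at this
    apply hg0
    have h6 : h⁻¹ * g0 * (h⁻¹)⁻¹ = 1 := by simpa using this
    exact conj_eq_one_iff.mp h6
  · intro htop
    obtain ⟨h, hh⟩ := htrans α ω0
    have : h ∈ MulAction.stabilizer G α := by rw [htop]; trivial
    rw [MulAction.mem_stabilizer_iff, hh] at this
    exact hω0 this
  · intro g hg
    rw [eq_bot_iff]
    intro x hx
    have hx' := Subgroup.mem_inf.mp hx
    rw [Subgroup.mem_bot]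
    by_contra hx1
    have h1 : x • α = α := hx'.1
    have h2 := (hconj g x).mp hx'.2
    exact hg (MulAction.mem_stabilizer_iff.mpr (hfix x hx1 _ _ h2 h1))
  · ext x
    simp only [Cfsg.frobeniusKernel, Set.mem_setOf_eq]
    apply or_congr_right
    constructor
    · intro h ω hω
      obtain ⟨g, hg⟩ := htrans α ω
      apply h g
      rw [hconj, hg, hω]
    · intro h g hg
      exact h (g • α) ((hconj g x).mp hg)

end Cfsg.Agent.S4252
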