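import Cfsg.Statements.S4253
import Cfsg.Agent.Lib.Struct.Basic

set_option autoImplicit false
open Cfsg

namespace Cfsg.Agent.S4253

open scoped Pointwise

/-- Let H be a Frobenius complement in a finite group G (a nontrivial proper subgroup meeting each conjugate gHg⁻¹ with g outside H trivially). Then in the action of G on the left cosets of H by left multiplication, no non-identity element of G fixes two distinct cosets. -/
theorem result {G : Type*} [Group G] [Finite G] (H : Subgroup G) (hH : Cfsg.IsFrobeniusComplement H)
    (g : G) (hg : g ≠ 1) (a b : G ⧸ H) (ha : g • a = a) (hb : g • b = b) : a = b := by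
  induction a using QuotientGroup.induction_on with
  | H x =>
    induction b using QuotientGroup.induction_on with
    | H y =>
      rw [MulAction.Quotient.smul_coe, QuotientGroup.eq] at ha hb
      simp only [smul_eq_mul] at ha hb
      rw [QuotientGroup.eq]
      by_contra hne
      obtain ⟨_, _, h3⟩ := hH
      have h := h3 (x⁻¹ * y) hne
      have hmem : x⁻¹ * g * x ∈ H ⊓ (MulAut.conj (x⁻¹ * y) • H) := by
        refine Subgroup.mem_inf.mpr ⟨?_, ?_⟩
        · have := H.inv_mem ha
          simpa [mul_assoc] using this
        · rw [Lib.Struct.mem_conj_smul]
          have := H.inv_mem hb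
          simpa [mul_assoc] using this
      rw [h] at hmem
      have h5 : x⁻¹ * g * x = 1 := by simpa using hmem
      apply hg
      have h6 : x⁻¹ * g * (x⁻¹)⁻¹ = 1 := by simpa using h5
      exact conj_eq_one_iff.mp h6

end Cfsg.Agent.S4253
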