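import Cfsg.Statements.S4260
import Cfsg.Agent.Lib.Struct.Basic

set_option autoImplicit false
open Cfsg

namespace Cfsg.Agent.S4260

/-- Let H be a Hall subgroup of a finite group G (the order of H is coprime to its index) such that x^[G : H] lies in H for every x in G. Then H is normal in G. -/
theorem result {G : Type*} [Group G] [Finite G] (H : Subgroup G) (hHall : (Nat.card H).Coprime H.index)
    (hexp : ∀ x : G, x ^ H.index ∈ H) : H.Normal := by
  constructor
  intro h hh g
  set k := g * h * g⁻¹ with hk
  have h1 := hexp k
  have hord : orderOf k = orderOf h := by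
    rw [hk]; exact Lib.Struct.orderOf_conj g h
  have hdvd : orderOf h ∣ Nat.card H := by
    have := orderOf_dvd_natCard (⟨h, hh⟩ : H)
    simpa using this
  have hcop : (orderOf k).Coprime H.index := by
    rw [hord]
    exact Nat.Coprime.coprime_dvd_left hdvd hHall
  exact Lib.Struct.mem_of_pow_mem_of_coprime H hcop h1

end Cfsg.Agent.S4260
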