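import Cfsg.Statements.S4261
import Cfsg.Agent.Lib.Basic.MinNormal
import Cfsg.Agent.Lib.Basic.Index
import Cfsg.Agent.Lib.Basic.Core
import Cfsg.Agent.Lib.Basic.Frattini

set_option autoImplicit false
open Cfsg

namespace Cfsg.Agent.S4261

theorem primitive_case {G : Type*} [Group G] [Finite G] [Group.IsSolvable G] {M : Subgroup G}
    (hM : IsCoatom M) (hcore : ∀ N : Subgroup G, N.Normal → N ≤ M → N = ⊥)
    (hexp : ∀ x : G, x ^ M.index ∈ M) : M = ⊥ := by
  classical
  haveI hnt : Nontrivial G := by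
    obtain ⟨x, hx⟩ : ∃ x, x ∉ M := by
      by_contra hcon
      push_neg at hcon
      exact hM.1 (eq_top_iff.mpr (fun x _ => hcon x))
    exact ⟨⟨x, 1, fun h => hx (h ▸ M.one_mem)⟩⟩
  obtain ⟨V, hV⟩ := Lib.Basic.exists_isMinNormal (G := G)
  have hVn : V.Normal := hV.1
  obtain ⟨hVc, p, hp, hVp⟩ := hV.isPGroup
  haveI := hVc
  have hVcomm : ∀ a ∈ V, ∀ b ∈ V, a * b = b * a := fun a ha b hb =>
    congrArg Subtype.val (hVc.is_comm.comm ⟨a, ha⟩ ⟨b, hb⟩)
  have hVM : ¬ V ≤ M := fun h => hV.2.1 (hcore V hVn h)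
  have hsup : V ⊔ M = ⊤ := by
    by_contra hne
    have h1 : M < V ⊔ M := lt_of_le_of_ne le_sup_right (fun h => hVM (by rw [h]; exact le_sup_left))
    exact hne (hM.2 _ h1)
  -- `V ∩ M = 1`
  have hinf : V ⊓ M = ⊥ := by
    apply hcore
    · refine ⟨fun x hx g => ?_⟩
      have hg : g ∈ V ⊔ M := by rw [hsup]; trivial
      obtain ⟨v, hv, m, hm, rfl⟩ := Subgroup.mem_sup_of_normal_left.mp hg
      refine ⟨hVn.conj_mem x hx.1 _, ?_⟩
      have h1 : v * m * x * (v * m)⁻¹ = m * x * m⁻¹ := by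
        have h2 : m * x * m⁻¹ ∈ V := hVn.conj_mem x hx.1 m
        have h3 := hVcomm v hv _ h2
        calc v * m * x * (v * m)⁻¹ = v * (m * x * m⁻¹) * v⁻¹ := by group
          _ = (m * x * m⁻¹) * v * v⁻¹ := by rw [h3]
          _ = m * x * m⁻¹ := by group
      rw [h1]
      exact M.mul_mem (M.mul_mem hm hx.2) (M.inv_mem hm)
    · exact inf_le_right
  set n := M.index with hn
  -- `y ^ n` centralizes `V` for `y ∈ M`
  have hT : ∀ y ∈ M, ∀ v ∈ V, ∀ j : ℕ, ∃ t ∈ V, (v * y) ^ j = t * y ^ j ∧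
      (t * (y ^ j * v * (y ^ j)⁻¹) = v * (y * t * y⁻¹)) := by
    intro y hy v hv j
    induction j with
    | zero => exact ⟨1, V.one_mem, by simp, by simp⟩
    | succ j ih =>
      obtain ⟨t, ht, h1, h2⟩ := ih
      refine ⟨v * (y * t * y⁻¹), V.mul_mem hv (hVn.conj_mem t ht y), ?_, ?_⟩
      · rw [pow_succ', h1]
        rw [pow_succ']
        group
      · have h3 : y * t * y⁻¹ ∈ V := hVn.conj_mem t ht y
        have h4 : y ^ (j + 1) * v * (y ^ (j + 1))⁻¹ = y * (y ^ j * v * (y ^ j)⁻¹) * y⁻¹ := by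
          rw [pow_succ']; group
        have h5 : y * (v * (y * t * y⁻¹)) * y⁻¹ = (y * v * y⁻¹) * (y * (y * t * y⁻¹) * y⁻¹) := by group
        have h6 : y * (t * (y ^ j * v * (y ^ j)⁻¹)) * y⁻¹ = (y * t * y⁻¹) * (y * (y ^ j * v * (y ^ j)⁻¹) * y⁻¹) := by group
        rw [h4]
        have h7 : y * (t * (y ^ j * v * (y ^ j)⁻¹)) * y⁻¹ = y * (v * (y * t * y⁻¹)) * y⁻¹ := by
          rw [h2]
        rw [h6] at h7
        have h8 : y * (v * (y * t * y⁻¹)) * y⁻¹ = y * v * y⁻¹ * (y * (y * t * y⁻¹) * y⁻¹) := by group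
        rw [h8] at h7
        -- rearrange using commutativity of `V`
        have h9 : y * v * y⁻¹ ∈ V := hVn.conj_mem v hv y
        have h10 : y * (y * t * y⁻¹) * y⁻¹ ∈ V := hVn.conj_mem _ h3 y
        have h11 : y * (y ^ j * v * (y ^ j)⁻¹) * y⁻¹ ∈ V := by
          have := hVn.conj_mem _ (hVn.conj_mem v hv (y ^ j)) y
          exact this
        calc v * (y * t * y⁻¹) * (y * (y ^ j * v * (y ^ j)⁻¹) * y⁻¹)
            = v * ((y * t * y⁻¹) * (y * (y ^ j * v * (y ^ j)⁻¹) * y⁻¹)) := by group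
          _ = v * (y * v * y⁻¹ * (y * (y * t * y⁻¹) * y⁻¹)) := by rw [h7]
          _ = v * (y * (v * (y * t * y⁻¹)) * y⁻¹) := by group
  have hyn : ∀ y ∈ M, y ^ n ∈ Subgroup.centralizer (V : Set G) := by
    intro y hy
    rw [Subgroup.mem_centralizer_iff]
    intro v hv
    obtain ⟨t, ht, h1, h2⟩ := hT y hy v hv n
    -- `t ∈ V ∩ M`
    have hvy : (v * y) ^ n ∈ M := hexp _
    have htM : t ∈ M := by
      rw [h1] at hvy
      have := M.mul_mem hvy (M.inv_mem (M.pow_mem hy n))
      simpa using this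
    have ht1 : t = 1 := by
      have : t ∈ V ⊓ M := ⟨ht, htM⟩
      rw [hinf, Subgroup.mem_bot] at this
      exact this
    rw [ht1] at h2
    simp only [one_mul, mul_one, map_one, mul_inv_cancel] at h2
    -- `y ^ n v y ^ -n = v`
    have h3 : y ^ n * v * (y ^ n)⁻¹ = v := by simpa using h2
    have : y ^ n * v = v * y ^ n := by
      calc y ^ n * v = y ^ n * v * (y ^ n)⁻¹ * y ^ n := by group
        _ = v * y ^ n := by rw [h3]
    exact this.symm
  -- `C_M(V)` is trivial
  have hCV : M ⊓ Subgroup.centralizer (V : Set G) = ⊥ := by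
    apply hcore
    · refine ⟨fun x hx g => ?_⟩
      have hg : g ∈ V ⊔ M := by rw [hsup]; trivial
      obtain ⟨v, hv, m, hm, rfl⟩ := Subgroup.mem_sup_of_normal_left.mp hg
      have hxc := Subgroup.mem_centralizer_iff.mp hx.2 v hv
      have h1 : v * m * x * (v * m)⁻¹ = v * (m * x * m⁻¹) * v⁻¹ := by group
      have hmx : m * x * m⁻¹ ∈ M ⊓ Subgroup.centralizer (V : Set G) := by
        refine ⟨M.mul_mem (M.mul_mem hm hx.1) (M.inv_mem hm), ?_⟩
        have hn' : (Subgroup.centralizer (V : Set G)).Normal := inferInstance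
        exact hn'.conj_mem x hx.2 m
      have hvc := Subgroup.mem_centralizer_iff.mp hmx.2 v hv
      rw [h1]
      have h2 : v * (m * x * m⁻¹) * v⁻¹ = m * x * m⁻¹ := by
        rw [hvc]; group
      rw [h2]
      exact hmx
    · exact inf_le_left
  -- hence `y ^ n = 1` on `M`
  have hyn1 : ∀ y ∈ M, y ^ n = 1 := by
    intro y hy
    have : y ^ n ∈ M ⊓ Subgroup.centralizer (V : Set G) := ⟨M.pow_mem hy n, hyn y hy⟩
    rw [hCV, Subgroup.mem_bot] at this
    exact this
  -- `n` is a power of `p`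
  haveI : Fact p.Prime := ⟨hp⟩
  have hcardG : Nat.card G = Nat.card V * Nat.card M := by
    have h1 := Lib.Basic.card_sup_eq_of_normal M V
    rw [sup_comm, hsup, Subgroup.card_top] at h1
    have h2 : V.relIndex M = Nat.card M := by
      rw [← Subgroup.inf_relIndex_right, hinf, Subgroup.relIndex_bot_left]
    rw [h2] at h1
    exact h1
  have hnV : n = Nat.card V := by
    have h1 := Subgroup.card_mul_index M
    rw [hcardG, mul_comm (Nat.card V)] at h1
    exact Nat.eq_of_mul_eq_mul_left Nat.card_pos h1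
  obtain ⟨k, hk⟩ := IsPGroup.iff_card.mp hVp
  have hMp : IsPGroup p M := by
    intro m
    refine ⟨k, Subtype.ext ?_⟩
    have := hyn1 m m.2
    rw [← hn, hnV, hk] at *
    simpa using this
  obtain ⟨l, hl⟩ := IsPGroup.iff_card.mp hMp
  have hGp : IsPGroup p G := by
    rw [IsPGroup.iff_card]
    exact ⟨k + l, by rw [hcardG, hk, hl, pow_add]⟩
  haveI : Group.IsNilpotent G := hGp.isNilpotent
  have hMn : M.Normal := Lib.Basic.isCoatom_normal_of_isNilpotent hM
  exact hcore M hMn le_rfl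

/-- Let M be a maximal subgroup of a finite solvable group G such that x^[G : M] lies in M for every x in G. Then M is normal in G. -/
theorem result {G : Type*} [Group G] [Finite G] (hG : Group.IsSolvable G) (M : Subgroup G) (hM : IsCoatom M)
    (hexp : ∀ x : G, x ^ M.index ∈ M) : M.Normal := by
  classical
  haveI := hG
  -- pass to the quotient by the core
  set K := M.normalCore with hK
  have hKM : K ≤ M := Subgroup.normalCore_le M
  haveI hKn : K.Normal := Subgroup.normalCore_normal M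
  let Mbar := M.map (QuotientGroup.mk' K)
  have hcoat : IsCoatom Mbar := Lib.Basic.isCoatom_map_mk hM hKM
  have hidx : Mbar.index = M.index := Lib.Basic.index_map_mk hKM
  haveI : Group.IsSolvable (G ⧸ K) := inferInstance
  have hexpbar : ∀ x : G ⧸ K, x ^ Mbar.index ∈ Mbar := by
    intro x
    obtain ⟨g, rfl⟩ := QuotientGroup.mk_surjective x
    rw [hidx]
    exact ⟨g ^ M.index, hexp g, by simp⟩
  have hcore : ∀ N : Subgroup (G ⧸ K), N.Normal → N ≤ Mbar → N = ⊥ := by
    intro N hN hNM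
    have h1 : N.comap (QuotientGroup.mk' K) ≤ K := by
      apply Lib.Basic.le_normalCore_of_normal
      intro g hg
      have h2 := hNM hg
      obtain ⟨m, hm, hme⟩ := h2
      have h3 : m⁻¹ * g ∈ K := by
        rw [← QuotientGroup.eq]
        exact hme
      have h4 : g = m * (m⁻¹ * g) := by group
      rw [h4]
      exact M.mul_mem hm (hKM h3)
    rw [eq_bot_iff]
    intro x hx
    obtain ⟨g, rfl⟩ := QuotientGroup.mk_surjective x
    have := h1 (show g ∈ N.comap (QuotientGroup.mk' K) from hx)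
    rw [Subgroup.mem_bot]
    exact (QuotientGroup.eq_one_iff g).mpr this
  have hbot := primitive_case hcoat hcore hexpbar
  -- so `M = K`
  have hMK : M = K := by
    refine le_antisymm (fun g hg => ?_) hKM
    have h1 : ((g : G) : G ⧸ K) ∈ Mbar := ⟨g, hg, rfl⟩
    rw [hbot, Subgroup.mem_bot] at h1
    exact (QuotientGroup.eq_one_iff g).mp h1
  rw [hMK]
  exact hKn

end Cfsg.Agent.S4261
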