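import Cfsg.Statements.S4269
import Cfsg.Agent.Lib.Struct.Basic
import Cfsg.Agent.Lib.Struct.PLen

set_option autoImplicit false
open Cfsg

namespace Cfsg.Agent.S4269


open scoped commutatorElement

theorem mem_norm_iff {G : Type*} [Group G] {H : Subgroup G} {g : G} :
    g ∈ Subgroup.normalizer (H : Set G) ↔ H.map (MulAut.conj g).toMonoidHom = H :=
  Subgroup.mem_normalizer_iff_map_conj_eq

open Cfsg.Agent.Lib.Struct in
theorem map_conj_mul' {G : Type*} [Group G] (H : Subgroup G) (a b : G) :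
    H.map (MulAut.conj (a * b)).toMonoidHom =
      (H.map (MulAut.conj b).toMonoidHom).map (MulAut.conj a).toMonoidHom := by
  ext x
  rw [mem_map_conj, mem_map_conj, mem_map_conj]
  have e : (a * b)⁻¹ * x * (a * b) = b⁻¹ * (a⁻¹ * x * a) * b := by group
  rw [e]

open Cfsg.Agent.Lib.Struct in
theorem map_conj_of_mem {G : Type*} [Group G] {H : Subgroup G} {a : G} (ha : a ∈ H) :
    H.map (MulAut.conj a).toMonoidHom = H := by
  ext x
  rw [mem_map_conj]
  constructor
  · intro h
    have := H.mul_mem (H.mul_mem ha h) (H.inv_mem ha)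
    simpa [mul_assoc] using this
  · intro h
    exact H.mul_mem (H.mul_mem (H.inv_mem ha) h) ha

theorem comm_le {G : Type*} [Group G] {H U : Subgroup G}
    (hinv : ∀ h ∈ H, U.map (MulAut.conj h).toMonoidHom = U) : ⁅H, U⁆ ≤ U := by
  rw [Subgroup.commutator_le]
  intro h hh u hu
  have h1 : h * u * h⁻¹ ∈ U := by
    rw [← hinv h hh]
    exact ⟨u, hu, rfl⟩
  rw [commutatorElement_def]
  exact U.mul_mem h1 (U.inv_mem hu)

theorem comm_normal {G : Type*} [Group G] [Finite G] (V : Subgroup G) (hV : IsMulCommutative ↥V)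
    (H U : Subgroup G) (hHV : H ⊔ V = ⊤) (hUV : U ≤ V)
    (hinv : ∀ h ∈ H, U.map (MulAut.conj h).toMonoidHom = U) : (⁅H, U⁆ : Subgroup G).Normal := by
  have hle := comm_le hinv
  refine Cfsg.Agent.Lib.Struct.normal_of_le_normalizer (N := H) (M := V) ?_ ?_ hHV
  · intro h hh
    rw [mem_norm_iff, Subgroup.map_commutator, hinv h hh,
      map_conj_of_mem hh]
  · intro v hv
    rw [Subgroup.mem_normalizer_iff]
    intro x
    have hcomm : ∀ y ∈ V, v * y * v⁻¹ = y := by
      intro y hy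
      have := hV.is_comm.comm ⟨v, hv⟩ ⟨y, hy⟩
      have h2 : v * y = y * v := congrArg Subtype.val this
      rw [h2]; group
    constructor
    · intro hx
      rw [hcomm x (hUV (hle hx))]; exact hx
    · intro hx
      have hxV : v * x * v⁻¹ ∈ V := hUV (hle hx)
      have hxV' : x ∈ V := by
        have := V.mul_mem (V.mul_mem (V.inv_mem hv) hxV) hv
        simpa [mul_assoc] using this
      rwa [hcomm x hxV'] at hx

/-- Let G be a finite group, V an abelian normal subgroup and H a subgroup with HV = G. Then H is pronormal in G (H and gHg⁻¹ are conjugate inside the subgroup they generate, for every g) if and only if every H-invariant subgroup U of V satisfies U = N_U(H)·[H, U], that is, U is the join of U ∩ N_G(H) and the commutator subgroup [H, U]. -/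
theorem result {G : Type*} [Group G] [Finite G]
    (V : Subgroup G) [V.Normal] (hV : IsMulCommutative ↥V) (H : Subgroup G) (hHV : H ⊔ V = ⊤) :
    Cfsg.IsPronormal H ↔
      ∀ U : Subgroup G, U ≤ V → (∀ h ∈ H, U.map (MulAut.conj h).toMonoidHom = U) →
        U = (U ⊓ Subgroup.normalizer (H : Set G)) ⊔ ⁅H, U⁆ := by
  have hHV' : V ⊔ H = ⊤ := by rw [sup_comm]; exact hHV
  constructor
  · intro hpro U hUV hinv
    have hC := comm_normal V hV H U hHV hUV hinv
    have hCU := comm_le hinv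
    apply le_antisymm
    · intro u hu
      obtain ⟨x, hx, hxe⟩ := hpro u
      have hJ : H ⊔ H.map (MulAut.conj u).toMonoidHom ≤ ⁅H, U⁆ ⊔ H := by
        refine sup_le le_sup_right ?_
        rintro _ ⟨h, hh, rfl⟩
        have e : (MulAut.conj u).toMonoidHom h = ⁅h, u⁆⁻¹ * h := by
          show u * h * u⁻¹ = _
          rw [commutatorElement_def]; group
        rw [e]
        exact Subgroup.mul_mem _ (Subgroup.inv_mem _
          (Subgroup.mem_sup_left (Subgroup.commutator_mem_commutator hh hu)))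
          (Subgroup.mem_sup_right hh)
      have hx' := hJ hx
      have hx'' : x ∈ ((⁅H, U⁆ ⊔ H : Subgroup G) : Set G) := hx'
      rw [Subgroup.normal_mul] at hx''
      obtain ⟨c, hc, k, hk, rfl⟩ := Set.mem_mul.mp hx''
      have hxe2 : H.map (MulAut.conj u).toMonoidHom = H.map (MulAut.conj c).toMonoidHom := by
        rw [hxe, map_conj_mul', map_conj_of_mem hk]
      have hn : c⁻¹ * u ∈ Subgroup.normalizer (H : Set G) := by
        rw [mem_norm_iff, map_conj_mul', hxe2, ← map_conj_mul']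
        simp only [inv_mul_cancel, map_one]
        ext y
        simp
      have hcU : c ∈ U := hCU hc
      have hmem : c⁻¹ * u ∈ U ⊓ Subgroup.normalizer (H : Set G) :=
        Subgroup.mem_inf.mpr ⟨U.mul_mem (U.inv_mem hcU) hu, hn⟩
      have e : u = c * (c⁻¹ * u) := by group
      rw [e]
      exact Subgroup.mul_mem _ (Subgroup.mem_sup_right hc) (Subgroup.mem_sup_left hmem)
    · exact sup_le inf_le_left hCU
  · intro hcond g
    have hg : g ∈ ((V ⊔ H : Subgroup G) : Set G) := by rw [hHV']; trivial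
    rw [Subgroup.normal_mul] at hg
    obtain ⟨v, hv, h0, hh0, rfl⟩ := Set.mem_mul.mp hg
    have hmapg : H.map (MulAut.conj (v * h0)).toMonoidHom = H.map (MulAut.conj v).toMonoidHom := by
      rw [map_conj_mul', map_conj_of_mem hh0]
    rw [hmapg]
    set U : Subgroup G := Subgroup.closure {x | ∃ k ∈ H, x = k * v * k⁻¹} with hU
    have hcomm : ∀ x ∈ V, ∀ y ∈ V, x * y = y * x := by
      intro x hx y hy
      exact congrArg Subtype.val (hV.is_comm.comm ⟨x, hx⟩ ⟨y, hy⟩)
    have hnV : ∀ x ∈ V, ∀ g : G, g * x * g⁻¹ ∈ V := fun x hx g => ‹V.Normal›.conj_mem x hx g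
    have hUV : U ≤ V := by
      rw [hU, Subgroup.closure_le]
      rintro x ⟨k, -, rfl⟩
      exact hnV v hv k
    have hvU : v ∈ U := by
      apply Subgroup.subset_closure
      exact ⟨1, H.one_mem, by simp⟩
    have hinv : ∀ h ∈ H, U.map (MulAut.conj h).toMonoidHom = U := by
      intro h hh
      rw [hU, MonoidHom.map_closure]
      congr 1
      ext x
      constructor
      · rintro ⟨y, ⟨k, hk, rfl⟩, rfl⟩
        exact ⟨h * k, H.mul_mem hh hk, by simp [MulAut.conj_apply, mul_assoc]⟩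
      · rintro ⟨k, hk, rfl⟩
        refine ⟨h⁻¹ * k * v * k⁻¹ * h, ⟨h⁻¹ * k, H.mul_mem (H.inv_mem hh) hk, ?_⟩, ?_⟩
        · group
        · simp [MulAut.conj_apply, mul_assoc]
    have hC := comm_normal V hV H U hHV hUV hinv
    have hCU := comm_le hinv
    have hv2 : v ∈ (U ⊓ Subgroup.normalizer (H : Set G)) ⊔ ⁅H, U⁆ := by
      rw [← hcond U hUV hinv]; exact hvU
    have hv3 : v ∈ (((U ⊓ Subgroup.normalizer (H : Set G)) ⊔ ⁅H, U⁆ : Subgroup G) : Set G) := hv2
    rw [Subgroup.mul_normal] at hv3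
    obtain ⟨n, hn, c, hc, hvnc⟩ := Set.mem_mul.mp hv3
    have hnU := (Subgroup.mem_inf.mp hn).1
    have hnN := (Subgroup.mem_inf.mp hn).2
    have hvcn : v = c * n := by
      rw [← hvnc]
      exact hcomm n (hUV hnU) c (hUV (hCU hc))
    have hmapv : H.map (MulAut.conj v).toMonoidHom = H.map (MulAut.conj c).toMonoidHom := by
      rw [hvcn, map_conj_mul', mem_norm_iff.mp hnN]
    set J : Subgroup G := H ⊔ H.map (MulAut.conj v).toMonoidHom with hJ
    have hHJ : H ≤ J := le_sup_left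
    have hvJ : ∀ h ∈ H, h * v * h⁻¹ * v⁻¹ ∈ J := by
      intro h hh
      have h1 : h ∈ J := hHJ hh
      have h2 : v * h⁻¹ * v⁻¹ ∈ J :=
        (le_sup_right : H.map (MulAut.conj v).toMonoidHom ≤ J)
          ⟨h⁻¹, H.inv_mem hh, by simp [MulAut.conj_apply]⟩
      have := J.mul_mem h1 h2
      simpa [mul_assoc] using this
    have hvJ2 : ∀ a ∈ H, ∀ k ∈ H, a * v * a⁻¹ * (k * v * k⁻¹)⁻¹ ∈ J := by
      intro a ha k hk
      have h1 := hvJ (k⁻¹ * a) (H.mul_mem (H.inv_mem hk) ha)
      have h2 := J.mul_mem (J.mul_mem (hHJ hk) h1) (J.inv_mem (hHJ hk))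
      have e : k * (k⁻¹ * a * v * (k⁻¹ * a)⁻¹ * v⁻¹) * k⁻¹ = a * v * a⁻¹ * (k * v * k⁻¹)⁻¹ := by group
      rwa [e] at h2
    have hCJ : ⁅H, U⁆ ≤ J := by
      rw [Subgroup.commutator_le]
      intro h hh u hu
      suffices hs : u ∈ V ∧ ⁅h, u⁆ ∈ J from hs.2
      rw [hU] at hu
      induction hu using Subgroup.closure_induction with
      | mem x hx =>
        obtain ⟨k, hk, rfl⟩ := hx
        refine ⟨hnV v hv k, ?_⟩
        have := hvJ2 (h * k) (H.mul_mem hh hk) k hk
        have e : ⁅h, k * v * k⁻¹⁆ = h * k * v * (h * k)⁻¹ * (k * v * k⁻¹)⁻¹ := by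
          rw [commutatorElement_def]; group
        rw [e]; exact this
      | one =>
        refine ⟨V.one_mem, ?_⟩
        simp
      | mul x y _ _ hx hy =>
        refine ⟨V.mul_mem hx.1 hy.1, ?_⟩
        have e : ⁅h, x * y⁆ = ⁅h, x⁆ * ⁅h, y⁆ := by
          simp only [commutatorElement_def]
          have h4 := hcomm (h * y * h⁻¹) (hnV y hy.1 h) x⁻¹ (V.inv_mem hx.1)
          have h5 := hcomm y⁻¹ (V.inv_mem hy.1) x⁻¹ (V.inv_mem hx.1)
          calc h * (x * y) * h⁻¹ * (x * y)⁻¹ = (h * x * h⁻¹) * ((h * y * h⁻¹) * (y⁻¹ * x⁻¹)) := by group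
            _ = (h * x * h⁻¹) * ((h * y * h⁻¹) * (x⁻¹ * y⁻¹)) := by rw [h5]
            _ = (h * x * h⁻¹) * (((h * y * h⁻¹) * x⁻¹) * y⁻¹) := by group
            _ = (h * x * h⁻¹) * ((x⁻¹ * (h * y * h⁻¹)) * y⁻¹) := by rw [h4]
            _ = h * x * h⁻¹ * x⁻¹ * (h * y * h⁻¹ * y⁻¹) := by group
        rw [e]
        exact J.mul_mem hx.2 hy.2
      | inv x _ hx =>
        refine ⟨V.inv_mem hx.1, ?_⟩
        have e : ⁅h, x⁻¹⁆ = ⁅h, x⁆⁻¹ := by
          simp only [commutatorElement_def]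
          have h4 := hcomm (h * x⁻¹ * h⁻¹) (hnV _ (V.inv_mem hx.1) h) x hx.1
          calc h * x⁻¹ * h⁻¹ * x⁻¹⁻¹ = h * x⁻¹ * h⁻¹ * x := by group
            _ = x * (h * x⁻¹ * h⁻¹) := h4
            _ = (h * x * h⁻¹ * x⁻¹)⁻¹ := by group
        rw [e]
        exact J.inv_mem hx.2
    exact ⟨c, hCJ hc, hmapv⟩

end Cfsg.Agent.S4269
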