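import Cfsg.Statements.S4282
-- import your own Cfsg.Agent.* helpers here
import Mathlib
import Cfsg.Agent.Lib.Coprime.HHG5

set_option autoImplicit false
open Cfsg

namespace Cfsg.Agent.S4282

open Subgroup Module Cfsg.Agent.Lib.Coprime.HHG Cfsg.Agent.Lib.FT

/-- A critical case behind the Hall–Higman theorem. Let p ≠ q be primes and G a finite group generated by a normal q-subgroup Q and a cyclic p-subgroup generated by x, such that the centralizer of every non-identity element of that cyclic subgroup is its product with the centre of G. Let K be an algebraically closed field of characteristic p and ρ a faithful representation of G on a nonzero finite-dimensional K-space whose restriction to Q is irreducible. If s is the least exponent with (ρ(x) − 1)^s = 0, then |⟨x⟩| − 1 ≤ s ≤ |⟨x⟩|; and if s = |⟨x⟩| − 1 then |⟨x⟩| − 1 is a power of q and Q is non-abelian. -/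
theorem result {G : Type*} [Group G] [Finite G] (p q : ℕ) [Fact p.Prime] [Fact q.Prime] (hpq : p ≠ q) (Q : Subgroup G) [Q.Normal] (hQ : IsPGroup q Q) (x : G) (hx : IsPGroup p (Subgroup.zpowers x)) (hgen : Q ⊔ Subgroup.zpowers x = ⊤) (hC : ∀ y ∈ Subgroup.zpowers x, y ≠ 1 → Subgroup.centralizer ({y} : Set G) = Subgroup.zpowers x ⊔ Subgroup.center G) {K : Type*} [Field K] [IsAlgClosed K] [CharP K p] {V : Type*} [AddCommGroup V] [Module K V] [FiniteDimensional K V] [Nontrivial V] (ρ : Representation K G V) (hfaith : Function.Injective ρ) (hirr : ∀ W : Submodule K V, (∀ g ∈ Q, Submodule.map (ρ g) W ≤ W) → W = ⊥ ∨ W = ⊤) (s : ℕ) (hs : (ρ x - 1) ^ s = 0) (hmin : ∀ k < s, (ρ x - 1) ^ k ≠ 0) : Nat.card (Subgroup.zpowers x) - 1 ≤ s ∧ s ≤ Nat.card (Subgroup.zpowers x) ∧ (s = Nat.card (Subgroup.zpowers x) - 1 → (∃ b : ℕ, Nat.card (Subgroup.zpowers x) - 1 = q ^ b) ∧ ¬ IsMulCommutative Q) := by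
  classical
  haveI hqf : Fact q.Prime := inferInstance
  have hpp : p.Prime := Fact.out
  have hone : (1 : End K V) ≠ 0 := one_ne_zero
  by_cases hx1 : x = 1
  · subst hx1
    have hcard : Nat.card (zpowers (1 : G)) = 1 := by rw [Nat.card_zpowers, orderOf_one]
    rw [hcard]
    have h0 : ρ 1 - 1 = 0 := by rw [map_one, sub_self]
    have hs0 : s ≠ 0 := by
      rintro rfl
      rw [pow_zero] at hs
      exact hone hs
    have hs1 : s ≤ 1 := by
      by_contra hc
      push Not at hc
      apply hmin 1 hc
      rw [pow_one, h0]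
    have hs2 : s = 1 := by omega
    subst hs2
    simp
  obtain ⟨k, hk⟩ := IsPGroup.iff_card.mp hx
  rw [Nat.card_zpowers] at hk
  have hk0 : k ≠ 0 := by
    rintro rfl
    rw [pow_zero, orderOf_eq_one_iff] at hk
    exact hx1 hk
  obtain ⟨n, rfl⟩ := Nat.exists_eq_succ_of_ne_zero hk0
  have hxn : x ^ (p ^ (n + 1)) = 1 := by
    rw [← hk]
    exact pow_orderOf_eq_one x
  have hy1 : x ^ (p ^ n) ≠ 1 := by
    intro h0
    have h1 := orderOf_dvd_of_pow_eq_one h0
    rw [hk] at h1
    have h2 := (Nat.pow_dvd_pow_iff_le_right hpp.one_lt).mp h1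
    omega
  have hxQ : x ∈ normalizer (Q : Set G) := by
    rw [Subgroup.normalizer_eq_top_iff.mpr (inferInstance : Q.Normal)]
    exact mem_top x
  have hys : x ^ (p ^ n) ∈ zpowers x := pow_mem (mem_zpowers x) _
  have hrx : ∀ v, ρ x⁻¹ (ρ x v) = v := by
    intro v
    rw [← Module.End.mul_apply, ← map_mul, inv_mul_cancel, map_one, Module.End.one_apply]
  have hne : ∃ a ∈ Q, x ^ (p ^ n) * a ≠ a * x ^ (p ^ n) := by
    by_contra hcon
    push Not at hcon
    -- `y` is central
    have hcen : (⊤ : Subgroup G) ≤ centralizer ({x ^ (p ^ n)} : Set G) := by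
      rw [← hgen]
      refine sup_le ?_ ?_
      · intro a ha
        rw [Subgroup.mem_centralizer_singleton_iff]
        exact (hcon a ha).symm
      · rw [Subgroup.zpowers_le, Subgroup.mem_centralizer_singleton_iff]
        exact ((Commute.refl x).pow_right _).eq
    rw [hC _ hys hy1] at hcen
    have hUx : zpowers x ⊔ center G ≤ centralizer ({x} : Set G) := by
      refine sup_le ?_ ?_
      · rw [Subgroup.zpowers_le, Subgroup.mem_centralizer_singleton_iff]
      · intro a ha
        rw [Subgroup.mem_centralizer_singleton_iff]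
        exact (Subgroup.mem_center_iff.mp ha x).symm
    have hxcen : x ∈ center G := by
      rw [Subgroup.mem_center_iff]
      intro g
      have h1 := hUx (hcen (mem_top g))
      rw [Subgroup.mem_centralizer_singleton_iff] at h1
      exact h1
    have hUc : zpowers x ⊔ center G ≤ center G := sup_le (Subgroup.zpowers_le.mpr hxcen) le_rfl
    have hcomm : ∀ g, ρ g * ρ x = ρ x * ρ g := by
      intro g
      have h1 : g * x = x * g := by
        have h2 := hUc (hcen (mem_top x))
        exact Subgroup.mem_center_iff.mp h2 g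
      rw [← map_mul, h1, map_mul]
    have hXP : ρ x ^ (p ^ (n + 1)) = 1 := by
      rw [← map_pow, hxn, map_one]
    obtain ⟨f, hf0, hf⟩ := exists_fixed_of_unipotent (K := K) (p := p) (ρ x) (n + 1) hXP
    have hW : Module.End.eigenspace (ρ x) 1 = ⊥ ∨ Module.End.eigenspace (ρ x) 1 = ⊤ := by
      apply hirr
      rintro g _ _ ⟨v, hv, rfl⟩
      have hv' : ρ x v = v := by
        have := Module.End.mem_eigenspace_iff.mp hv
        rwa [one_smul] at this
      change ρ g v ∈ _
      rw [Module.End.mem_eigenspace_iff, one_smul]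
      have h1 := congrArg (fun t : End K V => t v) (hcomm g)
      simp only [Module.End.mul_apply] at h1
      rw [← h1, hv']
    rcases hW with hW | hW
    · have h1 : f ∈ Module.End.eigenspace (ρ x) 1 := by
        rw [Module.End.mem_eigenspace_iff, one_smul]
        exact hf
      rw [hW, Submodule.mem_bot] at h1
      exact hf0 h1
    · apply hx1
      apply hfaith
      rw [map_one]
      apply LinearMap.ext
      intro v
      have h1 : v ∈ Module.End.eigenspace (ρ x) 1 := by
        rw [hW]
        trivial
      have := Module.End.mem_eigenspace_iff.mp h1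
      rwa [one_smul] at this
  have hres := thmB_core (K := K) (p := p) (q := q) ρ hfaith hpq.symm x n hxn Q hQ hxQ hne hs
  have hle : s ≤ p ^ (n + 1) := by
    by_contra hc
    push Not at hc
    apply hmin _ hc
    rw [sub_one_ppow (K := K) (p := p), ← map_pow, hxn, map_one, sub_self]
  have hpos : 0 < p ^ (n + 1) := pow_pos hpp.pos _
  rw [Nat.card_zpowers, hk]
  rcases hres with h | ⟨s₀, m, hs₀, hm1, hm2, hm3, ⟨a, ha, b, hb, hab⟩, hcl⟩
  · have hse : s = p ^ (n + 1) := le_antisymm hle h
    refine ⟨by rw [hse]; exact Nat.sub_le _ _, hle, fun h0 => ?_⟩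
    rw [hse] at h0
    have key : ∀ N : ℕ, 0 < N → N ≠ N - 1 := by
      intro N hN
      omega
    exact absurd h0 (key _ hpos)
  · have hs00 : s₀ = 0 := by
      apply hcl
      intro d _ hyd
      have h1 : d ∈ centralizer ({x ^ (p ^ n)} : Set G) := by
        rw [Subgroup.mem_centralizer_singleton_iff]
        exact hyd.symm
      rw [hC _ hys hy1] at h1
      have hUx : zpowers x ⊔ center G ≤ centralizer ({x} : Set G) := by
        refine sup_le ?_ ?_
        · rw [Subgroup.zpowers_le, Subgroup.mem_centralizer_singleton_iff]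
        · intro a ha
          rw [Subgroup.mem_centralizer_singleton_iff]
          exact (Subgroup.mem_center_iff.mp ha x).symm
      have h2 := hUx h1
      rw [Subgroup.mem_centralizer_singleton_iff] at h2
      exact h2.symm
    subst hs00
    simp only [Nat.sub_zero, pow_zero, one_mul] at hm2 hm3
    refine ⟨hm3, hle, fun _ => ⟨⟨m, hm2⟩, fun hc => hab ?_⟩⟩
    have h1 := hc.is_comm.comm (⟨a, ha⟩ : ↥Q) ⟨b, hb⟩
    exact congrArg Subtype.val h1

end Cfsg.Agent.S4282
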