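import Cfsg.Statements.S4292
import Cfsg.Agent.Lib.Struct.PF3

set_option autoImplicit false
open Cfsg

namespace Cfsg.Agent.S4292

/-- A subgroup of a Frobenius complement, in an injective copy, is again a Frobenius complement. -/
private theorem occ {L : Type} [Group L] [Finite L] (H : Subgroup L)
    (hF : Cfsg.IsFrobeniusComplement H) {K : Type*} [Group K] [Finite K] [Nontrivial K]
    (ι : K →* L) (hι : Function.Injective ι) (hmem : ∀ k, ι k ∈ H) :
    ∃ (L' : Type) (_ : Group L') (_ : Finite L') (H' : Subgroup L'),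
      Cfsg.IsFrobeniusComplement H' ∧ Nonempty (K ≃* H') := by
  classical
  obtain ⟨N, hN, hNn, hc⟩ := Cfsg.Agent.S0035.result H hF
  obtain ⟨hne, hfpf⟩ := Cfsg.Agent.Lib.Struct.QuatKernel.kernel_fpf H hF hc
  haveI : Nontrivial N := (Subgroup.nontrivial_iff_ne_bot N).mpr hne
  let e₀ : K ≃* ι.range := MonoidHom.ofInjective hι
  haveI : Nontrivial ι.range := e₀.symm.toEquiv.nontrivial
  haveI : Finite ι.range := inferInstance
  let φ : ι.range →* MulAut N := (MulAut.conjNormal (H := N)).comp ι.range.subtype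
  have hφ : ∀ (q : ι.range) (v : N), ((φ q v : N) : L) = (q : L) * v * (q : L)⁻¹ :=
    fun q v => MulAut.conjNormal_apply _ _
  obtain ⟨L', i1, i2, H', hF', ⟨e'⟩⟩ := Cfsg.Agent.Lib.Struct.exists_frobenius_of_fpf φ (by
    intro q hq v hv
    have h1 := hφ q v
    rw [hv] at h1
    have hqH : (q : L) ∈ H := by
      obtain ⟨k, hk⟩ := q.2
      rw [← hk]
      exact hmem k
    have h2 : (v : L) ∈ N ⊓ Subgroup.centralizer {(q : L)} := by
      refine Subgroup.mem_inf.mpr ⟨v.2, ?_⟩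
      rw [Subgroup.mem_centralizer_singleton_iff]
      calc (v : L) * q = (q : L) * v * (q : L)⁻¹ * q := by rw [← h1]
        _ = q * v := by group
    rw [hfpf q hqH (fun h => hq (Subtype.ext h))] at h2
    exact Subtype.ext (Subgroup.mem_bot.mp h2))
  exact ⟨L', i1, i2, H', hF', ⟨e₀.trans e'⟩⟩

/-- Let A and B be nontrivial finite groups. Then the direct product A × B occurs as a Frobenius complement if and only if A and B both occur as Frobenius complements and the orders of A and B are coprime. -/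
theorem result {A B : Type*} [Group A] [Finite A] [Nontrivial A] [Group B] [Finite B] [Nontrivial B] :
    (∃ (L : Type) (_ : Group L) (_ : Finite L) (H : Subgroup L), Cfsg.IsFrobeniusComplement H ∧ Nonempty ((A × B) ≃* H)) ↔
    ((∃ (L : Type) (_ : Group L) (_ : Finite L) (H : Subgroup L), Cfsg.IsFrobeniusComplement H ∧ Nonempty (A ≃* H)) ∧
     (∃ (L : Type) (_ : Group L) (_ : Finite L) (H : Subgroup L), Cfsg.IsFrobeniusComplement H ∧ Nonempty (B ≃* H)) ∧
     (Nat.card A).Coprime (Nat.card B)) := by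
  classical
  constructor
  · rintro ⟨L, _, _, H, hF, ⟨e⟩⟩
    have hinl : Function.Injective (MonoidHom.inl A B) := fun x y h => congrArg Prod.fst h
    have hinr : Function.Injective (MonoidHom.inr A B) := fun x y h => congrArg Prod.snd h
    let ι₁ : A →* L := H.subtype.comp (e.toMonoidHom.comp (MonoidHom.inl A B))
    let ι₂ : B →* L := H.subtype.comp (e.toMonoidHom.comp (MonoidHom.inr A B))
    have hι₁ : Function.Injective ι₁ :=
      H.subtype_injective.comp (e.injective.comp hinl)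
    have hι₂ : Function.Injective ι₂ :=
      H.subtype_injective.comp (e.injective.comp hinr)
    refine ⟨occ H hF ι₁ hι₁ (fun k => (e _).2), occ H hF ι₂ hι₂ (fun k => (e _).2), ?_⟩
    by_contra hcop
    obtain ⟨p, hp, hpA, hpB⟩ := Nat.Prime.not_coprime_iff_dvd.mp hcop
    haveI : Fact p.Prime := ⟨hp⟩
    obtain ⟨a₀, ha₀⟩ := exists_prime_orderOf_dvd_card' (G := A) p hpA
    obtain ⟨b₀, hb₀⟩ := exists_prime_orderOf_dvd_card' (G := B) p hpB
    obtain ⟨N, hN, hNn, hc⟩ := Cfsg.Agent.S0035.result H hF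
    obtain ⟨hne, hfpf⟩ := Cfsg.Agent.Lib.Struct.QuatKernel.kernel_fpf H hF hc
    set f : A × B →* L := H.subtype.comp e.toMonoidHom with hf
    have hfinj : Function.Injective f := H.subtype_injective.comp e.injective
    set T₀ : Subgroup (A × B) := (Subgroup.zpowers a₀).prod (Subgroup.zpowers b₀) with hT₀
    set T : Subgroup L := T₀.map f with hT
    have hTH : T ≤ H := by
      rintro _ ⟨x, _, rfl⟩
      exact (e x).2
    have hTp : IsPGroup p T := by
      rintro ⟨_, x, hx, rfl⟩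
      refine ⟨1, Subtype.ext ?_⟩
      obtain ⟨⟨i, hi⟩, ⟨j, hj⟩⟩ := Subgroup.mem_prod.mp hx
      have h1 : a₀ ^ p = 1 := by rw [← ha₀]; exact pow_orderOf_eq_one a₀
      have h2 : b₀ ^ p = 1 := by rw [← hb₀]; exact pow_orderOf_eq_one b₀
      have h3 : x ^ p = 1 := by
        apply Prod.ext
        · show x.1 ^ p = 1
          rw [← hi]
          show (a₀ ^ i) ^ p = 1
          rw [← zpow_natCast, zpow_comm, zpow_natCast, h1, one_zpow]
        · show x.2 ^ p = 1
          rw [← hj]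
          show (b₀ ^ j) ^ p = 1
          rw [← zpow_natCast, zpow_comm, zpow_natCast, h2, one_zpow]
      simp [pow_one, ← map_pow, h3]
    have huniq := Cfsg.Agent.Lib.OddLocal.uniqueP_of_fpf (K := N) hne hTp
      (fun h hh h1 => hfpf h (hTH hh) h1)
    have ha : f (a₀, 1) ∈ T := ⟨(a₀, 1), Subgroup.mem_prod.mpr ⟨Subgroup.mem_zpowers a₀, one_mem _⟩, rfl⟩
    have hb : f (1, b₀) ∈ T := ⟨(1, b₀), Subgroup.mem_prod.mpr ⟨one_mem _, Subgroup.mem_zpowers b₀⟩, rfl⟩
    have hoa : orderOf (⟨_, ha⟩ : T) = p := by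
      rw [Subgroup.orderOf_mk, orderOf_injective f hfinj, ← ha₀]
      exact orderOf_injective (MonoidHom.inl A B) hinl a₀
    have hob : orderOf (⟨_, hb⟩ : T) = p := by
      rw [Subgroup.orderOf_mk, orderOf_injective f hfinj, ← hb₀]
      exact orderOf_injective (MonoidHom.inr A B) hinr b₀
    have heq := huniq (Subgroup.zpowers (⟨_, ha⟩ : T)) (Subgroup.zpowers (⟨_, hb⟩ : T))
      (by rw [Nat.card_zpowers, hoa]) (by rw [Nat.card_zpowers, hob])
    have hmemb : (⟨_, hb⟩ : T) ∈ Subgroup.zpowers (⟨_, ha⟩ : T) := by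
      rw [heq]
      exact Subgroup.mem_zpowers _
    obtain ⟨k, hk⟩ := hmemb
    have h4 : f ((a₀, 1) ^ k) = f (1, b₀) := by
      rw [map_zpow]
      exact congrArg Subtype.val hk
    have h5 := hfinj h4
    have h6 : b₀ = 1 := by
      have := congrArg Prod.snd h5
      simpa using this.symm
    rw [h6, orderOf_one] at hb₀
    exact hp.one_lt.ne hb₀
  · rintro ⟨⟨L₁, _, _, H₁, hF₁, ⟨e₁⟩⟩, ⟨L₂, _, _, H₂, hF₂, ⟨e₂⟩⟩, hc⟩
    haveI : Nontrivial H₁ := e₁.symm.toEquiv.nontrivial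
    haveI : Nontrivial H₂ := e₂.symm.toEquiv.nontrivial
    have hc' : (Nat.card H₁).Coprime (Nat.card H₂) := by
      rw [← Nat.card_congr e₁.toEquiv, ← Nat.card_congr e₂.toEquiv]
      exact hc
    obtain ⟨ℓ, hℓ, hℓp⟩ := Nat.exists_infinite_primes (Nat.card H₁ * Nat.card H₂ + 1)
    haveI : Fact ℓ.Prime := ⟨hℓp⟩
    have hpos₁ : 0 < Nat.card H₁ := Nat.card_pos
    have hpos₂ : 0 < Nat.card H₂ := Nat.card_pos
    have h1 : ¬ ℓ ∣ Nat.card H₁ := fun h => by
      have := Nat.le_of_dvd hpos₁ h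
      nlinarith
    have h2 : ¬ ℓ ∣ Nat.card H₂ := fun h => by
      have := Nat.le_of_dvd hpos₂ h
      nlinarith
    obtain ⟨M₁, i1, i2, i3, i4, ρ₁, hρ₁⟩ := Cfsg.Agent.Lib.Struct.PF.pf_exists_module H₁ hF₁ ℓ
    obtain ⟨M₂, j1, j2, j3, j4, ρ₂, hρ₂⟩ := Cfsg.Agent.Lib.Struct.PF.pf_exists_module H₂ hF₂ ℓ
    obtain ⟨L, g1, g2, H, hF, ⟨e⟩⟩ := Cfsg.Agent.Lib.Struct.PF.pf_combine hc' ℓ h1 h2 ρ₁ ρ₂ hρ₁ hρ₂
    exact ⟨L, g1, g2, H, hF, ⟨(MulEquiv.prodCongr e₁ e₂).trans e⟩⟩

end Cfsg.Agent.S4292
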