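import Cfsg.Statements.S4302
-- import your own Cfsg.Agent.* helpers here
import Mathlib
import Cfsg.Agent.Lib.Coprime.AbOff2
import Cfsg.Agent.Lib.Coprime.Conj
import Cfsg.Agent.Lib.Basic.Core
import Cfsg.Agent.Lib.Struct.PLen
import Cfsg.Agent.Lib.PLocal.Bridge2

set_option autoImplicit false
open Cfsg

namespace Cfsg.Agent.S4302

open Subgroup Cfsg.Agent.Lib.PLocal Cfsg.Agent.Lib.Coprime.AbOff
open scoped commutatorElement

section helpers

variable {X : Type*} [Group X] [Finite X]

lemma core_quot (T : Sylow 2 X) {N : Subgroup X} [hNn : N.Normal]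
    (hN : N ≤ centralizer (((T : Subgroup X) ⊓ centralizer ((T : Subgroup X) : Set X) : Subgroup X) : Set X))
    (hc : (centralizer (((T : Subgroup X) ⊓ centralizer ((T : Subgroup X) : Set X) : Subgroup X) : Set X)).normalCore ≤ N) :
    Cfsg.pCore 2 (X ⧸ N) = ⊥ := by
  classical
  set Z : Subgroup X := (T : Subgroup X) ⊓ centralizer ((T : Subgroup X) : Set X) with hZ
  rw [eq_bot_iff]
  intro x hx
  obtain ⟨a, rfl⟩ := QuotientGroup.mk'_surjective N x
  have hπ : Function.Surjective (QuotientGroup.mk' N) := QuotientGroup.mk'_surjective N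
  let S' : Sylow 2 (X ⧸ N) := T.mapSurjective hπ
  let R : Subgroup X := (Cfsg.pCore 2 (X ⧸ N)).comap (QuotientGroup.mk' N)
  haveI hRn : R.Normal := (Cfsg.Agent.Lib.Basic.pCore_normal 2).comap _
  have hRZ : R ≤ centralizer (Z : Set X) := by
    intro b hb
    have h1 : (QuotientGroup.mk' N b) ∈ (S' : Subgroup (X ⧸ N)) := Cfsg.Agent.Lib.Basic.pCore_le_sylow S' hb
    obtain ⟨s, hs, hsb⟩ := h1
    have hc' : s⁻¹ * b ∈ N := QuotientGroup.eq.mp hsb
    have hb2 : b = s * (s⁻¹ * b) := by group
    rw [hb2]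
    refine mul_mem ?_ (hN hc')
    rw [mem_centralizer_iff]
    intro z hz
    exact (mem_centralizer_iff.mp (Subgroup.mem_inf.mp hz).2 s hs).symm
  have hRN : R ≤ N := (normal_le_normalCore.mpr hRZ).trans hc
  rw [Subgroup.mem_bot]
  exact (QuotientGroup.eq_one_iff a).mpr (hRN hx)

theorem part1 (T : Sylow 2 X) :
    Subgroup.normalClosure (Cfsg.thompsonSubgroupAOf (T : Subgroup X) : Set X)
        ⊔ Subgroup.normalizer (Cfsg.thompsonSubgroupAOf (T : Subgroup X) : Set X) = ⊤ := by
  classical
  set J := Cfsg.thompsonSubgroupAOf (T : Subgroup X) with hJ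
  set Y := Subgroup.normalClosure (J : Set X) with hY
  have hJY : J ≤ Y := Subgroup.le_normalClosure
  have hfr := Cfsg.Agent.Lib.Coprime.frattini_inf_normal T Y
  have hU : ∀ A₀, AbMax (T : Subgroup X) A₀ → A₀ ≤ Y := fun A₀ h => (le_thompson_of h).trans hJY
  have hNJ : Subgroup.normalizer (((T : Subgroup X) ⊓ Y : Subgroup X) : Set X) ≤ Subgroup.normalizer (J : Set X) := by
    intro n hn
    apply Cfsg.Agent.Lib.Coprime.mem_normalizer_of_conj_le
    have hmap : ((T : Subgroup X) ⊓ Y).map (MulAut.conj n).toMonoidHom = (T : Subgroup X) ⊓ Y := by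
      apply Subgroup.eq_of_le_of_card_ge
      · rintro _ ⟨x, hx, rfl⟩
        exact (mem_normalizer_iff.mp hn x).mp hx
      · rw [Subgroup.card_map_of_injective (MulAut.conj n).injective]
    have hle : J ≤ J.comap (MulAut.conj n).toMonoidHom := by
      apply thompson_le
      intro A hA
      rw [← Subgroup.map_le_iff_le_comap]
      have h1 := abMax_conj (abMax_inf hA (hU A hA)) n
      rw [hmap] at h1
      exact le_thompson_of (abMax_of_inf hU h1)
    intro x hx
    exact hle hx
  rw [eq_top_iff, ← hfr, sup_comm]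
  exact sup_le_sup_left hNJ _

theorem part2 [Group.IsSolvable X] (hF : Cfsg.fittingSubgroup X = Cfsg.pCore 2 X) (T : Sylow 2 X) :
    (Subgroup.normalClosure (Cfsg.thompsonSubgroupAOf (T : Subgroup X) : Set X)
        ≤ (Subgroup.centralizer (((T : Subgroup X) ⊓ Subgroup.centralizer ((T : Subgroup X) : Set X) : Subgroup X) : Set X)).normalCore
      ∨ ∃ n : ℕ, 1 ≤ n ∧
        Nonempty (↥(Subgroup.normalClosure (Cfsg.thompsonSubgroupAOf (T : Subgroup X) : Set X)) ⧸
            ((Subgroup.centralizer (((T : Subgroup X) ⊓ Subgroup.centralizer ((T : Subgroup X) : Set X) : Subgroup X) : Set X)).normalCore).subgroupOf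
              (Subgroup.normalClosure (Cfsg.thompsonSubgroupAOf (T : Subgroup X) : Set X))
          ≃* (Fin n → Equiv.Perm (Fin 3)))) := by
  classical
  set Z : Subgroup X := (T : Subgroup X) ⊓ centralizer ((T : Subgroup X) : Set X) with hZ
  set c0 : Subgroup X := (centralizer (Z : Set X)).normalCore with hc0
  set J := Cfsg.thompsonSubgroupAOf (T : Subgroup X) with hJ
  set Y := Subgroup.normalClosure (J : Set X) with hY
  set P := Cfsg.pCore 2 X with hP
  haveI hPn : P.Normal := Cfsg.Agent.Lib.Basic.pCore_normal 2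
  have hPp : IsPGroup 2 P := Cfsg.Agent.Lib.Basic.pCore_isPGroup 2
  have hPc : centralizer (P : Set X) ≤ P := by
    have h := Cfsg.Agent.Lib.Basic.centralizer_fittingSubgroup_le (G := X)
    rw [hF] at h
    exact h
  have hPT : ∀ S : Sylow 2 X, P ≤ (S : Subgroup X) := Cfsg.Agent.Lib.Basic.pCore_le_sylow
  set W := Subgroup.normalClosure (Z : Set X) with hW
  haveI hWn : W.Normal := Subgroup.normalClosure_normal
  have hZW : Z ≤ W := Subgroup.le_normalClosure
  have hWC : W ≤ centralizer (P : Set X) := by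
    apply Subgroup.normalClosure_le_normal
    intro z hz
    rw [SetLike.mem_coe, mem_centralizer_iff]
    intro p hp
    exact mem_centralizer_iff.mp (Subgroup.mem_inf.mp hz).2 p (hPT T hp)
  have hWP : W ≤ P := hWC.trans hPc
  have hWc : ∀ x ∈ W, ∀ y ∈ W, x * y = y * x := fun x hx y hy =>
    mem_centralizer_iff.mp (hWC hy) x (hWP hx)
  -- `c0 = C(W)`
  have hc01 : c0 ≤ centralizer (W : Set X) := by
    have h1 : W ≤ centralizer (c0 : Set X) := by
      apply Subgroup.normalClosure_le_normal
      intro z hz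
      rw [SetLike.mem_coe, mem_centralizer_iff]
      intro c hc
      exact (mem_centralizer_iff.mp ((centralizer (Z : Set X)).normalCore_le hc) z hz).symm
    intro c hc
    rw [mem_centralizer_iff]
    intro w hw
    exact (mem_centralizer_iff.mp (h1 hw) c hc).symm
  have hc02 : centralizer (W : Set X) ≤ c0 :=
    normal_le_normalCore.mpr (centralizer_le hZW)
  set V := omegaAb W hWc with hV
  haveI hVn : V.Normal := omegaAb_normal
  have hVe : Cfsg.IsElementaryAbelian 2 V := omegaAb_isEA
  have hVW : V ≤ W := fun v hv => hv.1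
  have hVc : ∀ x ∈ V, ∀ y ∈ V, x * y = y * x := fun x hx y hy => hWc x (hVW hx) y (hVW hy)
  have hO0 : Cfsg.pCore 2 (X ⧸ c0) = ⊥ := core_quot T (Subgroup.normalCore_le _) le_rfl
  have hDle : centralizer (V : Set X) ≤ c0 := by
    have hπ : Function.Surjective (QuotientGroup.mk' c0) := QuotientGroup.mk'_surjective c0
    have hDp : IsPGroup 2 ↥((centralizer (V : Set X)).map (QuotientGroup.mk' c0)) := by
      rintro ⟨_, d, hd, rfl⟩
      have hne : orderOf d ≠ 0 := (orderOf_pos d).ne'
      obtain ⟨k, m, hm, hkm⟩ := Nat.exists_eq_two_pow_mul_odd hne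
      have hym : (d ^ (2 ^ k)) ^ m = 1 := by
        rw [← pow_mul, ← hkm]
        exact pow_orderOf_eq_one d
      have hyD : d ^ (2 ^ k) ∈ centralizer (V : Set X) := Subgroup.pow_mem _ hd _
      have hyN : d ^ (2 ^ k) ∈ normalizer (W : Set X) :=
        Cfsg.Agent.Lib.Coprime.mem_normalizer_of_conj_le W _ (fun x hx => hWn.conj_mem x hx _)
      have hfx := fix_of_fix_omega hWc hyN hm hym (fun v hv hv2 =>
        (mem_centralizer_iff.mp hyD v (show v ∈ V from ⟨hv, hv2⟩)).symm)
      have hyW : d ^ (2 ^ k) ∈ c0 := by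
        apply hc02
        rw [mem_centralizer_iff]
        intro w hw
        obtain ⟨k', hk'⟩ := (hPp.to_le hWP) ⟨w, hw⟩
        have hw2 : w ^ (2 ^ k') = 1 := congrArg Subtype.val hk'
        exact (hfx k' w hw hw2).symm
      refine ⟨k, Subtype.ext ?_⟩
      show (QuotientGroup.mk' c0 d) ^ (2 ^ k) = 1
      rw [← map_pow]
      exact (QuotientGroup.eq_one_iff _).mpr hyW
    have hDn : ((centralizer (V : Set X)).map (QuotientGroup.mk' c0)).Normal :=
      Subgroup.Normal.map inferInstance _ hπ
    have h1 := Cfsg.Agent.Lib.Components.le_pCore hDn hDp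
    rw [hO0] at h1
    intro d hd
    have h2 : QuotientGroup.mk' c0 d = 1 := by
      have := h1 ⟨d, hd, rfl⟩
      simpa using this
    exact (QuotientGroup.eq_one_iff d).mp h2
  have hCV : centralizer (V : Set X) = c0 :=
    le_antisymm hDle (hc01.trans (centralizer_le hVW))
  have hO : Cfsg.pCore 2 (X ⧸ centralizer (V : Set X)) = ⊥ :=
    core_quot T (hDle.trans (Subgroup.normalCore_le _)) hCV.ge
  have hsol : Group.IsSolvable X := inferInstance
  have hsep : Cfsg.IsPSolvable 2 X := Cfsg.Agent.Lib.Struct.isPSolvable_of_isSolvable 2 _ X rfl hsol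
  haveI hYn : Y.Normal := Subgroup.normalClosure_normal
  have S : OffSetup 2 (holV V) (Y.map (holAct V)) := holSetup hVe Y (holS1 hsep Y hO)
  have hJY : J ≤ Y := Subgroup.le_normalClosure
  have hbo : ∀ (g : X) (A : Subgroup X), AbMax (T : Subgroup X) A →
      (A.map (MulAut.conj g).toMonoidHom).map (holAct V) ≤ Y.map (holAct V) ∧
      IsBestOffenderOn 2 (holV V) ((A.map (MulAut.conj g).toMonoidHom).map (holAct V)) := by
    intro g A hA
    have hle : (A.map (MulAut.conj g).toMonoidHom).map (holAct V) ≤ Y.map (holAct V) := by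
      apply Subgroup.map_mono
      rintro _ ⟨a, ha, rfl⟩
      exact hYn.conj_mem a (hJY (le_thompson_of hA ha)) g
    refine ⟨hle, wbo_bo S hle ?_⟩
    have hVT : V ≤ (T : Subgroup X).map (MulAut.conj g).toMonoidHom := by
      intro v hv
      refine ⟨g⁻¹ * v * g, hPT T ?_, ?_⟩
      · have := hPn.conj_mem v (hWP (hVW hv)) g⁻¹
        simpa using this
      · show g * (g⁻¹ * v * g) * g⁻¹ = v
        group
    have hTp : IsPGroup 2 ↥((T : Subgroup X).map (MulAut.conj g).toMonoidHom) := T.isPGroup'.map _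
    exact wbo_map hVc hVT hTp (abMax_conj hA g)
  have hS3 : Y.map (holAct V) = ⨆ A : {A : Subgroup (Hol V) // A ≤ Y.map (holAct V) ∧ IsBestOffenderOn 2 (holV V) A},
      (A : Subgroup (Hol V)) := by
    apply le_antisymm
    · set L := ⨆ A : {A : Subgroup (Hol V) // A ≤ Y.map (holAct V) ∧ IsBestOffenderOn 2 (holV V) A},
        (A : Subgroup (Hol V)) with hL
      rw [Subgroup.map_le_iff_le_comap, hY, Subgroup.normalClosure, Subgroup.closure_le]
      intro x hx
      obtain ⟨j, hj, hconj⟩ := Group.mem_conjugatesOfSet_iff.mp hx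
      obtain ⟨g, rfl⟩ := isConj_iff.mp hconj
      have hle : J ≤ (L.comap (holAct V)).comap (MulAut.conj g).toMonoidHom := by
        apply thompson_le
        intro A hA
        rw [← Subgroup.map_le_iff_le_comap, ← Subgroup.map_le_iff_le_comap]
        obtain ⟨h1, h2⟩ := hbo g A hA
        exact le_iSup (fun A : {A : Subgroup (Hol V) // A ≤ Y.map (holAct V) ∧ IsBestOffenderOn 2 (holV V) A} =>
          (A : Subgroup (Hol V))) ⟨_, h1, h2⟩
      exact hle hj
    · exact iSup_le fun A => A.2.1
  have hgen := S.le_closure_trv hS3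
  obtain ⟨hNorm, hiso, hind, hsup, -, -⟩ := S.structure_thm hgen
  by_cases hYc : Y ≤ c0
  · exact Or.inl hYc
  right
  haveI hIf : Finite (OffSetup.FacIdx 2 (holV V) (Y.map (holAct V))) := by
    unfold OffSetup.FacIdx
    infer_instance
  have hIne : Nonempty (OffSetup.FacIdx 2 (holV V) (Y.map (holAct V))) := by
    by_contra hemp
    rw [not_nonempty_iff] at hemp
    apply hYc
    rw [iSup_of_empty] at hsup
    have h1 := map_eq_bot_iff_le_centralizer.mp hsup.symm
    rwa [hCV] at h1
  have hiso' : ∀ E : OffSetup.FacIdx 2 (holV V) (Y.map (holAct V)), Nonempty (↥E.1 ≃* Equiv.Perm (Fin 3)) := by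
    intro E
    obtain ⟨⟨e⟩, -⟩ := hiso E
    obtain ⟨e'⟩ := Cfsg.Agent.Lib.Classical.sl_two_card_two_equiv (F := ZMod 2) (by simp [ZMod.card])
    exact ⟨e.trans e'⟩
  have hcomm : ∀ i j : OffSetup.FacIdx 2 (holV V) (Y.map (holAct V)), i ≠ j → ∀ x ∈ i.1, ∀ y ∈ j.1, x * y = y * x := by
    intro i j hij x hx y hy
    have h1 := (S.fac_ne hij).2.2
    have h2 : ⁅x, y⁆ ∈ ⁅i.1, j.1⁆ := Subgroup.commutator_mem_commutator hx hy
    rw [h1, Subgroup.mem_bot] at h2
    exact commutatorElement_eq_one_iff_mul_comm.mp h2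
  obtain ⟨e₁⟩ := pi_iso hcomm hind hsup hiso'
  refine ⟨Nat.card (OffSetup.FacIdx 2 (holV V) (Y.map (holAct V))), Nat.card_pos, ?_⟩
  let f : ↥Y →* Hol V := (holAct V).comp Y.subtype
  have hk : f.ker = c0.subgroupOf Y := by
    ext y
    rw [MonoidHom.mem_ker, Subgroup.mem_subgroupOf, ← hCV]
    exact holAct_eq_one_iff
  have hr : f.range = Y.map (holAct V) := by
    rw [MonoidHom.range_comp, Subgroup.range_subtype]
  exact ⟨(QuotientGroup.quotientMulEquivOfEq hk.symm).trans
    (((QuotientGroup.quotientKerEquivRange f).trans (MulEquiv.subgroupCongr hr)).trans e₁)⟩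

end helpers

/-- Let `X` be a finite solvable group whose Fitting subgroup is a 2-group (equivalently `F(X) = O₂(X)`), `T` a Sylow 2-subgroup of `X`, `J(T)` the subgroup generated by the abelian subgroups of `T` of largest order, `C` the largest normal subgroup of `X` centralizing the centre `Z(T)`, and `Y` the normal closure of `J(T)` in `X`. Then `X = C · Y · N_X(J(T))`, and either `Y ≤ C`, or `CY/C` is isomorphic to a direct product of at least one copy of the symmetric group of degree 3. -/
theorem result {X : Type*} [Group X] [Finite X]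
    [Group.IsSolvable X] (hF : Cfsg.fittingSubgroup X = Cfsg.pCore 2 X) (T : Sylow 2 X) :
    ((Subgroup.centralizer (((T : Subgroup X) ⊓ Subgroup.centralizer ((T : Subgroup X) : Set X) : Subgroup X) : Set X)).normalCore
        ⊔ Subgroup.normalClosure (Cfsg.thompsonSubgroupAOf (T : Subgroup X) : Set X)
        ⊔ Subgroup.normalizer (Cfsg.thompsonSubgroupAOf (T : Subgroup X) : Set X) = ⊤) ∧
    (Subgroup.normalClosure (Cfsg.thompsonSubgroupAOf (T : Subgroup X) : Set X)
        ≤ (Subgroup.centralizer (((T : Subgroup X) ⊓ Subgroup.centralizer ((T : Subgroup X) : Set X) : Subgroup X) : Set X)).normalCore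
      ∨ ∃ n : ℕ, 1 ≤ n ∧
        Nonempty (↥(Subgroup.normalClosure (Cfsg.thompsonSubgroupAOf (T : Subgroup X) : Set X)) ⧸
            ((Subgroup.centralizer (((T : Subgroup X) ⊓ Subgroup.centralizer ((T : Subgroup X) : Set X) : Subgroup X) : Set X)).normalCore).subgroupOf
              (Subgroup.normalClosure (Cfsg.thompsonSubgroupAOf (T : Subgroup X) : Set X))
          ≃* (Fin n → Equiv.Perm (Fin 3)))) := by
  classical
  refine ⟨?_, part2 hF T⟩
  have h1 := part1 T
  rw [eq_top_iff, ← h1]
  exact sup_le (le_sup_right.trans le_sup_left) le_sup_right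

end Cfsg.Agent.S4302
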