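import Cfsg.Statements.S4341
import Cfsg.Agent.Lib.Struct.SylowCount

set_option autoImplicit false
open Cfsg

namespace Cfsg.Agent.S4341


open Cfsg.Agent.Lib.Struct Subgroup in
/-- The three factor formula, general instance form. -/
theorem formula {G : Type*} [Group G] [Finite G]
    (p : ℕ) [Fact p.Prime] (K : Subgroup G) [K.Normal] (P : Sylow p G) (N : Subgroup G)
    (hN : N = ((P : Subgroup G) ⊔ K) ⊓ Subgroup.normalizer (((P : Subgroup G) ⊓ K : Subgroup G) : Set G))
    [hn : (((P : Subgroup G) ⊓ K).subgroupOf N).Normal] :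
    Nat.card (Sylow p G) =
      Nat.card (Sylow p (G ⧸ K)) * Nat.card (Sylow p K) * Nat.card (Sylow p (N ⧸ ((P : Subgroup G) ⊓ K).subgroupOf N)) := by
  have h1 := card_sylow_eq_mul P K
  have h2 := relIndex_normalizer_eq_mul P K N hN
  obtain ⟨S, hS⟩ := Cfsg.Agent.Lib.Coprime.exists_sylow_map_eq_inf P K
  have hS' : (S : Subgroup K) = ((P : Subgroup G) ⊓ K).subgroupOf K := by
    rw [← hS]
    exact (Subgroup.comap_map_eq_self_of_injective K.subtype_injective _).symm
  have h3 := card_sylow_subgroup S hS' inf_le_right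
  have hPN : (P : Subgroup G) ≤ N := by
    rw [hN]
    refine le_inf le_sup_left ?_
    intro x hx
    apply Cfsg.Agent.Lib.Coprime.mem_normalizer_of_conj_le
    intro y hy
    obtain ⟨hy1, hy2⟩ := Subgroup.mem_inf.mp hy
    exact Subgroup.mem_inf.mpr ⟨(P : Subgroup G).mul_mem ((P : Subgroup G).mul_mem hx hy1)
      ((P : Subgroup G).inv_mem hx), ‹K.Normal›.conj_mem y hy2 x⟩
  have h4 := card_sylow_subgroup (P.subtype hPN) (Sylow.coe_subtype P hPN) hPN
  have h5 := card_sylow_eq_mul (P.subtype hPN) (((P : Subgroup G) ⊓ K).subgroupOf N)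
  have h6 : (normalizer (((P.subtype hPN : Sylow p N) : Subgroup N) : Set N)).relIndex
      (((P : Subgroup G) ⊓ K).subgroupOf N) = 1 := by
    rw [Subgroup.relIndex_eq_one]
    refine le_trans ?_ Subgroup.le_normalizer
    intro x hx
    rw [Sylow.coe_subtype, Subgroup.mem_subgroupOf]
    exact (Subgroup.mem_inf.mp (Subgroup.mem_subgroupOf.mp hx)).1
  rw [h6, mul_one] at h5
  rw [h1, h2, ← h3, ← h4, h5, mul_assoc]

/-- Let K be a normal subgroup of a finite group G, p a prime and P a Sylow p-subgroup of G; let N be the normalizer of P ∩ K inside the subgroup PK. Then the number of Sylow p-subgroups of G equals the product of the numbers of Sylow p-subgroups of G/K, of K, and of N/(P ∩ K). (The normality of P ∩ K in N, which always holds, is assumed as a hypothesis so that the quotient can be formed.) -/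
theorem result {G : Type*} [Group G] [Finite G]
    (p : ℕ) [Fact p.Prime] (K : Subgroup G) [K.Normal] (P : Sylow p G) (N : Subgroup G)
    (hN : N = ((P : Subgroup G) ⊔ K) ⊓ Subgroup.normalizer (((P : Subgroup G) ⊓ K : Subgroup G) : Set G))
    [hn : (((P : Subgroup G) ⊓ K).subgroupOf N).Normal] :
    Nat.card (Sylow p G) =
      Nat.card (Sylow p (G ⧸ K)) * Nat.card (Sylow p K) * Nat.card (Sylow p (N ⧸ ((P : Subgroup G) ⊓ K).subgroupOf N)) := by
  exact formula p K P N hN

end Cfsg.Agent.S4341
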