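import Cfsg.Statements.S4303
import Cfsg.Agent.Lib.Struct.SylowCount
import Cfsg.Agent.Lib.Basic.MinNormal
import Cfsg.Agent.S4341

set_option autoImplicit false
universe u
open Cfsg

namespace Cfsg.Agent.S4303


universe v

open Cfsg.Agent.Lib.Struct Subgroup

theorem sup_eq_aux {G : Type*} [Group G] [Finite G]
    (p : ℕ) [Fact p.Prime] (K : Subgroup G) [K.Normal] (P : Sylow p G) (N : Subgroup G)
    (hN : N = ((P : Subgroup G) ⊔ K) ⊓ Subgroup.normalizer (((P : Subgroup G) ⊓ K : Subgroup G) : Set G)) :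
    K ⊔ N = (P : Subgroup G) ⊔ K := by
  have h5 := Cfsg.Agent.Lib.Coprime.frattini_inf_normal P K
  have hNW : N ≤ (P : Subgroup G) ⊔ K := hN ▸ inf_le_left
  apply le_antisymm (sup_le le_sup_right hNW)
  intro g hg
  have h6 : g ∈ normalizer (((P : Subgroup G) ⊓ K : Subgroup G) : Set G) ⊔ K := by rw [h5]; trivial
  rw [sup_comm] at h6
  obtain ⟨k, hk, a, ha, rfl⟩ := Subgroup.mem_sup_of_normal_left.mp h6
  have h7 : a ∈ N := by
    rw [hN]
    refine Subgroup.mem_inf.mpr ⟨?_, ha⟩
    have h8 : k⁻¹ * (k * a) = a := by group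
    rw [← h8]
    exact Subgroup.mul_mem _ (Subgroup.inv_mem _ (Subgroup.mem_sup_right hk)) hg
  exact Subgroup.mul_mem _ (Subgroup.mem_sup_left hk) (Subgroup.mem_sup_right h7)

theorem index_pow_aux {G : Type*} [Group G] [Finite G]
    (p : ℕ) [Fact p.Prime] (K : Subgroup G) [K.Normal] (P : Sylow p G) (N : Subgroup G)
    (hN : N = ((P : Subgroup G) ⊔ K) ⊓ Subgroup.normalizer (((P : Subgroup G) ⊓ K : Subgroup G) : Set G)) :
    ∃ k, (K.subgroupOf N).index = p ^ k := by
  have hfr := sup_eq_aux p K P N hN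
  have h1 : (K.subgroupOf N).index = K.relIndex N := rfl
  have h2 : K.relIndex N = K.relIndex (K ⊔ N) := by
    rw [sup_comm]
    exact (Subgroup.relIndex_sup_right N K).symm
  have h3 : K.relIndex ((P : Subgroup G) ⊔ K) = K.relIndex (P : Subgroup G) :=
    Subgroup.relIndex_sup_right _ _
  have h4 : K.relIndex (P : Subgroup G) ∣ Nat.card (P : Subgroup G) := Subgroup.relIndex_dvd_card _ _
  obtain ⟨j, hj⟩ := IsPGroup.iff_card.mp P.isPGroup'
  rw [hj] at h4
  obtain ⟨c, -, hc⟩ := (Nat.dvd_prime_pow Fact.out).mp h4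
  exact ⟨c, by rw [h1, h2, hfr, h3, hc]⟩

/-- The third factor. -/
theorem third_factor {G : Type*} [Group G] [Finite G]
    (p : ℕ) [Fact p.Prime] (K : Subgroup G) [K.Normal] (P : Sylow p G) (N : Subgroup G)
    (hN : N = ((P : Subgroup G) ⊔ K) ⊓ Subgroup.normalizer (((P : Subgroup G) ⊓ K : Subgroup G) : Set G))
    (T : Subgroup G) (hT : T = (P : Subgroup G) ⊓ K)
    [hn : (T.subgroupOf N).Normal] (q : ℕ) (hq : q.Prime) :
    q ^ (Nat.card (Sylow p (N ⧸ T.subgroupOf N))).factorization q ≡ 1 [MOD p] := by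
  have hTK : T ≤ K := hT ▸ inf_le_right
  have hTN : T ≤ N := by
    rw [hN, hT]
    exact le_inf (le_trans inf_le_left le_sup_left) Subgroup.le_normalizer
  have hidx : ¬ p ∣ T.relIndex K := by
    have := Cfsg.Agent.Lib.Coprime.sylow_relIndex_normal_not_dvd P K
    rw [Subgroup.relIndex, hT, Subgroup.inf_subgroupOf_right]
    exact this
  obtain ⟨K₁, hK₁⟩ : ∃ K₁ : Subgroup N, K₁ = K.subgroupOf N := ⟨_, rfl⟩
  haveI : K₁.Normal := hK₁ ▸ Subgroup.normal_subgroupOf
  have hT1 : T.subgroupOf N ≤ K₁ := by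
    intro x hx
    rw [hK₁]
    exact Subgroup.mem_subgroupOf.mpr (hTK (Subgroup.mem_subgroupOf.mp hx))
  obtain ⟨K₀, hK₀⟩ : ∃ K₀ : Subgroup (N ⧸ T.subgroupOf N), K₀ = K₁.map (QuotientGroup.mk' (T.subgroupOf N)) :=
    ⟨_, rfl⟩
  haveI : K₀.Normal := hK₀ ▸ Subgroup.Normal.map ‹_› _ (QuotientGroup.mk'_surjective _)
  have hidx0 : K₀.index = K₁.index := hK₀ ▸ Cfsg.Agent.Lib.Basic.index_map_mk hT1
  have hpow : ∃ k, K₁.index = p ^ k := hK₁ ▸ index_pow_aux p K P N hN
  have hc0 : ¬ p ∣ Nat.card K₀ := by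
    intro hd
    have e1 := Subgroup.card_mul_index K₀
    have e2 : Nat.card (N ⧸ T.subgroupOf N) = (T.subgroupOf N).index := rfl
    have e3 : (T.subgroupOf N).relIndex K₁ * K₁.index = (T.subgroupOf N).index :=
      Subgroup.relIndex_mul_index hT1
    rw [e2, hidx0, ← e3] at e1
    have hK1pos : 0 < K₁.index := Nat.pos_of_ne_zero Subgroup.FiniteIndex.index_ne_zero
    have e4 : Nat.card K₀ = (T.subgroupOf N).relIndex K₁ := Nat.eq_of_mul_eq_mul_right hK1pos e1
    rw [e4] at hd
    have e5 : (T.subgroupOf N).relIndex K₁ = T.relIndex (K ⊓ N) := by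
      rw [hK₁]
      show (T.comap N.subtype).relIndex _ = _
      rw [Subgroup.relIndex_comap, Subgroup.subgroupOf_map_subtype]
    rw [e5] at hd
    apply hidx
    have hTKN : T ≤ K ⊓ N := le_inf hTK hTN
    rw [← Subgroup.relIndex_mul_relIndex T (K ⊓ N) K hTKN inf_le_left]
    exact Dvd.dvd.mul_right hd _
  exact factorization_pow_modEq_one_of_complement K₀ hc0 (by rw [hidx0]; exact hpow) q hq

theorem aux (p : ℕ) [Fact p.Prime] : ∀ (n : ℕ) (G : Type v) [Group G] [Finite G], Nat.card G = n →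
    ∃ l : List ℕ, l.prod = Nat.card (Sylow p G) ∧
      ∀ m ∈ l, (IsPrimePow m ∧ m % p = 1) ∨
        ∃ (S : Type v) (_ : Group S) (_ : Finite S), IsSimpleGroup S ∧ m = Nat.card (Sylow p S) := by
  intro n
  induction n using Nat.strong_induction_on with
  | _ n ih =>
  intro G _ _ hn
  classical
  by_cases hnt : Subsingleton G
  · have : IsPGroup p G := IsPGroup.of_card (n := 0) (by
      rw [pow_zero]; exact Nat.card_of_subsingleton 1)
    refine ⟨[], ?_, by simp⟩
    rw [card_sylow_of_isPGroup this]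
    simp
  rw [not_subsingleton_iff_nontrivial] at hnt
  obtain ⟨K, hKn, hK1, hKmin⟩ := Cfsg.Agent.Lib.Basic.exists_isMinNormal (G := G)
  by_cases hKtop : K = ⊤
  · have hsimple : IsSimpleGroup G := ⟨by
      intro H hH
      rcases hKmin H hH (by rw [hKtop]; exact le_top) with h | h
      · exact Or.inl h
      · exact Or.inr (h.trans hKtop)⟩
    exact ⟨[Nat.card (Sylow p G)], by simp, fun m hm => Or.inr
      ⟨G, inferInstance, inferInstance, hsimple, by simpa using hm⟩⟩
  have hN1card : 1 < Nat.card K := by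
    have : Nontrivial K := (Subgroup.nontrivial_iff_ne_bot K).mpr hK1
    exact Finite.one_lt_card
  have hcard : Nat.card (G ⧸ K) < n := by
    have h1 := Subgroup.card_mul_index K
    have h2 : Nat.card (G ⧸ K) = K.index := rfl
    rw [h2, ← hn, ← h1]
    have h3 : 0 < K.index := Nat.pos_of_ne_zero Subgroup.FiniteIndex.index_ne_zero
    nlinarith
  have hcardK : Nat.card K < n := by
    have h1 := Subgroup.card_mul_index K
    have h3 : K.index ≠ 1 := fun h => hKtop (Subgroup.index_eq_one.mp h)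
    have h4 : 0 < K.index := Nat.pos_of_ne_zero Subgroup.FiniteIndex.index_ne_zero
    rw [← hn, ← h1]
    have h5 : 2 ≤ K.index := by omega
    nlinarith
  obtain ⟨l₁, hl₁, hl₁'⟩ := ih _ hcard (G ⧸ K) rfl
  obtain ⟨l₂, hl₂, hl₂'⟩ := ih _ hcardK K rfl
  obtain ⟨P⟩ : Nonempty (Sylow p G) := inferInstance
  obtain ⟨N, hN⟩ : ∃ N, N = ((P : Subgroup G) ⊔ K) ⊓ Subgroup.normalizer (((P : Subgroup G) ⊓ K : Subgroup G) : Set G) :=
    ⟨_, rfl⟩
  have hTN : (P : Subgroup G) ⊓ K ≤ N := by
    rw [hN]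
    exact le_inf (le_trans inf_le_left le_sup_left) Subgroup.le_normalizer
  have hNT : N ≤ Subgroup.normalizer (((P : Subgroup G) ⊓ K : Subgroup G) : Set G) := hN ▸ inf_le_right
  haveI hnormal : (((P : Subgroup G) ⊓ K).subgroupOf N).Normal :=
    (Subgroup.normal_subgroupOf_iff_le_normalizer hTN).mpr hNT
  have hform := Cfsg.Agent.S4341.formula p K P N hN
  have hthird := third_factor p K P N hN _ rfl
  obtain ⟨n₃, hn₃⟩ : ∃ n₃, n₃ = Nat.card (Sylow p (N ⧸ ((P : Subgroup G) ⊓ K).subgroupOf N)) := ⟨_, rfl⟩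
  rw [← hn₃] at hform hthird
  have hn₃0 : n₃ ≠ 0 := by
    rw [hn₃]
    exact Nat.card_pos.ne'
  refine ⟨l₁ ++ l₂ ++ n₃.factorization.support.toList.map (fun q => q ^ n₃.factorization q), ?_, ?_⟩
  · rw [List.prod_append, List.prod_append, hl₁, hl₂, hform, Finset.prod_map_toList]
    congr 1
    exact Nat.factorization_prod_pow_eq_self hn₃0
  · intro m hm
    rw [List.mem_append, List.mem_append] at hm
    rcases hm with (hm | hm) | hm
    · exact hl₁' m hm
    · exact hl₂' m hm
    · rw [List.mem_map] at hm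
      obtain ⟨q, hq, rfl⟩ := hm
      have hq' : q ∈ n₃.factorization.support := Finset.mem_toList.mp hq
      have hqp : q.Prime := Nat.prime_of_mem_primeFactors (by simpa using hq')
      left
      refine ⟨hqp.isPrimePow.pow (Finsupp.mem_support_iff.mp hq'), ?_⟩
      have h1 : q ^ n₃.factorization q ≡ 1 [MOD p] := hthird q hqp
      have h2 : 1 % p = 1 := Nat.mod_eq_of_lt (Fact.out : p.Prime).one_lt
      rw [← h2]
      exact h1

/-- For a finite group `G` and a prime `p`, the number of Sylow `p`-subgroups of `G` is a product of natural numbers each of which is either a prime power congruent to 1 modulo `p` or the number of Sylow `p`-subgroups of some finite simple group. -/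
theorem result {G : Type u} [Group G] [Finite G]
    (p : ℕ) [Fact p.Prime] :
    ∃ l : List ℕ, l.prod = Nat.card (Sylow p G) ∧
      ∀ m ∈ l, (IsPrimePow m ∧ m % p = 1) ∨
        ∃ (S : Type u) (_ : Group S) (_ : Finite S), IsSimpleGroup S ∧ m = Nat.card (Sylow p S) := by
  exact aux p _ G rfl

end Cfsg.Agent.S4303
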