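import Cfsg.Statements.S4331
import Cfsg.Agent.Lib.Basic.Nilpotent
import Cfsg.Agent.Lib.Basic.Core

set_option autoImplicit false
open Cfsg

namespace Cfsg.Agent.S4331


open Multiplicative

abbrev F3 := ZMod 3
abbrev V := Multiplicative (F3 × F3)
abbrev C8 := Multiplicative (ZMod 8)
abbrev C2 := Multiplicative (ZMod 2)

def mulTriple : MulAut C8 where
  toFun x := x ^ 3
  invFun x := x ^ 3
  left_inv := by decide
  right_inv := by decide
  map_mul' x y := mul_pow x y 3

def psi : C2 →* MulAut C8 where
  toFun e := if e = ofAdd 1 then mulTriple else 1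
  map_one' := by decide
  map_mul' a b := by
    ext x
    revert a b x
    decide

abbrev T := C8 ⋊[psi] C2

instance : Fintype T := Fintype.ofEquiv _ SemidirectProduct.equivProd.symm

def coef (k : C8) : F3 × F3 :=
  match (toAdd k).val with
  | 0 => (1, 0) | 1 => (1, 1) | 2 => (0, 2) | 3 => (1, 2)
  | 4 => (2, 0) | 5 => (2, 2) | 6 => (0, 1) | _ => (2, 1)

def rho (t : T) (v : V) : V :=
  let w := toAdd v
  let w' := if t.right = ofAdd 1 then (w.1, -w.2) else w
  let a := coef t.left
  ofAdd (a.1 * w'.1 - a.2 * w'.2, a.1 * w'.2 + a.2 * w'.1)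

def rhoAut (t : T) : MulAut V where
  toFun := rho t
  invFun := rho t⁻¹
  left_inv := by revert t; decide +kernel
  right_inv := by revert t; decide +kernel
  map_mul' := by revert t; decide +kernel

def phi : T →* MulAut V where
  toFun := rhoAut
  map_one' := by
    refine MulEquiv.ext fun v => ?_
    revert v
    decide +kernel
  map_mul' a b := by
    refine MulEquiv.ext fun v => ?_
    revert a b v
    decide +kernel

abbrev G := V ⋊[phi] T

instance : Fintype G := Fintype.ofEquiv _ SemidirectProduct.equivProd.symm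

def tt : G := SemidirectProduct.inr (SemidirectProduct.inr (ofAdd 1))

theorem key : ∀ c : G, ∃ h : G, (h * c * h⁻¹).left = 1 ∨ Commute (h * c * h⁻¹) tt := by
  unfold Commute SemiconjBy
  decide +kernel

theorem T_pow : ∀ x : T, x ^ 16 = 1 := by decide +kernel

theorem tt_sq : tt ^ 2 = 1 := by decide +kernel
theorem tt_ne : tt ≠ 1 := by decide +kernel

def vv : G := SemidirectProduct.inl (ofAdd (0, 1))
def cc : G := tt * (vv * tt⁻¹ * vv⁻¹)
theorem cc_cube : cc ^ 3 = 1 := by decide +kernel
theorem cc_ne : cc ≠ 1 := by decide +kernel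

theorem solv : Group.IsSolvable G := by
  haveI : Group.IsSolvable T :=
    solvable_of_ker_le_range (SemidirectProduct.inl : C8 →* T) (SemidirectProduct.rightHom : T →* C2)
      (by rw [SemidirectProduct.range_inl_eq_ker_rightHom])
  exact solvable_of_ker_le_range (SemidirectProduct.inl : V →* G) (SemidirectProduct.rightHom : G →* T)
    (by rw [SemidirectProduct.range_inl_eq_ker_rightHom])

theorem sub_of_left_one {g : G} (hg : g.left = 1) :
    ((Subgroup.zpowers tt).subgroupOf (Subgroup.zpowers tt ⊔ Subgroup.zpowers g)).IsSubnormal := by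
  have hrange : ∀ x : G, x.left = 1 → x ^ 16 = 1 := by
    intro x hx
    have : x = SemidirectProduct.inr x.right := by
      ext1
      · simpa using hx
      · simp
    rw [this, ← map_pow, T_pow, map_one]
  set R : Subgroup G := (SemidirectProduct.inr : T →* G).range with hR
  have hmem : ∀ x : G, x.left = 1 → x ∈ R := by
    intro x hx
    refine ⟨x.right, ?_⟩
    ext1
    · simpa using hx.symm
    · simp
  have hle : Subgroup.zpowers tt ⊔ Subgroup.zpowers g ≤ R := by
    refine sup_le ?_ ?_
    · rw [Subgroup.zpowers_le]; exact hmem _ (by simp [tt])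
    · rw [Subgroup.zpowers_le]; exact hmem _ hg
  have hp : IsPGroup 2 (↥(Subgroup.zpowers tt ⊔ Subgroup.zpowers g)) := by
    intro x
    refine ⟨4, ?_⟩
    obtain ⟨y, hy⟩ := hle x.2
    apply Subtype.ext
    simp only [Subgroup.coe_pow, Subgroup.coe_one]
    rw [← hy, ← map_pow]
    have h16 : y ^ 2 ^ 4 = 1 := T_pow y
    rw [h16, map_one]
  haveI : Fact (Nat.Prime 2) := ⟨Nat.prime_two⟩
  haveI : Group.IsNilpotent (↥(Subgroup.zpowers tt ⊔ Subgroup.zpowers g)) := hp.isNilpotent
  exact Cfsg.Agent.Lib.Basic.isSubnormal_of_isNilpotent _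

theorem sub_of_comm {g : G} (hg : Commute g tt) :
    ((Subgroup.zpowers tt).subgroupOf (Subgroup.zpowers tt ⊔ Subgroup.zpowers g)).IsSubnormal := by
  refine Subgroup.Normal.isSubnormal ?_
  set A := Subgroup.zpowers tt with hA
  set B := Subgroup.zpowers g with hB
  have hAcent : A ⊔ B ≤ Subgroup.centralizer (A : Set _) := by
    refine sup_le ?_ ?_
    · rw [Subgroup.le_centralizer_iff]
      rw [hA]
      intro x hx y hy
      obtain ⟨a, rfl⟩ := Subgroup.mem_zpowers_iff.mp hx
      obtain ⟨b, rfl⟩ := Subgroup.mem_zpowers_iff.mp hy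
      exact ((Commute.refl tt).zpow_zpow a b).eq.symm
    · rw [Subgroup.le_centralizer_iff]
      intro x hx y hy
      obtain ⟨a, rfl⟩ := Subgroup.mem_zpowers_iff.mp hx
      obtain ⟨b, rfl⟩ := Subgroup.mem_zpowers_iff.mp hy
      exact (hg.zpow_zpow b a).eq
  constructor
  intro n hn k
  have h1 : (n : G) ∈ A := Subgroup.mem_subgroupOf.mp hn
  have h2 := Subgroup.mem_centralizer_iff.mp (hAcent k.2) n h1
  rw [Subgroup.mem_subgroupOf]
  have : ((k * n * k⁻¹ : ↥(A ⊔ B)) : G) = n := by
    simp only [Subgroup.coe_mul, Subgroup.coe_inv]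
    rw [← h2]; group
  rw [this]; exact h1

/-- There is a finite solvable group G with a subgroup A of order 2 such that every conjugacy class of G contains an element g for which A is subnormal in the subgroup generated by A and g, and yet A is not contained in O_2(G). (So the corresponding criteria for odd primes fail at the prime 2, even for solvable groups.) -/
theorem result :
    ∃ (G : Type) (_ : Group G) (_ : Finite G) (A : Subgroup G), Group.IsSolvable G ∧ Nat.card A = 2 ∧
      (∀ c : G, ∃ g : G, IsConj c g ∧ (A.subgroupOf (A ⊔ Subgroup.zpowers g)).IsSubnormal) ∧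
      ¬ A ≤ Cfsg.pCore 2 G := by
  refine ⟨G, inferInstance, inferInstance, Subgroup.zpowers tt, solv, ?_, ?_, ?_⟩
  · rw [Nat.card_zpowers]
    exact orderOf_eq_prime tt_sq tt_ne
  · intro c
    obtain ⟨h, hh⟩ := key c
    refine ⟨h * c * h⁻¹, isConj_iff.mpr ⟨h, rfl⟩, ?_⟩
    rcases hh with hh | hh
    · exact sub_of_left_one hh
    · exact sub_of_comm hh
  · intro hle
    have htt : tt ∈ Cfsg.pCore 2 G := hle (Subgroup.mem_zpowers tt)
    have hn : (Cfsg.pCore 2 G).Normal := Subgroup.sSup_normal _ (fun _ h => h.1)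
    have hc : cc ∈ Cfsg.pCore 2 G :=
      Subgroup.mul_mem _ htt (hn.conj_mem _ (Subgroup.inv_mem _ htt) vv)
    have hp : IsPGroup 2 (Cfsg.pCore 2 G) := Cfsg.Agent.Lib.Basic.pCore_isPGroup 2
    obtain ⟨k, hk⟩ := hp ⟨cc, hc⟩
    have hk' : cc ^ 2 ^ k = 1 := by
      have := congrArg Subtype.val hk
      simpa using this
    haveI : Fact (Nat.Prime 3) := ⟨by norm_num⟩
    have ho : orderOf cc = 3 := orderOf_eq_prime cc_cube cc_ne
    have := orderOf_dvd_of_pow_eq_one hk'
    rw [ho] at this
    have h3 := Nat.Prime.dvd_of_dvd_pow (by norm_num : Nat.Prime 3) this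
    omega

end Cfsg.Agent.S4331
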