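import Cfsg.Statements.S4332
-- import your own Cfsg.Agent.* helpers here

set_option autoImplicit false
open Pointwise
open Cfsg

namespace Cfsg.Agent.S4332


open Equiv Equiv.Perm

/-- membership test in a triple -/
def inN (x i j k : ℕ) : Bool := Nat.beq x i || Nat.beq x j || Nat.beq x k

def goodN (a b d i j k : ℕ) : Bool :=
  (inN a i j k && inN b i j k && inN d i j k) ||
    (!inN a i j k && !inN b i j k && !inN d i j k)

def allN (p : ℕ → Bool) : Bool := p 0 && p 1 && p 2 && p 3 && p 4 && p 5 && p 6 && p 7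
def anyN (p : ℕ → Bool) : Bool := p 0 || p 1 || p 2 || p 3 || p 4 || p 5 || p 6 || p 7

theorem allN_spec {p : ℕ → Bool} (h : allN p = true) (i : ℕ) (hi : i < 8) : p i = true := by
  simp only [allN, Bool.and_eq_true] at h
  obtain ⟨⟨⟨⟨⟨⟨⟨h0, h1⟩, h2⟩, h3⟩, h4⟩, h5⟩, h6⟩, h7⟩ := h
  interval_cases i <;> assumption

theorem anyN_spec {p : ℕ → Bool} (h : anyN p = true) : ∃ i, i < 8 ∧ p i = true := by
  simp only [anyN, Bool.or_eq_true] at h
  rcases h with ((((((h | h) | h) | h) | h) | h) | h) | h <;> exact ⟨_, by norm_num, h⟩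

/-- look for a good triple containing the last point of the list. -/
def anyT (pref : List ℕ) : Bool :=
  let k := pref.length - 1
  anyN fun i => Nat.blt i k && anyN fun j => Nat.blt i j && Nat.blt j k &&
    goodN (pref.getD i 0) (pref.getD j 0) (pref.getD k 0) i j k

def go : ℕ → List ℕ → Bool
  | 0, pref => anyT pref
  | n + 1, pref => anyT pref || allN fun a => pref.contains a || go n (pref ++ [a])

set_option maxRecDepth 100000 in
set_option maxHeartbeats 0 in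
theorem go_true : go 8 [] = true := by decide +kernel

def pre (c : Equiv.Perm (Fin 8)) (m : ℕ) : List ℕ :=
  (List.range m).map fun i => (c (Fin.ofNat 8 i)).val

def GoodP (f : Fin 8 → Fin 8) (i j k : Fin 8) : Prop :=
  ((f i = i ∨ f i = j ∨ f i = k) ∧ (f j = i ∨ f j = j ∨ f j = k) ∧ (f k = i ∨ f k = j ∨ f k = k)) ∨
  (¬ (f i = i ∨ f i = j ∨ f i = k) ∧ ¬ (f j = i ∨ f j = j ∨ f j = k) ∧ ¬ (f k = i ∨ f k = j ∨ f k = k))

instance (f : Fin 8 → Fin 8) (i j k : Fin 8) : Decidable (GoodP f i j k) := by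
  unfold GoodP; infer_instance

theorem inN_iff (x i j k : Fin 8) : inN x.val i.val j.val k.val = true ↔ (x = i ∨ x = j ∨ x = k) := by
  simp [inN, Nat.beq_eq, Fin.ext_iff, or_assoc]

theorem anyT_spec (c : Equiv.Perm (Fin 8)) (m : ℕ) (hm : m ≤ 8) (h : anyT (pre c m) = true) :
    ∃ i j k : Fin 8, i ≠ j ∧ i ≠ k ∧ j ≠ k ∧ GoodP c i j k := by
  have hlen : (pre c m).length = m := by simp [pre]
  have hget : ∀ x : ℕ, x < m → (pre c m).getD x 0 = (c (Fin.ofNat 8 x)).val := by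
    intro x hx
    simp [pre, List.getD, hx]
  simp only [anyT, hlen] at h
  obtain ⟨i, hi8, hi⟩ := anyN_spec h
  simp only [Bool.and_eq_true, Nat.blt_eq] at hi
  obtain ⟨hi1, hi2⟩ := hi
  obtain ⟨j, hj8, hj⟩ := anyN_spec hi2
  simp only [Bool.and_eq_true, Nat.blt_eq] at hj
  obtain ⟨⟨hij, hj1⟩, hj2⟩ := hj
  have hkm : m - 1 < 8 := by omega
  rw [hget i (by omega), hget j (by omega), hget (m - 1) (by omega)] at hj2
  have vi : (Fin.ofNat 8 i).val = i := by simp [Fin.ofNat]; omega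
  have vj : (Fin.ofNat 8 j).val = j := by simp [Fin.ofNat]; omega
  have vk : (Fin.ofNat 8 (m - 1)).val = m - 1 := by simp [Fin.ofNat]; omega
  refine ⟨Fin.ofNat 8 i, Fin.ofNat 8 j, Fin.ofNat 8 (m - 1), ?_, ?_, ?_, ?_⟩
  · intro hh; have := congrArg Fin.val hh; omega
  · intro hh; have := congrArg Fin.val hh; omega
  · intro hh; have := congrArg Fin.val hh; omega
  · have e : ∀ x : Fin 8, inN x.val i j (m - 1) = true ↔
        (x = Fin.ofNat 8 i ∨ x = Fin.ofNat 8 j ∨ x = Fin.ofNat 8 (m - 1)) := by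
      intro x
      have := inN_iff x (Fin.ofNat 8 i) (Fin.ofNat 8 j) (Fin.ofNat 8 (m - 1))
      rwa [vi, vj, vk] at this
    simp only [goodN, Bool.or_eq_true, Bool.and_eq_true, Bool.not_eq_true', ← Bool.not_eq_true, e] at hj2
    unfold GoodP
    rcases hj2 with ⟨⟨h1, h2⟩, h3⟩ | ⟨⟨h1, h2⟩, h3⟩
    · exact Or.inl ⟨h1, h2, h3⟩
    · exact Or.inr ⟨h1, h2, h3⟩

theorem go_spec (c : Equiv.Perm (Fin 8)) (n m : ℕ) (hm : m + n = 8) (h : go n (pre c m) = true) :
    ∃ i j k : Fin 8, i ≠ j ∧ i ≠ k ∧ j ≠ k ∧ GoodP c i j k := by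
  induction n generalizing m with
  | zero => exact anyT_spec c m (by omega) h
  | succ n ih =>
    simp only [go, Bool.or_eq_true] at h
    rcases h with h | h
    · exact anyT_spec c m (by omega) h
    · have := allN_spec h (c (Fin.ofNat 8 m)).val (c (Fin.ofNat 8 m)).isLt
      simp only [Bool.or_eq_true] at this
      rcases this with h1 | h1
      · exfalso
        simp only [pre, List.contains_iff_mem, List.mem_map, List.mem_range] at h1
        obtain ⟨i, hi, hEq⟩ := h1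
        have := c.injective (Fin.ext hEq)
        have h2 : i = m := by
          have := congrArg Fin.val this
          simp only [Fin.ofNat, Fin.val_mk] at this
          rwa [Nat.mod_eq_of_lt (by omega), Nat.mod_eq_of_lt (by omega)] at this
        omega
      · refine ih (m + 1) (by omega) ?_
        have : pre c (m + 1) = pre c m ++ [(c (Fin.ofNat 8 m)).val] := by
          simp [pre, List.range_succ]
        rw [this]; exact h1

theorem key1 (c : Equiv.Perm (Fin 8)) :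
    ∃ i j k : Fin 8, i ≠ j ∧ i ≠ k ∧ j ≠ k ∧ GoodP c i j k :=
  go_spec c 8 0 rfl (by simpa [pre] using go_true)

def s0 : Equiv.Perm (Fin 8) := swap 0 1 * swap 1 2

def h0 (i j k : Fin 8) : Equiv.Perm (Fin 8) :=
  let h1 := swap i 0
  let h2 := swap (h1 j) 1
  let h3 := swap (h2 (h1 k)) 2
  h3 * h2 * h1

theorem key2 : ∀ i j k : Fin 8, i ≠ j → i ≠ k → j ≠ k → h0 i j k i = 0 ∧ h0 i j k j = 1 ∧ h0 i j k k = 2 := by
  decide +kernel

theorem key3 : ∀ a b d : Fin 8, a ≠ b → a ≠ d → b ≠ d →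
    (((a = 0 ∨ a = 1 ∨ a = 2) ∧ (b = 0 ∨ b = 1 ∨ b = 2) ∧ (d = 0 ∨ d = 1 ∨ d = 2)) ∨
     (¬ (a = 0 ∨ a = 1 ∨ a = 2) ∧ ¬ (b = 0 ∨ b = 1 ∨ b = 2) ∧ ¬ (d = 0 ∨ d = 1 ∨ d = 2))) →
    ∀ x : Fin 8, s0 ((swap a b * swap b d) x) = (swap a b * swap b d) (s0 x) := by
  decide +kernel

theorem good_of_conj (c : Equiv.Perm (Fin 8)) {i j k : Fin 8} (hij : i ≠ j) (hik : i ≠ k) (hjk : j ≠ k)
    (hg : GoodP c i j k) :
    ∃ g, IsConj c g ∧ Commute s0 (g * s0 * g⁻¹) := by
  obtain ⟨h1, h2, h3⟩ := key2 i j k hij hik hjk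
  set h := h0 i j k with hh
  refine ⟨h * c * h⁻¹, isConj_iff.mpr ⟨h, rfl⟩, ?_⟩
  set g := h * c * h⁻¹ with hgd
  have hg0 : g 0 = h (c i) := by
    rw [hgd]; simp only [Perm.mul_apply]; rw [← h1]; simp
  have hg1 : g 1 = h (c j) := by
    rw [hgd]; simp only [Perm.mul_apply]; rw [← h2]; simp
  have hg2 : g 2 = h (c k) := by
    rw [hgd]; simp only [Perm.mul_apply]; rw [← h3]; simp
  have hconj : g * s0 * g⁻¹ = swap (g 0) (g 1) * swap (g 1) (g 2) := by
    rw [Equiv.swap_apply_apply, Equiv.swap_apply_apply, s0]; group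
  have hne01 : g 0 ≠ g 1 := by simp
  have hne02 : g 0 ≠ g 2 := by simp
  have hne12 : g 1 ≠ g 2 := by simp
  have e0 : ∀ y, (c i = y) ↔ (g 0 = h y) := by
    intro y; rw [hg0]; simp
  have e1 : ∀ y, (c j = y) ↔ (g 1 = h y) := by
    intro y; rw [hg1]; simp
  have e2 : ∀ y, (c k = y) ↔ (g 2 = h y) := by
    intro y; rw [hg2]; simp
  have hgood : ((g 0 = 0 ∨ g 0 = 1 ∨ g 0 = 2) ∧ (g 1 = 0 ∨ g 1 = 1 ∨ g 1 = 2) ∧ (g 2 = 0 ∨ g 2 = 1 ∨ g 2 = 2)) ∨
     (¬ (g 0 = 0 ∨ g 0 = 1 ∨ g 0 = 2) ∧ ¬ (g 1 = 0 ∨ g 1 = 1 ∨ g 1 = 2) ∧ ¬ (g 2 = 0 ∨ g 2 = 1 ∨ g 2 = 2)) := by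
    unfold GoodP at hg
    simp only [e0, e1, e2, h1, h2, h3] at hg
    exact hg
  have := key3 _ _ _ hne01 hne02 hne12 hgood
  rw [hconj]
  ext x
  exact (congrArg Fin.val (this x))

theorem part1 (σ : Equiv.Perm (Fin 8)) (hσ : σ.IsThreeCycle) (c : Equiv.Perm (Fin 8)) :
    ∃ g, IsConj c g ∧ Commute σ (g * σ * g⁻¹) := by
  have h3 : s0.IsThreeCycle := by
    unfold Equiv.Perm.IsThreeCycle
    decide +kernel
  obtain ⟨h, hh⟩ := isConj_iff.mp (Equiv.Perm.isConj_iff_cycleType_eq.mpr (by rw [hσ, h3]) : IsConj s0 σ)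
  obtain ⟨i, j, k, hij, hik, hjk, hg⟩ := key1 (h⁻¹ * c * h)
  obtain ⟨g, hg1, hg2⟩ := good_of_conj _ hij hik hjk hg
  refine ⟨h * g * h⁻¹, ?_, ?_⟩
  · refine IsConj.trans ?_ (isConj_iff.mpr ⟨h, rfl⟩)
    refine IsConj.trans (isConj_iff.mpr ⟨h⁻¹, ?_⟩) hg1
    group
  · have e : h * g * h⁻¹ * σ * (h * g * h⁻¹)⁻¹ = h * (g * s0 * g⁻¹) * h⁻¹ := by
      rw [← hh]; group
    rw [e, ← hh]
    have := hg2.eq
    show h * s0 * h⁻¹ * (h * (g * s0 * g⁻¹) * h⁻¹) = h * (g * s0 * g⁻¹) * h⁻¹ * (h * s0 * h⁻¹)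
    calc h * s0 * h⁻¹ * (h * (g * s0 * g⁻¹) * h⁻¹) = h * (s0 * (g * s0 * g⁻¹)) * h⁻¹ := by group
      _ = h * ((g * s0 * g⁻¹) * s0) * h⁻¹ := by rw [this]
      _ = _ := by group

theorem part2 : Cfsg.pCore 3 (Equiv.Perm (Fin 8)) = ⊥ := by
  haveI : Fact (Nat.Prime 3) := ⟨by norm_num⟩
  refine (sSup_eq_bot).mpr ?_
  rintro N ⟨hN, hp⟩
  have hcard := hp.card_modEq_card_fixedPoints (Fin 8)
  simp only [Nat.card_eq_fintype_card, Fintype.card_fin] at hcard
  have hne : Nat.card (MulAction.fixedPoints N (Fin 8)) ≠ 0 := by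
    intro h0
    rw [h0] at hcard
    exact absurd hcard (by decide)
  have : Nonempty (MulAction.fixedPoints N (Fin 8)) := by
    by_contra hemp
    rw [not_nonempty_iff] at hemp
    exact hne (Nat.card_of_isEmpty)
  obtain ⟨⟨x, hx⟩⟩ := this
  rw [Subgroup.eq_bot_iff_forall]
  intro n hn
  ext y
  congr 1
  have hs : swap x y * n * (swap x y)⁻¹ ∈ N := hN.conj_mem n hn _
  have := hx ⟨_, hs⟩
  have h2 : (swap x y * n * (swap x y)⁻¹) x = x := this
  simp only [Perm.mul_apply, swap_inv, swap_apply_left] at h2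
  have h3 := congrArg (swap x y) h2
  simpa using h3

/-- In the symmetric group of degree 8, let A be the subgroup generated by a 3-cycle. Then every conjugacy class contains an element g for which A is subnormal in the subgroup generated by A and its conjugate by g, although O_3 of the symmetric group of degree 8 is trivial. -/
theorem result
    (σ : Equiv.Perm (Fin 8)) (hσ : σ.IsThreeCycle) :
    (∀ c : Equiv.Perm (Fin 8), ∃ g : Equiv.Perm (Fin 8), IsConj c g ∧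
      ((Subgroup.zpowers σ).subgroupOf (Subgroup.zpowers σ ⊔ MulAut.conj g • Subgroup.zpowers σ)).IsSubnormal) ∧
    Cfsg.pCore 3 (Equiv.Perm (Fin 8)) = ⊥ := by
  refine ⟨?_, part2⟩
  intro c
  obtain ⟨g, hg1, hg2⟩ := part1 σ hσ c
  refine ⟨g, hg1, ?_⟩
  refine Subgroup.Normal.isSubnormal ?_
  set A := Subgroup.zpowers σ with hA
  have hsm : MulAut.conj g • A = Subgroup.zpowers (g * σ * g⁻¹) := by
    ext x
    rw [Subgroup.mem_pointwise_smul_iff_inv_smul_mem, hA]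
    simp only [Subgroup.mem_zpowers_iff, MulAut.smul_def, map_inv, MulAut.conj_inv_apply]
    constructor
    · rintro ⟨k, hk⟩
      refine ⟨k, ?_⟩
      have : x = g * (g⁻¹ * x * g) * g⁻¹ := by group
      rw [this, ← hk]
      simp [conj_zpow]
    · rintro ⟨k, hk⟩
      refine ⟨k, ?_⟩
      rw [← hk, conj_zpow]
      group
  rw [hsm]
  set B := Subgroup.zpowers (g * σ * g⁻¹) with hB
  have hAcent : A ⊔ B ≤ Subgroup.centralizer (A : Set _) := by
    refine sup_le ?_ ?_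
    · rw [Subgroup.le_centralizer_iff]
      rw [hA]
      intro x hx y hy
      obtain ⟨a, rfl⟩ := Subgroup.mem_zpowers_iff.mp hx
      obtain ⟨b, rfl⟩ := Subgroup.mem_zpowers_iff.mp hy
      exact ((Commute.refl σ).zpow_zpow a b).eq.symm
    · rw [Subgroup.le_centralizer_iff]
      intro x hx y hy
      obtain ⟨a, rfl⟩ := Subgroup.mem_zpowers_iff.mp hx
      obtain ⟨b, rfl⟩ := Subgroup.mem_zpowers_iff.mp hy
      exact ((hg2.symm).zpow_zpow b a).eq
  constructor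
  intro n hn k
  have h1 : (n : Equiv.Perm (Fin 8)) ∈ A := Subgroup.mem_subgroupOf.mp hn
  have h2 := Subgroup.mem_centralizer_iff.mp (hAcent k.2) n h1
  rw [Subgroup.mem_subgroupOf]
  have : ((k * n * k⁻¹ : ↥(A ⊔ B)) : Equiv.Perm (Fin 8)) = n := by
    simp only [Subgroup.coe_mul, Subgroup.coe_inv]
    rw [← h2]; group
  rw [this]; exact h1

end Cfsg.Agent.S4332
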