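import Cfsg.Statements.S4333
import Cfsg.Agent.Lib.Coprime.Wielandt
import Cfsg.Agent.Lib.Struct.Basic

set_option autoImplicit false
open Pointwise
open Cfsg

namespace Cfsg.Agent.S4333


open Cfsg.Agent.Lib.Coprime Cfsg.Agent.Lib.Coprime.Wielandt Subgroup in
theorem crit {G : Type*} [Group G] [Finite G] : ∀ (n : ℕ) (L A : Subgroup G), Nat.card L = n → A ≤ L →
    (∀ a ∈ A, ∀ g ∈ L, SnIn (A ⊔ Cj (g⁻¹ * a * g) A) A) → SnIn L A := by
  intro n
  induction n using Nat.strong_induction_on with
  | _ n IH =>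
  intro L A hn hAL hg
  by_contra hns
  have hP : ∀ K : Subgroup G, A ≤ K → K < L → SnIn K A := by
    intro K hAK hKL
    have hcard : Nat.card K < n := hn ▸ card_lt_of_lt' hKL
    exact IH _ hcard K A rfl hAK (fun a ha g hgK => hg a ha g (hKL.le hgK))
  obtain ⟨M, ⟨hM, hAM⟩, hu⟩ := zipper L A hAL hP hns
  by_cases hall : ∀ g ∈ L, ∀ a ∈ A, g⁻¹ * a * g ∈ M
  · have hLM : L ≤ normalizer (M : Set G) := by
      intro g hgL
      have h1 : A ≤ Cj g⁻¹ M := by
        intro x hx
        rw [mem_cj, inv_inv]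
        simpa using hall g⁻¹ (inv_mem hgL) x hx
      have h2 := hu _ ⟨hM.conj (inv_mem hgL), h1⟩
      rw [← conj_map_eq_iff_mem_normalizer]
      have h3 : Cj g (Cj g⁻¹ M) = M := cj_cj_inv g M
      rw [h2] at h3
      exact h3
    exact hns ((snIn_of_normal hM.1.le hLM).trans (hP M hAM hM.1))
  · push Not at hall
    obtain ⟨g, hgL, a, ha, hx⟩ := hall
    set x := g⁻¹ * a * g with hxdef
    have hxL : x ∈ L := L.mul_mem (L.mul_mem (L.inv_mem hgL) (hAL ha)) hgL
    by_cases hsup : A ⊔ Cj x A = L
    · exact hns (hsup ▸ hg a ha g hgL)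
    · have hle : A ⊔ Cj x A ≤ L := by
        apply sup_le hAL
        calc Cj x A ≤ Cj x L := map_mono hAL
          _ = L := cj_eq_of_mem hxL
      obtain ⟨M', hM', hAM'⟩ := exists_isMaxIn (lt_of_le_of_ne hle hsup)
      have h1 := hu M' ⟨hM', le_sup_left.trans hAM'⟩
      rw [h1] at hAM'
      have h2 : Cj x A ≤ M := le_sup_right.trans hAM'
      have h3 : A ≤ Cj x⁻¹ M := by
        intro y hy
        rw [mem_cj, inv_inv]
        apply h2
        rw [mem_cj]
        simpa [mul_assoc] using hy
      have h4 := hu _ ⟨hM.conj (inv_mem hxL), h3⟩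
      have h5 : x ∈ normalizer (M : Set G) := by
        rw [← conj_map_eq_iff_mem_normalizer]
        have h6 : Cj x (Cj x⁻¹ M) = M := cj_cj_inv x M
        rw [h4] at h6
        exact h6
      have hMN : M ≤ normalizer (M : Set G) ⊓ L := le_inf le_normalizer hM.1.le
      have hN : normalizer (M : Set G) ⊓ L = L := by
        by_contra hne
        have hlt : normalizer (M : Set G) ⊓ L < L := lt_of_le_of_ne inf_le_right hne
        have h7 := hM.2 _ hMN hlt
        apply hx
        have h8 : x ∈ normalizer (M : Set G) ⊓ L := Subgroup.mem_inf.mpr ⟨h5, hxL⟩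
        rwa [h7] at h8
      have hgN : g⁻¹ ∈ normalizer (M : Set G) := by
        have h9 : g⁻¹ ∈ normalizer (M : Set G) ⊓ L := by rw [hN]; exact inv_mem hgL
        exact (Subgroup.mem_inf.mp h9).1
      apply hx
      have := (mem_normalizer_iff.mp hgN a).mp (hAM ha)
      simpa using this

/-- Let A be a subgroup of a finite group G. If A is subnormal in the subgroup generated by A and its conjugate by g⁻¹ a g, for every a ∈ A and every g ∈ G, then A is subnormal in G. (A sharpening of Wielandt's subnormality criterion: only conjugates of A by conjugates of elements of A are needed.) -/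
theorem result {G : Type*} [Group G] [Finite G]
    (A : Subgroup G)
    (h : ∀ a ∈ A, ∀ g : G, (A.subgroupOf (A ⊔ MulAut.conj (g⁻¹ * a * g) • A)).IsSubnormal) :
    A.IsSubnormal := by
  have hs := crit _ ⊤ A rfl le_top (fun a ha g _ => by
    have h1 := h a ha g
    rw [Cfsg.Agent.Lib.Struct.conj_smul_eq_map] at h1
    exact (Cfsg.Agent.Lib.Coprime.Wielandt.snIn_iff le_sup_left).mpr h1)
  exact Cfsg.Agent.Lib.Coprime.Wielandt.snIn_top_iff.mp hs

end Cfsg.Agent.S4333
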