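import Cfsg.Statements.S4337
import Mathlib
import Cfsg.Agent.Lib.Struct.Sylow

set_option autoImplicit false
open Cfsg

namespace Cfsg.Agent.S4337


theorem solv_of_two_sets {α : Type*} [DecidableEq α] [Fintype α] (W₁ W₂ : Finset α) (h1 : W₁.card ≤ 4)
    (h2 : W₂.card ≤ 4) (hdisj : Disjoint W₁ W₂) (S : Set (Equiv.Perm α))
    (hS : ∀ f ∈ S, (∀ x, x ∉ W₁ → f x = x) ∨ (∀ x, x ∉ W₂ → f x = x)) :
    Group.IsSolvable (Subgroup.closure S) := by
  classical
  let f₁ : Equiv.Perm {x // x ∈ W₁} →* Equiv.Perm α := Equiv.Perm.ofSubtype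
  let f₂ : Equiv.Perm {x // x ∈ W₂} →* Equiv.Perm α := Equiv.Perm.ofSubtype
  have hf₁ : ∀ (u : Equiv.Perm {x // x ∈ W₁}) (x : α), x ∉ W₁ → f₁ u x = x := fun u x hx =>
    Equiv.Perm.ofSubtype_apply_of_not_mem u hx
  have hf₂ : ∀ (u : Equiv.Perm {x // x ∈ W₂}) (x : α), x ∉ W₂ → f₂ u x = x := fun u x hx =>
    Equiv.Perm.ofSubtype_apply_of_not_mem u hx
  have hcomm : ∀ u v, Commute (f₁ u) (f₂ v) := by
    intro u v
    apply Equiv.Perm.Disjoint.commute
    intro x
    by_cases hx : x ∈ W₁
    · right
      exact hf₂ v x (Finset.disjoint_left.mp hdisj hx)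
    · left
      exact hf₁ u x hx
  let φ := f₁.noncommCoprod f₂ hcomm
  have hs1 : Group.IsSolvable (Equiv.Perm {x // x ∈ W₁}) :=
    Cfsg.Agent.Lib.Struct.isSolvable_perm_of_card_le_four (by
      rw [Nat.card_eq_fintype_card, Fintype.card_coe]
      exact h1)
  have hs2 : Group.IsSolvable (Equiv.Perm {x // x ∈ W₂}) :=
    Cfsg.Agent.Lib.Struct.isSolvable_perm_of_card_le_four (by
      rw [Nat.card_eq_fintype_card, Fintype.card_coe]
      exact h2)
  have hrange : Group.IsSolvable φ.range :=
    solvable_of_surjective (f := φ.rangeRestrict) φ.rangeRestrict_surjective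
  have hle : Subgroup.closure S ≤ φ.range := by
    rw [Subgroup.closure_le]
    intro f hf
    rcases hS f hf with h | h
    · have hp : ∀ x, f x ∈ W₁ ↔ x ∈ W₁ := by
        intro x
        by_cases hx : x ∈ W₁
        · simp only [hx, iff_true]
          by_contra hfx
          have := h _ hfx
          have h3 : f x = x := f.injective this
          rw [h3] at hfx
          exact hfx hx
        · rw [h x hx]
      refine ⟨(f.subtypePerm hp, 1), ?_⟩
      show f₁ (f.subtypePerm hp) * f₂ 1 = f
      rw [map_one, mul_one]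
      exact Equiv.Perm.ofSubtype_subtypePerm hp (fun x hx => by
        by_contra hc
        exact hx (h x hc))
    · have hp : ∀ x, f x ∈ W₂ ↔ x ∈ W₂ := by
        intro x
        by_cases hx : x ∈ W₂
        · simp only [hx, iff_true]
          by_contra hfx
          have := h _ hfx
          have h3 : f x = x := f.injective this
          rw [h3] at hfx
          exact hfx hx
        · rw [h x hx]
      refine ⟨(1, f.subtypePerm hp), ?_⟩
      show f₁ 1 * f₂ (f.subtypePerm hp) = f
      rw [map_one, one_mul]
      exact Equiv.Perm.ofSubtype_subtypePerm hp (fun x hx => by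
        by_contra hc
        exact hx (h x hc))
  exact solvable_of_solvable_injective (Subgroup.inclusion_injective hle)

/-- In a finite symmetric group, any three transpositions generate a solvable subgroup. -/
theorem result (n : ℕ) (a b c : Equiv.Perm (Fin n))
    (ha : a.IsSwap) (hb : b.IsSwap) (hc : c.IsSwap) :
    Group.IsSolvable (Subgroup.closure ({a, b, c} : Set (Equiv.Perm (Fin n)))) := by
  classical
  obtain ⟨x₁, y₁, hne₁, rfl⟩ := ha
  obtain ⟨x₂, y₂, hne₂, rfl⟩ := hb
  obtain ⟨x₃, y₃, hne₃, rfl⟩ := hc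
  set A : Finset (Fin n) := {x₁, y₁} with hA
  set B : Finset (Fin n) := {x₂, y₂} with hB
  set C : Finset (Fin n) := {x₃, y₃} with hC
  have hAc : A.card ≤ 2 := Finset.card_le_two
  have hBc : B.card ≤ 2 := Finset.card_le_two
  have hCc : C.card ≤ 2 := Finset.card_le_two
  have hsw : ∀ (x y z : Fin n), z ∉ ({x, y} : Finset (Fin n)) → Equiv.swap x y z = z := by
    intro x y z hz
    simp only [Finset.mem_insert, Finset.mem_singleton, not_or] at hz
    exact Equiv.swap_apply_of_ne_of_ne hz.1 hz.2
  have hmono : ∀ (x y : Fin n) (W : Finset (Fin n)), ({x, y} : Finset (Fin n)) ⊆ W →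
      ∀ z, z ∉ W → Equiv.swap x y z = z := fun x y W h z hz => hsw x y z (fun h' => hz (h h'))
  by_cases h1 : Disjoint C (A ∪ B)
  · refine solv_of_two_sets (A ∪ B) C ?_ (by omega) h1.symm _ ?_
    · have := Finset.card_union_le A B
      omega
    · intro f hf
      simp only [Set.mem_insert_iff, Set.mem_singleton_iff] at hf
      rcases hf with rfl | rfl | rfl
      · left; exact hmono _ _ _ Finset.subset_union_left
      · left; exact hmono _ _ _ Finset.subset_union_right
      · right; exact hmono _ _ _ (Finset.Subset.refl _)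
  by_cases h2 : Disjoint A (B ∪ C)
  · refine solv_of_two_sets (B ∪ C) A ?_ (by omega) h2.symm _ ?_
    · have := Finset.card_union_le B C
      omega
    · intro f hf
      simp only [Set.mem_insert_iff, Set.mem_singleton_iff] at hf
      rcases hf with rfl | rfl | rfl
      · right; exact hmono _ _ _ (Finset.Subset.refl _)
      · left; exact hmono _ _ _ Finset.subset_union_left
      · left; exact hmono _ _ _ Finset.subset_union_right
  by_cases h3 : Disjoint B (A ∪ C)
  · refine solv_of_two_sets (A ∪ C) B ?_ (by omega) h3.symm _ ?_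
    · have := Finset.card_union_le A C
      omega
    · intro f hf
      simp only [Set.mem_insert_iff, Set.mem_singleton_iff] at hf
      rcases hf with rfl | rfl | rfl
      · left; exact hmono _ _ _ Finset.subset_union_left
      · right; exact hmono _ _ _ (Finset.Subset.refl _)
      · left; exact hmono _ _ _ Finset.subset_union_right
  -- all together
  have hcard : ∀ (P Q R : Finset (Fin n)), P.card ≤ 2 → Q.card ≤ 2 → R.card ≤ 2 →
      ¬ Disjoint P Q → ¬ Disjoint R (P ∪ Q) → (P ∪ Q ∪ R).card ≤ 4 := by
    intro P Q R hP hQ hR hPQ hRU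
    have h4 : (P ∩ Q).card ≥ 1 := by
      rw [Finset.disjoint_iff_inter_eq_empty] at hPQ
      exact Finset.card_pos.mpr (Finset.nonempty_iff_ne_empty.mpr hPQ)
    have h5 : (R ∩ (P ∪ Q)).card ≥ 1 := by
      rw [Finset.disjoint_iff_inter_eq_empty] at hRU
      exact Finset.card_pos.mpr (Finset.nonempty_iff_ne_empty.mpr hRU)
    have h6 := Finset.card_union_add_card_inter P Q
    have h7 := Finset.card_union_add_card_inter R (P ∪ Q)
    rw [Finset.union_comm (P ∪ Q) R]
    omega
  have hall : (A ∪ B ∪ C).card ≤ 4 := by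
    by_cases hAB : Disjoint A B
    · -- then `A` meets `C` and `B` meets `A ∪ C`
      have hAC : ¬ Disjoint A C := by
        intro h
        exact h2 (Finset.disjoint_union_right.mpr ⟨hAB, h⟩)
      have := hcard A C B hAc hCc hBc hAC h3
      have e : A ∪ B ∪ C = A ∪ C ∪ B := by
        ext z
        simp only [Finset.mem_union]
        tauto
      rw [e]
      exact this
    · exact hcard A B C hAc hBc hCc hAB h1
  refine solv_of_two_sets (A ∪ B ∪ C) ∅ hall (by simp) (Finset.disjoint_empty_right _) _ ?_
  intro f hf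
  left
  simp only [Set.mem_insert_iff, Set.mem_singleton_iff] at hf
  rcases hf with rfl | rfl | rfl
  · exact hmono _ _ _ (fun z hz => Finset.mem_union_left _ (Finset.mem_union_left _ hz))
  · exact hmono _ _ _ (fun z hz => Finset.mem_union_left _ (Finset.mem_union_right _ hz))
  · exact hmono _ _ _ (fun z hz => Finset.mem_union_right _ hz)

end Cfsg.Agent.S4337
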