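import Cfsg.Statements.S4342
import Cfsg.Agent.Lib.Coprime.Conj
import Cfsg.Agent.Lib.Struct.PCentral

set_option autoImplicit false
open Cfsg

namespace Cfsg.Agent.S4342

open scoped Pointwise

/-- Let H be a normal subgroup of a finite group G and p a prime not dividing the index of H. Then the number of Sylow p-subgroups of H/Z(H) equals the number of Sylow p-subgroups of G. -/
theorem result {G : Type*} [Group G] [Finite G]
    (p : ℕ) [Fact p.Prime] (H : Subgroup G) [H.Normal] (hp : ¬ p ∣ H.index) :
    Nat.card (Sylow p (H ⧸ Subgroup.center H)) = Nat.card (Sylow p G) := by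
  classical
  -- every Sylow subgroup of `G` lies in `H`
  have hle : ∀ P : Sylow p G, (P : Subgroup G) ≤ H := by
    intro P x hx
    have h1 : x ^ H.index ∈ H := Subgroup.pow_index_mem H x
    have h2 : IsPGroup p (P : Subgroup G) := P.isPGroup'
    obtain ⟨k, hk⟩ := IsPGroup.iff_orderOf.mp h2 ⟨x, hx⟩
    have hk' : orderOf x = p ^ k := by simpa using hk
    have hc : (orderOf x).Coprime H.index := by
      rw [hk']
      exact Nat.Coprime.pow_left _ ((Nat.Prime.coprime_iff_not_dvd Fact.out).mpr hp)
    exact Lib.Struct.mem_of_pow_mem_of_coprime H hc h1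
  -- Sylow subgroups of `G` and of `H`
  have e1 : Nat.card (Sylow p H) = Nat.card (Sylow p G) := by
    symm
    refine Nat.card_eq_of_bijective (fun P : Sylow p G => P.subtype (hle P)) ⟨?_, ?_⟩
    · intro P Q hPQ
      have h1 : ((P.subtype (hle P) : Sylow p H) : Subgroup H) = (Q.subtype (hle Q) : Sylow p H) :=
        congrArg _ hPQ
      rw [Sylow.coe_subtype, Sylow.coe_subtype] at h1
      apply Sylow.ext
      have h2 := congrArg (Subgroup.map H.subtype) h1
      rwa [Subgroup.subgroupOf_map_subtype, Subgroup.subgroupOf_map_subtype,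
        inf_eq_left.mpr (hle P), inf_eq_left.mpr (hle Q)] at h2
    · intro S
      have hS : IsPGroup p ((S : Subgroup H).map H.subtype) := S.isPGroup'.map _
      obtain ⟨P, hP⟩ := hS.exists_le_sylow
      refine ⟨P, ?_⟩
      apply Sylow.ext
      rw [Sylow.coe_subtype]
      have hle2 : (S : Subgroup H) ≤ (P : Subgroup G).subgroupOf H := by
        intro y hy
        rw [Subgroup.mem_subgroupOf]
        exact hP ⟨y, hy, rfl⟩
      exact S.is_maximal' (P.isPGroup'.comap_subtype (K := H)) hle2
  rw [← e1]
  -- now the central quotient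
  have hsurj := QuotientGroup.mk'_surjective (Subgroup.center H)
  obtain ⟨P⟩ : Nonempty (Sylow p H) := inferInstance
  let Q : Sylow p (H ⧸ Subgroup.center H) := P.mapSurjective hsurj
  have hQ : (Q : Subgroup (H ⧸ Subgroup.center H)) = (P : Subgroup H).map (QuotientGroup.mk' (Subgroup.center H)) := by
    simp [Q]
  rw [Sylow.card_eq_index_normalizer Q, Sylow.card_eq_index_normalizer P]
  rw [← Subgroup.index_comap_of_surjective _ hsurj]
  congr 1
  apply le_antisymm
  · intro g hg
    have hg' : QuotientGroup.mk' (Subgroup.center H) g ∈ Subgroup.normalizer ((Q : Subgroup (H ⧸ Subgroup.center H)) : Set (H ⧸ Subgroup.center H)) := hg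
    apply Lib.Coprime.mem_normalizer_of_conj_le
    intro x hx
    have h1 : QuotientGroup.mk' (Subgroup.center H) x ∈ (Q : Subgroup (H ⧸ Subgroup.center H)) := by
      rw [hQ]; exact ⟨x, hx, rfl⟩
    have h2 := (Subgroup.mem_normalizer_iff.mp hg' _).mp h1
    rw [hQ] at h2
    obtain ⟨u, hu, hue⟩ := h2
    have h3 : u⁻¹ * (g * x * g⁻¹) ∈ Subgroup.center H := by
      rw [← QuotientGroup.eq]
      simpa using hue
    set z := u⁻¹ * (g * x * g⁻¹) with hz
    have hvz : g * x * g⁻¹ = u * z := by rw [hz]; group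
    -- `z` has `p`-power order
    obtain ⟨a, ha⟩ := IsPGroup.iff_orderOf.mp P.isPGroup' ⟨u, hu⟩
    obtain ⟨b, hb⟩ := IsPGroup.iff_orderOf.mp P.isPGroup' ⟨x, hx⟩
    have ha' : orderOf u = p ^ a := by simpa using ha
    have hb' : orderOf x = p ^ b := by simpa using hb
    have hcomm : Commute u⁻¹ (g * x * g⁻¹) := by
      rw [hvz]
      have hc : Commute u z := (Subgroup.mem_center_iff.mp h3 u)
      exact (Commute.inv_left ((Commute.refl u).mul_right hc))
    have hzord : orderOf z ∣ p ^ (max a b) := by
      have h4 := hcomm.orderOf_mul_dvd_lcm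
      rw [orderOf_inv, ha', Lib.Struct.orderOf_conj, hb'] at h4
      refine h4.trans (Nat.lcm_dvd ?_ ?_)
      · exact pow_dvd_pow _ (le_max_left _ _)
      · exact pow_dvd_pow _ (le_max_right _ _)
    obtain ⟨j, _, hj⟩ := (Nat.dvd_prime_pow (Fact.out : p.Prime)).mp hzord
    have hzP : z ∈ (P : Subgroup H) := by
      apply Lib.Struct.mem_sylow_of_le_centralizer j hj P
      intro w _
      rw [Subgroup.mem_centralizer_singleton_iff]
      exact (Subgroup.mem_center_iff.mp h3 w)
    rw [hvz]
    exact (P : Subgroup H).mul_mem hu hzP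
  · intro g hg
    change QuotientGroup.mk' (Subgroup.center H) g ∈ Subgroup.normalizer ((Q : Subgroup (H ⧸ Subgroup.center H)) : Set (H ⧸ Subgroup.center H))
    apply Lib.Coprime.mem_normalizer_of_conj_le
    intro y hy
    rw [hQ] at hy ⊢
    obtain ⟨u, hu, rfl⟩ := hy
    refine ⟨g * u * g⁻¹, (Subgroup.mem_normalizer_iff.mp hg u).mp hu, ?_⟩
    simp

end Cfsg.Agent.S4342
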