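import Cfsg.Statements.S4343
import Cfsg.Agent.Lib.SmallSimple.Intersect
import Cfsg.Agent.Lib.SmallSimple.Fixed

set_option autoImplicit false
open Cfsg

namespace Cfsg.Agent.S4343

open Cfsg.Agent.Lib.SmallSimple in
lemma orbit_card {G : Type*} [Group G] [Finite G] {p : ℕ} [hp : Fact p.Prime] (X Y : Sylow p G) :
    Nat.card (MulAction.orbit (X : Subgroup G) Y) = ((Y : Subgroup G).subgroupOf (X : Subgroup G)).index := by
  rw [Nat.card_congr (MulAction.orbitEquivQuotientStabilizer (X : Subgroup G) Y), stabilizer_sylow_eq]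
  rfl

lemma mem_smul_sylow {G : Type*} [Group G] [Finite G] {p : ℕ} [hp : Fact p.Prime] (u d : G) (Y : Sylow p G)
    (h : u⁻¹ * d * u ∈ (Y : Subgroup G)) : d ∈ ((u • Y : Sylow p G) : Subgroup G) := by
  rw [Sylow.coe_subgroup_smul, Subgroup.mem_pointwise_smul_iff_inv_smul_mem]
  simpa using h


/-- Let S be a finite non-abelian simple group and p a prime dividing its order. If S has fewer than p² Sylow p-subgroups, then its Sylow p-subgroups have order p. -/
theorem result {S : Type*} [Group S] [Finite S]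
    [IsSimpleGroup S] (hS : ¬ IsMulCommutative S) (p : ℕ) [Fact p.Prime] (hp : p ∣ Nat.card S)
    (hn : Nat.card (Sylow p S) < p ^ 2) (P : Sylow p S) : Nat.card P = p := by
  classical
  have hpp : p.Prime := Fact.out
  haveI : Fintype (Sylow p S) := Fintype.ofFinite _
  set a := (Nat.card S).factorization p with ha
  have hallcard : ∀ X : Sylow p S, Nat.card (X : Subgroup S) = p ^ a := fun X => Sylow.card_eq_multiplicity X
  have hnp : ¬ IsPGroup p S := fun h => hS (Cfsg.Agent.Lib.SmallSimple.isMulCommutative_of_isPGroup h)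
  have h1lt : 1 < Nat.card (Sylow p S) := Cfsg.Agent.Lib.SmallSimple.one_lt_card_sylow p hp hnp
  have hapos : a ≠ 0 := by
    intro h0
    have : (Nat.card S).factorization p ≠ 0 := by
      have hne : Nat.card S ≠ 0 := Nat.card_pos.ne'
      exact (Nat.Prime.factorization_pos_of_dvd hpp hne hp).ne'
    exact this h0
  rw [hallcard P]
  by_contra hne
  have ha2 : 2 ≤ a := by
    by_contra h
    have : a = 1 := by omega
    apply hne
    rw [this, pow_one]
  -- `X` fixes itself
  have hXfix : ∀ (X : Sylow p S) (w : (X : Subgroup S)), w • X = X := by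
    intro X w
    have : w ∈ MulAction.stabilizer (X : Subgroup S) X := by
      rw [Cfsg.Agent.Lib.SmallSimple.stabilizer_sylow_eq, Subgroup.subgroupOf_self]; trivial
    exact this
  have hnotin : ∀ (X Y : Sylow p S), X ≠ Y → ∀ u : (X : Subgroup S), u • Y ≠ X := by
    intro X Y hXY u h
    apply hXY
    calc X = u⁻¹ • X := (hXfix X _).symm
      _ = u⁻¹ • (u • Y) := by exact congrArg (fun Z => u⁻¹ • Z) h.symm
      _ = Y := inv_smul_smul u Y
  -- index `p`
  have hind : ∀ X Y : Sylow p S, X ≠ Y → ((Y : Subgroup S).subgroupOf (X : Subgroup S)).index = p := by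
    intro X Y hXY
    obtain ⟨e, he⟩ := Cfsg.Agent.Lib.SmallSimple.index_subgroupOf_sylow_pow X Y
    have horb := orbit_card X Y
    have hXn : X ∉ MulAction.orbit (X : Subgroup S) Y := by
      rintro ⟨u, hu⟩
      exact hnotin X Y hXY u hu
    have hle : (MulAction.orbit (X : Subgroup S) Y).ncard + 1 ≤ Nat.card (Sylow p S) := by
      rw [← Set.ncard_insert_of_notMem hXn (Set.toFinite _), ← Set.ncard_univ]
      exact Set.ncard_le_ncard (Set.subset_univ _) (Set.toFinite _)
    rw [← Nat.card_coe_set_eq, horb, he] at hle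
    have he1 : e ≠ 0 := by
      rintro rfl
      rw [pow_zero, Subgroup.index_eq_one, Subgroup.subgroupOf_eq_top] at he
      apply hXY
      apply Sylow.ext
      apply Subgroup.eq_of_le_of_card_ge he
      rw [hallcard, hallcard]
    have he2 : e < 2 := by
      by_contra h
      have : p ^ 2 ≤ p ^ e := Nat.pow_le_pow_right hpp.pos (by omega)
      omega
    have : e = 1 := by omega
    rw [he, this, pow_one]
  have hinfcard : ∀ X Y : Sylow p S, X ≠ Y → Nat.card ↥((X : Subgroup S) ⊓ (Y : Subgroup S)) * p = p ^ a := by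
    intro X Y hXY
    have h1 := ((Y : Subgroup S).subgroupOf (X : Subgroup S)).card_mul_index
    rw [hind X Y hXY, hallcard] at h1
    have h2 : Nat.card ↥((Y : Subgroup S).subgroupOf (X : Subgroup S)) = Nat.card ↥((X : Subgroup S) ⊓ (Y : Subgroup S)) := by
      rw [inf_comm, ← Subgroup.subgroupOf_map_subtype, Subgroup.card_map_of_injective (Subtype.val_injective)]
    rwa [h2] at h1
  have hnorm : ∀ X Y : Sylow p S, X ≠ Y → (X : Subgroup S) ≤ Subgroup.normalizer (((X : Subgroup S) ⊓ (Y : Subgroup S) : Subgroup S) : Set S) :=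
    fun X Y hXY => Cfsg.Agent.Lib.SmallSimple.le_normalizer_of_card hpp hapos inf_le_left (hallcard X) (hinfcard X Y hXY)
  -- lines have at least `p` further points
  have hline : ∀ X Y : Sylow p S, X ≠ Y →
      p ≤ (Finset.univ.filter (fun U : Sylow p S => U ≠ X ∧ (X : Subgroup S) ⊓ (Y : Subgroup S) ≤ (U : Subgroup S))).card := by
    intro X Y hXY
    have hsub : MulAction.orbit (X : Subgroup S) Y ⊆
        ((Finset.univ.filter (fun U : Sylow p S => U ≠ X ∧ (X : Subgroup S) ⊓ (Y : Subgroup S) ≤ (U : Subgroup S)) : Finset _) : Set _) := by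
      rintro _ ⟨u, rfl⟩
      rw [Finset.mem_coe, Finset.mem_filter]
      refine ⟨Finset.mem_univ _, hnotin X Y hXY u, ?_⟩
      intro d hd
      apply mem_smul_sylow
      have hu := hnorm X Y hXY u.2
      have hu' := (Subgroup.mem_normalizer_iff.1 (Subgroup.inv_mem _ hu) d).1 hd
      simp only [inv_inv] at hu'
      exact hu'.2
    have h1 := Set.ncard_le_ncard hsub (Set.toFinite _)
    rw [Set.ncard_coe_finset, ← Nat.card_coe_set_eq, orbit_card, hind X Y hXY] at h1
    exact h1
  have hC : ∀ X Y Z Z' : Sylow p S, X ≠ Y → Z ≠ Z' → (X : Subgroup S) ⊓ (Y : Subgroup S) ≤ (Z : Subgroup S) →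
      (X : Subgroup S) ⊓ (Y : Subgroup S) ≤ (Z' : Subgroup S) →
      (Z : Subgroup S) ⊓ (Z' : Subgroup S) = (X : Subgroup S) ⊓ (Y : Subgroup S) := by
    intro X Y Z Z' hXY hZZ h1 h2
    symm
    apply Subgroup.eq_of_le_of_card_ge (le_inf h1 h2)
    have h3 := hinfcard X Y hXY
    have h4 := hinfcard Z Z' hZZ
    exact (Nat.eq_of_mul_eq_mul_right hpp.pos (h4.trans h3.symm)).le
  -- two distinct Sylow subgroups
  haveI : Nontrivial (Sylow p S) := Finite.one_lt_card_iff_nontrivial.1 h1lt
  obtain ⟨Q, hQ⟩ := exists_ne P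
  have hPQ : P ≠ Q := hQ.symm
  set D := (P : Subgroup S) ⊓ (Q : Subgroup S) with hD
  have hDne : D ≠ ⊥ := by
    intro h
    have h3 := hinfcard P Q hPQ
    rw [← hD, h, Subgroup.card_bot, one_mul] at h3
    exact hne h3.symm
  -- a point off the line
  obtain ⟨R, hR⟩ : ∃ R : Sylow p S, ¬ D ≤ (R : Subgroup S) := by
    by_contra hcon
    push Not at hcon
    have hcore : D ≤ (P : Subgroup S).normalCore := by
      intro d hd g
      have h1 := hcon (g⁻¹ • P) hd
      rw [Sylow.coe_subgroup_smul, Subgroup.mem_pointwise_smul_iff_inv_smul_mem] at h1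
      simpa using h1
    rcases (Subgroup.normalCore_normal (P : Subgroup S)).eq_bot_or_eq_top with h | h
    · rw [h] at hcore
      exact hDne (le_bot_iff.1 hcore)
    · have hPtop : (P : Subgroup S) = ⊤ := top_le_iff.1 (h ▸ Subgroup.normalCore_le _)
      apply hPQ
      apply Sylow.ext
      rw [hPtop]
      symm
      apply Subgroup.eq_top_of_card_eq
      rw [hallcard Q, ← hallcard P, hPtop, Subgroup.card_top]
  -- counting
  let L : Finset (Sylow p S) := Finset.univ.filter (fun U => D ≤ (U : Subgroup S))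
  have hLcard : p + 1 ≤ L.card := by
    have h1 := hline P Q hPQ
    have hsubL : insert P (Finset.univ.filter (fun U : Sylow p S => U ≠ P ∧ (P : Subgroup S) ⊓ (Q : Subgroup S) ≤ (U : Subgroup S))) ⊆ L := by
      intro U hU
      rw [Finset.mem_insert] at hU
      rcases hU with rfl | hU
      · exact Finset.mem_filter.2 ⟨Finset.mem_univ _, inf_le_left⟩
      · exact Finset.mem_filter.2 ⟨Finset.mem_univ _, (Finset.mem_filter.1 hU).2.2⟩
    have h2 := Finset.card_le_card hsubL
    rw [Finset.card_insert_of_notMem (by simp)] at h2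
    omega
  let A : Sylow p S → Finset (Sylow p S) := fun T =>
    Finset.univ.filter (fun U : Sylow p S => U ≠ R ∧ (R : Subgroup S) ⊓ (T : Subgroup S) ≤ (U : Subgroup S))
  have hRT : ∀ T ∈ L, R ≠ T := by
    rintro T hT rfl
    exact hR (Finset.mem_filter.1 hT).2
  have hdisj : (L : Set (Sylow p S)).PairwiseDisjoint A := by
    intro T hT T' hT' hTT'
    rw [Function.onFun, Finset.disjoint_left]
    intro U hU hU'
    have hU1 := (Finset.mem_filter.1 hU).2
    have hU2 := (Finset.mem_filter.1 hU').2
    have hRTne := hRT T hT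
    have hRTne' := hRT T' hT'
    have e1 := hC R T R U hRTne hU1.1.symm inf_le_left hU1.2
    have e2 := hC R T' R U hRTne' hU1.1.symm inf_le_left hU2.2
    have e3 : (R : Subgroup S) ⊓ (T : Subgroup S) = (R : Subgroup S) ⊓ (T' : Subgroup S) := e1.symm.trans e2
    have hDT := (Finset.mem_filter.1 hT).2
    have hDT' := (Finset.mem_filter.1 hT').2
    have e4 := hC P Q T T' hPQ hTT' hDT hDT'
    -- `R ⊓ T ≤ T ⊓ T' = D`
    have hle : (R : Subgroup S) ⊓ (T : Subgroup S) ≤ D := by
      rw [hD, ← e4]
      exact le_inf inf_le_right (e3 ▸ inf_le_right)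
    have hcardeq : D = (R : Subgroup S) ⊓ (T : Subgroup S) := by
      symm
      apply Subgroup.eq_of_le_of_card_ge hle
      have h3 := hinfcard P Q hPQ
      have h4 := hinfcard R T hRTne
      rw [← hD] at h3
      exact (Nat.eq_of_mul_eq_mul_right hpp.pos (h3.trans h4.symm)).le
    apply hR
    rw [hcardeq]
    exact inf_le_left
  have hcard : L.card * p ≤ Nat.card (Sylow p S) - 1 := by
    have h1 : (L.biUnion A).card = ∑ T ∈ L, (A T).card := Finset.card_biUnion hdisj
    have h2 : L.card * p ≤ ∑ T ∈ L, (A T).card := by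
      rw [← smul_eq_mul]
      apply Finset.card_nsmul_le_sum
      intro T hT
      exact hline R T (hRT T hT)
    have h3 : L.biUnion A ⊆ Finset.univ.erase R := by
      intro U hU
      obtain ⟨T, -, hUT⟩ := Finset.mem_biUnion.1 hU
      exact Finset.mem_erase.2 ⟨(Finset.mem_filter.1 hUT).2.1, Finset.mem_univ _⟩
    have h4 := Finset.card_le_card h3
    rw [Finset.card_erase_of_mem (Finset.mem_univ _), Finset.card_univ, ← Nat.card_eq_fintype_card] at h4
    omega
  have h5 : (p + 1) * p ≤ L.card * p := Nat.mul_le_mul_right p hLcard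
  have h6 : p ^ 2 + p ≤ Nat.card (Sylow p S) - 1 := by
    have : (p + 1) * p = p ^ 2 + p := by ring
    omega
  omega

end Cfsg.Agent.S4343
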