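import Cfsg.Statements.S4344
import Cfsg.Agent.Lib.Coprime.Conj
import Cfsg.Agent.Lib.OddLocal.Sup

set_option autoImplicit false
open Cfsg

namespace Cfsg.Agent.S4344

/-- Let S be a finite non-abelian simple group, M a maximal subgroup of S and C a cyclic normal subgroup of M. If a Sylow p-subgroup P of S (for a prime p dividing the order of S) is contained in C, then the number of Sylow p-subgroups of S equals the index of M. -/
theorem result {S : Type*} [Group S] [Finite S]
    [IsSimpleGroup S] (hS : ¬ IsMulCommutative S) (p : ℕ) [Fact p.Prime] (hp : p ∣ Nat.card S)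
    (M : Subgroup S) (hM : IsCoatom M) (C : Subgroup S) (hCM : C ≤ M) (hCn : (C.subgroupOf M).Normal)
    (hC : IsCyclic C) (P : Sylow p S) (hP : (P : Subgroup S) ≤ C) :
    Nat.card (Sylow p S) = M.index := by
  classical
  -- `P` is normal in `M`
  have hMnorm : M ≤ Subgroup.normalizer ((P : Subgroup S) : Set S) := by
    intro g hg
    apply Lib.Coprime.mem_normalizer_of_conj_le
    intro x hx
    -- work in the cyclic group `C`
    have hPC : ((P : Subgroup S).subgroupOf C) = ((P : Subgroup S).map (MulAut.conj g).toMonoidHom).subgroupOf C := by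
      apply Lib.OddLocal.eq_of_card_eq_of_isCyclic
      have e1 : Nat.card ((P : Subgroup S).subgroupOf C) = Nat.card (P : Subgroup S) :=
        Nat.card_congr (Subgroup.subgroupOfEquivOfLe hP).toEquiv
      have hle : (P : Subgroup S).map (MulAut.conj g).toMonoidHom ≤ C := by
        rintro _ ⟨y, hy, rfl⟩
        have h3 := Subgroup.Normal.conj_mem hCn ⟨y, hCM (hP hy)⟩ (Subgroup.mem_subgroupOf.mpr (hP hy)) ⟨g, hg⟩
        rw [Subgroup.mem_subgroupOf] at h3
        simpa using h3
      have e2 : Nat.card (((P : Subgroup S).map (MulAut.conj g).toMonoidHom).subgroupOf C)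
          = Nat.card ((P : Subgroup S).map (MulAut.conj g).toMonoidHom) :=
        Nat.card_congr (Subgroup.subgroupOfEquivOfLe hle).toEquiv
      rw [e1, e2, Lib.Coprime.card_conj_map]
    have hx1 : (⟨x, hP hx⟩ : C) ∈ (P : Subgroup S).subgroupOf C := Subgroup.mem_subgroupOf.mpr hx
    have hgx : g * x * g⁻¹ ∈ (P : Subgroup S).map (MulAut.conj g).toMonoidHom :=
      Lib.Coprime.conj_mem_conj_map _ _ _ hx
    have hle : (P : Subgroup S).map (MulAut.conj g).toMonoidHom ≤ C := by
      rintro _ ⟨y, hy, rfl⟩
      have h3 := Subgroup.Normal.conj_mem hCn ⟨y, hCM (hP hy)⟩ (Subgroup.mem_subgroupOf.mpr (hP hy)) ⟨g, hg⟩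
      rw [Subgroup.mem_subgroupOf] at h3
      simpa using h3
    have h5 : (⟨g * x * g⁻¹, hle hgx⟩ : C) ∈ ((P : Subgroup S).map (MulAut.conj g).toMonoidHom).subgroupOf C :=
      Subgroup.mem_subgroupOf.mpr hgx
    rw [← hPC, Subgroup.mem_subgroupOf] at h5
    exact h5
  -- the normalizer is proper
  have hne : Subgroup.normalizer ((P : Subgroup S) : Set S) ≠ ⊤ := by
    intro htop
    have hn : (P : Subgroup S).Normal := Subgroup.normalizer_eq_top_iff.mp htop
    rcases hn.eq_bot_or_eq_top with h | h
    · have : Nat.card (P : Subgroup S) = 1 := by rw [h]; simp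
      have h2 := (Sylow.card_eq_multiplicity P)
      rw [this] at h2
      haveI : Fact p.Prime := inferInstance
      have h3 : Nat.factorization (Nat.card S) p ≠ 0 := by
        have := (Nat.Prime.dvd_iff_one_le_factorization Fact.out Nat.card_pos.ne').mp hp
        omega
      have h4 : p ^ Nat.factorization (Nat.card S) p ≠ 1 :=
        (Nat.one_lt_pow h3 (Fact.out : p.Prime).one_lt).ne'
      exact h4 h2.symm
    · apply hS
      -- a simple `p`-group is commutative
      have hpG : IsPGroup p S := by
        intro g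
        have h1 : g ∈ (P : Subgroup S) := by rw [h]; trivial
        obtain ⟨k, hk⟩ := P.isPGroup' ⟨g, h1⟩
        exact ⟨k, by simpa [Subtype.ext_iff] using hk⟩
      haveI : Nontrivial S := (inferInstance : IsSimpleGroup S).toNontrivial
      obtain ⟨z, hz⟩ : ∃ z : Subgroup.center S, z ≠ 1 := by
        have := hpG.center_nontrivial
        exact exists_ne 1
      have hc : Subgroup.center S = ⊤ := by
        rcases (inferInstance : (Subgroup.center S).Normal).eq_bot_or_eq_top with h | h
        · exfalso
          apply hz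
          exact Subtype.ext (Subgroup.mem_bot.mp (h.le z.2))
        · exact h
      exact ⟨⟨fun a b => (Subgroup.mem_center_iff.mp (hc ▸ Subgroup.mem_top b)) a⟩⟩
  have hNM : Subgroup.normalizer ((P : Subgroup S) : Set S) = M := by
    by_contra hne2
    exact hne (hM.2 _ (lt_of_le_of_ne hMnorm (fun h => hne2 h.symm)))
  rw [Sylow.card_eq_index_normalizer P]
  exact congrArg Subgroup.index hNM

end Cfsg.Agent.S4344
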