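import Cfsg.Statements.S4345
import Cfsg.Agent.Lib.Struct.SylowCount
import Cfsg.Agent.Lib.Basic.MinNormal

set_option autoImplicit false
open Cfsg

namespace Cfsg.Agent.S4345


universe u

open Cfsg.Agent.Lib.Struct Subgroup in
theorem aux (p ℓ : ℕ) [Fact p.Prime] (hℓ : ℓ.Prime) : ∀ (n : ℕ) (G : Type u) [Group G] [Finite G],
    Nat.card G = n → Group.IsSolvable G →
    ℓ ^ (Nat.card (Sylow p G)).factorization ℓ ≡ 1 [MOD p] := by
  intro n
  induction n using Nat.strong_induction_on with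
  | _ n ih =>
  intro G _ _ hn hG
  classical
  by_cases hnt : Subsingleton G
  · have : IsPGroup p G := IsPGroup.of_card (n := 0) (by
      rw [pow_zero]; exact Nat.card_of_subsingleton 1)
    rw [card_sylow_of_isPGroup this]
    simp
    rfl
  rw [not_subsingleton_iff_nontrivial] at hnt
  obtain ⟨K, hKmin⟩ := Cfsg.Agent.Lib.Basic.exists_isMinNormal (G := G)
  haveI hKn : K.Normal := hKmin.1
  have hK1 : K ≠ ⊥ := hKmin.2.1
  obtain ⟨-, r, hr, hKr⟩ := hKmin.isPGroup
  haveI : Fact r.Prime := ⟨hr⟩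
  have hN1card : 1 < Nat.card K := by
    have : Nontrivial K := (Subgroup.nontrivial_iff_ne_bot K).mpr hK1
    exact Finite.one_lt_card
  have hcard : Nat.card (G ⧸ K) < n := by
    have h1 := Subgroup.card_mul_index K
    have h2 : Nat.card (G ⧸ K) = K.index := rfl
    rw [h2, ← hn, ← h1]
    have h3 : 0 < K.index := Nat.pos_of_ne_zero Subgroup.FiniteIndex.index_ne_zero
    nlinarith
  have hih := ih _ hcard (G ⧸ K) rfl inferInstance
  obtain ⟨P⟩ : Nonempty (Sylow p G) := inferInstance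
  have h1 := card_sylow_eq_mul P K
  have h2 := relIndex_normalizer_modEq_one P K
  have h3 := relIndex_normalizer_dvd (P : Subgroup G) K
  obtain ⟨k, hk⟩ := IsPGroup.iff_card.mp hKr
  rw [hk] at h3
  obtain ⟨c, -, hc⟩ := (Nat.dvd_prime_pow hr).mp h3
  rw [hc] at h1 h2
  have hm0 : Nat.card (Sylow p (G ⧸ K)) ≠ 0 := Nat.card_pos.ne'
  have hr0 : r ^ c ≠ 0 := pow_ne_zero _ hr.ne_zero
  rw [h1, Nat.factorization_mul hm0 hr0, Finsupp.add_apply, hr.factorization_pow, pow_add]
  by_cases hℓr : ℓ = r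
  · subst hℓr
    simp only [Finsupp.smul_single, smul_eq_mul, mul_one, Finsupp.single_eq_same]
    simpa using hih.mul h2
  · have : (Finsupp.single r c : ℕ →₀ ℕ) ℓ = 0 := by
      rw [Finsupp.single_apply, if_neg (Ne.symm hℓr)]
    have h4 : (c • Finsupp.single r 1 : ℕ →₀ ℕ) ℓ = 0 := by
      simp [Finsupp.single_apply, Ne.symm hℓr]
    first
      | (rw [this, pow_zero, mul_one]; exact hih)
      | (rw [h4, pow_zero, mul_one]; exact hih)

/-- Let G be a finite solvable group and p, ℓ primes. Then the largest power of ℓ dividing the number of Sylow p-subgroups of G is congruent to 1 modulo p. -/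
theorem result {G : Type*} [Group G] [Finite G]
    (hG : Group.IsSolvable G) (p ℓ : ℕ) [Fact p.Prime] (hℓ : ℓ.Prime) :
    ℓ ^ (Nat.card (Sylow p G)).factorization ℓ ≡ 1 [MOD p] := by
  exact aux p ℓ hℓ _ G rfl hG

end Cfsg.Agent.S4345
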