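import Cfsg.Statements.S4354
import Cfsg.Agent.Lib.Struct.PCentral

set_option autoImplicit false
open Cfsg

namespace Cfsg.Agent.S4354

/-- Let G be a finite group and p a prime such that the Sylow p-subgroups of G are non-abelian while every element of p-power order has conjugacy class size prime to p, and suppose no nontrivial proper normal subgroup N of G has this property and no quotient G/N by such an N has it. Then G is simple. -/
theorem result {G : Type*} [Group G] [Finite G]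
    (p : ℕ) [Fact p.Prime] (h : ((∃ P : Sylow p G, ¬ IsMulCommutative P) ∧ ∀ x : G, (∃ k : ℕ, orderOf x = p ^ k) → ¬ p ∣ (Subgroup.centralizer ({x} : Set G)).index))
    (hmin : ∀ (N : Subgroup G) [N.Normal], N ≠ ⊥ → N ≠ ⊤ →
      ¬ ((∃ P : Sylow p N, ¬ IsMulCommutative P) ∧ ∀ x : N, (∃ k : ℕ, orderOf x = p ^ k) → ¬ p ∣ (Subgroup.centralizer ({x} : Set N)).index) ∧
      ¬ ((∃ P : Sylow p (G ⧸ N), ¬ IsMulCommutative P) ∧ ∀ x : (G ⧸ N), (∃ k : ℕ, orderOf x = p ^ k) → ¬ p ∣ (Subgroup.centralizer ({x} : Set (G ⧸ N))).index)) :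
    IsSimpleGroup G := by
  classical
  obtain ⟨⟨P, hP⟩, hcl⟩ := h
  have hnt : Nontrivial G := by
    by_contra hnt
    rw [not_nontrivial_iff_subsingleton] at hnt
    exact hP ⟨⟨fun a b => Subsingleton.elim _ _⟩⟩
  refine ⟨fun N hNn => ?_⟩
  by_contra hcon
  push_neg at hcon
  obtain ⟨h1, h2⟩ := hcon
  obtain ⟨hm1, hm2⟩ := hmin N h1 h2
  have hN : ∀ S : Sylow p N, IsMulCommutative (S : Subgroup N) := by
    intro S
    by_contra hS
    refine hm1 ⟨⟨S, hS⟩, ?_⟩
    rintro x ⟨k, hk⟩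
    exact Lib.Struct.not_dvd_index_centralizer_normal N x (hcl x ⟨k, by simpa using hk⟩)
  have hQ : ∀ S : Sylow p (G ⧸ N), IsMulCommutative (S : Subgroup (G ⧸ N)) := by
    intro S
    by_contra hS
    refine hm2 ⟨⟨S, hS⟩, ?_⟩
    intro x hx
    exact Lib.Struct.not_dvd_index_centralizer_quotient N hcl x hx
  apply hP
  have := Lib.Struct.sylow_comm_of_normal_quotient hcl N hN hQ P
  exact ⟨⟨fun a b => Subtype.ext (this a a.2 b b.2)⟩⟩

end Cfsg.Agent.S4354
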