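import Cfsg.Statements.S4364
import Cfsg.Agent.Lib.Lead.Kazarin
import Cfsg.Agent.Lib.LocalEven.PClosed
import Cfsg.Agent.Lib.Basic.Core

set_option autoImplicit false
open Cfsg

namespace Cfsg.Agent.S4364

open Subgroup in
theorem map_subtype_normal_of_characteristic {H : Type*} [Group H] (N : Subgroup H) [hN : N.Normal]
    (R : Subgroup N) [hR : R.Characteristic] : (R.map N.subtype).Normal := by
  constructor
  intro n hn g
  obtain ⟨r, hr, rfl⟩ := hn
  refine ⟨MulAut.conjNormal g r, ?_, ?_⟩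
  · have h1 := hR.fixed (MulAut.conjNormal g)
    rw [← h1] at hr
    exact hr
  · simp

open Subgroup in
/-- If `O_p(H) = 1` and the class of `x` has `p`-power size, the normal closure of `x` is abelian. -/
theorem normalClosure_comm_of_pCore_eq_bot.{u} {H : Type u} [Group H] [Finite H] {p k : ℕ} [hp : Fact p.Prime]
    (hO : Cfsg.pCore p H = ⊥) (x : H) (hx : (centralizer ({x} : Set H)).index = p ^ k) :
    ∀ a ∈ normalClosure ({x} : Set H), ∀ b ∈ normalClosure ({x} : Set H), a * b = b * a := by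
  classical
  set K := normalClosure ({x} : Set H) with hKdef
  haveI hKn : K.Normal := normalClosure_normal
  haveI hs : Group.IsSolvable K :=
    Cfsg.Agent.Lib.Lead.Kazarin.isSolvable_normalClosure_of_index_eq_prime_pow x hp.out hx
  -- every `q`-core of `K` is central in `K`
  have hcore : ∀ q : Nat.Primes, Cfsg.pCore (q : ℕ) K ≤ center K := by
    intro q
    haveI : Fact (q : ℕ).Prime := ⟨q.2⟩
    haveI hch : (Cfsg.pCore (q : ℕ) K).Characteristic := Cfsg.Agent.Lib.Basic.pCore_characteristic (q : ℕ)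
    set L := (Cfsg.pCore (q : ℕ) K).map K.subtype with hL
    haveI hLn : L.Normal := map_subtype_normal_of_characteristic K _
    have hLp : IsPGroup (q : ℕ) L := (Cfsg.Agent.Lib.Basic.pCore_isPGroup (G := K) (q : ℕ)).map K.subtype
    by_cases hqp : (q : ℕ) = p
    · -- trivial
      have hLb : L ≤ ⊥ := by
        rw [← hO]
        apply Cfsg.Agent.Lib.Basic.le_pCore hLn
        rw [← hqp]
        exact hLp
      intro y hy
      have h1 : (y : H) ∈ L := ⟨y, hy, rfl⟩
      have h2 := hLb h1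
      rw [mem_bot] at h2
      have h3 : y = 1 := Subtype.ext h2
      rw [h3]
      exact one_mem _
    · have hLc : L ≤ centralizer ({x} : Set H) := by
        have h1 : (centralizer ({x} : Set H)).relIndex L ∣ p ^ k := by
          rw [← hx]
          exact Cfsg.Agent.Lib.Lead.Kazarin.relIndex_dvd_index_of_normal_right _ L
        have h2 : (centralizer ({x} : Set H)).relIndex L ∣ Nat.card L := relIndex_dvd_card _ _
        obtain ⟨i, hi⟩ := IsPGroup.iff_card.mp hLp
        rw [hi] at h2
        have hcop : Nat.Coprime (p ^ k) ((q : ℕ) ^ i) :=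
          Nat.Coprime.pow _ _ ((Nat.coprime_primes hp.out q.2).mpr (Ne.symm hqp))
        have h3 := Nat.eq_one_of_dvd_coprimes hcop h1 h2
        exact relIndex_eq_one.mp h3
      have hKc : K ≤ centralizer (L : Set H) := by
        apply normalClosure_le_normal
        rw [Set.singleton_subset_iff]
        show x ∈ centralizer (L : Set H)
        rw [mem_centralizer_iff]
        intro n hn
        exact mem_centralizer_singleton_iff.mp (hLc hn)
      intro y hy
      rw [mem_center_iff]
      intro z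
      have h1 : (y : H) ∈ L := ⟨y, hy, rfl⟩
      have h2 := (mem_centralizer_iff.mp (hKc z.2)) (y : H) h1
      exact Subtype.ext h2.symm
  have hF : Cfsg.fittingSubgroup K ≤ center K := by
    rw [Cfsg.Agent.Lib.Basic.fittingSubgroup_eq_iSup_pCore]
    exact iSup_le hcore
  have hCF : centralizer (Cfsg.fittingSubgroup K : Set K) = ⊤ := by
    rw [eq_top_iff]
    intro y _
    rw [mem_centralizer_iff]
    intro z hz
    exact ((mem_center_iff.mp (hF hz)) y).symm
  have htop := Cfsg.Agent.Lib.Basic.centralizer_fittingSubgroup_le (G := K)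
  rw [hCF] at htop
  intro a ha b hb
  have h1 := hF (htop (mem_top (⟨a, ha⟩ : K)))
  have h2 := mem_center_iff.mp h1 ⟨b, hb⟩
  exact (congrArg Subtype.val h2).symm


/-- Let G be a finite group, p a prime and x an element whose conjugacy class has p-power size. Then for any two conjugates y and z of x, the commutator y z y⁻¹ z⁻¹ lies in O_p(G), the largest normal p-subgroup of G. -/
theorem result {G : Type*} [Group G] [Finite G] (p : ℕ) [Fact p.Prime]
    (x : G) (hx : ∃ a : ℕ, (Subgroup.centralizer ({x} : Set G)).index = p ^ a) (g h : G) :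
    (g * x * g⁻¹) * (h * x * h⁻¹) * (g * x * g⁻¹)⁻¹ * (h * x * h⁻¹)⁻¹ ∈ Cfsg.pCore p G := by
  classical
  obtain ⟨a, ha⟩ := hx
  set Q := Cfsg.pCore p G with hQ
  haveI hQn : Q.Normal := Cfsg.Agent.Lib.Basic.pCore_normal p
  have hO : Cfsg.pCore p (G ⧸ Q) = ⊥ := by
    rw [Cfsg.Agent.Lib.LocalEven.pCore_quotient Q (Cfsg.Agent.Lib.Basic.pCore_isPGroup p)]
    rw [eq_bot_iff]
    rintro y ⟨z, hz, rfl⟩
    exact (QuotientGroup.eq_one_iff z).mpr hz
  have hdvd := (Cfsg.Agent.Lib.Lead.Kazarin.index_centralizer_quotient_dvd Q x).trans (dvd_of_eq ha)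
  obtain ⟨j, -, hj⟩ := (Nat.dvd_prime_pow (Fact.out : p.Prime)).mp hdvd
  have hc := normalClosure_comm_of_pCore_eq_bot hO ((x : G ⧸ Q)) hj
  have hy : ((g * x * g⁻¹ : G) : G ⧸ Q) ∈ Subgroup.normalClosure ({(x : G ⧸ Q)} : Set (G ⧸ Q)) := by
    have h1 : ((g * x * g⁻¹ : G) : G ⧸ Q) = (g : G ⧸ Q) * (x : G ⧸ Q) * (g : G ⧸ Q)⁻¹ := rfl
    rw [h1]
    exact (Subgroup.normalClosure_normal).conj_mem _ (Subgroup.subset_normalClosure (Set.mem_singleton _)) _
  have hz : ((h * x * h⁻¹ : G) : G ⧸ Q) ∈ Subgroup.normalClosure ({(x : G ⧸ Q)} : Set (G ⧸ Q)) := by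
    have h1 : ((h * x * h⁻¹ : G) : G ⧸ Q) = (h : G ⧸ Q) * (x : G ⧸ Q) * (h : G ⧸ Q)⁻¹ := rfl
    rw [h1]
    exact (Subgroup.normalClosure_normal).conj_mem _ (Subgroup.subset_normalClosure (Set.mem_singleton _)) _
  have hcomm := hc _ hy _ hz
  rw [← QuotientGroup.eq_one_iff]
  rw [QuotientGroup.mk_mul, QuotientGroup.mk_mul, QuotientGroup.mk_mul, QuotientGroup.mk_inv, QuotientGroup.mk_inv]
  rw [hcomm]
  group

end Cfsg.Agent.S4364
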