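import Cfsg.Statements.S4365
import Mathlib
import Cfsg.Agent.Lib.Basic.Index2

set_option autoImplicit false
open Cfsg

namespace Cfsg.Agent.S4365


open Finset in
/-- The norm identity behind the exponent of the central quotient. -/
theorem norm_lemma {M : Type*} [CommGroup M] (p : ℕ) [hp : Fact p.Prime] (Z₀ : Subgroup M) (u v : MulAut M)
    (huv : Commute u v) (hv : v ^ p = 1) (hu : ∀ z ∈ Z₀, u z ∈ Z₀)
    (h1 : ∀ a, ∏ i ∈ range p, (v ^ i) a ∈ Z₀)
    (h2 : ∀ (j : ℕ) a, ∏ i ∈ range p, ((u * v ^ j) ^ i) a ∈ Z₀) (a : M) : a ^ p ∈ Z₀ := by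
  have hpp : p.Prime := hp.out
  have hupow : ∀ (i : ℕ), ∀ z ∈ Z₀, (u ^ i) z ∈ Z₀ := by
    intro i
    induction i with
    | zero =>
      intro z hz
      simpa using hz
    | succ n ih =>
      intro z hz
      rw [pow_succ', MulAut.mul_apply]
      exact hu _ (ih z hz)
  have key : ∏ j ∈ range p, ∏ i ∈ range p, ((u * v ^ j) ^ i) a =
      ∏ i ∈ range p, (u ^ i) (∏ j ∈ range p, (v ^ (i * j)) a) := by
    rw [Finset.prod_comm]
    refine Finset.prod_congr rfl fun i _ => ?_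
    rw [map_prod]
    refine Finset.prod_congr rfl fun j _ => ?_
    rw [(huv.pow_right j).mul_pow, MulAut.mul_apply, mul_comm i j, pow_mul]
  have hLHS : ∏ j ∈ range p, ∏ i ∈ range p, ((u * v ^ j) ^ i) a ∈ Z₀ :=
    Subgroup.prod_mem _ fun j _ => h2 j a
  have hreindex : ∀ i, i ≠ 0 → i < p →
      ∏ j ∈ range p, (v ^ (i * j)) a = ∏ j ∈ range p, (v ^ j) a := by
    intro i hi0 hip
    have hcop : Nat.gcd p i = 1 :=
      (Nat.Prime.coprime_iff_not_dvd hpp).mpr (Nat.not_dvd_of_pos_of_lt (Nat.pos_of_ne_zero hi0) hip)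
    have hinj : Set.InjOn (fun j => (i * j) % p) (range p : Set ℕ) := by
      intro j hj j' hj' hjj
      have h3 : i * j ≡ i * j' [MOD p] := hjj
      have h4 := Nat.ModEq.cancel_left_of_coprime hcop h3
      exact Nat.ModEq.eq_of_lt_of_lt h4 (Finset.mem_range.mp hj) (Finset.mem_range.mp hj')
    have hmaps : ∀ j ∈ range p, (fun j => (i * j) % p) j ∈ range p := fun j _ =>
      Finset.mem_range.mpr (Nat.mod_lt _ hpp.pos)
    have hsurj : Set.SurjOn (fun j => (i * j) % p) (range p : Set ℕ) (range p : Set ℕ) :=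
      Finset.surjOn_of_injOn_of_card_le _ hmaps hinj le_rfl
    refine Finset.prod_nbij (fun j => (i * j) % p) hmaps hinj hsurj ?_
    intro j _
    show (v ^ (i * j)) a = (v ^ ((i * j) % p)) a
    rw [pow_eq_pow_mod (i * j) hv]
  obtain ⟨n, hn⟩ : ∃ n, p = n + 1 := ⟨p - 1, by have := hpp.pos; omega⟩
  rw [key] at hLHS
  rw [hn, Finset.prod_range_succ'] at hLHS
  have hzero : (u ^ 0) (∏ j ∈ range (n + 1), (v ^ (0 * j)) a) = a ^ p := by
    simp [hn]
  rw [hzero] at hLHS
  have hrest : ∏ k ∈ range n, (u ^ (k + 1)) (∏ j ∈ range (n + 1), (v ^ ((k + 1) * j)) a) ∈ Z₀ := by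
    refine Subgroup.prod_mem _ fun k hk => ?_
    apply hupow
    rw [← hn, hreindex (k + 1) (Nat.succ_ne_zero k) (by have := Finset.mem_range.mp hk; omega)]
    exact h1 a
  have := Z₀.mul_mem (Z₀.inv_mem hrest) hLHS
  simpa using this

/-- `(a y)^n` expanded by moving the powers of `y` to the right. -/
theorem mul_pow_expand {P : Type*} [Group P] (a y : P) (n : ℕ) :
    (a * y) ^ n = (((List.range n).map (fun i => y ^ i * a * (y ^ i)⁻¹)).prod) * y ^ n := by
  induction n with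
  | zero => simp
  | succ n ih =>
    rw [pow_succ, ih, List.range_succ, List.map_append, List.prod_append]
    simp only [List.map_cons, List.map_nil, List.prod_cons, List.prod_nil, mul_one]
    rw [pow_succ y n]
    group

section
variable {P : Type*} [Group P] [Finite P] (p : ℕ) [hp : Fact p.Prime]

/-- centralizer of an element -/
abbrev C (y : P) : Subgroup P := Subgroup.centralizer ({y} : Set P)

theorem mem_C {y g : P} : g ∈ C y ↔ y * g = g * y := by
  rw [Subgroup.mem_centralizer_iff]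
  constructor
  · intro h
    exact h y (Set.mem_singleton y)
  · intro h w hw
    rw [Set.mem_singleton_iff] at hw
    subst hw
    exact h

theorem mem_center_of_C {y : P} (h : (C y).index = 1) : y ∈ Subgroup.center P := by
  rw [Subgroup.index_eq_one] at h
  rw [Subgroup.mem_center_iff]
  intro g
  have : g ∈ C y := by rw [h]; trivial
  exact (mem_C.mp this).symm

theorem C_pow_le (y : P) (k : ℕ) : C y ≤ C (y ^ k) := by
  intro g hg
  rw [mem_C] at hg ⊢
  exact ((Commute.pow_left hg k) : _)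

theorem C_eq_of_le {a : ℕ} {y w : P} (hy : (C y).index = p ^ a) (hw : (C w).index = p ^ a)
    (hle : C y ≤ C w) : C y = C w := by
  have h1 := Subgroup.relIndex_mul_index hle
  rw [hy, hw] at h1
  have h2 : (C y).relIndex (C w) = 1 := by
    have hpos : 0 < p ^ a := pow_pos hp.out.pos a
    exact Nat.eq_of_mul_eq_mul_right hpos (by rw [h1, one_mul])
  exact le_antisymm hle (Subgroup.relIndex_eq_one.mp h2)

/-- the commutator map for an element of the second centre is a homomorphism -/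
theorem comm_mul {z : P} (hz : ∀ g : P, z * g * z⁻¹ * g⁻¹ ∈ Subgroup.center P) (g h : P) :
    z * (g * h) * z⁻¹ * (g * h)⁻¹ = (z * g * z⁻¹ * g⁻¹) * (z * h * z⁻¹ * h⁻¹) := by
  have h1 := Subgroup.mem_center_iff.mp (hz h) g⁻¹
  have h2 : (z * g * z⁻¹ * g⁻¹) * (z * h * z⁻¹ * h⁻¹) =
      z * g * z⁻¹ * (g⁻¹ * (z * h * z⁻¹ * h⁻¹)) := by group
  rw [h2, h1]
  group

theorem comm_pow {z : P} (hz : ∀ g : P, z * g * z⁻¹ * g⁻¹ ∈ Subgroup.center P) (g : P) (k : ℕ) :
    z * g ^ k * z⁻¹ * (g ^ k)⁻¹ = (z * g * z⁻¹ * g⁻¹) ^ k := by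
  induction k with
  | zero => simp
  | succ n ih =>
    rw [pow_succ, comm_mul hz, ih, pow_succ]

theorem pow_comm {z : P} (hz : ∀ g : P, z * g * z⁻¹ * g⁻¹ ∈ Subgroup.center P) (g : P) (k : ℕ) :
    z ^ k * g * (z ^ k)⁻¹ * g⁻¹ = (z * g * z⁻¹ * g⁻¹) ^ k := by
  induction k with
  | zero => simp
  | succ n ih =>
    have h1 : z ^ (n + 1) * g * (z ^ (n + 1))⁻¹ * g⁻¹ =
        z * (z ^ n * g * (z ^ n)⁻¹ * g⁻¹) * (g * z⁻¹ * g⁻¹) := by
      rw [pow_succ']
      group
    rw [h1, ih, pow_succ]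
    have hc : (z * g * z⁻¹ * g⁻¹) ^ n ∈ Subgroup.center P := Subgroup.pow_mem _ (hz g) n
    have h2 := Subgroup.mem_center_iff.mp hc z
    rw [h2]
    simp only [mul_assoc]

/-- elements of the second centre -/
theorem second_center_pow {a : ℕ} (hP : IsPGroup p P)
    (hidx : ∀ y : P, y ∉ Subgroup.center P → (C y).index = p ^ a)
    {z : P} (hzZ : z ∉ Subgroup.center P) (hz : ∀ g : P, z * g * z⁻¹ * g⁻¹ ∈ Subgroup.center P) :
    z ^ p ∈ Subgroup.center P ∧ ∀ g : P, g ^ p ∈ C z := by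
  have hz1 : z ^ p ∈ Subgroup.center P := by
    by_contra hcon
    have hCe := C_eq_of_le p (hidx z hzZ) (hidx _ hcon) (C_pow_le z p)
    have hex : ∃ g : P, z * g * z⁻¹ * g⁻¹ ≠ 1 := by
      by_contra hall
      push Not at hall
      apply hzZ
      rw [Subgroup.mem_center_iff]
      intro g
      have := hall g
      have h2 : z * g * z⁻¹ = g := mul_inv_eq_one.mp this
      exact (mul_inv_eq_iff_eq_mul.mp h2).symm
    obtain ⟨g, hg⟩ := hex
    obtain ⟨k, hk⟩ := (IsPGroup.iff_orderOf.mp hP) (z * g * z⁻¹ * g⁻¹)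
    have hk0 : k ≠ 0 := by
      rintro rfl
      rw [pow_zero, orderOf_eq_one_iff] at hk
      exact hg hk
    obtain ⟨m, rfl⟩ : ∃ m, k = m + 1 := ⟨k - 1, by omega⟩
    set c := z * g * z⁻¹ * g⁻¹ with hc
    have h3 : c ^ p ^ m ≠ 1 := by
      apply pow_ne_one_of_lt_orderOf (pow_ne_zero _ hp.out.ne_zero)
      rw [hk]
      exact Nat.pow_lt_pow_right hp.out.one_lt (Nat.lt_succ_self m)
    have h4 : (c ^ p ^ m) ^ p = 1 := by
      rw [← pow_mul, ← pow_succ, ← hk, pow_orderOf_eq_one]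
    obtain ⟨g₀, hg₀⟩ : ∃ g₀, g₀ = g ^ p ^ m := ⟨_, rfl⟩
    have h5 : z * g₀ * z⁻¹ * g₀⁻¹ = c ^ p ^ m := by
      rw [hg₀, comm_pow hz]
    have h6 : z ^ p * g₀ * (z ^ p)⁻¹ * g₀⁻¹ = 1 := by
      rw [pow_comm hz, h5, h4]
    have h7 : g₀ ∈ C (z ^ p) := by
      rw [mem_C]
      have h8 : z ^ p * g₀ * (z ^ p)⁻¹ = g₀ := mul_inv_eq_one.mp h6
      exact mul_inv_eq_iff_eq_mul.mp h8
    rw [← hCe, mem_C] at h7
    apply h3
    rw [← h5, h7]
    group
  refine ⟨hz1, fun g => ?_⟩
  have h1 := Subgroup.mem_center_iff.mp hz1 g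
  have h2 : z ^ p * g * (z ^ p)⁻¹ * g⁻¹ = 1 := by
    rw [← h1]
    group
  rw [pow_comm hz] at h2
  rw [mem_C]
  have h3 : z * g ^ p * z⁻¹ * (g ^ p)⁻¹ = 1 := by
    rw [comm_pow hz, h2]
  have h4 : z * g ^ p * z⁻¹ = g ^ p := mul_inv_eq_one.mp h3
  exact mul_inv_eq_iff_eq_mul.mp h4

end

/-- Second part: `C g = C z` for elements with non central `p`-th power. -/
theorem C_eq_of_pow {P : Type*} [Group P] [Finite P] (p : ℕ) [hp : Fact p.Prime] {a : ℕ}
    (hidx : ∀ y : P, y ∉ Subgroup.center P → (C y).index = p ^ a)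
    {z : P} (hzZ : z ∉ Subgroup.center P) (hzp : z ^ p ∈ Subgroup.center P)
    (hzg : ∀ g : P, g ^ p ∈ C z) {g : P} (hg : g ^ p ∉ Subgroup.center P) : C g = C z := by
  have hgZ : g ∉ Subgroup.center P := fun h => hg (Subgroup.pow_mem _ h p)
  have hCg : C g = C (g ^ p) := C_eq_of_le p (hidx g hgZ) (hidx _ hg) (C_pow_le g p)
  have hzu : z ∈ C (g ^ p) := by
    rw [mem_C]
    exact (mem_C.mp (hzg g)).symm
  have hzg' : z ∈ C g := hCg ▸ hzu
  have hcomm : Commute g z := mem_C.mp hzg'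
  have hyp : (g * z) ^ p = g ^ p * z ^ p := hcomm.mul_pow p
  have hy1 : (g * z) ^ p ∉ Subgroup.center P := by
    rw [hyp]
    intro h
    apply hg
    have := Subgroup.mul_mem _ h (Subgroup.inv_mem _ hzp)
    simpa using this
  have hyZ : g * z ∉ Subgroup.center P := fun h => hy1 (Subgroup.pow_mem _ h p)
  have hCy : C (g * z) = C ((g * z) ^ p) := C_eq_of_le p (hidx _ hyZ) (hidx _ hy1) (C_pow_le _ p)
  have hCyg : C ((g * z) ^ p) = C (g ^ p) := by
    ext w
    rw [mem_C, mem_C, hyp]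
    have hzc := Subgroup.mem_center_iff.mp hzp
    constructor
    · intro h
      have h1 : g ^ p * z ^ p * w = g ^ p * w * z ^ p := by
        rw [mul_assoc, ← hzc w, mul_assoc]
      have h2 : w * (g ^ p * z ^ p) = w * g ^ p * z ^ p := by group
      rw [h1, h2] at h
      exact mul_right_cancel h
    · intro h
      have h1 : g ^ p * z ^ p * w = g ^ p * w * z ^ p := by
        rw [mul_assoc, ← hzc w, mul_assoc]
      have h2 : w * (g ^ p * z ^ p) = w * g ^ p * z ^ p := by group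
      rw [h1, h2, h]
  apply C_eq_of_le p (hidx _ hgZ) (hidx _ hzZ)
  intro w hw
  have hw1 : w ∈ C (g * z) := by rw [hCy, hCyg, ← hCg]; exact hw
  rw [mem_C] at hw hw1 ⊢
  have h3 : g * (z * w) = g * (w * z) := by
    calc g * (z * w) = g * z * w := by group
      _ = w * (g * z) := hw1
      _ = (w * g) * z := by group
      _ = (g * w) * z := by rw [hw]
      _ = g * (w * z) := by group
  exact mul_left_cancel h3

/-- `P/Z` nontrivial gives an element of the second centre outside the centre. -/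
theorem exists_second_center {P : Type*} [Group P] [Finite P] (p : ℕ) [hp : Fact p.Prime]
    (hP : IsPGroup p P) (hne : ∃ x : P, x ∉ Subgroup.center P) :
    ∃ z : P, z ∉ Subgroup.center P ∧ ∀ g : P, z * g * z⁻¹ * g⁻¹ ∈ Subgroup.center P := by
  obtain ⟨x, hx⟩ := hne
  have hQ : IsPGroup p (P ⧸ Subgroup.center P) := hP.to_quotient _
  have hnt : Nontrivial (P ⧸ Subgroup.center P) := by
    refine ⟨(x : P ⧸ Subgroup.center P), 1, ?_⟩
    intro h
    exact hx ((QuotientGroup.eq_one_iff x).mp h)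
  have hcen := hQ.center_nontrivial
  obtain ⟨⟨zb, hzb⟩, hzb1⟩ := exists_ne (1 : Subgroup.center (P ⧸ Subgroup.center P))
  have hzb1' : zb ≠ 1 := fun h => hzb1 (Subtype.ext h)
  obtain ⟨z, rfl⟩ := QuotientGroup.mk_surjective zb
  refine ⟨z, fun h => hzb1' ((QuotientGroup.eq_one_iff z).mpr h), fun g => ?_⟩
  have h1 := Subgroup.mem_center_iff.mp hzb (g : P ⧸ Subgroup.center P)
  rw [← QuotientGroup.eq_one_iff]
  simp only [QuotientGroup.mk_mul, QuotientGroup.mk_inv]
  have h2 : (z : P ⧸ Subgroup.center P) * g = g * z := h1.symm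
  rw [h2]
  group

/-- The case of class sizes one and `p`: Knoche's argument. -/
theorem second_center_of_index_p {P : Type*} [Group P] [Finite P] (p : ℕ) [hp : Fact p.Prime]
    (hP : IsPGroup p P) (hidx : ∀ y : P, y ∉ Subgroup.center P → (C y).index = p) (x g : P) :
    x * g * x⁻¹ * g⁻¹ ∈ Subgroup.center P := by
  classical
  by_cases hgx : g ∈ C x
  · rw [mem_C] at hgx
    rw [hgx]
    simp [Subgroup.one_mem]
  have hxZ : x ∉ Subgroup.center P := by
    intro h
    exact hgx (mem_C.mpr (Subgroup.mem_center_iff.mp h g).symm)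
  have hxg : x ∉ C g := by
    intro h
    exact hgx (mem_C.mpr (mem_C.mp h).symm)
  have hgZ : g ∉ Subgroup.center P := by
    intro h
    exact hgx (mem_C.mpr (Subgroup.mem_center_iff.mp h x))
  have hminfac : (Nat.card P).minFac = p := by
    obtain ⟨n, hn⟩ := IsPGroup.iff_card.mp hP
    have hn0 : n ≠ 0 := by
      rintro rfl
      rw [pow_zero] at hn
      have : Subsingleton P := (Nat.card_eq_one_iff_unique.mp hn).1
      exact hxZ (by
        rw [Subgroup.mem_center_iff]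
        intro g
        exact Subsingleton.elim _ _)
    rw [hn]
    exact (Nat.Prime.pow_minFac hp.out hn0)
  have hnorm : ∀ y : P, y ∉ Subgroup.center P → (C y).Normal := fun y hy =>
    Subgroup.normal_of_index_eq_minFac_card (by rw [hidx y hy, hminfac])
  have hCxn := hnorm x hxZ
  have hCgn := hnorm g hgZ
  have hcoat : ∀ y : P, y ∉ Subgroup.center P → IsCoatom (C y) := fun y hy =>
    Cfsg.Agent.Lib.Basic.isCoatom_of_index_prime (by rw [hidx y hy]; exact hp.out)
  set c := x * g * x⁻¹ * g⁻¹ with hc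
  have hcx : c ∈ C x := by
    have h1 : x ∈ C x := mem_C.mpr rfl
    have h2 : g * x⁻¹ * g⁻¹ ∈ C x := hCxn.conj_mem _ (Subgroup.inv_mem _ h1) g
    have h3 : c = x * (g * x⁻¹ * g⁻¹) := by rw [hc]; group
    rw [h3]
    exact Subgroup.mul_mem _ h1 h2
  have hcg : c ∈ C g := by
    have h1 : g ∈ C g := mem_C.mpr rfl
    have h2 : x * g * x⁻¹ ∈ C g := hCgn.conj_mem _ h1 x
    have h3 : c = (x * g * x⁻¹) * g⁻¹ := by rw [hc]
    rw [h3]
    exact Subgroup.mul_mem _ h2 (Subgroup.inv_mem _ h1)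
  rw [Subgroup.mem_center_iff]
  intro w
  -- decompose `w`
  have hsup1 : C x ⊔ Subgroup.zpowers g = ⊤ := by
    apply (hcoat x hxZ).2
    refine lt_of_le_of_ne le_sup_left ?_
    intro h
    apply hgx
    rw [h]
    exact Subgroup.mem_sup_right (Subgroup.mem_zpowers g)
  have hsup2 : C g ⊔ Subgroup.zpowers x = ⊤ := by
    apply (hcoat g hgZ).2
    refine lt_of_le_of_ne le_sup_left ?_
    intro h
    apply hxg
    rw [h]
    exact Subgroup.mem_sup_right (Subgroup.mem_zpowers x)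
  have hw : w ∈ C x ⊔ Subgroup.zpowers g := by rw [hsup1]; trivial
  obtain ⟨m, hm, _, ⟨i, rfl⟩, rfl⟩ := Subgroup.mem_sup_of_normal_left.mp hw
  have hm' : m ∈ C g ⊔ Subgroup.zpowers x := by rw [hsup2]; trivial
  obtain ⟨n, hn, _, ⟨j, rfl⟩, rfl⟩ := Subgroup.mem_sup_of_normal_left.mp hm'
  have hnx : n ∈ C x := by
    have h1 : x ^ j ∈ C x := Subgroup.zpow_mem _ (mem_C.mpr rfl) j
    have := Subgroup.mul_mem _ hm (Subgroup.inv_mem _ h1)
    simpa using this
  -- commuting
  have hcomm_n : n * c = c * n := by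
    rw [mem_C] at hn hnx
    rw [hc]
    have e1 : n * (x * g * x⁻¹ * g⁻¹) = (n * x) * g * x⁻¹ * g⁻¹ := by group
    have e2 : (x * g * x⁻¹ * g⁻¹) * n = x * g * x⁻¹ * (g⁻¹ * n) := by group
    have hn_gi : g⁻¹ * n = n * g⁻¹ := by
      have := hn
      calc g⁻¹ * n = g⁻¹ * n * (g * g⁻¹) := by group
        _ = g⁻¹ * (n * g) * g⁻¹ := by group
        _ = g⁻¹ * (g * n) * g⁻¹ := by rw [hn]
        _ = n * g⁻¹ := by group
    have hn_xi : x⁻¹ * n = n * x⁻¹ := by
      calc x⁻¹ * n = x⁻¹ * n * (x * x⁻¹) := by group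
        _ = x⁻¹ * (n * x) * x⁻¹ := by group
        _ = x⁻¹ * (x * n) * x⁻¹ := by rw [hnx]
        _ = n * x⁻¹ := by group
    rw [e1, e2, hn_gi]
    have e3 : x * g * x⁻¹ * (n * g⁻¹) = x * g * (x⁻¹ * n) * g⁻¹ := by group
    rw [e3, hn_xi]
    have e4 : x * g * (n * x⁻¹) * g⁻¹ = x * (g * n) * x⁻¹ * g⁻¹ := by group
    rw [e4, hn]
    have e5 : x * (n * g) * x⁻¹ * g⁻¹ = (x * n) * g * x⁻¹ * g⁻¹ := by group
    rw [e5, hnx]
  have hcomm_x : x * c = c * x := (mem_C.mp hcx)
  have hcomm_g : g * c = c * g := (mem_C.mp hcg)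
  have hx_z : ∀ j : ℤ, x ^ j * c = c * x ^ j := fun j => (Commute.zpow_left hcomm_x j)
  have hg_z : ∀ j : ℤ, g ^ j * c = c * g ^ j := fun j => (Commute.zpow_left hcomm_g j)
  calc (n * x ^ j * g ^ i) * c = n * x ^ j * (g ^ i * c) := by group
    _ = n * x ^ j * (c * g ^ i) := by rw [hg_z]
    _ = n * (x ^ j * c) * g ^ i := by group
    _ = n * (c * x ^ j) * g ^ i := by rw [hx_z]
    _ = (n * c) * x ^ j * g ^ i := by group
    _ = (c * n) * x ^ j * g ^ i := by rw [hcomm_n]
    _ = c * (n * x ^ j * g ^ i) := by group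

open Finset in
/-- The final step: the norm lemma for the conjugation action on a normal abelian subgroup. -/
theorem main_step {P : Type*} [Group P] [Finite P] (p : ℕ) [hp : Fact p.Prime] (A D : Subgroup P)
    [hAn : A.Normal] (hAc : ∀ a ∈ A, ∀ b ∈ A, a * b = b * a)
    (hAD : ∀ a ∈ A, ∀ d ∈ D, d * a = a * d) (hAleD : A ≤ D)
    (hcomm : ∀ g h : P, g * h * g⁻¹ * h⁻¹ ∈ D) (hpow : ∀ g : P, g ^ p ∈ D)
    (hnotD : ∀ g : P, g ∉ D → g ^ p ∈ Subgroup.center P)
    (y₁ y₂ : P) (hy₂ : y₂ ∉ D) (hy : ∀ j : ℕ, y₁ * y₂ ^ j ∉ D) (x : P) (hx : x ∈ A) :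
    x ^ p ∈ Subgroup.center P := by
  letI : CommGroup A :=
    { (inferInstance : Group A) with
      mul_comm := fun a b => Subtype.ext (hAc a a.2 b b.2) }
  let φ : P →* MulAut A := MulAut.conjNormal
  have hφ : ∀ (y : P) (a : A), ((φ y a : A) : P) = y * a * y⁻¹ := fun y a =>
    MulAut.conjNormal_apply y a
  have hφD : ∀ d ∈ D, φ d = 1 := by
    intro d hd
    ext a
    rw [hφ, MulAut.one_apply, hAD a a.2 d hd]
    simp
  have hexp : ∀ (y : P) (a : A) (n : ℕ),
      ((a : P) * y) ^ n = ((∏ i ∈ range n, (φ y ^ i) a : A) : P) * y ^ n := by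
    intro y a n
    induction n with
    | zero => simp
    | succ n ih =>
      rw [pow_succ, ih, Finset.prod_range_succ, Subgroup.coe_mul, ← map_pow, hφ, pow_succ y n]
      group
  let Z₀ : Subgroup A := (Subgroup.center P).subgroupOf A
  have hZ₀ : ∀ a : A, a ∈ Z₀ ↔ (a : P) ∈ Subgroup.center P := fun a => Subgroup.mem_subgroupOf
  have hnorm : ∀ y : P, y ∉ D → ∀ a : A, ∏ i ∈ range p, (φ y ^ i) a ∈ Z₀ := by
    intro y hy a
    rw [hZ₀]
    have h1 : (a : P) * y ∉ D := by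
      intro h
      apply hy
      have := D.mul_mem (D.inv_mem (hAleD a.2)) h
      simpa using this
    have h2 := hnotD _ h1
    rw [hexp] at h2
    have h3 := hnotD _ hy
    have := Subgroup.mul_mem _ h2 (Subgroup.inv_mem _ h3)
    simpa using this
  have hfin := norm_lemma p Z₀ (φ y₁) (φ y₂) ?_ ?_ ?_ (hnorm y₂ hy₂) ?_ ⟨x, hx⟩
  · have := (hZ₀ _).mp hfin
    simpa using this
  · -- commute
    have h1 := hφD _ (hcomm y₁ y₂)
    simp only [map_mul, map_inv] at h1
    have h2 : φ y₁ * φ y₂ * (φ y₁)⁻¹ = φ y₂ := mul_inv_eq_one.mp h1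
    exact mul_inv_eq_iff_eq_mul.mp h2
  · rw [← map_pow]
    exact hφD _ (hpow y₂)
  · intro z hz
    rw [hZ₀] at hz ⊢
    rw [hφ]
    have : y₁ * (z : P) * y₁⁻¹ = z := by
      rw [(Subgroup.mem_center_iff.mp hz y₁)]
      group
    rw [this]
    exact hz
  · intro j a
    have : φ y₁ * φ y₂ ^ j = φ (y₁ * y₂ ^ j) := by
      rw [map_mul, map_pow]
    rw [this]
    exact hnorm _ (hy j) a

/-- The case `a ≥ 2`: the choice of the subgroups. -/
theorem main_ge_two {P : Type*} [Group P] [Finite P] (p : ℕ) [hp : Fact p.Prime]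
    (hP : IsPGroup p P) (a : ℕ) (ha : 2 ≤ a)
    (hidx : ∀ y : P, y ∉ Subgroup.center P → (C y).index = p ^ a) (x : P) :
    x ^ p ∈ Subgroup.center P := by
  classical
  by_contra hx
  have hxZ : x ∉ Subgroup.center P := fun h => hx (Subgroup.pow_mem _ h p)
  obtain ⟨z, hzZ, hz⟩ := exists_second_center p hP ⟨x, hxZ⟩
  obtain ⟨hzp, hgp⟩ := second_center_pow p hP hidx hzZ hz
  -- the homomorphism
  let f : P →* Subgroup.center P :=
    MonoidHom.mk' (fun g => ⟨z * g * z⁻¹ * g⁻¹, hz g⟩) (fun g h => Subtype.ext (comm_mul hz g h))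
  have hfapp : ∀ g, ((f g : Subgroup.center P) : P) = z * g * z⁻¹ * g⁻¹ := fun g => rfl
  have hker : C z = f.ker := by
    ext g
    rw [mem_C, MonoidHom.mem_ker]
    constructor
    · intro h
      apply Subtype.ext
      rw [hfapp, h]
      simp
    · intro h
      have h1 : z * g * z⁻¹ * g⁻¹ = 1 := by
        rw [← hfapp, h]
        rfl
      have h2 : z * g * z⁻¹ = g := mul_inv_eq_one.mp h1
      exact mul_inv_eq_iff_eq_mul.mp h2
  have hDn : (C z).Normal := by
    rw [hker]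
    exact f.normal_ker
  have hcomm : ∀ g h : P, g * h * g⁻¹ * h⁻¹ ∈ C z := by
    intro g h
    rw [hker, MonoidHom.mem_ker]
    simp only [map_mul, map_inv]
    have hc : f g * f h = f h * f g :=
      Subtype.ext (Subgroup.mem_center_iff.mp (f h).2 _)
    rw [hc]
    group
  -- elements outside `D`
  have hnotD : ∀ g : P, g ∉ C z → g ^ p ∈ Subgroup.center P := by
    intro g hg
    by_contra h
    have := C_eq_of_pow p hidx hzZ hzp hgp h
    apply hg
    rw [← this]
    exact mem_C.mpr rfl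
  have hCx : C x = C z := C_eq_of_pow p hidx hzZ hzp hgp hx
  -- the quotient
  have hnontriv : ∃ y₂, y₂ ∉ C z := by
    by_contra h
    push Not at h
    apply hzZ
    rw [Subgroup.mem_center_iff]
    intro g
    exact (mem_C.mp (h g)).symm
  obtain ⟨y₂, hy₂⟩ := hnontriv
  have hex : ∃ y₁ : P, ∀ j : ℕ, y₁ * y₂ ^ j ∉ C z := by
    let t : P ⧸ C z := (y₂ : P ⧸ C z)
    have ht1 : t ≠ 1 := fun h => hy₂ ((QuotientGroup.eq_one_iff y₂).mp h)
    have htp : t ^ p = 1 := by
      show ((y₂ ^ p : P) : P ⧸ C z) = 1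
      exact (QuotientGroup.eq_one_iff _).mpr (hgp y₂)
    have hord : orderOf t = p := orderOf_eq_prime htp ht1
    have hcard : Nat.card (P ⧸ C z) = p ^ a := hidx z hzZ
    have hle : p < p ^ a := by
      calc p = p ^ 1 := (pow_one p).symm
        _ < p ^ a := Nat.pow_lt_pow_right hp.out.one_lt (by omega)
    have hq : ∃ q : P ⧸ C z, q ∉ Subgroup.zpowers t := by
      by_contra h
      push Not at h
      have h1 : Subgroup.zpowers t = ⊤ := by
        ext q
        simp [h q]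
      have h2 := Nat.card_zpowers t
      rw [h1, Subgroup.card_top, hord, hcard] at h2
      omega
    obtain ⟨q, hq⟩ := hq
    obtain ⟨y₁, rfl⟩ := QuotientGroup.mk_surjective q
    refine ⟨y₁, fun j hj => hq ?_⟩
    have h1 : ((y₁ * y₂ ^ j : P) : P ⧸ C z) = 1 := (QuotientGroup.eq_one_iff _).mpr hj
    have h2 : (y₁ : P ⧸ C z) * t ^ j = 1 := h1
    have h3 : (y₁ : P ⧸ C z) = (t ^ j)⁻¹ := eq_inv_of_mul_eq_one_left h2
    rw [h3]
    exact Subgroup.inv_mem _ (Subgroup.pow_mem _ (Subgroup.mem_zpowers t) j)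
  obtain ⟨y₁, hy₁⟩ := hex
  let A : Subgroup P := C z ⊓ Subgroup.centralizer (C z : Set P)
  have hAn : A.Normal := by
    haveI : (Subgroup.centralizer (C z : Set P)).Normal := inferInstance
    exact Subgroup.normal_inf_normal _ _
  have hxA : x ∈ A := by
    refine ⟨hCx ▸ mem_C.mpr rfl, Subgroup.mem_centralizer_iff.mpr ?_⟩
    intro d hd
    rw [SetLike.mem_coe, ← hCx, mem_C] at hd
    exact hd.symm
  apply hx
  refine main_step p A (C z) ?_ ?_ inf_le_left hcomm hgp hnotD y₁ y₂ hy₂ hy₁ x hxA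
  · intro u hu v hv
    exact (Subgroup.mem_centralizer_iff.mp hu.2 v hv.1).symm
  · intro u hu d hd
    exact Subgroup.mem_centralizer_iff.mp hu.2 d hd

/-- Let P be a finite p-group whose conjugacy class sizes are exactly 1 and pᵃ for some a ≥ 1. Then every element of P has its p-th power in the center of P (P/Z(P) has exponent p). -/
theorem result {P : Type*} [Group P] [Finite P] (p : ℕ) [Fact p.Prime]
    (hP : IsPGroup p P) (a : ℕ) (ha : 1 ≤ a)
    (hcs : {k : ℕ | ∃ x : P, (Subgroup.centralizer ({x} : Set P)).index = k} = {1, p ^ a}) (x : P) :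
    x ^ p ∈ Subgroup.center P := by
  classical
  have hidx : ∀ y : P, y ∉ Subgroup.center P → (C y).index = p ^ a := by
    intro y hy
    have h1 : (C y).index ∈ {k : ℕ | ∃ x : P, (Subgroup.centralizer ({x} : Set P)).index = k} :=
      ⟨y, rfl⟩
    rw [hcs] at h1
    rcases h1 with h1 | h1
    · exact absurd (mem_center_of_C h1) hy
    · exact h1
  rcases (show a = 1 ∨ 2 ≤ a by omega) with rfl | h2
  · by_cases hxZ : x ∈ Subgroup.center P
    · exact Subgroup.pow_mem _ hxZ p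
    · have hidx' : ∀ y : P, y ∉ Subgroup.center P → (C y).index = p := by
        intro y hy
        rw [hidx y hy, pow_one]
      exact (second_center_pow p hP hidx hxZ
        (fun g => second_center_of_index_p p hP hidx' x g)).1
  · exact main_ge_two p hP a h2 hidx x

end Cfsg.Agent.S4365
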