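import Cfsg.Statements.S4370
import Cfsg.Agent.Lib.OddLocal.UniqueP2
import Cfsg.Agent.Lib.OddLocal.Fitting
import Cfsg.Agent.Lib.TwoGroups.Klein
import Mathlib

set_option autoImplicit false
open Cfsg

namespace Cfsg.Agent.S4370


open Subgroup Cfsg.Agent.Lib.OddLocal

universe u

theorem eq_of_card_of_cyclic {L : Type*} [Group L] [Finite L] [IsCyclic L] {A B : Subgroup L} {n : ℕ}
    (hn : 0 < n) (hA : Nat.card A = n) (hB : Nat.card B = n) : A = B := by
  classical
  haveI : Fintype L := Fintype.ofFinite L
  have hS := IsCyclic.card_pow_eq_one_le (α := L) hn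
  have key : ∀ X : Subgroup L, Nat.card X = n → ∀ x : L, x ∈ X ↔ x ^ n = 1 := by
    intro X hX x
    have hsub : Finset.univ.filter (· ∈ X) ⊆ Finset.univ.filter (fun a : L => a ^ n = 1) := by
      intro y hy
      simp only [Finset.mem_filter, Finset.mem_univ, true_and] at hy ⊢
      rw [← hX]
      exact orderOf_dvd_iff_pow_eq_one.mp (Subgroup.orderOf_dvd_natCard X hy)
    have hcard : (Finset.univ.filter (· ∈ X)).card = n := by
      rw [← hX, Nat.card_eq_fintype_card, Fintype.card_subtype]
    have heq := Finset.eq_of_subset_of_card_le hsub (by rw [hcard]; exact hS)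
    have h1 := Finset.ext_iff.mp heq x
    simpa using h1
  ext x
  rw [key A hA, key B hB]

theorem uniqueP_of_cyclic_abelian {P : Type*} [Group P] [Finite P] {p : ℕ} [hpf : Fact p.Prime]
    (hP : IsPGroup p P) (hA : ∀ A : Subgroup P, IsMulCommutative A → IsCyclic A) :
    UniqueP p P := by
  intro A B hAc hBc
  have hp : p.Prime := hpf.out
  haveI : Nontrivial P := by
    by_contra hn
    rw [not_nontrivial_iff_subsingleton] at hn
    have h1 : Nat.card A = 1 := Nat.card_eq_one_iff_unique.mpr ⟨inferInstance, ⟨1⟩⟩
    rw [hAc] at h1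
    exact hp.ne_one h1
  haveI := hP.center_nontrivial
  have h2 : p ∣ Nat.card (center P) := by
    rcases (hP.to_subgroup (center P)).card_eq_or_dvd with h3 | h3
    · exfalso
      have h4 := Finite.one_lt_card (α := center P)
      omega
    · exact h3
  obtain ⟨z, hz⟩ := exists_prime_orderOf_dvd_card' p h2
  have hz' : orderOf (z : P) = p := by rw [Subgroup.orderOf_coe]; exact hz
  have key : ∀ X : Subgroup P, Nat.card X = p → X = zpowers (z : P) := by
    intro X hX
    haveI : IsCyclic X := isCyclic_of_prime_card hX
    have hXc : ∀ a ∈ X, ∀ b ∈ X, a * b = b * a := by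
      intro a ha b hb
      have h1 := (IsCyclic.commutative (α := X)).is_comm.comm ⟨a, ha⟩ ⟨b, hb⟩
      exact congrArg Subtype.val h1
    have hS : ∀ a ∈ (X : Set P) ∪ {(z : P)}, ∀ b ∈ (X : Set P) ∪ {(z : P)}, a * b = b * a := by
      have hzc : ∀ a : P, (z : P) * a = a * z := fun a =>
        (Subgroup.mem_center_iff.mp z.2 a).symm
      rintro a (ha | ha) b (hb | hb)
      · exact hXc a ha b hb
      · rw [Set.mem_singleton_iff.mp hb]; exact (hzc a).symm
      · rw [Set.mem_singleton_iff.mp ha]; exact hzc b
      · rw [Set.mem_singleton_iff.mp ha, Set.mem_singleton_iff.mp hb]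
    set L := closure ((X : Set P) ∪ {(z : P)}) with hL
    have hcomm : IsMulCommutative L := Subgroup.isMulCommutative_closure hS
    haveI hLc : IsCyclic L := hA L hcomm
    have hXL : X ≤ L := fun x hx => subset_closure (Or.inl hx)
    have hzL : zpowers (z : P) ≤ L :=
      Subgroup.zpowers_le.mpr (subset_closure (Or.inr rfl))
    have h3 : X.subgroupOf L = (zpowers (z : P)).subgroupOf L :=
      eq_of_card_of_cyclic hp.pos
        ((Nat.card_congr (Subgroup.subgroupOfEquivOfLe hXL).toEquiv).trans hX)
        ((Nat.card_congr (Subgroup.subgroupOfEquivOfLe hzL).toEquiv).trans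
          (by rw [Nat.card_zpowers, hz']))
    rw [Subgroup.subgroupOf_inj, inf_of_le_left hXL, inf_of_le_left hzL] at h3
    exact h3
  rw [key A hAc, key B hBc]

/-- Centralizers of noncentral elements of the generalized quaternion groups are cyclic. -/
theorem quat_centralizer_cyclic {n : ℕ} [hn : NeZero n] (u : QuaternionGroup n)
    (hu : ¬ ∀ v : QuaternionGroup n, v * u = u * v) :
    IsCyclic (Subgroup.centralizer ({u} : Set (QuaternionGroup n))) := by
  haveI hn2 : NeZero (2 * n) := ⟨by have := hn.out; omega⟩
  cases u with
  | a i =>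
    -- the rotations
    have hi : i + i ≠ 0 := by
      intro h0
      apply hu
      intro v
      cases v with
      | a j => simp [add_comm]
      | xa j =>
        simp only [QuaternionGroup.xa_mul_a, QuaternionGroup.a_mul_xa, QuaternionGroup.xa.injEq]
        have h1 : -i = i := by
          rw [neg_eq_iff_add_eq_zero]; exact h0
        rw [sub_eq_add_neg, h1]
    have hmem : (QuaternionGroup.a 1 : QuaternionGroup n) ∈
        Subgroup.centralizer ({QuaternionGroup.a i} : Set (QuaternionGroup n)) := by
      rw [Subgroup.mem_centralizer_singleton_iff]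
      simp [add_comm]
    refine ⟨⟨⟨QuaternionGroup.a 1, hmem⟩, ?_⟩⟩
    rintro ⟨y, hy⟩
    rw [Subgroup.mem_centralizer_singleton_iff] at hy
    cases y with
    | a j =>
      refine ⟨(j.val : ℤ), Subtype.ext ?_⟩
      simp only [zpow_natCast, SubmonoidClass.coe_pow]
      rw [QuaternionGroup.a_one_pow, ZMod.natCast_zmod_val]
    | xa j =>
      exfalso
      simp only [QuaternionGroup.xa_mul_a, QuaternionGroup.a_mul_xa, QuaternionGroup.xa.injEq] at hy
      apply hi
      have h1 : j + i = j - i := hy
      have h2 : i + i = (j + i) - (j - i) := by ring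
      rw [h2, h1, sub_self]
  | xa i =>
    have hmem : (QuaternionGroup.xa i : QuaternionGroup n) ∈
        Subgroup.centralizer ({QuaternionGroup.xa i} : Set (QuaternionGroup n)) := by
      rw [Subgroup.mem_centralizer_singleton_iff]
    refine ⟨⟨⟨QuaternionGroup.xa i, hmem⟩, ?_⟩⟩
    rintro ⟨y, hy⟩
    rw [Subgroup.mem_centralizer_singleton_iff] at hy
    cases y with
    | a j =>
      simp only [QuaternionGroup.xa_mul_a, QuaternionGroup.a_mul_xa, QuaternionGroup.xa.injEq] at hy
      have h1 : j + j = 0 := by
        have h2 : i - j = i + j := hy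
        have h3 : j + j = (i + j) - (i - j) := by ring
        rw [h3, h2, sub_self]
      rcases Cfsg.Agent.Lib.TwoGroups.zmod_double_eq_zero h1 with rfl | rfl
      · exact ⟨0, Subtype.ext (by simp only [zpow_zero]; rfl)⟩
      · refine ⟨2, Subtype.ext ?_⟩
        have : (QuaternionGroup.xa i : QuaternionGroup n) ^ (2 : ℤ) = QuaternionGroup.xa i ^ 2 := rfl
        simp only [SubgroupClass.coe_zpow]
        rw [this, QuaternionGroup.xa_sq]
    | xa j =>
      simp only [QuaternionGroup.xa_mul_xa, QuaternionGroup.a.injEq] at hy
      have h1 : (j - i) + (j - i) = 0 := by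
        have h3 : (j - i) + (j - i) = ((n : ZMod (2 * n)) + j - i) - ((n : ZMod (2 * n)) + i - j) := by ring
        rw [h3, ← hy, sub_self]
      rcases Cfsg.Agent.Lib.TwoGroups.zmod_double_eq_zero h1 with h2 | h2
      · have h3 : j = i := sub_eq_zero.mp h2
        subst h3
        exact ⟨1, Subtype.ext (by simp)⟩
      · have h3 : j = i + (n : ZMod (2 * n)) := by
          rw [← h2]; ring
        refine ⟨3, Subtype.ext ?_⟩
        have h4 : (QuaternionGroup.xa i : QuaternionGroup n) ^ (3 : ℤ) =
            QuaternionGroup.xa i ^ 2 * QuaternionGroup.xa i := by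
          have h8 : (3 : ℤ) = ((2 + 1 : ℕ) : ℤ) := rfl
          rw [h8, zpow_natCast, pow_succ]
        simp only [SubgroupClass.coe_zpow]
        rw [h4, QuaternionGroup.xa_sq, QuaternionGroup.a_mul_xa, h3]
        congr 1
        have h5 : (2 * n : ℕ) = 0 ∨ True := Or.inr trivial
        have h6 : ((n : ZMod (2 * n)) + (n : ZMod (2 * n))) = 0 := by
          have : ((2 * n : ℕ) : ZMod (2 * n)) = 0 := ZMod.natCast_self _
          rw [← this]; push_cast; ring
        have h7 : -(n : ZMod (2 * n)) = (n : ZMod (2 * n)) := by
          rw [neg_eq_iff_add_eq_zero]; exact h6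
        rw [sub_eq_add_neg, h7]

/-- Let G be a finite non-abelian nilpotent group. Then the centralizer of every non-central element of G is cyclic if and only if G is isomorphic to the direct product of a generalized quaternion group and a cyclic group of odd order. -/
theorem result {G : Type*} [Group G] [Finite G] (hG : Group.IsNilpotent G)
    (hna : ¬ IsMulCommutative G) :
    (∀ x : G, x ∉ Subgroup.center G → IsCyclic (Subgroup.centralizer ({x} : Set G))) ↔
      ∃ (k m : ℕ), 1 ≤ k ∧ Odd m ∧ Nonempty (G ≃* QuaternionGroup (2 ^ k) × Multiplicative (ZMod m)) := by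
  classical
  constructor
  · intro hcyc
    -- abelian subgroups are cyclic
    obtain ⟨x₀, hx₀⟩ : ∃ x₀ : G, x₀ ∉ Subgroup.center G := by
      by_contra hcon
      push_neg at hcon
      exact hna ⟨⟨fun a b => (Subgroup.mem_center_iff.mp (hcon a) b).symm⟩⟩
    have hA : ∀ A : Subgroup G, IsMulCommutative A → IsCyclic A := by
      intro A hAc
      by_cases hZ : A ≤ Subgroup.center G
      · have h1 : A ≤ Subgroup.centralizer ({x₀} : Set G) := by
          intro a ha
          rw [Subgroup.mem_centralizer_singleton_iff]
          exact (Subgroup.mem_center_iff.mp (hZ ha) x₀).symm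
        haveI := hcyc x₀ hx₀
        exact isCyclic_of_injective (Subgroup.inclusion h1) (Subgroup.inclusion_injective h1)
      · obtain ⟨a, ha, haZ⟩ := SetLike.not_le_iff_exists.mp hZ
        have h1 : A ≤ Subgroup.centralizer ({a} : Set G) := by
          intro b hb
          rw [Subgroup.mem_centralizer_singleton_iff]
          have h2 := hAc.is_comm.comm ⟨b, hb⟩ ⟨a, ha⟩
          exact congrArg Subtype.val h2
        haveI := hcyc a haZ
        exact isCyclic_of_injective (Subgroup.inclusion h1) (Subgroup.inclusion_injective h1)
    have hSyl : ∀ (p : ℕ) [Fact p.Prime] (P : Sylow p G), UniqueP p (P : Subgroup G) := by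
      intro p _ P
      refine uniqueP_of_cyclic_abelian P.2 ?_
      intro A hAc
      have hmc : IsMulCommutative (A.map (P : Subgroup G).subtype) := by
        refine ⟨⟨?_⟩⟩
        rintro ⟨_, a, ha, rfl⟩ ⟨_, b, hb, rfl⟩
        apply Subtype.ext
        have h2 := hAc.is_comm.comm ⟨a, ha⟩ ⟨b, hb⟩
        exact congrArg (fun t : A => ((t : (P : Subgroup G)) : G)) h2
      haveI := hA _ hmc
      exact isCyclic_of_injective
        (Subgroup.equivMapOfInjective A _ (P : Subgroup G).subtype_injective).toMonoidHom
        (Subgroup.equivMapOfInjective A _ (P : Subgroup G).subtype_injective).injective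
    have hnorm : ∀ (p : ℕ) [Fact p.Prime] (P : Sylow p G), (P : Subgroup G).Normal := by
      intro p _ P
      have h1 := (Group.isNilpotent_of_finite_tfae (G := G)).out 0 3
      exact h1.mp hG p inferInstance P
    haveI hf2 : Fact (Nat.Prime 2) := ⟨Nat.prime_two⟩
    obtain ⟨T⟩ : Nonempty (Sylow 2 G) := Sylow.nonempty
    -- odd Sylow subgroups are cyclic; hence `T` is not commutative
    have hTnc : ¬ IsMulCommutative (T : Subgroup G) := by
      intro hTc
      apply hna
      have hall : ∀ (p : ℕ) [Fact p.Prime] (P : Sylow p G), IsMulCommutative (P : Subgroup G) := by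
        intro p _ P
        by_cases hp2 : p = 2
        · subst hp2
          letI := Sylow.unique_of_normal T (hnorm 2 T)
          rw [Subsingleton.elim P T]
          exact hTc
        · haveI := isCyclic_of_uniqueP_odd hp2 _ (P : Subgroup G) rfl P.2 (hSyl p P)
          infer_instance
      let e := Sylow.directProductOfNormal (G := G) (fun {p} _ {P} => hnorm p P)
      refine ⟨⟨fun a b => ?_⟩⟩
      obtain ⟨a', rfl⟩ := e.surjective a
      obtain ⟨b', rfl⟩ := e.surjective b
      rw [← map_mul, ← map_mul]
      congr 1
      funext p P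
      haveI : Fact (p : ℕ).Prime := ⟨Nat.prime_of_mem_primeFactors p.2⟩
      exact (hall p P).is_comm.comm _ _
    -- the odd part
    haveI := hnorm 2 T
    obtain ⟨K, hK⟩ := Subgroup.exists_right_complement'_of_coprime (N := (T : Subgroup G)) T.card_coprime_index
    have hcop : (Nat.card (T : Subgroup G)).Coprime (Nat.card K) := by
      rw [← hK.symm.index_eq_card]
      exact T.card_coprime_index
    have hTK : ∀ t ∈ (T : Subgroup G), ∀ k ∈ K, t * k = k * t := by
      intro t ht k hk
      apply commute_of_coprime_of_nilpotent
      exact Nat.Coprime.coprime_dvd_left (Subgroup.orderOf_dvd_natCard _ ht)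
        (Nat.Coprime.coprime_dvd_right (Subgroup.orderOf_dvd_natCard _ hk) hcop)
    -- a noncentral element of `T`
    obtain ⟨a, b, hab⟩ : ∃ a b : (T : Subgroup G), a * b ≠ b * a := by
      by_contra hcon
      push_neg at hcon
      exact hTnc ⟨⟨hcon⟩⟩
    have hacen : (a : G) ∉ Subgroup.center G := by
      intro hc
      apply hab
      apply Subtype.ext
      exact (Subgroup.mem_center_iff.mp hc (b : G)).symm
    have hKc : IsCyclic K := by
      have h1 : K ≤ Subgroup.centralizer ({(a : G)} : Set G) := by
        intro k hk
        rw [Subgroup.mem_centralizer_singleton_iff]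
        exact (hTK a a.2 k hk).symm
      haveI := hcyc a hacen
      exact isCyclic_of_injective (Subgroup.inclusion h1) (Subgroup.inclusion_injective h1)
    -- the structure of `T`
    rcases cyclic_or_quaternion T.2 (hSyl 2 T) with hTc | ⟨n, ⟨en⟩⟩
    · exact absurd IsCyclic.commutative hTnc
    have hn1 : 1 ≤ n := by
      rcases Nat.eq_zero_or_pos n with rfl | h
      · exfalso
        have h1 : IsCyclic (QuaternionGroup (2 ^ 0)) := by
          simpa using QuaternionGroup.quaternionGroup_one_isCyclic
        have h2 : IsCyclic (T : Subgroup G) := isCyclic_of_injective en.toMonoidHom en.injective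
        exact hTnc IsCyclic.commutative
      · exact h
    have hodd : Odd (Nat.card K) := by
      by_contra hnodd
      rw [Nat.not_odd_iff_even] at hnodd
      have h1 : 2 ∣ Nat.card K := hnodd.two_dvd
      have h2 : 2 ∣ Nat.card (T : Subgroup G) := by
        rcases T.2.card_eq_or_dvd with h3 | h3
        · exfalso
          haveI : Subsingleton (T : Subgroup G) := (Nat.card_eq_one_iff_unique.mp h3).1
          exact hab (Subsingleton.elim _ _)
        · exact h3
      have h3 := Nat.dvd_gcd h2 h1
      rw [hcop.gcd_eq_one] at h3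
      omega
    refine ⟨n, Nat.card K, hn1, hodd, ?_⟩
    let φ : ↥(T : Subgroup G) × ↥K →* G :=
      MonoidHom.noncommCoprod (T : Subgroup G).subtype K.subtype (fun x y => hTK x x.2 y y.2)
    have hφ : Function.Bijective φ := hK
    exact ⟨(MulEquiv.ofBijective φ hφ).symm.trans
      (en.prodCongr (zmodCyclicMulEquiv hKc).symm)⟩
  · rintro ⟨k, m, hk, hm, ⟨e⟩⟩ x hx
    have hm0 : m ≠ 0 := by
      rintro rfl
      simp at hm
    haveI : NeZero m := ⟨hm0⟩
    set u := (e x).1 with hu
    have hunc : ¬ ∀ v : QuaternionGroup (2 ^ k), v * u = u * v := by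
      intro hcon
      apply hx
      rw [Subgroup.mem_center_iff]
      intro g
      apply e.injective
      rw [map_mul, map_mul]
      apply Prod.ext
      · exact hcon _
      · exact mul_comm _ _
    haveI hne : NeZero (2 ^ k) := ⟨by positivity⟩
    haveI h1 : IsCyclic (Subgroup.centralizer ({u} : Set (QuaternionGroup (2 ^ k)))) :=
      quat_centralizer_cyclic u hunc
    have hcop : (Nat.card (Subgroup.centralizer ({u} : Set (QuaternionGroup (2 ^ k))))).Coprime
        (Nat.card (Multiplicative (ZMod m))) := by
      have h2 : Nat.card (Multiplicative (ZMod m)) = m := by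
        rw [Nat.card_congr Multiplicative.toAdd, Nat.card_zmod]
      rw [h2]
      have h3 : Nat.card (Subgroup.centralizer ({u} : Set (QuaternionGroup (2 ^ k)))) ∣ 2 ^ (k + 2) := by
        have h4 := Subgroup.card_subgroup_dvd_card (Subgroup.centralizer ({u} : Set (QuaternionGroup (2 ^ k))))
        have h5 : Nat.card (QuaternionGroup (2 ^ k)) = 2 ^ (k + 2) := by
          rw [Nat.card_eq_fintype_card, QuaternionGroup.card]
          ring
        rwa [h5] at h4
      refine Nat.Coprime.coprime_dvd_left h3 ?_
      apply Nat.Coprime.pow_left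
      exact Nat.coprime_two_left.mpr hm
    haveI h6 : IsCyclic (Subgroup.centralizer ({u} : Set (QuaternionGroup (2 ^ k))) × Multiplicative (ZMod m)) :=
      Group.isCyclic_prod_iff.mpr ⟨h1, inferInstance, hcop⟩
    let f : Subgroup.centralizer ({x} : Set G) →*
        Subgroup.centralizer ({u} : Set (QuaternionGroup (2 ^ k))) × Multiplicative (ZMod m) :=
      { toFun := fun y => (⟨(e y).1, by
            have h7 := y.2
            rw [Subgroup.mem_centralizer_singleton_iff] at h7 ⊢
            have h8 := congrArg (fun z => (e z).1) h7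
            simpa using h8⟩, (e y).2)
        map_one' := by
          apply Prod.ext
          · apply Subtype.ext
            simp
          · simp
        map_mul' := by
          intro y z
          apply Prod.ext
          · apply Subtype.ext
            simp
          · simp }
    have hf : Function.Injective f := by
      intro y z hyz
      apply Subtype.ext
      apply e.injective
      apply Prod.ext
      · exact congrArg (fun t => ((t.1 : Subgroup.centralizer ({u} : Set (QuaternionGroup (2 ^ k)))) : QuaternionGroup (2 ^ k))) hyz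
      · exact congrArg (fun t => t.2) hyz
    exact isCyclic_of_injective f hf

end Cfsg.Agent.S4370
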