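import Cfsg.Statements.S4376
import Cfsg.Agent.Lib.Struct.ThompMain

set_option autoImplicit false
open Cfsg

namespace Cfsg.Agent.S4376

open Equiv
open Cfsg.Agent.Lib.Struct.ThompPC Cfsg.Agent.Lib.Struct.ThompCode
open Cfsg.Agent.Lib.Struct.ThompData Cfsg.Agent.Lib.Struct.ThompCount
open Cfsg.Agent.Lib.Struct.ThompMain

theorem okT_true : okT = true := by decide +kernel

theorem ok_all : groupData.all okD = true := by decide +kernel

def prodP (l : List Dat) (j : ℕ) : ℕ := (l.map fun D => horDig D.2.2.1 j ^ D.2.2.2.1).prod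

def prodN (l : List Dat) (j : ℕ) : ℕ := (l.map fun D => horDig D.2.2.1 j ^ D.2.2.2.2).prod

theorem num_ok : ∀ j, j < 13 → prodP groupData j = horDig valT j * prodN groupData j := by
  decide +kernel

theorem num_exp : prodP groupData 12 = prodP groupData 0 ∧
    horDig valT 12 * prodN groupData 12 = horDig valT 0 * prodN groupData 0 := by
  decide +kernel

theorem prod_fin_get {α : Type} (l : List α) (f : α → ℕ) :
    ∏ i : Fin l.length, f (l.get i) = (l.map f).prod := by
  have h1 := List.prod_ofFn (f := fun i : Fin l.length => f (l.get i))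
  rw [← h1]
  congr 1
  have h2 : List.map f (List.ofFn l.get) = List.ofFn (f ∘ l.get) := List.map_ofFn ..
  rw [List.ofFn_get] at h2
  rw [h2]
  rfl

/-- The groups of the list. -/
noncomputable abbrev Sg (l : List Dat) (i : Fin l.length) :
    Subgroup (Perm (Fin (l.get i).1)) :=
  pcSub (gensP (l.get i).1 (l.get i).2.1)

theorem Sg_spec (l : List Dat) (hl : l.all okD = true) (i : Fin l.length) :
    Group.IsSolvable (Sg l i) ∧
      ∀ j, j < ds.length → F (Sg l i) (ds.getD j 0) = horDig (l.get i).2.2.1 j :=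
  data_spec _ (List.all_eq_true.1 hl _ (List.get_mem _ _))

abbrev GG (l : List Dat) : Type := (i : Fin l.length) → (Fin (l.get i).2.2.2.1 → Sg l i)

abbrev HH (l : List Dat) : Type :=
  groupT × ((i : Fin l.length) → (Fin (l.get i).2.2.2.2 → Sg l i))

theorem F_GG (l : List Dat) (hl : l.all okD = true) (j : ℕ) (hj : j < ds.length) :
    F (GG l) (ds.getD j 0) = prodP l j := by
  rw [F_pi]
  simp only [F_fun]
  have h1 : ∀ i : Fin l.length, F (Sg l i) (ds.getD j 0) ^ (l.get i).2.2.2.1 =
      (fun D : Dat => horDig D.2.2.1 j ^ D.2.2.2.1) (l.get i) := by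
    intro i
    rw [(Sg_spec l hl i).2 j hj]
  simp only [h1]
  exact prod_fin_get l (fun D : Dat => horDig D.2.2.1 j ^ D.2.2.2.1)

theorem F_HH (l : List Dat) (hl : l.all okD = true) (j : ℕ) (hj : j < ds.length) :
    F (HH l) (ds.getD j 0) = horDig valT j * prodN l j := by
  rw [F_prod, (T_spec okT_true).2 j hj, F_pi]
  simp only [F_fun]
  congr 1
  have h1 : ∀ i : Fin l.length, F (Sg l i) (ds.getD j 0) ^ (l.get i).2.2.2.2 =
      (fun D : Dat => horDig D.2.2.1 j ^ D.2.2.2.2) (l.get i) := by
    intro i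
    rw [(Sg_spec l hl i).2 j hj]
  simp only [h1]
  exact prod_fin_get l (fun D : Dat => horDig D.2.2.1 j ^ D.2.2.2.2)

theorem hds : ∀ n, 0 < n → Nat.gcd n 84 ∈ ds := by
  intro n hn
  have h1 : Nat.gcd n 84 ∣ 84 := Nat.gcd_dvd_right _ _
  have h2 : Nat.gcd n 84 ≤ 84 := Nat.le_of_dvd (by norm_num) h1
  have h3 : 0 < Nat.gcd n 84 := Nat.gcd_pos_of_pos_right _ (by norm_num)
  have h4 : ∀ m, m ≤ 84 → m ∣ 84 → 0 < m → m ∈ ds := by decide
  exact h4 _ h2 h1 h3

theorem len_ds : ds.length = 13 := rfl

theorem same_counts (l : List Dat) (hl : l.all okD = true)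
    (h1 : ∀ j, j < 13 → prodP l j = horDig valT j * prodN l j)
    (h2 : prodP l 12 = prodP l 0 ∧ horDig valT 12 * prodN l 12 = horDig valT 0 * prodN l 0)
    (n : ℕ) :
    Nat.card {g : GG l // orderOf g = n} = Nat.card {g : HH l // orderOf g = n} := by
  refine final_eq ds hds ?_ ?_ ?_ n
  · intro d hd
    obtain ⟨j, hj, rfl⟩ := List.getElem_of_mem hd
    have h3 := F_GG l hl j hj
    have h4 := F_HH l hl j hj
    rw [List.getD_eq_getElem _ _ hj] at h3 h4
    rw [h3, h4]
    exact h1 j (by simpa [len_ds] using hj)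
  · have h3 := F_GG l hl 12 (by simp [len_ds])
    have h4 := F_GG l hl 0 (by simp [len_ds])
    have h5 : ds.getD 12 0 = 84 := rfl
    have h6 : ds.getD 0 0 = 0 := rfl
    rw [h5] at h3
    rw [h6] at h4
    rw [h3, h4]
    exact h2.1
  · have h3 := F_HH l hl 12 (by simp [len_ds])
    have h4 := F_HH l hl 0 (by simp [len_ds])
    have h5 : ds.getD 12 0 = 84 := rfl
    have h6 : ds.getD 0 0 = 0 := rfl
    rw [h5] at h3
    rw [h6] at h4
    rw [h3, h4]
    exact h2.2

theorem GG_solvable (l : List Dat) (hl : l.all okD = true) : Group.IsSolvable (GG l) := by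
  haveI : ∀ i : Fin l.length, Group.IsSolvable (Sg l i) := fun i => (Sg_spec l hl i).1
  haveI : ∀ i : Fin l.length, Group.IsSolvable (Fin (l.get i).2.2.2.1 → Sg l i) :=
    fun i => solvable_pi _
  exact solvable_pi _

theorem HH_not_solvable (l : List Dat) : ¬ Group.IsSolvable (HH l) := by
  intro hH
  apply (T_spec okT_true).1
  have hs : Function.Surjective (MonoidHom.fst groupT
      ((i : Fin l.length) → (Fin (l.get i).2.2.2.2 → Sg l i))) :=
    fun x => ⟨(x, 1), rfl⟩
  exact Group.isSolvable_of_surjective hs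

/-- There are finite groups G and H having the same number of elements of each order (the same order type) with G solvable and H not solvable. -/
theorem result :
    ∃ (G : Type) (_ : Group G) (_ : Finite G) (H : Type) (_ : Group H) (_ : Finite H),
      Group.IsSolvable G ∧ ¬ Group.IsSolvable H ∧ ∀ n : ℕ, Nat.card {g : G // orderOf g = n} = Nat.card {h : H // orderOf h = n} := by
  exact ⟨GG groupData, inferInstance, inferInstance, HH groupData, inferInstance, inferInstance,
    GG_solvable _ ok_all, HH_not_solvable _, same_counts _ ok_all num_ok num_exp⟩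

end Cfsg.Agent.S4376
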