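import Cfsg.Statements.S4377
-- import your own Cfsg.Agent.* helpers here

set_option autoImplicit false
open Cfsg

namespace Cfsg.Agent.S4377

theorem hsum_aux {K : Type*} [Group K] [Finite K] (n : ℕ) (hn : n ≠ 0) :
    Nat.card {g : K // g ^ n = 1} = ∑ d ∈ n.divisors, Nat.card {g : K // orderOf g = d} := by
  classical
  haveI := Fintype.ofFinite K
  simp only [Nat.card_eq_fintype_card, Fintype.card_subtype]
  rw [← Finset.card_biUnion]
  · congr 1
    ext g
    simp only [Finset.mem_filter, Finset.mem_univ, true_and, Finset.mem_biUnion, Nat.mem_divisors]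
    constructor
    · intro h
      exact ⟨orderOf g, ⟨orderOf_dvd_of_pow_eq_one h, hn⟩, rfl⟩
    · rintro ⟨d, ⟨hd, _⟩, rfl⟩
      exact orderOf_dvd_iff_pow_eq_one.mp hd
  · intro a _ b _ hab
    simp only [Function.onFun, Finset.disjoint_left, Finset.mem_filter, Finset.mem_univ, true_and]
    intro g h1 h2
    exact hab (h1.symm.trans h2)

theorem hcard0_aux {K : Type*} [Group K] [Finite K] (n : ℕ) (hn : n = 0) :
    Nat.card {g : K // orderOf g = n} = 0 := by
  subst hn
  have : IsEmpty {g : K // orderOf g = 0} := ⟨fun g => (orderOf_pos g.1).ne' g.2⟩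
  exact Nat.card_of_isEmpty

/-- Two finite groups have the same number of elements of each order if and only if, for every n, they have the same number of elements g with gⁿ = 1. -/
theorem result {G H : Type*} [Group G] [Finite G] [Group H] [Finite H] :
    (∀ n : ℕ, Nat.card {g : G // orderOf g = n} = Nat.card {h : H // orderOf h = n}) ↔
      ∀ n : ℕ, Nat.card {g : G // g ^ n = 1} = Nat.card {h : H // h ^ n = 1} := by
  classical
  haveI := Fintype.ofFinite G
  haveI := Fintype.ofFinite H
  constructor
  · intro h n
    by_cases hn : n = 0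
    · subst hn
      have e1 : Nat.card {g : G // g ^ 0 = 1} = Nat.card G :=
        Nat.card_congr (Equiv.subtypeUnivEquiv (fun g => pow_zero g))
      have e2 : Nat.card {g : H // g ^ 0 = 1} = Nat.card H :=
        Nat.card_congr (Equiv.subtypeUnivEquiv (fun g => pow_zero g))
      rw [e1, e2]
      -- exponent trick
      have hG : Nat.card G = Nat.card {g : G // g ^ (Nat.card G * Nat.card H) = 1} := by
        have : ∀ g : G, g ^ (Nat.card G * Nat.card H) = 1 := by
          intro g; rw [pow_mul, pow_card_eq_one', one_pow]
        rw [Nat.card_congr (Equiv.subtypeUnivEquiv this)]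
      have hH : Nat.card H = Nat.card {g : H // g ^ (Nat.card G * Nat.card H) = 1} := by
        have : ∀ g : H, g ^ (Nat.card G * Nat.card H) = 1 := by
          intro g; rw [mul_comm, pow_mul, pow_card_eq_one', one_pow]
        rw [Nat.card_congr (Equiv.subtypeUnivEquiv this)]
      rw [hG]
      conv_rhs => rw [hH]
      rw [← hG, ← hH]
      rw [hG]
      conv_rhs => rw [hH]
      have hpos : Nat.card G * Nat.card H ≠ 0 := Nat.mul_ne_zero Nat.card_pos.ne' Nat.card_pos.ne'
      rw [hsum_aux _ hpos, hsum_aux _ hpos]
      exact Finset.sum_congr rfl (fun d _ => h d)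
    · rw [hsum_aux n hn, hsum_aux n hn]
      exact Finset.sum_congr rfl (fun d _ => h d)
  · intro h n
    induction n using Nat.strong_induction_on with
    | _ n ih =>
      by_cases hn : n = 0
      · rw [hcard0_aux n hn, hcard0_aux n hn]
      · have h1 := h n
        rw [hsum_aux n hn, hsum_aux n hn] at h1
        have hmem : n ∈ n.divisors := Nat.mem_divisors_self n hn
        rw [← Finset.add_sum_erase _ _ hmem, ← Finset.add_sum_erase _ _ hmem] at h1
        have h2 : ∑ d ∈ n.divisors.erase n, Nat.card {g : G // orderOf g = d}
            = ∑ d ∈ n.divisors.erase n, Nat.card {g : H // orderOf g = d} := by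
          refine Finset.sum_congr rfl (fun d hd => ?_)
          have hd' := Finset.mem_erase.mp hd
          have hle := Nat.divisor_le hd'.2
          exact ih d (lt_of_le_of_ne hle hd'.1)
        omega

end Cfsg.Agent.S4377
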