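import Cfsg.Statements.S4381
import Cfsg.Agent.Lib.Struct.ActBridge
import Cfsg.Agent.Lib.Struct.Basic
import Cfsg.Agent.Lib.Basic.Misc2

set_option autoImplicit false
open Pointwise
open Cfsg

namespace Cfsg.Agent.S4381


open scoped Pointwise commutatorElement

open Cfsg.Agent.Lib.Struct

variable {A G : Type*} [Group A] [Finite A] [Group G] [Finite G] [MulDistribMulAction A G]

def Inv (A : Type*) {G : Type*} [Group A] [Group G] [MulDistribMulAction A G] (H : Subgroup G) : Prop :=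
  ∀ a : A, ∀ x ∈ H, a • x ∈ H

def MaxInv (A : Type*) {G : Type*} [Group A] [Group G] [MulDistribMulAction A G] (M : Subgroup G) : Prop :=
  M ≠ ⊤ ∧ Inv A M ∧ ∀ L : Subgroup G, M < L → Inv A L → L = ⊤

theorem inv_frattini : Inv A (frattini G) := by
  intro a x hx
  have h1 := (Subgroup.characteristic_iff_map_eq.mp (inferInstance : (frattini G).Characteristic))
    (MulDistribMulAction.toMulAut A G a)
  rw [← h1]
  exact ⟨x, hx, rfl⟩

theorem inv_sup {H K : Subgroup G} (hH : Inv A H) (hK : Inv A K) : Inv A (H ⊔ K) := by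
  intro a x hx
  have h1 : H ⊔ K ≤ (H ⊔ K).comap (MulDistribMulAction.toMulAut A G a).toMonoidHom :=
    sup_le (fun y hy => Subgroup.mem_sup_left (hH a y hy)) (fun y hy => Subgroup.mem_sup_right (hK a y hy))
  exact h1 hx

theorem exists_maxInv {H : Subgroup G} (h : Inv A H) (hne : H ≠ ⊤) : ∃ M, MaxInv A M ∧ H ≤ M := by
  let S : Set (Subgroup G) := {K | K ≠ ⊤ ∧ Inv A K}
  have hH : H ∈ S := ⟨hne, h⟩
  obtain ⟨M, hHM, hM⟩ := (Set.toFinite S).exists_le_maximal hH
  refine ⟨M, ⟨hM.prop.1, hM.prop.2, fun L hL hLinv => ?_⟩, hHM⟩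
  by_contra hLne
  exact absurd (hM.le_of_ge ⟨hLne, hLinv⟩ hL.le) hL.not_ge

theorem maxInv_iff (hR : ∀ L : Subgroup G, frattini G < L → Inv A L → L = ⊤) (M : Subgroup G) :
    MaxInv A M ↔ (M = frattini G ∧ M ≠ ⊤) := by
  constructor
  · rintro ⟨h1, h2, h3⟩
    refine ⟨?_, h1⟩
    have hΦM : frattini G ≤ M := by
      by_contra hcon
      have hlt : M < M ⊔ frattini G := by
        rw [lt_iff_le_not_ge]
        exact ⟨le_sup_left, fun h => hcon (le_sup_right.trans h)⟩
      have h4 := h3 _ hlt (inv_sup h2 inv_frattini)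
      exact h1 (frattini_nongenerating h4)
    by_contra hne
    have hlt : frattini G < M := lt_of_le_of_ne hΦM (Ne.symm hne)
    exact h1 (hR M hlt h2)
  · rintro ⟨rfl, h1⟩
    exact ⟨h1, inv_frattini, hR⟩

theorem isPGroup_of_conj (hcop : (Nat.card A).Coprime (Nat.card G))
    (hsol : Group.IsSolvable A ∨ Group.IsSolvable G)
    (hconj : ∀ M N : Subgroup G, MaxInv A M → MaxInv A N →
        ∃ c : G, (∀ a : A, a • c = c) ∧ N = MulAut.conj c • M) :
    ∃ p : ℕ, p.Prime ∧ IsPGroup p G := by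
  by_cases hnt : (⊥ : Subgroup G) = ⊤
  · refine ⟨2, Nat.prime_two, fun g => ⟨0, ?_⟩⟩
    have : g ∈ (⊥ : Subgroup G) := by rw [hnt]; trivial
    rw [Subgroup.mem_bot] at this
    simp [this]
  · obtain ⟨M₀, hM₀, -⟩ := exists_maxInv (A := A) (H := (⊥ : Subgroup G))
      (fun a x hx => by
        rw [Subgroup.mem_bot] at hx ⊢
        rw [hx, smul_one]) hnt
    have hi : M₀.index ≠ 1 := by
      intro h
      exact hM₀.1 (Subgroup.index_eq_one.mp h)
    obtain ⟨r, hr, hrd⟩ := Nat.exists_prime_and_dvd hi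
    haveI : Fact r.Prime := ⟨hr⟩
    obtain ⟨R, hRp, hRi, hRinv⟩ := exists_invariant_sylow_abs (MulDistribMulAction.toMulAut A G) hcop hsol r
    by_cases hRt : R = ⊤
    · refine ⟨r, hr, fun g => ?_⟩
      obtain ⟨k, hk⟩ := hRp ⟨g, by rw [hRt]; trivial⟩
      exact ⟨k, by simpa using congrArg Subtype.val hk⟩
    · exfalso
      obtain ⟨M₁, hM₁, hRM₁⟩ := exists_maxInv (A := A) hRinv hRt
      obtain ⟨c, -, hc⟩ := hconj M₀ M₁ hM₀ hM₁
      have h1 : M₁.index = M₀.index := by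
        rw [hc, conj_smul_eq_map]
        exact Subgroup.index_map_of_bijective (MulAut.conj c).bijective M₀
      apply hRi
      rw [← h1] at hrd
      exact hrd.trans (Subgroup.index_dvd_of_le hRM₁)

theorem irreducible_of_conj (hcop : (Nat.card A).Coprime (Nat.card G)) {p : ℕ} [hp : Fact p.Prime]
    (hG : IsPGroup p G)
    (hconj : ∀ M N : Subgroup G, MaxInv A M → MaxInv A N →
        ∃ c : G, (∀ a : A, a • c = c) ∧ N = MulAut.conj c • M)
    (L : Subgroup G) (hΦL : frattini G < L) (hL : Inv A L) : L = ⊤ := by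
  by_contra hne
  haveI : Group.IsNilpotent G := hG.isNilpotent
  let Φ := frattini G
  let π : G →* G ⧸ Φ := QuotientGroup.mk' Φ
  have hπ : Function.Surjective π := QuotientGroup.mk'_surjective Φ
  have hcomm : ∀ a b : G ⧸ Φ, a * b = b * a := by
    intro a b
    induction a using QuotientGroup.induction_on with
    | H a =>
    induction b using QuotientGroup.induction_on with
    | H b =>
    rw [← QuotientGroup.mk_mul, ← QuotientGroup.mk_mul, QuotientGroup.eq]
    apply Cfsg.Agent.Lib.Basic.commutator_le_frattini_of_isNilpotent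
    have e : (a * b)⁻¹ * (b * a) = ⁅b⁻¹, a⁻¹⁆ := by
      rw [commutatorElement_def]; group
    rw [e, commutator_def]
    exact Subgroup.commutator_mem_commutator trivial trivial
  let ψ : A →* MulAut (G ⧸ Φ) := (autQuot Φ).comp (MulDistribMulAction.toMulAut A G)
  have hψ : ∀ (a : A) (x : G), ψ a (π x) = π (a • x) := fun _ _ => rfl
  let U : Subgroup (G ⧸ Φ) := L.map π
  have hU : ∀ a : A, ∀ x ∈ U, ψ a x ∈ U := by
    rintro a _ ⟨l, hl, rfl⟩
    rw [hψ]
    exact ⟨_, hL a l hl, rfl⟩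
  haveI hUn : U.Normal := ⟨fun u hu g => by
    rw [hcomm g u, mul_assoc, mul_inv_cancel, mul_one]
    exact hu⟩
  haveI hUc : IsMulCommutative U := ⟨⟨fun a b => Subtype.ext (hcomm a b)⟩⟩
  obtain ⟨H, hH⟩ := Cfsg.Agent.Lib.Basic.exists_complement_of_frattini_eq_bot
    (frattini_quotient_eq_bot (G := G)) U
  have hcop' : (Nat.card A).Coprime (Nat.card (G ⧸ Φ)) := by
    refine Nat.Coprime.coprime_dvd_right ?_ hcop
    rw [Subgroup.card_eq_card_quotient_mul_card_subgroup Φ]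
    exact dvd_mul_right _ _
  obtain ⟨W, hWinv, hWinf, hWsup⟩ := exists_invariant_complement_abs ψ hcomm hcop' U H hU
    hH.disjoint.eq_bot hH.sup_eq_top
  let W₁ : Subgroup G := W.comap π
  have hW₁ : Inv A W₁ := by
    intro a x hx
    show π (a • x) ∈ W
    rw [← hψ]
    exact hWinv a _ hx
  have hW₁ne : W₁ ≠ ⊤ := by
    intro h
    obtain ⟨l, hl, hlΦ⟩ := SetLike.exists_of_lt hΦL
    have h1 : π l ∈ U ⊓ W := by
      refine Subgroup.mem_inf.mpr ⟨⟨l, hl, rfl⟩, ?_⟩
      have : l ∈ W₁ := by rw [h]; trivial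
      exact this
    rw [hWinf, Subgroup.mem_bot] at h1
    exact hlΦ ((QuotientGroup.eq_one_iff l).mp h1)
  obtain ⟨M, hM, hLM⟩ := exists_maxInv (A := A) hL hne
  obtain ⟨M', hM', hWM'⟩ := exists_maxInv (A := A) hW₁ hW₁ne
  obtain ⟨c, -, hc⟩ := hconj M M' hM hM'
  have hΦM : Φ ≤ M := hΦL.le.trans hLM
  have hMn : M.Normal := ⟨fun m hm g => by
    have h1 : g * m * g⁻¹ * m⁻¹ ∈ Φ := by
      apply Cfsg.Agent.Lib.Basic.commutator_le_frattini_of_isNilpotent
      rw [commutator_def]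
      have := Subgroup.commutator_mem_commutator (H₁ := ⊤) (H₂ := ⊤) (Subgroup.mem_top g) (Subgroup.mem_top m)
      simpa [commutatorElement_def] using this
    have h2 := M.mul_mem (hΦM h1) hm
    simpa using h2⟩
  have hMM' : M' = M := by
    rw [hc]
    ext x
    rw [mem_conj_smul]
    constructor
    · intro h
      have := hMn.conj_mem _ h c
      simpa [mul_assoc] using this
    · intro h
      have := hMn.conj_mem _ h c⁻¹
      simpa [mul_assoc] using this
  rw [hMM'] at hWM'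
  apply hM.1
  rw [eq_top_iff]
  intro x _
  have hx : π x ∈ U ⊔ W := by rw [hWsup]; trivial
  rw [Subgroup.mem_sup_of_normal_left] at hx
  obtain ⟨u, hu, w, hw, huw⟩ := hx
  obtain ⟨l, hl, rfl⟩ := hu
  have h1 : l⁻¹ * x ∈ W₁ := by
    show π (l⁻¹ * x) ∈ W
    rw [map_mul, map_inv, ← huw, inv_mul_cancel_left]
    exact hw
  have h2 := M.mul_mem (hLM hl) (hWM' h1)
  simpa using h2

/-- Let the finite group A act by automorphisms on the finite group G with the orders of A and G coprime, and assume that A or G is solvable. Call a proper A-invariant subgroup of G maximal A-invariant when no A-invariant subgroup lies strictly between it and G. Then all maximal A-invariant subgroups of G are conjugate under elements of the fixed-point subgroup C_G(A) if and only if G is a p-group for some prime p and A leaves invariant no subgroup strictly between the Frattini subgroup of G and G. In that case, if G is nontrivial, the Frattini subgroup is the only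 maximal A-invariant subgroup (a trivial G has none). -/
theorem result {A G : Type*} [Group A] [Finite A]
    [Group G] [Finite G] [MulDistribMulAction A G] (hcop : (Nat.card A).Coprime (Nat.card G)) (hsol : Group.IsSolvable A ∨ Group.IsSolvable G) :
    ((∀ M N : Subgroup G, (M ≠ ⊤ ∧ (∀ a : A, ∀ x ∈ M, a • x ∈ M) ∧ ∀ L : Subgroup G, M < L → (∀ a : A, ∀ x ∈ L, a • x ∈ L) → L = ⊤) → (N ≠ ⊤ ∧ (∀ a : A, ∀ x ∈ N, a • x ∈ N) ∧ ∀ L : Subgroup G, N < L → (∀ a : A, ∀ x ∈ L, a • x ∈ L) → L = ⊤) →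
        ∃ c : G, (∀ a : A, a • c = c) ∧ N = MulAut.conj c • M) ↔
      ((∃ p : ℕ, p.Prime ∧ IsPGroup p G) ∧ ∀ L : Subgroup G, frattini G < L → (∀ a : A, ∀ x ∈ L, a • x ∈ L) → L = ⊤)) ∧
    (((∃ p : ℕ, p.Prime ∧ IsPGroup p G) ∧ ∀ L : Subgroup G, frattini G < L → (∀ a : A, ∀ x ∈ L, a • x ∈ L) → L = ⊤) →
      ∀ M : Subgroup G, (M ≠ ⊤ ∧ (∀ a : A, ∀ x ∈ M, a • x ∈ M) ∧ ∀ L : Subgroup G, M < L → (∀ a : A, ∀ x ∈ L, a • x ∈ L) → L = ⊤) ↔ (M = frattini G ∧ M ≠ ⊤)) := by
  have hsec : ((∃ p : ℕ, p.Prime ∧ IsPGroup p G) ∧ ∀ L : Subgroup G, frattini G < L → (∀ a : A, ∀ x ∈ L, a • x ∈ L) → L = ⊤) →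
      ∀ M : Subgroup G, (M ≠ ⊤ ∧ (∀ a : A, ∀ x ∈ M, a • x ∈ M) ∧ ∀ L : Subgroup G, M < L → (∀ a : A, ∀ x ∈ L, a • x ∈ L) → L = ⊤) ↔ (M = frattini G ∧ M ≠ ⊤) := by
    rintro ⟨-, hR⟩ M
    exact maxInv_iff hR M
  refine ⟨⟨fun hconj => ?_, fun hR M N hM hN => ?_⟩, hsec⟩
  · obtain ⟨p, hp, hpG⟩ := isPGroup_of_conj hcop hsol hconj
    refine ⟨⟨p, hp, hpG⟩, ?_⟩
    haveI : Fact p.Prime := ⟨hp⟩
    exact irreducible_of_conj hcop hpG hconj
  · have h1 := ((hsec hR M).mp hM).1
    have h2 := ((hsec hR N).mp hN).1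
    refine ⟨1, fun a => smul_one a, ?_⟩
    rw [h1, h2, map_one, one_smul]

end Cfsg.Agent.S4381
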