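import Cfsg.Statements.S4387
import Cfsg.Agent.Lib.Coprime.Conj
import Cfsg.Agent.Lib.Struct.Basic
import Cfsg.Agent.Lib.Recog.PermBasic
import Cfsg.Agent.Lib.Basic.Conj

set_option autoImplicit false
open Pointwise
open Cfsg

namespace Cfsg.Agent.S4387

theorem isCoatom_of_index_prime {G : Type*} [Group G] [Finite G] {H : Subgroup G}
    (hp : H.index.Prime) : IsCoatom H := by
  refine ⟨fun h => ?_, fun K hK => ?_⟩
  · rw [h, Subgroup.index_top] at hp
    exact Nat.not_prime_one hp
  · have h1 := Subgroup.relIndex_mul_index hK.le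
    have h2 : K.index ∣ H.index := ⟨_, by rw [← h1, mul_comm]⟩
    rcases (Nat.dvd_prime hp).mp h2 with h3 | h3
    · exact Subgroup.index_eq_one.mp h3
    · exfalso
      rw [h3] at h1
      have h4 : H.relIndex K = 1 := by
        have := hp.pos
        exact Nat.eq_of_mul_eq_mul_right this (by rw [h1, one_mul])
      exact hK.not_ge (Subgroup.relIndex_eq_one.mp h4)

/-- Let G be a non-trivial finite group in which any two maximal subgroups are conjugate. Then G is cyclic of prime-power order. -/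
theorem result {G : Type*} [Group G] [Finite G] [Nontrivial G]
    (h : ∀ M N : Subgroup G, IsCoatom M → IsCoatom N → ∃ g : G, N = MulAut.conj g • M) :
    IsCyclic G ∧ IsPrimePow (Nat.card G) := by
  classical
  obtain ⟨M, hM⟩ : ∃ M : Subgroup G, IsCoatom M := by
    obtain ⟨M, hM, _⟩ := Lib.Coprime.exists_coatom_ge (H := (⊥ : Subgroup G)) bot_ne_top
    exact ⟨M, hM⟩
  -- elements lie in conjugates
  have hcyc : IsCyclic G := by
    by_contra hnc
    have hcover : ∀ g : G, ∃ k : G, g ∈ MulAut.conj k • M := by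
      intro g
      have hne : Subgroup.zpowers g ≠ ⊤ := by
        intro htop
        exact hnc ⟨g, fun x => by
          have : x ∈ Subgroup.zpowers g := by rw [htop]; trivial
          exact this⟩
      obtain ⟨C, hC, hgC⟩ := Lib.Coprime.exists_coatom_ge hne
      obtain ⟨k, hk⟩ := h M C hM hC
      exact ⟨k, hk ▸ hgC (Subgroup.mem_zpowers g)⟩
    -- derangement on cosets
    haveI : Nontrivial (G ⧸ M) := by
      obtain ⟨x, hx⟩ : ∃ x, x ∉ M := by
        by_contra hcon
        push_neg at hcon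
        exact hM.1 (eq_top_iff.mpr (fun x _ => hcon x))
      refine ⟨⟨((x : G) : G ⧸ M), ((1 : G) : G ⧸ M), fun he => hx ?_⟩⟩
      have := QuotientGroup.eq.mp he.symm
      simpa using this
    obtain ⟨g, hg⟩ := Lib.Recog.exists_derangement (G := G) (Ω := G ⧸ M)
    obtain ⟨k, hk⟩ := hcover g
    apply hg ((k : G) : G ⧸ M)
    rw [Lib.Struct.mem_conj_smul] at hk
    change ((g * k : G) : G ⧸ M) = _
    rw [eq_comm, QuotientGroup.eq]
    simpa [mul_assoc] using hk
  refine ⟨hcyc, ?_⟩
  obtain ⟨g, hg⟩ := hcyc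
  have hord : orderOf g = Nat.card G := orderOf_eq_card_of_forall_mem_zpowers hg
  -- subgroups of prime index
  have hcoat : ∀ p : ℕ, p.Prime → p ∣ Nat.card G →
      ∃ K : Subgroup G, IsCoatom K ∧ K.index = p := by
    intro p hp hpd
    have hi : (Subgroup.zpowers (g ^ p)).index = p := by
      have h1 := Subgroup.card_mul_index (Subgroup.zpowers (g ^ p))
      rw [Nat.card_zpowers, orderOf_pow, hord, Nat.gcd_eq_right hpd] at h1
      have hn : Nat.card G / p * p = Nat.card G := Nat.div_mul_cancel hpd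
      have hpos : 0 < Nat.card G / p := Nat.div_pos (Nat.le_of_dvd Nat.card_pos hpd) hp.pos
      exact Nat.eq_of_mul_eq_mul_left hpos (h1.trans hn.symm)
    exact ⟨_, isCoatom_of_index_prime (by rw [hi]; exact hp), hi⟩
  rw [isPrimePow_iff_unique_prime_dvd]
  have hn1 : Nat.card G ≠ 1 := (Finite.one_lt_card).ne'
  obtain ⟨p, hp, hpd⟩ := Nat.exists_prime_and_dvd hn1
  refine ⟨p, ⟨hp, hpd⟩, ?_⟩
  rintro q ⟨hq, hqd⟩
  obtain ⟨K₁, hK₁, hi₁⟩ := hcoat p hp hpd
  obtain ⟨K₂, hK₂, hi₂⟩ := hcoat q hq hqd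
  obtain ⟨k, hk⟩ := h K₁ K₂ hK₁ hK₂
  rw [← hi₁, ← hi₂, hk, Lib.Basic.index_conj_smul]

end Cfsg.Agent.S4387
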