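import Cfsg.Statements.S4398
import Cfsg.Agent.Lib.Struct.Blackburn2

set_option autoImplicit false
open Cfsg

namespace Cfsg.Agent.S4398

/-- Let S be a finite 2-group of sectional 2-rank at most 2 that contains a subgroup isomorphic to the dihedral group of order 8 or to the quaternion group of order 8. Then S is dihedral of order at least 8, semidihedral of order at least 16 (order 2^(k+4) with an element a of order 2^(k+3) and an involution b with b a b⁻¹ = a^(2^(k+2)−1)), or generalized quaternion of order at least 8. -/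
theorem result {S : Type*} [Group S] [Finite S] (h2 : IsPGroup 2 S) (hr : Cfsg.SectionalPRankLE 2 2 S)
    (hsub : ∃ H : Subgroup S, Nonempty (↥H ≃* DihedralGroup 4) ∨ Nonempty (↥H ≃* QuaternionGroup 2)) :
    ((∃ k : ℕ, Nonempty (S ≃* DihedralGroup (2 ^ (k + 2)))) ∨
      (∃ k : ℕ, Nat.card S = 2 ^ (k + 4) ∧ ∃ a b : S, orderOf a = 2 ^ (k + 3) ∧ orderOf b = 2 ∧ b * a * b⁻¹ = a ^ (2 ^ (k + 2) - 1)) ∨
      (∃ k : ℕ, Nonempty (S ≃* QuaternionGroup (2 ^ (k + 1))))) := by
  have hm := Cfsg.Agent.Lib.Struct.Blackburn.metacyclic_main _ S rfl h2 hr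
  obtain ⟨H, ⟨⟨e⟩⟩ | ⟨⟨e⟩⟩⟩ := hsub
  · refine Cfsg.Agent.Lib.Struct.Blackburn.classify h2 hm H ?_ ?_
    · rw [Nat.card_congr e.toEquiv, DihedralGroup.nat_card]
    · refine ⟨(e.symm (DihedralGroup.r 1) : H), (e.symm (DihedralGroup.r 1) : H).2,
        (e.symm (DihedralGroup.sr 0) : H), (e.symm (DihedralGroup.sr 0) : H).2, ?_⟩
      intro h
      have h1 : e.symm (DihedralGroup.r 1) * e.symm (DihedralGroup.sr 0) =
          e.symm (DihedralGroup.sr 0) * e.symm (DihedralGroup.r 1) := Subtype.ext h
      rw [← map_mul, ← map_mul] at h1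
      have h2 := e.symm.injective h1
      revert h2
      decide
  · refine Cfsg.Agent.Lib.Struct.Blackburn.classify h2 hm H ?_ ?_
    · rw [Nat.card_congr e.toEquiv, Nat.card_eq_fintype_card, QuaternionGroup.card]
    · refine ⟨(e.symm (QuaternionGroup.a 1) : H), (e.symm (QuaternionGroup.a 1) : H).2,
        (e.symm (QuaternionGroup.xa 0) : H), (e.symm (QuaternionGroup.xa 0) : H).2, ?_⟩
      intro h
      have h1 : e.symm (QuaternionGroup.a 1) * e.symm (QuaternionGroup.xa 0) =
          e.symm (QuaternionGroup.xa 0) * e.symm (QuaternionGroup.a 1) := Subtype.ext h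
      rw [← map_mul, ← map_mul] at h1
      have h2 := e.symm.injective h1
      revert h2
      decide

end Cfsg.Agent.S4398
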