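import Cfsg.Statements.S4399
import Cfsg.Agent.S0646
import Cfsg.Agent.Lib.Transfer.MaxClass2
import Cfsg.Agent.Lib.TwoGroups.Present

set_option autoImplicit false
open Cfsg

namespace Cfsg.Agent.S4399


/-- Let S be a finite 2-group whose commutator quotient S/[S,S] is a Klein four-group (order 4 and exponent 2). Then S itself has order 4, or S is dihedral of order at least 8, semidihedral of order at least 16 (order 2^(k+4) with an element a of order 2^(k+3) and an involution b with b a b⁻¹ = a^(2^(k+2)−1)), or generalized quaternion of order at least 8. -/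
theorem result {S : Type*} [Group S] [Finite S] (h2 : IsPGroup 2 S) (hab : Nat.card (Abelianization S) = 4)
    (hexp : ∀ x : Abelianization S, x ^ 2 = 1) :
    Nat.card S = 4 ∨
    ((∃ k : ℕ, Nonempty (S ≃* DihedralGroup (2 ^ (k + 2)))) ∨
      (∃ k : ℕ, Nat.card S = 2 ^ (k + 4) ∧ ∃ a b : S, orderOf a = 2 ^ (k + 3) ∧ orderOf b = 2 ∧ b * a * b⁻¹ = a ^ (2 ^ (k + 2) - 1)) ∨
      (∃ k : ℕ, Nonempty (S ≃* QuaternionGroup (2 ^ (k + 1))))) := by
  classical
  obtain ⟨n, hn⟩ := IsPGroup.iff_card.1 h2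
  have hi : (commutator S).index = 4 := hab
  have hle : 2 ≤ n := by
    have h3 := Subgroup.index_dvd_card (commutator S)
    rw [hi, hn] at h3
    have h4 : (2 : ℕ) ^ 2 ∣ 2 ^ n := by simpa using h3
    exact (Nat.pow_dvd_pow_iff_le_right (by norm_num)).1 h4
  by_cases hn2 : n = 2
  · left; rw [hn, hn2]; norm_num
  right
  obtain ⟨k, rfl⟩ : ∃ k, n = k + 3 := ⟨n - 3, by omega⟩
  have hcl := Cfsg.Agent.Lib.Transfer.class_of_index_commutator (k + 3) S (by omega) hn hi
  obtain ⟨C, hC, hCi⟩ := Cfsg.Agent.Lib.Transfer.exists_cyclic_index_two (k + 3) S (by omega) hn hcl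
  have hcomm_ne : ∃ x y : S, x * y ≠ y * x := by
    by_contra hcon
    push Not at hcon
    have h5 : commutator S = ⊥ := by
      rw [eq_bot_iff, _root_.commutator_def, Subgroup.commutator_le]
      intro x _ y _
      rw [Subgroup.mem_bot, commutatorElement_eq_one_iff_mul_comm]
      exact hcon x y
    rw [h5, Subgroup.index_bot, hn] at hi
    have h6 : (2 : ℕ) ^ 3 ∣ 2 ^ (k + 3) := pow_dvd_pow 2 (by omega)
    rw [hi] at h6
    omega
  obtain ⟨a, b, ha, hb, hcases⟩ := Cfsg.Agent.S0646.result (k + 3) (by omega) hn C hC hCi hcomm_ne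
  have e1 : k + 3 - 1 = k + 2 := by omega
  have e2 : k + 3 - 2 = k + 1 := by omega
  rw [e1] at ha
  rw [e2] at hcases
  rcases hcases with ⟨h1, h3⟩ | ⟨h1, h3⟩ | ⟨hn4, h1, h3⟩ | ⟨hn4, h1, h3⟩
  · left
    refine ⟨k, ?_⟩
    haveI : NeZero (2 ^ (k + 2)) := ⟨by positivity⟩
    refine Cfsg.Agent.Lib.TwoGroups.nonempty_mulEquiv_dihedral_of a b ha (by rw [← pow_two, h1]) h3 hb ?_
    rw [hn]; ring
  · right; right
    refine ⟨k, ?_⟩
    haveI : NeZero (2 ^ (k + 1)) := ⟨by positivity⟩
    refine Cfsg.Agent.Lib.TwoGroups.nonempty_mulEquiv_quaternion_of a b (by rw [ha]; ring) (by rw [← pow_two, h1]) h3 hb ?_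
    rw [hn]; ring
  · -- the modular group has a larger abelianization
    exfalso
    let y : S := a ^ 2 ^ (k + 1)
    have hy2 : y ^ 2 = 1 := by
      show (a ^ 2 ^ (k + 1)) ^ 2 = 1
      rw [← pow_mul, ← pow_succ, ← ha, pow_orderOf_eq_one]
    have hUi : (Subgroup.zpowers a).index = 2 := by
      have h5 := (Subgroup.zpowers a).card_mul_index
      rw [Nat.card_zpowers, ha, hn] at h5
      have h6 : 2 ^ (k + 2) * 2 = 2 ^ (k + 3) := by ring
      exact Nat.eq_of_mul_eq_mul_left (by positivity) (h5.trans h6.symm)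
    have hle2 : commutator S ≤ Subgroup.zpowers y := by
      apply Cfsg.Agent.Lib.Transfer.commutator_le_of_index_two (Subgroup.zpowers a) (Subgroup.zpowers y) hUi ?_ hb ?_
      · rintro u ⟨i, rfl⟩ v ⟨j, rfl⟩
        exact (Commute.refl a).zpow_zpow i j
      · have hyc : Commute a y := (Commute.refl a).pow_right _
        have hconj : b * a * b⁻¹ = a * y := by
          rw [h3, pow_add, pow_one]
        rintro v ⟨j, rfl⟩
        have h7 : b * a ^ j * b⁻¹ = (b * a * b⁻¹) ^ j := by
          rw [← MulAut.conj_apply, map_zpow, MulAut.conj_apply]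
        show b * a ^ j * b⁻¹ * (a ^ j)⁻¹ ∈ _
        rw [h7, hconj, hyc.mul_zpow]
        have h8 : a ^ j * y ^ j * (a ^ j)⁻¹ = y ^ j := by
          have : Commute (a ^ j) (y ^ j) := hyc.zpow_zpow j j
          rw [this.eq]; group
        rw [h8]
        exact Subgroup.zpow_mem _ (Subgroup.mem_zpowers y) j
    have hcardle : Nat.card (commutator S) ≤ 2 := by
      have h9 : Nat.card (commutator S) ≤ Nat.card (Subgroup.zpowers y) :=
        Subgroup.card_le_of_le hle2
      refine h9.trans ?_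
      rw [Nat.card_zpowers]
      exact Nat.le_of_dvd (by norm_num) (orderOf_dvd_of_pow_eq_one hy2)
    have hmul := (commutator S).card_mul_index
    rw [hi, hn] at hmul
    have h10 : 2 ^ (k + 3) ≤ 2 * 4 := by
      rw [← hmul]; exact Nat.mul_le_mul_right 4 hcardle
    have h11 : 2 ^ 4 ≤ 2 ^ (k + 3) := Nat.pow_le_pow_right (by norm_num) hn4
    norm_num at h11
    omega
  · right; left
    obtain ⟨j, rfl⟩ : ∃ j, k = j + 1 := ⟨k - 1, by omega⟩
    refine ⟨j, ?_, a, b, ?_, ?_, ?_⟩
    · rw [hn]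
    · rw [ha]
    · apply orderOf_eq_prime h1
      rintro rfl
      exact hb (one_mem _)
    · rw [h3]

end Cfsg.Agent.S4399
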