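import Cfsg.Statements.S4405
import Cfsg.Agent.Lib.Struct.Ord320
import Cfsg.Agent.Lib.Basic.Core

set_option autoImplicit false
open Cfsg

namespace Cfsg.Agent.S4405

/-- Let G be a finite group of order 320 = 64·5 whose largest normal 2-subgroup H = O₂(G) equals the Fitting subgroup F(G) and is extraspecial of order 32 containing no elementary abelian subgroup of order 8 (so H is the central product of a quaternion group and a dihedral group of order 8). If T is an involution of G outside H whose centralizer in H contains an elementary abelian subgroup of order 4, then C_H(T) itself is elementary abelian of order 4. -/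
theorem result {G : Type*} [Group G] [Finite G]
    (hG : Nat.card G = 320) (hHF : Cfsg.pCore 2 G = Cfsg.fittingSubgroup G)
    (hex : Cfsg.IsExtraspecial 2 ↥(Cfsg.pCore 2 G)) (h32 : Nat.card ↥(Cfsg.pCore 2 G) = 32)
    (hminus : ∀ A : Subgroup G, A ≤ Cfsg.pCore 2 G → Cfsg.IsElementaryAbelian 2 A → Nat.card ↥A ≤ 4)
    (T : G) (hT : orderOf T = 2) (hTH : T ∉ Cfsg.pCore 2 G)
    (V : Subgroup G) (hV : V ≤ Cfsg.pCore 2 G ⊓ Subgroup.centralizer ({T} : Set G)) (hV4 : Nat.card ↥V = 4) (hVe : Cfsg.IsElementaryAbelian 2 V) :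
    Nat.card ↥(Cfsg.pCore 2 G ⊓ Subgroup.centralizer ({T} : Set G)) = 4 ∧
      Cfsg.IsElementaryAbelian 2 (Cfsg.pCore 2 G ⊓ Subgroup.centralizer ({T} : Set G)) := by
  haveI : Fact (Nat.Prime 2) := ⟨Nat.prime_two⟩
  haveI : Group.IsSolvable G := Cfsg.Agent.Lib.Char.isSolvable_of_card_eq_aux Nat.prime_two (by norm_num : Nat.Prime 5) 320 G hG ⟨6, 1, by rw [hG]; norm_num⟩
  have hcent : Subgroup.centralizer ((Cfsg.pCore 2 G : Subgroup G) : Set G) ≤ Cfsg.pCore 2 G := by
    rw [hHF]
    exact Cfsg.Agent.Lib.OddLocal.centralizer_fitting_le_of_solvable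
  exact Cfsg.Agent.Lib.Struct.Ord320.core (Cfsg.pCore 2 G) hG h32 (Cfsg.Agent.Lib.Basic.ExtClass.of_extraspecial hex) hcent hminus T hT hTH V hV hV4 hVe

end Cfsg.Agent.S4405
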