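import Cfsg.Statements.S4406
import Mathlib

set_option autoImplicit false
open Cfsg

namespace Cfsg.Agent.S4406


/-- Abbreviation for the alternating group on four points. -/
abbrev A4 := alternatingGroup (Fin 4)

theorem K0 : ∀ x : A4, x ^ 2 = 1 ∨ x ^ 3 = 1 := by decide +kernel

set_option synthInstance.maxHeartbeats 400000 in
set_option synthInstance.maxSize 2000 in
theorem K1 : ∀ u a x : A4, (u ^ 3 = 1 ∧ u ≠ 1 ∧ a ^ 2 = 1 ∧ a ≠ 1 ∧ x ^ 2 = 1 ∧ x ≠ 1) →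
    (u * a * u⁻¹ ≠ a ∧ u * (u * a * u⁻¹) * u⁻¹ = a * (u * a * u⁻¹) ∧
      (x = a ∨ x = u * a * u⁻¹ ∨ x = a * (u * a * u⁻¹))) := by decide +kernel

set_option synthInstance.maxHeartbeats 400000 in
set_option synthInstance.maxSize 2000 in
theorem K2 : ∀ u b b' : A4, (u ^ 3 = 1 ∧ u ≠ 1 ∧ b ^ 2 = 1 ∧ b ≠ 1 ∧ b' ^ 2 = 1 ∧ b' ≠ 1 ∧ b' ≠ b) →
    (b' = u * b * u⁻¹ ∨ b' = u⁻¹ * b * u) := by decide +kernel

theorem K3 : Nat.card {x : A4 // x ^ 2 = 1} = 4 := by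
  rw [Nat.card_eq_fintype_card]; decide +kernel

theorem K4 : Nat.card A4 = 12 := by
  rw [Nat.card_eq_fintype_card]; decide +kernel

theorem lem2 (x : A4) (k : ℕ) (h : x ^ (2 ^ k) = 1) : x ^ 2 = 1 := by
  rcases K0 x with h2 | h3
  · exact h2
  · have h4 : orderOf x ∣ 3 := orderOf_dvd_of_pow_eq_one h3
    have h5 : orderOf x ∣ 2 ^ k := orderOf_dvd_of_pow_eq_one h
    have h6 : Nat.Coprime 3 (2 ^ k) := Nat.Coprime.pow_right k (by norm_num)
    have h7 : orderOf x = 1 := Nat.eq_one_of_dvd_coprimes h6 h4 h5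
    rw [orderOf_eq_one_iff] at h7
    rw [h7, one_pow]

theorem lem3 (x : A4) (k : ℕ) (h : x ^ (3 ^ k) = 1) : x ^ 3 = 1 := by
  rcases K0 x with h2 | h3
  · have h4 : orderOf x ∣ 2 := orderOf_dvd_of_pow_eq_one h2
    have h5 : orderOf x ∣ 3 ^ k := orderOf_dvd_of_pow_eq_one h
    have h6 : Nat.Coprime 2 (3 ^ k) := Nat.Coprime.pow_right k (by norm_num)
    have h7 : orderOf x = 1 := Nat.eq_one_of_dvd_coprimes h6 h4 h5
    rw [orderOf_eq_one_iff] at h7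
    rw [h7, one_pow]
  · exact h3

/-- In the direct product P = A₄ × A₄, let X be the Sylow 2-subgroup, X₁ and X₂ its intersections with the two direct factors, Q a Sylow 3-subgroup and Q₁, Q₂ its intersections with the two factors. Then every subgroup B of X of order 4 either meets X₁ or X₂ nontrivially, or is normalized by one of the two subgroups of Q of order 3 other than Q₁ and Q₂. -/
theorem result
    (X : Sylow 2 (↥(alternatingGroup (Fin 4)) × ↥(alternatingGroup (Fin 4))))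
    (Q : Sylow 3 (↥(alternatingGroup (Fin 4)) × ↥(alternatingGroup (Fin 4))))
    (B : Subgroup (↥(alternatingGroup (Fin 4)) × ↥(alternatingGroup (Fin 4)))) (hBX : B ≤ (X : Subgroup _)) (hB4 : Nat.card ↥B = 4) :
    B ⊓ ((X : Subgroup _) ⊓ Subgroup.prod ⊤ ⊥) ≠ ⊥ ∨ B ⊓ ((X : Subgroup _) ⊓ Subgroup.prod ⊥ ⊤) ≠ ⊥ ∨
      ∃ R : Subgroup (↥(alternatingGroup (Fin 4)) × ↥(alternatingGroup (Fin 4))), R ≤ (Q : Subgroup _) ∧ Nat.card ↥R = 3 ∧
        R ≠ (Q : Subgroup _) ⊓ Subgroup.prod ⊤ ⊥ ∧ R ≠ (Q : Subgroup _) ⊓ Subgroup.prod ⊥ ⊤ ∧ R ≤ Subgroup.normalizer (B : Set _) := by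
  classical
  by_cases h1 : B ⊓ ((X : Subgroup _) ⊓ Subgroup.prod ⊤ ⊥) ≠ ⊥
  · exact Or.inl h1
  by_cases h2 : B ⊓ ((X : Subgroup _) ⊓ Subgroup.prod ⊥ ⊤) ≠ ⊥
  · exact Or.inr (Or.inl h2)
  right; right
  push Not at h1 h2
  have : Fact (Nat.Prime 3) := ⟨by norm_num⟩
  have : Fact (Nat.Prime 2) := ⟨by norm_num⟩
  have hX2 : ∀ s ∈ (X : Subgroup (A4 × A4)), s.1 ^ 2 = 1 ∧ s.2 ^ 2 = 1 := by
    intro s hs
    obtain ⟨k, hk⟩ := X.isPGroup' ⟨s, hs⟩
    have h3 : s ^ (2 ^ k) = 1 := congrArg Subtype.val hk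
    exact ⟨lem2 _ k (by simpa using congrArg Prod.fst h3), lem2 _ k (by simpa using congrArg Prod.snd h3)⟩
  have hQ3 : ∀ s ∈ (Q : Subgroup (A4 × A4)), s.1 ^ 3 = 1 ∧ s.2 ^ 3 = 1 := by
    intro s hs
    obtain ⟨k, hk⟩ := Q.isPGroup' ⟨s, hs⟩
    have h3 : s ^ (3 ^ k) = 1 := congrArg Subtype.val hk
    exact ⟨lem3 _ k (by simpa using congrArg Prod.fst h3), lem3 _ k (by simpa using congrArg Prod.snd h3)⟩
  have hb1 : ∀ s ∈ B, s.2 = 1 → s.1 = 1 := by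
    intro s hs hs2
    have : s ∈ B ⊓ ((X : Subgroup _) ⊓ Subgroup.prod ⊤ ⊥) :=
      Subgroup.mem_inf.mpr ⟨hs, Subgroup.mem_inf.mpr ⟨hBX hs, Subgroup.mem_prod.mpr ⟨trivial, hs2⟩⟩⟩
    rw [h1, Subgroup.mem_bot] at this
    rw [this]; rfl
  have hb2 : ∀ s ∈ B, s.1 = 1 → s.2 = 1 := by
    intro s hs hs2
    have : s ∈ B ⊓ ((X : Subgroup _) ⊓ Subgroup.prod ⊥ ⊤) :=
      Subgroup.mem_inf.mpr ⟨hs, Subgroup.mem_inf.mpr ⟨hBX hs, Subgroup.mem_prod.mpr ⟨hs2, trivial⟩⟩⟩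
    rw [h2, Subgroup.mem_bot] at this
    rw [this]; rfl
  have hinj : ∀ s ∈ B, ∀ s' ∈ B, s.1 = s'.1 → s = s' := by
    intro s hs s' hs' he
    have h3 : s * s'⁻¹ ∈ B := B.mul_mem hs (B.inv_mem hs')
    have h4 : (s * s'⁻¹).1 = 1 := by simp [he]
    have h5 := hb2 _ h3 h4
    refine Prod.ext he ?_
    have h6 : s.2 * s'.2⁻¹ = 1 := h5
    exact mul_inv_eq_one.mp h6
  have hinj2 : ∀ s ∈ B, ∀ s' ∈ B, s.2 = s'.2 → s.1 = s'.1 := by
    intro s hs s' hs' he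
    have h3 : s * s'⁻¹ ∈ B := B.mul_mem hs (B.inv_mem hs')
    have h4 : (s * s'⁻¹).2 = 1 := by simp [he]
    have h5 := hb1 _ h3 h4
    have h6 : s.1 * s'.1⁻¹ = 1 := h5
    exact mul_inv_eq_one.mp h6
  -- surjectivity of the projection of `B`
  have hsurj : ∀ x : A4, x ^ 2 = 1 → ∃ s ∈ B, s.1 = x := by
    intro x hx
    let f : B → {x : A4 // x ^ 2 = 1} := fun s => ⟨s.1.1, (hX2 _ (hBX s.2)).1⟩
    have hf : Function.Injective f := by
      intro s s' hss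
      exact Subtype.ext (hinj _ s.2 _ s'.2 (congrArg Subtype.val hss))
    have hbij := hf.bijective_of_nat_card_le (by rw [K3, hB4])
    obtain ⟨s, hs⟩ := hbij.2 ⟨x, hx⟩
    exact ⟨s.1, s.2, congrArg Subtype.val hs⟩
  -- an element of `B`
  have hBne : B ≠ ⊥ := by
    intro h
    rw [h, Subgroup.card_bot] at hB4
    omega
  obtain ⟨t, ht, ht1⟩ := (Subgroup.bot_or_exists_ne_one B).resolve_left hBne
  have hta : t.1 ≠ 1 := by
    intro h
    exact ht1 (Prod.ext h (hb2 t ht h))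
  have htb : t.2 ≠ 1 := by
    intro h
    exact ht1 (Prod.ext (hb1 t ht h) h)
  -- order three elements in `Q`
  have hG : Nat.card (A4 × A4) = 144 := by
    rw [Nat.card_prod, K4]
  have hQ9 : 9 ∣ Nat.card (Q : Subgroup (A4 × A4)) := by
    have := Q.pow_dvd_card_of_pow_dvd_card (n := 2) (by rw [hG]; norm_num)
    simpa using this
  have hu1 : ∃ u : A4, u ≠ 1 ∧ u ^ 3 = 1 ∧ ((u, 1) : A4 × A4) ∈ (Q : Subgroup (A4 × A4)) := by
    by_contra hno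
    push Not at hno
    let φ : (Q : Subgroup (A4 × A4)) →* A4 := (MonoidHom.snd A4 A4).comp (Q : Subgroup (A4 × A4)).subtype
    have hφ : Function.Injective φ := by
      rw [injective_iff_map_eq_one]
      intro s hs
      have h3 : s.1.2 = 1 := hs
      by_contra hs1
      have hs1' : s.1.1 ≠ 1 := by
        intro h4
        exact hs1 (Subtype.ext (Prod.ext h4 h3))
      apply hno s.1.1 hs1' (hQ3 _ s.2).1
      have : ((s.1.1, 1) : A4 × A4) = s.1 := Prod.ext rfl h3.symm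
      rw [this]
      exact s.2
    have h9 := Subgroup.card_dvd_of_injective φ hφ
    rw [K4] at h9
    have := dvd_trans hQ9 h9
    omega
  have hu2 : ∃ u : A4, u ≠ 1 ∧ u ^ 3 = 1 ∧ ((1, u) : A4 × A4) ∈ (Q : Subgroup (A4 × A4)) := by
    by_contra hno
    push Not at hno
    let φ : (Q : Subgroup (A4 × A4)) →* A4 := (MonoidHom.fst A4 A4).comp (Q : Subgroup (A4 × A4)).subtype
    have hφ : Function.Injective φ := by
      rw [injective_iff_map_eq_one]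
      intro s hs
      have h3 : s.1.1 = 1 := hs
      by_contra hs1
      have hs1' : s.1.2 ≠ 1 := by
        intro h4
        exact hs1 (Subtype.ext (Prod.ext h3 h4))
      apply hno s.1.2 hs1' (hQ3 _ s.2).2
      have : ((1, s.1.2) : A4 × A4) = s.1 := Prod.ext h3.symm rfl
      rw [this]
      exact s.2
    have h9 := Subgroup.card_dvd_of_injective φ hφ
    rw [K4] at h9
    have := dvd_trans hQ9 h9
    omega
  obtain ⟨u₁, hu1ne, hu13, hu1Q⟩ := hu1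
  obtain ⟨u₂, hu2ne, hu23, hu2Q⟩ := hu2
  obtain ⟨hta2, htb2⟩ := hX2 t (hBX ht)
  have hconjsq : ∀ u a : A4, a ^ 2 = 1 → (u * a * u⁻¹) ^ 2 = 1 := by
    intro u a ha
    rw [conj_pow, ha]
    simp
  obtain ⟨t', ht', ht'1⟩ := hsurj (u₁ * t.1 * u₁⁻¹) (hconjsq _ _ hta2)
  have ha'1 : u₁ * t.1 * u₁⁻¹ ≠ 1 := by
    intro h
    exact hta (conj_eq_one_iff.mp h)
  have hb'1 : t'.2 ≠ 1 := by
    intro h
    exact ha'1 (ht'1 ▸ hb1 t' ht' h)
  have hK1 := K1 u₁ t.1 t.1 ⟨hu13, hu1ne, hta2, hta, hta2, hta⟩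
  have hb'b : t'.2 ≠ t.2 := by
    intro h
    have h3 := hinj2 _ ht' _ ht h
    rw [ht'1] at h3
    exact hK1.1 h3
  have hb'2 : t'.2 ^ 2 = 1 := (hX2 t' (hBX ht')).2
  obtain ⟨v, hvne, hv3, hvQ, hvb⟩ : ∃ v : A4, v ≠ 1 ∧ v ^ 3 = 1 ∧
      ((1, v) : A4 × A4) ∈ (Q : Subgroup (A4 × A4)) ∧ t'.2 = v * t.2 * v⁻¹ := by
    rcases K2 u₂ t.2 t'.2 ⟨hu23, hu2ne, htb2, htb, hb'2, hb'1, hb'b⟩ with h | h
    · exact ⟨u₂, hu2ne, hu23, hu2Q, h⟩
    · refine ⟨u₂⁻¹, inv_ne_one.mpr hu2ne, by rw [inv_pow, hu23, inv_one], ?_, ?_⟩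
      · have := (Q : Subgroup (A4 × A4)).inv_mem hu2Q
        simpa using this
      · rw [h, inv_inv]
  let r : A4 × A4 := (u₁, v)
  have hrQ : r ∈ (Q : Subgroup (A4 × A4)) := by
    have h3 : r = (u₁, 1) * (1, v) := by
      simp [r]
    rw [h3]
    exact (Q : Subgroup (A4 × A4)).mul_mem hu1Q hvQ
  have hr3 : r ^ 3 = 1 := by
    refine Prod.ext ?_ ?_
    · show u₁ ^ 3 = 1
      exact hu13
    · show v ^ 3 = 1
      exact hv3
  have hrne : r ≠ 1 := by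
    intro h
    exact hu1ne (congrArg Prod.fst h)
  have hK1v := K1 v t.2 t.2 ⟨hv3, hvne, htb2, htb, htb2, htb⟩
  have hr1 : r * t * r⁻¹ = t' := by
    refine Prod.ext ?_ ?_
    · show u₁ * t.1 * u₁⁻¹ = t'.1
      exact ht'1.symm
    · show v * t.2 * v⁻¹ = t'.2
      exact hvb.symm
  have hr2 : r * t' * r⁻¹ = t * t' := by
    refine Prod.ext ?_ ?_
    · show u₁ * t'.1 * u₁⁻¹ = t.1 * t'.1
      rw [ht'1]
      exact hK1.2.1
    · show v * t'.2 * v⁻¹ = t.2 * t'.2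
      rw [hvb]
      exact hK1v.2.1
  have hkey : ∀ s ∈ B, r * s * r⁻¹ ∈ B := by
    intro s hs
    by_cases hs1 : s = 1
    · rw [hs1]
      simp
    have hs1' : s.1 ≠ 1 := by
      intro h
      exact hs1 (Prod.ext h (hb2 s hs h))
    rcases (K1 u₁ t.1 s.1 ⟨hu13, hu1ne, hta2, hta, (hX2 s (hBX hs)).1, hs1'⟩).2.2 with h | h | h
    · rw [hinj s hs t ht h, hr1]
      exact ht'
    · rw [hinj s hs t' ht' (by rw [h, ht'1]), hr2]
      exact B.mul_mem ht ht'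
    · rw [hinj s hs (t * t') (B.mul_mem ht ht') (by
        rw [h, Prod.fst_mul, ht'1])]
      have : r * (t * t') * r⁻¹ = (r * t * r⁻¹) * (r * t' * r⁻¹) := by group
      rw [this, hr1, hr2]
      exact B.mul_mem ht' (B.mul_mem ht ht')
  refine ⟨Subgroup.zpowers r, ?_, ?_, ?_, ?_, ?_⟩
  · exact Subgroup.zpowers_le.mpr hrQ
  · rw [Nat.card_zpowers]
    exact orderOf_eq_prime hr3 hrne
  · intro h
    have h3 : r ∈ (Q : Subgroup (A4 × A4)) ⊓ Subgroup.prod ⊤ ⊥ := by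
      rw [← h]
      exact Subgroup.mem_zpowers r
    have h4 := (Subgroup.mem_prod.mp (Subgroup.mem_inf.mp h3).2).2
    exact hvne h4
  · intro h
    have h3 : r ∈ (Q : Subgroup (A4 × A4)) ⊓ Subgroup.prod ⊥ ⊤ := by
      rw [← h]
      exact Subgroup.mem_zpowers r
    have h4 := (Subgroup.mem_prod.mp (Subgroup.mem_inf.mp h3).2).1
    exact hu1ne h4
  · rw [Subgroup.zpowers_le, Subgroup.mem_normalizer_iff]
    intro s
    constructor
    · exact hkey s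
    · intro hs
      have h5 := hkey _ (hkey _ hs)
      have h6 : r * (r * (r * s * r⁻¹) * r⁻¹) * r⁻¹ = r ^ 3 * s * (r ^ 3)⁻¹ := by
        rw [pow_succ, pow_two]
        group
      rw [h6, hr3] at h5
      simpa using h5

end Cfsg.Agent.S4406
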