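import Cfsg.Statements.S4407

set_option autoImplicit false
open Cfsg

namespace Cfsg.Agent.S4407

abbrev V4 := ZMod 2 × ZMod 2 × ZMod 2 × ZMod 2

lemma two_add {M : Type*} [AddCommGroup M] [Module (ZMod 2) M] (y : M) : y + y = 0 := by
  have : (2 : ZMod 2) • y = 0 := by
    have h : (2 : ZMod 2) = 0 := by decide
    rw [h, zero_smul]
  rwa [two_smul] at this

lemma core {M : Type*} [AddCommGroup M] [Module (ZMod 2) M] [Finite M]
    (C D U T : M →ₗ[ZMod 2] M)
    (hC3 : ∀ m, C (C (C m)) = m) (hD3 : ∀ m, D (D (D m)) = m) (hCD : ∀ m, C (D m) = D (C m))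
    (hUC : ∀ m, U (C m) = D (U m)) (hUD : ∀ m, U (D m) = C (C (U m)))
    (hTT : ∀ m, T (T m) = m) (hTC : ∀ m, T (C m) = C (T m)) (hTD : ∀ m, T (D m) = D (D (T m)))
    (hU4 : ∀ m, U (U (U (U m))) = m) (hUT : ∀ m, U (T m) = T (U (U (U m))))
    (h0 : ∀ m, C m = m → D m = m → m = 0)
    (hsum : ∀ m, ∃ x y, D x = x ∧ C y = y ∧ m = x + y)
    (hirr : ∀ N : Submodule (ZMod 2) M, (∀ m ∈ N, C m ∈ N) → (∀ m ∈ N, D m ∈ N) →
      (∀ m ∈ N, U m ∈ N) → (∀ m ∈ N, T m ∈ N) → N = ⊥ ∨ N = ⊤)
    (hne : Nontrivial M) :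
    Nat.card M = 16 ∧ Nat.card {m : M // U (U m) = m ∧ T m = m} = 4 ∧
      Nat.card {m : M // U (U m) = m ∧ T (U m) = m} = 2 := by
  have h2 := @two_add M _ _
  -- Z relations
  have hZC : ∀ m, U (U (C m)) = C (C (U (U m))) := by
    intro m; rw [hUC, hUD]
  have hZD : ∀ m, U (U (D m)) = D (D (U (U m))) := by
    intro m; rw [hUD, hUC, hUC]
  have hZZ : ∀ m, U (U (U (U m))) = m := hU4
  have hTU : ∀ m, T (U m) = U (T (U (U m))) := by
    intro m
    rw [hUT]
    simp only [hU4]
  have hZT : ∀ m, U (U (T m)) = T (U (U m)) := by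
    intro m
    rw [hUT, hUT]
    simp only [hU4]
  have hUinj : ∀ x y, U x = U y → x = y := by
    intro x y h
    have : U (U (U (U x))) = U (U (U (U y))) := by rw [h]
    simpa only [hU4] using this
  -- fill lemma
  have hfill : ∀ W₁ : Submodule (ZMod 2) M, W₁ ≠ ⊥ → (∀ w ∈ W₁, D w = w) → (∀ w ∈ W₁, C w ∈ W₁) →
      (∀ w ∈ W₁, U (U w) ∈ W₁) → (∀ w ∈ W₁, T w ∈ W₁) → ∀ x, D x = x → x ∈ W₁ := by
    intro W₁ hne₁ hD hC hZ hT x hx
    let N : Submodule (ZMod 2) M := W₁ ⊔ W₁.map U
    have hCU : ∀ w ∈ W₁, C (U w) = U w := by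
      intro w hw
      have h1 := hUD w
      rw [hD w hw] at h1
      have h3 := hC3 (U w)
      rw [← h1] at h3
      exact h3
    have hN := hirr N ?_ ?_ ?_ ?_
    · rcases hN with hN | hN
      · exfalso
        apply hne₁
        rw [eq_bot_iff]
        intro w hw
        have : w ∈ N := Submodule.mem_sup_left hw
        rw [hN] at this
        exact this
      · have hxN : x ∈ N := by rw [hN]; trivial
        obtain ⟨w, hw, y, hy, rfl⟩ := Submodule.mem_sup.mp hxN
        obtain ⟨w', hw', rfl⟩ := Submodule.mem_map.mp hy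
        have hy0 : U w' = 0 := by
          apply h0 _ (hCU w' hw')
          have : D (w + U w') = w + U w' := hx
          rw [map_add, hD w hw] at this
          exact add_left_cancel this
        rw [hy0, add_zero]
        exact hw
    · intro m hm
      obtain ⟨w, hw, y, hy, rfl⟩ := Submodule.mem_sup.mp hm
      obtain ⟨w', hw', rfl⟩ := Submodule.mem_map.mp hy
      rw [map_add, hCU w' hw']
      exact Submodule.add_mem _ (Submodule.mem_sup_left (hC w hw))
        (Submodule.mem_sup_right (Submodule.mem_map_of_mem hw'))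
    · intro m hm
      obtain ⟨w, hw, y, hy, rfl⟩ := Submodule.mem_sup.mp hm
      obtain ⟨w', hw', rfl⟩ := Submodule.mem_map.mp hy
      rw [map_add, hD w hw, ← hUC]
      exact Submodule.add_mem _ (Submodule.mem_sup_left hw)
        (Submodule.mem_sup_right (Submodule.mem_map_of_mem (hC w' hw')))
    · intro m hm
      obtain ⟨w, hw, y, hy, rfl⟩ := Submodule.mem_sup.mp hm
      obtain ⟨w', hw', rfl⟩ := Submodule.mem_map.mp hy
      rw [map_add]
      exact Submodule.add_mem _ (Submodule.mem_sup_right (Submodule.mem_map_of_mem hw))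
        (Submodule.mem_sup_left (hZ w' hw'))
    · intro m hm
      obtain ⟨w, hw, y, hy, rfl⟩ := Submodule.mem_sup.mp hm
      obtain ⟨w', hw', rfl⟩ := Submodule.mem_map.mp hy
      rw [map_add, hTU]
      exact Submodule.add_mem _ (Submodule.mem_sup_left (hT w hw))
        (Submodule.mem_sup_right (Submodule.mem_map_of_mem (hT _ (hZ w' hw'))))
  -- W ≠ 0
  obtain ⟨m₀, hm₀⟩ := exists_ne (0 : M)
  have hx₀ : ∃ x, D x = x ∧ x ≠ 0 := by
    obtain ⟨x, y, hx, hy, hm⟩ := hsum m₀
    by_cases hx0 : x = 0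
    · refine ⟨U y, ?_, ?_⟩
      · rw [← hUC, hy]
      · intro h
        have hy0 : y = 0 := hUinj y 0 (by rw [h, map_zero])
        apply hm₀
        rw [hm, hx0, hy0, add_zero]
    · exact ⟨x, hx, hx0⟩
  obtain ⟨x₀, hx₀D, hx₀0⟩ := hx₀
  -- T trivial on W
  have hTW : ∀ x, D x = x → T x = x := by
    let W₁ : Submodule (ZMod 2) M := LinearMap.ker (D - LinearMap.id) ⊓ LinearMap.ker (T - LinearMap.id)
    have hmem : ∀ w, w ∈ W₁ ↔ D w = w ∧ T w = w := by
      intro w
      simp only [W₁, Submodule.mem_inf, LinearMap.mem_ker, LinearMap.sub_apply, LinearMap.id_apply,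
        sub_eq_zero]
    have hne₁ : W₁ ≠ ⊥ := by
      intro hbot
      have key : ∀ w, D w = w → T w = w → w = 0 := by
        intro w h1 h3
        have : w ∈ W₁ := (hmem w).mpr ⟨h1, h3⟩
        rw [hbot] at this
        exact this
      by_cases hT : T x₀ = x₀
      · exact hx₀0 (key x₀ hx₀D hT)
      · have hDT : D (T x₀) = T x₀ := by
          have h1 := hTD x₀
          rw [hx₀D] at h1
          have h3 := hD3 (T x₀)
          rw [← h1] at h3
          exact h3
        have := key (x₀ + T x₀) (by rw [map_add, hx₀D, hDT]) (by rw [map_add, hTT, add_comm])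
        apply hT
        have h4 : x₀ + T x₀ = x₀ + x₀ := by rw [this, h2]
        exact add_left_cancel h4
    intro x hx
    have := hfill W₁ hne₁ (fun w hw => ((hmem w).mp hw).1) ?_ ?_ ?_ x hx
    · exact ((hmem x).mp this).2
    · intro w hw
      obtain ⟨h1, h3⟩ := (hmem w).mp hw
      refine (hmem _).mpr ⟨?_, ?_⟩
      · rw [← hCD, h1]
      · rw [hTC, h3]
    · intro w hw
      obtain ⟨h1, h3⟩ := (hmem w).mp hw
      refine (hmem _).mpr ⟨?_, ?_⟩
      · have h4 := hZD w
        rw [h1] at h4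
        have h5 := hD3 (U (U w))
        rw [← h4] at h5
        exact h5
      · rw [← hZT, h3]
    · intro w hw
      obtain ⟨h1, h3⟩ := (hmem w).mp hw
      rw [h3]
      exact hw
  -- Z-fixed vector
  have hw : ∃ w, D w = w ∧ U (U w) = w ∧ w ≠ 0 := by
    by_cases hZ : U (U x₀) = x₀
    · exact ⟨x₀, hx₀D, hZ, hx₀0⟩
    · refine ⟨x₀ + U (U x₀), ?_, ?_, ?_⟩
      · have h1 := hZD x₀
        rw [hx₀D] at h1
        have h3 := hD3 (U (U x₀))
        rw [← h1] at h3
        rw [map_add, hx₀D, h3]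
      · rw [map_add, map_add, hU4, add_comm]
      · intro h
        apply hZ
        have h4 : x₀ + U (U x₀) = x₀ + x₀ := by rw [h, h2]
        exact add_left_cancel h4
  obtain ⟨w, hwD, hwZ, hw0⟩ := hw
  have hDC : D (C w) = C w := by rw [← hCD, hwD]
  have hCC : C (C w) = w + C w := by
    have : w + C w + C (C w) = 0 := by
      apply h0
      · rw [map_add, map_add, hC3]
        abel
      · rw [map_add, map_add, hwD, hDC, ← hCD, hDC]
    have h5 : C (C w) + (w + C w + C (C w)) = C (C w) := by rw [this, add_zero]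
    have h6 : C (C w) + (w + C w + C (C w)) = w + C w + (C (C w) + C (C w)) := by abel
    rw [h6, h2, add_zero] at h5
    exact h5.symm
  have hZCw : U (U (C w)) = w + C w := by rw [hZC, hwZ, hCC]
  have hCw_ne : C w ≠ w := by
    intro h
    exact hw0 (h0 w h hwD)
  -- W = span
  let W₂ : Submodule (ZMod 2) M := Submodule.span (ZMod 2) {w, C w}
  have hW₂ : ∀ x, D x = x → ∃ a b : ZMod 2, a • w + b • C w = x := by
    intro x hx
    have hmem : x ∈ W₂ := by
      apply hfill W₂ _ _ _ _ _ x hx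
      · intro h
        have : w ∈ W₂ := Submodule.subset_span (by simp)
        rw [h] at this
        exact hw0 this
      · intro y hy
        induction hy using Submodule.span_induction with
        | mem y hy =>
          rcases hy with rfl | hy
          · exact hwD
          · have hy' : y = C w := hy
            rw [hy']; exact hDC
        | zero => simp
        | add a b _ _ ha hb => rw [map_add, ha, hb]
        | smul r a _ ha => rw [map_smul, ha]
      · intro y hy
        induction hy using Submodule.span_induction with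
        | mem y hy =>
          rcases hy with rfl | hy
          · exact Submodule.subset_span (by simp)
          · have hy' : y = C w := hy
            rw [hy', hCC]
            exact Submodule.add_mem _ (Submodule.subset_span (by simp)) (Submodule.subset_span (by simp))
        | zero => simp
        | add a b _ _ ha hb => rw [map_add]; exact Submodule.add_mem _ ha hb
        | smul r a _ ha => rw [map_smul]; exact Submodule.smul_mem _ _ ha
      · intro y hy
        induction hy using Submodule.span_induction with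
        | mem y hy =>
          rcases hy with rfl | hy
          · rw [hwZ]; exact Submodule.subset_span (by simp)
          · have hy' : y = C w := hy
            rw [hy', hZCw]
            exact Submodule.add_mem _ (Submodule.subset_span (by simp)) (Submodule.subset_span (by simp))
        | zero => simp
        | add a b _ _ ha hb => simp only [map_add]; exact Submodule.add_mem _ ha hb
        | smul r a _ ha => simp only [map_smul]; exact Submodule.smul_mem _ _ ha
      · intro y hy
        induction hy using Submodule.span_induction with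
        | mem y hy =>
          rcases hy with rfl | hy
          · rw [hTW _ hwD]; exact Submodule.subset_span (by simp)
          · have hy' : y = C w := hy
            rw [hy', hTW _ hDC]
            exact Submodule.subset_span (by simp)
        | zero => simp
        | add a b _ _ ha hb => simp only [map_add]; exact Submodule.add_mem _ ha hb
        | smul r a _ ha => simp only [map_smul]; exact Submodule.smul_mem _ _ ha
    obtain ⟨a, b, h⟩ := Submodule.mem_span_pair.mp hmem
    exact ⟨a, b, h⟩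
  -- coordinates
  let f : V4 → M := fun v => v.1 • w + v.2.1 • C w + v.2.2.1 • U w + v.2.2.2 • U (C w)
  -- independence inside W
  have hind : ∀ a b : ZMod 2, a • w + b • C w = 0 → a = 0 ∧ b = 0 := by
    have hz : ∀ a : ZMod 2, a = 0 ∨ a = 1 := by decide
    intro a b h
    rcases hz a with rfl | rfl <;> rcases hz b with rfl | rfl
    · exact ⟨rfl, rfl⟩
    · exfalso
      simp only [zero_smul, one_smul, zero_add] at h
      apply hw0
      have := hC3 w
      rw [h, map_zero, map_zero] at this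
      exact this.symm
    · exfalso
      simp only [zero_smul, one_smul, add_zero] at h
      exact hw0 h
    · exfalso
      simp only [one_smul] at h
      apply hCw_ne
      have h4 : w + C w = w + w := by rw [h, h2]
      exact add_left_cancel h4
  have hfinj : Function.Injective f := by
    have hkey : ∀ v, f v = 0 → v = 0 := by
      rintro ⟨a, b, e, g⟩ h
      simp only [f] at h
      set x := a • w + b • C w with hxdef
      set x' := e • w + g • C w with hx'def
      have hxD : D x = x := by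
        simp only [hxdef, map_add, map_smul, hwD, hDC]
      have hx'D : D x' = x' := by
        simp only [hx'def, map_add, map_smul, hwD, hDC]
      have hCUx' : C (U x') = U x' := by
        have h1 := hUD x'
        rw [hx'D] at h1
        have h3 := hC3 (U x')
        rw [← h1] at h3
        exact h3
      have hsplit : x + U x' = 0 := by
        rw [← h, hxdef, hx'def]
        simp only [map_add, map_smul]
        abel
      have hUx'_eq : U x' = x := by
        have h5 : x + U x' = x + x := by rw [hsplit, h2]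
        exact add_left_cancel h5
      have hx0 : x = 0 := by
        apply h0 x _ hxD
        rw [← hUx'_eq]
        exact hCUx'
      have hx'0 : x' = 0 := by
        have : U x' = U 0 := by rw [hUx'_eq, hx0, map_zero]
        exact hUinj _ _ this
      obtain ⟨ha, hb⟩ := hind a b hx0
      obtain ⟨he, hg⟩ := hind e g hx'0
      subst ha hb he hg
      rfl
    intro v v' hvv'
    have : f (v + v') = 0 := by
      have hadd : f (v + v') = f v + f v' := by
        obtain ⟨a, b, e, g⟩ := v
        obtain ⟨a', b', e', g'⟩ := v'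
        change (a + a') • w + (b + b') • C w + (e + e') • U w + (g + g') • U (C w) = _
        simp only [f, add_smul]
        abel
      rw [hadd, hvv', h2]
    have h3 := hkey _ this
    have h4 : v + v' = v' + v' := by
      rw [h3]
      have : ∀ t : V4, t + t = 0 := by decide
      rw [this]
    exact add_right_cancel h4
  have hfsurj : Function.Surjective f := by
    intro m
    obtain ⟨x, y, hx, hy, rfl⟩ := hsum m
    obtain ⟨a, b, hab⟩ := hW₂ x hx
    have hx' : D (U (U (U y))) = U (U (U y)) := by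
      apply hUinj
      rw [hUD, hU4, hy, hy]
    obtain ⟨e, g, heg⟩ := hW₂ _ hx'
    refine ⟨(a, b, e, g), ?_⟩
    have hyeq : y = U (e • w + g • C w) := by rw [heg, hU4]
    simp only [f]
    rw [← hab, hyeq]
    simp only [map_add, map_smul]
    abel
  let F : V4 ≃ M := Equiv.ofBijective f ⟨hfinj, hfsurj⟩
  have hFf : ∀ v, F v = f v := fun _ => rfl
  have hcardV : Nat.card V4 = 16 := by
    simp only [V4, Nat.card_eq_fintype_card]
    rfl
  have hZf : ∀ v : V4, U (U (f v)) = f (v.1 + v.2.1, v.2.1, v.2.2.1 + v.2.2.2, v.2.2.2) := by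
    rintro ⟨a, b, e, g⟩
    simp only [f, map_add, map_smul, hwZ, hZCw]
    module
  have hTw : T w = w := hTW _ hwD
  have hTCw : T (C w) = C w := hTW _ hDC
  have hTUw : T (U w) = U w := by
    rw [hTU, hwZ, hTw]
  have hTUCw : T (U (C w)) = U w + U (C w) := by
    rw [hTU, hZCw, map_add, hTw, hTCw, map_add]
  have hTf : ∀ v : V4, T (f v) = f (v.1, v.2.1, v.2.2.1 + v.2.2.2, v.2.2.2) := by
    rintro ⟨a, b, e, g⟩
    simp only [f, map_add, map_smul, hTw, hTCw, hTUw, hTUCw]
    module
  have hTUf : ∀ v : V4, T (U (f v)) = f (v.2.2.1 + v.2.2.2, v.2.2.2, v.1 + v.2.1, v.2.1) := by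
    rintro ⟨a, b, e, g⟩
    simp only [f, map_add, map_smul, hTUw, hTUCw, hwZ, hZCw, hTw, hTCw]
    module
  refine ⟨?_, ?_, ?_⟩
  · rw [← Nat.card_congr F, hcardV]
  · have he : {v : V4 // v.2.1 = 0 ∧ v.2.2.2 = 0} ≃ {m : M // U (U m) = m ∧ T m = m} :=
      F.subtypeEquiv (by
        rintro ⟨a, b, e, g⟩
        rw [hFf, hZf, hTf]
        simp only [hfinj.eq_iff, Prod.mk.injEq]
        revert a b e g
        decide)
    rw [← Nat.card_congr he, Nat.card_eq_fintype_card]
    rfl
  · have he : {v : V4 // v.2.1 = 0 ∧ v.2.2.2 = 0 ∧ v.1 = v.2.2.1} ≃ {m : M // U (U m) = m ∧ T (U m) = m} :=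
      F.subtypeEquiv (by
        rintro ⟨a, b, e, g⟩
        rw [hFf, hZf, hTUf]
        simp only [hfinj.eq_iff, Prod.mk.injEq]
        revert a b e g
        decide)
    rw [← Nat.card_congr he, Nat.card_eq_fintype_card]
    rfl


open DihedralGroup in
lemma d4_facts :
    ((r 1 : DihedralGroup 4) ^ 4 = 1) ∧ ((sr 0 : DihedralGroup 4) * sr 0 = 1) ∧
    ((r 1 : DihedralGroup 4) * sr 0 = sr 0 * r 1 * r 1 * r 1) ∧ ((r 1 : DihedralGroup 4) * r 1 = r 2) ∧
    ((r 2 : DihedralGroup 4) ≠ 1) ∧ ((sr 0 : DihedralGroup 4) ≠ r 2) ∧ ((sr 0 : DihedralGroup 4) * r 1 = sr 1) ∧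
    ((sr 1 : DihedralGroup 4) * r 1 = sr 2) ∧ ((sr 1 : DihedralGroup 4) * sr 1 = 1) ∧
    ((r 1 : DihedralGroup 4) * sr 1 = sr 1 * r 1 * r 1 * r 1) ∧ ((sr 1 : DihedralGroup 4) ≠ r 2) := by
  decide

/-- generators inside `G`-action on a submodule. -/
lemma inv_gens {S : Type*} [Group S] [Finite S] {M : Type*} [AddCommGroup M] [Module (ZMod 2) M]
    (ρ : Representation (ZMod 2) S M) (T : Set S) (hT : Subgroup.closure T = ⊤)
    (N : Submodule (ZMod 2) M)
    (h : ∀ g ∈ T, ∀ m ∈ N, ρ g m ∈ N) : ∀ s : S, ∀ m ∈ N, ρ s m ∈ N := by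
  have hpow : ∀ (g : S), (∀ m ∈ N, ρ g m ∈ N) → ∀ k : ℕ, ∀ m ∈ N, ρ (g ^ k) m ∈ N := by
    intro g hg k
    induction k with
    | zero => intro m hm; simpa using hm
    | succ k ih =>
      intro m hm
      rw [pow_succ, map_mul, Module.End.mul_apply]
      exact ih _ (hg m hm)
  intro s
  have hs : s ∈ Subgroup.closure T := by rw [hT]; trivial
  induction hs using Subgroup.closure_induction with
  | mem x hx => exact h x hx
  | one => intro m hm; simpa using hm
  | mul x y _ _ hx hy =>
    intro m hm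
    rw [map_mul, Module.End.mul_apply]
    exact hx _ (hy m hm)
  | inv x _ hx =>
    have hinv : x⁻¹ = x ^ (orderOf x - 1) := by
      rw [eq_comm, ← mul_right_inj x, mul_inv_cancel, ← pow_succ']
      rw [Nat.sub_add_cancel (orderOf_pos x), pow_orderOf_eq_one]
    rw [hinv]
    exact hpow x hx _

/-- The group-level configuration yields the result. -/
lemma cfg_apply {S : Type*} [Group S] [Finite S] {M : Type*} [AddCommGroup M] [Module (ZMod 2) M] [Finite M]
    (ρ : Representation (ZMod 2) S M)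
    (hirr : ∀ N : Submodule (ZMod 2) M, (∀ s : S, ∀ m ∈ N, ρ s m ∈ N) → N = ⊥ ∨ N = ⊤) (hne : Nontrivial M)
    (c d u τ : S) (hc3 : c ^ 3 = 1) (hd3 : d ^ 3 = 1) (hcd : c * d = d * c) (huc : u * c = d * u)
    (hud : u * d = c * c * u) (hττ : τ * τ = 1) (hτc : τ * c = c * τ) (hτd : τ * d = d * d * τ)
    (hu4 : u ^ 4 = 1) (huτ : u * τ = τ * u * u * u)
    (hclos : Subgroup.closure ({c, d, u, τ} : Set S) = ⊤)
    (h0 : ∀ m, ρ c m = m → ρ d m = m → m = 0)
    (hsum : ∀ m, ∃ x y, ρ d x = x ∧ ρ c y = y ∧ m = x + y) :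
    Nat.card M = 16 ∧ Nat.card {m : M // ρ (u * u) m = m ∧ ρ τ m = m} = 4 ∧
      Nat.card {m : M // ρ (u * u) m = m ∧ ρ (τ * u) m = m} = 2 := by
  have happ : ∀ (g h : S) (m : M), ρ (g * h) m = ρ g (ρ h m) := by
    intro g h m
    rw [map_mul, Module.End.mul_apply]
  have hone : ∀ (g : S) (m : M), g = 1 → ρ g m = m := by
    intro g m hg
    rw [hg, map_one, Module.End.one_apply]
  have := core (ρ c) (ρ d) (ρ u) (ρ τ)
    (fun m => by
      rw [← happ, ← happ]
      exact hone _ _ (by rw [← hc3, pow_succ, pow_succ, pow_one]))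
    (fun m => by
      rw [← happ, ← happ]
      exact hone _ _ (by rw [← hd3, pow_succ, pow_succ, pow_one]))
    (fun m => by rw [← happ, ← happ, hcd])
    (fun m => by rw [← happ, ← happ, huc])
    (fun m => by rw [← happ, hud, happ, happ])
    (fun m => by
      rw [← happ]
      exact hone _ _ hττ)
    (fun m => by rw [← happ, ← happ, hτc])
    (fun m => by rw [← happ, hτd, happ, happ])
    (fun m => by
      rw [← happ, ← happ, ← happ]
      exact hone _ _ (by rw [← hu4, pow_succ, pow_succ, pow_succ, pow_one]))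
    (fun m => by rw [← happ, huτ, happ, happ, happ])
    h0 hsum
    (fun N h1 h3 h4 h5 => hirr N (inv_gens ρ _ hclos N (by
      intro g hg
      rcases hg with rfl | rfl | rfl | hg
      · exact h1
      · exact h3
      · exact h4
      · have hg' : g = τ := hg
        rw [hg']
        exact h5)))
    hne
  obtain ⟨h1, h3, h4⟩ := this
  refine ⟨h1, ?_, ?_⟩
  · refine (Nat.card_congr ?_).trans h3
    apply Equiv.subtypeEquivRight
    intro m
    rw [happ]
  · refine (Nat.card_congr ?_).trans h4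
    apply Equiv.subtypeEquivRight
    intro m
    rw [happ, happ]

/-- Group-level analysis of `A` under a faithful `D₈`. -/
lemma z_inverts {S : Type*} [Group S] [Finite S]
    (A : Subgroup S) [hAn : A.Normal] (hAc : ∀ a ∈ A, ∀ b ∈ A, a * b = b * a) (hA3 : ∀ a ∈ A, a ^ 3 = 1)
    (hA9 : Nat.card ↥A = 9)
    (hAC : ∀ g : S, (∀ a ∈ A, g * a = a * g) → g ∈ A)
    (u t z : S) (hz : z = u * u) (hu4 : u ^ 4 = 1) (htt : t * t = 1) (hut : u * t = t * u * u * u)
    (hz1 : z ≠ 1) (a : S) (ha : a ∈ A) :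
    z * a * z⁻¹ = a⁻¹ := by
  have hu4' : u * u * u * u = 1 := by rw [← hu4, pow_succ, pow_succ, pow_succ, pow_one]
  have hzz : z * z = 1 := by
    rw [hz, ← hu4']; group
  have hzinv : z⁻¹ = z := by
    rw [inv_eq_iff_mul_eq_one]; exact hzz
  have hzc : ∀ b ∈ A, z * b * z⁻¹ ∈ A := fun b hb => hAn.conj_mem b hb z
  have hzu : u * z = z * u := by rw [hz]; group
  have hzt : t * z = z * t := by
    have h1 : z * t = t * u * u * u * u * u * u := by
      calc z * t = u * (u * t) := by rw [hz]; group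
        _ = u * (t * u * u * u) := by rw [hut]
        _ = (u * t) * u * u * u := by group
        _ = t * u * u * u * u * u * u := by rw [hut]
    have h2 : t * u * u * u * u * u * u = t * z := by
      calc t * u * u * u * u * u * u = t * (u * u * u * u) * (u * u) := by group
        _ = t * z := by rw [hu4', mul_one, hz]
    rw [h1, h2]
  let I : Subgroup S :=
    { carrier := {b | b ∈ A ∧ z * b * z⁻¹ = b⁻¹}
      mul_mem' := by
        rintro x y ⟨hx, hx'⟩ ⟨hy, hy'⟩
        refine ⟨A.mul_mem hx hy, ?_⟩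
        calc z * (x * y) * z⁻¹ = (z * x * z⁻¹) * (z * y * z⁻¹) := by group
          _ = x⁻¹ * y⁻¹ := by rw [hx', hy']
          _ = (y * x)⁻¹ := by group
          _ = (x * y)⁻¹ := by rw [hAc y hy x hx]
      one_mem' := ⟨A.one_mem, by group⟩
      inv_mem' := by
        rintro x ⟨hx, hx'⟩
        refine ⟨A.inv_mem hx, ?_⟩
        calc z * x⁻¹ * z⁻¹ = (z * x * z⁻¹)⁻¹ := by group
          _ = x⁻¹⁻¹ := by rw [hx'] }
  have hIA : I ≤ A := fun x hx => hx.1
  have hzA : z ∉ A := by
    intro h
    apply hz1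
    have h3 := hA3 z h
    have h4 : z ^ 3 = z := by
      rw [pow_succ, pow_two, hzz, one_mul]
    rw [← h4, h3]
  have hI1 : ∃ i ∈ I, i ≠ 1 := by
    by_contra hcon
    push Not at hcon
    apply hzA
    apply hAC
    intro b hb
    have hi : b⁻¹ * (z * b * z⁻¹) ∈ I := by
      refine ⟨A.mul_mem (A.inv_mem hb) (hzc b hb), ?_⟩
      calc z * (b⁻¹ * (z * b * z⁻¹)) * z⁻¹ = (z * b⁻¹ * z⁻¹) * ((z * z) * b * (z * z)⁻¹) := by group
        _ = (z * b⁻¹ * z⁻¹) * b := by rw [hzz]; group
        _ = (b⁻¹ * (z * b * z⁻¹))⁻¹ := by group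
    have h6 := hcon _ hi
    have h5 : z * b * z⁻¹ = b := by
      rw [inv_mul_eq_one] at h6
      exact h6.symm
    calc z * b = z * b * z⁻¹ * z := by group
      _ = b * z := by rw [h5]
  by_contra hcon
  have haI : a ∉ I := fun h => hcon h.2
  obtain ⟨i, hiI, hi1⟩ := hI1
  have hcardI : Nat.card I = 3 := by
    have hdvd : Nat.card I ∣ 3 ^ 2 := by
      have := Subgroup.card_dvd_of_le hIA
      rw [hA9] at this
      exact this
    obtain ⟨k, hk, hk'⟩ := (Nat.dvd_prime_pow Nat.prime_three).mp hdvd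
    interval_cases k
    · exfalso
      apply hi1
      have := Subgroup.eq_bot_of_card_eq I (by rw [hk']; norm_num)
      rw [this] at hiI
      exact hiI
    · rw [hk']; norm_num
    · exfalso
      apply haI
      have : I = A := Subgroup.eq_of_le_of_card_ge hIA (by rw [hk', hA9]; norm_num)
      rw [this]; exact ha
  have hi3 : i ^ 3 = 1 := hA3 i hiI.1
  have hord : orderOf i = 3 := orderOf_eq_prime hi3 hi1
  have hzp : Subgroup.zpowers i = I := by
    apply Subgroup.eq_of_le_of_card_ge
    · rw [Subgroup.zpowers_le]; exact hiI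
    · rw [hcardI, Nat.card_zpowers, hord]
  have hconj : ∀ x : S, x * z = z * x → ∃ k : ℤ, i ^ k = x * i * x⁻¹ := by
    intro x hx
    have : x * i * x⁻¹ ∈ I := by
      refine ⟨hAn.conj_mem i hiI.1 x, ?_⟩
      have hx' : z * x = x * z := hx.symm
      have hx'' : x⁻¹ * z⁻¹ = z⁻¹ * x⁻¹ := by
        rw [← mul_inv_rev, ← mul_inv_rev, hx]
      calc z * (x * i * x⁻¹) * z⁻¹ = (z * x) * i * (x⁻¹ * z⁻¹) := by group
        _ = (x * z) * i * (z⁻¹ * x⁻¹) := by rw [hx', hx'']
        _ = x * (z * i * z⁻¹) * x⁻¹ := by group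
        _ = x * i⁻¹ * x⁻¹ := by rw [hiI.2]
        _ = (x * i * x⁻¹)⁻¹ := by group
    rw [← hzp] at this
    exact Subgroup.mem_zpowers_iff.mp this
  obtain ⟨k, hk⟩ := hconj u hzu
  obtain ⟨l, hl⟩ := hconj t hzt
  have h1 : (u * t) * i * (u * t)⁻¹ = i ^ (k * l) := by
    calc (u * t) * i * (u * t)⁻¹ = u * (t * i * t⁻¹) * u⁻¹ := by group
      _ = u * i ^ l * u⁻¹ := by rw [hl]
      _ = (u * i * u⁻¹) ^ l := by rw [conj_zpow]
      _ = (i ^ k) ^ l := by rw [hk]
      _ = i ^ (k * l) := by rw [zpow_mul]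
  have h3 : (t * u) * i * (t * u)⁻¹ = i ^ (k * l) := by
    calc (t * u) * i * (t * u)⁻¹ = t * (u * i * u⁻¹) * t⁻¹ := by group
      _ = t * i ^ k * t⁻¹ := by rw [hk]
      _ = (t * i * t⁻¹) ^ k := by rw [conj_zpow]
      _ = (i ^ l) ^ k := by rw [hl]
      _ = i ^ (k * l) := by rw [← zpow_mul, mul_comm]
  have h4 : u * t = t * u * z := by rw [hut, hz]; group
  have h5 : z * i * z⁻¹ = i := by
    have : (t * u) * (z * i * z⁻¹) * (t * u)⁻¹ = (t * u) * i * (t * u)⁻¹ := by
      rw [h3, ← h1, h4]; group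
    have h6 := mul_left_cancel (mul_right_cancel this)
    exact h6
  rw [hiI.2] at h5
  apply hi1
  have h6 : i * i = 1 := by
    have : i⁻¹ * i = i * i := by rw [h5]
    rw [← this]; group
  have h7 : i ^ 3 = i := by
    rw [pow_succ, pow_two, h6, one_mul]
  rw [← h7, hi3]

lemma exists_fix {S : Type*} [Group S] [Finite S]
    (A : Subgroup S) [hAn : A.Normal] (hAc : ∀ a ∈ A, ∀ b ∈ A, a * b = b * a) (hA3 : ∀ a ∈ A, a ^ 3 = 1)
    (hA9 : Nat.card ↥A = 9)
    (hAC : ∀ g : S, (∀ a ∈ A, g * a = a * g) → g ∈ A)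
    (z τ : S) (hzi : ∀ a ∈ A, z * a * z⁻¹ = a⁻¹) (hzz : z * z = 1) (hzτ : τ * z = z * τ) (hττ : τ * τ = 1)
    (hτz : τ ≠ z) :
    ∃ c ∈ A, c ≠ 1 ∧ τ * c = c * τ := by
  by_contra hcon
  push Not at hcon
  have hτinv : τ⁻¹ = τ := by rw [inv_eq_iff_mul_eq_one]; exact hττ
  have hzinv : z⁻¹ = z := by rw [inv_eq_iff_mul_eq_one]; exact hzz
  have hinv : ∀ a ∈ A, τ * a * τ⁻¹ = a⁻¹ := by
    intro a ha
    have h1 : τ * a * τ⁻¹ ∈ A := hAn.conj_mem a ha τ
    have hfix : τ * (a * (τ * a * τ⁻¹)) = (a * (τ * a * τ⁻¹)) * τ := by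
      have hb1 : τ * a = (τ * a * τ⁻¹) * τ := by group
      have hb2 : τ * (τ * a * τ⁻¹) = a * τ := by
        calc τ * (τ * a * τ⁻¹) = (τ * τ) * a * τ⁻¹ := by group
          _ = a * τ := by rw [hττ, one_mul, hτinv]
      calc τ * (a * (τ * a * τ⁻¹)) = (τ * a) * (τ * a * τ⁻¹) := by group
        _ = ((τ * a * τ⁻¹) * τ) * (τ * a * τ⁻¹) := by rw [← hb1]
        _ = (τ * a * τ⁻¹) * (τ * (τ * a * τ⁻¹)) := by group
        _ = (τ * a * τ⁻¹) * (a * τ) := by rw [hb2]
        _ = ((τ * a * τ⁻¹) * a) * τ := by group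
        _ = (a * (τ * a * τ⁻¹)) * τ := by rw [hAc _ h1 a ha]
    by_contra h3
    have h4 : a * (τ * a * τ⁻¹) ≠ 1 := by
      intro h5
      apply h3
      exact eq_inv_of_mul_eq_one_right h5
    exact hcon _ (A.mul_mem ha h1) h4 hfix
  have hmem : τ * z ∈ A := by
    apply hAC
    intro a ha
    have h1 := hzi a ha
    have h3 := hinv a⁻¹ (A.inv_mem ha)
    rw [inv_inv] at h3
    have : (τ * z) * a * (τ * z)⁻¹ = a := by
      calc (τ * z) * a * (τ * z)⁻¹ = τ * (z * a * z⁻¹) * τ⁻¹ := by group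
        _ = a := by rw [h1, h3]
    calc (τ * z) * a = (τ * z) * a * (τ * z)⁻¹ * (τ * z) := by group
      _ = a * (τ * z) := by rw [this]
  have h3 := hA3 _ hmem
  have h2 : (τ * z) * (τ * z) = 1 := by
    calc (τ * z) * (τ * z) = τ * (z * τ) * z := by group
      _ = τ * (τ * z) * z := by rw [hzτ]
      _ = (τ * τ) * (z * z) := by group
      _ = 1 := by rw [hττ, hzz, one_mul]
  have h4 : (τ * z) ^ 3 = τ * z := by
    rw [pow_succ, pow_two, h2, one_mul]
  rw [h4] at h3
  apply hτz
  calc τ = τ * z * z := by rw [mul_assoc, hzz, mul_one]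
    _ = z := by rw [h3, one_mul]


/-- The configuration attached to `(u, τ, c)`. -/
lemma cfg_rel {S : Type*} [Group S] [Finite S]
    (A : Subgroup S) [hAn : A.Normal] (hAc : ∀ a ∈ A, ∀ b ∈ A, a * b = b * a) (hA3 : ∀ a ∈ A, a ^ 3 = 1)
    (hA9 : Nat.card ↥A = 9)
    (u τ c : S) (hu4 : u ^ 4 = 1) (hττ : τ * τ = 1) (huτ : u * τ = τ * u * u * u)
    (hzi : ∀ a ∈ A, (u * u) * a * (u * u)⁻¹ = a⁻¹)
    (hc : c ∈ A) (hc1 : c ≠ 1) (hτc : τ * c = c * τ) :
    u * c * u⁻¹ ∈ A ∧ u * (u * c * u⁻¹) = c * c * u ∧ τ * (u * c * u⁻¹) = (u * c * u⁻¹) * (u * c * u⁻¹) * τ ∧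
      A ≤ Subgroup.closure {c, u * c * u⁻¹} := by
  have hu4' : u * u * u * u = 1 := by rw [← hu4, pow_succ, pow_succ, pow_succ, pow_one]
  have hc3 := hA3 c hc
  have hinv3 : ∀ x : S, x ^ 3 = 1 → x⁻¹ = x * x := by
    intro x hx
    rw [inv_eq_iff_mul_eq_one, ← hx, pow_succ, pow_succ, pow_one, mul_assoc]
  have hcinv : c⁻¹ = c * c := hinv3 c hc3
  have hdA : u * c * u⁻¹ ∈ A := hAn.conj_mem c hc u
  have hd3 := hA3 _ hdA
  have hdinv : (u * c * u⁻¹)⁻¹ = (u * c * u⁻¹) * (u * c * u⁻¹) := hinv3 _ hd3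
  have hud : u * (u * c * u⁻¹) = c * c * u := by
    have := hzi c hc
    rw [hcinv] at this
    calc u * (u * c * u⁻¹) = ((u * u) * c * (u * u)⁻¹) * u := by group
      _ = c * c * u := by rw [this]
  refine ⟨hdA, hud, ?_, ?_⟩
  · have hτinv : τ⁻¹ = τ := by rw [inv_eq_iff_mul_eq_one]; exact hττ
    have huinv : u⁻¹ = u * u * u := by
      rw [inv_eq_iff_mul_eq_one]; rw [← hu4']; group
    have hτu : τ * u = u⁻¹ * τ := by
      calc τ * u = u⁻¹ * (u * τ) * u := by group
        _ = u⁻¹ * (τ * u * u * u) * u := by rw [huτ]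
        _ = u⁻¹ * τ * (u * u * u * u) := by group
        _ = u⁻¹ * τ := by rw [hu4', mul_one]
    have hτui : τ * u⁻¹ = u * τ := by
      calc τ * u⁻¹ = u * (u⁻¹ * τ) * u⁻¹ := by group
        _ = u * (τ * u) * u⁻¹ := by rw [hτu]
        _ = u * τ := by group
    have h1 : τ * (u * c * u⁻¹) = (u⁻¹ * c * u) * τ := by
      calc τ * (u * c * u⁻¹) = (τ * u) * c * u⁻¹ := by group
        _ = u⁻¹ * (τ * c) * u⁻¹ := by rw [hτu]; group
        _ = u⁻¹ * c * (τ * u⁻¹) := by rw [hτc]; group
        _ = (u⁻¹ * c * u) * τ := by rw [hτui]; group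
    have h3 : u⁻¹ * c * u = (u * c * u⁻¹)⁻¹ := by
      have h4 : u⁻¹ = u * (u * u) := by rw [huinv]; group
      have h5 := hzi c hc
      have h6 : u = (u * u) * u⁻¹ := by group
      calc u⁻¹ * c * u = u * ((u * u) * c * (u * u)⁻¹) * ((u * u) * u) := by
            rw [h4]; group
        _ = u * c⁻¹ * ((u * u) * u * (u * u * u * u) ) := by rw [h5, hu4', mul_one]
        _ = u * c⁻¹ * ((u * u) * u) := by rw [hu4', mul_one]
        _ = u * c⁻¹ * u⁻¹ := by rw [huinv]
        _ = (u * c * u⁻¹)⁻¹ := by group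
    rw [h1, h3, hdinv]
  · -- generation
    set d := u * c * u⁻¹ with hd
    have hdnot : d ∉ Subgroup.zpowers c := by
      intro h
      obtain ⟨k, hk⟩ := Subgroup.mem_zpowers_iff.mp h
      have h1 : (u * u) * c * (u * u)⁻¹ = c ^ (k * k) := by
        calc (u * u) * c * (u * u)⁻¹ = u * (u * c * u⁻¹) * u⁻¹ := by group
          _ = u * c ^ k * u⁻¹ := by rw [← hd, hk]
          _ = (u * c * u⁻¹) ^ k := by rw [conj_zpow]
          _ = (c ^ k) ^ k := by rw [← hd, hk]
          _ = c ^ (k * k) := by rw [zpow_mul]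
      rw [hzi c hc] at h1
      have h3 : c ^ (k * k + 1) = 1 := by
        rw [zpow_add, ← h1, zpow_one]; group
      have hord : orderOf c = 3 := orderOf_eq_prime hc3 hc1
      have h4 : ((3 : ℕ) : ℤ) ∣ k * k + 1 := by
        rw [← hord]; exact orderOf_dvd_iff_zpow_eq_one.mpr h3
      have h5 : ¬ ((3 : ℤ) ∣ k * k + 1) := by
        intro h6
        have : (k * k + 1) % 3 = 0 := Int.emod_eq_zero_of_dvd h6
        have h7 : k % 3 = 0 ∨ k % 3 = 1 ∨ k % 3 = 2 := by omega
        rcases h7 with h7 | h7 | h7 <;> simp [Int.add_emod, Int.mul_emod, h7] at this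
      exact h5 (by exact_mod_cast h4)
    let K : Subgroup S := (Subgroup.closure {c, d}) ⊓ A
    have hKA : K ≤ A := inf_le_right
    have hcK : c ∈ K := ⟨Subgroup.subset_closure (by simp), hc⟩
    have hdK : d ∈ K := ⟨Subgroup.subset_closure (by simp), hdA⟩
    have hcardK : Nat.card K = 9 := by
      have hdvd : Nat.card K ∣ 3 ^ 2 := by
        have := Subgroup.card_dvd_of_le hKA
        rw [hA9] at this
        exact this
      obtain ⟨k, hk, hk'⟩ := (Nat.dvd_prime_pow Nat.prime_three).mp hdvd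
      have hord : orderOf c = 3 := orderOf_eq_prime hc3 hc1
      have hzle : Subgroup.zpowers c ≤ K := by
        rw [Subgroup.zpowers_le]; exact hcK
      have hdv3 : 3 ∣ Nat.card K := by
        have := Subgroup.card_dvd_of_le hzle
        rwa [Nat.card_zpowers, hord] at this
      interval_cases k
      · rw [hk'] at hdv3; norm_num at hdv3
      · exfalso
        apply hdnot
        have : Subgroup.zpowers c = K := Subgroup.eq_of_le_of_card_ge hzle (by
          rw [Nat.card_zpowers, hord, hk']; norm_num)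
        rw [this]; exact hdK
      · rw [hk']; norm_num
    have hKeq : K = A := Subgroup.eq_of_le_of_card_ge hKA (by rw [hcardK, hA9])
    intro a ha
    rw [← hKeq] at ha
    exact ha.1


/-- fixed vectors of `a` for `a ∈ A` and dichotomy for the "two line" submodule. -/
lemma pair_dichotomy {S : Type*} [Group S] [Finite S] {M : Type*} [AddCommGroup M] [Module (ZMod 2) M] [Finite M]
    (ρ : Representation (ZMod 2) S M)
    (hirr : ∀ N : Submodule (ZMod 2) M, (∀ s : S, ∀ m ∈ N, ρ s m ∈ N) → N = ⊥ ∨ N = ⊤)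
    (c d u τ : S) (hc3 : c ^ 3 = 1) (hd3 : d ^ 3 = 1) (hcd : c * d = d * c) (huc : u * c = d * u)
    (hud : u * d = c * c * u) (hτc : τ * c = c * τ) (hτd : τ * d = d * d * τ)
    (hclos : Subgroup.closure ({c, d, u, τ} : Set S) = ⊤) :
    (∀ m, ∃ x y, ρ d x = x ∧ ρ c y = y ∧ m = x + y) ∨
      ((∀ x, ρ d x = x → x = 0) ∧ (∀ y, ρ c y = y → y = 0)) := by
  have happ : ∀ (g h : S) (m : M), ρ (g * h) m = ρ g (ρ h m) := by
    intro g h m
    rw [map_mul, Module.End.mul_apply]
  have hone : ∀ (g : S) (m : M), g = 1 → ρ g m = m := by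
    intro g m hg
    rw [hg, map_one, Module.End.one_apply]
  have hC3 : ∀ m, ρ c (ρ c (ρ c m)) = m := fun m => by
    rw [← happ, ← happ]
    exact hone _ _ (by rw [← hc3, pow_succ, pow_succ, pow_one])
  have hD3 : ∀ m, ρ d (ρ d (ρ d m)) = m := fun m => by
    rw [← happ, ← happ]
    exact hone _ _ (by rw [← hd3, pow_succ, pow_succ, pow_one])
  have hCD : ∀ m, ρ c (ρ d m) = ρ d (ρ c m) := fun m => by rw [← happ, ← happ, hcd]
  have hUC : ∀ m, ρ u (ρ c m) = ρ d (ρ u m) := fun m => by rw [← happ, ← happ, huc]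
  have hUD : ∀ m, ρ u (ρ d m) = ρ c (ρ c (ρ u m)) := fun m => by rw [← happ, hud, happ, happ]
  have hTC : ∀ m, ρ τ (ρ c m) = ρ c (ρ τ m) := fun m => by rw [← happ, ← happ, hτc]
  have hTD : ∀ m, ρ τ (ρ d m) = ρ d (ρ d (ρ τ m)) := fun m => by rw [← happ, hτd, happ, happ]
  let Fd : Submodule (ZMod 2) M := LinearMap.ker (ρ d - LinearMap.id)
  let Fc : Submodule (ZMod 2) M := LinearMap.ker (ρ c - LinearMap.id)
  have hFd : ∀ x, x ∈ Fd ↔ ρ d x = x := by
    intro x; simp only [Fd, LinearMap.mem_ker, LinearMap.sub_apply, LinearMap.id_apply, sub_eq_zero]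
  have hFc : ∀ x, x ∈ Fc ↔ ρ c x = x := by
    intro x; simp only [Fc, LinearMap.mem_ker, LinearMap.sub_apply, LinearMap.id_apply, sub_eq_zero]
  have hstep : ∀ (g : S), (∀ x, ρ d x = x → ρ d (ρ g x) = ρ g x ∨ ρ c (ρ g x) = ρ g x) →
      (∀ y, ρ c y = y → ρ d (ρ g y) = ρ g y ∨ ρ c (ρ g y) = ρ g y) → ∀ m ∈ Fd ⊔ Fc, ρ g m ∈ Fd ⊔ Fc := by
    intro g h1 h3 m hm
    obtain ⟨x, hx, y, hy, rfl⟩ := Submodule.mem_sup.mp hm
    rw [map_add]
    apply Submodule.add_mem
    · rcases h1 x ((hFd x).mp hx) with h | h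
      · exact Submodule.mem_sup_left ((hFd _).mpr h)
      · exact Submodule.mem_sup_right ((hFc _).mpr h)
    · rcases h3 y ((hFc y).mp hy) with h | h
      · exact Submodule.mem_sup_left ((hFd _).mpr h)
      · exact Submodule.mem_sup_right ((hFc _).mpr h)
  have hP := hirr (Fd ⊔ Fc) (inv_gens ρ _ hclos _ (by
    intro g hg
    rcases hg with rfl | rfl | rfl | hg
    · apply hstep
      · intro x hx; left; rw [← hCD, hx]
      · intro y hy; right; rw [hy, hy]
    · apply hstep
      · intro x hx; left; rw [hx, hx]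
      · intro y hy; right; rw [hCD, hy]
    · apply hstep
      · intro x hx; right
        have h1 := hUD x
        rw [hx] at h1
        have h3 := hC3 (ρ g x)
        rw [← h1] at h3
        exact h3
      · intro y hy; left
        have h1 := hUC y
        rw [hy] at h1
        exact h1.symm
    · have hg' : g = τ := hg
      rw [hg']
      apply hstep
      · intro x hx; left
        have h1 := hTD x
        rw [hx] at h1
        have h3 := hD3 (ρ τ x)
        rw [← h1] at h3
        exact h3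
      · intro y hy; right
        have h1 := hTC y
        rw [hy] at h1
        exact h1.symm))
  rcases hP with hP | hP
  · right
    constructor
    · intro x hx
      have : x ∈ Fd ⊔ Fc := Submodule.mem_sup_left ((hFd x).mpr hx)
      rw [hP] at this
      exact this
    · intro y hy
      have : y ∈ Fd ⊔ Fc := Submodule.mem_sup_right ((hFc y).mpr hy)
      rw [hP] at this
      exact this
  · left
    intro m
    have : m ∈ Fd ⊔ Fc := by rw [hP]; trivial
    obtain ⟨x, hx, y, hy, rfl⟩ := Submodule.mem_sup.mp this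
    exact ⟨x, y, (hFd x).mp hx, (hFc y).mp hy, rfl⟩

/-- the decomposition into four lines -/
lemma four_lines {M : Type*} [AddCommGroup M] [Module (ZMod 2) M]
    (C D : M →ₗ[ZMod 2] M)
    (hC3 : ∀ m, C (C (C m)) = m) (hD3 : ∀ m, D (D (D m)) = m) (hCD : ∀ m, C (D m) = D (C m))
    (h0 : ∀ m, C m = m → D m = m → m = 0) (m : M) :
    ∃ x₁ x₂ x₃ x₄, C x₁ = x₁ ∧ D x₂ = x₂ ∧ D (C x₃) = x₃ ∧ C (D (D x₄)) = x₄ ∧ m = x₁ + x₂ + x₃ + x₄ := by
  have h2 := @two_add M _ _
  have hDC : ∀ m, D (C m) = C (D m) := fun m => (hCD m).symm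
  have hC3' : ∀ m, C (C (C m)) = m := hC3
  let x₅ := m + C m + C (C m) + D m + C (D m) + C (C (D m)) + D (D m) + C (D (D m)) + C (C (D (D m)))
  have hx₅ : x₅ = 0 := by
    apply h0
    · simp only [x₅, map_add, hC3]
      abel
    · simp only [x₅, map_add, hDC, hD3]
      abel
  refine ⟨m + C m + C (C m), m + D m + D (D m), m + C (D m) + C (C (D (D m))), m + C (D (D m)) + C (C (D m)),
    ?_, ?_, ?_, ?_, ?_⟩
  · simp only [map_add, hC3]
    abel
  · simp only [map_add, hD3]
    abel
  · simp only [map_add, hDC, hC3, hD3]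
    abel
  · simp only [map_add, hDC, hC3, hD3]
    abel
  · have key : m + C m + C (C m) + (m + D m + D (D m)) + (m + C (D m) + C (C (D (D m)))) +
        (m + C (D (D m)) + C (C (D m))) + x₅ =
        m + ((m + m + C m + C (C m) + D m + D (D m) + C (D m) + C (C (D (D m))) + C (D (D m)) + C (C (D m))) +
          (m + m + C m + C (C m) + D m + D (D m) + C (D m) + C (C (D (D m))) + C (D (D m)) + C (C (D m)))) := by
      simp only [x₅]
      abel
    rw [h2, add_zero, hx₅, add_zero] at key
    exact key.symm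

open DihedralGroup in
lemma d4_gen (a : DihedralGroup 4) (ha : a = sr 0 ∨ a = sr 1) (y : DihedralGroup 4) :
    ∃ (k l : Fin 4), y = (r 1 : DihedralGroup 4) ^ (k : ℕ) * a ^ (l : ℕ) := by
  revert y
  rcases ha with rfl | rfl <;> decide

open DihedralGroup in
lemma d4_card0 : Nat.card (Subgroup.centralizer {(sr 0 : DihedralGroup 4)}) = 4 := by
  have : Nat.card (Subgroup.centralizer {(sr 0 : DihedralGroup 4)}) =
      Nat.card {x : DihedralGroup 4 // x * sr 0 = sr 0 * x} :=
    Nat.card_congr (Equiv.subtypeEquivRight (fun x => Subgroup.mem_centralizer_singleton_iff))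
  rw [this, Nat.card_eq_fintype_card]
  decide

open DihedralGroup in
lemma d4_card1 : Nat.card (Subgroup.centralizer {(sr 1 : DihedralGroup 4)}) = 4 := by
  have : Nat.card (Subgroup.centralizer {(sr 1 : DihedralGroup 4)}) =
      Nat.card {x : DihedralGroup 4 // x * sr 1 = sr 1 * x} :=
    Nat.card_congr (Equiv.subtypeEquivRight (fun x => Subgroup.mem_centralizer_singleton_iff))
  rw [this, Nat.card_eq_fintype_card]
  decide

open DihedralGroup in
lemma d4_four (B : Subgroup (DihedralGroup 4)) (hB : Nat.card B = 4) (hB2 : ∀ b ∈ B, b ^ 2 = 1) :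
    B = Subgroup.centralizer {(sr 0 : DihedralGroup 4)} ∨ B = Subgroup.centralizer {(sr 1 : DihedralGroup 4)} := by
  have hc0 := d4_card0
  have hc1 := d4_card1
  have key1 : ∀ x y : DihedralGroup 4, x ^ 2 = 1 → y ^ 2 = 1 → (x * y) ^ 2 = 1 → (x = sr 1 ∨ x = sr 3) →
      sr 1 * y = y * sr 1 := by decide
  have key0 : ∀ y : DihedralGroup 4, y ^ 2 = 1 → y ≠ sr 1 → y ≠ sr 3 → sr 0 * y = y * sr 0 := by decide
  by_cases h : ∃ x ∈ B, x = sr 1 ∨ x = sr 3
  · obtain ⟨x, hx, hx'⟩ := h
    right
    apply Subgroup.eq_of_le_of_card_ge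
    · intro y hy
      rw [Subgroup.mem_centralizer_singleton_iff]
      have := key1 x y (hB2 x hx) (hB2 y hy) (hB2 _ (B.mul_mem hx hy)) hx'
      exact this.symm
    · rw [hB, hc1]
  · push Not at h
    left
    apply Subgroup.eq_of_le_of_card_ge
    · intro y hy
      rw [Subgroup.mem_centralizer_singleton_iff]
      exact (key0 y (hB2 y hy) (h y hy).1 (h y hy).2).symm
    · rw [hB, hc0]

open DihedralGroup in
lemma fixV {S : Type*} [Group S] {M : Type*} [AddCommGroup M] [Module (ZMod 2) M]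
    (ρ : Representation (ZMod 2) S M) (ι : DihedralGroup 4 →* S)
    (a a' : DihedralGroup 4)
    (h : ∀ v, v * a' = a' * v → v = 1 ∨ v = r 2 ∨ v = a ∨ v = r 2 * a)
    (hr : (r 2 : DihedralGroup 4) * a' = a' * r 2) (ha : a * a' = a' * a) (m : M) :
    (∀ b ∈ (Subgroup.centralizer {a'}).map ι, ρ b m = m) ↔ (ρ (ι (r 2)) m = m ∧ ρ (ι a) m = m) := by
  constructor
  · intro hb
    constructor
    · exact hb _ ⟨r 2, Subgroup.mem_centralizer_singleton_iff.mpr hr, rfl⟩
    · exact hb _ ⟨a, Subgroup.mem_centralizer_singleton_iff.mpr ha, rfl⟩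
  · rintro ⟨h1, h3⟩ b ⟨v, hv, rfl⟩
    have hv' : v * a' = a' * v := Subgroup.mem_centralizer_singleton_iff.mp hv
    rcases h v hv' with rfl | rfl | rfl | rfl
    · rw [map_one, map_one, Module.End.one_apply]
    · exact h1
    · exact h3
    · rw [map_mul, map_mul, Module.End.mul_apply, h3, h1]


/-- Let S be a finite group with a normal elementary abelian subgroup A of order 9 that is self-centralizing (C_S(A) = A), and a dihedral subgroup X of order 8 with S = AX. Let M be a finite-dimensional module for S over the field with two elements that is faithful and irreducible. Then M has 16 elements, and X contains exactly one subgroup B of order 4 and exponent 2 whose fixed points on M form a subspace with exactly 2 elements (equivalently, M is free of rank one over the group algebra of B). -/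
theorem result {S : Type*} [Group S] [Finite S]
    (A : Subgroup S) [A.Normal] (hA : Cfsg.IsElementaryAbelian 3 A) (hA9 : Nat.card ↥A = 9)
    (hAC : Subgroup.centralizer (A : Set S) = A) (X : Subgroup S) (hX : Nonempty (↥X ≃* DihedralGroup 4)) (hAX : A ⊔ X = ⊤)
    {M : Type*} [AddCommGroup M] [Module (ZMod 2) M] [Finite M] (ρ : Representation (ZMod 2) S M)
    (hfaith : Function.Injective ρ)
    (hirr : ∀ N : Submodule (ZMod 2) M, (∀ s : S, ∀ m ∈ N, ρ s m ∈ N) → N = ⊥ ∨ N = ⊤) (hM : Nontrivial M) :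
    Nat.card M = 16 ∧
      ∃! B : Subgroup S, B ≤ X ∧ Nat.card ↥B = 4 ∧ (∀ b ∈ B, b ^ 2 = 1) ∧
        Nat.card {m : M // ∀ b ∈ B, ρ b m = m} = 2 := by
  obtain ⟨e⟩ := hX
  let ι : DihedralGroup 4 →* S := X.subtype.comp e.symm.toMonoidHom
  have hιinj : Function.Injective ι := fun a b h => e.symm.injective (Subtype.ext h)
  have hιX : ∀ y, ι y ∈ X := fun y => (e.symm y).2
  have hιsurj : ∀ x ∈ X, ∃ y, ι y = x := fun x hx => ⟨e ⟨x, hx⟩, by simp [ι]⟩
  obtain ⟨f1, f2, f3, f4, f5, f6, f7, f8, f9, f10, f11⟩ := d4_facts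
  let u : S := ι (DihedralGroup.r 1)
  let t : S := ι (DihedralGroup.sr 0)
  have hu4 : u ^ 4 = 1 := by
    simp only [u]; rw [← map_pow, f1, map_one]
  have htt : t * t = 1 := by
    simp only [t]; rw [← map_mul, f2, map_one]
  have hut : u * t = t * u * u * u := by
    simp only [u, t]; rw [← map_mul, f3, map_mul, map_mul, map_mul]
  have huu : u * u = ι (DihedralGroup.r 2) := by
    simp only [u]; rw [← map_mul, f4]
  have hz1 : u * u ≠ 1 := by
    rw [huu]; intro h
    exact f5 (hιinj (by rw [h, map_one]))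
  have htz : t ≠ u * u := by
    rw [huu]; intro h
    exact f6 (hιinj h)
  have htu : t * u = ι (DihedralGroup.sr 1) := by
    simp only [t, u]; rw [← map_mul, f7]
  have htuu : t * u * u = ι (DihedralGroup.sr 2) := by
    rw [htu]; simp only [u]; rw [← map_mul, f8]
  have htu2 : (t * u) * (t * u) = 1 := by
    rw [htu, ← map_mul, f9, map_one]
  have hut2 : u * (t * u) = (t * u) * u * u * u := by
    rw [htu]; simp only [u]; rw [← map_mul, f10, map_mul, map_mul, map_mul]
  have htuz : t * u ≠ u * u := by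
    rw [htu, huu]; intro h
    exact f11 (hιinj h)
  have hu4' : u * u * u * u = 1 := by rw [← hu4, pow_succ, pow_succ, pow_succ, pow_one]
  have hzz : (u * u) * (u * u) = 1 := by rw [← hu4']; group
  have hzt : t * (u * u) = (u * u) * t := by
    rw [huu]; simp only [t]
    rw [← map_mul, ← map_mul]
    congr 1
  have hztu : (t * u) * (u * u) = (u * u) * (t * u) := by
    rw [huu, htu, ← map_mul, ← map_mul]
    congr 1
  have hAc : ∀ a ∈ A, ∀ b ∈ A, a * b = b * a := by
    intro a ha b hb
    have := hA.1.is_comm.comm ⟨a, ha⟩ ⟨b, hb⟩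
    exact congrArg Subtype.val this
  have hA3 : ∀ a ∈ A, a ^ 3 = 1 := hA.2
  have hAC' : ∀ g : S, (∀ a ∈ A, g * a = a * g) → g ∈ A := by
    intro g hg
    rw [← hAC]
    rw [Subgroup.mem_centralizer_iff]
    intro a ha
    exact (hg a ha).symm
  have hzi := z_inverts A hAc hA3 hA9 hAC' u t (u * u) rfl hu4 htt hut hz1
  -- module-level facts
  have happ : ∀ (g h : S) (m : M), ρ (g * h) m = ρ g (ρ h m) := by
    intro g h m
    rw [map_mul, Module.End.mul_apply]
  have hone : ∀ (m : M), ρ 1 m = m := by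
    intro m
    rw [map_one, Module.End.one_apply]
  have hNA : ∀ m : M, (∀ a ∈ A, ρ a m = m) → m = 0 := by
    let NA : Submodule (ZMod 2) M :=
      { carrier := {m | ∀ a ∈ A, ρ a m = m}
        add_mem' := by
          intro x y hx hy a ha
          rw [map_add, hx a ha, hy a ha]
        zero_mem' := by
          intro a _
          rw [map_zero]
        smul_mem' := by
          intro r x hx a ha
          rw [map_smul, hx a ha] }
    have hNA' := hirr NA (by
      intro s m hm a ha
      have h1 : s⁻¹ * a * s ∈ A := by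
        have := (inferInstance : A.Normal).conj_mem a ha s⁻¹
        rwa [inv_inv] at this
      have h3 : a * s = s * (s⁻¹ * a * s) := by group
      rw [← happ, h3, happ, hm _ h1])
    rcases hNA' with h | h
    · intro m hm
      have : m ∈ NA := hm
      rw [h] at this
      exact this
    · exfalso
      have hall : ∀ a ∈ A, a = 1 := by
        intro a ha
        apply hfaith
        rw [map_one]
        ext m
        have hm : m ∈ NA := by rw [h]; trivial
        rw [hm a ha, Module.End.one_apply]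
      have : A = ⊥ := by
        rw [eq_bot_iff]
        intro a ha
        exact hall a ha
      rw [this] at hA9
      simp at hA9
  have hfixcl : ∀ (T : Set S) (m : M), (∀ g ∈ T, ρ g m = m) → ∀ g ∈ Subgroup.closure T, ρ g m = m := by
    intro T m hT g hg
    induction hg using Subgroup.closure_induction with
    | mem x hx => exact hT x hx
    | one => exact hone m
    | mul x y _ _ hx hy => rw [happ, hy, hx]
    | inv x _ hx =>
      calc ρ x⁻¹ m = ρ x⁻¹ (ρ x m) := by rw [hx]
        _ = m := by rw [← happ, inv_mul_cancel, hone]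
  have h0gen : ∀ c d : S, A ≤ Subgroup.closure {c, d} → ∀ m, ρ c m = m → ρ d m = m → m = 0 := by
    intro c d hle m h1 h3
    apply hNA
    intro a ha
    apply hfixcl {c, d} m _ a (hle ha)
    intro g hg
    rcases hg with rfl | hg
    · exact h1
    · have hg' : g = d := hg
      rw [hg']; exact h3
  have hclosgen : ∀ (c d : S) (a : DihedralGroup 4), (a = DihedralGroup.sr 0 ∨ a = DihedralGroup.sr 1) →
      A ≤ Subgroup.closure {c, d} → Subgroup.closure ({c, d, u, ι a} : Set S) = ⊤ := by
    intro c d a ha hle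
    rw [eq_top_iff, ← hAX]
    apply sup_le
    · refine hle.trans (Subgroup.closure_mono ?_)
      intro x hx
      rcases hx with rfl | hx
      · simp
      · have hx' : x = d := hx
        rw [hx']; simp
    · intro x hx
      obtain ⟨y, rfl⟩ := hιsurj x hx
      obtain ⟨k, l, rfl⟩ := d4_gen a ha y
      rw [map_mul, map_pow, map_pow]
      apply Subgroup.mul_mem
      · apply Subgroup.pow_mem
        exact Subgroup.subset_closure (by simp [u])
      · apply Subgroup.pow_mem
        exact Subgroup.subset_closure (by simp)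
  -- configuration 1
  obtain ⟨c, hc, hc1, htc⟩ := exists_fix A hAc hA3 hA9 hAC' (u * u) t hzi hzz hzt htt htz
  obtain ⟨hdA, hud, htd, hAle⟩ := cfg_rel A hAc hA3 hA9 u t c hu4 htt hut hzi hc hc1 htc
  obtain ⟨d, hd⟩ : ∃ d, d = u * c * u⁻¹ := ⟨_, rfl⟩
  rw [← hd] at hdA hud htd hAle
  have hc3 := hA3 c hc
  have hd3 := hA3 d hdA
  have hcd := hAc c hc d hdA
  have huc : u * c = d * u := by rw [hd]; group
  have hcinv : c⁻¹ = c * c := by
    rw [inv_eq_iff_mul_eq_one, ← hc3, pow_succ, pow_succ, pow_one, mul_assoc]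
  have hdinv : d⁻¹ = d * d := by
    rw [inv_eq_iff_mul_eq_one, ← hd3, pow_succ, pow_succ, pow_one, mul_assoc]
  have hclos1 : Subgroup.closure ({c, d, u, t} : Set S) = ⊤ := hclosgen c d _ (Or.inl rfl) hAle
  have h01 := h0gen c d hAle
  have hD1 := pair_dichotomy ρ hirr c d u t hc3 hd3 hcd huc hud htc htd hclos1
  -- configuration 2
  have hc₂1 : c * (d * d) ≠ 1 := by
    intro h
    have h1 : d = c := by
      have h3 : d * d = c⁻¹ := eq_inv_of_mul_eq_one_right h
      rw [← hdinv] at h3
      exact inv_injective h3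
    have h3 : u * c = c * u := by rw [huc, h1]
    have h4 := hzi c hc
    have h5 : (u * u) * c * (u * u)⁻¹ = c := by
      calc (u * u) * c * (u * u)⁻¹ = u * (u * c) * u⁻¹ * u⁻¹ := by group
        _ = u * (c * u) * u⁻¹ * u⁻¹ := by rw [h3]
        _ = (u * c) * u * u⁻¹ * u⁻¹ := by group
        _ = (c * u) * u * u⁻¹ * u⁻¹ := by rw [h3]
        _ = c := by group
    rw [h5] at h4
    apply hc1
    have h6 : c = c * c := by
      rw [← hcinv]; exact h4
    have h7 : c * c = c * 1 := by rw [← h6, mul_one]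
    exact mul_left_cancel h7
  have hτc' : (t * u) * c = d * d * (t * u) := by
    calc (t * u) * c = t * (u * c) := by group
      _ = t * (d * u) := by rw [huc]
      _ = (t * d) * u := by group
      _ = (d * d * t) * u := by rw [htd]
      _ = d * d * (t * u) := by group
  have hτd' : (t * u) * d = c * c * (t * u) := by
    calc (t * u) * d = t * (u * d) := by group
      _ = t * (c * c * u) := by rw [hud]
      _ = (t * c) * c * u := by group
      _ = (c * t) * c * u := by rw [htc]
      _ = c * (t * c) * u := by group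
      _ = c * (c * t) * u := by rw [htc]
      _ = c * c * (t * u) := by group
  have hc4 : c * c * (c * c) = c := by
    calc c * c * (c * c) = c ^ 3 * c := by
          rw [pow_succ, pow_succ, pow_one]; group
      _ = c := by rw [hc3, one_mul]
  have hτc₂ : (t * u) * (c * (d * d)) = (c * (d * d)) * (t * u) := by
    calc (t * u) * (c * (d * d)) = ((t * u) * c) * (d * d) := by group
      _ = d * d * (t * u) * (d * d) := by rw [hτc']
      _ = d * d * (((t * u) * d) * d) := by group
      _ = d * d * ((c * c * (t * u)) * d) := by rw [hτd']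
      _ = d * d * (c * c * ((t * u) * d)) := by group
      _ = d * d * (c * c * (c * c * (t * u))) := by rw [hτd']
      _ = d * d * ((c * c * (c * c)) * (t * u)) := by group
      _ = d * d * (c * (t * u)) := by rw [hc4]
      _ = (d * d * c) * (t * u) := by group
      _ = (c * (d * d)) * (t * u) := by
        rw [hAc (d * d) (A.mul_mem hdA hdA) c hc]
  have hc₂A : c * (d * d) ∈ A := A.mul_mem hc (A.mul_mem hdA hdA)
  obtain ⟨hd₂A, hud₂, htd₂, hAle₂⟩ := cfg_rel A hAc hA3 hA9 u (t * u) (c * (d * d)) hu4 htu2 hut2 hzi hc₂A hc₂1 hτc₂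
  have hd₂eq : u * (c * (d * d)) * u⁻¹ = d * c := by
    calc u * (c * (d * d)) * u⁻¹ = (u * c) * d * d * u⁻¹ := by group
      _ = (d * u) * d * d * u⁻¹ := by rw [huc]
      _ = d * (u * d) * d * u⁻¹ := by group
      _ = d * (c * c * u) * d * u⁻¹ := by rw [hud]
      _ = d * c * c * (u * d) * u⁻¹ := by group
      _ = d * c * c * (c * c * u) * u⁻¹ := by rw [hud]
      _ = d * (c * c * (c * c)) := by group
      _ = d * c := by rw [hc4]
  rw [hd₂eq] at hd₂A hud₂ htd₂ hAle₂
  have hc₂3 := hA3 _ hc₂A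
  have hd₂3 := hA3 _ hd₂A
  have hcd₂ := hAc _ hc₂A _ hd₂A
  have huc₂ : u * (c * (d * d)) = (d * c) * u := by
    rw [← hd₂eq]; group
  have hclos2 : Subgroup.closure ({c * (d * d), d * c, u, t * u} : Set S) = ⊤ := by
    rw [htu]
    exact hclosgen _ _ _ (Or.inr rfl) hAle₂
  have h02 := h0gen _ _ hAle₂
  have hD2 := pair_dichotomy ρ hirr _ _ u (t * u) hc₂3 hd₂3 hcd₂ huc₂ hud₂ hτc₂ htd₂ hclos2
  -- final combination
  have hV0card := d4_card0
  have hV1card := d4_card1
  have hfin : ∀ (V W : Subgroup (DihedralGroup 4)),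
      ((V = Subgroup.centralizer {(DihedralGroup.sr 0 : DihedralGroup 4)} ∧ W = Subgroup.centralizer {(DihedralGroup.sr 1 : DihedralGroup 4)}) ∨
       (V = Subgroup.centralizer {(DihedralGroup.sr 1 : DihedralGroup 4)} ∧ W = Subgroup.centralizer {(DihedralGroup.sr 0 : DihedralGroup 4)})) →
      Nat.card {m : M // ∀ b ∈ V.map ι, ρ b m = m} = 4 → Nat.card {m : M // ∀ b ∈ W.map ι, ρ b m = m} = 2 →
      ∃! B : Subgroup S, B ≤ X ∧ Nat.card ↥B = 4 ∧ (∀ b ∈ B, b ^ 2 = 1) ∧
        Nat.card {m : M // ∀ b ∈ B, ρ b m = m} = 2 := by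
    intro V W hVW h4 h2
    have hWcard : Nat.card W = 4 := by
      rcases hVW with ⟨_, rfl⟩ | ⟨_, rfl⟩
      · exact hV1card
      · exact hV0card
    have hWexp : ∀ v ∈ W, v ^ 2 = 1 := by
      rcases hVW with ⟨_, rfl⟩ | ⟨_, rfl⟩
      · intro v hv
        have hv' := Subgroup.mem_centralizer_singleton_iff.mp hv
        exact (by decide : ∀ v : DihedralGroup 4, v * DihedralGroup.sr 1 = DihedralGroup.sr 1 * v → v ^ 2 = 1) v hv'
      · intro v hv
        have hv' := Subgroup.mem_centralizer_singleton_iff.mp hv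
        exact (by decide : ∀ v : DihedralGroup 4, v * DihedralGroup.sr 0 = DihedralGroup.sr 0 * v → v ^ 2 = 1) v hv'
    refine ⟨W.map ι, ⟨?_, ?_, ?_, h2⟩, ?_⟩
    · rintro _ ⟨v, _, rfl⟩
      exact hιX v
    · rw [Subgroup.card_map_of_injective hιinj, hWcard]
    · rintro _ ⟨v, hv, rfl⟩
      rw [← map_pow, hWexp v hv, map_one]
    · rintro B ⟨hBX, hB4, hB2, hBfix⟩
      have hrange : B ≤ ι.range := by
        intro x hx
        obtain ⟨y, hy⟩ := hιsurj x (hBX hx)
        exact ⟨y, hy⟩
      have hmap : (B.comap ι).map ι = B := Subgroup.map_comap_eq_self hrange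
      have hB'4 : Nat.card (B.comap ι) = 4 :=
        calc Nat.card (B.comap ι) = Nat.card ((B.comap ι).map ι) := (Subgroup.card_map_of_injective hιinj).symm
          _ = Nat.card B := by rw [hmap]
          _ = 4 := hB4
      have hB'2 : ∀ b ∈ B.comap ι, b ^ 2 = 1 := by
        intro b hb
        apply hιinj
        rw [map_pow, map_one]
        exact hB2 _ hb
      rcases d4_four _ hB'4 hB'2 with h | h
      · rcases hVW with ⟨hV, hW⟩ | ⟨hV, hW⟩
        · exfalso
          rw [← hmap, h, ← hV, h4] at hBfix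
          norm_num at hBfix
        · rw [← hmap, h, hW]
      · rcases hVW with ⟨hV, hW⟩ | ⟨hV, hW⟩
        · rw [← hmap, h, hW]
        · exfalso
          rw [← hmap, h, ← hV, h4] at hBfix
          norm_num at hBfix
  have hfix00 := fixV ρ ι (DihedralGroup.sr 0) (DihedralGroup.sr 0) (by decide) (by decide) rfl
  have hfix20 := fixV ρ ι (DihedralGroup.sr 2) (DihedralGroup.sr 0) (by decide) (by decide) (by decide)
  have hfix11 := fixV ρ ι (DihedralGroup.sr 1) (DihedralGroup.sr 1) (by decide) (by decide) rfl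
  rw [← huu] at hfix00 hfix20 hfix11
  rw [← htuu] at hfix20
  rw [← htu] at hfix11
  rcases hD1 with hs1 | ⟨hz1', hz2'⟩
  · obtain ⟨h16, h4, h2⟩ := cfg_apply ρ hirr hM c d u t hc3 hd3 hcd huc hud htt htc htd hu4 hut hclos1 h01 hs1
    refine ⟨h16, hfin _ _ (Or.inl ⟨rfl, rfl⟩) ?_ ?_⟩
    · exact (Nat.card_congr (Equiv.subtypeEquivRight hfix00)).trans h4
    · exact (Nat.card_congr (Equiv.subtypeEquivRight hfix11)).trans h2
  · rcases hD2 with hs2 | ⟨hz3, hz4⟩
    · obtain ⟨h16, h4, h2⟩ := cfg_apply ρ hirr hM _ _ u (t * u) hc₂3 hd₂3 hcd₂ huc₂ hud₂ htu2 hτc₂ htd₂ hu4 hut2 hclos2 h02 hs2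
      refine ⟨h16, hfin _ _ (Or.inr ⟨rfl, rfl⟩) ?_ ?_⟩
      · exact (Nat.card_congr (Equiv.subtypeEquivRight hfix11)).trans h4
      · exact (Nat.card_congr (Equiv.subtypeEquivRight hfix20)).trans h2
    · exfalso
      obtain ⟨m₀, hm₀⟩ := exists_ne (0 : M)
      have hC3 : ∀ m, ρ c (ρ c (ρ c m)) = m := fun m => by
        rw [← happ, ← happ, show c * c * c = 1 by rw [← hc3, pow_succ, pow_succ, pow_one], hone]
      have hD3 : ∀ m, ρ d (ρ d (ρ d m)) = m := fun m => by
        rw [← happ, ← happ, show d * d * d = 1 by rw [← hd3, pow_succ, pow_succ, pow_one], hone]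
      obtain ⟨x₁, x₂, x₃, x₄, h1, h2, h3, h4, h5⟩ :=
        four_lines (ρ c) (ρ d) hC3 hD3 (fun m => by rw [← happ, ← happ, hcd]) h01 m₀
      apply hm₀
      rw [h5, hz2' x₁ h1, hz1' x₂ h2, hz3 x₃ (by rw [happ]; exact h3),
        hz4 x₄ (by rw [happ, happ]; exact h4)]
      simp

end Cfsg.Agent.S4407
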