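import Cfsg.Statements.S4409
import Cfsg.Agent.Lib.ZT.Q9e

set_option autoImplicit false
open Cfsg

namespace Cfsg.Agent.S4409

/-- Let S be a finite solvable group with O_{2'}(S) = 1 that contains a non-cyclic abelian subgroup of order 8, while no proper subgroup of S of 2-power index contains one. Then a Sylow 2-subgroup X of S is normal in S, and one of the following holds: X is abelian; X is extraspecial of order at least 32; X has a generalized quaternion subgroup X₀ of index 2 with X = X₀·C_X(X₀); or X is special with centre of order 4. -/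
theorem result {S : Type*} [Group S] [Finite S]
    [Group.IsSolvable S] (hO : Cfsg.pPrimeCore 2 S = ⊥)
    (h8 : ∃ A : Subgroup S, IsMulCommutative ↥A ∧ ¬ IsCyclic ↥A ∧ Nat.card ↥A = 8)
    (hmin : ∀ R : Subgroup S, R ≠ ⊤ → (∃ k : ℕ, R.index = 2 ^ k) →
      ¬ ∃ A : Subgroup S, A ≤ R ∧ IsMulCommutative ↥A ∧ ¬ IsCyclic ↥A ∧ Nat.card ↥A = 8)
    (X : Sylow 2 S) :
    (X : Subgroup S).Normal ∧
      (IsMulCommutative ↥X ∨
        (Cfsg.IsExtraspecial 2 ↥X ∧ 32 ≤ Nat.card ↥X) ∨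
        (∃ (X₀ : Subgroup S) (k : ℕ), X₀ ≤ (X : Subgroup S) ∧ X₀.relIndex (X : Subgroup S) = 2 ∧
          Nonempty (↥X₀ ≃* QuaternionGroup (2 ^ (k + 1))) ∧ X₀ ⊔ ((X : Subgroup S) ⊓ Subgroup.centralizer (X₀ : Set S)) = (X : Subgroup S)) ∨
        (Cfsg.IsSpecial 2 ↥X ∧ Nat.card ↥(Subgroup.center ↥X) = 4)) := by
  haveI : Fact (Nat.Prime 2) := ⟨Nat.prime_two⟩
  have hXn := Cfsg.Agent.Lib.ZT.stepA_normal hO h8 hmin X
  refine ⟨hXn, ?_⟩
  have hX2 : IsPGroup 2 (X : Subgroup S) := X.isPGroup'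
  have hcop := X.card_coprime_index
  obtain ⟨K, hK⟩ := Cfsg.Agent.Lib.Basic.hall_exists _ (X : Subgroup S).index (Nat.card X) rfl
    (by rw [mul_comm, Subgroup.card_mul_index]) hcop.symm
  obtain ⟨n, hn⟩ := IsPGroup.iff_card.mp hX2
  have hn' : Nat.card X = 2 ^ n := hn
  have hGcard : Nat.card S = 2 ^ n * Nat.card K := by
    rw [hK, ← hn', Subgroup.card_mul_index]
  have hodd : Odd (Nat.card K) := by
    rw [hK, ← Nat.not_even_iff_odd, even_iff_two_dvd]
    exact X.not_dvd_index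
  have hTX : Cfsg.pCore 2 S = (X : Subgroup S) :=
    le_antisymm (Cfsg.Agent.Lib.Basic.pCore_le_sylow X) (Cfsg.Agent.Lib.Basic.le_pCore hXn hX2)
  have hCT : Subgroup.centralizer ((X : Subgroup S) : Set S) ≤ (X : Subgroup S) := by
    rw [← hTX]
    exact Cfsg.Agent.Lib.Basic.centralizer_pCore_le_of_pPrimeCore_eq_bot 2 hO
  have hSB : Cfsg.Agent.Lib.ZT.SB (X : Subgroup S) K := by
    refine ⟨hXn, hX2, hodd, ?_, ?_, ?_⟩
    · intro x hx
      apply hCT
      rw [Subgroup.mem_centralizer_iff]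
      intro t ht
      exact (hx t ht).symm
    · intro Y hYX hKY hn1
      by_contra hne
      have hR : Y ⊔ K ≠ ⊤ := by
        intro h
        have h1 := Cfsg.Agent.Lib.ZT.card_sup_le_of_le_normalizer hKY
        rw [h, Subgroup.card_top, hGcard, ← hn'] at h1
        have h2 : 0 < Nat.card K := Nat.card_pos
        have h3 := Nat.le_of_mul_le_mul_right h1 h2
        exact hne (Subgroup.eq_of_le_of_card_ge hYX h3)
      have hRidx := Cfsg.Agent.Lib.ZT.index_two_pow_of_le (le_sup_right : K ≤ Y ⊔ K) hGcard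
      simp only [Cfsg.Agent.Lib.ZT.NoA] at hn1
      push Not at hn1
      obtain ⟨A, hAY, hAc, hAnc, hA8⟩ := hn1
      exact hmin _ hR hRidx ⟨A, hAY.trans le_sup_left, hAc, hAnc, hA8⟩
    · intro hNo
      obtain ⟨A, hAc, hAnc, hA8⟩ := h8
      have hA2 : IsPGroup 2 A := IsPGroup.of_card (n := 3) (by rw [hA8]; norm_num)
      obtain ⟨X', hAX'⟩ := hA2.exists_le_sylow
      have hU := Sylow.unique_of_normal X hXn
      have hEq : X' = X := by
        rw [hU.uniq X', hU.uniq X]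
      rw [hEq] at hAX'
      exact hNo A hAX' hAc hAnc hA8
  exact Cfsg.Agent.Lib.ZT.stepB_main hSB

end Cfsg.Agent.S4409
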