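import Cfsg.Statements.S4411
import Cfsg.Agent.Lib.Struct.OffG
open scoped Pointwise
open Cfsg.Agent.Lib.Struct.Off

set_option autoImplicit false
open Cfsg

namespace Cfsg.Agent.S4411

/-- Let p and q be distinct primes with {p, q} ≠ {2, 3}, and let G be a finite group such that for every p-subgroup H of G the automizer N_G(H)/C_G(H) is p-solvable. If q divides the order of N_G(H)/C_G(H) for some p-subgroup H, then a Sylow p-subgroup of G has a normal subgroup K (normal in the Sylow subgroup) such that q divides the order of N_G(K)/C_G(K). -/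
theorem result {G : Type*} [Group G] [Finite G]
    (p q : ℕ) [Fact p.Prime] [Fact q.Prime] (hpq : p ≠ q) (h23 : ¬ ((p = 2 ∧ q = 3) ∨ (p = 3 ∧ q = 2)))
    (hsol : ∀ H : Subgroup G, IsPGroup p ↥H →
      Cfsg.IsPSolvable p (↥(Subgroup.normalizer (H : Set G)) ⧸ (Subgroup.centralizer (H : Set G)).subgroupOf (Subgroup.normalizer (H : Set G))))
    (H : Subgroup G) (hH : IsPGroup p ↥H)
    (hq : q ∣ ((Subgroup.centralizer (H : Set G)).subgroupOf (Subgroup.normalizer (H : Set G))).index)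
    (Gp : Sylow p G) :
    ∃ K : Subgroup G, K ≤ (Gp : Subgroup G) ∧ (Gp : Subgroup G) ≤ Subgroup.normalizer (K : Set G) ∧
      q ∣ ((Subgroup.centralizer (K : Set G)).subgroupOf (Subgroup.normalizer (K : Set G))).index := by

  classical
  have hqq : q.Prime := Fact.out
  have hAdm : Adm p q H := by
    let N := Subgroup.normalizer (H : Set G)
    let S₀ : Subgroup ↥N := (Subgroup.centralizer (H : Set G)).subgroupOf N
    have hd : q ∣ Nat.card (↥N ⧸ S₀) := by
      rw [← Subgroup.index_eq_card]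
      exact hq
    obtain ⟨x', hx'⟩ := exists_prime_orderOf_dvd_card' q hd
    obtain ⟨n, rfl⟩ := QuotientGroup.mk_surjective x'
    have hn : n ∉ S₀ := by
      intro h
      have h1 : (n : ↥N ⧸ S₀) = 1 := (QuotientGroup.eq_one_iff n).mpr h
      rw [h1, orderOf_one] at hx'
      exact hqq.one_lt.ne hx'
    have hpow : n ^ (q ^ 1) ∈ S₀ := by
      apply (QuotientGroup.eq_one_iff _).mp
      have h0 := pow_orderOf_eq_one (n : ↥N ⧸ S₀)
      rw [hx', ← QuotientGroup.mk_pow] at h0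
      rwa [pow_one]
    obtain ⟨y, _, hyS, a, hya⟩ := q_part hqq S₀ hn 1 hpow
    exact ⟨hH, (y : G), y.2, hyS, a, congrArg Subtype.val hya⟩
  obtain ⟨S', hS'⟩ := hH.exists_le_sylow
  obtain ⟨g, hg⟩ := MulAction.exists_smul_eq G S' Gp
  have hconj : ∀ x ∈ (S' : Subgroup G), g * x * g⁻¹ ∈ (Gp : Subgroup G) := by
    intro x hx
    rw [← hg, Sylow.smul_def, Sylow.pointwise_smul_def]
    exact Subgroup.smul_mem_pointwise_smul _ _ _ hx
  have hle : H.map (MulAut.conj g).toMonoidHom ≤ (Gp : Subgroup G) := by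
    rintro _ ⟨x, hx, rfl⟩
    exact hconj x (hS' hx)
  obtain ⟨K, hK, hSN, hKadm⟩ := main_ind hpq h23 _ G rfl hsol Gp _ hle (adm_conj H hAdm g)
  refine ⟨K, hK, hSN, ?_⟩
  obtain ⟨hKp, y, hyN, hyC, k, hk⟩ := hKadm
  rw [Subgroup.index_eq_card]
  let y' : ↥(Subgroup.normalizer (K : Set G)) ⧸ (Subgroup.centralizer (K : Set G)).subgroupOf (Subgroup.normalizer (K : Set G)) :=
    QuotientGroup.mk ⟨y, hyN⟩
  have h1 : y' ^ (q ^ k) = 1 := by
    show ((⟨y, hyN⟩ : ↥(Subgroup.normalizer (K : Set G))) : ↥(Subgroup.normalizer (K : Set G)) ⧸ (Subgroup.centralizer (K : Set G)).subgroupOf (Subgroup.normalizer (K : Set G))) ^ (q ^ k) = 1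
    rw [← QuotientGroup.mk_pow]
    have h2 : (⟨y, hyN⟩ : ↥(Subgroup.normalizer (K : Set G))) ^ (q ^ k) = 1 := Subtype.ext hk
    rw [h2]
    rfl
  have h2 := orderOf_dvd_of_pow_eq_one h1
  obtain ⟨i, -, hi⟩ := (Nat.dvd_prime_pow hqq).mp h2
  have h3 : i ≠ 0 := by
    rintro rfl
    rw [pow_zero, orderOf_eq_one_iff] at hi
    apply hyC
    have h5 : (⟨y, hyN⟩ : ↥(Subgroup.normalizer (K : Set G))) ∈ (Subgroup.centralizer (K : Set G)).subgroupOf (Subgroup.normalizer (K : Set G)) :=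
      (QuotientGroup.eq_one_iff _).mp hi
    exact h5
  have h4 := orderOf_dvd_natCard y'
  rw [hi] at h4
  exact (dvd_pow_self q h3).trans h4

end Cfsg.Agent.S4411
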