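import Cfsg.Statements.S4413
import Cfsg.Agent.Lib.Perm.OFour
import Cfsg.Agent.Lib.ThreeTrans.ExtraOut
import Mathlib

set_option autoImplicit false
open Cfsg

namespace Cfsg.Agent.S4413

/-- Let P be an extraspecial 2-group of order 32 with no elementary abelian subgroup of order 8 (the central product of a dihedral and a quaternion group of order 8). Then the inner automorphism group of P has order 16 and the outer automorphism group Aut(P)/Inn(P) is isomorphic to the symmetric group of degree 5; in particular Aut(P) has order 1920. -/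
theorem result {P : Type*} [Group P] [Finite P]
    (hex : Cfsg.IsExtraspecial 2 P) (h32 : Nat.card P = 32)
    (hminus : ∀ A : Subgroup P, Cfsg.IsElementaryAbelian 2 A → Nat.card ↥A ≤ 4)
    [(MulAut.conj : P →* MulAut P).range.Normal] :
    Nat.card ↥(MulAut.conj : P →* MulAut P).range = 16 ∧ Nat.card (MulAut P) = 1920 ∧
      Nonempty ((MulAut P ⧸ (MulAut.conj : P →* MulAut P).range) ≃* Equiv.Perm (Fin 5)) := by
  have hno : ¬ ∃ A : Subgroup P, Cfsg.IsElementaryAbelian 2 A ∧ Nat.card ↥A = 2 ^ (2 + 1) := by
    rintro ⟨A, hA, hc⟩
    have := hminus A hA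
    rw [hc] at this
    norm_num at this
  obtain ⟨e⟩ := (Cfsg.Agent.Lib.ThreeTrans.ES2.out_main hex 2 (by norm_num) (by rw [h32]; norm_num)).2 hno
  have e' : (MulAut P ⧸ (MulAut.conj : P →* MulAut P).range) ≃* Equiv.Perm (Fin 5) :=
    e.trans Cfsg.Agent.Lib.Perm.OFour.isoF.symm
  have hker : (MulAut.conj : P →* MulAut P).ker = Subgroup.center P := by
    ext x
    rw [MonoidHom.mem_ker, Subgroup.mem_center_iff]
    constructor
    · intro h g
      have := congrArg (fun φ : MulAut P => φ g) h
      simp only [MulAut.conj_apply, MulAut.one_apply] at this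
      have h2 : x * g = g * x := by
        calc x * g = x * g * x⁻¹ * x := by group
          _ = g * x := by rw [this]
      exact h2.symm
    · intro h
      ext g
      simp only [MulAut.conj_apply, MulAut.one_apply]
      rw [← h g]
      group
  have hcen : Nat.card (Subgroup.center P) = 2 := hex.2
  have hrange : Nat.card ↥(MulAut.conj : P →* MulAut P).range = 16 := by
    rw [← Subgroup.index_ker, hker]
    have := Subgroup.card_mul_index (Subgroup.center P)
    rw [hcen, h32] at this
    omega
  refine ⟨hrange, ?_, ⟨e'⟩⟩
  have h1 := Subgroup.card_mul_index (MulAut.conj : P →* MulAut P).range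
  rw [hrange, Subgroup.index_eq_card, Nat.card_congr e'.toEquiv] at h1
  rw [← h1]
  simp [Nat.card_eq_fintype_card, Fintype.card_perm]
  decide

end Cfsg.Agent.S4413
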