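import Cfsg.Statements.S4414
import Cfsg.Agent.Lib.Struct.TwoFixF
open Cfsg.Agent.Lib.Struct.TwoFix

set_option autoImplicit false
open Cfsg

namespace Cfsg.Agent.S4414

/-- Let S be a finite solvable group whose order is divisible only by the primes 2, p, q (p, q distinct odd primes), with a Sylow system S₂, S_p, S_q (pairwise permutable Sylow subgroups) such that: S_p is a minimal normal subgroup of S of order p or p²; S_q has order q and [S_p, S_q] = S_p; and O₂(S) = 1. Let E be an irreducible module for S over the field with two elements on which S_p acts faithfully, and E₀ the subspace of fixed points of S₂. Then either E₀ has at least 8 elements, or E₀ has exactly 4 elements and S_q does not leave E₀ invariant. -/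
theorem result {S : Type*} [Group S] [Finite S]
    [Group.IsSolvable S] (p q : ℕ) (hp : p.Prime) (hq : q.Prime) (hp2 : p ≠ 2) (hq2 : q ≠ 2) (hpq : p ≠ q)
    (hπ : ∀ r : ℕ, r.Prime → r ∣ Nat.card S → r = 2 ∨ r = p ∨ r = q)
    (S₂ : Sylow 2 S) (Sp : Sylow p S) (Sq : Sylow q S)
    (h2q : Nat.card ↥((S₂ : Subgroup S) ⊔ (Sq : Subgroup S)) = Nat.card ↥S₂ * Nat.card ↥Sq)
    (h2p : Nat.card ↥((S₂ : Subgroup S) ⊔ (Sp : Subgroup S)) = Nat.card ↥S₂ * Nat.card ↥Sp)
    (hpq' : Nat.card ↥((Sp : Subgroup S) ⊔ (Sq : Subgroup S)) = Nat.card ↥Sp * Nat.card ↥Sq)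
    (hSpN : (Sp : Subgroup S).Normal) (hSpmin : ∀ N : Subgroup S, N.Normal → N ≤ (Sp : Subgroup S) → N = ⊥ ∨ N = (Sp : Subgroup S))
    (hSpcard : Nat.card ↥Sp = p ∨ Nat.card ↥Sp = p ^ 2)
    (hSq : Nat.card ↥Sq = q) (hcomm : ⁅(Sp : Subgroup S), (Sq : Subgroup S)⁆ = (Sp : Subgroup S))
    (hO2 : Cfsg.pCore 2 S = ⊥)
    {E : Type*} [AddCommGroup E] [Module (ZMod 2) E] [Finite E] (ρ : Representation (ZMod 2) S E) (hE : Nontrivial E)
    (hirr : ∀ N : Submodule (ZMod 2) E, (∀ s : S, ∀ m ∈ N, ρ s m ∈ N) → N = ⊥ ∨ N = ⊤)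
    (hfaith : ∀ x ∈ (Sp : Subgroup S), ρ x = 1 → x = 1) :
    8 ≤ Nat.card {v : E // ∀ s ∈ (S₂ : Subgroup S), ρ s v = v} ∨
      (Nat.card {v : E // ∀ s ∈ (S₂ : Subgroup S), ρ s v = v} = 4 ∧
        ∃ x ∈ (Sq : Subgroup S), ∃ v : E, (∀ s ∈ (S₂ : Subgroup S), ρ s v = v) ∧ ¬ ∀ s ∈ (S₂ : Subgroup S), ρ s (ρ x v) = ρ x v) := by
  classical
  cases nonempty_fintype S
  haveI := Fact.mk hp
  haveI := Fact.mk hq
  haveI : Fact (Nat.Prime 2) := ⟨Nat.prime_two⟩
  have hSpcard' : Nat.card ↥(Sp : Subgroup S) = p ∨ Nat.card ↥(Sp : Subgroup S) = p ^ 2 := hSpcard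
  have hcommA : ∀ a ∈ (Sp : Subgroup S), ∀ b ∈ (Sp : Subgroup S), a * b = b * a := by
    intro a ha b hb
    rcases hSpcard with h1 | h1
    · haveI : IsCyclic ↥(Sp : Subgroup S) := isCyclic_of_prime_card h1
      have := (IsCyclic.commGroup : CommGroup ↥(Sp : Subgroup S)).mul_comm ⟨a, ha⟩ ⟨b, hb⟩
      exact congrArg Subtype.val this
    · have := IsPGroup.commutative_of_card_eq_prime_sq h1 (⟨a, ha⟩ : ↥(Sp : Subgroup S)) ⟨b, hb⟩
      exact congrArg Subtype.val this
  have hexp := exp_of_min (Sp : Subgroup S) p hSpN hSpmin hSpcard hcommA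
  have hnofix : ∀ v : E, (∀ a ∈ (Sp : Subgroup S), ρ a v = v) → v = 0 := by
    intro v hv
    have hst : ∀ s : S, ∀ m ∈ fixK ρ (Sp : Subgroup S), ρ s m ∈ fixK ρ (Sp : Subgroup S) := by
      intro s m hm k hk
      have h1 : s⁻¹ * k * s ∈ (Sp : Subgroup S) := by
        have := hSpN.conj_mem k hk s⁻¹
        rwa [inv_inv] at this
      have h2 : k * s = s * (s⁻¹ * k * s) := by group
      rw [← rho_mul, h2, rho_mul, hm _ h1]
    rcases hirr _ hst with h0 | h1
    · have : v ∈ fixK ρ (Sp : Subgroup S) := hv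
      rw [h0, Submodule.mem_bot] at this
      exact this
    · exfalso
      have hbot : (Sp : Subgroup S) = ⊥ := by
        rw [eq_bot_iff]
        intro a ha
        rw [Subgroup.mem_bot]
        apply hfaith a ha
        apply LinearMap.ext
        intro m
        have : m ∈ fixK ρ (Sp : Subgroup S) := by rw [h1]; trivial
        exact this a ha
      have hc1 : Nat.card ↥(Sp : Subgroup S) = 1 := by rw [hbot]; exact Subgroup.card_bot
      have := hp.two_le
      rcases hSpcard' with h2 | h2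
      · omega
      · rw [hc1] at h2
        nlinarith [Nat.pos_of_ne_zero hp.ne_zero]
  have h : Setup ρ (Sp : Subgroup S) p := ⟨hp, hp2, hSpN, hcommA, hexp, hSpcard, hnofix⟩
  have hgen : ((S₂ : Subgroup S) ⊔ (Sq : Subgroup S)) ⊔ (Sp : Subgroup S) = ⊤ := by
    by_contra hne
    set L := ((S₂ : Subgroup S) ⊔ (Sq : Subgroup S)) ⊔ (Sp : Subgroup S) with hL
    have hidx : L.index ≠ 1 := by rwa [Ne, Subgroup.index_eq_one]
    have hr := Nat.minFac_prime hidx
    have hrd := Nat.minFac_dvd L.index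
    have hdvd : L.index ∣ Nat.card S := Subgroup.index_dvd_card L
    rcases hπ _ hr (hrd.trans hdvd) with h1 | h1 | h1
    · have h2 : L.index ∣ (S₂ : Subgroup S).index :=
        Subgroup.index_dvd_of_le (le_sup_left.trans le_sup_left)
      have h3 := hrd.trans h2
      rw [h1] at h3
      exact S₂.not_dvd_index h3
    · have h2 : L.index ∣ (Sp : Subgroup S).index :=
        Subgroup.index_dvd_of_le le_sup_right
      have h3 := hrd.trans h2
      rw [h1] at h3
      exact Sp.not_dvd_index h3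
    · have h2 : L.index ∣ (Sq : Subgroup S).index :=
        Subgroup.index_dvd_of_le (le_sup_right.trans le_sup_left)
      have h3 := hrd.trans h2
      rw [h1] at h3
      exact Sq.not_dvd_index h3
  by_cases hc : ∃ K, Hy (Sp : Subgroup S) p K ∧ (∃ v, pr ρ K v ≠ 0) ∧
      ∀ x ∈ (Sq : Subgroup S), x ∈ Subgroup.normalizer (K : Set S)
  · obtain ⟨K, hK, hv, hn⟩ := hc
    left
    exact h.caseA hK hv (S₂ : Subgroup S) (Sq : Subgroup S) q hq hq2 S₂.isPGroup' hSq
      (by rw [h2q, hSq]; rfl) hgen hn hcomm hirr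
  · -- no hyperplane is normalised by Sq
    let X := {K : Subgroup S // Hy (Sp : Subgroup S) p K ∧ ∃ v, pr ρ K v ≠ 0}
    letI : MulAction S X :=
      { smul := fun g K => ⟨cj g K.1, h.hy_cj K.2.1 g, by
          obtain ⟨v, hv⟩ := K.2.2
          exact ⟨ρ g v, by rw [pr_cj, rho_cancel']; exact rho_ne_zero hv⟩⟩
        one_smul := fun K => Subtype.ext (cj_one _)
        mul_smul := fun a b K => Subtype.ext (cj_mul a b K.1) }
    have hsmul : ∀ (g : S) (K : X), ((g • K : X) : Subgroup S) = cj g K.1 := fun _ _ => rfl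
    haveI : Finite X := inferInstance
    have hqX : q ∣ Nat.card X := by
      have h1 := (Sq.isPGroup').card_modEq_card_fixedPoints X
      haveI : IsEmpty (MulAction.fixedPoints ↥(Sq : Subgroup S) X) := by
        constructor
        rintro ⟨K, hK⟩
        apply hc
        refine ⟨K.1, K.2.1, K.2.2, fun x hx => norm_of_cj ?_⟩
        have := hK ⟨x⁻¹, (Sq : Subgroup S).inv_mem hx⟩
        exact congrArg Subtype.val this
      have h0 : Nat.card (MulAction.fixedPoints ↥(Sq : Subgroup S) X) = 0 := Nat.card_of_isEmpty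
      rw [h0] at h1
      exact Nat.modEq_zero_iff_dvd.mp h1
    obtain ⟨v₀, hv₀⟩ := exists_ne (0 : E)
    obtain ⟨K₀, hK₀, hK₀ne⟩ := h.exists_pr_ne hv₀
    let x₁ : X := ⟨K₀, mem_hyS.mp hK₀, v₀, hK₀ne⟩
    obtain ⟨n, hn⟩ := (S₂.isPGroup').card_orbit x₁
    have hex : ∃ x₂ : X, x₂ ∉ MulAction.orbit ↥(S₂ : Subgroup S) x₁ := by
      by_contra hall
      push_neg at hall
      have h1 : Nat.card (MulAction.orbit ↥(S₂ : Subgroup S) x₁) = Nat.card X :=
        Nat.card_congr (Equiv.subtypeUnivEquiv hall)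
      rw [hn] at h1
      rw [← h1] at hqX
      exact hq2 ((Nat.prime_dvd_prime_iff_eq hq Nat.prime_two).mp (hq.dvd_of_dvd_pow hqX))
    obtain ⟨x₂, hx₂⟩ := hex
    let O : Set (Subgroup S) := {K | ∃ s ∈ (S₂ : Subgroup S), K = cj s x₁.1}
    have hO : ∀ s ∈ (S₂ : Subgroup S), ∀ K, K ∈ O → cj s K ∈ O := by
      rintro s hs K ⟨s', hs', rfl⟩
      exact ⟨s * s', (S₂ : Subgroup S).mul_mem hs hs', (cj_mul s s' _).symm⟩
    have h1O : x₁.1 ∈ O := ⟨1, (S₂ : Subgroup S).one_mem, (cj_one _).symm⟩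
    have h2O : x₂.1 ∉ O := by
      rintro ⟨s, hs, he⟩
      apply hx₂
      rw [MulAction.mem_orbit_iff]
      exact ⟨⟨s, hs⟩, Subtype.ext he.symm⟩
    exact h.caseB (S₂ : Subgroup S) (Sq : Subgroup S) q hq hq2 S₂.isPGroup' hSq hgen O hO
      x₁.2.1 x₂.2.1 h1O h2O x₁.2.2 x₂.2.2 hirr

end Cfsg.Agent.S4414
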