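import Cfsg.Statements.S4420
import Cfsg.Agent.Lib.Coprime.Conj
import Cfsg.Agent.Lib.Basic.Frattini

set_option autoImplicit false
open Cfsg

namespace Cfsg.Agent.S4420

/-- Structure of groups in which every element outside some proper subgroup has square 1. Let H be a finite group with a proper subgroup A such that every element outside A has square 1. Then H has an abelian normal subgroup B of index 2 such that every element outside B is an involution inverting every element of B; and if H is not an elementary abelian 2-group, B is the only abelian normal subgroup of index 2 with this property. -/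
theorem result {H : Type*} [Group H] [Finite H] (A : Subgroup H) (hA : A ≠ ⊤) (hD : ∀ x : H, x ∉ A → x ^ 2 = 1) :
    ∃ B : Subgroup H, B.Normal ∧ IsMulCommutative ↥B ∧ B.index = 2 ∧
      (∀ x : H, x ∉ B → x ^ 2 = 1 ∧ ∀ b ∈ B, x * b * x⁻¹ = b⁻¹) ∧
      (¬ (IsMulCommutative H ∧ ∀ x : H, x ^ 2 = 1) →
        ∀ B' : Subgroup H, B'.Normal → IsMulCommutative ↥B' → B'.index = 2 →
          (∀ x : H, x ∉ B' → x ^ 2 = 1 ∧ ∀ b ∈ B', x * b * x⁻¹ = b⁻¹) → B' = B) := by
  classical
  have hinv : ∀ x, x ∉ A → ∀ a ∈ A, x * a * x⁻¹ = a⁻¹ := by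
    intro x hx a ha
    have h1 : x * a ∉ A := fun h => hx (by simpa using A.mul_mem h (A.inv_mem ha))
    have h2 := hD (x * a) h1
    have h3 := hD x hx
    have h4 : x⁻¹ = x := by
      rw [pow_two] at h3
      exact inv_eq_of_mul_eq_one_left h3
    rw [h4]
    rw [pow_two] at h2
    have h5 : x * a * x * a = 1 := by rw [← h2]; group
    exact eq_inv_of_mul_eq_one_left h5
  obtain ⟨x₀, hx₀⟩ : ∃ x, x ∉ A := by
    by_contra hcon
    push_neg at hcon
    exact hA (eq_top_iff.mpr (fun x _ => hcon x))
  have hAc : ∀ a ∈ A, ∀ b ∈ A, a * b = b * a := by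
    intro a ha b hb
    have h1 := hinv x₀ hx₀ (a * b) (A.mul_mem ha hb)
    have h2 : x₀ * (a * b) * x₀⁻¹ = (x₀ * a * x₀⁻¹) * (x₀ * b * x₀⁻¹) := by group
    rw [h2, hinv x₀ hx₀ a ha, hinv x₀ hx₀ b hb] at h1
    have h3 : (b * a)⁻¹ = (a * b)⁻¹ := by
      rw [← h1]; group
    exact (inv_injective h3).symm
  have hcomm_of_sq : (∀ x : H, x ^ 2 = 1) → ∀ a b : H, a * b = b * a := by
    intro h a b
    have h1 := h (a * b)
    have h2 := h a
    have h3 := h b
    rw [pow_two] at h1 h2 h3
    calc a * b = a * (a * b * (a * b)) * b := by rw [h1]; group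
      _ = (a * a) * (b * a) * (b * b) := by group
      _ = b * a := by rw [h2, h3]; group
  by_cases helem : ∀ x : H, x ^ 2 = 1
  · have hcomm := hcomm_of_sq helem
    letI : CommGroup H := { (inferInstance : Group H) with mul_comm := hcomm }
    obtain ⟨C, hC, hAC⟩ := Lib.Coprime.exists_coatom_ge hA
    have hCn : C.Normal := inferInstance
    haveI : Group.IsNilpotent H := inferInstance
    have hprime : C.index.Prime := Lib.Basic.index_prime_of_isCoatom_of_isNilpotent hC
    have h2 : C.index = 2 := by
      have hd : C.index ∣ Nat.card H := Subgroup.index_dvd_card C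
      -- the quotient has exponent 2
      have hp : IsPGroup 2 H := fun g => ⟨1, by simpa using helem g⟩
      obtain ⟨k, hk⟩ := IsPGroup.iff_card.mp hp
      rw [hk] at hd
      obtain ⟨j, _, hj⟩ := (Nat.dvd_prime_pow Nat.prime_two).mp hd
      rw [hj] at hprime ⊢
      have hj1 : j = 1 := by
        rcases j with _ | _ | j
        · simp at hprime
          exact absurd hprime Nat.not_prime_one
        · rfl
        · exact absurd hprime (Nat.Prime.not_prime_pow (by omega))
      rw [hj1]; rfl
    refine ⟨C, hCn, ⟨⟨fun a b => Subtype.ext (hcomm _ _)⟩⟩, h2, ?_, ?_⟩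
    · intro x _
      refine ⟨helem x, fun b _ => ?_⟩
      rw [hcomm x b, mul_inv_cancel_right]
      have := helem b
      rw [pow_two] at this
      exact eq_inv_of_mul_eq_one_left this
    · intro h
      exact absurd ⟨⟨⟨hcomm⟩⟩, helem⟩ h
  · -- `A` has index two
    have hprod : ∀ x y, x ∉ A → y ∉ A → x * y ∈ A := by
      intro x y hx hy
      by_contra hxy
      apply helem
      have hsq : ∀ a ∈ A, a ^ 2 = 1 := by
        intro a ha
        have h1 := hinv _ hxy a ha
        have h2 : (x * y) * a * (x * y)⁻¹ = x * (y * a * y⁻¹) * x⁻¹ := by group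
        rw [h2, hinv y hy a ha] at h1
        have h3 := hinv x hx a⁻¹ (A.inv_mem ha)
        rw [h3, inv_inv] at h1
        rw [pow_two]
        nth_rewrite 1 [h1]
        simp
      intro x
      by_cases hxA : x ∈ A
      · exact hsq x hxA
      · exact hD x hxA
    have hidx : A.index = 2 := by
      rw [Subgroup.index_eq_two_iff]
      refine ⟨x₀, fun b => ?_⟩
      by_cases hb : b ∈ A
      · refine Or.inr ⟨hb, fun h => hx₀ ?_⟩
        simpa using A.mul_mem (A.inv_mem hb) h
      · exact Or.inl ⟨hprod b x₀ hb hx₀, hb⟩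
    have hAn : A.Normal := Subgroup.normal_of_index_eq_two hidx
    refine ⟨A, hAn, ⟨⟨fun a b => Subtype.ext (hAc _ a.2 _ b.2)⟩⟩, hidx, ?_, ?_⟩
    · intro x hx
      exact ⟨hD x hx, hinv x hx⟩
    · intro _ B' hB'n hB'c hB'i hB'
      by_contra hne
      apply helem
      -- an element of `B'` outside `A`
      obtain ⟨b', hb'B, hb'A⟩ : ∃ b' ∈ B', b' ∉ A := by
        by_contra hcon
        push_neg at hcon
        apply hne
        refine Subgroup.eq_of_le_of_card_ge hcon ?_
        have h1 := Subgroup.card_mul_index A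
        have h2 := Subgroup.card_mul_index B'
        rw [hidx] at h1
        rw [hB'i] at h2
        omega
      intro z
      by_cases hzA : z ∈ A
      · by_cases hzB : z ∈ B'
        · have h1 := hinv b' hb'A z hzA
          have h2 : b' * z = z * b' :=
            congrArg Subtype.val (hB'c.is_comm.comm ⟨b', hb'B⟩ ⟨z, hzB⟩)
          rw [h2, mul_inv_cancel_right] at h1
          rw [pow_two]
          nth_rewrite 1 [h1]
          simp
        · exact (hB' z hzB).1
      · exact hD z hzA

end Cfsg.Agent.S4420
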