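import Cfsg.Statements.S4540
import Cfsg.Agent.Lib.H8Group.MajorTwo

set_option autoImplicit false
open Cfsg

namespace Cfsg.Agent.S4540

open Cfsg.Agent.Lib.Char Cfsg.Agent.Lib.H8Group Cfsg.Agent.Lib.Blocks

/-- Let B be a 2-block of the finite group G (relative to a maximal ideal M of the algebraic integers containing 2) of defect d with defect group D. Let z be an element of D commuting with every element of D, and let b be a block of the centralizer C of z with defect group D that induces B (a major subsection (z, b)). If b has 2-regular rank at most three, then 3·k(B) ≤ 3·k₀(B) + 2·Σ 2 ^ h(χ), where k(B) is the number of members of B, k₀(B) the number of members of height zero, and the sum runs over the members χ of B of positive height h(χ); this bound is at most 3·2 ^ d, so in particular B contains at most 2 ^ d irreducible characters. -/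
theorem result {G : Type*} [Group G] [Finite G] (M : Ideal Cfsg.AlgInt) (hM : Cfsg.IsPModular 2 M) (B : Set (Cfsg.IrrCharacter G)) (hB : Cfsg.IsPBlock M B) (D : Subgroup G) (hD : Cfsg.IsDefectGroup 2 M B D) (z : G) (hzD : z ∈ D) (hzc : ∀ d ∈ D, d * z = z * d) (b : Set (Cfsg.IrrCharacter ↥(Subgroup.centralizer ({z} : Set G)))) (hb : Cfsg.IsInducedBlock M (Subgroup.centralizer ({z} : Set G)) b B) (hbD : Cfsg.IsDefectGroup 2 M b (D.subgroupOf (Subgroup.centralizer ({z} : Set G)))) (hl : Cfsg.blockRank 2 b ≤ 3) : 3 * Nat.card B ≤ 3 * Nat.card {χ : Cfsg.IrrCharacter G // χ ∈ B ∧ Cfsg.blockHeight 2 B (χ : G → ℂ) = 0} + 2 * (∑ᶠ χ ∈ {χ : Cfsg.IrrCharacter G | χ ∈ B ∧ 1 ≤ Cfsg.blockHeight 2 B (χ : G → ℂ)}, 2 ^ Cfsg.blockHeight 2 B (χ : G → ℂ)) ∧ 3 * Nat.card {χ : Cfsg.IrrCharacter G // χ ∈ B ∧ Cfsg.blockHeight 2 B (χ : G → ℂ) = 0} + 2 * (∑ᶠ χ ∈ {χ : Cfsg.IrrCharacter G | χ ∈ B ∧ 1 ≤ Cfsg.blockHeight 2 B (χ : G → ℂ)}, 2 ^ Cfsg.blockHeight 2 B (χ : G → ℂ)) ≤ 3 * 2 ^ Cfsg.blockDefect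 2 B := by
  classical
  letI := Fintype.ofFinite G
  letI : Fintype (Subgroup.centralizer ({z} : Set G)) := Fintype.ofFinite _
  have := isPrime_of_modular hM
  have hxp : ∃ k, orderOf ((centElt z : Subgroup.centralizer ({z} : Set G)) : G) = 2 ^ k :=
    orderOf_of_mem_defect hM hB hD hzD
  have hdef := defect_eq_of_major hM hB hb.1 hD hzc hbD
  obtain ⟨m, hodd, h1, h2⟩ := major_bounds_two hM (mem_cent_iff z) hxp hb hdef
  have hk₀ : Nat.card {χ : IrrCharacter G // χ ∈ B ∧ blockHeight 2 B (χ : G → ℂ) = 0} =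
      ∑ χ ∈ Finset.univ.filter (· ∈ B), if blockHeight 2 B ((χ : IrrCharacter G) : G → ℂ) = 0 then 1 else 0 := by
    rw [Nat.card_eq_fintype_card, Fintype.card_subtype, Finset.card_filter, Finset.sum_filter]
    refine Finset.sum_congr rfl fun χ _ => ?_
    by_cases h3 : χ ∈ B <;> simp [h3]
  have hW : ∑ᶠ χ ∈ {χ : IrrCharacter G | χ ∈ B ∧ 1 ≤ blockHeight 2 B (χ : G → ℂ)}, 2 ^ blockHeight 2 B (χ : G → ℂ) =
      ∑ χ ∈ Finset.univ.filter (· ∈ B), if blockHeight 2 B ((χ : IrrCharacter G) : G → ℂ) = 0 then 0 else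
        2 ^ blockHeight 2 B ((χ : IrrCharacter G) : G → ℂ) := by
    rw [finsum_mem_eq_filter, Finset.sum_filter, Finset.sum_filter]
    refine Finset.sum_congr rfl fun χ _ => ?_
    by_cases h3 : χ ∈ B
    · by_cases h4 : blockHeight 2 B (χ : G → ℂ) = 0
      · simp [h3, h4]
      · have h5 : 1 ≤ blockHeight 2 B (χ : G → ℂ) := by omega
        simp [h3, h4, h5]
    · simp [h3]
  rw [natCard_block_eq, hk₀, hW, Finset.mul_sum, Finset.mul_sum, ← Finset.sum_add_distrib]
  have hcard : (Finset.univ.filter (· ∈ B)).card = ∑ χ ∈ Finset.univ.filter (· ∈ B), 1 := by simp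
  constructor
  · rw [hcard, Finset.mul_sum]
    refine Finset.sum_le_sum fun χ _ => ?_
    by_cases h4 : blockHeight 2 B (χ : G → ℂ) = 0
    · simp [h4]
    · simp only [h4, if_false]
      have h5 : 2 ≤ 2 ^ blockHeight 2 B (χ : G → ℂ) := by
        calc 2 = 2 ^ 1 := rfl
          _ ≤ _ := Nat.pow_le_pow_right (by norm_num) (by omega)
      omega
  · rcases Nat.lt_or_ge m 3 with hm1 | hm2
    · have hm1' : m = 1 := by
        obtain ⟨a, ha⟩ := hodd
        omega
      subst hm1'
      calc _ ≤ ∑ χ ∈ Finset.univ.filter (· ∈ B), 3 * 2 ^ (2 * blockHeight 2 B ((χ : IrrCharacter G) : G → ℂ)) := by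
            refine Finset.sum_le_sum fun χ _ => ?_
            by_cases h4 : blockHeight 2 B (χ : G → ℂ) = 0
            · simp [h4]
            · simp only [h4, if_false]
              have h5 : 2 ^ blockHeight 2 B (χ : G → ℂ) ≤ 2 ^ (2 * blockHeight 2 B (χ : G → ℂ)) :=
                Nat.pow_le_pow_right (by norm_num) (by omega)
              omega
        _ = 3 * ∑ χ ∈ Finset.univ.filter (· ∈ B), 2 ^ (2 * blockHeight 2 B ((χ : IrrCharacter G) : G → ℂ)) := by
            rw [Finset.mul_sum]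
        _ ≤ 3 * (1 * 2 ^ blockDefect 2 B) := Nat.mul_le_mul_left _ h1
        _ = _ := by ring
    · calc _ ≤ ∑ χ ∈ Finset.univ.filter (· ∈ B), (if blockHeight 2 B ((χ : IrrCharacter G) : G → ℂ) = 0 then m else
              2 ^ (blockHeight 2 B ((χ : IrrCharacter G) : G → ℂ) + 1)) := by
            refine Finset.sum_le_sum fun χ _ => ?_
            by_cases h4 : blockHeight 2 B (χ : G → ℂ) = 0
            · simp only [h4, if_true]
              omega
            · simp only [h4, if_false]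
              rw [pow_succ]
              omega
        _ ≤ 2 ^ blockDefect 2 B * blockRank 2 b := h2
        _ ≤ 2 ^ blockDefect 2 B * 3 := Nat.mul_le_mul_left _ hl
        _ = _ := mul_comm _ _

end Cfsg.Agent.S4540
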