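import Cfsg.Statements.S4541
import Cfsg.Agent.Lib.H8Group.HeightLocal

set_option autoImplicit false
open Cfsg

namespace Cfsg.Agent.S4541

open Cfsg.Agent.Lib.Char Cfsg.Agent.Lib.H8Group Cfsg.Agent.Lib.Blocks

theorem arith (m k l Q : ℕ) (hm : Odd m) (h1 : m * k ≤ Q * l) (h2 : k ≤ m * Q) :
    (Odd (Nat.sqrt l) → k ≤ Nat.sqrt l * Q) ∧ (¬ Odd (Nat.sqrt l) → (Nat.sqrt l + 1) * k ≤ l * Q) ∧
      (l ≤ 3 → k ≤ Q) := by
  have hs1 : Nat.sqrt l * Nat.sqrt l ≤ l := Nat.sqrt_le l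
  have hs2 : l < (Nat.sqrt l + 1) * (Nat.sqrt l + 1) := Nat.lt_succ_sqrt l
  have ha : Odd (Nat.sqrt l) → k ≤ Nat.sqrt l * Q := by
    intro hodd
    generalize Nat.sqrt l = s at *
    by_cases hms : m ≤ s
    · exact h2.trans (Nat.mul_le_mul_right _ hms)
    · have hm2 : s + 2 ≤ m := by
        obtain ⟨a, ha⟩ := hm
        obtain ⟨c, hc⟩ := hodd
        omega
      have h3 : (s + 2) * k ≤ (s + 2) * (s * Q) := by
        calc (s + 2) * k ≤ m * k := Nat.mul_le_mul_right _ hm2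
          _ ≤ Q * l := h1
          _ ≤ Q * (s * (s + 2)) := Nat.mul_le_mul_left _ (by nlinarith)
          _ = (s + 2) * (s * Q) := by ring
      exact Nat.le_of_mul_le_mul_left h3 (by omega)
  have hb : ¬ Odd (Nat.sqrt l) → (Nat.sqrt l + 1) * k ≤ l * Q := by
    intro heven
    generalize Nat.sqrt l = s at *
    by_cases hms : s + 1 ≤ m
    · calc (s + 1) * k ≤ m * k := Nat.mul_le_mul_right _ hms
        _ ≤ Q * l := h1
        _ = l * Q := by ring
    · have hs0 : 1 ≤ m := hm.pos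
      have hm2 : m + 1 ≤ s := by
        have h3 : ¬ Odd s := heven
        rw [Nat.not_odd_iff_even] at h3
        obtain ⟨a, ha⟩ := hm
        obtain ⟨c, hc⟩ := h3
        omega
      calc (s + 1) * k ≤ (s + 1) * (m * Q) := Nat.mul_le_mul_left _ h2
        _ ≤ (s + 1) * ((s - 1) * Q) := Nat.mul_le_mul_left _ (Nat.mul_le_mul_right _ (by omega))
        _ = ((s + 1) * (s - 1)) * Q := by ring
        _ ≤ l * Q := Nat.mul_le_mul_right _ (by
          obtain ⟨t, rfl⟩ : ∃ t, s = t + 1 := ⟨s - 1, by omega⟩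
          simp only [Nat.add_sub_cancel]
          nlinarith)
  refine ⟨ha, hb, fun hl => ?_⟩
  have hs3 : Nat.sqrt l ≤ 1 := by
    by_contra hcon
    have : 2 ≤ Nat.sqrt l := by omega
    nlinarith
  interval_cases hs : Nat.sqrt l
  · have h3 := hb (by decide)
    have h4 : l = 0 := by omega
    subst h4
    simp at h3
    simp [h3]
  · have h3 := ha (by decide)
    omega
/-- Let B be a 2-block of the finite group G (relative to a maximal ideal M of the algebraic integers containing 2), u a 2-element, and b a block of the centralizer of u inducing B (a subsection (u, b)), of defect q and 2-regular rank l; write s for the integer square root of l and k₀(B) for the number of members of B of height zero. If s is odd then k₀(B) ≤ s·2 ^ q, and otherwise (s + 1)·k₀(B) ≤ l·2 ^ q; in particular k₀(B) ≤ 2 ^ q when l ≤ 3. -/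
theorem result {G : Type*} [Group G] [Finite G] (M : Ideal Cfsg.AlgInt) (hM : Cfsg.IsPModular 2 M) (B : Set (Cfsg.IrrCharacter G)) (hB : Cfsg.IsPBlock M B) (u : G) (hu : ∃ j : ℕ, orderOf u = 2 ^ j) (b : Set (Cfsg.IrrCharacter ↥(Subgroup.centralizer ({u} : Set G)))) (hb : Cfsg.IsInducedBlock M (Subgroup.centralizer ({u} : Set G)) b B) : (Odd (Nat.sqrt (Cfsg.blockRank 2 b)) → Nat.card {χ : Cfsg.IrrCharacter G // χ ∈ B ∧ Cfsg.blockHeight 2 B (χ : G → ℂ) = 0} ≤ Nat.sqrt (Cfsg.blockRank 2 b) * 2 ^ Cfsg.blockDefect 2 b) ∧ (¬ Odd (Nat.sqrt (Cfsg.blockRank 2 b)) → (Nat.sqrt (Cfsg.blockRank 2 b) + 1) * Nat.card {χ : Cfsg.IrrCharacter G // χ ∈ B ∧ Cfsg.blockHeight 2 B (χ : G → ℂ) = 0} ≤ Cfsg.blockRank 2 b * 2 ^ Cfsg.blockDefect 2 b) ∧ (Cfsg.blockRank 2 b ≤ 3 → Nat.card {χ : Cfsg.IrrCharacter G // χ ∈ B ∧ Cfsg.blockHeight 2 B (χ : G → ℂ) = 0} ≤ 2 ^ Cfsg.blockDefect 2 b) := by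
  classical
  letI := Fintype.ofFinite G
  letI : Fintype (Subgroup.centralizer ({u} : Set G)) := Fintype.ofFinite _
  have hxp : ∃ k, orderOf ((centElt u : Subgroup.centralizer ({u} : Set G)) : G) = 2 ^ k := hu
  have hH := mem_cent_iff u
  obtain ⟨m, hm, hodd, hS⟩ := lattice_bounds hM hH hxp hb
  obtain ⟨h1, h2⟩ := hS (Finset.univ.filter (fun χ : IrrCharacter G => χ ∈ B ∧ blockHeight 2 B (χ : G → ℂ) = 0)) (by
    intro χ hχ
    have hχB := (Finset.mem_filter.mp hχ).2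
    exact ⟨hχB.1, height_zero_row hM hH hxp hb hχB.1 hχB.2⟩)
  have hcard : Nat.card {χ : IrrCharacter G // χ ∈ B ∧ blockHeight 2 B (χ : G → ℂ) = 0} =
      (Finset.univ.filter (fun χ : IrrCharacter G => χ ∈ B ∧ blockHeight 2 B (χ : G → ℂ) = 0)).card := by
    rw [Nat.card_eq_fintype_card, Fintype.card_subtype]
  rw [hcard]
  exact arith m _ _ _ (hodd rfl) h1 h2

end Cfsg.Agent.S4541
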