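import Cfsg.Statements.S4550
import Cfsg.Agent.Lib.Blocks.PrincipalDegrees
import Cfsg.Agent.Lib.Blocks.BlockField

set_option autoImplicit false
open Cfsg

namespace Cfsg.Agent.S4550

/-- Let G be a finite group of even order and M a maximal ideal of the algebraic integers containing 2. Let k be a natural number with g ^ k = g ^ 3 for every 2-element g and g ^ k = g for every element g of odd order (such k exist); an irreducible character χ is unchanged by g ↦ g ^ k exactly when it is fixed by the field automorphism that cubes the 2-power roots of unity and fixes the roots of unity of odd order. Then the number of members χ of the principal 2-block of odd degree with χ (g ^ k) = χ g for all g is even. -/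
theorem result {G : Type*} [Group G] [Finite G] (M : Ideal Cfsg.AlgInt) (hM : Cfsg.IsPModular 2 M) (hev : Even (Nat.card G)) (k : ℕ) (hk₁ : ∀ g : G, (∃ j : ℕ, orderOf g = 2 ^ j) → g ^ k = g ^ 3) (hk₂ : ∀ g : G, Odd (orderOf g) → g ^ k = g) : Even (Nat.card {χ : Cfsg.IrrCharacter G // χ ∈ Cfsg.principalBlock M G ∧ Odd (Cfsg.charDegree (χ : G → ℂ)) ∧ ∀ g : G, (χ : G → ℂ) (g ^ k) = (χ : G → ℂ) g}) := by
  classical
  cases nonempty_fintype G
  haveI : Fact (Nat.Prime 2) := ⟨Nat.prime_two⟩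
  have hM' := Cfsg.Agent.Lib.Blocks.isPrime_of_modular hM
  obtain ⟨α, hα⟩ := Cfsg.Agent.Lib.Blocks.exists_isPExp G 2
  -- `k` is coprime to the order
  have hk : k.Coprime (Nat.card G) := by
    rw [Nat.coprime_iff_gcd_eq_one] 
    by_contra hne
    obtain ⟨ℓ, hℓ, hℓd⟩ := Nat.exists_prime_and_dvd hne
    have h1 : ℓ ∣ k := hℓd.trans (Nat.gcd_dvd_left _ _)
    have h2 : ℓ ∣ Nat.card G := hℓd.trans (Nat.gcd_dvd_right _ _)
    haveI : Fact ℓ.Prime := ⟨hℓ⟩
    obtain ⟨g, hg⟩ := exists_prime_orderOf_dvd_card (G := G) ℓ (by rwa [← Nat.card_eq_fintype_card])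
    have h3 : g ^ k = 1 := by
      rw [← orderOf_dvd_iff_pow_eq_one, hg]; exact h1
    have hg1 : g ≠ 1 := by
      intro h; rw [h, orderOf_one] at hg; exact hℓ.one_lt.ne hg
    by_cases h2ℓ : ℓ = 2
    · subst h2ℓ
      have h4 := hk₁ g ⟨1, by rw [hg, pow_one]⟩
      rw [h3] at h4
      have h5 : g ^ 2 = 1 := by rw [← hg, pow_orderOf_eq_one]
      apply hg1
      have : g ^ 3 = g := by rw [pow_succ, h5, one_mul]
      rw [← this, ← h4]
    · have h4 := hk₂ g (by rw [hg]; exact hℓ.odd_of_ne_two h2ℓ)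
      rw [h3] at h4
      exact hg1 h4.symm
  have hpow : ∀ (g : G) (i : ℕ), g ^ (k ^ i) = (g ^ α) ^ (3 ^ i) * (g ^ α) ^ 0 * (g * (g ^ α)⁻¹) := by
    intro g i
    obtain ⟨y, hy, hc, ⟨j, hj⟩, hreg⟩ := hα.isPPart g
    have hyeq : g * (g ^ α)⁻¹ = y := mul_inv_eq_iff_eq_mul.mpr (hy.symm.trans hc.eq)
    rw [hyeq]
    simp only [pow_zero, mul_one]
    generalize hu : g ^ α = u at *
    subst hy
    induction i with
    | zero => simp
    | succ i ih =>
      rw [pow_succ k, pow_mul, ih]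
      have hc' : Commute (u ^ 3 ^ i) y := hc.pow_left _
      rw [hc'.mul_pow]
      have h1 : orderOf (u ^ 3 ^ i) ∣ 2 ^ j := by
        rw [← hj]; exact orderOf_pow_dvd _
      obtain ⟨j', -, hj'⟩ := (Nat.dvd_prime_pow Nat.prime_two).mp h1
      rw [hk₁ _ ⟨j', hj'⟩, hk₂ y (by
        rw [← Nat.not_even_iff_odd, even_iff_two_dvd]; exact hreg), pow_succ 3, pow_mul]
  -- the permutation
  let X := {χ : Cfsg.IrrCharacter G // χ ∈ Cfsg.principalBlock M G ∧ Odd (Cfsg.charDegree (χ : G → ℂ))}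
  have hreg : ∀ (g : G), ¬ 2 ∣ orderOf g → g ^ k = g := fun g hg => hk₂ g (by
    rwa [← Nat.not_even_iff_odd, even_iff_two_dvd])
  have hTmem : ∀ x : X, Cfsg.Agent.Lib.Blocks.powIrrG hk x.1 ∈ Cfsg.principalBlock M G ∧
      Odd (Cfsg.charDegree ((Cfsg.Agent.Lib.Blocks.powIrrG hk x.1 : Cfsg.IrrCharacter G) : G → ℂ)) := by
    intro x
    constructor
    · have h1 : Cfsg.SameBlock M ((x.1 : Cfsg.IrrCharacter G) : G → ℂ)
          ((Cfsg.Agent.Lib.Blocks.powIrrG hk x.1 : Cfsg.IrrCharacter G) : G → ℂ) :=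
        Cfsg.Agent.Lib.Blocks.sameBlock_of_regular_eq hM (fun g hg => by
          rw [Cfsg.Agent.Lib.Blocks.powIrrG_apply, hreg g hg])
      exact Cfsg.Agent.Lib.Blocks.SameBlock.trans' x.2.1 h1
    · have h1 : Cfsg.charDegree ((Cfsg.Agent.Lib.Blocks.powIrrG hk x.1 : Cfsg.IrrCharacter G) : G → ℂ) =
          Cfsg.charDegree ((x.1 : Cfsg.IrrCharacter G) : G → ℂ) := by
        have := Cfsg.Agent.Lib.Blocks.powIrrG_apply hk x.1 1
        rw [one_pow, Cfsg.Agent.Lib.Char.apply_one_eq_charDegree (Cfsg.Agent.Lib.Blocks.irr_isCharacter _),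
          Cfsg.Agent.Lib.Char.apply_one_eq_charDegree (Cfsg.Agent.Lib.Blocks.irr_isCharacter _)] at this
        exact_mod_cast this
      rw [h1]; exact x.2.2
  let f : Function.End X := fun x => ⟨Cfsg.Agent.Lib.Blocks.powIrrG hk x.1, hTmem x⟩
  have hfpow : ∀ (m : ℕ) (x : X) (g : G), (((f ^ m) x).1 : G → ℂ) g = (x.1 : G → ℂ) (g ^ (k ^ m)) := by
    intro m
    induction m with
    | zero => intro x g; rw [pow_zero, pow_zero, pow_one]; rfl
    | succ m ih =>
      intro x g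
      rw [pow_succ]
      change (((f ^ m) (f x)).1 : G → ℂ) g = _
      rw [ih]
      change (x.1 : G → ℂ) ((g ^ k ^ m) ^ k) = _
      rw [pow_succ k, pow_mul]
  have hνpos : 1 ≤ (Nat.card G).factorization 2 :=
    Nat.prime_two.factorization_pos_of_dvd Nat.card_pos.ne' hev.two_dvd
  set ν := (Nat.card G).factorization 2 with hν
  have hf : f ^ 2 ^ (ν - 1) = 1 := by
    funext x
    apply Subtype.ext
    apply Subtype.ext
    funext g
    rw [hfpow, hpow]
    have hφ : Nat.totient (2 ^ ν) = 2 ^ (ν - 1) := by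
      obtain ⟨n, hn⟩ : ∃ n, ν = n + 1 := ⟨ν - 1, by omega⟩
      rw [hn, Nat.totient_prime_pow_succ Nat.prime_two]; simp
    have h3 : 3 ^ (2 ^ (ν - 1)) ≡ 1 [MOD 2 ^ ν] := by
      rw [← hφ]
      exact Nat.ModEq.pow_totient (Nat.Coprime.pow_right _ (by norm_num))
    have h4 : (g ^ α) ^ 2 ^ ν = 1 := hα.pow_card g
    have h5 : (g ^ α) ^ (3 ^ (2 ^ (ν - 1))) = g ^ α := by
      have h6 : (3 ^ (2 ^ (ν - 1))) ≡ 1 [MOD orderOf (g ^ α)] :=
        h3.of_dvd (orderOf_dvd_of_pow_eq_one h4)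
      have := (pow_eq_pow_iff_modEq (x := g ^ α)).mpr h6
      simpa using this
    rw [h5, pow_zero, mul_one]
    have h8 : g ^ α * (g * (g ^ α)⁻¹) = g := by
      rw [← mul_assoc, ((Commute.refl g).pow_left α).eq, mul_assoc, mul_inv_cancel, mul_one]
    rw [h8]; rfl
  have hmod := Equiv.Perm.card_fixedPoints_modEq (p := 2) hf
  have heven := Cfsg.Agent.Lib.Blocks.even_card_odd_degree_principal hM hev
  have hcard : Nat.card {χ : Cfsg.IrrCharacter G // χ ∈ Cfsg.principalBlock M G ∧ Odd (Cfsg.charDegree (χ : G → ℂ)) ∧ ∀ g : G, (χ : G → ℂ) (g ^ k) = (χ : G → ℂ) g} =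
      Fintype.card (Function.fixedPoints f) := by
    rw [← Nat.card_eq_fintype_card]
    apply Nat.card_congr
    refine ⟨fun χ => ⟨⟨χ.1, χ.2.1, χ.2.2.1⟩, ?_⟩, fun x => ⟨x.1.1, x.1.2.1, x.1.2.2, ?_⟩, ?_, ?_⟩
    · apply Subtype.ext
      apply Subtype.ext
      funext g
      exact χ.2.2.2 g
    · intro g
      have := congrArg (fun y : X => ((y.1 : Cfsg.IrrCharacter G) : G → ℂ) g) x.2
      exact this
    · intro χ; rfl
    · intro x; rfl
  rw [hcard]
  have h7 : 2 ∣ Fintype.card X := by rw [← Nat.card_eq_fintype_card]; exact heven.two_dvd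
  exact even_iff_two_dvd.mpr (Nat.modEq_zero_iff_dvd.mp (hmod.symm.trans (Nat.modEq_zero_iff_dvd.mpr h7)))

end Cfsg.Agent.S4550
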