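import Cfsg.Statements.S4551
import Cfsg.Agent.Lib.Blocks.AlperinDade

set_option autoImplicit false
open Cfsg

namespace Cfsg.Agent.S4551

/-- Let N be a normal subgroup of the finite group G of index prime to p, P a Sylow p-subgroup of G with G = N·C_G(P), and M a maximal ideal of the algebraic integers containing p. Then restriction to N is a bijection from the principal p-block of G onto the principal p-block of N: every member of the principal block of G restricts to a member of the principal block of N, and every member of the principal block of N is the restriction of exactly one member of the principal block of G. -/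
theorem result {G : Type*} [Group G] [Finite G] (p : ℕ) [Fact p.Prime] (M : Ideal Cfsg.AlgInt) (hM : Cfsg.IsPModular p M) (N : Subgroup G) [N.Normal] (hidx : ¬ p ∣ N.index) (P : Sylow p G) (hsup : N ⊔ Subgroup.centralizer ((P : Subgroup G) : Set G) = ⊤) : (∀ χ ∈ Cfsg.principalBlock M G, ∃ θ ∈ Cfsg.principalBlock M ↥N, ∀ n : N, (χ : G → ℂ) n = (θ : N → ℂ) n) ∧ ∀ θ ∈ Cfsg.principalBlock M ↥N, ∃! χ : Cfsg.IrrCharacter G, χ ∈ Cfsg.principalBlock M G ∧ ∀ n : N, (χ : G → ℂ) n = (θ : N → ℂ) n := by
  classical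
  cases nonempty_fintype G
  letI : Fintype N := Fintype.ofFinite _
  have hpp : p.Prime := Fact.out
  have hPN : (P : Subgroup G) ≤ N := by
    intro u hu
    have h1 := IsPGroup.iff_orderOf.mp P.isPGroup' ⟨u, hu⟩
    obtain ⟨k, hk⟩ := h1
    have hk' : orderOf u = p ^ k := by rwa [Subgroup.orderOf_mk] at hk
    have h2 : ((u : G ⧸ N)) ^ (p ^ k) = 1 := by
      rw [← QuotientGroup.mk_pow, ← hk', pow_orderOf_eq_one]
      rfl
    have h3 : ((u : G ⧸ N)) ^ (Nat.card (G ⧸ N)) = 1 := pow_card_eq_one'
    have h4 : Nat.Coprime (p ^ k) (Nat.card (G ⧸ N)) := by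
      apply Nat.Coprime.pow_left
      rw [hpp.coprime_iff_not_dvd, ← Subgroup.index_eq_card]
      exact hidx
    have h5 : orderOf (u : G ⧸ N) ∣ 1 := by
      rw [← h4.gcd_eq_one]
      exact Nat.dvd_gcd (orderOf_dvd_of_pow_eq_one h2) (orderOf_dvd_of_pow_eq_one h3)
    have h6 : (u : G ⧸ N) = 1 := orderOf_eq_one_iff.mp (Nat.dvd_one.mp h5)
    exact (QuotientGroup.eq_one_iff u).mp h6
  refine Cfsg.Agent.Lib.Blocks.ad_main N hM hidx ?_
  intro g
  have hg : g ∈ N ⊔ Subgroup.centralizer ((P : Subgroup G) : Set G) := by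
    rw [hsup]
    trivial
  obtain ⟨n, hn, c, hc, rfl⟩ := Subgroup.mem_sup_of_normal_left.mp hg
  have hx : (P : Subgroup G) ≤ Subgroup.centralizer ({c} : Set G) := by
    intro u hu
    rw [Subgroup.mem_centralizer_singleton_iff]
    exact Subgroup.mem_centralizer_iff.mp hc u hu
  refine ⟨c, ?_, ?_, Cfsg.Agent.Lib.Blocks.adD_not_dvd N P hPN c hx⟩
  · rw [QuotientGroup.eq]
    have : c⁻¹ * (n * c) = c⁻¹ * n * c⁻¹⁻¹ := by group
    rw [this]
    exact (inferInstance : N.Normal).conj_mem n hn c⁻¹
  · intro hd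
    exact P.not_dvd_index (hd.trans (Subgroup.index_dvd_of_le hx))

end Cfsg.Agent.S4551
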