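import Cfsg.Statements.S4566
import Cfsg.Agent.Lib.H8Group.CentralChar

set_option autoImplicit false
open Cfsg

namespace Cfsg.Agent.S4566

open Cfsg.Agent.Lib.Char Cfsg.Agent.Lib.H8Group
open scoped ComplexConjugate

/-- Let N be a central subgroup of the finite group G, ψ a faithful irreducible (hence degree-one) character of N, and χ an irreducible character of G whose restriction to N contains ψ. If g ∈ G and some x ∈ G has commutator x⁻¹ g⁻¹ x g in N but different from 1, then χ g = 0. -/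
theorem result {G : Type*} [Group G] [Fintype G] (N : Subgroup G) [Fintype N] (hN : N ≤ Subgroup.center G) (ψ : Cfsg.IrrCharacter ↥N) (hfaith : ∀ n : ↥N, (ψ : ↥N → ℂ) n = (ψ : ↥N → ℂ) 1 → n = 1) (χ : Cfsg.IrrCharacter G) (hover : Cfsg.classInner (fun n : ↥N => (χ : G → ℂ) n) (ψ : ↥N → ℂ) ≠ 0) (g x : G) (hcomm : x⁻¹ * g⁻¹ * x * g ∈ N) (hne : x⁻¹ * g⁻¹ * x * g ≠ 1) : (χ : G → ℂ) g = 0 := by
  classical
  have : N.Normal := normal_of_le_center hN
  let z : N := ⟨x⁻¹ * g⁻¹ * x * g, hcomm⟩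
  have hz : z ≠ 1 := fun h => hne (congrArg Subtype.val h)
  have h1 := central_apply_mul N hN ψ.2 χ.2 hover z⁻¹ g
  have h2 : ((z⁻¹ : N) : G) * g = x⁻¹ * g * x := by
    have h3 := Subgroup.mem_center_iff.mp (hN z.2) g
    have h4 : ((z⁻¹ : N) : G) = (x⁻¹ * g⁻¹ * x * g)⁻¹ := rfl
    have h5 : (z : G) = x⁻¹ * g⁻¹ * x * g := rfl
    have h6 : (x⁻¹ * g⁻¹ * x * g)⁻¹ * g = g * (x⁻¹ * g⁻¹ * x * g)⁻¹ := by
      rw [← h5]
      have : g * (z : G)⁻¹ = (z : G)⁻¹ * g := by
        apply mul_left_cancel (a := (z : G))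
        rw [← mul_assoc, ← h3]
        group
      exact this.symm
    rw [h4, h6]
    group
  rw [h2] at h1
  have h7 : (χ : G → ℂ) (x⁻¹ * g * x) = (χ : G → ℂ) g := by
    have := IsCharacter.isClassFunction (IsIrrCharacter.isCharacter χ.2) g x⁻¹
    simpa using this
  rw [h7] at h1
  obtain ⟨lam, hlam⟩ := central_irr_exists_hom N hN ψ.2
  have h8 : (ψ : N → ℂ) z⁻¹ ≠ 1 := by
    intro h9
    have h10 : (ψ : N → ℂ) z⁻¹ = (ψ : N → ℂ) 1 := by
      rw [h9, hlam]
      simp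
    have h11 := hfaith _ h10
    exact hz (by simpa using h11)
  by_contra h0
  apply h8
  have h12 : (1 - (ψ : N → ℂ) z⁻¹) * (χ : G → ℂ) g = 0 := by
    rw [sub_mul, one_mul, ← h1, sub_self]
  rcases mul_eq_zero.mp h12 with h13 | h13
  · exact (sub_eq_zero.mp h13).symm
  · exact absurd h13 h0

end Cfsg.Agent.S4566
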