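import Cfsg.Statements.S4567
import Cfsg.Agent.Lib.H8Group.CentralChar
import Cfsg.Agent.Lib.Char.Gallagher

set_option autoImplicit false

open Cfsg

namespace Cfsg.Agent.S4567

open Module Cfsg.Agent.Lib.Char Cfsg.Agent.Lib.H8Group
open scoped ComplexConjugate

variable {G : Type*} [Group G] [Fintype G] (N : Subgroup G) [hNn : N.Normal] [Fintype N]

/-- The space of class functions transforming by `ψ` on `N`. -/
def spaceV (ψ : N → ℂ) (hψ1 : ∀ a b : N, ψ (a * b) = ψ a * ψ b) : Submodule ℂ (G → ℂ) where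
  carrier := {f | IsClassFunction G f ∧ ∀ (z : N) (x : G), f ((z : G) * x) = ψ z * f x}
  add_mem' := by
    rintro f g ⟨hf1, hf2⟩ ⟨hg1, hg2⟩
    refine ⟨fun a b => ?_, fun z x => ?_⟩
    · simp only [Pi.add_apply, hf1 a b, hg1 a b]
    · simp only [Pi.add_apply, hf2 z x, hg2 z x, mul_add]
  zero_mem' := by
    refine ⟨fun a b => rfl, fun z x => ?_⟩
    simp
  smul_mem' := by
    rintro c f ⟨hf1, hf2⟩
    refine ⟨fun a b => ?_, fun z x => ?_⟩
    · simp only [Pi.smul_apply, hf1 a b]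
    · simp only [Pi.smul_apply, hf2 z x, smul_eq_mul]
      ring

theorem coeff_zero (hN : N ≤ Subgroup.center G) {ψ : N → ℂ} (hψ : IsIrrCharacter N ψ)
    (hψ1 : ∀ a b : N, ψ (a * b) = ψ a * ψ b)
    {f : G → ℂ} (hf : f ∈ spaceV N ψ hψ1) (χ : IrrCharacter G)
    (hχ : classInner (fun n : N => (χ : G → ℂ) n) ψ = 0) : classInner f (χ : G → ℂ) = 0 := by
  classical
  obtain ⟨ψ', hψ', hov⟩ := exists_under χ.2 N
  obtain ⟨lam', rfl⟩ := central_irr_exists_hom N hN hψ'
  have hne : (fun n => ((lam' n : ℂˣ) : ℂ)) ≠ ψ := by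
    intro h
    rw [h] at hov
    exact hov hχ
  obtain ⟨z, hz⟩ := Function.ne_iff.mp hne
  have h1 : ∀ x, (χ : G → ℂ) ((z : G) * x) = (lam' z : ℂ) * (χ : G → ℂ) x :=
    fun x => central_apply_mul N hN hψ' χ.2 hov z x
  have h2 : ∑ x : G, f x * conj ((χ : G → ℂ) x) =
      ∑ x : G, f ((z : G) * x) * conj ((χ : G → ℂ) ((z : G) * x)) :=
    (Equiv.sum_comp (Equiv.mulLeft (z : G)) _).symm
  have h3 : ∑ x : G, f ((z : G) * x) * conj ((χ : G → ℂ) ((z : G) * x)) =
      ψ z * conj (lam' z : ℂ) * ∑ x : G, f x * conj ((χ : G → ℂ) x) := by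
    rw [Finset.mul_sum]
    refine Finset.sum_congr rfl fun x _ => ?_
    rw [h1, hf.2, map_mul]
    ring
  have hnorm : conj (lam' z : ℂ) * (lam' z : ℂ) = 1 := by
    have hchar := IsIrrCharacter.isCharacter hψ'
    have h4 : ‖(lam' z : ℂ)‖ = 1 :=
      norm_eq_one_of_degree_one hchar (by simp) z
    rw [Complex.conj_mul', h4]
    simp
  have h5 : ∑ x : G, f x * conj ((χ : G → ℂ) x) = 0 := by
    rw [h3] at h2
    have hne' : ψ z * conj (lam' z : ℂ) ≠ 1 := by
      intro h6
      apply hz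
      have h7 : (lam' z : ℂ) = ψ z * (conj (lam' z : ℂ) * (lam' z : ℂ)) := by
        rw [← mul_assoc, h6, one_mul]
      rw [hnorm, mul_one] at h7
      exact h7
    have h8 : (1 - ψ z * conj (lam' z : ℂ)) * ∑ x : G, f x * conj ((χ : G → ℂ) x) = 0 := by
      rw [sub_mul, one_mul, ← h2, sub_self]
    rcases mul_eq_zero.mp h8 with h9 | h9
    · exact absurd (sub_eq_zero.mp h9).symm hne'
    · exact h9
  simp only [classInner, h5, mul_zero]

theorem mem_spaceV (hN : N ≤ Subgroup.center G) {ψ : N → ℂ} (hψ : IsIrrCharacter N ψ)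
    (hψ1 : ∀ a b : N, ψ (a * b) = ψ a * ψ b) (χ : IrrCharacter G)
    (hχ : classInner (fun n : N => (χ : G → ℂ) n) ψ ≠ 0) : (χ : G → ℂ) ∈ spaceV N ψ hψ1 :=
  ⟨IsCharacter.isClassFunction (IsIrrCharacter.isCharacter χ.2),
    fun z x => central_apply_mul N hN hψ χ.2 hχ z x⟩

theorem finrank_spaceV_A (hN : N ≤ Subgroup.center G) {ψ : N → ℂ} (hψ : IsIrrCharacter N ψ)
    (hψ1 : ∀ a b : N, ψ (a * b) = ψ a * ψ b) :
    finrank ℂ (spaceV N ψ hψ1) =
      Nat.card {χ : IrrCharacter G // classInner (fun n : N => (χ : G → ℂ) n) ψ ≠ 0} := by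
  classical
  let A := {χ : IrrCharacter G // classInner (fun n : N => (χ : G → ℂ) n) ψ ≠ 0}
  have : Finite (IrrCharacter G) := finite_irr
  let _ : Fintype A := Fintype.ofFinite A
  let _ : Fintype (IrrCharacter G) := Fintype.ofFinite _
  let b : A → (G → ℂ) := fun χ => (χ.1 : G → ℂ)
  have hb : LinearIndependent ℂ b :=
    (linearIndependent_irr (G := G)).comp (fun χ : A => χ.1) Subtype.val_injective
  have hspan : Submodule.span ℂ (Set.range b) = spaceV N ψ hψ1 := by
    apply le_antisymm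
    · rw [Submodule.span_le]
      rintro _ ⟨χ, rfl⟩
      exact mem_spaceV N hN hψ hψ1 χ.1 χ.2
    · intro f hf
      rw [classFunction_eq_sum f hf.1]
      refine Submodule.sum_mem _ fun χ _ => ?_
      by_cases hχ : classInner (fun n : N => (χ : G → ℂ) n) ψ = 0
      · rw [coeff_zero N hN hψ hψ1 hf χ hχ, zero_smul]
        exact Submodule.zero_mem _
      · exact Submodule.smul_mem _ _ (Submodule.subset_span ⟨⟨χ, hχ⟩, rfl⟩)
  rw [← hspan, finrank_span_eq_card hb, Nat.card_eq_fintype_card]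

/-- The number of special classes. -/
theorem finrank_spaceV_B (hN : N ≤ Subgroup.center G) {ψ : N → ℂ}
    (hψ1 : ∀ a b : N, ψ (a * b) = ψ a * ψ b) (hψ0 : ψ 1 = 1)
    (hψne : ∀ a : N, ψ a ≠ 0)
    (hfaith : ∀ n : N, ψ n = ψ 1 → n = 1) :
    finrank ℂ (spaceV N ψ hψ1) =
      Nat.card {C : ConjClasses (G ⧸ N) // ∃ g : G, ConjClasses.mk (g : G ⧸ N) = C ∧
        ∀ x : G, x⁻¹ * g⁻¹ * x * g ∈ N → x * g = g * x} := by
  classical
  let B := {C : ConjClasses (G ⧸ N) // ∃ g : G, ConjClasses.mk (g : G ⧸ N) = C ∧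
        ∀ x : G, x⁻¹ * g⁻¹ * x * g ∈ N → x * g = g * x}
  let _ : Fintype B := Fintype.ofFinite B
  choose rep hrep1 hrep2 using (fun C : B => C.2)
  have hcomm : ∀ (z : N) (x : G), (z : G) * x = x * z := fun z x =>
    (Subgroup.mem_center_iff.mp (hN z.2) x).symm
  have huniq : ∀ (C D : B) (y y' : G) (z z' : N) (x : G), y⁻¹ * x * y = rep C * z →
      y'⁻¹ * x * y' = rep D * z' → C = D ∧ z = z' := by
    intro C D y y' z z' x h1 h2
    have hCD : C = D := by
      apply Subtype.ext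
      rw [← hrep1 C, ← hrep1 D, ConjClasses.mk_eq_mk_iff_isConj]
      have h3 : ((rep C : G) : G ⧸ N) = ((y⁻¹ * x * y : G) : G ⧸ N) := by
        rw [h1, QuotientGroup.mk_mul, (QuotientGroup.eq_one_iff (z : G)).mpr z.2, mul_one]
      have h4 : ((rep D : G) : G ⧸ N) = ((y'⁻¹ * x * y' : G) : G ⧸ N) := by
        rw [h2, QuotientGroup.mk_mul, (QuotientGroup.eq_one_iff (z' : G)).mpr z'.2, mul_one]
      rw [h3, h4]
      simp only [QuotientGroup.mk_mul, QuotientGroup.mk_inv]
      rw [isConj_iff]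
      refine ⟨((y' : G ⧸ N))⁻¹ * (y : G ⧸ N), ?_⟩
      group
    subst hCD
    refine ⟨rfl, ?_⟩
    set g := rep C with hg
    set u := y⁻¹ * y' with hu
    have h3 : u⁻¹ * (g * z) * u = g * z' := by
      rw [← h1, ← h2, hu]
      group
    have h4 : u⁻¹ * g * u * z = g * z' := by
      rw [← h3]
      have := hcomm z u
      calc u⁻¹ * g * u * z = u⁻¹ * g * (u * z) := by group
        _ = u⁻¹ * g * (z * u) := by rw [this]
        _ = u⁻¹ * (g * z) * u := by group
    have h5 : u⁻¹ * g⁻¹ * u * g ∈ N := by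
      have h6 : u⁻¹ * g * u = g * z' * (z : G)⁻¹ := by
        rw [← h4]; group
      have h7 : u⁻¹ * g⁻¹ * u = (u⁻¹ * g * u)⁻¹ := by group
      rw [h7, h6]
      have h8 : (g * z' * (z : G)⁻¹)⁻¹ * g = (z : G) * (z' : G)⁻¹ := by
        have := hcomm z' g
        have h9 : ((z' : G))⁻¹ * g⁻¹ * g = (z' : G)⁻¹ := by group
        calc (g * z' * (z : G)⁻¹)⁻¹ * g = (z : G) * (((z' : G))⁻¹ * g⁻¹ * g) := by group
          _ = _ := by rw [h9]
      rw [h8]
      exact N.mul_mem z.2 (N.inv_mem z'.2)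
    have h6 := hrep2 C u h5
    have h7 : u⁻¹ * g * u = g := by
      have h6' : u * g = g * u := h6
      calc u⁻¹ * g * u = u⁻¹ * (g * u) := by group
        _ = u⁻¹ * (u * g) := by rw [← h6']
        _ = g := by group
    rw [h7] at h4
    exact Subtype.ext (mul_left_cancel h4)
  -- evaluation at representatives
  let ev : spaceV N ψ hψ1 →ₗ[ℂ] (B → ℂ) :=
    { toFun := fun f C => f.1 (rep C)
      map_add' := fun f g => rfl
      map_smul' := fun c f => rfl }
  have hinj : Function.Injective ev := by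
    rw [← LinearMap.ker_eq_bot, LinearMap.ker_eq_bot']
    intro f hf
    apply Subtype.ext
    funext x
    have hf0 : ∀ C : B, f.1 (rep C) = 0 := fun C => congrFun hf C
    have hcl := f.2.1
    have hmul := f.2.2
    by_cases hsp : ∀ y : G, y⁻¹ * x⁻¹ * y * x ∈ N → y * x = x * y
    · -- special
      let C : B := ⟨ConjClasses.mk (x : G ⧸ N), x, rfl, hsp⟩
      have h1 := hrep1 C
      have h2 : IsConj ((rep C : G) : G ⧸ N) (x : G ⧸ N) := ConjClasses.mk_eq_mk_iff_isConj.mp h1
      obtain ⟨c, hc⟩ := isConj_iff.mp h2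
      obtain ⟨y, rfl⟩ := QuotientGroup.mk_surjective c
      have h3 : (y * rep C * y⁻¹)⁻¹ * x ∈ N := by
        rw [← QuotientGroup.eq]
        rw [← hc]
        simp
      let z : N := ⟨_, h3⟩
      have h4 : x = y * rep C * y⁻¹ * z := by
        show x = y * rep C * y⁻¹ * ((y * rep C * y⁻¹)⁻¹ * x)
        group
      have h5 : f.1 x = f.1 (z * (y * rep C * y⁻¹)) := by
        rw [hcomm z, ← h4]
      rw [h5, hmul, hcl, hf0 C, mul_zero]
      rfl
    · push Not at hsp
      obtain ⟨y, hy1, hy2⟩ := hsp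
      set z : N := ⟨_, hy1⟩ with hz
      have h1 : y⁻¹ * x * y = ((z : G))⁻¹ * x := by
        have := hcomm z⁻¹ x
        have h2 : ((z⁻¹ : N) : G) = (z : G)⁻¹ := rfl
        rw [h2] at this
        rw [this]
        simp only [hz]
        group
      have h2 : f.1 x = ψ z⁻¹ * f.1 x := by
        have h3 := hmul z⁻¹ x
        have h4 : ((z⁻¹ : N) : G) * x = y⁻¹ * x * y := h1.symm
        rw [h4] at h3
        have h5 := hcl x y⁻¹
        simp only [inv_inv] at h5
        rw [h5] at h3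
        exact h3
      have hz1 : z⁻¹ ≠ 1 := by
        intro h
        apply hy2
        have h6 : (z : G) = 1 := by
          have := inv_eq_one.mp h
          rw [this]; rfl
        simp only [hz] at h6
        have h7 : y⁻¹ * x⁻¹ * y * x = 1 := h6
        have h8 : y⁻¹ * x⁻¹ * y = x⁻¹ := by
          calc y⁻¹ * x⁻¹ * y = y⁻¹ * x⁻¹ * y * x * x⁻¹ := by group
            _ = x⁻¹ := by rw [h7, one_mul]
        have h9 : x⁻¹ * y = y * x⁻¹ := by
          calc x⁻¹ * y = y * (y⁻¹ * x⁻¹ * y) := by group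
            _ = y * x⁻¹ := by rw [h8]
        calc y * x = x * (x⁻¹ * y) * x := by group
          _ = x * (y * x⁻¹) * x := by rw [h9]
          _ = x * y := by group
      have hne : ψ z⁻¹ ≠ 1 := fun h => hz1 (hfaith _ (by rw [h, hψ0]))
      have h3 : (1 - ψ z⁻¹) * f.1 x = 0 := by
        rw [sub_mul, one_mul, ← h2, sub_self]
      rcases mul_eq_zero.mp h3 with h4 | h4
      · exact absurd (sub_eq_zero.mp h4).symm hne
      · exact h4
  have hsurj : Function.Surjective ev := by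
    intro c
    let P : G → Prop := fun x => ∃ (C : B) (y : G) (z : N), y⁻¹ * x * y = rep C * z
    have hP : ∃ F : G → ℂ, (∀ (C : B) (y : G) (z : N) (x : G), y⁻¹ * x * y = rep C * z →
        F x = ψ z * c C) ∧ (∀ x, ¬ P x → F x = 0) := by
      refine ⟨fun x => if h : P x then ψ h.choose_spec.choose_spec.choose * c h.choose else 0,
        ?_, ?_⟩
      · intro C y z x hx
        have h : P x := ⟨C, y, z, hx⟩
        simp only [dif_pos h]
        obtain ⟨h1, h2⟩ := huniq _ _ _ _ _ _ _ h.choose_spec.choose_spec.choose_spec hx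
        rw [h2, h1]
      · intro x hx
        simp only [dif_neg hx]
    obtain ⟨F, hF1, hF2⟩ := hP
    have hcl : IsClassFunction G F := by
      intro g h
      by_cases hg : P g
      · obtain ⟨C, y, z, hy⟩ := hg
        rw [hF1 C y z g hy]
        refine hF1 C (h * y) z _ ?_
        rw [← hy]; group
      · rw [hF2 g hg]
        apply hF2
        rintro ⟨C, y, z, hy⟩
        apply hg
        refine ⟨C, h⁻¹ * y, z, ?_⟩
        rw [← hy]; group
    have hmul : ∀ (z : N) (x : G), F ((z : G) * x) = ψ z * F x := by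
      intro z₀ x
      by_cases hx : P x
      · obtain ⟨C, y, z, hy⟩ := hx
        rw [hF1 C y z x hy, hF1 C y (z₀ * z) _ ?_, hψ1]
        · ring
        · have h1 : y⁻¹ * ((z₀ : G) * x) * y = (z₀ : G) * (y⁻¹ * x * y) := by
            have := hcomm z₀ y⁻¹
            calc y⁻¹ * ((z₀ : G) * x) * y = (y⁻¹ * (z₀ : G)) * x * y := by group
              _ = ((z₀ : G) * y⁻¹) * x * y := by rw [this]
              _ = _ := by group
          rw [h1, hy]
          have := hcomm z₀ (rep C)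
          calc (z₀ : G) * (rep C * z) = ((z₀ : G) * rep C) * z := by group
            _ = (rep C * z₀) * z := by rw [this]
            _ = _ := by simp [mul_assoc]
      · rw [hF2 x hx, mul_zero]
        apply hF2
        rintro ⟨C, y, z, hy⟩
        apply hx
        refine ⟨C, y, z₀⁻¹ * z, ?_⟩
        have h1 : y⁻¹ * x * y = ((z₀⁻¹ : N) : G) * (y⁻¹ * ((z₀ : G) * x) * y) := by
          have := hcomm z₀⁻¹ y⁻¹
          have h2 : ((z₀⁻¹ : N) : G) * y⁻¹ = y⁻¹ * ((z₀⁻¹ : N) : G) := this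
          calc y⁻¹ * x * y = y⁻¹ * (((z₀⁻¹ : N) : G) * ((z₀ : G) * x)) * y := by
                simp
            _ = (y⁻¹ * ((z₀⁻¹ : N) : G)) * ((z₀ : G) * x) * y := by group
            _ = (((z₀⁻¹ : N) : G) * y⁻¹) * ((z₀ : G) * x) * y := by rw [h2]
            _ = _ := by group
        rw [h1, hy]
        have := hcomm z₀⁻¹ (rep C)
        calc ((z₀⁻¹ : N) : G) * (rep C * z) = (((z₀⁻¹ : N) : G) * rep C) * z := by group
          _ = (rep C * ((z₀⁻¹ : N) : G)) * z := by rw [this]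
          _ = _ := by simp [mul_assoc]
    refine ⟨⟨F, hcl, hmul⟩, ?_⟩
    funext C
    have := hF1 C 1 1 (rep C) (by simp)
    change F (rep C) = c C
    rw [this, hψ0, one_mul]
  let e := LinearEquiv.ofBijective ev ⟨hinj, hsurj⟩
  rw [e.finrank_eq, Module.finrank_fintype_fun_eq_card, Nat.card_eq_fintype_card]

/-- Let N be a central subgroup of the finite group G and ψ a faithful irreducible (hence degree-one) character of N. Call a coset g N special when every x ∈ G whose commutator x⁻¹ g⁻¹ x g lies in N actually commutes with g (this depends only on the coset). Then the number of irreducible characters of G whose restriction to N contains ψ equals the number of conjugacy classes of G/N consisting of special cosets. -/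
theorem result {G : Type*} [Group G] [Fintype G] (N : Subgroup G) [N.Normal] [Fintype N] (hN : N ≤ Subgroup.center G) (ψ : Cfsg.IrrCharacter ↥N) (hfaith : ∀ n : ↥N, (ψ : ↥N → ℂ) n = (ψ : ↥N → ℂ) 1 → n = 1) : Nat.card {χ : Cfsg.IrrCharacter G // Cfsg.classInner (fun n : ↥N => (χ : G → ℂ) n) (ψ : ↥N → ℂ) ≠ 0} = Nat.card {C : ConjClasses (G ⧸ N) // ∃ g : G, ConjClasses.mk (g : G ⧸ N) = C ∧ ∀ x : G, x⁻¹ * g⁻¹ * x * g ∈ N → x * g = g * x} := by
  obtain ⟨lam, hlam⟩ := central_irr_exists_hom N hN ψ.2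
  have hψ1 : ∀ a b : N, (ψ : ↥N → ℂ) (a * b) = (ψ : ↥N → ℂ) a * (ψ : ↥N → ℂ) b := by
    intro a b; rw [hlam]; simp
  have hψ0 : (ψ : ↥N → ℂ) 1 = 1 := by rw [hlam]; simp
  have hψne : ∀ a : N, (ψ : ↥N → ℂ) a ≠ 0 := by
    intro a; rw [hlam]; exact (lam a).ne_zero
  rw [← finrank_spaceV_A N hN ψ.2 hψ1, finrank_spaceV_B N hN hψ1 hψ0 hψne hfaith]

end Cfsg.Agent.S4567
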