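import Cfsg.Statements.S4574
import Cfsg.Agent.Lib.H8Group.CharSum
import Cfsg.Agent.Lib.H8Group.CharVal

set_option autoImplicit false
open Cfsg

namespace Cfsg.Agent.S4574

open Cfsg.Agent.Lib.Char Cfsg.Agent.Lib.H8Group Module

/-- Let χ be an irreducible character of the finite group G, of degree d, and let Z(χ) be the set of elements g with |χ g| = d (the centre of χ). Then χ vanishes on at least (d ^ 2 - 1) · |Z(χ)| elements of G, with equality when every value |χ g| is 0, 1 or d. -/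
theorem result {G : Type*} [Group G] [Fintype G] [DecidableEq G] (χ : G → ℂ) (hχ : Cfsg.IsIrrCharacter G χ) : (Cfsg.charDegree χ ^ 2 - 1) * (Finset.univ.filter (fun g : G => ‖χ g‖ = (Cfsg.charDegree χ : ℝ))).card ≤ (Finset.univ.filter (fun g : G => χ g = 0)).card ∧ ((∀ g : G, ‖χ g‖ = 0 ∨ ‖χ g‖ = 1 ∨ ‖χ g‖ = (Cfsg.charDegree χ : ℝ)) → (Cfsg.charDegree χ ^ 2 - 1) * (Finset.univ.filter (fun g : G => ‖χ g‖ = (Cfsg.charDegree χ : ℝ))).card = (Finset.univ.filter (fun g : G => χ g = 0)).card) := by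
  classical
  obtain ⟨n, hn⟩ := IsCharacter.apply_one (IsIrrCharacter.isCharacter hχ)
  have hd : Cfsg.charDegree χ = n := charDegree_natCast hn
  rw [hd]
  have hn0 : 0 < n := by
    rcases Nat.eq_zero_or_pos n with h | h
    · exfalso
      rw [h] at hn
      exact IsIrrCharacter.apply_one_ne_zero hχ (by simpa using hn)
    · exact h
  set Z := Finset.univ.filter (fun g : G => ‖χ g‖ = (n : ℝ)) with hZ
  set S := Finset.univ.filter (fun g : G => χ g = 0) with hS
  set R := Finset.univ.filter (fun g : G => χ g ≠ 0 ∧ ‖χ g‖ ≠ (n : ℝ)) with hR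
  -- powers
  have hpowZ : ∀ (g : G) (k : ℕ), ‖χ g‖ = (n : ℝ) → ‖χ (g ^ k)‖ = (n : ℝ) := by
    obtain ⟨m, ρ, hρ, rfl⟩ := hχ
    have hm : m = n := by
      have := Representation.char_one ρ
      rw [hn] at this
      simp only [finrank_fintype_fun_eq_card, Fintype.card_fin] at this
      exact_mod_cast this.symm
    subst hm
    intro g k hg
    have hfr : (finrank ℂ (Fin m → ℂ) : ℝ) = (m : ℝ) := by simp
    rw [← hfr] at hg ⊢
    obtain ⟨ω, hω⟩ := (norm_character_eq_finrank_iff ρ g).mp hg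
    refine (norm_character_eq_finrank_iff ρ (g ^ k)).mpr ⟨ω ^ k, ?_⟩
    rw [map_pow, hω]
    refine LinearMap.ext fun v => ?_
    have key : ∀ j : ℕ, ((ω • (LinearMap.id : (Fin m → ℂ) →ₗ[ℂ] (Fin m → ℂ))) ^ j) v = (ω ^ j) • v := by
      intro j
      induction j with
      | zero => simp
      | succ j ih =>
        rw [pow_succ, Module.End.mul_apply, LinearMap.smul_apply, LinearMap.id_apply, map_smul, ih,
          smul_smul, pow_succ, mul_comm]
    rw [key]
    simp
  have hRstable : ∀ k : ℕ, k.Coprime (Nat.card G) → ∀ x ∈ R, x ^ k ∈ R := by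
    intro k hk x hx
    obtain ⟨hx1, hx2⟩ := (Finset.mem_filter.mp hx).2
    refine Finset.mem_filter.mpr ⟨Finset.mem_univ _, ?_, ?_⟩
    · rw [Ne, apply_pow_eq_zero_iff (IsIrrCharacter.isCharacter hχ) hk]
      exact hx1
    · intro h
      obtain ⟨l, hl⟩ := exists_pow_eq_self_of_coprime (x := x)
        (Nat.Coprime.coprime_dvd_right (orderOf_dvd_natCard x) hk)
      apply hx2
      have := hpowZ _ l h
      rwa [hl] at this
  have hR0 : ∀ x ∈ R, χ x ≠ 0 := fun x hx => (Finset.mem_filter.mp hx).2.1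
  have h1 := card_le_sum_norm_sq (IsIrrCharacter.isCharacter hχ) R hRstable hR0
  have h2 := sum_norm_sq_irr hχ
  -- decomposition
  have hunion : (Finset.univ : Finset G) = Z ∪ S ∪ R := by
    ext g
    simp only [Finset.mem_univ, Finset.mem_union, hZ, hS, hR, Finset.mem_filter, true_and, true_iff]
    tauto
  have hdisj1 : Disjoint Z S := by
    rw [Finset.disjoint_left]
    intro g hg hg'
    have h3 := (Finset.mem_filter.mp hg).2
    have h4 := (Finset.mem_filter.mp hg').2
    rw [h4, norm_zero] at h3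
    have : (n : ℝ) = 0 := h3.symm
    have hn' : n = 0 := by exact_mod_cast this
    omega
  have hdisj2 : Disjoint (Z ∪ S) R := by
    rw [Finset.disjoint_left]
    intro g hg hg'
    obtain ⟨h3, h4⟩ := (Finset.mem_filter.mp hg').2
    rcases Finset.mem_union.mp hg with h5 | h5
    · exact h4 (Finset.mem_filter.mp h5).2
    · exact h3 (Finset.mem_filter.mp h5).2
  have hcard : Nat.card G = Z.card + S.card + R.card := by
    rw [Nat.card_eq_fintype_card, ← Finset.card_univ, hunion, Finset.card_union_of_disjoint hdisj2,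
      Finset.card_union_of_disjoint hdisj1]
  have hsum : ∑ g, ‖χ g‖ ^ 2 = ∑ g ∈ Z, ‖χ g‖ ^ 2 + ∑ g ∈ S, ‖χ g‖ ^ 2 + ∑ g ∈ R, ‖χ g‖ ^ 2 := by
    rw [hunion, Finset.sum_union hdisj2, Finset.sum_union hdisj1]
  have hsZ : ∑ g ∈ Z, ‖χ g‖ ^ 2 = (Z.card : ℝ) * (n : ℝ) ^ 2 := by
    rw [Finset.sum_congr rfl (fun g hg => by rw [(Finset.mem_filter.mp hg).2])]
    simp
  have hsS : ∑ g ∈ S, ‖χ g‖ ^ 2 = 0 := by
    refine Finset.sum_eq_zero fun g hg => ?_
    rw [(Finset.mem_filter.mp hg).2]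
    simp
  have hnsq : 1 ≤ n ^ 2 := Nat.one_le_pow _ _ hn0
  have hcast : (((n ^ 2 - 1) * Z.card : ℕ) : ℝ) = ((n : ℝ) ^ 2 - 1) * (Z.card : ℝ) := by
    push_cast [Nat.cast_sub hnsq]
    ring
  constructor
  · have : (((n ^ 2 - 1) * Z.card : ℕ) : ℝ) ≤ (S.card : ℝ) := by
      rw [hcast]
      rw [hsum, hsZ, hsS, hcard] at h2
      push_cast at h2
      nlinarith
    exact_mod_cast this
  · intro hvals
    have hsR : ∑ g ∈ R, ‖χ g‖ ^ 2 = (R.card : ℝ) := by
      rw [Finset.sum_congr rfl (g := fun _ => (1 : ℝ)) (fun g hg => by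
        obtain ⟨h3, h4⟩ := (Finset.mem_filter.mp hg).2
        rcases hvals g with h5 | h5 | h5
        · exact absurd (norm_eq_zero.mp h5) h3
        · rw [h5]; norm_num
        · exact absurd h5 h4)]
      simp
    have : (((n ^ 2 - 1) * Z.card : ℕ) : ℝ) = (S.card : ℝ) := by
      rw [hcast]
      rw [hsum, hsZ, hsS, hsR, hcard] at h2
      push_cast at h2
      nlinarith
    exact_mod_cast this

end Cfsg.Agent.S4574
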