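import Cfsg.Statements.S4575
import Cfsg.Agent.Lib.H8Group.MajorCompl
import Cfsg.Agent.S4540

set_option autoImplicit false
open Cfsg

namespace Cfsg.Agent.S4575

open Cfsg.Agent.Lib.Char Cfsg.Agent.Lib.H8Group Cfsg.Agent.Lib.Blocks

/-- Let B be a 2-block of the finite group G (relative to a maximal ideal M of the algebraic integers containing 2) of defect d with defect group D. Let z be an element of D commuting with every element of D, and let b be a block of the centralizer of z with defect group D that induces B (a major subsection (z, b)). If the number of irreducible characters in B exceeds the 2-regular rank of b by at most three, then B contains at most 2 ^ d irreducible characters. -/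
theorem result {G : Type*} [Group G] [Finite G] (M : Ideal Cfsg.AlgInt) (hM : Cfsg.IsPModular 2 M) (B : Set (Cfsg.IrrCharacter G)) (hB : Cfsg.IsPBlock M B) (D : Subgroup G) (hD : Cfsg.IsDefectGroup 2 M B D) (z : G) (hzD : z ∈ D) (hzc : ∀ d ∈ D, d * z = z * d) (b : Set (Cfsg.IrrCharacter ↥(Subgroup.centralizer ({z} : Set G)))) (hb : Cfsg.IsInducedBlock M (Subgroup.centralizer ({z} : Set G)) b B) (hbD : Cfsg.IsDefectGroup 2 M b (D.subgroupOf (Subgroup.centralizer ({z} : Set G)))) (h : Nat.card B ≤ Cfsg.blockRank 2 b + 3) : Nat.card B ≤ 2 ^ Cfsg.blockDefect 2 B := by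
  classical
  letI := Fintype.ofFinite G
  letI : Fintype (Subgroup.centralizer ({z} : Set G)) := Fintype.ofFinite _
  have := isPrime_of_modular hM
  have hxp : ∃ k, orderOf ((centElt z : Subgroup.centralizer ({z} : Set G)) : G) = 2 ^ k :=
    orderOf_of_mem_defect hM hB hD hzD
  have hH := mem_cent_iff z
  have hdef := defect_eq_of_major hM hB hb.1 hD hzc hbD
  by_cases hsec : ∀ j, ¬ 2 ∣ j → SecConj b (centElt z ^ 1) (centElt z ^ j)
  · exact major_compl_case hM hH hxp hb hdef hsec h
  · push Not at hsec
    obtain ⟨j, hj, hno⟩ := hsec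
    have h2 := two_rank_le hM hH hxp hb hj hno
    have hl : blockRank 2 b ≤ 3 := by omega
    obtain ⟨h3, h4⟩ := Cfsg.Agent.S4540.result M hM B hB D hD z hzD hzc b hb hbD hl
    have h5 := h3.trans h4
    omega

end Cfsg.Agent.S4575
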