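import Cfsg.Statements.S4582
import Mathlib

set_option autoImplicit false

open Cfsg

namespace Cfsg.Agent.S4582

open Subgroup MulAction

theorem pow_one_of_coprime {A : Type*} [Monoid A] {a : A} {m n : ℕ} (hc : Nat.Coprime m n)
    (h1 : a ^ m = 1) (h2 : a ^ n = 1) : a = 1 := by
  have := pow_gcd_eq_one.mpr ⟨h1, h2⟩
  rw [hc.gcd_eq_one, pow_one] at this
  exact this

theorem main_aux {G : Type*} [Group G] [Finite G] (N P : Subgroup G) [hNn : N.Normal]
    (hNP : N ⊔ P = ⊤) (h2 : IsPGroup 2 P) (hind : Odd P.index)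
    (hN : ∀ n ∈ N, ∃ k : ℕ, Odd k ∧ n ^ k ∈ commutator G)
    (hP : ∀ x ∈ P, x ^ 2 ∈ N ⊔ commutator G)
    (hQ : ∀ q ∈ P, q ∈ N → q ^ 2 ∈ ⁅P, P⁆) :
    ∀ x ∈ P, x ^ 2 ∈ ⁅P, P⁆ := by
  classical
  let A := Abelianization P
  let of' : P →* A := Abelianization.of
  have hA2 : IsPGroup 2 A := by
    intro a
    induction a using QuotientGroup.induction_on with
    | H z =>
      obtain ⟨e, he⟩ := h2 z
      refine ⟨e, ?_⟩
      change of' z ^ 2 ^ e = 1
      rw [← map_pow, he, map_one]
  let T : G →* A := MonoidHom.transfer of'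
  have hTcomm : ∀ c ∈ commutator G, T c = 1 := by
    intro c hc
    exact (Abelianization.commutator_subset_ker T) hc
  have hTN : ∀ n ∈ N, T n = 1 := by
    intro n hn
    obtain ⟨k, hk, hnk⟩ := hN n hn
    have h1 : T n ^ k = 1 := by rw [← map_pow]; exact hTcomm _ hnk
    obtain ⟨e, he⟩ := hA2 (T n)
    have hcop : Nat.Coprime k (2 ^ e) := Nat.Coprime.pow_right _ (Nat.coprime_two_right.mpr hk)
    exact pow_one_of_coprime hcop h1 he
  -- the subgroup of images of `P ∩ N`
  let S : Subgroup A := (Subgroup.comap P.subtype N).map of'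
  have hS2 : ∀ s ∈ S, s ^ 2 = 1 := by
    rintro s ⟨q, hq, rfl⟩
    rw [← map_pow]
    have hq' : (q : G) ∈ N := hq
    have := hQ q.1 q.2 hq'
    have h3 : q ^ 2 ∈ commutator P := by
      have h4 : Subgroup.map P.subtype (commutator P) = ⁅P, P⁆ := Subgroup.map_subtype_commutator P
      rw [← h4] at this
      obtain ⟨b, hb, hbe⟩ := this
      have : b = q ^ 2 := Subtype.ext (by simpa using hbe)
      rwa [← this]
    have h5 : (Abelianization.of : P →* A).ker = commutator P := Abelianization.ker_of _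
    have : q ^ 2 ∈ (Abelianization.of : P →* A).ker := by rw [h5]; exact h3
    exact this
  have hform : ∀ x : P, ∃ s ∈ S, T x = of' x ^ P.index * s := by
    intro x
    have : Fintype (Quotient (MulAction.orbitRel (zpowers (x : G)) (G ⧸ P))) :=
      Fintype.ofFinite _
    have key : ∀ (g : G) (k : ℕ) (hg : g⁻¹ * (x : G) ^ k * g ∈ P),
        ∃ s ∈ S, of' ⟨g⁻¹ * (x : G) ^ k * g, hg⟩ = of' x ^ k * s := by
      intro g k hg
      have hgm : g ∈ ((N ⊔ P : Subgroup G) : Set G) := by rw [hNP]; trivial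
      rw [Subgroup.normal_mul] at hgm
      obtain ⟨n, hn, p, hp, rfl⟩ := hgm
      have hy : n⁻¹ * (x : G) ^ k * n ∈ P := by
        have h1 : p * ((n * p)⁻¹ * (x : G) ^ k * (n * p)) * p⁻¹ ∈ P :=
          P.mul_mem (P.mul_mem hp hg) (P.inv_mem hp)
        convert h1 using 1
        group
      have hsN : ((x : G) ^ k)⁻¹ * (n⁻¹ * (x : G) ^ k * n) ∈ N := by
        have h1 : ((x : G) ^ k)⁻¹ * n⁻¹ * (x : G) ^ k ∈ N := by
          have := hNn.conj_mem n⁻¹ (N.inv_mem hn) (((x : G) ^ k)⁻¹)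
          simpa using this
        have h2 := N.mul_mem h1 hn
        convert h2 using 1
        group
      have hxk : (x : G) ^ k ∈ P := P.pow_mem x.2 k
      have hz : ((x : G) ^ k)⁻¹ * (n⁻¹ * (x : G) ^ k * n) ∈ P := P.mul_mem (P.inv_mem hxk) hy
      refine ⟨of' ⟨_, hz⟩, ⟨⟨_, hz⟩, hsN, rfl⟩, ?_⟩
      have h1 : (⟨(n * p)⁻¹ * (x : G) ^ k * (n * p), hg⟩ : P) =
          (⟨p, hp⟩ : P)⁻¹ * (x ^ k * ⟨_, hz⟩) * ⟨p, hp⟩ := by
        apply Subtype.ext
        simp only [Subgroup.coe_mul, Subgroup.coe_inv, Subgroup.coe_pow]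
        group
      rw [h1, map_mul, map_mul, map_mul, map_pow, map_inv]
      rw [mul_comm (of' _)⁻¹, mul_assoc, inv_mul_cancel, mul_one]
    choose! s hs hs' using key
    have hT : T x = _ := MonoidHom.transfer_eq_prod_quotient_orbitRel_zpowers_quot of' (x : G)
    refine ⟨∏ q : Quotient (MulAction.orbitRel (zpowers (x : G)) (G ⧸ P)),
      s q.out.out (Function.minimalPeriod ((x : G) • ·) q.out), ?_, ?_⟩
    · refine Subgroup.prod_mem _ fun q _ => hs _ _ ?_
      exact QuotientGroup.out_conj_pow_minimalPeriod_mem P (x : G) q.out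
    · rw [hT, index_eq_sum_minimalPeriod P (x : G), ← Finset.prod_pow_eq_pow_sum,
        ← Finset.prod_mul_distrib]
      refine Finset.prod_congr rfl fun q _ => ?_
      exact hs' _ _ _
  intro x hx
  let x' : P := ⟨x, hx⟩
  have hx2 : T (x ^ 2) = 1 := by
    have hle : N ⊔ commutator G ≤ T.ker := by
      refine sup_le (fun n hn => hTN n hn) (fun c hc => hTcomm c hc)
    exact hle (hP x hx)
  obtain ⟨s, hs, hTs⟩ := hform x'
  have h6 : of' x' ^ (2 * P.index) = 1 := by
    have h7 : T x ^ 2 = 1 := by rw [← map_pow]; exact hx2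
    have h8 : T x = of' x' ^ P.index * s := hTs
    rw [h8, mul_pow, hS2 s hs, mul_one, ← pow_mul, mul_comm] at h7
    exact h7
  have h9 : of' x' ^ 2 = 1 := by
    obtain ⟨e, he⟩ := hA2 (of' x' ^ 2)
    have hcop : Nat.Coprime P.index (2 ^ e) :=
      Nat.Coprime.pow_right _ (Nat.coprime_two_right.mpr hind)
    refine pow_one_of_coprime hcop ?_ he
    rw [← pow_mul]; exact h6
  have h10 : x' ^ 2 ∈ commutator P := by
    have h5 : (Abelianization.of : P →* A).ker = commutator P := Abelianization.ker_of _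
    rw [← h5, MonoidHom.mem_ker, map_pow]
    exact h9
  have h4 : Subgroup.map P.subtype (commutator P) = ⁅P, P⁆ := Subgroup.map_subtype_commutator P
  rw [← h4]
  exact ⟨_, h10, by simp [x']⟩

/-- Let N be a normal subgroup of the finite group G, P a Sylow 2-subgroup of G and Q = P ∩ N. Suppose that P/QP' and Q/Q' are elementary abelian (every square of an element of P lies in the subgroup generated by Q and the derived subgroup of P, and every square of an element of Q lies in the derived subgroup of Q), and that the commutator factor group N/N' has odd order. Then P/P' is elementary abelian. -/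
theorem result {G : Type*} [Group G] [Finite G] (N : Subgroup G) [N.Normal] (P : Sylow 2 G)
    (hP : ∀ x ∈ (P : Subgroup G), x ^ 2 ∈ ((P : Subgroup G) ⊓ N) ⊔ ⁅(P : Subgroup G), (P : Subgroup G)⁆)
    (hQ : ∀ x ∈ (P : Subgroup G) ⊓ N, x ^ 2 ∈ ⁅(P : Subgroup G) ⊓ N, (P : Subgroup G) ⊓ N⁆)
    (hodd : Odd (Nat.card (Abelianization N))) :
    ∀ x ∈ (P : Subgroup G), x ^ 2 ∈ ⁅(P : Subgroup G), (P : Subgroup G)⁆ := by
  classical
  -- work inside `H = N ⊔ P`
  let H : Subgroup G := N ⊔ (P : Subgroup G)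
  have hNH : N ≤ H := le_sup_left
  have hPH : (P : Subgroup G) ≤ H := le_sup_right
  let N₁ : Subgroup H := N.subgroupOf H
  let P₁ : Subgroup H := (P : Subgroup G).subgroupOf H
  have hmapN : N₁.map H.subtype = N := Subgroup.map_subgroupOf_eq_of_le hNH
  have hmapP : P₁.map H.subtype = P := Subgroup.map_subgroupOf_eq_of_le hPH
  have hmemcomm : ∀ (S : Subgroup G) (hS : S ≤ H) (a : H), a ∈ ⁅S.subgroupOf H, S.subgroupOf H⁆ ↔
      (a : G) ∈ ⁅S, S⁆ := by
    intro S hS a
    have h : (⁅S.subgroupOf H, S.subgroupOf H⁆).map H.subtype = ⁅S, S⁆ := by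
      rw [Subgroup.map_commutator, Subgroup.map_subgroupOf_eq_of_le hS]
    rw [← h]
    constructor
    · intro ha
      exact ⟨a, ha, rfl⟩
    · rintro ⟨b, hb, hbe⟩
      have : b = a := Subtype.ext hbe
      rwa [← this]
  have hNP₁ : N₁ ⊔ P₁ = ⊤ := by
    apply Subgroup.map_injective H.subtype_injective
    rw [Subgroup.map_sup, hmapN, hmapP]
    have : (⊤ : Subgroup H).map H.subtype = H := by
      rw [← MonoidHom.range_eq_map, Subgroup.range_subtype]
    rw [this]
  have hP2 : IsPGroup 2 P₁ := by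
    refine P.2.comap_of_injective H.subtype H.subtype_injective |>.of_equiv ?_ |>.of_equiv (MulEquiv.refl _)
    exact MulEquiv.refl _
  have hind : Odd P₁.index := by
    have h1 : ¬ 2 ∣ (P : Subgroup G).index := P.not_dvd_index
    have h2 : P₁.index ∣ (P : Subgroup G).index := by
      have := Subgroup.relIndex_mul_index hPH
      exact Dvd.intro _ this
    have h3 : ¬ 2 ∣ P₁.index := fun h => h1 (h.trans h2)
    exact Nat.odd_iff.mpr (by omega)
  refine fun x hx => ?_
  have key := main_aux N₁ P₁ hNP₁ hP2 hind ?_ ?_ ?_ ⟨x, hPH hx⟩ hx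
  · exact (hmemcomm _ hPH _).mp key
  · intro n hn
    have hn' : (n : G) ∈ N := hn
    let n' : N := ⟨n, hn'⟩
    obtain ⟨k, hk⟩ : ∃ k, Abelianization.of n' ^ k = 1 ∧ Odd k :=
      ⟨Nat.card (Abelianization N), pow_card_eq_one', hodd⟩
    refine ⟨k, hk.2, ?_⟩
    have h1 : n' ^ k ∈ commutator N := by
      rw [← Abelianization.ker_of, MonoidHom.mem_ker, map_pow]
      exact hk.1
    have h2 : ((n' ^ k : N) : G) ∈ ⁅N, N⁆ := by
      have : Subgroup.map N.subtype (commutator N) = ⁅N, N⁆ := Subgroup.map_subtype_commutator N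
      rw [← this]
      exact ⟨_, h1, rfl⟩
    have h3 : n ^ k ∈ ⁅N₁, N₁⁆ := by
      apply (hmemcomm _ hNH _).mpr
      simpa [n'] using h2
    have h4 : ⁅N₁, N₁⁆ ≤ commutator H := by
      rw [_root_.commutator_def]
      exact Subgroup.commutator_mono le_top le_top
    exact h4 h3
  · intro y hy
    have hy' : (y : G) ∈ (P : Subgroup G) := hy
    have h1 := hP y hy'
    have h2 : (P : Subgroup G) ⊓ N ≤ (N₁ ⊔ commutator H).map H.subtype := by
      rw [Subgroup.map_sup, hmapN]
      exact inf_le_right.trans le_sup_left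
    have h3 : ⁅(P : Subgroup G), (P : Subgroup G)⁆ ≤ (N₁ ⊔ commutator H).map H.subtype := by
      rw [← hmapP, ← Subgroup.map_commutator]
      refine Subgroup.map_mono (le_trans ?_ le_sup_right)
      rw [_root_.commutator_def]
      exact Subgroup.commutator_mono le_top le_top
    obtain ⟨b, hb, hbe⟩ := (sup_le h2 h3) h1
    have : b = y ^ 2 := Subtype.ext (by simpa using hbe)
    rwa [← this]
  · intro q hq hqN
    have hq' : (q : G) ∈ (P : Subgroup G) := hq
    have hqN' : (q : G) ∈ N := hqN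
    have h1 := hQ q ⟨hq', hqN'⟩
    have h2 : ⁅(P : Subgroup G) ⊓ N, (P : Subgroup G) ⊓ N⁆ ≤ ⁅(P : Subgroup G), (P : Subgroup G)⁆ :=
      Subgroup.commutator_mono inf_le_left inf_le_left
    exact (hmemcomm _ hPH _).mpr (by simpa using h2 h1)

end Cfsg.Agent.S4582
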