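import Cfsg.Statements.S4584
import Cfsg.Agent.Lib.H8Group.OrderPFour

set_option autoImplicit false
open scoped Pointwise
open Cfsg

namespace Cfsg.Agent.S4584

open Cfsg.Agent.Lib.H8Group

/-- Let p be a prime and P a group of order p^4. Then the derived subgroup P' has order p if and only if the centre Z(P) has index p^2 in P. -/
theorem result {P : Type*} [Group P] [Finite P] (p : ℕ) [Fact p.Prime] (hP : Nat.card P = p ^ 4) :
    Nat.card (commutator P) = p ↔ (Subgroup.center P).index = p ^ 2 := by
  have hp := (Fact.out : p.Prime)
  have hpg : IsPGroup p P := IsPGroup.of_card hP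
  have hZcard := Subgroup.card_mul_index (Subgroup.center P)
  rw [hP] at hZcard
  have hcentr : ∀ x : P, x ∉ Subgroup.center P → (Subgroup.centralizer ({x} : Set P)) ≠ ⊤ := by
    intro x hx h
    apply hx
    rw [Subgroup.mem_center_iff]
    intro g
    have : g ∈ Subgroup.centralizer ({x} : Set P) := h ▸ Subgroup.mem_top g
    exact Subgroup.mem_centralizer_singleton_iff.mp this
  have hall : (∀ x : P, x ∈ Subgroup.center P) → Subgroup.center P = ⊤ :=
    fun h => eq_top_iff.mpr fun x _ => h x
  constructor
  · intro hc
    have hne : ∃ x : P, x ∉ Subgroup.center P := by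
      by_contra hcon
      push Not at hcon
      have htop := hall hcon
      have hcomm : commutator P = ⊥ := by
        rw [commutator_eq_bot_iff_center_eq_top]
        exact htop
      rw [hcomm] at hc
      simp only [Subgroup.card_bot] at hc
      exact hp.one_lt.ne hc
    obtain ⟨x, hx⟩ := hne
    have hidx : (Subgroup.centralizer ({x} : Set P)).index = p := by
      have hle := index_centralizer_le_card_commutator x
      rw [hc] at hle
      obtain ⟨i, hi⟩ := hpg.index (Subgroup.centralizer ({x} : Set P))
      have hne1 : i ≠ 0 := by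
        rintro rfl
        rw [pow_zero, Subgroup.index_eq_one] at hi
        exact hcentr x hx hi
      have hi1 : i = 1 := by
        by_contra hcon
        have h2 : 2 ≤ i := by omega
        have h3 : p ^ 2 ≤ p ^ i := Nat.pow_le_pow_right hp.pos h2
        have h4 : p < p ^ 2 := by
          calc p = p ^ 1 := (pow_one p).symm
            _ < p ^ 2 := Nat.pow_lt_pow_right hp.one_lt (by norm_num)
        omega
      rw [hi, hi1, pow_one]
    have hmain := card_commutator_mul_card_center_of_index p hP x hidx
    rw [hc] at hmain
    have hZ : Nat.card (Subgroup.center P) = p ^ 2 := by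
      have : p * Nat.card (Subgroup.center P) = p * p ^ 2 := by rw [hmain]; ring
      exact Nat.eq_of_mul_eq_mul_left hp.pos this
    rw [hZ] at hZcard
    have : p ^ 2 * (Subgroup.center P).index = p ^ 2 * p ^ 2 := by rw [hZcard]; ring
    exact Nat.eq_of_mul_eq_mul_left (pow_pos hp.pos _) this
  · intro hi
    have hne : ∃ x : P, x ∉ Subgroup.center P := by
      by_contra hcon
      push Not at hcon
      have htop := hall hcon
      rw [htop, Subgroup.index_top] at hi
      have : 1 < p ^ 2 := Nat.one_lt_pow (by norm_num) hp.one_lt
      omega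
    obtain ⟨x, hx⟩ := hne
    set A := Subgroup.centralizer ({x} : Set P) with hAdef
    have hZA : Subgroup.center P ≤ A := by
      intro z hz
      rw [hAdef, Subgroup.mem_centralizer_singleton_iff]
      exact (Subgroup.mem_center_iff.mp hz x).symm
    have hrel := Subgroup.relIndex_mul_index hZA
    rw [hi] at hrel
    obtain ⟨i, hiA⟩ := hpg.index A
    have hi0 : i ≠ 0 := by
      rintro rfl
      rw [pow_zero, Subgroup.index_eq_one] at hiA
      exact hcentr x hx hiA
    have hdvd : p ^ i ∣ p ^ 2 := ⟨_, by rw [← hrel, hiA, mul_comm]⟩
    have hi2 : i ≤ 2 := (Nat.pow_dvd_pow_iff_le_right hp.one_lt).mp hdvd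
    have hi1 : i ≠ 2 := by
      rintro rfl
      have h1 : (Subgroup.center P).relIndex A = 1 := by
        rw [hiA] at hrel
        have : (Subgroup.center P).relIndex A * p ^ 2 = 1 * p ^ 2 := by rw [hrel, one_mul]
        exact Nat.eq_of_mul_eq_mul_right (pow_pos hp.pos _) this
      have h2 : A ≤ Subgroup.center P := Subgroup.relIndex_eq_one.mp h1
      apply hx
      apply h2
      rw [hAdef, Subgroup.mem_centralizer_singleton_iff]
    have hi3 : i = 1 := by omega
    have hidx : A.index = p := by rw [hiA, hi3, pow_one]
    have hmain := card_commutator_mul_card_center_of_index p hP x hidx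
    have hZ : Nat.card (Subgroup.center P) = p ^ 2 := by
      rw [hi] at hZcard
      have : Nat.card (Subgroup.center P) * p ^ 2 = p ^ 2 * p ^ 2 := by rw [hZcard]; ring
      exact Nat.eq_of_mul_eq_mul_right (pow_pos hp.pos _) this
    rw [hZ] at hmain
    have : Nat.card (commutator P) * p ^ 2 = p * p ^ 2 := by rw [hmain]; ring
    exact Nat.eq_of_mul_eq_mul_right (pow_pos hp.pos _) this

end Cfsg.Agent.S4584
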