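import Cfsg.Statements.S4585
import Cfsg.Agent.S4584

set_option autoImplicit false
open scoped Pointwise
open Cfsg

namespace Cfsg.Agent.S4585

open scoped commutatorElement

theorem commutator_eq_bot_of_le {G : Type*} [Group G] [hnil : Group.IsNilpotent G]
    (h1le2 : commutator G ≤ ⁅commutator G, (⊤ : Subgroup G)⁆) : commutator G = ⊥ := by
  have hind : ∀ n : ℕ, commutator G ≤ Subgroup.lowerCentralSeries (⊤ : Subgroup G) (n + 1) := by
    intro n
    induction n with
    | zero =>
      rw [zero_add, Subgroup.top_lowerCentralSeries_one]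
    | succ n ih =>
      rw [Subgroup.lowerCentralSeries_succ]
      exact h1le2.trans (Subgroup.commutator_mono ih le_rfl)
  obtain ⟨n, hn⟩ := Subgroup.nilpotent_iff_lowerCentralSeries.mp hnil
  apply le_bot_iff.mp
  calc commutator G ≤ Subgroup.lowerCentralSeries (⊤ : Subgroup G) (n + 1) := hind n
    _ ≤ Subgroup.lowerCentralSeries (⊤ : Subgroup G) n := Subgroup.lowerCentralSeries_antitone _ (Nat.le_succ n)
    _ = ⊥ := hn

theorem commutator_eq_bot_of_isCyclic {G : Type*} [Group G] [hnil : Group.IsNilpotent G]
    (h : IsCyclic (G ⧸ commutator G)) : commutator G = ⊥ := by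
  set γ₁ := commutator G with hγ₁
  have hγ₁n : γ₁.Normal := inferInstance
  let γ₂ : Subgroup G := ⁅γ₁, (⊤ : Subgroup G)⁆
  have hγ₂n : γ₂.Normal := inferInstance
  have hle : γ₂ ≤ γ₁.comap (MonoidHom.id G) := by
    intro g hg
    have : γ₂ ≤ γ₁ := Subgroup.commutator_le_left _ _
    exact this hg
  let f : G ⧸ γ₂ →* G ⧸ γ₁ := QuotientGroup.map γ₂ γ₁ (MonoidHom.id G) hle
  have hker : f.ker ≤ Subgroup.center (G ⧸ γ₂) := by
    intro q hq
    induction q using QuotientGroup.induction_on with
    | H g =>
      have hg : (QuotientGroup.mk g : G ⧸ γ₁) = 1 := hq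
      have hg1 : g ∈ γ₁ := (QuotientGroup.eq_one_iff g).mp hg
      rw [Subgroup.mem_center_iff]
      intro q2
      induction q2 using QuotientGroup.induction_on with
      | H b =>
        have hc : ⁅g, b⁆ ∈ γ₂ := Subgroup.commutator_mem_commutator hg1 (Subgroup.mem_top b)
        have hc2 := (QuotientGroup.eq_one_iff _).mpr hc
        rw [commutatorElement_def] at hc2
        simp only [QuotientGroup.mk_mul, QuotientGroup.mk_inv] at hc2
        have h3 : (QuotientGroup.mk g : G ⧸ γ₂) * QuotientGroup.mk b = QuotientGroup.mk b * QuotientGroup.mk g := by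
          have := mul_inv_eq_one.mp (by simpa [mul_assoc] using hc2 : ((QuotientGroup.mk g : G ⧸ γ₂) * QuotientGroup.mk b * (QuotientGroup.mk g)⁻¹) * (QuotientGroup.mk b)⁻¹ = 1)
          exact mul_inv_eq_iff_eq_mul.mp this
        exact h3.symm
  have hcomm := f.isMulCommutative_of_isCyclic_of_ker_le_center hker
  have h1le2 : γ₁ ≤ γ₂ := by
    rw [hγ₁, commutator_def, Subgroup.commutator_le]
    intro a _ b _
    rw [← QuotientGroup.eq_one_iff (N := γ₂), commutatorElement_def]
    simp only [QuotientGroup.mk_mul, QuotientGroup.mk_inv]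
    rw [mul_comm' (QuotientGroup.mk a : G ⧸ γ₂) (QuotientGroup.mk b)]
    group
  exact commutator_eq_bot_of_le h1le2

theorem nilpotencyClass_le_of_card_dvd (p : ℕ) [hp : Fact p.Prime] (n : ℕ) :
    ∀ (X : Type*) [Group X] [Finite X], Nat.card X ∣ p ^ (n + 2) → Group.nilpotencyClass X ≤ n + 1 := by
  induction n with
  | zero =>
    intro X _ _ hX
    have hpg : IsPGroup p X := IsPGroup.of_card_dvd_pow hX
    have hnil : Group.IsNilpotent X := hpg.isNilpotent
    rw [zero_add, Group.IsNilpotent.nilpotencyClass_le_one_iff]
    obtain ⟨k, hk, hXk⟩ := (Nat.dvd_prime_pow hp.out).mp hX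
    have : k = 0 ∨ k = 1 ∨ k = 2 := by omega
    rcases this with rfl | rfl | rfl
    · rw [pow_zero] at hXk
      have : Subsingleton X := (Nat.card_eq_one_iff_unique.mp hXk).1
      exact ⟨⟨fun a b => Subsingleton.elim _ _⟩⟩
    · rw [pow_one] at hXk
      have : IsCyclic X := isCyclic_of_prime_card hXk
      exact ⟨⟨fun a b => by
        obtain ⟨g, hg⟩ := IsCyclic.exists_generator (α := X)
        obtain ⟨i, rfl⟩ := Subgroup.mem_zpowers_iff.mp (hg a)
        obtain ⟨j, rfl⟩ := Subgroup.mem_zpowers_iff.mp (hg b)
        exact zpow_mul_comm g i j⟩⟩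
    · exact IsPGroup.isMulCommutative_of_card_eq_prime_sq hXk
  | succ n ih =>
    intro X _ _ hX
    have hpg : IsPGroup p X := IsPGroup.of_card_dvd_pow hX
    have hnil : Group.IsNilpotent X := hpg.isNilpotent
    by_cases hnt : Nontrivial X
    · rw [Group.nilpotencyClass_eq_quotient_center_plus_one]
      have hcen := hpg.center_nontrivial
      have h1 : Nat.card (Subgroup.center X) * (Subgroup.center X).index = Nat.card X :=
        Subgroup.card_mul_index _
      have hpZ : p ∣ Nat.card (Subgroup.center X) := by
        rcases (hpg.to_subgroup (Subgroup.center X)).card_eq_or_dvd with h | h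
        · exact absurd h (Finite.one_lt_card_iff_nontrivial.mpr hcen).ne'
        · exact h
      obtain ⟨c, hc⟩ := hpZ
      have hdvd : Nat.card (X ⧸ Subgroup.center X) ∣ p ^ (n + 2) := by
        have h2 : p * (Nat.card (X ⧸ Subgroup.center X) * c) ∣ p * p ^ (n + 2) := by
          have : p * (Nat.card (X ⧸ Subgroup.center X) * c) = Nat.card X := by
            rw [← h1, hc]
            change p * ((Subgroup.center X).index * c) = _
            ring
          rw [this]
          convert hX using 1
          ring
        have h3 := Nat.dvd_of_mul_dvd_mul_left hp.out.pos h2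
        exact (Dvd.intro _ rfl).trans h3
      have := ih (X ⧸ Subgroup.center X) hdvd
      omega
    · rw [not_nontrivial_iff_subsingleton] at hnt
      have : Group.nilpotencyClass X = 0 := Group.nilpotencyClass_zero_iff_subsingleton.mpr hnt
      omega

theorem class_le_two_iff {G : Type*} [Group G] [Group.IsNilpotent G] :
    Group.nilpotencyClass G ≤ 2 ↔ commutator G ≤ Subgroup.center G := by
  rw [← Subgroup.lowerCentralSeries_eq_bot_iff_nilpotencyClass_le]
  have h2 : Subgroup.lowerCentralSeries (⊤ : Subgroup G) 2 = ⁅commutator G, (⊤ : Subgroup G)⁆ := rfl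
  rw [h2, Subgroup.commutator_eq_bot_iff_le_centralizer, Subgroup.coe_top, Subgroup.centralizer_univ]

/-- Let p be a prime and P a group of order p^4. Then P' has index p^2 in P if and only if P has maximal nilpotency class, that is, nilpotency class exactly 3. -/
theorem result {P : Type*} [Group P] [Finite P] (p : ℕ) [Fact p.Prime] (hP : Nat.card P = p ^ 4) :
    (commutator P).index = p ^ 2 ↔ Group.nilpotencyClass P = 3 := by
  have hp := (Fact.out : p.Prime)
  have hpg : IsPGroup p P := IsPGroup.of_card hP
  have hnil : Group.IsNilpotent P := hpg.isNilpotent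
  have hle3 : Group.nilpotencyClass P ≤ 3 :=
    nilpotencyClass_le_of_card_dvd p 2 P (by rw [hP])
  have hcomm := Subgroup.card_mul_index (commutator P)
  rw [hP] at hcomm
  have hone : 1 < p ^ 2 := Nat.one_lt_pow (by norm_num) hp.one_lt
  have hpltsq : p < p ^ 2 := by
    calc p = p ^ 1 := (pow_one p).symm
      _ < p ^ 2 := Nat.pow_lt_pow_right hp.one_lt (by norm_num)
  constructor
  · intro hi
    have hcP' : Nat.card (commutator P) = p ^ 2 := by
      rw [hi] at hcomm
      have : Nat.card (commutator P) * p ^ 2 = p ^ 2 * p ^ 2 := by rw [hcomm]; ring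
      exact Nat.eq_of_mul_eq_mul_right (pow_pos hp.pos _) this
    by_contra hne
    have hle2 : Group.nilpotencyClass P ≤ 2 := by omega
    have hPZ := class_le_two_iff.mp hle2
    -- index of the centre divides p^2
    have hrel := Subgroup.relIndex_mul_index hPZ
    rw [hi] at hrel
    obtain ⟨i, hiZ⟩ := hpg.index (Subgroup.center P)
    have hdvd : p ^ i ∣ p ^ 2 := ⟨_, by rw [← hrel, hiZ, mul_comm]⟩
    have hi2 : i ≤ 2 := (Nat.pow_dvd_pow_iff_le_right hp.one_lt).mp hdvd
    have hnot : ¬ IsCyclic (P ⧸ Subgroup.center P) := by
      intro hc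
      have hcm := isMulCommutative_of_isCyclic_quotient_center_self (G := P)
      have hb : commutator P = ⊥ := (commutator_eq_bot_iff (G := P)).mpr hcm
      rw [hb] at hcP'
      simp only [Subgroup.card_bot] at hcP'
      omega
    have hi3 : i = 2 := by
      by_contra hcon
      have : i = 0 ∨ i = 1 := by omega
      rcases this with rfl | rfl
      · apply hnot
        have hcard : Nat.card (P ⧸ Subgroup.center P) = 1 := by
          have : Nat.card (P ⧸ Subgroup.center P) = (Subgroup.center P).index := rfl
          rw [this, hiZ, pow_zero]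
        have : Subsingleton (P ⧸ Subgroup.center P) := (Nat.card_eq_one_iff_unique.mp hcard).1
        infer_instance
      · apply hnot
        have hcard : Nat.card (P ⧸ Subgroup.center P) = p := by
          have : Nat.card (P ⧸ Subgroup.center P) = (Subgroup.center P).index := rfl
          rw [this, hiZ, pow_one]
        exact isCyclic_of_prime_card hcard
    rw [hi3] at hiZ
    have := (Cfsg.Agent.S4584.result p hP).mpr hiZ
    omega
  · intro h3
    have hnot : ¬ commutator P ≤ Subgroup.center P := by
      intro hc
      have := class_le_two_iff.mpr hc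
      omega
    obtain ⟨j, hj⟩ := IsPGroup.iff_card.mp (hpg.to_subgroup (commutator P))
    have hjle : j ≤ 4 := by
      have hd : Nat.card (commutator P) ∣ p ^ 4 := ⟨_, hcomm.symm⟩
      rw [hj] at hd
      exact (Nat.pow_dvd_pow_iff_le_right hp.one_lt).mp hd
    have hj2 : j = 2 := by
      by_contra hcon
      have : j = 0 ∨ j = 1 ∨ j = 3 ∨ j = 4 := by omega
      rcases this with rfl | rfl | rfl | rfl
      · -- trivial commutator
        apply hnot
        have : commutator P = ⊥ := by
          rw [pow_zero] at hj
          exact Subgroup.eq_bot_of_card_eq _ hj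
        rw [this]; exact bot_le
      · -- order p
        rw [pow_one] at hj
        apply hnot
        rw [← class_le_two_iff, ← Subgroup.lowerCentralSeries_eq_bot_iff_nilpotencyClass_le]
        have h2 : Subgroup.lowerCentralSeries (⊤ : Subgroup P) 2 = ⁅commutator P, (⊤ : Subgroup P)⁆ := rfl
        rw [h2]
        set γ₂ := ⁅commutator P, (⊤ : Subgroup P)⁆ with hγ₂
        have hle : γ₂ ≤ commutator P := Subgroup.commutator_le_left _ _
        have hdvd : Nat.card γ₂ ∣ p := by
          rw [← hj]; exact Subgroup.card_dvd_of_le hle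
        rcases (Nat.dvd_prime hp).mp hdvd with h1 | h1
        · exact Subgroup.eq_bot_of_card_eq _ h1
        · exfalso
          have heq : γ₂ = commutator P := Subgroup.eq_of_le_of_card_ge hle (by rw [h1, hj])
          have hb := commutator_eq_bot_of_le (G := P) (le_of_eq heq.symm)
          rw [hb] at hj
          simp only [Subgroup.card_bot] at hj
          exact hp.one_lt.ne hj
      · -- index p
        exfalso
        have hidx : (commutator P).index = p := by
          rw [hj] at hcomm
          have : p ^ 3 * (commutator P).index = p ^ 3 * p := by rw [hcomm]; ring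
          exact Nat.eq_of_mul_eq_mul_left (pow_pos hp.pos _) this
        have hb := commutator_eq_bot_of_isCyclic (G := P) (isCyclic_of_prime_card hidx)
        rw [hb] at hj
        simp only [Subgroup.card_bot] at hj
        have : 1 < p ^ 3 := Nat.one_lt_pow (by norm_num) hp.one_lt
        omega
      · exfalso
        have hidx : (commutator P).index = 1 := by
          rw [hj] at hcomm
          have : p ^ 4 * (commutator P).index = p ^ 4 * 1 := by rw [hcomm]; ring
          exact Nat.eq_of_mul_eq_mul_left (pow_pos hp.pos _) this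
        have hsub : Subsingleton (P ⧸ commutator P) := (Nat.card_eq_one_iff_unique.mp hidx).1
        have hb := commutator_eq_bot_of_isCyclic (G := P) inferInstance
        rw [hb] at hj
        simp only [Subgroup.card_bot] at hj
        have : 1 < p ^ 4 := Nat.one_lt_pow (by norm_num) hp.one_lt
        omega
    rw [hj2] at hj
    rw [hj] at hcomm
    have : p ^ 2 * (commutator P).index = p ^ 2 * p ^ 2 := by rw [hcomm]; ring
    exact Nat.eq_of_mul_eq_mul_left (pow_pos hp.pos _) this

end Cfsg.Agent.S4585
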