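import Cfsg.Statements.S4586
import Cfsg.Agent.Lib.H8Group.AbelianIndex

set_option autoImplicit false
open scoped Pointwise
open Cfsg

namespace Cfsg.Agent.S4586

open Cfsg.Agent.Lib.H8Group
open scoped commutatorElement

theorem card_map_mk_mul_card {G : Type*} [Group G] [Finite G] (K H : Subgroup G) [K.Normal] (hKH : K ≤ H) :
    Nat.card (H.map (QuotientGroup.mk' K)) * Nat.card K = Nat.card H := by
  let f : H →* G ⧸ K := (QuotientGroup.mk' K).comp H.subtype
  have hker : f.ker.map H.subtype = K := by
    ext g
    constructor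
    · rintro ⟨h, hh, rfl⟩
      have : (QuotientGroup.mk (h : G) : G ⧸ K) = 1 := hh
      exact (QuotientGroup.eq_one_iff _).mp this
    · intro hg
      refine ⟨⟨g, hKH hg⟩, ?_, rfl⟩
      change (QuotientGroup.mk g : G ⧸ K) = 1
      exact (QuotientGroup.eq_one_iff _).mpr hg
  have h1 : Nat.card f.ker = Nat.card K := by
    calc Nat.card f.ker = Nat.card (f.ker.map H.subtype) :=
          (Subgroup.card_map_of_injective H.subtype_injective).symm
      _ = Nat.card K := by rw [hker]
  have h2 : Nat.card f.range = Nat.card (H.map (QuotientGroup.mk' K)) := by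
    have : f.range = H.map (QuotientGroup.mk' K) := by
      ext q
      constructor
      · rintro ⟨h, rfl⟩
        exact ⟨h, h.2, rfl⟩
      · rintro ⟨h, hh, rfl⟩
        exact ⟨⟨h, hh⟩, rfl⟩
    rw [this]
  rw [← h1, ← h2, ← Subgroup.index_ker, mul_comm, Subgroup.card_mul_index]

theorem key_formula {P : Type*} [Group P] [Finite P] (p : ℕ) (hp : p.Prime) (N : Subgroup P) [hNn : N.Normal] (hN : N.index = p)
    (x : P) (hx : x ∉ N) :
    (commutator P).index * Nat.card (commutator N) =
      p * Nat.card {n : N // x * n * x⁻¹ * (n : P)⁻¹ ∈ (commutator N).map N.subtype} := by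
  set K : Subgroup P := (commutator N).map N.subtype with hKdef
  have hKN : K ≤ N := by
    rintro _ ⟨a, _, rfl⟩
    exact a.2
  have hKn : K.Normal := by
    have : (commutator N).Characteristic := inferInstance
    exact ConjAct.normal_of_characteristic_of_normal
  have hKcomm : K ≤ commutator P := by
    rw [hKdef, commutator_def, commutator_def, Subgroup.map_commutator]
    exact Subgroup.commutator_mono le_top le_top
  have hKcard : Nat.card K = Nat.card (commutator N) :=
    Subgroup.card_map_of_injective N.subtype_injective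
  let A : Subgroup (P ⧸ K) := N.map (QuotientGroup.mk' K)
  have hAn : A.Normal := Subgroup.Normal.map hNn _ (QuotientGroup.mk'_surjective K)
  have hab : ∀ a ∈ A, ∀ b ∈ A, a * b = b * a := by
    rintro _ ⟨a, ha, rfl⟩ _ ⟨b, hb, rfl⟩
    have hc : ⁅a, b⁆ ∈ K := by
      refine ⟨⁅(⟨a, ha⟩ : N), (⟨b, hb⟩ : N)⁆, ?_, rfl⟩
      exact Subgroup.commutator_mem_commutator (Subgroup.mem_top _) (Subgroup.mem_top _)
    have hc2 := (QuotientGroup.eq_one_iff _).mpr hc
    rw [commutatorElement_def] at hc2
    simp only [QuotientGroup.mk_mul, QuotientGroup.mk_inv] at hc2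
    simp only [QuotientGroup.mk'_apply]
    have := mul_inv_eq_one.mp (by simpa [mul_assoc] using hc2 : ((QuotientGroup.mk a : P ⧸ K) * QuotientGroup.mk b * (QuotientGroup.mk a)⁻¹) * (QuotientGroup.mk b)⁻¹ = 1)
    exact mul_inv_eq_iff_eq_mul.mp this
  have hmemA : ∀ g : P, (QuotientGroup.mk g : P ⧸ K) ∈ A ↔ g ∈ N := by
    intro g
    constructor
    · rintro ⟨n, hn, hng⟩
      have : (QuotientGroup.mk n : P ⧸ K) = QuotientGroup.mk g := hng
      have h2 : n⁻¹ * g ∈ K := QuotientGroup.eq.mp this
      have : g = n * (n⁻¹ * g) := by group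
      rw [this]
      exact N.mul_mem hn (hKN h2)
    · intro hg
      exact ⟨g, hg, rfl⟩
  have hAcard : Nat.card A * Nat.card K = Nat.card N := card_map_mk_mul_card K N hKN
  have hQ'card : Nat.card (commutator (P ⧸ K)) * Nat.card K = Nat.card (commutator P) := by
    have h1 : commutator (P ⧸ K) = (commutator P).map (QuotientGroup.mk' K) := by
      rw [commutator_def, commutator_def, Subgroup.map_commutator, Subgroup.map_top_of_surjective _ (QuotientGroup.mk'_surjective K)]
    rw [h1]
    exact card_map_mk_mul_card K _ hKcomm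
  have hQcard : Nat.card (P ⧸ K) * Nat.card K = Nat.card P := by
    have := Subgroup.card_mul_index K
    rw [mul_comm] at this
    exact this
  have hPcard : Nat.card N * p = Nat.card P := by
    rw [← hN]; exact Subgroup.card_mul_index N
  have hNpos : 0 < Nat.card N := Nat.card_pos
  have hKpos : 0 < Nat.card K := Nat.card_pos
  have hAidx : A.index = p := by
    have h1 := Subgroup.card_mul_index A
    have h2 : Nat.card A * p * Nat.card K = Nat.card (P ⧸ K) * Nat.card K := by
      rw [hQcard, ← hPcard, ← hAcard]; ring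
    have h3 : Nat.card A * p = Nat.card (P ⧸ K) := Nat.eq_of_mul_eq_mul_right hKpos h2
    rw [← h1] at h3
    have hApos : 0 < Nat.card A := Nat.card_pos
    exact (Nat.eq_of_mul_eq_mul_left hApos h3).symm
  have hAprime : A.index.Prime := hAidx ▸ hp
  have hxA : (QuotientGroup.mk x : P ⧸ K) ∉ A := fun h => hx ((hmemA x).mp h)
  have hcore := card_commutator_mul_card_ker A hab hAprime hxA
  -- the count
  let φ := commMap A hab (QuotientGroup.mk x : P ⧸ K)
  let W : Subgroup (P ⧸ K) := φ.ker.map A.subtype
  have hWcard : Nat.card W = Nat.card φ.ker := Subgroup.card_map_of_injective A.subtype_injective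
  let H : Subgroup P := W.comap (QuotientGroup.mk' K)
  have hKH : K ≤ H := by
    intro k hk
    have : (QuotientGroup.mk k : P ⧸ K) = 1 := (QuotientGroup.eq_one_iff _).mpr hk
    change (QuotientGroup.mk k : P ⧸ K) ∈ W
    rw [this]
    exact W.one_mem
  have hHcard : Nat.card W * Nat.card K = Nat.card H := by
    have h1 := card_map_mk_mul_card K H hKH
    have h2 : H.map (QuotientGroup.mk' K) = W :=
      Subgroup.map_comap_eq_self_of_surjective (QuotientGroup.mk'_surjective K) W
    rw [h2] at h1
    exact h1
  have hmemH : ∀ g : P, g ∈ H ↔ g ∈ N ∧ x * g * x⁻¹ * g⁻¹ ∈ K := by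
    intro g
    constructor
    · rintro ⟨a, ha, hag⟩
      have hgA : (QuotientGroup.mk g : P ⧸ K) ∈ A := by
        have : (a : P ⧸ K) = QuotientGroup.mk g := hag
        rw [← this]; exact a.2
      refine ⟨(hmemA g).mp hgA, ?_⟩
      have h1 : φ a = 1 := ha
      have h2 := congrArg Subtype.val h1
      simp only [φ, commMap_coe, OneMemClass.coe_one] at h2
      have hag' : (a : P ⧸ K) = QuotientGroup.mk g := hag
      rw [hag'] at h2
      rw [← QuotientGroup.eq_one_iff]
      simpa using h2
    · rintro ⟨hgN, hg⟩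
      refine ⟨⟨QuotientGroup.mk g, (hmemA g).mpr hgN⟩, ?_, rfl⟩
      change φ _ = 1
      apply Subtype.ext
      simp only [φ, commMap_coe, OneMemClass.coe_one]
      have := (QuotientGroup.eq_one_iff _).mpr hg
      simpa using this
  have hcount : Nat.card {n : N // x * n * x⁻¹ * (n : P)⁻¹ ∈ K} = Nat.card H := by
    refine Nat.card_congr ?_
    exact { toFun := fun n => ⟨n.1.1, (hmemH _).mpr ⟨n.1.2, n.2⟩⟩
            invFun := fun h => ⟨⟨h.1, ((hmemH _).mp h.2).1⟩, ((hmemH _).mp h.2).2⟩
            left_inv := fun n => rfl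
            right_inv := fun h => rfl }
  rw [hcount, ← hKcard]
  have hidx := Subgroup.card_mul_index (commutator P)
  have hQ'pos : 0 < Nat.card (commutator (P ⧸ K)) := Nat.card_pos
  apply Nat.eq_of_mul_eq_mul_left hQ'pos
  calc Nat.card (commutator (P ⧸ K)) * ((commutator P).index * Nat.card K)
      = (Nat.card (commutator (P ⧸ K)) * Nat.card K) * (commutator P).index := by ring
    _ = Nat.card P := by rw [hQ'card, hidx]
    _ = Nat.card N * p := hPcard.symm
    _ = Nat.card (commutator (P ⧸ K)) * (p * Nat.card H) := by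
      rw [← hHcard, hWcard, ← hAcard, ← hcore]
      ring

/-- Let p be a prime, P a finite p-group and N a normal subgroup of P of index p. For x ∈ P write c(x) for the number of elements n of N whose commutator x n x⁻¹ n⁻¹ lies in the derived subgroup N' (so c(x)/#N' is the order of the centralizer of x acting on N/N'). Then [P : P'] = p² if and only if c(x) = p·#N' for every x ∈ P outside N, and also if and only if c(x) = p·#N' for some x ∈ P outside N. -/
theorem result {P : Type*} [Group P] [Finite P] (p : ℕ) [Fact p.Prime] (hP : IsPGroup p P) (N : Subgroup P) [N.Normal] (hN : N.index = p) :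
    ((commutator P).index = p ^ 2 ↔ ∀ x : P, x ∉ N →
        Nat.card {n : N // x * n * x⁻¹ * (n : P)⁻¹ ∈ (commutator N).map N.subtype} = p * Nat.card (commutator N)) ∧
    ((commutator P).index = p ^ 2 ↔ ∃ x : P, x ∉ N ∧
        Nat.card {n : N // x * n * x⁻¹ * (n : P)⁻¹ ∈ (commutator N).map N.subtype} = p * Nat.card (commutator N)) := by
  have hp := (Fact.out : p.Prime)
  have hN'pos : 0 < Nat.card (commutator N) := Nat.card_pos
  have hiff : ∀ x : P, x ∉ N → ((commutator P).index = p ^ 2 ↔
      Nat.card {n : N // x * n * x⁻¹ * (n : P)⁻¹ ∈ (commutator N).map N.subtype} = p * Nat.card (commutator N)) := by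
    intro x hx
    have hk := key_formula p hp N hN x hx
    constructor
    · intro h
      rw [h] at hk
      apply Nat.eq_of_mul_eq_mul_left hp.pos
      rw [← hk]; ring
    · intro h
      rw [h] at hk
      apply Nat.eq_of_mul_eq_mul_right hN'pos
      rw [hk]; ring
  obtain ⟨x₀, hx₀⟩ : ∃ x : P, x ∉ N := by
    by_contra hcon
    push Not at hcon
    have : N = ⊤ := eq_top_iff.mpr (fun g _ => hcon g)
    rw [this, Subgroup.index_top] at hN
    exact hp.one_lt.ne hN
  constructor
  · constructor
    · intro h x hx
      exact (hiff x hx).mp h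
    · intro h
      exact (hiff x₀ hx₀).mpr (h x₀ hx₀)
  · constructor
    · intro h
      exact ⟨x₀, hx₀, (hiff x₀ hx₀).mp h⟩
    · rintro ⟨x, hx, h⟩
      exact (hiff x hx).mpr h

end Cfsg.Agent.S4586
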