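import Cfsg.Statements.S4593
import Cfsg.Agent.Lib.AutZ.Ext

set_option autoImplicit false
open Cfsg

namespace Cfsg.Agent.S4593




/-- Let G be a finite group with trivial centre and no nontrivial normal subgroup of odd order, whose Sylow 2-subgroups are abelian, and let P be a Sylow 2-subgroup. Every automorphism of G of 2-power order that fixes P elementwise is inner. -/
theorem result {G : Type*} [Group G] [Finite G] (hZ : Subgroup.center G = ⊥) (hcore : Cfsg.pPrimeCore 2 G = ⊥) (P : Sylow 2 G) (hab : IsMulCommutative (P : Subgroup G))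
    (α : MulAut G) (h2 : ∃ j : ℕ, orderOf α = 2 ^ j) (hfix : ∀ x ∈ (P : Subgroup G), α x = x) :
    ∃ g : G, ∀ x : G, α x = g * x * g⁻¹ := by
  classical
  haveI : Finite (MulAut G) := Finite.of_injective (fun f : MulAut G => (f : G → G))
    (fun f g h => MulEquiv.ext (congrFun h))
  obtain ⟨j, hj⟩ := h2
  have hαj : α ^ 2 ^ j = 1 := by rw [← hj]; exact pow_orderOf_eq_one α
  obtain ⟨I₀, hI₀⟩ : ∃ I₀ : Subgroup (MulAut G), I₀ = (MulAut.conj : G →* MulAut G).range := ⟨_, rfl⟩
  haveI hI₀n : I₀.Normal := by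
    subst hI₀
    refine ⟨?_⟩
    rintro _ ⟨g, rfl⟩ φ
    refine ⟨φ g, ?_⟩
    ext x
    simp [MulAut.conj_apply, MulAut.mul_apply]
  have hinj : Function.Injective (MulAut.conj : G →* MulAut G) := by
    rw [injective_iff_map_eq_one]
    intro g hg
    have : g ∈ Subgroup.center G := by
      rw [Subgroup.mem_center_iff]
      intro x
      have h := DFunLike.congr_fun hg x
      simp only [MulAut.conj_apply, MulAut.one_apply] at h
      calc x * g = g * x * g⁻¹ * g := by rw [h]
        _ = g * x := by group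
    rw [hZ, Subgroup.mem_bot] at this
    exact this
  have hcomm : ∀ a ∈ (P : Subgroup G), ∀ b ∈ (P : Subgroup G), a * b = b * a := by
    intro a ha b hb
    have := hab.is_comm.comm (⟨a, ha⟩ : (P : Subgroup G)) ⟨b, hb⟩
    exact congrArg Subtype.val this
  have hmem : α ∈ I₀ := by
    apply Cfsg.Agent.Lib.AutZ.mem_of_centralizes_sylow I₀ α hαj (S := (P : Subgroup G).map (MulAut.conj : G →* MulAut G))
    · -- trivial core
      intro D hDI hDΓ hDodd hDstab
      let D₀ : Subgroup G := D.comap (MulAut.conj : G →* MulAut G)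
      have hmap : D₀.map (MulAut.conj : G →* MulAut G) = D :=
        Subgroup.map_comap_eq_self (hI₀ ▸ hDI)
      have hcard : Nat.card D₀ = Nat.card D := by
        conv_rhs => rw [← hmap]
        exact Nat.card_congr (D₀.equivMapOfInjective _ hinj).toEquiv
      have hn : D₀.Normal := by
        refine ⟨fun d hd g => ?_⟩
        show MulAut.conj (g * d * g⁻¹) ∈ D
        have hg : MulAut.conj g ∈ I₀ ⊔ Subgroup.zpowers α :=
          (le_sup_left : I₀ ≤ _) (hI₀ ▸ ⟨g, rfl⟩)
        have := hDstab _ hg _ hd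
        simpa using this
      have hle : D₀ ≤ Cfsg.pPrimeCore 2 G := Cfsg.Agent.Lib.Basic.le_pPrimeCore hn
        (Nat.coprime_two_right.2 (hcard ▸ hDodd))
      rw [hcore, le_bot_iff] at hle
      rw [← hmap, hle, Subgroup.map_bot]
    · -- trivial centralizer
      intro z _ hz
      have hz' : ∀ g : G, z g = g := by
        intro g
        apply hinj
        have h1 := hz (MulAut.conj g) (hI₀ ▸ ⟨g, rfl⟩)
        ext x
        have h2 := DFunLike.congr_fun h1 (z⁻¹ x)
        simpa [MulAut.mul_apply, MulAut.conj_apply] using h2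
      ext g
      simpa using hz' g
    · -- `S ≤ I₀`
      rintro _ ⟨p, -, rfl⟩
      exact hI₀ ▸ ⟨p, rfl⟩
    · -- maximality
      intro Q hQI hQ2 hSQ
      let Q₀ : Subgroup G := Q.comap (MulAut.conj : G →* MulAut G)
      have hmap : Q₀.map (MulAut.conj : G →* MulAut G) = Q :=
        Subgroup.map_comap_eq_self (hI₀ ▸ hQI)
      have h2 : IsPGroup 2 Q₀ := hQ2.comap_of_injective _ hinj
      have hle : (P : Subgroup G) ≤ Q₀ := fun p hp => hSQ ⟨p, hp, rfl⟩
      have := P.is_maximal' h2 hle
      rw [← hmap, this]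
    · exact P.isPGroup'.map _
    · rintro _ ⟨a, ha, rfl⟩ _ ⟨b, hb, rfl⟩
      rw [← map_mul, ← map_mul, hcomm a ha b hb]
    · rintro _ ⟨p, hp, rfl⟩
      ext x
      simp [MulAut.mul_apply, MulAut.conj_apply, hfix p hp]
  obtain ⟨g, hg⟩ := hI₀ ▸ hmem
  refine ⟨g, fun x => ?_⟩
  rw [← hg]
  simp [MulAut.conj_apply]

end Cfsg.Agent.S4593
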