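import Cfsg.Statements.S4602
import Cfsg.Agent.Lib.Char.PBlock
import Cfsg.Agent.Lib.Basic.Core
import Cfsg.Agent.Lib.Coprime.PSolvable

set_option autoImplicit false
open Cfsg

namespace Cfsg.Agent.S4602

/-- Let G be a finite p-solvable group and q a prime different from p. Some Sylow p-subgroup of G normalizes some Sylow q-subgroup of G if and only if q does not divide the order of G/O_{p'}(G), the quotient by the largest normal subgroup of order prime to p. -/
theorem result {G : Type*} [Group G] [Finite G] (p q : ℕ) [Fact p.Prime] [Fact q.Prime] (hpq : p ≠ q) (hsolv : Cfsg.IsPSolvable p G) :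
    (∃ (P : Sylow p G) (Q : Sylow q G), (P : Subgroup G) ≤ Subgroup.normalizer ((Q : Subgroup G) : Set G)) ↔ ¬ q ∣ (Cfsg.pPrimeCore p G).index := by
  classical
  haveI hKn : (Cfsg.pPrimeCore p G).Normal := Cfsg.Agent.Lib.Basic.pPrimeCore_normal p
  have hKc : (Nat.card (Cfsg.pPrimeCore p G)).Coprime p := Cfsg.Agent.Lib.Basic.pPrimeCore_coprime p
  haveI hpp := (Fact.out : p.Prime)
  haveI hqq := (Fact.out : q.Prime)
  constructor
  · rintro ⟨P, Q, hPQ⟩ hq
    let π : G →* G ⧸ Cfsg.pPrimeCore p G := QuotientGroup.mk' _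
    have hπ : Function.Surjective π := QuotientGroup.mk'_surjective _
    have hsolvb : Cfsg.IsPSolvable p (G ⧸ Cfsg.pPrimeCore p G) :=
      Cfsg.Agent.Lib.Coprime.isPSolvable_map π hπ hsolv
    have hO : Cfsg.pPrimeCore p (G ⧸ Cfsg.pPrimeCore p G) = ⊥ :=
      Cfsg.Agent.Lib.Basic.pPrimeCore_quotient_eq_bot p
    have hC := Cfsg.Agent.Lib.Char.centralizer_pCore_le_of_isPSolvable hsolvb hO
    set U := Cfsg.pCore p (G ⧸ Cfsg.pPrimeCore p G) with hU
    haveI hUn : U.Normal := Cfsg.Agent.Lib.Basic.pCore_normal p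
    have hUp : IsPGroup p U := Cfsg.Agent.Lib.Basic.pCore_isPGroup p
    let Pb : Sylow p (G ⧸ Cfsg.pPrimeCore p G) := P.mapSurjective hπ
    let Qb : Sylow q (G ⧸ Cfsg.pPrimeCore p G) := Q.mapSurjective hπ
    have hUP : U ≤ (Pb : Subgroup _) := Cfsg.Agent.Lib.Basic.pCore_le_sylow Pb
    have hQbcoe : (Qb : Subgroup (G ⧸ Cfsg.pPrimeCore p G)) = (Q : Subgroup G).map π := Sylow.coe_mapSurjective _ _
    have hPbcoe : (Pb : Subgroup (G ⧸ Cfsg.pPrimeCore p G)) = (P : Subgroup G).map π := Sylow.coe_mapSurjective _ _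
    -- `U ∩ Q̄ = 1`
    have hdisj : ∀ x, x ∈ U → x ∈ (Qb : Subgroup _) → x = 1 := by
      intro x hx hxQ
      have h1 : IsPGroup p (Subgroup.zpowers x) := hUp.to_le (by
        rw [Subgroup.zpowers_le]; exact hx)
      have h2 : IsPGroup q (Subgroup.zpowers x) := Qb.isPGroup'.to_le (by
        rw [Subgroup.zpowers_le]; exact hxQ)
      have hx1 := IsPGroup.disjoint_of_ne p q hpq _ _ h1 h2
      rw [Subgroup.disjoint_def] at hx1
      exact hx1 (Subgroup.mem_zpowers x) (Subgroup.mem_zpowers x)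
    -- `P̄` normalizes `Q̄`
    have hnorm : ∀ u ∈ U, ∀ x ∈ (Qb : Subgroup _), u * x * u⁻¹ ∈ (Qb : Subgroup _) := by
      intro u hu x hx
      have hu' := hUP hu
      rw [hPbcoe] at hu'
      obtain ⟨a, ha, rfl⟩ := hu'
      rw [hQbcoe] at hx ⊢
      obtain ⟨b, hb, rfl⟩ := hx
      refine ⟨a * b * a⁻¹, ?_, by simp⟩
      have := hPQ ha
      rw [Subgroup.mem_normalizer_iff] at this
      exact (this b).mp hb
    have hQC : (Qb : Subgroup _) ≤ Subgroup.centralizer (U : Set (G ⧸ Cfsg.pPrimeCore p G)) := by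
      intro x hx
      rw [Subgroup.mem_centralizer_iff]
      intro u hu
      have h1 : u * x * u⁻¹ * x⁻¹ ∈ U := by
        have h2 : x * u⁻¹ * x⁻¹ ∈ U := hUn.conj_mem _ (U.inv_mem hu) x
        have h3 : u * (x * u⁻¹ * x⁻¹) ∈ U := U.mul_mem hu h2
        simpa [mul_assoc] using h3
      have h2 : u * x * u⁻¹ * x⁻¹ ∈ (Qb : Subgroup _) :=
        Subgroup.mul_mem _ (hnorm u hu x hx) (Subgroup.inv_mem _ hx)
      have h3 := hdisj _ h1 h2
      have h4 : u * x * u⁻¹ = x := by
        have := mul_inv_eq_one.mp h3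
        exact this
      have h5 : u * x = x * u := by
        calc u * x = u * x * u⁻¹ * u := by group
          _ = x * u := by rw [h4]
      exact h5
    have hQbot : (Qb : Subgroup (G ⧸ Cfsg.pPrimeCore p G)) = ⊥ := by
      rw [eq_bot_iff]
      intro x hx
      rw [Subgroup.mem_bot]
      exact hdisj x (hC (hQC hx)) hx
    have hnd := Qb.not_dvd_index
    rw [hQbot, Subgroup.index_bot] at hnd
    apply hnd
    exact hq
  · intro hq
    obtain ⟨Q⟩ : Nonempty (Sylow q G) := inferInstance
    let π : G →* G ⧸ Cfsg.pPrimeCore p G := QuotientGroup.mk' _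
    have hQK : (Q : Subgroup G) ≤ Cfsg.pPrimeCore p G := by
      intro x hx
      have h1 : IsPGroup q ((Q : Subgroup G).map π) := Q.isPGroup'.map π
      have h2 : (Q : Subgroup G).map π = ⊥ := by
        obtain ⟨k, hk⟩ := IsPGroup.iff_card.mp h1
        have hd : Nat.card ((Q : Subgroup G).map π) ∣ (Cfsg.pPrimeCore p G).index := by
          rw [Subgroup.index]
          exact Subgroup.card_subgroup_dvd_card _
        rw [hk] at hd
        rcases k with _ | k
        · rw [pow_zero] at hk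
          exact Subgroup.card_eq_one.mp hk
        · exact absurd (dvd_trans (dvd_pow_self q (Nat.succ_ne_zero k)) hd) hq
      have h3 : π x ∈ (Q : Subgroup G).map π := ⟨x, hx, rfl⟩
      rw [h2, Subgroup.mem_bot] at h3
      exact (QuotientGroup.eq_one_iff x).mp h3
    set A : Subgroup G := Subgroup.normalizer ((Q : Subgroup G) : Set G) with hA
    have htop : A ⊔ Cfsg.pPrimeCore p G = ⊤ := Q.normalizer_sup_eq_top' hQK
    have hcard := Cfsg.Agent.Lib.Basic.card_sup_eq_of_normal A (Cfsg.pPrimeCore p G)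
    rw [htop, Subgroup.card_top] at hcard
    -- the `p`-part of `|G|` divides `|A|`
    have hdiv : p ^ (Nat.card G).factorization p ∣ Nat.card A := by
      have h1 : p ^ (Nat.card G).factorization p ∣ Nat.card G := Nat.ordProj_dvd _ _
      have h1' : p ^ (Nat.card G).factorization p ∣ Nat.card (Cfsg.pPrimeCore p G) * (Cfsg.pPrimeCore p G).relIndex A := by
        rw [← hcard]
        exact h1
      have h2 : Nat.Coprime (p ^ (Nat.card G).factorization p) (Nat.card (Cfsg.pPrimeCore p G)) :=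
        Nat.Coprime.pow_left _ hKc.symm
      have h3 := h2.dvd_of_dvd_mul_left h1'
      exact h3.trans (Subgroup.relIndex_dvd_card _ _)
    obtain ⟨R, hR⟩ := Sylow.exists_subgroup_card_pow_prime p hdiv
    have hRmap : Nat.card (R.map A.subtype) = p ^ (Nat.card G).factorization p := by
      rw [Subgroup.card_map_of_injective A.subtype_injective, hR]
    refine ⟨Sylow.ofCard (R.map A.subtype) hRmap, Q, ?_⟩
    rw [Sylow.coe_ofCard]
    rintro _ ⟨r, -, rfl⟩
    exact r.2

end Cfsg.Agent.S4602
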