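import Cfsg.Statements.S4607
import Mathlib
import Cfsg.Agent.Lib.LocalAlg.Block

set_option autoImplicit false
open Cfsg

namespace Cfsg.Agent.S4607

open Cfsg.Agent.Lib.Char Cfsg.Agent.Lib.Blocks Cfsg.Agent.Lib.H8Group in
theorem backward {G : Type*} [Group G] [Fintype G] (p : ℕ) [hp : Fact p.Prime] (M : Ideal Cfsg.AlgInt) (hM : Cfsg.IsPModular p M)
    (B : Set (Cfsg.IrrCharacter G)) (hB : Cfsg.IsPBlock M B) (D : Subgroup G) (hD : Cfsg.IsDefectGroup p M B D)
    (h2 : Nat.card D = 2) : Nat.card B = 2 := by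
  classical
  have hpp : p.Prime := hp.out
  have := isPrime_of_modular hM
  have hcD := card_defectGroup hM hB hD
  rw [h2] at hcD
  have hp2 : p = 2 := by
    have hne : blockDefect p B ≠ 0 := by
      intro h0
      rw [h0, pow_zero] at hcD
      omega
    have h3 : p ∣ 2 := by
      rw [hcD]
      exact dvd_pow_self p hne
    exact (Nat.prime_dvd_prime_iff_eq hpp Nat.prime_two).mp h3
  subst hp2
  obtain ⟨x, hxD, hx1⟩ : ∃ x ∈ D, x ≠ 1 := by
    by_contra hcon
    push Not at hcon
    have h3 : D = ⊥ := (Subgroup.eq_bot_iff_forall _).mpr hcon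
    rw [h3] at h2
    simp at h2
  have hxo : orderOf x = 2 := by
    have h3 : orderOf x ∣ 2 := by
      have h4 := Subgroup.orderOf_dvd_natCard D hxD
      rwa [h2] at h4
    rcases (Nat.dvd_prime Nat.prime_two).mp h3 with h | h
    · exact absurd (orderOf_eq_one_iff.mp h) hx1
    · exact h
  have hDx : D = Subgroup.zpowers x := by
    symm
    apply Subgroup.eq_of_le_of_card_ge
    · exact Subgroup.zpowers_le.mpr hxD
    · rw [Nat.card_zpowers, hxo, h2]
  subst hDx
  letI : Fintype (Subgroup.centralizer ({x} : Set G)) := Fintype.ofFinite _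
  have hP : IsPGroup 2 (Subgroup.zpowers x) := isPGroup_zpowers (p := 2) ⟨1, by rw [hxo]; norm_num⟩
  obtain ⟨b, hb⟩ := (exists_induced_iff (Subgroup.centralizer ({x} : Set G)) hM hP
    (by
      rw [Subgroup.zpowers_le]
      exact Subgroup.mem_centralizer_singleton_iff.mpr rfl)
    (by rw [centralizer_zpowers_eq])
    (centralizer_le_normalizer_zpowers x) hB).mpr ⟨_, hD, 1, by rw [conjS_one]⟩
  let xH : Subgroup.centralizer ({x} : Set G) := centElt x
  have hxHc : (xH : G) = x := rfl
  have hordH : orderOf xH = 2 := by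
    rw [← Subgroup.orderOf_coe, hxHc, hxo]
  have hcent : ∀ g : Subgroup.centralizer ({x} : Set G), g * xH = xH * g := by
    intro g
    apply Subtype.ext
    exact commute_of_mem_centralizer_singleton g.2
  have hPH : IsPGroup 2 (Subgroup.zpowers xH) := isPGroup_zpowers (p := 2) ⟨1, by rw [hordH]; norm_num⟩
  haveI hPn : (Subgroup.zpowers xH).Normal := by
    refine ⟨fun y hy g => ?_⟩
    obtain ⟨i, rfl⟩ := Subgroup.mem_zpowers_iff.mp hy
    have hc : Commute g (xH ^ i) := (show Commute g xH from hcent g).zpow_right i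
    rw [hc.eq, mul_assoc, mul_inv_cancel, mul_one]
    exact hy
  have hidx : (Subgroup.centralizer ((Subgroup.zpowers xH : Subgroup _) : Set (Subgroup.centralizer ({x} : Set G)))).index = 2 ^ 0 := by
    have h3 : Subgroup.centralizer ((Subgroup.zpowers xH : Subgroup _) : Set (Subgroup.centralizer ({x} : Set G))) = ⊤ := by
      rw [eq_top_iff]
      intro g _
      rw [Subgroup.mem_centralizer_iff]
      intro t ht
      obtain ⟨i, rfl⟩ := Subgroup.mem_zpowers_iff.mp ht
      exact ((show Commute g xH from hcent g).zpow_right i).eq.symm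
    rw [h3, Subgroup.index_top, pow_zero]
  obtain ⟨θ, hθ, hθker⟩ := exists_inflated_of_index hM hPH hidx hb.1
  have hθx : ∀ z : Subgroup.centralizer ({x} : Set G), (z : G) = x →
      (θ : Subgroup.centralizer ({x} : Set G) → ℂ) z = (θ : Subgroup.centralizer ({x} : Set G) → ℂ) 1 := by
    intro z hz
    have hzx : z = xH := Subtype.ext hz
    rw [hzx]
    exact (mem_charKer (IsIrrCharacter.isCharacter θ.2)).mp (hθker (Subgroup.mem_zpowers xH))
  exact (defect_two_main hM hxo hB hD hb hθ hθx).1

/-- Let G be a finite group, p a prime, M a maximal ideal of the algebraic integers containing p, and B a p-block of G with defect group D. Then B contains exactly two irreducible characters if and only if D has order 2. -/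
theorem result {G : Type*} [Group G] [Finite G] (p : ℕ) [Fact p.Prime] (M : Ideal Cfsg.AlgInt) (hM : Cfsg.IsPModular p M) (B : Set (Cfsg.IrrCharacter G)) (hB : Cfsg.IsPBlock M B) (D : Subgroup G) (hD : Cfsg.IsDefectGroup p M B D) : Nat.card B = 2 ↔ Nat.card D = 2 := by
  classical
  letI := Fintype.ofFinite G
  have := Cfsg.Agent.Lib.Blocks.isPrime_of_modular hM
  exact ⟨Cfsg.Agent.Lib.LocalAlg.card_defect_eq_two hM hB hD, backward p M hM B hB D hD⟩

end Cfsg.Agent.S4607
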