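import Cfsg.Statements.S4611
import Cfsg.Agent.Lib.Char.PBlock
import Cfsg.Agent.Lib.Struct.PLen
import Cfsg.Agent.Lib.Blocks.Central

set_option autoImplicit false
open Cfsg

namespace Cfsg.Agent.S4611

/-- Let G be a finite solvable group and π a nonempty set of primes, each dividing the order of G; fix for each p in π a maximal ideal M p of the algebraic integers containing p. Then the only irreducible character lying in the principal p-block for every p in π is the principal character if and only if G is generated by the subgroups O_{p'}(G), p in π (the largest normal subgroups of order prime to p). -/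
theorem result {G : Type*} [Group G] [Finite G] [Group.IsSolvable G] (π : Set ℕ) (hπ : ∀ p ∈ π, p.Prime ∧ p ∣ Nat.card G) (hne : π.Nonempty) (M : ℕ → Ideal Cfsg.AlgInt) (hM : ∀ p ∈ π, Cfsg.IsPModular p (M p)) :
    (∀ χ : Cfsg.IrrCharacter G, (∀ p ∈ π, χ ∈ Cfsg.principalBlock (M p) G) → (χ : G → ℂ) = fun _ => 1) ↔
      ⨆ p ∈ π, Cfsg.pPrimeCore p G = ⊤ := by
  classical
  letI : Fintype G := Fintype.ofFinite G
  set L : Subgroup G := ⨆ p ∈ π, Cfsg.pPrimeCore p G with hL
  haveI hLn : L.Normal := by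
    haveI : ∀ p, (Cfsg.pPrimeCore p G).Normal := fun p => Cfsg.Agent.Lib.Basic.pPrimeCore_normal p
    rw [hL]
    infer_instance
  have key : ∀ χ : Cfsg.IrrCharacter G, (∀ p ∈ π, χ ∈ Cfsg.principalBlock (M p) G) ↔ L ≤ Cfsg.Agent.Lib.Char.charKer (χ : G → ℂ) := by
    intro χ
    constructor
    · intro h
      apply iSup₂_le
      intro p hp
      haveI : Fact p.Prime := ⟨(hπ p hp).1⟩
      exact (Cfsg.Agent.Lib.Char.mem_principalBlock_iff_of_isPSolvable (hM p hp)
        (Cfsg.Agent.Lib.Struct.isPSolvable_of_isSolvable p _ G rfl inferInstance)).mp (h p hp)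
    · intro h p hp
      haveI : Fact p.Prime := ⟨(hπ p hp).1⟩
      exact (Cfsg.Agent.Lib.Char.mem_principalBlock_iff_of_isPSolvable (hM p hp)
        (Cfsg.Agent.Lib.Struct.isPSolvable_of_isSolvable p _ G rfl inferInstance)).mpr
        (le_trans (le_iSup₂_of_le p hp le_rfl) h)
  constructor
  · intro h
    by_contra hne
    letI : Fintype (G ⧸ L) := Fintype.ofFinite _
    haveI hnt : Nontrivial (G ⧸ L) := QuotientGroup.nontrivial_iff.mpr hne
    obtain ⟨g, hg⟩ := exists_ne (1 : G ⧸ L)
    have hsum := Cfsg.Agent.Lib.Char.sum_irr_degree_mul_apply g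
    rw [if_neg hg] at hsum
    obtain ⟨β, hβ⟩ : ∃ β : Cfsg.IrrCharacter (G ⧸ L), (β : G ⧸ L → ℂ) ≠ fun _ => 1 := by
      by_contra hall
      push Not at hall
      have h1 : ∀ β : Cfsg.IrrCharacter (G ⧸ L), (β : G ⧸ L → ℂ) 1 * (β : G ⧸ L → ℂ) g = 1 := by
        intro β
        rw [hall β]
        simp
      rw [Finset.sum_congr rfl (fun β _ => h1 β)] at hsum
      simp only [Finset.sum_const, nsmul_eq_mul, mul_one] at hsum
      have h2 : (Finset.univ : Finset (Cfsg.IrrCharacter (G ⧸ L))).card ≠ 0 :=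
        Finset.card_ne_zero.mpr ⟨⟨_, Cfsg.Agent.Lib.Char.isIrrCharacter_one⟩, Finset.mem_univ _⟩
      exact h2 (by exact_mod_cast hsum)
    have h1 := h ⟨Cfsg.Agent.Lib.Char.inflate L β, Cfsg.Agent.Lib.Char.isIrrCharacter_inflate L β.2⟩
      ((key _).mpr (Cfsg.Agent.Lib.Char.le_charKer_inflate L (Cfsg.Agent.Lib.Char.IsIrrCharacter.isCharacter β.2)))
    apply hβ
    funext x
    obtain ⟨y, rfl⟩ := QuotientGroup.mk_surjective x
    exact congrFun h1 y
  · intro h χ hχ
    have h1 := (key χ).mp hχ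
    rw [h] at h1
    by_contra hne
    have h2 := Cfsg.Agent.Lib.Char.classInner_irr_of_ne χ.2 Cfsg.Agent.Lib.Char.isIrrCharacter_one hne
    have h3 : ∀ g : G, (χ : G → ℂ) g = (χ : G → ℂ) 1 := fun g =>
      (Cfsg.Agent.Lib.Char.mem_charKer (Cfsg.Agent.Lib.Char.IsIrrCharacter.isCharacter χ.2)).mp (h1 (Subgroup.mem_top g))
    rw [Cfsg.classInner] at h2
    simp only [map_one, mul_one, h3] at h2
    rw [Finset.sum_const, nsmul_eq_mul] at h2
    have h4 := Cfsg.Agent.Lib.Blocks.irr_apply_one_ne_zero χ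
    have h5 : (Nat.card G : ℂ) ≠ 0 := by exact_mod_cast Nat.card_pos.ne'
    rw [Finset.card_univ, ← Nat.card_eq_fintype_card] at h2
    field_simp at h2
    exact h4 h2

end Cfsg.Agent.S4611
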