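import Cfsg.Statements.S4624
import Cfsg.Agent.Lib.Perm.SpWrB
import Mathlib

set_option autoImplicit false
open Cfsg

namespace Cfsg.Agent.S4624

open Cfsg.Agent.Lib.Perm.SpWr Cfsg.Agent.Lib.Misc19.SymSylow Cfsg.Agent.Lib.Known in
theorem transfer_sq {X Y : Type*} [Group X] [Group Y] (e : X ≃* Y) (h : ∀ x : X, x ^ 2 ∈ commutator X) (y : Y) :
    y ^ 2 ∈ commutator Y := by
  have h1 : e (e.symm y ^ 2) ∈ (commutator X).map e.toMonoidHom := ⟨_, h _, rfl⟩
  rw [commutator_def, Subgroup.map_commutator, Subgroup.map_top_of_surjective _ e.surjective, ← commutator_def] at h1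
  simpa using h1

/-- Let F be a finite field of odd order and n ≥ 1. A Sylow 2-subgroup P of the symplectic group Sp_{2n}(F) has P/P' elementary abelian: the square of every element of P lies in the derived subgroup of P. -/
theorem result {F : Type*} [Field F] [Fintype F] (hF : Odd (Fintype.card F)) (n : ℕ) (hn : 1 ≤ n) (P : Sylow 2 (Matrix.symplecticGroup (Fin n) F)) :
    ∀ x : (P : Subgroup (Matrix.symplecticGroup (Fin n) F)), x ^ 2 ∈ commutator (P : Subgroup (Matrix.symplecticGroup (Fin n) F)) := by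
  classical
  haveI : Fact (Nat.Prime 2) := ⟨Nat.prime_two⟩
  obtain ⟨Q, A, y, w, a, D, hval⟩ := Cfsg.Agent.Lib.Perm.SpWr.exists_QData hF
  obtain ⟨T, hT, hG⟩ := Cfsg.Agent.Lib.Misc19.SymSylow.exists_genP_sym 2 n
  obtain ⟨P₀, hP₀⟩ := Cfsg.Agent.Lib.Perm.SpWr.exists_sylow_WW D hval hF T hT
  have hT' : ∀ x ∈ T, x * x ∈ ⁅T, T⁆ := by
    intro x hx
    have h1 := hG.pow_mem ⟨x, hx⟩
    rw [← Subgroup.map_subtype_commutator]
    refine ⟨_, h1, ?_⟩
    simp [pow_two]
  have hW := Cfsg.Agent.Lib.Perm.SpWr.sq_mem_WW (Q := Q) (T := T) (fun x hx => D.sq_mem hx) hT'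
  have h0 : ∀ x : (P₀ : Subgroup (Matrix.symplecticGroup (Fin n) F)), x ^ 2 ∈ commutator (P₀ : Subgroup (Matrix.symplecticGroup (Fin n) F)) := by
    rintro ⟨x, hx⟩
    have hx' : x ∈ Cfsg.Agent.Lib.Perm.SpWr.WW Q T := hP₀ ▸ hx
    have h1 := hW x hx'
    rw [← hP₀, ← Subgroup.map_subtype_commutator] at h1
    obtain ⟨z, hz, hzx⟩ := h1
    have : z = ⟨x, hx⟩ ^ 2 := by
      apply Subtype.ext
      rw [pow_two]
      exact hzx
    rwa [← this]
  exact transfer_sq (Sylow.equiv P₀ P) h0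

end Cfsg.Agent.S4624
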