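import Cfsg.Statements.S4627
import Cfsg.Agent.Lib.Perm.SlWrC
import Mathlib

set_option autoImplicit false
open Cfsg

namespace Cfsg.Agent.S4627

/-- Let F be a finite field of odd order q and m ≥ 1. If 4 divides q + 1, or if 4 divides q − 1 and m is a power of 2, then a Sylow 2-subgroup P of SL_{2m}(F) has P/P' elementary abelian: the square of every element of P lies in the derived subgroup of P. -/
theorem result {F : Type*} [Field F] [Fintype F] (hF : Odd (Fintype.card F)) (m : ℕ) (hm : 1 ≤ m)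
    (hq : 4 ∣ Fintype.card F + 1 ∨ (4 ∣ Fintype.card F - 1 ∧ ∃ j : ℕ, m = 2 ^ j)) (P : Sylow 2 (Matrix.SpecialLinearGroup (Fin (2 * m)) F)) :
    ∀ x : (P : Subgroup (Matrix.SpecialLinearGroup (Fin (2 * m)) F)), x ^ 2 ∈ commutator (P : Subgroup (Matrix.SpecialLinearGroup (Fin (2 * m)) F)) := by
  have hq' : Fintype.card F % 4 = 3 ∨ ∃ j, m = 2 ^ j := by
    rcases hq with h | ⟨_, h⟩
    · left
      have := Nat.mod_eq_zero_of_dvd h
      omega
    · right
      exact h
  exact Cfsg.Agent.Lib.Perm.SlWr.final_sl hF (2 * m) m 0 (by ring) hm (Or.inl rfl) (by simp) hq' P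

end Cfsg.Agent.S4627
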