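import Cfsg.Statements.S4638
import Cfsg.Agent.Lib.H8Group.KleinHS

set_option autoImplicit false
open Cfsg

namespace Cfsg.Agent.S4638

open Cfsg.Agent.Lib.Char Cfsg.Agent.Lib.H8Group Cfsg.Agent.Lib.Blocks

theorem stabilizes_up_aux {G : Type*} [Group G] [Fintype G] {W R : Subgroup G} {R' : Subgroup W} [Fintype W]
    [Fintype (Subgroup.centralizer (R : Set G))] [Fintype (Subgroup.centralizer (R' : Set W))] (hcd : CenData R' R) {x : W}
    (hxR : (x : G) ∈ Subgroup.normalizer (R : Set G))
    {c' : Set (IrrCharacter (Subgroup.centralizer (R' : Set W)))}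
    (hs : StabilizesBlock (Subgroup.centralizer (R' : Set W)) c' x) :
    StabilizesBlock (Subgroup.centralizer (R : Set G)) (transBlock (cenTrans hcd).symm c') (x : G) := by
  classical
  refine ⟨?_, fun χ hχ => ?_⟩
  · have key : ∀ y ∈ Subgroup.normalizer (R : Set G), ∀ z ∈ Subgroup.centralizer (R : Set G),
        y * z * y⁻¹ ∈ Subgroup.centralizer (R : Set G) := by
      intro y hy z hz
      rw [Subgroup.mem_centralizer_iff]
      intro r hr
      have hr' : y⁻¹ * r * y⁻¹⁻¹ ∈ R := (Subgroup.mem_normalizer_iff.mp (inv_mem hy) r).mp hr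
      have h1 := Subgroup.mem_centralizer_iff.mp hz _ hr'
      rw [inv_inv] at h1
      calc r * (y * z * y⁻¹) = y * ((y⁻¹ * r * y) * z) * y⁻¹ := by group
        _ = y * (z * (y⁻¹ * r * y)) * y⁻¹ := by rw [h1]
        _ = y * z * y⁻¹ * r := by group
    rw [Subgroup.mem_normalizer_iff]
    intro z
    refine ⟨key _ hxR z, fun h => ?_⟩
    have := key _ (inv_mem hxR) _ h
    simpa [mul_assoc] using this
  · have hψ : Cfsg.Agent.Lib.Blocks.irrComp (cenTrans hcd) χ ∈ c' := hχ
    obtain ⟨ξ', hξ', h1⟩ := hs.2 _ hψ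
    refine ⟨Cfsg.Agent.Lib.Blocks.irrComp (cenTrans hcd).symm ξ', irrComp_mem_transBlock _ hξ', fun k k' hk => ?_⟩
    have h2 := h1 ((cenTrans hcd).symm k) ((cenTrans hcd).symm k') (by
      apply Subtype.ext
      simpa using hk)
    simp only [Cfsg.Agent.Lib.Blocks.irrComp_coe, Function.comp_apply, MulEquiv.apply_symm_apply] at h2 ⊢
    exact h2

/-- Let B be a block of the finite group G relative to a maximal ideal M of the algebraic integers containing 2, with a Klein four defect group P, and let c be its Brauer correspondent: the block of N_G(P) with defect group P that induces B. Then there is a perfect isometry from c onto B. -/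
theorem result {G : Type*} [Group G] [Finite G] (M : Ideal Cfsg.AlgInt) (hM : Cfsg.IsPModular 2 M) (B : Set (Cfsg.IrrCharacter G)) (hB : Cfsg.IsPBlock M B) (P : Subgroup G) (hPD : Cfsg.IsDefectGroup 2 M B P) (hV : IsKleinFour P) (c : Set (Cfsg.IrrCharacter (Subgroup.normalizer (P : Set G)))) (hcD : Cfsg.IsDefectGroup 2 M c (P.subgroupOf (Subgroup.normalizer (P : Set G)))) (hc : Cfsg.IsInducedBlock M (Subgroup.normalizer (P : Set G)) c B) : ∃ (I : Cfsg.IrrCharacter (Subgroup.normalizer (P : Set G)) → Cfsg.IrrCharacter G) (ε : Cfsg.IrrCharacter (Subgroup.normalizer (P : Set G)) → ℤ), Cfsg.IsPerfectIsometry 2 M c B I ε := by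
  classical
  cases nonempty_fintype G
  haveI : Fact (Nat.Prime 2) := ⟨Nat.prime_two⟩
  have := isPrime_of_modular hM
  letI : Fintype (Subgroup.normalizer (P : Set G)) := Fintype.ofFinite _
  letI : ∀ x : G, Fintype (Subgroup.centralizer ({x} : Set G)) := fun _ => Fintype.ofFinite _
  letI : ∀ x : (Subgroup.normalizer (P : Set G)), Fintype (Subgroup.centralizer ({x} : Set (Subgroup.normalizer (P : Set G)))) :=
    fun _ => Fintype.ofFinite _
  have hPN : P ≤ Subgroup.normalizer (P : Set G) := Subgroup.le_normalizer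
  have hV' : IsKleinFour (P.subgroupOf (Subgroup.normalizer (P : Set G))) :=
    ⟨by rw [Nat.card_congr (Subgroup.subgroupOfEquivOfLe hPN).toEquiv]; exact hV.card_four,
     by rw [Monoid.exponent_eq_of_mulEquiv (Subgroup.subgroupOfEquivOfLe hPN)]; exact hV.exponent_two⟩
  obtain ⟨e', he'⟩ := Cfsg.Agent.Lib.Char.BK.exists_isBrauerPairOf_of_isDefectGroup hM hc.1 hcD
  letI : Fintype (Subgroup.centralizer ((P.subgroupOf (Subgroup.normalizer (P : Set G)) : Subgroup _) : Set (Subgroup.normalizer (P : Set G)))) :=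
    Fintype.ofFinite _
  letI : Fintype (Subgroup.centralizer (P : Set G)) := Fintype.ofFinite _
  have hP'p : IsPGroup 2 (P.subgroupOf (Subgroup.normalizer (P : Set G))) := IsDefectGroup.isPGroup hcD
  have he'I := (isBrauerPairOf_iff hM hP'p he'.1.2).mp he'
  have hcd : CenData (P.subgroupOf (Subgroup.normalizer (P : Set G))) P :=
    cenData_of_le (Subgroup.centralizer_le_normalizer _) hPN le_rfl
  have hφ : ∀ x, (((cenTrans hcd) x : Subgroup.centralizer (P : Set G)) : G) = ((x : Subgroup.normalizer (P : Set G)) : G) := fun _ => rfl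
  have he₀I := Cfsg.Agent.Lib.Char.BK.isInducedBlock_tower hM (Subgroup.normalizer (P : Set G)) _ _ (cenTrans hcd) hφ he'I hc
  -- the comparison of the stabilizers
  have hC : Subgroup.centralizer (P : Set G) =
      (Subgroup.centralizer ((P.subgroupOf (Subgroup.normalizer (P : Set G)) : Subgroup _) : Set (Subgroup.normalizer (P : Set G)))).map
        (Subgroup.normalizer (P : Set G)).subtype := by
    ext g
    constructor
    · intro hg
      refine ⟨(cenTrans hcd).symm ⟨g, hg⟩, ((cenTrans hcd).symm ⟨g, hg⟩).2, ?_⟩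
      exact cenTrans_symm_coe hcd ⟨g, hg⟩
    · rintro ⟨y, hy, rfl⟩
      exact hcd.cen y hy
  have hTm : stabOfBlock P (transBlock (cenTrans hcd).symm e') =
      (stabOfBlock (P.subgroupOf (Subgroup.normalizer (P : Set G))) e').map (Subgroup.normalizer (P : Set G)).subtype := by
    have hnn : ∀ y : Subgroup.normalizer (P : Set G), y ∈ Subgroup.normalizer ((P.subgroupOf (Subgroup.normalizer (P : Set G)) : Subgroup _) : Set (Subgroup.normalizer (P : Set G))) := by
      intro y
      rw [Subgroup.mem_normalizer_iff]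
      intro h
      have h1 := Subgroup.mem_normalizer_iff.mp y.2 (h : G)
      simpa [Subgroup.mem_subgroupOf] using h1
    ext g
    constructor
    · intro hg
      obtain ⟨hg1, hg2⟩ := mem_stabOfBlock.mp hg
      refine ⟨⟨g, hg1⟩, mem_stabOfBlock.mpr ⟨hnn _, ?_⟩, rfl⟩
      have h1 := stabilizes_down hcd (x := ⟨g, hg1⟩) hg2
      rwa [transBlock_transBlock_symm] at h1
    · rintro ⟨y, hy, rfl⟩
      exact mem_stabOfBlock.mpr ⟨y.2, stabilizes_up_aux hcd y.2 (mem_stabOfBlock.mp hy).2⟩
  have hrel : (Subgroup.centralizer (P : Set G)).relIndex (stabOfBlock P (transBlock (cenTrans hcd).symm e')) =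
      (Subgroup.centralizer ((P.subgroupOf (Subgroup.normalizer (P : Set G)) : Subgroup _) : Set (Subgroup.normalizer (P : Set G)))).relIndex
        (stabOfBlock (P.subgroupOf (Subgroup.normalizer (P : Set G))) e') := by
    rw [hTm, hC, Subgroup.relIndex_map_map_of_injective _ _ (Subgroup.subtype_injective _)]
  obtain ⟨h1, hkB, hrB⟩ := Cfsg.Agent.S4637.result M hM B hB P hPD hV _ he₀I
    (stabOfBlock P (transBlock (cenTrans hcd).symm e')) (fun g => mem_stabOfBlock) _ rfl
  obtain ⟨-, hkc, hrc⟩ := Cfsg.Agent.S4637.result M hM c hc.1 _ hcD hV' e' he'I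
    (stabOfBlock (P.subgroupOf (Subgroup.normalizer (P : Set G))) e') (fun g => mem_stabOfBlock) _ rfl
  rw [← hrel] at hrc
  have hSGB : KP.SubGood M B := KP.klein_subGood hM hB hPD hV
  have hSGc : KP.SubGood M c := KP.klein_subGood hM hc.1 hcD hV'
  have hdB : blockDefect 2 B = 2 := by
    have h2 := card_defectGroup hM hB hPD
    rw [hV.card_four] at h2
    exact (Nat.pow_right_injective le_rfl (show (2 : ℕ) ^ 2 = 2 ^ blockDefect 2 B from h2)).symm
  have hdc : blockDefect 2 c = 2 := by
    have h2 := card_defectGroup hM hc.1 hcD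
    rw [hV'.card_four] at h2
    exact (Nat.pow_right_injective le_rfl (show (2 : ℕ) ^ 2 = 2 ^ blockDefect 2 c from h2)).symm
  obtain ⟨I, hI⟩ := KP.exists_bijOn hkB hkc
  rcases h1 with h1 | h1
  · rw [h1] at hrB hrc
    refine ⟨I, fun _ => 1, hI, fun _ _ => Or.inl rfl, ?_⟩
    exact KP.perfect_one hM (KP.kleinOne_of hM hB hkB hrB hdB hSGB) (KP.kleinOne_of hM hc.1 hkc hrc hdc hSGc) hkc hI
  · rw [h1] at hrB hrc
    obtain ⟨z, hz⟩ := KP.kleinThree_of hM hB hkB hrB hSGB
    obtain ⟨z', hz'⟩ := KP.kleinThree_of hM hc.1 hkc hrc hSGc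
    refine ⟨I, fun η => z' η * z (I η), hI, fun η hη => ?_, KP.perfect_three hM hz hz' hkc hI⟩
    rcases hz'.sign η hη with h | h <;> rcases hz.sign _ (hI.1 hη) with h' | h' <;> simp [h, h']

end Cfsg.Agent.S4638
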