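import Cfsg.Statements.S4645
import Cfsg.Agent.Lib.H8Group.AbelianNil
import Cfsg.Agent.Lib.Blocks.AbelianFree
import Cfsg.Agent.S4633
import Cfsg.Agent.S4650

set_option autoImplicit false
open Cfsg

namespace Cfsg.Agent.S4645

open Cfsg.Agent.Lib.Char Cfsg.Agent.Lib.H8Group Cfsg.Agent.Lib.Blocks

/-- Let B be a block of the finite group G relative to a maximal ideal M of the algebraic integers containing the prime p, with a nontrivial cyclic defect group P; let c be a block of C_G(P) inducing B and T the stabilizer of c in N_G(P). Let Q be a nontrivial subgroup of P (so C_G(P) ≤ C_G(Q)), f the block of C_G(Q) induced by c inside C_G(Q), and T' the stabilizer of f in N_G(Q). Then T' = T·C_G(Q), the index of C_G(Q) in T' equals the index of C_G(P) in T, f has p-regular rank 1, and f is a nilpotent block of C_G(Q). -/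
theorem result {G : Type*} [Group G] [Finite G] (p : ℕ) [Fact p.Prime] (M : Ideal Cfsg.AlgInt) (hM : Cfsg.IsPModular p M) (B : Set (Cfsg.IrrCharacter G)) (hB : Cfsg.IsPBlock M B) (P : Subgroup G) (hPD : Cfsg.IsDefectGroup p M B P) (hP1 : P ≠ ⊥) (hcyc : IsCyclic P) (c : Set (Cfsg.IrrCharacter (Subgroup.centralizer (P : Set G)))) (hc : Cfsg.IsInducedBlock M (Subgroup.centralizer (P : Set G)) c B) (T : Subgroup G) (hT : ∀ g : G, g ∈ T ↔ (g ∈ Subgroup.normalizer (P : Set G) ∧ Cfsg.StabilizesBlock (Subgroup.centralizer (P : Set G)) c g)) (Q : Subgroup G) (hQP : Q ≤ P) (hQ1 : Q ≠ ⊥) (f : Set (Cfsg.IrrCharacter (Subgroup.centralizer (Q : Set G)))) (hf : Cfsg.IsInducedBlockIn M (Subgroup.centralizer (Q : Set G)) (Subgroup.centralizer (P : Set G)) c f) (T' : Subgroup G) (hT' : ∀ g : G, g ∈ T' ↔ (g ∈ Subgroup.normalizer (Q : Set G) ∧ Cfsg.StabilizesBlock (Subgroup.centralizer (Q : Set G)) f g)) : T' = T ⊔ Subgroup.centralizer (Q : Set G) ∧ (Subgroup.centralizer (Q : Set G)).relIndex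 T' = (Subgroup.centralizer (P : Set G)).relIndex T ∧ Cfsg.blockRank p f = 1 ∧ Cfsg.IsNilpotentBlock p M f := by
  classical
  cases nonempty_fintype G
  have := isPrime_of_modular hM
  have hPp : IsPGroup p P := IsDefectGroup.isPGroup hPD
  letI : Fintype (Subgroup.centralizer (P : Set G)) := Fintype.ofFinite _
  have hcb : Cfsg.IsBrauerPairOf p M B P c := (isBrauerPairOf_iff hM hPp hc.1).mpr hc
  have hmax := isMaximalBrauerPair_of_defect hM hcb hPD
  have hPe := hmax.1.1
  have hab : ∀ x ∈ P, ∀ y ∈ P, x * y = y * x := by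
    intro x hx y hy
    haveI := hcyc
    have h := mul_comm' (⟨x, hx⟩ : P) ⟨y, hy⟩
    exact congrArg Subtype.val h
  haveI hn : ((Subgroup.centralizer (P : Set G)).subgroupOf T).Normal := by
    refine ⟨fun z hz t => ?_⟩
    rw [Subgroup.mem_subgroupOf] at hz ⊢
    exact conj_mem_centralizer ((hT t).mp t.2).1 hz
  have hfree := (Cfsg.Agent.S4633.result p M hM B hB P hPD hP1 hcyc c hc T hT).2.2
  letI : Fintype (Subgroup.centralizer (Q : Set G)) := Fintype.ofFinite _
  letI : Fintype (Subgroup.centralizer ((P.subgroupOf (Subgroup.centralizer (Q : Set G)) : Subgroup _) :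
    Set (Subgroup.centralizer (Q : Set G)))) := Fintype.ofFinite _
  obtain ⟨hcd, hle, hmax'⟩ := isMaximalBrauerPair_in_centralizer hM hmax hab hQP hf
  have hnil : Cfsg.IsNilpotentBlock p M f :=
    (Cfsg.Agent.S4650.result p M hM B hB P hPD hab hP1 c hc T hT).mp hfree Q hQP hQ1 f hf
  have hD' := isDefectGroup_of_isMaximalBrauerPair hM hmax'
  have hab' : ∀ x ∈ P.subgroupOf (Subgroup.centralizer (Q : Set G)),
      ∀ y ∈ P.subgroupOf (Subgroup.centralizer (Q : Set G)), x * y = y * x := by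
    intro x hx y hy
    apply Subtype.ext
    exact hab _ (Subgroup.mem_subgroupOf.mp hx) _ (Subgroup.mem_subgroupOf.mp hy)
  have hl := (nilpotent_abelian_aux hM _ _ rfl f _ hnil hD' hab').1
  -- `T` normalizes `Q`
  have hTN : ∀ y ∈ T, conjS y Q = Q := by
    intro y hy
    have hyN := ((hT y).mp hy).1
    obtain ⟨g, hg⟩ := (IsCyclic.exists_generator : ∃ g : P, ∀ x, x ∈ Subgroup.zpowers g)
    have h1 : y * (g : G) * y⁻¹ ∈ P := (Subgroup.mem_normalizer_iff.mp hyN _).mp g.2
    obtain ⟨k, hk⟩ := Subgroup.mem_zpowers_iff.mp (hg ⟨_, h1⟩)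
    have hk' : (g : G) ^ k = y * (g : G) * y⁻¹ := congrArg Subtype.val hk
    have h2 : conjS y Q ≤ Q := by
      rintro _ ⟨z, hz, rfl⟩
      show y * z * y⁻¹ ∈ Q
      obtain ⟨m, hm⟩ := Subgroup.mem_zpowers_iff.mp (hg ⟨z, hQP hz⟩)
      have hm' : (g : G) ^ m = z := congrArg Subtype.val hm
      have h3 : y * z * y⁻¹ = z ^ k := by
        rw [← hm', ← zpow_mul, mul_comm m k, zpow_mul, hk', conj_zpow]
      rw [h3]
      exact Subgroup.zpow_mem _ hz _
    exact Subgroup.eq_of_le_of_card_ge h2 (by rw [card_conjS])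
  have hTT' : T ≤ T' := by
    intro y hy
    obtain ⟨hyN, hys⟩ := (hT y).mp hy
    have hyP := conjS_eq_of_mem_normalizer hyN
    have he := conjB_eq_of_stabilizes hM hyP hPe.2 hys
    have h1 := conjB_eq_of_stab hM hPe hyP he (hTN y hy) hle hle
    exact (hT' y).mpr ⟨mem_normalizer_of_conjS_eq (hTN y hy), stabilizes_of_conjB_eq (hTN y hy) h1⟩
  have hCT' : Subgroup.centralizer (Q : Set G) ≤ T' := fun z hz =>
    (hT' z).mpr ⟨Subgroup.centralizer_le_normalizer _ hz, stabilizes_of_mem_centralizer _ f hz⟩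
  obtain ⟨hfirst, hidx⟩ := stabilizer_of_abelian hM hmax hab hf.2.1 hle hT' hT
  have hTNQ : T ⊓ Subgroup.normalizer (Q : Set G) = T := by
    apply inf_eq_left.mpr
    intro y hy
    exact mem_normalizer_of_conjS_eq (hTN y hy)
  have hTCQ : T ⊓ Subgroup.centralizer (Q : Set G) = Subgroup.centralizer (P : Set G) := by
    apply le_antisymm
    · rintro y ⟨hy, hyC⟩
      obtain ⟨z, hz, hz1⟩ : ∃ z ∈ Q, z ≠ 1 := by
        by_contra h
        push Not at h
        exact hQ1 ((Subgroup.eq_bot_iff_forall Q).mpr h)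
      refine hfree y hy z (hQP hz) hz1 ?_
      have h2 := Subgroup.mem_centralizer_iff.mp hyC z hz
      rw [← h2, mul_inv_cancel_right]
    · intro z hz
      refine ⟨(hT z).mpr ⟨Subgroup.centralizer_le_normalizer _ hz, stabilizes_of_mem_centralizer _ c hz⟩, ?_⟩
      exact Subgroup.centralizer_le hQP hz
  refine ⟨?_, ?_, hl, hnil⟩
  · apply le_antisymm
    · intro x hx
      obtain ⟨y, hy, z, hz, rfl⟩ := hfirst x hx
      exact Subgroup.mul_mem_sup hy hz
    · exact sup_le hTT' hCT'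
  · show ((Subgroup.centralizer (Q : Set G)).subgroupOf T').index = _
    rw [hidx]
    show (T ⊓ Subgroup.centralizer (Q : Set G)).relIndex (T ⊓ Subgroup.normalizer (Q : Set G)) = _
    rw [hTNQ, hTCQ]

end Cfsg.Agent.S4645
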