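import Cfsg.Statements.S4649
import Mathlib
import Cfsg.Agent.Lib.LocalAlg.CycDefect
import Cfsg.Agent.S4645
import Cfsg.Agent.S4637
import Cfsg.Agent.Lib.Blocks.AbelianFree
import Cfsg.Agent.Lib.H8Group.AbelianNil

set_option autoImplicit false
open Cfsg

namespace Cfsg.Agent.S4649

open Cfsg.Agent.Lib.Char Cfsg.Agent.Lib.H8Group Cfsg.Agent.Lib.Blocks

/-- A cyclic defect group with `k(B) = |P|`, `l(B) = 1` is centralized by the inertial group. -/
theorem cyclic_case {G : Type*} [Group G] [Fintype G] (p : ℕ) [hp : Fact p.Prime] (M : Ideal Cfsg.AlgInt) (hM : Cfsg.IsPModular p M)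
    (B : Set (Cfsg.IrrCharacter G)) (hB : Cfsg.IsPBlock M B) (P : Subgroup G)
    (c : Set (Cfsg.IrrCharacter (Subgroup.centralizer (P : Set G)))) (hmax : IsMaximalBrauerPair p M B P c)
    (hab : ∀ x ∈ P, ∀ y ∈ P, x * y = y * x)
    (hcyc : IsCyclic P) (hl : Cfsg.blockRank p B = 1) (hk : Nat.card P ≤ Nat.card B) :
    ∀ x : G, x ∈ Subgroup.normalizer (P : Set G) → StabilizesBlock (Subgroup.centralizer (P : Set G)) c x →
      x ∈ Subgroup.centralizer (P : Set G) := by
  classical
  have := isPrime_of_modular hM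
  have hPD := isDefectGroup_of_isMaximalBrauerPair hM hmax
  have hPp : IsPGroup p P := IsDefectGroup.isPGroup hPD
  letI : Fintype (Subgroup.centralizer (P : Set G)) := Fintype.ofFinite _
  have hPe := hmax.1.1
  have hcB : IsPBlock M c := hPe.2
  have hc : IsInducedBlock M (Subgroup.centralizer (P : Set G)) c B := (isBrauerPairOf_iff hM hPp hcB).mp hmax.1
  let T : Subgroup G := stabOfBlock P c
  have hT : ∀ g : G, g ∈ T ↔ (g ∈ Subgroup.normalizer (P : Set G) ∧ StabilizesBlock (Subgroup.centralizer (P : Set G)) c g) :=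
    fun y => Iff.rfl
  have hTN : ∀ t ∈ T, ∀ v ∈ P, t * v * t⁻¹ ∈ P := by
    intro t ht v hv
    have h1 := ((hT t).mp ht).1
    exact (Subgroup.mem_normalizer_iff.mp h1 v).mp hv
  have hzP : ∀ u ∈ P, Subgroup.zpowers u ≤ P := fun u hu => by
    rw [Subgroup.zpowers_le]
    exact hu
  have hexf : ∀ u : G, ∃ f : Set (IrrCharacter (Subgroup.centralizer ((Subgroup.zpowers u : Subgroup G) : Set G))),
      u ∈ P → SubpairLE p M (Subgroup.zpowers u) f P c := by
    intro u
    by_cases hu : u ∈ P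
    · obtain ⟨f, -, hf⟩ := exists_subpairLE hM hPe _ (hzP u hu)
      exact ⟨f, fun _ => hf⟩
    · exact ⟨∅, fun h => absurd h hu⟩
  choose f hf using hexf
  letI : ∀ u : G, Fintype (Subgroup.centralizer ((Subgroup.zpowers u : Subgroup G) : Set G)) := fun _ => Fintype.ofFinite _
  -- orbit representatives
  let r : Setoid G :=
    { r := fun v w => ∃ t ∈ T, t * v * t⁻¹ = w
      iseqv :=
        { refl := fun v => ⟨1, T.one_mem, by simp⟩
          symm := by
            rintro v w ⟨t, ht, rfl⟩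
            exact ⟨t⁻¹, T.inv_mem ht, by group⟩
          trans := by
            rintro v w z ⟨t, ht, rfl⟩ ⟨s, hs, rfl⟩
            exact ⟨s * t, T.mul_mem hs ht, by group⟩ } }
  let rep : G → G := fun v => (Quotient.mk r v).out
  have hrep : ∀ v, ∃ t ∈ T, t * v * t⁻¹ = rep v := fun v => r.symm (Quotient.mk_out (s := r) v)
  have hrep2 : ∀ v w, (∃ t ∈ T, t * v * t⁻¹ = w) → rep v = rep w := fun v w h =>
    congrArg Quotient.out (Quotient.sound (s := r) h)
  let PF : Finset G := Finset.univ.filter (· ∈ P)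
  have hPF : ∀ v, v ∈ PF ↔ v ∈ P := fun v => by simp [PF]
  let U : Finset G := PF.image rep
  have hUP : ∀ u ∈ U, u ∈ P := by
    intro u hu
    obtain ⟨w, hw, rfl⟩ := Finset.mem_image.mp hu
    obtain ⟨t, ht, h⟩ := hrep w
    rw [← h]
    exact hTN t ht w ((hPF w).mp hw)
  have hU : ∀ v ∈ P, ∃! u, u ∈ U ∧ ∃ t ∈ T, t * v * t⁻¹ = u := by
    intro v hv
    refine ⟨rep v, ⟨Finset.mem_image_of_mem _ ((hPF v).mpr hv), hrep v⟩, ?_⟩
    rintro w ⟨hw, t, ht, rfl⟩
    obtain ⟨v', hv', hv'w⟩ := Finset.mem_image.mp hw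
    have h1 : rep v = rep (t * v * t⁻¹) := hrep2 _ _ ⟨t, ht, rfl⟩
    have h3 : rep v' = rep (rep v') := hrep2 _ _ (hrep v')
    rw [hv'w] at h3
    rw [h1]
    exact h3
  have hcount := card_block_eq_sum_orbits f hM hmax hab hT hf U hUP hU
  have hpair : ∀ u ∈ P, IsBrauerPairOf p M B (Subgroup.zpowers u) (f u) := fun u hu =>
    (isBrauerPairOf_iff_of_chain hM (hf u hu) hB).mp hmax.1
  have hfB : ∀ u ∈ P, IsPBlock M (f u) := fun u hu => isPBlock_of_subpairLE hM hPe (hf u hu)
  have hone : blockRank p (f 1) = blockRank p B := by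
    have h1 : Subgroup.centralizer ((Subgroup.zpowers (1 : G) : Subgroup G) : Set G) = ⊤ := by
      rw [centralizer_zpowers_eq, eq_top_iff]
      intro z _
      rw [Subgroup.mem_centralizer_singleton_iff]
      simp
    exact blockRank_of_eq_top hM h1 ((isBrauerPairOf_iff hM (hpair 1 P.one_mem).1.1 (hfB 1 P.one_mem)).mp (hpair 1 P.one_mem))
  have hrank : ∀ u ∈ P, blockRank p (f u) = 1 := by
    intro u hu
    by_cases hu1 : u = 1
    · subst hu1
      rw [hone, hl]
    have hQP := hzP u hu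
    have hQ1 : Subgroup.zpowers u ≠ ⊥ := fun h => hu1 (Subgroup.zpowers_eq_bot.mp h)
    have hP1 : P ≠ ⊥ := fun h => hQ1 (le_bot_iff.mp (h ▸ hQP))
    letI : Fintype (Subgroup.centralizer ((P.subgroupOf (Subgroup.centralizer ((Subgroup.zpowers u : Subgroup G) : Set G)) : Subgroup _) : Set (Subgroup.centralizer ((Subgroup.zpowers u : Subgroup G) : Set G)))) := Fintype.ofFinite _
    have hPW := cenData_of_abelian hQP hab
    have hcd0 : CenData (P.subgroupOf (Subgroup.centralizer ((Subgroup.zpowers u : Subgroup G) : Set G))) P :=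
      cenData_of_le le_rfl hPW hQP
    obtain ⟨f', hf'⟩ := exists_isInducedBlock_cent hM (isPGroup_subgroupOf hPp _)
      (isPBlock_transBlock (cenTrans hcd0) hc.1)
    have hfIn := in_of_isInducedBlock hcd0 hc.1 hf'
    obtain ⟨hcd, hle, hmax'⟩ := isMaximalBrauerPair_in_centralizer hM hmax hab hQP hfIn
    have hff' : f u = f' := subpairLE_unique hM hPe _ hQP _ _ (hf u hu) hle
    rw [hff']
    exact (Cfsg.Agent.S4645.result p M hM B hB P hPD hP1 hcyc c hc T hT _ hQP hQ1 f' hfIn
      (stabOfBlock (Subgroup.zpowers u) f') (fun y => Iff.rfl)).2.2.1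
  have hUcard : Nat.card B = U.card := by
    rw [hcount, Finset.sum_congr rfl fun u hu => hrank u (hUP u hu)]
    simp
  have hPcard : Nat.card P = PF.card := Nat.subtype_card PF hPF
  have hUeq : U = PF := by
    refine Finset.eq_of_subset_of_card_le (fun u hu => (hPF u).mpr (hUP u hu)) ?_
    rw [← hPcard, ← hUcard]
    exact hk
  intro x hxN hxs
  have hxT : x ∈ T := (hT x).mpr ⟨hxN, hxs⟩
  rw [Subgroup.mem_centralizer_iff]
  intro v hv
  have hv' : v ∈ P := hv
  obtain ⟨u, -, huq⟩ := hU v hv'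
  have h1 : v = u := huq v ⟨by rw [hUeq]; exact (hPF v).mpr hv', 1, T.one_mem, by simp⟩
  have h2 : x * v * x⁻¹ = u := huq _ ⟨by rw [hUeq]; exact (hPF _).mpr (hTN x hxT v hv'), x, hxT, rfl⟩
  rw [← h1] at h2
  calc v * x = (x * v * x⁻¹) * x := by rw [h2]
    _ = x * v := by group

/-- A block with cyclic defect group, of a finite group relative to a maximal ideal M of the algebraic integers containing the prime p, is nilpotent if and only if its p-regular rank is 1 (it has a unique irreducible Brauer character). -/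
theorem result {G : Type*} [Group G] [Finite G] (p : ℕ) [Fact p.Prime] (M : Ideal Cfsg.AlgInt) (hM : Cfsg.IsPModular p M) (B : Set (Cfsg.IrrCharacter G)) (hB : Cfsg.IsPBlock M B) (P : Subgroup G) (hPD : Cfsg.IsDefectGroup p M B P) (hcyc : IsCyclic P) : Cfsg.IsNilpotentBlock p M B ↔ Cfsg.blockRank p B = 1 := by
  classical
  cases nonempty_fintype G
  have := isPrime_of_modular hM
  have hab : ∀ x ∈ P, ∀ y ∈ P, x * y = y * x := by
    intro x hx y hy
    have h1 := (IsCyclic.commutative (α := P)).is_comm.comm ⟨x, hx⟩ ⟨y, hy⟩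
    exact congrArg Subtype.val h1
  constructor
  · intro hnil
    exact (nilpotent_abelian_aux hM _ G rfl B P hnil hPD hab).1
  · intro hl
    obtain ⟨P', c, hmax⟩ := exists_isMaximalBrauerPair hM hB
    have hPD' := isDefectGroup_of_isMaximalBrauerPair hM hmax
    obtain ⟨t, ht⟩ := IsDefectGroup.exists_conj_eq hM hB hPD hPD'
    have hcyc' : IsCyclic P' := by
      rw [ht]
      exact isCyclic_of_surjective (MonoidHom.subgroupMap _ P) (MonoidHom.subgroupMap_surjective _ P)
    have hab' : ∀ x ∈ P', ∀ y ∈ P', x * y = y * x := by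
      intro x hx y hy
      have h1 := (IsCyclic.commutative (α := P')).is_comm.comm ⟨x, hx⟩ ⟨y, hy⟩
      exact congrArg Subtype.val h1
    have hk := Cfsg.Agent.Lib.LocalAlg.card_defect_le_card_of_cyclic hM hB hPD' hcyc' hl
    exact (isNilpotentBlock_iff_of_abelian hM hmax hab').mpr (cyclic_case p M hM B hB P' c hmax hab' hcyc' hl hk)

end Cfsg.Agent.S4649
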