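import Cfsg.Statements.S4651
import Cfsg.Agent.Lib.H8Group.ChainBlocks

set_option autoImplicit false
open Cfsg

namespace Cfsg.Agent.S4651

open Cfsg.Agent.Lib.Char Cfsg.Agent.Lib.H8Group Cfsg.Agent.Lib.Blocks

/-- An alternating-sum identity over chains of p-subgroups (the character-count form behind the chain reformulation of Alperin's weight conjecture, which holds unconditionally for the difference k − l). Let b be a block of the finite group G relative to a maximal ideal M of the algebraic integers containing the prime p. Consider the nonempty chains s = {Q_0 < Q_1 < ⋯ < Q_m} of nontrivial p-subgroups of G in which every member is normal in the largest member; let N_G(s) be the intersection of the normalizers of the members (the stabilizer of the chain), and let b_s be the set of irreducible characters of N_G(s) lying in blocks of N_G(s) that induce b. Then #G · (k(b) − l(b)) equals the sum over all such chains s of (−1)^m · #N_G(s) · (k(b_s)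 − l(b_s)), where k counts irreducible characters and l is the p-regular rank; equivalently, k(b) − l(b) is the alternating sum of k(b_s) − l(b_s) over representatives of the conjugacy classes of such chains. -/
theorem result {G : Type*} [Group G] [Finite G] (p : ℕ) [Fact p.Prime] (M : Ideal Cfsg.AlgInt) (hM : Cfsg.IsPModular p M) (b : Set (Cfsg.IrrCharacter G)) (hb : Cfsg.IsPBlock M b) : (Nat.card G : ℤ) * ((Nat.card b : ℤ) - (Cfsg.blockRank p b : ℤ)) = ∑ᶠ s ∈ {s : Finset (Subgroup G) | s.Nonempty ∧ (∀ Q ∈ s, ∀ R ∈ s, Q ≤ R ∨ R ≤ Q) ∧ (∀ Q ∈ s, Q ≠ ⊥ ∧ IsPGroup p Q) ∧ ∃ T ∈ s, ∀ Q ∈ s, Q ≤ T ∧ T ≤ Subgroup.normalizer ((Q : Subgroup G) : Set G)}, (-1 : ℤ) ^ (s.card - 1) * (Nat.card (((⨅ Q ∈ s, Subgroup.normalizer ((Q : Subgroup G) : Set G) : Subgroup G))) : ℤ) * ((Nat.card {ψ : Cfsg.IrrCharacter (((⨅ Q ∈ s, Subgroup.normalizer ((Q : Subgroup G) : Set G) : Subgroup G))) | ∃ β : Set (Cfsg.IrrCharacter (((⨅ Q ∈ s, Subgroup.normalizer ((Q : Subgroup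 G) : Set G) : Subgroup G)))), ψ ∈ β ∧ Cfsg.IsInducedBlock M (((⨅ Q ∈ s, Subgroup.normalizer ((Q : Subgroup G) : Set G) : Subgroup G))) β b} : ℤ) - (Cfsg.blockRank p {ψ : Cfsg.IrrCharacter (((⨅ Q ∈ s, Subgroup.normalizer ((Q : Subgroup G) : Set G) : Subgroup G))) | ∃ β : Set (Cfsg.IrrCharacter (((⨅ Q ∈ s, Subgroup.normalizer ((Q : Subgroup G) : Set G) : Subgroup G)))), ψ ∈ β ∧ Cfsg.IsInducedBlock M (((⨅ Q ∈ s, Subgroup.normalizer ((Q : Subgroup G) : Set G) : Subgroup G))) β b} : ℤ)) := by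
  classical
  letI : Fintype G := Fintype.ofFinite _
  letI : Fintype (Subgroup G) := Fintype.ofFinite _
  have hfin : Fintype (Finset (Subgroup G)) := inferInstance
  let F : Finset (Finset (Subgroup G)) := Finset.univ.filter (fun s => NChain.DChain p ⊥ s)
  have hF : ∀ s, s ∈ F ↔ NChain.DChain p ⊥ s := fun s => by simp [F]
  have hset : {s : Finset (Subgroup G) | s.Nonempty ∧ (∀ Q ∈ s, ∀ R ∈ s, Q ≤ R ∨ R ≤ Q) ∧ (∀ Q ∈ s, Q ≠ ⊥ ∧ IsPGroup p Q) ∧ ∃ T ∈ s, ∀ Q ∈ s, Q ≤ T ∧ T ≤ Subgroup.normalizer ((Q : Subgroup G) : Set G)} = (F : Set (Finset (Subgroup G))) := by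
    ext s
    rw [Finset.mem_coe, hF]
    constructor
    · rintro ⟨h1, h2, h3, h4⟩
      exact ⟨h1, h2, h3, h4, fun _ _ => bot_le⟩
    · intro h
      exact ⟨h.ne, h.chain, h.good, h.top⟩
  rw [hset, finsum_mem_coe_finset, sub_formula_group hM hb]
  have hterm : ∀ s ∈ F, (-1 : ℤ) ^ (s.card - 1) * (Nat.card (((⨅ Q ∈ s, Subgroup.normalizer ((Q : Subgroup G) : Set G) : Subgroup G))) : ℤ) * ((Nat.card {ψ : Cfsg.IrrCharacter (((⨅ Q ∈ s, Subgroup.normalizer ((Q : Subgroup G) : Set G) : Subgroup G))) | ∃ β : Set (Cfsg.IrrCharacter (((⨅ Q ∈ s, Subgroup.normalizer ((Q : Subgroup G) : Set G) : Subgroup G)))), ψ ∈ β ∧ Cfsg.IsInducedBlock M (((⨅ Q ∈ s, Subgroup.normalizer ((Q : Subgroup G) : Set G) : Subgroup G))) β b} : ℤ) - (Cfsg.blockRank p {ψ : Cfsg.IrrCharacter (((⨅ Q ∈ s, Subgroup.normalizer ((Q : Subgroup G) : Set G) : Subgroup G))) | ∃ β : Set (Cfsg.IrrCharacter (((⨅ Q ∈ s, Subgroup.normalizer ((Q : Subgroup G) : Set G) : Subgroup G)))), ψ ∈ β ∧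 Cfsg.IsInducedBlock M (((⨅ Q ∈ s, Subgroup.normalizer ((Q : Subgroup G) : Set G) : Subgroup G))) β b} : ℤ)) =
      ∑ u ∈ (Finset.univ.filter (fun u : G => u ≠ 1 ∧ ∃ k, orderOf u = p ^ k)).filter (fun u => u ∈ NChain.Nrm s),
        (-1 : ℤ) ^ (s.card - 1) * Wt M p b (NChain.Nrm s ⊓ Subgroup.centralizer ({u} : Set G)) := by
    intro s _
    have h1 := sub_formula_subgroup hM (NChain.Nrm s) b
    have h2 : (Finset.univ.filter (fun u : G => u ≠ 1 ∧ ∃ k, orderOf u = p ^ k)).filter (fun u => u ∈ NChain.Nrm s) =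
        Finset.univ.filter (fun u : G => u ≠ 1 ∧ (∃ k, orderOf u = p ^ k) ∧ u ∈ NChain.Nrm s) := by
      ext u
      simp only [Finset.mem_filter, Finset.mem_univ, true_and, and_assoc]
    rw [h2, ← Finset.mul_sum, ← h1, mul_assoc]
    rfl
  rw [Finset.sum_congr rfl hterm]
  rw [Finset.sum_comm' (s' := fun u => F.filter (fun s => u ∈ NChain.Nrm s))
    (t' := Finset.univ.filter (fun u : G => u ≠ 1 ∧ ∃ k, orderOf u = p ^ k))]
  · refine Finset.sum_congr rfl fun u hu => ?_
    obtain ⟨hu1, hup⟩ := (Finset.mem_filter.mp hu).2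
    refine (NChain.sum_inversion (p := p) hu1 (isPGroup_zpowers hup) (C := Subgroup.centralizer ({u} : Set G))
      (Subgroup.mem_centralizer_singleton_iff.mpr rfl) (fun c hc => Subgroup.mem_centralizer_singleton_iff.mp hc)
      F hF (Wt M p b)).symm
  · intro s u
    simp only [Finset.mem_filter]
    tauto

end Cfsg.Agent.S4651
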