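import Cfsg.Statements.S4730
import Cfsg.Agent.Lib.Char.PBlock
import Cfsg.Agent.Lib.Char.Burnside
import Cfsg.Agent.Lib.Char.Values

set_option autoImplicit false
open Cfsg

namespace Cfsg.Agent.S4730

open Cfsg.Agent.Lib.Char Cfsg.Agent.Lib.Blocks
open scoped ComplexConjugate

section

variable {G : Type*} [Group G] [Fintype G]

/-- A faithful irreducible character has `|χ(g)| = χ(1)` only at central elements. -/
theorem mem_center_of_norm_eq {χ : G → ℂ} (hχ : Cfsg.IsIrrCharacter G χ)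
    (hfaith : ∀ g : G, χ g = χ 1 → g = 1) {g : G} (hg : ‖χ g‖ = (Cfsg.charDegree χ : ℝ)) :
    g ∈ Subgroup.center G := by
  obtain ⟨n, ρ, hirr, rfl⟩ := id hχ
  have hd : ρ.character 1 = (Cfsg.charDegree ρ.character : ℂ) :=
    apply_one_eq_charDegree (IsIrrCharacter.isCharacter hχ)
  have hfin : Module.finrank ℂ (Fin n → ℂ) = Cfsg.charDegree ρ.character := by
    have h2 : ρ.character 1 = (Module.finrank ℂ (Fin n → ℂ) : ℂ) := Representation.char_one ρ
    rw [hd] at h2
    exact_mod_cast h2.symm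
  have h1 : ‖ρ.character g‖ = (Module.finrank ℂ (Fin n → ℂ) : ℝ) := by
    rw [hfin]
    exact hg
  obtain ⟨ω, hω⟩ := (norm_character_eq_finrank_iff ρ g).mp h1
  rw [Subgroup.mem_center_iff]
  intro x
  have h2 : ρ (x * g * x⁻¹ * g⁻¹) = 1 := by
    have h3 : ρ g * ρ g⁻¹ = 1 := by rw [← map_mul]; simp
    have h4 : ρ x * ρ x⁻¹ = 1 := by rw [← map_mul]; simp
    have h5 : ρ (x * g * x⁻¹) = ρ g := by
      rw [map_mul, map_mul, hω]
      have h6 : ρ x * (ω • (LinearMap.id : (Fin n → ℂ) →ₗ[ℂ] (Fin n → ℂ))) * ρ x⁻¹ = ω • (ρ x * ρ x⁻¹) := by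
        ext v i
        simp
      rw [h6, h4]
      rfl
    rw [map_mul, h5, h3]
  have h3 : ρ.character (x * g * x⁻¹ * g⁻¹) = ρ.character 1 := by
    show LinearMap.trace ℂ _ (ρ (x * g * x⁻¹ * g⁻¹)) = LinearMap.trace ℂ _ (ρ 1)
    rw [h2, map_one ρ]
  have h4 := hfaith _ h3
  have h5 : x * g * x⁻¹ = g := by
    calc x * g * x⁻¹ = (x * g * x⁻¹ * g⁻¹) * g := by group
      _ = g := by rw [h4, one_mul]
  calc x * g = (x * g * x⁻¹) * x := by group
    _ = g * x := by rw [h5]

end

/-- Let p be a prime, M a maximal ideal of the algebraic integers containing p, and G a finite group with trivial centre, Sylow p-subgroup P of order p^a and centre Z(P) of order p^b. If χ is a faithful irreducible character of G whose degree is a power of p, then the p-block of χ has defect at most a − b; in particular, if P is abelian then χ lies in a block of defect zero. -/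
theorem result {G : Type*} [Group G] [Finite G] (p : ℕ) [Fact p.Prime] (M : Ideal Cfsg.AlgInt) (hM : Cfsg.IsPModular p M) (hZ : Subgroup.center G = ⊥) (P : Sylow p G) (a b : ℕ) (ha : Nat.card P = p ^ a) (hb : Nat.card (Subgroup.center ↥(P : Subgroup G)) = p ^ b) (χ : Cfsg.IrrCharacter G) (hfaith : ∀ g : G, (χ : G → ℂ) g = (χ : G → ℂ) 1 → g = 1) (n : ℕ) (hdeg : Cfsg.charDegree (χ : G → ℂ) = p ^ n) : Cfsg.blockDefect p (Cfsg.blockOf M (χ : G → ℂ)) ≤ a - b ∧ (IsMulCommutative ↥(P : Subgroup G) → Cfsg.blockDefect p (Cfsg.blockOf M (χ : G → ℂ)) = 0) := by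
  classical
  cases nonempty_fintype G
  haveI := isPrime_of_modular hM
  have hpp : p.Prime := Fact.out
  set B := Cfsg.blockOf M (χ : G → ℂ) with hB
  set Z : Subgroup G := (Subgroup.center ↥(P : Subgroup G)).map (P : Subgroup G).subtype with hZdef
  haveI : Fintype Z := Fintype.ofFinite _
  have hZcard : Nat.card Z = p ^ b := by
    rw [← hb]
    exact (Nat.card_congr (Subgroup.equivMapOfInjective _ _ Subtype.val_injective).toEquiv).symm
  have hGf : (Nat.card G).factorization p = a := by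
    have h1 := P.card_eq_multiplicity
    rw [ha] at h1
    exact (Nat.pow_right_injective hpp.two_le h1).symm
  -- `χ` vanishes on `Z ∖ 1`
  have hPcen : ∀ z ∈ Z, (P : Subgroup G) ≤ Subgroup.centralizer ({z} : Set G) := by
    rintro _ ⟨z, hz, rfl⟩ x hx
    rw [Subgroup.mem_centralizer_singleton_iff]
    have := (Subgroup.mem_center_iff.mp hz) ⟨x, hx⟩
    exact congrArg Subtype.val this
  have hidx : ∀ z ∈ Z, ¬ p ∣ (Subgroup.centralizer ({z} : Set G)).index := by
    intro z hz h1
    exact P.not_dvd_index (h1.trans (Subgroup.index_dvd_of_le (hPcen z hz)))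
  have hχz : ∀ z ∈ Z, z ≠ 1 → (χ : G → ℂ) z = 0 := by
    intro z hz hz1
    have hd := apply_one_eq_charDegree (IsIrrCharacter.isCharacter χ.2)
    have hcop : Nat.Coprime (Cfsg.charDegree (χ : G → ℂ)) (Subgroup.centralizer ({z} : Set G)).index := by
      rw [hdeg]
      exact Nat.Coprime.pow_left _ ((Nat.Prime.coprime_iff_not_dvd hpp).mpr (hidx z hz))
    rcases apply_eq_zero_or_norm_eq_of_coprime χ.2 hd z hcop with h1 | h1
    · exact h1
    · exfalso
      have h2 := mem_center_of_norm_eq χ.2 hfaith h1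
      rw [hZ] at h2
      exact hz1 ((Subgroup.mem_bot).mp h2)
  -- all members of the block have degree divisible by `p ^ b`
  have hkey : ∀ ψ ∈ B, p ^ b ∣ Cfsg.charDegree (ψ : G → ℂ) := by
    intro ψ hψ
    by_contra hnd
    have hψ0 := irr_apply_one_ne_zero ψ
    have hψz : ∀ z ∈ Z, z ≠ 1 → MemLocalIdeal M ((ψ : G → ℂ) z / (ψ : G → ℂ) 1) := by
      intro z hz hz1
      have h1 : MemLocalIdeal M (centralChar (χ : G → ℂ) z - centralChar (ψ : G → ℂ) z) := hψ z
      rw [centralChar, hχz z hz hz1, mul_zero, zero_div, zero_sub] at h1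
      have h2 := MemLocalIdeal.neg h1
      rw [neg_neg, centralChar] at h2
      have h3 : (ψ : G → ℂ) z / (ψ : G → ℂ) 1 = (((Subgroup.centralizer ({z} : Set G)).index : ℂ))⁻¹ *
          (((Subgroup.centralizer ({z} : Set G)).index : ℂ) * (ψ : G → ℂ) z / (ψ : G → ℂ) 1) := by
        have := natCast_ne_zero_of_not_dvd (hidx z hz)
        field_simp
      rw [h3]
      exact MemLocalIdeal.mul_left (inv_natCast_memLocalRing hM (hidx z hz)) h2
    -- the sum over `Z`
    have hres : Cfsg.IsCharacter Z (Cfsg.Agent.Lib.Char.resFun Z (ψ : G → ℂ)) :=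
      isCharacter_resFun _ (IsIrrCharacter.isCharacter ψ.2)
    obtain ⟨m, hm⟩ := IsCharacter.classInner_nat hres
      (IsIrrCharacter.isCharacter (isIrrCharacter_one (G := Z)))
    have hZ0 : (Nat.card Z : ℂ) ≠ 0 := by exact_mod_cast Nat.card_pos.ne'
    have hsum : ∑ z : Z, (ψ : G → ℂ) z = (Nat.card Z : ℂ) * m := by
      rw [← hm, Cfsg.classInner]
      simp only [Cfsg.Agent.Lib.Char.resFun, map_one, mul_one]
      field_simp
    have hdiv : (Nat.card Z : ℂ) * m / (ψ : G → ℂ) 1 = 1 +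
        ∑ z ∈ Finset.univ.erase (1 : Z), (ψ : G → ℂ) z / (ψ : G → ℂ) 1 := by
      rw [← hsum, Finset.sum_div, ← Finset.add_sum_erase _ _ (Finset.mem_univ (1 : Z))]
      simp [hψ0]
    have hε : MemLocalIdeal M (∑ z ∈ Finset.univ.erase (1 : Z), (ψ : G → ℂ) z / (ψ : G → ℂ) 1) := by
      refine MemLocalIdeal.sum _ fun z hz => ?_
      have hz1 : (z : G) ≠ 1 := fun h1 => (Finset.mem_erase.mp hz).1 (Subtype.ext h1)
      exact hψz z z.2 hz1
    obtain ⟨c, u, hu, hdegψ⟩ := Nat.exists_eq_pow_mul_and_not_dvd (charDegree_pos ψ.2).ne' p hpp.ne_one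
    have hcb : c < b := by
      by_contra hcb
      apply hnd
      rw [hdegψ]
      exact Dvd.dvd.mul_right (pow_dvd_pow p (not_lt.mp hcb)) _
    have hψ1 : (ψ : G → ℂ) 1 = ((p : ℂ) ^ c * (u : ℂ)) := by
      rw [apply_one_eq_charDegree (IsIrrCharacter.isCharacter ψ.2), hdegψ]
      push_cast
      ring
    have hp0 : (p : ℂ) ≠ 0 := by exact_mod_cast hpp.ne_zero
    have hu0 : (u : ℂ) ≠ 0 := natCast_ne_zero_of_not_dvd hu
    have hlhs : MemLocalIdeal M ((Nat.card Z : ℂ) * m / (ψ : G → ℂ) 1) := by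
      have h1 : (Nat.card Z : ℂ) * m / (ψ : G → ℂ) 1 = (p : ℂ) ^ (b - c) * ((m : ℂ) * (u : ℂ)⁻¹) := by
        rw [hψ1, hZcard]
        have h2 : (p : ℂ) ^ b = (p : ℂ) ^ (b - c) * (p : ℂ) ^ c := by
          rw [← pow_add]
          congr 1
          omega
        push_cast
        rw [h2]
        field_simp
      rw [h1]
      apply MemLocalIdeal.mul_right
      · exact MemLocalIdeal.pow (p_memLocalIdeal hM) (by omega)
      · exact MemLocalRing.mul (MemLocalRing.natCast m) (inv_natCast_memLocalRing hM hu)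
    rw [hdiv] at hlhs
    have h1 := MemLocalIdeal.sub hlhs hε
    rw [add_sub_cancel_right] at h1
    exact not_memLocalIdeal_one h1
  have hdefect : Cfsg.blockDefect p B ≤ a - b := by
    rw [Cfsg.blockDefect, hGf]
    apply Nat.sub_le_sub_left
    apply le_csInf
    · exact ⟨_, χ, self_mem_blockOf χ, rfl⟩
    · rintro _ ⟨ψ, hψ, rfl⟩
      exact (Nat.Prime.pow_dvd_iff_le_factorization hpp (charDegree_pos ψ.2).ne').mp (hkey ψ hψ)
  refine ⟨hdefect, fun hcomm => ?_⟩
  have htop : Subgroup.center ↥(P : Subgroup G) = ⊤ := by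
    rw [eq_top_iff]
    intro x _
    rw [Subgroup.mem_center_iff]
    intro y
    exact (hcomm.is_comm.comm y x)
  have hab : a = b := by
    have h1 : Nat.card ↥(P : Subgroup G) = Nat.card (Subgroup.center ↥(P : Subgroup G)) := by
      rw [htop]
      exact (Nat.card_congr Subgroup.topEquiv.toEquiv).symm
    have h2 : Nat.card ↥(P : Subgroup G) = p ^ a := ha
    rw [h2, hb] at h1
    exact Nat.pow_right_injective hpp.two_le h1
  rw [hab, Nat.sub_self] at hdefect
  exact Nat.le_zero.mp hdefect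

end Cfsg.Agent.S4730
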