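import Cfsg.Statements.S4741
import Cfsg.Agent.Lib.Blocks.Residue
import Cfsg.Agent.Lib.Char.ClassPair
import Cfsg.Agent.Lib.Blocks.Height

set_option autoImplicit false
open Cfsg

namespace Cfsg.Agent.S4741

open Cfsg.Agent.Lib.Char Cfsg.Agent.Lib.Blocks
open scoped ComplexConjugate

universe u

section Lin

variable {M : Ideal AlgInt} [M.IsPrime]

/-- A rectangular local matrix with a right inverse modulo the local ideal has a unimodular square
submatrix. -/
theorem exists_fin_unimodular {ι : Type*} [Fintype ι] {r : ℕ} (v Y : ι → Fin r → ℂ)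
    (hv : ∀ b i, MemLocalRing M (v b i)) (hY : ∀ b j, MemLocalRing M (Y b j)) (u : ℂ)
    (hu : MemLocalRing M u) (hu' : ¬ MemLocalIdeal M u)
    (h : ∀ i j, MemLocalIdeal M (∑ b, v b i * Y b j - if i = j then u else 0)) :
    ∃ f : Fin r → ι, Function.Injective f ∧ ∀ W : Matrix (Fin r) (Fin r) ℂ,
      (∀ s i, MemLocalRing M (W s i)) → (∀ s i, MemLocalIdeal M (W s i - v (f s) i)) →
        ¬ MemLocalIdeal M W.det := by
  classical
  letI : Field (locRing M ⧸ locMax M) := Ideal.Quotient.field _
  let q : locRing M →+* (locRing M ⧸ locMax M) := Ideal.Quotient.mk _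
  have hq : ∀ z, q z = 0 ↔ MemLocalIdeal M (z : ℂ) := fun z => Ideal.Quotient.eq_zero_iff_mem
  let w : ι → Fin r → (locRing M ⧸ locMax M) := fun b i => q ⟨v b i, hv b i⟩
  let u' : locRing M ⧸ locMax M := q ⟨u, hu⟩
  have hu0 : u' ≠ 0 := fun h0 => hu' ((hq _).mp h0)
  have hrel : ∀ j, ∑ b, q ⟨Y b j, hY b j⟩ • w b = u' • Pi.single j 1 := by
    intro j
    funext i
    simp only [Finset.sum_apply, Pi.smul_apply, smul_eq_mul, Pi.single_apply]
    have h1 : q (∑ b, (⟨v b i, hv b i⟩ : locRing M) * ⟨Y b j, hY b j⟩ -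
        if i = j then (⟨u, hu⟩ : locRing M) else 0) = 0 := by
      rw [hq]
      have h2 := h i j
      convert h2 using 1
      push_cast
      congr 1
      split_ifs <;> simp
    rw [map_sub, map_sum, sub_eq_zero] at h1
    simp only [map_mul] at h1
    have h3 : q (if i = j then (⟨u, hu⟩ : locRing M) else 0) = if i = j then u' else 0 := by
      split_ifs <;> simp [u']
    rw [h3] at h1
    rw [mul_ite, mul_one, mul_zero, ← h1]
    exact Finset.sum_congr rfl fun b _ => mul_comm _ _
  have hspan : Submodule.span (locRing M ⧸ locMax M) (Set.range w) = ⊤ := by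
    rw [eq_top_iff]
    intro z _
    have hz : z = ∑ j, z j • (Pi.single j 1 : Fin r → (locRing M ⧸ locMax M)) := by
      funext i
      simp [Finset.sum_apply, Pi.single_apply]
    rw [hz]
    refine Submodule.sum_mem _ fun j _ => Submodule.smul_mem _ _ ?_
    have h1 : (Pi.single j 1 : Fin r → (locRing M ⧸ locMax M)) = u'⁻¹ • (u' • Pi.single j 1) := by
      rw [smul_smul, inv_mul_cancel₀ hu0, one_smul]
    rw [h1, ← hrel j]
    refine Submodule.smul_mem _ _ (Submodule.sum_mem _ fun b _ => Submodule.smul_mem _ _ ?_)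
    exact Submodule.subset_span ⟨b, rfl⟩
  obtain ⟨κ, a, ha, hsp, hli⟩ := exists_linearIndependent' (locRing M ⧸ locMax M) w
  rw [hspan] at hsp
  haveI : Finite κ := hli.finite
  letI : Fintype κ := Fintype.ofFinite κ
  let bas := Module.Basis.mk hli hsp.ge
  have hcard : Fintype.card κ = Fintype.card (Fin r) := by
    have h1 := Module.finrank_eq_card_basis bas
    rw [Module.finrank_fin_fun] at h1
    rw [← h1]
    simp
  let e : Fin r ≃ κ := (Fintype.equivOfCardEq hcard).symm
  refine ⟨fun s => a (e s), ha.comp e.injective, ?_⟩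
  intro W hWl hWc hdet
  let A : Matrix (Fin r) (Fin r) (locRing M ⧸ locMax M) := Matrix.of fun s i => w (a (e s)) i
  have hAli : LinearIndependent (locRing M ⧸ locMax M) A.row := by
    have h1 := hli.comp e e.injective
    exact h1
  have hAu : IsUnit A := Matrix.linearIndependent_rows_iff_isUnit.mp hAli
  have hAdet : A.det ≠ 0 := ((Matrix.isUnit_iff_isUnit_det A).mp hAu).ne_zero
  let W' : Matrix (Fin r) (Fin r) (locRing M) := Matrix.of fun s i => ⟨W s i, hWl s i⟩
  have hW'A : (q.mapMatrix W') = A := by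
    ext s i
    simp only [RingHom.mapMatrix_apply, Matrix.map_apply, W', A, Matrix.of_apply, w]
    have h1 : q (⟨W s i, hWl s i⟩ - ⟨v (a (e s)) i, hv _ i⟩) = 0 := by
      rw [hq]
      exact hWc s i
    rw [map_sub, sub_eq_zero] at h1
    exact h1
  have hW'det : ((W'.det : locRing M) : ℂ) = W.det := by
    have h1 := RingHom.map_det (locRing M).subtype W'
    have h2 : (locRing M).subtype.mapMatrix W' = W := by
      ext s i
      simp [W']
    rw [h2] at h1
    exact h1
  apply hAdet
  rw [← hW'A, ← RingHom.map_det, hq, hW'det]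
  exact hdet

end Lin

section Main

variable {G : Type u} [Group G] [Fintype G]

theorem sum_classPairs_fixed (a b : G) (P : Subgroup G) [Fintype P] (n : IrrCharacter G → ℕ)
    (hn : ∀ χ : IrrCharacter G, ∑ y : P, conj ((χ : G → ℂ) y) = (Nat.card P : ℂ) * n χ) :
    ((∑ y : P, classPairs a b y : ℕ) : ℂ) =
      (classSize a : ℂ) * (classSize b : ℂ) / (Nat.card G : ℂ) * (Nat.card P : ℂ) *
      ∑ χ : IrrCharacter G, (n χ : ℂ) * ((χ : G → ℂ) a * (χ : G → ℂ) b) / (χ : G → ℂ) 1 := by
  classical
  push_cast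
  simp only [classPairs_eq]
  rw [← Finset.mul_sum, Finset.sum_comm, mul_assoc]
  congr 1
  rw [Finset.mul_sum]
  refine Finset.sum_congr rfl fun χ _ => ?_
  have h2 : ∀ y : P, (χ : G → ℂ) a * (χ : G → ℂ) b * conj ((χ : G → ℂ) y) / (χ : G → ℂ) 1 =
      (χ : G → ℂ) a * (χ : G → ℂ) b / (χ : G → ℂ) 1 * conj ((χ : G → ℂ) y) := by
    intro y; ring
  simp only [h2]
  rw [← Finset.mul_sum, hn]
  ring

theorem key_orth {p : ℕ} [hp : Fact p.Prime] {r : ℕ} (x : Fin r → G)
    (hx : ∀ i j : Fin r, IsConj (x i) (x j) → i = j)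
    (hsep : ∀ i j : Fin r, ∀ g h : G, IsConj (x i) g → IsConj (x j) h → ∀ k : ℕ, 0 < k →
      orderOf (g * h⁻¹) ≠ p ^ k)
    (P : Sylow p G) [Fintype (P : Subgroup G)] (n : IrrCharacter G → ℕ)
    (hn : ∀ χ : IrrCharacter G, ∑ y : (P : Subgroup G), conj ((χ : G → ℂ) y) =
      (Nat.card (P : Subgroup G) : ℂ) * n χ) (i j : Fin r) :
    ∑ χ : IrrCharacter G, (n χ : ℂ) * (centralChar (χ : G → ℂ) (x i) * (χ : G → ℂ) (x j)⁻¹) =
      if i = j then (((P : Subgroup G).index : ℕ) : ℂ) else 0 := by
  classical
  have hcount : (∑ y : (P : Subgroup G), classPairs (x i) (x j)⁻¹ (y : G)) =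
      if i = j then classSize (x i) else 0 := by
    rw [Finset.sum_eq_single (1 : (P : Subgroup G))]
    · show classPairs (x i) (x j)⁻¹ 1 = _
      split_ifs with hij
      · subst hij
        exact classPairs_one _
      · rw [classPairs, Nat.card_eq_zero]
        left
        constructor
        rintro ⟨⟨g, h⟩, hg, hh, hgh⟩
        simp only at hg hh hgh
        apply hij
        apply hx
        have h1 : h = g⁻¹ := eq_inv_of_mul_eq_one_right hgh
        have h2 : IsConj (x j)⁻¹⁻¹ g⁻¹⁻¹ := by
          apply isConj_inv_of_isConj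
          rw [← h1]
          exact hh
        rw [inv_inv, inv_inv] at h2
        exact hg.trans h2.symm
    · intro y _ hy
      rw [classPairs, Nat.card_eq_zero]
      left
      constructor
      rintro ⟨⟨g, h⟩, hg, hh, hgh⟩
      simp only at hg hh hgh
      obtain ⟨k, hk⟩ := (IsPGroup.iff_orderOf.mp P.isPGroup') y
      have hk0 : 0 < k := by
        rcases k.eq_zero_or_pos with rfl | h0
        · exfalso
          rw [pow_zero] at hk
          exact hy (orderOf_eq_one_iff.mp hk)
        · exact h0
      have hh' : IsConj (x j) h⁻¹ := by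
        have h2 := isConj_inv_of_isConj hh
        rwa [inv_inv] at h2
      apply hsep i j g h⁻¹ hg hh' k hk0
      rw [inv_inv, hgh, Subgroup.orderOf_coe, hk]
    · intro h
      exact absurd (Finset.mem_univ _) h
  have h0 := sum_classPairs_fixed (x i) (x j)⁻¹ (P : Subgroup G) n hn
  rw [hcount] at h0
  set S := ∑ χ : IrrCharacter G, (n χ : ℂ) * ((χ : G → ℂ) (x i) * (χ : G → ℂ) (x j)⁻¹) / (χ : G → ℂ) 1 with hS
  have hL : ∑ χ : IrrCharacter G, (n χ : ℂ) * (centralChar (χ : G → ℂ) (x i) * (χ : G → ℂ) (x j)⁻¹) =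
      (classSize (x i) : ℂ) * S := by
    rw [hS, Finset.mul_sum]
    refine Finset.sum_congr rfl fun χ _ => ?_
    rw [centralChar, index_centralizer_eq_card]
    show (n χ : ℂ) * ((classSize (x i) : ℂ) * (χ : G → ℂ) (x i) / (χ : G → ℂ) 1 * (χ : G → ℂ) (x j)⁻¹) = _
    ring
  rw [hL]
  have hG : (Nat.card G : ℂ) = (Nat.card (P : Subgroup G) : ℂ) * ((P : Subgroup G).index : ℂ) := by
    have := (P : Subgroup G).card_mul_index
    exact_mod_cast this.symm
  have hP0 : (Nat.card (P : Subgroup G) : ℂ) ≠ 0 := by exact_mod_cast Nat.card_pos.ne'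
  have hI0 : (((P : Subgroup G).index : ℕ) : ℂ) ≠ 0 := by
    exact_mod_cast (Subgroup.index_ne_zero_of_finite (H := (P : Subgroup G)))
  have hKi : (classSize (x i) : ℂ) ≠ 0 := by exact_mod_cast (classSize_pos _).ne'
  have hKj : (classSize (x j)⁻¹ : ℂ) ≠ 0 := by exact_mod_cast (classSize_pos _).ne'
  rw [hG] at h0
  have h1 : (classSize (x i) : ℂ) * S * (classSize (x j)⁻¹ : ℂ) =
      (((if i = j then classSize (x i) else 0 : ℕ)) : ℂ) * ((P : Subgroup G).index : ℂ) := by
    rw [h0]
    field_simp
  split_ifs with hij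
  · subst hij
    rw [if_pos rfl, classSize_inv] at h1
    apply mul_right_cancel₀ hKi
    rw [h1]
    ring
  · rw [if_neg hij] at h1
    simp only [Nat.cast_zero, zero_mul] at h1
    exact (mul_eq_zero.mp h1).resolve_right hKj

variable {p : ℕ} [hp : Fact p.Prime] {M : Ideal AlgInt}

/-- On a block with a smaller defect group, the character values at elements with a larger defect
lie in the local ideal. -/
theorem value_mem_of_lt (hM : IsPModular p M) {d : Set (IrrCharacter G)} (hd : IsPBlock M d)
    {E : Subgroup G} (hE : IsDefectGroup p M d E) {χ : IrrCharacter G} (hχ : χ ∈ d) {y : G} {D : Subgroup G}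
    (hD : IsSylowIn p (Subgroup.centralizer ({y} : Set G)) D)
    (hlt : blockDefect p d < (Nat.card D).factorization p) :
    MemLocalIdeal M ((χ : G → ℂ) y) := by
  have := isPrime_of_modular hM
  have hpp : p.Prime := hp.out
  obtain ⟨y₀, hy₀, hS⟩ := isDefectGroup_iff.mp hE
  have h1 := sInf_degree_eq_of_defectClass hM hd hy₀
  have h2 : sInf ((fun χ : IrrCharacter G => (charDegree (χ : G → ℂ)).factorization p) '' d) ≤
      (charDegree (χ : G → ℂ)).factorization p := Nat.sInf_le (Set.mem_image_of_mem _ hχ)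
  have h3 := factorization_index_add_card (p := p) (Subgroup.centralizer ({y₀} : Set G))
  have h4 := factorization_index_add_card (p := p) (Subgroup.centralizer ({y} : Set G))
  have h5 : (Nat.card D).factorization p = (Nat.card (Subgroup.centralizer ({y} : Set G))).factorization p := by
    rw [hD.card_eq_pow, hpp.factorization_pow]
    simp
  have h6 : blockDefect p d = (Nat.card (Subgroup.centralizer ({y₀} : Set G))).factorization p := by
    rw [blockDefect, h1]
    omega
  have hval : (Subgroup.centralizer ({y} : Set G)).index.factorization p <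
      (charDegree (χ : G → ℂ)).factorization p := by
    omega
  have hI : (Subgroup.centralizer ({y} : Set G)).index ≠ 0 := Subgroup.index_ne_zero_of_finite
  have h7 := natCast_div_memLocalIdeal (M := M) hM hI hval
  have h8 := centralChar_eq_div_mul χ y
  have hdeg : (charDegree (χ : G → ℂ) : ℂ) ≠ 0 := by exact_mod_cast (charDegree_pos χ.2).ne'
  have hI' : (((Subgroup.centralizer ({y} : Set G)).index : ℕ) : ℂ) ≠ 0 := by exact_mod_cast hI
  have h9 : (χ : G → ℂ) y = ((charDegree (χ : G → ℂ) : ℂ) / ((Subgroup.centralizer ({y} : Set G)).index : ℂ)) *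
      centralChar (χ : G → ℂ) y := by
    rw [h8]
    field_simp
  rw [h9]
  exact MemLocalIdeal.mul_right h7 (centralChar_memLocalRing χ y)

/-- Unless `D` is a defect group of `d`, the terms of the key orthogonality from `d` vanish
modulo the local ideal. -/
theorem term_mem (hM : IsPModular p M) {d : Set (IrrCharacter G)} (hd : IsPBlock M d) {D : Subgroup G}
    (hnot : ¬ IsDefectGroup p M d D) {χ : IrrCharacter G} (hχ : χ ∈ d) {a b : G}
    (hDa : IsSylowIn p (Subgroup.centralizer ({a} : Set G)) D)
    (hDb : IsSylowIn p (Subgroup.centralizer ({b} : Set G)) D) :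
    MemLocalIdeal M (centralChar (χ : G → ℂ) a * (χ : G → ℂ) b) := by
  have := isPrime_of_modular hM
  have hpp : p.Prime := hp.out
  by_cases h : MemLocalIdeal M (centralChar (χ : G → ℂ) a)
  · exact MemLocalIdeal.mul_right h (memLocalRing_of_isIntegral (irr_isIntegral χ b))
  · obtain ⟨E, hE⟩ := IsPBlock.exists_isDefectGroup hM hd
    obtain ⟨y, hy⟩ := IsDefectGroup.conj_le_of_central hM hd hE hχ h
    obtain ⟨E', hE', hle⟩ := exists_isSylowIn_ge (isPGroup_conjS (x := y) (IsDefectGroup.isPGroup hE)) hy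
    obtain ⟨c, -, hc⟩ := hDa.conj_eq hE'
    have hleD : conjS y E ≤ conjS c D := by rw [← hc]; exact hle
    have hcard : Nat.card E ≤ Nat.card D := by
      have h1 := Subgroup.card_le_of_le hleD
      rwa [card_conjS, card_conjS] at h1
    by_cases heq : Nat.card E = Nat.card D
    · exfalso
      apply hnot
      have h1 : conjS y E = conjS c D := by
        apply Subgroup.eq_of_le_of_card_ge hleD
        rw [card_conjS, card_conjS, heq]
      have h2 : IsDefectGroup p M d (conjS y E) := IsDefectGroup.conj hE y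
      rw [h1] at h2
      have h3 := IsDefectGroup.conj h2 c⁻¹
      rwa [conjS_conjS, inv_mul_cancel, conjS_one] at h3
    · have hlt : Nat.card E < Nat.card D := lt_of_le_of_ne hcard heq
      have h1 := card_defectGroup hM hd hE
      have h2 := hDb.card_eq_pow
      have h3 : blockDefect p d < (Nat.card D).factorization p := by
        rw [h2, hpp.factorization_pow]
        simp only [Finsupp.single_eq_same]
        rw [h1, h2] at hlt
        exact (Nat.pow_lt_pow_iff_right hpp.one_lt).mp hlt
      exact MemLocalIdeal.mul_left (centralChar_memLocalRing χ a) (value_mem_of_lt hM hd hE hχ hDb h3)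

theorem sum_eq_sum_blocks [M.IsPrime] (f : IrrCharacter G → ℂ) :
    ∑ χ, f χ = ∑ d ∈ blocksFinset M G, ∑ χ, indic d χ * f χ := by
  classical
  rw [Finset.sum_comm]
  refine Finset.sum_congr rfl fun χ _ => ?_
  rw [← Finset.sum_mul]
  have h1 : ∑ d ∈ blocksFinset M G, indic d χ = 1 := by
    rw [Finset.sum_eq_single (blockOf M (χ : G → ℂ))]
    · exact indic_apply_of_mem (self_mem_blockOf χ)
    · intro d hd hne
      apply indic_apply_of_notMem
      intro hχ
      exact hne (blockOf_eq_of_mem (mem_blocksFinset.mp hd) hχ)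
    · intro h
      exact absurd (mem_blocksFinset.mpr (isPBlock_blockOf χ)) h
  rw [h1, one_mul]

end Main

/-- Let p be a prime, M a maximal ideal of the algebraic integers containing p, and D a subgroup of the finite group G. Let x₁, …, x_r be pairwise non-conjugate elements of G such that D is a Sylow p-subgroup of the centralizer of each xᵢ, and such that for any conjugates g of some xᵢ and h of some xⱼ the element g h⁻¹ is never a non-identity p-element. Then there are r distinct p-blocks B₁, …, B_r of G, each having D as a defect group, such that for every choice of characters χᵢ ∈ Bᵢ of height zero the determinant of the r × r matrix (χᵢ(xⱼ)) does not lie in the local ideal at M. -/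
theorem result {G : Type*} [Group G] [Finite G] (p : ℕ) [Fact p.Prime] (M : Ideal Cfsg.AlgInt) (hM : Cfsg.IsPModular p M) (D : Subgroup G) {r : ℕ} (x : Fin r → G) (hx : ∀ i j : Fin r, IsConj (x i) (x j) → i = j) (hD : ∀ i : Fin r, ∃ S : Sylow p ↥(Subgroup.centralizer ({x i} : Set G)), (S : Subgroup ↥(Subgroup.centralizer ({x i} : Set G))).map (Subgroup.centralizer ({x i} : Set G)).subtype = D) (hsep : ∀ i j : Fin r, ∀ g h : G, IsConj (x i) g → IsConj (x j) h → ∀ k : ℕ, 0 < k → orderOf (g * h⁻¹) ≠ p ^ k) : ∃ B : Fin r → Set (Cfsg.IrrCharacter G), Function.Injective B ∧ (∀ i : Fin r, Cfsg.IsPBlock M (B i) ∧ Cfsg.IsDefectGroup p M (B i) D) ∧ ∀ χ : Fin r → Cfsg.IrrCharacter G, (∀ i : Fin r, χ i ∈ B i ∧ Cfsg.blockHeight p (B i) (χ i : G → ℂ) = 0) → ¬ Cfsg.MemLocalIdeal M (Matrix.det (Matrix.of fun i j : Fin r => (χ i : G → ℂ) (x j))) := by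
  classical
  letI : Fintype G := Fintype.ofFinite G
  have hpp : p.Prime := Fact.out
  have := isPrime_of_modular hM
  -- Sylow data
  have hDs : ∀ i, IsSylowIn p (Subgroup.centralizer ({x i} : Set G)) D := hD
  have hDinv : ∀ i, IsSylowIn p (Subgroup.centralizer ({(x i)⁻¹} : Set G)) D := by
    intro i
    have h1 : Subgroup.centralizer ({(x i)⁻¹} : Set G) = Subgroup.centralizer ({x i} : Set G) := by
      ext z
      rw [Subgroup.mem_centralizer_singleton_iff, Subgroup.mem_centralizer_singleton_iff]
      constructor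
      · intro h
        have h2 := congrArg (fun w => x i * w * x i) h
        simp only [mul_assoc, inv_mul_cancel, mul_one, mul_inv_cancel_left] at h2
        exact h2.symm
      · intro h
        rw [mul_inv_eq_iff_eq_mul, mul_assoc, h]
        simp
    rw [h1]
    exact hDs i
  obtain ⟨P⟩ : Nonempty (Sylow p G) := inferInstance
  letI : Fintype (P : Subgroup G) := Fintype.ofFinite _
  have h1 : ∀ χ : IrrCharacter G, ∃ n : ℕ, ∑ y : (P : Subgroup G), conj ((χ : G → ℂ) y) =
      (Nat.card (P : Subgroup G) : ℂ) * n := by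
    intro χ
    obtain ⟨n, hn⟩ := Cfsg.Agent.Lib.H8Group.exists_sum_subgroup_eq (IsIrrCharacter.isCharacter χ.2) (P : Subgroup G)
    refine ⟨n, ?_⟩
    rw [← map_sum, hn]
    simp
  choose n hn using h1
  have hkey := key_orth x hx hsep P n hn
  -- the good blocks
  let good : Finset (Set (IrrCharacter G)) := (blocksFinset M G).filter (fun d => IsDefectGroup p M d D)
  have hgood : ∀ B : good, IsPBlock M B.1 ∧ IsDefectGroup p M B.1 D := by
    intro B
    have h2 := Finset.mem_filter.mp B.2
    exact ⟨mem_blocksFinset.mp h2.1, h2.2⟩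
  let rep : good → IrrCharacter G := fun B => (IsPBlock.nonempty (hgood B).1).some
  have hrep : ∀ B : good, rep B ∈ B.1 := fun B => (IsPBlock.nonempty (hgood B).1).some_mem
  let v : good → Fin r → ℂ := fun B i => centralChar (rep B : G → ℂ) (x i)
  let Y : good → Fin r → ℂ := fun B j => ∑ χ : IrrCharacter G, indic B.1 χ * ((n χ : ℂ) * (χ : G → ℂ) (x j)⁻¹)
  have hindic : ∀ (d : Set (IrrCharacter G)) (χ : IrrCharacter G), MemLocalRing M (indic d χ) := by
    intro d χ
    by_cases h : χ ∈ d
    · rw [indic_apply_of_mem h]; exact memLocalRing_one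
    · rw [indic_apply_of_notMem h]; exact memLocalRing_zero
  have hvl : ∀ B i, MemLocalRing M (v B i) := fun B i => centralChar_memLocalRing _ _
  have hYl : ∀ B j, MemLocalRing M (Y B j) := by
    intro B j
    refine MemLocalRing.sum _ fun χ _ => MemLocalRing.mul (hindic _ _) (MemLocalRing.mul (MemLocalRing.natCast _) ?_)
    exact memLocalRing_of_isIntegral (irr_isIntegral χ _)
  have hu : MemLocalRing M (((P : Subgroup G).index : ℕ) : ℂ) := MemLocalRing.natCast _
  have hu' : ¬ MemLocalIdeal M (((P : Subgroup G).index : ℕ) : ℂ) :=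
    natCast_not_memLocalIdeal hM (Sylow.not_dvd_index P)
  have hcong : ∀ i j, MemLocalIdeal M (∑ B, v B i * Y B j - if i = j then (((P : Subgroup G).index : ℕ) : ℂ) else 0) := by
    intro i j
    rw [← hkey i j, sum_eq_sum_blocks (M := M), ← Finset.sum_filter_add_sum_filter_not (blocksFinset M G)
      (fun d => IsDefectGroup p M d D)]
    have hbad : MemLocalIdeal M (∑ d ∈ (blocksFinset M G).filter (fun d => ¬ IsDefectGroup p M d D),
        ∑ χ, indic d χ * ((n χ : ℂ) * (centralChar (χ : G → ℂ) (x i) * (χ : G → ℂ) (x j)⁻¹))) := by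
      refine MemLocalIdeal.sum _ fun d hd => MemLocalIdeal.sum _ fun χ _ => ?_
      have hd' := Finset.mem_filter.mp hd
      by_cases hχ : χ ∈ d
      · refine MemLocalIdeal.mul_left (hindic _ _) (MemLocalIdeal.mul_left (MemLocalRing.natCast _) ?_)
        exact term_mem hM (mem_blocksFinset.mp hd'.1) hd'.2 hχ (hDs i) (hDinv j)
      · rw [indic_apply_of_notMem hχ, zero_mul]
        exact memLocalIdeal_zero
    have hgoodsum : ∑ d ∈ (blocksFinset M G).filter (fun d => IsDefectGroup p M d D),
        ∑ χ, indic d χ * ((n χ : ℂ) * (centralChar (χ : G → ℂ) (x i) * (χ : G → ℂ) (x j)⁻¹)) =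
        ∑ B : good, ∑ χ, indic B.1 χ * ((n χ : ℂ) * (centralChar (χ : G → ℂ) (x i) * (χ : G → ℂ) (x j)⁻¹)) := by
      exact (Finset.sum_coe_sort good (fun d => ∑ χ, indic d χ * ((n χ : ℂ) * (centralChar (χ : G → ℂ) (x i) * (χ : G → ℂ) (x j)⁻¹)))).symm
    rw [hgoodsum]
    have heq : ∀ A C E : ℂ, A - (C + E) = (A - C) - E := by
      intro A C E; ring
    rw [heq, ← Finset.sum_sub_distrib]
    refine MemLocalIdeal.sub (MemLocalIdeal.sum _ fun B _ => ?_) hbad
    have h2 : v B i * Y B j - ∑ χ, indic B.1 χ * ((n χ : ℂ) * (centralChar (χ : G → ℂ) (x i) * (χ : G → ℂ) (x j)⁻¹)) =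
        ∑ χ, indic B.1 χ * ((v B i - centralChar (χ : G → ℂ) (x i)) * ((n χ : ℂ) * (χ : G → ℂ) (x j)⁻¹)) := by
      simp only [Y]
      rw [Finset.mul_sum, ← Finset.sum_sub_distrib]
      refine Finset.sum_congr rfl fun χ _ => ?_
      ring
    rw [h2]
    refine MemLocalIdeal.sum _ fun χ _ => ?_
    by_cases hχ : χ ∈ B.1
    · refine MemLocalIdeal.mul_left (hindic _ _) (MemLocalIdeal.mul_right ?_ ?_)
      · exact sameBlock_of_mem (hgood B).1 (hrep B) hχ (x i)
      · exact MemLocalRing.mul (MemLocalRing.natCast _) (memLocalRing_of_isIntegral (irr_isIntegral χ _))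
    · rw [indic_apply_of_notMem hχ, zero_mul]
      exact memLocalIdeal_zero
  obtain ⟨f, hfinj, hf⟩ := exists_fin_unimodular v Y hvl hYl _ hu hu' hcong
  refine ⟨fun s => (f s).1, Subtype.val_injective.comp hfinj, fun s => hgood (f s), ?_⟩
  intro χ hχ hX
  -- the matrix of central characters
  let W : Matrix (Fin r) (Fin r) ℂ := Matrix.of fun s j => centralChar (χ s : G → ℂ) (x j)
  have hW := hf W (fun s j => centralChar_memLocalRing _ _) (fun s j =>
    sameBlock_of_mem (hgood (f s)).1 (hχ s).1 (hrep (f s)) (x j))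
  apply hW
  -- valuations
  set e := (Nat.card G).factorization p - (Nat.card D).factorization p with he
  have hvalK : ∀ j, (Subgroup.centralizer ({x j} : Set G)).index.factorization p = e := by
    intro j
    have h2 := factorization_index_add_card (p := p) (Subgroup.centralizer ({x j} : Set G))
    have h3 : (Nat.card D).factorization p = (Nat.card (Subgroup.centralizer ({x j} : Set G))).factorization p := by
      rw [(hDs j).card_eq_pow, hpp.factorization_pow]
      simp
    omega
  have hvald : ∀ s, (charDegree (χ s : G → ℂ)).factorization p = e := by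
    intro s
    obtain ⟨y₀, hy₀, hS⟩ := isDefectGroup_iff.mp (hgood (f s)).2
    have h2 := sInf_degree_eq_of_defectClass hM (hgood (f s)).1 hy₀
    have h3 := (hχ s).2
    rw [blockHeight, h2] at h3
    have h4 : sInf ((fun χ : IrrCharacter G => (charDegree (χ : G → ℂ)).factorization p) '' (f s).1) ≤
      (charDegree (χ s : G → ℂ)).factorization p := Nat.sInf_le (Set.mem_image_of_mem _ (hχ s).1)
    have h5 := factorization_index_add_card (p := p) (Subgroup.centralizer ({y₀} : Set G))
    have h6 : (Nat.card D).factorization p = (Nat.card (Subgroup.centralizer ({y₀} : Set G))).factorization p := by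
      rw [hS.card_eq_pow, hpp.factorization_pow]
      simp
    omega
  let A : Fin r → ℕ := fun j => (Subgroup.centralizer ({x j} : Set G)).index / p ^ e
  let d : Fin r → ℕ := fun s => charDegree (χ s : G → ℂ) / p ^ e
  have hA : ∀ j, (Subgroup.centralizer ({x j} : Set G)).index = p ^ e * A j := by
    intro j
    have h2 := Nat.ordProj_mul_ordCompl_eq_self (Subgroup.centralizer ({x j} : Set G)).index p
    rw [hvalK j] at h2
    exact h2.symm
  have hdd : ∀ s, charDegree (χ s : G → ℂ) = p ^ e * d s := by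
    intro s
    have h2 := Nat.ordProj_mul_ordCompl_eq_self (charDegree (χ s : G → ℂ)) p
    rw [hvald s] at h2
    exact h2.symm
  have hdnd : ∀ s, ¬ p ∣ d s := by
    intro s
    have h2 := Nat.not_dvd_ordCompl hpp (charDegree_pos (χ s).2).ne'
    rwa [hvald s] at h2
  have hd0 : ∀ s, (d s : ℂ) ≠ 0 := fun s => natCast_ne_zero_of_not_dvd (hdnd s)
  have hpe : (p : ℂ) ^ e ≠ 0 := pow_ne_zero _ (by exact_mod_cast hpp.ne_zero)
  have hWeq : W = Matrix.of fun s j => (d s : ℂ)⁻¹ * ((A j : ℂ) * (χ s : G → ℂ) (x j)) := by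
    ext s j
    simp only [W, Matrix.of_apply]
    rw [centralChar_eq_div_mul, hA j, hdd s]
    push_cast
    field_simp
  have hdet : W.det = (∏ s, (d s : ℂ)⁻¹) * ((∏ j, (A j : ℂ)) * (Matrix.of fun s j => (χ s : G → ℂ) (x j)).det) := by
    have h2 := Matrix.det_mul_column (fun s => (d s : ℂ)⁻¹) (Matrix.of fun s j => (A j : ℂ) * (χ s : G → ℂ) (x j))
    have h3 := Matrix.det_mul_row (fun j => (A j : ℂ)) (Matrix.of fun s j => (χ s : G → ℂ) (x j))
    simp only [Matrix.of_apply] at h2 h3
    rw [hWeq, h2, h3]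
  rw [hdet]
  refine MemLocalIdeal.mul_left ?_ (MemLocalIdeal.mul_left ?_ hX)
  · exact MemLocalRing.prod _ fun s _ => inv_natCast_memLocalRing hM (hdnd s)
  · exact MemLocalRing.prod _ fun j _ => MemLocalRing.natCast _

end Cfsg.Agent.S4741
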