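import Cfsg.Statements.S4746
import Cfsg.Agent.S4743
import Cfsg.Agent.Lib.Char.FrobeniusSchur

set_option autoImplicit false
open Cfsg

namespace Cfsg.Agent.S4746

open Cfsg.Agent.Lib.Char
open scoped ComplexConjugate

variable {G : Type*} [Group G] [Fintype G]

theorem orderOf_eq_of_isConj' {a b : G} (h : IsConj a b) : orderOf a = orderOf b := by
  obtain ⟨c, rfl⟩ := isConj_iff.mp h
  have := orderOf_injective (MulAut.conj c).toMonoidHom (MulAut.conj c).injective a
  simpa [MulAut.conj_apply] using this.symm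

theorem class_apply_eq_of_isConj {f : G → ℂ} (hf : IsClassFunction G f) {a b : G} (h : IsConj a b) :
    f a = f b := by
  obtain ⟨c, rfl⟩ := isConj_iff.mp h
  exact (hf a c).symm

/-- The Frobenius-Schur count at a real element with unique square roots. -/
theorem sum_indicator_apply (y : G) (hreal : IsConj y y⁻¹)
    (hoddC : ∀ w : G, IsConj y w → Odd (Nat.card (Subgroup.centralizer ({w} : Set G))))
    (hoddo : ∀ w : G, IsConj y w → Odd (orderOf w)) (hy1 : y ≠ 1) :
    ∑ χ : IrrCharacter G, ((Nat.card G : ℂ)⁻¹ * ∑ s : G, (χ : G → ℂ) (s * s)) * (χ : G → ℂ) y = 1 := by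
  classical
  have hG : (Nat.card G : ℂ) ≠ 0 := by exact_mod_cast Nat.card_pos.ne'
  have h1 : ∀ χ : IrrCharacter G, ((Nat.card G : ℂ)⁻¹ * ∑ s : G, (χ : G → ℂ) (s * s)) * (χ : G → ℂ) y =
      (Nat.card G : ℂ)⁻¹ * ∑ s : G, (χ : G → ℂ) y * conj ((χ : G → ℂ) (s * s)⁻¹) := by
    intro χ
    rw [mul_assoc, Finset.sum_mul]
    congr 1
    refine Finset.sum_congr rfl fun s _ => ?_
    rw [IsCharacter.apply_inv (IsIrrCharacter.isCharacter χ.2), Complex.conj_conj, mul_comm]
  simp only [h1]
  rw [← Finset.mul_sum, Finset.sum_comm]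
  simp only [sum_irr_mul_conj]
  rw [Finset.sum_ite, Finset.sum_const_zero, add_zero, Finset.sum_const, nsmul_eq_mul]
  -- the count
  have hcount : (Finset.univ.filter fun s : G => IsConj y (s * s)⁻¹).card = classSize y := by
    rw [← Fintype.card_subtype, ← Nat.card_eq_fintype_card]
    apply Nat.card_congr
    refine Equiv.ofBijective (fun s => ⟨(s.1 * s.1)⁻¹, s.2⟩) ⟨?_, ?_⟩
    · rintro ⟨s, hs⟩ ⟨t, ht⟩ hst
      have h2 : (s * s)⁻¹ = (t * t)⁻¹ := congrArg Subtype.val hst
      have h3 : s * s = t * t := inv_injective h2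
      -- work in the centralizer of `w = (s * s)⁻¹`
      set w := (s * s)⁻¹ with hw
      have hsC : s ∈ Subgroup.centralizer ({w} : Set G) := by
        rw [Subgroup.mem_centralizer_iff]
        rintro _ rfl
        rw [hw]
        group
      have htC : t ∈ Subgroup.centralizer ({w} : Set G) := by
        rw [Subgroup.mem_centralizer_iff]
        rintro _ rfl
        rw [hw, h3]
        group
      have hodd := hoddC w hs
      have hcop : (Nat.card (Subgroup.centralizer ({w} : Set G))).Coprime 2 :=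
        (Nat.coprime_two_right ).mpr hodd
      have h4 : (⟨s, hsC⟩ : Subgroup.centralizer ({w} : Set G)) = ⟨t, htC⟩ := by
        apply (powCoprime hcop).injective
        apply Subtype.ext
        simp only [powCoprime_apply, SubgroupClass.coe_pow, pow_two]
        exact h3
      have h5 : s = t := congrArg Subtype.val h4
      subst h5
      rfl
    · rintro ⟨x, hx⟩
      -- the square root of `x⁻¹`
      have hodd := hoddo x hx
      obtain ⟨k, hk⟩ := hodd
      refine ⟨⟨x⁻¹ ^ (k + 1), ?_⟩, ?_⟩
      · have h2 : (x⁻¹ ^ (k + 1) * x⁻¹ ^ (k + 1))⁻¹ = x := by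
          rw [← pow_add, show k + 1 + (k + 1) = orderOf x + 1 by omega, pow_succ, inv_pow,
            pow_orderOf_eq_one]
          simp
        show IsConj y _
        rw [h2]
        exact hx
      · apply Subtype.ext
        show (x⁻¹ ^ (k + 1) * x⁻¹ ^ (k + 1))⁻¹ = x
        rw [← pow_add, show k + 1 + (k + 1) = orderOf x + 1 by omega, pow_succ, inv_pow,
          pow_orderOf_eq_one]
        simp
  rw [hcount]
  have h5 := classSize_mul_card_centralizer y
  have h6 : (classSize y : ℂ) * (Nat.card (Subgroup.centralizer ({y} : Set G)) : ℂ) = (Nat.card G : ℂ) := by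
    exact_mod_cast h5
  rw [h6, inv_mul_cancel₀ hG]

/-- Let p be an odd prime and G a finite group of even order divisible by p in which the centralizer of every non-identity p-element has odd order. Then G has an irreducible character of p-defect zero or an irreducible character of even degree. -/
theorem result {G : Type*} [Group G] [Finite G] (p : ℕ) [Fact p.Prime] (hp2 : p ≠ 2) (hpG : p ∣ Nat.card G) (h2G : 2 ∣ Nat.card G) (hC : ∀ g : G, g ≠ 1 → (∃ k : ℕ, orderOf g = p ^ k) → Odd (Nat.card ↥(Subgroup.centralizer ({g} : Set G)))) : (∃ χ : Cfsg.IrrCharacter G, (Cfsg.charDegree (χ : G → ℂ)).factorization p = (Nat.card G).factorization p) ∨ ∃ χ : Cfsg.IrrCharacter G, Even (Cfsg.charDegree (χ : G → ℂ)) := by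
  classical
  letI : Fintype G := Fintype.ofFinite G
  have hp : p.Prime := Fact.out
  haveI h2F : Fact (Nat.Prime 2) := ⟨Nat.prime_two⟩
  by_contra hcon
  push Not at hcon
  obtain ⟨hno, hodd⟩ := hcon
  have hodddeg : ∀ χ : IrrCharacter G, Odd (charDegree (χ : G → ℂ)) := fun χ =>
    Nat.not_even_iff_odd.mp (hodd χ)
  have hC' : ∀ g : G, g ≠ 1 → (∃ k : ℕ, orderOf g = p ^ k) → ¬ 2 ∣ Nat.card ↥(Subgroup.centralizer ({g} : Set G)) := by
    intro g h1 h2 h3
    exact (Nat.not_even_iff_odd.mpr (hC g h1 h2)) (even_iff_two_dvd.mpr h3)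
  have hCs := Cfsg.Agent.S4743.hC_symm p 2 hC'
  -- an involution
  obtain ⟨x, hx⟩ := exists_prime_orderOf_dvd_card' 2 h2G
  have hx1 : x ≠ 1 := by
    rintro rfl
    rw [orderOf_one] at hx
    omega
  have hx2 : x * x = 1 := by
    have := pow_orderOf_eq_one x
    rw [hx, pow_two] at this
    exact this
  have hxinv : x⁻¹ = x := inv_eq_of_mul_eq_one_right hx2
  have hs : ¬ p ∣ Nat.card (Subgroup.centralizer ({x} : Set G)) :=
    hCs x hx1 ⟨1, by rw [pow_one, hx]⟩
  have hs0 := Nat.factorization_eq_zero_of_not_dvd hs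
  obtain ⟨P⟩ : Nonempty (Sylow p G) := inferInstance
  have hPcard : Nat.card (P : Subgroup G) = p ^ (Nat.card G).factorization p := P.card_eq_multiplicity
  have ha0 : 0 < (Nat.card G).factorization p := by
    have : (Nat.card G).factorization p ≠ 0 := by
      intro h0
      rw [Nat.factorization_eq_zero_iff] at h0
      rcases h0 with h | h | h
      · exact h hp
      · exact h hpG
      · exact Nat.card_pos.ne' h
    omega
  -- a non-trivial `p`-element inverted by a conjugate of `x`
  have hex : ∃ y : (P : Subgroup G), (y : G) ≠ 1 ∧ classPairs x x⁻¹ y ≠ 0 := by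
    by_contra hcon
    push Not at hcon
    obtain ⟨χ, hχ⟩ := exists_dvd_degree_of_no_pairs hp x (P : Subgroup G) hPcard hcon hs0 ha0
    apply hno χ
    rw [Nat.sub_zero] at hχ
    apply le_antisymm
    · have h1 := charDegree_dvd_card χ.2
      exact (Nat.factorization_le_iff_dvd (charDegree_pos χ.2).ne' Nat.card_pos.ne').mpr h1 p
    · exact (Nat.Prime.pow_dvd_iff_le_factorization hp (charDegree_pos χ.2).ne').mp hχ
  obtain ⟨y, hy1, hyne⟩ := hex
  have hyreal : IsConj (y : G) (y : G)⁻¹ := by
    by_contra hnc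
    apply hyne
    rw [classPairs, Nat.card_eq_zero]
    left
    constructor
    rintro ⟨⟨g, h⟩, hg, hh, hgh⟩
    simp only at hg hh hgh
    rw [hxinv] at hh
    apply hnc
    have hg2 : g * g = 1 := by
      obtain ⟨c, hc⟩ := isConj_iff.mp hg
      rw [← hc]
      have : c * x * c⁻¹ * (c * x * c⁻¹) = c * (x * x) * c⁻¹ := by group
      rw [this, hx2]
      simp
    have hh2 : h * h = 1 := by
      obtain ⟨c, hc⟩ := isConj_iff.mp hh
      rw [← hc]
      have : c * x * c⁻¹ * (c * x * c⁻¹) = c * (x * x) * c⁻¹ := by group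
      rw [this, hx2]
      simp
    rw [isConj_iff]
    refine ⟨g, ?_⟩
    rw [← hgh]
    have hginv : g⁻¹ = g := inv_eq_of_mul_eq_one_right hg2
    have hhinv : h⁻¹ = h := inv_eq_of_mul_eq_one_right hh2
    rw [mul_inv_rev, hginv, hhinv, ← mul_assoc, hg2, one_mul]
  -- the order of `y`
  obtain ⟨k, hk⟩ := (IsPGroup.iff_orderOf.mp P.isPGroup') y
  have hyo : orderOf (y : G) = p ^ k := by
    rw [← hk]
    exact Subgroup.orderOf_coe y
  have hoddp : Odd p := hp.odd_of_ne_two hp2
  have hoddo : ∀ w : G, IsConj (y : G) w → Odd (orderOf w) := by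
    intro w hw
    rw [← orderOf_eq_of_isConj' hw, hyo]
    exact hoddp.pow
  have hoddC : ∀ w : G, IsConj (y : G) w → Odd (Nat.card (Subgroup.centralizer ({w} : Set G))) := by
    intro w hw
    apply hC w
    · rintro rfl
      exact hy1 (isConj_one_right.mp hw.symm)
    · exact ⟨k, by rw [← orderOf_eq_of_isConj' hw, hyo]⟩
  have hind := sum_indicator_apply (y : G) hyreal hoddC hoddo hy1
  -- the values at `y` are real
  have hχy : ∀ χ : IrrCharacter G, conj ((χ : G → ℂ) (y : G)) = (χ : G → ℂ) y := by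
    intro χ
    rw [← IsCharacter.apply_inv (IsIrrCharacter.isCharacter χ.2)]
    exact class_apply_eq_of_isConj (IsCharacter.isClassFunction (IsIrrCharacter.isCharacter χ.2)) hyreal.symm
  have hχx : ∀ χ : IrrCharacter G, conj ((χ : G → ℂ) x) = (χ : G → ℂ) x := by
    intro χ
    rw [← IsCharacter.apply_inv (IsIrrCharacter.isCharacter χ.2), hxinv]
  have hyx : ¬ IsConj (y : G) x := by
    intro h
    have h1 := orderOf_eq_of_isConj' h
    rw [hyo, hx] at h1
    have h2 : Odd (p ^ k) := hoddp.pow
    rw [h1] at h2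
    exact absurd h2 (by decide)
  have h00 := sum_irr_mul_conj_of_not_isConj hyx
  simp only [hχx] at h00
  -- passing to the residue field at `2`
  obtain ⟨M, hM⟩ := exists_isPModular Nat.prime_two
  haveI hMp : M.IsPrime := hM.2.1.isPrime
  let π := Ideal.Quotient.mk M
  let a : IrrCharacter G → AlgInt := fun χ =>
    ⟨(χ : G → ℂ) y, IsCharacter.isIntegral (IsIrrCharacter.isCharacter χ.2) _⟩
  let b : IrrCharacter G → AlgInt := fun χ =>
    ⟨(χ : G → ℂ) x, IsCharacter.isIntegral (IsIrrCharacter.isCharacter χ.2) _⟩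
  have hπ2 : π 2 = 0 := by
    apply Ideal.Quotient.eq_zero_iff_mem.mpr
    exact_mod_cast hM.2.2
  have h0 : ∑ χ : IrrCharacter G, a χ * b χ = 0 := by
    apply Subtype.ext
    push_cast
    exact h00
  have hb : ∀ χ : IrrCharacter G, π (b χ) = 1 := by
    intro χ
    have hχc := IsIrrCharacter.isCharacter χ.2
    obtain ⟨γ, hγ⟩ := Cfsg.Agent.Lib.H8Group.exists_character_pow_sub (p := 2) hχc (g := x) (j := 1)
      (by rw [pow_one, pow_two, hx2])
    obtain ⟨m, hm⟩ := hodddeg χ
    have h1 : (b χ) ^ 2 = 1 + 2 * ((m : AlgInt) + γ) := by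
      apply Subtype.ext
      push_cast
      have h2 := apply_one_eq_charDegree hχc
      rw [h2, hm] at hγ
      push_cast at hγ
      show ((χ : G → ℂ) x) ^ 2 = _
      have h22 : ((2 : AlgInt) : ℂ) = 2 := rfl
      rw [h22]
      linear_combination hγ
    have h2 : (π (b χ)) ^ 2 = 1 := by
      rw [← map_pow, h1, map_add, map_mul, hπ2, zero_mul, add_zero, map_one]
    have h3 : (π (b χ) - 1) ^ 2 = 0 := by
      have h4 : (π (b χ) - 1) ^ 2 = (π (b χ)) ^ 2 + 1 - π 2 * π (b χ) := by
        rw [map_ofNat]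
        ring
      rw [h4, h2, hπ2, zero_mul, sub_zero]
      have h5 : (1 : AlgInt ⧸ M) + 1 = π 2 := by
        rw [map_ofNat]
        norm_num
      rw [h5, hπ2]
    have h4 := pow_eq_zero_iff (two_ne_zero) |>.mp h3
    exact sub_eq_zero.mp h4
  have hsum1 : ∑ χ : IrrCharacter G, π (a χ) = 0 := by
    have h1 := congrArg π h0
    rw [map_sum, map_zero] at h1
    simp only [map_mul, hb, mul_one] at h1
    exact h1
  -- real characters
  let isReal : IrrCharacter G → Prop := fun χ => ∀ s : G, ((χ : G → ℂ) s).im = 0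
  have hν1 : ∀ χ : IrrCharacter G, isReal χ →
      (Nat.card G : ℂ)⁻¹ * ∑ s : G, (χ : G → ℂ) (s * s) = 1 := by
    intro χ hχ
    exact indicator_eq_one_of_odd_degree χ.2 hχ _
      (apply_one_eq_charDegree (IsIrrCharacter.isCharacter χ.2)) (hodddeg χ)
  have hν0 : ∀ χ : IrrCharacter G, ¬ isReal χ →
      (Nat.card G : ℂ)⁻¹ * ∑ s : G, (χ : G → ℂ) (s * s) = 0 := by
    rintro ⟨χ, n, ρ, hρ, rfl⟩ hχ
    simp only [isReal, not_forall] at hχ
    exact (fs_indicator_trichotomy ρ).2.mpr hχ
  have hR : ∑ χ ∈ Finset.univ.filter isReal, a χ = 1 := by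
    apply Subtype.ext
    push_cast
    rw [← hind, Finset.sum_filter]
    refine Finset.sum_congr rfl fun χ _ => ?_
    by_cases h : isReal χ
    · rw [if_pos h, hν1 χ h, one_mul]
    · rw [if_neg h, hν0 χ h, zero_mul]
  -- non-real characters cancel in pairs
  let cc : IrrCharacter G → IrrCharacter G := fun χ => ⟨fun g => conj ((χ : G → ℂ) g), IsIrrCharacter.conj χ.2⟩
  have hacc : ∀ χ, a (cc χ) = a χ := by
    intro χ
    apply Subtype.ext
    exact hχy χ
  have hNR : ∑ χ ∈ Finset.univ.filter (fun χ => ¬ isReal χ), π (a χ) = 0 := by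
    apply Finset.sum_involution (fun χ _ => cc χ)
    · intro χ _
      rw [hacc, ← two_mul]
      have h5 : (2 : AlgInt ⧸ M) = π 2 := by
        rw [map_ofNat]
      rw [h5, hπ2, zero_mul]
    · intro χ hχ _ h
      have h1 := (Finset.mem_filter.mp hχ).2
      apply h1
      intro s
      have h2 := congrFun (congrArg Subtype.val h) s
      have h3 : conj ((χ : G → ℂ) s) = (χ : G → ℂ) s := h2
      exact Complex.conj_eq_iff_im.mp h3
    · intro χ hχ
      have h1 := (Finset.mem_filter.mp hχ).2
      refine Finset.mem_filter.mpr ⟨Finset.mem_univ _, ?_⟩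
      intro h2
      apply h1
      intro s
      have h3 := h2 s
      simpa [cc] using h3
    · intro χ _
      apply Subtype.ext
      funext g
      simp [cc]
  have htotal := Finset.sum_filter_add_sum_filter_not Finset.univ isReal (fun χ => π (a χ))
  rw [hsum1, hNR, add_zero, ← map_sum, hR, map_one] at htotal
  exact one_ne_zero htotal

end Cfsg.Agent.S4746
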