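import Cfsg.Statements.S4748
import Cfsg.Agent.Lib.Char.Gallagher
import Cfsg.Agent.Lib.Char.Coset
import Cfsg.Agent.Lib.Char.Equiv
import Cfsg.Agent.Lib.Char.Degree
import Cfsg.Agent.Lib.H8Group.Thompson
import Cfsg.Agent.Lib.Coprime.Action
import Cfsg.Agent.Lib.Coprime.PSolvable
import Cfsg.Agent.Lib.Basic.Core
import Cfsg.Agent.Lib.Basic.Misc2

set_option autoImplicit false
open scoped Pointwise
open Cfsg

namespace Cfsg.Agent.S4748

open Cfsg.Agent.Lib.Char Cfsg.Agent.Lib.Basic Cfsg.Agent.Lib.H8Group Subgroup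
open scoped ComplexConjugate commutatorElement

universe u

/-- Uniqueness of the `p`-part under conjugation, in coprime exponents. -/
theorem conj_fix_of_conj_mul {L : Type*} [Group L] {a b : ℕ} (hab : a.Coprime b) {x c c' w : L}
    (hxa : x ^ a = 1) (hc : c ^ b = 1) (hc' : c' ^ b = 1) (hxc : Commute x c) (hxc' : Commute x c')
    (h : w * (x * c) * w⁻¹ = x * c') : w * x * w⁻¹ = x := by
  obtain ⟨k, hk1, hk2⟩ := Nat.chineseRemainder hab 1 0
  have hx : x ^ k = x := by
    rw [pow_eq_pow_mod k hxa]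
    have : k % a = 1 % a := hk1
    rw [this, ← pow_eq_pow_mod 1 hxa, pow_one]
  have hdvd : b ∣ k := (Nat.modEq_zero_iff_dvd).mp hk2
  have h1 : c ^ k = 1 := by
    obtain ⟨t, rfl⟩ := hdvd
    rw [pow_mul, hc, one_pow]
  have h2 : c' ^ k = 1 := by
    obtain ⟨t, rfl⟩ := hdvd
    rw [pow_mul, hc', one_pow]
  have h3 : (x * c) ^ k = x := by rw [hxc.mul_pow, h1, mul_one, hx]
  have h4 : (x * c') ^ k = x := by rw [hxc'.mul_pow, h2, mul_one, hx]
  have h5 : (w * (x * c) * w⁻¹) ^ k = w * (x * c) ^ k * w⁻¹ := conj_pow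
  rw [h, h3, h4] at h5
  exact h5.symm

/-- Summing a class function over the coset `M x`. -/
theorem sum_coset_eq {L : Type*} [Group L] [Fintype L] (M C : Subgroup L) [hM : M.Normal]
    [Fintype M] [Fintype C] (hCM : C ≤ M) (x : L) (f : L → ℝ)
    (hf : ∀ g h, f (h * g * h⁻¹) = f g) (hcomm : ∀ c ∈ C, Commute x c)
    (hfix : ∀ w ∈ M, ∀ c ∈ C, ∀ c' ∈ C, w * (x * c) * w⁻¹ = x * c' → w ∈ C) :
    (∑ n : M, f (n * x)) * (Nat.card C : ℝ) = (Nat.card M : ℝ) * ∑ c : C, f (x * c) := by
  classical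
  let C' : Subgroup M := C.subgroupOf M
  haveI : Fintype (M ⧸ C') := Fintype.ofFinite _
  haveI : Fintype C' := Fintype.ofFinite _
  have hw : ∀ (w : L) (c : C), w ∈ M → w * (x * c * w⁻¹ * x⁻¹) ∈ M := by
    intro w c hw
    refine M.mul_mem hw ?_
    have h1 : x * (c * w⁻¹) * x⁻¹ ∈ M :=
      hM.conj_mem _ (M.mul_mem (hCM c.2) (M.inv_mem hw)) x
    have h2 : x * c * w⁻¹ * x⁻¹ = x * (c * w⁻¹) * x⁻¹ := by group
    rw [h2]
    exact h1
  let Φ : (M ⧸ C') × C → M := fun a =>
    ⟨((Quotient.out a.1 : M) : L) * (x * a.2 * ((Quotient.out a.1 : M) : L)⁻¹ * x⁻¹),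
      hw _ a.2 (Quotient.out a.1).2⟩
  have hΦx : ∀ a, ((Φ a : M) : L) * x =
      ((Quotient.out a.1 : M) : L) * (x * a.2) * ((Quotient.out a.1 : M) : L)⁻¹ := by
    intro a
    show ((Quotient.out a.1 : M) : L) * (x * a.2 * ((Quotient.out a.1 : M) : L)⁻¹ * x⁻¹) * x = _
    group
  have hinj : Function.Injective Φ := by
    rintro ⟨q, c⟩ ⟨q', c'⟩ h
    have h1 : ((Φ (q, c) : M) : L) * x = ((Φ (q', c') : M) : L) * x := by rw [h]
    rw [hΦx, hΦx] at h1
    simp only at h1
    set w : L := ((Quotient.out q : M) : L) with hwd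
    set w' : L := ((Quotient.out q' : M) : L) with hwd'
    have hw'M : w' ∈ M := (Quotient.out q').2
    have hwM : w ∈ M := (Quotient.out q).2
    have h2 : (w'⁻¹ * w) * (x * c) * (w'⁻¹ * w)⁻¹ = x * c' := by
      have : (w'⁻¹ * w) * (x * c) * (w'⁻¹ * w)⁻¹ = w'⁻¹ * (w * (x * c) * w⁻¹) * w' := by group
      rw [this, h1]
      group
    have h3 : w'⁻¹ * w ∈ C :=
      hfix _ (M.mul_mem (M.inv_mem hw'M) hwM) c c.2 c' c'.2 h2
    have hq : q = q' := by
      have h4 : (Quotient.out q' : M)⁻¹ * (Quotient.out q : M) ∈ C' := by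
        rw [Subgroup.mem_subgroupOf]
        simpa using h3
      have h5 : ((Quotient.out q' : M) : M ⧸ C') = ((Quotient.out q : M) : M ⧸ C') :=
        QuotientGroup.eq.mpr h4
      rw [QuotientGroup.out_eq', QuotientGroup.out_eq'] at h5
      exact h5.symm
    subst hq
    have h6 : w * (x * c) * w⁻¹ = w * (x * c') * w⁻¹ := h1
    have h7 : x * (c : L) = x * c' := by
      have := mul_left_cancel (mul_right_cancel h6)
      exact this
    have h8 : c = c' := Subtype.ext (mul_left_cancel h7)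
    rw [h8]
  have hcard : Nat.card ((M ⧸ C') × C) = Nat.card M := by
    rw [Nat.card_prod]
    have h1 : Nat.card C' = Nat.card C :=
      Nat.card_congr (Subgroup.subgroupOfEquivOfLe hCM).toEquiv
    rw [← h1, mul_comm]
    have := Subgroup.card_eq_card_quotient_mul_card_subgroup C'
    rw [this, mul_comm]
  have hbij : Function.Bijective Φ := by
    rw [Nat.bijective_iff_injective_and_card]
    exact ⟨hinj, hcard⟩
  have hsum : ∑ n : M, f (n * x) = ∑ a : (M ⧸ C') × C, f ((Φ a : M) * x) :=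
    (Fintype.sum_bijective Φ hbij _ _ (fun _ => rfl)).symm
  have hval : ∀ a : (M ⧸ C') × C, f ((Φ a : M) * x) = f (x * a.2) := by
    intro a
    rw [hΦx, hf]
  rw [hsum, Finset.sum_congr rfl (fun a _ => hval a), Fintype.sum_prod_type]
  simp only [Finset.sum_const, Finset.card_univ, nsmul_eq_mul]
  have h9 : (Nat.card M : ℝ) = (Nat.card (M ⧸ C') : ℝ) * (Nat.card C : ℝ) := by
    rw [← Nat.cast_mul, ← Nat.card_prod, hcard]
  rw [h9, ← Nat.card_eq_fintype_card]
  ring

/-- The key statement, in a group generated by a `p'`-normal subgroup and a `p`-subgroup. -/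
theorem core {L : Type u} [Group L] [Fintype L] {p : ℕ} [hp : Fact p.Prime]
    (M : Subgroup L) [hMn : M.Normal] [Fintype M] (hMp : (Nat.card M).Coprime p)
    (Q : Subgroup L) [Fintype Q] (hQ : IsPGroup p Q) (hsup : M ⊔ Q = ⊤)
    (C : Subgroup L) [Fintype C] (hCM : C ≤ M)
    (hC : ∀ x ∈ Q, x ≠ 1 → ∀ m ∈ M, (m * x = x * m ↔ m ∈ C))
    {τ : M → ℂ} (hτ : IsIrrCharacter M τ) (hinv : ∀ g : L, conjFun M g τ = τ)
    {d : ℕ} (hd : τ 1 = d) (hdQ : d ^ 2 ≤ Nat.card Q) :
    ∃ χ : L → ℂ, IsCharacter L χ ∧ (∀ n : M, χ n = τ n) ∧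
      ∀ x ∈ Q, ∀ m ∈ M, χ (m * x * m⁻¹ * x⁻¹) = χ 1 := by
  classical
  have hpp : p.Prime := hp.out
  -- the quotient is a `p`-group
  have hq : IsPGroup p (L ⧸ M) := by
    refine IsPGroup.of_surjective hQ ((QuotientGroup.mk' M).comp Q.subtype) ?_
    intro y
    obtain ⟨g, rfl⟩ := QuotientGroup.mk'_surjective M y
    have hg : g ∈ M ⊔ Q := by rw [hsup]; trivial
    rw [← SetLike.mem_coe, Subgroup.normal_mul] at hg
    obtain ⟨m, hm, q, hq, rfl⟩ := hg
    refine ⟨⟨q, hq⟩, ?_⟩
    simp only [MonoidHom.comp_apply, Subgroup.coe_subtype, map_mul]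
    have : QuotientGroup.mk' M m = 1 := (QuotientGroup.eq_one_iff m).mpr hm
    rw [this, one_mul]
  have hdpos : d ≠ 0 := by
    intro h0
    apply IsIrrCharacter.apply_one_ne_zero hτ
    rw [hd, h0]
    simp
  have hdp : ¬ p ∣ d := by
    intro hdvd
    have h1 : d ∣ Nat.card M := degree_dvd_card hτ hd
    have h2 : p ∣ Nat.card M := hdvd.trans h1
    exact hpp.one_lt.ne' (Nat.eq_one_of_dvd_coprimes hMp.symm (dvd_refl p) h2)
  obtain ⟨χ, hχ, hχM, -⟩ := exists_canonical_ext M p hq (m := Nat.card M) hMp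
    (fun lam x => by rw [← map_pow, pow_card_eq_one', map_one]) hτ hinv hd hdp
  have hχc : IsCharacter L χ := IsIrrCharacter.isCharacter hχ
  refine ⟨χ, hχc, hχM, ?_⟩
  intro x hx m hm
  by_cases hx1 : x = 1
  · subst hx1
    simp
  -- norms on cosets of `C`
  have hχ1 : χ 1 = d := by
    have := hχM 1
    simpa [hd] using this
  have hres : IsIrrCharacter M (resFun M χ) := by
    have : resFun M χ = τ := by
      funext n
      exact hχM n
    rw [this]
    exact hτ
  have hclass : IsClassFunction L χ := IsCharacter.isClassFunction hχc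
  have hnorm : ∀ y ∈ Q, y ≠ 1 → ∑ c : C, ‖χ (y * c)‖ ^ 2 = (Nat.card C : ℝ) := by
    intro y hy hy1
    have hcomm : ∀ c ∈ C, Commute y c := fun c hc =>
      ((hC y hy hy1 c (hCM hc)).mpr hc).symm
    have hfix : ∀ w ∈ M, ∀ c ∈ C, ∀ c' ∈ C, w * (y * c) * w⁻¹ = y * c' → w ∈ C := by
      intro w hw c hc c' hc' h
      have hcop : (Nat.card Q).Coprime (Nat.card M) := by
        obtain ⟨n, hn⟩ := IsPGroup.iff_card.mp hQ
        rw [hn]
        exact Nat.Coprime.pow_left _ hMp.symm
      have hya : y ^ Nat.card Q = 1 := by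
        have h0 : (⟨y, hy⟩ : Q) ^ Nat.card Q = 1 := pow_card_eq_one'
        have h00 := congrArg Subtype.val h0
        simpa only [SubgroupClass.coe_pow, OneMemClass.coe_one] using h00
      have hcb : ∀ c ∈ C, c ^ Nat.card M = 1 := by
        intro c hc
        have h0 : (⟨c, hCM hc⟩ : M) ^ Nat.card M = 1 := pow_card_eq_one'
        have h00 := congrArg Subtype.val h0
        simpa only [SubgroupClass.coe_pow, OneMemClass.coe_one] using h00
      have h1 := conj_fix_of_conj_mul hcop hya (hcb c hc) (hcb c' hc') (hcomm c hc) (hcomm c' hc') h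
      apply (hC y hy hy1 w hw).mp
      calc w * y = (w * y * w⁻¹) * w := by group
        _ = y * w := by rw [h1]
    have h2 := sum_coset_eq M C hCM y (fun g => ‖χ g‖ ^ 2)
      (fun g h => by
        show ‖χ (h * g * h⁻¹)‖ ^ 2 = _
        rw [hclass g h]) hcomm hfix
    have h3 := gallagher_norm M hχc hres y
    have h4 : ∑ n : M, ‖χ (n * y)‖ ^ 2 = (Nat.card M : ℝ) := by
      have h5 : ∀ z : ℂ, z * conj z = ((‖z‖ ^ 2 : ℝ) : ℂ) := by
        intro z
        rw [Complex.mul_conj, Complex.normSq_eq_norm_sq]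
      simp only [h5] at h3
      rw [← Complex.ofReal_sum] at h3
      exact_mod_cast h3
    rw [h4] at h2
    have hM0 : (Nat.card M : ℝ) ≠ 0 := by exact_mod_cast Nat.card_pos.ne'
    have := mul_left_cancel₀ hM0 h2
    exact this.symm
  -- the hom from the product
  have hQC : ∀ q : Q, ∀ c : C, Commute (q : L) (c : L) := by
    intro q c
    by_cases hq1 : (q : L) = 1
    · rw [hq1]
      exact Commute.one_left _
    · exact ((hC q q.2 hq1 c (hCM c.2)).mpr c.2).symm
  let φ : C × Q →* L :=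
    { toFun := fun a => (a.1 : L) * a.2
      map_one' := by simp
      map_mul' := by
        rintro ⟨c, q⟩ ⟨c', q'⟩
        simp only [Prod.mk_mul_mk, Subgroup.coe_mul]
        have := (hQC q c').eq
        calc (c : L) * c' * (q * q') = c * (c' * q) * q' := by group
          _ = c * (q * c') * q' := by rw [this]
          _ = _ := by group }
  have hφc : IsCharacter (C × Q) (χ ∘ φ) := IsCharacter.comp hχc φ
  have hCc : IsCharacter C (χ ∘ C.subtype) := IsCharacter.comp hχc C.subtype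
  obtain ⟨n, hn⟩ := classInner_self_eq_nat hφc
  obtain ⟨E, hE⟩ := classInner_self_eq_nat hCc
  have hn' := classInner_self_eq_sum_normSq (χ ∘ φ)
  have hE' := classInner_self_eq_sum_normSq (χ ∘ C.subtype)
  rw [hn] at hn'
  rw [hE] at hE'
  have hnR : (n : ℝ) = (Nat.card (C × Q) : ℝ)⁻¹ * ∑ a : C × Q, ‖(χ ∘ φ) a‖ ^ 2 := by
    exact_mod_cast hn'
  have hER : (E : ℝ) = (Nat.card C : ℝ)⁻¹ * ∑ c : C, ‖(χ ∘ C.subtype) c‖ ^ 2 := by
    exact_mod_cast hE'
  have hCpos : (0 : ℝ) < Nat.card C := by exact_mod_cast Nat.card_pos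
  have hQpos : (0 : ℝ) < Nat.card Q := by exact_mod_cast Nat.card_pos
  have hsumC : ∑ c : C, ‖χ (c : L)‖ ^ 2 = (E : ℝ) * Nat.card C := by
    rw [hER]
    simp only [Function.comp, Subgroup.coe_subtype]
    field_simp
  have hsum : ∑ a : C × Q, ‖(χ ∘ φ) a‖ ^ 2 = (Nat.card C : ℝ) * ((E : ℝ) + (Nat.card Q : ℝ) - 1) := by
    rw [Fintype.sum_prod_type_right]
    have h1 : ∀ q : Q, ∑ c : C, ‖(χ ∘ φ) (c, q)‖ ^ 2 =
        if q = 1 then (E : ℝ) * Nat.card C else (Nat.card C : ℝ) := by
      intro q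
      split_ifs with hq
      · subst hq
        rw [← hsumC]
        refine Finset.sum_congr rfl fun c _ => ?_
        simp [φ]
      · have hq' : (q : L) ≠ 1 := fun h => hq (Subtype.ext h)
        rw [← hnorm q q.2 hq']
        refine Finset.sum_congr rfl fun c _ => ?_
        show ‖χ ((c : L) * q)‖ ^ 2 = _
        rw [(hQC q c).eq.symm]
    simp only [h1]
    rw [Finset.sum_ite]
    have h2 : (Finset.univ.filter (fun q : Q => q = 1)) = {1} := by
      ext q
      simp
    have h3 : (Finset.univ.filter (fun q : Q => ¬ q = 1)).card = Nat.card Q - 1 := by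
      rw [Finset.filter_not, h2, Finset.card_sdiff_of_subset (Finset.subset_univ _),
        Finset.card_univ, Finset.card_singleton, Nat.card_eq_fintype_card]
    rw [h2, Finset.sum_singleton, Finset.sum_const, h3, nsmul_eq_mul]
    have hQ1 : 1 ≤ Nat.card Q := Nat.card_pos
    push_cast [Nat.cast_sub hQ1]
    ring
  have hmain : (n : ℝ) * (Nat.card Q : ℝ) = (E : ℝ) + (Nat.card Q : ℝ) - 1 := by
    rw [hsum, Nat.card_prod] at hnR
    push_cast at hnR
    rw [hnR]
    field_simp
  have hmain' : n * Nat.card Q + 1 = E + Nat.card Q := by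
    have hQ1 : (1 : ℝ) ≤ Nat.card Q := by exact_mod_cast Nat.card_pos
    have : (n : ℝ) * (Nat.card Q : ℝ) + 1 = (E : ℝ) + (Nat.card Q : ℝ) := by linarith
    exact_mod_cast this
  -- bounds on `E`
  have hEle : E ≤ d ^ 2 := by
    have h1 : (E : ℝ) * Nat.card C ≤ (d : ℝ) ^ 2 * Nat.card C := by
      rw [← hsumC]
      calc ∑ c : C, ‖χ (c : L)‖ ^ 2 ≤ ∑ _c : C, (d : ℝ) ^ 2 := by
            refine Finset.sum_le_sum fun c _ => ?_
            have h2 := IsCharacter.norm_le hχc (c : L)
            rw [hχ1] at h2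
            simp only [Complex.norm_natCast] at h2
            exact pow_le_pow_left₀ (norm_nonneg _) h2 2
        _ = (d : ℝ) ^ 2 * Nat.card C := by
            simp [Finset.card_univ, mul_comm]
    have h2 : (E : ℝ) ≤ (d : ℝ) ^ 2 := le_of_mul_le_mul_right h1 hCpos
    exact_mod_cast h2
  have hEpos : 0 < E := by
    by_contra h0
    have h00 : E = 0 := by omega
    rw [h00] at hsumC
    simp only [Nat.cast_zero, zero_mul] at hsumC
    have h1 := (Finset.sum_eq_zero_iff_of_nonneg (fun c _ => by positivity)).mp hsumC 1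
      (Finset.mem_univ _)
    simp only [OneMemClass.coe_one, hχ1, Complex.norm_natCast] at h1
    have : (d : ℝ) = 0 := by simpa using h1
    exact hdpos (by exact_mod_cast this)
  have hQ2 : 2 ≤ Nat.card Q := by
    have : 1 < Nat.card Q := by
      have h1 : Nontrivial Q := ⟨⟨⟨x, hx⟩, 1, fun h => hx1 (congrArg Subtype.val h)⟩⟩
      exact Finite.one_lt_card
    omega
  have hE1 : E = 1 := by
    have h1 : E ≤ Nat.card Q := hEle.trans hdQ
    have hn1 : n = 1 := by
      have h2 : n * Nat.card Q ≤ 2 * Nat.card Q - 1 := by omega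
      have h3 : n < 2 := by
        by_contra h4
        have h5 : 2 ≤ n := by omega
        have h6 := Nat.mul_le_mul_right (Nat.card Q) h5
        omega
      have h7 : n ≠ 0 := by
        rintro rfl
        omega
      omega
    subst hn1
    omega
  -- so `χ` is irreducible on `C`
  have hCirr : IsIrrCharacter C (χ ∘ C.subtype) := by
    apply isIrrCharacter_of_norm_le_one hCc
    · show χ ((1 : C) : L) ≠ 0
      simp only [OneMemClass.coe_one, hχ1]
      exact_mod_cast hdpos
    · rw [← hER, hE1]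
      simp
  obtain ⟨k, ρ, hρ⟩ := hχc
  obtain ⟨k', σ, hσ, hσc⟩ := hCirr
  have hequiv := equiv_of_character_eq (ρ.comp C.subtype) σ (by
    rw [hσc]
    funext c
    show ρ.character (c : L) = χ c
    rw [hρ])
  obtain ⟨e⟩ := hequiv
  haveI : σ.IsIrreducible := hσ
  haveI : Representation.IsIrreducible (ρ.comp C.subtype) := isIrreducible_of_equiv e.symm
  obtain ⟨ω, hω⟩ := schur_scalar (ρ.comp C.subtype) (ρ x) (by
    intro c
    have hcm : (x : L) * c = c * x :=
      ((hC x hx hx1 c (hCM c.2)).mpr c.2).symm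
    show ρ x ∘ₗ ρ c = ρ c ∘ₗ ρ x
    rw [← Module.End.mul_eq_comp, ← Module.End.mul_eq_comp, ← map_mul, ← map_mul, hcm])
  have h1 : ρ (m * x * m⁻¹ * x⁻¹) = 1 := by
    rw [map_mul, map_mul, map_mul, hω]
    have h2 : ρ m * (ω • (LinearMap.id : (Fin k → ℂ) →ₗ[ℂ] (Fin k → ℂ))) * ρ m⁻¹ =
        ω • (LinearMap.id : (Fin k → ℂ) →ₗ[ℂ] (Fin k → ℂ)) := by
      ext v i
      have h3 : ρ m (ρ m⁻¹ v) = v := by
        rw [← Module.End.mul_apply, ← map_mul]
        simp
      simp [h3, Module.End.mul_apply]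
    rw [h2, ← hω, ← map_mul]
    simp
  rw [← hρ]
  show LinearMap.trace ℂ _ (ρ _) = LinearMap.trace ℂ _ (ρ _)
  rw [h1, map_one ρ]

/-- The statement of `core`, in the ambient group. -/
theorem core_in_group {G : Type u} [Group G] [Fintype G] {p : ℕ} [hp : Fact p.Prime]
    (M : Subgroup G) [hMn : M.Normal] [Fintype M] (hMp : (Nat.card M).Coprime p)
    (Q : Subgroup G) (hQ : IsPGroup p Q)
    (C : Subgroup G) (hCM : C ≤ M)
    (hC : ∀ x ∈ Q, x ≠ 1 → ∀ m ∈ M, (m * x = x * m ↔ m ∈ C))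
    {τ : M → ℂ} (hτ : IsIrrCharacter M τ) (hinv : ∀ g ∈ Q, conjFun M g τ = τ)
    {d : ℕ} (hd : τ 1 = d) (hdQ : d ^ 2 ≤ Nat.card Q) :
    ∀ x ∈ Q, ∀ m : M, ∀ z : M, (z : G) = m * x * (m : G)⁻¹ * x⁻¹ → τ z = τ 1 := by
  classical
  have hclass : IsClassFunction M τ := IsCharacter.isClassFunction (IsIrrCharacter.isCharacter hτ)
  let L : Subgroup G := M ⊔ Q
  have hML : M ≤ L := le_sup_left
  have hQL : Q ≤ L := le_sup_right
  have hCL : C ≤ L := hCM.trans hML
  haveI : Fintype L := Fintype.ofFinite _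
  let M' : Subgroup L := M.subgroupOf L
  let Q' : Subgroup L := Q.subgroupOf L
  let C' : Subgroup L := C.subgroupOf L
  haveI : M'.Normal := Subgroup.Normal.subgroupOf hMn L
  haveI : Fintype M' := Fintype.ofFinite _
  haveI : Fintype Q' := Fintype.ofFinite _
  haveI : Fintype C' := Fintype.ofFinite _
  let e : M' ≃* M := Subgroup.subgroupOfEquivOfLe hML
  have he : ∀ n : M', ((e n : M) : G) = ((n : L) : G) := fun _ => rfl
  let τ' : M' → ℂ := τ ∘ e
  have hτ' : IsIrrCharacter M' τ' := isIrrCharacter_comp_mulEquiv e hτ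
  have hI : L ≤ inertia M τ := sup_le (le_inertia M hclass) hinv
  have hinv' : ∀ g : L, conjFun M' g τ' = τ' := by
    intro g
    have h1 : conjFun M (g : G) τ = τ := hI g.2
    funext n
    have h2 := congrFun h1 (e n)
    rw [conjFun_apply] at h2 ⊢
    show τ (e _) = τ (e n)
    rw [← h2]
    congr 1
  have hcardM : Nat.card M' = Nat.card M := Nat.card_congr e.toEquiv
  have hcardQ : Nat.card Q' = Nat.card Q :=
    Nat.card_congr (Subgroup.subgroupOfEquivOfLe hQL).toEquiv
  have hQ' : IsPGroup p Q' := hQ.comap_subtype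
  have hsup : M' ⊔ Q' = ⊤ := by
    have h1 : (M' ⊔ Q').map L.subtype = (⊤ : Subgroup L).map L.subtype := by
      rw [Subgroup.map_sup]
      simp only [M', Q', Subgroup.subgroupOf_map_subtype, inf_of_le_left hML, inf_of_le_left hQL]
      rw [← MonoidHom.range_eq_map, Subgroup.range_subtype]
    exact Subgroup.map_injective L.subtype_injective h1
  have hC' : ∀ x ∈ Q', x ≠ 1 → ∀ m ∈ M', (m * x = x * m ↔ m ∈ C') := by
    intro x hx hx1 m hm
    have hx1' : (x : G) ≠ 1 := fun h => hx1 (Subtype.ext h)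
    rw [Subgroup.mem_subgroupOf] at hx hm ⊢
    have := hC x hx hx1' m hm
    rw [← this]
    constructor
    · intro h
      exact congrArg Subtype.val h
    · intro h
      exact Subtype.ext h
  have hd' : τ' 1 = d := by
    show τ (e 1) = d
    rw [map_one, hd]
  obtain ⟨χ, -, hχM, hχ⟩ := core M' (hcardM ▸ hMp) Q' hQ' hsup C'
    (fun c hc => by
      rw [Subgroup.mem_subgroupOf] at hc ⊢
      exact hCM hc)
    hC' hτ' hinv' hd' (hcardQ ▸ hdQ)
  intro x hx m z hz
  have hxL : x ∈ L := hQL hx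
  have hmL : (m : G) ∈ L := hML m.2
  have h1 := hχ ⟨x, hxL⟩ (by rw [Subgroup.mem_subgroupOf]; exact hx) ⟨m, hmL⟩
    (by rw [Subgroup.mem_subgroupOf]; exact m.2)
  have hz' : ((⟨m, hmL⟩ : L) * ⟨x, hxL⟩ * (⟨m, hmL⟩ : L)⁻¹ * (⟨x, hxL⟩ : L)⁻¹) =
      (⟨(z : G), hML z.2⟩ : L) := by
    apply Subtype.ext
    simp [hz]
  rw [hz'] at h1
  have h2 := hχM ⟨⟨(z : G), hML z.2⟩, by rw [Subgroup.mem_subgroupOf]; exact z.2⟩
  have h3 := hχM 1
  simp only [OneMemClass.coe_one] at h3
  rw [h2, h3] at h1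
  have h4 : τ' ⟨⟨(z : G), hML z.2⟩, by rw [Subgroup.mem_subgroupOf]; exact z.2⟩ = τ z := rfl
  rw [h4] at h1
  rw [h1]
  show τ (e 1) = τ 1
  rw [map_one]

/-- Frattini step for `p`-soluble groups with a TI Sylow subgroup. -/
theorem sup_normalizer_eq_top {G : Type u} [Group G] [Finite G] {p : ℕ} [hp : Fact p.Prime]
    (hsolv : Cfsg.IsPSolvable p G) (P : Sylow p G)
    (hTI : ∀ g : G, g ∉ Subgroup.normalizer ((P : Subgroup G) : Set G) →
      (P : Subgroup G) ⊓ (MulAut.conj g • (P : Subgroup G)) = ⊥)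
    (hP1 : (P : Subgroup G) ≠ ⊥) :
    pPrimeCore p G ⊔ Subgroup.normalizer ((P : Subgroup G) : Set G) = ⊤ := by
  classical
  have hpp : p.Prime := hp.out
  set M : Subgroup G := pPrimeCore p G with hMdef
  haveI hMn : M.Normal := inferInstance
  have hMc : (Nat.card M).Coprime p := pPrimeCore_coprime p
  let f : G →* G ⧸ M := QuotientGroup.mk' M
  have hf : Function.Surjective f := QuotientGroup.mk'_surjective M
  -- the quotient is nontrivial
  have hdvdP : p ∣ Nat.card (P : Subgroup G) := by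
    obtain ⟨n, hn⟩ := IsPGroup.iff_card.mp P.isPGroup'
    have hne : Nat.card (P : Subgroup G) ≠ 1 := by
      intro h
      exact hP1 ((Subgroup.card_eq_one).mp h)
    rw [hn] at hne ⊢
    have : n ≠ 0 := by
      rintro rfl
      simp at hne
    exact dvd_pow_self p this
  have hMtop : M ≠ ⊤ := by
    intro h
    have h1 : Nat.card M = Nat.card G := by rw [h]; simp
    have h2 : p ∣ Nat.card G := hdvdP.trans (Subgroup.card_subgroup_dvd_card _)
    rw [← h1] at h2
    exact hpp.one_lt.ne' (Nat.eq_one_of_dvd_coprimes hMc.symm (dvd_refl p) h2)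
  haveI : Nontrivial (G ⧸ M) := by
    refine QuotientGroup.nontrivial_iff.mpr ?_
    exact hMtop
  have hsolv' : Cfsg.IsPSolvable p (G ⧸ M) :=
    Cfsg.Agent.Lib.Coprime.isPSolvable_map f hf hsolv
  obtain ⟨N, hNn, hN1, hNc⟩ := Cfsg.Agent.Lib.Coprime.IsPSolvable_exists_normal hsolv'
  let U : Subgroup G := N.comap f
  haveI hUn : U.Normal := hNn.comap f
  have hMU : M ≤ U := by
    intro x hx
    show f x ∈ N
    have : f x = 1 := (QuotientGroup.eq_one_iff x).mpr hx
    rw [this]
    exact N.one_mem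
  have hNex : ∃ y ∈ N, y ≠ 1 := by
    by_contra h
    push Not at h
    exact hN1 ((Subgroup.eq_bot_iff_forall N).mpr h)
  rcases hNc with hNp | hNc
  · -- `N` is a `p`-group
    obtain ⟨Q, hQ⟩ := sylow_inf_of_isSubnormal p U hUn.isSubnormal P
    let g : U →* N :=
      (f.comp U.subtype).codRestrict N (fun u => u.2)
    have hg : Function.Surjective g := by
      rintro ⟨y, hy⟩
      obtain ⟨x, rfl⟩ := hf y
      exact ⟨⟨x, hy⟩, rfl⟩
    have hQtop : (Q : Subgroup U).map g = ⊤ := by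
      have h2 := (Q.mapSurjective hg).is_maximal' (hNp.to_subgroup ⊤) le_top
      rw [Sylow.coe_mapSurjective] at h2
      exact h2.symm
    have hP₀ : (Q : Subgroup U).map U.subtype = (P : Subgroup G) ⊓ U := by
      rw [hQ, Subgroup.subgroupOf_map_subtype]
    have hP₀ne : (P : Subgroup G) ⊓ U ≠ ⊥ := by
      intro h
      rw [h] at hP₀
      have h1 : (Q : Subgroup U) = ⊥ :=
        (Subgroup.map_eq_bot_iff_of_injective _ U.subtype_injective).mp hP₀
      rw [h1, Subgroup.map_bot] at hQtop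
      obtain ⟨y, hy, hy1⟩ := hNex
      have : (⟨y, hy⟩ : N) ∈ (⊥ : Subgroup N) := by rw [hQtop]; trivial
      rw [Subgroup.mem_bot] at this
      exact hy1 (congrArg Subtype.val this)
    -- the normalizer of `P ⊓ U` normalizes `P`
    have hnorm : Subgroup.normalizer (((P : Subgroup G) ⊓ U : Subgroup G) : Set G) ≤
        Subgroup.normalizer ((P : Subgroup G) : Set G) := by
      intro g hg
      by_contra hgn
      have h1 := hTI g hgn
      apply hP₀ne
      rw [eq_bot_iff, ← h1]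
      intro x hx
      refine ⟨hx.1, ?_⟩
      show x ∈ MulAut.conj g • (P : Subgroup G)
      rw [Subgroup.mem_pointwise_smul_iff_inv_smul_mem]
      have h2 : g⁻¹ * x * g ∈ (P : Subgroup G) ⊓ U := by
        have h3 := (Subgroup.mem_normalizer_iff.mp (inv_mem hg) x).mp hx
        simpa using h3
      have h4 : (MulAut.conj g)⁻¹ • x = g⁻¹ * x * g := by
        simp [MulAut.smul_def]
      rw [h4]
      exact h2.1
    -- Frattini
    have hF := Sylow.normalizer_sup_eq_top Q
    have hcoe : (Q.map U.subtype : Subgroup G) = (P : Subgroup G) ⊓ U := hP₀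
    rw [hcoe] at hF
    have hUle : U ≤ M ⊔ Subgroup.normalizer ((P : Subgroup G) : Set G) := by
      intro u hu
      have h1 : (g ⟨u, hu⟩ : N) ∈ (Q : Subgroup U).map g := by rw [hQtop]; trivial
      obtain ⟨q, hq, hqu⟩ := h1
      have h2 : f (q : G) = f u := congrArg Subtype.val hqu
      have h3 : u * (q : G)⁻¹ ∈ M := by
        apply (QuotientGroup.eq_one_iff _).mp
        show f (u * (q : G)⁻¹) = 1
        rw [map_mul, map_inv, h2, mul_inv_cancel]
      have h4 : (q : G) ∈ (P : Subgroup G) := by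
        have h5 : (q : G) ∈ (Q : Subgroup U).map U.subtype := ⟨q, hq, rfl⟩
        rw [hP₀] at h5
        exact h5.1
      have h6 : (q : G) ∈ Subgroup.normalizer ((P : Subgroup G) : Set G) :=
        Subgroup.le_normalizer h4
      have h7 := Subgroup.mul_mem_sup h3 h6
      simpa using h7
    rw [eq_top_iff, ← hF]
    exact sup_le (hnorm.trans le_sup_right) hUle
  · -- `N` is a `p'`-group: impossible
    exfalso
    have hUc : (Nat.card U).Coprime p := by
      apply Nat.Coprime.symm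
      rw [hpp.coprime_iff_not_dvd]
      intro hdvd
      obtain ⟨x, hx⟩ := exists_prime_orderOf_dvd_card' p hdvd
      by_cases hx1 : ((x : U) : G) ∈ M
      · have h1 : orderOf (⟨(x : G), hx1⟩ : M) = p := by
          rw [Subgroup.orderOf_mk, Subgroup.orderOf_coe, hx]
        have h2 : p ∣ Nat.card M := h1 ▸ orderOf_dvd_natCard _
        exact hpp.one_lt.ne' (Nat.eq_one_of_dvd_coprimes hMc.symm (dvd_refl p) h2)
      · have h1 : f (x : G) ≠ 1 := fun h => hx1 ((QuotientGroup.eq_one_iff _).mp h)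
        have h2 : (f (x : G)) ^ p = 1 := by
          rw [← map_pow]
          have : (x : G) ^ p = 1 := by
            have := pow_orderOf_eq_one x
            rw [hx] at this
            exact_mod_cast congrArg Subtype.val this
          rw [this, map_one]
        have h3 : orderOf (⟨f x, x.2⟩ : N) = p := by
          apply orderOf_eq_prime
          · exact Subtype.ext h2
          · intro h
            exact h1 (congrArg Subtype.val h)
        have h4 : p ∣ Nat.card N := h3 ▸ orderOf_dvd_natCard _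
        exact hpp.one_lt.ne' (Nat.eq_one_of_dvd_coprimes hNc.symm (dvd_refl p) h4)
    have hUM : U ≤ M := le_pPrimeCore hUn hUc
    obtain ⟨y, hy, hy1⟩ := hNex
    obtain ⟨x, rfl⟩ := hf y
    have : f x = 1 := (QuotientGroup.eq_one_iff x).mpr (hUM hy)
    exact hy1 this
/-- Commutators with commuting elements. -/
theorem commutator_le_of_commute {G : Type u} [Group G] [Finite G] {p : ℕ} [hp : Fact p.Prime]
    (M : Subgroup G) [hMn : M.Normal] (hMp : (Nat.card M).Coprime p) (P : Subgroup G)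
    (hP : IsPGroup p P) (C : Subgroup G) (hCP : ∀ c ∈ C, ∀ y ∈ P, Commute c y)
    (hF : ∀ x ∈ P, x ≠ 1 → ∀ m ∈ M, m * x = x * m → m ∈ C) {x y : G} (hx : x ∈ P) (hx1 : x ≠ 1)
    (hy : y ∈ P) (hxy : Commute x y) :
    ⁅M, Subgroup.zpowers y⁆ ≤ ⁅M, Subgroup.zpowers x⁆ := by
  classical
  have hact : Cfsg.Agent.Lib.Coprime.CoprimeAction (Subgroup.zpowers x) M := by
    refine ⟨?_, ?_, Or.inl ?_⟩
    · rw [Subgroup.normalizer_eq_top]
      exact le_top
    · rw [Nat.card_zpowers]
      obtain ⟨n, hn⟩ := IsPGroup.iff_card.mp hP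
      have h1 : orderOf x ∣ p ^ n := by
        rw [← hn]
        have := orderOf_dvd_natCard (⟨x, hx⟩ : P)
        rwa [Subgroup.orderOf_mk] at this
      exact Nat.Coprime.coprime_dvd_left h1 (Nat.Coprime.pow_left _ hMp.symm)
    · infer_instance
  rw [Subgroup.commutator_le]
  intro m hm a ha
  obtain ⟨k, rfl⟩ := Subgroup.mem_zpowers_iff.mp ha
  have hax : ∀ a' ∈ Subgroup.zpowers x, Commute (y ^ k) a' := by
    intro a' ha'
    obtain ⟨j, rfl⟩ := Subgroup.mem_zpowers_iff.mp ha'
    exact (hxy.symm.zpow_zpow k j)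
  have hnorm : ∀ u : G, (∀ a' ∈ Subgroup.zpowers x, Commute u a') →
      ∀ b ∈ ⁅M, Subgroup.zpowers x⁆, u * b * u⁻¹ ∈ ⁅M, Subgroup.zpowers x⁆ := by
    intro u hu b hb
    rw [Subgroup.commutator_def] at hb ⊢
    induction hb using Subgroup.closure_induction with
    | mem b hb =>
      obtain ⟨m', hm', a', ha', rfl⟩ := hb
      apply Subgroup.subset_closure
      refine ⟨u * m' * u⁻¹, hMn.conj_mem _ hm' _, a', ha', ?_⟩
      have h1 := (hu a' ha').eq
      simp only [commutatorElement_def]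
      have h4 : u⁻¹ * a' * u = a' := by
        rw [mul_assoc, ← h1]
        group
      have h5 : u⁻¹ * a'⁻¹ = a'⁻¹ * u⁻¹ := (hu a' ha').inv_left.inv_right.eq
      calc u * m' * u⁻¹ * a' * (u * m' * u⁻¹)⁻¹ * a'⁻¹
          = u * m' * (u⁻¹ * a' * u) * m'⁻¹ * (u⁻¹ * a'⁻¹) := by group
        _ = u * m' * a' * m'⁻¹ * (a'⁻¹ * u⁻¹) := by rw [h4, h5]
        _ = _ := by group
    | one => simp
    | mul a b _ _ ha hb =>
      have : u * (a * b) * u⁻¹ = (u * a * u⁻¹) * (u * b * u⁻¹) := by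
        group
      rw [this]
      exact mul_mem ha hb
    | inv a _ ha =>
      have : u * a⁻¹ * u⁻¹ = (u * a * u⁻¹)⁻¹ := by group
      rw [this]
      exact inv_mem ha
  obtain ⟨n, hn, c, hc, rfl⟩ := hact.exists_commutator_mul_centralizer hm
  have hcx : c ∈ C := by
    apply hF x hx hx1 c hc.1
    exact Subgroup.mem_centralizer_iff.mp hc.2 x (Subgroup.mem_zpowers x) |>.symm
  have hcy : Commute c (y ^ k) := (hCP c hcx y hy).zpow_right k
  obtain ⟨u, hu⟩ : ∃ u, u = y ^ k := ⟨_, rfl⟩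
  rw [← hu] at hcy hax ⊢
  have heq : ⁅n * c, u⁆ = n * (u * n⁻¹ * u⁻¹) := by
    simp only [commutatorElement_def]
    calc n * c * u * (n * c)⁻¹ * u⁻¹
        = n * (c * u) * c⁻¹ * n⁻¹ * u⁻¹ := by group
      _ = n * (u * c) * c⁻¹ * n⁻¹ * u⁻¹ := by rw [hcy.eq]
      _ = _ := by group
  rw [heq]
  exact mul_mem hn (hnorm u hax _ (inv_mem hn))

/-- Let G be a finite p-solvable group whose Sylow p-subgroup P meets each conjugate g P g⁻¹ with g outside N_G(P) trivially, and let χ be a faithful character of G (χ g = χ 1 only for g = 1) whose degree d satisfies d² ≤ |P|. Then P is normal in G. -/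
theorem result {G : Type*} [Group G] [Finite G] (p : ℕ) [Fact p.Prime] (hsolv : Cfsg.IsPSolvable p G) (P : Sylow p G) (hTI : ∀ g : G, g ∉ Subgroup.normalizer ((P : Subgroup G) : Set G) → (P : Subgroup G) ⊓ (MulAut.conj g • (P : Subgroup G)) = ⊥) (χ : G → ℂ) (hχ : Cfsg.IsCharacter G χ) (hfaith : ∀ g : G, χ g = χ 1 → g = 1) (hdeg : Cfsg.charDegree χ ^ 2 ≤ Nat.card ↥(P : Subgroup G)) : (P : Subgroup G).Normal := by
  classical
  cases nonempty_fintype G
  have hpp : p.Prime := Fact.out
  by_cases hP1 : (P : Subgroup G) = ⊥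
  · rw [hP1]
    infer_instance
  set M : Subgroup G := pPrimeCore p G with hMdef
  haveI hMn : M.Normal := inferInstance
  haveI : Fintype M := Fintype.ofFinite _
  have hMp : (Nat.card M).Coprime p := pPrimeCore_coprime p
  have hsup := sup_normalizer_eq_top hsolv P hTI hP1
  rw [← hMdef] at hsup
  have hPp : IsPGroup p (P : Subgroup G) := P.isPGroup'
  have hMP : M ⊓ (P : Subgroup G) = ⊥ := by
    apply Subgroup.inf_eq_bot_of_coprime
    obtain ⟨n, hn⟩ := IsPGroup.iff_card.mp hPp
    rw [hn]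
    exact Nat.Coprime.pow_right _ hMp
  let C : Subgroup G := M ⊓ Subgroup.centralizer ((P : Subgroup G) : Set G)
  have hCM : C ≤ M := inf_le_left
  have hF : ∀ x ∈ (P : Subgroup G), x ≠ 1 → ∀ m ∈ M, (m * x = x * m ↔ m ∈ C) := by
    intro x hx hx1 m hm
    constructor
    · intro hcomm
      have hmN : m ∈ Subgroup.normalizer ((P : Subgroup G) : Set G) := by
        by_contra hn
        have h1 := hTI m hn
        have h2 : x ∈ (P : Subgroup G) ⊓ (MulAut.conj m • (P : Subgroup G)) := by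
          refine ⟨hx, ?_⟩
          show x ∈ MulAut.conj m • (P : Subgroup G)
          rw [Subgroup.mem_pointwise_smul_iff_inv_smul_mem]
          have h3 : (MulAut.conj m)⁻¹ • x = m⁻¹ * x * m := by
            simp [MulAut.smul_def]
          rw [h3]
          have h4 : m⁻¹ * x * m = x := by
            rw [mul_assoc, ← hcomm]
            group
          rw [h4]
          exact hx
        rw [h1, Subgroup.mem_bot] at h2
        exact hx1 h2
      refine ⟨hm, ?_⟩
      show m ∈ Subgroup.centralizer ((P : Subgroup G) : Set G)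
      rw [Subgroup.mem_centralizer_iff]
      intro y hy
      have hy' : y ∈ (P : Subgroup G) := hy
      have h1 : m * y * m⁻¹ ∈ (P : Subgroup G) :=
        (Subgroup.mem_normalizer_iff.mp hmN y).mp hy'
      have h2 : m * y * m⁻¹ * y⁻¹ ∈ (P : Subgroup G) := mul_mem h1 (inv_mem hy')
      have h3 : m * y * m⁻¹ * y⁻¹ ∈ M := by
        have h4 : y * m⁻¹ * y⁻¹ ∈ M := hMn.conj_mem _ (inv_mem hm) y
        have h5 : m * y * m⁻¹ * y⁻¹ = m * (y * m⁻¹ * y⁻¹) := by group
        rw [h5]
        exact mul_mem hm h4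
      have h6 : m * y * m⁻¹ * y⁻¹ ∈ M ⊓ (P : Subgroup G) := ⟨h3, h2⟩
      rw [hMP, Subgroup.mem_bot] at h6
      have h7 : m * y = y * m := by
        have h8 : m * y * m⁻¹ = y := by
          calc m * y * m⁻¹ = m * y * m⁻¹ * y⁻¹ * y := by group
            _ = y := by rw [h6, one_mul]
        calc m * y = m * y * m⁻¹ * m := by group
          _ = y * m := by rw [h8]
      exact h7.symm
    · intro hm'
      exact (Subgroup.mem_centralizer_iff.mp hm'.2 x hx).symm
  have hCP : ∀ c ∈ C, ∀ y ∈ (P : Subgroup G), Commute c y := fun c hc y hy =>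
    (Subgroup.mem_centralizer_iff.mp hc.2 y hy).symm
  -- the main assertion for irreducible characters
  have hkey : ∀ ψ : G → ℂ, IsIrrCharacter G ψ → ∀ d : ℕ, ψ 1 = d →
      d ^ 2 ≤ Nat.card (P : Subgroup G) → ∀ m ∈ M, ∀ y ∈ (P : Subgroup G),
        ψ (m * y * m⁻¹ * y⁻¹) = ψ 1 := by
    intro ψ hψ d hd hdP m hm y hy
    have hzM : m * y * m⁻¹ * y⁻¹ ∈ M := by
      have h4 : y * m⁻¹ * y⁻¹ ∈ M := hMn.conj_mem _ (inv_mem hm) y
      have h5 : m * y * m⁻¹ * y⁻¹ = m * (y * m⁻¹ * y⁻¹) := by group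
      rw [h5]
      exact mul_mem hm h4
    let z : M := ⟨m * y * m⁻¹ * y⁻¹, hzM⟩
    have hres : IsCharacter M (resFun M ψ) := isCharacter_resFun M (IsIrrCharacter.isCharacter hψ)
    obtain ⟨n, hn, hsum⟩ := IsCharacter.exists_eq_sum hres
    suffices hτ : ∀ τ : IrrCharacter M, n τ ≠ 0 → (τ : M → ℂ) z = (τ : M → ℂ) 1 by
      have h1 := congrFun hsum z
      have h2 := congrFun hsum 1
      simp only [Finset.sum_apply, Pi.smul_apply] at h1 h2
      have h3 : resFun M ψ z = ψ (m * y * m⁻¹ * y⁻¹) := rfl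
      have h4 : resFun M ψ 1 = ψ 1 := rfl
      rw [← h3, ← h4, h1, h2]
      refine Finset.sum_congr rfl fun τ _ => ?_
      by_cases h0 : n τ = 0
      · simp [h0]
      · rw [hτ τ h0]
    intro τ hτ0
    have hτi : IsIrrCharacter M (τ : M → ℂ) := τ.2
    obtain ⟨t, ht⟩ := IsCharacter.apply_one (IsIrrCharacter.isCharacter hτi)
    have htpos : t ≠ 0 := by
      intro h0
      apply IsIrrCharacter.apply_one_ne_zero hτi
      rw [ht, h0]
      simp
    have hdeg := clifford_degree_nat M hψ hτi (by rw [hn]; exact_mod_cast hτ0) hd ht (hn τ)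
    let I : Subgroup G := inertia M (τ : M → ℂ)
    let P₁ : Subgroup G := (P : Subgroup G) ⊓ I
    have hb : I.relIndex (P : Subgroup G) ≤ I.index := by
      have := Subgroup.relIndex_le_of_le_right (H := I) (K := (P : Subgroup G)) (L := ⊤) le_top
        (by rw [Subgroup.relIndex_top_right]; exact Subgroup.FiniteIndex.index_ne_zero)
      rwa [Subgroup.relIndex_top_right] at this
    have hab : Nat.card P₁ * I.relIndex (P : Subgroup G) = Nat.card (P : Subgroup G) := by
      have h1 : Nat.card P₁ = Nat.card (I.subgroupOf (P : Subgroup G)) := by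
        apply Nat.card_congr
        exact (Subgroup.subgroupOfEquivOfLe (inf_le_left : P₁ ≤ (P : Subgroup G))).toEquiv.symm.trans
          (MulEquiv.subgroupCongr (by
            rw [Subgroup.inf_subgroupOf_left])).toEquiv
      rw [h1]
      exact Subgroup.card_mul_index (I.subgroupOf (P : Subgroup G))
    set a := Nat.card P₁ with ha
    set b := I.relIndex (P : Subgroup G) with hbd
    have hde : b * t ≤ d := by
      rw [hdeg]
      have he : 1 ≤ n τ := Nat.one_le_iff_ne_zero.mpr hτ0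
      calc b * t ≤ I.index * t := Nat.mul_le_mul_right _ hb
        _ ≤ n τ * I.index * t := by
          apply Nat.mul_le_mul_right
          exact Nat.le_mul_of_pos_left _ he
    have hbpos : 0 < b := by
      rcases Nat.eq_zero_or_pos b with h | h
      · rw [h, mul_zero] at hab
        have : 0 < Nat.card (P : Subgroup G) := Nat.card_pos
        omega
      · exact h
    have hapos : 0 < a := Nat.card_pos
    have hba : b * t ^ 2 ≤ a := by
      have h1 : (b * t) ^ 2 ≤ a * b := by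
        calc (b * t) ^ 2 ≤ d ^ 2 := Nat.pow_le_pow_left hde 2
          _ ≤ Nat.card (P : Subgroup G) := hdP
          _ = a * b := hab.symm
      have h2 : b * (b * t ^ 2) ≤ b * a := by
        calc b * (b * t ^ 2) = (b * t) ^ 2 := by ring
          _ ≤ a * b := h1
          _ = b * a := by ring
      exact Nat.le_of_mul_le_mul_left h2 hbpos
    have htt : t ^ 2 ≤ a := by
      calc t ^ 2 = 1 * t ^ 2 := by ring
        _ ≤ b * t ^ 2 := Nat.mul_le_mul_right _ hbpos
        _ ≤ a := hba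
    have hP₁ne : P₁ ≠ ⊥ := by
      intro h
      have h1 : a = 1 := by
        rw [ha, h]
        simp
      have h2 : b * t ^ 2 ≤ 1 := h1 ▸ hba
      have h3 : 1 ≤ t ^ 2 := Nat.one_le_pow _ _ (Nat.pos_of_ne_zero htpos)
      have h4 : b = 1 := by
        have h5 : b ≤ b * t ^ 2 := Nat.le_mul_of_pos_right _ (by omega)
        omega
      rw [h1, h4] at hab
      have h6 : (P : Subgroup G) = ⊥ := (Subgroup.card_eq_one).mp (by omega)
      exact hP1 h6
    have hP₁p : IsPGroup p P₁ := hPp.to_le inf_le_left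
    obtain ⟨x, hx, hx1⟩ : ∃ x ∈ P₁, x ≠ 1 := by
      by_contra h
      push Not at h
      exact hP₁ne ((Subgroup.eq_bot_iff_forall P₁).mpr h)
    have hcore := core_in_group M hMp P₁ hP₁p C hCM
      (fun x hx hx1 m hm => hF x hx.1 hx1 m hm) hτi
      (fun g hg => hg.2) ht htt
    -- the kernel
    let K : Subgroup G := (charKer (τ : M → ℂ)).map M.subtype
    have hτc : IsCharacter M (τ : M → ℂ) := IsIrrCharacter.isCharacter hτi
    have hK1 : ⁅M, Subgroup.zpowers x⁆ ≤ K := by
      rw [Subgroup.commutator_le]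
      intro m' hm' a' ha'
      have ha'P₁ : a' ∈ P₁ := (Subgroup.zpowers_le.mpr hx) ha'
      have hz' : ⁅m', a'⁆ ∈ M := by
        have h4 : a' * m'⁻¹ * a'⁻¹ ∈ M := hMn.conj_mem _ (inv_mem hm') a'
        rw [commutatorElement_def]
        have h5 : m' * a' * m'⁻¹ * a'⁻¹ = m' * (a' * m'⁻¹ * a'⁻¹) := by group
        rw [h5]
        exact mul_mem hm' h4
      refine ⟨⟨⁅m', a'⁆, hz'⟩, ?_, rfl⟩
      show (⟨⁅m', a'⁆, hz'⟩ : M) ∈ charKer (τ : M → ℂ)
      rw [mem_charKer hτc]
      exact hcore a' ha'P₁ ⟨m', hm'⟩ _ rfl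
    haveI hPnt : Nontrivial (P : Subgroup G) := by
      refine ⟨⟨⟨x, hx.1⟩, 1, fun h => hx1 (congrArg Subtype.val h)⟩⟩
    haveI := hPp.center_nontrivial
    obtain ⟨x₀, hx₀⟩ := exists_ne (1 : Subgroup.center (P : Subgroup G))
    have hx₀P : ((x₀ : (P : Subgroup G)) : G) ∈ (P : Subgroup G) := (x₀ : (P : Subgroup G)).2
    have hx₀1 : ((x₀ : (P : Subgroup G)) : G) ≠ 1 := by
      intro h
      apply hx₀
      apply Subtype.ext
      apply Subtype.ext
      exact h
    have hx₀c : ∀ w ∈ (P : Subgroup G), Commute ((x₀ : (P : Subgroup G)) : G) w := by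
      intro w hw
      have h1 := (Subgroup.mem_center_iff.mp x₀.2 ⟨w, hw⟩)
      have h2 := congrArg Subtype.val h1
      exact h2.symm
    have hF' : ∀ x ∈ (P : Subgroup G), x ≠ 1 → ∀ m ∈ M, m * x = x * m → m ∈ C :=
      fun x hx hx1 m hm h => (hF x hx hx1 m hm).mp h
    have h1 := commutator_le_of_commute M hMp (P : Subgroup G) hPp C hCP hF' hx₀P hx₀1 hy (hx₀c y hy)
    have h2 := commutator_le_of_commute M hMp (P : Subgroup G) hPp C hCP hF' hx.1 hx1 hx₀P
      (hx₀c x hx.1).symm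
    have h3 : m * y * m⁻¹ * y⁻¹ ∈ K := by
      apply hK1
      apply h2
      apply h1
      have := Subgroup.commutator_mem_commutator hm (Subgroup.mem_zpowers y)
      rwa [commutatorElement_def] at this
    obtain ⟨w, hw, hw2⟩ := h3
    have h4 : w = z := Subtype.ext hw2
    rw [← h4]
    exact (mem_charKer hτc).mp hw
  -- conclude
  obtain ⟨N, hN, hχs⟩ := IsCharacter.exists_eq_sum hχ
  obtain ⟨D, hD⟩ := IsCharacter.apply_one hχ
  have hdeg' : charDegree χ = D := charDegree_eq hD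
  rw [hdeg'] at hdeg
  have hψ1 : ∀ ψ : IrrCharacter G, ∃ d : ℕ, (ψ : G → ℂ) 1 = d :=
    fun ψ => IsCharacter.apply_one (IsIrrCharacter.isCharacter ψ.2)
  choose dd hdd using hψ1
  have hDsum : D = ∑ ψ, N ψ * dd ψ := by
    have h1 := congrFun hχs 1
    simp only [Finset.sum_apply, Pi.smul_apply] at h1
    rw [hD] at h1
    simp only [hdd, nsmul_eq_mul] at h1
    exact_mod_cast h1
  have hcomm : ∀ m ∈ M, ∀ y ∈ (P : Subgroup G), m * y * m⁻¹ * y⁻¹ = 1 := by
    intro m hm y hy
    apply hfaith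
    have h1 := congrFun hχs (m * y * m⁻¹ * y⁻¹)
    have h2 := congrFun hχs 1
    simp only [Finset.sum_apply, Pi.smul_apply] at h1 h2
    rw [h1, h2]
    refine Finset.sum_congr rfl fun ψ _ => ?_
    by_cases h0 : N ψ = 0
    · simp [h0]
    · have hle : dd ψ ≤ D := by
        rw [hDsum]
        calc dd ψ ≤ N ψ * dd ψ := Nat.le_mul_of_pos_left _ (Nat.pos_of_ne_zero h0)
          _ ≤ ∑ ψ, N ψ * dd ψ :=
            Finset.single_le_sum (f := fun ψ => N ψ * dd ψ) (fun _ _ => Nat.zero_le _)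
              (Finset.mem_univ ψ)
      have h3 : dd ψ ^ 2 ≤ Nat.card (P : Subgroup G) :=
        (Nat.pow_le_pow_left hle 2).trans hdeg
      rw [hkey (ψ : G → ℂ) ψ.2 (dd ψ) (hdd ψ) h3 m hm y hy]
  have hMN : M ≤ Subgroup.normalizer ((P : Subgroup G) : Set G) := by
    intro m hm
    rw [Subgroup.mem_normalizer_iff]
    intro y
    constructor
    · intro hy
      have h1 := hcomm m hm y hy
      have h2 : m * y * m⁻¹ = y := by
        calc m * y * m⁻¹ = m * y * m⁻¹ * y⁻¹ * y := by group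
          _ = y := by rw [h1, one_mul]
      rw [h2]
      exact hy
    · intro hy
      have h1 := hcomm m hm _ hy
      have h4 : m * (m * y * m⁻¹) * m⁻¹ = m * y * m⁻¹ := by
        calc m * (m * y * m⁻¹) * m⁻¹
            = m * (m * y * m⁻¹) * m⁻¹ * (m * y * m⁻¹)⁻¹ * (m * y * m⁻¹) := by group
          _ = _ := by rw [h1, one_mul]
      have h5 := mul_right_cancel h4
      have h6 := mul_left_cancel h5
      rwa [h6] at hy
  have htop : Subgroup.normalizer ((P : Subgroup G) : Set G) = ⊤ := by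
    rw [eq_top_iff, ← hsup]
    exact sup_le hMN le_rfl
  exact Subgroup.normalizer_eq_top_iff.mp htop

end Cfsg.Agent.S4748
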