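import Cfsg.Statements.S4754
import Cfsg.Agent.Lib.Char.Kernel
import Cfsg.Agent.Lib.Char.Schur

set_option autoImplicit false
open Cfsg

namespace Cfsg.Agent.S4754

theorem isConj_of_forall_irr_eq {G : Type*} [Group G] [Fintype G] {g h : G}
    (H : ∀ χ : Cfsg.IrrCharacter G, (χ : G → ℂ) g = (χ : G → ℂ) h) : IsConj g h := by
  classical
  by_contra hc
  have h0 := Cfsg.Agent.Lib.Char.sum_irr_mul_conj_of_not_isConj hc
  have h1 := Cfsg.Agent.Lib.Char.sum_irr_mul_conj_of_isConj (IsConj.refl g)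
  have h2 : ∑ χ : Cfsg.IrrCharacter G, (χ : G → ℂ) g * (starRingEnd ℂ) ((χ : G → ℂ) h) =
      ∑ χ : Cfsg.IrrCharacter G, (χ : G → ℂ) g * (starRingEnd ℂ) ((χ : G → ℂ) g) := by
    refine Finset.sum_congr rfl fun χ _ => ?_
    rw [H χ]
  rw [h2, h1] at h0
  have : 0 < Nat.card (Subgroup.centralizer ({g} : Set G)) := Nat.card_pos
  have h3 : Nat.card (Subgroup.centralizer ({g} : Set G)) = 0 := by exact_mod_cast h0
  omega

/-- For elements x, y of a finite group G, the conjugacy class of x y equals the set of all products of a conjugate of x with a conjugate of y if and only if χ(1) χ(a x a⁻¹ b y b⁻¹) = χ(x) χ(y) for all a, b ∈ G and every irreducible character χ. -/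
theorem result {G : Type*} [Group G] [Finite G] (x y : G) : (∀ z : G, IsConj (x * y) z ↔ ∃ a b : G, z = a * x * a⁻¹ * (b * y * b⁻¹)) ↔ ∀ (a b : G) (χ : Cfsg.IrrCharacter G), (χ : G → ℂ) 1 * (χ : G → ℂ) (a * x * a⁻¹ * (b * y * b⁻¹)) = (χ : G → ℂ) x * (χ : G → ℂ) y := by
  classical
  letI := Fintype.ofFinite G
  have hconj : ∀ (χ : Cfsg.IrrCharacter G) {u v : G}, IsConj u v → (χ : G → ℂ) u = (χ : G → ℂ) v := by
    intro χ u v huv
    exact Cfsg.Agent.Lib.Char.IsClassFunction.congr_isConj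
      (Cfsg.Agent.Lib.Char.IsCharacter.isClassFunction (Cfsg.Agent.Lib.Char.IsIrrCharacter.isCharacter χ.2)) huv
  constructor
  · intro H a b χ
    have h1 : ∀ c : G, (χ : G → ℂ) (c * x * c⁻¹ * y) = (χ : G → ℂ) (x * y) := by
      intro c
      have : IsConj (x * y) (c * x * c⁻¹ * y) := (H _).mpr ⟨c, 1, by simp⟩
      exact (hconj χ this).symm
    have h2 := Cfsg.Agent.Lib.Char.IsIrrCharacter.sum_conj_mul χ.2 x y
    simp only [h1, Finset.sum_const, Finset.card_univ, nsmul_eq_mul] at h2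
    have hG : ((Nat.card G : ℕ) : ℂ) ≠ 0 := NeZero.ne _
    have h3 : (χ : G → ℂ) 1 * (χ : G → ℂ) (x * y) = (χ : G → ℂ) x * (χ : G → ℂ) y := by
      apply mul_left_cancel₀ hG
      rw [Nat.card_eq_fintype_card] at hG h2 ⊢
      linear_combination h2
    have h4 : IsConj (x * y) (a * x * a⁻¹ * (b * y * b⁻¹)) := (H _).mpr ⟨a, b, rfl⟩
    rw [← hconj χ h4, h3]
  · intro H z
    constructor
    · intro hz
      obtain ⟨c, rfl⟩ := isConj_iff.mp hz
      exact ⟨c, c, by group⟩
    · rintro ⟨a, b, rfl⟩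
      apply isConj_of_forall_irr_eq
      intro χ
      have hd : (χ : G → ℂ) 1 ≠ 0 := Cfsg.Agent.Lib.Char.IsIrrCharacter.apply_one_ne_zero χ.2
      apply mul_left_cancel₀ hd
      have h1 := H a b χ
      have h2 := H 1 1 χ
      simp only [one_mul, inv_one, mul_one] at h2
      rw [h1, h2]

end Cfsg.Agent.S4754
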