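import Cfsg.Statements.S4755
import Cfsg.Agent.Lib.Char.Gallagher
import Cfsg.Agent.Lib.Char.Schur

set_option autoImplicit false
open Cfsg

namespace Cfsg.Agent.S4755

theorem isConj_of_forall_irr_eq {G : Type*} [Group G] [Fintype G] {g h : G}
    (H : ∀ χ : Cfsg.IrrCharacter G, (χ : G → ℂ) g = (χ : G → ℂ) h) : IsConj g h := by
  classical
  by_contra hc
  have h0 := Cfsg.Agent.Lib.Char.sum_irr_mul_conj_of_not_isConj hc
  have h1 := Cfsg.Agent.Lib.Char.sum_irr_mul_conj_of_isConj (IsConj.refl g)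
  have h2 : ∑ χ : Cfsg.IrrCharacter G, (χ : G → ℂ) g * (starRingEnd ℂ) ((χ : G → ℂ) h) =
      ∑ χ : Cfsg.IrrCharacter G, (χ : G → ℂ) g * (starRingEnd ℂ) ((χ : G → ℂ) g) := by
    refine Finset.sum_congr rfl fun χ _ => ?_
    rw [H χ]
  rw [h2, h1] at h0
  have : 0 < Nat.card (Subgroup.centralizer ({g} : Set G)) := Nat.card_pos
  have h3 : Nat.card (Subgroup.centralizer ({g} : Set G)) = 0 := by exact_mod_cast h0
  omega

open Cfsg Cfsg.Agent.Lib.Char in
theorem coset_class {G : Type*} [Group G] [Fintype G] (w : G)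
    (hv : ∀ χ : IrrCharacter G, (χ : G → ℂ) 1 ≠ 1 → (χ : G → ℂ) w = 0) (z : G)
    (hz : w⁻¹ * z ∈ commutator G) : IsConj w z := by
  classical
  have hc : (Nat.card (Subgroup.centralizer ({w} : Set G)) : ℂ) = ((commutator G).index : ℂ) := by
    rw [← sum_irr_mul_conj_of_isConj (IsConj.refl w), ← card_linear_eq_index_commutator,
      Nat.card_eq_fintype_card, Fintype.card_subtype]
    rw [Finset.card_filter]
    push_cast
    refine Finset.sum_congr rfl fun χ _ => ?_
    split_ifs with h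
    · rw [Complex.mul_conj, Complex.normSq_eq_norm_sq,
        norm_eq_one_of_degree_one (IsIrrCharacter.isCharacter χ.2) h w]
      simp
    · rw [hv χ h]
      simp
  have hc' : Nat.card (Subgroup.centralizer ({w} : Set G)) = (commutator G).index := by
    exact_mod_cast hc
  have h1 := card_conj_mul_card_centralizer w
  have h2 := Subgroup.card_mul_index (commutator G)
  rw [hc'] at h1
  have hidx : 0 < (commutator G).index := Nat.pos_of_ne_zero Subgroup.index_ne_zero_of_finite
  have h3 : Nat.card {x : G // IsConj w x} = Nat.card (commutator G) := by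
    apply Nat.eq_of_mul_eq_mul_right hidx
    rw [h1, h2]
  have h4 : Nat.card {x : G // w⁻¹ * x ∈ commutator G} = Nat.card (commutator G) := by
    apply Nat.card_congr
    refine ⟨fun x => ⟨_, x.2⟩, fun n => ⟨w * n, by simp⟩, ?_, ?_⟩
    · intro x; simp
    · intro n; simp
  have hsub : {x : G | IsConj w x} ⊆ {x : G | w⁻¹ * x ∈ commutator G} := by
    intro x hx
    obtain ⟨c, rfl⟩ := isConj_iff.mp hx
    have : w⁻¹ * (c * w * c⁻¹) = w⁻¹ * c * (w⁻¹)⁻¹ * c⁻¹ := by
      group
    show w⁻¹ * (c * w * c⁻¹) ∈ commutator G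
    rw [this]
    exact Subgroup.commutator_mem_commutator (Subgroup.mem_top _) (Subgroup.mem_top _)
  have heq : {x : G | IsConj w x} = {x : G | w⁻¹ * x ∈ commutator G} := by
    apply Set.eq_of_subset_of_ncard_le hsub
    rw [← Nat.card_coe_set_eq, ← Nat.card_coe_set_eq]
    show Nat.card {x : G // w⁻¹ * x ∈ commutator G} ≤ Nat.card {x : G // IsConj w x}
    rw [h3, h4]
  have : z ∈ {x : G | w⁻¹ * x ∈ commutator G} := hz
  rw [← heq] at this
  exact this

/-- Let x, y be non-identity elements of the finite group G such that χ(x' y') = χ(x') χ(y') for all conjugates x' of x, y' of y and every irreducible character χ. Then the conjugacy class of x y is the set of all products of a conjugate of x with a conjugate of y; every irreducible character of degree greater than 1 vanishes at x y; and the conjugacy class of x y is the coset of the commutator subgroup containing x y. -/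
theorem result {G : Type*} [Group G] [Finite G] (x y : G) (hx : x ≠ 1) (hy : y ≠ 1) (h : ∀ (a b : G) (χ : Cfsg.IrrCharacter G), (χ : G → ℂ) (a * x * a⁻¹ * (b * y * b⁻¹)) = (χ : G → ℂ) (a * x * a⁻¹) * (χ : G → ℂ) (b * y * b⁻¹)) : (∀ z : G, IsConj (x * y) z ↔ ∃ a b : G, z = a * x * a⁻¹ * (b * y * b⁻¹)) ∧ (∀ χ : Cfsg.IrrCharacter G, (χ : G → ℂ) 1 ≠ 1 → (χ : G → ℂ) (x * y) = 0) ∧ (∀ z : G, IsConj (x * y) z ↔ (x * y)⁻¹ * z ∈ commutator G) := by
  classical
  letI := Fintype.ofFinite G
  have hconj : ∀ (χ : Cfsg.IrrCharacter G) {u v : G}, IsConj u v → (χ : G → ℂ) u = (χ : G → ℂ) v := by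
    intro χ u v huv
    exact Cfsg.Agent.Lib.Char.IsClassFunction.congr_isConj
      (Cfsg.Agent.Lib.Char.IsCharacter.isClassFunction (Cfsg.Agent.Lib.Char.IsIrrCharacter.isCharacter χ.2)) huv
  have hval : ∀ (a b : G) (χ : Cfsg.IrrCharacter G),
      (χ : G → ℂ) (a * x * a⁻¹ * (b * y * b⁻¹)) = (χ : G → ℂ) x * (χ : G → ℂ) y := by
    intro a b χ
    rw [h a b χ, hconj χ (isConj_iff.mpr ⟨a, rfl⟩).symm, hconj χ (isConj_iff.mpr ⟨b, rfl⟩).symm]
  have hxy : ∀ χ : Cfsg.IrrCharacter G, (χ : G → ℂ) (x * y) = (χ : G → ℂ) x * (χ : G → ℂ) y := by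
    intro χ
    have := hval 1 1 χ
    simpa using this
  have hv : ∀ χ : Cfsg.IrrCharacter G, (χ : G → ℂ) 1 ≠ 1 → (χ : G → ℂ) (x * y) = 0 := by
    intro χ hχ
    have h2 := Cfsg.Agent.Lib.Char.IsIrrCharacter.sum_conj_mul χ.2 x y
    have h3 : ∀ a : G, (χ : G → ℂ) (a * x * a⁻¹ * y) = (χ : G → ℂ) x * (χ : G → ℂ) y := by
      intro a
      have := hval a 1 χ
      simpa using this
    simp only [h3, Finset.sum_const, Finset.card_univ, nsmul_eq_mul] at h2
    rw [← Nat.card_eq_fintype_card] at h2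
    have hG : ((Nat.card G : ℕ) : ℂ) ≠ 0 := NeZero.ne _
    rw [hxy]
    have h4 : ((χ : G → ℂ) 1 - 1) * ((Nat.card G : ℂ) * ((χ : G → ℂ) x * (χ : G → ℂ) y)) = 0 := by
      linear_combination h2
    rcases mul_eq_zero.mp h4 with h5 | h5
    · exact absurd (sub_eq_zero.mp h5) hχ
    · exact (mul_eq_zero.mp h5).resolve_left hG
  refine ⟨?_, hv, ?_⟩
  · intro z
    constructor
    · intro hz
      obtain ⟨c, rfl⟩ := isConj_iff.mp hz
      exact ⟨c, c, by group⟩
    · rintro ⟨a, b, rfl⟩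
      apply isConj_of_forall_irr_eq
      intro χ
      rw [hval, hxy]
  · intro z
    constructor
    · intro hz
      obtain ⟨c, rfl⟩ := isConj_iff.mp hz
      have : (x * y)⁻¹ * (c * (x * y) * c⁻¹) = (x * y)⁻¹ * c * ((x * y)⁻¹)⁻¹ * c⁻¹ := by
        group
      rw [this]
      exact Subgroup.commutator_mem_commutator (Subgroup.mem_top _) (Subgroup.mem_top _)
    · exact coset_class (x * y) hv z

end Cfsg.Agent.S4755
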