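import Cfsg.Statements.S4756
import Cfsg.Agent.Lib.Char.Linear
import Cfsg.Agent.Lib.Char.Gallagher
import Cfsg.Agent.Lib.Char.Schur
import Cfsg.Agent.Lib.Char.Kernel
import Cfsg.Agent.Lib.Coprime.Action
import Cfsg.Agent.Lib.PGroups.Parts

set_option autoImplicit false
open Cfsg

namespace Cfsg.Agent.S4756

open Cfsg.Agent.Lib.Char
open scoped ComplexConjugate commutatorElement

universe u

section Chars

variable {G : Type u} [Group G] [Fintype G]

/-- Two elements of prime power orders for two different primes. -/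
abbrev PP (x y : G) : Prop :=
  ∃ p q a b : ℕ, p.Prime ∧ q.Prime ∧ p ≠ q ∧ orderOf x = p ^ a ∧ orderOf y = q ^ b

/-- The multiplicativity hypothesis. -/
abbrev Hyp (G : Type u) [Group G] [Fintype G] : Prop :=
  ∀ (x y : G) (χ : IrrCharacter G), x ≠ 1 → y ≠ 1 → PP x y →
    (χ : G → ℂ) (x * y) = (χ : G → ℂ) x * (χ : G → ℂ) y

theorem orderOf_conj' (a x : G) : orderOf (a * x * a⁻¹) = orderOf x := by
  have := orderOf_injective (MulAut.conj a).toMonoidHom (MulAut.conj a).injective x
  simpa [MulAut.conj_apply] using this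

/-- Nonlinear characters annihilate such pairs. -/
theorem vanish (H : Hyp G) {x y : G} (hx : x ≠ 1) (hy : y ≠ 1) (hP : PP x y) (χ : IrrCharacter G)
    (hχ1 : (χ : G → ℂ) 1 ≠ 1) :
    (χ : G → ℂ) x * (χ : G → ℂ) y = 0 ∧ (χ : G → ℂ) (x * y) = 0 := by
  have hcl := IsCharacter.isClassFunction (IsIrrCharacter.isCharacter χ.2)
  have h1 : ∀ a : G, (χ : G → ℂ) (a * x * a⁻¹ * y) = (χ : G → ℂ) x * (χ : G → ℂ) y := by
    intro a
    have hne : a * x * a⁻¹ ≠ 1 := by
      intro h
      apply hx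
      have h2 : a * x = a := by rwa [mul_inv_eq_one] at h
      simpa using h2
    have hP' : PP (a * x * a⁻¹) y := by
      obtain ⟨p, q, u, v, hp, hq, hpq, h3, h4⟩ := hP
      exact ⟨p, q, u, v, hp, hq, hpq, by rw [orderOf_conj', h3], h4⟩
    rw [H _ y χ hne hy hP', hcl]
  have h2 := IsIrrCharacter.sum_conj_mul χ.2 x y
  simp only [h1, Finset.sum_const, Finset.card_univ, nsmul_eq_mul] at h2
  rw [← Nat.card_eq_fintype_card] at h2
  have hG : (Nat.card G : ℂ) ≠ 0 := NeZero.ne _
  have h3 : ((χ : G → ℂ) 1 - 1) * ((χ : G → ℂ) x * (χ : G → ℂ) y) = 0 := by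
    apply mul_left_cancel₀ hG
    rw [mul_zero]
    linear_combination h2
  have h4 := (mul_eq_zero.mp h3).resolve_left (sub_ne_zero.mpr hχ1)
  exact ⟨h4, by rw [H x y χ hx hy hP, h4]⟩

/-- Linear characters are trivial on the commutator subgroup. -/
theorem linear_eq_one (χ : IrrCharacter G) (hχ1 : (χ : G → ℂ) 1 = 1) {z : G}
    (hz : z ∈ commutator G) : (χ : G → ℂ) z = 1 := by
  obtain ⟨lam, hlam⟩ := IsCharacter.exists_monoidHom (IsIrrCharacter.isCharacter χ.2) hχ1
  have h1 : z ∈ lam.ker := Abelianization.commutator_subset_ker lam hz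
  rw [hlam]
  show ((lam z : ℂˣ) : ℂ) = 1
  rw [MonoidHom.mem_ker.mp h1]
  rfl

theorem card_linear_pos : (0 : ℂ) ≠ (Nat.card {χ : IrrCharacter G // (χ : G → ℂ) 1 = 1} : ℂ) := by
  have : Nonempty {χ : IrrCharacter G // (χ : G → ℂ) 1 = 1} :=
    ⟨⟨⟨_, isIrrCharacter_one⟩, rfl⟩⟩
  have h2 : Nat.card {χ : IrrCharacter G // (χ : G → ℂ) 1 = 1} ≠ 0 := Nat.card_pos.ne'
  exact_mod_cast h2.symm

theorem sum_linear (f : IrrCharacter G → ℂ) (h0 : ∀ χ : IrrCharacter G, (χ : G → ℂ) 1 ≠ 1 → f χ = 0)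
    (h1 : ∀ χ : IrrCharacter G, (χ : G → ℂ) 1 = 1 → f χ = 1) :
    ∑ χ, f χ = (Nat.card {χ : IrrCharacter G // (χ : G → ℂ) 1 = 1} : ℂ) := by
  classical
  rw [Nat.card_eq_fintype_card, Fintype.card_subtype]
  rw [← Finset.sum_filter_add_sum_filter_not Finset.univ (fun χ : IrrCharacter G => (χ : G → ℂ) 1 = 1)]
  rw [Finset.sum_eq_card_nsmul (b := 1) (fun χ hχ => h1 χ (Finset.mem_filter.mp hχ).2)]
  rw [Finset.sum_eq_zero (fun χ hχ => h0 χ (Finset.mem_filter.mp hχ).2)]
  simp

/-- The commutator subgroup cannot contain a pair of such elements. -/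
theorem not_both_comm (H : Hyp G) {z w : G} (hz : z ∈ commutator G) (hw : w ∈ commutator G)
    (hz1 : z ≠ 1) (hw1 : w ≠ 1) (hP : PP z w) : False := by
  have hnc : ¬ IsConj z w := by
    intro hc
    obtain ⟨p, q, a, b, hp, hq, hpq, h1, h2⟩ := hP
    obtain ⟨c, rfl⟩ := isConj_iff.mp hc
    rw [orderOf_conj'] at h2
    have ha : a ≠ 0 := by
      rintro rfl
      rw [pow_zero, orderOf_eq_one_iff] at h1
      exact hz1 h1
    have h3 : p ∣ q ^ b := by
      rw [← h2, h1]
      exact dvd_pow_self p ha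
    exact hpq ((Nat.prime_dvd_prime_iff_eq hp hq).mp (hp.dvd_of_dvd_pow h3))
  have h1 := sum_irr_mul_conj_of_not_isConj hnc
  rw [sum_linear _ ?_ ?_] at h1
  · exact card_linear_pos h1.symm
  · intro χ hχ
    have h2 := (vanish H hz1 hw1 hP χ hχ).1
    rcases mul_eq_zero.mp h2 with h3 | h3
    · rw [h3, zero_mul]
    · rw [h3]; simp
  · intro χ hχ
    rw [linear_eq_one χ hχ hz, linear_eq_one χ hχ hw]
    simp

/-- The order of the centralizer of a product is the abelianization's order. -/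
theorem card_centralizer_mul (H : Hyp G) {x y : G} (hx : x ≠ 1) (hy : y ≠ 1) (hP : PP x y) :
    Nat.card (Subgroup.centralizer ({x * y} : Set G)) = (commutator G).index := by
  have h1 := sum_irr_mul_conj_of_isConj (IsConj.refl (x * y))
  rw [sum_linear _ ?_ ?_] at h1
  · rw [card_linear_eq_index_commutator] at h1
    exact_mod_cast h1.symm
  · intro χ hχ
    rw [(vanish H hx hy hP χ hχ).2, zero_mul]
  · intro χ hχ
    obtain ⟨lam, hlam⟩ := IsCharacter.exists_monoidHom (IsIrrCharacter.isCharacter χ.2) hχ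
    have h2 := norm_eq_one_of_degree_one (IsIrrCharacter.isCharacter χ.2) hχ (x * y)
    rw [Complex.mul_conj, Complex.normSq_eq_norm_sq, h2]
    simp

/-- The commutator subgroup is a `p`-group for some prime `p`. -/
theorem exists_prime_commutator (H : Hyp G) (hne : commutator G ≠ ⊥) :
    ∃ p : ℕ, p.Prime ∧ IsPGroup p (commutator G) := by
  classical
  obtain ⟨z, hz, hz1⟩ := (Subgroup.ne_bot_iff_exists_ne_one.mp hne).imp (fun z hz => hz) |>.elim
    (fun z hz => (⟨z, z.2, fun h => hz (Subtype.ext h)⟩ : ∃ z : G, z ∈ commutator G ∧ z ≠ 1))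
  have hord : orderOf z ≠ 1 := fun h => hz1 (orderOf_eq_one_iff.mp h)
  obtain ⟨p, hp, hpz⟩ := Nat.exists_prime_and_dvd hord
  have hprime : ∀ {w : G} {r : ℕ}, w ∈ commutator G → r.Prime → r ∣ orderOf w →
      ∃ w' ∈ commutator G, w' ≠ 1 ∧ orderOf w' = r ^ 1 := by
    intro w r hw hr hrw
    refine ⟨w ^ (orderOf w / r), Subgroup.pow_mem _ hw _, ?_, ?_⟩
    · intro h
      have h1 := orderOf_dvd_of_pow_eq_one h
      have h2 := Nat.le_of_dvd (Nat.div_pos (Nat.le_of_dvd (orderOf_pos w) hrw) hr.pos) h1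
      have h3 := Nat.div_lt_self (orderOf_pos w) hr.one_lt
      omega
    · rw [pow_one]
      exact orderOf_pow_orderOf_div (orderOf_pos w).ne' hrw
  obtain ⟨z', hz', hz'1, hz'o⟩ := hprime hz hp hpz
  haveI : Fact p.Prime := ⟨hp⟩
  refine ⟨p, hp, IsPGroup.iff_orderOf.mpr ?_⟩
  intro w
  have h0 : orderOf (w : G) = p ^ (orderOf (w : G)).primeFactorsList.length := by
    refine Nat.eq_prime_pow_of_unique_prime_dvd (orderOf_pos (w : G)).ne' ?_
    intro d hd hdw
    by_contra hne'
    obtain ⟨w', hw', hw'1, hw'o⟩ := hprime w.2 hd hdw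
    exact not_both_comm H hz' hw' hz'1 hw'1 ⟨p, d, 1, 1, hp, hd, fun h => hne' h.symm, hz'o, hw'o⟩
  exact ⟨_, by rw [← Subgroup.orderOf_coe]; exact h0⟩

end Chars


section Structure

variable {G : Type u} [Group G] [Fintype G] {p : ℕ} [hp : Fact p.Prime]

/-- Commuting elements of coprime orders are powers of their product. -/
theorem mem_centralizer_of_mul {x y g : G} (hc : Commute x y)
    (hco : (orderOf x).Coprime (orderOf y)) (hg : g ∈ Subgroup.centralizer ({x * y} : Set G)) :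
    g * x = x * g ∧ g * y = y * g := by
  have hb := Nat.gcd_eq_gcd_ab (orderOf x) (orderOf y)
  rw [hco.gcd_eq_one] at hb
  set m := orderOf x with hm
  set n := orderOf y with hn
  set A := Nat.gcdA m n
  set B := Nat.gcdB m n
  have hxm : x ^ (m : ℤ) = 1 := by rw [zpow_natCast, hm, pow_orderOf_eq_one]
  have hyn : y ^ (n : ℤ) = 1 := by rw [zpow_natCast, hn, pow_orderOf_eq_one]
  have h1 : (x * y) ^ ((n : ℤ) * B) = x := by
    rw [hc.mul_zpow]
    have h2 : y ^ ((n : ℤ) * B) = 1 := by rw [zpow_mul, hyn, one_zpow]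
    rw [h2, mul_one]
    have e : (n : ℤ) * B = 1 - (m : ℤ) * A := by
      push_cast at hb
      linarith
    rw [e, zpow_sub, zpow_one, zpow_mul, hxm, one_zpow, inv_one, mul_one]
  have h3 : (x * y) ^ ((m : ℤ) * A) = y := by
    rw [hc.mul_zpow]
    have h2 : x ^ ((m : ℤ) * A) = 1 := by rw [zpow_mul, hxm, one_zpow]
    rw [h2, one_mul]
    have e : (m : ℤ) * A = 1 - (n : ℤ) * B := by
      push_cast at hb
      linarith
    rw [e, zpow_sub, zpow_one, zpow_mul, hyn, one_zpow, inv_one, mul_one]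
  have hg' : Commute g (x * y) := (Subgroup.mem_centralizer_singleton_iff.mp hg)
  refine ⟨?_, ?_⟩
  · have := (hg'.zpow_right ((n : ℤ) * B))
    rw [h1] at this
    exact this
  · have := (hg'.zpow_right ((m : ℤ) * A))
    rw [h3] at this
    exact this

variable (P : Subgroup G) [hPn : P.Normal] (hPp : IsPGroup p P) (hcP : commutator G ≤ P)
  (hPi : P.index.Coprime p)

include hPp hPi in
/-- Order of the `p`-part of the centralizer. -/
theorem card_inf_centralizer (H : Hyp G) (hcP : commutator G ≤ P) {x y : G} (hx : x ≠ 1) (hy : y ≠ 1) {q a : ℕ}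
    (hq : q.Prime) (hqp : q ≠ p) (hxo : orderOf x = q ^ a) (hyP : y ∈ P) :
    Nat.card (P ⊓ Subgroup.centralizer ({x * y} : Set G) : Subgroup G) =
      (commutator G).relIndex P := by
  obtain ⟨b, hb⟩ := (IsPGroup.iff_orderOf.mp hPp) ⟨y, hyP⟩
  rw [Subgroup.orderOf_mk] at hb
  have hPP : PP x y := ⟨q, p, a, b, hq, Fact.out, hqp, hxo, hb⟩
  set E := Subgroup.centralizer ({x * y} : Set G) with hE
  have h1 : Nat.card E = (commutator G).index := card_centralizer_mul H hx hy hPP
  have h2 : (commutator G).relIndex P * P.index = (commutator G).index :=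
    Subgroup.relIndex_mul_index hcP
  have h3 : P.relIndex E * Nat.card (P ⊓ E : Subgroup G) = Nat.card E := by
    rw [← Subgroup.inf_relIndex_right P E]
    rw [Subgroup.relIndex, mul_comm]
    have h4 : Nat.card ((P ⊓ E).subgroupOf E) = Nat.card (P ⊓ E : Subgroup G) :=
      Nat.card_congr (Subgroup.subgroupOfEquivOfLe inf_le_right).toEquiv
    rw [← h4]
    exact ((P ⊓ E).subgroupOf E).card_mul_index
  have h4 : P.relIndex E ∣ P.index := Subgroup.relIndex_dvd_index_of_normal P E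
  have h5 : (P.relIndex E).Coprime p := Nat.Coprime.coprime_dvd_left h4 hPi
  have hS : IsPGroup p (P ⊓ E : Subgroup G) := hPp.to_le inf_le_left
  obtain ⟨s, hs⟩ := IsPGroup.iff_card.mp hS
  have h6 : (commutator G).relIndex P ∣ Nat.card P := Subgroup.relIndex_dvd_card _ _
  obtain ⟨n, hn⟩ := IsPGroup.iff_card.mp hPp
  rw [hn] at h6
  obtain ⟨e, -, he⟩ := (Nat.dvd_prime_pow (Fact.out : p.Prime)).mp h6
  rw [hs, he]
  rw [hs] at h3
  rw [he] at h2
  have h7 : P.relIndex E * p ^ s = p ^ e * P.index := by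
    rw [h3, h1, h2]
  apply Nat.dvd_antisymm
  · have h8 : p ^ s ∣ p ^ e * P.index := ⟨P.relIndex E, by rw [← h7, mul_comm]⟩
    exact (Nat.Coprime.pow_left s hPi.symm).dvd_of_dvd_mul_right h8
  · have h8 : p ^ e ∣ P.relIndex E * p ^ s := ⟨P.index, h7⟩
    exact (Nat.Coprime.pow_left e h5.symm).dvd_of_dvd_mul_left h8

include hPp hPi in
/-- The structure of the centralizer in `P` of a prime power element outside `P`. -/
theorem structure_centralizer (H : Hyp G) (hcP : commutator G ≤ P) {x : G} (hx : x ≠ 1) {q a : ℕ}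
    (hq : q.Prime) (hqp : q ≠ p) (hxo : orderOf x = q ^ a)
    (hne : (P ⊓ Subgroup.centralizer ({x} : Set G) : Subgroup G) ≠ ⊥) :
    Nat.card (P ⊓ Subgroup.centralizer ({x} : Set G) : Subgroup G) = (commutator G).relIndex P ∧
      ∀ u ∈ (P ⊓ Subgroup.centralizer ({x} : Set G) : Subgroup G),
      ∀ v ∈ (P ⊓ Subgroup.centralizer ({x} : Set G) : Subgroup G), u * v = v * u := by
  set R : Subgroup G := P ⊓ Subgroup.centralizer ({x} : Set G) with hR
  have hRp : IsPGroup p R := hPp.to_le inf_le_left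
  have hco : ∀ y ∈ R, (orderOf x).Coprime (orderOf y) := by
    intro y hy
    obtain ⟨b, hb⟩ := (IsPGroup.iff_orderOf.mp hRp) ⟨y, hy⟩
    rw [Subgroup.orderOf_mk] at hb
    rw [hxo, hb]
    exact Nat.Coprime.pow _ _ ((Nat.coprime_primes hq Fact.out).mpr hqp)
  have hcx : ∀ y ∈ R, Commute x y := by
    intro y hy
    exact (Subgroup.mem_centralizer_singleton_iff.mp hy.2).symm
  -- the key identity
  have hS : ∀ y ∈ R, y ≠ 1 → ∀ z : G, z ∈ (P ⊓ Subgroup.centralizer ({x * y} : Set G) : Subgroup G) ↔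
      z ∈ R ∧ z * y = y * z := by
    intro y hy hy1 z
    constructor
    · rintro ⟨hzP, hz⟩
      obtain ⟨h1, h2⟩ := mem_centralizer_of_mul (hcx y hy) (hco y hy) hz
      exact ⟨⟨hzP, Subgroup.mem_centralizer_singleton_iff.mpr h1⟩, h2⟩
    · rintro ⟨⟨hzP, hz⟩, hzy⟩
      refine ⟨hzP, Subgroup.mem_centralizer_singleton_iff.mpr ?_⟩
      have hz' : z * x = x * z := Subgroup.mem_centralizer_singleton_iff.mp hz
      rw [← mul_assoc, hz', mul_assoc, hzy, mul_assoc]
  have hcard := fun y (hy : y ∈ R) (hy1 : y ≠ 1) =>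
    card_inf_centralizer P hPp hPi H hcP hx hy1 hq hqp hxo hy.1
  haveI : Nontrivial R := (Subgroup.nontrivial_iff_ne_bot R).mpr hne
  haveI := hRp.center_nontrivial
  obtain ⟨y₀, hy₀⟩ := exists_ne (1 : Subgroup.center R)
  have hy₀1 : ((y₀ : R) : G) ≠ 1 := by
    intro h
    apply hy₀
    apply Subtype.ext
    apply Subtype.ext
    exact h
  have hy₀R : ((y₀ : R) : G) ∈ R := (y₀ : R).2
  have hcentral : ∀ u ∈ R, u * ((y₀ : R) : G) = ((y₀ : R) : G) * u := by
    intro u hu
    have h1 := (Subgroup.mem_center_iff.mp y₀.2) ⟨u, hu⟩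
    exact congrArg Subtype.val h1
  have hcard0 : Nat.card R = (commutator G).relIndex P := by
    rw [← hcard _ hy₀R hy₀1]
    apply Nat.card_congr
    refine Equiv.subtypeEquivRight fun z => ?_
    rw [hS _ hy₀R hy₀1]
    exact ⟨fun h => ⟨h, hcentral z h⟩, fun h => h.1⟩
  refine ⟨hcard0, ?_⟩
  intro u hu v hv
  by_cases hv1 : v = 1
  · rw [hv1, one_mul, mul_one]
  · have h1 : (P ⊓ Subgroup.centralizer ({x * v} : Set G) : Subgroup G) ≤ R := fun z hz =>
      ((hS v hv hv1 z).mp hz).1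
    have h2 : (P ⊓ Subgroup.centralizer ({x * v} : Set G) : Subgroup G) = R := by
      apply Subgroup.eq_of_le_of_card_ge h1
      rw [hcard v hv hv1, hcard0]
    have h3 : u ∈ (P ⊓ Subgroup.centralizer ({x * v} : Set G) : Subgroup G) := by
      rw [h2]
      exact hu
    exact ((hS v hv hv1 u).mp h3).2

end Structure

section Cyclic

/-- A finite commutative group with few solutions to `a ^ q = 1` for every prime `q` is cyclic. -/
theorem isCyclic_of_prime_count {A : Type*} [CommGroup A] [Fintype A] [DecidableEq A]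
    (h : ∀ q : ℕ, q.Prime → (Finset.univ.filter fun a : A => a ^ q = 1).card ≤ q) : IsCyclic A := by
  apply isCyclic_of_card_pow_eq_one_le
  intro n hn
  induction n using Nat.strong_induction_on with
  | _ n ih =>
  by_cases h1 : n = 1
  · subst h1
    have : (Finset.univ.filter fun a : A => a ^ 1 = 1) = {1} := by
      ext a
      simp
    rw [this]
    simp
  · obtain ⟨q, hq, m, rfl⟩ := Nat.exists_prime_and_dvd h1
    have hm : 0 < m := Nat.pos_of_mul_pos_left hn
    have hlt : m < q * m := by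
      have := hq.two_le
      nlinarith
    have hm2 := ih m hlt hm
    -- the `q`-th power map
    have h3 : (Finset.univ.filter fun a : A => a ^ (q * m) = 1).card ≤
        q * (Finset.univ.filter fun a : A => a ^ m = 1).card := by
      refine Finset.card_le_mul_card_image_of_maps_to (f := fun a : A => a ^ q) ?_ q ?_
      · intro a ha
        simp only [Finset.mem_filter, Finset.mem_univ, true_and] at ha ⊢
        rw [← pow_mul]
        exact ha
      · intro b _
        by_cases hb : ∃ a₀ : A, a₀ ^ q = b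
        · obtain ⟨a₀, rfl⟩ := hb
          refine le_trans (Finset.card_le_card_of_injOn (fun a => a * a₀⁻¹) ?_ ?_) (h q hq)
          · intro a ha
            simp only [Finset.coe_filter, Finset.mem_filter, Finset.mem_univ, true_and,
              Set.mem_ofPred_eq] at ha ⊢
            rw [mul_pow, inv_pow, ha.2, mul_inv_cancel]
          · intro a _ a' _ haa
            exact mul_right_cancel haa
        · have : (Finset.filter (fun a : A => a ^ q = b)
              (Finset.univ.filter fun a : A => a ^ (q * m) = 1)) = ∅ := by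
            ext a
            simp only [Finset.mem_filter, Finset.mem_univ, true_and, Finset.notMem_empty, iff_false,
              not_and]
            exact fun _ ha => hb ⟨a, ha⟩
          rw [this]
          simp
    calc _ ≤ q * (Finset.univ.filter fun a : A => a ^ m = 1).card := h3
      _ ≤ q * m := Nat.mul_le_mul_left q hm2

/-- The norm sum of a fixed-point-free element vanishes. -/
theorem prod_orbit_eq_one {A V : Type*} [CommGroup A] [CommGroup V] [MulDistribMulAction A V]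
    (hfree : ∀ t : A, t ≠ 1 → ∀ v : V, t • v = v → v = 1) {q : ℕ} {t : A} (ht1 : t ≠ 1)
    (htq : t ^ q = 1) (v : V) : ∏ i ∈ Finset.range q, (t ^ i) • v = 1 := by
  apply hfree t ht1
  rw [Finset.smul_prod']
  have h1 : ∀ i ∈ Finset.range q, t • (t ^ i) • v = (t ^ (i + 1)) • v := by
    intro i _
    rw [smul_smul, pow_succ']
  rw [Finset.prod_congr rfl h1]
  have h2 := Finset.prod_range_succ' (fun i => t ^ i • v) q
  rw [Finset.prod_range_succ, htq, pow_zero] at h2
  simp only [one_smul] at h2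
  exact (mul_right_cancel h2).symm

/-- Two independent elements of prime order cannot both act freely, unless `V` has exponent `q`. -/
theorem pow_eq_one_of_free {A V : Type*} [CommGroup A] [CommGroup V] [MulDistribMulAction A V]
    (hfree : ∀ t : A, t ≠ 1 → ∀ v : V, t • v = v → v = 1) {q : ℕ} (hq : q.Prime) {a b : A}
    (ha1 : a ≠ 1) (haq : a ^ q = 1) (hbq : b ^ q = 1) (hb : b ∉ Subgroup.zpowers a) (v : V) :
    v ^ q = 1 := by
  classical
  haveI : Fact q.Prime := ⟨hq⟩
  have hti : ∀ i : ℕ, b * a ^ i ≠ 1 := by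
    intro i hi
    apply hb
    rw [Subgroup.mem_zpowers_iff]
    refine ⟨-(i : ℤ), ?_⟩
    rw [zpow_neg, zpow_natCast]
    exact (eq_inv_of_mul_eq_one_left hi).symm
  have htq : ∀ i : ℕ, (b * a ^ i) ^ q = 1 := by
    intro i
    rw [mul_pow, hbq, one_mul, ← pow_mul, mul_comm, pow_mul, haq, one_pow]
  have h1 : ∀ i ∈ Finset.range q, ∏ j ∈ Finset.range q, ((b * a ^ i) ^ j) • v = 1 := fun i _ =>
    prod_orbit_eq_one hfree (hti i) (htq i) v
  have h2 : ∏ i ∈ Finset.range q, ∏ j ∈ Finset.range q, ((b * a ^ i) ^ j) • v = 1 :=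
    Finset.prod_eq_one h1
  rw [Finset.prod_comm] at h2
  have hoa : orderOf a = q := orderOf_eq_prime haq ha1
  rw [Finset.prod_eq_single_of_mem 0 (Finset.mem_range.mpr hq.pos)] at h2
  · simpa using h2
  · intro j hj hj0
    have hj' := Finset.mem_range.mp hj
    have haj : a ^ j ≠ 1 := pow_ne_one_of_lt_orderOf hj0 (by rw [hoa]; exact hj')
    have h3 : ∀ i ∈ Finset.range q, ((b * a ^ i) ^ j) • v = (b ^ j) • (((a ^ j) ^ i) • v) := by
      intro i _
      rw [smul_smul, mul_pow, ← pow_mul, ← pow_mul, mul_comm i j]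
    rw [Finset.prod_congr rfl h3, ← Finset.smul_prod',
      prod_orbit_eq_one hfree haj (by rw [← pow_mul, mul_comm, pow_mul, haq, one_pow]) v, smul_one]

variable {G : Type u} [Group G] [Fintype G] {p : ℕ} [hp : Fact p.Prime]

/-- A commutative group acting freely on a nontrivial `p`-group is cyclic. -/
theorem isCyclic_of_free (W A : Subgroup G) (hAc : ∀ a ∈ A, ∀ b ∈ A, a * b = b * a)
    (hW : A ≤ Subgroup.normalizer (W : Set G)) (hWp : IsPGroup p W) (hWne : W ≠ ⊥)
    (hfree : ∀ a ∈ A, a ≠ 1 → ∀ d ∈ W, a * d = d * a → d = 1) (hco : (Nat.card A).Coprime p) :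
    IsCyclic A := by
  classical
  letI : CommGroup A :=
    { (inferInstance : Group A) with
      mul_comm := fun a b => Subtype.ext (hAc a a.2 b b.2) }
  haveI : Nontrivial W := (Subgroup.nontrivial_iff_ne_bot W).mpr hWne
  haveI := hWp.center_nontrivial
  have hconj : ∀ (a : A) (w : W), (a : G) * (w : G) * (a : G)⁻¹ ∈ W := by
    intro a w
    exact (Subgroup.mem_normalizer_iff.mp (hW a.2) _).mp w.2
  let act : A → Subgroup.center W → Subgroup.center W := fun a v =>
    ⟨⟨(a : G) * ((v : W) : G) * (a : G)⁻¹, hconj a v⟩, by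
      rw [Subgroup.mem_center_iff]
      intro w
      apply Subtype.ext
      show (w : G) * ((a : G) * ((v : W) : G) * (a : G)⁻¹) = ((a : G) * ((v : W) : G) * (a : G)⁻¹) * (w : G)
      have h1 : (a : G)⁻¹ * (w : G) * (a : G) ∈ W := by
        have h2 := hconj a⁻¹ w
        simpa using h2
      have h3 := congrArg Subtype.val ((Subgroup.mem_center_iff.mp v.2) ⟨_, h1⟩)
      have h3' : ((a : G)⁻¹ * (w : G) * (a : G)) * ((v : W) : G) =
          ((v : W) : G) * ((a : G)⁻¹ * (w : G) * (a : G)) := h3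
      calc (w : G) * ((a : G) * ((v : W) : G) * (a : G)⁻¹)
          = (a : G) * (((a : G)⁻¹ * (w : G) * (a : G)) * ((v : W) : G)) * (a : G)⁻¹ := by group
        _ = (a : G) * (((v : W) : G) * ((a : G)⁻¹ * (w : G) * (a : G))) * (a : G)⁻¹ := by rw [h3']
        _ = _ := by group⟩
  letI : CommGroup (Subgroup.center W) :=
    { (inferInstance : Group (Subgroup.center W)) with
      mul_comm := fun a b => Subtype.ext (Subgroup.mem_center_iff.mp b.2 a) }
  letI : MulDistribMulAction A (Subgroup.center W) :=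
    { smul := act
      one_smul := fun v => by
        apply Subtype.ext
        apply Subtype.ext
        show ((1 : A) : G) * ((v : W) : G) * ((1 : A) : G)⁻¹ = _
        simp
      mul_smul := fun a b v => by
        apply Subtype.ext
        apply Subtype.ext
        show ((a * b : A) : G) * ((v : W) : G) * ((a * b : A) : G)⁻¹ =
          (a : G) * ((b : G) * ((v : W) : G) * (b : G)⁻¹) * (a : G)⁻¹
        simp only [Subgroup.coe_mul, mul_inv_rev]
        group
      smul_mul := fun a v w => by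
        apply Subtype.ext
        apply Subtype.ext
        show (a : G) * (((v : W) : G) * ((w : W) : G)) * (a : G)⁻¹ =
          ((a : G) * ((v : W) : G) * (a : G)⁻¹) * ((a : G) * ((w : W) : G) * (a : G)⁻¹)
        group
      smul_one := fun a => by
        apply Subtype.ext
        apply Subtype.ext
        show (a : G) * 1 * (a : G)⁻¹ = 1
        simp }
  have hfreeV : ∀ t : A, t ≠ 1 → ∀ v : Subgroup.center W, t • v = v → v = 1 := by
    intro t ht v hv
    have h1 : (t : G) * ((v : W) : G) * (t : G)⁻¹ = ((v : W) : G) :=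
      congrArg (fun z : Subgroup.center W => ((z : W) : G)) hv
    have h2 : (t : G) * ((v : W) : G) = ((v : W) : G) * (t : G) := by
      rwa [mul_inv_eq_iff_eq_mul] at h1
    have h3 := hfree t t.2 (fun h => ht (Subtype.ext h)) _ (v : W).2 h2
    apply Subtype.ext
    apply Subtype.ext
    exact h3
  obtain ⟨v, hv⟩ := exists_ne (1 : Subgroup.center W)
  have hkey : ∀ q : ℕ, q.Prime → ∀ a b : A, a ≠ 1 → a ^ q = 1 → b ^ q = 1 → b ∈ Subgroup.zpowers a := by
    intro q hq a b ha1 haq hbq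
    by_contra hb
    have h1 := pow_eq_one_of_free hfreeV hq ha1 haq hbq hb v
    have hoa : orderOf a = q := by
      haveI : Fact q.Prime := ⟨hq⟩
      exact orderOf_eq_prime haq ha1
    have hqA : q ∣ Nat.card A := by
      rw [← hoa]
      exact orderOf_dvd_natCard a
    have hqp : q ≠ p := by
      rintro rfl
      exact ((Nat.Prime.dvd_iff_not_coprime hq).mp hqA) hco.symm
    obtain ⟨b', hb'⟩ := (IsPGroup.iff_orderOf.mp hWp) (v : W)
    apply hv
    have hz : orderOf (v : W) ∣ q := by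
      have : ((v : W)) ^ q = 1 := congrArg Subtype.val h1
      exact orderOf_dvd_of_pow_eq_one this
    rw [hb'] at hz
    have h4 : Nat.Coprime (p ^ b') q :=
      Nat.Coprime.pow_left b' ((Nat.coprime_primes Fact.out hq).mpr hqp.symm)
    have h5 := Nat.Coprime.eq_one_of_dvd h4 hz
    have h6 : orderOf (v : W) = 1 := by rw [hb', h5]
    have h7 : (v : W) = 1 := orderOf_eq_one_iff.mp h6
    exact Subtype.ext h7
  apply isCyclic_of_prime_count
  intro q hq
  by_cases hex : ∃ a : A, a ≠ 1 ∧ a ^ q = 1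
  · obtain ⟨a, ha1, haq⟩ := hex
    haveI : Fact q.Prime := ⟨hq⟩
    have hoa : orderOf a = q := orderOf_eq_prime haq ha1
    letI : Fintype (Subgroup.zpowers a : Set A) := Fintype.ofFinite _
    have hsub : (Finset.univ.filter fun b : A => b ^ q = 1) ⊆ (Subgroup.zpowers a : Set A).toFinset := by
      intro b hb
      rw [Set.mem_toFinset]
      exact hkey q hq a b ha1 haq (Finset.mem_filter.mp hb).2
    calc _ ≤ _ := Finset.card_le_card hsub
      _ = q := by
        rw [Set.toFinset_card, ← Nat.card_eq_fintype_card]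
        have : Nat.card (Subgroup.zpowers a : Set A) = Nat.card (Subgroup.zpowers a) := rfl
        rw [this, Nat.card_zpowers, hoa]
  · push Not at hex
    have : (Finset.univ.filter fun b : A => b ^ q = 1) ⊆ {1} := by
      intro b hb
      rw [Finset.mem_singleton]
      by_contra hne
      exact hex b hne (Finset.mem_filter.mp hb).2
    calc _ ≤ _ := Finset.card_le_card this
      _ = 1 := by simp
      _ ≤ q := hq.one_le

end Cyclic

section Forward

variable {G : Type u} [Group G] [Fintype G]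

/-- Direct proof of the structure from the hypothesis. -/
theorem forward (H : Hyp G) (hnp : ¬ ∃ p : ℕ, p.Prime ∧ IsPGroup p G) (hna : ¬ IsMulCommutative G) :
    ∃ (p : ℕ) (_ : Fact p.Prime) (P : Sylow p G) (A : Subgroup G), (P : Subgroup G).Normal ∧
      IsCyclic ↥A ∧ A ≠ ⊥ ∧ (Nat.card ↥A).Coprime p ∧ A ⊔ (P : Subgroup G) = ⊤ ∧
      IsMulCommutative ↥((P : Subgroup G) ⊓ Subgroup.centralizer (A : Set G)) ∧
      (⁅A, (P : Subgroup G)⁆).Normal ∧
      ((P : Subgroup G) ⊓ Subgroup.centralizer (A : Set G)) ⊔ ⁅A, (P : Subgroup G)⁆ = (P : Subgroup G) ∧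
      ((P : Subgroup G) ⊓ Subgroup.centralizer (A : Set G)) ⊓ ⁅A, (P : Subgroup G)⁆ = ⊥ ∧
      ∀ a ∈ A, a ≠ 1 → ∀ d ∈ ⁅A, (P : Subgroup G)⁆, a * d = d * a → d = 1 := by
  classical
  have hne : commutator G ≠ ⊥ := by
    intro h
    apply hna
    refine ⟨⟨fun a b => ?_⟩⟩
    have h1 : ⁅a, b⁆ ∈ commutator G := Subgroup.commutator_mem_commutator (Subgroup.mem_top a) (Subgroup.mem_top b)
    rw [h, Subgroup.mem_bot, commutatorElement_eq_one_iff_mul_comm] at h1
    exact h1
  obtain ⟨p, hp, hcp⟩ := exists_prime_commutator H hne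
  haveI : Fact p.Prime := ⟨hp⟩
  obtain ⟨Q, hQ⟩ := hcp.exists_le_sylow
  set P : Subgroup G := (Q : Subgroup G) with hPdef
  have hPp : IsPGroup p P := Q.isPGroup'
  have hPn : P.Normal := by
    refine ⟨fun n hn g => ?_⟩
    have h1 : g * n * g⁻¹ * n⁻¹ ∈ P :=
      hQ (Subgroup.commutator_mem_commutator (Subgroup.mem_top g) (Subgroup.mem_top n))
    have h2 : g * n * g⁻¹ = (g * n * g⁻¹ * n⁻¹) * n := by group
    rw [h2]
    exact P.mul_mem h1 hn
  have hPi : P.index.Coprime p :=
    ((Nat.Prime.coprime_iff_not_dvd hp).mpr Q.not_dvd_index).symm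
  obtain ⟨A, hA⟩ := Subgroup.exists_right_complement'_of_coprime Q.card_coprime_index
  have hcardA : Nat.card A = P.index := hA.symm.index_eq_card.symm
  have hcoA : (Nat.card A).Coprime p := by rw [hcardA]; exact hPi
  have hsup : A ⊔ P = ⊤ := by rw [sup_comm]; exact hA.sup_eq_top
  have hinf : P ⊓ A = ⊥ := hA.disjoint.eq_bot
  have hAc : ∀ a ∈ A, ∀ b ∈ A, a * b = b * a := by
    intro a ha b hb
    have h1 : a * b * a⁻¹ * b⁻¹ ∈ P ⊓ A :=
      ⟨hQ (Subgroup.commutator_mem_commutator (Subgroup.mem_top a) (Subgroup.mem_top b)),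
        A.mul_mem (A.mul_mem (A.mul_mem ha hb) (A.inv_mem ha)) (A.inv_mem hb)⟩
    rw [hinf, Subgroup.mem_bot, mul_inv_eq_one, mul_inv_eq_iff_eq_mul] at h1
    exact h1
  have hAne : A ≠ ⊥ := by
    intro h
    apply hnp
    have h1 : P = ⊤ := by
      rw [h, bot_sup_eq] at hsup
      exact hsup
    refine ⟨p, hp, ?_⟩
    rw [h1] at hPp
    exact (IsPGroup.iff_card.mp hPp).elim fun n hn =>
      IsPGroup.iff_card.mpr ⟨n, by rw [← hn, Subgroup.card_top]⟩
  have hact : Cfsg.Agent.Lib.Coprime.CoprimeAction A P := by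
    refine ⟨?_, ?_, Or.inr ?_⟩
    · intro a _
      rw [Subgroup.normalizer_eq_top_iff.mpr hPn]
      trivial
    · rw [hcardA]
      exact Q.card_coprime_index.symm
    · haveI := hPp.isNilpotent
      infer_instance
  set C : Subgroup G := P ⊓ Subgroup.centralizer (A : Set G) with hCdef
  have hfact : ∀ u ∈ P, ∃ n ∈ commutator G, ∃ c ∈ C, u = n * c := by
    intro u hu
    refine hact.exists_mul_centralizer hQ ?_ hu ?_
    · intro a _
      rw [Subgroup.normalizer_eq_top_iff.mpr inferInstance]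
      trivial
    · intro a _
      exact Subgroup.commutator_mem_commutator (Subgroup.mem_top u) (Subgroup.mem_top a)
  -- cardinalities
  set c := (commutator G).relIndex P with hc
  have hcardP : Nat.card (commutator G) * c = Nat.card P := by
    have h1 : Nat.card ((commutator G).subgroupOf P) = Nat.card (commutator G) :=
      Nat.card_congr (Subgroup.subgroupOfEquivOfLe hQ).toEquiv
    rw [← h1]
    exact ((commutator G).subgroupOf P).card_mul_index
  -- the surjection `G' × C → P`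
  let f : commutator G × C → P := fun x =>
    ⟨(x.1 : G) * (x.2 : G), P.mul_mem (hQ x.1.2) (x.2.2.1)⟩
  have hfsurj : Function.Surjective f := by
    rintro ⟨u, hu⟩
    obtain ⟨n, hn, c', hc', rfl⟩ := hfact u hu
    exact ⟨(⟨n, hn⟩, ⟨c', hc'⟩), rfl⟩
  have hcposG : 0 < Nat.card (commutator G) := Nat.card_pos
  have hcleC : c ≤ Nat.card C := by
    have h1 := Nat.card_le_card_of_surjective f hfsurj
    rw [Nat.card_prod, ← hcardP] at h1
    exact Nat.le_of_mul_le_mul_left h1 hcposG
  -- prime power elements of `A`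
  have hRx : ∀ x ∈ A, x ≠ 1 → ∀ q a : ℕ, q.Prime → orderOf x = q ^ a →
      P ⊓ Subgroup.centralizer ({x} : Set G) = C ∧ Nat.card C = c ∧
        ∀ u ∈ C, ∀ v ∈ C, u * v = v * u := by
    intro x hx hx1 q a hq hxo
    have hqp : q ≠ p := by
      rintro rfl
      have ha : a ≠ 0 := by
        rintro rfl
        rw [pow_zero, orderOf_eq_one_iff] at hxo
        exact hx1 hxo
      have h1 : orderOf (⟨x, hx⟩ : A) ∣ Nat.card A := orderOf_dvd_natCard _
      rw [Subgroup.orderOf_mk, hxo] at h1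
      have h2 : q ∣ Nat.card A := (dvd_pow_self q ha).trans h1
      exact ((Nat.Prime.dvd_iff_not_coprime hq).mp h2) hcoA.symm
    have hCle : C ≤ P ⊓ Subgroup.centralizer ({x} : Set G) := by
      rintro u ⟨huP, hu⟩
      refine ⟨huP, Subgroup.mem_centralizer_singleton_iff.mpr ?_⟩
      exact (Subgroup.mem_centralizer_iff.mp hu x hx).symm
    by_cases hbot : P ⊓ Subgroup.centralizer ({x} : Set G) = ⊥
    · have hCbot : C = ⊥ := by
        rw [eq_bot_iff, ← hbot]
        exact hCle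
      have hcard1 : Nat.card C = 1 := by
        rw [hCbot]
        simp
      have hc1 : c = 1 := by
        have h2 : 0 < c := Nat.pos_of_ne_zero (fun h => by
          rw [h, mul_zero] at hcardP
          exact Nat.card_pos.ne' hcardP.symm)
        omega
      refine ⟨by rw [hbot, hCbot], by rw [hcard1, hc1], ?_⟩
      intro u hu v hv
      rw [hCbot, Subgroup.mem_bot] at hu hv
      rw [hu, hv]
    · obtain ⟨h1, h2⟩ := structure_centralizer P hPp hPi H hQ hx1 hq hqp hxo hbot
      have h3 : P ⊓ Subgroup.centralizer ({x} : Set G) = C := by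
        symm
        apply Subgroup.eq_of_le_of_card_ge hCle
        rw [h1]
        exact hcleC
      refine ⟨h3, ?_, ?_⟩
      · rw [← h3]
        exact h1
      · intro u hu v hv
        exact h2 u (hCle hu) v (hCle hv)
  -- existence of a prime power element
  have hpow : ∀ a ∈ A, a ≠ 1 → ∃ k : ℕ, ∃ q : ℕ, q.Prime ∧ a ^ k ≠ 1 ∧ orderOf (a ^ k) = q ^ 1 := by
    intro a _ ha1
    have hord : orderOf a ≠ 1 := fun h => ha1 (orderOf_eq_one_iff.mp h)
    obtain ⟨q, hq, hqa⟩ := Nat.exists_prime_and_dvd hord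
    refine ⟨orderOf a / q, q, hq, ?_, ?_⟩
    · intro h
      have h1 := orderOf_dvd_of_pow_eq_one h
      have h2 := Nat.le_of_dvd (Nat.div_pos (Nat.le_of_dvd (orderOf_pos a) hqa) hq.pos) h1
      have h3 := Nat.div_lt_self (orderOf_pos a) hq.one_lt
      omega
    · rw [pow_one]
      exact orderOf_pow_orderOf_div (orderOf_pos a).ne' hqa
  obtain ⟨a₀, ha₀, ha₀1⟩ := (Subgroup.ne_bot_iff_exists_ne_one.mp hAne).elim
    (fun z hz => (⟨z, z.2, fun h => hz (Subtype.ext h)⟩ : ∃ z : G, z ∈ A ∧ z ≠ 1))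
  obtain ⟨k₀, q₀, hq₀, hk₀, ho₀⟩ := hpow a₀ ha₀ ha₀1
  set x₀ := a₀ ^ k₀ with hx₀
  have hx₀A : x₀ ∈ A := A.pow_mem ha₀ k₀
  obtain ⟨hR₀, hCc, hCcomm⟩ := hRx x₀ hx₀A hk₀ q₀ 1 hq₀ ho₀
  -- `C ∩ G' = 1`
  have hfbij : Function.Injective f := by
    have h1 : Nat.card P ≤ Nat.card (commutator G × C) := Nat.card_le_card_of_surjective f hfsurj
    have h2 : Nat.card (commutator G × C) ≤ Nat.card P := by
      rw [Nat.card_prod, hCc, hcardP]
    exact (Function.Surjective.bijective_of_nat_card_le hfsurj h2).1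
  have hCinf : C ⊓ commutator G = ⊥ := by
    rw [eq_bot_iff]
    rintro w ⟨hwC, hwG⟩
    have h1 : f (⟨w, hwG⟩, 1) = f (1, ⟨w, hwC⟩) := by
      apply Subtype.ext
      simp [f]
    have h2 := hfbij h1
    have h3 := congrArg (fun z => ((z.1 : commutator G) : G)) h2
    simpa using h3
  -- freeness
  have hfree : ∀ a ∈ A, a ≠ 1 → ∀ d ∈ commutator G, a * d = d * a → d = 1 := by
    intro a ha ha1 d hd had
    obtain ⟨k, q, hq, hk, ho⟩ := hpow a ha ha1
    obtain ⟨h1, -, -⟩ := hRx (a ^ k) (A.pow_mem ha k) hk q 1 hq ho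
    have h2 : d ∈ P ⊓ Subgroup.centralizer ({a ^ k} : Set G) := by
      refine ⟨hQ hd, Subgroup.mem_centralizer_singleton_iff.mpr ?_⟩
      exact (((show Commute a d from had).pow_left k).eq).symm
    rw [h1] at h2
    have h3 : d ∈ C ⊓ commutator G := ⟨h2, hd⟩
    rw [hCinf, Subgroup.mem_bot] at h3
    exact h3
  -- `[A, P] = G'`
  have hD : ⁅A, P⁆ = commutator G := by
    apply le_antisymm
    · exact Subgroup.commutator_mono le_top le_top
    · intro w hw
      have hmem : ∀ d : G, d⁻¹ * x₀ * d * x₀⁻¹ ∈ commutator G := by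
        intro d
        have h1 := Subgroup.commutator_mem_commutator (Subgroup.mem_top d⁻¹) (Subgroup.mem_top x₀)
        rw [commutator_def]
        simpa [commutatorElement_def] using h1
      let g : commutator G → commutator G := fun d => ⟨(d : G)⁻¹ * x₀ * (d : G) * x₀⁻¹, hmem d⟩
      have hg : Function.Injective g := by
        intro d d' hdd
        have h1 : (d : G)⁻¹ * x₀ * (d : G) * x₀⁻¹ = (d' : G)⁻¹ * x₀ * (d' : G) * x₀⁻¹ :=
          congrArg Subtype.val hdd
        have h2 : (d : G)⁻¹ * x₀ * (d : G) = (d' : G)⁻¹ * x₀ * (d' : G) := mul_right_cancel h1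
        have h3 : x₀ * ((d' : G) * (d : G)⁻¹) = ((d' : G) * (d : G)⁻¹) * x₀ := by
          have h4 : x₀ = (d' : G) * ((d' : G)⁻¹ * x₀ * (d' : G)) * (d' : G)⁻¹ := by group
          rw [← h2] at h4
          calc x₀ * ((d' : G) * (d : G)⁻¹)
              = ((d' : G) * ((d : G)⁻¹ * x₀ * (d : G)) * (d' : G)⁻¹) * ((d' : G) * (d : G)⁻¹) := by
                rw [← h4]
            _ = ((d' : G) * (d : G)⁻¹) * x₀ := by group
        have h5 := hfree x₀ hx₀A hk₀ _ ((commutator G).mul_mem d'.2 ((commutator G).inv_mem d.2)) h3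
        have h6 : (d' : G) = (d : G) := by
          rwa [mul_inv_eq_one] at h5
        exact Subtype.ext h6.symm
      obtain ⟨d, hd⟩ := (Finite.injective_iff_surjective.mp hg) ⟨w, hw⟩
      have hw' : w = (d : G)⁻¹ * x₀ * (d : G) * x₀⁻¹ := (congrArg Subtype.val hd).symm
      rw [Subgroup.commutator_comm, hw']
      have h7 := Subgroup.commutator_mem_commutator (H₁ := P) (H₂ := A) (P.inv_mem (hQ d.2)) hx₀A
      simpa [commutatorElement_def] using h7
  refine ⟨p, inferInstance, Q, A, hPn, ?_, hAne, hcoA, hsup, ?_, ?_, ?_, ?_, ?_⟩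
  · refine isCyclic_of_free (commutator G) A hAc ?_ hcp hne hfree hcoA
    intro a _
    rw [Subgroup.normalizer_eq_top_iff.mpr inferInstance]
    trivial
  · exact ⟨⟨fun a b => Subtype.ext (hCcomm a a.2 b b.2)⟩⟩
  · rw [hD]
    infer_instance
  · rw [hD]
    apply le_antisymm
    · exact sup_le inf_le_left hQ
    · intro u hu
      obtain ⟨n, hn, c', hc', rfl⟩ := hfact u hu
      rw [sup_comm]
      exact Subgroup.mul_mem_sup hn hc'
  · rw [hD]
    exact hCinf
  · rw [hD]
    exact hfree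

end Forward

section Backward

variable {G : Type u} [Group G] [Fintype G]

/-- Under freeness, a coset of `D` is a single `D`-class. -/
theorem exists_conj_of_free (D : Subgroup G) [hDn : D.Normal] {g : G}
    (hg : ∀ w ∈ D, w * g = g * w → w = 1) {d : G} (hd : d ∈ D) :
    ∃ z ∈ D, d * g = z⁻¹ * g * z := by
  have hmem : ∀ z ∈ D, g⁻¹ * z⁻¹ * g * z ∈ D := by
    intro z hz
    have h1 : g⁻¹ * z⁻¹ * g ∈ D := by
      have := hDn.conj_mem _ (D.inv_mem hz) g⁻¹
      simpa using this
    exact D.mul_mem h1 hz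
  let f : D → D := fun z => ⟨g⁻¹ * (z : G)⁻¹ * g * z, hmem z z.2⟩
  have hf : Function.Injective f := by
    intro z z' hzz
    have h1 : g⁻¹ * (z : G)⁻¹ * g * z = g⁻¹ * (z' : G)⁻¹ * g * z' := congrArg Subtype.val hzz
    have h2 : (z : G)⁻¹ * g * z = (z' : G)⁻¹ * g * z' := by
      have h3 : g⁻¹ * ((z : G)⁻¹ * g * z) = g⁻¹ * ((z' : G)⁻¹ * g * z') := by
        simpa [mul_assoc] using h1
      exact mul_left_cancel h3
    have h3 : ((z' : G) * (z : G)⁻¹) * g = g * ((z' : G) * (z : G)⁻¹) := by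
      calc ((z' : G) * (z : G)⁻¹) * g = (z' : G) * ((z : G)⁻¹ * g * z) * (z : G)⁻¹ := by group
        _ = (z' : G) * ((z' : G)⁻¹ * g * z') * (z : G)⁻¹ := by rw [h2]
        _ = g * ((z' : G) * (z : G)⁻¹) := by group
    have h5 := hg _ (D.mul_mem z'.2 (D.inv_mem z.2)) h3
    have h6 : (z' : G) = (z : G) := by
      rwa [mul_inv_eq_one] at h5
    exact Subtype.ext h6.symm
  have hd' : g⁻¹ * d * g ∈ D := by
    have := hDn.conj_mem _ hd g⁻¹
    simpa using this
  obtain ⟨z, hz⟩ := (Finite.injective_iff_surjective.mp hf) ⟨_, hd'⟩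
  refine ⟨z, z.2, ?_⟩
  have h1 : g⁻¹ * (z : G)⁻¹ * g * z = g⁻¹ * d * g := congrArg Subtype.val hz
  calc d * g = g * (g⁻¹ * d * g) := by group
    _ = g * (g⁻¹ * (z : G)⁻¹ * g * z) := by rw [h1]
    _ = _ := by group


/-- The third alternative implies the hypothesis. -/
theorem backward {p : ℕ} [hp : Fact p.Prime] (P : Sylow p G) (A : Subgroup G)
    (hPn : (P : Subgroup G).Normal) (hAcyc : IsCyclic A) (hco : (Nat.card A).Coprime p)
    (hsup : A ⊔ (P : Subgroup G) = ⊤)
    (hCc : IsMulCommutative ↥((P : Subgroup G) ⊓ Subgroup.centralizer (A : Set G)))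
    (hDn : (⁅A, (P : Subgroup G)⁆).Normal)
    (hCD : ((P : Subgroup G) ⊓ Subgroup.centralizer (A : Set G)) ⊔ ⁅A, (P : Subgroup G)⁆ = (P : Subgroup G))
    (hCinf : ((P : Subgroup G) ⊓ Subgroup.centralizer (A : Set G)) ⊓ ⁅A, (P : Subgroup G)⁆ = ⊥)
    (hfree : ∀ a ∈ A, a ≠ 1 → ∀ d ∈ ⁅A, (P : Subgroup G)⁆, a * d = d * a → d = 1) : Hyp G := by
  classical
  set Pg : Subgroup G := (P : Subgroup G) with hPg
  set D : Subgroup G := ⁅A, Pg⁆ with hD
  set C : Subgroup G := Pg ⊓ Subgroup.centralizer (A : Set G) with hC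
  letI : Fintype D := Fintype.ofFinite _
  letI : Fintype (G ⧸ D) := Fintype.ofFinite _
  have hDle : D ≤ Pg := by
    rw [← hCD]
    exact le_sup_right
  have hPp : IsPGroup p Pg := P.isPGroup'
  have hAc : ∀ a ∈ A, ∀ b ∈ A, a * b = b * a := by
    intro a ha b hb
    have h1 := (IsCyclic.commGroup (α := A)).mul_comm ⟨a, ha⟩ ⟨b, hb⟩
    exact congrArg Subtype.val h1
  have hCcomm : ∀ a ∈ C, ∀ b ∈ C, a * b = b * a := by
    intro a ha b hb
    have h1 := hCc.is_comm.comm ⟨a, ha⟩ ⟨b, hb⟩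
    exact congrArg Subtype.val h1
  have hdecomp : ∀ g : G, ∃ a ∈ A, ∃ c ∈ C, ∃ d ∈ D, g = a * c * d := by
    intro g
    have h1 : g ∈ ((A ⊔ Pg : Subgroup G) : Set G) := by
      rw [hsup]
      trivial
    rw [Subgroup.mul_normal] at h1
    obtain ⟨a, ha, u, hu, rfl⟩ := Set.mem_mul.mp h1
    have h2 : u ∈ ((C ⊔ D : Subgroup G) : Set G) := by
      rw [hCD]
      exact hu
    rw [Subgroup.mul_normal] at h2
    obtain ⟨c, hc, d, hd, rfl⟩ := Set.mem_mul.mp h2
    exact ⟨a, ha, c, hc, d, hd, by group⟩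
  have hAC : ∀ a ∈ A, ∀ c ∈ C, a * c = c * a := by
    intro a ha c hc
    exact (Subgroup.mem_centralizer_iff.mp hc.2 a ha)
  have hquot : ∀ a b : G ⧸ D, a * b = b * a := by
    intro a b
    obtain ⟨g, rfl⟩ := QuotientGroup.mk_surjective a
    obtain ⟨h, rfl⟩ := QuotientGroup.mk_surjective b
    obtain ⟨a₁, ha₁, c₁, hc₁, d₁, hd₁, rfl⟩ := hdecomp g
    obtain ⟨a₂, ha₂, c₂, hc₂, d₂, hd₂, rfl⟩ := hdecomp h
    have e1 : ∀ (s d : G), d ∈ D → ((s * d : G) : G ⧸ D) = (s : G ⧸ D) := by
      intro s d hd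
      rw [QuotientGroup.mk_mul, (QuotientGroup.eq_one_iff d).mpr hd, mul_one]
    rw [e1 _ _ hd₁, e1 _ _ hd₂, ← QuotientGroup.mk_mul, ← QuotientGroup.mk_mul]
    congr 1
    calc a₁ * c₁ * (a₂ * c₂) = (a₁ * a₂) * (c₁ * c₂) := by
          rw [mul_assoc a₁ c₁, ← mul_assoc c₁, ← hAC a₂ ha₂ c₁ hc₁]
          group
      _ = (a₂ * a₁) * (c₂ * c₁) := by rw [hAc a₁ ha₁ a₂ ha₂, hCcomm c₁ hc₁ c₂ hc₂]
      _ = a₂ * c₂ * (a₁ * c₁) := by
          rw [mul_assoc a₂ c₂, ← mul_assoc c₂, ← hAC a₁ ha₁ c₂ hc₂]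
          group
  -- `p`-elements lie in `P`
  have hmemP : ∀ u : G, ∀ k : ℕ, orderOf u = p ^ k → u ∈ Pg := by
    intro u k hk
    have h1 : ((u : G) : G ⧸ Pg) ^ (p ^ k) = 1 := by
      rw [← QuotientGroup.mk_pow, ← hk, pow_orderOf_eq_one, QuotientGroup.mk_one]
    have h2 : ((u : G) : G ⧸ Pg) ^ Pg.index = 1 := by
      rw [← QuotientGroup.mk_pow, QuotientGroup.eq_one_iff]
      exact Subgroup.pow_index_mem Pg u
    have h3 := pow_gcd_eq_one.mpr ⟨h1, h2⟩
    have h4 : Nat.gcd (p ^ k) Pg.index = 1 :=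
      Nat.Coprime.pow_left k ((Nat.Prime.coprime_iff_not_dvd Fact.out).mpr P.not_dvd_index)
    rw [h4, pow_one, QuotientGroup.eq_one_iff] at h3
    exact h3
  have hAP : A ⊓ Pg = ⊥ := by
    apply (Subgroup.disjoint_of_coprime_natCard _).eq_bot
    obtain ⟨n, hn⟩ := IsPGroup.iff_card.mp hPp
    rw [hn]
    exact hco.pow_right n
  -- elements of order prime to `p`
  have hstep2 : ∀ t : G, ¬ p ∣ orderOf t → t ≠ 1 → ∀ w ∈ D, w * t = t * w → w = 1 := by
    intro t hot ht1 w hw hwt
    obtain ⟨a, ha, c, hc, d, hd, htdec⟩ := hdecomp t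
    set n := orderOf t with hn
    have hcomm : Commute a c := hAC a ha c hc
    have h1 : (a * c) ^ n ∈ D := by
      have h2 : ((t : G) : G ⧸ D) = ((a * c : G) : G ⧸ D) := by
        rw [htdec, QuotientGroup.mk_mul, (QuotientGroup.eq_one_iff d).mpr hd, mul_one]
      have h3 : ((t : G) : G ⧸ D) ^ n = 1 := by
        rw [← QuotientGroup.mk_pow, hn, pow_orderOf_eq_one, QuotientGroup.mk_one]
      rw [h2, ← QuotientGroup.mk_pow, QuotientGroup.eq_one_iff] at h3
      exact h3
    have h2 : a ^ n = 1 := by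
      have h3 : a ^ n ∈ A ⊓ Pg := by
        refine ⟨A.pow_mem ha n, ?_⟩
        have h4 : a ^ n = (a * c) ^ n * (c ^ n)⁻¹ := by
          rw [hcomm.mul_pow]
          group
        rw [h4]
        exact Pg.mul_mem (hDle h1) (Pg.inv_mem (Pg.pow_mem hc.1 n))
      rw [hAP, Subgroup.mem_bot] at h3
      exact h3
    have h3 : c ^ n = 1 := by
      have h4 : c ^ n ∈ C ⊓ D := by
        refine ⟨C.pow_mem hc n, ?_⟩
        have h5 : c ^ n = (a * c) ^ n := by
          rw [hcomm.mul_pow, h2, one_mul]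
        rw [h5]
        exact h1
      rw [hCinf, Subgroup.mem_bot] at h4
      exact h4
    have hc1 : c = 1 := by
      obtain ⟨j, hj⟩ := (IsPGroup.iff_orderOf.mp hPp) ⟨c, hc.1⟩
      rw [Subgroup.orderOf_mk] at hj
      have h4 : orderOf c ∣ n := orderOf_dvd_of_pow_eq_one h3
      have h5 : Nat.Coprime (orderOf c) n := by
        rw [hj]
        exact Nat.Coprime.pow_left j ((Nat.Prime.coprime_iff_not_dvd Fact.out).mpr hot)
      exact orderOf_eq_one_iff.mp (Nat.Coprime.eq_one_of_dvd h5 h4)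
    have hta : t = a * d := by
      rw [htdec, hc1, mul_one]
    have ha1 : a ≠ 1 := by
      rintro rfl
      rw [one_mul] at hta
      have h4 : t ∈ Pg := by
        rw [hta]
        exact hDle hd
      obtain ⟨j, hj⟩ := (IsPGroup.iff_orderOf.mp hPp) ⟨t, h4⟩
      rw [Subgroup.orderOf_mk] at hj
      have h5 : j = 0 := by
        by_contra hj0
        apply hot
        show p ∣ orderOf t
        rw [hj]
        exact dvd_pow_self p hj0
      rw [h5, pow_zero] at hj
      exact ht1 (orderOf_eq_one_iff.mp hj)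
    have hfa : ∀ w ∈ D, w * a = a * w → w = 1 := fun w hw hwa => hfree a ha ha1 w hw hwa.symm
    have hd' : a * d * a⁻¹ ∈ D := hDn.conj_mem d hd a
    obtain ⟨z, hz, hz2⟩ := exists_conj_of_free D hfa hd'
    have htz : t = z⁻¹ * a * z := by
      rw [hta, ← hz2]
      group
    have h4 : (z * w * z⁻¹) * a = a * (z * w * z⁻¹) := by
      rw [htz] at hwt
      have h5 : z * (w * (z⁻¹ * a * z)) * z⁻¹ = z * ((z⁻¹ * a * z) * w) * z⁻¹ := by rw [hwt]
      calc (z * w * z⁻¹) * a = z * (w * (z⁻¹ * a * z)) * z⁻¹ := by group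
        _ = z * ((z⁻¹ * a * z) * w) * z⁻¹ := h5
        _ = a * (z * w * z⁻¹) := by group
    have h5 := hfa _ (hDn.conj_mem w hw z) h4
    have h6 : z * w = z := by
      rwa [mul_inv_eq_one] at h5
    simpa using h6
  have hzero : ∀ χ : IrrCharacter G, ¬ D ≤ charKer (χ : G → ℂ) → ∀ g, g ∉ Pg → (χ : G → ℂ) g = 0 := by
    intro χ hker g hg
    obtain ⟨u, t, hut, -, ⟨k, hk⟩, ht, -, htg⟩ := Cfsg.Agent.Lib.PGroups.exists_pPart p g
    have huP := hmemP u k hk
    have ht1 : t ≠ 1 := by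
      rintro rfl
      apply hg
      rw [hut, mul_one]
      exact huP
    have hfg : ∀ w ∈ D, w * g = g * w → w = 1 := by
      intro w hw hwg
      apply hstep2 t ht ht1 w hw
      have h1 : Commute w g := hwg
      obtain ⟨i, rfl⟩ := Subgroup.mem_zpowers_iff.mp htg
      exact h1.zpow_right i
    have hcl := IsCharacter.isClassFunction (IsIrrCharacter.isCharacter χ.2)
    have h2 : ∀ n : D, (χ : G → ℂ) ((n : G) * g) = (χ : G → ℂ) g := by
      intro n
      obtain ⟨z, -, hz⟩ := exists_conj_of_free D hfg n.2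
      rw [hz]
      have := hcl g z⁻¹
      simpa using this
    have h3 := sum_coset_irr D χ.2 g
    simp only [h2, Finset.sum_const, Finset.card_univ, nsmul_eq_mul, if_neg hker] at h3
    have hD0 : ((Fintype.card D : ℕ) : ℂ) ≠ 0 := by
      exact_mod_cast Fintype.card_ne_zero
    exact (mul_eq_zero.mp h3).resolve_left hD0
  intro x y χ hx hy ⟨r, s, a, b, hr, hs, hrs, hxo, hyo⟩
  by_cases hker : D ≤ charKer (χ : G → ℂ)
  · obtain ⟨β, hβ, hχβ⟩ := exists_deflate D χ.2 hker
    have hβ1 : β 1 = 1 := (comm_iff_irr_degree_one.mp hquot) ⟨β, hβ⟩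
    have hχ1 : (χ : G → ℂ) 1 = 1 := by
      rw [hχβ]
      exact hβ1
    obtain ⟨lam, hlam⟩ := IsCharacter.exists_monoidHom (IsIrrCharacter.isCharacter χ.2) hχ1
    rw [hlam]
    simp
  · have hnotP : ∀ z : G, z ≠ 1 → ∀ t e : ℕ, t.Prime → t ≠ p → orderOf z = t ^ e → z ∉ Pg := by
      intro z hz t e ht htp hoz hzP
      obtain ⟨j, hj⟩ := (IsPGroup.iff_orderOf.mp hPp) ⟨z, hzP⟩
      rw [Subgroup.orderOf_mk, hoz] at hj
      have he : e ≠ 0 := by
        rintro rfl
        rw [pow_zero] at hoz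
        exact hz (orderOf_eq_one_iff.mp hoz)
      have h1 : t ∣ p ^ j := by
        rw [← hj]
        exact dvd_pow_self t he
      exact htp ((Nat.prime_dvd_prime_iff_eq ht Fact.out).mp (ht.dvd_of_dvd_pow h1))
    have hxyP : ∀ (u v : G) (e f : ℕ), orderOf u = r ^ e → orderOf v = s ^ f →
        (u * v ∈ Pg ∨ v * u ∈ Pg) → u ∈ Pg := by
      intro u v e f hu hv huv
      have hcop : Nat.gcd (r ^ e) (s ^ f) = 1 :=
        Nat.Coprime.pow _ _ ((Nat.coprime_primes hr hs).mpr hrs)
      have h1 : ((u : G) : G ⧸ Pg) ^ (r ^ e) = 1 := by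
        rw [← QuotientGroup.mk_pow, ← hu, pow_orderOf_eq_one, QuotientGroup.mk_one]
      have h2 : ((v : G) : G ⧸ Pg) ^ (s ^ f) = 1 := by
        rw [← QuotientGroup.mk_pow, ← hv, pow_orderOf_eq_one, QuotientGroup.mk_one]
      have h3 : ((u : G) : G ⧸ Pg) = ((v : G) : G ⧸ Pg)⁻¹ := by
        rcases huv with h | h
        · have h4 := (QuotientGroup.eq_one_iff (u * v)).mpr h
          rw [QuotientGroup.mk_mul] at h4
          exact eq_inv_of_mul_eq_one_left h4
        · have h4 := (QuotientGroup.eq_one_iff (v * u)).mpr h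
          rw [QuotientGroup.mk_mul] at h4
          exact eq_inv_of_mul_eq_one_right h4
      have h5 : ((u : G) : G ⧸ Pg) ^ (s ^ f) = 1 := by
        rw [h3, inv_pow, h2, inv_one]
      have h6 := pow_gcd_eq_one.mpr ⟨h1, h5⟩
      rw [hcop, pow_one, QuotientGroup.eq_one_iff] at h6
      exact h6
    have hrs' : r ≠ p ∨ s ≠ p := by
      by_contra hcon
      push Not at hcon
      exact hrs (hcon.1.trans hcon.2.symm)
    rcases hrs' with hrp | hsp
    · have hxP := hnotP x hx r a hr hrp hxo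
      have hxyn : x * y ∉ Pg := fun h => hxP (hxyP x y a b hxo hyo (Or.inl h))
      rw [hzero χ hker _ hxyn, hzero χ hker _ hxP, zero_mul]
    · have hyP := hnotP y hy s b hs hsp hyo
      have hxyn : x * y ∉ Pg := by
        intro h
        have hcop : Nat.Coprime (s ^ b) (r ^ a) := Nat.Coprime.pow _ _ ((Nat.coprime_primes hs hr).mpr hrs.symm)
        have h1 : ((y : G) : G ⧸ Pg) ^ (s ^ b) = 1 := by
          rw [← QuotientGroup.mk_pow, ← hyo, pow_orderOf_eq_one, QuotientGroup.mk_one]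
        have h2 : ((x : G) : G ⧸ Pg) ^ (r ^ a) = 1 := by
          rw [← QuotientGroup.mk_pow, ← hxo, pow_orderOf_eq_one, QuotientGroup.mk_one]
        have h4 := (QuotientGroup.eq_one_iff (x * y)).mpr h
        rw [QuotientGroup.mk_mul] at h4
        have h3 : ((y : G) : G ⧸ Pg) = ((x : G) : G ⧸ Pg)⁻¹ := eq_inv_of_mul_eq_one_right h4
        have h5 : ((y : G) : G ⧸ Pg) ^ (r ^ a) = 1 := by
          rw [h3, inv_pow, h2, inv_one]
        have h6 := pow_gcd_eq_one.mpr ⟨h1, h5⟩
        rw [hcop.gcd_eq_one, pow_one, QuotientGroup.eq_one_iff] at h6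
        exact hyP h6
      rw [hzero χ hker _ hxyn, hzero χ hker _ hyP, mul_zero]

end Backward

/-- For a finite group G the following are equivalent. (1) χ(x y) = χ(x) χ(y) for every irreducible character χ and all non-identity elements x, y of prime power orders for two different primes. (2) G is a p-group for some prime p, or G is abelian, or for some prime p: G = A P with P a normal Sylow p-subgroup and A a nontrivial cyclic subgroup of order prime to p such that, with C = C_P(A) and D = [A, P], one has P = C D, C abelian, D normal in G, C ∩ D = 1, and A acts fixed-point-freely on D (no non-identity element of A centralizes a non-identity element of D). -/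
theorem result {G : Type*} [Group G] [Finite G] : (∀ (x y : G) (χ : Cfsg.IrrCharacter G), x ≠ 1 → y ≠ 1 → (∃ p q a b : ℕ, p.Prime ∧ q.Prime ∧ p ≠ q ∧ orderOf x = p ^ a ∧ orderOf y = q ^ b) → (χ : G → ℂ) (x * y) = (χ : G → ℂ) x * (χ : G → ℂ) y) ↔ ((∃ p : ℕ, p.Prime ∧ IsPGroup p G) ∨ IsMulCommutative G ∨ ∃ (p : ℕ) (_ : Fact p.Prime) (P : Sylow p G) (A : Subgroup G), (P : Subgroup G).Normal ∧ IsCyclic ↥A ∧ A ≠ ⊥ ∧ (Nat.card ↥A).Coprime p ∧ A ⊔ (P : Subgroup G) = ⊤ ∧ IsMulCommutative ↥((P : Subgroup G) ⊓ Subgroup.centralizer (A : Set G)) ∧ (⁅A, (P : Subgroup G)⁆).Normal ∧ ((P : Subgroup G) ⊓ Subgroup.centralizer (A : Set G)) ⊔ ⁅A, (P : Subgroup G)⁆ = (P : Subgroup G) ∧ ((P : Subgroup G) ⊓ Subgroup.centralizer (A : Set G)) ⊓ ⁅A, (P : Subgroup G)⁆ = ⊥ ∧ ∀ a ∈ A, a ≠ 1 → ∀ d ∈ ⁅A, (P : Subgroup G)⁆, a * d = d * a → d = 1) := by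
  classical
  cases nonempty_fintype G
  constructor
  · intro H
    by_cases hnp : ∃ p : ℕ, p.Prime ∧ IsPGroup p G
    · exact Or.inl hnp
    · by_cases hna : IsMulCommutative G
      · exact Or.inr (Or.inl hna)
      · exact Or.inr (Or.inr (forward H hnp hna))
  · rintro (⟨p, hp, hpG⟩ | hab | ⟨p, hp, P, A, hPn, hAcyc, -, hco, hsup, hCc, hDn, hCD, hCinf, hfree⟩)
    · intro x y χ hx hy ⟨r, s, a, b, hr, hs, hrs, hxo, hyo⟩
      exfalso
      haveI : Fact p.Prime := ⟨hp⟩
      have hsame : ∀ z : G, z ≠ 1 → ∀ t e : ℕ, t.Prime → orderOf z = t ^ e → t = p := by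
        intro z hz t e ht hoz
        obtain ⟨j, hj⟩ := (IsPGroup.iff_orderOf.mp hpG) z
        rw [hoz] at hj
        have he : e ≠ 0 := by
          rintro rfl
          rw [pow_zero] at hoz
          exact hz (orderOf_eq_one_iff.mp hoz)
        have h1 : t ∣ p ^ j := by
          rw [← hj]
          exact dvd_pow_self t he
        exact (Nat.prime_dvd_prime_iff_eq ht hp).mp (ht.dvd_of_dvd_pow h1)
      exact hrs ((hsame x hx r a hr hxo).trans (hsame y hy s b hs hyo).symm)
    · intro x y χ hx hy _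
      have h1 : (χ : G → ℂ) 1 = 1 :=
        (comm_iff_irr_degree_one.mp (fun a b => hab.is_comm.comm a b)) χ
      obtain ⟨lam, hlam⟩ := IsCharacter.exists_monoidHom (IsIrrCharacter.isCharacter χ.2) h1
      rw [hlam]
      simp
    · exact backward P A hPn hAcyc hco hsup hCc hDn hCD hCinf hfree

end Cfsg.Agent.S4756
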