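import Cfsg.Statements.S4765
import Cfsg.Agent.Lib.Char.SL2Deg

set_option autoImplicit false
open Cfsg

namespace Cfsg.Agent.S4765

open Cfsg.Agent.Lib.Char.SL2D Cfsg.Agent.Lib.Known

/-- Let F be a finite field of characteristic p with at least 4 elements. Then PSL(2,F) has exactly one irreducible complex character of degree divisible by p, and its degree is the order of F. -/
theorem result (p : ℕ) [Fact p.Prime] (F : Type*) [Field F] [Fintype F] [CharP F p] (hF : 4 ≤ Fintype.card F) : Nat.card {χ : Cfsg.IrrCharacter (Matrix.ProjectiveSpecialLinearGroup (Fin 2) F) // p ∣ Cfsg.charDegree (χ : Matrix.ProjectiveSpecialLinearGroup (Fin 2) F → ℂ)} = 1 ∧ ∀ χ : Cfsg.IrrCharacter (Matrix.ProjectiveSpecialLinearGroup (Fin 2) F), p ∣ Cfsg.charDegree (χ : Matrix.ProjectiveSpecialLinearGroup (Fin 2) F → ℂ) → Cfsg.charDegree (χ : Matrix.ProjectiveSpecialLinearGroup (Fin 2) F → ℂ) = Fintype.card F := by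
  classical
  have hpp : p.Prime := Fact.out
  have key : ∀ χ : Cfsg.IrrCharacter (Matrix.ProjectiveSpecialLinearGroup (Fin 2) F),
      p ∣ Cfsg.charDegree (χ : Matrix.ProjectiveSpecialLinearGroup (Fin 2) F → ℂ) →
        (∀ x : SL2 F, (χ : Matrix.ProjectiveSpecialLinearGroup (Fin 2) F → ℂ) (x : Matrix.ProjectiveSpecialLinearGroup (Fin 2) F) = sl2St F x) ∧
          Cfsg.charDegree (χ : Matrix.ProjectiveSpecialLinearGroup (Fin 2) F → ℂ) = Fintype.card F := by
    intro χ hχ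
    obtain ⟨ψ, hψ⟩ := exists_psl_lift χ
    rw [charDegree_of_lift hψ, Cfsg.Agent.Lib.Char.SL2D.charDegree_eq_irrDeg] at hχ ⊢
    have h1 := eq_St_of_dvd p ψ hχ
    refine ⟨fun x => ?_, by rw [h1, irrDeg_stIrr]⟩
    rw [← hψ, h1]
    rfl
  refine ⟨?_, fun χ hχ => (key χ hχ).2⟩
  obtain ⟨χ₀, hχ₀⟩ := exists_psl_desc (stIrr F) stIrr_M1
  have hdeg₀ : Cfsg.charDegree (χ₀ : Matrix.ProjectiveSpecialLinearGroup (Fin 2) F → ℂ) = Fintype.card F := by
    rw [charDegree_of_lift (fun x => (hχ₀ x).symm), Cfsg.Agent.Lib.Char.SL2D.charDegree_eq_irrDeg, irrDeg_stIrr]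
  obtain ⟨n, -, hq⟩ := FiniteField.card F p
  have hpq : p ∣ Fintype.card F := by
    rw [hq]
    exact dvd_pow_self p n.ne_zero
  rw [Nat.card_eq_one_iff_unique]
  refine ⟨⟨fun a b => ?_⟩, ⟨⟨χ₀, by rw [hdeg₀]; exact hpq⟩⟩⟩
  apply Subtype.ext
  apply Subtype.ext
  funext x
  obtain ⟨y, rfl⟩ := QuotientGroup.mk_surjective x
  rw [(key a.1 a.2).1 y, (key b.1 b.2).1 y]

end Cfsg.Agent.S4765
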