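import Cfsg.Statements.S4768
import Cfsg.Agent.Lib.Char.RelIto

set_option autoImplicit false
open Cfsg

namespace Cfsg.Agent.S4768

open Cfsg.Agent.Lib.Char Cfsg.Agent.Lib.Basic
open scoped ComplexConjugate Pointwise commutatorElement

universe u

variable {p : ℕ} [hp : Fact p.Prime]

/-- The number of irreducible characters of degree divisible by `p`. -/
noncomputable abbrev cnt (p : ℕ) (G : Type*) [Group G] : ℕ :=
  Nat.card {χ : IrrCharacter G // p ∣ charDegree (χ : G → ℂ)}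

/-- Inflation. -/
noncomputable def irrInfl {G : Type u} [Group G] (N : Subgroup G) [N.Normal] [Finite G]
    (β : IrrCharacter (G ⧸ N)) : IrrCharacter G :=
  ⟨inflate N (β : G ⧸ N → ℂ), by
    classical
    letI := Fintype.ofFinite G
    letI : Fintype (G ⧸ N) := Fintype.ofFinite _
    letI : Fintype N := Fintype.ofFinite _
    exact isIrrCharacter_inflate N β.2⟩

theorem cnt_map_inj {G : Type u} [Group G] [Finite G] (N : Subgroup G) [N.Normal] :
    Function.Injective (fun β : {χ : IrrCharacter (G ⧸ N) // p ∣ charDegree (χ : G ⧸ N → ℂ)} =>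
      (⟨irrInfl N β.1, β.2⟩ : {χ : IrrCharacter G // p ∣ charDegree (χ : G → ℂ)})) := by
  intro a b hab
  apply Subtype.ext
  apply Subtype.ext
  funext x
  obtain ⟨x, rfl⟩ := QuotientGroup.mk'_surjective N x
  have h1 := congrArg (fun c : {χ : IrrCharacter G // p ∣ charDegree (χ : G → ℂ)} => (c.1 : G → ℂ) x) hab
  exact h1

theorem cnt_quot_le {G : Type u} [Group G] [Finite G] (N : Subgroup G) [N.Normal] :
    cnt p (G ⧸ N) ≤ cnt p G := by
  classical
  letI := Fintype.ofFinite G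
  exact Nat.card_le_card_of_injective _ (cnt_map_inj N)

theorem cnt_quot_lt {G : Type u} [Group G] [Finite G] (N : Subgroup G) [N.Normal]
    (χ : IrrCharacter G) (hχ : p ∣ charDegree (χ : G → ℂ)) {n : G} (hn : n ∈ N)
    (hne : (χ : G → ℂ) n ≠ (χ : G → ℂ) 1) : cnt p (G ⧸ N) < cnt p G := by
  classical
  letI := Fintype.ofFinite G
  letI : Fintype (G ⧸ N) := Fintype.ofFinite _
  rw [cnt, cnt, Nat.card_eq_fintype_card, Nat.card_eq_fintype_card]
  refine Fintype.card_lt_of_injective_of_notMem _ (cnt_map_inj N) (b := ⟨χ, hχ⟩) ?_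
  rintro ⟨β, hβ⟩
  have h1 := congrArg (fun c : {χ : IrrCharacter G // p ∣ charDegree (χ : G → ℂ)} => (c.1 : G → ℂ)) hβ
  apply hne
  simp only at h1
  rw [← h1]
  show (β.1 : G ⧸ N → ℂ) (n : G ⧸ N) = (β.1 : G ⧸ N → ℂ) ((1 : G) : G ⧸ N)
  rw [(QuotientGroup.eq_one_iff n).mpr hn]
  rfl

theorem derived_succ_eq_bot {G : Type u} [Group G] (P A : Subgroup G)
    (hA : ∀ a ∈ A, ∀ b ∈ A, a * b = b * a) (j : ℕ)
    (h : ∀ x ∈ derivedSeries ↥P j, (x : G) ∈ A) : derivedSeries ↥P (j + 1) = ⊥ := by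
  rw [derivedSeries_succ, Subgroup.commutator_eq_bot_iff_le_centralizer]
  intro x hx
  rw [Subgroup.mem_centralizer_iff]
  intro y hy
  apply Subtype.ext
  exact hA _ (h y hy) _ (h x hx)

theorem mem_of_quot {G : Type u} [Group G] [Finite G] (N : Subgroup G) [N.Normal] (P : Sylow p G)
    (j : ℕ)
    (h : derivedSeries ↥((P.mapSurjective (QuotientGroup.mk'_surjective N) : Sylow p (G ⧸ N)) :
      Subgroup (G ⧸ N)) j = ⊥) : ∀ x ∈ derivedSeries ↥(P : Subgroup G) j, (x : G) ∈ N := by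
  intro x hx
  let f : ↥(P : Subgroup G) →* ↥((P : Subgroup G).map (QuotientGroup.mk' N)) :=
    (QuotientGroup.mk' N).subgroupMap P
  have h1 : (derivedSeries ↥(P : Subgroup G) j).map f ≤ ⊥ := by
    have h0 := map_derivedSeries_le_derivedSeries f j
    exact h0.trans (le_of_eq h)
  have h2 : f x = 1 := h1 ⟨x, hx, rfl⟩
  have h3 : ((x : G) : G ⧸ N) = 1 := congrArg Subtype.val h2
  exact (QuotientGroup.eq_one_iff _).mp h3

/-- Irreducible characters of a finite group separate the elements from the identity. -/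
theorem exists_irr_ne {Γ : Type*} [Group Γ] [Fintype Γ] {x : Γ} (hx : x ≠ 1) :
    ∃ β : Γ → ℂ, IsIrrCharacter Γ β ∧ β x ≠ β 1 := by
  classical
  by_contra hcon
  push Not at hcon
  have h1 := sum_irr_degree_mul_apply x
  rw [if_neg hx] at h1
  have h2 : ∑ χ : IrrCharacter Γ, (χ : Γ → ℂ) 1 * (χ : Γ → ℂ) x =
      ∑ χ : IrrCharacter Γ, (χ : Γ → ℂ) 1 ^ 2 := by
    refine Finset.sum_congr rfl fun χ _ => ?_
    rw [hcon χ χ.2, sq]
  rw [h2, sum_irr_degree_sq] at h1
  exact (NeZero.ne ((Nat.card Γ : ℂ))) h1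

/-- The `p'`-core meets a `p`-subgroup trivially. -/
theorem core_inf_pgroup {H : Type*} [Group H] [Finite H] {P : Subgroup H} (hP : IsPGroup p P) {x : H}
    (h1 : x ∈ pPrimeCore p H) (h2 : x ∈ P) : x = 1 := by
  have h3 : (Nat.card (pPrimeCore p H)).Coprime p := pPrimeCore_coprime p
  have h4 : orderOf x ∣ Nat.card (pPrimeCore p H) := by
    rw [← Subgroup.orderOf_mk x h1]
    exact orderOf_dvd_natCard _
  obtain ⟨k, hk⟩ := (IsPGroup.iff_orderOf.mp hP) ⟨x, h2⟩
  rw [Subgroup.orderOf_mk] at hk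
  rw [hk] at h4
  rcases Nat.eq_zero_or_pos k with rfl | hkpos
  · rw [pow_zero, orderOf_eq_one_iff] at hk
    exact hk
  · exfalso
    have hpd : p ∣ Nat.card (pPrimeCore p H) := (dvd_pow_self p hkpos.ne').trans h4
    have := Nat.Coprime.eq_one_of_dvd h3.symm hpd
    exact hp.out.ne_one this

/-- The key lemma: if `P` fixes a linear `θ` of the abelian normal subgroup `N` and all characters
over `θ` have degree prime to `p`, then `P/ker θ` is abelian. -/
theorem comm_of_fixed {G : Type u} [Group G] [Fintype G] (hG : IsPSolvable p G) (N : Subgroup G)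
    [hNn : N.Normal] [Fintype N] (hNab : ∀ a ∈ N, ∀ b ∈ N, a * b = b * a) (hNp : IsPGroup p N)
    {θ : N → ℂ} (hθ : IsIrrCharacter N θ)
    (hkey : ∀ χ : IrrCharacter G, classInner (resFun N (χ : G → ℂ)) θ ≠ 0 → ¬ p ∣ charDegree (χ : G → ℂ))
    (P : Sylow p G) (hPI : (P : Subgroup G) ≤ inertia N θ) :
    ∀ a ∈ (P : Subgroup G), ∀ b ∈ (P : Subgroup G), a * b * a⁻¹ * b⁻¹ ∈ N := by
  classical
  have h11 : θ 1 = 1 := by
    have h1 := (comm_iff_irr_degree_one (G := N)).mp (fun a b => Subtype.ext (hNab a a.2 b b.2))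
    exact h1 ⟨θ, hθ⟩
  obtain ⟨lam, hlam⟩ := IsCharacter.exists_monoidHom (IsIrrCharacter.isCharacter hθ) h11
  obtain ⟨u, hu⟩ := IsCyclic.exists_generator (α := lam.range)
  obtain ⟨n₀, hn₀⟩ := u.2
  have hgen : ∀ n : N, ∃ j : ℕ, lam n = lam n₀ ^ j := by
    intro n
    obtain ⟨j, hj⟩ := mem_powers_iff_mem_zpowers.mpr (hu ⟨lam n, ⟨n, rfl⟩⟩)
    refine ⟨j, ?_⟩
    have h1 : (u : ℂˣ) ^ j = lam n := congrArg Subtype.val hj
    rw [← h1, hn₀]
  have hle : N ≤ inertia N θ := le_inertia_of_irr hθ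
  let I : Subgroup G := inertia N θ
  letI : Fintype I := Fintype.ofFinite _
  have hinv : ∀ t ∈ I, ∀ n : N, lam ⟨t * n * t⁻¹, hNn.conj_mem n n.2 t⟩ = lam n := by
    intro t ht n
    have h3 : conjFun N t⁻¹ θ = θ := (mem_inertia N).mp (I.inv_mem ht)
    have h4 := congrFun h3 n
    rw [conjFun_apply] at h4
    have h5 : (⟨t⁻¹⁻¹ * n * t⁻¹, hNn.conj_mem' n n.2 t⁻¹⟩ : N) = ⟨t * n * t⁻¹, hNn.conj_mem n n.2 t⟩ :=
      Subtype.ext (by simp)
    rw [h5, hlam] at h4
    exact Units.ext h4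
  let K₀ : Subgroup G := lam.ker.map N.subtype
  have hK₀N : K₀ ≤ N := by
    rintro _ ⟨k, -, rfl⟩
    exact k.2
  have hK₀mem : ∀ n : N, (n : G) ∈ K₀ ↔ lam n = 1 := by
    intro n
    constructor
    · rintro ⟨k, hk, hke⟩
      have : k = n := Subtype.ext hke
      rw [← this]
      exact hk
    · intro h
      exact ⟨n, h, rfl⟩
  let KI : Subgroup I := K₀.subgroupOf I
  haveI hKIn : KI.Normal := by
    constructor
    intro x hx t
    obtain ⟨k, hk, hke⟩ := hx
    rw [Subgroup.mem_subgroupOf]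
    have h1 : ((t * x * t⁻¹ : I) : G) = t * k * (t : G)⁻¹ := by
      have hke' : (k : G) = (x : G) := hke
      rw [hke']
      rfl
    show ((t * x * t⁻¹ : I) : G) ∈ K₀
    rw [h1]
    refine ⟨⟨t * k * (t : G)⁻¹, hNn.conj_mem k k.2 t⟩, ?_, rfl⟩
    show lam _ = 1
    rw [hinv t t.2 k]
    exact hk
  letI : Fintype KI := Fintype.ofFinite _
  letI : Fintype (I ⧸ KI) := Fintype.ofFinite _
  let inc : N → I := fun n => ⟨n, hle n.2⟩
  have hmemK : ∀ n : N, ((inc n : I) : I ⧸ KI) = 1 ↔ lam n = 1 := by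
    intro n
    rw [QuotientGroup.eq_one_iff, Subgroup.mem_subgroupOf]
    exact hK₀mem n
  let y₀ : I := inc n₀
  let z₀ : I ⧸ KI := (y₀ : I ⧸ KI)
  have hz₀pow : ∀ j : ℕ, z₀ ^ j = ((inc (n₀ ^ j) : I) : I ⧸ KI) := by
    intro j
    have : inc (n₀ ^ j) = y₀ ^ j := Subtype.ext (by
      show ((n₀ ^ j : N) : G) = ((y₀ ^ j : I) : G)
      push_cast
      rfl)
    rw [this]
    rfl
  have hz₀c : z₀ ∈ Subgroup.center (I ⧸ KI) := by
    rw [Subgroup.mem_center_iff]
    intro g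
    obtain ⟨t, rfl⟩ := QuotientGroup.mk'_surjective KI g
    show ((t * y₀ : I) : I ⧸ KI) = ((y₀ * t : I) : I ⧸ KI)
    rw [QuotientGroup.eq]
    rw [Subgroup.mem_subgroupOf]
    have h1 : (((t * y₀)⁻¹ * (y₀ * t) : I) : G) =
        ((n₀⁻¹ * ⟨(t : G)⁻¹ * n₀ * t, hNn.conj_mem' n₀ n₀.2 t⟩ : N) : G) := by
      show ((t : G) * n₀)⁻¹ * ((n₀ : G) * t) = (n₀ : G)⁻¹ * ((t : G)⁻¹ * n₀ * t)
      group
    rw [h1, hK₀mem, map_mul, map_inv]
    have h2 := hinv (t : G)⁻¹ (I.inv_mem t.2) n₀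
    have h3 : (⟨(t : G)⁻¹ * n₀ * ((t : G)⁻¹)⁻¹, hNn.conj_mem n₀ n₀.2 (t : G)⁻¹⟩ : N) =
        ⟨(t : G)⁻¹ * n₀ * t, hNn.conj_mem' n₀ n₀.2 t⟩ := Subtype.ext (by simp)
    rw [h3] at h2
    rw [h2]
    simp
  have hpow : ∀ i : ℕ, z₀ ^ i = 1 ↔ lam n₀ ^ i = 1 := by
    intro i
    rw [hz₀pow, hmemK, map_pow]
  let ζ : ℂ := (lam n₀ : ℂ)
  have hord : orderOf z₀ = orderOf (lam n₀) := by
    apply Nat.dvd_antisymm
    · exact orderOf_dvd_of_pow_eq_one ((hpow _).mpr (pow_orderOf_eq_one _))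
    · exact orderOf_dvd_of_pow_eq_one ((hpow _).mp (pow_orderOf_eq_one _))
  have hζ : IsPrimitiveRoot ζ (orderOf z₀) := by
    rw [hord, ← orderOf_units]
    exact IsPrimitiveRoot.orderOf _
  have hzp : ∃ e : ℕ, orderOf z₀ = p ^ e := by
    obtain ⟨c, hc⟩ := IsPGroup.iff_orderOf.mp hNp n₀
    have h1 : orderOf z₀ ∣ p ^ c := by
      rw [← hc]
      apply orderOf_dvd_of_pow_eq_one
      rw [hpow, ← map_pow, pow_orderOf_eq_one, map_one]
    obtain ⟨e, -, he⟩ := (Nat.dvd_prime_pow hp.out).mp h1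
    exact ⟨e, he⟩
  have hsolv : IsPSolvable p (I ⧸ KI) :=
    Cfsg.Agent.Lib.Coprime.isPSolvable_map (QuotientGroup.mk' KI) (QuotientGroup.mk'_surjective KI)
      (isPSolvable_subgroup hG I)
  have hd : ∀ ψ : IrrCharacter (I ⧸ KI), (ψ : I ⧸ KI → ℂ) z₀ = (ψ : I ⧸ KI → ℂ) 1 * ζ →
      ¬ p ∣ charDegree (ψ : I ⧸ KI → ℂ) := by
    intro ψ hψ hdvd
    have hψ' : IsIrrCharacter I (inflate KI (ψ : I ⧸ KI → ℂ)) := isIrrCharacter_inflate KI ψ.2
    have hres : resTo N hle (inflate KI (ψ : I ⧸ KI → ℂ)) = (ψ : I ⧸ KI → ℂ) 1 • θ := by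
      funext n
      obtain ⟨j, hj⟩ := hgen n
      have h1 : ((inc n : I) : I ⧸ KI) = z₀ ^ j := by
        rw [hz₀pow, eq_comm, QuotientGroup.eq]
        rw [Subgroup.mem_subgroupOf]
        have h2 : (((inc (n₀ ^ j))⁻¹ * inc n : I) : G) = (((n₀ ^ j)⁻¹ * n : N) : G) := rfl
        rw [h2, hK₀mem, map_mul, map_inv, map_pow, hj]
        simp
      have h3 := apply_mul_pow_of_over ψ.2 hz₀c hψ 1 j
      rw [one_mul] at h3
      show (ψ : I ⧸ KI → ℂ) ((inc n : I) : I ⧸ KI) = (ψ : I ⧸ KI → ℂ) 1 * θ n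
      rw [h1, h3, hlam]
      congr 1
      show ζ ^ j = ((lam n : ℂˣ) : ℂ)
      rw [hj]
      simp [ζ]
    have hover : classInner (resTo N hle (inflate KI (ψ : I ⧸ KI → ℂ))) θ ≠ 0 := by
      rw [hres, classInner_smul_left, classInner_irr_self hθ, mul_one]
      exact IsIrrCharacter.apply_one_ne_zero ψ.2
    have hχ := isIrrCharacter_indFun_over hθ hψ' hover
    have hχr := classInner_res_indFun_over hθ hψ' hover
    have hne : classInner (resFun N (indFun I (inflate KI (ψ : I ⧸ KI → ℂ)))) θ ≠ 0 := by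
      rw [hχr]
      exact hover
    apply hkey ⟨_, hχ⟩ hne
    show p ∣ charDegree (indFun I (inflate KI (ψ : I ⧸ KI → ℂ)))
    rw [charDegree_indFun (IsIrrCharacter.isCharacter hψ')]
    exact Dvd.dvd.mul_left hdvd _
  let P₂ : Sylow p (I ⧸ KI) := (P.subtype hPI).mapSurjective (QuotientGroup.mk'_surjective KI)
  have hmain := (relIto hsolv hz₀c hζ hzp hd P₂).2
  intro a ha b hb
  have hmem : ∀ x (hx : x ∈ (P : Subgroup G)), (((⟨x, hPI hx⟩ : I) : I) : I ⧸ KI) ∈ (P₂ : Subgroup (I ⧸ KI)) := by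
    intro x hx
    refine ⟨⟨x, hPI hx⟩, ?_, rfl⟩
    show (⟨x, hPI hx⟩ : I) ∈ ((P.subtype hPI : Sylow p I) : Subgroup I)
    rw [Sylow.coe_subtype]
    exact hx
  have h1 := hmain _ (hmem a ha) _ (hmem b hb)
  have h2 : ((⟨a, hPI ha⟩ * ⟨b, hPI hb⟩ * (⟨a, hPI ha⟩ : I)⁻¹ * (⟨b, hPI hb⟩ : I)⁻¹ : I) : I ⧸ KI) = 1 := by
    have h3 : ((⟨a, hPI ha⟩ * ⟨b, hPI hb⟩ * (⟨a, hPI ha⟩ : I)⁻¹ * (⟨b, hPI hb⟩ : I)⁻¹ : I) : I ⧸ KI) =
        ((⟨a, hPI ha⟩ : I) : I ⧸ KI) * ((⟨b, hPI hb⟩ : I) : I ⧸ KI) *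
          ((⟨a, hPI ha⟩ : I) : I ⧸ KI)⁻¹ * ((⟨b, hPI hb⟩ : I) : I ⧸ KI)⁻¹ := rfl
    rw [h3, h1]
    group
  have h3 := (QuotientGroup.eq_one_iff _).mp h2
  exact hK₀N h3

/-- The case where all characters not containing `N` in their kernels have degree prime to `p`. -/
theorem commutator_mem_of_all_over {G : Type u} [Group G] [Fintype G] (hG : IsPSolvable p G)
    (N : Subgroup G) [hNn : N.Normal] [Fintype N] (hNab : ∀ a ∈ N, ∀ b ∈ N, a * b = b * a)
    (hNp : IsPGroup p N) (hN1 : N ≠ ⊥)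
    (hall : ∀ χ : IrrCharacter G, p ∣ charDegree (χ : G → ℂ) → ∀ n ∈ N, (χ : G → ℂ) n = (χ : G → ℂ) 1)
    (P : Sylow p G) :
    ∀ a ∈ (P : Subgroup G), ∀ b ∈ (P : Subgroup G), a * b * a⁻¹ * b⁻¹ ∈ N := by
  classical
  have hkey : ∀ θ : N → ℂ, IsIrrCharacter N θ → (∃ n, θ n ≠ θ 1) → ∀ χ : IrrCharacter G,
      classInner (resFun N (χ : G → ℂ)) θ ≠ 0 → ¬ p ∣ charDegree (χ : G → ℂ) := by
    intro θ hθ hne χ hχ hdvd
    apply hχ
    have h1 : resFun N (χ : G → ℂ) = (χ : G → ℂ) 1 • (fun _ => (1 : ℂ)) := by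
      funext n
      simp only [resFun, Pi.smul_apply, smul_eq_mul, mul_one]
      exact hall χ hdvd n n.2
    rw [h1, classInner_smul_left, classInner_irr_of_ne isIrrCharacter_one hθ, mul_zero]
    intro h2
    obtain ⟨n, hn⟩ := hne
    apply hn
    rw [← h2]
  obtain ⟨n₁, hn₁⟩ := Subgroup.ne_bot_iff_exists_ne_one.mp hN1
  obtain ⟨θ₀, hθ₀, hθ₀ne⟩ := exists_irr_ne hn₁
  obtain ⟨χ₀, hχ₀, hov⟩ := exists_over N hθ₀
  obtain ⟨e, he⟩ := exists_multiplicity N (IsIrrCharacter.isCharacter hχ₀) hθ₀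
  have hdeg := clifford_degree_nat N hχ₀ hθ₀ hov
    (apply_one_eq_charDegree (IsIrrCharacter.isCharacter hχ₀))
    (apply_one_eq_charDegree (IsIrrCharacter.isCharacter hθ₀)) he
  have hidx : ¬ p ∣ (inertia N θ₀).index := by
    intro h2
    apply hkey θ₀ hθ₀ ⟨n₁, hθ₀ne⟩ ⟨χ₀, hχ₀⟩ hov
    show p ∣ charDegree χ₀
    rw [hdeg]
    exact Dvd.dvd.mul_right (Dvd.dvd.mul_left h2 _) _
  obtain ⟨g, hg⟩ := IsPGroup.exists_le_conj_of_not_dvd_index P.isPGroup' hidx
  let θ₁ : N → ℂ := conjFun N g θ₀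
  have hθ₁ : IsIrrCharacter N θ₁ := isIrrCharacter_conjFun N g hθ₀
  have hPI : (P : Subgroup G) ≤ inertia N θ₁ := by
    intro y hy
    have h1 : y ∈ MulAut.conj g • inertia N θ₀ := hg hy
    obtain ⟨t, ht, hty⟩ := Subgroup.mem_smul_pointwise_iff_exists _ _ _ |>.mp h1
    have h2 : y = g * t * g⁻¹ := hty.symm
    rw [mem_inertia N]
    show conjFun N y (conjFun N g θ₀) = conjFun N g θ₀
    rw [← conjFun_mul, h2, show g * t * g⁻¹ * g = g * t by group, conjFun_mul]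
    rw [(mem_inertia N).mp ht]
  have hne₁ : ∃ n, θ₁ n ≠ θ₁ 1 := by
    refine ⟨⟨g * n₁ * g⁻¹, hNn.conj_mem n₁ n₁.2 g⟩, ?_⟩
    show θ₀ ⟨g⁻¹ * (g * n₁ * g⁻¹) * g, _⟩ ≠ θ₀ ⟨g⁻¹ * ((1 : N) : G) * g, _⟩
    have h3 : (⟨g⁻¹ * (g * n₁ * g⁻¹) * g, hNn.conj_mem' _ (hNn.conj_mem n₁ n₁.2 g) g⟩ : N) = n₁ :=
      Subtype.ext (by simp [mul_assoc])
    have h4 : (⟨g⁻¹ * ((1 : N) : G) * g, hNn.conj_mem' _ (1 : N).2 g⟩ : N) = 1 :=
      Subtype.ext (by simp)
    rw [h3, h4]
    exact hθ₀ne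
  exact comm_of_fixed hG N hNab hNp hθ₁ (hkey θ₁ hθ₁ hne₁) P hPI

/-- The main induction. -/
theorem main : ∀ (k : ℕ) (G : Type u) [Group G] [Finite G], Nat.card G = k → IsPSolvable p G →
    ∀ P : Sylow p G, derivedSeries ↥(P : Subgroup G) (cnt p G + 1) = ⊥ := by
  intro k
  induction k using Nat.strong_induction_on with
  | _ k ih =>
  intro G _ _ hk hsolv P
  classical
  letI := Fintype.ofFinite G
  by_cases hn : cnt p G = 0
  · have hd : ∀ χ : IrrCharacter G, ¬ p ∣ charDegree (χ : G → ℂ) := by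
      intro χ hχ
      have h1 : Nonempty {χ : IrrCharacter G // p ∣ charDegree (χ : G → ℂ)} := ⟨⟨χ, hχ⟩⟩
      have h2 : 0 < cnt p G := Nat.card_pos
      omega
    have hn1 := sylow_normal_of_isPSolvable _ G rfl hsolv hd P
    have hc := isMulCommutative_sylow_of_normal P hn1 hd
    rw [hn]
    refine derived_succ_eq_bot (P : Subgroup G) (P : Subgroup G) ?_ 0 (fun x _ => x.2)
    intro a ha b hb
    exact congrArg Subtype.val (hc.is_comm.comm ⟨a, ha⟩ ⟨b, hb⟩)
  by_cases hO : pPrimeCore p G = ⊥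
  · by_cases hnt : Nontrivial G
    · obtain ⟨N₀, hN₀n, hN₀1, hN₀c⟩ := Cfsg.Agent.Lib.Coprime.IsPSolvable_exists_normal hsolv
      have hN₀p : IsPGroup p N₀ := by
        rcases hN₀c with h | h
        · exact h
        · exfalso
          apply hN₀1
          have h1 := le_pPrimeCore hN₀n h
          rw [hO] at h1
          exact le_bot_iff.mp h1
      haveI := hN₀n
      let N : Subgroup G := (Subgroup.center N₀).map N₀.subtype
      haveI hNn : N.Normal := ConjAct.normal_of_characteristic_of_normal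
      letI : Fintype N := Fintype.ofFinite _
      have hNab : ∀ a ∈ N, ∀ b ∈ N, a * b = b * a := by
        rintro _ ⟨a, ha, rfl⟩ _ ⟨b, hb, rfl⟩
        exact congrArg Subtype.val (Subgroup.mem_center_iff.mp hb a)
      have hNN₀ : N ≤ N₀ := by
        rintro _ ⟨a, -, rfl⟩
        exact a.2
      have hNp : IsPGroup p N := hN₀p.to_le hNN₀
      have hN1 : N ≠ ⊥ := by
        haveI : Nontrivial N₀ := (Subgroup.nontrivial_iff_ne_bot N₀).mpr hN₀1
        haveI := hN₀p.center_nontrivial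
        obtain ⟨c, hc⟩ := exists_ne (1 : Subgroup.center N₀)
        intro h
        have h1 : ((c : N₀) : G) ∈ N := ⟨c, c.2, rfl⟩
        rw [h] at h1
        apply hc
        apply Subtype.ext
        apply Subtype.ext
        exact h1
      by_cases hb1 : ∃ χ : IrrCharacter G, p ∣ charDegree (χ : G → ℂ) ∧ ∃ n ∈ N,
          (χ : G → ℂ) n ≠ (χ : G → ℂ) 1
      · obtain ⟨χ, hχ, n, hnN, hne⟩ := hb1
        have hlt := cnt_quot_lt (p := p) N χ hχ hnN hne
        have hcard : Nat.card (G ⧸ N) < k := by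
          have h1 := Subgroup.card_eq_card_quotient_mul_card_subgroup N
          have h2 : 1 < Nat.card N := (Subgroup.one_lt_card_iff_ne_bot N).mpr hN1
          rw [← hk, h1]
          exact lt_mul_of_one_lt_right Nat.card_pos h2
        have hsolv' : IsPSolvable p (G ⧸ N) :=
          Cfsg.Agent.Lib.Coprime.isPSolvable_map (QuotientGroup.mk' N) (QuotientGroup.mk'_surjective N) hsolv
        have hIH := ih _ hcard (G ⧸ N) rfl hsolv' (P.mapSurjective (QuotientGroup.mk'_surjective N))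
        have h1 := mem_of_quot N P _ hIH
        have h2 := derived_succ_eq_bot (P : Subgroup G) N hNab _ h1
        rw [eq_bot_iff, ← h2]
        apply derivedSeries_antitone
        omega
      · push Not at hb1
        have h1 := commutator_mem_of_all_over hsolv N hNab hNp hN1 hb1 P
        have h2 : ∀ x ∈ derivedSeries ↥(P : Subgroup G) 1, (x : G) ∈ N := by
          intro x hx
          rw [derivedSeries_one, commutator_def] at hx
          have h3 : ⁅(⊤ : Subgroup ↥(P : Subgroup G)), (⊤ : Subgroup ↥(P : Subgroup G))⁆ ≤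
              N.subgroupOf (P : Subgroup G) := by
            rw [Subgroup.commutator_le]
            intro a _ b _
            rw [Subgroup.mem_subgroupOf]
            exact h1 a a.2 b b.2
          exact h3 hx
        have h3 := derived_succ_eq_bot (P : Subgroup G) N hNab 1 h2
        rw [eq_bot_iff, ← h3]
        apply derivedSeries_antitone
        omega
    · rw [not_nontrivial_iff_subsingleton] at hnt
      rw [eq_bot_iff]
      intro x _
      exact Subsingleton.elim x 1 ▸ one_mem _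
  · let N : Subgroup G := pPrimeCore p G
    haveI hNn : N.Normal := inferInstance
    have hcard : Nat.card (G ⧸ N) < k := by
      have h1 := Subgroup.card_eq_card_quotient_mul_card_subgroup N
      have h2 : 1 < Nat.card N := (Subgroup.one_lt_card_iff_ne_bot N).mpr hO
      rw [← hk, h1]
      exact lt_mul_of_one_lt_right Nat.card_pos h2
    have hsolv' : IsPSolvable p (G ⧸ N) :=
      Cfsg.Agent.Lib.Coprime.isPSolvable_map (QuotientGroup.mk' N) (QuotientGroup.mk'_surjective N) hsolv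
    have hIH := ih _ hcard (G ⧸ N) rfl hsolv' (P.mapSurjective (QuotientGroup.mk'_surjective N))
    have h1 := mem_of_quot N P _ hIH
    have h2 : derivedSeries ↥(P : Subgroup G) (cnt p (G ⧸ N) + 1) = ⊥ := by
      rw [eq_bot_iff]
      intro x hx
      have h3 := core_inf_pgroup P.isPGroup' (h1 x hx) x.2
      exact Subtype.ext h3
    have hle := cnt_quot_le (p := p) N
    rw [eq_bot_iff, ← h2]
    apply derivedSeries_antitone
    omega

/-- Let p be a prime, G a finite p-solvable group and P a Sylow p-subgroup of G. If n is the number of irreducible complex characters of G whose degree is divisible by p, then the (n+1)-st term of the derived series of P is trivial. (The p-solvable case has a direct inductive proof.) -/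
theorem result {G : Type*} [Group G] [Finite G] (p : ℕ) [Fact p.Prime] (hG : Cfsg.IsPSolvable p G) (P : Sylow p G) : derivedSeries ↥(P : Subgroup G) (Nat.card {χ : Cfsg.IrrCharacter G // p ∣ Cfsg.charDegree (χ : G → ℂ)} + 1) = ⊥ := by
  exact main _ G rfl hG P

end Cfsg.Agent.S4768
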