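import Cfsg.Statements.S4774
import Cfsg.Agent.Lib.Char.SL2Deg

set_option autoImplicit false
open Cfsg

namespace Cfsg.Agent.S4774

open Cfsg.Agent.Lib.Char.SL2D Cfsg.Agent.Lib.Known

/-- Let F be a finite field of odd characteristic t with q > 5 elements and let S be isomorphic to PSL(2,F) or to SL(2,F). Then the vertices of the character degree graph of S are the primes dividing q(q²−1); the prime t is adjacent to no vertex; two distinct primes dividing q² − 1 are adjacent exactly when one of them is 2, or both divide q + 1, or both divide q − 1. -/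
theorem result (F : Type*) [Field F] [Fintype F] (t : ℕ) [Fact t.Prime] [CharP F t] (ht : t ≠ 2) (q : ℕ) (hq : Fintype.card F = q) (h5 : 5 < q) {S : Type*} [Group S] [Finite S] (hS : Nonempty (S ≃* Matrix.ProjectiveSpecialLinearGroup (Fin 2) F) ∨ Nonempty (S ≃* Matrix.SpecialLinearGroup (Fin 2) F)) : Cfsg.degreePrimes S = {r : ℕ | r.Prime ∧ r ∣ q * (q ^ 2 - 1)} ∧ ∀ r s : ℕ, (Cfsg.degreeGraph S).Adj r s ↔ (r ≠ s ∧ r.Prime ∧ s.Prime ∧ r ∣ q ^ 2 - 1 ∧ s ∣ q ^ 2 - 1 ∧ (r = 2 ∨ s = 2 ∨ (r ∣ q + 1 ∧ s ∣ q + 1) ∨ (r ∣ q - 1 ∧ s ∣ q - 1))) := by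
  classical
  cases nonempty_fintype S
  subst hq
  letI : Fintype (Matrix.ProjectiveSpecialLinearGroup (Fin 2) F) := Fintype.ofFinite _
  have htp : t.Prime := Fact.out
  obtain ⟨n, -, hq⟩ := FiniteField.card F t
  have hodd : Odd (Fintype.card F) := by
    rw [hq]
    exact (htp.odd_of_ne_two ht).pow
  have hsub : ∀ {d : ℕ}, d ∈ Cfsg.charDegrees (Matrix.ProjectiveSpecialLinearGroup (Fin 2) F) → d ∈ Cfsg.charDegrees S := by
    intro d hd
    rcases hS with ⟨⟨e⟩⟩ | ⟨⟨e⟩⟩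
    · rw [charDegrees_congr e]
      exact hd
    · rw [charDegrees_congr e]
      exact charDegrees_psl_subset hd
  have hsup : ∀ d ∈ Cfsg.charDegrees S, d ∈ Cfsg.charDegrees (SL2 F) := by
    intro d hd
    rcases hS with ⟨⟨e⟩⟩ | ⟨⟨e⟩⟩
    · rw [charDegrees_congr e] at hd
      exact charDegrees_psl_subset hd
    · rwa [charDegrees_congr e] at hd
  obtain ⟨h₁, h₂⟩ := graph_odd htp hq hodd h5 (hsub q_mem_psl) (hsub (qadd_mem_psl h5)) (hsub (qsub_mem_psl hodd h5))
    (fun d hd => charDegrees_sl2_odd hodd (hsup d hd))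
  exact ⟨h₁, fun r s => h₂ r s⟩

end Cfsg.Agent.S4774
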