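import Cfsg.Statements.S4782
import Cfsg.Agent.Lib.Char.SimpleDeg

set_option autoImplicit false
open Cfsg

namespace Cfsg.Agent.S4782

open Cfsg.Agent.Lib.Char

/-- If the finite group G is not solvable, then at least three distinct primes each divide some irreducible complex character degree of G. -/
theorem result {G : Type*} [Group G] [Finite G] (hG : ¬ Group.IsSolvable G) : ∃ p q r : ℕ, p ≠ q ∧ q ≠ r ∧ p ≠ r ∧ p ∈ Cfsg.degreePrimes G ∧ q ∈ Cfsg.degreePrimes G ∧ r ∈ Cfsg.degreePrimes G := by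
  classical
  by_contra hno
  push Not at hno
  -- the vertex set has at most two elements
  have hex : ∃ p q : ℕ, p.Prime ∧ q.Prime ∧ ∀ s ∈ Cfsg.degreePrimes G, s = p ∨ s = q := by
    by_cases he : (Cfsg.degreePrimes G).Nonempty
    · obtain ⟨a, ha⟩ := he
      by_cases h2 : ∃ b ∈ Cfsg.degreePrimes G, b ≠ a
      · obtain ⟨b, hb, hba⟩ := h2
        refine ⟨a, b, ha.1, hb.1, fun s hs => ?_⟩
        by_contra hcon
        push Not at hcon
        exact hno a b s hba.symm hcon.2.symm hcon.1.symm ha hb hs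
      · push Not at h2
        exact ⟨a, a, ha.1, ha.1, fun s hs => Or.inl (h2 s hs)⟩
    · refine ⟨2, 2, Nat.prime_two, Nat.prime_two, fun s hs => absurd ⟨s, hs⟩ he⟩
  obtain ⟨p, q, hp, hq, hpq⟩ := hex
  apply hG
  refine Cfsg.Agent.Lib.Char.SimpleDeg.isSolvable_of_dvd_closed
    (fun d => ∀ s : ℕ, s.Prime → s ∣ d → s = p ∨ s = q)
    (fun d e h hed s hs hse => h s hs (hse.trans hed)) ?_ _ G rfl ?_
  · intro S _ _ _ hnc
    by_contra hcon
    push Not at hcon
    exact Cfsg.Agent.Lib.Char.SimpleDeg.simple_false_two hnc hp hq hcon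
  · intro d hd s hs hsd
    exact hpq s ⟨hs, d, hd, hsd⟩

end Cfsg.Agent.S4782
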