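import Cfsg.Statements.S4784
import Cfsg.Agent.Lib.Char.FSCount
import Cfsg.Agent.Lib.Char.PBlock
import Cfsg.Agent.Lib.Char.Ind
import Cfsg.Agent.Lib.Char.RelM

set_option autoImplicit false
open Cfsg

namespace Cfsg.Agent.S4784

open Cfsg.Agent.Lib.Char
open scoped ComplexConjugate

/-- Let H be a subgroup of the finite group G and consider the permutation character of G on the cosets of H (the function induced from the principal character of H). Then exactly one irreducible constituent of it is real-valued with Frobenius–Schur indicator +1 (namely the principal character) if and only if the normal core of H has odd index in G. -/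
theorem result {G : Type*} [Group G] [Fintype G] (H : Subgroup G) : Nat.card {χ : Cfsg.IrrCharacter G // Cfsg.classInner (Cfsg.indFun H (fun _ : H => (1 : ℂ))) (χ : G → ℂ) ≠ 0 ∧ (∀ g : G, (starRingEnd ℂ) ((χ : G → ℂ) g) = (χ : G → ℂ) g) ∧ (Nat.card G : ℂ)⁻¹ * ∑ g : G, (χ : G → ℂ) (g * g) = 1} = 1 ↔ Odd H.normalCore.index := by
  classical
  have hpi : ∀ χ : Cfsg.IrrCharacter G, Cfsg.classInner (Cfsg.indFun H (fun _ : H => (1 : ℂ))) (χ : G → ℂ) =
      Cfsg.classInner (fun _ : H => (1 : ℂ)) (fun h : H => (χ : G → ℂ) h) := fun χ =>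
    classInner_indFun_left H _ _ (IsCharacter.isClassFunction (IsIrrCharacter.isCharacter χ.2))
  set π := Cfsg.indFun H (fun _ : H => (1 : ℂ)) with hπ
  have hπc : Cfsg.IsCharacter G π := isCharacter_indFun H (IsIrrCharacter.isCharacter isIrrCharacter_one)
  have hfs1 : fsInd ((irrOne G : Cfsg.IrrCharacter G) : G → ℂ) = 1 := by
    unfold fsInd
    simp only [irrOne_apply, Finset.sum_const, Finset.card_univ, nsmul_eq_mul, mul_one]
    rw [← Nat.card_eq_fintype_card]
    exact inv_mul_cancel₀ (NeZero.ne _)
  have hHc : ((Nat.card H : ℕ) : ℂ) ≠ 0 := NeZero.ne _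
  have hm1 : Cfsg.classInner π ((irrOne G : Cfsg.IrrCharacter G) : G → ℂ) = 1 := by
    rw [hpi]
    unfold Cfsg.classInner
    simp only [irrOne_apply, map_one, mul_one, Finset.sum_const, Finset.card_univ, nsmul_eq_mul]
    rw [← Nat.card_eq_fintype_card]
    exact inv_mul_cancel₀ hHc
  -- the real constituents
  set S := {χ : Cfsg.IrrCharacter G // Cfsg.classInner π (χ : G → ℂ) ≠ 0 ∧
    (∀ g : G, (starRingEnd ℂ) ((χ : G → ℂ) g) = (χ : G → ℂ) g) ∧
    (Nat.card G : ℂ)⁻¹ * ∑ g : G, (χ : G → ℂ) (g * g) = 1} with hS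
  have hone : (irrOne G) ∈ {χ : Cfsg.IrrCharacter G | Cfsg.classInner π (χ : G → ℂ) ≠ 0 ∧
    (∀ g : G, (starRingEnd ℂ) ((χ : G → ℂ) g) = (χ : G → ℂ) g) ∧
    (Nat.card G : ℂ)⁻¹ * ∑ g : G, (χ : G → ℂ) (g * g) = 1} := by
    refine ⟨by rw [hm1]; exact one_ne_zero, fun g => by simp, hfs1⟩
  constructor
  · intro hcard
    -- every other constituent has indicator `≠ 1`
    have huniq : ∀ χ : Cfsg.IrrCharacter G, χ ≠ irrOne G → Cfsg.classInner π (χ : G → ℂ) ≠ 0 →
        fsInd (χ : G → ℂ) ≠ 1 := by
      intro χ hχ hne hν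
      have hreal : ∀ g : G, (starRingEnd ℂ) ((χ : G → ℂ) g) = (χ : G → ℂ) g := by
        intro g
        have h1 := im_eq_zero_of_fsInd_ne_zero χ.2 (by rw [hν]; exact one_ne_zero) g
        exact Complex.conj_eq_iff_im.mpr h1
      have h2 : Subsingleton S := by
        have := (Nat.card_eq_one_iff_unique.mp hcard).1
        exact this
      have h3 := h2.elim ⟨χ, hne, hreal, hν⟩ ⟨irrOne G, hone⟩
      exact hχ (congrArg Subtype.val h3)
    -- count
    have hcount := sum_fsInd_mul_classInner π
    have hπ2 : (Nat.card G : ℂ)⁻¹ * ∑ u : G, π (u * u) =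
        ∑ χ : Cfsg.IrrCharacter G, fsInd (χ : G → ℂ) * Cfsg.classInner π (χ : G → ℂ) := hcount.symm
    -- the right side via reciprocity
    have hθ : ∑ χ : Cfsg.IrrCharacter G, fsInd (χ : G → ℂ) * Cfsg.classInner π (χ : G → ℂ) =
        (Nat.card H : ℂ)⁻¹ * ∑ u : G, if u * u ∈ H then (1 : ℂ) else 0 := by
      have h1 : ∀ χ : Cfsg.IrrCharacter G, fsInd (χ : G → ℂ) * Cfsg.classInner π (χ : G → ℂ) =
          (Nat.card H : ℂ)⁻¹ * ∑ h : H, fsInd (χ : G → ℂ) * conj ((χ : G → ℂ) h) := by
        intro χ
        rw [hpi]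
        unfold Cfsg.classInner
        simp only [one_mul]
        rw [Finset.mul_sum, Finset.mul_sum, Finset.mul_sum]
        refine Finset.sum_congr rfl fun h _ => ?_
        ring
      simp only [h1]
      rw [← Finset.mul_sum]
      congr 1
      rw [Finset.sum_comm]
      have h2 : ∀ g : G, ∑ χ : Cfsg.IrrCharacter G, fsInd (χ : G → ℂ) * conj ((χ : G → ℂ) g) =
          sqrtCount g := by
        intro g
        have h3 := sum_fsInd_mul_apply g
        have h4 : conj (sqrtCount g) = sqrtCount g := by
          unfold sqrtCount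
          simp
        rw [← h4, ← h3, map_sum]
        refine Finset.sum_congr rfl fun χ _ => ?_
        rw [map_mul, conj_fsInd χ.2]
      simp only [h2]
      have h3 := sum_sqrtCount_mul (fun g : G => if g ∈ H then (1 : ℂ) else 0)
      rw [← h3]
      simp only [mul_ite, mul_one, mul_zero]
      rw [← Finset.sum_filter]
      have h5 : (Finset.univ.filter fun g : G => g ∈ H) = (Finset.univ : Finset H).map ⟨Subtype.val, Subtype.val_injective⟩ := by
        ext g
        simp
      rw [h5, Finset.sum_map]
      rfl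
    -- real part bound
    have hle : (∑ χ : Cfsg.IrrCharacter G, fsInd (χ : G → ℂ) * Cfsg.classInner π (χ : G → ℂ)).re ≤ 1 := by
      rw [Complex.re_sum, ← Finset.add_sum_erase _ _ (Finset.mem_univ (irrOne G)), hfs1, hm1]
      have h1 : ∑ χ ∈ Finset.univ.erase (irrOne G), (fsInd (χ : G → ℂ) * Cfsg.classInner π (χ : G → ℂ)).re ≤ 0 := by
        refine Finset.sum_nonpos fun χ hχ => ?_
        have hχ1 : χ ≠ irrOne G := (Finset.mem_erase.mp hχ).1
        obtain ⟨a, ha⟩ := IsCharacter.classInner_nat hπc (IsIrrCharacter.isCharacter χ.2)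
        rw [ha]
        by_cases ha0 : a = 0
        · simp [ha0]
        · have hne : Cfsg.classInner π (χ : G → ℂ) ≠ 0 := by
            rw [ha]
            exact_mod_cast ha0
          have h2 := huniq χ hχ1 hne
          rcases fsInd_trichotomy χ.2 with h3 | h3 | h3
          · simp [h3]
          · exact absurd h3 h2
          · simp [h3]
      simpa using h1
    rw [hθ] at hle
    -- `u² ∈ H → u ∈ H`
    have hroot : ∀ u : G, u * u ∈ H → u ∈ H := by
      intro u hu
      by_contra huH
      have hsum : ((Nat.card H : ℕ) : ℝ) + 1 ≤ ∑ u : G, ((if u * u ∈ H then (1 : ℂ) else 0)).re := by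
        have h1 : ∑ g : G, ((if g * g ∈ H then (1 : ℂ) else 0)).re =
            ((Finset.univ.filter fun g : G => g * g ∈ H).card : ℝ) := by
          simp only [apply_ite Complex.re, Complex.one_re, Complex.zero_re]
          rw [Finset.sum_boole]
        rw [h1]
        have h2 : (Finset.univ.filter fun g : G => g ∈ H) ∪ {u} ⊆ Finset.univ.filter fun g : G => g * g ∈ H := by
          intro g hg
          simp only [Finset.mem_union, Finset.mem_filter, Finset.mem_univ, true_and,
            Finset.mem_singleton] at hg ⊢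
          rcases hg with hg | rfl
          · exact H.mul_mem hg hg
          · exact hu
        have h3 := Finset.card_le_card h2
        rw [Finset.card_union_of_disjoint (by simpa using huH), Finset.card_singleton] at h3
        have h4 : (Finset.univ.filter fun g : G => g ∈ H).card = Nat.card H := by
          rw [Nat.card_eq_fintype_card, Fintype.card_subtype]
        rw [h4] at h3
        exact_mod_cast h3
      have h5 : ((Nat.card H : ℂ)⁻¹ * ∑ u : G, if u * u ∈ H then (1 : ℂ) else 0).re =
          ((Nat.card H : ℝ))⁻¹ * ∑ u : G, ((if u * u ∈ H then (1 : ℂ) else 0)).re := by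
        rw [← Complex.ofReal_natCast, ← Complex.ofReal_inv, Complex.re_ofReal_mul, Complex.re_sum]
      rw [h5] at hle
      have hHpos : (0 : ℝ) < (Nat.card H : ℝ) := by exact_mod_cast Nat.card_pos
      have h6 := (inv_mul_le_iff₀ hHpos).mp hle
      linarith
    -- conclude
    rw [← Nat.not_even_iff_odd]
    intro heven
    haveI : Fact (Nat.Prime 2) := ⟨Nat.prime_two⟩
    have h2 : 2 ∣ Nat.card (G ⧸ H.normalCore) := by
      rw [← Subgroup.index_eq_card]
      exact heven.two_dvd
    obtain ⟨t, ht⟩ := exists_prime_orderOf_dvd_card' 2 h2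
    obtain ⟨t, rfl⟩ := QuotientGroup.mk_surjective t
    have ht1 : ((t : G ⧸ H.normalCore)) ≠ 1 := by
      intro h
      rw [h, orderOf_one] at ht
      omega
    have ht2 : t * t ∈ H.normalCore := by
      have h3 : ((t : G ⧸ H.normalCore)) ^ 2 = 1 := by
        rw [← ht]
        exact pow_orderOf_eq_one _
      rw [pow_two, ← QuotientGroup.mk_mul, QuotientGroup.eq_one_iff] at h3
      exact h3
    apply ht1
    rw [QuotientGroup.eq_one_iff]
    intro b
    apply hroot
    have h4 : (b * t * b⁻¹) * (b * t * b⁻¹) = b * (t * t) * b⁻¹ := by group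
    rw [h4]
    exact H.normalCore_le ((Subgroup.normalCore_normal H).conj_mem _ ht2 b)
  · intro hodd
    rw [Nat.card_eq_one_iff_unique]
    have key : ∀ x : S, x = ⟨irrOne G, hone⟩ := by
      rintro ⟨χ, hne, hreal, hν⟩
      apply Subtype.ext
      apply Subtype.ext
      -- `χ` has the core in its kernel
      set N := H.normalCore with hN
      haveI hNn : N.Normal := Subgroup.normalCore_normal H
      have hNH : N ≤ H := Subgroup.normalCore_le H
      have h1 : Cfsg.classInner (fun h : H => (χ : G → ℂ) h) (fun _ : H => (1 : ℂ)) ≠ 0 := by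
        rw [classInner_conj_symm]
        rw [hpi] at hne
        intro h
        apply hne
        have := congrArg conj h
        simpa using this
      have h2 : Cfsg.classInner (resFun N (χ : G → ℂ)) (fun _ : N => (1 : ℂ)) ≠ 0 := by
        apply classInner_res_ne_zero_trans hNH (IsIrrCharacter.isCharacter χ.2) (ϑ := fun _ : H => (1 : ℂ))
          isIrrCharacter_one h1 (φ := fun _ : N => (1 : ℂ)) isIrrCharacter_one
        rw [classInner_irr_self (isIrrCharacter_one)]
        exact one_ne_zero
      have h3 := le_charKer_of_classInner_one_ne_zero N χ.2 h2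
      obtain ⟨β, hβ, hβχ⟩ := exists_deflate N χ.2 h3
      have hoddG : Odd (Nat.card (G ⧸ N)) := by
        rw [← Subgroup.index_eq_card]
        exact hodd
      have hβr : ∀ g : G ⧸ N, (β g).im = 0 := by
        intro g
        obtain ⟨g, rfl⟩ := QuotientGroup.mk_surjective g
        have h4 : (χ : G → ℂ) g = β g := congrFun hβχ g
        rw [← h4]
        exact Complex.conj_eq_iff_im.mp (hreal g)
      have h5 := eq_one_of_real_of_odd hoddG hβ hβr
      rw [hβχ, h5]
      rfl
    exact ⟨⟨fun a b => by rw [key a, key b]⟩, ⟨⟨irrOne G, hone⟩⟩⟩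

end Cfsg.Agent.S4784
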