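import Cfsg.Statements.S4798
import Cfsg.Agent.Lib.Char.Codegree
import Cfsg.Agent.Lib.Char.CliffordBij

set_option autoImplicit false
open Cfsg

namespace Cfsg.Agent.S4798

open Cfsg.Agent.Lib.Char

/-- An irreducible character is not the sum of two nonzero characters. -/
theorem irr_add_eq {K : Type*} [Group K] [Fintype K] {χ Φ₁ Φ₂ : K → ℂ} (hχ : IsIrrCharacter K χ)
    (h1 : IsCharacter K Φ₁) (h2 : IsCharacter K Φ₂) (h : χ = Φ₁ + Φ₂) : Φ₁ = 0 ∨ Φ₂ = 0 := by
  have hχc := IsIrrCharacter.isCharacter hχ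
  obtain ⟨n₁, hn₁⟩ := IsCharacter.classInner_nat h1 hχc
  obtain ⟨n₂, hn₂⟩ := IsCharacter.classInner_nat h2 hχc
  have hsum : classInner Φ₁ χ + classInner Φ₂ χ = 1 := by
    rw [← classInner_add_left, ← h, classInner_irr_self hχ]
  rw [hn₁, hn₂] at hsum
  have hsum' : n₁ + n₂ = 1 := by exact_mod_cast hsum
  have hpos : ∀ {Φ : K → ℂ}, IsCharacter K Φ → 0 ≤ (Φ 1).re := fun h => IsCharacter.apply_one_re_nonneg h
  have hone : ∀ {Φ Φ' Δ : K → ℂ}, IsCharacter K Φ → IsCharacter K Φ' → IsCharacter K Δ → Φ = χ + Δ →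
      χ = Φ' + Φ → Φ' = 0 := by
    intro Φ Φ' Δ hΦ hΦ' hΔ h3 h4
    apply eq_zero_of_apply_one_eq_zero hΦ'
    have h5 : χ 1 = Φ' 1 + (χ 1 + Δ 1) := by
      have := congrFun h4 1
      rw [h3] at this
      simpa using this
    have h6 : Φ' 1 + Δ 1 = 0 := by linear_combination -h5
    obtain ⟨a, ha⟩ := IsCharacter.apply_one hΦ'
    obtain ⟨b, hb⟩ := IsCharacter.apply_one hΔ
    rw [ha, hb] at h6
    have h7 : a + b = 0 := by exact_mod_cast h6
    rw [ha]
    have : a = 0 := by omega
    simp [this]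
  rcases (by omega : (n₁ = 1 ∧ n₂ = 0) ∨ (n₁ = 0 ∧ n₂ = 1)) with ⟨rfl, rfl⟩ | ⟨rfl, rfl⟩
  · right
    obtain ⟨Δ, hΔ, hΦ⟩ := exists_complement h1 hχ hn₁
    rw [one_smul] at hΦ
    exact hone h1 h2 hΔ hΦ (by rw [add_comm]; exact h)
  · left
    obtain ⟨Δ, hΔ, hΦ⟩ := exists_complement h2 hχ hn₂
    rw [one_smul] at hΦ
    exact hone h2 h1 hΔ hΦ h

/-- Let p be a prime and χ a faithful irreducible complex character of the finite group G (χ(g) = χ(1) only for g = 1), so that its codegree is #G / χ(1). Then #G / χ(1) is a power of p if and only if χ is induced from a character of a Sylow p-subgroup of G. -/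
theorem result {G : Type*} [Group G] [Fintype G] (p : ℕ) [Fact p.Prime] (χ : Cfsg.IrrCharacter G) (hfaith : ∀ g : G, (χ : G → ℂ) g = (χ : G → ℂ) 1 → g = 1) : (∃ k : ℕ, Nat.card G = p ^ k * Cfsg.charDegree (χ : G → ℂ)) ↔ ∃ (P : Sylow p G) (θ : ↥(P : Subgroup G) → ℂ), Cfsg.IsCharacter ↥(P : Subgroup G) θ ∧ (χ : G → ℂ) = Cfsg.indFun (P : Subgroup G) θ := by
  classical
  have hχ := χ.2
  have hχc := IsIrrCharacter.isCharacter hχ
  have hp : p.Prime := Fact.out
  obtain ⟨P⟩ : Nonempty (Sylow p G) := inferInstance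
  constructor
  · rintro ⟨k, hk⟩
    set a := (Nat.card G).factorization p with ha
    have hPcard : Nat.card (P : Subgroup G) = p ^ a := P.card_eq_multiplicity
    have hm : ¬ p ∣ (P : Subgroup G).index := P.not_dvd_index
    set m := (P : Subgroup G).index with hmdef
    have hGcard : Nat.card G = p ^ a * m := by
      rw [← hPcard]; exact (Subgroup.card_mul_index _).symm
    have hkle : k ≤ a := by
      have h1 : p ^ k ∣ p ^ a * m := by rw [← hGcard, hk]; exact dvd_mul_right _ _
      have h2 : p ^ k ∣ p ^ a :=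
        (Nat.Coprime.pow_left k ((Nat.Prime.coprime_iff_not_dvd hp).mpr hm)).dvd_of_dvd_mul_right h1
      exact (Nat.pow_dvd_pow_iff_le_right hp.one_lt).mp h2
    set d := charDegree (χ : G → ℂ) with hd
    have hdeq : d = p ^ (a - k) * m := by
      have h1 : p ^ k * d = p ^ k * (p ^ (a - k) * m) := by
        rw [← hk, hGcard, ← mul_assoc, ← pow_add]
        congr 2
        omega
      exact Nat.eq_of_mul_eq_mul_left (pow_pos hp.pos k) h1
    letI : Fintype (P : Subgroup G) := Fintype.ofFinite _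
    have hres := isCharacter_resFun (P : Subgroup G) hχc
    obtain ⟨c, hc, hsum⟩ := IsCharacter.exists_eq_sum hres
    -- the degrees of the constituents
    have hdegsum : d = ∑ ψ : IrrCharacter (P : Subgroup G), c ψ * charDegree (ψ : ↥(P : Subgroup G) → ℂ) := by
      have h1 := congrFun hsum 1
      have h2 : resFun (P : Subgroup G) (χ : G → ℂ) 1 = (d : ℂ) := by
        have : resFun (P : Subgroup G) (χ : G → ℂ) 1 = (χ : G → ℂ) 1 := rfl
        rw [this, apply_one_eq_charDegree hχc]
      rw [h2] at h1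
      simp only [Finset.sum_apply, Pi.smul_apply] at h1
      have h3 : ∀ ψ : IrrCharacter (P : Subgroup G), c ψ • (ψ : ↥(P : Subgroup G) → ℂ) 1 =
          ((c ψ * charDegree (ψ : ↥(P : Subgroup G) → ℂ) : ℕ) : ℂ) := by
        intro ψ
        rw [apply_one_eq_charDegree (IsIrrCharacter.isCharacter ψ.2)]
        push_cast
        simp
      simp only [h3] at h1
      exact_mod_cast h1
    -- some constituent has degree at most `p ^ (a - k)`
    have hex : ∃ ψ : IrrCharacter (P : Subgroup G), c ψ ≠ 0 ∧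
        charDegree (ψ : ↥(P : Subgroup G) → ℂ) ≤ p ^ (a - k) := by
      by_contra hcon
      push Not at hcon
      have h1 : p ^ (a - k + 1) ∣ d := by
        rw [hdegsum]
        apply Finset.dvd_sum
        intro ψ _
        by_cases hψ : c ψ = 0
        · simp [hψ]
        · apply Dvd.dvd.mul_left
          have h2 := charDegree_dvd_card ψ.2
          rw [hPcard] at h2
          obtain ⟨j, -, hj⟩ := (Nat.dvd_prime_pow hp).mp h2
          have h3 := hcon ψ hψ
          rw [hj] at h3 ⊢
          apply pow_dvd_pow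
          exact (Nat.pow_lt_pow_iff_right hp.one_lt).mp h3
      rw [hdeq, pow_succ] at h1
      exact hm (Nat.dvd_of_mul_dvd_mul_left (pow_pos hp.pos _) h1)
    obtain ⟨θ, hcθ, hθle⟩ := hex
    refine ⟨P, (θ : ↥(P : Subgroup G) → ℂ), IsIrrCharacter.isCharacter θ.2, ?_⟩
    have hθc := IsIrrCharacter.isCharacter θ.2
    have hΦ := isCharacter_indFun (P : Subgroup G) hθc
    have hinner : classInner (indFun (P : Subgroup G) (θ : ↥(P : Subgroup G) → ℂ)) (χ : G → ℂ) =
        ((c θ : ℕ) : ℂ) := by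
      rw [classInner_indFun_left _ _ _ (IsCharacter.isClassFunction hχc)]
      have h1 : classInner (θ : ↥(P : Subgroup G) → ℂ) (fun h : (P : Subgroup G) => (χ : G → ℂ) h) =
          (starRingEnd ℂ) (classInner (resFun (P : Subgroup G) (χ : G → ℂ)) (θ : ↥(P : Subgroup G) → ℂ)) :=
        classInner_conj_symm _ _
      rw [h1, hc θ]
      simp
    obtain ⟨Δ, hΔ, hΦeq⟩ := exists_complement hΦ hχ hinner
    have hval := congrFun hΦeq 1
    rw [indFun_one, apply_one_eq_charDegree hθc] at hval
    simp only [Pi.add_apply, Pi.smul_apply, apply_one_eq_charDegree hχc] at hval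
    obtain ⟨b, hb⟩ := IsCharacter.apply_one hΔ
    rw [hb] at hval
    have hval' : m * charDegree (θ : ↥(P : Subgroup G) → ℂ) = c θ * d + b := by
      have : ((m * charDegree (θ : ↥(P : Subgroup G) → ℂ) : ℕ) : ℂ) = ((c θ * d + b : ℕ) : ℂ) := by
        push_cast
        rw [← hd] at hval
        simpa using hval
      exact_mod_cast this
    have hd0 : 0 < d := charDegree_pos hχ
    have hle : m * charDegree (θ : ↥(P : Subgroup G) → ℂ) ≤ d := by
      rw [hdeq, mul_comm]
      exact Nat.mul_le_mul_right _ hθle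
    have hc1 : c θ = 1 := by
      have hcpos : 0 < c θ := Nat.pos_of_ne_zero hcθ
      by_contra hne
      have h2 : 2 ≤ c θ := by omega
      have h3 : 2 * d ≤ c θ * d := Nat.mul_le_mul_right _ h2
      omega
    have hb0 : b = 0 := by
      rw [hc1, one_mul] at hval'
      omega
    have hΔ0 : Δ = 0 := eq_zero_of_apply_one_eq_zero hΔ (by rw [hb, hb0]; simp)
    rw [hΦeq, hΔ0, hc1]
    simp
  · rintro ⟨Q, θ, hθ, hχeq⟩
    letI : Fintype (Q : Subgroup G) := Fintype.ofFinite _
    set a := (Nat.card G).factorization p with ha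
    have hQcard : Nat.card (Q : Subgroup G) = p ^ a := Q.card_eq_multiplicity
    have hindex0 : ((Q : Subgroup G).index : ℂ) ≠ 0 := by
      exact_mod_cast Subgroup.index_ne_zero_of_finite
    have hθ1 : θ 1 ≠ 0 := by
      intro h0
      have h1 : (χ : G → ℂ) 1 = 0 := by
        rw [hχeq, indFun_one, h0, mul_zero]
      have h2 := charDegree_pos hχ
      rw [apply_one_eq_charDegree hχc] at h1
      have h3 : charDegree (χ : G → ℂ) = 0 := by exact_mod_cast h1
      omega
    obtain ⟨θ₁, hθ₁, hne⟩ := exists_constituent hθ hθ1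
    obtain ⟨n, hn⟩ := IsCharacter.classInner_nat hθ (IsIrrCharacter.isCharacter hθ₁)
    have hn0 : n ≠ 0 := by
      intro h
      rw [h] at hn
      exact hne (by simpa using hn)
    obtain ⟨Δ, hΔ, hθeq⟩ := exists_complement hθ hθ₁ hn
    obtain ⟨n', rfl⟩ : ∃ n', n = n' + 1 := ⟨n - 1, by omega⟩
    have hθ₁c := IsIrrCharacter.isCharacter hθ₁
    set R := n' • θ₁ + Δ with hR
    have hRc : IsCharacter ↥(Q : Subgroup G) R := IsCharacter.add (IsCharacter.nsmul hθ₁c n') hΔ
    have hθsum : θ = θ₁ + R := by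
      rw [hθeq, hR, add_smul, one_smul]
      abel
    have hχsum : (χ : G → ℂ) = indFun (Q : Subgroup G) θ₁ + indFun (Q : Subgroup G) R := by
      rw [hχeq, hθsum, indFun_add]
    have hθ₁0 : charDegree θ₁ ≠ 0 := (charDegree_pos hθ₁).ne'
    have hR0 : R = 0 := by
      rcases irr_add_eq hχ (isCharacter_indFun (Q : Subgroup G) hθ₁c) (isCharacter_indFun (Q : Subgroup G) hRc) hχsum with h | h
      · exfalso
        have h1 := congrFun h 1
        rw [indFun_one, apply_one_eq_charDegree hθ₁c] at h1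
        have h2 : (charDegree θ₁ : ℂ) ≠ 0 := by exact_mod_cast hθ₁0
        exact mul_ne_zero hindex0 h2 h1
      · have h1 := congrFun h 1
        rw [indFun_one] at h1
        apply eq_zero_of_apply_one_eq_zero hRc
        simpa [hindex0] using h1
    have hθθ₁ : θ = θ₁ := by rw [hθsum, hR0, add_zero]
    subst hθθ₁
    have hdvd := charDegree_dvd_card hθ₁
    rw [hQcard] at hdvd
    obtain ⟨j, hj, hjeq⟩ := (Nat.dvd_prime_pow hp).mp hdvd
    refine ⟨a - j, ?_⟩
    have h1 : charDegree (χ : G → ℂ) = (Q : Subgroup G).index * charDegree θ := by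
      rw [hχeq]
      exact charDegree_indFun hθ
    rw [h1, hjeq, ← Subgroup.card_mul_index (Q : Subgroup G), hQcard, mul_comm ((Q : Subgroup G).index),
      ← mul_assoc, ← pow_add]
    congr 2
    omega

end Cfsg.Agent.S4798
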