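import Cfsg.Statements.S4801
import Cfsg.Agent.Lib.Char.Codegree

set_option autoImplicit false
open Cfsg

namespace Cfsg.Agent.S4801

open Cfsg.Agent.Lib.Char

/-- The codegree of an irreducible complex character χ of a finite group G is [G : ker χ] / χ(1), where ker χ is the set of elements at which χ takes the value χ(1). Let S be a finite simple group and G a finite group such that every codegree of an irreducible character of S is a codegree of an irreducible character of G. Then the order of S divides the order of G. -/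
theorem result {S : Type*} [Group S] [Finite S] (hS : IsSimpleGroup S) {G : Type*} [Group G] [Finite G] (hsub : ∀ χ : Cfsg.IrrCharacter S, ∃ ψ : Cfsg.IrrCharacter G, (Nat.card S / (Nat.card {g : S // (χ : S → ℂ) g = (χ : S → ℂ) 1} * Cfsg.charDegree (χ : S → ℂ))) = (Nat.card G / (Nat.card {g : G // (ψ : G → ℂ) g = (ψ : G → ℂ) 1} * Cfsg.charDegree (ψ : G → ℂ)))) : Nat.card S ∣ Nat.card G := by
  classical
  letI : Fintype S := Fintype.ofFinite S
  letI : Fintype G := Fintype.ofFinite G
  rw [Nat.dvd_iff_prime_pow_dvd_dvd]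
  intro p k hp hpk
  rcases k.eq_zero_or_pos with rfl | hk
  · simp
  have hpS : p ∣ Nat.card S := dvd_trans (dvd_pow_self p hk.ne') hpk
  obtain ⟨χ, hne, hχp⟩ := exists_irr_not_dvd_degree hp hpS
  obtain ⟨ψ, hψ⟩ := hsub χ
  have h1 := codegree_mul_charDegree χ.2
  rw [charKer_eq_bot_of_isSimpleGroup hS χ.2 hne, Subgroup.index_bot] at h1
  have h2 : p ^ k ∣ Nat.card S / (Nat.card {g : S // (χ : S → ℂ) g = (χ : S → ℂ) 1} * charDegree (χ : S → ℂ)) := by
    rw [← h1] at hpk
    exact (Nat.Coprime.pow_left k ((Nat.Prime.coprime_iff_not_dvd hp).mpr hχp)).dvd_of_dvd_mul_right hpk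
  rw [hψ] at h2
  exact h2.trans (codegree_dvd_card ψ.2)

end Cfsg.Agent.S4801
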