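import Cfsg.Statements.S4802
import Cfsg.Agent.Lib.Char.Kernel

set_option autoImplicit false
open Cfsg

namespace Cfsg.Agent.S4802



/-- Let N < M be normal subgroups of the finite group G and g ∈ M ∖ N. Then the conjugacy class of g is exactly M ∖ N if and only if every irreducible complex character of G whose kernel contains N takes the same value at all elements of M ∖ N, and every irreducible complex character of G whose kernel does not contain N vanishes at g. -/
theorem result {G : Type*} [Group G] [Finite G] (N M : Subgroup G) [N.Normal] [M.Normal] (hNM : N < M) (g : G) (hgM : g ∈ M) (hgN : g ∉ N) : {h : G | IsConj g h} = (M : Set G) \ (N : Set G) ↔ ((∀ χ : Cfsg.IrrCharacter G, (∀ x ∈ N, (χ : G → ℂ) x = (χ : G → ℂ) 1) → ∀ x ∈ M, x ∉ N → ∀ y ∈ M, y ∉ N → (χ : G → ℂ) x = (χ : G → ℂ) y) ∧ (∀ χ : Cfsg.IrrCharacter G, (∃ x ∈ N, (χ : G → ℂ) x ≠ (χ : G → ℂ) 1) → (χ : G → ℂ) g = 0)) := by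
  classical
  letI := Fintype.ofFinite G
  letI := Fintype.ofFinite N
  have hker : ∀ χ : Cfsg.IrrCharacter G, (N ≤ Cfsg.Agent.Lib.Char.charKer (χ : G → ℂ)) ↔
      ∀ x ∈ N, (χ : G → ℂ) x = (χ : G → ℂ) 1 := by
    intro χ
    constructor
    · intro h x hx
      exact (Cfsg.Agent.Lib.Char.mem_charKer (Cfsg.Agent.Lib.Char.IsIrrCharacter.isCharacter χ.2)).mp (h hx)
    · intro h x hx
      exact (Cfsg.Agent.Lib.Char.mem_charKer (Cfsg.Agent.Lib.Char.IsIrrCharacter.isCharacter χ.2)).mpr (h x hx)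
  have hconj : ∀ (χ : Cfsg.IrrCharacter G) {u v : G}, IsConj u v → (χ : G → ℂ) u = (χ : G → ℂ) v := by
    intro χ u v huv
    exact Cfsg.Agent.Lib.Char.IsClassFunction.congr_isConj
      (Cfsg.Agent.Lib.Char.IsCharacter.isClassFunction (Cfsg.Agent.Lib.Char.IsIrrCharacter.isCharacter χ.2)) huv
  have hNc : ((Nat.card N : ℕ) : ℂ) ≠ 0 := NeZero.ne _
  constructor
  · intro H
    have hmem : ∀ h, IsConj g h ↔ h ∈ M ∧ h ∉ N := by
      intro h
      have := Set.ext_iff.mp H h
      simpa using this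
    refine ⟨?_, ?_⟩
    · intro χ _ x hx hxN y hy hyN
      have h1 := (hmem x).mpr ⟨hx, hxN⟩
      have h2 := (hmem y).mpr ⟨hy, hyN⟩
      rw [← hconj χ h1, ← hconj χ h2]
    · intro χ hχ
      have hle : ¬ N ≤ Cfsg.Agent.Lib.Char.charKer (χ : G → ℂ) := by
        rw [hker]
        push Not
        exact hχ
      have h1 := Cfsg.Agent.Lib.Char.sum_coset_irr' N χ.2 g
      rw [if_neg hle] at h1
      have h2 : ∀ n : N, (χ : G → ℂ) (g * n) = (χ : G → ℂ) g := by
        intro n
        have : IsConj g (g * n) := by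
          refine (hmem _).mpr ⟨M.mul_mem hgM (hNM.le n.2), ?_⟩
          intro hc
          apply hgN
          have := N.mul_mem hc (N.inv_mem n.2)
          simpa using this
        exact (hconj χ this).symm
      simp only [h2, Finset.sum_const, Finset.card_univ, nsmul_eq_mul] at h1
      rw [← Nat.card_eq_fintype_card] at h1
      exact (mul_eq_zero.mp h1).resolve_left hNc
  · rintro ⟨H1, H2⟩
    ext h
    simp only [Set.mem_ofPred_eq, Set.mem_sdiff, SetLike.mem_coe]
    constructor
    · intro hc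
      obtain ⟨c, rfl⟩ := isConj_iff.mp hc
      refine ⟨(inferInstance : M.Normal).conj_mem g hgM c, ?_⟩
      intro hn
      apply hgN
      have := (inferInstance : N.Normal).conj_mem _ hn c⁻¹
      simpa [mul_assoc] using this
    · rintro ⟨hM, hN⟩
      by_contra hc
      have h0 := Cfsg.Agent.Lib.Char.sum_irr_mul_conj_of_not_isConj hc
      -- each term is `|χ(g)|²` or `0`; the trivial character contributes `1`
      have h1 : ∀ χ : Cfsg.IrrCharacter G, (χ : G → ℂ) g * (starRingEnd ℂ) ((χ : G → ℂ) h) =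
          ((‖(χ : G → ℂ) g‖ ^ 2 : ℝ) : ℂ) := by
        intro χ
        by_cases hχ : ∃ x ∈ N, (χ : G → ℂ) x ≠ (χ : G → ℂ) 1
        · rw [H2 χ hχ]
          simp
        · push Not at hχ
          rw [← H1 χ hχ g hgM hgN h hM hN, Complex.mul_conj, Complex.normSq_eq_norm_sq]
      simp only [h1] at h0
      rw [← Complex.ofReal_sum] at h0
      have h2 : ∑ χ : Cfsg.IrrCharacter G, ‖(χ : G → ℂ) g‖ ^ 2 = 0 := by exact_mod_cast h0
      have h3 := (Finset.sum_eq_zero_iff_of_nonneg (fun χ _ => by positivity)).mp h2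
        ⟨fun _ => 1, Cfsg.Agent.Lib.Char.isIrrCharacter_one⟩ (Finset.mem_univ _)
      simp at h3

end Cfsg.Agent.S4802
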