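import Cfsg.Statements.S4808
import Cfsg.Agent.Lib.Char.Codegree
import Cfsg.Agent.Lib.Char.DefectZero

set_option autoImplicit false
open Cfsg

namespace Cfsg.Agent.S4808

open Cfsg.Agent.Lib.Char

/-- The codegree of an irreducible complex character χ of a finite group G is [G : ker χ] / χ(1), where ker χ is the set of elements at which χ takes the value χ(1). A prime divides the order of G if and only if it divides the codegree of some irreducible complex character of G. -/
theorem result {G : Type*} [Group G] [Finite G] (p : ℕ) (hp : p.Prime) : p ∣ Nat.card G ↔ ∃ χ : Cfsg.IrrCharacter G, p ∣ (Nat.card G / (Nat.card {g : G // (χ : G → ℂ) g = (χ : G → ℂ) 1} * Cfsg.charDegree (χ : G → ℂ))) := by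
  classical
  letI : Fintype G := Fintype.ofFinite G
  constructor
  · intro hdvd
    by_contra hcon
    push Not at hcon
    haveI : Fact p.Prime := ⟨hp⟩
    obtain ⟨x, hx⟩ := exists_prime_orderOf_dvd_card' p hdvd
    have hx1 : x ≠ 1 := by
      rintro rfl
      rw [orderOf_one] at hx
      exact hp.one_lt.ne hx
    have hval : ∀ χ : IrrCharacter G, (χ : G → ℂ) x = (χ : G → ℂ) 1 ∨ (χ : G → ℂ) x = 0 := by
      intro χ
      by_cases hker : x ∈ charKer (χ : G → ℂ)
      · left
        exact (mem_charKer (IsIrrCharacter.isCharacter χ.2)).mp hker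
      right
      have hχc := IsIrrCharacter.isCharacter χ.2
      haveI hKn := charKer_normal hχc
      letI : Fintype (charKer (χ : G → ℂ)) := Fintype.ofFinite _
      letI : Fintype (G ⧸ charKer (χ : G → ℂ)) := Fintype.ofFinite _
      obtain ⟨β, hβ, hχβ⟩ := exists_deflate (charKer (χ : G → ℂ)) χ.2 le_rfl
      have hdeg : charDegree (χ : G → ℂ) = charDegree β := by
        have h2 : (χ : G → ℂ) 1 = β 1 := congrFun hχβ 1
        simp only [charDegree, h2]
      have h1 := codegree_mul_charDegree χ.2
      have h2 := hcon χ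
      set c := Nat.card G / (Nat.card {g : G // (χ : G → ℂ) g = (χ : G → ℂ) 1} * charDegree (χ : G → ℂ)) with hc
      have hcard : Nat.card (G ⧸ charKer (χ : G → ℂ)) = c * charDegree β := by
        rw [← hdeg, h1]
        rfl
      have hdef : p ^ (Nat.card (G ⧸ charKer (χ : G → ℂ))).factorization p ∣ charDegree β := by
        have h3 : p ^ (Nat.card (G ⧸ charKer (χ : G → ℂ))).factorization p ∣ c * charDegree β := by
          rw [← hcard]
          exact Nat.ordProj_dvd _ _
        exact (Nat.Coprime.pow_left _ ((Nat.Prime.coprime_iff_not_dvd hp).mpr h2)).dvd_of_dvd_mul_left h3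
      have hxbar : p ∣ orderOf (x : G ⧸ charKer (χ : G → ℂ)) := by
        have h3 : (x : G ⧸ charKer (χ : G → ℂ)) ^ p = 1 := by
          rw [← QuotientGroup.mk_pow, ← hx, pow_orderOf_eq_one]
          rfl
        have h4 := orderOf_dvd_of_pow_eq_one h3
        rcases (Nat.dvd_prime hp).mp h4 with h | h
        · exfalso
          rw [orderOf_eq_one_iff, QuotientGroup.eq_one_iff] at h
          exact hker h
        · rw [h]
      have h3 := apply_eq_zero_of_defect_zero hβ hp hdef hxbar
      have h4 : (χ : G → ℂ) x = β (x : G ⧸ charKer (χ : G → ℂ)) := congrFun hχβ x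
      rw [h4, h3]
    have hsum : ∑ χ : IrrCharacter G, (χ : G → ℂ) 1 * (χ : G → ℂ) x = 0 := by
      rw [sum_irr_degree_mul_apply, if_neg hx1]
    have hterm : ∀ χ : IrrCharacter G, ∃ n : ℕ, (χ : G → ℂ) 1 * (χ : G → ℂ) x = n := by
      intro χ
      have h1 := apply_one_eq_charDegree (IsIrrCharacter.isCharacter χ.2)
      rcases hval χ with h | h
      · refine ⟨charDegree (χ : G → ℂ) ^ 2, ?_⟩
        rw [h, h1]
        push_cast
        ring
      · exact ⟨0, by simp [h]⟩
    choose n hn using hterm
    simp only [hn] at hsum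
    have hsum' : ∑ χ : IrrCharacter G, n χ = 0 := by exact_mod_cast hsum
    have hone : n ⟨fun _ => 1, isIrrCharacter_one⟩ = 0 := by
      have := Finset.sum_eq_zero_iff.mp hsum' ⟨fun _ => 1, isIrrCharacter_one⟩ (Finset.mem_univ _)
      exact this
    have h5 := hn ⟨fun _ => 1, isIrrCharacter_one⟩
    rw [hone] at h5
    simp at h5
  · rintro ⟨χ, hχ⟩
    exact hχ.trans (codegree_dvd_card χ.2)

end Cfsg.Agent.S4808
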