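import Cfsg.Statements.S4812
import Cfsg.Agent.Lib.Char.SL2Deg

set_option autoImplicit false
open Cfsg

namespace Cfsg.Agent.S4812

open Cfsg.Agent.Lib.Char.SL2D Cfsg.Agent.Lib.Known

/-- Let F be a finite field of characteristic 2 with q ≥ 4 elements and let S be isomorphic to PSL(2,F) or to SL(2,F). Then the vertices of the character degree graph of S are the primes dividing q(q²−1), and two distinct primes are adjacent exactly when both divide q + 1 or both divide q − 1; so the graph has the three connected components {2}, the primes dividing q + 1 and the primes dividing q − 1, each complete. -/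
theorem result (F : Type*) [Field F] [Fintype F] [CharP F 2] (q : ℕ) (hq : Fintype.card F = q) (h4 : 4 ≤ q) {S : Type*} [Group S] [Finite S] (hS : Nonempty (S ≃* Matrix.ProjectiveSpecialLinearGroup (Fin 2) F) ∨ Nonempty (S ≃* Matrix.SpecialLinearGroup (Fin 2) F)) : Cfsg.degreePrimes S = {r : ℕ | r.Prime ∧ r ∣ q * (q ^ 2 - 1)} ∧ ∀ r s : ℕ, (Cfsg.degreeGraph S).Adj r s ↔ (r ≠ s ∧ r.Prime ∧ s.Prime ∧ ((r ∣ q + 1 ∧ s ∣ q + 1) ∨ (r ∣ q - 1 ∧ s ∣ q - 1))) := by
  classical
  cases nonempty_fintype S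
  subst hq
  letI : Fintype (Matrix.ProjectiveSpecialLinearGroup (Fin 2) F) := Fintype.ofFinite _
  have hD : Cfsg.charDegrees S = {1, Fintype.card F, Fintype.card F + 1, Fintype.card F - 1} := by
    rcases hS with ⟨⟨e⟩⟩ | ⟨⟨e⟩⟩
    · rw [charDegrees_congr e, charDegrees_psl_even, charDegrees_sl2_even h4]
    · rw [charDegrees_congr e, charDegrees_sl2_even h4]
  obtain ⟨n, -, hq⟩ := FiniteField.card F 2
  obtain ⟨h₁, h₂⟩ := graph_even hq h4 hD
  exact ⟨h₁, fun r s => h₂ r s⟩

end Cfsg.Agent.S4812
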