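import Cfsg.Statements.S4814
import Cfsg.Agent.Lib.Char.ClassSum
import Cfsg.Agent.Lib.Char.Clifford

set_option autoImplicit false
open Cfsg

namespace Cfsg.Agent.S4814

open Cfsg Cfsg.Agent.Lib.Char in
theorem sum_irr_mul_irr_inv {G : Type*} [Group G] [Fintype G] {χ ξ : G → ℂ}
    (hχ : IsIrrCharacter G χ) (hξ : IsIrrCharacter G ξ) (g : G) :
    open scoped Classical in
    ∑ u : G, χ u * ξ (u⁻¹ * g) = if ξ = χ then (Nat.card G : ℂ) / ξ 1 * ξ g else 0 := by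
  classical
  rw [← sum_conj_irr_mul_irr hξ hχ g]
  refine Fintype.sum_equiv (Equiv.inv G) _ _ fun u => ?_
  simp only [Equiv.inv_apply, inv_inv]
  rw [IsCharacter.apply_inv (IsIrrCharacter.isCharacter hχ) u]
  simp

open Cfsg Cfsg.Agent.Lib.Char in
/-- `∑_u S(u) S(u⁻¹ g) = |G| ∑_χ χ(g)/χ(1)³`. -/
theorem sum_S_mul_S {G : Type*} [Group G] [Fintype G] (g : G) :
    ∑ u : G, (∑ χ : IrrCharacter G, (χ : G → ℂ) u / (χ : G → ℂ) 1) *
        (∑ ξ : IrrCharacter G, (ξ : G → ℂ) (u⁻¹ * g) / (ξ : G → ℂ) 1) =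
      (Nat.card G : ℂ) * ∑ χ : IrrCharacter G, (χ : G → ℂ) g / (χ : G → ℂ) 1 ^ 3 := by
  classical
  simp only [Finset.sum_mul_sum]
  rw [Finset.sum_comm]
  rw [Finset.mul_sum]
  refine Finset.sum_congr rfl fun χ _ => ?_
  rw [Finset.sum_comm]
  have h1 : ∀ ξ : IrrCharacter G, ∑ u : G, (χ : G → ℂ) u / (χ : G → ℂ) 1 * ((ξ : G → ℂ) (u⁻¹ * g) / (ξ : G → ℂ) 1) =
      if ξ = χ then (Nat.card G : ℂ) * ((χ : G → ℂ) g / (χ : G → ℂ) 1 ^ 3) else 0 := by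
    intro ξ
    have hd := IsIrrCharacter.apply_one_ne_zero χ.2
    have h2 : ∀ u : G, (χ : G → ℂ) u / (χ : G → ℂ) 1 * ((ξ : G → ℂ) (u⁻¹ * g) / (ξ : G → ℂ) 1) =
        ((χ : G → ℂ) 1 * (ξ : G → ℂ) 1)⁻¹ * ((χ : G → ℂ) u * (ξ : G → ℂ) (u⁻¹ * g)) := by
      intro u
      rw [div_mul_div_comm, div_eq_mul_inv, mul_comm]
    simp only [h2]
    rw [← Finset.mul_sum, sum_irr_mul_irr_inv χ.2 ξ.2 g]
    by_cases hξ : ξ = χ
    · subst hξ
      simp only [if_true]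
      field_simp
    · have : (ξ : G → ℂ) ≠ (χ : G → ℂ) := fun h => hξ (Subtype.ext h)
      simp [this, hξ]
  simp only [h1]
  simp

/-- Let G be a finite group such that the sum, over the irreducible complex characters χ of G, of 1/χ(1)² is less than 2. Then every element of G is a product of two commutators. -/
theorem result {G : Type*} [Group G] [Finite G]
    (h : ∑ᶠ χ : Cfsg.IrrCharacter G, 1 / ‖(χ : G → ℂ) 1‖ ^ 2 < (2 : ℝ)) (g : G) :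
    ∃ a b c d : G, (a * b * a⁻¹ * b⁻¹) * (c * d * c⁻¹ * d⁻¹) = g := by
  classical
  letI := Fintype.ofFinite G
  rw [finsum_eq_sum_of_fintype] at h
  -- the sum `T = ∑ χ(g)/χ(1)³` is nonzero
  let one : Cfsg.IrrCharacter G := ⟨fun _ => 1, Cfsg.Agent.Lib.Char.isIrrCharacter_one⟩
  have hT : ∑ χ : Cfsg.IrrCharacter G, (χ : G → ℂ) g / (χ : G → ℂ) 1 ^ 3 ≠ 0 := by
    intro h0
    rw [← Finset.add_sum_erase Finset.univ _ (Finset.mem_univ one)] at h0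
    have h1 : (one : G → ℂ) g / (one : G → ℂ) 1 ^ 3 = 1 := by simp [one]
    rw [h1] at h0
    rw [← Finset.add_sum_erase Finset.univ _ (Finset.mem_univ one)] at h
    have h2 : 1 / ‖(one : G → ℂ) 1‖ ^ 2 = 1 := by simp [one]
    rw [h2] at h
    have h3 : ‖∑ χ ∈ Finset.univ.erase one, (χ : G → ℂ) g / (χ : G → ℂ) 1 ^ 3‖ = 1 := by
      rw [eq_neg_of_add_eq_zero_right h0]
      simp
    have h4 : ‖∑ χ ∈ Finset.univ.erase one, (χ : G → ℂ) g / (χ : G → ℂ) 1 ^ 3‖ ≤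
        ∑ χ ∈ Finset.univ.erase one, 1 / ‖(χ : G → ℂ) 1‖ ^ 2 := by
      refine (norm_sum_le _ _).trans (Finset.sum_le_sum fun χ _ => ?_)
      have hd : 0 < ‖(χ : G → ℂ) 1‖ := norm_pos_iff.mpr (Cfsg.Agent.Lib.Char.IsIrrCharacter.apply_one_ne_zero χ.2)
      have hle := Cfsg.Agent.Lib.Char.IsCharacter.norm_le (Cfsg.Agent.Lib.Char.IsIrrCharacter.isCharacter χ.2) g
      rw [norm_div, norm_pow, div_le_div_iff₀ (by positivity) (by positivity)]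
      nlinarith [norm_nonneg ((χ : G → ℂ) g), sq_nonneg ‖(χ : G → ℂ) 1‖]
    linarith
  have hG : ((Nat.card G : ℕ) : ℂ) ≠ 0 := NeZero.ne _
  have hS := sum_S_mul_S g
  have hne : ∑ u : G, (∑ χ : Cfsg.IrrCharacter G, (χ : G → ℂ) u / (χ : G → ℂ) 1) *
        (∑ ξ : Cfsg.IrrCharacter G, (ξ : G → ℂ) (u⁻¹ * g) / (ξ : G → ℂ) 1) ≠ 0 := by
    rw [hS]
    exact mul_ne_zero hG hT
  obtain ⟨u, -, hu⟩ := Finset.exists_ne_zero_of_sum_ne_zero hne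
  obtain ⟨a, b, hab⟩ := (Cfsg.Agent.Lib.Char.isCommutator_iff_sum_ne_zero u).mpr (left_ne_zero_of_mul hu)
  obtain ⟨c, d, hcd⟩ := (Cfsg.Agent.Lib.Char.isCommutator_iff_sum_ne_zero (u⁻¹ * g)).mpr (right_ne_zero_of_mul hu)
  refine ⟨a, b, c, d, ?_⟩
  rw [← hab, ← hcd]
  group

end Cfsg.Agent.S4814
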