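import Cfsg.Statements.S4825
import Cfsg.Agent.Lib.Blocks.Fong
import Cfsg.Agent.Lib.Blocks.Height

set_option autoImplicit false
open Cfsg

namespace Cfsg.Agent.S4825

open Cfsg.Agent.Lib.Blocks Cfsg.Agent.Lib.Char

universe u

variable {G : Type u} [Group G] [Fintype G] {M : Ideal Cfsg.AlgInt} {p : ℕ} [hp : Fact p.Prime]
  (N : Subgroup G) [hN : N.Normal] [Fintype N]

/-- The characters over `θ`. -/
theorem mem_covSet_gSat_iff (θ : Cfsg.IrrCharacter N) (χ : Cfsg.IrrCharacter G) :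
    χ ∈ covSet (G := G) N (gSat (G := G) N {θ}) ↔
      Cfsg.classInner (fun n : N => (χ : G → ℂ) n) (θ : N → ℂ) ≠ 0 := by
  constructor
  · rintro ⟨θ', ⟨g, hg⟩, h⟩
    have hg' : conjIrr N g θ' = θ := hg
    rw [← hg', classInner_conjIrr]
    exact h
  · intro h
    exact ⟨θ, self_subset_gSat N {θ} rfl, h⟩

/-- The block `B` and the characters over `θ`: the key divisibility. -/
theorem dvd_sum_degree (hM : Cfsg.IsPModular p M) {B : Set (Cfsg.IrrCharacter G)} (hB : Cfsg.IsPBlock M B)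
    (hNp : p ∣ N.index) (θ : Cfsg.IrrCharacter N) [DecidablePred fun χ : Cfsg.IrrCharacter G => χ ∈ B ∧
      Cfsg.classInner (fun n : N => (χ : G → ℂ) n) (θ : N → ℂ) ≠ 0] :
    p ∣ ∑ χ ∈ Finset.univ.filter (fun χ : Cfsg.IrrCharacter G => χ ∈ B ∧
      Cfsg.classInner (fun n : N => (χ : G → ℂ) n) (θ : N → ℂ) ≠ 0), (Cfsg.charDegree (χ : G → ℂ)) ^ 2 := by
  classical
  have := isPrime_of_modular hM
  have hinv : ∀ (g : G) θ', θ' ∈ gSat (G := G) N ({θ} : Set (Cfsg.IrrCharacter N)) →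
      conjIrr N g θ' ∈ gSat (G := G) N ({θ} : Set (Cfsg.IrrCharacter N)) :=
    fun g θ' h => gSat_invariant N h g
  set Γ := gSat (G := G) N ({θ} : Set (Cfsg.IrrCharacter N)) with hΓ
  set A := covSet (G := G) N Γ with hA
  have h1 := coef_indic_covSet N hinv
  -- the coefficient at `1` of the product
  have h2 : coef (indic B * indic A) 1 =
      ∑ x, coef (indic B) x * covFun N Γ (x⁻¹ * 1) := by
    rw [coef_mul, h1]
    rfl
  have h3 : ∑ x, coef (indic B) x * covFun N Γ (x⁻¹ * 1) =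
      ∑ n : N, coef (indic B) n * coef (indic Γ) (n⁻¹) := by
    symm
    apply Fintype.sum_of_injective (Subtype.val : N → G) Subtype.val_injective
    · intro x hx
      have hx' : x ∉ N := fun h => hx ⟨⟨x, h⟩, rfl⟩
      have hx'' : x⁻¹ * 1 ∉ N := by
        rw [mul_one]
        exact fun h => hx' (by simpa using N.inv_mem h)
      rw [covFun, extendByZero_of_notMem N _ hx'', mul_zero]
    · intro n
      rw [covFun, mul_one]
      have h4 : ((n : G))⁻¹ = ((n⁻¹ : N) : G) := rfl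
      rw [h4, extendByZero_coe]
  -- local integrality
  have hW : Cfsg.MemLocalRing M (∑ n : N, coef (indic B) n * ∑ θ' : Cfsg.IrrCharacter N, indic Γ θ' *
      ((θ' : N → ℂ) 1 * (starRingEnd ℂ) ((θ' : N → ℂ) n⁻¹))) := by
    refine MemLocalRing.sum _ fun n _ => MemLocalRing.mul (indic_mem_zS hB _) (MemLocalRing.sum _ fun θ' _ => ?_)
    by_cases h5 : θ' ∈ Γ
    · rw [indic_apply_of_mem h5, one_mul]
      refine MemLocalRing.mul ?_ (memLocalRing_of_isIntegral ?_)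
      · rw [apply_one_eq_charDegree (IsIrrCharacter.isCharacter θ'.2)]
        exact MemLocalRing.natCast _
      · rw [IsCharacter.apply_inv (IsIrrCharacter.isCharacter θ'.2), Complex.conj_conj]
        exact IsCharacter.isIntegral (IsIrrCharacter.isCharacter θ'.2) n
    · rw [indic_apply_of_notMem h5, zero_mul]
      exact memLocalRing_zero
  have h7 : coef (indic B * indic A) 1 = (Nat.card N : ℂ)⁻¹ * (∑ n : N, coef (indic B) n * ∑ θ' : Cfsg.IrrCharacter N, indic Γ θ' *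
      ((θ' : N → ℂ) 1 * (starRingEnd ℂ) ((θ' : N → ℂ) n⁻¹))) := by
    rw [h2, h3, Finset.mul_sum]
    refine Finset.sum_congr rfl fun n _ => ?_
    have h71 : coef (indic Γ) n⁻¹ = (Nat.card N : ℂ)⁻¹ * ∑ θ' : Cfsg.IrrCharacter N, indic Γ θ' *
      ((θ' : N → ℂ) 1 * (starRingEnd ℂ) ((θ' : N → ℂ) n⁻¹)) := rfl
    rw [h71]
    ring
  have h8 : coef (indic B * indic A) 1 = (Nat.card G : ℂ)⁻¹ *
      ((∑ χ ∈ Finset.univ.filter (fun χ : Cfsg.IrrCharacter G => χ ∈ B ∧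
      Cfsg.classInner (fun n : N => (χ : G → ℂ) n) (θ : N → ℂ) ≠ 0), (Cfsg.charDegree (χ : G → ℂ)) ^ 2 : ℕ) : ℂ) := by
    rw [coef]
    congr 1
    push_cast
    rw [Finset.sum_filter]
    refine Finset.sum_congr rfl fun χ _ => ?_
    have hmem : χ ∈ A ↔ Cfsg.classInner (fun n : N => (χ : G → ℂ) n) (θ : N → ℂ) ≠ 0 := mem_covSet_gSat_iff N θ χ
    have hdeg := apply_one_eq_charDegree (IsIrrCharacter.isCharacter χ.2)
    have hc : (starRingEnd ℂ) ((χ : G → ℂ) 1) = (Cfsg.charDegree (χ : G → ℂ) : ℂ) := by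
      rw [hdeg, Complex.conj_natCast]
    simp only [Pi.mul_apply]
    rw [hc, hdeg]
    by_cases h9 : χ ∈ B ∧ Cfsg.classInner (fun n : N => (χ : G → ℂ) n) (θ : N → ℂ) ≠ 0
    · rw [if_pos h9, indic_apply_of_mem h9.1, indic_apply_of_mem (hmem.mpr h9.2)]
      ring
    · rw [if_neg h9]
      by_cases h10 : χ ∈ B
      · have h11 : χ ∉ A := fun h => h9 ⟨h10, hmem.mp h⟩
        rw [indic_apply_of_notMem h11]
        simp
      · rw [indic_apply_of_notMem h10]
        simp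
  have hcard : (Nat.card G : ℂ) = (N.index : ℂ) * (Nat.card N : ℂ) := by
    rw [mul_comm]
    exact_mod_cast (Subgroup.card_mul_index N).symm
  have hN0 : (Nat.card N : ℂ) ≠ 0 := by exact_mod_cast Nat.card_pos.ne'
  have hG0 : (Nat.card G : ℂ) ≠ 0 := by exact_mod_cast Nat.card_pos.ne'
  have h12 : ((∑ χ ∈ Finset.univ.filter (fun χ : Cfsg.IrrCharacter G => χ ∈ B ∧
      Cfsg.classInner (fun n : N => (χ : G → ℂ) n) (θ : N → ℂ) ≠ 0), (Cfsg.charDegree (χ : G → ℂ)) ^ 2 : ℕ) : ℂ) =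
      (N.index : ℂ) * (∑ n : N, coef (indic B) n * ∑ θ' : Cfsg.IrrCharacter N, indic Γ θ' *
      ((θ' : N → ℂ) 1 * (starRingEnd ℂ) ((θ' : N → ℂ) n⁻¹))) := by
    have h13 := h8.symm.trans h7
    rw [inv_mul_eq_div, inv_mul_eq_div, div_eq_div_iff hG0 hN0, hcard] at h13
    apply mul_right_cancel₀ hN0
    rw [h13]
    ring
  rw [← natCast_memLocalIdeal_iff hM, h12]
  exact MemLocalIdeal.mul_right ((natCast_memLocalIdeal_iff hM _).mpr hNp) hW

theorem sq_eq_one_two : ∀ a : ZMod 2, a ≠ 0 → a ^ 2 = 1 := by decide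

theorem sq_eq_one_three : ∀ a : ZMod 3, a ≠ 0 → a ^ 2 = 1 := by decide

theorem dvd_index_of_not_le (P : Sylow p G) (hPN : ¬ (P : Subgroup G) ≤ N) : p ∣ N.index := by
  by_contra hn
  apply hPN
  intro x hx
  have h1 : x ^ N.index ∈ N := Subgroup.pow_index_mem N x
  obtain ⟨k, hk⟩ := IsPGroup.iff_orderOf.mp P.isPGroup' ⟨x, hx⟩
  have hk' : orderOf x = p ^ k := by rw [← hk, Subgroup.orderOf_mk]
  have hcop : Nat.Coprime N.index (orderOf x) := by
    rw [hk']
    exact Nat.Coprime.pow_right _ ((Nat.Prime.coprime_iff_not_dvd hp.out).mpr hn).symm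
  obtain ⟨m, hm⟩ := exists_pow_eq_self_of_coprime hcop
  rw [← hm]
  exact N.pow_mem h1 m

/-- Let p be a prime, G a finite group with Sylow p-subgroup P, M a maximal ideal of the algebraic integers containing p, and B a p-block of G with defect group P. Let N be a normal subgroup of G not containing P and θ an irreducible character of N. Then the number of irreducible characters in B of degree prime to p lying over θ (having θ as a constituent on restriction to N) is either 0 or at least 2, and when p ≤ 3 it is divisible by p. -/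
theorem result {G : Type*} [Group G] [Fintype G] (p : ℕ) [Fact p.Prime] (P : Sylow p G) (M : Ideal Cfsg.AlgInt) (hM : Cfsg.IsPModular p M) (B : Set (Cfsg.IrrCharacter G)) (hB : Cfsg.IsPBlock M B) (hBP : Cfsg.IsDefectGroup p M B P) (N : Subgroup G) [N.Normal] [Fintype N] (hPN : ¬ (P : Subgroup G) ≤ N) (θ : Cfsg.IrrCharacter N) :
    (Nat.card {χ : Cfsg.IrrCharacter G // χ ∈ B ∧ ¬ p ∣ Cfsg.charDegree (χ : G → ℂ) ∧ Cfsg.classInner (fun n : N => (χ : G → ℂ) n) (θ : N → ℂ) ≠ 0} = 0 ∨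
      2 ≤ Nat.card {χ : Cfsg.IrrCharacter G // χ ∈ B ∧ ¬ p ∣ Cfsg.charDegree (χ : G → ℂ) ∧ Cfsg.classInner (fun n : N => (χ : G → ℂ) n) (θ : N → ℂ) ≠ 0}) ∧
    (p ≤ 3 → p ∣ Nat.card {χ : Cfsg.IrrCharacter G // χ ∈ B ∧ ¬ p ∣ Cfsg.charDegree (χ : G → ℂ) ∧ Cfsg.classInner (fun n : N => (χ : G → ℂ) n) (θ : N → ℂ) ≠ 0}) := by
  classical
  have hNp := dvd_index_of_not_le N P hPN
  have h0 := dvd_sum_degree N hM hB hNp θ
  have hcard : Nat.card {χ : Cfsg.IrrCharacter G // χ ∈ B ∧ ¬ p ∣ Cfsg.charDegree (χ : G → ℂ) ∧ Cfsg.classInner (fun n : N => (χ : G → ℂ) n) (θ : N → ℂ) ≠ 0} =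
      (Finset.univ.filter (fun χ : Cfsg.IrrCharacter G => χ ∈ B ∧ ¬ p ∣ Cfsg.charDegree (χ : G → ℂ) ∧ Cfsg.classInner (fun n : N => (χ : G → ℂ) n) (θ : N → ℂ) ≠ 0)).card := by
    rw [Nat.card_eq_fintype_card, Fintype.card_subtype]
  rw [hcard]
  set F' := Finset.univ.filter (fun χ : Cfsg.IrrCharacter G => χ ∈ B ∧ ¬ p ∣ Cfsg.charDegree (χ : G → ℂ) ∧ Cfsg.classInner (fun n : N => (χ : G → ℂ) n) (θ : N → ℂ) ≠ 0) with hF'
  have h1 : p ∣ ∑ χ ∈ F', (Cfsg.charDegree (χ : G → ℂ)) ^ 2 := by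
    have h2 := Finset.sum_filter_add_sum_filter_not (Finset.univ.filter (fun χ : Cfsg.IrrCharacter G => χ ∈ B ∧
      Cfsg.classInner (fun n : N => (χ : G → ℂ) n) (θ : N → ℂ) ≠ 0)) (fun χ : Cfsg.IrrCharacter G => ¬ p ∣ Cfsg.charDegree (χ : G → ℂ))
      (fun χ => (Cfsg.charDegree (χ : G → ℂ)) ^ 2)
    have h3 : (Finset.univ.filter (fun χ : Cfsg.IrrCharacter G => χ ∈ B ∧
      Cfsg.classInner (fun n : N => (χ : G → ℂ) n) (θ : N → ℂ) ≠ 0)).filter (fun χ : Cfsg.IrrCharacter G => ¬ p ∣ Cfsg.charDegree (χ : G → ℂ)) = F' := by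
      ext χ
      simp only [Finset.mem_filter, Finset.mem_univ, true_and, hF']
      tauto
    rw [h3] at h2
    have h4 : p ∣ ∑ χ ∈ (Finset.univ.filter (fun χ : Cfsg.IrrCharacter G => χ ∈ B ∧
      Cfsg.classInner (fun n : N => (χ : G → ℂ) n) (θ : N → ℂ) ≠ 0)).filter (fun χ : Cfsg.IrrCharacter G => ¬ ¬ p ∣ Cfsg.charDegree (χ : G → ℂ)),
        (Cfsg.charDegree (χ : G → ℂ)) ^ 2 := by
      refine Finset.dvd_sum fun χ hχ => ?_
      have h5 := (Finset.mem_filter.mp hχ).2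
      exact dvd_pow (not_not.mp h5) (by norm_num)
    rw [← h2] at h0
    exact (Nat.dvd_add_left h4).mp h0
  refine ⟨?_, fun hp3 => ?_⟩
  · by_contra hcon
    push Not at hcon
    have h2 : F'.card = 1 := by omega
    obtain ⟨χ₀, hχ₀⟩ := Finset.card_eq_one.mp h2
    rw [hχ₀, Finset.sum_singleton] at h1
    have h3 : χ₀ ∈ F' := by rw [hχ₀]; exact Finset.mem_singleton_self _
    exact (Finset.mem_filter.mp h3).2.2.1 ((Fact.out : p.Prime).dvd_of_dvd_pow h1)
  · have hpp : p.Prime := Fact.out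
    have hp23 : p = 2 ∨ p = 3 := by
      have := hpp.two_le
      omega
    rw [← ZMod.natCast_eq_zero_iff] at h1 ⊢
    have h2 : ((∑ χ ∈ F', (Cfsg.charDegree (χ : G → ℂ)) ^ 2 : ℕ) : ZMod p) = (F'.card : ZMod p) := by
      rw [Nat.cast_sum, Finset.card_eq_sum_ones, Nat.cast_sum]
      refine Finset.sum_congr rfl fun χ hχ => ?_
      have h3 := (Finset.mem_filter.mp hχ).2.2.1
      have h4 : ((Cfsg.charDegree (χ : G → ℂ) : ℕ) : ZMod p) ≠ 0 := by
        rwa [Ne, ZMod.natCast_eq_zero_iff]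
      push_cast
      generalize ((Cfsg.charDegree (χ : G → ℂ) : ℕ) : ZMod p) = a at h4
      rcases hp23 with rfl | rfl
      · exact sq_eq_one_two a h4
      · exact sq_eq_one_three a h4
    rw [← h2]
    exact h1

end Cfsg.Agent.S4825
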