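import Cfsg.Statements.S4837
import Cfsg.Agent.Lib.Char.Gagola

set_option autoImplicit false
open Cfsg

namespace Cfsg.Agent.S4837

open Cfsg.Agent.Lib.Char

/-- Let G be a finite group of order greater than 2 with an irreducible character χ nonzero on exactly two conjugacy classes, and let N be the set of elements where χ is nonzero, given as a nontrivial normal p-subgroup of G for the prime p. Then for every nonidentity x in N the centralizer C_G(x) is a Sylow p-subgroup of G, and for every irreducible character λ ≠ 1 of N the stabilizer of λ in G (its inertia group) is a Sylow p-subgroup of G. -/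
theorem result {G : Type*} [Group G] [Finite G] (hG : 2 < Nat.card G) (χ : Cfsg.IrrCharacter G) (hχ : Nat.card {C : ConjClasses G // ∃ g ∈ C.carrier, (χ : G → ℂ) g ≠ 0} = 2) (p : ℕ) [Fact p.Prime] (N : Subgroup G) [N.Normal] (hN : ∀ g : G, g ∈ N ↔ (χ : G → ℂ) g ≠ 0) (hNp : IsPGroup p N) (hN1 : N ≠ ⊥) :
    (∀ x ∈ N, x ≠ 1 → ∃ P : Sylow p G, Subgroup.centralizer ({x} : Set G) = P) ∧
      (∀ μ : Cfsg.IrrCharacter N, (μ : N → ℂ) ≠ (fun _ => (1 : ℂ)) → ∃ P : Sylow p G, ∀ g : G, g ∈ (P : Subgroup G) ↔ ∀ n n' : N, (n' : G) = g * n * g⁻¹ → (μ : N → ℂ) n' = (μ : N → ℂ) n) := by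
  classical
  cases nonempty_fintype G
  obtain ⟨x, h⟩ := exists_isGagola hG χ hχ
  have hNeq : N = h.sub := by
    ext g
    rw [hN g, h.mem_sub]
  subst hNeq
  have hord := h.orderOf_eq_of_prime (Fact.out : p.Prime) hNp
  refine ⟨fun y hy hy1 => h.exists_sylow_centralizer hord hy hy1, ?_⟩
  intro μ hμ
  obtain ⟨P, hP⟩ := h.exists_sylow_inertia hord μ hμ
  refine ⟨P, fun g => ?_⟩
  rw [hP]
  constructor
  · intro hg n n' hn'
    have hg' : g⁻¹ ∈ inertia h.sub (μ : h.sub → ℂ) := (inertia h.sub (μ : h.sub → ℂ)).inv_mem hg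
    have h1 := congrFun ((mem_inertia h.sub).mp hg') n
    rw [conjFun_apply] at h1
    rw [← h1]
    exact congrArg _ (Subtype.ext (by simp [hn']))
  · intro hg
    have hg' : conjFun h.sub g⁻¹ (μ : h.sub → ℂ) = (μ : h.sub → ℂ) := by
      funext n
      rw [conjFun_apply]
      exact hg n _ (by simp)
    have h2 : g⁻¹ ∈ inertia h.sub (μ : h.sub → ℂ) := hg'
    simpa using (inertia h.sub (μ : h.sub → ℂ)).inv_mem h2

end Cfsg.Agent.S4837
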