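import Cfsg.Statements.S4838
import Cfsg.Agent.Lib.Char.Gagola

set_option autoImplicit false
open Cfsg

namespace Cfsg.Agent.S4838

open Cfsg.Agent.Lib.Char

/-- `N ≤ P` for a normal `p`-subgroup `N` and a Sylow `P`. -/
theorem normal_le_sylow {G : Type*} [Group G] [Finite G] {p : ℕ} [Fact p.Prime] (N : Subgroup G)
    [N.Normal] (hNp : IsPGroup p N) (P : Sylow p G) : N ≤ (P : Subgroup G) := by
  have h1 : IsPGroup p ((P : Subgroup G) ⊔ N : Subgroup G) :=
    IsPGroup.to_sup_of_normal_right P.isPGroup' hNp
  have h2 := P.is_maximal' h1 le_sup_left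
  rw [← h2]
  exact le_sup_right

/-- `classSize z ≤ |Z|` when all `g z g⁻¹ z⁻¹` lie in `Z`. -/
theorem classSize_le_card {P : Type*} [Group P] [Finite P] (z : P) (Z : Subgroup P)
    (hz : ∀ a : P, a * z * a⁻¹ * z⁻¹ ∈ Z) : classSize z ≤ Nat.card Z := by
  have hmem : ∀ y : {y : P // IsConj z y}, (y : P) * z⁻¹ ∈ Z := by
    rintro ⟨y, hy⟩
    obtain ⟨a, rfl⟩ := isConj_iff.mp hy
    exact hz a
  apply Nat.card_le_card_of_injective (fun y : {y : P // IsConj z y} => (⟨(y : P) * z⁻¹, hmem y⟩ : Z))
  intro y y' hyy
  have h1 : (y : P) * z⁻¹ = (y' : P) * z⁻¹ := congrArg Subtype.val hyy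
  exact Subtype.ext (mul_right_cancel h1)

/-- Let G be a finite group of order greater than 2 with an irreducible character χ nonzero on exactly two conjugacy classes, N the normal p-subgroup of elements where χ is nonzero, and P a Sylow p-subgroup of G. Then (a) for every x outside N the centralizer of x in G has the same order as the centralizer of xN in G/N; (b) the centre of P lies in N, and equals N exactly when P is normal in G; (c) N, viewed inside P, is a term of the upper central series of P. -/
theorem result {G : Type*} [Group G] [Finite G] (hG : 2 < Nat.card G) (χ : Cfsg.IrrCharacter G) (hχ : Nat.card {C : ConjClasses G // ∃ g ∈ C.carrier, (χ : G → ℂ) g ≠ 0} = 2) (p : ℕ) [Fact p.Prime] (N : Subgroup G) [N.Normal] (hN : ∀ g : G, g ∈ N ↔ (χ : G → ℂ) g ≠ 0) (hNp : IsPGroup p N) (hN1 : N ≠ ⊥) (P : Sylow p G) :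
    (∀ x : G, x ∉ N → Nat.card (Subgroup.centralizer ({x} : Set G)) = Nat.card (Subgroup.centralizer ({(x : G ⧸ N)} : Set (G ⧸ N)))) ∧
      ((Subgroup.center ↥(P : Subgroup G)).map (P : Subgroup G).subtype ≤ N ∧
        ((Subgroup.center ↥(P : Subgroup G)).map (P : Subgroup G).subtype = N ↔ (P : Subgroup G).Normal)) ∧
      (∃ i : ℕ, Subgroup.upperCentralSeries ↥(P : Subgroup G) i = N.subgroupOf (P : Subgroup G)) := by
  classical
  cases nonempty_fintype G
  obtain ⟨x, h⟩ := exists_isGagola hG χ hχ
  have hNeq : N = h.sub := by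
    ext g
    rw [hN g, h.mem_sub]
  subst hNeq
  have hpp : p.Prime := Fact.out
  have hord := h.orderOf_eq_of_prime hpp hNp
  have hNP : h.sub ≤ (P : Subgroup G) := normal_le_sylow h.sub hNp P
  have hcardN : p ∣ Nat.card h.sub := by
    obtain ⟨n, hn⟩ := IsPGroup.iff_card.mp hNp
    have hn0 : n ≠ 0 := by
      rintro rfl
      rw [pow_zero] at hn
      exact h.sub_ne_bot (Subgroup.eq_bot_of_card_eq _ hn)
    rw [hn]
    exact dvd_pow_self p hn0
  have hPcard : Nat.card (P : Subgroup G) ∣ Nat.card G := Subgroup.card_subgroup_dvd_card _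
  -- (a)
  have ha : ∀ x : G, x ∉ h.sub → Nat.card (Subgroup.centralizer ({x} : Set G)) =
      Nat.card (Subgroup.centralizer ({(x : G ⧸ h.sub)} : Set (G ⧸ h.sub))) :=
    fun z hz => h.card_centralizer_quotient hz
  -- (b) first part
  have hb1 : (Subgroup.center ↥(P : Subgroup G)).map (P : Subgroup G).subtype ≤ h.sub := by
    rintro _ ⟨z, hz, rfl⟩
    by_contra hzN
    simp only [Subgroup.subtype_apply] at hzN
    have hle : (P : Subgroup G) ≤ Subgroup.centralizer ({(z : G)} : Set G) := by
      intro a ha'
      rw [Subgroup.mem_centralizer_singleton_iff]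
      have := (Subgroup.mem_center_iff.mp hz) ⟨a, ha'⟩
      exact (congrArg Subtype.val this)
    have h1 : Nat.card (P : Subgroup G) ∣ Nat.card (Subgroup.centralizer ({(z : G)} : Set G)) :=
      Subgroup.card_dvd_of_le hle
    rw [h.card_centralizer_quotient hzN] at h1
    have h2 : Nat.card (Subgroup.centralizer ({((z : G) : G ⧸ h.sub)} : Set (G ⧸ h.sub))) ∣ Nat.card (G ⧸ h.sub) :=
      Subgroup.card_subgroup_dvd_card _
    have h3 : Nat.card G = Nat.card (G ⧸ h.sub) * Nat.card h.sub :=
      Subgroup.card_eq_card_quotient_mul_card_subgroup _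
    have h4 : Nat.card (P : Subgroup G) * p ∣ Nat.card G := by
      rw [h3]
      exact mul_dvd_mul (h1.trans h2) hcardN
    have h5 := (P : Subgroup G).card_mul_index
    rw [← h5] at h4
    exact P.not_dvd_index (Nat.dvd_of_mul_dvd_mul_left Nat.card_pos h4)
  refine ⟨ha, ⟨hb1, ?_⟩, ?_⟩
  · -- (b) second part
    constructor
    · intro hZ
      have hy : ∀ y ∈ h.sub, y ≠ 1 → Subgroup.centralizer ({y} : Set G) = (P : Subgroup G) := by
        intro y hy hy1
        have h1 : (P : Subgroup G) ≤ Subgroup.centralizer ({y} : Set G) := by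
          rw [← hZ] at hy
          obtain ⟨z, hz, rfl⟩ := hy
          intro a ha'
          rw [Subgroup.mem_centralizer_singleton_iff]
          have := (Subgroup.mem_center_iff.mp hz) ⟨a, ha'⟩
          exact (congrArg Subtype.val this)
        obtain ⟨Q, hQ⟩ := h.exists_sylow_centralizer hord hy hy1
        rw [hQ] at h1 ⊢
        have h2 : (Q : Subgroup G) = P := (P.is_maximal' Q.isPGroup' h1).symm ▸ rfl
        exact h2
      constructor
      intro a ha' g
      rw [← hy x h.x_mem h.x_ne, Subgroup.mem_centralizer_singleton_iff]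
      have hnorm := h.sub_normal
      have h2 : g⁻¹ * x * g ∈ h.sub := by
        have := hnorm.conj_mem x h.x_mem g⁻¹
        simpa using this
      have h3 : g⁻¹ * x * g ≠ 1 := by
        intro h4
        apply h.x_ne
        have h5 : x = g * (g⁻¹ * x * g) * g⁻¹ := by group
        rw [h5, h4]
        group
      have h4 := ha'
      rw [← hy _ h2 h3, Subgroup.mem_centralizer_singleton_iff] at h4
      calc g * a * g⁻¹ * x = g * (a * (g⁻¹ * x * g)) * g⁻¹ := by group
        _ = g * ((g⁻¹ * x * g) * a) * g⁻¹ := by rw [h4]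
        _ = x * (g * a * g⁻¹) := by group
    · intro hnormal
      apply le_antisymm hb1
      haveI : ((Subgroup.center ↥(P : Subgroup G)).map (P : Subgroup G).subtype).Normal := by
        constructor
        rintro _ ⟨z, hz, rfl⟩ g
        have h1 : g * (z : G) * g⁻¹ ∈ (P : Subgroup G) := hnormal.conj_mem _ z.2 g
        refine ⟨⟨_, h1⟩, Subgroup.mem_center_iff.mpr ?_, rfl⟩
        rintro ⟨a, ha'⟩
        apply Subtype.ext
        have h2 : g⁻¹ * a * g ∈ (P : Subgroup G) := by
          have := hnormal.conj_mem a ha' g⁻¹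
          simpa using this
        have h3 := (Subgroup.mem_center_iff.mp hz) ⟨_, h2⟩
        have h4 : (g⁻¹ * a * g) * (z : G) = z * (g⁻¹ * a * g) := congrArg Subtype.val h3
        show a * (g * z * g⁻¹) = (g * z * g⁻¹) * a
        calc a * (g * z * g⁻¹) = g * ((g⁻¹ * a * g) * (z : G)) * g⁻¹ := by group
          _ = g * (z * (g⁻¹ * a * g)) * g⁻¹ := by rw [h4]
          _ = (g * z * g⁻¹) * a := by group
      apply h.sub_le_of_normal
      intro hbot
      haveI : Nontrivial (P : Subgroup G) := by
        refine ⟨⟨x, hNP h.x_mem⟩, 1, fun h1 => h.x_ne ?_⟩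
        exact congrArg Subtype.val h1
      have := P.isPGroup'.center_nontrivial
      obtain ⟨z, hz1⟩ := exists_ne (1 : Subgroup.center ↥(P : Subgroup G))
      apply hz1
      have h1 : ((z : ↥(P : Subgroup G)) : G) ∈ (Subgroup.center ↥(P : Subgroup G)).map (P : Subgroup G).subtype :=
        ⟨z, z.2, rfl⟩
      rw [hbot, Subgroup.mem_bot] at h1
      exact Subtype.ext (Subtype.ext h1)
  · -- (c)
    have hstep : ∀ i : ℕ, (∃ j : ℕ, Subgroup.upperCentralSeries ↥(P : Subgroup G) j = h.sub.subgroupOf (P : Subgroup G)) ∨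
        Subgroup.upperCentralSeries ↥(P : Subgroup G) i ≤ h.sub.subgroupOf (P : Subgroup G) := by
      intro i
      induction i with
      | zero =>
        right
        rw [Subgroup.upperCentralSeries_zero]
        exact bot_le
      | succ i ih =>
        rcases ih with ih | ih
        · exact Or.inl ih
        by_cases hle : Subgroup.upperCentralSeries ↥(P : Subgroup G) (i + 1) ≤ h.sub.subgroupOf (P : Subgroup G)
        · exact Or.inr hle
        left
        refine ⟨i, ?_⟩
        obtain ⟨z, hz, hzN⟩ := SetLike.not_le_iff_exists.mp hle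
        have hzN' : ((z : ↥(P : Subgroup G)) : G) ∉ h.sub := by
          intro h1
          exact hzN (Subgroup.mem_subgroupOf.mpr h1)
        have hz' := (Subgroup.mem_upperCentralSeries_succ_iff ..).mp hz
        set Z := Subgroup.upperCentralSeries ↥(P : Subgroup G) i with hZ
        -- the commutators lie in `Z`
        have hcomm : ∀ a : ↥(P : Subgroup G), a * z * a⁻¹ * z⁻¹ ∈ Z := by
          intro a
          have h1 : (z * a * z⁻¹ * a⁻¹)⁻¹ ∈ Z := Z.inv_mem (hz' a)
          have h2 : (z * a * z⁻¹ * a⁻¹)⁻¹ = a * z * a⁻¹ * z⁻¹ := by group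
          rwa [h2] at h1
        have hcs := classSize_le_card z Z hcomm
        -- `P` lies in the preimage of the centralizer
        set H := (Subgroup.centralizer ({(((z : ↥(P : Subgroup G)) : G) : G ⧸ h.sub)} : Set (G ⧸ h.sub))).comap (QuotientGroup.mk' h.sub) with hH
        have hPH : (P : Subgroup G) ≤ H := by
          intro a ha'
          rw [hH, h.mem_comap_centralizer_iff]
          have h1 : z * (⟨a, ha'⟩ : ↥(P : Subgroup G)) * z⁻¹ * (⟨a, ha'⟩ : ↥(P : Subgroup G))⁻¹ ∈ Z := hz' _
          have h2 := Subgroup.mem_subgroupOf.mp (ih h1)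
          have h3 : (z : G)⁻¹ * a * z * a⁻¹ = (z : G)⁻¹ * ((z : G) * a * (z : G)⁻¹ * a⁻¹)⁻¹ * z := by group
          rw [h3]
          have hnorm := h.sub_normal
          have h4 := hnorm.conj_mem _ (h.sub.inv_mem h2) (z : G)⁻¹
          simpa using h4
        have hHcard := h.card_comap_centralizer hzN'
        -- the `P`-centralizer has order dividing the `G`-centralizer
        set Q := Subgroup.centralizer ({z} : Set ↥(P : Subgroup G)) with hQ
        have hQmap : Q.map (P : Subgroup G).subtype ≤ Subgroup.centralizer ({(z : G)} : Set G) := by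
          rintro _ ⟨q, hq, rfl⟩
          rw [Subgroup.mem_centralizer_singleton_iff]
          have := Subgroup.mem_centralizer_singleton_iff.mp hq
          exact congrArg Subtype.val this
        have hQcard : Nat.card (Q.map (P : Subgroup G).subtype) = Nat.card Q :=
          Nat.card_congr (Subgroup.equivMapOfInjective Q _ (Subtype.val_injective)).symm.toEquiv
        have hQdvd : Nat.card Q ∣ Nat.card (Subgroup.centralizer ({(z : G)} : Set G)) := by
          rw [← hQcard]
          exact Subgroup.card_dvd_of_le hQmap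
        have hQp : IsPGroup p Q := P.isPGroup'.to_subgroup Q
        obtain ⟨d, hd⟩ := IsPGroup.iff_card.mp hQp
        obtain ⟨b, hb⟩ := IsPGroup.iff_card.mp hNp
        have hdiv : Nat.card h.sub * Nat.card Q ∣ Nat.card G := by
          refine dvd_trans ?_ (Subgroup.card_subgroup_dvd_card H)
          rw [hHcard]
          exact mul_dvd_mul_left _ hQdvd
        have hdiv2 : Nat.card h.sub * Nat.card Q ∣ Nat.card (P : Subgroup G) := by
          rw [hb, hd, ← pow_add] at hdiv ⊢
          exact Sylow.pow_dvd_card_of_pow_dvd_card P hdiv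
        have hle2 : Nat.card h.sub * Nat.card Q ≤ Nat.card (P : Subgroup G) :=
          Nat.le_of_dvd Nat.card_pos hdiv2
        have hcc := classSize_mul_card_centralizer z
        have hle3 : Nat.card h.sub ≤ Nat.card Z := by
          have hQpos : 0 < Nat.card Q := Nat.card_pos
          have h1 : Nat.card h.sub * Nat.card Q ≤ classSize z * Nat.card Q := by
            rw [hcc]
            exact hle2
          exact (Nat.le_of_mul_le_mul_right h1 hQpos).trans hcs
        have hcardsub : Nat.card (h.sub.subgroupOf (P : Subgroup G)) = Nat.card h.sub :=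
          Nat.card_congr (Subgroup.subgroupOfEquivOfLe hNP).toEquiv
        apply Subgroup.eq_of_le_of_card_ge ih
        rw [hcardsub]
        exact hle3
    obtain ⟨c, hc⟩ : ∃ c : ℕ, Subgroup.upperCentralSeries ↥(P : Subgroup G) c = ⊤ := by
      haveI : Group.IsNilpotent ↥(P : Subgroup G) := P.isPGroup'.isNilpotent
      exact Group.IsNilpotent.nilpotent _
    rcases hstep c with h1 | h1
    · exact h1
    · rw [hc] at h1
      refine ⟨c, ?_⟩
      rw [hc]
      exact le_antisymm h1 le_top

end Cfsg.Agent.S4838
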