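import Cfsg.Statements.S4839
import Cfsg.Agent.Lib.Char.Gagola
import Cfsg.Agent.Lib.Invol.BaerSuzuki
import Cfsg.Agent.Lib.Basic.Core

set_option autoImplicit false
open Cfsg

namespace Cfsg.Agent.S4839

open Cfsg.Agent.Lib.Char
open scoped ComplexConjugate

/-- The key computation: in a dihedral action with an odd rotation without fixed points, fixed points of a
reflection are norms. -/
theorem fix_eq_norm {V : Type*} [Group V] (hc : ∀ x y : V, x * y = y * x) (hexp : ∀ y : V, y * y = 1)
    (α δ : MulAut V) (s : ℕ) (h2 : α * δ * α⁻¹ = δ⁻¹) (h3 : δ ^ (2 * s + 1) = 1)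
    (hfix : ∀ y, δ y = y → y = 1) (w : V) (hw : α w = w) : ∃ m, w = m * α m := by
  letI : CommGroup V := { (inferInstance : Group V) with mul_comm := hc }
  let a : ℕ → V := fun j => (δ ^ j) w
  let b : ℕ → V := fun j => ((δ⁻¹) ^ j) w
  have hαa : ∀ j, α (a j) = b j := by
    intro j
    have h : α * δ ^ j * α⁻¹ = (δ⁻¹) ^ j := by
      rw [← h2, conj_pow]
    have h5 := congrArg (fun f : MulAut V => f (α w)) h
    simp only [MulAut.mul_apply, MulAut.inv_apply_self] at h5
    rw [hw] at h5
    exact h5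
  have hδa : ∀ j, δ (a j) = a (j + 1) := by
    intro j
    change δ ((δ ^ j) w) = (δ ^ (j + 1)) w
    rw [pow_succ', MulAut.mul_apply]
  have hδb : ∀ j, δ (b (j + 1)) = b j := by
    intro j
    change δ (((δ⁻¹) ^ (j + 1)) w) = ((δ⁻¹) ^ j) w
    rw [pow_succ', MulAut.mul_apply, MulAut.apply_inv_self]
  let M : ℕ → V := fun n => Nat.rec 1 (fun j r => a (j + 1) * r) n
  have hM0 : M 0 = 1 := rfl
  have hMs : ∀ j, M (j + 1) = a (j + 1) * M j := fun _ => rfl
  let S : ℕ → V := fun n => w * M n * α (M n)
  have hS0 : S 0 = w := by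
    change w * M 0 * α (M 0) = w
    rw [hM0, map_one, mul_one, mul_one]
  have hSs : ∀ j, S (j + 1) = a (j + 1) * b (j + 1) * S j := by
    intro j
    change w * M (j + 1) * α (M (j + 1)) = a (j + 1) * b (j + 1) * (w * M j * α (M j))
    rw [hMs, map_mul, hαa]
    ac_rfl
  have ha0 : a 0 = w := by
    change (δ ^ 0) w = w
    simp
  have hb0 : b 0 = w := by
    change ((δ⁻¹) ^ 0) w = w
    simp
  have hmain : ∀ n, δ (S n) * b n = S n * a (n + 1) := by
    intro n
    induction n with
    | zero =>
      rw [hS0, hb0]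
      have : δ w = a (0 + 1) := by rw [← hδa, ha0]
      rw [this]
      exact hc _ _
    | succ n ih =>
      rw [hSs, map_mul, map_mul, hδa, hδb]
      calc a (n + 1 + 1) * b n * δ (S n) * b (n + 1)
          = a (n + 1 + 1) * b (n + 1) * (δ (S n) * b n) := by ac_rfl
        _ = a (n + 1 + 1) * b (n + 1) * (S n * a (n + 1)) := by rw [ih]
        _ = a (n + 1) * b (n + 1) * S n * a (n + 1 + 1) := by ac_rfl
  have hab : a (s + 1) = b s := by
    have h4 : δ ^ (s + 1) = (δ⁻¹) ^ s := by
      rw [inv_pow]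
      apply eq_inv_of_mul_eq_one_left
      rw [← pow_add, ← h3]
      congr 1
      omega
    change (δ ^ (s + 1)) w = ((δ⁻¹) ^ s) w
    rw [h4]
  have h5 := hmain s
  rw [hab] at h5
  have h6 : δ (S s) = S s := mul_right_cancel h5
  have h7 := hfix _ h6
  refine ⟨M s, ?_⟩
  have h8 : w * M s * α (M s) = 1 := h7
  have h9 : (M s * α (M s)) * (M s * α (M s)) = 1 := hexp _
  calc w = w * ((M s * α (M s)) * (M s * α (M s))) := by rw [h9, mul_one]
    _ = (w * M s * α (M s)) * (M s * α (M s)) := by ac_rfl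
    _ = M s * α (M s) := by rw [h8, one_mul]

/-- Elements of a group generated by two involutions whose product has `2`-power order. -/
theorem two_pow_of_dihedral {Q : Type*} [Group Q] (s t : Q) (hs : s * s = 1) (ht : t * t = 1) (j : ℕ)
    (hst : (s * t) ^ (2 ^ j) = 1) : ∀ w ∈ Subgroup.closure ({s, t} : Set Q), ∃ n : ℕ, w ^ (2 ^ n) = 1 := by
  set c := s * t with hc
  have hsi : s⁻¹ = s := inv_eq_of_mul_eq_one_left hs
  have hti : t⁻¹ = t := inv_eq_of_mul_eq_one_left ht
  have hsc : s * c * s⁻¹ = c⁻¹ := by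
    rw [hc, mul_inv_rev, hsi, hti, ← mul_assoc, hs, one_mul]
  have hsz : ∀ i : ℤ, s * c ^ i = c ^ (-i) * s := by
    intro i
    have h1 : s * c ^ i * s⁻¹ = (c⁻¹) ^ i := by
      rw [← hsc, conj_zpow]
    rw [inv_zpow, ← zpow_neg] at h1
    rw [← h1]
    group
  have hP : ∀ w ∈ Subgroup.closure ({s, t} : Set Q), (∃ i : ℤ, w = c ^ i) ∨ (∃ i : ℤ, w = c ^ i * s) := by
    intro w hw
    induction hw using Subgroup.closure_induction with
    | mem x hx =>
      rcases hx with rfl | hx
      · exact Or.inr ⟨0, by simp⟩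
      · rw [Set.mem_singleton_iff] at hx
        subst hx
        refine Or.inr ⟨-1, ?_⟩
        rw [hc, zpow_neg_one, mul_inv_rev, hsi, hti, mul_assoc, hs, mul_one]
    | one => exact Or.inl ⟨0, by simp⟩
    | mul x y _ _ hx hy =>
      rcases hx with ⟨i, rfl⟩ | ⟨i, rfl⟩ <;> rcases hy with ⟨i', rfl⟩ | ⟨i', rfl⟩
      · exact Or.inl ⟨i + i', by rw [zpow_add]⟩
      · exact Or.inr ⟨i + i', by rw [zpow_add, mul_assoc]⟩
      · refine Or.inr ⟨i + -i', ?_⟩
        rw [zpow_add, mul_assoc, hsz, mul_assoc]
      · refine Or.inl ⟨i + -i', ?_⟩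
        rw [zpow_add]
        calc c ^ i * s * (c ^ i' * s) = c ^ i * (s * c ^ i') * s := by group
          _ = c ^ i * (c ^ (-i') * s) * s := by rw [hsz]
          _ = c ^ i * c ^ (-i') * (s * s) := by group
          _ = c ^ i * c ^ (-i') := by rw [hs, mul_one]
    | inv x _ hx =>
      rcases hx with ⟨i, rfl⟩ | ⟨i, rfl⟩
      · exact Or.inl ⟨-i, by rw [zpow_neg]⟩
      · refine Or.inr ⟨i, ?_⟩
        rw [mul_inv_rev, hsi, ← zpow_neg, hsz, neg_neg]
  intro w hw
  rcases hP w hw with ⟨i, rfl⟩ | ⟨i, rfl⟩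
  · refine ⟨j, ?_⟩
    rw [← zpow_natCast, ← zpow_mul, mul_comm, zpow_mul, zpow_natCast, hst, one_zpow]
  · refine ⟨1, ?_⟩
    rw [pow_one, pow_two]
    calc c ^ i * s * (c ^ i * s) = c ^ i * (s * c ^ i) * s := by group
      _ = c ^ i * (c ^ (-i) * s) * s := by rw [hsz]
      _ = c ^ i * c ^ (-i) * (s * s) := by group
      _ = 1 := by rw [hs, mul_one, zpow_neg, mul_inv_cancel]

section Main

variable {G : Type*} [Group G] [Fintype G] {χ : G → ℂ} {x : G}

/-- The numerical part: from a complement `K`. -/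
theorem card_complement (h : IsGagola χ x) {K : Subgroup G}
    (hK : Subgroup.IsComplement' h.sub K) : Nat.card K = classSize x := by
  classical
  haveI : Fintype K := Fintype.ofFinite _
  have hχc := h.isCharacter
  have hdisj : ∀ g ∈ K, g ≠ 1 → χ g = 0 := by
    intro g hg hg1
    by_contra h0
    have h1 : g ∈ h.sub := h0
    have h2 : g ∈ h.sub ⊓ K := ⟨h1, hg⟩
    rw [hK.disjoint.eq_bot, Subgroup.mem_bot] at h2
    exact hg1 h2
  have hKc : (Nat.card K : ℂ) ≠ 0 := by exact_mod_cast Nat.card_pos.ne'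
  have hkc : (classSize x : ℂ) ≠ 0 := by exact_mod_cast (classSize_pos x).ne'
  -- `|K|` divides the degree
  obtain ⟨c, hc⟩ := IsCharacter.classInner_irr_eq_nat (isCharacter_resFun K hχc) (isIrrCharacter_one (G := K))
  have hc1 : χ 1 = (c : ℂ) * (Nat.card K : ℂ) := by
    have h1 : classInner (resFun K χ) (fun _ : K => (1 : ℂ)) = (Nat.card K : ℂ)⁻¹ * χ 1 := by
      simp only [classInner, map_one, mul_one]
      congr 1
      rw [Finset.sum_eq_single (1 : K)]
      · simp [resFun]
      · intro g _ hg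
        exact hdisj g g.2 (fun h1 => hg (Subtype.ext h1))
      · simp
    rw [h1] at hc
    field_simp at hc
    rw [hc]
    ring
  -- the norm
  have hnorm : χ 1 * χ 1 + (classSize x : ℂ) * (χ x * χ x) = (Nat.card G : ℂ) := by
    have h1 := classInner_irr_self h.irr
    have h2 : ∑ g, χ g * conj (χ g) = (Nat.card G : ℂ) := by
      simp only [classInner] at h1
      have hG : (Nat.card G : ℂ) ≠ 0 := by exact_mod_cast Nat.card_pos.ne'
      field_simp at h1
      exact h1
    rw [h.sum_eq (fun g => χ g * conj (χ g)) (fun g hg => by simp [hg])] at h2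
    rw [Finset.sum_congr rfl (fun u hu => by
      rw [h.apply_eq_of_isConj (Finset.mem_filter.mp hu).2]), Finset.sum_const, card_filter_isConj,
      nsmul_eq_mul, h.conj_apply_x] at h2
    have h3 : conj (χ 1) = χ 1 := by
      rw [apply_one_eq_charDegree hχc]
      simp
    rw [h3] at h2
    exact h2
  have hcardG : (Nat.card G : ℂ) = (1 + (classSize x : ℂ)) * (Nat.card K : ℂ) := by
    have h1 := hK.card_mul_card
    rw [h.card_sub] at h1
    rw [← h1]
    push_cast
    ring
  have hxv : χ x = - χ 1 / (classSize x : ℂ) := h.apply_x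
  have hsq : χ 1 * χ 1 = (classSize x : ℂ) * (Nat.card K : ℂ) := by
    rw [hxv, hcardG] at hnorm
    field_simp at hnorm
    have h1c : (1 + (classSize x : ℂ)) ≠ 0 := by exact_mod_cast (by omega : 1 + classSize x ≠ 0)
    apply mul_left_cancel₀ h1c
    linear_combination hnorm
  -- now everything is numerical
  have hnat : (c * Nat.card K) * (c * Nat.card K) = classSize x * Nat.card K := by
    have : ((c * Nat.card K) * (c * Nat.card K) : ℂ) = (classSize x : ℂ) * (Nat.card K : ℂ) := by
      rw [← hsq, hc1]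
    exact_mod_cast this
  have hKpos : 0 < Nat.card K := Nat.card_pos
  have hc2 : c * c * Nat.card K = classSize x := by
    apply Nat.eq_of_mul_eq_mul_right hKpos
    rw [← hnat]
    ring
  have hkd : classSize x ∣ Nat.card K := by
    have h1 : classSize x ∣ Nat.card G := ⟨_, (classSize_mul_card_centralizer x).symm⟩
    have h2 := hK.card_mul_card
    rw [h.card_sub] at h2
    rw [← h2] at h1
    exact (Nat.Coprime.dvd_of_dvd_mul_left (by simp) h1)
  apply le_antisymm
  · rw [← hc2]
    have hcpos : 0 < c := by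
      rcases Nat.eq_zero_or_pos c with rfl | h1
      · have := classSize_pos x
        omega
      · exact h1
    exact Nat.le_mul_of_pos_left _ (Nat.mul_pos hcpos hcpos)
  · exact Nat.le_of_dvd hKpos hkd

/-- Conclusion, given a complement. -/
theorem of_complement (h : IsGagola χ x) {p : ℕ} (hp : p.Prime) (hord : ∀ g ∈ h.sub, g ≠ 1 → orderOf g = p)
    (hG : 2 < Nat.card G) {K : Subgroup G} (hK : Subgroup.IsComplement' h.sub K) :
    IsFrobeniusComplement K ∧ frobeniusKernel K = (h.sub : Set G) ∧ Nat.card K + 1 = Nat.card h.sub := by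
  classical
  haveI hNn : h.sub.Normal := h.sub_normal
  have hcard := card_complement h hK
  have hcN := h.card_sub
  have hmul := hK.card_mul_card
  have hdisj : ∀ g, g ∈ h.sub → g ∈ K → g = 1 := by
    intro g h1 h2
    have h3 : g ∈ h.sub ⊓ K := ⟨h1, h2⟩
    rw [hK.disjoint.eq_bot, Subgroup.mem_bot] at h3
    exact h3
  have hcomm := h.commute_of_mem hp hord
  -- the centralizer
  have hcent : ∀ y ∈ h.sub, y ≠ 1 → ∀ z : G, z * y = y * z → z ∈ h.sub := by
    intro y hy hy1 z hz
    have hy' : IsGagola χ y := h.of_isConj ((h.mem_sub'.mp hy).resolve_left hy1)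
    have hsame : hy'.sub = h.sub := by
      ext g
      rw [IsGagola.mem_sub, IsGagola.mem_sub]
    have h1 := hy'.card_sub
    rw [hsame, hcN] at h1
    have hk : classSize y = classSize x := by omega
    have h2 := classSize_mul_card_centralizer y
    rw [hk, ← hmul, hcN, hcard, mul_comm (1 + classSize x)] at h2
    have h3 : Nat.card (Subgroup.centralizer ({y} : Set G)) = 1 + classSize x :=
      Nat.eq_of_mul_eq_mul_left (classSize_pos x) h2
    have hle : h.sub ≤ Subgroup.centralizer ({y} : Set G) := by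
      intro g hg
      rw [Subgroup.mem_centralizer_singleton_iff]
      exact hcomm g hg y hy
    have heq : h.sub = Subgroup.centralizer ({y} : Set G) :=
      Subgroup.eq_of_le_of_card_ge hle (by rw [h3, hcN])
    rw [heq, Subgroup.mem_centralizer_singleton_iff]
    exact hz
  have hdec : ∀ g : G, ∃ n ∈ h.sub, ∃ k ∈ K, n * k = g := by
    intro g
    obtain ⟨⟨n, k⟩, hnk, -⟩ := hK.existsUnique g
    exact ⟨n, n.2, k, k.2, hnk⟩
  refine ⟨⟨?_, ?_, ?_⟩, ?_, ?_⟩
  · -- `K ≠ ⊥`
    intro hbot
    have h1 : Nat.card K = 1 := by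
      rw [hbot]
      simp
    rw [h1] at hmul
    rw [← hcard, h1] at hcN
    rw [hcN] at hmul
    omega
  · intro htop
    have h1 : x ∈ K := by
      rw [htop]
      exact Subgroup.mem_top _
    exact h.x_ne (hdisj x h.x_mem h1)
  · intro g hg
    rw [eq_bot_iff]
    intro z hz
    rw [Subgroup.mem_bot]
    by_contra hz1
    obtain ⟨hz2, hz3⟩ := hz
    obtain ⟨k₀, hk₀, hk₁⟩ := Subgroup.mem_smul_pointwise_iff_exists _ _ _ |>.mp hz3
    simp only [MulAut.smul_def, MulAut.conj_apply] at hk₁
    obtain ⟨n, hn, k, hk, rfl⟩ := hdec g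
    -- `z = n h n⁻¹`, `h ∈ K`
    set y := k * k₀ * k⁻¹ with hy
    have hyK : y ∈ K := K.mul_mem (K.mul_mem hk hk₀) (K.inv_mem hk)
    have hzy : z = n * y * n⁻¹ := by
      rw [← hk₁, hy]
      group
    have h1 : z * y⁻¹ ∈ h.sub := by
      have h2 : z * y⁻¹ = n * (y * n⁻¹ * y⁻¹) := by
        rw [hzy]
        group
      rw [h2]
      exact h.sub.mul_mem hn (hNn.conj_mem _ (h.sub.inv_mem hn) y)
    have h2 : z * y⁻¹ ∈ K := K.mul_mem hz2 (K.inv_mem hyK)
    have h3 := hdisj _ h1 h2
    have h4 : z = y := mul_inv_eq_one.mp h3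
    have h5 : z * n = n * z := by
      calc z * n = n * y * n⁻¹ * n := by rw [← hzy]
        _ = n * y := by group
        _ = n * z := by rw [h4]
    by_cases hn1 : n = 1
    · apply hg
      rw [hn1, one_mul]
      exact hk
    · have h6 := hcent n hn hn1 z h5
      exact hz1 (hdisj z h6 hz2)
  · ext g
    constructor
    · rintro (rfl | hg)
      · exact h.sub.one_mem
      · by_contra hgN
        obtain ⟨n, hn, k, hk, rfl⟩ := hdec g
        have hkN : k ∉ h.sub := by
          intro h1
          apply hgN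
          exact h.sub.mul_mem hn h1
        have h1 : IsConj k (n * k) := by
          have h2 := h.isConj_mul hkN (hNn.conj_mem n hn k⁻¹)
          have h3 : k * (k⁻¹ * n * k⁻¹⁻¹) = n * k := by group
          rwa [h3] at h2
        obtain ⟨c, hc⟩ := isConj_iff.mp h1
        apply hg c
        rw [Subgroup.mem_smul_pointwise_iff_exists]
        refine ⟨k, hk, ?_⟩
        simp only [MulAut.smul_def, MulAut.conj_apply]
        exact hc
    · intro hg
      by_cases hg1 : g = 1
      · exact Or.inl hg1
      · refine Or.inr fun c hc => hg1 ?_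
        obtain ⟨k₀, hk₀, hk₁⟩ := Subgroup.mem_smul_pointwise_iff_exists _ _ _ |>.mp hc
        simp only [MulAut.smul_def, MulAut.conj_apply] at hk₁
        have h1 : k₀ ∈ h.sub := by
          have := hNn.conj_mem g hg c⁻¹
          rw [← hk₁] at this
          have h2 : c⁻¹ * (c * k₀ * c⁻¹) * c⁻¹⁻¹ = k₀ := by group
          rwa [h2] at this
        rw [← hk₁, hdisj k₀ h1 hk₀]
        group
  · rw [hcard, hcN]
    ring

/-- Involutions invert the support (odd case). -/
theorem inv_of_involution (h : IsGagola χ x) {p : ℕ} (hp : p.Prime) (hp2 : p ≠ 2)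
    (hord : ∀ g ∈ h.sub, g ≠ 1 → orderOf g = p) {v : G} (hv : orderOf v = 2) {n : G} (hn : n ∈ h.sub) :
    v * n * v⁻¹ = n⁻¹ := by
  classical
  haveI hNn : h.sub.Normal := h.sub_normal
  have hcomm := h.commute_of_mem hp hord
  have hv2 : v * v = 1 := by
    rw [← pow_two, ← hv]
    exact pow_orderOf_eq_one v
  have hvi : v⁻¹ = v := inv_eq_of_mul_eq_one_left hv2
  set y := n * (v * n * v⁻¹) with hy
  have hyN : y ∈ h.sub := h.sub.mul_mem hn (hNn.conj_mem n hn v)
  by_cases hy1 : y = 1
  · exact eq_inv_of_mul_eq_one_right hy1 |>.trans rfl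
  · exfalso
    have hP := h.isPGroup_centralizer hp hord hyN hy1
    have hvc : v ∈ Subgroup.centralizer ({y} : Set G) := by
      rw [Subgroup.mem_centralizer_singleton_iff]
      have h1 : (v * n * v⁻¹) * n = n * (v * n * v⁻¹) :=
        hcomm _ (hNn.conj_mem n hn v) _ hn
      rw [hy, hvi] at *
      calc v * (n * (v * n * v)) = (v * n * v) * n * v := by group
        _ = n * (v * n * v) * v := by rw [h1]
    obtain ⟨k, hk⟩ := hP ⟨v, hvc⟩
    have h1 : v ^ p ^ k = 1 := by
      have := congrArg Subtype.val hk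
      simpa using this
    have h2 : 2 ∣ p ^ k := by
      rw [← hv]
      exact orderOf_dvd_of_pow_eq_one h1
    have h3 := (Nat.prime_dvd_prime_iff_eq Nat.prime_two hp).mp (Nat.prime_two.dvd_of_dvd_pow h2)
    exact hp2 h3.symm

/-- Existence of a complement, `p` odd. -/
theorem exists_complement_odd (h : IsGagola χ x) {p : ℕ} (hp : p.Prime) (hp2 : p ≠ 2)
    (hord : ∀ g ∈ h.sub, g ≠ 1 → orderOf g = p)
    (hC : ∀ g : G, (∀ n ∈ h.sub, g * n * g⁻¹ = n) → g ∈ h.sub) :
    ∃ K : Subgroup G, Subgroup.IsComplement' h.sub K := by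
  classical
  haveI hNn : h.sub.Normal := h.sub_normal
  haveI := Fact.mk hp
  have hNP := h.isPGroup_sub hp hord
  have hcomm := h.commute_of_mem hp hord
  -- an involution
  obtain ⟨m, hm⟩ := IsPGroup.iff_card.mp hNP
  have hcN := h.card_sub
  have hodd : Odd (p ^ m) := (hp.odd_of_ne_two hp2).pow
  have h2 : 2 ∣ classSize x := by
    rw [hm] at hcN
    rw [hcN] at hodd
    have : ¬ Odd (classSize x) := by
      intro h3
      have h4 : Even (1 + classSize x) := Odd.add_odd odd_one h3
      exact (Nat.not_even_iff_odd.mpr hodd) h4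
    exact even_iff_two_dvd.mp (Nat.not_odd_iff_even.mp this)
  have h2G : 2 ∣ Nat.card G := h2.trans ⟨_, (classSize_mul_card_centralizer x).symm⟩
  obtain ⟨u, hu⟩ := exists_prime_orderOf_dvd_card' 2 h2G
  have hu2 : u * u = 1 := by
    rw [← pow_two, ← hu]
    exact pow_orderOf_eq_one u
  have hui : u⁻¹ = u := inv_eq_of_mul_eq_one_left hu2
  have hinv := fun {n : G} (hn : n ∈ h.sub) => inv_of_involution h hp hp2 hord hu hn
  refine ⟨Subgroup.centralizer ({u} : Set G), ?_⟩
  apply Subgroup.isComplement'_of_disjoint_and_mul_eq_univ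
  · rw [Subgroup.disjoint_def]
    intro z hz1 hz2
    rw [Subgroup.mem_centralizer_singleton_iff] at hz2
    by_contra hz
    have h3 := hinv hz1
    rw [hui, ← hz2, mul_assoc, hu2, mul_one] at h3
    have h4 : z * z = 1 := by
      nth_rewrite 1 [h3]
      exact inv_mul_cancel z
    have h5 : orderOf z ∣ 2 := orderOf_dvd_of_pow_eq_one (by rw [pow_two, h4])
    rw [hord z hz1 hz] at h5
    exact hp2 ((Nat.prime_dvd_prime_iff_eq hp Nat.prime_two).mp h5)
  · rw [Set.eq_univ_iff_forall]
    intro g
    have hv : orderOf (g * u * g⁻¹) = 2 := by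
      rw [← hu]
      have := orderOf_injective (MulAut.conj g).toMonoidHom (MulAut.conj g).injective u
      simpa using this
    set w := g * u * g⁻¹ * u with hw
    have hwN : w ∈ h.sub := by
      apply hC
      intro n hn
      have h3 := inv_of_involution h hp hp2 hord hv (h.sub.inv_mem hn)
      have h4 := hinv hn
      rw [inv_inv] at h3
      calc w * n * w⁻¹ = (g * u * g⁻¹) * (u * n * u⁻¹) * (g * u * g⁻¹)⁻¹ := by
            rw [hw]
            group
        _ = (g * u * g⁻¹) * n⁻¹ * (g * u * g⁻¹)⁻¹ := by rw [h4]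
        _ = n := h3
    -- square root of `w`
    have hwp : w ^ p = 1 := by
      by_cases hw1 : w = 1
      · rw [hw1, one_pow]
      · rw [← hord w hwN hw1]
        exact pow_orderOf_eq_one w
    obtain ⟨t, ht⟩ := hp.odd_of_ne_two hp2
    set n' := w ^ (t + 1) with hn'
    have hn'N : n' ∈ h.sub := h.sub.pow_mem hwN _
    have hsq : n' * n' = w := by
      rw [hn', ← pow_add]
      have : t + 1 + (t + 1) = p + 1 := by omega
      rw [this, pow_succ, hwp, one_mul]
    have hconj : n' * u * n'⁻¹ = g * u * g⁻¹ := by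
      have h3 := hinv (h.sub.inv_mem hn'N)
      rw [inv_inv] at h3
      have h4 : g * u * g⁻¹ = w * u := by
        rw [hw, mul_assoc _ u u, hu2, mul_one]
      rw [h4, ← hsq]
      calc n' * u * n'⁻¹ = n' * (u * n'⁻¹ * u⁻¹) * u := by group
        _ = n' * n' * u := by rw [h3]
    refine Set.mem_mul.mpr ⟨n', hn'N, n'⁻¹ * g, ?_, by group⟩
    rw [SetLike.mem_coe, Subgroup.mem_centralizer_singleton_iff]
    calc n'⁻¹ * g * u = n'⁻¹ * (g * u * g⁻¹) * g := by group
      _ = n'⁻¹ * (n' * u * n'⁻¹) * g := by rw [hconj]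
      _ = u * (n'⁻¹ * g) := by group

/-- Existence of a complement, `p = 2`. -/
theorem exists_complement_two (h : IsGagola χ x)
    (hord : ∀ g ∈ h.sub, g ≠ 1 → orderOf g = 2)
    (hC : ∀ g : G, (∀ n ∈ h.sub, g * n * g⁻¹ = n) → g ∈ h.sub)
    (hO : ∀ Q : Subgroup G, Q.Normal → IsPGroup 2 Q → Q ≤ h.sub) :
    ∃ K : Subgroup G, Subgroup.IsComplement' h.sub K := by
  classical
  haveI hNn : h.sub.Normal := h.sub_normal
  have hp : Nat.Prime 2 := Nat.prime_two
  have hNP := h.isPGroup_sub hp hord
  have hcomm := h.commute_of_mem hp hord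
  have hexp : ∀ y ∈ h.sub, y * y = 1 := by
    intro y hy
    by_cases hy1 : y = 1
    · rw [hy1, one_mul]
    · rw [← pow_two, ← hord y hy hy1]
      exact pow_orderOf_eq_one y
  have hind : Nat.Coprime (Nat.card h.sub) h.sub.index := by
    obtain ⟨m, hm⟩ := IsPGroup.iff_card.mp hNP
    rw [hm]
    apply Nat.Coprime.pow_left
    rw [Nat.coprime_two_left]
    by_contra hev
    -- an element with square in the support
    have h2 : 2 ∣ Nat.card (G ⧸ h.sub) := by
      rw [← Subgroup.index_eq_card]
      exact even_iff_two_dvd.mp (Nat.not_odd_iff_even.mp hev)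
    obtain ⟨q, hq⟩ := exists_prime_orderOf_dvd_card' 2 h2
    obtain ⟨a₀, rfl⟩ := QuotientGroup.mk_surjective q
    have ha₀1 : a₀ ∉ h.sub := by
      intro h3
      have h4 : ((a₀ : G) : G ⧸ h.sub) = 1 := (QuotientGroup.eq_one_iff a₀).mpr h3
      rw [h4, orderOf_one] at hq
      omega
    have ha₀2 : a₀ * a₀ ∈ h.sub := by
      rw [← QuotientGroup.eq_one_iff]
      have h3 := pow_orderOf_eq_one ((a₀ : G) : G ⧸ h.sub)
      rw [hq, pow_two] at h3
      exact h3
    let Δ : Set G := {a | a ∉ h.sub ∧ a * a ∈ h.sub}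
    have hΔ : Cfsg.Agent.Lib.Invol.ConjClosed Δ := by
      rintro a ⟨h3, h4⟩ g
      constructor
      · intro h5
        apply h3
        have := hNn.conj_mem _ h5 g⁻¹
        have h6 : g⁻¹ * (g * a * g⁻¹) * g⁻¹⁻¹ = a := by group
        rwa [h6] at this
      · have := hNn.conj_mem _ h4 g
        have h6 : g * a * g⁻¹ * (g * a * g⁻¹) = g * (a * a) * g⁻¹ := by group
        rwa [h6]
    -- Lemma A
    have hA : ∀ a ∈ Δ, ∀ m ∈ h.sub, a * a ≠ m * (a * m * a⁻¹) := by
      rintro a ⟨ha1, ha2⟩ m hm' heq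
      set b := m * a with hb
      have hbN : b ∉ h.sub := by
        intro h3
        apply ha1
        have := h.sub.mul_mem (h.sub.inv_mem hm') h3
        simpa [hb] using this
      have hb2 : b * b = 1 := by
        calc b * b = (m * (a * m * a⁻¹)) * (a * a) := by
              rw [hb]
              group
          _ = (a * a) * (a * a) := by rw [← heq]
          _ = 1 := hexp _ ha2
      have hbc : ∀ n ∈ h.sub, b * n * b⁻¹ = n := by
        intro n hn
        obtain ⟨c, hc⟩ := isConj_iff.mp (h.isConj_mul hbN hn)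
        have h3 : (b * n) * (b * n) = 1 := by
          rw [← hc]
          calc c * b * c⁻¹ * (c * b * c⁻¹) = c * (b * b) * c⁻¹ := by group
            _ = 1 := by rw [hb2]; group
        have hbi : b⁻¹ = b := inv_eq_of_mul_eq_one_left hb2
        have h4 : (b * n * b⁻¹) * n = 1 := by
          rw [hbi]
          calc b * n * b * n = (b * n) * (b * n) := by group
            _ = 1 := h3
        have h5 : n * n = 1 := hexp n hn
        calc b * n * b⁻¹ = (b * n * b⁻¹) * (n * n) := by rw [h5, mul_one]
          _ = ((b * n * b⁻¹) * n) * n := by group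
          _ = n := by rw [h4, one_mul]
      have := hC b hbc
      exact hbN this
    -- action on the support
    let τ : G →* MulAut h.sub := MulAut.conjNormal
    have hτ : ∀ (g : G) (n : h.sub), ((τ g n : h.sub) : G) = g * n * g⁻¹ := by
      intro g n
      simp [τ]
    have hτN : ∀ n ∈ h.sub, τ n = 1 := by
      intro n hn
      ext y
      rw [hτ, MulAut.one_apply, hcomm n hn y y.2, mul_assoc, mul_inv_cancel, mul_one]
    have hτk : ∀ g, τ g = 1 → g ∈ h.sub := by
      intro g hg
      apply hC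
      intro n hn
      have := hτ g ⟨n, hn⟩
      rw [hg] at this
      exact this.symm
    have hcV : ∀ y z : h.sub, y * z = z * y := fun y z => Subtype.ext (hcomm y y.2 z z.2)
    have hexpV : ∀ y : h.sub, y * y = 1 := fun y => Subtype.ext (hexp y y.2)
    -- pairs
    have hpair : ∀ a ∈ Δ, ∀ b ∈ Δ, IsPGroup 2 (Subgroup.closure ({a, b} : Set G)) := by
      intro a ha b hb
      have hα : τ a * τ a = 1 := by
        rw [← map_mul]
        exact hτN _ ha.2
      have hβ : τ b * τ b = 1 := by
        rw [← map_mul]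
        exact hτN _ hb.2
      have hαi : (τ a)⁻¹ = τ a := inv_eq_of_mul_eq_one_left hα
      have hβi : (τ b)⁻¹ = τ b := inv_eq_of_mul_eq_one_left hβ
      set γ := τ a * τ b with hγ
      have hγo : orderOf γ ≠ 0 := (orderOf_pos γ).ne'
      obtain ⟨j, r, hr, hor⟩ := Nat.exists_eq_two_pow_mul_odd hγo
      have hγj : τ ((a * b) ^ 2 ^ j) = γ ^ 2 ^ j := by
        rw [map_pow, map_mul]
      have hγconj : τ a * γ * (τ a)⁻¹ = γ⁻¹ := by
        rw [hγ, mul_inv_rev, hαi, hβi, ← mul_assoc, hα, one_mul]
      have hr1 : r = 1 := by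
        by_contra hr1
        obtain ⟨s, hs⟩ := hr
        set δ := γ ^ 2 ^ j with hδ
        have hδr : δ ^ (2 * s + 1) = 1 := by
          rw [← hs, hδ, ← pow_mul, ← hor]
          exact pow_orderOf_eq_one γ
        have hδc : τ a * δ * (τ a)⁻¹ = δ⁻¹ := by
          rw [hδ, ← conj_pow, hγconj, inv_pow]
        have hfix : ∀ y : h.sub, δ y = y → y = 1 := by
          intro y hy
          by_contra hy1
          have hy1' : (y : G) ≠ 1 := fun h3 => hy1 (Subtype.ext h3)
          have hP := h.isPGroup_centralizer hp hord y.2 hy1'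
          have hvc : (a * b) ^ 2 ^ j ∈ Subgroup.centralizer ({(y : G)} : Set G) := by
            rw [Subgroup.mem_centralizer_singleton_iff]
            have h3 := hτ ((a * b) ^ 2 ^ j) y
            rw [hγj, hy] at h3
            calc (a * b) ^ 2 ^ j * (y : G) = ((a * b) ^ 2 ^ j * y * ((a * b) ^ 2 ^ j)⁻¹) * (a * b) ^ 2 ^ j := by group
              _ = y * (a * b) ^ 2 ^ j := by rw [← h3]
          obtain ⟨i, hi⟩ := hP ⟨_, hvc⟩
          have h3 : ((a * b) ^ 2 ^ j) ^ 2 ^ i = 1 := by
            have := congrArg Subtype.val hi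
            simpa using this
          have h4 : γ ^ (2 ^ j * 2 ^ i) = 1 := by
            rw [pow_mul, ← hδ, ← hγj, ← map_pow, h3, map_one]
          have h5 : orderOf γ ∣ 2 ^ j * 2 ^ i := orderOf_dvd_of_pow_eq_one h4
          rw [hor] at h5
          have h6 : r ∣ 2 ^ i := Nat.dvd_of_mul_dvd_mul_left (by positivity) h5
          have h7 : Nat.Coprime r (2 ^ i) := by
            apply Nat.Coprime.pow_right
            rw [Nat.coprime_two_right]
            exact ⟨s, hs⟩
          exact hr1 (Nat.Coprime.eq_one_of_dvd h7 h6)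
        have hw : τ a ⟨a * a, ha.2⟩ = ⟨a * a, ha.2⟩ := by
          apply Subtype.ext
          rw [hτ]
          group
        obtain ⟨m, hm'⟩ := fix_eq_norm hcV hexpV (τ a) δ s hδc hδr hfix ⟨a * a, ha.2⟩ hw
        have h3 := congrArg Subtype.val hm'
        simp only [Subgroup.coe_mul] at h3
        rw [hτ] at h3
        exact hA a ha m m.2 h3
      -- `2`-group
      have hj : (a * b) ^ 2 ^ j ∈ h.sub := by
        apply hτk
        rw [hγj, ← pow_orderOf_eq_one γ, hor, hr1, mul_one]
      have hs1 : ((a : G) : G ⧸ h.sub) * ((a : G) : G ⧸ h.sub) = 1 :=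
        (QuotientGroup.eq_one_iff (a * a)).mpr ha.2
      have ht1 : ((b : G) : G ⧸ h.sub) * ((b : G) : G ⧸ h.sub) = 1 :=
        (QuotientGroup.eq_one_iff (b * b)).mpr hb.2
      have hst : (((a : G) : G ⧸ h.sub) * ((b : G) : G ⧸ h.sub)) ^ 2 ^ j = 1 :=
        (QuotientGroup.eq_one_iff ((a * b) ^ 2 ^ j)).mpr hj
      have hdih := two_pow_of_dihedral _ _ hs1 ht1 j hst
      intro w
      have hw2 : ((w : G) : G ⧸ h.sub) ∈ Subgroup.closure ({((a : G) : G ⧸ h.sub), ((b : G) : G ⧸ h.sub)} : Set (G ⧸ h.sub)) := by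
        have h3 : Subgroup.map (QuotientGroup.mk' h.sub) (Subgroup.closure ({a, b} : Set G)) ≤
            Subgroup.closure ({((a : G) : G ⧸ h.sub), ((b : G) : G ⧸ h.sub)} : Set (G ⧸ h.sub)) := by
          rw [MonoidHom.map_closure, Set.image_pair]
          rfl
        exact h3 (Subgroup.mem_map_of_mem _ w.2)
      obtain ⟨n, hn⟩ := hdih _ hw2
      have h4 : (w : G) ^ 2 ^ n ∈ h.sub := (QuotientGroup.eq_one_iff _).mp hn
      refine ⟨n + 1, ?_⟩
      apply Subtype.ext
      have h5 := hexp _ h4
      simp only [Subgroup.coe_pow, Subgroup.coe_one]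
      rw [pow_succ, pow_mul, pow_two]
      exact h5
    have hmain := Cfsg.Agent.Lib.Invol.isPGroup_closure_of_pairs 2 _ rfl Δ hΔ hpair
    have hclosure : Subgroup.closure Δ = Subgroup.normalClosure Δ := by
      apply le_antisymm
      · exact Subgroup.closure_mono Group.subset_conjugatesOfSet
      · apply Subgroup.closure_le _ |>.mpr
        intro z hz
        rw [Group.mem_conjugatesOfSet_iff] at hz
        obtain ⟨a, ha, haz⟩ := hz
        obtain ⟨c, rfl⟩ := isConj_iff.mp haz
        exact Subgroup.subset_closure (hΔ a ha c)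
    have hle := hO (Subgroup.closure Δ) (by rw [hclosure]; infer_instance) hmain
    exact ha₀1 (hle (Subgroup.subset_closure ⟨ha₀1, ha₀2⟩))
  obtain ⟨K, hK⟩ := Subgroup.exists_right_complement'_of_coprime hind
  exact ⟨K, hK⟩

end Main

/-- Let G be a finite group of order greater than 2 with an irreducible character χ nonzero on exactly two conjugacy classes, and let N be the normal p-subgroup of elements where χ is nonzero. Then N is the whole p-core O_p(G) if and only if G is a doubly transitive Frobenius group with kernel N: G has a Frobenius complement H whose Frobenius kernel is N and whose order is one less than that of N. -/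
theorem result {G : Type*} [Group G] [Finite G] (hG : 2 < Nat.card G) (χ : Cfsg.IrrCharacter G) (hχ : Nat.card {C : ConjClasses G // ∃ g ∈ C.carrier, (χ : G → ℂ) g ≠ 0} = 2) (p : ℕ) [Fact p.Prime] (N : Subgroup G) [N.Normal] (hN : ∀ g : G, g ∈ N ↔ (χ : G → ℂ) g ≠ 0) (hNp : IsPGroup p N) (hN1 : N ≠ ⊥) :
    N = Cfsg.pCore p G ↔ ∃ H : Subgroup G, Cfsg.IsFrobeniusComplement H ∧ Cfsg.frobeniusKernel H = (N : Set G) ∧ Nat.card H + 1 = Nat.card N := by
  classical
  cases nonempty_fintype G
  obtain ⟨x, h⟩ := exists_isGagola hG χ hχ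
  have hsub : N = h.sub := by
    ext g
    rw [hN, IsGagola.mem_sub]
  subst hsub
  have hpp : p.Prime := Fact.out
  have hord := h.orderOf_eq_of_prime hpp hNp
  constructor
  · intro hcore
    -- centralizer
    have hC : ∀ g : G, (∀ n ∈ h.sub, g * n * g⁻¹ = n) → g ∈ h.sub := by
      intro g hg
      rw [hcore]
      let C : Subgroup G := Subgroup.centralizer (h.sub : Set G)
      have hCn : C.Normal := inferInstance
      have hCp : IsPGroup p C := by
        have hP := h.isPGroup_centralizer hpp hord h.x_mem h.x_ne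
        refine hP.to_le ?_
        intro z hz
        rw [Subgroup.mem_centralizer_singleton_iff]
        exact (Subgroup.mem_centralizer_iff.mp hz x h.x_mem).symm
      have hle : C ≤ Cfsg.pCore p G := Cfsg.Agent.Lib.Basic.le_pCore hCn hCp
      apply hle
      rw [Subgroup.mem_centralizer_iff]
      intro n hn
      have h1 := hg n hn
      calc n * g = (g * n * g⁻¹) * g := by rw [h1]
        _ = g * n := by group
    have hO : ∀ Q : Subgroup G, Q.Normal → IsPGroup p Q → Q ≤ h.sub := by
      intro Q hQ hQp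
      rw [hcore]
      exact Cfsg.Agent.Lib.Basic.le_pCore hQ hQp
    obtain ⟨K, hK⟩ : ∃ K : Subgroup G, Subgroup.IsComplement' h.sub K := by
      by_cases hp2 : p = 2
      · subst hp2
        exact exists_complement_two h hord hC hO
      · exact exists_complement_odd h hpp hp2 hord hC
    exact ⟨K, of_complement h hpp hord hG hK⟩
  · rintro ⟨K, hK, hker, hcard⟩
    have hN0 : h.sub.Normal := h.sub_normal
    apply le_antisymm
    · exact Cfsg.Agent.Lib.Basic.le_pCore hN0 hNp
    · intro g hg
      by_contra hgN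
      have hg1 : g ≠ 1 := fun h1 => hgN (h1 ▸ h.sub.one_mem)
      have h2 : g ∉ frobeniusKernel K := by
        rw [hker]
        exact hgN
      simp only [frobeniusKernel, Set.mem_ofPred_eq, not_or, not_forall, not_not] at h2
      obtain ⟨-, c, hc⟩ := h2
      obtain ⟨k, hk, hk1⟩ := Subgroup.mem_smul_pointwise_iff_exists _ _ _ |>.mp hc
      simp only [MulAut.smul_def, MulAut.conj_apply] at hk1
      have hk2 : k ≠ 1 := by
        rintro rfl
        apply hg1
        rw [← hk1]
        group
      -- `g` is a `p`-element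
      obtain ⟨i, hi⟩ := (Cfsg.Agent.Lib.Basic.pCore_isPGroup p : IsPGroup p (Cfsg.pCore p G)) ⟨g, hg⟩
      have h3 : g ^ p ^ i = 1 := by
        have := congrArg Subtype.val hi
        simpa using this
      have h4 : k ^ p ^ i = 1 := by
        have h5 : (c * k * c⁻¹) ^ p ^ i = 1 := by rw [hk1]; exact h3
        rw [conj_pow] at h5
        have h6 := congrArg (fun z => c⁻¹ * z * c) h5
        simpa [mul_assoc] using h6
      have h5 : p ∣ Nat.card K := by
        have h6 : orderOf k ∣ p ^ i := orderOf_dvd_of_pow_eq_one h4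
        obtain ⟨j, -, hj⟩ := (Nat.dvd_prime_pow hpp).mp h6
        have hj0 : j ≠ 0 := by
          rintro rfl
          rw [pow_zero] at hj
          exact hk2 (orderOf_eq_one_iff.mp hj)
        have h7 : p ∣ orderOf k := by
          rw [hj]
          exact dvd_pow_self p hj0
        have h8 : orderOf (⟨k, hk⟩ : K) = orderOf k := Subgroup.orderOf_mk k hk
        rw [← h8] at h7
        exact h7.trans (orderOf_dvd_natCard _)
      obtain ⟨n, hn⟩ := IsPGroup.iff_card.mp hNp
      have hn0 : n ≠ 0 := by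
        rintro rfl
        rw [pow_zero] at hn
        have h9 : Nat.card K + 1 = 1 := by rw [hcard, hn]
        have := (Nat.card_pos : 0 < Nat.card K)
        omega
      have h6 : p ∣ Nat.card K + 1 := by
        rw [hcard, hn]
        exact dvd_pow_self p hn0
      have h7 : p ∣ 1 := (Nat.dvd_add_right h5).mp h6
      exact hpp.one_lt.ne' (Nat.dvd_one.mp h7)

end Cfsg.Agent.S4839
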