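import Cfsg.Statements.S4840
import Cfsg.Agent.Lib.Char.GagolaSolv

set_option autoImplicit false
open Cfsg

namespace Cfsg.Agent.S4840

open Cfsg.Agent.Lib.Char Cfsg.Agent.Lib.Char.GS Cfsg.Agent.Lib.Basic

universe u

/-- `O_p` of the quotient by `O_p` is trivial. -/
theorem pCore_quot_self' {G : Type u} [Group G] [Finite G] (p : ℕ) [Fact p.Prime] :
    Cfsg.pCore p (G ⧸ Cfsg.pCore p G) = ⊥ := by
  haveI hQn : (Cfsg.pCore p G).Normal := Cfsg.Agent.Lib.Basic.pCore_normal p
  haveI hPn : (Cfsg.pCore p (G ⧸ Cfsg.pCore p G)).Normal := Cfsg.Agent.Lib.Basic.pCore_normal p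
  have hPp : IsPGroup p (Cfsg.pCore p (G ⧸ Cfsg.pCore p G)) := pCore_isPGroup p
  have hM : (Cfsg.pCore p (G ⧸ Cfsg.pCore p G)).comap (QuotientGroup.mk' (Cfsg.pCore p G)) ≤ Cfsg.pCore p G := by
    apply le_pCore (hPn.comap _)
    apply IsPGroup.comap_of_ker_isPGroup hPp
    rw [QuotientGroup.ker_mk']
    exact pCore_isPGroup p
  rw [eq_bot_iff]
  intro y hy
  obtain ⟨y, rfl⟩ := QuotientGroup.mk'_surjective (Cfsg.pCore p G) y
  have h1 : y ∈ Cfsg.pCore p G := hM hy
  exact (QuotientGroup.eq_one_iff y).mpr h1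

/-- Let G be a finite solvable group of order greater than 2 with an irreducible character nonzero on exactly two conjugacy classes. Then there is exactly one prime p with O_p(G) ≠ 1, and the quotient G/O_p(G) has a normal p-complement and commutative Sylow p-subgroups. -/
theorem result {G : Type*} [Group G] [Finite G] [hs : Group.IsSolvable G] (hG : 2 < Nat.card G) (χ : Cfsg.IrrCharacter G) (hχ : Nat.card {C : ConjClasses G // ∃ g ∈ C.carrier, (χ : G → ℂ) g ≠ 0} = 2) :
    ∃ p : ℕ, p.Prime ∧ (∀ q : ℕ, q.Prime → (Cfsg.pCore q G ≠ ⊥ ↔ q = p)) ∧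
      Cfsg.HasNormalPComplement p (G ⧸ Cfsg.pCore p G) ∧ ∀ Q : Sylow p (G ⧸ Cfsg.pCore p G), IsMulCommutative (Q : Subgroup (G ⧸ Cfsg.pCore p G)) := by
  classical
  cases nonempty_fintype G
  obtain ⟨x, h⟩ := exists_isGagola hG χ hχ
  obtain ⟨p, hp, hord⟩ := h.exists_prime_orderOf
  haveI : Fact p.Prime := ⟨hp⟩
  haveI hn := h.sub_normal
  have hNp : IsPGroup p h.sub := h.isPGroup_sub hp hord
  have hNle : h.sub ≤ Cfsg.pCore p G := le_pCore hn hNp
  have hx := h.x_mem
  have hx1 := h.x_ne
  refine ⟨p, hp, ?_, ?_⟩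
  · intro q hq
    haveI : Fact q.Prime := ⟨hq⟩
    constructor
    · intro hne
      have h1 : h.sub ≤ Cfsg.pCore q G := by
        haveI : (Cfsg.pCore q G).Normal := Cfsg.Agent.Lib.Basic.pCore_normal q
        exact h.sub_le_of_normal _ hne
      have h2 : x ∈ Cfsg.pCore q G := h1 hx
      obtain ⟨k, hk⟩ := (pCore_isPGroup (G := G) q) ⟨x, h2⟩
      have h3 : x ^ q ^ k = 1 := congrArg Subtype.val hk
      have h4 : orderOf x ∣ q ^ k := orderOf_dvd_of_pow_eq_one h3
      rw [hord x hx hx1] at h4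
      exact (Nat.prime_dvd_prime_iff_eq hp hq).mp (hp.dvd_of_dvd_pow h4) |>.symm
    · rintro rfl hbot
      rw [hbot] at hNle
      exact hx1 (hNle hx)
  · -- the action on `N`
    letI : CommGroup h.sub :=
      { (inferInstance : Group h.sub) with
        mul_comm := fun a b => Subtype.ext (h.commute_of_mem hp hord a a.2 b b.2) }
    haveI hP0n : (Cfsg.pCore p G).Normal := Cfsg.Agent.Lib.Basic.pCore_normal p
    have hker : Cfsg.pCore p G ≤ (MulAut.conjNormal (H := h.sub) : G →* MulAut h.sub).ker := by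
      intro g hg
      rw [MonoidHom.mem_ker]
      ext ⟨y, hy⟩
      by_cases hy1 : y = 1
      · subst hy1
        simp [MulAut.conjNormal_apply]
      obtain ⟨P, hP⟩ := h.exists_sylow_centralizer hord hy hy1
      have h1 : g ∈ Subgroup.centralizer ({y} : Set G) := by
        rw [hP]
        exact pCore_le_sylow P hg
      have h2 := Subgroup.mem_centralizer_iff.mp h1 y rfl
      simp only [MulAut.conjNormal_apply, MulAut.one_apply]
      rw [← h2]
      simp
    let ρ : G ⧸ Cfsg.pCore p G →* MulAut h.sub := QuotientGroup.lift _ (MulAut.conjNormal (H := h.sub)) hker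
    have hρ : ∀ (g : G) (v : h.sub), (ρ (g : G ⧸ Cfsg.pCore p G) v : h.sub) = MulAut.conjNormal (H := h.sub) g v := fun g v => rfl
    obtain ⟨P, hP⟩ := h.exists_sylow_centralizer hord hx hx1
    have hcardP : ∃ e' : ℕ, Nat.card (P : Subgroup G) = Nat.card (Cfsg.pCore p G) * p ^ e' := by
      have hle : Cfsg.pCore p G ≤ (P : Subgroup G) := pCore_le_sylow P
      obtain ⟨a, ha⟩ := (P.isPGroup').exists_card_eq
      obtain ⟨b, hb⟩ := (pCore_isPGroup (G := G) p).exists_card_eq
      have hd : Nat.card (Cfsg.pCore p G) ∣ Nat.card (P : Subgroup G) := Subgroup.card_dvd_of_le hle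
      rw [ha, hb] at hd
      have hab : b ≤ a := (Nat.pow_dvd_pow_iff_le_right hp.one_lt).mp hd
      refine ⟨a - b, ?_⟩
      rw [ha, hb, ← pow_add]
      congr 1
      omega
    obtain ⟨e', he'⟩ := hcardP
    have hcard : Nat.card (G ⧸ Cfsg.pCore p G) = (Nat.card h.sub - 1) * p ^ e' := by
      have h1 : classSize x * Nat.card (Subgroup.centralizer ({x} : Set G)) = Nat.card G :=
        classSize_mul_card_centralizer x
      have h2 := h.card_sub
      have h3 : Nat.card h.sub - 1 = classSize x := by omega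
      rw [h3]
      have h4 : Nat.card (Cfsg.pCore p G) * Nat.card (G ⧸ Cfsg.pCore p G) = Nat.card G :=
        (Subgroup.card_eq_card_quotient_mul_card_subgroup (Cfsg.pCore p G)).symm ▸ mul_comm _ _
      rw [hP, he'] at h1
      have h5 : 0 < Nat.card (Cfsg.pCore p G) := Nat.card_pos
      apply Nat.eq_of_mul_eq_mul_left h5
      rw [h4, ← h1]
      ring
    refine GS.main_complement (V := h.sub) (pCore_quot_self' p) ?_ ?_ ρ ?_ hcard
    · intro v
      by_cases hv : (v : G) = 1
      · have : v = 1 := Subtype.ext hv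
        rw [this, one_pow]
      · apply Subtype.ext
        have h1 := hord v v.2 hv
        show (v : G) ^ p = 1
        rw [← h1]
        exact pow_orderOf_eq_one _
    · have h1 : Nontrivial h.sub := ⟨⟨⟨x, hx⟩, 1, fun h2 => hx1 (congrArg Subtype.val h2)⟩⟩
      exact Finite.one_lt_card
    · intro v hv gb hgv
      obtain ⟨g, rfl⟩ := QuotientGroup.mk'_surjective (Cfsg.pCore p G) gb
      have hv1 : (v : G) ≠ 1 := fun h2 => hv (Subtype.ext h2)
      obtain ⟨S, hS⟩ := h.exists_sylow_centralizer hord v.2 hv1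
      have h1 : g * (v : G) * g⁻¹ = v := congrArg Subtype.val hgv
      have h2 : g ∈ Subgroup.centralizer ({(v : G)} : Set G) := by
        rw [Subgroup.mem_centralizer_iff]
        rintro _ rfl
        rw [mul_inv_eq_iff_eq_mul] at h1
        exact h1.symm
      rw [hS] at h2
      obtain ⟨k, hk⟩ := S.isPGroup' ⟨g, h2⟩
      refine ⟨k, ?_⟩
      have h3 : g ^ p ^ k = 1 := congrArg Subtype.val hk
      rw [← map_pow, h3, map_one]

end Cfsg.Agent.S4840
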