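import Cfsg.Statements.S4843
import Cfsg.Agent.Lib.Char.TensorSchur
import Cfsg.Agent.Lib.Char.Galois
import Cfsg.Agent.Lib.Char.Linear
import Cfsg.Agent.Lib.Char.Clifford
import Cfsg.Agent.Lib.Char.Degree
import Cfsg.Agent.Lib.Basic.Core
import Cfsg.Agent.S4730

set_option autoImplicit false
open Cfsg

namespace Cfsg.Agent.S4843

open Cfsg.Agent.Lib.Char Cfsg.Agent.Lib.Basic
open scoped ComplexConjugate

variable {G : Type*} [Group G] [Fintype G]

/-- Twisted shift of a sum over a group. -/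
theorem sum_shift {A : Type*} [Group A] [Fintype A] (f : A → ℂ) (lam : A →* ℂˣ) (u : A) :
    ∑ x : A, f (u * x) * ((lam x : ℂˣ) : ℂ)⁻¹ = ((lam u : ℂˣ) : ℂ) * ∑ x : A, f x * ((lam x : ℂˣ) : ℂ)⁻¹ := by
  rw [Finset.mul_sum]
  refine Fintype.sum_equiv (Equiv.mulLeft u) _ _ fun x => ?_
  simp only [Equiv.coe_mulLeft, map_mul, Units.val_mul]
  have h : ((lam u : ℂˣ) : ℂ) ≠ 0 := Units.ne_zero _
  have h2 : ((lam x : ℂˣ) : ℂ) ≠ 0 := Units.ne_zero _
  field_simp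

/-- An abelian normal subgroup under `χ χ^{(k)}`: `|χ(a)| = χ(1)`. -/
theorem abelian_case {χ : G → ℂ} (hχ : Cfsg.IsIrrCharacter G χ) {k j : ℕ}
    (hk : k.Coprime (Nat.card G)) (hj : ∀ g : G, (g ^ k) ^ j = g⁻¹)
    (hirr : Cfsg.IsIrrCharacter G (fun g => χ g * χ (g ^ k)))
    (A : Subgroup G) [hA : A.Normal] (hab : ∀ x ∈ A, ∀ y ∈ A, x * y = y * x) {a : G} (ha : a ∈ A) :
    χ 1 * χ 1 = χ a * χ a⁻¹ := by
  classical
  have hχc : Cfsg.IsCharacter G χ := IsIrrCharacter.isCharacter hχ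
  have hχ'c : Cfsg.IsCharacter G (fun g => χ (g ^ k)) := isCharacter_pow hχc hk
  have hd0 : χ 1 ≠ 0 := IsIrrCharacter.apply_one_ne_zero hχ
  haveI : Fintype A := Fintype.ofFinite _
  haveI : IsMulCommutative A := ⟨⟨fun x y => Subtype.ext (hab x.1 x.2 y.1 y.2)⟩⟩
  obtain ⟨θ, hθ, hne⟩ := exists_under hχ A
  have hθ1 : θ 1 = 1 := by
    have := comm_iff_irr_degree_one (G := A)
    have h2 := this.mp (fun x y => Subtype.ext (hab x.1 x.2 y.1 y.2)) ⟨θ, hθ⟩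
    exact h2
  obtain ⟨lam, rfl⟩ := IsCharacter.exists_monoidHom (IsIrrCharacter.isCharacter hθ) hθ1
  have hnorm : ∀ x : A, conj ((lam x : ℂˣ) : ℂ) = ((lam x : ℂˣ) : ℂ)⁻¹ := by
    intro x
    have h1 : ((lam x : ℂˣ) : ℂ) ^ orderOf x = 1 := by
      rw [← Units.val_pow_eq_pow_val, ← map_pow, pow_orderOf_eq_one, map_one, Units.val_one]
    have h2 := Complex.norm_eq_one_of_pow_eq_one h1 (orderOf_pos x).ne'
    exact (Complex.inv_eq_conj h2).symm
  set e : ℂ := ∑ x : A, χ x * ((lam x : ℂˣ) : ℂ)⁻¹ with he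
  have he0 : e ≠ 0 := by
    intro h0
    apply hne
    unfold Cfsg.classInner
    simp only [hnorm, resFun]
    rw [← he, h0, mul_zero]
  -- the twist on the conjugate side
  let lam' : A →* ℂˣ := (powMonoidHom k : ℂˣ →* ℂˣ).comp lam
  have hA' : (Nat.card A).Coprime k := by
    have h1 : Nat.card A ∣ Nat.card G := Subgroup.card_subgroup_dvd_card A
    exact (Nat.Coprime.coprime_dvd_right h1 hk).symm
  set e' : ℂ := ∑ x : A, χ (x ^ k) * ((lam' x : ℂˣ) : ℂ)⁻¹ with he'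
  have he'e : e' = e := by
    rw [he', he]
    refine Fintype.sum_equiv (powCoprime hA') _ _ fun x => ?_
    have h1 : (powCoprime hA') x = x ^ k := rfl
    rw [h1]
    simp [lam', map_pow]
  -- multiply out
  have hrel : ∀ x y : A, (χ 1 * χ ((1 : G) ^ k)) * ∑ g : G, χ (g * a * g⁻¹ * x) * χ ((g * a ^ j * g⁻¹ * y) ^ k) =
      (Nat.card G : ℂ) * (χ a * χ ((a ^ j) ^ k) * (χ x * χ ((y : G) ^ k))) := fun x y =>
    sum_conj_tensor hχc hχ'c hirr a (a ^ j) x y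
  have hjk : ∀ g : G, (g ^ j) ^ k = g⁻¹ := by
    intro g
    rw [← pow_mul, mul_comm, pow_mul]
    exact hj g
  have hsum := Finset.sum_congr rfl (fun x (_ : x ∈ (Finset.univ : Finset A)) =>
    Finset.sum_congr rfl (fun y (_ : y ∈ (Finset.univ : Finset A)) =>
      congrArg (fun z => z * (((lam x : ℂˣ) : ℂ)⁻¹ * ((lam' y : ℂˣ) : ℂ)⁻¹)) (hrel x y)))
  have hR : ∑ x : A, ∑ y : A, (Nat.card G : ℂ) * (χ a * χ ((a ^ j) ^ k) * (χ x * χ ((y : G) ^ k))) *
      (((lam x : ℂˣ) : ℂ)⁻¹ * ((lam' y : ℂˣ) : ℂ)⁻¹) = (Nat.card G : ℂ) * (χ a * χ a⁻¹) * (e * e') := by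
    rw [he, he', Finset.sum_mul_sum, Finset.mul_sum]
    refine Finset.sum_congr rfl fun x _ => ?_
    rw [Finset.mul_sum]
    refine Finset.sum_congr rfl fun y _ => ?_
    rw [hjk]
    ring
  have hL : ∑ x : A, ∑ y : A, (χ 1 * χ ((1 : G) ^ k)) * (∑ g : G, χ (g * a * g⁻¹ * x) * χ ((g * a ^ j * g⁻¹ * y) ^ k)) *
      (((lam x : ℂˣ) : ℂ)⁻¹ * ((lam' y : ℂˣ) : ℂ)⁻¹) = (χ 1 * χ 1) * ((Nat.card G : ℂ) * (e * e')) := by
    have h1 : ∀ x y : A, (χ 1 * χ ((1 : G) ^ k)) * (∑ g : G, χ (g * a * g⁻¹ * x) * χ ((g * a ^ j * g⁻¹ * y) ^ k)) *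
      (((lam x : ℂˣ) : ℂ)⁻¹ * ((lam' y : ℂˣ) : ℂ)⁻¹) = (χ 1 * χ 1) * ∑ g : G,
        (χ (g * a * g⁻¹ * x) * ((lam x : ℂˣ) : ℂ)⁻¹) * (χ ((g * a ^ j * g⁻¹ * y) ^ k) * ((lam' y : ℂˣ) : ℂ)⁻¹) := by
      intro x y
      rw [one_pow, mul_assoc, Finset.sum_mul]
      congr 1
      refine Finset.sum_congr rfl fun g _ => ?_
      ring
    simp only [h1]
    have h1' : ∑ x : A, ∑ y : A, (χ 1 * χ 1) * ∑ g : G,
        (χ (g * a * g⁻¹ * x) * ((lam x : ℂˣ) : ℂ)⁻¹) * (χ ((g * a ^ j * g⁻¹ * y) ^ k) * ((lam' y : ℂˣ) : ℂ)⁻¹) =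
        (χ 1 * χ 1) * ∑ g : G, ∑ x : A, ∑ y : A,
        (χ (g * a * g⁻¹ * x) * ((lam x : ℂˣ) : ℂ)⁻¹) * (χ ((g * a ^ j * g⁻¹ * y) ^ k) * ((lam' y : ℂˣ) : ℂ)⁻¹) := by
      simp only [Finset.mul_sum]
      calc _ = ∑ x : A, ∑ g : G, ∑ y : A, χ 1 * χ 1 * ((χ (g * a * g⁻¹ * x) * ((lam x : ℂˣ) : ℂ)⁻¹) * (χ ((g * a ^ j * g⁻¹ * y) ^ k) * ((lam' y : ℂˣ) : ℂ)⁻¹)) :=
            Finset.sum_congr rfl fun x _ => Finset.sum_comm
        _ = _ := Finset.sum_comm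
    rw [h1']
    congr 1
    have h2 : ∀ g : G, ∑ x : A, ∑ y : A, (χ (g * a * g⁻¹ * x) * ((lam x : ℂˣ) : ℂ)⁻¹) *
        (χ ((g * a ^ j * g⁻¹ * y) ^ k) * ((lam' y : ℂˣ) : ℂ)⁻¹) = e * e' := by
      intro g
      set b : A := ⟨g * a * g⁻¹, hA.conj_mem a ha g⟩ with hb
      have h3 : ∑ x : A, χ (g * a * g⁻¹ * x) * ((lam x : ℂˣ) : ℂ)⁻¹ = ((lam b : ℂˣ) : ℂ) * e :=
        sum_shift (fun x : A => χ x) lam b
      have h4 : ∑ y : A, χ ((g * a ^ j * g⁻¹ * y) ^ k) * ((lam' y : ℂˣ) : ℂ)⁻¹ =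
          ((lam' (b ^ j) : ℂˣ) : ℂ) * e' := by
        have h5 := sum_shift (fun x : A => χ ((x : G) ^ k)) lam' (b ^ j)
        have h6 : ∀ y : A, (((b ^ j * y : A) : G)) = g * a ^ j * g⁻¹ * y := by
          intro y
          simp only [Subgroup.coe_mul, Subgroup.coe_pow, hb]
          rw [conj_pow]
        simp only [h6] at h5
        exact h5
      rw [← Finset.sum_mul_sum, h3, h4]
      have h7 : ((lam b : ℂˣ) : ℂ) * ((lam' (b ^ j) : ℂˣ) : ℂ) = 1 := by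
        have h8 : lam' (b ^ j) = lam ((b ^ j) ^ k) := by
          rw [map_pow lam]
          rfl
        have hjkA : (b ^ j) ^ k = b⁻¹ := Subtype.ext (by simpa using hjk (b : G))
        rw [h8, hjkA, map_inv, Units.val_inv_eq_inv_val]
        exact mul_inv_cancel₀ (Units.ne_zero _)
      calc ((lam b : ℂˣ) : ℂ) * e * (((lam' (b ^ j) : ℂˣ) : ℂ) * e') =
          (((lam b : ℂˣ) : ℂ) * ((lam' (b ^ j) : ℂˣ) : ℂ)) * (e * e') := by ring
        _ = e * e' := by rw [h7, one_mul]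
    simp only [h2, Finset.sum_const, Finset.card_univ, nsmul_eq_mul]
    rw [← Nat.card_eq_fintype_card]
  rw [hL, hR] at hsum
  have hG : (Nat.card G : ℂ) ≠ 0 := NeZero.ne _
  have hee : e * e' ≠ 0 := by
    rw [he'e]
    exact mul_ne_zero he0 he0
  have h9 : (Nat.card G : ℂ) * (e * e') * (χ 1 * χ 1) = (Nat.card G : ℂ) * (e * e') * (χ a * χ a⁻¹) := by
    linear_combination hsum
  exact mul_left_cancel₀ (mul_ne_zero hG hee) h9


/-- The fully ramified case. -/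
theorem fr_case {χ : G → ℂ} (hχ : Cfsg.IsIrrCharacter G χ) (hfaith : ∀ g : G, χ g = χ 1 → g = 1)
    {k j : ℕ} (hk : k.Coprime (Nat.card G)) (hj : ∀ g : G, (g ^ k) ^ j = g⁻¹)
    (hirr : Cfsg.IsIrrCharacter G (fun g => χ g * χ (g ^ k)))
    (A : Subgroup G) [hA : A.Normal]
    (hcomm : ∀ u ∈ A, ∀ v ∈ A, u * v * u⁻¹ * v⁻¹ ∈ Subgroup.center G)
    (hrad : ∀ u ∈ A, u ∉ Subgroup.center G → ∃ c ∈ A, c * u * c⁻¹ * u⁻¹ ≠ 1)
    {a : G} (ha : a ∈ A) : a ∈ Subgroup.center G := by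
  classical
  by_contra hac
  have hχc : Cfsg.IsCharacter G χ := IsIrrCharacter.isCharacter hχ
  have hχ'c : Cfsg.IsCharacter G (fun g => χ (g ^ k)) := isCharacter_pow hχc hk
  have hd0 : χ 1 ≠ 0 := IsIrrCharacter.apply_one_ne_zero hχ
  have hcl := IsCharacter.isClassFunction hχc
  have hvan : ∀ u ∈ A, u ∉ Subgroup.center G → χ u = 0 := by
    intro u hu huZ
    obtain ⟨c, hc, hne⟩ := hrad u hu huZ
    set z := c * u * c⁻¹ * u⁻¹ with hz
    have hzZ : z ∈ Subgroup.center G := hcomm c hc u hu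
    have h1 : c * u * c⁻¹ = u * z := by
      rw [(Subgroup.mem_center_iff.mp hzZ u), hz]
      group
    have h2 := apply_mul_of_mem_center hχ hzZ u
    rw [← h1, hcl u c] at h2
    have h3 : χ z ≠ χ 1 := fun h => hne (hfaith z h)
    have h4 : χ u * (χ 1 - χ z) = 0 := by linear_combination h2
    exact (mul_eq_zero.mp h4).resolve_right (sub_ne_zero.mpr (Ne.symm h3))
  have hjk : ∀ g : G, (g ^ j) ^ k = g⁻¹ := by
    intro g
    rw [← pow_mul, mul_comm, pow_mul]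
    exact hj g
  have hrel := sum_conj_tensor hχc hχ'c hirr a (a ^ j) a⁻¹ (a ^ j)⁻¹
  simp only [one_pow] at hrel
  rw [hvan a ha hac, zero_mul, zero_mul, mul_zero] at hrel
  have hterm : ∀ g : G, χ (g * a * g⁻¹ * a⁻¹) * χ ((g * a ^ j * g⁻¹ * (a ^ j)⁻¹) ^ k) =
      if g * a * g⁻¹ * a⁻¹ ∈ Subgroup.center G then χ 1 * χ 1 else 0 := by
    intro g
    split_ifs with hu
    · set z := g * a * g⁻¹ * a⁻¹ with hz
      have h1 : g * a * g⁻¹ = z * a := by rw [hz]; group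
      have h2 : g * a ^ j * g⁻¹ = z ^ j * a ^ j := by
        rw [← conj_pow, h1]
        exact (Commute.mul_pow (Subgroup.mem_center_iff.mp hu a).symm j)
      have h3 : g * a ^ j * g⁻¹ * (a ^ j)⁻¹ = z ^ j := by
        rw [h2]; group
      rw [h3, hjk]
      have h4 := apply_mul_of_mem_center hχ hu z⁻¹
      rw [inv_mul_cancel] at h4
      linear_combination -h4
    · rw [hvan _ (A.mul_mem (hA.conj_mem a ha g) (A.inv_mem ha)) hu, zero_mul]
  simp only [hterm] at hrel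
  rw [Finset.sum_ite, Finset.sum_const_zero, add_zero, Finset.sum_const, nsmul_eq_mul] at hrel
  have hcard : ((Finset.univ.filter fun g : G => g * a * g⁻¹ * a⁻¹ ∈ Subgroup.center G).card : ℂ) ≠ 0 := by
    have h1 : 0 < (Finset.univ.filter fun g : G => g * a * g⁻¹ * a⁻¹ ∈ Subgroup.center G).card :=
      Finset.card_pos.mpr ⟨1, by simp [Subgroup.one_mem]⟩
    exact_mod_cast h1.ne'
  have h5 := mul_ne_zero (mul_ne_zero hd0 hd0) (mul_ne_zero hcard (mul_ne_zero hd0 hd0))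
  exact h5 hrel

/-- Let G be a finite group with a faithful irreducible character χ (taking the value χ(1) only at the identity) and let k be prime to the order of G, so that g ↦ χ(g^k) is a Galois conjugate of χ. If the pointwise product g ↦ χ(g)·χ(g^k) is again an irreducible character, then the Fitting subgroup of G equals its centre. -/
theorem result {G : Type*} [Group G] [Finite G] (χ : Cfsg.IrrCharacter G) (hfaith : ∀ g : G, (χ : G → ℂ) g = (χ : G → ℂ) 1 → g = 1) (k : ℕ) (hk : Nat.Coprime k (Nat.card G)) (hirr : Cfsg.IsIrrCharacter G (fun g => (χ : G → ℂ) g * (χ : G → ℂ) (g ^ k))) : Cfsg.fittingSubgroup G = Subgroup.center G := by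
  classical
  cases nonempty_fintype G
  have hχc : Cfsg.IsCharacter G (χ : G → ℂ) := IsIrrCharacter.isCharacter χ.2
  -- the exponent
  obtain ⟨j, hj⟩ : ∃ j : ℕ, ∀ g : G, (g ^ k) ^ j = g⁻¹ := by
    have hco : Nat.Coprime (Nat.card G) k := hk.symm
    obtain ⟨m, hm1, hm2⟩ := Nat.chineseRemainder hco (Nat.card G - 1) 0
    obtain ⟨j, rfl⟩ := (Nat.modEq_zero_iff_dvd.mp hm2)
    refine ⟨j, fun g => ?_⟩
    rw [← pow_mul]
    have h1 : g ^ (k * j) = g ^ (Nat.card G - 1) :=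
      pow_eq_pow_iff_modEq.mpr (hm1.of_dvd (orderOf_dvd_natCard g))
    rw [h1]
    apply eq_inv_of_mul_eq_one_left
    rw [← pow_succ, Nat.sub_add_cancel Nat.card_pos, pow_card_eq_one']
  set F := Cfsg.fittingSubgroup G with hF
  have hFn : F.Normal := by
    haveI := fittingSubgroup_characteristic (G := G)
    exact Subgroup.normal_of_characteristic _
  have hFnil : Group.IsNilpotent F := fittingSubgroup_isNilpotent
  have hZF : Subgroup.center G ≤ F := by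
    apply le_fittingSubgroup_of_nilpotent (Subgroup.normal_of_characteristic (Subgroup.center G))
    letI : CommGroup (Subgroup.center G) :=
      { (inferInstance : Group (Subgroup.center G)) with
        mul_comm := fun a b => Subtype.ext ((Subgroup.mem_center_iff.mp a.2 b.1).symm) }
    exact CommGroup.isNilpotent
  apply le_antisymm _ hZF
  by_contra hne
  obtain ⟨f₁, hf₁, hf₁Z⟩ := SetLike.not_le_iff_exists.mp hne
  -- the second centre
  have hZn : (Subgroup.center G).Normal := inferInstance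
  let A₀ : Subgroup G :=
    { carrier := {x | x ∈ F ∧ ∀ y ∈ F, x * y * x⁻¹ * y⁻¹ ∈ Subgroup.center G}
      one_mem' := ⟨F.one_mem, fun y _ => by simp [Subgroup.one_mem]⟩
      mul_mem' := by
        rintro x₁ x₂ ⟨h1, h1'⟩ ⟨h2, h2'⟩
        refine ⟨F.mul_mem h1 h2, fun y hy => ?_⟩
        have h3 : x₁ * x₂ * y * (x₁ * x₂)⁻¹ * y⁻¹ =
            x₁ * (x₂ * y * x₂⁻¹ * y⁻¹) * x₁⁻¹ * (x₁ * y * x₁⁻¹ * y⁻¹) := by group
        rw [h3]
        exact Subgroup.mul_mem _ (hZn.conj_mem _ (h2' y hy) x₁) (h1' y hy)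
      inv_mem' := by
        rintro x ⟨h1, h1'⟩
        refine ⟨F.inv_mem h1, fun y hy => ?_⟩
        have h3 : x⁻¹ * y * x⁻¹⁻¹ * y⁻¹ = x⁻¹ * (x * y * x⁻¹ * y⁻¹)⁻¹ * x⁻¹⁻¹ := by group
        rw [h3]
        exact hZn.conj_mem _ (Subgroup.inv_mem _ (h1' y hy)) x⁻¹ }
  have hA₀mem : ∀ x, x ∈ A₀ ↔ x ∈ F ∧ ∀ y ∈ F, x * y * x⁻¹ * y⁻¹ ∈ Subgroup.center G := fun _ => Iff.rfl
  haveI hA₀n : A₀.Normal := by
    constructor
    rintro x ⟨h1, h1'⟩ g
    refine ⟨hFn.conj_mem x h1 g, fun y hy => ?_⟩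
    have h2 := h1' (g⁻¹ * y * g) (by simpa using hFn.conj_mem y hy g⁻¹)
    have h3 : g * x * g⁻¹ * y * (g * x * g⁻¹)⁻¹ * y⁻¹ =
        g * (x * (g⁻¹ * y * g) * x⁻¹ * (g⁻¹ * y * g)⁻¹) * g⁻¹ := by group
    rw [h3]
    exact hZn.conj_mem _ h2 g
  -- an element of the second centre outside the centre
  obtain ⟨f₀, hf₀, hf₀Z⟩ : ∃ f₀ ∈ A₀, f₀ ∉ Subgroup.center G := by
    let K : Subgroup F := (Subgroup.center G).subgroupOf F
    haveI hKn : K.Normal := Subgroup.Normal.subgroupOf hZn F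
    have hnt : Nontrivial (F ⧸ K) := by
      rw [QuotientGroup.nontrivial_iff]
      intro hK
      apply hf₁Z
      have : (⟨f₁, hf₁⟩ : F) ∈ K := by rw [hK]; exact Subgroup.mem_top _
      exact this
    have hcen : Subgroup.center (F ⧸ K) ≠ ⊥ := Group.IsNilpotent.center_ne_bot _
    obtain ⟨q, hq, hq1⟩ := (Subgroup.bot_or_exists_ne_one (Subgroup.center (F ⧸ K))).resolve_left hcen
    obtain ⟨f, rfl⟩ := QuotientGroup.mk_surjective q
    refine ⟨f, ⟨f.2, fun y hy => ?_⟩, fun hfZ => hq1 ?_⟩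
    · have h1 := Subgroup.mem_center_iff.mp hq ((⟨y, hy⟩ : F) : F ⧸ K)
      rw [← QuotientGroup.mk_mul, ← QuotientGroup.mk_mul, QuotientGroup.eq] at h1
      have h2 : ((⟨y, hy⟩ * f)⁻¹ * (f * ⟨y, hy⟩) : F).1 ∈ Subgroup.center G := h1
      set z := (((⟨y, hy⟩ * f)⁻¹ * (f * ⟨y, hy⟩) : F) : G) with hz
      have h3 : (f : G) * y = y * f * z := by
        rw [hz]
        simp only [Subgroup.coe_mul, Subgroup.coe_inv]
        group
      have h4 : (f : G) * y * (f : G)⁻¹ * y⁻¹ = z := by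
        rw [h3]
        have h7 := Subgroup.mem_center_iff.mp h2 (y * f : G)
        rw [show y * f * z * (f : G)⁻¹ * y⁻¹ = (y * f * z) * (y * f : G)⁻¹ by group, h7]
        group
      rw [h4]
      exact h2
    · rw [QuotientGroup.eq_one_iff]
      exact hfZ
  by_cases hcase : ∀ u ∈ A₀, u ∉ Subgroup.center G → ∃ c ∈ A₀, c * u * c⁻¹ * u⁻¹ ≠ 1
  · exact hf₀Z (fr_case χ.2 hfaith hk hj hirr A₀
      (fun u hu v hv => hu.2 v hv.1) hcase hf₀)
  · push Not at hcase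
    obtain ⟨u, hu, huZ, hucomm⟩ := hcase
    let A : Subgroup G := A₀ ⊓ Subgroup.centralizer (A₀ : Set G)
    haveI hAn : A.Normal := Subgroup.normal_inf_normal _ _
    have hab : ∀ x ∈ A, ∀ y ∈ A, x * y = y * x := fun x hx y hy =>
      (Subgroup.mem_centralizer_iff.mp hy.2 x hx.1)
    have huA : u ∈ A := by
      refine ⟨hu, Subgroup.mem_centralizer_iff.mpr fun c hc => ?_⟩
      have h1 := hucomm c hc
      rw [mul_inv_eq_one, mul_inv_eq_iff_eq_mul] at h1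
      exact h1
    have h1 := abelian_case χ.2 hk hj hirr A hab huA
    apply huZ
    apply S4730.mem_center_of_norm_eq χ.2 hfaith
    rw [IsCharacter.apply_inv hχc, Complex.mul_conj, apply_one_eq_charDegree hχc] at h1
    have h2 : ((Cfsg.charDegree (χ : G → ℂ) : ℝ)) ^ 2 = ‖(χ : G → ℂ) u‖ ^ 2 := by
      rw [Complex.normSq_eq_norm_sq] at h1
      have h3 : ((Cfsg.charDegree (χ : G → ℂ) : ℂ)) * (Cfsg.charDegree (χ : G → ℂ) : ℂ) =
          (((‖(χ : G → ℂ) u‖ ^ 2 : ℝ)) : ℂ) := h1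
      have h4 : ((Cfsg.charDegree (χ : G → ℂ) : ℝ)) * (Cfsg.charDegree (χ : G → ℂ) : ℝ) =
          ‖(χ : G → ℂ) u‖ ^ 2 := by exact_mod_cast h3
      rw [← h4]
      ring
    exact (pow_left_inj₀ (norm_nonneg _) (Nat.cast_nonneg _) (by norm_num)).mp h2.symm

end Cfsg.Agent.S4843
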