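import Cfsg.Statements.S4861
import Cfsg.Agent.Lib.Char.RealDeg

set_option autoImplicit false
open Cfsg

namespace Cfsg.Agent.S4861

open Cfsg Cfsg.Agent.Lib.Char Cfsg.Agent.Lib.Char.RealDeg

/-- Let p be a prime and G a finite group such that the subgroup generated by the p-elements of G (the smallest normal subgroup of index prime to p) is solvable and every real-valued irreducible complex character of G has degree prime to p. Let K be the subgroup generated by the 2-elements of G (the smallest normal subgroup of odd index). Then the Sylow p-subgroups of K are normal in K. -/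
theorem result {G : Type*} [Group G] [Finite G] (p : ℕ) [Fact p.Prime] (hsolv : Group.IsSolvable ↥(Subgroup.closure {g : G | ∃ k : ℕ, orderOf g = p ^ k})) (hreal : ∀ χ : Cfsg.IrrCharacter G, (∀ g : G, ((χ : G → ℂ) g).im = 0) → ¬ p ∣ Cfsg.charDegree (χ : G → ℂ)) (Q : Sylow p ↥(Subgroup.closure {g : G | ∃ k : ℕ, orderOf g = 2 ^ k})) : (Q : Subgroup ↥(Subgroup.closure {g : G | ∃ k : ℕ, orderOf g = 2 ^ k})).Normal := by
  classical
  haveI : Fact (Nat.Prime 2) := ⟨Nat.prime_two⟩
  let U := elemClosure G 2
  have hU : U.Normal := elemClosure_normal 2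
  have hmain := @thmY p _ _ G _ _ rfl hsolv hreal U hU
    (fun g hg => Subgroup.subset_closure hg) (fun u hu => ⟨0, by simpa using hu⟩)
    ((Q : Subgroup U).map U.subtype) (Subgroup.map_subtype_le _) (Q.isPGroup'.map U.subtype)
    (by
      intro hd
      apply Q.not_dvd_index
      have h1 : ((Q : Subgroup U).map U.subtype).relIndex U = (Q : Subgroup U).index := by
        rw [Subgroup.relIndex, Subgroup.subgroupOf, Subgroup.comap_map_eq_self_of_injective Subtype.val_injective]
      rwa [h1] at hd)
  refine ⟨fun x hx u => ?_⟩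
  have h1 := hmain (u * x * u⁻¹ : U) (u * x * u⁻¹ : U).2 (by
    have hx' : ∃ k, x ^ (p ^ k) = 1 := Q.isPGroup' ⟨x, hx⟩ |>.imp fun k hk => congrArg Subtype.val hk
    obtain ⟨k, hk⟩ := hx'
    refine ⟨k, ?_⟩
    have : ((u * x * u⁻¹ : U) : G) ^ (p ^ k) = (((u * x * u⁻¹) ^ (p ^ k) : U) : G) := by simp
    rw [this, conj_pow, hk]
    simp)
  obtain ⟨y, hy, hyeq⟩ := h1
  have : y = u * x * u⁻¹ := Subtype.ext hyeq
  rw [← this]
  exact hy

end Cfsg.Agent.S4861
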