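import Cfsg.Statements.S4864
import Cfsg.Agent.Lib.Char.RealTab2
import Cfsg.Agent.Lib.Char.RealDeg
import Cfsg.Agent.Lib.Char.Kernel
import Cfsg.Agent.Lib.PGroups.Parts

set_option autoImplicit false
open Cfsg

namespace Cfsg.Agent.S4864

open Cfsg Cfsg.Agent.Lib.Char Cfsg.Agent.Lib.Char.RealDeg Cfsg.Agent.Lib.Char.RealTab

/-- Let p be a prime and G a finite group such that the subgroup generated by the p-elements of G is solvable and every real-valued irreducible complex character of G has degree prime to p. Then the normalizer of a Sylow p-subgroup of G contains an element of every real conjugacy class of G: every element conjugate to its inverse is conjugate to an element of that normalizer. -/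
theorem result {G : Type*} [Group G] [Finite G] (p : ℕ) [Fact p.Prime] (hsolv : Group.IsSolvable ↥(Subgroup.closure {g : G | ∃ k : ℕ, orderOf g = p ^ k})) (hreal : ∀ χ : Cfsg.IrrCharacter G, (∀ g : G, ((χ : G → ℂ) g).im = 0) → ¬ p ∣ Cfsg.charDegree (χ : G → ℂ)) (P : Sylow p G) (x : G) (hx : IsConj x x⁻¹) : ∃ y ∈ Subgroup.normalizer ((P : Subgroup G) : Set G), IsConj x y := by
  classical
  haveI : Fact (Nat.Prime 2) := ⟨Nat.prime_two⟩
  cases nonempty_fintype G
  let K : Subgroup G := elemClosure G 2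
  haveI hKn : K.Normal := elemClosure_normal (G := G) 2
  let T : Sylow p K := default
  let Q₀ : Subgroup G := (T : Subgroup K).map K.subtype
  have hQ₀K : Q₀ ≤ K := Subgroup.map_subtype_le _
  have hQ₀p : IsPGroup p Q₀ := T.isPGroup'.map K.subtype
  have hQ₀idx : ¬ p ∣ Q₀.relIndex K := by
    intro hd
    apply T.not_dvd_index
    have h1 : Q₀.relIndex K = (T : Subgroup K).index := by
      show ((T : Subgroup K).map K.subtype).relIndex K = _
      rw [Subgroup.relIndex, Subgroup.subgroupOf, Subgroup.comap_map_eq_self_of_injective Subtype.val_injective]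
    rwa [h1] at hd
  have hmain := @thmY p _ _ G _ _ rfl hsolv hreal K hKn
    (fun g hg => Subgroup.subset_closure hg) (fun u hu => ⟨0, by simpa using hu⟩)
    Q₀ hQ₀K hQ₀p hQ₀idx
  haveI hQ₀n : Q₀.Normal := by
    refine ⟨fun n hn g => ?_⟩
    apply hmain _ (hKn.conj_mem n (hQ₀K hn) g)
    have hp' := IsPGroup.iff_orderOf.mp hQ₀p ⟨n, hn⟩
    obtain ⟨k, hk⟩ := hp'
    refine ⟨k, ?_⟩
    have h1 : n ^ (p ^ k) = 1 := by
      have h2 : ((⟨n, hn⟩ : Q₀) ^ (p ^ k)) = 1 := by
        rw [← hk]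
        exact pow_orderOf_eq_one _
      exact congrArg Subtype.val h2
    rw [conj_pow, h1]
    simp
  have hQ₀P : Q₀ ≤ (P : Subgroup G) := hQ₀p.le_sylow_of_normal P
  let f : G →* G ⧸ Q₀ := QuotientGroup.mk' Q₀
  have hf : Function.Surjective f := QuotientGroup.mk'_surjective Q₀
  letI : Fintype (G ⧸ Q₀) := Fintype.ofFinite _
  let Kb : Subgroup (G ⧸ Q₀) := K.map f
  haveI hKbn : Kb.Normal := Subgroup.Normal.map hKn f hf
  letI : Fintype Kb := Fintype.ofFinite _
  have hcop : ¬ p ∣ Nat.card Kb := by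
    have h1 : f.ker.relIndex K = Nat.card (K.map f) := Subgroup.relIndex_ker K f
    rw [QuotientGroup.ker_mk'] at h1
    show ¬ p ∣ Nat.card (K.map f)
    rw [← h1]
    exact hQ₀idx
  have hodd : Odd Kb.index := by
    have h1 : Kb.index = K.index := Subgroup.index_map_eq K hf (by
      rw [QuotientGroup.ker_mk']
      exact hQ₀K)
    rw [h1]
    let S : Sylow 2 G := default
    have hSK : (S : Subgroup G) ≤ K := by
      intro s hs
      obtain ⟨k, hk⟩ := IsPGroup.iff_orderOf.mp S.isPGroup' ⟨s, hs⟩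
      apply Subgroup.subset_closure
      refine ⟨k, ?_⟩
      rw [← hk]
      exact (Subgroup.orderOf_mk s hs).symm
    rw [← Nat.not_even_iff_odd, even_iff_two_dvd]
    intro hd
    exact S.not_dvd_index (hd.trans (Subgroup.index_dvd_of_le hSK))
  have hrealb : ∀ χ : IrrCharacter (G ⧸ Q₀), (∀ g, ((χ : G ⧸ Q₀ → ℂ) g).im = 0) →
      ¬ p ∣ charDegree (χ : G ⧸ Q₀ → ℂ) := by
    intro χ hχ
    have h1 := hreal ⟨inflate Q₀ (χ : G ⧸ Q₀ → ℂ), isIrrCharacter_inflate Q₀ χ.2⟩ (fun g => hχ _)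
    exact h1
  have hxb : IsConj (f x) (f x)⁻¹ := by
    rw [← map_inv]
    exact f.map_isConj hx
  obtain ⟨gb, hgb⟩ := exists_conj_centralize Kb hcop hodd hrealb (P.mapSurjective hf) (f x) hxb
  obtain ⟨g, rfl⟩ := hf gb
  refine ⟨g * x * g⁻¹, ?_, isConj_iff.mpr ⟨g, rfl⟩⟩
  apply Cfsg.Agent.Lib.PGroups.mem_normalizer_of_conj_le'
  intro a ha
  have h1 := hgb (f a) ⟨a, ha, rfl⟩
  have h2 : f ((g * x * g⁻¹) * a * (g * x * g⁻¹)⁻¹ * a⁻¹) = 1 := by
    simp only [map_mul, map_inv]
    have h3 : f g * f x * (f g)⁻¹ * f a * (f g * f x * (f g)⁻¹)⁻¹ * (f a)⁻¹ =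
        (f g * f x * (f g)⁻¹ * f a) * ((f a) * (f g * f x * (f g)⁻¹))⁻¹ := by group
    rw [h3, h1]
    group
  have h4 : (g * x * g⁻¹) * a * (g * x * g⁻¹)⁻¹ * a⁻¹ ∈ Q₀ := by
    have := (QuotientGroup.eq_one_iff (N := Q₀) _).mp h2
    exact this
  have h5 := (P : Subgroup G).mul_mem (hQ₀P h4) ha
  simpa using h5

end Cfsg.Agent.S4864
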