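import Cfsg.Statements.S4870
import Cfsg.Agent.Lib.Char.CliffordBij
import Cfsg.Agent.Lib.Char.Gallagher
import Cfsg.Agent.Lib.Char.Chief
import Cfsg.Agent.Lib.Char.Degree

set_option autoImplicit false
open Cfsg

namespace Cfsg.Agent.S4870

open Cfsg.Agent.Lib.Char
open scoped ComplexConjugate commutatorElement

section

variable {G : Type*} [Group G] [Fintype G]

/-- There are at most `[G : H]` linear characters trivial on `H`. -/
theorem card_linear_trivial_le (H : Subgroup G) :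
    Nat.card {ν : Cfsg.IrrCharacter G // (ν : G → ℂ) 1 = 1 ∧ ∀ h ∈ H, (ν : G → ℂ) h = 1} ≤ H.index := by
  classical
  set T := {ν : Cfsg.IrrCharacter G // (ν : G → ℂ) 1 = 1 ∧ ∀ h ∈ H, (ν : G → ℂ) h = 1} with hT
  have hval : ∀ (ν : T) (g : G), (ν.1 : G → ℂ) ((QuotientGroup.mk g : G ⧸ H).out) = (ν.1 : G → ℂ) g := by
    intro ν g
    obtain ⟨lam, hlam⟩ := IsCharacter.exists_monoidHom (IsIrrCharacter.isCharacter ν.1.2) ν.2.1
    have h1 : g⁻¹ * (QuotientGroup.mk g : G ⧸ H).out ∈ H := by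
      rw [← QuotientGroup.eq]
      simp
    have h2 := ν.2.2 _ h1
    rw [hlam] at h2 ⊢
    simp only at h2 ⊢
    rw [map_mul, Units.val_mul, map_inv, Units.val_inv_eq_inv_val] at h2
    have h3 : ((lam g : ℂˣ) : ℂ) ≠ 0 := Units.ne_zero _
    field_simp at h2
    exact h2
  let L : (G ⧸ H → ℂ) →ₗ[ℂ] (G → ℂ) :=
    { toFun := fun f g => f (QuotientGroup.mk g)
      map_add' := fun _ _ => rfl
      map_smul' := fun _ _ => rfl }
  let f : T → (G ⧸ H → ℂ) := fun ν q => (ν.1 : G → ℂ) q.out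
  have hLf : LinearIndependent ℂ (L ∘ f) := by
    have h1 : L ∘ f = (fun χ : Cfsg.IrrCharacter G => (χ : G → ℂ)) ∘ (Subtype.val : T → Cfsg.IrrCharacter G) := by
      funext ν g
      exact hval ν g
    rw [h1]
    exact (linearIndependent_irr (G := G)).comp _ Subtype.val_injective
  have hf : LinearIndependent ℂ f := LinearIndependent.of_comp L hLf
  have h3 := hf.fintype_card_le_finrank
  rw [Module.finrank_fintype_fun_eq_card] at h3
  rw [Nat.card_eq_fintype_card, Subgroup.index_eq_card, Nat.card_eq_fintype_card]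
  exact h3

variable (N : Subgroup G) [hN : N.Normal] [Fintype N]

/-- A character extending an irreducible character of `N` is nonzero somewhere on each coset. -/
theorem exists_ne_zero_on_coset {I : Subgroup G} (hNI : N ≤ I) {ψ : I → ℂ} (hψ : Cfsg.IsCharacter I ψ)
    (hφ : Cfsg.IsIrrCharacter N (fun n : N => ψ ⟨n, hNI n.2⟩)) (x : I) :
    ∃ n ∈ N, ∃ hmem : n * (x : G) ∈ I, ψ ⟨n * x, hmem⟩ ≠ 0 := by
  classical
  haveI : Fintype I := Fintype.ofFinite _
  let N' : Subgroup I := N.subgroupOf I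
  haveI : N'.Normal := Subgroup.normal_subgroupOf
  haveI : Fintype N' := Fintype.ofFinite _
  let e : N' ≃* N := Subgroup.subgroupOfEquivOfLe hNI
  have hirr : Cfsg.IsIrrCharacter N' (resFun N' ψ) := by
    have h1 := isIrrCharacter_comp_mulEquiv e hφ
    have h2 : (fun n : N => ψ ⟨n, hNI n.2⟩) ∘ e = resFun N' ψ := by
      funext n
      rfl
    rwa [h2] at h1
  have hn := gallagher_norm N' hψ hirr x
  by_contra hcon
  push Not at hcon
  have h0 : ∑ n : N', ψ (n * x) * conj (ψ (n * x)) = 0 := by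
    refine Finset.sum_eq_zero fun n _ => ?_
    have h1 := hcon (n : I) n.2 (I.mul_mem (n : I).2 x.2)
    have h2 : ψ (n * x) = 0 := h1
    rw [h2, zero_mul]
  rw [h0] at hn
  have h3 : (Nat.card N' : ℂ) ≠ 0 := NeZero.ne _
  exact h3 hn.symm

end

/-- The counting statement, with predicates. -/
theorem count_bound {G : Type*} [Group G] [Fintype G] (N : Subgroup G) [hN : N.Normal] [Fintype N]
    (hN1 : N ≠ ⊥) (hmin : ∀ M : Subgroup G, M.Normal → M ≤ N → M = ⊥ ∨ M = N)
    (hna : ¬ IsMulCommutative ↥N) (φ : Cfsg.IrrCharacter ↥N) (I : Subgroup G) [Fintype I]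
    (hIeq : I = inertia N (φ : N → ℂ)) (hNI : N ≤ I) (ψ : Cfsg.IrrCharacter ↥I)
    (hψ : ∀ n : N, (ψ : ↥I → ℂ) ⟨n, hNI n.2⟩ = (φ : N → ℂ) n)
    (P Q : Cfsg.IrrCharacter G → Prop)
    (hPQ : ∀ (lam : Cfsg.IrrCharacter G) (hlam : Cfsg.IsIrrCharacter G (indFun I
        (fun i => (lam : G → ℂ) i * (ψ : ↥I → ℂ) i))), (lam : G → ℂ) 1 = 1 → P lam → Q ⟨_, hlam⟩) :
    Nat.card {χ : Cfsg.IrrCharacter G // Cfsg.charDegree (χ : G → ℂ) = 1 ∧ P χ} ≤
      I.index * Nat.card {χ : Cfsg.IrrCharacter G //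
        Cfsg.charDegree (χ : G → ℂ) = Cfsg.charDegree (φ : ↥N → ℂ) * I.index ∧ Q χ} := by
  classical
  -- linear characters are trivial on `N`
  have hperf : ⁅N, N⁆ = N := by
    rcases hmin ⁅N, N⁆ (Subgroup.commutator_normal N N) (Subgroup.commutator_le_self N) with h | h
    · exfalso
      apply hna
      refine ⟨⟨fun a b => Subtype.ext ?_⟩⟩
      have h1 : ⁅(a : G), (b : G)⁆ ∈ ⁅N, N⁆ := Subgroup.commutator_mem_commutator a.2 b.2
      rw [h, Subgroup.mem_bot, commutatorElement_eq_one_iff_mul_comm] at h1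
      exact h1
    · exact h
  have hlin : ∀ lam : Cfsg.IrrCharacter G, (lam : G → ℂ) 1 = 1 → ∀ n ∈ N, (lam : G → ℂ) n = 1 := by
    intro lam h1 n hn
    obtain ⟨l, hl⟩ := IsCharacter.exists_monoidHom (IsIrrCharacter.isCharacter lam.2) h1
    have h2 : ⁅N, N⁆ ≤ l.ker := by
      rw [Subgroup.commutator_le]
      intro x _ y _
      rw [MonoidHom.mem_ker, map_commutatorElement, commutatorElement_eq_one_iff_mul_comm]
      exact mul_comm _ _
    rw [hperf] at h2
    have h3 := h2 hn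
    rw [MonoidHom.mem_ker] at h3
    rw [hl]
    simp [h3]
  have hdeg1 : ∀ lam : Cfsg.IrrCharacter G, Cfsg.charDegree (lam : G → ℂ) = 1 → (lam : G → ℂ) 1 = 1 := by
    intro lam h
    rw [apply_one_eq_charDegree (IsIrrCharacter.isCharacter lam.2), h]
    simp
  -- the twisted character
  have hηc : ∀ lam : Cfsg.IrrCharacter G, Cfsg.IsCharacter I (fun i : I => (lam : G → ℂ) i) := fun lam =>
    IsCharacter.comp (IsIrrCharacter.isCharacter lam.2) I.subtype
  have hηirr : ∀ lam : Cfsg.IrrCharacter G, (lam : G → ℂ) 1 = 1 →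
      Cfsg.IsIrrCharacter I (fun i : I => (lam : G → ℂ) i * (ψ : I → ℂ) i) := fun lam h1 =>
    isIrrCharacter_lin_mul (hηc lam) h1 ψ.2
  have hηres : ∀ lam : Cfsg.IrrCharacter G, (lam : G → ℂ) 1 = 1 →
      resTo N hNI (fun i : I => (lam : G → ℂ) i * (ψ : I → ℂ) i) = (φ : N → ℂ) := by
    intro lam h1
    funext n
    simp only [resTo]
    rw [hlin lam h1 n n.2, one_mul]
    exact hψ n
  have hover : ∀ lam : Cfsg.IrrCharacter G, (lam : G → ℂ) 1 = 1 →
      Cfsg.classInner (resTo N hNI (fun i : I => (lam : G → ℂ) i * (ψ : I → ℂ) i)) (φ : N → ℂ) ≠ 0 := by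
    intro lam h1
    rw [hηres lam h1, classInner_irr_self φ.2]
    exact one_ne_zero
  have hindirr : ∀ lam : Cfsg.IrrCharacter G, (lam : G → ℂ) 1 = 1 →
      Cfsg.IsIrrCharacter G (indFun I (fun i : I => (lam : G → ℂ) i * (ψ : I → ℂ) i)) := by
    intro lam h1
    subst hIeq
    exact isIrrCharacter_indFun_over φ.2 (hηirr lam h1) (hover lam h1)
  have hdeg : ∀ lam : Cfsg.IrrCharacter G, (lam : G → ℂ) 1 = 1 →
      Cfsg.charDegree (indFun I (fun i : I => (lam : G → ℂ) i * (ψ : I → ℂ) i)) =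
        Cfsg.charDegree (φ : ↥N → ℂ) * I.index := by
    intro lam h1
    rw [charDegree_indFun (IsIrrCharacter.isCharacter (hηirr lam h1)), mul_comm]
    congr 1
    have h2 : (fun i : I => (lam : G → ℂ) i * (ψ : I → ℂ) i) 1 = (φ : N → ℂ) 1 := congrFun (hηres lam h1) 1
    unfold Cfsg.charDegree
    rw [h2]
  -- the map
  set A := {χ : Cfsg.IrrCharacter G // Cfsg.charDegree (χ : G → ℂ) = 1 ∧ P χ} with hA
  set B := {χ : Cfsg.IrrCharacter G // Cfsg.charDegree (χ : G → ℂ) = Cfsg.charDegree (φ : ↥N → ℂ) * I.index ∧ Q χ} with hB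
  let Φ : A → B := fun a => ⟨⟨_, hindirr a.1 (hdeg1 a.1 a.2.1)⟩, hdeg a.1 (hdeg1 a.1 a.2.1),
    hPQ a.1 _ (hdeg1 a.1 a.2.1) a.2.2⟩
  haveI : Fintype A := Fintype.ofFinite _
  haveI : Fintype B := Fintype.ofFinite _
  rw [Nat.card_eq_fintype_card, Nat.card_eq_fintype_card]
  have hfib : ∀ b ∈ (Finset.univ : Finset A).image Φ, ((Finset.univ : Finset A).filter fun x => Φ x = b).card ≤ I.index := by
    intro b hb
    obtain ⟨a₀, -, rfl⟩ := Finset.mem_image.mp hb
    have ha₀ := hdeg1 a₀.1 a₀.2.1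
    obtain ⟨l₀, hl₀⟩ := IsCharacter.exists_monoidHom (IsIrrCharacter.isCharacter a₀.1.2) ha₀
    have hl₀c : IsCharacter G (fun g => conj ((a₀.1 : G → ℂ) g)) := IsCharacter.conj (IsIrrCharacter.isCharacter a₀.1.2)
    have hconj1 : ∀ g, (a₀.1 : G → ℂ) g * conj ((a₀.1 : G → ℂ) g) = 1 := by
      intro g
      rw [hl₀]
      have h1 : ((l₀ g : ℂˣ) : ℂ) ^ orderOf g = 1 := by
        rw [← Units.val_pow_eq_pow_val, ← map_pow, pow_orderOf_eq_one, map_one, Units.val_one]
      have h2 := Complex.norm_eq_one_of_pow_eq_one h1 (orderOf_pos g).ne'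
      rw [Complex.mul_conj, Complex.normSq_eq_norm_sq, h2]
      simp
    have hkey : ∀ a : A, Φ a = Φ a₀ → ∀ x : I, (a.1 : G → ℂ) x = (a₀.1 : G → ℂ) x := by
      intro a ha x
      have h1 := congrArg (fun b : B => ((b.1 : Cfsg.IrrCharacter G) : G → ℂ)) ha
      have h2 : (fun i : I => (a.1 : G → ℂ) i * (ψ : I → ℂ) i) = (fun i : I => (a₀.1 : G → ℂ) i * (ψ : I → ℂ) i) := by
        have h2a := hηirr a.1 (hdeg1 a.1 a.2.1)
        have h2b := hηirr a₀.1 ha₀
        have h2c := hover a.1 (hdeg1 a.1 a.2.1)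
        have h2d := hover a₀.1 ha₀
        subst hIeq
        exact eq_of_indFun_eq_over φ.2 h2a h2b h2c h2d h1
      have hφirr : Cfsg.IsIrrCharacter N (fun n : N => (ψ : I → ℂ) ⟨n, hNI n.2⟩) := by
        have : (fun n : N => (ψ : I → ℂ) ⟨n, hNI n.2⟩) = (φ : N → ℂ) := funext hψ
        rw [this]
        exact φ.2
      obtain ⟨n, hn, hmem, hne⟩ := exists_ne_zero_on_coset N hNI (IsIrrCharacter.isCharacter ψ.2) hφirr x
      have h3 := congrFun h2 ⟨n * x, hmem⟩
      simp only at h3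
      have h4 := mul_right_cancel₀ hne h3
      obtain ⟨l, hl⟩ := IsCharacter.exists_monoidHom (IsIrrCharacter.isCharacter a.1.2) (hdeg1 a.1 a.2.1)
      have h5 : (a.1 : G → ℂ) (n * x) = (a.1 : G → ℂ) x := by
        have h6 := hlin a.1 (hdeg1 a.1 a.2.1) n hn
        rw [hl] at h6 ⊢
        simp only at h6 ⊢
        rw [map_mul, Units.val_mul, h6, one_mul]
      have h7 : (a₀.1 : G → ℂ) (n * x) = (a₀.1 : G → ℂ) x := by
        have h6 := hlin a₀.1 ha₀ n hn
        rw [hl₀] at h6 ⊢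
        simp only at h6 ⊢
        rw [map_mul, Units.val_mul, h6, one_mul]
      rw [← h5, ← h7]
      exact h4
    -- inject the fibre
    let ι : {x : A // Φ x = Φ a₀} → {ν : Cfsg.IrrCharacter G // (ν : G → ℂ) 1 = 1 ∧ ∀ h ∈ I, (ν : G → ℂ) h = 1} :=
      fun a => ⟨⟨fun g => conj ((a₀.1 : G → ℂ) g) * (a.1.1 : G → ℂ) g,
          isIrrCharacter_lin_mul hl₀c (by simp [ha₀]) a.1.1.2⟩, by
          simp [ha₀, hdeg1 a.1.1 a.1.2.1], by
          intro h hh
          have h1 := hkey a.1 a.2 ⟨h, hh⟩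
          simp only at h1 ⊢
          rw [h1, mul_comm]
          exact hconj1 h⟩
    have hι : Function.Injective ι := by
      intro a a' h
      apply Subtype.ext
      apply Subtype.ext
      apply Subtype.ext
      funext g
      have h1 := congrArg (fun ν : {ν : Cfsg.IrrCharacter G // (ν : G → ℂ) 1 = 1 ∧ ∀ h ∈ I, (ν : G → ℂ) h = 1} =>
        (ν.1 : G → ℂ) g) h
      simp only [ι] at h1
      have h2 : conj ((a₀.1 : G → ℂ) g) ≠ 0 := by
        intro h0
        have := hconj1 g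
        rw [h0, mul_zero] at this
        exact zero_ne_one this
      exact mul_left_cancel₀ h2 h1
    have h3 := Nat.card_le_card_of_injective ι hι
    have h4 := card_linear_trivial_le I
    have h5 : ((Finset.univ : Finset A).filter fun x => Φ x = Φ a₀).card = Nat.card {x : A // Φ x = Φ a₀} := by
      rw [Nat.card_eq_fintype_card, Fintype.card_subtype]
    rw [h5]
    exact h3.trans h4
  have h1 := Finset.card_le_mul_card_image (Finset.univ : Finset A) I.index hfib
  rw [Finset.card_univ] at h1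
  refine h1.trans (Nat.mul_le_mul_left _ ?_)
  exact Finset.card_le_univ _

/-- Let G be a finite group with a non-abelian minimal normal subgroup N, and let φ be an irreducible complex character of N with stabilizer I in G (the elements g with φ(g n g⁻¹) = φ(n) for all n ∈ N) such that φ extends to an irreducible character of I. Put d = φ(1)·[G : I]. Then the number of linear characters of G is at most [G : I] times the number of irreducible characters of G of degree d. -/
theorem result {G : Type*} [Group G] [Finite G] (N : Subgroup G) (hN : N.Normal) (hN1 : N ≠ ⊥) (hmin : ∀ M : Subgroup G, M.Normal → M ≤ N → M = ⊥ ∨ M = N) (hna : ¬ IsMulCommutative ↥N) (φ : Cfsg.IrrCharacter ↥N) (I : Subgroup G) (hI : ∀ g : G, g ∈ I ↔ ∀ n n' : ↥N, (n' : G) = g * (n : G) * g⁻¹ → (φ : ↥N → ℂ) n' = (φ : ↥N → ℂ) n) (hNI : N ≤ I) (hext : ∃ ψ : Cfsg.IrrCharacter ↥I, ∀ n : ↥N, (ψ : ↥I → ℂ) (Subgroup.inclusion hNI n) = (φ : ↥N → ℂ) n) : Nat.card {χ : Cfsg.IrrCharacter G //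 Cfsg.charDegree (χ : G → ℂ) = 1} ≤ I.index * Nat.card {χ : Cfsg.IrrCharacter G // Cfsg.charDegree (χ : G → ℂ) = Cfsg.charDegree (φ : ↥N → ℂ) * I.index} := by
  classical
  cases nonempty_fintype G
  haveI : N.Normal := hN
  -- `I` is the inertia group
  have hIeq : I = inertia N (φ : N → ℂ) := by
    ext g
    rw [hI, mem_inertia]
    constructor
    · intro h
      funext n
      have h2 : (n : G) = g * (g⁻¹ * (n : G) * g) * g⁻¹ := by group
      have h3 := h ⟨g⁻¹ * n * g, hN.conj_mem' n n.2 g⟩ n h2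
      rw [conjFun_apply]
      exact h3.symm
    · intro h n n' hn'
      have h1 := congrFun h n'
      rw [conjFun_apply] at h1
      have h9 : (⟨g⁻¹ * n' * g, hN.conj_mem' n' n'.2 g⟩ : N) = n := by
        apply Subtype.ext
        simp only [hn']
        group
      rw [← h1, h9]
  obtain ⟨ψ, hψ⟩ := hext
  haveI : Fintype N := Fintype.ofFinite _
  haveI : Fintype I := Fintype.ofFinite _
  have h := count_bound N hN1 hmin hna φ I hIeq hNI ψ hψ (fun _ => True) (fun _ => True) (fun _ _ _ _ => trivial)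
  simp only [and_true] at h
  exact h

end Cfsg.Agent.S4870
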