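import Cfsg.Statements.S4872
import Cfsg.Agent.Lib.Char.FSSub
import Cfsg.Agent.Lib.Char.DefectZero
import Cfsg.Agent.Lib.Char.Triple

set_option autoImplicit false
open Cfsg

namespace Cfsg.Agent.S4872

open Cfsg Cfsg.Agent.Lib.Char
open scoped ComplexConjugate

/-- The main computation: `⟨(φ^G)_Q, 1⟩ = φ(1)/2^a` for a Sylow `2`-subgroup `Q`. -/
theorem inner_ind_sylow {G : Type*} [Group G] [Fintype G] (N : Subgroup G) [hN : N.Normal] [Fintype N]
    (h2 : IsPGroup 2 (G ⧸ N)) {φ₀ : N → ℂ} (hφ : IsIrrCharacter N φ₀)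
    (hdef : 2 ^ (Nat.card ↥N).factorization 2 ∣ charDegree φ₀)
    (Q : Subgroup G) [Fintype Q] (hQ : IsPGroup 2 Q) (hQc : Nat.card Q = 2 ^ (Nat.card G).factorization 2) :
    ∃ d : ℕ, Odd d ∧ classInner (fun q : Q => indFun N φ₀ q) (fun _ => 1) = (d : ℂ) := by
  classical
  haveI : Fact (Nat.Prime 2) := ⟨Nat.prime_two⟩
  obtain ⟨d, hd⟩ := hdef
  have hN0 : Nat.card N ≠ 0 := Nat.card_pos.ne'
  have hdodd : Odd d := by
    have h1 : charDegree φ₀ ∣ Nat.card N := charDegree_dvd_card hφ
    have h3 : 2 ^ (Nat.card ↥N).factorization 2 * d ∣ 2 ^ (Nat.card ↥N).factorization 2 * (Nat.card N / 2 ^ (Nat.card ↥N).factorization 2) := by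
      rw [Nat.ordProj_mul_ordCompl_eq_self, ← hd]
      exact h1
    have h4 := Nat.dvd_of_mul_dvd_mul_left (by positivity) h3
    have h5 : ¬ 2 ∣ (Nat.card N / 2 ^ (Nat.card ↥N).factorization 2) := Nat.not_dvd_ordCompl Nat.prime_two hN0
    rw [← Nat.not_even_iff_odd]
    intro he
    exact h5 (he.two_dvd.trans h4)
  refine ⟨d, hdodd, ?_⟩
  have hval : ∀ q : Q, q ≠ 1 → indFun N φ₀ (q : G) = 0 := by
    intro q hq
    rw [indFun_apply]
    apply mul_eq_zero_of_right
    apply Finset.sum_eq_zero
    intro x _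
    by_cases hm : x⁻¹ * (q : G) * x ∈ N
    · rw [extendByZero_of_mem N φ₀ hm]
      apply apply_eq_zero_of_defect_zero hφ Nat.prime_two ⟨d, hd⟩
      have h1 : orderOf (⟨x⁻¹ * (q : G) * x, hm⟩ : N) = orderOf q := by
        rw [Subgroup.orderOf_mk]
        have : x⁻¹ * (q : G) * x = x⁻¹ * (q : G) * x⁻¹⁻¹ := by simp
        have h0 : orderOf ((MulAut.conj x⁻¹).toMonoidHom (q : G)) = orderOf (q : G) :=
          orderOf_injective _ (MulEquiv.injective _) _
        rw [this, ← Subgroup.orderOf_coe q, ← h0]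
        rfl
      rw [h1]
      obtain ⟨k, hk⟩ := hQ q
      obtain ⟨j, -, hj⟩ := (Nat.dvd_prime_pow Nat.prime_two).1 (orderOf_dvd_of_pow_eq_one hk)
      rcases j with _ | j
      · rw [pow_zero, orderOf_eq_one_iff] at hj
        exact absurd hj hq
      · rw [hj, pow_succ]
        exact Nat.dvd_mul_left _ _
    · exact extendByZero_of_notMem N φ₀ hm
  simp only [classInner, map_one, mul_one]
  rw [Finset.sum_eq_single (1 : Q)]
  · rw [OneMemClass.coe_one, indFun_one]
    have hdeg : φ₀ 1 = (charDegree φ₀ : ℂ) := apply_one_eq_charDegree (IsIrrCharacter.isCharacter hφ)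
    obtain ⟨k, hk⟩ := (IsPGroup.iff_card).1 h2
    have hidx : N.index = 2 ^ k := by
      rw [Subgroup.index]
      exact hk
    have hG : Nat.card G = Nat.card N * 2 ^ k := by
      rw [← hidx, Subgroup.card_mul_index]
    have hfac : (Nat.card G).factorization 2 = (Nat.card N).factorization 2 + k := by
      rw [hG, Nat.factorization_mul hN0 (by positivity), Nat.factorization_pow]
      simp [Nat.Prime.factorization Nat.prime_two]
    rw [hQc, hfac, hdeg, hd, hidx, pow_add]
    push_cast
    field_simp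
  · intro q _ hq
    rw [hval q hq]
  · simp

/-- Let N be a normal subgroup of the finite group G with G/N a 2-group, and let φ be an irreducible complex character of N of 2-defect zero (the 2-part of #N divides φ(1)) whose complex conjugate is G-conjugate to φ. Then some irreducible character of G with Frobenius–Schur indicator +1 contains φ with multiplicity exactly one on restriction to N. -/
theorem result {G : Type*} [Group G] [Finite G] (N : Subgroup G) [N.Normal] (h2 : IsPGroup 2 (G ⧸ N)) (φ : Cfsg.IrrCharacter ↥N) (hdef : 2 ^ (Nat.card ↥N).factorization 2 ∣ Cfsg.charDegree (φ : ↥N → ℂ)) (hconj : ∃ g : G, ∀ n n' : ↥N, (n' : G) = g * (n : G) * g⁻¹ → (φ : ↥N → ℂ) n' = (starRingEnd ℂ) ((φ : ↥N → ℂ) n)) : ∃ χ : Cfsg.IrrCharacter G, (Nat.card G : ℂ)⁻¹ * ∑ᶠ g : G, (χ : G → ℂ) (g * g) = 1 ∧ (Nat.card ↥N : ℂ)⁻¹ * ∑ᶠ n : ↥N, (χ : G → ℂ) n * (starRingEnd ℂ) ((φ : ↥N → ℂ) n) = 1 := by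
  classical
  cases nonempty_fintype G
  letI : Fintype N := Fintype.ofFinite _
  haveI : Fact (Nat.Prime 2) := ⟨Nat.prime_two⟩
  let Q : Sylow 2 G := default
  letI : Fintype (Q : Subgroup G) := Fintype.ofFinite _
  set φ₀ : N → ℂ := (φ : N → ℂ) with hφ₀
  have hφ : IsIrrCharacter N φ₀ := φ.2
  have hφc := IsIrrCharacter.isCharacter hφ
  have hQc : Nat.card (Q : Subgroup G) = 2 ^ (Nat.card G).factorization 2 := Sylow.card_eq_multiplicity Q
  obtain ⟨d, hdodd, hd⟩ := inner_ind_sylow N h2 hφ hdef (Q : Subgroup G) Q.isPGroup' hQc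
  -- multiplicities
  have he : ∀ χ : IrrCharacter G, ∃ e : ℕ, classInner (resFun N (χ : G → ℂ)) φ₀ = e :=
    fun χ => exists_multiplicity N (IsIrrCharacter.isCharacter χ.2) hφ
  have ha : ∀ χ : IrrCharacter G, ∃ a : ℕ, classInner (fun q : (Q : Subgroup G) => (χ : G → ℂ) q) (fun _ => 1) = a :=
    fun χ => IsCharacter.classInner_irr_eq_nat (isCharacter_resFun (Q : Subgroup G) (IsIrrCharacter.isCharacter χ.2)) isIrrCharacter_one
  choose eN heN using he
  choose aN haN using ha
  -- the sum formula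
  have hsum : (d : ℂ) = ∑ χ : IrrCharacter G, ((eN χ * aN χ : ℕ) : ℂ) := by
    rw [← hd]
    have h1 := classFunction_eq_sum (indFun N φ₀) (isClassFunction_indFun N φ₀)
    have h2 : (fun q : (Q : Subgroup G) => indFun N φ₀ q) =
        ∑ χ : IrrCharacter G, classInner (indFun N φ₀) (χ : G → ℂ) • (fun q : (Q : Subgroup G) => (χ : G → ℂ) q) := by
      funext q
      have h3 := congrFun h1 (q : G)
      simpa [Finset.sum_apply] using h3
    rw [h2, classInner_sum_left]
    refine Finset.sum_congr rfl fun χ _ => ?_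
    rw [classInner_smul_left, haN, classInner_indFun_left N φ₀ _ (IsCharacter.isClassFunction (IsIrrCharacter.isCharacter χ.2))]
    rw [classInner_conj_symm]
    have h4 := heN χ
    rw [h4, map_natCast]
    push_cast
    rfl
  have hsumN : d = ∑ χ : IrrCharacter G, eN χ * aN χ := by
    have : (d : ℂ) = ((∑ χ : IrrCharacter G, eN χ * aN χ : ℕ) : ℂ) := by
      rw [hsum]
      push_cast
      rfl
    exact_mod_cast this
  -- the conjugation involution
  let cI : IrrCharacter G → IrrCharacter G := fun χ => ⟨fun g => conj ((χ : G → ℂ) g), IsIrrCharacter.conj χ.2⟩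
  have hcI2 : ∀ χ, cI (cI χ) = χ := by
    intro χ
    apply Subtype.ext
    funext g
    simp [cI]
  have hacI : ∀ χ, aN (cI χ) = aN χ := by
    intro χ
    have h1 := haN (cI χ)
    have h2 : classInner (fun q : (Q : Subgroup G) => ((cI χ : IrrCharacter G) : G → ℂ) q) (fun _ => 1)
        = conj (classInner (fun q : (Q : Subgroup G) => (χ : G → ℂ) q) (fun _ => 1)) := by
      simp [classInner, cI, map_sum]
    rw [h2, haN, map_natCast] at h1
    exact_mod_cast h1.symm
  have hecI : ∀ χ, eN (cI χ) = eN χ := by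
    intro χ
    obtain ⟨g, hg⟩ := hconj
    have h1 := heN (cI χ)
    have h2 : classInner (resFun N ((cI χ : IrrCharacter G) : G → ℂ)) φ₀ = conj (classInner (resFun N (χ : G → ℂ)) φ₀) := by
      simp only [classInner, cI, map_mul, map_inv₀, map_natCast, map_sum, Complex.conj_conj]
      congr 1
      let e : N ≃ N := (MulAut.conjNormal (H := N) g).toEquiv
      rw [← Equiv.sum_comp e]
      refine Finset.sum_congr rfl fun n _ => ?_
      have h3 : ((e n : N) : G) = g * n * g⁻¹ := by
        simp [e, MulAut.conjNormal_apply]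
      have h4 := hg n (e n) h3
      have h5 : (χ : G → ℂ) (e n : N) = (χ : G → ℂ) n := by
        rw [h3]
        have := IsCharacter.isClassFunction (IsIrrCharacter.isCharacter χ.2) (n : G) g
        simpa using this
      change conj ((χ : G → ℂ) (e n : N)) * conj (φ₀ (e n)) = conj ((χ : G → ℂ) n) * φ₀ n
      rw [h5, h4, Complex.conj_conj]
    rw [h2, heN, map_natCast] at h1
    exact_mod_cast h1.symm
  -- existence of a real constituent with odd product
  have hex : ∃ χ : IrrCharacter G, cI χ = χ ∧ Odd (eN χ * aN χ) := by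
    by_contra hcon
    push Not at hcon
    have hz : (∑ χ : IrrCharacter G, ((eN χ * aN χ : ℕ) : ZMod 2)) = 0 := by
      apply Finset.sum_involution (fun χ _ => cI χ)
      · intro χ _
        rw [hecI, hacI]
        exact CharTwo.add_self_eq_zero _
      · intro χ _ h0 hfix
        apply h0
        have h3 := Nat.not_odd_iff_even.mp (hcon χ hfix)
        exact (ZMod.natCast_eq_zero_iff_even).mpr h3
      · intro _ _
        exact Finset.mem_univ _
      · intro χ _
        exact hcI2 χ
    have h3 : ((d : ℕ) : ZMod 2) = 0 := by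
      rw [hsumN]
      push_cast
      push_cast at hz
      exact hz
    exact (Nat.not_even_iff_odd.mpr hdodd) ((ZMod.natCast_eq_zero_iff_even).mp h3)
  obtain ⟨χ, hreal, hodd⟩ := hex
  have heodd : Odd (eN χ) := (Nat.odd_mul.mp hodd).1
  have haodd : Odd (aN χ) := (Nat.odd_mul.mp hodd).2
  have hχ : IsIrrCharacter G (χ : G → ℂ) := χ.2
  have him : ∀ g, ((χ : G → ℂ) g).im = 0 := by
    intro g
    have h1 : conj ((χ : G → ℂ) g) = (χ : G → ℂ) g := congrFun (congrArg Subtype.val hreal) g
    exact Complex.conj_eq_iff_im.mp h1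
  have hν : fsInd (χ : G → ℂ) = 1 := by
    rcases fsInd_trichotomy hχ with h0 | h1 | hm
    · obtain ⟨s, hs⟩ := (fsInd_eq_zero_iff hχ).mp h0
      exact absurd (him s) hs
    · exact h1
    · exfalso
      obtain ⟨k, hk⟩ := even_classInner_res_of_fsInd_eq_neg_one hχ hm (Q : Subgroup G)
      rw [haN] at hk
      have h3 : aN χ = 2 * k := by exact_mod_cast hk
      rw [h3] at haodd
      exact (Nat.not_even_iff_odd.mpr haodd) (even_two_mul k)
  -- multiplicity one
  have he1 : eN χ = 1 := by
    have hne : classInner (resFun N (χ : G → ℂ)) φ₀ ≠ 0 := by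
      rw [heN]
      exact_mod_cast (heodd.pos).ne'
    have hc := apply_one_eq_charDegree (IsIrrCharacter.isCharacter hχ)
    have ht := apply_one_eq_charDegree hφc
    have h1 := clifford_degree_nat N hχ hφ hne hc ht (heN χ)
    obtain ⟨-, h3⟩ := Triple.degree_ratio N hχ hφ hne hc ht
    have htpos : 0 < charDegree φ₀ := charDegree_pos hφ
    have h4 : charDegree (χ : G → ℂ) / charDegree φ₀ = eN χ * (inertia N φ₀).index := by
      rw [h1, Nat.mul_div_cancel _ htpos]
    rw [h4] at h3
    have h5 : eN χ ∣ N.index := (Nat.dvd_mul_right _ _).trans h3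
    obtain ⟨k, hk⟩ := (IsPGroup.iff_card).1 h2
    have hidx : N.index = 2 ^ k := by
      rw [Subgroup.index]
      exact hk
    rw [hidx] at h5
    obtain ⟨j, -, hj⟩ := (Nat.dvd_prime_pow Nat.prime_two).1 h5
    rcases j with _ | j
    · simpa using hj
    · rw [hj, pow_succ] at heodd
      exact absurd (Even.mul_left even_two _) (Nat.not_even_iff_odd.mpr heodd)
  refine ⟨χ, ?_, ?_⟩
  · rw [finsum_eq_sum_of_fintype]
    exact hν
  · rw [finsum_eq_sum_of_fintype]
    have h1 := heN χ
    rw [he1] at h1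
    simpa [classInner] using h1

end Cfsg.Agent.S4872
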