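import Cfsg.Statements.S4871
import Cfsg.Agent.S4872
import Cfsg.Agent.Lib.Char.Proj
import Cfsg.Agent.Lib.Char.Linear
import Cfsg.Agent.Lib.Char.CliffordBij
import Cfsg.Agent.Lib.Char.CliffordCorr

set_option autoImplicit false
open Cfsg

namespace Cfsg.Agent.S4871

open Cfsg Cfsg.Agent.Lib.Char
open scoped ComplexConjugate

/-- A central involution of `P` inverts `N`. -/
theorem exists_inverting {G : Type*} [Group G] [Finite G] (N P : Subgroup G) (hN : N.Normal)
    (hcomm : ∀ a ∈ N, ∀ b ∈ N, a * b = b * a) (hP : IsPGroup 2 ↥P) (hP1 : P ≠ ⊥) (hdisj : N ⊓ P = ⊥)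
    (hprod : N ⊔ P = ⊤)
    (hmin : N ≠ ⊥ ∧ ∀ M : Subgroup G, M.Normal → M ≠ ⊥ → N ≤ M) :
    ∃ z : G, ∀ n ∈ N, z * n * z⁻¹ = n⁻¹ := by
  classical
  haveI : Fact (Nat.Prime 2) := ⟨Nat.prime_two⟩
  haveI : Nontrivial P := (Subgroup.nontrivial_iff_ne_bot P).2 hP1
  haveI := hP.center_nontrivial
  obtain ⟨w, hw⟩ : ∃ w : Subgroup.center P, orderOf w = 2 := by
    apply exists_prime_orderOf_dvd_card'
    obtain ⟨k, hk⟩ := (IsPGroup.iff_card).1 (hP.to_subgroup (Subgroup.center P))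
    rcases k with _ | k
    · have := Finite.one_lt_card (α := Subgroup.center P)
      rw [hk] at this
      simp at this
    · rw [hk, pow_succ]
      exact Nat.dvd_mul_left _ _
  let z : G := ((w : P) : G)
  have hzP : z ∈ P := (w : P).2
  have hz2 : z * z = 1 := by
    have h1 : w ^ 2 = 1 := by rw [← hw]; exact pow_orderOf_eq_one w
    have h2 := congrArg (fun x : Subgroup.center P => ((x : P) : G)) h1
    simpa [z, pow_two] using h2
  have hz1 : z ≠ 1 := by
    intro h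
    have h1 : w = 1 := by
      apply Subtype.ext
      apply Subtype.ext
      exact h
    rw [h1, orderOf_one] at hw
    omega
  have hzc : ∀ p ∈ P, z * p = p * z := by
    intro p hp
    have h1 := (Subgroup.mem_center_iff.1 w.2) ⟨p, hp⟩
    have h2 := congrArg (fun x : P => (x : G)) h1
    exact h2.symm
  have hdec : ∀ g : G, ∃ n ∈ N, ∃ p ∈ P, n * p = g := by
    intro g
    have h1 : g ∈ ((N ⊔ P : Subgroup G) : Set G) := by
      rw [hprod]
      trivial
    rw [Subgroup.normal_mul] at h1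
    obtain ⟨n, hn, p, hp, h2⟩ := Set.mem_mul.1 h1
    exact ⟨n, hn, p, hp, h2⟩
  -- the fixed points of `z`
  let C : Subgroup G := N ⊓ Subgroup.centralizer {z}
  have hmemC : ∀ c, c ∈ C ↔ c ∈ N ∧ z * c = c * z := by
    intro c
    simp [C, Subgroup.mem_inf, Subgroup.mem_centralizer_iff]
  have hCn : C.Normal := ⟨by
    intro c hc g
    obtain ⟨n, hn, p, hp, rfl⟩ := hdec g
    obtain ⟨hc1, hc2⟩ := (hmemC c).1 hc
    have h3 : p * c * p⁻¹ ∈ N := hN.conj_mem c hc1 p
    have h4 : n * p * c * (n * p)⁻¹ = p * c * p⁻¹ := by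
      have := hcomm n hn _ h3
      calc n * p * c * (n * p)⁻¹ = (n * (p * c * p⁻¹)) * n⁻¹ := by group
        _ = ((p * c * p⁻¹) * n) * n⁻¹ := by rw [this]
        _ = p * c * p⁻¹ := by group
    rw [h4, hmemC]
    refine ⟨h3, ?_⟩
    have h5 : z * p⁻¹ = p⁻¹ * z := by
      have := hzc p⁻¹ (P.inv_mem hp)
      exact this
    calc z * (p * c * p⁻¹) = (z * p) * c * p⁻¹ := by group
      _ = p * (z * c) * p⁻¹ := by rw [hzc p hp]; group
      _ = p * c * (z * p⁻¹) := by rw [hc2]; group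
      _ = p * c * p⁻¹ * z := by rw [h5]; group⟩
  have hC : C = ⊥ := by
    by_contra hne
    have hNC := hmin.2 C hCn hne
    have hzN : ∀ n ∈ N, z * n = n * z := fun n hn => ((hmemC n).1 (hNC hn)).2
    let D : Subgroup G := P ⊓ Subgroup.centralizer (N : Set G)
    have hmemD : ∀ d, d ∈ D ↔ d ∈ P ∧ ∀ n ∈ N, n * d = d * n := by
      intro d
      simp [D, Subgroup.mem_inf, Subgroup.mem_centralizer_iff]
    have hDn : D.Normal := ⟨by
      intro d hd g
      obtain ⟨n, hn, p, hp, rfl⟩ := hdec g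
      obtain ⟨hd1, hd2⟩ := (hmemD d).1 hd
      have h3 : ∀ m ∈ N, m * (p * d * p⁻¹) = (p * d * p⁻¹) * m := by
        intro m hm
        have h6 : p⁻¹ * m * p ∈ N := by
          have := hN.conj_mem m hm p⁻¹
          simpa using this
        have h7 := hd2 _ h6
        calc m * (p * d * p⁻¹) = p * ((p⁻¹ * m * p) * d) * p⁻¹ := by group
          _ = p * (d * (p⁻¹ * m * p)) * p⁻¹ := by rw [h7]
          _ = (p * d * p⁻¹) * m := by group
      have h4 : n * p * d * (n * p)⁻¹ = p * d * p⁻¹ := by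
        have := h3 n hn
        calc n * p * d * (n * p)⁻¹ = (n * (p * d * p⁻¹)) * n⁻¹ := by group
          _ = ((p * d * p⁻¹) * n) * n⁻¹ := by rw [this]
          _ = p * d * p⁻¹ := by group
      rw [h4, hmemD]
      exact ⟨P.mul_mem (P.mul_mem hp hd1) (P.inv_mem hp), h3⟩⟩
    have hDne : D ≠ ⊥ := by
      intro h
      have : z ∈ D := (hmemD z).2 ⟨hzP, fun n hn => (hzN n hn).symm⟩
      rw [h, Subgroup.mem_bot] at this
      exact hz1 this
    have hND := hmin.2 D hDn hDne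
    apply hmin.1
    rw [eq_bot_iff, ← hdisj]
    intro n hn
    exact ⟨hn, ((hmemD n).1 (hND hn)).1⟩
  refine ⟨z, fun n hn => ?_⟩
  have hzinv : z⁻¹ = z := by
    rw [inv_eq_iff_mul_eq_one]
    exact hz2
  have h1 : z * n * z⁻¹ ∈ N := hN.conj_mem n hn z
  have h2 : n * (z * n * z⁻¹) ∈ C := by
    rw [hmemC]
    refine ⟨N.mul_mem hn h1, ?_⟩
    have h3 := hcomm n hn _ h1
    set k := z * n * z⁻¹ with hk
    have h4 : k * z = z * n := by rw [hk]; group
    have h5 : z * k = n * z := by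
      rw [hk, hzinv]
      calc z * (z * n * z) = (z * z) * n * z := by group
        _ = n * z := by rw [hz2, one_mul]
    calc z * (n * k) = (z * n) * k := by group
      _ = (k * z) * k := by rw [h4]
      _ = k * (z * k) := by group
      _ = k * (n * z) := by rw [h5]
      _ = (k * n) * z := by group
      _ = (n * k) * z := by rw [h3]
  rw [hC, Subgroup.mem_bot] at h2
  exact eq_inv_of_mul_eq_one_right h2

/-- Irreducible characters of a fibre: they agree on `T`, so there are at most `|G:T|`. -/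
theorem card_le_index_of_agree {G : Type*} [Group G] [Fintype G] (T : Subgroup G) (F : Finset (IrrCharacter G))
    (hhom : ∀ β ∈ F, ∀ g h, (β : G → ℂ) (g * h) = (β : G → ℂ) g * (β : G → ℂ) h)
    (hsq : ∀ β ∈ F, ∀ g, (β : G → ℂ) g * (β : G → ℂ) g = 1)
    (hagree : ∀ β ∈ F, ∀ β' ∈ F, ∀ t ∈ T, (β : G → ℂ) t = (β' : G → ℂ) t) : F.card ≤ T.index := by
  classical
  rcases F.eq_empty_or_nonempty with rfl | ⟨β₁, hβ₁⟩
  · simp
  letI : Fintype (G ⧸ T) := Fintype.ofFinite _
  let h : F → (G ⧸ T → ℂ) := fun β c => (β.1 : G → ℂ) c.out * (β₁ : G → ℂ) c.out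
  have hli : LinearIndependent ℂ h := by
    rw [Fintype.linearIndependent_iff]
    intro c hc
    have h1 : ∑ β : F, c β • ((β.1 : IrrCharacter G) : G → ℂ) = 0 := by
      funext g
      have h2 := congrFun hc (QuotientGroup.mk g)
      simp only [Finset.sum_apply, Pi.smul_apply, smul_eq_mul, Pi.zero_apply] at h2 ⊢
      set x := (QuotientGroup.mk g : G ⧸ T).out with hx
      have ht : x⁻¹ * g ∈ T := by
        have : (QuotientGroup.mk x : G ⧸ T) = QuotientGroup.mk g := QuotientGroup.out_eq' _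
        exact QuotientGroup.eq.1 this
      set t := x⁻¹ * g with htdef
      have hgx : g = x * t := by rw [htdef]; group
      have h3 : ∀ β : F, h β (QuotientGroup.mk g) = (β.1 : G → ℂ) g * (β₁ : G → ℂ) g := by
        intro β
        change (β.1 : G → ℂ) x * (β₁ : G → ℂ) x = _
        rw [hgx, hhom β.1 β.2, hhom β₁ hβ₁, hagree β.1 β.2 β₁ hβ₁ t ht]
        have := hsq β₁ hβ₁ t
        calc (β.1 : G → ℂ) x * (β₁ : G → ℂ) x = (β.1 : G → ℂ) x * (β₁ : G → ℂ) x * ((β₁ : G → ℂ) t * (β₁ : G → ℂ) t) := by rw [this, mul_one]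
          _ = _ := by ring
      simp only [h3] at h2
      have h4 := hsq β₁ hβ₁ g
      have h5 : (β₁ : G → ℂ) g ≠ 0 := by
        intro h0
        rw [h0] at h4
        simp at h4
      apply mul_right_cancel₀ h5
      rw [Finset.sum_mul, zero_mul]
      rw [← h2]
      refine Finset.sum_congr rfl fun β _ => ?_
      ring
    have hli2 : LinearIndependent ℂ (fun β : F => ((β.1 : IrrCharacter G) : G → ℂ)) :=
      (linearIndependent_irr (G := G)).comp (fun β : F => β.1) Subtype.val_injective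
    exact Fintype.linearIndependent_iff.1 hli2 c h1
  have h6 := hli.fintype_card_le_finrank
  rw [Module.finrank_fintype_fun_eq_card, Fintype.card_coe] at h6
  rw [Subgroup.index, Nat.card_eq_fintype_card]
  exact h6

/-- Characters of `T` over `θ` inducing the same `χ` with `⟨χ_N, θ⟩ = 1` coincide. -/
theorem eq_of_indFun_eq {G : Type*} [Group G] [Fintype G] (N : Subgroup G) [hN : N.Normal] [Fintype N]
    (T : Subgroup G) [Fintype T] (hNT : N ≤ T) {θ : N → ℂ} (hθ : IsIrrCharacter N θ)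
    {ψ₁ ψ₂ : T → ℂ} (hψ₁ : IsIrrCharacter T ψ₁) (hψ₂ : IsIrrCharacter T ψ₂)
    (h₁ : classInner (resTo N hNT ψ₁) θ ≠ 0) (h₂ : classInner (resTo N hNT ψ₂) θ ≠ 0)
    {χ : G → ℂ} (hχ : IsIrrCharacter G χ) (hi₁ : indFun T ψ₁ = χ) (hi₂ : indFun T ψ₂ = χ)
    (hone : classInner (resFun N χ) θ = 1) : ψ₁ = ψ₂ := by
  classical
  by_contra hne
  have hχc := IsIrrCharacter.isCharacter hχ
  obtain ⟨m, hm, hsum⟩ := IsCharacter.exists_eq_sum (isCharacter_resFun T hχc)
  have hmv : ∀ (ψ : T → ℂ) (hψ : IsIrrCharacter T ψ), indFun T ψ = χ → m ⟨ψ, hψ⟩ = 1 := by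
    intro ψ hψ hi
    have h1 := hm ⟨ψ, hψ⟩
    rw [classInner_conj_symm] at h1
    have h2 := classInner_indFun_left T ψ χ (IsCharacter.isClassFunction hχc)
    rw [hi, classInner_irr_self hχ] at h2
    have h3 : classInner ψ (resFun T χ) = 1 := h2.symm
    change (starRingEnd ℂ) (classInner ψ (resFun T χ)) = _ at h1
    rw [h3, map_one] at h1
    exact_mod_cast h1.symm
  have he : ∀ μ : IrrCharacter T, ∃ e : ℕ, classInner (resTo N hNT (μ : T → ℂ)) θ = e := fun μ =>
    IsCharacter.classInner_irr_eq_nat (isCharacter_resTo N hNT (IsIrrCharacter.isCharacter μ.2)) hθ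
  choose e he using he
  have hres : resFun N χ = ∑ μ : IrrCharacter T, m μ • resTo N hNT (μ : T → ℂ) := by
    funext n
    have := congrFun hsum ⟨n, hNT n.2⟩
    simpa [Finset.sum_apply] using this
  have hval : (1 : ℂ) = ((∑ μ : IrrCharacter T, m μ * e μ : ℕ) : ℂ) := by
    rw [← hone, hres]
    have : (∑ μ : IrrCharacter T, m μ • resTo N hNT (μ : T → ℂ)) = ∑ μ : IrrCharacter T, (m μ : ℂ) • resTo N hNT (μ : T → ℂ) := by
      refine Finset.sum_congr rfl fun μ _ => ?_
      funext n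
      simp
    rw [this, classInner_sum_left]
    push_cast
    refine Finset.sum_congr rfl fun μ _ => ?_
    rw [classInner_smul_left, he]
  have hval' : ∑ μ : IrrCharacter T, m μ * e μ = 1 := by
    exact_mod_cast hval.symm
  let μ₁ : IrrCharacter T := ⟨ψ₁, hψ₁⟩
  let μ₂ : IrrCharacter T := ⟨ψ₂, hψ₂⟩
  have hμne : μ₁ ≠ μ₂ := fun h => hne (congrArg Subtype.val h)
  have hle : ∑ μ ∈ ({μ₁, μ₂} : Finset (IrrCharacter T)), m μ * e μ ≤ ∑ μ : IrrCharacter T, m μ * e μ :=
    Finset.sum_le_sum_of_subset (Finset.subset_univ _)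
  rw [Finset.sum_pair hμne, hval', hmv ψ₁ hψ₁ hi₁, hmv ψ₂ hψ₂ hi₂] at hle
  have he1 : e μ₁ ≠ 0 := by
    intro h0
    apply h₁
    have := he μ₁
    rw [h0] at this
    simpa using this
  have he2 : e μ₂ ≠ 0 := by
    intro h0
    apply h₂
    have := he μ₂
    rw [h0] at this
    simpa using this
  omega

/-- Let G be a finite group that is the semidirect product of a normal elementary abelian subgroup N of odd order by a non-trivial 2-subgroup P, with N the unique minimal normal subgroup of G. Consider the strongly real irreducible complex characters of G (Frobenius–Schur indicator +1) whose degree is 1 or even. Then their average degree is at least 4/3: four times their number is at most three times the sum of their degrees. -/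
theorem result {G : Type*} [Group G] [Finite G] (N P : Subgroup G) (hN : N.Normal) (q : ℕ) [Fact q.Prime] (hq : q ≠ 2) (hNel : Cfsg.IsElementaryAbelian q N) (hP : IsPGroup 2 ↥P) (hP1 : P ≠ ⊥) (hdisj : N ⊓ P = ⊥) (hprod : N ⊔ P = ⊤) (hmin : N ≠ ⊥ ∧ ∀ M : Subgroup G, M.Normal → M ≠ ⊥ → N ≤ M) : 4 * Nat.card {χ : Cfsg.IrrCharacter G // (Cfsg.charDegree (χ : G → ℂ) = 1 ∨ 2 ∣ Cfsg.charDegree (χ : G → ℂ)) ∧ (Nat.card G : ℂ)⁻¹ * ∑ᶠ g : G, (χ : G → ℂ) (g * g) = 1} ≤ 3 * (∑ᶠ χ : {χ : Cfsg.IrrCharacter G // (Cfsg.charDegree (χ : G → ℂ) = 1 ∨ 2 ∣ Cfsg.charDegree (χ : G → ℂ)) ∧ (Nat.card G : ℂ)⁻¹ * ∑ᶠ g : G, (χ : G → ℂ) (g * g) = 1}, Cfsg.charDegree (χ.1 : G → ℂ)) := by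
  classical
  cases nonempty_fintype G
  haveI := hN
  letI : Fintype N := Fintype.ofFinite _
  haveI : Fact (Nat.Prime 2) := ⟨Nat.prime_two⟩
  have hcomm : ∀ a ∈ N, ∀ b ∈ N, a * b = b * a := by
    intro a ha b hb
    have := hNel.1.is_comm.comm (⟨a, ha⟩ : N) ⟨b, hb⟩
    exact congrArg Subtype.val this
  obtain ⟨z, hz⟩ := exists_inverting N P hN hcomm hP hP1 hdisj hprod hmin
  have hq2 : Odd q := (Fact.out : q.Prime).odd_of_ne_two hq
  have hpow : ∀ n : N, n ^ q = 1 := by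
    intro n
    apply Subtype.ext
    simpa using hNel.2 n n.2
  have h2 : IsPGroup 2 (G ⧸ N) := by
    apply IsPGroup.of_surjective hP ((QuotientGroup.mk' N).comp P.subtype)
    intro c
    obtain ⟨g, rfl⟩ := QuotientGroup.mk_surjective c
    have h1 : g ∈ ((N ⊔ P : Subgroup G) : Set G) := by
      rw [hprod]
      trivial
    rw [Subgroup.normal_mul] at h1
    obtain ⟨n, hn, p, hp, rfl⟩ := Set.mem_mul.1 h1
    refine ⟨⟨p, hp⟩, ?_⟩
    simp only [MonoidHom.comp_apply, Subgroup.subtype_apply, QuotientGroup.mk'_apply]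
    rw [QuotientGroup.eq]
    have : p⁻¹ * (n * p) = p⁻¹ * n * p⁻¹⁻¹ := by simp [mul_assoc]
    rw [this]
    exact hN.conj_mem n hn p⁻¹
  have hNodd : ¬ 2 ∣ Nat.card N := by
    intro h
    obtain ⟨x, hx⟩ := exists_prime_orderOf_dvd_card' 2 h
    have h1 : orderOf x ∣ q := orderOf_dvd_of_pow_eq_one (hpow x)
    rw [hx] at h1
    exact (Nat.not_even_iff_odd.mpr hq2) (even_iff_two_dvd.mpr h1)
  have hdef0 : (Nat.card ↥N).factorization 2 = 0 := Nat.factorization_eq_zero_of_not_dvd hNodd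
  -- a nontrivial linear character of `N`
  have hcommN : ∀ a b : N, a * b = b * a := fun a b => Subtype.ext (hcomm a a.2 b b.2)
  have hdegN := (comm_iff_irr_degree_one (G := N)).1 hcommN
  obtain ⟨lam, hlam⟩ : ∃ lam : IrrCharacter N, (lam : N → ℂ) ≠ fun _ => 1 := by
    by_contra hcon
    push Not at hcon
    have huniq : ∀ χ : IrrCharacter N, χ = ⟨fun _ => 1, isIrrCharacter_one⟩ := fun χ => Subtype.ext (hcon χ)
    have h3 := sum_irr_degree_sq (G := N)
    have h4 : (Finset.univ : Finset (IrrCharacter N)) = {⟨fun _ => 1, isIrrCharacter_one⟩} := by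
      ext χ
      simp [huniq χ]
    rw [h4, Finset.sum_singleton] at h3
    have h5 : Nat.card N = 1 := by
      have : ((Nat.card N : ℕ) : ℂ) = 1 := by rw [← h3]; simp
      exact_mod_cast this
    apply hmin.1
    exact (Subgroup.card_eq_one).1 h5
  have hlamc := IsIrrCharacter.isCharacter lam.2
  have hlam1 : (lam : N → ℂ) 1 = 1 := hdegN lam
  obtain ⟨μ, hμ⟩ := IsCharacter.exists_monoidHom hlamc hlam1
  have hconj : ∃ g : G, ∀ n n' : ↥N, (n' : G) = g * (n : G) * g⁻¹ → (lam : N → ℂ) n' = (starRingEnd ℂ) ((lam : N → ℂ) n) := by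
    refine ⟨z, fun n n' h => ?_⟩
    have h3 : n' = n⁻¹ := by
      apply Subtype.ext
      rw [h, hz n n.2]
      simp
    rw [h3]
    exact IsCharacter.apply_inv hlamc n
  have hdef : 2 ^ (Nat.card ↥N).factorization 2 ∣ Cfsg.charDegree (lam : N → ℂ) := by
    rw [hdef0]
    simp
  obtain ⟨χ₀, hν₀, hin₀⟩ := Cfsg.Agent.S4872.result N h2 lam hdef hconj
  have hχ₀ : IsIrrCharacter G (χ₀ : G → ℂ) := χ₀.2
  have hχ₀c := IsIrrCharacter.isCharacter hχ₀
  have hφ : IsIrrCharacter N (lam : N → ℂ) := lam.2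
  rw [finsum_eq_sum_of_fintype] at hν₀ hin₀
  have hinner : classInner (resFun N (χ₀ : G → ℂ)) (lam : N → ℂ) = 1 := hin₀
  have hne : classInner (resFun N (χ₀ : G → ℂ)) (lam : N → ℂ) ≠ 0 := by
    rw [hinner]
    exact one_ne_zero
  -- the inertia group and the degree of `χ₀`
  let T : Subgroup G := inertia N (lam : N → ℂ)
  letI : Fintype T := Fintype.ofFinite _
  have hNT : N ≤ T := le_inertia N (IsCharacter.isClassFunction hlamc)
  have hdeg : (χ₀ : G → ℂ) 1 = (T.index : ℂ) := by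
    rw [clifford_degree N hχ₀ hφ hne, hinner, hlam1]
    simp [T]
  have hzT : z ∉ T := by
    intro hzT
    have h1 : conjFun N z (lam : N → ℂ) = lam := hzT
    apply hlam
    funext n
    have h3 := congrFun h1 n
    simp only [conjFun_apply] at h3
    have h4 : z⁻¹ * (n : G) * z = ((n⁻¹ : N) : G) := by
      have h5 := hz (n⁻¹ : N) (n⁻¹ : N).2
      simp only [Subgroup.coe_inv, inv_inv] at h5
      rw [Subgroup.coe_inv]
      calc z⁻¹ * (n : G) * z = z⁻¹ * (z * (n : G)⁻¹ * z⁻¹) * z := by rw [h5]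
        _ = (n : G)⁻¹ := by group
    have h6 : (⟨z⁻¹ * (n : G) * z, hN.conj_mem' _ n.2 z⟩ : N) = n⁻¹ := Subtype.ext h4
    rw [h6, hμ] at h3
    simp only [map_inv, Units.val_inv_eq_inv_val] at h3
    have h7 : (μ n : ℂ) ^ 2 = 1 := by
      have h8 : (μ n : ℂ) ≠ 0 := Units.ne_zero _
      field_simp at h3
      exact h3.symm
    have h9 : (μ n : ℂ) ^ q = 1 := by
      have := congrArg (fun u : ℂˣ => (u : ℂ)) (map_pow μ n q)
      simpa [hpow n] using this.symm
    obtain ⟨k, hk⟩ := hq2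
    rw [hk, pow_succ, pow_mul, h7, one_pow, one_mul] at h9
    rw [hμ]
    exact h9
  have hTne : T ≠ ⊤ := fun h => hzT (h ▸ Subgroup.mem_top z)
  have hidx1 : T.index ≠ 1 := fun h => hTne (Subgroup.index_eq_one.1 h)
  have heven : 2 ∣ T.index := by
    obtain ⟨k, hk⟩ := (IsPGroup.iff_card).1 h2
    have h1 : T.index ∣ N.index := Subgroup.index_dvd_of_le hNT
    have h3 : N.index = 2 ^ k := by
      rw [Subgroup.index]
      exact hk
    rw [h3] at h1
    obtain ⟨j, -, hj⟩ := (Nat.dvd_prime_pow Nat.prime_two).1 h1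
    rcases j with _ | j
    · rw [pow_zero] at hj
      exact absurd hj hidx1
    · rw [hj, pow_succ]
      exact Nat.dvd_mul_left _ _
  have hidx2 : 2 ≤ T.index := Nat.le_of_dvd (Nat.pos_of_ne_zero Subgroup.index_ne_zero_of_finite) heven
  -- the Clifford correspondent
  obtain ⟨ψ, hψ, hind, hmul⟩ := clifford_corr N hNT hχ₀ hφ (fun t ht => ht) (fun g hg => hg) hne
  have hψc := IsIrrCharacter.isCharacter hψ
  have hψ1 : ψ 1 = 1 := by
    have h1 := indFun_one T ψ
    rw [hind, hdeg] at h1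
    have h3 : (T.index : ℂ) ≠ 0 := by exact_mod_cast Subgroup.index_ne_zero_of_finite
    apply mul_left_cancel₀ h3
    rw [← h1, mul_one]
  obtain ⟨ν₁, hν₁⟩ := IsCharacter.exists_monoidHom hψc hψ1
  have hψne : ∀ t, ψ t ≠ 0 := by
    intro t
    rw [hν₁]
    exact Units.ne_zero _
  -- the set in question
  set P₀ : IrrCharacter G → Prop := fun χ => (Cfsg.charDegree (χ : G → ℂ) = 1 ∨ 2 ∣ Cfsg.charDegree (χ : G → ℂ)) ∧ (Nat.card G : ℂ)⁻¹ * ∑ᶠ g : G, (χ : G → ℂ) (g * g) = 1 with hP₀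
  let S : Finset (IrrCharacter G) := Finset.univ.filter P₀
  let S₁ : Finset (IrrCharacter G) := S.filter fun χ => Cfsg.charDegree (χ : G → ℂ) = 1
  let S₂ : Finset (IrrCharacter G) := S.filter fun χ => ¬ Cfsg.charDegree (χ : G → ℂ) = 1
  have hcard : Nat.card {χ : IrrCharacter G // P₀ χ} = S₁.card + S₂.card := by
    rw [Nat.card_eq_fintype_card, Fintype.card_subtype]
    exact (Finset.card_filter_add_card_filter_not _).symm
  have hsum : (∑ᶠ χ : {χ : IrrCharacter G // P₀ χ}, Cfsg.charDegree (χ.1 : G → ℂ)) = S₁.card + ∑ χ ∈ S₂, Cfsg.charDegree (χ : G → ℂ) := by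
    rw [finsum_eq_sum_of_fintype]
    have h1 : ∑ χ : {χ : IrrCharacter G // P₀ χ}, Cfsg.charDegree (χ.1 : G → ℂ) = ∑ χ ∈ S, Cfsg.charDegree (χ : G → ℂ) := by
      symm
      apply Finset.sum_subtype
      intro χ
      simp [S]
    rw [h1, ← Finset.sum_filter_add_sum_filter_not S (fun χ => Cfsg.charDegree (χ : G → ℂ) = 1)]
    congr 1
    have h3 : ∑ χ ∈ S₁, Cfsg.charDegree (χ : G → ℂ) = ∑ χ ∈ S₁, 1 := by
      refine Finset.sum_congr rfl fun χ hχ => ?_
      exact (Finset.mem_filter.1 hχ).2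
    change ∑ χ ∈ S₁, Cfsg.charDegree (χ : G → ℂ) = _
    rw [h3]
    simp
  -- the linear members
  have hS₁ : ∀ β ∈ S₁, (∀ g h, (β : G → ℂ) (g * h) = (β : G → ℂ) g * (β : G → ℂ) h) ∧
      (∀ g, (β : G → ℂ) g * (β : G → ℂ) g = 1) ∧ ((β : G → ℂ) 1 = 1) ∧
      (∀ g, (starRingEnd ℂ) ((β : G → ℂ) g) = (β : G → ℂ) g) := by
    intro β hβ
    have h1 := Finset.mem_filter.1 hβ
    have hP' := (Finset.mem_filter.1 h1.1).2
    have hc := IsIrrCharacter.isCharacter β.2
    have hb1 : (β : G → ℂ) 1 = 1 := by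
      rw [apply_one_eq_charDegree hc, h1.2]
      simp
    obtain ⟨m, hm⟩ := IsCharacter.exists_monoidHom hc hb1
    have hν : fsInd (β : G → ℂ) = 1 := by
      have h3 := hP'.2
      rw [finsum_eq_sum_of_fintype] at h3
      exact h3
    have him := im_eq_zero_of_fsInd_ne_zero β.2 (by rw [hν]; exact one_ne_zero)
    have hreal : ∀ g, (starRingEnd ℂ) ((β : G → ℂ) g) = (β : G → ℂ) g := fun g => Complex.conj_eq_iff_im.2 (him g)
    refine ⟨?_, ?_, hb1, hreal⟩
    · intro g h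
      rw [hm]
      simp
    · intro g
      have h3 := IsCharacter.apply_inv hc g
      rw [hreal g, hm] at h3
      simp only [map_inv, Units.val_inv_eq_inv_val] at h3
      rw [hm]
      have h8 : (m g : ℂ) ≠ 0 := Units.ne_zero _
      field_simp at h3
      rw [← pow_two]
      exact h3.symm
  have hβN : ∀ β ∈ S₁, ∀ n : N, (β : G → ℂ) n = 1 := by
    intro β hβ n
    obtain ⟨h1, h3, h4, -⟩ := hS₁ β hβ
    have h5 : ∀ k : ℕ, (β : G → ℂ) ((n : G) ^ k) = (β : G → ℂ) n ^ k := by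
      intro k
      induction k with
      | zero => simpa using h4
      | succ k ih => rw [pow_succ, h1, ih, pow_succ]
    have h6 := h5 q
    have h7 : (n : G) ^ q = 1 := hNel.2 n n.2
    rw [h7, h4] at h6
    obtain ⟨k, hk⟩ := hq2
    rw [hk, pow_succ, pow_mul, pow_two, h3, one_pow, one_mul] at h6
    exact h6.symm
  have htw : ∀ β, β ∈ S₁ → ∃ χ : IrrCharacter G, χ ∈ S₂ ∧ (∀ g, (χ : G → ℂ) g = (χ₀ : G → ℂ) g * (β : G → ℂ) g) ∧
      Cfsg.charDegree (χ : G → ℂ) = T.index := by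
    intro β hβ
    obtain ⟨h1, h3, h4, h5⟩ := hS₁ β hβ
    let Θ : G → ℂ := fun g => (χ₀ : G → ℂ) g * (β : G → ℂ) g
    have hΘc : IsCharacter G Θ := IsCharacter.mul hχ₀c (IsIrrCharacter.isCharacter β.2)
    have hΘ : IsIrrCharacter G Θ := by
      apply isIrrCharacter_of_classInner_self hΘc
      rw [← classInner_irr_self hχ₀]
      simp only [classInner, Θ, map_mul, h5]
      congr 1
      refine Finset.sum_congr rfl fun g _ => ?_
      have := h3 g
      calc (χ₀ : G → ℂ) g * (β : G → ℂ) g * ((starRingEnd ℂ) ((χ₀ : G → ℂ) g) * (β : G → ℂ) g)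
          = (χ₀ : G → ℂ) g * (starRingEnd ℂ) ((χ₀ : G → ℂ) g) * ((β : G → ℂ) g * (β : G → ℂ) g) := by ring
        _ = _ := by rw [this, mul_one]
    have hΘ1 : Θ 1 = (T.index : ℂ) := by
      simp only [Θ]
      rw [hdeg, h4, mul_one]
    have hΘd : Cfsg.charDegree Θ = T.index := charDegree_eq hΘ1
    refine ⟨⟨Θ, hΘ⟩, ?_, fun g => rfl, hΘd⟩
    refine Finset.mem_filter.2 ⟨Finset.mem_filter.2 ⟨Finset.mem_univ _, Or.inr ?_, ?_⟩, ?_⟩
    · change 2 ∣ Cfsg.charDegree Θ
      rw [hΘd]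
      exact heven
    · change (Nat.card G : ℂ)⁻¹ * ∑ᶠ g : G, Θ (g * g) = 1
      rw [finsum_eq_sum_of_fintype, ← hν₀]
      congr 1
      refine Finset.sum_congr rfl fun g _ => ?_
      simp only [Θ]
      rw [h1, h3, mul_one]
    · change ¬ Cfsg.charDegree Θ = 1
      rw [hΘd]
      exact hidx1
  haveI : Nonempty (IrrCharacter G) := ⟨χ₀⟩
  choose! f hfS hfv hfd using htw
  have hfib : ∀ β ∈ S₁, ∀ β' ∈ S₁, f β = f β' → ∀ t ∈ T, (β : G → ℂ) t = (β' : G → ℂ) t := by
    have hmain : ∀ β ∈ S₁, IsIrrCharacter T (fun t : T => ψ t * (β : G → ℂ) t) ∧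
        classInner (resTo N hNT (fun t : T => ψ t * (β : G → ℂ) t)) (lam : N → ℂ) ≠ 0 ∧
        indFun T (fun t : T => ψ t * (β : G → ℂ) t) = (f β : G → ℂ) ∧
        classInner (resFun N (f β : G → ℂ)) (lam : N → ℂ) = 1 := by
      intro β hβ
      obtain ⟨h1, h3, h4, h5⟩ := hS₁ β hβ
      have hβc := IsIrrCharacter.isCharacter β.2
      refine ⟨?_, ?_, ?_, ?_⟩
      · apply IsCharacter.isIrrCharacter_of_one (IsCharacter.mul hψc (IsCharacter.comp hβc T.subtype))
        simp [hψ1, h4]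
      · have h6 : resTo N hNT (fun t : T => ψ t * (β : G → ℂ) t) = resTo N hNT ψ := by
          funext n
          simp only [resTo]
          rw [hβN β hβ n, mul_one]
        rw [h6]
        have h7 : classInner (resTo N hNT ψ) (lam : N → ℂ) = classInner (resFun N (χ₀ : G → ℂ)) (lam : N → ℂ) := hmul
        rw [h7]
        exact hne
      · have h6 := indFun_mul_res T ψ (IsCharacter.isClassFunction hβc)
        rw [h6, hind]
        funext g
        rw [hfv β hβ g]
        rfl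
      · have h6 : resFun N (f β : G → ℂ) = resFun N (χ₀ : G → ℂ) := by
          funext n
          simp only [resFun]
          rw [hfv β hβ n, hβN β hβ n, mul_one]
        rw [h6]
        exact hinner
    intro β hβ β' hβ' hff t ht
    obtain ⟨a1, a2, a3, a4⟩ := hmain β hβ
    obtain ⟨b1, b2, b3, b4⟩ := hmain β' hβ'
    have h6 : (fun t : T => ψ t * (β : G → ℂ) t) = (fun t : T => ψ t * (β' : G → ℂ) t) := by
      rw [← hff] at b3
      exact eq_of_indFun_eq N T hNT hφ a1 b1 a2 b2 (f β).2 a3 b3 a4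
    have h7 := congrFun h6 ⟨t, ht⟩
    exact mul_left_cancel₀ (hψne ⟨t, ht⟩) h7
  let 𝒯 : Finset (IrrCharacter G) := S₁.image f
  have hcardle : S₁.card ≤ T.index * 𝒯.card := by
    apply Finset.card_le_mul_card_image
    intro χ _
    apply card_le_index_of_agree T (S₁.filter fun β => f β = χ)
    · intro β hβ
      exact (hS₁ β (Finset.mem_filter.1 hβ).1).1
    · intro β hβ
      exact (hS₁ β (Finset.mem_filter.1 hβ).1).2.1
    · intro β hβ β' hβ'
      have h1 := Finset.mem_filter.1 hβ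
      have h3 := Finset.mem_filter.1 hβ'
      exact hfib β h1.1 β' h3.1 (h1.2.trans h3.2.symm)
  have h𝒯 : 𝒯 ⊆ S₂ := by
    intro χ hχ
    obtain ⟨β, hβ, rfl⟩ := Finset.mem_image.1 hχ
    exact hfS β hβ
  have hS₂ : ∀ χ ∈ S₂, 2 ≤ Cfsg.charDegree (χ : G → ℂ) := by
    intro χ hχ
    have h1 := Finset.mem_filter.1 hχ
    have h3 := (Finset.mem_filter.1 h1.1).2.1
    have h4 := charDegree_pos χ.2
    rcases h3 with h3 | h3
    · exact absurd h3 h1.2
    · exact Nat.le_of_dvd h4 h3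
  have hkey : 4 * S₂.card + T.index * 𝒯.card ≤ 3 * ∑ χ ∈ S₂, Cfsg.charDegree (χ : G → ℂ) := by
    have h1 : ∑ χ ∈ S₂, (4 + if χ ∈ 𝒯 then T.index else 0) ≤ ∑ χ ∈ S₂, 3 * Cfsg.charDegree (χ : G → ℂ) := by
      apply Finset.sum_le_sum
      intro χ hχ
      have h3 := hS₂ χ hχ
      split_ifs with h4
      · obtain ⟨β, hβ, rfl⟩ := Finset.mem_image.1 h4
        rw [hfd β hβ] at h3 ⊢
        omega
      · omega
    rw [Finset.sum_add_distrib, Finset.sum_const, smul_eq_mul, Finset.sum_ite_mem, Finset.inter_eq_right.2 h𝒯,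
      Finset.sum_const, smul_eq_mul, ← Finset.mul_sum] at h1
    rw [mul_comm 4, mul_comm T.index]
    exact h1
  change 4 * Nat.card {χ : IrrCharacter G // P₀ χ} ≤ 3 * ∑ᶠ χ : {χ : IrrCharacter G // P₀ χ}, Cfsg.charDegree (χ.1 : G → ℂ)
  rw [hcard, hsum]
  omega

end Cfsg.Agent.S4871
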