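import Cfsg.Statements.S4873
import Cfsg.Agent.Lib.Char.FSInd
import Cfsg.Agent.Lib.Char.CliffordBij
import Cfsg.Agent.Lib.Char.CliffordCorr
import Cfsg.Agent.Lib.Char.Kernel

set_option autoImplicit false
open Cfsg

namespace Cfsg.Agent.S4873

open Cfsg.Agent.Lib.Char
open scoped ComplexConjugate

section Basic

variable {H : Type*} [Group H] [Fintype H]

/-- The complex conjugate of an irreducible character. -/
noncomputable def conjIrr (χ : IrrCharacter H) : IrrCharacter H :=
  ⟨fun g => conj (χ.1 g), IsIrrCharacter.conj χ.2⟩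

@[simp] theorem conjIrr_apply (χ : IrrCharacter H) (g : H) :
    ((conjIrr χ : IrrCharacter H) : H → ℂ) g = conj ((χ : H → ℂ) g) := rfl

theorem conjIrr_conjIrr (χ : IrrCharacter H) : conjIrr (conjIrr χ) = χ := by
  apply Subtype.ext
  funext g
  simp [conjIrr]

theorem conjIrr_eq_iff (χ : IrrCharacter H) : conjIrr χ = χ ↔ ∀ g, ((χ : H → ℂ) g).im = 0 := by
  constructor
  · intro h g
    have h2 : conj (χ.1 g) = χ.1 g := congrArg (fun ψ : IrrCharacter H => ψ.1 g) h
    rwa [Complex.conj_eq_iff_im] at h2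
  · intro h
    apply Subtype.ext
    funext g
    show conj (χ.1 g) = χ.1 g
    rw [Complex.conj_eq_iff_im]
    exact h g

theorem classInner_conj_conj (f k : H → ℂ) :
    classInner (fun x => conj (f x)) (fun x => conj (k x)) = conj (classInner f k) := by
  simp only [classInner, map_mul, map_sum, map_inv₀, map_natCast]

/-- In a group of odd order, a real irreducible character is trivial. -/
theorem eq_one_of_real (hodd : Odd (Nat.card H)) (β : IrrCharacter H)
    (hreal : ∀ x, ((β : H → ℂ) x).im = 0) : (β : H → ℂ) = fun _ => 1 := by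
  by_contra hne
  have h0 : classInner (β : H → ℂ) (fun _ => 1) = 0 := classInner_irr_of_ne β.2 isIrrCharacter_one hne
  have hcop : Nat.Coprime (Nat.card H) 2 :=
    ((Nat.Prime.coprime_iff_not_dvd Nat.prime_two).mpr hodd.not_two_dvd_nat).symm
  have h1 : fsInd (β : H → ℂ) = classInner (β : H → ℂ) (fun _ => 1) := by
    unfold fsInd classInner
    congr 1
    have h2 : ∑ s : H, (β : H → ℂ) (s * s) = ∑ s : H, (β : H → ℂ) s := by
      refine Fintype.sum_equiv (powCoprime hcop) _ _ fun s => ?_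
      show _ = (β : H → ℂ) (s ^ 2)
      rw [sq]
    rw [h2]
    simp
  rw [h0] at h1
  obtain ⟨s, hs⟩ := (fsInd_eq_zero_iff β.2).mp h1
  exact hs (hreal s)

/-- A real character of `H`: modulo 2, the multiplicity of `1_M` in the restriction to the normal subgroup
`M` of odd index equals the multiplicity of `1_H`. -/
theorem real_char_mod_two (M : Subgroup H) [hM : M.Normal] [Fintype M] (hodd : Odd M.index)
    {Θ : H → ℂ} (hΘ : IsCharacter H Θ) (hreal : ∀ h, (Θ h).im = 0) {a b : ℕ}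
    (ha : classInner (resFun M Θ) (fun _ => 1) = a) (hb : classInner Θ (fun _ => 1) = b) :
    (a : ZMod 2) = b := by
  classical
  haveI : Fintype (H ⧸ M) := Fintype.ofFinite _
  obtain ⟨m, hm, hsum⟩ := IsCharacter.exists_eq_sum hΘ
  let ξ₁ : IrrCharacter H := ⟨fun _ => 1, isIrrCharacter_one⟩
  have hb' : b = m ξ₁ := by
    have := hm ξ₁
    rw [hb] at this
    exact_mod_cast this
  let D : IrrCharacter H → ℕ := fun ξ => if M ≤ charKer (ξ : H → ℂ) then charDegree (ξ : H → ℂ) else 0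
  have hc : ∀ ξ : IrrCharacter H, (Nat.card M : ℂ)⁻¹ * ∑ n : M, (ξ : H → ℂ) n = (D ξ : ℂ) := by
    intro ξ
    have hcM : (Nat.card M : ℂ) ≠ 0 := by exact_mod_cast Nat.card_pos.ne'
    by_cases hξ : M ≤ charKer (ξ : H → ℂ)
    · simp only [D, if_pos hξ]
      have h1 : ∀ n : M, (ξ : H → ℂ) n = (ξ : H → ℂ) 1 := fun n =>
        (mem_charKer (IsIrrCharacter.isCharacter ξ.2)).mp (hξ n.2)
      simp only [h1, Finset.sum_const, Finset.card_univ, nsmul_eq_mul]
      rw [← Nat.card_eq_fintype_card, ← mul_assoc, inv_mul_cancel₀ hcM, one_mul]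
      exact apply_one_eq_charDegree (IsIrrCharacter.isCharacter ξ.2)
    · simp only [D, if_neg hξ, Nat.cast_zero]
      by_contra hne
      apply hξ
      apply le_charKer_of_classInner_one_ne_zero M ξ.2
      simp only [classInner, resFun, map_one, mul_one]
      exact hne
  have hΘn : ∀ n : M, Θ n = ∑ ξ : IrrCharacter H, (m ξ : ℂ) * (ξ : H → ℂ) n := by
    intro n
    have := congrFun hsum n
    simpa [Finset.sum_apply] using this
  have ha' : a = ∑ ξ : IrrCharacter H, m ξ * D ξ := by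
    have h1 : (a : ℂ) = ∑ ξ : IrrCharacter H, (m ξ : ℂ) * (D ξ : ℂ) := by
      rw [← ha]
      simp only [classInner, resFun, map_one, mul_one, ← hc, hΘn]
      rw [Finset.sum_comm, Finset.mul_sum]
      refine Finset.sum_congr rfl fun ξ _ => ?_
      rw [← Finset.mul_sum]
      ring
    exact_mod_cast h1
  have hmconj : ∀ ξ : IrrCharacter H, m (conjIrr ξ) = m ξ := by
    intro ξ
    have h1 := hm (conjIrr ξ)
    have h2 : Θ = fun x => conj (Θ x) := by
      funext x
      exact ((Complex.conj_eq_iff_im).mpr (hreal x)).symm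
    have h3 : classInner Θ ((conjIrr ξ : IrrCharacter H) : H → ℂ) = conj (classInner Θ (ξ : H → ℂ)) := by
      rw [← classInner_conj_conj, ← h2]
      rfl
    rw [h3, hm ξ, map_natCast] at h1
    exact_mod_cast h1.symm
  have hDconj : ∀ ξ : IrrCharacter H, D (conjIrr ξ) = D ξ := by
    intro ξ
    have hdeg : charDegree ((conjIrr ξ : IrrCharacter H) : H → ℂ) = charDegree (ξ : H → ℂ) := by
      have h1 : ((conjIrr ξ : IrrCharacter H) : H → ℂ) 1 = (charDegree (ξ : H → ℂ) : ℂ) := by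
        simp only [conjIrr_apply]
        rw [IsCharacter.conj_apply_one (IsIrrCharacter.isCharacter ξ.2)]
        exact apply_one_eq_charDegree (IsIrrCharacter.isCharacter ξ.2)
      exact charDegree_eq h1
    have hker : M ≤ charKer ((conjIrr ξ : IrrCharacter H) : H → ℂ) ↔ M ≤ charKer (ξ : H → ℂ) := by
      have h1 : ∀ x : H, x ∈ charKer ((conjIrr ξ : IrrCharacter H) : H → ℂ) ↔ x ∈ charKer (ξ : H → ℂ) := by
        intro x
        rw [mem_charKer (IsIrrCharacter.isCharacter (conjIrr ξ).2), mem_charKer (IsIrrCharacter.isCharacter ξ.2)]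
        simp only [conjIrr_apply]
        rw [IsCharacter.conj_apply_one (IsIrrCharacter.isCharacter ξ.2)]
        obtain ⟨k, hk⟩ := IsCharacter.apply_one (IsIrrCharacter.isCharacter ξ.2)
        rw [hk]
        constructor
        · intro h
          have := congrArg conj h
          simpa using this
        · intro h
          rw [h, map_natCast]
      exact ⟨fun h x hx => (h1 x).mp (h hx), fun h x hx => (h1 x).mpr (h hx)⟩
    simp only [D, hker, hdeg]
  have hinv : ∀ ξ : IrrCharacter H, ξ ≠ ξ₁ → M ≤ charKer (ξ : H → ℂ) → conjIrr ξ ≠ ξ := by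
    intro ξ hξ hle hfix
    apply hξ
    obtain ⟨β, hβ, hβe⟩ := exists_deflate M ξ.2 hle
    have hre := (conjIrr_eq_iff ξ).mp hfix
    have hβreal : ∀ x, (β x).im = 0 := by
      intro x
      obtain ⟨y, rfl⟩ := QuotientGroup.mk_surjective x
      have := hre y
      rw [hβe] at this
      exact this
    have hcardodd : Odd (Nat.card (H ⧸ M)) := by
      rw [← Subgroup.index_eq_card]
      exact hodd
    have h1 := eq_one_of_real hcardodd ⟨β, hβ⟩ hβreal
    apply Subtype.ext
    rw [hβe]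
    funext x
    exact congrFun h1 _
  have hsplit : (a : ZMod 2) = (m ξ₁ : ZMod 2) := by
    rw [ha']
    push_cast
    rw [← Finset.add_sum_erase Finset.univ _ (Finset.mem_univ ξ₁)]
    have hD1 : D ξ₁ = 1 := by
      have hle : M ≤ charKer ((ξ₁ : IrrCharacter H) : H → ℂ) := by
        intro x _
        rw [mem_charKer (IsIrrCharacter.isCharacter ξ₁.2)]
      have hdeg : charDegree ((ξ₁ : IrrCharacter H) : H → ℂ) = 1 := by
        apply charDegree_eq
        simp [ξ₁]
      simp only [D, if_pos hle, hdeg]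
    have hrest : ∑ ξ ∈ Finset.univ.erase ξ₁, ((m ξ : ZMod 2) * (D ξ : ZMod 2)) = 0 := by
      apply Finset.sum_involution (fun ξ _ => conjIrr ξ)
      · intro ξ _
        rw [hmconj, hDconj]
        exact CharTwo.add_self_eq_zero _
      · intro ξ hξ hne hfix
        apply hinv ξ (Finset.ne_of_mem_erase hξ) _ hfix
        by_contra hle
        apply hne
        simp [D, if_neg hle]
      · intro ξ _
        exact conjIrr_conjIrr ξ
      · intro ξ hξ
        apply Finset.mem_erase.mpr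
        refine ⟨fun h => Finset.ne_of_mem_erase hξ ?_, Finset.mem_univ _⟩
        have h1 : conjIrr (conjIrr ξ) = conjIrr ξ₁ := by rw [h]
        rw [conjIrr_conjIrr] at h1
        rw [h1]
        apply Subtype.ext
        funext x
        simp [ξ₁, conjIrr]
    rw [hrest, add_zero, hD1]
    simp
  rw [hsplit, hb']

/-- Uniqueness over an invariant real character. -/
theorem eq_of_real_over_invariant (M : Subgroup H) [hM : M.Normal] [Fintype M] (hodd : Odd M.index)
    {φ : M → ℂ} (hφ : IsIrrCharacter M φ) (hinv : ∀ g, conjFun M g φ = φ) (hφr : ∀ n, (φ n).im = 0)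
    {ψ₁ ψ₂ : IrrCharacter H} (h₁r : ∀ h, ((ψ₁ : H → ℂ) h).im = 0) (h₂r : ∀ h, ((ψ₂ : H → ℂ) h).im = 0)
    (h₁ : classInner (resFun M (ψ₁ : H → ℂ)) φ ≠ 0) (h₂ : classInner (resFun M (ψ₂ : H → ℂ)) φ ≠ 0) :
    ψ₁ = ψ₂ := by
  classical
  have key : ∀ ψ ψ' : IrrCharacter H, (∀ h, ((ψ : H → ℂ) h).im = 0) → (∀ h, ((ψ' : H → ℂ) h).im = 0) →
      classInner (resFun M (ψ : H → ℂ)) φ ≠ 0 → classInner (resFun M (ψ' : H → ℂ)) φ ≠ 0 →
      ∀ (e e' b : ℕ), classInner (resFun M (ψ : H → ℂ)) φ = e → classInner (resFun M (ψ' : H → ℂ)) φ = e' →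
      classInner (ψ : H → ℂ) (ψ' : H → ℂ) = b → ((e : ZMod 2) * (e' : ZMod 2)) = b := by
    intro ψ ψ' hr hr' hne hne' e e' b he he' hb
    have hΘ : IsCharacter H ((ψ : H → ℂ) * (ψ' : H → ℂ)) :=
      IsCharacter.mul (IsIrrCharacter.isCharacter ψ.2) (IsIrrCharacter.isCharacter ψ'.2)
    have hΘr : ∀ h, (((ψ : H → ℂ) * (ψ' : H → ℂ)) h).im = 0 := by
      intro h
      simp [Complex.mul_im, hr h, hr' h]
    have hres := res_eq_smul_of_invariant M ψ.2 hφ hinv hne
    have hres' := res_eq_smul_of_invariant M ψ'.2 hφ hinv hne'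
    rw [he] at hres
    rw [he'] at hres'
    have ha : classInner (resFun M ((ψ : H → ℂ) * (ψ' : H → ℂ))) (fun _ => 1) = ((e * e' : ℕ) : ℂ) := by
      have h1 : ∀ n : M, resFun M ((ψ : H → ℂ) * (ψ' : H → ℂ)) n = (e * e' : ℂ) * (φ n * conj (φ n)) := by
        intro n
        have h2 := congrFun hres n
        have h3 := congrFun hres' n
        simp only [Pi.smul_apply, smul_eq_mul, resFun] at h2 h3
        have h4 : conj (φ n) = φ n := Complex.conj_eq_iff_im.mpr (hφr n)
        show (ψ : H → ℂ) n * (ψ' : H → ℂ) n = _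
        rw [h2, h3, h4]
        ring
      simp only [classInner, map_one, mul_one, h1]
      rw [← Finset.mul_sum, mul_left_comm]
      have h5 := classInner_irr_self hφ
      rw [classInner] at h5
      rw [h5]
      push_cast
      ring
    have hb' : classInner ((ψ : H → ℂ) * (ψ' : H → ℂ)) (fun _ => 1) = (b : ℂ) := by
      rw [← hb]
      simp only [classInner, map_one, mul_one, Pi.mul_apply]
      congr 1
      refine Finset.sum_congr rfl fun h _ => ?_
      rw [Complex.conj_eq_iff_im.mpr (hr' h)]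
    have := real_char_mod_two M hodd hΘ hΘr ha hb'
    push_cast at this
    exact this
  obtain ⟨e₁, he₁⟩ := exists_multiplicity M (IsIrrCharacter.isCharacter ψ₁.2) hφ
  obtain ⟨e₂, he₂⟩ := exists_multiplicity M (IsIrrCharacter.isCharacter ψ₂.2) hφ
  have h11 := key ψ₁ ψ₁ h₁r h₁r h₁ h₁ e₁ e₁ 1 he₁ he₁ (by rw [classInner_irr_self ψ₁.2]; simp)
  have h22 := key ψ₂ ψ₂ h₂r h₂r h₂ h₂ e₂ e₂ 1 he₂ he₂ (by rw [classInner_irr_self ψ₂.2]; simp)
  by_contra hne
  have h12 := key ψ₁ ψ₂ h₁r h₂r h₁ h₂ e₁ e₂ 0 he₁ he₂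
    (by rw [classInner_irr_of_ne ψ₁.2 ψ₂.2 (fun h => hne (Subtype.ext h))]; simp)
  push_cast at h11 h22 h12
  rcases mul_eq_zero.mp h12 with h | h
  · rw [h] at h11
    simp at h11
  · rw [h] at h22
    simp at h22

end Basic

/-- Let N be a normal subgroup of odd index in the finite group G. Then every irreducible complex character of N with Frobenius–Schur indicator +1 lies under exactly one irreducible character of G with Frobenius–Schur indicator +1. -/
theorem result {G : Type*} [Group G] [Finite G] (N : Subgroup G) [N.Normal] (hodd : Odd N.index) (φ : Cfsg.IrrCharacter ↥N) (hφ : (Nat.card ↥N : ℂ)⁻¹ * ∑ᶠ g : ↥N, (φ : ↥N → ℂ) (g * g) = 1) : ∃! χ : Cfsg.IrrCharacter G, (Nat.card G : ℂ)⁻¹ * ∑ᶠ g : G, (χ : G → ℂ) (g * g) = 1 ∧ (∑ᶠ n : ↥N, (χ : G → ℂ) n * (starRingEnd ℂ) ((φ : ↥N → ℂ) n)) ≠ 0 := by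
  classical
  cases nonempty_fintype G
  haveI : Fintype N := Fintype.ofFinite _
  haveI hNn : N.Normal := inferInstance
  have hconv : ∀ (H : Type _) [Group H] [Fintype H] (f : H → ℂ),
      (Nat.card H : ℂ)⁻¹ * ∑ᶠ g : H, f (g * g) = fsInd f := by
    intro H _ _ f
    rw [finsum_eq_sum_of_fintype]
    rfl
  rw [hconv] at hφ
  have hconv2 : ∀ χ : IrrCharacter G, (∑ᶠ n : N, (χ : G → ℂ) n * conj ((φ : N → ℂ) n)) ≠ 0 ↔
      classInner (resFun N (χ : G → ℂ)) (φ : N → ℂ) ≠ 0 := by
    intro χ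
    rw [finsum_eq_sum_of_fintype]
    have hc : (Nat.card N : ℂ)⁻¹ ≠ 0 := inv_ne_zero (by exact_mod_cast Nat.card_pos.ne')
    simp only [classInner, resFun, ne_eq, mul_eq_zero, hc, false_or]
  simp only [hconv, hconv2]
  have hφr := im_eq_zero_of_fsInd_ne_zero φ.2 (by rw [hφ]; exact one_ne_zero)
  -- existence
  have hsq : ∀ g : G, g * g ∈ N → g ∈ N := by
    intro g hg
    have h1 : (g : G ⧸ N) ^ 2 = 1 := by
      rw [sq, ← QuotientGroup.mk_mul, QuotientGroup.eq_one_iff]
      exact hg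
    have h2 : orderOf (g : G ⧸ N) ∣ 2 := orderOf_dvd_of_pow_eq_one h1
    have h3 : orderOf (g : G ⧸ N) ∣ N.index := by
      rw [Subgroup.index_eq_card]
      exact orderOf_dvd_natCard _
    have h4 : Nat.Coprime 2 N.index := (Nat.Prime.coprime_iff_not_dvd Nat.prime_two).mpr hodd.not_two_dvd_nat
    have h5 := Nat.eq_one_of_dvd_coprimes h4 h2 h3
    rw [orderOf_eq_one_iff, QuotientGroup.eq_one_iff] at h5
    exact h5
  have hind : fsInd (indFun N (φ : N → ℂ)) = 1 := by
    rw [fsInd_indFun, ← hφ]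
    unfold fsInd
    congr 1
    have h1 : ∑ g : G, extendByZero N (φ : N → ℂ) (g * g) =
        ∑ g ∈ Finset.univ.filter (fun g : G => g ∈ N), extendByZero N (φ : N → ℂ) (g * g) := by
      rw [Finset.sum_filter]
      refine Finset.sum_congr rfl fun g _ => ?_
      split_ifs with h
      · rfl
      · apply extendByZero_of_notMem
        exact fun h2 => h (hsq g h2)
    rw [h1, Finset.sum_subtype (Finset.univ.filter (fun g : G => g ∈ N)) (p := fun g => g ∈ N) (by simp)]
    refine Finset.sum_congr rfl fun n _ => ?_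
    have h2 : ((n : G) * n) = ((n * n : N) : G) := rfl
    rw [h2, extendByZero_coe]
  have hsum := sum_fsInd_mul_classInner (indFun N (φ : N → ℂ))
  have hsumval : ∑ χ : IrrCharacter G, fsInd (χ : G → ℂ) * classInner (indFun N (φ : N → ℂ)) (χ : G → ℂ) = 1 := by
    rw [hsum]
    exact hind
  have hexp : ∀ χ : IrrCharacter G, ∃ e : ℕ, classInner (indFun N (φ : N → ℂ)) (χ : G → ℂ) = e ∧
      (classInner (resFun N (χ : G → ℂ)) (φ : N → ℂ) ≠ 0 ↔ e ≠ 0) := by
    intro χ
    obtain ⟨e, he⟩ := exists_multiplicity N (IsIrrCharacter.isCharacter χ.2) φ.2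
    refine ⟨e, ?_, ?_⟩
    · rw [classInner_indFun_left N _ _ (IsCharacter.isClassFunction (IsIrrCharacter.isCharacter χ.2)),
        classInner_conj_symm]
      show conj (classInner (resFun N (χ : G → ℂ)) (φ : N → ℂ)) = _
      rw [he, map_natCast]
    · rw [he]
      exact_mod_cast Iff.rfl
  have hexists : ∃ χ : IrrCharacter G, fsInd (χ : G → ℂ) = 1 ∧
      classInner (resFun N (χ : G → ℂ)) (φ : N → ℂ) ≠ 0 := by
    by_contra hcon
    push Not at hcon
    have hre : ∀ χ : IrrCharacter G,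
        (fsInd (χ : G → ℂ) * classInner (indFun N (φ : N → ℂ)) (χ : G → ℂ)).re ≤ 0 := by
      intro χ
      obtain ⟨e, he, hiff⟩ := hexp χ
      rw [he]
      rcases fsInd_trichotomy χ.2 with h | h | h
      · rw [h]; simp
      · have h2 := hcon χ h
        have h3 : e = 0 := by
          by_contra h4
          exact (hiff.mpr h4) h2
        rw [h3]; simp
      · rw [h]; simp
    have h1 := congrArg Complex.re hsumval
    rw [Complex.re_sum] at h1
    have h2 := Finset.sum_nonpos (fun χ (_ : χ ∈ (Finset.univ : Finset (IrrCharacter G))) => hre χ)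
    rw [h1] at h2
    norm_num at h2
  obtain ⟨χ₀, hχ₀, hχ₀o⟩ := hexists
  refine ⟨χ₀, ⟨hχ₀, hχ₀o⟩, ?_⟩
  rintro χ ⟨hχ, hχo⟩
  -- uniqueness
  haveI : Fintype (inertia N (φ : N → ℂ)) := Fintype.ofFinite _
  set T := inertia N (φ : N → ℂ) with hT
  have hle : N ≤ T := le_inertia_of_irr φ.2
  have hrealχ : ∀ ξ : IrrCharacter G, fsInd (ξ : G → ℂ) = 1 → conjIrr ξ = ξ := fun ξ h =>
    (conjIrr_eq_iff ξ).mpr (im_eq_zero_of_fsInd_ne_zero ξ.2 (by rw [h]; exact one_ne_zero))
  have hφc : (fun n => conj ((φ : N → ℂ) n)) = (φ : N → ℂ) := by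
    funext n
    exact Complex.conj_eq_iff_im.mpr (hφr n)
  -- descent to the inertia group
  have hdesc : ∀ ξ : IrrCharacter G, fsInd (ξ : G → ℂ) = 1 →
      classInner (resFun N (ξ : G → ℂ)) (φ : N → ℂ) ≠ 0 →
      ∃ ψ : IrrCharacter T, (∀ t, ((ψ : T → ℂ) t).im = 0) ∧
        classInner (resTo N hle (ψ : T → ℂ)) (φ : N → ℂ) ≠ 0 ∧ (ξ : G → ℂ) = indFun T (ψ : T → ℂ) := by
    intro ξ hξ hξo
    obtain ⟨ψ, hψ, hψo, hψe⟩ := exists_indFun_over φ.2 ξ.2 hξo
    refine ⟨⟨ψ, hψ⟩, ?_, hψo, hψe⟩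
    have hconjover : classInner (resTo N hle (conjIrr ⟨ψ, hψ⟩ : IrrCharacter T)) (φ : N → ℂ) ≠ 0 := by
      have h1 := classInner_conj_conj (resTo N hle ψ) (φ : N → ℂ)
      rw [hφc] at h1
      have h2 : resTo N hle ((conjIrr ⟨ψ, hψ⟩ : IrrCharacter T) : T → ℂ) = fun n => conj (resTo N hle ψ n) := rfl
      rw [h2, h1]
      simpa using hψo
    have hindc : indFun T ((conjIrr ⟨ψ, hψ⟩ : IrrCharacter T) : T → ℂ) = indFun T ψ := by
      have h1 : indFun T ((conjIrr ⟨ψ, hψ⟩ : IrrCharacter T) : T → ℂ) = fun g => conj (indFun T ψ g) := by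
        funext g
        simp only [indFun_apply, map_mul, map_sum, map_inv₀, map_natCast]
        congr 1
        refine Finset.sum_congr rfl fun x _ => ?_
        by_cases hx : x⁻¹ * g * x ∈ T
        · have h2 := extendByZero_coe T ((conjIrr ⟨ψ, hψ⟩ : IrrCharacter T) : T → ℂ) ⟨_, hx⟩
          have h3 := extendByZero_coe T ψ ⟨_, hx⟩
          simp only at h2 h3
          rw [h2, h3]
          rfl
        · rw [extendByZero_of_notMem _ _ hx, extendByZero_of_notMem _ _ hx, map_zero]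
      rw [h1, ← hψe]
      have h2 := hrealχ ξ hξ
      funext g
      exact congrFun (congrArg Subtype.val h2) g
    have h3 := eq_of_indFun_eq_over φ.2 (conjIrr ⟨ψ, hψ⟩).2 hψ hconjover hψo hindc
    have h4 : conjIrr ⟨ψ, hψ⟩ = ⟨ψ, hψ⟩ := Subtype.ext h3
    exact (conjIrr_eq_iff _).mp h4
  obtain ⟨ψ₁, hψ₁r, hψ₁o, hψ₁e⟩ := hdesc χ hχ hχo
  obtain ⟨ψ₂, hψ₂r, hψ₂o, hψ₂e⟩ := hdesc χ₀ hχ₀ hχ₀o
  -- work in the inertia group
  let N' : Subgroup T := N.subgroupOf T
  haveI hN'n : N'.Normal := Subgroup.normal_subgroupOf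
  haveI : Fintype N' := Fintype.ofFinite _
  let e : N' ≃* N := Subgroup.subgroupOfEquivOfLe hle
  let φ' : N' → ℂ := (φ : N → ℂ) ∘ e
  have hφ' : IsIrrCharacter N' φ' := isIrrCharacter_comp_mulEquiv e φ.2
  have hindex : Odd N'.index := by
    have h1 : N.relIndex T * T.index = N.index := Subgroup.relIndex_mul_index hle
    have h2 : N'.index = N.relIndex T := rfl
    rw [h2]
    rw [← h1] at hodd
    exact (Nat.odd_mul.mp hodd).1
  have hinv' : ∀ g : T, conjFun N' g φ' = φ' := by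
    intro g
    funext n
    have h1 : conjFun N (g : G) (φ : N → ℂ) = (φ : N → ℂ) := (mem_inertia N).mp g.2
    have h2 := congrFun h1 (e n)
    rw [conjFun_apply] at h2
    rw [conjFun_apply]
    exact h2
  have hover' : ∀ ψ : IrrCharacter T, classInner (resTo N hle (ψ : T → ℂ)) (φ : N → ℂ) ≠ 0 →
      classInner (resFun N' (ψ : T → ℂ)) φ' ≠ 0 := by
    intro ψ hψ
    have h1 := classInner_comp_mulEquiv e (resTo N hle (ψ : T → ℂ)) (φ : N → ℂ)
    have h2 : resFun N' (ψ : T → ℂ) = (resTo N hle (ψ : T → ℂ)) ∘ e := rfl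
    rw [h2]
    show classInner ((resTo N hle (ψ : T → ℂ)) ∘ e) ((φ : N → ℂ) ∘ e) ≠ 0
    rw [h1]
    exact hψ
  have heq := eq_of_real_over_invariant N' hindex hφ' hinv'
    (fun n => hφr (e n)) hψ₁r hψ₂r (hover' ψ₁ hψ₁o) (hover' ψ₂ hψ₂o)
  apply Subtype.ext
  rw [hψ₁e, hψ₂e, heq]

end Cfsg.Agent.S4873
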