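import Cfsg.Statements.S4892
import Cfsg.Agent.Lib.Blocks.PRationalExt

set_option autoImplicit false
open Cfsg

namespace Cfsg.Agent.S4892

/-- Let p be an odd prime, M a maximal ideal of the algebraic integers containing p, N a normal subgroup of the finite group G, and θ an irreducible character of N that is G-invariant, of degree prime to p, p-rational (values in the field generated over ℚ by a root of unity of order prime to p) and lies in the principal p-block of N. Let Q be a Sylow p-subgroup of N and suppose the index of N·C_G(Q) in G is a power of p. Then θ extends to a p-rational irreducible character of G lying in the principal p-block of G. -/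
theorem result {G : Type*} [Group G] [Finite G] (p : ℕ) [Fact p.Prime] (hp : p ≠ 2) (M : Ideal Cfsg.AlgInt) (hM : Cfsg.IsPModular p M) (N : Subgroup G) [N.Normal] (θ : Cfsg.IrrCharacter ↥N) (hinv : ∀ g : G, ∀ n n' : ↥N, (n' : G) = g * (n : G) * g⁻¹ → (θ : ↥N → ℂ) n' = (θ : ↥N → ℂ) n) (hdeg : ¬ p ∣ Cfsg.charDegree (θ : ↥N → ℂ)) (hrat : ∃ m : ℕ, ¬ p ∣ m ∧ ∀ n : ↥N, (θ : ↥N → ℂ) n ∈ IntermediateField.adjoin ℚ ({Complex.exp (2 * Real.pi * Complex.I / m)} : Set ℂ)) (hB : θ ∈ Cfsg.principalBlock M ↥N) (Q : Sylow p ↥N) (hidx : ∃ a : ℕ, (N ⊔ Subgroup.centralizer (((Q : Subgroup ↥N).map N.subtype : Subgroup G) : Set G)).index = p ^ a) : ∃ χ : Cfsg.IrrCharacter G, χ ∈ (Cfsg.principalBlock M G) ∧ (∃ n : ℕ, ¬ p ∣ n ∧ ∀ g : G, (χ : G → ℂ) g ∈ IntermediateField.adjoin ℚ ({Complex.exp (2 * Real.pi * Complex.I / n)} : Set ℂ)) ∧ ∀ n : ↥N, (χ : G → ℂ) n = (θ : ↥N → ℂ) n := by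
  classical
  cases nonempty_fintype G
  letI : Fintype N := Fintype.ofFinite _
  have hN : N.Normal := inferInstance
  set Qt : Subgroup G := (Q : Subgroup N).map N.subtype with hQt
  have hQN : Qt ≤ N := by
    rintro _ ⟨x, _, rfl⟩
    exact x.2
  have hcQ : Nat.card Qt = Nat.card (Q : Subgroup N) :=
    Nat.card_congr ((Q : Subgroup N).equivMapOfInjective N.subtype N.subtype_injective).symm.toEquiv
  have hm : Nat.card N = Nat.card Qt * (Q : Subgroup N).index := by
    rw [hcQ]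
    exact (Subgroup.card_mul_index _).symm
  have hpm : ¬ p ∣ (Q : Subgroup N).index := Q.not_dvd_index
  have hfr : ∀ g : G, ∃ g₀ ∈ Subgroup.normalizer (Qt : Set G), g₀⁻¹ * g ∈ N := by
    intro g
    have h1 := Sylow.normalizer_sup_eq_top Q
    have hg : g ∈ Subgroup.normalizer (Qt : Set G) ⊔ N := by
      rw [show Subgroup.normalizer (Qt : Set G) ⊔ N = ⊤ from h1]
      trivial
    obtain ⟨g₀, hg₀, n, hn, rfl⟩ := Subgroup.mem_sup_of_normal_right.mp hg
    refine ⟨g₀, hg₀, ?_⟩
    simpa using hn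
  have hinv' : ∀ g : G, Cfsg.Agent.Lib.Blocks.conjIrr N g θ = θ := by
    intro g
    apply Subtype.ext
    funext n
    simp only [Cfsg.Agent.Lib.Blocks.conjIrr_coe, Cfsg.Agent.Lib.Char.conjFun_apply]
    exact hinv g⁻¹ n _ (by simp)
  obtain ⟨m', hm', hrat'⟩ := hrat
  obtain ⟨a, ha⟩ := hidx
  exact Cfsg.Agent.Lib.Blocks.pr_main N hp hM θ hinv' hdeg hm' hrat' hB Qt hQN hm hpm hfr ha

end Cfsg.Agent.S4892
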