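import Cfsg.Statements.S4911
import Cfsg.Agent.Lib.H8Group.GlaubCount
import Cfsg.Agent.Lib.Char.BrauerPerm

set_option autoImplicit false
open Cfsg

namespace Cfsg.Agent.S4911

open Cfsg.Agent.Lib.Char Cfsg.Agent.Lib.H8Group
open scoped ComplexConjugate

section

variable {H : Type*} [Group H] [Fintype H]

/-- The complex conjugate of an irreducible character. -/
noncomputable def conjIrr (χ : IrrCharacter H) : IrrCharacter H :=
  ⟨fun g => conj (χ.1 g), IsIrrCharacter.conj χ.2⟩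

@[simp] theorem conjIrr_apply (χ : IrrCharacter H) (g : H) :
    ((conjIrr χ : IrrCharacter H) : H → ℂ) g = conj ((χ : H → ℂ) g) := rfl

theorem conjIrr_conjIrr (χ : IrrCharacter H) : conjIrr (conjIrr χ) = χ := by
  apply Subtype.ext
  funext g
  simp [conjIrr]

theorem conjIrr_eq_iff (χ : IrrCharacter H) : conjIrr χ = χ ↔ ∀ g, ((χ : H → ℂ) g).im = 0 := by
  constructor
  · intro h g
    have h2 : conj (χ.1 g) = χ.1 g := congrArg (fun ψ : IrrCharacter H => ψ.1 g) h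
    rwa [Complex.conj_eq_iff_im] at h2
  · intro h
    apply Subtype.ext
    funext g
    show conj (χ.1 g) = χ.1 g
    rw [Complex.conj_eq_iff_im]
    exact h g

theorem classInner_conj_conj (f k : H → ℂ) :
    classInner (fun x => conj (f x)) (fun x => conj (k x)) = conj (classInner f k) := by
  simp only [classInner, map_mul, map_sum, map_inv₀, map_natCast]

end

theorem conj_inv' {H : Type*} [Group H] {a b : H} (h : IsConj a b) : IsConj a⁻¹ b⁻¹ := by
  obtain ⟨c, hc⟩ := isConj_iff.mp h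
  refine isConj_iff.mpr ⟨c, ?_⟩
  rw [← hc]
  group

section

variable {Γ : Type*} [Group Γ] [Finite Γ]

theorem corrRel_conj {p : ℕ} {D C : Subgroup Γ} [Fintype D] [Fintype C] {hCD : C ≤ D} {χ : IrrCharacter D}
    {β : IrrCharacter C} (h : CorrRel p hCD (χ : D → ℂ) (β : C → ℂ)) :
    CorrRel p hCD ((conjIrr χ : IrrCharacter D) : D → ℂ) ((conjIrr β : IrrCharacter C) : C → ℂ) := by
  obtain ⟨ε, hε, ⟨q, hq⟩, h0⟩ := h
  refine ⟨ε, hε, ⟨q, ?_⟩, fun γ hγ => ?_⟩
  · have h1 := classInner_conj_conj (fun c : C => (χ : D → ℂ) ⟨c, hCD c.2⟩) (β : C → ℂ)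
    show classInner (fun c : C => conj ((χ : D → ℂ) ⟨c, hCD c.2⟩)) (fun c => conj ((β : C → ℂ) c)) = _
    rw [h1, hq]
    simp
  · have hne : ((conjIrr γ : IrrCharacter C) : C → ℂ) ≠ (β : C → ℂ) := by
      intro h
      apply hγ
      have h2 : conjIrr γ = β := Subtype.ext h
      rw [← h2, conjIrr_conjIrr]
    obtain ⟨q, hq⟩ := h0 (conjIrr γ) hne
    refine ⟨q, ?_⟩
    have h1 := classInner_conj_conj (fun c : C => (χ : D → ℂ) ⟨c, hCD c.2⟩) ((conjIrr γ : IrrCharacter C) : C → ℂ)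
    have h2 : (fun c : C => conj (((conjIrr γ : IrrCharacter C) : C → ℂ) c)) = (γ : C → ℂ) := by
      funext c
      simp [conjIrr]
    rw [h2, hq] at h1
    show classInner (fun c : C => conj ((χ : D → ℂ) ⟨c, hCD c.2⟩)) (γ : C → ℂ) = _
    rw [h1]
    simp

end

/-- Let P and K be subgroups of a finite group with P a p-group normalizing K and K of order prime to p. Then the number of P-invariant real-valued irreducible complex characters of K equals the number of conjugacy classes of K that are real (closed under inversion) and P-invariant. Moreover, if every real-valued irreducible character of K is P-invariant, then every real element of K (one conjugate in K to its inverse) is conjugate in K to an element centralized by P. -/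
theorem result {G : Type*} [Group G] [Finite G] (p : ℕ) [Fact p.Prime] (P K : Subgroup G) (hP : IsPGroup p ↥P) (hK : ¬ p ∣ Nat.card ↥K) (hPK : P ≤ Subgroup.normalizer (K : Set G)) : Nat.card {θ : Cfsg.IrrCharacter ↥K // (∀ k : ↥K, ((θ : ↥K → ℂ) k).im = 0) ∧ (∀ x ∈ P, ∀ k k' : ↥K, (k' : G) = x * (k : G) * x⁻¹ → (θ : ↥K → ℂ) k' = (θ : ↥K → ℂ) k)} = Nat.card {c : ConjClasses ↥K // (∀ k : ↥K, ConjClasses.mk k = c → IsConj k k⁻¹) ∧ ∀ k : ↥K, ConjClasses.mk k = c → ∀ x ∈ P, ∀ k' : ↥K, (k' : G) = x * (k : G) * x⁻¹ → ConjClasses.mk k' = c} ∧ ((∀ θ : Cfsg.IrrCharacter ↥K, (∀ k : ↥K, ((θ : ↥K → ℂ) k).im = 0) → (∀ x ∈ P, ∀ k k' : ↥K, (k' : G) = x * (k : G) * x⁻¹ → (θ : ↥K → ℂ) k' = (θ : ↥K → ℂ) k)) → ∀ k : ↥K, IsConj k k⁻¹ → ∃ k' : ↥K, IsConj k k' ∧ ∀ x ∈ P, x * (k' : G) * x⁻¹ = (k' : G)) := by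
  classical
  set C : Subgroup G := K ⊓ Subgroup.centralizer (P : Set G) with hC
  haveI hFK : Fintype K := Fintype.ofFinite _
  haveI hFC : Fintype C := Fintype.ofFinite _
  haveI hsolvP : Group.IsSolvable P := by
    haveI := hP.isNilpotent
    infer_instance
  have hnorm : ∀ t ∈ P, t ∈ Subgroup.normalizer (K : Set G) := fun t ht => hPK ht
  have hcop : Nat.Coprime (Nat.card K) (Nat.card P) := by
    obtain ⟨n, hn⟩ := IsPGroup.iff_card.mp hP
    rw [hn]
    exact (Nat.Coprime.pow_right n ((Nat.Prime.coprime_iff_not_dvd (Fact.out)).mpr hK).symm)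
  obtain ⟨hc1, hc2, hc3⟩ := p_corr (p := p) (Nat.card P) P rfl hP K C
    hnorm hcop hC inf_le_left
  have hCK : C ≤ K := inf_le_left
  have hfixC : ∀ c ∈ C, ∀ a ∈ P, a * c * a⁻¹ = c := by
    intro c hc a ha
    have hcomm : a * c = c * a := Subgroup.mem_centralizer_iff.mp hc.2 a ha
    rw [hcomm]
    group
  -- Glauberman's lemma for classes
  have hsub : ∀ x₀ : G, (∀ a ∈ P, ∀ g ∈ K, ∃ g' ∈ K, a * (g * x₀ * g⁻¹) * a⁻¹ = g' * x₀ * g'⁻¹) →
      (∃ x : ConjY G, (∃ g ∈ K, x.val = g * x₀ * g⁻¹) ∧ ∀ a ∈ P, a • x = x) ∧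
      ∀ x : ConjY G, (∃ g ∈ K, x.val = g * x₀ * g⁻¹) → ∀ y : ConjY G, (∃ g ∈ K, y.val = g * x₀ * g⁻¹) →
        (∀ a ∈ P, a • x = x) → (∀ a ∈ P, a • y = y) →
        ∃ c ∈ K ⊓ Subgroup.centralizer (P : Set G), c • x = y := by
    intro x₀ hx₀
    apply Cfsg.Agent.Lib.Basic.glauberman hPK hcop.symm (Or.inl hsolvP)
      (Y := ConjY G) {y : ConjY G | ∃ g ∈ K, y.val = g * x₀ * g⁻¹}
    · exact ⟨⟨x₀⟩, 1, K.one_mem, by simp⟩
    · rintro k hk x ⟨g, hg, hx⟩
      refine ⟨k * g, K.mul_mem hk hg, ?_⟩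
      show k * x.val * k⁻¹ = _
      rw [hx]
      group
    · rintro a ha x ⟨g, hg, hx⟩
      obtain ⟨g', hg', h⟩ := hx₀ a ha g hg
      refine ⟨g', hg', ?_⟩
      show a * x.val * a⁻¹ = _
      rw [hx, h]
    · rintro x ⟨g, hg, hx⟩ y ⟨g', hg', hy⟩
      refine ⟨g' * g⁻¹, K.mul_mem hg' (K.inv_mem hg), ?_⟩
      apply ConjY.ext
      show (g' * g⁻¹) * x.val * (g' * g⁻¹)⁻¹ = y.val
      rw [hx, hy]
      group
  -- (F1) an invariant class contains a fixed element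
  have hF1 : ∀ c₀ : K, (∀ k : K, ConjClasses.mk k = ConjClasses.mk c₀ → ∀ x ∈ P, ∀ k' : K,
      (k' : G) = x * (k : G) * x⁻¹ → ConjClasses.mk k' = ConjClasses.mk c₀) →
      ∃ x : C, IsConj c₀ (⟨x, hCK x.2⟩ : K) := by
    intro c₀ hinv
    obtain ⟨h1, -⟩ := hsub (c₀ : G) (by
      intro a ha g hg
      have hm : g * (c₀ : G) * g⁻¹ ∈ K := K.mul_mem (K.mul_mem hg c₀.2) (K.inv_mem hg)
      have hm' : a * (g * (c₀ : G) * g⁻¹) * a⁻¹ ∈ K :=
        (Subgroup.mem_normalizer_iff.mp (hnorm a ha) _).mp hm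
      have h2 := hinv ⟨_, hm⟩ (by
        rw [ConjClasses.mk_eq_mk_iff_isConj]
        exact isConj_iff.mpr ⟨⟨g, hg⟩⁻¹, Subtype.ext (by
          show g⁻¹ * (g * (c₀ : G) * g⁻¹) * g⁻¹⁻¹ = _
          group)⟩) a ha ⟨_, hm'⟩ rfl
      rw [ConjClasses.mk_eq_mk_iff_isConj] at h2
      obtain ⟨g', hg'⟩ := isConj_iff.mp h2
      refine ⟨(g' : G)⁻¹, K.inv_mem g'.2, ?_⟩
      have h3 : (g' : G) * (a * (g * (c₀ : G) * g⁻¹) * a⁻¹) * (g' : G)⁻¹ = c₀ := congrArg Subtype.val hg'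
      calc a * (g * (c₀ : G) * g⁻¹) * a⁻¹
          = (g' : G)⁻¹ * ((g' : G) * (a * (g * (c₀ : G) * g⁻¹) * a⁻¹) * (g' : G)⁻¹) * ((g' : G)⁻¹)⁻¹ := by group
        _ = _ := by rw [h3])
    obtain ⟨x, ⟨g, hg, hxg⟩, hx⟩ := h1
    have hxK : x.val ∈ K := by
      rw [hxg]
      exact K.mul_mem (K.mul_mem hg c₀.2) (K.inv_mem hg)
    have hxC : x.val ∈ C := by
      refine ⟨hxK, ?_⟩
      show x.val ∈ Subgroup.centralizer (P : Set G)
      rw [Subgroup.mem_centralizer_iff]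
      intro a ha
      have h2 : a * x.val * a⁻¹ = x.val := congrArg ConjY.val (hx a ha)
      exact (mul_inv_eq_iff_eq_mul.mp h2)
    refine ⟨⟨x.val, hxC⟩, isConj_iff.mpr ⟨⟨g, hg⟩, Subtype.ext ?_⟩⟩
    exact hxg.symm
  -- (F2) fixed elements conjugate in `K` are conjugate in `C`
  have hF2 : ∀ x y : C, IsConj (⟨x, hCK x.2⟩ : K) (⟨y, hCK y.2⟩ : K) → IsConj x y := by
    intro x y hxy
    obtain ⟨g, hg⟩ := isConj_iff.mp hxy
    have hg' : (g : G) * x * (g : G)⁻¹ = y := congrArg Subtype.val hg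
    obtain ⟨-, h2⟩ := hsub (x : G) (by
      intro a ha g₁ hg₁
      refine ⟨a * g₁ * a⁻¹, (Subgroup.mem_normalizer_iff.mp (hnorm a ha) g₁).mp hg₁, ?_⟩
      have h3 := hfixC x x.2 a ha
      calc a * (g₁ * x * g₁⁻¹) * a⁻¹ = (a * g₁ * a⁻¹) * (a * x * a⁻¹) * (a * g₁ * a⁻¹)⁻¹ := by group
        _ = _ := by rw [h3])
    obtain ⟨d, hd, hdc⟩ := h2 ⟨(x : G)⟩ ⟨1, K.one_mem, by simp⟩ ⟨(y : G)⟩ ⟨g, g.2, hg'.symm⟩
      (fun a ha => ConjY.ext (hfixC x x.2 a ha)) (fun a ha => ConjY.ext (hfixC y y.2 a ha))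
    have hdc' : d * (x : G) * d⁻¹ = y := congrArg ConjY.val hdc
    exact isConj_iff.mpr ⟨⟨d, hd⟩, Subtype.ext hdc'⟩
  -- real invariant characters of `K` and real characters of `C`
  have hinvconj : ∀ θ : IrrCharacter K, InvBy P (θ : K → ℂ) → InvBy P ((conjIrr θ : IrrCharacter K) : K → ℂ) := by
    intro θ hθ s hs g g' hg
    show conj ((θ : K → ℂ) g') = conj ((θ : K → ℂ) g)
    rw [hθ s hs g g' hg]
  have hcard1 : Nat.card {θ : IrrCharacter K // (∀ k : K, ((θ : K → ℂ) k).im = 0) ∧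
      (∀ x ∈ P, ∀ k k' : K, (k' : G) = x * (k : G) * x⁻¹ → (θ : K → ℂ) k' = (θ : K → ℂ) k)} =
      Nat.card {β : IrrCharacter C // ∀ c : C, ((β : C → ℂ) c).im = 0} := by
    have hf : ∀ θ : {θ : IrrCharacter K // (∀ k : K, ((θ : K → ℂ) k).im = 0) ∧
        (∀ x ∈ P, ∀ k k' : K, (k' : G) = x * (k : G) * x⁻¹ → (θ : K → ℂ) k' = (θ : K → ℂ) k)},
        ∃ β : {β : IrrCharacter C // ∀ c : C, ((β : C → ℂ) c).im = 0},
          CorrRel p hCK ((θ.1 : IrrCharacter K) : K → ℂ) ((β.1 : IrrCharacter C) : C → ℂ) := by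
      rintro ⟨θ, hr, hi⟩
      obtain ⟨β, hβ⟩ := hc1 θ hi
      have h1 := corrRel_conj hβ
      have h2 : conjIrr θ = θ := (conjIrr_eq_iff θ).mpr hr
      rw [h2] at h1
      have h3 : β = conjIrr β := CorrRel.unique (Fact.out) hβ h1
      exact ⟨⟨β, (conjIrr_eq_iff β).mp h3.symm⟩, hβ⟩
    choose f hfspec using hf
    apply Nat.card_eq_of_bijective f
    constructor
    · intro θ θ' h
      apply Subtype.ext
      apply hc2 θ.1 θ'.1 θ.2.2 θ'.2.2 (f θ).1 (hfspec θ)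
      rw [h]
      exact hfspec θ'
    · rintro ⟨β, hβr⟩
      obtain ⟨χ, hχi, hχ⟩ := hc3 β
      have h1 := corrRel_conj hχ
      have h2 : conjIrr β = β := (conjIrr_eq_iff β).mpr hβr
      rw [h2] at h1
      have h3 : conjIrr χ = χ := hc2 _ _ (hinvconj χ hχi) hχi β h1 hχ
      have hχr := (conjIrr_eq_iff χ).mp h3
      refine ⟨⟨χ, hχr, hχi⟩, ?_⟩
      apply Subtype.ext
      exact CorrRel.unique (Fact.out) (hfspec ⟨χ, hχr, hχi⟩) hχ
  -- real classes of `C` and real invariant classes of `K`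
  have hcard2 : Nat.card {c : ConjClasses C // ∀ g : C, ConjClasses.mk g = c → IsConj g g⁻¹} =
      Nat.card {c : ConjClasses K // (∀ k : K, ConjClasses.mk k = c → IsConj k k⁻¹) ∧
        ∀ k : K, ConjClasses.mk k = c → ∀ x ∈ P, ∀ k' : K, (k' : G) = x * (k : G) * x⁻¹ → ConjClasses.mk k' = c} := by
    have hwd : ∀ c : {c : ConjClasses C // ∀ g : C, ConjClasses.mk g = c → IsConj g g⁻¹},
        (∀ k : K, ConjClasses.mk k = ConjClasses.map (Subgroup.inclusion hCK) c.1 → IsConj k k⁻¹) ∧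
        ∀ k : K, ConjClasses.mk k = ConjClasses.map (Subgroup.inclusion hCK) c.1 → ∀ x ∈ P, ∀ k' : K,
          (k' : G) = x * (k : G) * x⁻¹ → ConjClasses.mk k' = ConjClasses.map (Subgroup.inclusion hCK) c.1 := by
      rintro ⟨c, hc⟩
      obtain ⟨c₀, rfl⟩ := ConjClasses.mk_surjective c
      constructor
      · intro k hk
        rw [classes_map_mk, ConjClasses.mk_eq_mk_iff_isConj] at hk
        have h1 := hc c₀ rfl
        have h2 : IsConj (Subgroup.inclusion hCK c₀) (Subgroup.inclusion hCK c₀⁻¹) := by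
          obtain ⟨d, hd⟩ := isConj_iff.mp h1
          exact isConj_iff.mpr ⟨Subgroup.inclusion hCK d, by
            rw [← map_inv, ← map_mul, ← map_mul, hd]⟩
        have h3 : IsConj k⁻¹ (Subgroup.inclusion hCK c₀⁻¹) := by
          rw [map_inv]
          exact conj_inv' hk
        exact hk.trans (h2.trans h3.symm)
      · intro k hk x hx k' hk'
        rw [classes_map_mk, ConjClasses.mk_eq_mk_iff_isConj] at hk ⊢
        obtain ⟨h, hh⟩ := isConj_iff.mp hk
        have hcomm := hfixC c₀ c₀.2 x hx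
        have hmem : x * (h : G) * x⁻¹ ∈ K := (Subgroup.mem_normalizer_iff.mp (hnorm x hx) h).mp h.2
        refine isConj_iff.mpr ⟨⟨_, hmem⟩, Subtype.ext ?_⟩
        have hh' : (h : G) * k * (h : G)⁻¹ = (c₀ : G) := congrArg Subtype.val hh
        show (x * (h : G) * x⁻¹) * (k' : G) * (x * (h : G) * x⁻¹)⁻¹ = (c₀ : G)
        rw [hk']
        calc (x * (h : G) * x⁻¹) * (x * k * x⁻¹) * (x * (h : G) * x⁻¹)⁻¹
            = x * ((h : G) * k * (h : G)⁻¹) * x⁻¹ := by group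
          _ = x * (c₀ : G) * x⁻¹ := by rw [hh']
          _ = (c₀ : G) := hcomm
    refine Nat.card_eq_of_bijective (fun c => ⟨ConjClasses.map (Subgroup.inclusion hCK) c.1, hwd c⟩) ⟨?_, ?_⟩
    · rintro ⟨c, hc⟩ ⟨c', hc'⟩ h
      obtain ⟨c₀, rfl⟩ := ConjClasses.mk_surjective c
      obtain ⟨c₁, rfl⟩ := ConjClasses.mk_surjective c'
      have h1 := congrArg Subtype.val h
      simp only [classes_map_mk] at h1
      rw [ConjClasses.mk_eq_mk_iff_isConj] at h1
      apply Subtype.ext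
      rw [ConjClasses.mk_eq_mk_iff_isConj]
      exact hF2 c₀ c₁ h1
    · rintro ⟨c, hcr, hci⟩
      obtain ⟨c₀, rfl⟩ := ConjClasses.mk_surjective c
      obtain ⟨x, hx⟩ := hF1 c₀ hci
      have hxreal : IsConj x x⁻¹ := by
        apply hF2 x x⁻¹
        have h1 := hcr c₀ rfl
        have h2 : IsConj (⟨x⁻¹, hCK (x⁻¹).2⟩ : K) c₀⁻¹ := by
          have := (conj_inv' hx).symm
          exact this
        exact hx.symm.trans (h1.trans h2.symm)
      refine ⟨⟨ConjClasses.mk x, ?_⟩, ?_⟩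
      · intro g hg
        rw [ConjClasses.mk_eq_mk_iff_isConj] at hg
        exact hg.trans (hxreal.trans (conj_inv' hg).symm)
      · apply Subtype.ext
        show ConjClasses.map (Subgroup.inclusion hCK) (ConjClasses.mk x) = _
        rw [classes_map_mk, ConjClasses.mk_eq_mk_iff_isConj]
        exact hx.symm
  have hmain : Nat.card {θ : IrrCharacter K // (∀ k : K, ((θ : K → ℂ) k).im = 0) ∧
      (∀ x ∈ P, ∀ k k' : K, (k' : G) = x * (k : G) * x⁻¹ → (θ : K → ℂ) k' = (θ : K → ℂ) k)} =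
      Nat.card {c : ConjClasses K // (∀ k : K, ConjClasses.mk k = c → IsConj k k⁻¹) ∧
        ∀ k : K, ConjClasses.mk k = c → ∀ x ∈ P, ∀ k' : K, (k' : G) = x * (k : G) * x⁻¹ → ConjClasses.mk k' = c} := by
    rw [hcard1, card_real_irr_eq_card_real_classes, hcard2]
  refine ⟨hmain, fun hall k hk => ?_⟩
  -- every real class is invariant
  have hburn := card_real_irr_eq_card_real_classes (G := K)
  have h1 : Nat.card {θ : IrrCharacter K // (∀ k : K, ((θ : K → ℂ) k).im = 0) ∧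
      (∀ x ∈ P, ∀ k k' : K, (k' : G) = x * (k : G) * x⁻¹ → (θ : K → ℂ) k' = (θ : K → ℂ) k)} =
      Nat.card {θ : IrrCharacter K // ∀ k : K, ((θ : K → ℂ) k).im = 0} := by
    apply Nat.card_congr
    apply Equiv.subtypeEquivRight
    intro θ
    exact ⟨fun h => h.1, fun h => ⟨h, hall θ h⟩⟩
  rw [h1, hburn] at hmain
  -- injection of invariant real classes into real classes is onto
  let ι : {c : ConjClasses K // (∀ k : K, ConjClasses.mk k = c → IsConj k k⁻¹) ∧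
      ∀ k : K, ConjClasses.mk k = c → ∀ x ∈ P, ∀ k' : K, (k' : G) = x * (k : G) * x⁻¹ → ConjClasses.mk k' = c} →
      {c : ConjClasses K // ∀ k : K, ConjClasses.mk k = c → IsConj k k⁻¹} := fun c => ⟨c.1, c.2.1⟩
  have hι : Function.Injective ι := fun a b h => Subtype.ext (congrArg (fun q : {c : ConjClasses K // ∀ k : K, ConjClasses.mk k = c → IsConj k k⁻¹} => q.1) h)
  have hιs : Function.Surjective ι := (Nat.bijective_iff_injective_and_card ι).mpr ⟨hι, hmain.symm⟩ |>.2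
  obtain ⟨⟨c, hc⟩, hcι⟩ := hιs ⟨ConjClasses.mk k, fun k₁ hk₁ => by
    rw [ConjClasses.mk_eq_mk_iff_isConj] at hk₁
    exact hk₁.trans (hk.trans (conj_inv' hk₁).symm)⟩
  have hceq : c = ConjClasses.mk k := congrArg Subtype.val hcι
  subst hceq
  obtain ⟨x, hx⟩ := hF1 k hc.2
  refine ⟨⟨x, hCK x.2⟩, hx, fun a ha => ?_⟩
  exact hfixC x x.2 a ha

end Cfsg.Agent.S4911
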