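import Cfsg.Statements.S4912
import Cfsg.Agent.S4870
import Cfsg.Agent.Lib.Char.FSInd

set_option autoImplicit false
open Cfsg

namespace Cfsg.Agent.S4912

open Cfsg.Agent.Lib.Char
open scoped ComplexConjugate commutatorElement

/-- Let G be a finite group with a non-abelian minimal normal subgroup N, and let φ be an irreducible complex character of N with stabilizer I in G such that φ extends to an irreducible character of I with Frobenius–Schur indicator +1. Put d = φ(1)·[G : I]. Then the number of linear characters of G with Frobenius–Schur indicator +1 is at most [G : I] times the number of irreducible characters of G of degree d with Frobenius–Schur indicator +1. -/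
theorem result {G : Type*} [Group G] [Finite G] (N : Subgroup G) (hN : N.Normal) (hN1 : N ≠ ⊥) (hmin : ∀ M : Subgroup G, M.Normal → M ≤ N → M = ⊥ ∨ M = N) (hna : ¬ IsMulCommutative ↥N) (φ : Cfsg.IrrCharacter ↥N) (I : Subgroup G) (hI : ∀ g : G, g ∈ I ↔ ∀ n n' : ↥N, (n' : G) = g * (n : G) * g⁻¹ → (φ : ↥N → ℂ) n' = (φ : ↥N → ℂ) n) (hNI : N ≤ I) (hext : ∃ ψ : Cfsg.IrrCharacter ↥I, (Nat.card ↥I : ℂ)⁻¹ * ∑ᶠ g : ↥I, (ψ : ↥I → ℂ) (g * g) = 1 ∧ ∀ n : ↥N, (ψ : ↥I → ℂ) (Subgroup.inclusion hNI n) = (φ : ↥N → ℂ) n) : Nat.card {χ : Cfsg.IrrCharacter G // Cfsg.charDegree (χ : G → ℂ) = 1 ∧ (Nat.card G : ℂ)⁻¹ * ∑ᶠ g : G, (χ : G → ℂ) (g * g) = 1} ≤ I.index * Nat.card {χ : Cfsg.IrrCharacter G // Cfsg.charDegree (χ : G → ℂ) = Cfsg.charDegree (φ : ↥N → ℂ) * I.index ∧ (Nat.card G : ℂ)⁻¹ * ∑ᶠ g : G, (χ : G → ℂ) (g * g) = 1} := by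
  classical
  cases nonempty_fintype G
  haveI : N.Normal := hN
  have hIeq : I = inertia N (φ : N → ℂ) := by
    ext g
    rw [hI, mem_inertia]
    constructor
    · intro h
      funext n
      have h2 : (n : G) = g * (g⁻¹ * (n : G) * g) * g⁻¹ := by group
      have h3 := h ⟨g⁻¹ * n * g, hN.conj_mem' n n.2 g⟩ n h2
      rw [conjFun_apply]
      exact h3.symm
    · intro h n n' hn'
      have h1 := congrFun h n'
      rw [conjFun_apply] at h1
      have h9 : (⟨g⁻¹ * n' * g, hN.conj_mem' n' n'.2 g⟩ : N) = n := by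
        apply Subtype.ext
        simp only [hn']
        group
      rw [← h1, h9]
  obtain ⟨ψ, hψν, hψ⟩ := hext
  haveI : Fintype N := Fintype.ofFinite _
  haveI : Fintype I := Fintype.ofFinite _
  have hconv : ∀ (H : Type _) [Group H] [Fintype H] (f : H → ℂ),
      (Nat.card H : ℂ)⁻¹ * ∑ᶠ g : H, f (g * g) = fsInd f := by
    intro H _ _ f
    rw [finsum_eq_sum_of_fintype]
    rfl
  rw [hconv] at hψν
  have hperf : ⁅N, N⁆ = N := by
    rcases hmin ⁅N, N⁆ (Subgroup.commutator_normal N N) (Subgroup.commutator_le_self N) with h | h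
    · exfalso
      apply hna
      refine ⟨⟨fun a b => Subtype.ext ?_⟩⟩
      have h1 : ⁅(a : G), (b : G)⁆ ∈ ⁅N, N⁆ := Subgroup.commutator_mem_commutator a.2 b.2
      rw [h, Subgroup.mem_bot, commutatorElement_eq_one_iff_mul_comm] at h1
      exact h1
    · exact h
  have hlin : ∀ lam : Cfsg.IrrCharacter G, (lam : G → ℂ) 1 = 1 → ∀ n ∈ N, (lam : G → ℂ) n = 1 := by
    intro lam h1 n hn
    obtain ⟨l, hl⟩ := IsCharacter.exists_monoidHom (IsIrrCharacter.isCharacter lam.2) h1
    have h2 : ⁅N, N⁆ ≤ l.ker := by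
      rw [Subgroup.commutator_le]
      intro x _ y _
      rw [MonoidHom.mem_ker, map_commutatorElement, commutatorElement_eq_one_iff_mul_comm]
      exact mul_comm _ _
    rw [hperf] at h2
    have h3 := h2 hn
    rw [MonoidHom.mem_ker] at h3
    rw [hl]
    simp [h3]
  have hψreal : ∀ i, ((ψ : I → ℂ) i).im = 0 :=
    im_eq_zero_of_fsInd_ne_zero ψ.2 (by rw [hψν]; exact one_ne_zero)
  have hφreal : ∀ n, ((φ : N → ℂ) n).im = 0 := by
    intro n
    rw [← hψ n]
    exact hψreal _
  have hmain := S4870.count_bound N hN1 hmin hna φ I hIeq hNI ψ (fun n => hψ n)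
    (fun χ => fsInd (χ : G → ℂ) = 1) (fun χ => fsInd (χ : G → ℂ) = 1) ?_
  · simpa only [hconv] using hmain
  · intro lam hind h1 hν
    show fsInd (indFun I (fun i => (lam : G → ℂ) i * (ψ : ↥I → ℂ) i)) = 1
    have hηc : Cfsg.IsCharacter I (fun i : I => (lam : G → ℂ) i * (ψ : I → ℂ) i) :=
      IsIrrCharacter.isCharacter (isIrrCharacter_lin_mul
        (IsCharacter.comp (IsIrrCharacter.isCharacter lam.2) I.subtype) h1 ψ.2)
    rw [fsInd_indFun_of_stabilizer N hNI hηc φ.2 ?_ hφreal ?_]
    · obtain ⟨l, hl⟩ := IsCharacter.exists_monoidHom (IsIrrCharacter.isCharacter lam.2) h1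
      have hreal := im_eq_zero_of_fsInd_ne_zero lam.2 (by rw [hν]; exact one_ne_zero)
      have hsq : ∀ g : G, (lam : G → ℂ) (g * g) = 1 := by
        intro g
        have h2 : ((l g : ℂˣ) : ℂ) ^ orderOf g = 1 := by
          rw [← Units.val_pow_eq_pow_val, ← map_pow, pow_orderOf_eq_one, map_one, Units.val_one]
        have h3 := Complex.norm_eq_one_of_pow_eq_one h2 (orderOf_pos g).ne'
        have h4 := hreal g
        rw [hl] at h4 ⊢
        simp only at h4 ⊢
        rw [map_mul, Units.val_mul]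
        have h5 : ((l g : ℂˣ) : ℂ) = (((l g : ℂˣ) : ℂ).re : ℂ) := by
          apply Complex.ext <;> simp [h4]
        have h6 : |((l g : ℂˣ) : ℂ).re| = 1 := by
          rw [h5, Complex.norm_real] at h3
          simpa using h3
        rw [h5]
        rw [← Complex.ofReal_mul, ← abs_mul_abs_self, h6]
        simp
      rw [← hψν]
      unfold fsInd
      congr 1
      refine Finset.sum_congr rfl fun i _ => ?_
      have : (((i * i : I)) : G) = (i : G) * i := rfl
      simp only
      rw [this, hsq, one_mul]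
    · intro n
      simp only
      rw [hlin lam h1 n n.2, one_mul]
      exact hψ n
    · intro g hg
      rw [hIeq, mem_inertia] at hg
      exact hg

end Cfsg.Agent.S4912
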