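import Cfsg.Statements.S4914
import Cfsg.Agent.Lib.Char.DGN6

set_option autoImplicit false
open Cfsg

namespace Cfsg.Agent.S4914

open Cfsg.Agent.Lib.Char Cfsg.Agent.Lib.Char.DGN Cfsg.Agent.Lib.H8Group

theorem degree_formula {G : Type*} [Group G] {K C : Subgroup G} [Fintype C] (hCK : C ≤ K)
    {θ : K → ℂ} (hθ : IsCharacter K θ) :
    charDegree θ = ∑ γ : IrrCharacter C, mN hCK θ (γ : C → ℂ) * charDegree (γ : C → ℂ) := by
  classical
  let f : C → ℂ := fun c => θ ⟨c, hCK c.2⟩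
  have hf : IsCharacter C f := IsCharacter.comp hθ (Subgroup.inclusion hCK)
  have hsum : f = ∑ ψ : IrrCharacter C, classInner f (ψ : C → ℂ) • (ψ : C → ℂ) :=
    classFunction_eq_sum f (IsCharacter.isClassFunction hf)
  obtain ⟨d, hd⟩ := IsCharacter.apply_one hθ
  have h1 : f 1 = θ 1 := rfl
  have h2 := congrFun hsum 1
  simp only [Finset.sum_apply, Pi.smul_apply, smul_eq_mul] at h2
  rw [h1, hd] at h2
  rw [charDegree_natCast hd]
  have h3 : (d : ℂ) = ((∑ γ : IrrCharacter C, mN hCK θ (γ : C → ℂ) * charDegree (γ : C → ℂ) : ℕ) : ℂ) := by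
    rw [h2]
    push_cast
    refine Finset.sum_congr rfl fun γ _ => ?_
    have h4 : classInner f (γ : C → ℂ) = mN hCK θ (γ : C → ℂ) := mult_eq_mN hCK hθ γ
    obtain ⟨e, he⟩ := IsCharacter.apply_one (IsIrrCharacter.isCharacter γ.2)
    rw [h4, he, charDegree_natCast he]
  exact_mod_cast h3

theorem conj_mem_Q {G : Type*} [Group G] [Finite G] {p : ℕ} [hp : Fact p.Prime] {K Q : Subgroup G}
    (hQK : Q ≤ K) (hQn : ∀ k ∈ K, ∀ q ∈ Q, k * q * k⁻¹ ∈ Q) {a : ℕ} (ha : Nat.card Q = p ^ a)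
    (hidx : ¬ p ∣ Q.relIndex K) {x : G} (hx : x ∈ Subgroup.normalizer (K : Set G)) {q : G}
    (hq : q ∈ Q) : x * q * x⁻¹ ∈ Q := by
  have hzK : x * q * x⁻¹ ∈ K := (Subgroup.mem_normalizer_iff.mp hx q).mp (hQK hq)
  haveI hn : (Q.subgroupOf K).Normal := ⟨fun n hn g => hQn g g.2 n hn⟩
  let z : K := ⟨x * q * x⁻¹, hzK⟩
  have hz : z ^ (p ^ a) = 1 := by
    apply Subtype.ext
    show (x * q * x⁻¹) ^ (p ^ a) = 1
    rw [conj_pow]
    have h1 : (⟨q, hq⟩ : Q) ^ (p ^ a) = 1 := by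
      rw [← ha]
      exact pow_card_eq_one'
    have h2 : q ^ (p ^ a) = 1 := congrArg Subtype.val h1
    rw [h2]
    simp
  let w : K ⧸ Q.subgroupOf K := (z : K ⧸ Q.subgroupOf K)
  have hw1 : w ^ (p ^ a) = 1 := by
    show ((z : K ⧸ Q.subgroupOf K)) ^ (p ^ a) = 1
    rw [← QuotientGroup.mk_pow, hz]
    rfl
  have hw2 : w ^ (Q.relIndex K) = 1 := by
    have h1 : Nat.card (K ⧸ Q.subgroupOf K) = Q.relIndex K := rfl
    rw [← h1]
    exact pow_card_eq_one'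
  have hd1 : orderOf w ∣ p ^ a := orderOf_dvd_of_pow_eq_one hw1
  have hd2 : orderOf w ∣ Q.relIndex K := orderOf_dvd_of_pow_eq_one hw2
  have hcop : Nat.Coprime (p ^ a) (Q.relIndex K) :=
    Nat.Coprime.pow_left a ((Nat.Prime.coprime_iff_not_dvd hp.out).mpr hidx)
  have hone : orderOf w = 1 := Nat.eq_one_of_dvd_coprimes hcop hd1 hd2
  have hw : w = 1 := orderOf_eq_one_iff.mp hone
  have hmem : z ∈ Q.subgroupOf K := (QuotientGroup.eq_one_iff z).mp hw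
  exact hmem

/-- Let P and K be subgroups of a finite group G with P a p-group normalizing K, and suppose K has a normal Sylow p-subgroup Q. Let C be the subgroup of those k ∈ K whose commutator with every element of P lies in Q (so that C/Q is the fixed-point subgroup of P on K/Q). Then there is a bijection f from the P-invariant irreducible complex characters of K onto the P-invariant irreducible complex characters of C such that, for every P-invariant irreducible character χ of K, the multiplicity of f(χ) in the restriction of χ to C is a natural number congruent to 1 or to −1 modulo p, every other P-invariant irreducible character of C occurs in that restriction with multiplicity divisible by p, and the degrees of χ and f(χ) are congruent modulo p up to sign. -/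
theorem result {G : Type*} [Group G] [Finite G] (p : ℕ) [Fact p.Prime] (P K Q C : Subgroup G) (hP : IsPGroup p ↥P) (hPK : P ≤ Subgroup.normalizer (K : Set G)) (hQK : Q ≤ K) (hQn : ∀ k ∈ K, ∀ q ∈ Q, k * q * k⁻¹ ∈ Q) (hQp : ∃ a : ℕ, Nat.card ↥Q = p ^ a) (hQsyl : ¬ p ∣ Q.relIndex K) (hCK : C ≤ K) (hC : ∀ k : G, k ∈ C ↔ (k ∈ K ∧ ∀ x ∈ P, x * k * x⁻¹ * k⁻¹ ∈ Q)) : ∃ f : {χ : Cfsg.IrrCharacter ↥K // (∀ x ∈ P, ∀ k k' : ↥K, (k' : G) = x * (k : G) * x⁻¹ → (χ : ↥K → ℂ) k' = (χ : ↥K → ℂ) k)} → {ξ : Cfsg.IrrCharacter ↥C // (∀ x ∈ P, ∀ k k' : ↥C, (k' : G) = x * (k : G) * x⁻¹ → (ξ : ↥C → ℂ) k' = (ξ : ↥C → ℂ) k)}, Function.Bijective f ∧ ∀ χ, (∀ ξ : {ξ : Cfsg.IrrCharacter ↥C // (∀ x ∈ P, ∀ k k' : ↥C, (k' : G) = x * (k : G) * x⁻¹ → (ξ : ↥C → ℂ) k' = (ξ : ↥C → ℂ) k)}, ∃ m : ℕ, (Nat.card ↥C : ℂ)⁻¹ * ∑ᶠ c : ↥C, (χ.1 : ↥K → ℂ) (Subgroup.inclusion hCK c) * (starRingEnd ℂ) ((ξ.1 : ↥C → ℂ) c) = (m : ℂ) ∧ (ξ = f χ → ((m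 : ZMod p) = 1 ∨ (m : ZMod p) = -1)) ∧ (ξ ≠ f χ → p ∣ m)) ∧ ((Cfsg.charDegree ((f χ).1 : ↥C → ℂ) : ZMod p) = (Cfsg.charDegree (χ.1 : ↥K → ℂ) : ZMod p) ∨ (Cfsg.charDegree ((f χ).1 : ↥C → ℂ) : ZMod p) = -(Cfsg.charDegree (χ.1 : ↥K → ℂ) : ZMod p)) := by
  classical
  letI : Fintype K := Fintype.ofFinite _
  letI : Fintype C := Fintype.ofFinite _
  obtain ⟨a, ha⟩ := hQp
  have hKQ : K ≤ Subgroup.normalizer (Q : Set G) := by
    intro k hk
    rw [Subgroup.mem_normalizer_iff]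
    intro q
    refine ⟨fun hq => hQn k hk q hq, fun hq => ?_⟩
    have := hQn k⁻¹ (K.inv_mem hk) _ hq
    simpa [mul_assoc] using this
  have hPQ : ∀ x ∈ P, x ∈ Subgroup.normalizer (Q : Set G) := by
    intro x hx
    rw [Subgroup.mem_normalizer_iff]
    intro q
    refine ⟨fun hq => conj_mem_Q hQK hQn ha hQsyl (hPK hx) hq, fun hq => ?_⟩
    have := conj_mem_Q hQK hQn ha hQsyl (Subgroup.inv_mem _ (hPK hx)) hq
    simpa [mul_assoc] using this
  have H : DGNRel p P K C hCK :=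
    dgn_main K Q hQK hKQ hQsyl (Nat.card P) P rfl hP (fun x hx => hPK hx) hPQ C hCK hC
  have hTC : ∀ x ∈ P, x ∈ Subgroup.normalizer (C : Set G) :=
    normalizer_of_char hC (fun x hx => hPK hx) hPQ fun x hx u hu =>
      P.mul_mem (P.mul_mem hx hu) (P.inv_mem hx)
  have hm : ∀ (χ : IrrCharacter K) (ξ : IrrCharacter C),
      mult hCK (χ : K → ℂ) (ξ : C → ℂ) = mN hCK (χ : K → ℂ) (ξ : C → ℂ) :=
    fun χ ξ => mult_eq_mN hCK (IsIrrCharacter.isCharacter χ.2) ξ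
  have hspec := fun χ : {χ : IrrCharacter K // InvBy P (χ : K → ℂ)} => H.1 χ.1 χ.2
  choose f hf₁ hf₂ hf₃ using hspec
  refine ⟨fun χ => ⟨f χ, hf₁ χ⟩, ⟨?_, ?_⟩, fun χ => ⟨fun ξ => ?_, ?_⟩⟩
  · intro χ₁ χ₂ h
    have h1 : f χ₁ = f χ₂ := congrArg Subtype.val h
    apply Subtype.ext
    refine H.unique_left (hf₁ χ₁) χ₁.2 χ₂.2 (hf₂ χ₁) ?_
    rw [h1]
    exact hf₂ χ₂
  · intro ξ
    obtain ⟨θ, hθ, hU, -⟩ := H.2 ξ.1 ξ.2
    refine ⟨⟨θ, hθ⟩, Subtype.ext ?_⟩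
    exact H.unique_right hθ (hf₁ ⟨θ, hθ⟩) ξ.2 (hf₂ ⟨θ, hθ⟩) hU
  · refine ⟨mN hCK (χ.1 : K → ℂ) (ξ.1 : C → ℂ), ?_, fun h => ?_, fun h => ?_⟩
    · rw [← hm, finsum_eq_sum_of_fintype]
      rfl
    · have h1 : ξ.1 = f χ := congrArg Subtype.val h
      have h2 := hf₂ χ
      rw [← h1, hm] at h2
      exact h2.natCast
    · have h1 : ξ.1 ≠ f χ := fun h' => h (Subtype.ext h')
      have h2 := hf₃ χ ξ.1 ξ.2 h1
      rw [hm] at h2
      exact h2.dvd_natCast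
  · show (charDegree (f χ : C → ℂ) : ZMod p) = _ ∨ (charDegree (f χ : C → ℂ) : ZMod p) = _
    have h1 := degree_formula hCK (IsIrrCharacter.isCharacter χ.1.2)
    have h2 := sum_irr_weight hP hTC
      (fun γ => mN hCK (χ.1 : K → ℂ) (γ : C → ℂ) * charDegree (γ : C → ℂ)) (by
        intro x hx γ
        have e1 := mN_conj hCK (hPK hx) (hTC x hx) (χ.1 : K → ℂ) (γ : C → ℂ)
        rw [comp_conjOn_of_invBy hx (hPK hx) χ.2] at e1
        show mN hCK (χ.1 : K → ℂ) ((γ : C → ℂ) ∘ conjOn C x (hTC x hx)) *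
          charDegree ((γ : C → ℂ) ∘ conjOn C x (hTC x hx)) = _
        rw [e1]
        congr 1
        simp only [charDegree, Function.comp_apply, map_one])
    have h3 : (charDegree (χ.1 : K → ℂ) : ZMod p) =
        (mN hCK (χ.1 : K → ℂ) (f χ : C → ℂ) : ZMod p) * (charDegree (f χ : C → ℂ) : ZMod p) := by
      rw [h1]
      push_cast at h2 ⊢
      rw [h2]
      apply Finset.sum_eq_single_of_mem (f χ) (Finset.mem_filter.mpr ⟨Finset.mem_univ _, hf₁ χ⟩)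
      intro γ hγ hne
      have h4 := hf₃ χ γ (Finset.mem_filter.mp hγ).2 hne
      rw [hm] at h4
      rw [(ZMod.natCast_eq_zero_iff _ p).mpr h4.dvd_natCast, zero_mul]
    have h5 := hf₂ χ
    rw [hm] at h5
    rcases h5.natCast with h6 | h6
    · left
      rw [h3, h6, one_mul]
    · right
      rw [h3, h6]
      ring

end Cfsg.Agent.S4914
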