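import Cfsg.Statements.S4916
import Cfsg.Agent.Lib.Char.PBlock

set_option autoImplicit false
open Cfsg

namespace Cfsg.Agent.S4916

open Cfsg.Agent.Lib.Char Cfsg.Agent.Lib.Blocks
open scoped ComplexConjugate

/-- Let G be a finite group, p a prime and M a maximal ideal of the algebraic integers containing p. Then the principal character is the only irreducible character of degree prime to p in the principal p-block of G if and only if p does not divide the order of G. -/
theorem result {G : Type*} [Group G] [Finite G] (p : ℕ) [Fact p.Prime] (M : Ideal Cfsg.AlgInt) (hM : Cfsg.IsPModular p M) : (∀ χ : Cfsg.IrrCharacter G, χ ∈ Cfsg.principalBlock M G → ¬ p ∣ Cfsg.charDegree (χ : G → ℂ) → (χ : G → ℂ) = fun _ => (1 : ℂ)) ↔ ¬ p ∣ Nat.card G := by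
  classical
  cases nonempty_fintype G
  haveI := isPrime_of_modular hM
  set B₀ := Cfsg.principalBlock M G with hB₀
  have hB : Cfsg.IsPBlock M B₀ := isPBlock_principalBlock
  constructor
  · intro h hpG
    obtain ⟨x, hx⟩ := exists_prime_orderOf_dvd_card' (G := G) p hpG
    have hpp : p.Prime := Fact.out
    have h1 := weak_block_orthogonality hM hB (x := 1) (y := x)
      (by rw [orderOf_one]; exact fun h2 => hpp.one_lt.ne' (Nat.dvd_one.mp h2)) (by rw [hx])
    rw [finsum_mem_eq_sum_indic, ← Finset.add_sum_erase _ _ (Finset.mem_univ (irrOne G))] at h1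
    have hone : irrOne G ∈ B₀ := irrOne_mem_principalBlock
    rw [indic_apply_of_mem hone] at h1
    simp only [irrOne_apply, map_one, mul_one] at h1
    have h2 : MemLocalIdeal M (∑ χ ∈ Finset.univ.erase (irrOne G), indic B₀ χ * ((χ : G → ℂ) 1 * conj ((χ : G → ℂ) x))) := by
      refine MemLocalIdeal.sum _ fun χ hχ => ?_
      by_cases hχB : χ ∈ B₀
      · rw [indic_apply_of_mem hχB, one_mul]
        have hne : (χ : G → ℂ) ≠ fun _ => (1 : ℂ) := fun h3 =>
          (Finset.mem_erase.mp hχ).1 (Subtype.ext h3)
        have hd : p ∣ Cfsg.charDegree (χ : G → ℂ) := by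
          by_contra h3
          exact hne (h χ hχB h3)
        apply MemLocalIdeal.mul_right
        · rw [apply_one_eq_charDegree (IsIrrCharacter.isCharacter χ.2)]
          exact (natCast_memLocalIdeal_iff hM _).mpr hd
        · rw [← irr_apply_inv]
          exact memLocalRing_of_isIntegral (irr_isIntegral χ _)
      · rw [indic_apply_of_notMem hχB, zero_mul]
        exact memLocalIdeal_zero
    have h3 : (1 : ℂ) = - ∑ χ ∈ Finset.univ.erase (irrOne G), indic B₀ χ * ((χ : G → ℂ) 1 * conj ((χ : G → ℂ) x)) := by
      linear_combination h1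
    have h4 := MemLocalIdeal.neg h2
    rw [← h3] at h4
    exact not_memLocalIdeal_one h4
  · intro h χ hχ _
    have h1 : ¬ p ∣ Nat.card G / Cfsg.charDegree ((irrOne G : Cfsg.IrrCharacter G) : G → ℂ) := by
      rw [charDegree_irrOne, Nat.div_one]
      exact h
    have h2 := (not_dvd_iff_blockOf_singleton hM (irrOne G)).mp h1
    have h3 : χ ∈ blockOf M ((irrOne G : Cfsg.IrrCharacter G) : G → ℂ) := hχ
    rw [h2] at h3
    have h4 : χ = irrOne G := h3
    rw [h4]
    rfl

end Cfsg.Agent.S4916
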