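import Cfsg.Statements.S4923
import Cfsg.Agent.Lib.Char.Q2Val
import Cfsg.Agent.Lib.Transfer.MaxClass2
import Cfsg.Agent.S0646

set_option autoImplicit false
open Cfsg

namespace Cfsg.Agent.S4923

open Cfsg Cfsg.Agent.Lib.Char Cfsg.Agent.Lib.Char.Q2Val
open scoped Pointwise commutatorElement

theorem index_four {X : Type*} [Group X] [Finite X] (hX : IsPGroup 2 X)
    (hna : ∃ a b : X, a * b ≠ b * a) (hdvd : (commutator X).index ∣ 4) :
    (commutator X).index = 4 := by
  haveI : Fact (Nat.Prime 2) := ⟨Nat.prime_two⟩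
  have h4 : (4 : ℕ) = 2 ^ 2 := by norm_num
  rw [h4] at hdvd
  obtain ⟨c, hc, hc2⟩ := (Nat.dvd_prime_pow Nat.prime_two).mp hdvd
  obtain ⟨a, b, hab⟩ := hna
  have hnc : ¬ IsCyclic (X ⧸ commutator X) := by
    intro h
    exact hab (Cfsg.Agent.Lib.Transfer.comm_of_isCyclic_quotient_commutator hX h a b)
  interval_cases c
  · exfalso
    apply hnc
    have h7 : Nat.card (X ⧸ commutator X) = 1 := by
      rw [← Subgroup.index_eq_card, hc2]
      rfl
    haveI := (Nat.card_eq_one_iff_unique.mp h7).1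
    exact isCyclic_of_subsingleton
  · exfalso
    apply hnc
    have h7 : Nat.card (X ⧸ commutator X) = 2 := by
      rw [← Subgroup.index_eq_card, hc2]
      rfl
    haveI : Fact (Nat.Prime (Nat.card (X ⧸ commutator X))) := by
      rw [h7]
      exact ⟨Nat.prime_two⟩
    exact isCyclic_of_prime_card rfl
  · rw [hc2]
    rfl

theorem neg_one_of_primitive {ζ : ℂ} {k : ℕ} (hζ : IsPrimitiveRoot ζ (2 ^ (k + 1))) :
    ζ ^ (2 ^ k) = -1 := by
  have h1 : (ζ ^ (2 ^ k)) ^ 2 = 1 := by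
    rw [← pow_mul, ← pow_succ]
    exact hζ.pow_eq_one
  have h2 : ζ ^ (2 ^ k) ≠ 1 := by
    apply hζ.pow_ne_one_of_pos_of_lt (by positivity)
    exact Nat.pow_lt_pow_right (by norm_num) (by omega)
  have h3 : (ζ ^ (2 ^ k) - 1) * (ζ ^ (2 ^ k) + 1) = 0 := by
    linear_combination h1
  rcases mul_eq_zero.mp h3 with h | h
  · exact absurd (sub_eq_zero.mp h) h2
  · linear_combination h

/-- The value field in the two forward cases. -/
theorem forward_field {G : Type*} [Group G] [Fintype G] (P : Sylow 2 G) {a : ℕ} (ha : a ≠ 0) {ζ : ℂ}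
    (hζ : IsPrimitiveRoot ζ (2 ^ a)) {g y : G} (hg : orderOf g = 2 ^ a) {j : ℕ} (hjodd : Odd j)
    (hy : y * g * y⁻¹ = g ^ j) {κ : ℂ} (hκ : κ = 1 ∨ κ = -1) (hζj : ζ ^ j = κ * ζ⁻¹)
    (hne : ζ ≠ κ * ζ⁻¹)
    (hcases : ∀ u ∈ (P : Subgroup G), u * g * u⁻¹ = g ∨ u * g * u⁻¹ = y * g * y⁻¹) :
    IntermediateField.adjoin ℚ {z : ℂ | ∃ χ : Cfsg.IrrCharacter G, (χ : G → ℂ) g = z} =
      IntermediateField.adjoin ℚ ({ζ + κ * ζ⁻¹} : Set ℂ) := by
  have hPN : (P : Subgroup G) ≤ Subgroup.normalizer ((Subgroup.zpowers g : Subgroup G) : Set G) := by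
    intro u hu
    apply Cfsg.Agent.Lib.PGroups.mem_normalizer_of_conj_le'
    rintro w ⟨k, rfl⟩
    have h1 : u * g ^ k * u⁻¹ = (u * g * u⁻¹) ^ k := conj_zpow.symm
    show u * g ^ k * u⁻¹ ∈ _
    rw [h1]
    apply Subgroup.zpow_mem
    rcases hcases u hu with h | h
    · rw [h]
      exact Subgroup.mem_zpowers g
    · rw [h, hy]
      exact Subgroup.pow_mem _ (Subgroup.mem_zpowers g) j
  have hconj : ∀ x : G, x⁻¹ * g * x ∈ Subgroup.zpowers g → x⁻¹ * g * x = g ∨ x⁻¹ * g * x = g ^ j := by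
    intro x hx
    rcases conj_cases P hg hPN hcases x hx with h | h
    · exact Or.inl h
    · exact Or.inr (h.trans hy)
  apply le_antisymm (valField_le ha hζ hg hjodd hy hκ hζj hne)
  rw [IntermediateField.adjoin_le_iff]
  rintro _ rfl
  exact mem_valField hζ hg hy hζj hne hconj

theorem forward_dir {G : Type*} [Group G] [Fintype G] (P : Sylow 2 G) (n : ℕ) (hn : 3 ≤ n)
    (hP : Nat.card P = 2 ^ n) (ζ : ℂ) (hζ : IsPrimitiveRoot ζ (2 ^ (n - 1)))
    (hi : (commutator ↥P).index = 4) :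
    ∃ g : G, g ∈ (P : Subgroup G) ∧ 2 ∣ (Subgroup.centralizer ({g} : Set G)).index ∧
        (IntermediateField.adjoin ℚ {z : ℂ | ∃ χ : Cfsg.IrrCharacter G, (χ : G → ℂ) g = z} = IntermediateField.adjoin ℚ ({ζ + ζ⁻¹} : Set ℂ) ∨
          IntermediateField.adjoin ℚ {z : ℂ | ∃ χ : Cfsg.IrrCharacter G, (χ : G → ℂ) g = z} = IntermediateField.adjoin ℚ ({ζ - ζ⁻¹} : Set ℂ)) := by
  classical
  haveI : Fact (Nat.Prime 2) := ⟨Nat.prime_two⟩
  have hX : Nat.card (P : Subgroup G) = 2 ^ n := hP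
  replace hi : (commutator (P : Subgroup G)).index = 4 := hi
  have hcl := Cfsg.Agent.Lib.Transfer.class_of_index_commutator n (P : Subgroup G) hn hX hi
  obtain ⟨C, hC, hCi⟩ := Cfsg.Agent.Lib.Transfer.exists_cyclic_index_two n (P : Subgroup G) hn hX hcl
  have hcomm_ne : ∃ x y : (P : Subgroup G), x * y ≠ y * x := by
    by_contra hcon
    push Not at hcon
    have h5 : commutator (P : Subgroup G) = ⊥ := by
      rw [eq_bot_iff, _root_.commutator_def, Subgroup.commutator_le]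
      intro x _ y _
      rw [Subgroup.mem_bot, commutatorElement_eq_one_iff_mul_comm]
      exact hcon x y
    rw [h5, Subgroup.index_bot, hX] at hi
    have h6 : (2 : ℕ) ^ 3 ∣ 2 ^ n := pow_dvd_pow 2 hn
    rw [hi] at h6
    omega
  obtain ⟨a, b, ha, hb, hcases⟩ := Cfsg.Agent.S0646.result n hn hX C hC hCi hcomm_ne
  have hUi : (Subgroup.zpowers a).index = 2 := by
    have h5 := (Subgroup.zpowers a).card_mul_index
    rw [Nat.card_zpowers, ha, hX] at h5
    have h6 : 2 ^ (n - 1) * 2 = 2 ^ n := by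
      rw [← pow_succ]
      congr 1
      omega
    exact Nat.eq_of_mul_eq_mul_left (by positivity) (h5.trans h6.symm)
  have hbinv : b⁻¹ ∉ Subgroup.zpowers a := fun h => hb (by simpa using (Subgroup.zpowers a).inv_mem h)
  have hsplit : ∀ u : (P : Subgroup G), u ∈ Subgroup.zpowers a ∨ b⁻¹ * u ∈ Subgroup.zpowers a := by
    intro u
    by_cases hu : u ∈ Subgroup.zpowers a
    · exact Or.inl hu
    · right
      rw [Subgroup.mul_mem_iff_of_index_two hUi]
      exact ⟨fun h => absurd h hbinv, fun h => absurd h hu⟩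
  have hconjc : ∀ u : (P : Subgroup G), u * a * u⁻¹ = a ∨ u * a * u⁻¹ = b * a * b⁻¹ := by
    intro u
    rcases hsplit u with h | h
    · left
      obtain ⟨k, rfl⟩ := h
      have : Commute ((fun k : ℤ => a ^ k) k) a := (Commute.refl a).zpow_left k
      rw [this.eq]
      group
    · right
      obtain ⟨k, hk⟩ := h
      have h1 : u = b * a ^ k := by
        have h2 : a ^ k = b⁻¹ * u := hk
        rw [h2]
        group
      rw [h1]
      have : Commute (a ^ k) a := (Commute.refl a).zpow_left k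
      calc b * a ^ k * a * (b * a ^ k)⁻¹ = b * (a ^ k * a) * (a ^ k)⁻¹ * b⁻¹ := by group
        _ = b * (a * a ^ k) * (a ^ k)⁻¹ * b⁻¹ := by rw [this.eq]
        _ = b * a * b⁻¹ := by group
  have hcasesG : ∀ u ∈ (P : Subgroup G), u * (a : G) * u⁻¹ = (a : G) ∨
      u * (a : G) * u⁻¹ = (b : G) * (a : G) * (b : G)⁻¹ := by
    intro u hu
    rcases hconjc ⟨u, hu⟩ with h | h
    · exact Or.inl (congrArg Subtype.val h)
    · exact Or.inr (congrArg Subtype.val h)
  have hag : orderOf (a : G) = 2 ^ (n - 1) := by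
    rw [Subgroup.orderOf_coe, ha]
  have hna : ∃ x ∈ (P : Subgroup G), ∃ y ∈ (P : Subgroup G), x * y ≠ y * x := by
    obtain ⟨x, y, hxy⟩ := hcomm_ne
    exact ⟨x, x.2, y, y.2, fun h => hxy (Subtype.ext h)⟩
  have heven := two_dvd_index_centralizer P (by omega) hP a.2 hag hna
  have hn1 : n - 1 ≠ 0 := by omega
  have hζ0 : ζ ≠ 0 := hζ.ne_zero (pow_ne_zero _ two_ne_zero)
  obtain ⟨k, hk⟩ : ∃ k, n - 1 = k + 1 := ⟨n - 2, by omega⟩
  have hk' : n - 2 = k := by omega
  have hζk := hζ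
  rw [hk] at hζk
  have hmin : ∀ e : ℕ, ζ ^ e = 1 → 2 ^ (n - 1) ∣ e := fun e h => hζ.dvd_of_pow_eq_one e h
  -- the inverting case
  have hinv : b * a * b⁻¹ = a⁻¹ → IntermediateField.adjoin ℚ {z : ℂ | ∃ χ : Cfsg.IrrCharacter G, (χ : G → ℂ) (a : G) = z} = IntermediateField.adjoin ℚ ({ζ + ζ⁻¹} : Set ℂ) := by
    intro h3
    have hj1 : 1 ≤ 2 ^ (n - 1) := Nat.one_le_two_pow
    have hjodd : Odd (2 ^ (n - 1) - 1) := by
      rw [hk, pow_succ]
      have : 1 ≤ 2 ^ k := Nat.one_le_two_pow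
      exact ⟨2 ^ k - 1, by omega⟩
    have hgj : (a : G) ^ (2 ^ (n - 1) - 1) = (a : G)⁻¹ := by
      rw [eq_inv_iff_mul_eq_one, ← pow_succ, Nat.sub_add_cancel hj1, ← hag]
      exact pow_orderOf_eq_one _
    have hy : (b : G) * (a : G) * (b : G)⁻¹ = (a : G) ^ (2 ^ (n - 1) - 1) := by
      rw [hgj]
      exact congrArg Subtype.val h3
    have hζj : ζ ^ (2 ^ (n - 1) - 1) = 1 * ζ⁻¹ := by
      rw [one_mul]
      apply eq_inv_of_mul_eq_one_left
      rw [← pow_succ, Nat.sub_add_cancel hj1]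
      exact hζ.pow_eq_one
    have hne : ζ ≠ 1 * ζ⁻¹ := by
      rw [one_mul]
      intro h
      have h1 : ζ ^ 2 = 1 := by
        rw [pow_two]
        nth_rw 1 [h]
        exact inv_mul_cancel₀ hζ0
      have h2 := hmin 2 h1
      have h3 : (2 : ℕ) ^ 2 ∣ 2 ^ (n - 1) := pow_dvd_pow 2 (by omega)
      have h4 := h3.trans h2
      omega
    have := forward_field P hn1 hζ hag hjodd hy (Or.inl rfl) hζj hne hcasesG
    simpa only [one_mul] using this
  rcases hcases with ⟨_, h3⟩ | ⟨_, h3⟩ | ⟨hn4, _, h3⟩ | ⟨hn4, _, h3⟩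
  · exact ⟨a, a.2, heven, Or.inl (hinv h3)⟩
  · exact ⟨a, a.2, heven, Or.inl (hinv h3)⟩
  · -- the modular group has a larger abelianization
    exfalso
    let y : (P : Subgroup G) := a ^ 2 ^ (n - 2)
    have hy2 : y ^ 2 = 1 := by
      show (a ^ 2 ^ (n - 2)) ^ 2 = 1
      rw [← pow_mul, ← pow_succ, show n - 2 + 1 = n - 1 by omega, ← ha, pow_orderOf_eq_one]
    have hle2 : commutator (P : Subgroup G) ≤ Subgroup.zpowers y := by
      apply Cfsg.Agent.Lib.Transfer.commutator_le_of_index_two (Subgroup.zpowers a) (Subgroup.zpowers y) hUi ?_ hb ?_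
      · rintro u ⟨i, rfl⟩ v ⟨j, rfl⟩
        exact (Commute.refl a).zpow_zpow i j
      · have hyc : Commute a y := (Commute.refl a).pow_right _
        have hconj : b * a * b⁻¹ = a * y := by
          rw [h3, pow_add, pow_one]
        rintro v ⟨j, rfl⟩
        have h7 : b * a ^ j * b⁻¹ = (b * a * b⁻¹) ^ j := by
          rw [← MulAut.conj_apply, map_zpow, MulAut.conj_apply]
        show b * a ^ j * b⁻¹ * (a ^ j)⁻¹ ∈ _
        rw [h7, hconj, hyc.mul_zpow]
        have h8 : a ^ j * y ^ j * (a ^ j)⁻¹ = y ^ j := by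
          have : Commute (a ^ j) (y ^ j) := hyc.zpow_zpow j j
          rw [this.eq]; group
        rw [h8]
        exact Subgroup.zpow_mem _ (Subgroup.mem_zpowers y) j
    have hcardle : Nat.card (commutator (P : Subgroup G)) ≤ 2 := by
      have h9 : Nat.card (commutator (P : Subgroup G)) ≤ Nat.card (Subgroup.zpowers y) :=
        Subgroup.card_le_of_le hle2
      refine h9.trans ?_
      rw [Nat.card_zpowers]
      exact Nat.le_of_dvd (by norm_num) (orderOf_dvd_of_pow_eq_one hy2)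
    have hmul := (commutator (P : Subgroup G)).card_mul_index
    rw [hi, hX] at hmul
    have h10 : 2 ^ n ≤ 2 * 4 := by
      rw [← hmul]; exact Nat.mul_le_mul_right 4 hcardle
    have h11 : 2 ^ 4 ≤ 2 ^ n := Nat.pow_le_pow_right (by norm_num) hn4
    norm_num at h11
    omega
  · -- the semidihedral case
    obtain ⟨l, hl⟩ : ∃ l, k = l + 1 := ⟨k - 1, by omega⟩
    have hj1 : 1 ≤ 2 ^ (n - 2) := Nat.one_le_two_pow
    have hjodd : Odd (2 ^ (n - 2) - 1) := by
      rw [hk', hl, pow_succ]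
      have : 1 ≤ 2 ^ l := Nat.one_le_two_pow
      exact ⟨2 ^ l - 1, by omega⟩
    have hy : (b : G) * (a : G) * (b : G)⁻¹ = (a : G) ^ (2 ^ (n - 2) - 1) := congrArg Subtype.val h3
    have hneg := neg_one_of_primitive hζk
    rw [← hk'] at hneg
    have hζj : ζ ^ (2 ^ (n - 2) - 1) = -1 * ζ⁻¹ := by
      have h1 : ζ ^ (2 ^ (n - 2) - 1) * ζ = -1 := by
        rw [← pow_succ, Nat.sub_add_cancel hj1]
        exact hneg
      field_simp
      exact h1
    have hne : ζ ≠ -1 * ζ⁻¹ := by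
      intro h
      have h1 : ζ ^ 2 = -1 := by
        rw [pow_two]
        nth_rw 1 [h]
        field_simp
      have h2 : ζ ^ 4 = 1 := by
        rw [show (4 : ℕ) = 2 * 2 by norm_num, pow_mul, h1]
        norm_num
      have h3 := hmin 4 h2
      have h4 : (2 : ℕ) ^ 3 ∣ 2 ^ (n - 1) := pow_dvd_pow 2 (by omega)
      have h5 := h4.trans h3
      omega
    have := forward_field P hn1 hζ hag hjodd hy (Or.inr rfl) hζj hne hcasesG
    refine ⟨a, a.2, heven, Or.inr ?_⟩
    rw [this]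
    congr 2
    ring

theorem backward_dir {G : Type*} [Group G] [Fintype G] (P : Sylow 2 G) (n : ℕ) (hn : 3 ≤ n)
    (hP : Nat.card P = 2 ^ n) (ζ : ℂ) (hζ : IsPrimitiveRoot ζ (2 ^ (n - 1))) (g : G)
    (hgP : g ∈ (P : Subgroup G)) (heven : 2 ∣ (Subgroup.centralizer ({g} : Set G)).index)
    (hF : ∃ κ : ℂ, (κ = 1 ∨ κ = -1) ∧
      IntermediateField.adjoin ℚ {z : ℂ | ∃ χ : Cfsg.IrrCharacter G, (χ : G → ℂ) g = z} =
        IntermediateField.adjoin ℚ ({ζ + κ * ζ⁻¹} : Set ℂ)) :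
    (commutator ↥P).index = 4 := by
  classical
  haveI : Fact (Nat.Prime 2) := ⟨Nat.prime_two⟩
  have hX : Nat.card (P : Subgroup G) = 2 ^ n := hP
  have hPp : IsPGroup 2 (P : Subgroup G) := P.isPGroup'
  show (commutator (P : Subgroup G)).index = 4
  have hnotle : ¬ ((P : Subgroup G) ≤ Subgroup.centralizer ({g} : Set G)) := by
    intro hle
    apply P.not_dvd_index
    exact heven.trans (Subgroup.index_dvd_of_le hle)
  obtain ⟨y, hyP, hyc⟩ := SetLike.not_le_iff_exists.mp hnotle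
  have hyg : g * y ≠ y * g := by
    intro h
    apply hyc
    rw [Subgroup.mem_centralizer_singleton_iff]
    exact h.symm
  let gh : (P : Subgroup G) := ⟨g, hgP⟩
  let yh : (P : Subgroup G) := ⟨y, hyP⟩
  have hghyh : gh * yh ≠ yh * gh := fun h => hyg (congrArg Subtype.val h)
  have hna : ∃ a b : (P : Subgroup G), a * b ≠ b * a := ⟨gh, yh, hghyh⟩
  by_cases hn3 : n = 3
  · subst hn3
    apply index_four hPp hna
    have h1 := Subgroup.index_dvd_card (commutator (P : Subgroup G))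
    rw [hX] at h1
    obtain ⟨c, hc, hc2⟩ := (Nat.dvd_prime_pow Nat.prime_two).mp h1
    rw [hc2]
    by_cases hc3 : c = 3
    · exfalso
      subst hc3
      have h2 := (commutator (P : Subgroup G)).card_mul_index
      rw [hc2, hX] at h2
      have h3 : Nat.card (commutator (P : Subgroup G)) = 1 := by omega
      rw [Subgroup.card_eq_one] at h3
      apply hghyh
      have h4 : ⁅gh, yh⁆ ∈ commutator (P : Subgroup G) := by
        rw [_root_.commutator_def]
        exact Subgroup.commutator_mem_commutator (Subgroup.mem_top _) (Subgroup.mem_top _)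
      rw [h3, Subgroup.mem_bot, commutatorElement_eq_one_iff_mul_comm] at h4
      exact h4
    · have h5 : (2 : ℕ) ^ c ∣ 2 ^ 2 := pow_dvd_pow 2 (by omega)
      simpa using h5
  have hn4 : 4 ≤ n := by omega
  obtain ⟨k, hk⟩ : ∃ k, n - 1 = k + 1 := ⟨n - 2, by omega⟩
  have hk1 : 2 ≤ k := by omega
  have hζk := hζ
  rw [hk] at hζk
  have hneg := neg_one_of_primitive hζk
  have hζ0 : ζ ≠ 0 := hζ.ne_zero (pow_ne_zero _ two_ne_zero)
  have hoddK : Odd (1 + 2 ^ k) := by
    obtain ⟨l, rfl⟩ : ∃ l, k = l + 1 := ⟨k - 1, by omega⟩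
    rw [pow_succ]
    exact ⟨2 ^ l, by ring⟩
  obtain ⟨K, hKc, hKm⟩ := exists_coprime_lift (Nat.card G) n (1 + 2 ^ k) (by omega) hoddK Nat.card_pos.ne'
  obtain ⟨σ, hσ⟩ := exists_sigma (Nat.card G) K hKc
  have hdvdG : 2 ^ n ∣ Nat.card G := by
    rw [← hP]
    exact Subgroup.card_subgroup_dvd_card _
  have hζG : ζ ^ Nat.card G = 1 := by
    have h1 : 2 ^ (k + 1) ∣ Nat.card G := (pow_dvd_pow 2 (by omega)).trans hdvdG
    obtain ⟨d, hd⟩ := h1
    rw [hd, pow_mul, hζk.pow_eq_one, one_pow]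
  have hKm1 : K ≡ 1 + 2 ^ k [MOD 2 ^ (k + 1)] := hKm.of_dvd (pow_dvd_pow 2 (by omega))
  have hσζ : σ ζ = -ζ := by
    rw [hσ ζ hζG, pow_eq_pow_of_primitive hζk hKm1, pow_add, pow_one, hneg]
    ring
  obtain ⟨κ, hκ, hFκ⟩ := hF
  have hσκ : σ κ = κ := by rcases hκ with rfl | rfl <;> simp
  have hσs : σ (ζ + κ * ζ⁻¹) = -(ζ + κ * ζ⁻¹) := by
    rw [map_add, map_mul, map_inv₀, hσζ, hσκ, inv_neg]
    ring
  have hs0 : ζ + κ * ζ⁻¹ ≠ 0 := by
    intro h
    have hκκ : κ * κ = 1 := by rcases hκ with rfl | rfl <;> norm_num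
    have h1 : ζ ^ 2 = -κ := by
      field_simp at h
      linear_combination h
    have h2 : ζ ^ 4 = 1 := by
      rw [show (4 : ℕ) = 2 * 2 by norm_num, pow_mul, h1]
      linear_combination hκκ
    have h3 := hζk.dvd_of_pow_eq_one 4 h2
    have h4 : (2 : ℕ) ^ 3 ∣ 2 ^ (k + 1) := pow_dvd_pow 2 (by omega)
    have h5 := h4.trans h3
    omega
  have hnc : ¬ IsConj g (g ^ K) := by
    intro hc
    have hfix : ∀ z ∈ {z : ℂ | ∃ χ : Cfsg.IrrCharacter G, (χ : G → ℂ) g = z}, σ z = z := by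
      rintro z ⟨χ, rfl⟩
      have hχ := IsIrrCharacter.isCharacter χ.2
      rw [sigma_character hχ σ K hσ g]
      exact (IsClassFunction.congr_isConj (IsCharacter.isClassFunction hχ) hc).symm
    have hsmem : ζ + κ * ζ⁻¹ ∈ IntermediateField.adjoin ℚ {z : ℂ | ∃ χ : Cfsg.IrrCharacter G, (χ : G → ℂ) g = z} := by
      rw [hFκ]
      exact IntermediateField.mem_adjoin_simple_self ℚ _
    have h1 := fixes_adjoin σ _ hfix hsmem
    rw [hσs] at h1
    apply hs0
    linear_combination (-1 / 2 : ℂ) * h1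
  -- the order of `g`
  have hgo : orderOf g ∣ 2 ^ n := by
    have h1 : orderOf gh ∣ Nat.card (P : Subgroup G) := orderOf_dvd_natCard gh
    rw [hX] at h1
    rwa [show orderOf gh = orderOf g from Subgroup.orderOf_mk g hgP] at h1
  obtain ⟨a, ha, hga⟩ := (Nat.dvd_prime_pow Nat.prime_two).mp hgo
  have ha1 : a = k + 1 := by
    by_contra hne
    have hcases : a ≤ k ∨ a = n := by omega
    rcases hcases with hle | heq
    · apply hnc
      have h1 : g ^ (2 ^ k) = 1 := by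
        rw [← orderOf_dvd_iff_pow_eq_one, hga]
        exact pow_dvd_pow 2 hle
      have h2 : K ≡ 1 + 2 ^ k [MOD orderOf g] := hKm.of_dvd hgo
      rw [pow_eq_pow_of_order h2, pow_add, pow_one, h1, mul_one]
    · apply hghyh
      have h1 : Subgroup.zpowers gh = ⊤ := by
        apply Subgroup.eq_top_of_card_eq
        rw [Nat.card_zpowers, hX, show orderOf gh = orderOf g from Subgroup.orderOf_mk g hgP, hga, heq]
      have h2 : yh ∈ Subgroup.zpowers gh := by
        rw [h1]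
        exact Subgroup.mem_top _
      obtain ⟨i, hi⟩ := h2
      rw [← hi]
      exact ((Commute.refl gh).zpow_right i).eq
  have hgo1 : orderOf g = 2 ^ (k + 1) := by rw [hga, ha1]
  have hgho : orderOf gh = 2 ^ (k + 1) := by
    rw [show orderOf gh = orderOf g from Subgroup.orderOf_mk g hgP, hgo1]
  have hAidx : (Subgroup.zpowers gh).index = 2 := by
    have h1 := (Subgroup.zpowers gh).card_mul_index
    rw [Nat.card_zpowers, hgho, hX] at h1
    have h2 : 2 ^ (k + 1) * 2 = 2 ^ n := by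
      rw [← pow_succ]
      congr 1
      omega
    exact Nat.eq_of_mul_eq_mul_left (by positivity) (h1.trans h2.symm)
  haveI hAn : (Subgroup.zpowers gh).Normal := Subgroup.normal_of_index_eq_two hAidx
  have h1 : yh * gh * yh⁻¹ ∈ Subgroup.zpowers gh := hAn.conj_mem gh (Subgroup.mem_zpowers gh) yh
  obtain ⟨j, hj⟩ : ∃ j : ℕ, gh ^ j = yh * gh * yh⁻¹ := mem_powers_iff_mem_zpowers.mpr h1
  have hjG : y * g * y⁻¹ = g ^ j := (congrArg Subtype.val hj).symm
  have hy2 : yh ^ 2 ∈ Subgroup.zpowers gh := Subgroup.sq_mem_of_index_two hAidx yh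
  have hy2c : y ^ 2 * g = g * y ^ 2 := by
    obtain ⟨i, hi⟩ := hy2
    have h2 : yh ^ 2 * gh = gh * yh ^ 2 := by
      rw [← hi]
      exact ((Commute.refl gh).zpow_left i).eq
    exact congrArg Subtype.val h2
  have hjj : g ^ (j * j) = g ^ 1 := by
    rw [pow_mul, pow_one, ← hjG]
    have h2 : (y * g * y⁻¹) ^ j = y * g ^ j * y⁻¹ := conj_pow
    rw [h2, ← hjG]
    calc y * (y * g * y⁻¹) * y⁻¹ = (y ^ 2 * g) * (y ^ 2)⁻¹ := by rw [pow_two]; group
      _ = g := by rw [hy2c]; group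
  have hmodj : j * j ≡ 1 [MOD 2 ^ (k + 1)] := by
    have h2 := pow_eq_pow_iff_modEq.mp hjj
    rwa [hgo1] at h2
  have hjodd : j % 2 = 1 := by
    have h2 : j * j ≡ 1 [MOD 2] := hmodj.of_dvd (dvd_pow_self 2 (Nat.succ_ne_zero k))
    have h3 : (j * j) % 2 = 1 % 2 := h2
    rw [Nat.mul_mod] at h3
    have h4 : j % 2 = 0 ∨ j % 2 = 1 := by omega
    rcases h4 with h4 | h4
    · rw [h4] at h3
      omega
    · exact h4
  have hj3 : j % 4 = 3 := by
    by_contra hne
    have hj1 : j % 4 = 1 := by omega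
    obtain ⟨t, rfl⟩ : ∃ t, j = 4 * t + 1 := ⟨j / 4, by omega⟩
    -- `2^k` divides `4t`
    have h2 : 2 ^ (k + 1) ∣ (4 * t + 1) * (4 * t + 1) - 1 :=
      (Nat.modEq_iff_dvd' (by nlinarith)).mp hmodj.symm
    have h3 : (4 * t + 1) * (4 * t + 1) - 1 = 2 * ((4 * t) * (2 * t + 1)) := by
      have : (4 * t + 1) * (4 * t + 1) = 2 * ((4 * t) * (2 * t + 1)) + 1 := by ring
      omega
    rw [h3, pow_succ, mul_comm (2 ^ k) 2] at h2
    have h4 := Nat.dvd_of_mul_dvd_mul_left (by norm_num) h2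
    have h5 : Nat.Coprime (2 ^ k) (2 * t + 1) := by
      apply Nat.Coprime.pow_left
      rw [Nat.coprime_two_left]
      exact ⟨t, rfl⟩
    obtain ⟨w, hw⟩ := h5.dvd_of_dvd_mul_right h4
    have hcase : w % 2 = 0 ∨ w % 2 = 1 := by omega
    rcases hcase with hw0 | hw1
    · apply hyg
      have h6 : 4 * t + 1 ≡ 1 [MOD 2 ^ (k + 1)] := by
        obtain ⟨v, rfl⟩ : ∃ v, w = 2 * v := ⟨w / 2, by omega⟩
        have h7 : 4 * t + 1 = 1 + 2 ^ (k + 1) * v := by
          rw [hw, pow_succ]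
          ring
        rw [h7]
        simp [Nat.ModEq]
      have h8 : g ^ (4 * t + 1) = g ^ 1 := pow_eq_pow_of_order (by rw [hgo1]; exact h6)
      rw [pow_one] at h8
      rw [h8] at hjG
      have h9 : y * g = g * y := by
        calc y * g = y * g * y⁻¹ * y := by group
          _ = g * y := by rw [hjG]
      exact h9.symm
    · apply hnc
      have h6 : 4 * t + 1 ≡ 1 + 2 ^ k [MOD 2 ^ (k + 1)] := by
        obtain ⟨v, rfl⟩ : ∃ v, w = 2 * v + 1 := ⟨w / 2, by omega⟩
        have h7 : 4 * t + 1 = 1 + 2 ^ k + 2 ^ (k + 1) * v := by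
          rw [hw, pow_succ]
          ring
        rw [h7]
        simp [Nat.ModEq]
      have h8 : g ^ (4 * t + 1) = g ^ (1 + 2 ^ k) := pow_eq_pow_of_order (by rw [hgo1]; exact h6)
      have h9 : g ^ K = g ^ (1 + 2 ^ k) :=
        pow_eq_pow_of_order (hKm.of_dvd hgo)
      rw [h9, ← h8, ← hjG]
      exact isConj_iff.mpr ⟨y, rfl⟩
  obtain ⟨t, rfl⟩ : ∃ t, j = 4 * t + 3 := ⟨j / 4, by omega⟩
  have hcomm : (gh ^ 2) ^ (2 * t + 1) ∈ commutator (P : Subgroup G) := by
    have h2 : ⁅yh, gh⁆ ∈ commutator (P : Subgroup G) := by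
      rw [_root_.commutator_def]
      exact Subgroup.commutator_mem_commutator (Subgroup.mem_top _) (Subgroup.mem_top _)
    have h3 : ⁅yh, gh⁆ = (gh ^ 2) ^ (2 * t + 1) := by
      rw [commutatorElement_def, ← hj, ← pow_mul]
      rw [show 4 * t + 3 = 2 * (2 * t + 1) + 1 by ring, pow_succ]
      group
    rwa [h3] at h2
  have hordsq : orderOf (gh ^ 2) = 2 ^ k := by
    rw [orderOf_pow_of_dvd (by norm_num) (by rw [hgho]; exact dvd_pow_self 2 (Nat.succ_ne_zero k)), hgho,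
      pow_succ]
    simp
  have hsq : gh ^ 2 ∈ commutator (P : Subgroup G) := by
    have hcop : Nat.Coprime (2 * t + 1) (2 ^ k) := by
      apply Nat.Coprime.pow_right
      rw [Nat.coprime_two_right]
      exact ⟨t, rfl⟩
    obtain ⟨r, -, hr⟩ := Nat.exists_mul_mod_eq_one_of_coprime hcop (by
      have : 2 ^ 2 ≤ 2 ^ k := Nat.pow_le_pow_right (by norm_num) hk1
      omega)
    have h2 : (gh ^ 2) ^ ((2 * t + 1) * r) = gh ^ 2 := by
      rw [← pow_mod_orderOf, hordsq, hr, pow_one]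
    rw [← h2, pow_mul]
    exact Subgroup.pow_mem _ hcomm r
  have hle : Subgroup.zpowers (gh ^ 2) ≤ commutator (P : Subgroup G) := by
    rw [Subgroup.zpowers_le]
    exact hsq
  have hidx : (Subgroup.zpowers (gh ^ 2)).index = 4 := by
    have h2 := (Subgroup.zpowers (gh ^ 2)).card_mul_index
    rw [Nat.card_zpowers, hordsq, hX] at h2
    have h3 : 2 ^ k * 4 = 2 ^ n := by
      rw [show n = k + 2 by omega, pow_add]
      norm_num
    exact Nat.eq_of_mul_eq_mul_left (by positivity) (h2.trans h3.symm)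
  apply index_four hPp hna
  rw [← hidx]
  exact Subgroup.index_dvd_of_le hle

/-- Let G be a finite group with Sylow 2-subgroup P of order 2^n ≥ 8, and let ζ be a primitive 2^(n−1)-th root of unity in ℂ. Then the commutator subgroup of P has index 4 in P if and only if there is an element g of P whose conjugacy class in G has even size and such that the field generated over ℚ by the values at g of all irreducible complex characters of G equals ℚ(ζ + ζ⁻¹) or ℚ(ζ − ζ⁻¹). -/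
theorem result {G : Type*} [Group G] [Finite G] (P : Sylow 2 G) (n : ℕ) (hn : 3 ≤ n) (hP : Nat.card P = 2 ^ n) (ζ : ℂ) (hζ : IsPrimitiveRoot ζ (2 ^ (n - 1))) :
    (commutator ↥P).index = 4 ↔
      ∃ g : G, g ∈ (P : Subgroup G) ∧ 2 ∣ (Subgroup.centralizer ({g} : Set G)).index ∧
        (IntermediateField.adjoin ℚ {z : ℂ | ∃ χ : Cfsg.IrrCharacter G, (χ : G → ℂ) g = z} = IntermediateField.adjoin ℚ ({ζ + ζ⁻¹} : Set ℂ) ∨
          IntermediateField.adjoin ℚ {z : ℂ | ∃ χ : Cfsg.IrrCharacter G, (χ : G → ℂ) g = z} = IntermediateField.adjoin ℚ ({ζ - ζ⁻¹} : Set ℂ)) := by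
  classical
  haveI : Fact (Nat.Prime 2) := ⟨Nat.prime_two⟩
  cases nonempty_fintype G
  constructor
  · exact forward_dir P n hn hP ζ hζ
  · rintro ⟨g, hgP, heven, hF⟩
    refine backward_dir P n hn hP ζ hζ g hgP heven ?_
    rcases hF with h | h
    · refine ⟨1, Or.inl rfl, ?_⟩
      rw [h, one_mul]
    · refine ⟨-1, Or.inr rfl, ?_⟩
      rw [h]
      congr 2
      ring

end Cfsg.Agent.S4923
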