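import Cfsg.Statements.S4931
import Cfsg.Agent.Lib.Char.Gallagher
import Cfsg.Agent.Lib.Char.Coset
import Cfsg.Agent.Lib.Char.Degree
import Cfsg.Agent.Lib.Char.Ito
import Cfsg.Agent.Lib.Transfer.Tate
import Cfsg.Agent.Lib.Basic.Core
import Cfsg.Agent.Lib.Basic.Misc2
import Cfsg.Agent.Lib.Basic.Frattini

set_option autoImplicit false
open Cfsg

namespace Cfsg.Agent.S4931

open Cfsg.Agent.Lib.Char Cfsg.Agent.Lib.Basic Subgroup
open scoped ComplexConjugate commutatorElement

universe u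

/-- Irreducible characters of a finite group separate the elements from the identity. -/
theorem exists_irr_ne {Γ : Type*} [Group Γ] [Fintype Γ] {x : Γ} (hx : x ≠ 1) :
    ∃ β : Γ → ℂ, IsIrrCharacter Γ β ∧ β x ≠ β 1 := by
  classical
  by_contra hcon
  push Not at hcon
  have h1 := sum_irr_degree_mul_apply x
  rw [if_neg hx] at h1
  have h2 : ∑ χ : IrrCharacter Γ, (χ : Γ → ℂ) 1 * (χ : Γ → ℂ) x =
      ∑ χ : IrrCharacter Γ, (χ : Γ → ℂ) 1 ^ 2 := by
    refine Finset.sum_congr rfl fun χ _ => ?_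
    rw [hcon χ χ.2, sq]
  rw [h2, sum_irr_degree_sq] at h1
  exact (NeZero.ne ((Nat.card Γ : ℂ))) h1

/-- The character-theoretic input. -/
theorem inter_le {G : Type u} [Group G] [Fintype G] {p : ℕ} [hp : Fact p.Prime] (N : Subgroup G)
    [Fintype N] (P₁ A₁ : Subgroup N) [P₁.Normal] [hA : A₁.Normal]
    (hA₁ : ∀ a ∈ P₁, ∀ b ∈ P₁, a * b * a⁻¹ * b⁻¹ ∈ A₁) (hidx : ¬ p ∣ P₁.index)
    (hext : ∀ θ : IrrCharacter N, ¬ p ∣ charDegree (θ : N → ℂ) →
      ∃ χ : IrrCharacter G, ∀ x : N, (χ : G → ℂ) x = (θ : N → ℂ) x) :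
    Subgroup.normalClosure ((A₁.map N.subtype : Subgroup G) : Set G) ⊓ N ≤ A₁.map N.subtype := by
  classical
  rintro n ⟨hn, hnN⟩
  by_contra hnA
  have hn' : (⟨n, hnN⟩ : N) ∉ A₁ := fun h => hnA ⟨_, h, rfl⟩
  have hne : ((⟨n, hnN⟩ : N) : N ⧸ A₁) ≠ 1 := by
    rw [Ne, QuotientGroup.eq_one_iff]
    exact hn'
  haveI : Fintype (N ⧸ A₁) := Fintype.ofFinite _
  haveI : Fintype A₁ := Fintype.ofFinite _
  obtain ⟨β, hβ, hβne⟩ := exists_irr_ne hne
  have hθ : IsIrrCharacter N (inflate A₁ β) := isIrrCharacter_inflate A₁ hβ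
  have hdeg : charDegree (inflate A₁ β) = charDegree β := rfl
  -- the degree is prime to `p`
  have hpdeg : ¬ p ∣ charDegree β := by
    let B : Subgroup (N ⧸ A₁) := P₁.map (QuotientGroup.mk' A₁)
    haveI hBn : B.Normal := Subgroup.Normal.map inferInstance _ (QuotientGroup.mk'_surjective A₁)
    have hab : ∀ a ∈ B, ∀ b ∈ B, a * b = b * a := by
      rintro _ ⟨a, ha, rfl⟩ _ ⟨b, hb, rfl⟩
      have h1 := hA₁ a ha b hb
      have h2 : QuotientGroup.mk' A₁ (a * b * a⁻¹ * b⁻¹) = 1 :=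
        (QuotientGroup.eq_one_iff _).mpr h1
      simp only [map_mul, map_inv] at h2
      have h3 : QuotientGroup.mk' A₁ a * QuotientGroup.mk' A₁ b =
          QuotientGroup.mk' A₁ b * QuotientGroup.mk' A₁ a := by
        have := mul_inv_eq_one.mp h2
        exact mul_inv_eq_iff_eq_mul.mp this
      exact h3
    have h1 := charDegree_dvd_index_of_abelian_normal hβ B hab
    have h2 : B.index ∣ P₁.index :=
      Subgroup.index_map_dvd _ (QuotientGroup.mk'_surjective A₁)
    exact fun h => hidx (h.trans (h1.trans h2))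
  obtain ⟨χ, hχ⟩ := hext ⟨_, hθ⟩ (by
    show ¬ p ∣ charDegree (inflate A₁ β)
    rw [hdeg]
    exact hpdeg)
  have hχc : IsCharacter G (χ : G → ℂ) := IsIrrCharacter.isCharacter χ.2
  haveI : (charKer (χ : G → ℂ)).Normal := charKer_normal hχc
  have hle : Subgroup.normalClosure ((A₁.map N.subtype : Subgroup G) : Set G) ≤
      charKer (χ : G → ℂ) := by
    apply Subgroup.normalClosure_le_normal
    rintro _ ⟨a, ha, rfl⟩
    show N.subtype a ∈ charKer (χ : G → ℂ)
    rw [mem_charKer hχc]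
    have h1 := hχ a
    have h2 := hχ 1
    simp only [OneMemClass.coe_one] at h2
    show (χ : G → ℂ) a = _
    rw [h1, h2]
    show β ((a : N) : N ⧸ A₁) = β ((1 : N) : N ⧸ A₁)
    have h3 : ((a : N) : N ⧸ A₁) = 1 := (QuotientGroup.eq_one_iff a).mpr ha
    rw [h3]
    rfl
  have h1 := (mem_charKer hχc).mp (hle hn)
  have h2 := hχ ⟨n, hnN⟩
  have h3 := hχ 1
  simp only [OneMemClass.coe_one] at h3
  simp only at h2
  rw [h2, h3] at h1
  exact hβne h1

/-- The `p'`-core meets a `p`-subgroup trivially. -/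
theorem core_inf_pgroup {H : Type*} [Group H] [Finite H] {p : ℕ} [hp : Fact p.Prime]
    {P : Subgroup H} (hP : IsPGroup p P) {x : H} (h1 : x ∈ pPrimeCore p H) (h2 : x ∈ P) :
    x = 1 := by
  have h3 : (Nat.card (pPrimeCore p H)).Coprime p := pPrimeCore_coprime p
  have h4 : orderOf x ∣ Nat.card (pPrimeCore p H) := by
    rw [← Subgroup.orderOf_mk x h1]
    exact orderOf_dvd_natCard _
  obtain ⟨k, hk⟩ := (IsPGroup.iff_orderOf.mp hP) ⟨x, h2⟩
  rw [Subgroup.orderOf_mk] at hk
  rw [hk] at h4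
  rcases Nat.eq_zero_or_pos k with rfl | hkpos
  · rw [pow_zero, orderOf_eq_one_iff] at hk
    exact hk
  · exfalso
    have hpd : p ∣ Nat.card (pPrimeCore p H) := (dvd_pow_self p hkpos.ne').trans h4
    have := Nat.Coprime.eq_one_of_dvd h3.symm hpd
    exact hp.out.ne_one this

/-- A normal complement to a Sylow subgroup gives `O_{p'} · S = H`. -/
theorem core_sup_sylow {H : Type*} [Group H] [Finite H] {p : ℕ} [hp : Fact p.Prime]
    (S₁ : Sylow p H) (C : Subgroup H) (hC : C.IsComplement' (S₁ : Subgroup H)) (S₀ : Sylow p H)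
    [hCn : C.Normal] :
    pPrimeCore p H ⊔ (S₀ : Subgroup H) = ⊤ := by
  have h1 : C.index = Nat.card S₁ := hC.symm.index_eq_card
  have h1' : (S₁ : Subgroup H).index = Nat.card C := hC.index_eq_card
  have hcop : (Nat.card C).Coprime p := by
    rw [Nat.coprime_comm, hp.out.coprime_iff_not_dvd, ← h1']
    exact S₁.not_dvd_index
  have hCO : C ≤ pPrimeCore p H := le_pPrimeCore hCn hcop
  have h2 : (pPrimeCore p H ⊔ (S₀ : Subgroup H)).index ∣ C.index :=
    Subgroup.index_dvd_of_le (hCO.trans le_sup_left)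
  have h3 : (pPrimeCore p H ⊔ (S₀ : Subgroup H)).index ∣ (S₀ : Subgroup H).index :=
    Subgroup.index_dvd_of_le le_sup_right
  obtain ⟨k, hk⟩ := IsPGroup.iff_card.mp S₁.isPGroup'
  rw [h1, hk] at h2
  obtain ⟨j, -, hj⟩ := (Nat.dvd_prime_pow hp.out).mp h2
  rcases Nat.eq_zero_or_pos j with rfl | hjpos
  · rw [pow_zero, Subgroup.index_eq_one] at hj
    exact hj
  · exfalso
    rw [hj] at h3
    exact S₀.not_dvd_index ((dvd_pow_self p hjpos.ne').trans h3)

/-- The group-theoretic part. -/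
theorem complement_of {G : Type u} [Group G] [Finite G] {p : ℕ} [hp : Fact p.Prime] (P : Sylow p G)
    (L D : Subgroup G) [hLn : L.Normal] [hDn : D.Normal] (hPL : (P : Subgroup G) ≤ L) (hDL : D ≤ L)
    (hLN : L ⊓ Subgroup.normalizer ((P : Subgroup G) : Set G) ≤ P)
    (hPD : ⁅(P : Subgroup G), (P : Subgroup G)⁆ ≤ D)
    (hDP : D ⊓ (P : Subgroup G) ≤ ⁅(P : Subgroup G), (P : Subgroup G)⁆) :
    ∃ K : Subgroup G, K.Normal ∧ K ⊔ Subgroup.normalizer ((P : Subgroup G) : Set G) = ⊤ ∧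
      K ⊓ Subgroup.normalizer ((P : Subgroup G) : Set G) = ⊥ := by
  classical
  have hpp : p.Prime := hp.out
  let f : G →* G ⧸ D := QuotientGroup.mk' D
  have hf : Function.Surjective f := QuotientGroup.mk'_surjective D
  let Q : Sylow p (G ⧸ D) := P.mapSurjective hf
  have hQc : (Q : Subgroup (G ⧸ D)) = (P : Subgroup G).map f := rfl
  let Lb : Subgroup (G ⧸ D) := L.map f
  haveI hLbn : Lb.Normal := Subgroup.Normal.map hLn _ hf
  have hQL : (Q : Subgroup (G ⧸ D)) ≤ Lb := Subgroup.map_mono hPL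
  let Q₁ : Sylow p Lb := Q.subtype hQL
  have hQ₁c : (Q₁ : Subgroup Lb) = (Q : Subgroup (G ⧸ D)).subgroupOf Lb := Sylow.coe_subtype _ _
  -- `Q` is commutative
  have hQab : ∀ a ∈ (Q : Subgroup (G ⧸ D)), ∀ b ∈ (Q : Subgroup (G ⧸ D)), a * b = b * a := by
    rintro _ ⟨x, hx, rfl⟩ _ ⟨y, hy, rfl⟩
    have h1 : ⁅x, y⁆ ∈ D := hPD (Subgroup.commutator_mem_commutator hx hy)
    have h2 : f ⁅x, y⁆ = 1 := (QuotientGroup.eq_one_iff _).mpr h1
    rw [map_commutatorElement, commutatorElement_eq_one_iff_mul_comm] at h2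
    exact h2
  -- the normalizer of `Q₁`
  have hnormQ : Subgroup.normalizer ((Q₁ : Subgroup Lb) : Set Lb) ≤
      Subgroup.centralizer ((Q₁ : Subgroup Lb) : Set Lb) := by
    intro x hx
    have hxQ : (x : G ⧸ D) ∈ (Q : Subgroup (G ⧸ D)) := by
      obtain ⟨x, hxL⟩ := x
      obtain ⟨l, hl, rfl⟩ := hxL
      show f l ∈ (Q : Subgroup (G ⧸ D))
      let T : Subgroup G := (P : Subgroup G) ⊔ D
      have hPT : (P : Subgroup G) ≤ T := le_sup_left
      have hTL : T ≤ L := sup_le hPL hDL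
      have h2 : ((l • P : Sylow p G) : Subgroup G) ≤ T := by
        intro z hz
        rw [Sylow.coe_subgroup_smul] at hz
        obtain ⟨y, hy, rfl⟩ := hz
        have hyQ : f y ∈ (Q : Subgroup (G ⧸ D)) := ⟨y, hy, rfl⟩
        have hyL : f y ∈ Lb := hQL hyQ
        have h3 : (⟨f y, hyL⟩ : Lb) ∈ (Q₁ : Subgroup Lb) := by
          rw [hQ₁c]
          exact hyQ
        have h4 := (Subgroup.mem_normalizer_iff.mp hx _).mp h3
        rw [hQ₁c] at h4
        have h5 : f l * f y * (f l)⁻¹ ∈ (Q : Subgroup (G ⧸ D)) := h4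
        obtain ⟨w, hw, hwe⟩ := h5
        have h6 : w⁻¹ * (l * y * l⁻¹) ∈ D := by
          rw [← QuotientGroup.eq_one_iff]
          show f (w⁻¹ * (l * y * l⁻¹)) = 1
          simp only [map_mul, map_inv]
          rw [show f w = f l * f y * (f l)⁻¹ from hwe]
          group
        have h7 : l * y * l⁻¹ = w * (w⁻¹ * (l * y * l⁻¹)) := by group
        show l * y * l⁻¹ ∈ T
        rw [h7]
        exact T.mul_mem (hPT hw) ((le_sup_right : D ≤ T) h6)
      obtain ⟨c, hc⟩ := MulAction.exists_smul_eq T ((l • P).subtype h2) (P.subtype hPT)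
      simp_rw [Sylow.smul_subtype, Subgroup.smul_def, smul_smul] at hc
      have h8 : (c : G) * l ∈ Subgroup.normalizer ((P : Subgroup G) : Set G) :=
        Sylow.smul_eq_iff_mem_normalizer.mp (Sylow.subtype_injective hc)
      have h9 : (c : G) * l ∈ (P : Subgroup G) :=
        hLN ⟨L.mul_mem (hTL c.2) hl, h8⟩
      have h10 : l ∈ T := by
        have : l = (c : G)⁻¹ * ((c : G) * l) := by group
        rw [this]
        exact T.mul_mem (T.inv_mem c.2) (hPT h9)
      have h11 : T.map f ≤ (Q : Subgroup (G ⧸ D)) := by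
        rw [Subgroup.map_sup]
        refine sup_le le_rfl ?_
        rintro _ ⟨d, hd, rfl⟩
        have : f d = 1 := (QuotientGroup.eq_one_iff _).mpr hd
        rw [this]
        exact one_mem _
      exact h11 ⟨l, h10, rfl⟩
    rw [Subgroup.mem_centralizer_iff]
    intro y hy
    have hy' : (y : G ⧸ D) ∈ (Q : Subgroup (G ⧸ D)) := by
      have : y ∈ (Q₁ : Subgroup Lb) := hy
      rw [hQ₁c] at this
      exact this
    apply Subtype.ext
    exact hQab _ hy' _ hxQ
  -- Burnside's transfer theorem in `Lb`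
  have hB := MonoidHom.ker_transferSylow_isComplement' Q₁ hnormQ
  haveI hker : (MonoidHom.transferSylow Q₁ hnormQ).ker.Normal := inferInstance
  have hOcQ := core_sup_sylow Q₁ _ hB Q₁
  let Oc : Subgroup Lb := pPrimeCore p Lb
  let Kb : Subgroup (G ⧸ D) := Oc.map Lb.subtype
  haveI hKbn : Kb.Normal := by
    haveI : Oc.Characteristic := pPrimeCore_characteristic p
    exact ConjAct.normal_of_characteristic_of_normal
  let K' : Subgroup G := Kb.comap f
  haveI hK'n : K'.Normal := hKbn.comap f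
  have hK'L : K' ≤ L := by
    intro x hx
    obtain ⟨o, -, ho⟩ : f x ∈ Kb := hx
    obtain ⟨l, hl, hle⟩ := o.2
    have h1 : l⁻¹ * x ∈ D := by
      rw [← QuotientGroup.eq_one_iff]
      show f (l⁻¹ * x) = 1
      rw [map_mul, map_inv, hle]
      rw [show f x = (o : G ⧸ D) from ho.symm]
      group
    have h2 : x = l * (l⁻¹ * x) := by group
    rw [h2]
    exact L.mul_mem hl (hDL h1)
  have hDK' : D ≤ K' := by
    intro d hd
    show f d ∈ Kb
    rw [show f d = 1 from (QuotientGroup.eq_one_iff _).mpr hd]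
    exact one_mem _
  have hK'P : K' ⊓ (P : Subgroup G) ≤ ⁅(P : Subgroup G), (P : Subgroup G)⁆ := by
    rintro x ⟨hxK, hxP⟩
    obtain ⟨o, ho, hoe⟩ : f x ∈ Kb := hxK
    have h1 : o ∈ (Q₁ : Subgroup Lb) := by
      rw [hQ₁c]
      show (o : G ⧸ D) ∈ (Q : Subgroup (G ⧸ D))
      rw [show (o : G ⧸ D) = f x from hoe]
      exact ⟨x, hxP, rfl⟩
    have h2 : o = 1 := core_inf_pgroup (P := (Q₁ : Subgroup Lb)) Q₁.isPGroup' ho h1
    have h3 : f x = 1 := by
      rw [← show (o : G ⧸ D) = f x from hoe, h2]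
      rfl
    have h4 : x ∈ D := (QuotientGroup.eq_one_iff _).mp h3
    exact hDP ⟨h4, hxP⟩
  have hLK' : ∀ l ∈ L, ∃ k ∈ K', ∃ x ∈ (P : Subgroup G), l = k * x := by
    intro l hl
    have h1 : (⟨f l, ⟨l, hl, rfl⟩⟩ : Lb) ∈ ((Oc ⊔ (Q₁ : Subgroup Lb) : Subgroup Lb) : Set Lb) := by
      rw [hOcQ]
      trivial
    rw [Subgroup.normal_mul] at h1
    obtain ⟨o, ho, q, hq, hoq⟩ := h1
    have hq' : (q : G ⧸ D) ∈ (Q : Subgroup (G ⧸ D)) := by
      have : q ∈ (Q₁ : Subgroup Lb) := hq
      rw [hQ₁c] at this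
      exact this
    obtain ⟨x, hx, hxe⟩ := hq'
    refine ⟨l * x⁻¹, ?_, x, hx, by group⟩
    show f (l * x⁻¹) ∈ Kb
    rw [map_mul, map_inv]
    rw [show f x = (q : G ⧸ D) from hxe]
    have h2 : f l = (o : G ⧸ D) * (q : G ⧸ D) := (congrArg Subtype.val hoq).symm
    rw [h2, mul_inv_cancel_right]
    exact ⟨o, ho, rfl⟩
  -- Tate's theorem on `K'`
  have hfr : ⁅(P : Subgroup G), (P : Subgroup G)⁆ ≤
      (frattini (P : Subgroup G)).map (P : Subgroup G).subtype := by
    rw [← Subgroup.map_subtype_commutator]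
    haveI : Group.IsNilpotent (P : Subgroup G) := P.isPGroup'.isNilpotent
    exact Subgroup.map_mono commutator_le_frattini_of_isNilpotent
  obtain ⟨S₂, N₂, hN₂n, hN₂c⟩ : HasNormalPComplement p K' :=
    Cfsg.Agent.Lib.Transfer.tate_hasNormalPComplement P K' (hK'P.trans hfr)
  obtain ⟨S₀, hS₀⟩ := sylow_inf_of_isSubnormal p K' (Subgroup.Normal.isSubnormal hK'n) P
  have hK₀S := core_sup_sylow S₂ N₂ hN₂c S₀
  let K₀ : Subgroup K' := pPrimeCore p K'
  let K₀' : Subgroup G := K₀.map K'.subtype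
  haveI hK₀'n : K₀'.Normal := by
    haveI : K₀.Characteristic := pPrimeCore_characteristic p
    exact ConjAct.normal_of_characteristic_of_normal
  refine ⟨K₀', hK₀'n, ?_, ?_⟩
  · have hsup := Sylow.normalizer_sup_eq_top' P hPL
    rw [eq_top_iff, ← hsup]
    refine sup_le le_sup_right ?_
    intro l hl
    obtain ⟨k, hk, x, hx, rfl⟩ := hLK' l hl
    have h1 : (⟨k, hk⟩ : K') ∈ ((K₀ ⊔ (S₀ : Subgroup K') : Subgroup K') : Set K') := by
      rw [hK₀S]
      trivial
    rw [Subgroup.normal_mul] at h1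
    obtain ⟨o, ho, s, hs, hos⟩ := h1
    have hs' : (s : G) ∈ (P : Subgroup G) := by
      have : s ∈ (S₀ : Subgroup K') := hs
      rw [hS₀] at this
      exact this
    have hk' : k = (o : G) * (s : G) := (congrArg Subtype.val hos).symm
    have hxN : x ∈ Subgroup.normalizer ((P : Subgroup G) : Set G) := Subgroup.le_normalizer hx
    have hsN : (s : G) ∈ Subgroup.normalizer ((P : Subgroup G) : Set G) :=
      Subgroup.le_normalizer hs'
    rw [hk', mul_assoc]
    exact Subgroup.mul_mem _ ((le_sup_left : K₀' ≤ _) ⟨o, ho, rfl⟩)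
      ((le_sup_right : _ ≤ K₀' ⊔ _) (Subgroup.mul_mem _ hsN hxN))
  · rw [eq_bot_iff]
    rintro x ⟨⟨o, ho, rfl⟩, hxN⟩
    have hxL : (o : G) ∈ L := hK'L o.2
    have hxP : (o : G) ∈ (P : Subgroup G) := hLN ⟨hxL, hxN⟩
    have h1 : o ∈ (S₀ : Subgroup K') := by
      rw [hS₀]
      exact hxP
    have h2 : o = 1 := core_inf_pgroup (P := (S₀ : Subgroup K')) S₀.isPGroup' ho h1
    rw [h2]
    exact one_mem _

/-- Let G be a finite group, p a prime and P a Sylow p-subgroup of G with normalizer N. Then every irreducible complex character of N of degree not divisible by p is the restriction of an irreducible character of G if and only if there is a normal subgroup K of G with KN = G and K ∩ N = 1. -/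
theorem result {G : Type*} [Group G] [Finite G] (p : ℕ) [Fact p.Prime] (P : Sylow p G) :
    (∀ θ : Cfsg.IrrCharacter ↥(Subgroup.normalizer ((P : Subgroup G) : Set G)), ¬ p ∣ Cfsg.charDegree (θ : ↥(Subgroup.normalizer ((P : Subgroup G) : Set G)) → ℂ) →
        ∃ χ : Cfsg.IrrCharacter G, ∀ x : ↥(Subgroup.normalizer ((P : Subgroup G) : Set G)), (χ : G → ℂ) x = (θ : ↥(Subgroup.normalizer ((P : Subgroup G) : Set G)) → ℂ) x) ↔
      ∃ K : Subgroup G, K.Normal ∧ K ⊔ Subgroup.normalizer ((P : Subgroup G) : Set G) = ⊤ ∧ K ⊓ Subgroup.normalizer ((P : Subgroup G) : Set G) = ⊥ := by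
  classical
  cases nonempty_fintype G
  constructor
  · intro hext
    let N := Subgroup.normalizer ((P : Subgroup G) : Set G)
    have hPN : (P : Subgroup G) ≤ N := Subgroup.le_normalizer
    let P₁ : Subgroup N := (P : Subgroup G).subgroupOf N
    haveI hP₁ : P₁.Normal := Subgroup.normal_in_normalizer
    have hP₁m : P₁.map N.subtype = (P : Subgroup G) := Subgroup.map_subgroupOf_eq_of_le hPN
    have hidx : ¬ p ∣ P₁.index := by
      intro h
      have h1 : (P : Subgroup G).relIndex N * N.index = (P : Subgroup G).index :=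
        Subgroup.relIndex_mul_index hPN
      apply P.not_dvd_index
      rw [← h1]
      exact h.mul_right _
    let L : Subgroup G := Subgroup.normalClosure ((P : Subgroup G) : Set G)
    let D : Subgroup G :=
      Subgroup.normalClosure ((⁅(P : Subgroup G), (P : Subgroup G)⁆ : Subgroup G) : Set G)
    haveI hFN : Fintype N := Fintype.ofFinite _
    have hcomm : ⁅P₁, P₁⁆.map N.subtype = ⁅(P : Subgroup G), (P : Subgroup G)⁆ := by
      rw [Subgroup.map_commutator, hP₁m]
    have hL1 := inter_le N P₁ P₁ (fun a ha b hb =>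
      P₁.mul_mem (P₁.mul_mem (P₁.mul_mem ha hb) (P₁.inv_mem ha)) (P₁.inv_mem hb)) hidx hext
    have hL2 := inter_le N P₁ ⁅P₁, P₁⁆ (fun a ha b hb =>
      Subgroup.commutator_mem_commutator ha hb) hidx hext
    rw [hP₁m] at hL1
    rw [hcomm] at hL2
    refine complement_of P L D Subgroup.le_normalClosure ?_ hL1 Subgroup.le_normalClosure ?_
    · apply Subgroup.normalClosure_le_normal
      have h0 : ⁅(P : Subgroup G), (P : Subgroup G)⁆ ≤ (P : Subgroup G) := by
        rw [Subgroup.commutator_le]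
        intro a ha b hb
        exact (P : Subgroup G).mul_mem ((P : Subgroup G).mul_mem
          ((P : Subgroup G).mul_mem ha hb) ((P : Subgroup G).inv_mem ha))
          ((P : Subgroup G).inv_mem hb)
      exact h0.trans Subgroup.le_normalClosure
    · rintro x ⟨hxD, hxP⟩
      exact hL2 ⟨hxD, hPN hxP⟩
  · rintro ⟨K, hKn, hsup, hinf⟩
    let N := Subgroup.normalizer ((P : Subgroup G) : Set G)
    haveI hFN : Fintype N := Fintype.ofFinite _
    haveI hFQ : Fintype (G ⧸ K) := Fintype.ofFinite _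
    haveI hFK : Fintype K := Fintype.ofFinite _
    let f : N →* G ⧸ K := (QuotientGroup.mk' K).comp N.subtype
    have hfb : Function.Bijective f := by
      constructor
      · rw [injective_iff_map_eq_one]
        intro a ha
        have h1 : (a : G) ∈ K := (QuotientGroup.eq_one_iff _).mp ha
        have h2 : (a : G) ∈ K ⊓ N := ⟨h1, a.2⟩
        rw [hinf] at h2
        exact Subtype.ext h2
      · intro y
        obtain ⟨g, rfl⟩ := QuotientGroup.mk'_surjective K y
        have hg : g ∈ ((K ⊔ N : Subgroup G) : Set G) := by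
          rw [hsup]
          trivial
        rw [Subgroup.normal_mul] at hg
        obtain ⟨k, hk, n, hn, rfl⟩ := hg
        refine ⟨⟨n, hn⟩, ?_⟩
        show QuotientGroup.mk' K n = QuotientGroup.mk' K (k * n)
        rw [map_mul, show QuotientGroup.mk' K k = 1 from (QuotientGroup.eq_one_iff _).mpr hk,
          one_mul]
    let e : N ≃* G ⧸ K := MulEquiv.ofBijective f hfb
    intro θ _
    have hβ : IsIrrCharacter (G ⧸ K) ((θ : N → ℂ) ∘ e.symm) :=
      isIrrCharacter_comp_mulEquiv e.symm θ.2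
    have hχ : IsIrrCharacter G (inflate K ((θ : N → ℂ) ∘ e.symm)) := isIrrCharacter_inflate K hβ
    refine ⟨⟨_, hχ⟩, fun x => ?_⟩
    show (θ : N → ℂ) (e.symm ((x : G) : G ⧸ K)) = _
    have : e.symm ((x : G) : G ⧸ K) = x := by
      apply e.injective
      rw [MulEquiv.apply_symm_apply]
      rfl
    rw [this]

end Cfsg.Agent.S4931
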