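import Cfsg.Statements.S4937
import Cfsg.Agent.Lib.Blocks.AdExtend

set_option autoImplicit false
open Cfsg

namespace Cfsg.Agent.S4937

/-- Let G be a finite group, p a prime, M a maximal ideal of the algebraic integers containing p, N a normal subgroup of G and P a Sylow p-subgroup of N such that G = N·C_G(P). Let θ be an irreducible character in the principal p-block of N that is the restriction of some irreducible character of G. Then θ is the restriction of an irreducible character χ of G lying in the principal p-block of G such that, for every subgroup J of G containing N, the restriction of χ to J is an irreducible character of J lying in the principal p-block of J. -/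
theorem result {G : Type*} [Group G] [Finite G] (p : ℕ) [Fact p.Prime] (M : Ideal Cfsg.AlgInt) (hM : Cfsg.IsPModular p M) (N : Subgroup G) [N.Normal] (P : Sylow p ↥N)
    (hcov : N ⊔ Subgroup.centralizer (((P : Subgroup ↥N).map N.subtype : Subgroup G) : Set G) = ⊤)
    (θ : Cfsg.IrrCharacter ↥N) (hθ : θ ∈ Cfsg.principalBlock M ↥N)
    (hext : ∃ ψ : Cfsg.IrrCharacter G, ∀ x : ↥N, (ψ : G → ℂ) x = (θ : ↥N → ℂ) x) :
    ∃ χ : Cfsg.IrrCharacter G, χ ∈ Cfsg.principalBlock M G ∧ (∀ x : ↥N, (χ : G → ℂ) x = (θ : ↥N → ℂ) x) ∧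
      ∀ J : Subgroup G, N ≤ J → ∃ ξ : Cfsg.IrrCharacter ↥J, ξ ∈ Cfsg.principalBlock M ↥J ∧ ∀ y : ↥J, (ξ : ↥J → ℂ) y = (χ : G → ℂ) y := by
  classical
  cases nonempty_fintype G
  letI : Fintype N := Fintype.ofFinite _
  set Q : Subgroup G := (P : Subgroup N).map N.subtype with hQ
  have hQN : Q ≤ N := by
    rintro _ ⟨x, _, rfl⟩
    exact x.2
  have hcQ : Nat.card Q = Nat.card (P : Subgroup N) :=
    Nat.card_congr ((P : Subgroup N).equivMapOfInjective N.subtype N.subtype_injective).symm.toEquiv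
  have hm : Nat.card N = Nat.card Q * (P : Subgroup N).index := by
    rw [hcQ]
    exact (Subgroup.card_mul_index _).symm
  have hpm : ¬ p ∣ (P : Subgroup N).index := P.not_dvd_index
  have hcov' : ∀ g : G, ∃ y ∈ Subgroup.centralizer (Q : Set G), y⁻¹ * g ∈ N := by
    intro g
    have hg : g ∈ N ⊔ Subgroup.centralizer (Q : Set G) := by
      rw [hcov]
      trivial
    obtain ⟨n, hn, y, hy, rfl⟩ := Subgroup.mem_sup_of_normal_left.mp hg
    refine ⟨y, hy, ?_⟩
    have h1 := (inferInstance : N.Normal).conj_mem n hn y⁻¹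
    simpa [mul_assoc] using h1
  obtain ⟨ψ, hψ⟩ := hext
  obtain ⟨χ, h1, h2⟩ := Cfsg.Agent.Lib.Blocks.ad_main_extend N hM Q hQN hm hpm hcov' ψ hψ hθ
  refine ⟨χ, ?_, h1, fun J hJ => Cfsg.Agent.Lib.Blocks.ad_restrict_principal N hM Q hQN hm hpm hcov' χ h1 hθ h2 J hJ⟩
  apply Cfsg.Agent.Lib.Blocks.ad_ext_principal N hM χ h1 hθ
  intro g _
  obtain ⟨y, hy, hyg⟩ := hcov' g
  refine ⟨y, QuotientGroup.eq.mpr hyg, ?_, h2 y hy⟩
  refine Cfsg.Agent.Lib.Blocks.adD_not_dvd' N Q hQN hm hpm y ?_
  intro q hq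
  rw [Subgroup.mem_centralizer_iff]
  intro z hz
  rw [Set.mem_singleton_iff] at hz
  subst hz
  exact ((Subgroup.mem_centralizer_iff.mp hy) q hq).symm

end Cfsg.Agent.S4937
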