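import Cfsg.Statements.S4969
import Cfsg.Agent.Lib.Char.Basic

set_option autoImplicit false
open Cfsg

namespace Cfsg.Agent.S4969



/-- Let G be a finite group with k conjugacy classes, g ∈ G, and N > 0. Then the sum over the irreducible complex characters χ of G with χ(1) ≥ N of |χ(g)|/χ(1) is at most √(k · #C_G(g)) / N. -/
theorem result {G : Type*} [Group G] [Finite G] (g : G) (N : ℝ) (hN : 0 < N) :
    ∑ᶠ χ : Cfsg.IrrCharacter G, (if N ≤ ‖(χ : G → ℂ) 1‖ then ‖(χ : G → ℂ) g‖ / ‖(χ : G → ℂ) 1‖ else 0) ≤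
      Real.sqrt ((Nat.card (ConjClasses G) : ℝ) * (Nat.card ↥(Subgroup.centralizer ({g} : Set G)) : ℝ)) / N := by
  classical
  letI := Fintype.ofFinite G
  rw [finsum_eq_sum_of_fintype]
  have hsq : ∑ χ : Cfsg.IrrCharacter G, ‖(χ : G → ℂ) g‖ ^ 2 =
      (Nat.card ↥(Subgroup.centralizer ({g} : Set G)) : ℝ) := by
    have h := Cfsg.Agent.Lib.Char.sum_irr_mul_conj_of_isConj (IsConj.refl g)
    have h2 : (∑ χ : Cfsg.IrrCharacter G, (χ : G → ℂ) g * (starRingEnd ℂ) ((χ : G → ℂ) g)) =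
        ((∑ χ : Cfsg.IrrCharacter G, ‖(χ : G → ℂ) g‖ ^ 2 : ℝ) : ℂ) := by
      rw [Complex.ofReal_sum]
      refine Finset.sum_congr rfl fun χ _ => ?_
      rw [Complex.mul_conj, Complex.normSq_eq_norm_sq]
    rw [h2] at h
    exact_mod_cast h
  have hk : (Fintype.card (Cfsg.IrrCharacter G) : ℝ) = (Nat.card (ConjClasses G) : ℝ) := by
    have := Cfsg.Agent.Lib.Char.card_irr_eq_card_conjClasses (G := G)
    rw [← Nat.card_eq_fintype_card, this]
  have hcs : (∑ χ : Cfsg.IrrCharacter G, ‖(χ : G → ℂ) g‖) ^ 2 ≤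
      (Nat.card (ConjClasses G) : ℝ) * (Nat.card ↥(Subgroup.centralizer ({g} : Set G)) : ℝ) := by
    have := sq_sum_le_card_mul_sum_sq (s := (Finset.univ : Finset (Cfsg.IrrCharacter G)))
      (f := fun χ => ‖(χ : G → ℂ) g‖)
    rw [Finset.card_univ, hk, hsq] at this
    exact this
  have hs : ∑ χ : Cfsg.IrrCharacter G, ‖(χ : G → ℂ) g‖ ≤
      Real.sqrt ((Nat.card (ConjClasses G) : ℝ) * (Nat.card ↥(Subgroup.centralizer ({g} : Set G)) : ℝ)) :=
    Real.le_sqrt_of_sq_le hcs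
  rw [le_div_iff₀ hN]
  refine le_trans ?_ hs
  rw [Finset.sum_mul]
  refine Finset.sum_le_sum fun χ _ => ?_
  split_ifs with h
  · rw [div_mul_eq_mul_div]
    apply div_le_of_le_mul₀ (le_trans hN.le h) (norm_nonneg _)
    exact mul_le_mul_of_nonneg_left h (norm_nonneg _)
  · simp

end Cfsg.Agent.S4969
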