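import Cfsg.Statements.S4989
import Cfsg.Agent.Lib.Char.Coset

set_option autoImplicit false
open Cfsg

namespace Cfsg.Agent.S4989



/-- Let H be a subgroup of the finite group G and χ an irreducible complex character of G. Then the inner product of the restriction of χ to H with itself, (1/#H)·Σ_{h ∈ H} |χ(h)|², is at most 1 + #(Z ∖ H)/#H, where Z is the set of zeros of χ in G. -/
theorem result {G : Type*} [Group G] [Finite G] (H : Subgroup G) (χ : Cfsg.IrrCharacter G) : (Nat.card ↥H : ℝ)⁻¹ * ∑ᶠ h : ↥H, ‖(χ : G → ℂ) h‖ ^ 2 ≤ 1 + (Set.ncard ({x : G | (χ : G → ℂ) x = 0} \ (H : Set G)) : ℝ) / (Nat.card ↥H : ℝ) := by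
  classical
  letI := Fintype.ofFinite G
  letI := Fintype.ofFinite H
  rw [finsum_eq_sum_of_fintype]
  have hχc := Cfsg.Agent.Lib.Char.IsIrrCharacter.isCharacter χ.2
  have htot := Cfsg.Agent.Lib.Char.sum_norm_sq_irr χ.2
  let f : G → ℝ := fun x => ‖(χ : G → ℂ) x‖ ^ 2
  let S : Finset G := Finset.univ.filter fun x => x ∉ H ∧ (χ : G → ℂ) x ≠ 0
  let Z : Finset G := Finset.univ.filter fun x => x ∉ H ∧ (χ : G → ℂ) x = 0
  let HH : Finset G := Finset.univ.filter fun x => x ∈ H
  have hHsum : ∑ h : H, ‖(χ : G → ℂ) h‖ ^ 2 = ∑ x ∈ HH, f x := by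
    rw [Finset.sum_subtype (p := (· ∈ H)) HH (by simp [HH]) f]
  have hHcard : HH.card = Nat.card H := by
    rw [Nat.card_eq_fintype_card]
    rw [Fintype.card_subtype]
  have hZcard : Set.ncard ({x : G | (χ : G → ℂ) x = 0} \ (H : Set G)) = Z.card := by
    rw [← Set.ncard_coe_finset]
    congr 1
    ext x
    simp [Z, and_comm]
  have hSge : (S.card : ℝ) ≤ ∑ x ∈ S, f x := by
    apply Cfsg.Agent.Lib.Char.card_le_sum_norm_sq hχc S
    · intro k hk x hx
      simp only [S, Finset.mem_filter, Finset.mem_univ, true_and] at hx ⊢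
      refine ⟨fun hc => hx.1 (Cfsg.Agent.Lib.Char.mem_of_pow_mem_of_coprime H hk hc), ?_⟩
      rw [Ne, Cfsg.Agent.Lib.Char.apply_pow_eq_zero_iff hχc hk]
      exact hx.2
    · intro x hx
      simp only [S, Finset.mem_filter, Finset.mem_univ, true_and] at hx
      exact hx.2
  have hZsum : ∑ x ∈ Z, f x = 0 := by
    refine Finset.sum_eq_zero fun x hx => ?_
    simp only [Z, Finset.mem_filter, Finset.mem_univ, true_and] at hx
    simp [f, hx.2]
  have hsplit : ∑ x : G, f x = ∑ x ∈ HH, f x + (∑ x ∈ S, f x + ∑ x ∈ Z, f x) := by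
    rw [← Finset.sum_filter_add_sum_filter_not Finset.univ (· ∈ H)]
    congr 1
    rw [← Finset.sum_filter_add_sum_filter_not (Finset.univ.filter (¬ · ∈ H)) (fun x => (χ : G → ℂ) x ≠ 0)]
    congr 1
    · apply Finset.sum_congr _ fun _ _ => rfl
      ext x
      simp [S]
    · apply Finset.sum_congr _ fun _ _ => rfl
      ext x
      simp [Z]
  have hcard : (Nat.card G : ℝ) = (HH.card : ℝ) + (S.card + Z.card) := by
    have h1 : Fintype.card G = HH.card + (S.card + Z.card) := by
      rw [← Finset.card_univ, ← Finset.card_filter_add_card_filter_not (s := Finset.univ) (· ∈ H)]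
      congr 1
      rw [← Finset.card_filter_add_card_filter_not (s := Finset.univ.filter (¬ · ∈ H)) (fun x => (χ : G → ℂ) x ≠ 0)]
      congr 2
      · ext x
        simp [S]
      · ext x
        simp [Z]
    rw [Nat.card_eq_fintype_card]
    exact_mod_cast h1
  have hHpos : (0 : ℝ) < (Nat.card H : ℝ) := by exact_mod_cast Nat.card_pos
  rw [hHsum, hZcard]
  have h2 : ∑ x ∈ HH, f x ≤ (Nat.card H : ℝ) + Z.card := by
    rw [← hHcard]
    have : ∑ x : G, f x = (Nat.card G : ℝ) := htot
    linarith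
  rw [inv_mul_le_iff₀ hHpos, mul_add, mul_one, mul_div_cancel₀ _ hHpos.ne']
  exact h2

end Cfsg.Agent.S4989
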