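import Cfsg.Statements.S4996
import Cfsg.Agent.Lib.Char.Coset

set_option autoImplicit false
open Cfsg

namespace Cfsg.Agent.S4996



/-- Let N be a normal subgroup of the finite group G and χ an irreducible complex character of G. Then the restriction of χ to N is not irreducible if and only if χ vanishes on some whole coset Nx of N in G. -/
theorem result {G : Type*} [Group G] [Finite G] (N : Subgroup G) [N.Normal] (χ : Cfsg.IrrCharacter G) : ¬ Cfsg.IsIrrCharacter ↥N (fun n : ↥N => (χ : G → ℂ) n) ↔ ∃ x : G, ∀ n : ↥N, (χ : G → ℂ) ((n : G) * x) = 0 := by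
  classical
  letI := Fintype.ofFinite G
  letI := Fintype.ofFinite N
  letI := Fintype.ofFinite (G ⧸ N)
  have hχc := Cfsg.Agent.Lib.Char.IsIrrCharacter.isCharacter χ.2
  have hNc : ((Nat.card N : ℕ) : ℂ) ≠ 0 := NeZero.ne _
  constructor
  · intro hnot
    by_contra hcon
    push Not at hcon
    apply hnot
    let ψ : G → ℂ := fun g => (χ : G → ℂ) g * (starRingEnd ℂ) ((χ : G → ℂ) g)
    have hψ : Cfsg.IsCharacter G ψ :=
      Cfsg.Agent.Lib.Char.IsCharacter.mul hχc (Cfsg.Agent.Lib.Char.IsCharacter.conj hχc)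
    obtain ⟨β, hβ, hβs⟩ := Cfsg.Agent.Lib.Char.exists_coset_avg N hψ
    have hNr : (0 : ℝ) < (Nat.card N : ℝ) := by exact_mod_cast Nat.card_pos
    -- real form of the values
    have hval : ∀ g : G, β (g : G ⧸ N) =
        (((Nat.card N : ℝ)⁻¹ * ∑ n : N, ‖(χ : G → ℂ) (n * g)‖ ^ 2 : ℝ) : ℂ) := by
      intro g
      have h1 := hβs g
      have h2 : ∑ n : N, ψ (n * g) = ((∑ n : N, ‖(χ : G → ℂ) (n * g)‖ ^ 2 : ℝ) : ℂ) := by
        rw [Complex.ofReal_sum]
        refine Finset.sum_congr rfl fun n _ => ?_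
        simp only [ψ]
        rw [Complex.mul_conj, Complex.normSq_eq_norm_sq]
      rw [h2] at h1
      have hN' : ((Nat.card N : ℝ) : ℂ) = (Nat.card N : ℂ) := by simp
      rw [Complex.ofReal_mul, Complex.ofReal_inv, h1, hN']
      field_simp
    let b : G ⧸ N → ℝ := fun x => (β x).re
    have hbβ : ∀ x, β x = (b x : ℂ) := by
      intro x
      induction x using QuotientGroup.induction_on with
      | H g =>
        simp only [b]
        rw [hval g, Complex.ofReal_re]
    have hbpos : ∀ x, 0 < b x := by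
      intro x
      induction x using QuotientGroup.induction_on with
      | H g =>
        simp only [b]
        rw [hval g, Complex.ofReal_re]
        apply mul_pos (inv_pos.mpr hNr)
        obtain ⟨n, hn⟩ := hcon g
        apply Finset.sum_pos' (fun _ _ => by positivity)
        exact ⟨n, Finset.mem_univ _, by have := norm_pos_iff.mpr hn; positivity⟩
    have hsumβ : ∑ x : G ⧸ N, β x = (Nat.card (G ⧸ N) : ℂ) := by
      have h1 := Cfsg.Agent.Lib.Char.sum_comp_mk N β
      have h2 : (Nat.card N : ℂ) * ∑ g : G, β (g : G ⧸ N) = ∑ g : G, ∑ n : N, ψ (n * g) := by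
        rw [Finset.mul_sum]
        exact Finset.sum_congr rfl fun g _ => (hβs g).symm
      have h3 : ∑ g : G, ∑ n : N, ψ (n * g) = (Nat.card N : ℂ) * (Nat.card G : ℂ) := by
        rw [Finset.sum_comm]
        have h4 : ∀ n : N, ∑ g : G, ψ (n * g) = (Nat.card G : ℂ) := by
          intro n
          have h5 : ∑ g : G, ψ g = (Nat.card G : ℂ) := by
            have := Cfsg.Agent.Lib.Char.classInner_irr_self χ.2
            simp only [Cfsg.classInner] at this
            have hG : ((Nat.card G : ℕ) : ℂ) ≠ 0 := NeZero.ne _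
            field_simp at this
            exact this
          rw [← h5]
          exact Fintype.sum_equiv (Equiv.mulLeft (n : G)) _ _ fun g => rfl
        simp only [h4, Finset.sum_const, Finset.card_univ, nsmul_eq_mul, Nat.card_eq_fintype_card]
      rw [h3, h1] at h2
      have h4 := Cfsg.Agent.Lib.Char.card_eq_card_mul_card_quotient N
      rw [h4] at h2
      exact mul_left_cancel₀ hNc (mul_left_cancel₀ hNc h2)
    have hsumb : ∑ x : G ⧸ N, b x = (Nat.card (G ⧸ N) : ℝ) := by
      have : ((∑ x : G ⧸ N, b x : ℝ) : ℂ) = ((Nat.card (G ⧸ N) : ℝ) : ℂ) := by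
        rw [Complex.ofReal_sum]
        simp only [← hbβ]
        rw [hsumβ]
        simp
      exact_mod_cast this
    let S : Finset (G ⧸ N) := Finset.univ.erase 1
    have hSge : (S.card : ℝ) ≤ ∑ x ∈ S, ‖β x‖ := by
      apply Cfsg.Agent.Lib.Char.card_le_sum_norm hβ S
      · intro k hk x hx
        simp only [S, Finset.mem_erase, Finset.mem_univ, and_true, ne_eq] at hx ⊢
        exact Cfsg.Agent.Lib.Char.pow_ne_one_of_coprime hk hx
      · intro x _
        rw [hbβ x]
        exact_mod_cast (hbpos x).ne'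
    have hnorm : ∀ x, ‖β x‖ = b x := by
      intro x
      rw [hbβ x, Complex.norm_real, Real.norm_of_nonneg (hbpos x).le]
    simp only [hnorm] at hSge
    have hsplit : ∑ x : G ⧸ N, b x = b 1 + ∑ x ∈ S, b x :=
      (Finset.add_sum_erase Finset.univ b (Finset.mem_univ 1)).symm
    have hScard : (S.card : ℝ) = (Nat.card (G ⧸ N) : ℝ) - 1 := by
      simp only [S]
      rw [Finset.card_erase_of_mem (Finset.mem_univ _), Finset.card_univ, Nat.card_eq_fintype_card]
      have : 0 < Fintype.card (G ⧸ N) := Fintype.card_pos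
      rw [Nat.cast_sub (by omega)]
      simp
    have hb1 : b 1 ≤ 1 := by linarith
    have hb1' : b 1 = (Nat.card N : ℝ)⁻¹ * ∑ n : N, ‖(χ : G → ℂ) n‖ ^ 2 := by
      have h1 := hval 1
      have h2 : ((1 : G) : G ⧸ N) = 1 := rfl
      rw [h2, hbβ 1] at h1
      simp only [mul_one] at h1
      exact_mod_cast h1
    refine Cfsg.Agent.Lib.Char.isIrrCharacter_of_norm_le_one
      (Cfsg.Agent.Lib.Char.isCharacter_resFun N hχc) ?_ ?_
    · exact Cfsg.Agent.Lib.Char.IsIrrCharacter.apply_one_ne_zero χ.2
    · rw [hb1'] at hb1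
      exact hb1
  · rintro ⟨x, hx⟩ hirr
    have h := Cfsg.Agent.Lib.Char.gallagher_norm N hχc hirr x
    simp only [hx, zero_mul, Finset.sum_const_zero] at h
    exact hNc h.symm

end Cfsg.Agent.S4996
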