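import Cfsg.Statements.S5001
import Cfsg.Agent.Lib.Blocks.Height
import Cfsg.Agent.Lib.Char.Gallagher

set_option autoImplicit false
open Cfsg

namespace Cfsg.Agent.S5001

open Cfsg.Agent.Lib.Blocks Cfsg.Agent.Lib.Char

universe u

variable {H : Type u} [Group H] [Fintype H] {M : Ideal Cfsg.AlgInt} {p : ℕ} [hp : Fact p.Prime]

/-- If a character is outside the local ideal at a central element, its restriction to a `p`-subgroup
has a linear constituent. -/
theorem exists_linear_constituent (hM : Cfsg.IsPModular p M) {θ : H → ℂ} (hθ : Cfsg.IsCharacter H θ) {z : H}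
    (hz : ∀ w, Commute w z) (D : Subgroup H) [Fintype D] (hDp : IsPGroup p D)
    (hne : ¬ Cfsg.MemLocalIdeal M (θ z)) :
    ∃ μ : Cfsg.IrrCharacter D, (μ : D → ℂ) 1 = 1 ∧
      Cfsg.classInner (Cfsg.Agent.Lib.Char.resFun D θ) (μ : D → ℂ) ≠ 0 := by
  classical
  have := isPrime_of_modular hM
  by_contra hcon
  push Not at hcon
  apply hne
  obtain ⟨n, hn⟩ : ∃ n : Cfsg.IrrCharacter H → ℕ, ∀ ψ : Cfsg.IrrCharacter H, Cfsg.classInner θ (ψ : H → ℂ) = n ψ :=
    ⟨fun ψ => (IsCharacter.classInner_irr_eq_nat hθ ψ.2).choose,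
      fun ψ => (IsCharacter.classInner_irr_eq_nat hθ ψ.2).choose_spec⟩
  have hm' : ∀ (ψ : Cfsg.IrrCharacter H) (μ : Cfsg.IrrCharacter D),
      ∃ m : ℕ, Cfsg.classInner (Cfsg.Agent.Lib.Char.resFun D (ψ : H → ℂ)) (μ : D → ℂ) = m := fun ψ μ =>
    IsCharacter.classInner_irr_eq_nat (isCharacter_resFun D (IsIrrCharacter.isCharacter ψ.2)) μ.2
  choose m hm using hm'
  have h1 : ∀ x, θ x = ∑ ψ : Cfsg.IrrCharacter H, (n ψ : ℂ) * (ψ : H → ℂ) x := by
    intro x
    have h := congrFun (classFunction_eq_sum θ (IsCharacter.isClassFunction hθ)) x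
    rw [Finset.sum_apply] at h
    rw [h]
    refine Finset.sum_congr rfl fun ψ _ => ?_
    simp only [Pi.smul_apply, smul_eq_mul, hn]
  have h2 : ∀ (ψ : Cfsg.IrrCharacter H) (d : D),
      (ψ : H → ℂ) (d : H) = ∑ μ : Cfsg.IrrCharacter D, (m ψ μ : ℂ) * (μ : D → ℂ) d := by
    intro ψ d
    have h := congrFun (classFunction_eq_sum (Cfsg.Agent.Lib.Char.resFun D (ψ : H → ℂ))
      (IsCharacter.isClassFunction (isCharacter_resFun D (IsIrrCharacter.isCharacter ψ.2)))) d
    rw [Finset.sum_apply] at h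
    refine h.trans (Finset.sum_congr rfl fun μ _ => ?_)
    simp only [Pi.smul_apply, smul_eq_mul, hm]
  have h3 : ∀ μ : Cfsg.IrrCharacter D, Cfsg.classInner (Cfsg.Agent.Lib.Char.resFun D θ) (μ : D → ℂ) =
      ∑ ψ : Cfsg.IrrCharacter H, (n ψ : ℂ) * (m ψ μ : ℂ) := by
    intro μ
    have h4 : ∀ ψ, (m ψ μ : ℂ) = (Nat.card D : ℂ)⁻¹ *
        ∑ d : D, (ψ : H → ℂ) (d : H) * (starRingEnd ℂ) ((μ : D → ℂ) d) := fun ψ => (hm ψ μ).symm
    simp only [h4]
    rw [Cfsg.classInner, Finset.mul_sum]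
    have h0 : ∀ d : D, Cfsg.Agent.Lib.Char.resFun D θ d = θ (d : H) := fun d => rfl
    simp only [h0]
    simp only [h1, Finset.sum_mul, Finset.mul_sum]
    rw [Finset.sum_comm]
    refine Finset.sum_congr rfl fun ψ _ => Finset.sum_congr rfl fun d _ => ?_
    ring
  have h5 : ∀ (μ : Cfsg.IrrCharacter D), (μ : D → ℂ) 1 = 1 → ∀ ψ, n ψ * m ψ μ = 0 := by
    intro μ hμ ψ
    have h6 := hcon μ hμ
    rw [h3] at h6
    have h7 : ∑ ψ : Cfsg.IrrCharacter H, n ψ * m ψ μ = 0 := by exact_mod_cast h6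
    exact (Finset.sum_eq_zero_iff.mp h7) ψ (Finset.mem_univ _)
  have h8 : θ z = ∑ ψ : Cfsg.IrrCharacter H, ∑ μ : Cfsg.IrrCharacter D,
      (n ψ : ℂ) * ((ψ : H → ℂ) z / (ψ : H → ℂ) 1) * ((m ψ μ : ℂ) * (μ : D → ℂ) 1) := by
    rw [h1]
    refine Finset.sum_congr rfl fun ψ _ => ?_
    rw [← Finset.mul_sum]
    have h9 := h2 ψ 1
    rw [Subgroup.coe_one] at h9
    rw [← h9]
    have hne1 := IsIrrCharacter.apply_one_ne_zero ψ.2
    field_simp
  rw [h8]
  refine MemLocalIdeal.sum _ fun ψ _ => MemLocalIdeal.sum _ fun μ _ => ?_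
  by_cases hμ : (μ : D → ℂ) 1 = 1
  · have h10 := h5 μ hμ ψ
    have h11 : (n ψ : ℂ) * (m ψ μ : ℂ) = 0 := by exact_mod_cast h10
    have h12 : (n ψ : ℂ) * ((ψ : H → ℂ) z / (ψ : H → ℂ) 1) * ((m ψ μ : ℂ) * (μ : D → ℂ) 1) =
        ((n ψ : ℂ) * (m ψ μ : ℂ)) * (((ψ : H → ℂ) z / (ψ : H → ℂ) 1) * (μ : D → ℂ) 1) := by ring
    rw [h12, h11, zero_mul]
    exact memLocalIdeal_zero
  · have h13 : (μ : D → ℂ) 1 = (Cfsg.charDegree (μ : D → ℂ) : ℂ) :=
      apply_one_eq_charDegree (IsIrrCharacter.isCharacter μ.2)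
    have h14 : p ∣ Cfsg.charDegree (μ : D → ℂ) := by
      obtain ⟨k, hk⟩ := IsPGroup.iff_card.mp hDp
      have h15 := charDegree_dvd_card μ.2
      rw [hk] at h15
      obtain ⟨j, -, hj⟩ := (Nat.dvd_prime_pow hp.out).mp h15
      rcases Nat.eq_zero_or_pos j with rfl | hj0
      · exfalso
        apply hμ
        rw [h13, hj]
        simp
      · rw [hj]
        exact dvd_pow_self p hj0.ne'
    have h16 : Cfsg.MemLocalIdeal M ((μ : D → ℂ) 1) := by
      rw [h13]
      exact (natCast_memLocalIdeal_iff hM _).mpr h14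
    have h17 : Cfsg.MemLocalRing M ((n ψ : ℂ) * ((ψ : H → ℂ) z / (ψ : H → ℂ) 1) * (m ψ μ : ℂ)) :=
      MemLocalRing.mul (MemLocalRing.mul (MemLocalRing.natCast _)
        (memLocalRing_of_isIntegral (isIntegral_central_div ψ hz))) (MemLocalRing.natCast _)
    have h18 := MemLocalIdeal.mul_left h17 h16
    convert h18 using 1
    ring

/-- Let p be a prime, G a finite group and B a p-block of G (relative to a maximal ideal M of the algebraic integers containing p) with defect group D. Let Z be a central p-subgroup of G contained in D and λ a linear character of Z (a homomorphism to the nonzero complex numbers). Say an irreducible character χ of G lies over λ when χ(z) = χ(1)λ(z) for all z ∈ Z. If some irreducible character in B lying over λ has height zero, then λ extends to a linear character of D. -/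
theorem result {G : Type*} [Group G] [Finite G] (p : ℕ) [Fact p.Prime] (M : Ideal Cfsg.AlgInt) (hM : Cfsg.IsPModular p M) (B : Set (Cfsg.IrrCharacter G)) (hB : Cfsg.IsPBlock M B) (D : Subgroup G) (hD : Cfsg.IsDefectGroup p M B D) (Z : Subgroup G) (hZc : Z ≤ Subgroup.center G) (hZp : IsPGroup p ↥Z) (hZD : Z ≤ D) (lam : ↥Z →* ℂˣ) (χ : Cfsg.IrrCharacter G) (hχ : χ ∈ B) (hover : (∀ z : ↥Z, (χ : G → ℂ) z = (χ : G → ℂ) 1 * (lam z : ℂ))) (h0 : Cfsg.blockHeight p B (χ : G → ℂ) = 0) : (∃ μ : ↥D →* ℂˣ, ∀ z : ↥Z, μ ⟨(z : G), hZD z.2⟩ = lam z) := by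
  classical
  cases nonempty_fintype G
  have := isPrime_of_modular hM
  have hpp : p.Prime := Fact.out
  obtain ⟨g, hg, hS⟩ := isDefectGroup_iff.mp hD
  have hne := irr_not_mem_of_height_zero hM hB hg hχ h0
  letI : Fintype ↥(Subgroup.centralizer ({g} : Set G)) := Fintype.ofFinite _
  letI : Fintype ↥(D.subgroupOf (Subgroup.centralizer ({g} : Set G))) := Fintype.ofFinite _
  have hgH : g ∈ Subgroup.centralizer ({g} : Set G) := mem_centralizer_singleton_of_commute (Commute.refl g)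
  have hz : ∀ w : ↥(Subgroup.centralizer ({g} : Set G)), Commute w (⟨g, hgH⟩ : ↥(Subgroup.centralizer ({g} : Set G))) :=
    fun w => Subtype.ext (commute_of_mem_centralizer_singleton w.2)
  have hDH : IsPGroup p ↥(D.subgroupOf (Subgroup.centralizer ({g} : Set G))) :=
    IsPGroup.comap_of_injective hS.isPGroup _ Subtype.val_injective
  obtain ⟨μ, hμ1, hμ⟩ := exists_linear_constituent hM
    (isCharacter_resFun (Subgroup.centralizer ({g} : Set G)) (IsIrrCharacter.isCharacter χ.2)) hz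
    (D.subgroupOf (Subgroup.centralizer ({g} : Set G))) hDH hne
  obtain ⟨φ, hφ⟩ := IsCharacter.exists_monoidHom (IsIrrCharacter.isCharacter μ.2) hμ1
  refine ⟨φ.comp (Subgroup.subgroupOfEquivOfLe hS.le).symm.toMonoidHom, fun z => ?_⟩
  have hzc : ∀ w : G, Commute w (z : G) := fun w => Subgroup.mem_center_iff.mp (hZc z.2) w
  have hDz : (z : G) ∈ D := hZD z.2
  have hzH : (z : G) ∈ Subgroup.centralizer ({g} : Set G) := hS.le hDz
  let t : ↥(D.subgroupOf (Subgroup.centralizer ({g} : Set G))) := ⟨⟨z, hzH⟩, Subgroup.mem_subgroupOf.mpr hDz⟩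
  have hval : ∀ x : ↥(D.subgroupOf (Subgroup.centralizer ({g} : Set G))),
      (χ : G → ℂ) ((t * x : ↥(D.subgroupOf (Subgroup.centralizer ({g} : Set G)))) : ↥(Subgroup.centralizer ({g} : Set G))) =
        (lam z : ℂ) * (χ : G → ℂ) ((x : ↥(Subgroup.centralizer ({g} : Set G))) : G) := by
    intro x
    have h1 := irr_central_mul χ hzc ((x : ↥(Subgroup.centralizer ({g} : Set G))) : G)
    have h2 := hover z
    have hne1 := IsIrrCharacter.apply_one_ne_zero χ.2
    have h3 : (χ : G → ℂ) (z : G) / (χ : G → ℂ) 1 = (lam z : ℂ) := by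
      rw [h2]
      field_simp
    rw [h3] at h1
    exact h1
  have hμt : ∀ x, (μ : ↥(D.subgroupOf (Subgroup.centralizer ({g} : Set G))) → ℂ) (t * x) =
      (φ t : ℂ) * (μ : ↥(D.subgroupOf (Subgroup.centralizer ({g} : Set G))) → ℂ) x := by
    intro x
    rw [congrFun hφ, congrFun hφ, map_mul, Units.val_mul]
  have key : Cfsg.classInner (Cfsg.Agent.Lib.Char.resFun (D.subgroupOf (Subgroup.centralizer ({g} : Set G)))
      (Cfsg.Agent.Lib.Char.resFun (Subgroup.centralizer ({g} : Set G)) (χ : G → ℂ)))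
      (μ : ↥(D.subgroupOf (Subgroup.centralizer ({g} : Set G))) → ℂ) =
      ((lam z : ℂ) * (starRingEnd ℂ) (φ t : ℂ)) * Cfsg.classInner (Cfsg.Agent.Lib.Char.resFun (D.subgroupOf (Subgroup.centralizer ({g} : Set G)))
      (Cfsg.Agent.Lib.Char.resFun (Subgroup.centralizer ({g} : Set G)) (χ : G → ℂ)))
      (μ : ↥(D.subgroupOf (Subgroup.centralizer ({g} : Set G))) → ℂ) := by
    have hsum : ∑ x : ↥(D.subgroupOf (Subgroup.centralizer ({g} : Set G))),
        (χ : G → ℂ) ((x : ↥(Subgroup.centralizer ({g} : Set G))) : G) *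
          (starRingEnd ℂ) ((μ : ↥(D.subgroupOf (Subgroup.centralizer ({g} : Set G))) → ℂ) x) =
        ((lam z : ℂ) * (starRingEnd ℂ) (φ t : ℂ)) * ∑ x : ↥(D.subgroupOf (Subgroup.centralizer ({g} : Set G))),
        (χ : G → ℂ) ((x : ↥(Subgroup.centralizer ({g} : Set G))) : G) *
          (starRingEnd ℂ) ((μ : ↥(D.subgroupOf (Subgroup.centralizer ({g} : Set G))) → ℂ) x) := by
      rw [Finset.mul_sum, ← Equiv.sum_comp (Equiv.mulLeft t)]
      refine Finset.sum_congr rfl fun x _ => ?_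
      simp only [Equiv.coe_mulLeft, hμt, map_mul]
      rw [hval]
      ring
    show (Nat.card _ : ℂ)⁻¹ * ∑ x : ↥(D.subgroupOf (Subgroup.centralizer ({g} : Set G))),
        (χ : G → ℂ) ((x : ↥(Subgroup.centralizer ({g} : Set G))) : G) *
          (starRingEnd ℂ) ((μ : ↥(D.subgroupOf (Subgroup.centralizer ({g} : Set G))) → ℂ) x) =
        ((lam z : ℂ) * (starRingEnd ℂ) (φ t : ℂ)) * ((Nat.card _ : ℂ)⁻¹ * ∑ x : ↥(D.subgroupOf (Subgroup.centralizer ({g} : Set G))),
        (χ : G → ℂ) ((x : ↥(Subgroup.centralizer ({g} : Set G))) : G) *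
          (starRingEnd ℂ) ((μ : ↥(D.subgroupOf (Subgroup.centralizer ({g} : Set G))) → ℂ) x))
    rw [mul_left_comm, ← hsum]
  have h1 : (lam z : ℂ) * (starRingEnd ℂ) (φ t : ℂ) = 1 := by
    have h2 : (1 - (lam z : ℂ) * (starRingEnd ℂ) (φ t : ℂ)) * Cfsg.classInner (Cfsg.Agent.Lib.Char.resFun (D.subgroupOf (Subgroup.centralizer ({g} : Set G)))
      (Cfsg.Agent.Lib.Char.resFun (Subgroup.centralizer ({g} : Set G)) (χ : G → ℂ)))
      (μ : ↥(D.subgroupOf (Subgroup.centralizer ({g} : Set G))) → ℂ) = 0 := by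
      rw [sub_mul, one_mul, ← key, sub_self]
    rcases mul_eq_zero.mp h2 with h3 | h3
    · exact (sub_eq_zero.mp h3).symm
    · exact absurd h3 hμ
  have hnorm : ‖(φ t : ℂ)‖ = 1 := by
    have h2 := norm_eq_one_of_degree_one (IsIrrCharacter.isCharacter μ.2) hμ1 t
    rwa [hφ] at h2
  have h4 : (φ t : ℂ) * (starRingEnd ℂ) (φ t : ℂ) = 1 := by
    rw [Complex.mul_conj, Complex.normSq_eq_norm_sq, hnorm]
    simp
  have h5 : (lam z : ℂ) = (φ t : ℂ) := by
    calc (lam z : ℂ) = (lam z : ℂ) * ((φ t : ℂ) * (starRingEnd ℂ) (φ t : ℂ)) := by rw [h4, mul_one]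
      _ = ((lam z : ℂ) * (starRingEnd ℂ) (φ t : ℂ)) * (φ t : ℂ) := by ring
      _ = (φ t : ℂ) := by rw [h1, one_mul]
  apply Units.ext
  rw [h5]
  rfl

end Cfsg.Agent.S5001
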