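import Cfsg.Statements.S5011
-- import your own Cfsg.Agent.* helpers here

set_option autoImplicit false
open Cfsg

namespace Cfsg.Agent.S5011

/-- Let G be a finite non-abelian simple group and ρ an irreducible complex representation of G on a space of dimension greater than one (irreducible in the sense that the only subspaces invariant under every ρ(x) are 0 and the whole space). Then for every non-identity element g of G, the centralizer of g does not act irreducibly: there is a non-zero proper subspace invariant under ρ(c) for every c commuting with g. -/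
theorem result {G : Type*} [Group G] [Finite G] [IsSimpleGroup G]
    (hG : ¬ IsMulCommutative G) {V : Type*} [AddCommGroup V] [Module ℂ V] [FiniteDimensional ℂ V]
    (ρ : Representation ℂ G V)
    (hirr : ∀ W : Submodule ℂ V, (∀ x : G, ∀ v ∈ W, ρ x v ∈ W) → W = ⊥ ∨ W = ⊤)
    (hdim : 1 < Module.finrank ℂ V) (g : G) (hg : g ≠ 1) :
    ∃ W : Submodule ℂ V, W ≠ ⊥ ∧ W ≠ ⊤ ∧ ∀ c ∈ Subgroup.centralizer ({g} : Set G), ∀ v ∈ W, ρ c v ∈ W := by
  classical
  by_contra hno
  push Not at hno
  have : Nontrivial V := Module.nontrivial_of_finrank_pos (R := ℂ) (by omega)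
  obtain ⟨μ, hμ⟩ := Module.End.exists_eigenvalue (ρ g)
  -- the eigenspace is invariant under the centralizer of `g`
  have hE : Module.End.eigenspace (ρ g) μ = ⊤ := by
    by_contra hne
    obtain ⟨c, hc, v, hv, hcv⟩ := hno _ hμ hne
    apply hcv
    rw [Module.End.mem_eigenspace_iff] at hv ⊢
    have hcomm : c * g = g * c := by
      have := Subgroup.mem_centralizer_iff.mp hc g (Set.mem_singleton g)
      exact this.symm
    have h1 : ρ g (ρ c v) = ρ (g * c) v := by rw [map_mul]; rfl
    rw [h1, ← hcomm, map_mul]
    show ρ c (ρ g v) = _
    rw [hv, map_smul]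
  have hscal : ∀ v, ρ g v = μ • v := fun v => by
    have : v ∈ Module.End.eigenspace (ρ g) μ := by rw [hE]; trivial
    exact Module.End.mem_eigenspace_iff.mp this
  -- the kernel of `ρ` is normal
  have hker := IsSimpleGroup.eq_bot_or_eq_top_of_normal (ρ.ker) inferInstance
  rcases hker with hker | hker
  · -- faithful
    have hinj : Function.Injective ρ := (MonoidHom.ker_eq_bot_iff ρ).mp hker
    have hcentral : g ∈ Subgroup.center G := by
      rw [Subgroup.mem_center_iff]
      intro x
      apply hinj
      rw [map_mul, map_mul]
      ext v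
      show ρ x (ρ g v) = ρ g (ρ x v)
      rw [hscal, hscal, map_smul]
    rcases IsSimpleGroup.eq_bot_or_eq_top_of_normal (Subgroup.center G) inferInstance with hc | hc
    · rw [hc, Subgroup.mem_bot] at hcentral
      exact hg hcentral
    · apply hG
      refine ⟨⟨fun a b => ?_⟩⟩
      have hb : (b : G) ∈ Subgroup.center G := by rw [hc]; trivial
      exact (Subgroup.mem_center_iff.mp hb (a : G))
  · -- trivial representation
    have htriv : ∀ x : G, ρ x = 1 := fun x => by
      have : x ∈ ρ.ker := by rw [hker]; trivial
      exact MonoidHom.mem_ker.mp this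
    obtain ⟨v, hv⟩ := exists_ne (0 : V)
    have hinv : ∀ x : G, ∀ w ∈ Submodule.span ℂ {v}, ρ x w ∈ Submodule.span ℂ {v} := by
      intro x w hw
      rw [htriv x]
      exact hw
    rcases hirr _ hinv with h0 | h1
    · rw [Submodule.span_singleton_eq_bot] at h0
      exact hv h0
    · have := finrank_span_singleton (K := ℂ) hv
      rw [h1, finrank_top] at this
      omega

end Cfsg.Agent.S5011
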