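import Cfsg.Statements.S5125
import Cfsg.Agent.Lib.Fusion.NormalChar

set_option autoImplicit false
open Cfsg
open scoped commutatorElement

namespace Cfsg.Agent.S5125

/-- Let F be a saturated fusion system over a finite p-group S and Q a subgroup strongly closed in F. If Q has a subgroup Q₁ that is normal in F, with Q/Q₁ abelian and Aut_F(Q₁) a p-group, then Q is normal in F. -/
theorem result {Ω : Type*} [Group Ω] {S : Subgroup Ω} [Finite S] (p : ℕ) [Fact p.Prime] (hS : IsPGroup p S) (F : Cfsg.FusionSystem S) (hF : F.IsSaturated p) (Q Q₁ : Subgroup Ω) (hQ : F.StronglyClosed Q) (hQ₁Q : Q₁ ≤ Q) (hQ₁ : F.IsNormal Q₁) (hab : ⁅Q, Q⁆ ≤ Q₁) (hAut : IsPGroup p ↥(F.autGroup Q₁)) : F.IsNormal Q := by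
  open Cfsg.Agent.Lib.Fusion in
  have hQ₁sc := stronglyClosed_of_isNormal hQ₁
  let W : ℕ → Subgroup Ω := fun i => if i = 0 then Q₁ else if i = 1 then Q else S
  refine isNormal_of_chain hS hF hQ W 2 (by simp [W]) ?_ ?_ ?_ ?_
  · intro i hi
    have : i = 0 ∨ i = 1 ∨ i = 2 := by omega
    rcases this with rfl | rfl | rfl
    · simpa [W] using hQ₁sc
    · simpa [W] using hQ
    · simpa [W] using stronglyClosed_self
  · intro i hi
    have : i = 0 ∨ i = 1 := by omega
    rcases this with rfl | rfl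
    · simpa [W] using hQ₁Q
    · simpa [W] using hQ.1
  · intro g hg i hi x hx
    have : i = 0 ∨ i = 1 := by omega
    rcases this with rfl | rfl
    · simp [W] at hx ⊢
      have h1 : ⁅g, x⁻¹⁆ ∈ Q₁ := hab (Subgroup.commutator_mem_commutator hg (Q.inv_mem hx))
      have h5 := Q₁.inv_mem h1
      have h6 : x⁻¹ * (g * x * g⁻¹) = ⁅g, x⁻¹⁆⁻¹ := by
        simp [commutatorElement_def, mul_assoc]
      rw [h6]
      exact h5
    · simp [W] at hx ⊢
      exact normal_in_S_commutator hQ hg hx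
  · intro U hU α hα
    have hUS := hU.1.1
    have hQU : Q₁ ≤ U := le_of_isNormal hS hQ₁ hU.1 (isRadical_of_essential hS hU)
    have hφ := (mem_autGroup_iff hUS).1 hα
    have hmap := map_eq_of_stronglyClosed hQ₁sc hQU hφ
    let e : MulAut Q₁ := isoRestrict hφ hQU hmap
    have he : e ∈ F.autGroup Q₁ := (mem_autGroup_iff hQ₁.1).2 (isoRestrict_isIso _ _ _)
    obtain ⟨a, ha⟩ := IsPGroup.iff_orderOf.1 hAut ⟨e, he⟩
    have hea : e ^ p ^ a = 1 := by
      have := pow_orderOf_eq_one (⟨e, he⟩ : F.autGroup Q₁)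
      rw [ha] at this
      exact congrArg Subtype.val this
    refine ⟨a, fun x hx => ?_⟩
    have hx0 : (x : Ω) ∈ Q₁ := by simpa [W] using hx
    have hpow : ∀ (m : ℕ) (y : Q₁), (((α ^ m) ⟨y, hQU y.2⟩ : U) : Ω) = (((e ^ m) y : Q₁) : Ω) := by
      intro m
      induction m with
      | zero => intro y; rfl
      | succ m ih =>
        intro y
        rw [pow_succ', pow_succ', MulAut.mul_apply, MulAut.mul_apply]
        have h1 : (α ^ m) ⟨y, hQU y.2⟩ = ⟨((e ^ m) y : Q₁), hQU ((e ^ m) y).2⟩ := Subtype.ext (ih y)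
        rw [h1]
        rfl
    have := hpow (p ^ a) ⟨x, hx0⟩
    rw [hea] at this
    exact this

end Cfsg.Agent.S5125
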