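import Cfsg.Statements.S5171
import Cfsg.Agent.Lib.Fusion.SpClosed

set_option autoImplicit false
open Cfsg

namespace Cfsg.Agent.S5171

/-- For a finite field K of characteristic p and m ≥ 2, excluding the case m = 2 with K of two elements, the p-fusion system of the projective symplectic group PSp_{2m}(K) on a Sylow p-subgroup is simple. -/
theorem result {K : Type*} [Field K] [Fintype K] (p : ℕ) [Fact p.Prime] [CharP K p] (m : ℕ) (hm : 2 ≤ m) (hex : m = 2 → 3 ≤ Fintype.card K) (S : Sylow p (Cfsg.PSp m K)) : (Cfsg.groupFusionSystem (S : Subgroup (Cfsg.PSp m K))).IsSimple p := by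
  classical
  have hm' : 1 ≤ m := by omega
  exact Cfsg.Agent.Lib.Fusion.isSimple_of_cover (p := p)
    (Cfsg.Agent.Lib.Fusion.SpF.U0S m K) (Cfsg.Agent.Lib.Fusion.SpF.U0S_ne_bot hm) (e := 2 * m)
    (fun u hu => Cfsg.Agent.Lib.Fusion.SpF.exists_pow_U0S' hu)
    (fun z hz k h => Cfsg.Agent.Lib.Fusion.SpF.center_trivial hm' hz h)
    (fun g hg k hk => Cfsg.Agent.Lib.Fusion.SpF.exists_center_mul hm' hg hk)
    (Cfsg.Agent.Lib.Fusion.SpF.RRS m K)
    (fun R hR => Cfsg.Agent.Lib.Fusion.SpF.RRS_le hR)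
    (fun R hR y hy => Cfsg.Agent.Lib.Fusion.SpF.RRS_centric hm hR y hy)
    (fun g hg => Cfsg.Agent.Lib.Fusion.SpF.norm_le_WW hm' hg)
    (fun T hT hne hcl => Cfsg.Agent.Lib.Fusion.SpF.U0S_le_of_closed hT hcl p hm hex hne) S

end Cfsg.Agent.S5171
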