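import Cfsg.Statements.S5214
import Cfsg.Agent.Lib.Fusion.Hig11
import Cfsg.Agent.Lib.Fusion.NormalCriterion

set_option autoImplicit false
open Cfsg

namespace Cfsg.Agent.S5214

/-- Let S be a Suzuki 2-group (a finite nonabelian 2-group with more than one involution admitting a cyclic group of automorphisms permuting its involutions regularly). Then S is normal in every saturated fusion system over S (such a group is resistant). -/
theorem result {Ω : Type*} [Group Ω] {S : Subgroup Ω} [Finite S] (hS : IsPGroup 2 S) (F : Cfsg.FusionSystem S) (hF : F.IsSaturated 2) (hsz : Cfsg.IsSuzukiTwoGroup ↥S) : F.IsNormal S := by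
  haveI : Fact (Nat.Prime 2) := ⟨Nat.prime_two⟩
  obtain ⟨K, _, ρ, h⟩ := Cfsg.Agent.Lib.Fusion.Hig.suzuki_kg hsz
  have hnc := hsz.2.2.1
  obtain ⟨h4, hcm⟩ := Cfsg.Agent.Lib.Fusion.Hig.higman_main _ _ ρ h rfl hnc
  let Z : Subgroup Ω := (Subgroup.center S).map S.subtype
  have hZmem : ∀ x : Ω, x ∈ Z ↔ x ∈ S ∧ x * x = 1 := by
    intro x
    constructor
    · rintro ⟨z, hz, rfl⟩
      exact ⟨z.2, congrArg Subtype.val (h.center_sq hnc hz)⟩
    · rintro ⟨hx, hxx⟩
      refine ⟨⟨x, hx⟩, h.central (Subtype.ext hxx), rfl⟩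
  have hZS : Z ≤ S := fun x hx => ((hZmem x).1 hx).1
  let Q : ℕ → Subgroup Ω := fun n => match n with
    | 0 => ⊥
    | 1 => Z
    | _ => S
  refine Cfsg.Agent.Lib.Fusion.isNormal_of_chain hS hF Cfsg.Agent.Lib.Fusion.stronglyClosed_self Q 2 rfl ?_ ?_ ?_ ?_
  · intro i hi
    match i, hi with
    | 0, _ =>
      refine ⟨bot_le, fun P hP φ hφ x => ?_⟩
      have h0 : (x : Ω) ∈ (⊥ : Subgroup Ω) := hP x.2
      have h1 : (x : Ω) = 1 := by simpa using h0
      have h2 : x = 1 := Subtype.ext h1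
      show φ x ∈ (⊥ : Subgroup Ω)
      simp [h2]
    | 1, _ =>
      refine ⟨hZS, fun P hP φ hφ x => ?_⟩
      show φ x ∈ Z
      rw [hZmem]
      refine ⟨Cfsg.Agent.Lib.Fusion.val_mem hφ x, ?_⟩
      have h0 : (x : Ω) ∈ Z := hP x.2
      have h1 : (x : Ω) * x = 1 := ((hZmem _).1 h0).2
      have h2 : x * x = 1 := Subtype.ext h1
      rw [← map_mul, h2, map_one]
    | 2, _ => exact Cfsg.Agent.Lib.Fusion.stronglyClosed_self
  · intro i hi
    match i, hi with
    | 0, _ => exact bot_le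
    | 1, _ => exact hZS
  · intro g hg i hi x hx
    match i, hi, hx with
    | 0, _, hx =>
      -- `x ∈ Z`, central
      obtain ⟨hxS, hxx⟩ := (hZmem x).1 hx
      have hc := h.central (x := (⟨x, hxS⟩ : S)) (Subtype.ext hxx)
      have h1 := Cfsg.Agent.Lib.Fusion.Hig.center_comm hc ⟨g, hg⟩
      have h2 : x * g = g * x := congrArg Subtype.val h1
      show x⁻¹ * (g * x * g⁻¹) ∈ (⊥ : Subgroup Ω)
      rw [← h2, Subgroup.mem_bot]
      group
    | 1, _, hx =>
      have hxS : x ∈ S := hx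
      show x⁻¹ * (g * x * g⁻¹) ∈ Z
      have h1 := hcm (⟨x, hxS⟩ : S) ⟨g⁻¹, S.inv_mem hg⟩
      have h2 : (Cfsg.Agent.Lib.Fusion.Hig.cm (⟨x, hxS⟩ : S) ⟨g⁻¹, S.inv_mem hg⟩ : S).1 = x⁻¹ * (g * x * g⁻¹) := by
        show x⁻¹ * (g⁻¹)⁻¹ * x * g⁻¹ = _
        group
      rw [← h2, hZmem]
      exact ⟨Subtype.mem _, congrArg Subtype.val h1⟩
  · intro U _ α _
    refine ⟨0, fun x hx => ?_⟩
    have h1 : (x : Ω) = 1 := by simpa [Q] using hx
    have h2 : x = 1 := Subtype.ext h1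
    simp [h2]

end Cfsg.Agent.S5214
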