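import Cfsg.Statements.S5219
import Cfsg.Agent.Lib.Fusion2.PowCenter
-- import your own Cfsg.Agent.* helpers here

set_option autoImplicit false
open Cfsg

namespace Cfsg.Agent.S5219

/-- Let p be a prime, n a natural number, S a nontrivial finite p-group of nilpotence class at most n(p−1)+1, and F a saturated fusion system over S with no nontrivial normal subgroup (O_p(F) = 1). Then S has exponent dividing p^(n²(p−1)+n). -/
theorem result {Ω : Type*} [Group Ω] {S : Subgroup Ω} [Finite S] (p : ℕ) [Fact p.Prime] (hS : IsPGroup p S) (F : Cfsg.FusionSystem S) (hF : F.IsSaturated p) (n : ℕ) (hS1 : S ≠ ⊥) (hcl : Subgroup.lowerCentralSeries S (n * (p - 1) + 1) = ⊥) (hcore : F.core = ⊥) : Monoid.exponent ↥S ∣ p ^ (n ^ 2 * (p - 1) + n) := by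
  classical
  have hN := Cfsg.Agent.Lib.Fusion2.PowRing.isNormal_powerClosure hS hF n hcl
  have hle : Cfsg.powerClosure p n (S ⊓ Subgroup.centralizer (S : Set Ω)) ≤ F.core := le_sSup hN
  rw [hcore] at hle
  have hpow : ∀ y ∈ S ⊓ Subgroup.centralizer (S : Set Ω), y ^ (p ^ n) = 1 := by
    intro y hy
    have := hle (Subgroup.subset_closure ⟨y, hy, rfl⟩)
    simpa using this
  have htop : (⊤ : Subgroup S).lowerCentralSeries (n * (p - 1) + 1) = ⊥ := by
    have h1 := Cfsg.Agent.Lib.Fusion2.PowRing.top_lowerCentralSeries_map S (n * (p - 1) + 1)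
    rw [hcl] at h1
    exact (Subgroup.map_eq_bot_iff_of_injective _ S.subtype_injective).1 h1
  have h2 := Cfsg.Agent.Lib.Fusion2.PowRing.exponent_dvd_of_center (G := S) (m := p ^ n) htop (by
    intro y hy
    apply Subtype.ext
    have h3 := hpow (y : Ω) ⟨y.2, by
      show (y : Ω) ∈ Subgroup.centralizer (S : Set Ω)
      rw [Subgroup.mem_centralizer_iff]
      intro s hs
      exact congrArg Subtype.val (Subgroup.mem_center_iff.1 hy ⟨s, hs⟩)⟩
    simpa using h3)
  have e : (p ^ n) ^ (n * (p - 1) + 1) = p ^ (n ^ 2 * (p - 1) + n) := by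
    rw [← pow_mul]
    congr 1
    ring
  rwa [e] at h2

end Cfsg.Agent.S5219
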