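import Cfsg.Statements.S5223
import Cfsg.Agent.S5083
import Cfsg.Agent.Lib.Fusion2.Chain

set_option autoImplicit false
open Cfsg

namespace Cfsg.Agent.S5223

open Cfsg.FusionSystem Cfsg.Agent.Lib.Fusion Cfsg.Agent.Lib.Fusion2

/-- Let F be a saturated fusion system over a finite p-group S. Suppose there are subgroups Q₀ = S, Q₁, …, Qₙ = 1 (not required to be nested) such that for each i < n the focal subgroup of Qᵢ (generated by the elements x⁻¹φ(x), x ∈ Qᵢ, φ a map of F defined on the cyclic group generated by x) lies in Qᵢ₊₁. Then F is the inner fusion system of S. -/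
theorem result {Ω : Type*} [Group Ω] {S : Subgroup Ω} [Finite S] (p : ℕ) [Fact p.Prime] (hS : IsPGroup p S) (F : Cfsg.FusionSystem S) (hF : F.IsSaturated p) (n : ℕ) (Q : Fin (n + 1) → Subgroup Ω) (hQ0 : Q 0 = S) (hQn : Q (Fin.last n) = ⊥) (hstep : ∀ i : Fin n, Subgroup.closure {y : Ω | ∃ x ∈ Q i.castSucc, ∃ φ ∈ F.Hom (Subgroup.zpowers x), y = x⁻¹ * φ ⟨x, Subgroup.mem_zpowers x⟩} ≤ Q i.succ) : ∀ P : Subgroup Ω, F.Hom P = (Cfsg.innerFusionSystem S).Hom P := by
  have hinner : F = Cfsg.innerFusionSystem S := by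
    apply Cfsg.Agent.S5083.result p hS F hF
    intro R hR
    have hRf : Finite R := finite_of_le hR
    have hRp : IsPGroup p R := hS.to_le hR
    refine isPGroup_of_chain hRp n (fun i => (Q i).subgroupOf R) ?_ ?_ _ ?_
    · show (Q 0).subgroupOf R = ⊤
      rw [hQ0]
      exact Subgroup.subgroupOf_eq_top.2 hR
    · show (Q (Fin.last n)).subgroupOf R = ⊥
      rw [hQn]
      exact Subgroup.bot_subgroupOf R
    · intro α hα i x hx
      have hαm := (mem_autGroup_iff hR).1 hα
      have hzle : Subgroup.zpowers (x : Ω) ≤ R := (Subgroup.zpowers_le).2 x.2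
      have hres := restrict_mem hαm hzle
      have hmem : (x : Ω)⁻¹ * (R.subtype.comp α.toMonoidHom) (Subgroup.inclusion hzle ⟨x, Subgroup.mem_zpowers (x : Ω)⟩)
          ∈ Q i.succ := by
        apply hstep i
        apply Subgroup.subset_closure
        exact ⟨x, hx, _, hres, rfl⟩
      exact hmem
  intro P
  rw [← hinner]

end Cfsg.Agent.S5223
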