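import Cfsg.Statements.S5226
import Cfsg.Agent.Lib.Fusion.NormalChar

set_option autoImplicit false
open Cfsg
open scoped commutatorElement

namespace Cfsg.Agent.S5226

open Cfsg.FusionSystem Cfsg.Agent.Lib.Fusion

variable {Ω : Type*} [Group Ω] {S : Subgroup Ω} {F : FusionSystem S}

theorem normalizer_of_weaklyClosed [Finite S] {R : Subgroup Ω} (hR : F.WeaklyClosed R) :
    S ≤ Subgroup.normalizer (R : Set Ω) := by
  intro s hs
  refine mem_normalizer_of_conj_mem hR.1 (fun x hx => ?_)
  have h1 := hR.2 _ (F.conj_mem hR.1 hs)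
  have h2 : conjHom R s ⟨x, hx⟩ ∈ (conjHom R s).range := ⟨_, rfl⟩
  rw [h1] at h2
  exact h2

theorem map_mem_of_weaklyClosed {R U : Subgroup Ω} (hR : F.WeaklyClosed R) (hRU : R ≤ U) {φ : U →* Ω}
    (hφ : φ ∈ F.Hom U) {x : U} (hx : (x : Ω) ∈ R) : φ x ∈ R := by
  have h1 := hR.2 _ (restrict_mem hφ hRU)
  have h2 : (φ.comp (Subgroup.inclusion hRU)) ⟨x, hx⟩ ∈ (φ.comp (Subgroup.inclusion hRU)).range := ⟨_, rfl⟩
  rw [h1] at h2
  exact h2

theorem step {p : ℕ} [Fact p.Prime] [Finite S] (hS : IsPGroup p S) {Q U : Subgroup Ω} (hsc : F.StronglyClosed Q)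
    (hUS : U ≤ S) (hUc : centralizerIn S U ≤ U) (hr : F.IsRadical p U) (C' : ℕ → Subgroup Ω) (i : ℕ)
    (h0 : C' 0 = ⊥) (hmono : Monotone C') (hle : ∀ j ≤ i, C' j ≤ Q) (hw : ∀ j ≤ i, F.WeaklyClosed (C' j))
    (hCi : C' i ≤ U) (hG : C' (i + 1) ≤ Q) (hGn : S ≤ Subgroup.normalizer ((C' (i + 1) : Subgroup Ω) : Set Ω))
    (hcomm : ∀ j ≤ i, ⁅C' (j + 1), Q⁆ ≤ C' j) : C' (i + 1) ≤ U := by
  have := finite_of_le hUS
  have hUp : IsPGroup p U := hS.to_le hUS
  let W : ℕ → Subgroup U := fun j => if j ≤ i then (C' j).subgroupOf U else if j = i + 1 then Q.subgroupOf U else ⊤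
  have hWle : ∀ j ≤ i, W j = (C' j).subgroupOf U := fun j hj => if_pos hj
  have hW1 : W (i + 1) = Q.subgroupOf U := by
    show (if i + 1 ≤ i then _ else if i + 1 = i + 1 then _ else _) = _
    rw [if_neg (by omega), if_pos rfl]
  have hW2 : W (i + 2) = ⊤ := by
    show (if i + 2 ≤ i then _ else if i + 2 = i + 1 then _ else _) = _
    rw [if_neg (by omega), if_neg (by omega)]
  have hinv : ∀ α ∈ F.autGroup U, ∀ j ≤ i + 2, ∀ x ∈ W j, α x ∈ W j := by
    intro α hα j hj x hx
    have hφ := (mem_autGroup_iff hUS).1 hα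
    rcases Nat.lt_or_ge i j with h | h
    · rcases Nat.lt_or_ge (i + 1) j with h' | h'
      · have : j = i + 2 := by omega
        subst this
        rw [hW2]
        trivial
      · have : j = i + 1 := by omega
        subst this
        rw [hW1] at hx ⊢
        have hQU : Q ⊓ U ≤ U := inf_le_right
        exact hsc.2 (Q ⊓ U) inf_le_left _ (restrict_mem hφ hQU) ⟨x, hx, x.2⟩
    · rw [hWle j h] at hx ⊢
      exact map_mem_of_weaklyClosed (hw j h) ((hmono h).trans hCi) hφ hx
  have hmono' : ∀ j < i + 2, W j ≤ W (j + 1) := by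
    intro j hj
    rcases Nat.lt_or_ge j i with h | h
    · rw [hWle j h.le, hWle (j + 1) h]
      intro x hx
      exact hmono (Nat.le_succ j) hx
    · rcases Nat.lt_or_ge i j with h' | h'
      · have : j = i + 1 := by omega
        subst this
        rw [hW2]
        exact le_top
      · have : j = i := by omega
        subst this
        rw [hWle j le_rfl, hW1]
        intro x hx
        exact hle j le_rfl hx
  have hnorm := chainStab_subgroupOf_normal (F.autGroup U) W (i + 2) hinv hmono'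
  have hp : IsPGroup p (chainStab (F.autGroup U) W (i + 2) hinv hmono') :=
    chainStab_isPGroup hUp (F.autGroup U) W (i + 2) hinv hmono' hW2 (fun α hα => ⟨0, fun x hx => by
      rw [hWle 0 (Nat.zero_le i), h0] at hx
      have : x = 1 := Subtype.ext hx
      rw [this, map_one]⟩)
  have hleD : (chainStab (F.autGroup U) W (i + 2) hinv hmono').subgroupOf (F.autGroup U) ≤ pCore p (F.autGroup U) :=
    Cfsg.Agent.Lib.Basic.le_pCore hnorm hp.comap_subtype
  refine le_of_inn hS hUS hUc (hG.trans hsc.1) hGn (fun g hg hgn => ?_)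
  have hgS := hsc.1 (hG hg)
  have hcA : autOfNormalizer hgn ∈ F.autGroup U := autOfNormalizer_mem_autGroup hUS ⟨hgS, hgn⟩
  have hcD : autOfNormalizer hgn ∈ chainStab (F.autGroup U) W (i + 2) hinv hmono' := by
    refine ⟨hcA, fun j hj x hx => ?_⟩
    show x⁻¹ * autOfNormalizer hgn x ∈ W j
    rcases Nat.lt_or_ge j i with h | h
    · rw [hWle j h.le]
      rw [hWle (j + 1) h] at hx
      show ((x : Ω)⁻¹ * (g * x * g⁻¹)) ∈ C' j
      have hgQ : g ∈ Q := hG hg
      have h1 : ⁅(x : Ω)⁻¹, g⁆ ∈ C' j :=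
        hcomm j h.le (Subgroup.commutator_mem_commutator (Subgroup.inv_mem _ hx) hgQ)
      have h2 : ⁅(x : Ω)⁻¹, g⁆ = (x : Ω)⁻¹ * (g * x * g⁻¹) := by
        simp [commutatorElement_def, mul_assoc]
      rwa [h2] at h1
    · rcases Nat.lt_or_ge i j with h' | h'
      · have : j = i + 1 := by omega
        subst this
        rw [hW1]
        show ((x : Ω)⁻¹ * (g * x * g⁻¹)) ∈ Q
        exact normal_in_S_commutator hsc (hG hg) (hUS x.2)
      · have : j = i := by omega
        subst this
        rw [hWle j le_rfl]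
        rw [hW1] at hx
        show ((x : Ω)⁻¹ * (g * x * g⁻¹)) ∈ C' j
        have hxQ : (x : Ω) ∈ Q := hx
        have h1 : ⁅g, (x : Ω)⁻¹⁆ ∈ C' j :=
          hcomm j le_rfl (Subgroup.commutator_mem_commutator hg (Subgroup.inv_mem _ hxQ))
        have h2 : (⁅g, (x : Ω)⁻¹⁆)⁻¹ = (x : Ω)⁻¹ * (g * x * g⁻¹) := by
          simp [commutatorElement_def, mul_assoc]
        rw [← h2]
        exact Subgroup.inv_mem _ h1
  rw [← hr.2]
  exact ⟨⟨_, hcA⟩, hleD hcD, rfl⟩

/-- Let F be a saturated fusion system over a finite p-group S and Q a subgroup of S. Then Q is normal in F (F equals the normalizer system of Q) if and only if Q is strongly closed in F and admits a central series 1 = Q₀ ≤ Q₁ ≤ ⋯ ≤ Qₙ = Q ([Qᵢ₊₁, Q] ≤ Qᵢ) all of whose proper terms are weakly closed in F. -/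
theorem result {Ω : Type*} [Group Ω] {S : Subgroup Ω} [Finite S] (p : ℕ) [Fact p.Prime] (hS : IsPGroup p S) (F : Cfsg.FusionSystem S) (hF : F.IsSaturated p) (Q : Subgroup Ω) : F.IsNormal Q ↔ F.StronglyClosed Q ∧ ∃ (n : ℕ) (C : Fin (n + 1) → Subgroup Ω), C 0 = ⊥ ∧ C (Fin.last n) = Q ∧ Monotone C ∧ (∀ i : Fin n, ⁅C i.succ, Q⁆ ≤ C i.castSucc) ∧ ∀ i : Fin n, F.WeaklyClosed (C i.castSucc) := by
  constructor
  · intro h
    have hQS := h.1
    have := finite_of_le hQS
    refine ⟨stronglyClosed_of_isNormal h, ?_⟩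
    obtain ⟨n, hn⟩ := ucs_top (hS.to_le hQS)
    refine ⟨n, fun i => ucs Q i, ucs_zero Q, hn, fun a b hab => ucs_mono Q hab, fun i => ?_, fun i => ?_⟩
    · rw [Subgroup.commutator_le]
      intro x hx g hg
      have hx' : x⁻¹ ∈ ucs Q ((i : ℕ) + 1) := (ucs Q _).inv_mem hx
      have h1 := ucs_commutator hx' hg
      have h3 : ⁅x, g⁆ = (x⁻¹)⁻¹ * (g * x⁻¹ * g⁻¹) := by
        simp [commutatorElement_def, mul_assoc]
      rw [h3]
      exact h1
    · have h1 := stronglyClosed_ucs_of_isNormal h (i : ℕ)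
      refine ⟨h1.1, fun φ hφ => ?_⟩
      have h2 := map_eq_of_stronglyClosed h1 le_rfl hφ
      rw [Subgroup.subgroupOf_self, ← MonoidHom.range_eq_map] at h2
      exact h2
  · rintro ⟨hsc, n, C, h0, hn, hmono, hcomm, hw⟩
    have hQS := hsc.1
    let C' : ℕ → Subgroup Ω := fun j => if h : j < n + 1 then C ⟨j, h⟩ else Q
    have hC' : ∀ j (h : j < n + 1), C' j = C ⟨j, h⟩ := fun j h => dif_pos h
    have hC'0 : C' 0 = ⊥ := by
      rw [hC' 0 (by omega)]
      exact h0
    have hC'n : C' n = Q := by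
      rw [hC' n (by omega)]
      exact hn
    have hC'mono : Monotone C' := by
      intro a b hab
      rcases Nat.lt_or_ge b (n + 1) with h | h
      · rw [hC' a (by omega), hC' b h]
        exact hmono (by simpa using hab)
      · have hb : C' b = Q := dif_neg (by omega)
        rw [hb]
        rcases Nat.lt_or_ge a (n + 1) with h' | h'
        · rw [hC' a h', ← hn]
          exact hmono (Fin.le_last _)
        · have ha : C' a = Q := dif_neg (by omega)
          rw [ha]
    refine isNormal_of_essential_le hS hF hsc (fun U hU => ?_)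
    have hUS : U ≤ S := hU.1.1
    have hUc : centralizerIn S U ≤ U := hU.1.2 U (isConj_refl hUS)
    have hr := isRadical_of_essential hS hU
    have key : ∀ i ≤ n, C' i ≤ U := by
      intro i
      induction i with
      | zero =>
        intro _
        rw [hC'0]
        exact bot_le
      | succ i ih =>
        intro hi
        have hCi := ih (by omega)
        have hw' : ∀ j ≤ i, F.WeaklyClosed (C' j) := by
          intro j hj
          rw [hC' j (by omega)]
          exact hw ⟨j, by omega⟩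
        have hcomm' : ∀ j ≤ i, ⁅C' (j + 1), Q⁆ ≤ C' j := by
          intro j hj
          rw [hC' j (by omega), hC' (j + 1) (by omega)]
          exact hcomm ⟨j, by omega⟩
        have hGn : S ≤ Subgroup.normalizer ((C' (i + 1) : Subgroup Ω) : Set Ω) := by
          rcases Nat.lt_or_ge (i + 1) n with h | h
          · rw [hC' (i + 1) (by omega)]
            exact normalizer_of_weaklyClosed (hw ⟨i + 1, h⟩)
          · have : i + 1 = n := by omega
            rw [this, hC'n]
            exact normalizer_of_stronglyClosed hsc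
        refine step hS hsc hUS hUc hr C' i hC'0 hC'mono (fun j hj => ?_) hw' hCi ?_ hGn hcomm'
        · rw [← hC'n]
          exact hC'mono (by omega)
        · rw [← hC'n]
          exact hC'mono (by omega)
    rw [← hC'n]
    exact key n le_rfl

end Cfsg.Agent.S5226
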