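import Cfsg.Statements.S5236
import Cfsg.Agent.Lib.Fusion2.ItoFusion

set_option autoImplicit false
open Cfsg
open scoped commutatorElement

namespace Cfsg.Agent.S5236

open Cfsg.FusionSystem Cfsg.Agent.Lib.Fusion Cfsg.Agent.Lib.Fusion2

variable {Ω : Type*} [Group Ω] {S : Subgroup Ω} {F : FusionSystem S}

theorem stronglyClosed_inf {A B : Subgroup Ω} (hA : F.StronglyClosed A) (hB : F.StronglyClosed B) :
    F.StronglyClosed (A ⊓ B) :=
  ⟨inf_le_left.trans hA.1, fun R hR φ hφ x =>
    ⟨hA.2 R (hR.trans inf_le_left) φ hφ x, hB.2 R (hR.trans inf_le_right) φ hφ x⟩⟩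

/-- `Ω₁(P)` as the image of a subgroup of `P`. -/
theorem omegaOne_eq (p : ℕ) (P : Subgroup Ω) :
    omegaOne p P = (Subgroup.closure {y : P | y ^ p = 1}).map P.subtype := by
  rw [MonoidHom.map_closure]
  have h : {x : Ω | x ∈ P ∧ x ^ p = 1} = P.subtype '' {y : P | y ^ p = 1} := by
    ext x
    constructor
    · rintro ⟨hx, hxp⟩
      exact ⟨⟨x, hx⟩, Subtype.ext hxp, rfl⟩
    · rintro ⟨y, hy, rfl⟩
      exact ⟨y.2, congrArg Subtype.val hy⟩
  rw [← h]
  rfl

theorem closure_characteristic (p : ℕ) (X : Type*) [Group X] :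
    (Subgroup.closure {y : X | y ^ p = 1}).Characteristic := by
  rw [Subgroup.characteristic_iff_le_comap]
  intro ϕ
  refine (Subgroup.closure_le _).2 (fun y hy => Subgroup.subset_closure ?_)
  show (ϕ y) ^ p = 1
  rw [← map_pow, show y ^ p = 1 from hy, map_one]

/-- Let p be an odd prime, F a saturated fusion system over a finite p-group S and P a subgroup of S strongly closed in F. Then P is normal in F if and only if Ω₁(P) (the subgroup generated by the elements of order p of P) has a chain of subgroups 1 = Q₀ ≤ Q₁ ≤ ⋯ ≤ Qₙ = Ω₁(P), each strongly closed in F, with [Qᵢ₊₁, P] ≤ Qᵢ for all i. -/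
theorem result {Ω : Type*} [Group Ω] {S : Subgroup Ω} [Finite S] (p : ℕ) [Fact p.Prime] (hS : IsPGroup p S) (F : Cfsg.FusionSystem S) (hF : F.IsSaturated p) (hp : p ≠ 2) (P : Subgroup Ω) (hP : F.StronglyClosed P) : F.IsNormal P ↔ ∃ (n : ℕ) (Q : Fin (n + 1) → Subgroup Ω), Q 0 = ⊥ ∧ Q (Fin.last n) = Cfsg.omegaOne p P ∧ Monotone Q ∧ (∀ i : Fin (n + 1), F.StronglyClosed (Q i)) ∧ ∀ i : Fin n, ⁅Q i.succ, P⁆ ≤ Q i.castSucc := by
  have hPS := hP.1
  have hfP : Finite P := finite_of_le hPS
  constructor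
  · intro hN
    obtain ⟨n, hn⟩ := ucs_top (hS.to_le hPS)
    have homega_le : omegaOne p P ≤ P := by
      rw [omegaOne_eq]
      rintro _ ⟨x, -, rfl⟩
      exact x.2
    have homega : F.IsNormal (omegaOne p P) := by
      rw [omegaOne_eq]
      exact isNormal_map_characteristic hN _ (closure_characteristic p P)
    have hsc := stronglyClosed_of_isNormal homega
    have hconj : ∀ g ∈ P, ∀ x ∈ omegaOne p P, g * x * g⁻¹ ∈ omegaOne p P := by
      intro g hg x hx
      exact conj_mem_of_normalizer (normalizer_of_stronglyClosed hsc (hPS hg)) hx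
    refine ⟨n, fun i => ucs P i ⊓ omegaOne p P, ?_, ?_, ?_, fun i => ?_, fun i => ?_⟩
    · show ucs P 0 ⊓ omegaOne p P = ⊥
      rw [ucs_zero, bot_inf_eq]
    · show ucs P n ⊓ omegaOne p P = omegaOne p P
      rw [hn]
      exact inf_eq_right.2 homega_le
    · intro a b hab
      exact inf_le_inf_right _ (ucs_mono P hab)
    · exact stronglyClosed_inf (stronglyClosed_ucs_of_isNormal hN _) hsc
    · rw [Subgroup.commutator_le]
      rintro x ⟨hx1, hx2⟩ g hg
      refine ⟨?_, ?_⟩
      · have hx' : x⁻¹ ∈ ucs P ((i : ℕ) + 1) := (ucs P _).inv_mem hx1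
        have h1 := ucs_commutator hx' hg
        have h3 : ⁅x, g⁆ = (x⁻¹)⁻¹ * (g * x⁻¹ * g⁻¹) := by
          simp [commutatorElement_def, mul_assoc]
        rw [h3]
        exact h1
      · have h3 : ⁅x, g⁆ = x * (g * x⁻¹ * g⁻¹) := by
          simp [commutatorElement_def, mul_assoc]
        rw [h3]
        exact Subgroup.mul_mem _ hx2 (hconj g hg _ (Subgroup.inv_mem _ hx2))
  · rintro ⟨n, Q, h0, hn, hmono, hsc, hcomm⟩
    refine isNormal_of_essential_le hS hF hP (fun U hU => ?_)
    have hUS : U ≤ S := hU.1.1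
    have hfU : Finite U := finite_of_le hUS
    have hUp : IsPGroup p U := hS.to_le hUS
    have hUc : centralizerIn S U ≤ U := hU.1.2 U (isConj_refl hUS)
    have hr := isRadical_of_essential hS hU
    let Q' : ℕ → Subgroup Ω := fun j => if h : j < n + 1 then Q ⟨j, h⟩ else omegaOne p P
    have hQ' : ∀ j (h : j < n + 1), Q' j = Q ⟨j, h⟩ := fun j h => dif_pos h
    let W : ℕ → Subgroup U := fun i => (Q' i).subgroupOf U
    have hscQ' : ∀ i ≤ n, F.StronglyClosed (Q' i) := fun i hi => by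
      rw [hQ' i (by omega)]
      exact hsc _
    have hAinv : ∀ {R : Subgroup Ω}, F.StronglyClosed R → ∀ α ∈ F.autGroup U, ∀ x : U, (x : Ω) ∈ R → ((α x : U) : Ω) ∈ R := by
      intro R hR α hα x hx
      have hφ := (mem_autGroup_iff hUS).1 hα
      have hRU : R ⊓ U ≤ U := inf_le_right
      exact hR.2 (R ⊓ U) inf_le_left _ (restrict_mem hφ hRU) ⟨x, hx, x.2⟩
    have hinv : ∀ α ∈ F.autGroup U, ∀ i ≤ n, ∀ x ∈ W i, α x ∈ W i := fun α hα i hi x hx =>
      hAinv (hscQ' i hi) α hα x hx
    have hmono' : ∀ i < n, W i ≤ W (i + 1) := by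
      intro i hi x hx
      have h1 : Q' i ≤ Q' (i + 1) := by
        rw [hQ' i (by omega), hQ' (i + 1) (by omega)]
        exact hmono (by simp)
      exact h1 hx
    have hYinv : ∀ α ∈ F.autGroup U, ∀ y ∈ (⊤ : Subgroup U), α y ∈ (⊤ : Subgroup U) := fun _ _ _ _ => trivial
    have hPinv : ∀ α ∈ F.autGroup U, ∀ y ∈ P.subgroupOf U, α y ∈ P.subgroupOf U := fun α hα y hy =>
      hAinv hP α hα y hy
    let D : Subgroup (MulAut U) := stabSub (F.autGroup U) ⊤ (P.subgroupOf U) hYinv ⊓ chainStab (F.autGroup U) W n hinv hmono'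
    have hDA : D ≤ F.autGroup U := fun β hβ => hβ.1.1
    have hDnorm : (D.subgroupOf (F.autGroup U)).Normal := by
      constructor
      rintro ⟨β, hβA⟩ hβ ⟨α, hα⟩
      refine ⟨stabSub_conj hYinv hPinv hα hβ.1, ?_⟩
      have h1 := (chainStab_subgroupOf_normal (F.autGroup U) W n hinv hmono').conj_mem ⟨β, hβA⟩ hβ.2 ⟨α, hα⟩
      exact h1
    have hDp : IsPGroup p D := by
      refine isPGroup_of_pprime_trivial _ (fun δ hδ hc => ?_)
      -- `δ` fixes the chain
      have hchain : ∀ i ≤ n, ∀ x ∈ W i, δ x = x := by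
        intro i
        induction i with
        | zero =>
          intro _ x hx
          have h1 : (x : Ω) ∈ Q' 0 := hx
          rw [hQ' 0 (by omega)] at h1
          have h2 : (x : Ω) = 1 := by
            have h3 : Q ⟨0, by omega⟩ = ⊥ := h0
            rw [h3] at h1
            exact h1
          have h3 : x = 1 := Subtype.ext h2
          rw [h3, map_one]
        | succ i ih =>
          intro hi x hx
          have h1 := hδ.2.2 i (by omega) x hx
          exact fixed_of_coprime hUp δ (pow_orderOf_eq_one δ) hc x (ih (by omega) _ h1)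
      have hfixP := fix_of_fix_exp hUp δ hc (P.subgroupOf U) (fun y hy => hPinv δ (hDA hδ) y hy) (by
        intro y hy hyp
        refine hchain n le_rfl y ?_
        rw [itoExp_of_ne hp] at hyp
        show (y : Ω) ∈ Q' n
        rw [hQ' n (by omega)]
        have h3 : Q ⟨n, by omega⟩ = omegaOne p P := hn
        rw [h3]
        exact Subgroup.subset_closure ⟨hy, congrArg Subtype.val hyp⟩)
      ext x
      have h1 := hδ.1.2 x trivial
      exact congrArg Subtype.val (fixed_of_coprime hUp δ (pow_orderOf_eq_one δ) hc x (hfixP _ h1))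
    have hle : D.subgroupOf (F.autGroup U) ≤ pCore p (F.autGroup U) :=
      Cfsg.Agent.Lib.Basic.le_pCore hDnorm hDp.comap_subtype
    refine le_of_inn hS hUS hUc hPS (normalizer_of_stronglyClosed hP) (fun g hg hgn => ?_)
    have hcA : autOfNormalizer hgn ∈ F.autGroup U := autOfNormalizer_mem_autGroup hUS ⟨hPS hg, hgn⟩
    have hcD : autOfNormalizer hgn ∈ D := by
      refine ⟨⟨hcA, fun x _ => ?_⟩, hcA, fun i hi x hx => ?_⟩
      · show ((x : Ω)⁻¹ * (g * x * g⁻¹)) ∈ P
        exact normal_in_S_commutator hP hg (hUS x.2)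
      · show ((x : Ω)⁻¹ * (g * x * g⁻¹)) ∈ Q' i
        have h1 : (x : Ω) ∈ Q' (i + 1) := hx
        rw [hQ' (i + 1) (by omega)] at h1
        rw [hQ' i (by omega)]
        have h2 := hcomm ⟨i, hi⟩ (Subgroup.commutator_mem_commutator (Subgroup.inv_mem _ h1) hg)
        have h3 : ⁅(x : Ω)⁻¹, g⁆ = (x : Ω)⁻¹ * (g * x * g⁻¹) := by
          simp [commutatorElement_def, mul_assoc]
        rw [h3] at h2
        exact h2
    rw [← hr.2]
    exact ⟨⟨_, hcA⟩, hle hcD, rfl⟩

end Cfsg.Agent.S5236
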