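import Cfsg.Statements.S5246
import Cfsg.Agent.Lib.Fusion2.Group

set_option autoImplicit false
open Cfsg

namespace Cfsg.Agent.S5246

open Cfsg.FusionSystem Cfsg.Agent.Lib.Fusion Cfsg.Agent.Lib.Fusion2

section
variable {Ω : Type*} [Group Ω]

/-- The automizer of `Q`, as a quotient of its normalizer. -/
noncomputable def quotEquivRange (Q : Subgroup Ω) :
    (↥(Subgroup.normalizer (Q : Set Ω)) ⧸ (Subgroup.centralizer (Q : Set Ω)).subgroupOf (Subgroup.normalizer (Q : Set Ω)))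
      ≃* Q.normalizerMonoidHom.range :=
  (QuotientGroup.quotientMulEquivOfEq Q.normalizerMonoidHom_ker.symm).trans
    (QuotientGroup.quotientKerEquivRange _)

theorem quotEquivRange_mk (Q : Subgroup Ω) (g : ↥(Subgroup.normalizer (Q : Set Ω))) :
    ((quotEquivRange Q (QuotientGroup.mk g) : Q.normalizerMonoidHom.range) : MulAut Q) =
      Q.normalizerMonoidHom g := rfl

/-- Conjugation identifies the normalizers. -/
def normalizerConj (Q : Subgroup Ω) (t : Ω) :
    ↥(Subgroup.normalizer (Q : Set Ω)) ≃*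
      ↥(Subgroup.normalizer ((Q.map (MulAut.conj t).toMonoidHom : Subgroup Ω) : Set Ω)) where
  toFun x := ⟨t * x * t⁻¹, by
    rw [Subgroup.mem_normalizer_iff]
    intro y
    have hy : ∀ z : Ω, z ∈ Q.map (MulAut.conj t).toMonoidHom ↔ t⁻¹ * z * t ∈ Q := by
      intro z
      constructor
      · rintro ⟨a, ha, rfl⟩
        have : t⁻¹ * ((MulAut.conj t).toMonoidHom a) * t = a := by
          simp [MulAut.conj_apply]
          group
        rwa [this]
      · intro h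
        refine ⟨_, h, ?_⟩
        simp [MulAut.conj_apply]
        group
    change y ∈ Q.map (MulAut.conj t).toMonoidHom ↔ _ ∈ Q.map (MulAut.conj t).toMonoidHom
    rw [hy, hy]
    have h1 := Subgroup.mem_normalizer_iff.mp x.2 (t⁻¹ * y * t)
    have h2 : t⁻¹ * (t * (x : Ω) * t⁻¹ * y * (t * (x : Ω) * t⁻¹)⁻¹) * t =
        (x : Ω) * (t⁻¹ * y * t) * (x : Ω)⁻¹ := by group
    rw [h2]
    exact h1⟩
  invFun y := ⟨t⁻¹ * y * t, by
    rw [Subgroup.mem_normalizer_iff]
    intro z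
    have hy : ∀ z : Ω, z ∈ Q ↔ t * z * t⁻¹ ∈ Q.map (MulAut.conj t).toMonoidHom := by
      intro z
      constructor
      · intro h
        exact ⟨z, h, rfl⟩
      · rintro ⟨a, ha, h⟩
        have : a = z := (MulAut.conj t).injective h
        rwa [← this]
    rw [hy z, hy (t⁻¹ * y * t * z * (t⁻¹ * y * t)⁻¹)]
    have h1 := Subgroup.mem_normalizer_iff.mp y.2 (t * z * t⁻¹)
    have h2 : t * (t⁻¹ * (y : Ω) * t * z * (t⁻¹ * (y : Ω) * t)⁻¹) * t⁻¹ =
        (y : Ω) * (t * z * t⁻¹) * (y : Ω)⁻¹ := by group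
    rw [h2]
    exact h1⟩
  left_inv x := by
    apply Subtype.ext
    show t⁻¹ * (t * (x : Ω) * t⁻¹) * t = x
    group
  right_inv y := by
    apply Subtype.ext
    show t * (t⁻¹ * (y : Ω) * t) * t⁻¹ = y
    group
  map_mul' x y := by
    apply Subtype.ext
    show t * ((x : Ω) * y) * t⁻¹ = t * x * t⁻¹ * (t * y * t⁻¹)
    group

theorem normalizerConj_coe (Q : Subgroup Ω) (t : Ω) (x : ↥(Subgroup.normalizer (Q : Set Ω))) :
    ((normalizerConj Q t x : ↥(Subgroup.normalizer ((Q.map (MulAut.conj t).toMonoidHom : Subgroup Ω) : Set Ω))) : Ω) =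
      t * x * t⁻¹ := rfl

theorem map_centralizer_normalizerConj (Q : Subgroup Ω) (t : Ω) :
    ((Subgroup.centralizer (Q : Set Ω)).subgroupOf (Subgroup.normalizer (Q : Set Ω))).map
        (normalizerConj Q t).toMonoidHom =
      (Subgroup.centralizer ((Q.map (MulAut.conj t).toMonoidHom : Subgroup Ω) : Set Ω)).subgroupOf
        (Subgroup.normalizer ((Q.map (MulAut.conj t).toMonoidHom : Subgroup Ω) : Set Ω)) := by
  ext y
  constructor
  · rintro ⟨x, hx, rfl⟩
    have hx' : (x : Ω) ∈ Subgroup.centralizer (Q : Set Ω) := hx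
    rw [Subgroup.mem_subgroupOf]
    rw [Subgroup.mem_centralizer_iff] at hx' ⊢
    rintro _ ⟨a, ha, rfl⟩
    have h1 : a * (x : Ω) = x * a := hx' a ha
    show t * a * t⁻¹ * (t * (x : Ω) * t⁻¹) = t * (x : Ω) * t⁻¹ * (t * a * t⁻¹)
    calc t * a * t⁻¹ * (t * (x : Ω) * t⁻¹) = t * (a * x) * t⁻¹ := by group
      _ = t * (x * a) * t⁻¹ := by rw [h1]
      _ = _ := by group
  · intro hy
    refine ⟨(normalizerConj Q t).symm y, ?_, (normalizerConj Q t).apply_symm_apply y⟩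
    rw [Subgroup.mem_subgroupOf] at hy
    show ((normalizerConj Q t).symm y : Ω) ∈ Subgroup.centralizer (Q : Set Ω)
    rw [Subgroup.mem_centralizer_iff] at hy ⊢
    intro a ha
    have h1 := hy (t * a * t⁻¹) ⟨a, ha, rfl⟩
    show a * (t⁻¹ * (y : Ω) * t) = t⁻¹ * (y : Ω) * t * a
    calc a * (t⁻¹ * (y : Ω) * t) = t⁻¹ * (t * a * t⁻¹ * y) * t := by group
      _ = t⁻¹ * (y * (t * a * t⁻¹)) * t := by rw [h1]
      _ = _ := by group

/-- The class of `g` in `O_p(N(Q)/C(Q))` is invariant under conjugation. -/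
theorem mk_mem_pCore_conj (p : ℕ) (Q : Subgroup Ω) (t : Ω) (g : ↥(Subgroup.normalizer (Q : Set Ω))) :
    (QuotientGroup.mk (normalizerConj Q t g) :
        ↥(Subgroup.normalizer ((Q.map (MulAut.conj t).toMonoidHom : Subgroup Ω) : Set Ω)) ⧸
          (Subgroup.centralizer ((Q.map (MulAut.conj t).toMonoidHom : Subgroup Ω) : Set Ω)).subgroupOf
            (Subgroup.normalizer ((Q.map (MulAut.conj t).toMonoidHom : Subgroup Ω) : Set Ω))) ∈
        pCore p (↥(Subgroup.normalizer ((Q.map (MulAut.conj t).toMonoidHom : Subgroup Ω) : Set Ω)) ⧸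
          (Subgroup.centralizer ((Q.map (MulAut.conj t).toMonoidHom : Subgroup Ω) : Set Ω)).subgroupOf
            (Subgroup.normalizer ((Q.map (MulAut.conj t).toMonoidHom : Subgroup Ω) : Set Ω))) ↔
      (QuotientGroup.mk g : ↥(Subgroup.normalizer (Q : Set Ω)) ⧸
          (Subgroup.centralizer (Q : Set Ω)).subgroupOf (Subgroup.normalizer (Q : Set Ω))) ∈
        pCore p (↥(Subgroup.normalizer (Q : Set Ω)) ⧸
          (Subgroup.centralizer (Q : Set Ω)).subgroupOf (Subgroup.normalizer (Q : Set Ω))) :=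
  mem_pCore_equiv p (QuotientGroup.congr _ _ (normalizerConj Q t) (map_centralizer_normalizerConj Q t))
    (x := QuotientGroup.mk g)

/-- The class of `g` lies in `O_p(N(Q)/C(Q))` iff the induced automorphism lies in `O_p(Aut_N(Q))`. -/
theorem mk_mem_pCore_iff (p : ℕ) (Q : Subgroup Ω) (g : ↥(Subgroup.normalizer (Q : Set Ω))) :
    (QuotientGroup.mk g : ↥(Subgroup.normalizer (Q : Set Ω)) ⧸
          (Subgroup.centralizer (Q : Set Ω)).subgroupOf (Subgroup.normalizer (Q : Set Ω))) ∈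
        pCore p (↥(Subgroup.normalizer (Q : Set Ω)) ⧸
          (Subgroup.centralizer (Q : Set Ω)).subgroupOf (Subgroup.normalizer (Q : Set Ω))) ↔
      Q.normalizerMonoidHom g ∈ (pCore p Q.normalizerMonoidHom.range).map Q.normalizerMonoidHom.range.subtype := by
  rw [← mem_pCore_equiv p (quotEquivRange Q)]
  constructor
  · intro h
    exact ⟨_, h, rfl⟩
  · rintro ⟨x, hx, hxg⟩
    have : quotEquivRange Q (QuotientGroup.mk g) = x := by
      apply Subtype.ext
      exact hxg.symm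
    rwa [this]

/-- The purely group-theoretic form of the quadratic identity. -/
theorem quad_identity (g a : Ω) :
    (g * a⁻¹ * g⁻¹) * a * (g * a⁻¹ * g⁻¹) * (g * (g * a * g⁻¹) * g⁻¹) = 1 ↔
      g * (a⁻¹ * g * a * g⁻¹) * g⁻¹ = a⁻¹ * g * a * g⁻¹ := by
  have h : (g * a⁻¹ * g⁻¹) * a * (g * a⁻¹ * g⁻¹) * (g * (g * a * g⁻¹) * g⁻¹) =
      (a⁻¹ * g * a * g⁻¹)⁻¹ * (g * (a⁻¹ * g * a * g⁻¹) * g⁻¹) := by group
  rw [h, inv_mul_eq_one, eq_comm]

/-- In terms of the automorphism of `Q`. -/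
theorem quad_hom_iff (Q : Subgroup Ω) (g : ↥(Subgroup.normalizer (Q : Set Ω))) (a : Q) :
    (Q.normalizerMonoidHom g a⁻¹) * a * (Q.normalizerMonoidHom g a⁻¹) *
        (Q.normalizerMonoidHom g (Q.normalizerMonoidHom g a)) = 1 ↔
      (g : Ω) * ((a : Ω)⁻¹ * g * a * (g : Ω)⁻¹) * (g : Ω)⁻¹ = (a : Ω)⁻¹ * g * a * (g : Ω)⁻¹ := by
  rw [← quad_identity]
  constructor
  · intro h
    have := congrArg (Subtype.val) h
    exact this
  · intro h
    apply Subtype.ext
    exact h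

end

/-- Let p be an odd prime, G a finite group and P a Sylow p-subgroup. Call a fusion system F p-stable when, for every fully normalized subgroup Q and every χ ∈ Aut_F(Q) acting quadratically on Q (that is, χ fixes a⁻¹χ(a) for every a ∈ Q; equivalently χ(a⁻¹)·a·χ(a⁻¹)·χ(χ(a)) = 1), χ lies in O_p(Aut_F(Q)). Then G is p-stable in the normalizer form (for every p-subgroup Q and x ∈ N_G(Q) with [Q, x, x] = 1, the image of x lies in O_p(N_G(Q)/C_G(Q))) if and only if the fusion system of G on P is p-stable. -/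
theorem result {Ω : Type*} [Group Ω] [Finite Ω] {p : ℕ} [Fact p.Prime] (hp : p ≠ 2) (P : Sylow p Ω) : Cfsg.IsNormalizerPStable p Ω ↔ (∀ Q : Subgroup Ω, (Cfsg.groupFusionSystem (P : Subgroup Ω)).IsFullyNormalized Q → ∀ χ : MulAut ↥Q, χ ∈ (Cfsg.groupFusionSystem (P : Subgroup Ω)).autGroup Q → (∀ a : ↥Q, (χ a⁻¹) * a * (χ a⁻¹) * (χ (χ a)) = 1) → χ ∈ ((Cfsg.pCore p ↥((Cfsg.groupFusionSystem (P : Subgroup Ω)).autGroup Q)).map ((Cfsg.groupFusionSystem (P : Subgroup Ω)).autGroup Q).subtype : Subgroup (MulAut ↥Q))) := by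
  have hrange : ∀ Q : Subgroup Ω, Q ≤ (P : Subgroup Ω) →
      (Cfsg.groupFusionSystem (P : Subgroup Ω)).autGroup Q = Q.normalizerMonoidHom.range := by
    intro Q hQ
    ext χ
    rw [mem_autGroup_iff hQ]
    constructor
    · rintro ⟨-, -, g, hg⟩
      have hgn : g ∈ Subgroup.normalizer (Q : Set Ω) := by
        exact mem_normalizer_of_autInduced (S := (P : Subgroup Ω)) hQ hg
      refine ⟨⟨g, hgn⟩, ?_⟩
      ext x
      exact (hg x).symm
    · rintro ⟨g, rfl⟩
      refine ⟨hQ, ?_, (g : Ω), fun x => rfl⟩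
      intro x
      exact hQ (Q.normalizerMonoidHom g x).2
  constructor
  · intro hst Q hQ χ hχ hquad
    have hQP := hQ.1
    rw [hrange Q hQP] at hχ ⊢
    obtain ⟨g, rfl⟩ := hχ
    rw [← mk_mem_pCore_iff]
    refine hst Q (P.isPGroup'.to_le hQP) g g.2 ?_
    apply commutator_eq_bot_of_comm
    intro a ha
    exact (quad_hom_iff Q g ⟨a, ha⟩).1 (hquad ⟨a, ha⟩)
  · intro hst Q hpQ g hg hcomm
    -- conjugate Q to a fully normalized subgroup of P
    obtain ⟨T, hT⟩ := hpQ.exists_le_sylow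
    obtain ⟨t₁, ht₁⟩ := MulAction.exists_smul_eq Ω T P
    have hQ₁ : Q.map (MulAut.conj t₁).toMonoidHom ≤ (P : Subgroup Ω) := by
      rw [← ht₁]
      exact Subgroup.map_mono hT
    obtain ⟨Q₀, ⟨φ, hφ, hr⟩, hfn⟩ := exists_fullyNormalized_conj
      (F := Cfsg.groupFusionSystem (P : Subgroup Ω)) hQ₁
    obtain ⟨-, -, h, hh⟩ := hφ
    have hQ₀ : Q₀ = Q.map (MulAut.conj (h * t₁)).toMonoidHom := by
      rw [← hr]
      ext y
      constructor
      · rintro ⟨⟨_, a, ha, rfl⟩, rfl⟩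
        refine ⟨a, ha, ?_⟩
        rw [hh]
        simp [MulAut.conj_apply]
      · rintro ⟨a, ha, rfl⟩
        refine ⟨⟨_, a, ha, rfl⟩, ?_⟩
        rw [hh]
        simp [MulAut.conj_apply]
    subst hQ₀
    set t := h * t₁ with ht
    set Q₀ := Q.map (MulAut.conj t).toMonoidHom with hQ₀
    -- transfer
    have h1 := mk_mem_pCore_conj p Q t ⟨g, hg⟩
    refine h1.1 ?_
    rw [mk_mem_pCore_iff]
    set g₀ := normalizerConj Q t ⟨g, hg⟩ with hg₀
    have hauto : Q₀.normalizerMonoidHom g₀ ∈ (Cfsg.groupFusionSystem (P : Subgroup Ω)).autGroup Q₀ := by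
      rw [hrange Q₀ hfn.1]
      exact ⟨g₀, rfl⟩
    have := hst Q₀ hfn _ hauto ?_
    · rw [hrange Q₀ hfn.1] at this
      exact this
    · intro a
      rw [quad_hom_iff]
      obtain ⟨a, a', ha', rfl⟩ := a
      have h2 := comm_of_commutator_eq_bot hcomm ha'
      show (t * g * t⁻¹) * ((t * a' * t⁻¹)⁻¹ * (t * g * t⁻¹) * (t * a' * t⁻¹) * (t * g * t⁻¹)⁻¹) * (t * g * t⁻¹)⁻¹ =
        (t * a' * t⁻¹)⁻¹ * (t * g * t⁻¹) * (t * a' * t⁻¹) * (t * g * t⁻¹)⁻¹
      have h3 : (t * g * t⁻¹) * ((t * a' * t⁻¹)⁻¹ * (t * g * t⁻¹) * (t * a' * t⁻¹) * (t * g * t⁻¹)⁻¹) * (t * g * t⁻¹)⁻¹ =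
          t * (g * (a'⁻¹ * g * a' * g⁻¹) * g⁻¹) * t⁻¹ := by group
      rw [h3, h2]
      group

end Cfsg.Agent.S5246
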