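import Cfsg.Statements.S5251
import Cfsg.Agent.Lib.Fusion2.Transport
import Cfsg.Agent.Lib.Fusion2.NormalSub

set_option autoImplicit false
open Cfsg

namespace Cfsg.Agent.S5251

open Cfsg.FusionSystem Cfsg.Agent.Lib.Fusion Cfsg.Agent.Lib.Fusion2

/-- Let F be a saturated fusion system over a finite p-group S, E a normal subsystem of F over T, and P an F-centric subgroup of S such that P ∩ T is not E-centric. Then some F-conjugate P* of P satisfies Out_S(P*) ∩ O_p(Out_F(P*)) ≠ 1: there is an element of N_S(P*) outside P* whose conjugation action on P* lies in O_p(Aut_F(P*)). In particular P is not both centric and radical in F. -/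
theorem result {Ω : Type*} [Group Ω] {S : Subgroup Ω} [Finite S] (p : ℕ) [Fact p.Prime] (hS : IsPGroup p S) (F : Cfsg.FusionSystem S) (hF : F.IsSaturated p) {T : Subgroup Ω} (E : Cfsg.FusionSystem T) (hE : E.IsNormalIn F p) (P : Subgroup Ω) (hP : F.IsCentric P) (hPT : ¬ E.IsCentric (P ⊓ T)) : (∃ φ ∈ F.Hom P, ∃ x ∈ S ⊓ Subgroup.normalizer (φ.range : Set Ω), x ∉ φ.range ∧ ∃ α ∈ ((Cfsg.pCore p ↥(F.autGroup φ.range)).map (F.autGroup φ.range).subtype : Subgroup (MulAut ↥φ.range)), ∀ y : ↥φ.range, ((α y : ↥φ.range) : Ω) = x * (y : Ω) * x⁻¹) ∧ ¬ F.IsRadical p P := by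
  obtain ⟨⟨-, -, hsub, hT, -⟩, -⟩ := hE
  have hPS := hP.1
  have hTS := hT.1
  have hTn : S ≤ Subgroup.normalizer (T : Set Ω) := normalizer_of_stronglyClosed hT
  have hRT : P ⊓ T ≤ T := inf_le_right
  have hRS : P ⊓ T ≤ S := hRT.trans hTS
  obtain ⟨R', hR'conj, hR'c⟩ : ∃ R', E.IsConj (P ⊓ T) R' ∧ ¬ centralizerIn T R' ≤ R' := by
    by_contra hcon
    push_neg at hcon
    exact hPT ⟨hRT, hcon⟩
  obtain ⟨c, hc, hcR'⟩ := SetLike.not_le_iff_exists.1 hR'c
  have hRR'F : F.IsConj (P ⊓ T) R' := by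
    obtain ⟨φ, hφ, h⟩ := hR'conj
    exact ⟨φ, hsub _ hφ, h⟩
  obtain ⟨U₁, hRU₁, hU₁⟩ := exists_fullyNormalized_conj (F := F) hRS
  have hU₁S := hU₁.1
  have hPN : P ≤ normalizerIn S (P ⊓ T) := by
    intro x hx
    refine ⟨hPS hx, mem_normalizer_of_conj_mem hRS (fun y hy => ⟨P.mul_mem (P.mul_mem hx hy.1) (P.inv_mem hx),
      conj_mem_of_normalizer (hTn (hPS hx)) hy.2⟩)⟩
  obtain ⟨ρ, hρ, hρN, hρR⟩ := exists_ext_of_fullyNormalized hS hF hU₁ hRU₁
  have hφ : ρ.comp (Subgroup.inclusion hPN) ∈ F.Hom P := restrict_mem hρ hPN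
  set φ := ρ.comp (Subgroup.inclusion hPN) with hφdef
  have hP₁S : φ.range ≤ S := by
    rintro _ ⟨x, rfl⟩
    exact val_mem hφ x
  have hP₁conj : F.IsConj P φ.range := ⟨φ, hφ, rfl⟩
  have hP₁c : F.IsCentric φ.range := isCentric_of_isConj hP₁conj hP
  have hP₁n : φ.range ≤ Subgroup.normalizer (U₁ : Set Ω) := by
    rintro _ ⟨x, rfl⟩
    exact (hρN _).2
  have hU₁P₁ : U₁ ≤ φ.range := by
    intro u hu
    rw [← hρR] at hu
    obtain ⟨x, hx, rfl⟩ := hu
    exact ⟨⟨x, hx.1⟩, rfl⟩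
  have hU₁T : U₁ ≤ T := by
    intro u hu
    rw [← hρR] at hu
    obtain ⟨x, hx, rfl⟩ := hu
    exact hT.2 (P ⊓ T) inf_le_right _ (restrict_mem hρ (le_normalizerIn hRS)) ⟨x, hx⟩
  have hP₁T : ∀ y ∈ φ.range, y ∈ T → y ∈ U₁ := by
    rintro _ ⟨x, rfl⟩ hy
    obtain ⟨μ, hμ, hμx⟩ := F.inv_mem hφ
    have hle : φ.range ⊓ T ≤ φ.range := inf_le_left
    have hxT : (x : Ω) ∈ T := by
      have := hT.2 (φ.range ⊓ T) inf_le_right _ (restrict_mem hμ hle) ⟨φ x, ⟨x, rfl⟩, hy⟩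
      rw [← hμx x]
      exact this
    rw [← hρR]
    exact ⟨⟨x, hPN x.2⟩, ⟨x.2, hxT⟩, rfl⟩
  -- `C_T(U₁)` is not contained in `U₁`
  have hR'U₁ : F.IsConj R' U₁ := isConj_trans (isConj_symm hRR'F) hRU₁
  obtain ⟨e, he⟩ := isConj_iff.1 hR'U₁
  obtain ⟨lam, hlam, hlamx⟩ := (receptive_of_fullyNormalized hS hF hU₁).2 R' _ he (isIso_range e)
  have hcS : c ∈ S := hTS hc.1
  have hcext : c ∈ extender S R' (U₁.subtype.comp e.toMonoidHom) :=
    centralizerIn_le_extender _ ⟨hcS, hc.2⟩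
  have hR'X : R' ≤ extender S R' (U₁.subtype.comp e.toMonoidHom) := le_extender he
  set d := lam ⟨c, hcext⟩ with hd
  have hdT : d ∈ T := hT.2 (extender S R' (U₁.subtype.comp e.toMonoidHom) ⊓ T) inf_le_right _ (restrict_mem hlam inf_le_left) ⟨c, hcext, hc.1⟩
  have hlamr : ∀ r : R', lam ⟨r, hR'X r.2⟩ = e r := fun r => hlamx r r.2 (hR'X r.2)
  have hdC : d ∈ Subgroup.centralizer (U₁ : Set Ω) := by
    rw [Subgroup.mem_centralizer_iff]
    intro u hu
    have hu' : u = lam ⟨e.symm ⟨u, hu⟩, hR'X (e.symm ⟨u, hu⟩).2⟩ := by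
      rw [hlamr]
      simp
    rw [hu', hd, ← map_mul, ← map_mul]
    congr 1
    apply Subtype.ext
    exact Subgroup.mem_centralizer_iff.1 hc.2 _ (e.symm ⟨u, hu⟩).2
  have hdU : d ∉ U₁ := by
    intro hdU
    apply hcR'
    have h1 : lam ⟨e.symm ⟨d, hdU⟩, hR'X (e.symm ⟨d, hdU⟩).2⟩ = lam ⟨c, hcext⟩ := by
      rw [hlamr]
      simp [hd]
    have h3 : ((e.symm ⟨d, hdU⟩ : R') : Ω) = c := congrArg Subtype.val (inj hlam h1)
    rw [← h3]
    exact (e.symm ⟨d, hdU⟩).2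
  -- normalizer growth
  set D := centralizerIn T U₁ with hDdef
  have hdD : d ∈ D := ⟨hdT, hdC⟩
  have hDS : D ≤ S := inf_le_left.trans hTS
  have hP₁D : φ.range ≤ Subgroup.normalizer (D : Set Ω) := by
    intro x hx
    have hxS := hP₁S hx
    refine mem_normalizer_of_conj_mem hDS (fun y hy => ⟨conj_mem_of_normalizer (hTn hxS) hy.1, ?_⟩)
    show _ ∈ Subgroup.centralizer _
    rw [Subgroup.mem_centralizer_iff]
    intro u hu
    have h1 : x⁻¹ * u * x ∈ U₁ := by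
      have := conj_mem_of_normalizer ((Subgroup.normalizer (U₁ : Set Ω)).inv_mem (hP₁n hx)) hu
      simpa using this
    have h2 := Subgroup.mem_centralizer_iff.1 hy.2 _ h1
    calc u * (x * y * x⁻¹) = x * ((x⁻¹ * u * x) * y) * x⁻¹ := by group
      _ = x * (y * (x⁻¹ * u * x)) * x⁻¹ := by rw [h2]
      _ = x * y * x⁻¹ * u := by group
  have hlt : φ.range < φ.range ⊔ D := by
    refine lt_of_le_of_ne le_sup_left (fun h => hdU ?_)
    have : d ∈ φ.range := by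
      rw [h]
      exact Subgroup.mem_sup_right hdD
    exact hP₁T d this hdT
  have hXS : φ.range ⊔ D ≤ S := sup_le hP₁S hDS
  have hfin := finite_of_le hXS
  obtain ⟨g, hg, hgP⟩ := exists_mem_normalizerIn_not_mem (S := φ.range ⊔ D) (hS.to_le hXS) hlt
  obtain ⟨u, hu, q, hq, rfl⟩ := exists_mul_of_mem_sup hP₁D hg.1
  have hqn : q ∈ Subgroup.normalizer (φ.range : Set Ω) := by
    have := (Subgroup.normalizer (φ.range : Set Ω)).mul_mem (Subgroup.le_normalizer (φ.range.inv_mem hu)) hg.2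
    simpa using this
  have hqP₁ : q ∉ φ.range := fun h => hgP (φ.range.mul_mem hu h)
  have hqS : q ∈ S := hDS hq
  have hqT : q ∈ T := hq.1
  have hcA := autOfNormalizer_mem_autGroup (F := F) hP₁S (g := q) ⟨hqS, hqn⟩
  -- the chain stabilizer
  let W : ℕ → Subgroup φ.range := fun i => if i = 0 then ⊥ else if i = 1 then U₁.subgroupOf φ.range else ⊤
  have hW0 : W 0 = ⊥ := rfl
  have hW1 : W 1 = U₁.subgroupOf φ.range := rfl
  have hW2 : W 2 = ⊤ := rfl
  have hinv : ∀ α ∈ F.autGroup φ.range, ∀ i ≤ 2, ∀ y ∈ W i, α y ∈ W i := by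
    intro α hα i hi y hy
    interval_cases i
    · rw [hW0, Subgroup.mem_bot] at hy ⊢
      rw [hy, map_one]
    · rw [hW1, Subgroup.mem_subgroupOf] at hy ⊢
      exact hP₁T _ (α y).2 (autGroup_mem_of_stronglyClosed' hP₁S hT hα (hU₁T hy))
    · rw [hW2]
      trivial
  have hmono : ∀ i < 2, W i ≤ W (i + 1) := by
    intro i hi
    interval_cases i
    · rw [hW0]
      exact bot_le
    · rw [hW2]
      exact le_top
  have := finite_of_le hP₁S
  have hK := chainStab_subgroupOf_normal (F.autGroup φ.range) W 2 hinv hmono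
  have hKp := chainStab_isPGroup (p := p) (hS.to_le hP₁S) (F.autGroup φ.range) W 2 hinv hmono hW2 (fun α _ => ⟨0, fun y hy => by
    rw [hW0, Subgroup.mem_bot] at hy
    rw [hy, map_one]⟩)
  have hcK : autOfNormalizer hqn ∈ chainStab (F.autGroup φ.range) W 2 hinv hmono := by
    refine ⟨hcA, fun i hi y hy => ?_⟩
    interval_cases i
    · rw [hW0, Subgroup.mem_bot]
      have hy' : (y : Ω) ∈ U₁ := by
        have : y ∈ W 1 := hy
        rw [hW1, Subgroup.mem_subgroupOf] at this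
        exact this
      apply Subtype.ext
      show (y : Ω)⁻¹ * (q * (y : Ω) * q⁻¹) = 1
      have h1 := Subgroup.mem_centralizer_iff.1 hq.2 _ hy'
      rw [← h1]
      group
    · rw [hW1, Subgroup.mem_subgroupOf]
      show (y : Ω)⁻¹ * (q * (y : Ω) * q⁻¹) ∈ U₁
      have hyS : (y : Ω) ∈ S := hP₁S y.2
      refine hP₁T _ (φ.range.mul_mem (φ.range.inv_mem y.2) (conj_mem_of_normalizer hqn y.2)) ?_
      have h1 : (y : Ω)⁻¹ * q * (y : Ω) ∈ T := by
        have := conj_mem_of_normalizer (hTn (S.inv_mem hyS)) hqT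
        simpa using this
      have h2 := T.mul_mem h1 (T.inv_mem hqT)
      simpa [mul_assoc] using h2
  have hle : (chainStab (F.autGroup φ.range) W 2 hinv hmono).subgroupOf (F.autGroup φ.range) ≤ pCore p (F.autGroup φ.range) :=
    Cfsg.Agent.Lib.Basic.le_pCore hK hKp.comap_subtype
  have hmem : autOfNormalizer hqn ∈ ((pCore p (F.autGroup φ.range)).map (F.autGroup φ.range).subtype : Subgroup (MulAut φ.range)) :=
    ⟨⟨_, hcA⟩, hle hcK, rfl⟩
  refine ⟨⟨φ, hφ, q, ⟨hqS, hqn⟩, hqP₁, _, hmem, fun y => rfl⟩, fun hr => ?_⟩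
  have hr' := isRadical_of_isConj hP₁conj hr
  rw [hr'.2] at hmem
  exact hqP₁ (mem_of_autOfNormalizer_mem_inn hP₁S (hP₁c.2 _ (isConj_refl hP₁S)) ⟨hqS, hqn⟩ hmem)

end Cfsg.Agent.S5251
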