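import Cfsg.Statements.S5255
import Cfsg.Agent.Lib.Fusion.Factor

set_option autoImplicit false
open Cfsg

namespace Cfsg.Agent.S5255

open Cfsg.FusionSystem Cfsg.Agent.Lib.Fusion

/-- Let F be a saturated fusion system over a finite p-group S and T a subgroup of S strongly closed in F. Then T·C_S(T) is strongly closed in F. -/
theorem result {Ω : Type*} [Group Ω] {S : Subgroup Ω} [Finite S] (p : ℕ) [Fact p.Prime] (hS : IsPGroup p S) (F : Cfsg.FusionSystem S) (hF : F.IsSaturated p) (T : Subgroup Ω) (hT : F.StronglyClosed T) : F.StronglyClosed (T ⊔ Cfsg.FusionSystem.centralizerIn S T) := by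
  have hTS := hT.1
  have hCS : centralizerIn S T ≤ S := inf_le_left
  have hTn := normalizer_of_stronglyClosed hT
  refine ⟨sup_le hTS hCS, fun U hU φ hφ x => ?_⟩
  obtain ⟨ψ, hψ, hψv⟩ := exists_ext_mod hS hF hT hφ
  have hx : (x : Ω) ∈ centralizerIn S T ⊔ T := by
    rw [sup_comm]
    exact hU x.2
  obtain ⟨c, hc, t, ht, hct⟩ := exists_mul_of_mem_sup (hCS.trans hTn) hx
  have htX : t ∈ U ⊔ T := Subgroup.mem_sup_right ht
  have hcX : c ∈ U ⊔ T := by
    have := (U ⊔ T).mul_mem (Subgroup.mem_sup_left x.2 : (x : Ω) ∈ U ⊔ T) ((U ⊔ T).inv_mem htX)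
    rw [← hct] at this
    simpa using this
  have h1 : ψ (Subgroup.inclusion le_sup_left x) = ψ ⟨c, hcX⟩ * ψ ⟨t, htX⟩ := by
    rw [← map_mul]
    congr 1
    exact Subtype.ext hct.symm
  have hψt : ψ ⟨t, htX⟩ ∈ T := hom_mem_of_stronglyClosed hT hψ ⟨t, htX⟩ ht
  have hψc : ψ ⟨c, hcX⟩ ∈ centralizerIn S T :=
    map_mem_centralizerIn hψ (map_eq_of_stronglyClosed hT le_sup_right hψ) ⟨c, hcX⟩ hc.2
  have h2 : φ x = ψ (Subgroup.inclusion le_sup_left x) * ((φ x)⁻¹ * ψ (Subgroup.inclusion le_sup_left x))⁻¹ := by group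
  have h3 : ψ (Subgroup.inclusion le_sup_left x) ∈ T ⊔ centralizerIn S T := by
    rw [h1]
    exact (T ⊔ centralizerIn S T).mul_mem (Subgroup.mem_sup_right hψc) (Subgroup.mem_sup_left hψt)
  rw [h2]
  exact (T ⊔ centralizerIn S T).mul_mem h3 ((T ⊔ centralizerIn S T).inv_mem (Subgroup.mem_sup_left (hψv x)))

end Cfsg.Agent.S5255
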