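import Cfsg.Statements.S5256
import Cfsg.Agent.Lib.Fusion.Factor

set_option autoImplicit false
open Cfsg

namespace Cfsg.Agent.S5256

open Cfsg.FusionSystem Cfsg.Agent.Lib.Fusion

/-- A map with values in the (finite) source is an automorphism. -/
theorem exists_aut_of_into {Ω : Type*} [Group Ω] {S : Subgroup Ω} [Finite S] {F : FusionSystem S} {P : Subgroup Ω}
    {φ : P →* Ω} (h : φ ∈ F.Hom P) (hv : ∀ x : P, φ x ∈ P) :
    ∃ α ∈ F.autGroup P, ∀ x : P, ((α x : P) : Ω) = φ x := by
  have hPS := le_of_hom h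
  have hr : φ.range = P := by
    refine eq_of_le_of_card_le (S := S) ?_ hPS ?_
    · rintro _ ⟨x, rfl⟩
      exact hv x
    · exact (Nat.card_congr (MonoidHom.ofInjective (inj h)).toEquiv).le
  exact ⟨isoOfHom h hr, mem_autGroup_of_isIso (isoOfHom_isIso h hr), fun x => isoOfHom_coe h hr x⟩

/-- Let F be a saturated fusion system over a finite p-group S, T a subgroup of S strongly closed in F, and E a factor system F/T realised along a homomorphism θ of S with kernel T. Then the hyperfocal subgroup of E is the image under θ of the hyperfocal subgroup of F (hyp(F/T) = T·hyp(F)/T). -/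
theorem result {Ω : Type*} [Group Ω] {S : Subgroup Ω} [Finite S] (p : ℕ) [Fact p.Prime] (hS : IsPGroup p S) (F : Cfsg.FusionSystem S) (hF : F.IsSaturated p) (T : Subgroup Ω) (hT : F.StronglyClosed T) {Ω' : Type*} [Group Ω'] {S' : Subgroup Ω'} (θ : ↥S →* Ω') (E : Cfsg.FusionSystem S') (hE : F.IsFactorSystem T θ E) : E.hyperfocalSubgroup p = ((F.hyperfocalSubgroup p).subgroupOf S).map θ := by
  have hmor := (isSurjectiveMorphism_of_factor hS hF hT hE).1
  haveI hS'fin : Finite S' := by
    rw [← hE.2.2.1]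
    exact Finite.of_surjective θ.rangeRestrict (MonoidHom.rangeRestrict_surjective θ)
  apply le_antisymm
  · -- `hyp(E) ≤ θ(hyp(F))`
    refine (Subgroup.closure_le _).2 ?_
    rintro _ ⟨P', α', x', hP', hα', rfl⟩
    have hPfin := finite_of_le hP'
    set M := ((F.hyperfocalSubgroup p).subgroupOf S).map θ with hM
    have key : ∀ (a : E.autGroup P'), a ∈ pResidual p (E.autGroup P') → ∀ x' : P',
        (x' : Ω')⁻¹ * (((a : MulAut P') x' : P') : Ω') ∈ M := by
      intro a ha
      induction ha using Subgroup.closure_induction with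
      | mem a ha =>
        intro x'
        have hcop : Nat.Coprime (orderOf a) p := ha
        have hφ := (mem_autGroup_iff hP').1 a.2
        obtain ⟨-, φ, hφF, hX, hφS, hX', hind⟩ := (hE.2.2.2 _ _).1 hφ
        have hvX : ∀ x : preimageAlong θ P', φ x ∈ preimageAlong θ P' := by
          intro x
          refine mem_preimageAlong.2 ⟨hφS x, ?_⟩
          rw [← hind x]
          exact ((a : MulAut P') ⟨_, hX' x⟩).2
        obtain ⟨α₀, hα₀, hα₀v⟩ := exists_aut_of_into hφF hvX
        have hrel : ∀ x : preimageAlong θ P', ((((a : MulAut P') ⟨_, hX' x⟩ : P')) : Ω') =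
            θ ⟨((α₀ x : preimageAlong θ P') : Ω), hX (α₀ x).2⟩ := by
          intro x
          have h1 := hind x
          have h2 : (⟨φ x, hφS x⟩ : S) = ⟨((α₀ x : preimageAlong θ P') : Ω), hX (α₀ x).2⟩ :=
            Subtype.ext (hα₀v x).symm
          rw [← h2]
          exact h1
        obtain ⟨k, hk, hkc⟩ := exists_coprime_power (p := p) (⟨α₀, hα₀⟩ : F.autGroup (preimageAlong θ P'))
          (orderOf a) hcop
        have hpow : ∀ (j : ℕ) (x : preimageAlong θ P'), (((((a : MulAut P') ^ j) ⟨_, hX' x⟩ : P')) : Ω') =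
            θ ⟨(((α₀ ^ j) x : preimageAlong θ P') : Ω), hX ((α₀ ^ j) x).2⟩ := by
          intro j
          induction j with
          | zero => intro x; rfl
          | succ j ih =>
            intro x
            rw [pow_succ', MulAut.mul_apply]
            have h1 : ((a : MulAut P') ^ j) ⟨_, hX' x⟩ = ⟨_, hX' ((α₀ ^ j) x)⟩ := Subtype.ext (ih x)
            rw [h1, hrel]
            rw [pow_succ' α₀, MulAut.mul_apply]
        have hak : (a : MulAut P') ^ k = (a : MulAut P') := by
          have := exists_pow_fix_pow hk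
          exact congrArg Subtype.val this
        -- `x'` comes from the preimage
        have hx'r : (x' : Ω') ∈ θ.range := by
          rw [hE.2.2.1]
          exact hP' x'.2
        obtain ⟨s, hs⟩ := hx'r
        have hsX : (s : Ω) ∈ preimageAlong θ P' := mem_preimageAlong.2 ⟨s.2, by
          show θ s ∈ P'
          rw [hs]
          exact x'.2⟩
        have hx'e : x' = ⟨θ ⟨((⟨s, hsX⟩ : preimageAlong θ P') : Ω), hX hsX⟩, hX' ⟨s, hsX⟩⟩ := Subtype.ext hs.symm
        have h3 := hpow k ⟨s, hsX⟩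
        rw [hak, ← hx'e] at h3
        rw [h3]
        have h4 := mem_hyp_of hX (Subgroup.subset_closure hkc) (⟨s, hsX⟩ : preimageAlong θ P')
        have hXeq : (⟨(s : Ω), hX hsX⟩ : S) = s := rfl
        refine ⟨⟨(s : Ω)⁻¹ * (((α₀ ^ k) ⟨s, hsX⟩ : preimageAlong θ P') : Ω), S.mul_mem (S.inv_mem s.2) (hX ((α₀ ^ k) ⟨s, hsX⟩).2)⟩,
          h4, ?_⟩
        have h5 : (⟨(s : Ω)⁻¹ * (((α₀ ^ k) ⟨s, hsX⟩ : preimageAlong θ P') : Ω), S.mul_mem (S.inv_mem s.2) (hX ((α₀ ^ k) ⟨s, hsX⟩).2)⟩ : S) =
            s⁻¹ * ⟨(((α₀ ^ k) ⟨s, hsX⟩ : preimageAlong θ P') : Ω), hX ((α₀ ^ k) ⟨s, hsX⟩).2⟩ := rfl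
        rw [h5, map_mul, map_inv, hs]
      | one =>
        intro x'
        simpa using M.one_mem
      | mul a b _ _ ha hb =>
        intro x'
        have h1 := M.mul_mem (hb x') (ha ((b : MulAut P') x'))
        have h2 : (x' : Ω')⁻¹ * (((a * b : E.autGroup P') : MulAut P') x' : P') =
            (x' : Ω')⁻¹ * (((b : MulAut P') x' : P') : Ω') * ((((b : MulAut P') x' : P') : Ω')⁻¹ *
              (((a : MulAut P') ((b : MulAut P') x') : P') : Ω')) := by
          show _ * (((a : MulAut P') ((b : MulAut P') x') : P') : Ω') = _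
          group
        rw [h2]
        exact h1
      | inv a _ ha =>
        intro x'
        have h1 := M.inv_mem (ha ((a : MulAut P')⁻¹ x'))
        rw [MulAut.apply_inv_self] at h1
        have h2 : ((((a : MulAut P')⁻¹ x' : P') : Ω')⁻¹ * (x' : Ω'))⁻¹ = (x' : Ω')⁻¹ * (((a : MulAut P')⁻¹ x' : P') : Ω') := by
          group
        rw [h2] at h1
        exact h1
    exact key α' hα' x'
  · -- `θ(hyp(F)) ≤ hyp(E)`
    have hP'S : ∀ s : S, θ s ∈ S' := hmor.1
    let K : Subgroup Ω := ((E.hyperfocalSubgroup p).comap θ).map S.subtype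
    have hKle : F.hyperfocalSubgroup p ≤ K := by
      refine (Subgroup.closure_le _).2 ?_
      rintro _ ⟨P, α, x, hP, hα, rfl⟩
      have hPfin := finite_of_le hP
      have key : ∀ (a : F.autGroup P), a ∈ pResidual p (F.autGroup P) → ∀ x : P,
          (θ ⟨x, hP x.2⟩)⁻¹ * θ ⟨(((a : MulAut P) x : P) : Ω), hP ((a : MulAut P) x).2⟩ ∈ E.hyperfocalSubgroup p := by
        intro a ha
        induction ha using Subgroup.closure_induction with
        | mem a ha =>
          intro x
          have hcop : Nat.Coprime (orderOf a) p := ha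
          have hφ := (mem_autGroup_iff hP).1 a.2
          obtain ⟨φ', hφ', hP0, hφS, hP1, hind⟩ := hmor.2 P _ hφ
          have hIS : imageAlong θ P ≤ S' := by
            rintro _ ⟨y, -, rfl⟩
            exact hP'S y
          have hvI : ∀ y : imageAlong θ P, φ' y ∈ imageAlong θ P := by
            rintro ⟨_, y, hy, rfl⟩
            have h1 := hind ⟨y, hy⟩
            have h2 : φ' ⟨θ y, ⟨y, hy, rfl⟩⟩ = θ ⟨(((a : MulAut P) ⟨y, hy⟩ : P) : Ω), hP ((a : MulAut P) ⟨y, hy⟩).2⟩ := h1
            rw [h2]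
            exact ⟨_, ((a : MulAut P) ⟨y, hy⟩).2, rfl⟩
          obtain ⟨α', hα', hα'v⟩ := exists_aut_of_into hφ' hvI
          have hrel : ∀ y : P, ((α' ⟨_, hP1 y⟩ : imageAlong θ P) : Ω') =
              θ ⟨(((a : MulAut P) y : P) : Ω), hP ((a : MulAut P) y).2⟩ := by
            intro y
            rw [hα'v]
            exact hind y
          have hpow : ∀ (j : ℕ) (y : P), (((α' ^ j) ⟨_, hP1 y⟩ : imageAlong θ P) : Ω') =
              θ ⟨((((a : MulAut P) ^ j) y : P) : Ω), hP (((a : MulAut P) ^ j) y).2⟩ := by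
            intro j
            induction j with
            | zero => intro y; rfl
            | succ j ih =>
              intro y
              rw [pow_succ', MulAut.mul_apply]
              have h1 : (α' ^ j) ⟨_, hP1 y⟩ = ⟨_, hP1 (((a : MulAut P) ^ j) y)⟩ := Subtype.ext (ih y)
              rw [h1, hrel, pow_succ' (a : MulAut P), MulAut.mul_apply]
          have hoa : (a : MulAut P) ^ orderOf a = 1 := by
            have := pow_orderOf_eq_one a
            exact congrArg Subtype.val this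
          have hone : α' ^ orderOf a = 1 := by
            ext ⟨_, y, hy, rfl⟩
            have h1 := hpow (orderOf a) ⟨y, hy⟩
            rw [hoa] at h1
            exact h1
          have hordd : orderOf (⟨α', hα'⟩ : E.autGroup (imageAlong θ P)) ∣ orderOf a := by
            rw [Subgroup.orderOf_mk]
            exact orderOf_dvd_of_pow_eq_one hone
          have hcop' : Nat.Coprime (orderOf (⟨α', hα'⟩ : E.autGroup (imageAlong θ P))) p :=
            Nat.Coprime.coprime_dvd_left hordd hcop
          have h5 := mem_hyp_of hIS (Subgroup.subset_closure hcop') (⟨_, hP1 x⟩ : imageAlong θ P)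
          have h6 : (((⟨α', hα'⟩ : E.autGroup (imageAlong θ P)) : MulAut _) ⟨_, hP1 x⟩ : imageAlong θ P) = α' ⟨_, hP1 x⟩ := rfl
          rw [h6, hrel] at h5
          exact h5
        | one =>
          intro x
          simpa using (E.hyperfocalSubgroup p).one_mem
        | mul a b _ _ ha hb =>
          intro x
          have h1 := (E.hyperfocalSubgroup p).mul_mem (hb x) (ha ((b : MulAut P) x))
          have h2 := mul_inv_cancel_left (θ ⟨(x : Ω), hP x.2⟩)⁻¹ (θ ⟨(x : Ω), hP x.2⟩)
          rw [show ((θ ⟨(x : Ω), hP x.2⟩)⁻¹ * θ ⟨(((b : MulAut P) x : P) : Ω), hP ((b : MulAut P) x).2⟩) *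
            ((θ ⟨(((b : MulAut P) x : P) : Ω), hP ((b : MulAut P) x).2⟩)⁻¹ *
              θ ⟨(((a : MulAut P) ((b : MulAut P) x) : P) : Ω), hP ((a : MulAut P) ((b : MulAut P) x)).2⟩) =
            (θ ⟨(x : Ω), hP x.2⟩)⁻¹ * θ ⟨(((a : MulAut P) ((b : MulAut P) x) : P) : Ω), hP ((a : MulAut P) ((b : MulAut P) x)).2⟩ by group] at h1
          exact h1
        | inv a _ ha =>
          intro x
          have h1 := (E.hyperfocalSubgroup p).inv_mem (ha ((a : MulAut P)⁻¹ x))
          have h2 : (⟨(((a : MulAut P) ((a : MulAut P)⁻¹ x) : P) : Ω), hP ((a : MulAut P) ((a : MulAut P)⁻¹ x)).2⟩ : S) = ⟨x, hP x.2⟩ := by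
            apply Subtype.ext
            simp
          rw [h2] at h1
          have h3 : ((θ ⟨(((a : MulAut P)⁻¹ x : P) : Ω), hP ((a : MulAut P)⁻¹ x).2⟩)⁻¹ * θ ⟨(x : Ω), hP x.2⟩)⁻¹ =
              (θ ⟨(x : Ω), hP x.2⟩)⁻¹ * θ ⟨(((a : MulAut P)⁻¹ x : P) : Ω), hP ((a : MulAut P)⁻¹ x).2⟩ := by group
          rw [h3] at h1
          exact h1
      have hy : (x : Ω)⁻¹ * (((α : MulAut P) x : P) : Ω) ∈ S := S.mul_mem (S.inv_mem (hP x.2)) (hP ((α : MulAut P) x).2)
      refine ⟨⟨_, hy⟩, ?_, rfl⟩
      have h5 := key α hα x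
      show θ ⟨_, hy⟩ ∈ E.hyperfocalSubgroup p
      have h6 : (⟨(x : Ω)⁻¹ * (((α : MulAut P) x : P) : Ω), hy⟩ : S) =
          (⟨(x : Ω), hP x.2⟩ : S)⁻¹ * ⟨(((α : MulAut P) x : P) : Ω), hP ((α : MulAut P) x).2⟩ := rfl
      rw [h6, map_mul, map_inv]
      exact h5
    rintro _ ⟨s, hs, rfl⟩
    obtain ⟨s', hs', hss'⟩ := hKle hs
    have : s' = s := Subtype.ext hss'
    rw [← this]
    exact hs'

end Cfsg.Agent.S5256
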