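import Cfsg.Statements.S5271
import Cfsg.Agent.Lib.Fusion2.WE3
-- import your own Cfsg.Agent.* helpers here

set_option autoImplicit false
open Cfsg

namespace Cfsg.Agent.S5271

open Cfsg.FusionSystem Cfsg.Agent.Lib.Fusion Cfsg.Agent.Lib.Fusion2 Cfsg.Agent.Lib.Fusion2.WE

/-- A nilpotency criterion for fusion systems. Let F be a saturated fusion system over a finite p-group S of order at least p². Call a subgroup Q of S weakly embedded in F when there is a subgroup P of S strongly closed in F such that both the product QP and the intersection Q ∩ P are strongly closed in F. Then F is the inner fusion system of S if and only if there is a subgroup D of S with 1 < D < S such that every subgroup of S of the same order as D is weakly embedded in F and, for every fully normalized subgroup H of S of that order, the normalizer fusion system of H in F is the inner fusion system of N_S(H). -/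
theorem result {Ω : Type*} [Group Ω] {S : Subgroup Ω} [Finite S] (p : ℕ) [Fact p.Prime] (hS : IsPGroup p ↥S) (F : Cfsg.FusionSystem S) (hF : F.IsSaturated p) (hcard : p ^ 2 ≤ Nat.card S) : (∀ P : Subgroup Ω, F.Hom P = (Cfsg.innerFusionSystem S).Hom P) ↔ ∃ D : Subgroup Ω, ⊥ < D ∧ D < S ∧ (∀ Q : Subgroup Ω, Q ≤ S → Nat.card ↥Q = Nat.card ↥D → ∃ P : Subgroup Ω, F.StronglyClosed P ∧ F.StronglyClosed (Q ⊔ P) ∧ F.StronglyClosed (Q ⊓ P)) ∧ (∀ H : Subgroup Ω, F.IsFullyNormalized H → Nat.card ↥H = Nat.card ↥D → ∀ N : Cfsg.FusionSystem (Cfsg.FusionSystem.normalizerIn S H), F.IsNormalizerSystem H N → ∀ P : Subgroup Ω, N.Hom P = (Cfsg.innerFusionSystem (Cfsg.FusionSystem.normalizerIn S H)).Hom P) := by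
  classical
  have hpp : p.Prime := Fact.out
  constructor
  · intro h
    obtain ⟨a, ha⟩ := IsPGroup.iff_card.1 hS
    have ha2 : 2 ≤ a := by
      rw [ha] at hcard
      exact (Nat.pow_le_pow_iff_right hpp.one_lt).1 hcard
    obtain ⟨D, -, hDS, hDc⟩ := exists_between_card hS (bot_le : (⊥ : Subgroup Ω) ≤ S) (k := a - 1)
      (by
        rw [Subgroup.card_bot]
        exact Nat.one_le_pow _ _ hpp.pos)
      (by
        rw [ha]
        exact pow_dvd_pow p (Nat.sub_le a 1))
    have hpa : p ^ (a - 1) * p = p ^ a := by
      rw [← pow_succ]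
      congr 1
      omega
    have hD1 : 1 < p ^ (a - 1) := Nat.one_lt_pow (by omega) hpp.one_lt
    have hSc : p ^ (a - 1) < p ^ a := Nat.pow_lt_pow_right hpp.one_lt (by omega)
    refine ⟨D, ?_, ?_, ?_, ?_⟩
    · refine bot_lt_iff_ne_bot.2 (fun e => ?_)
      rw [e, Subgroup.card_bot] at hDc
      omega
    · refine lt_of_le_of_ne hDS (fun e => ?_)
      rw [e, ha] at hDc
      omega
    · intro Q hQ hQc
      rw [hDc] at hQc
      haveI : Finite Q := finite_of_le hQ
      refine ⟨S, stronglyClosed_self, ?_, ?_⟩
      · rw [sup_of_le_right hQ]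
        exact stronglyClosed_self
      · rw [inf_of_le_left hQ]
        have hQS : Q < S := lt_of_le_of_ne hQ (fun e => by
          rw [e, ha] at hQc
          omega)
        obtain ⟨g, hg, hgQ⟩ := exists_mem_normalizerIn_not_mem hS hQS
        have hlt : Q < normalizerIn S Q := lt_of_le_of_ne (le_normalizerIn hQ) (fun e => hgQ (by
          rw [e]
          exact hg))
        have hc := card_mul_le_of_lt hS hlt (normalizerIn_le Q)
        have hNS : normalizerIn S Q = S := by
          refine eq_of_le_of_card_le (normalizerIn_le Q) le_rfl ?_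
          rw [ha, ← hpa, mul_comm, ← hQc]
          exact hc
        refine ⟨hQ, fun R hR φ hφ x => ?_⟩
        rw [h R] at hφ
        obtain ⟨-, g', hg', hgx⟩ := hφ
        rw [hgx]
        have hg'N : g' ∈ normalizerIn S Q := by
          rw [hNS]
          exact hg'
        exact conj_mem_of_normalizer hg'N.2 (hR x.2)
    · intro H hH _ N hN P
      have hHS : H ≤ S := hH.1
      ext φ
      rw [hN P]
      constructor
      · rintro ⟨h1, h2, -, ψ, hψ, hag, hmap⟩
        have hψ' := hψ
        rw [h _] at hψ'
        obtain ⟨-, g, hg, hgx⟩ := hψ'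
        have hnor : g ∈ normalizerIn S H := by
          refine ⟨hg, mem_normalizer_of_conj_mem hHS (fun x hx => ?_)⟩
          have h5 : ψ ⟨x, (le_sup_right : H ≤ P ⊔ H) hx⟩ ∈ (H.subgroupOf (P ⊔ H)).map ψ := ⟨_, hx, rfl⟩
          rw [hmap, hgx] at h5
          exact h5
        refine ⟨h2, g, hnor, fun x => ?_⟩
        rw [← hag x, hgx]
        rfl
      · rintro ⟨h1, g, hg, hgx⟩
        have hgS : g ∈ S := hg.1
        have hPS : P ≤ S := h1.trans (normalizerIn_le H)
        have hφe : φ = conjHom P g := by
          ext x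
          rw [hgx, conjHom_apply]
        refine ⟨by rw [hφe]; exact F.conj_mem hPS hgS, h1, fun x => ?_, conjHom _ g, F.conj_mem (sup_le hPS hHS) hgS, fun x => ?_, ?_⟩
        · rw [hgx]
          exact (normalizerIn S H).mul_mem ((normalizerIn S H).mul_mem hg (h1 x.2)) ((normalizerIn S H).inv_mem hg)
        · rw [hgx, conjHom_apply]
          rfl
        · ext y
          constructor
          · rintro ⟨x, hx, rfl⟩
            rw [conjHom_apply]
            exact conj_mem_of_normalizer hg.2 hx
          · intro hy
            have h5 := conj_mem_of_normalizer (Subgroup.inv_mem _ hg.2) hy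
            refine ⟨⟨g⁻¹ * y * g⁻¹⁻¹, (le_sup_right : H ≤ P ⊔ H) h5⟩, h5, ?_⟩
            rw [conjHom_apply]
            group
  · rintro ⟨D, hD0, hDS, hW, hN⟩
    haveI : Finite D := finite_of_le hDS.le
    obtain ⟨k, hk⟩ := IsPGroup.iff_card.1 (hS.to_le hDS.le : IsPGroup p D)
    have hcD := card_mul_le_of_lt hS hDS le_rfl
    have hkS : p ^ k < Nat.card S := by
      rw [hk] at hcD
      have h1 : 0 < p ^ k := pow_pos hpp.pos k
      nlinarith [hpp.two_le]
    rw [hk] at hW hN
    have hh : F.hyperfocalSubgroup p ≤ ⊥ := hyp_le_of_weak hS hF hkS hW hN stronglyClosed_bot (by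
      rw [Subgroup.card_bot]
      exact Nat.one_le_pow _ _ hpp.pos)
    refine inner_of_focal_le_frattini hS hF ?_
    rw [focal_eq_hyp_sup hS hF]
    refine sup_le (hh.trans bot_le) ?_
    rw [← Subgroup.map_subtype_commutator]
    exact Subgroup.map_mono (haveI := hS.isNilpotent; Cfsg.Agent.Lib.Basic.commutator_le_frattini_of_isNilpotent)

end Cfsg.Agent.S5271
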