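import Cfsg.Statements.S5290
import Cfsg.Agent.Lib.Fusion2.NormalCore

set_option autoImplicit false
universe u
open Cfsg

namespace Cfsg.Agent.S5290

open Cfsg.FusionSystem Cfsg.Agent.Lib.Fusion Cfsg.Agent.Lib.Fusion2

/-- Let F be a saturated fusion system over a finite p-group S and Q a subgroup of S. Then Q is normal in F (F = N_F(Q)) if and only if the inner fusion system of Q, consisting of the conjugations by elements of Q on subgroups of Q, is a weakly normal subsystem of F (both saturated, Q strongly closed, invariant under F-conjugation, with the Frattini property). -/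
theorem result {Ω : Type*} [Group Ω] {S : Subgroup Ω} [Finite S] (p : ℕ) [Fact p.Prime] (hS : IsPGroup p S)
    (F : Cfsg.FusionSystem S) (hF : F.IsSaturated p)
    (Q : Subgroup Ω) (hQ : Q ≤ S) :
    F.IsNormal Q ↔ (Cfsg.innerFusionSystem Q).IsWeaklyNormalIn F p := by
  have hfQ : Finite Q := finite_of_le hQ
  constructor
  · intro hN
    refine ⟨inner_saturated (hS.to_le hQ), hF, ?_, Cfsg.Agent.Lib.Fusion.stronglyClosed_of_isNormal hN, ?_, ?_⟩
    · rintro P φ ⟨hP, g, hg, hgx⟩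
      exact mem_of_conj (hP.trans hQ) (hQ hg) hgx
    · rintro P hPT φ ⟨-, g, hg, hgx⟩ α hα
      have hle : (P.subgroupOf Q).map (Q.subtype.comp α.toMonoidHom) ≤ Q := by
        rintro _ ⟨x, -, rfl⟩
        exact (α x).2
      refine ⟨conjHom _ ((α ⟨g, hg⟩ : Q) : Ω), ⟨hle, _, (α ⟨g, hg⟩).2, fun x => rfl⟩, fun x hφx hαx => ?_⟩
      show ((α ⟨g, hg⟩ : Q) : Ω) * ((α ⟨x, hPT x.2⟩ : Q) : Ω) * ((α ⟨g, hg⟩ : Q) : Ω)⁻¹ = _
      have h1 : (⟨φ x, hφx⟩ : Q) = ⟨g, hg⟩ * ⟨x, hPT x.2⟩ * (⟨g, hg⟩ : Q)⁻¹ := Subtype.ext (hgx x)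
      rw [h1, map_mul, map_mul, map_inv]
      rfl
    · intro P hPT φ hφ
      obtain ⟨ψ, -, h1, α, hα, hαx⟩ := isNormal_exists_aut hN hφ
      refine ⟨α, hα, P.subtype, subtype_mem _ hPT, fun x hx => ?_⟩
      rw [← h1 x]
      exact (hαx ⟨x, hPT x.2⟩).symm
  · rintro ⟨-, -, -, hsc, -, hfrat⟩
    refine isNormal_of_frattini hS hF hsc (fun P hP φ hφ => ?_)
    obtain ⟨α, hα, φ₀, ⟨-, g, hg, hgx⟩, hx⟩ := hfrat P hP φ hφ
    have hgn : g ∈ Subgroup.normalizer (Q : Set Ω) := Subgroup.le_normalizer hg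
    refine ⟨α * autOfNormalizer hgn, Subgroup.mul_mem _ hα (autOfNormalizer_mem_autGroup hQ ⟨hQ hg, hgn⟩), fun x => ?_⟩
    have h1 : φ₀ x ∈ Q := by
      rw [hgx]
      exact Q.mul_mem (Q.mul_mem hg (hP x.2)) (Q.inv_mem hg)
    rw [hx x h1]
    show _ = ((α (autOfNormalizer hgn ⟨x, hP x.2⟩) : Q) : Ω)
    congr 2
    apply Subtype.ext
    exact hgx x

end Cfsg.Agent.S5290
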