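import Cfsg.Statements.S5291
import Cfsg.Agent.Lib.Fusion2.NormalCore

set_option autoImplicit false
open Cfsg

namespace Cfsg.Agent.S5291

open Cfsg.FusionSystem Cfsg.Agent.Lib.Fusion Cfsg.Agent.Lib.Fusion2

variable {Ω : Type*} [Group Ω] {S T : Subgroup Ω}

/-- The image of `A` under an automorphism of `T`. -/
def img (α : MulAut T) (A : Subgroup Ω) : Subgroup Ω := (A.subgroupOf T).map (T.subtype.comp α.toMonoidHom)

theorem mem_img {α : MulAut T} {A : Subgroup Ω} {y : Ω} : y ∈ img α A ↔ ∃ x : T, (x : Ω) ∈ A ∧ ((α x : T) : Ω) = y := by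
  constructor
  · rintro ⟨x, hx, rfl⟩
    exact ⟨x, hx, rfl⟩
  · rintro ⟨x, hx, rfl⟩
    exact ⟨x, hx, rfl⟩

theorem img_le (α : MulAut T) (A : Subgroup Ω) : img α A ≤ T := by
  rintro _ ⟨x, -, rfl⟩
  exact (α x).2

theorem img_sup (α : MulAut T) {A B : Subgroup Ω} (hA : A ≤ T) (hB : B ≤ T) : img α (A ⊔ B) = img α A ⊔ img α B :=
  map_sup_subgroupOf _ hA hB

theorem img_inv_img (α : MulAut T) {A : Subgroup Ω} (hA : A ≤ T) : img α (img α⁻¹ A) = A := by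
  ext y
  rw [mem_img]
  constructor
  · rintro ⟨x, hx, rfl⟩
    obtain ⟨z, hz, hzx⟩ := mem_img.1 hx
    have : x = α⁻¹ z := (Subtype.ext hzx).symm
    rw [this]
    simpa using hz
  · intro hy
    refine ⟨α⁻¹ ⟨y, hA hy⟩, mem_img.2 ⟨⟨y, hA hy⟩, hy, rfl⟩, ?_⟩
    simp

/-- The flexible form of the invariance property. -/
theorem inv_flex {E : FusionSystem T} {F : FusionSystem S}
    (hinv : ∀ (P : Subgroup Ω) (hPT : P ≤ T) (φ : P →* Ω), φ ∈ E.Hom P → ∀ α ∈ F.autGroup T,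
      ∃ χ ∈ E.Hom ((P.subgroupOf T).map (T.subtype.comp α.toMonoidHom)),
        ∀ (x : P) (hφx : φ x ∈ T)
          (hαx : ((α ⟨x, hPT x.2⟩ : T) : Ω) ∈ (P.subgroupOf T).map (T.subtype.comp α.toMonoidHom)),
          χ ⟨(α ⟨x, hPT x.2⟩ : T), hαx⟩ = ((α ⟨φ x, hφx⟩ : T) : Ω))
    {P : Subgroup Ω} (hPT : P ≤ T) {φ : P →* Ω} (hφ : φ ∈ E.Hom P) {α : MulAut T} (hα : α ∈ F.autGroup T) :
    ∃ χ ∈ E.Hom (img α P), ∀ (x : P) (y : Ω) (hy : y ∈ img α P) (z : T), y = ((α ⟨x, hPT x.2⟩ : T) : Ω) → (z : Ω) = φ x →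
      χ ⟨y, hy⟩ = ((α z : T) : Ω) := by
  obtain ⟨χ, hχ, hχx⟩ := hinv P hPT φ hφ α hα
  refine ⟨χ, hχ, ?_⟩
  rintro x y hy z rfl hz
  have hz' : z = ⟨φ x, by rw [← hz]; exact z.2⟩ := Subtype.ext hz
  rw [hz']
  exact hχx x _ hy

/-- The image of a normal subgroup of `E` under an element of `Aut_F(T)` is normal in `E`. -/
theorem isNormal_img {E : FusionSystem T} {F : FusionSystem S}
    (hinv : ∀ (P : Subgroup Ω) (hPT : P ≤ T) (φ : P →* Ω), φ ∈ E.Hom P → ∀ α ∈ F.autGroup T,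
      ∃ χ ∈ E.Hom ((P.subgroupOf T).map (T.subtype.comp α.toMonoidHom)),
        ∀ (x : P) (hφx : φ x ∈ T)
          (hαx : ((α ⟨x, hPT x.2⟩ : T) : Ω) ∈ (P.subgroupOf T).map (T.subtype.comp α.toMonoidHom)),
          χ ⟨(α ⟨x, hPT x.2⟩ : T), hαx⟩ = ((α ⟨φ x, hφx⟩ : T) : Ω))
    {R : Subgroup Ω} (hR : E.IsNormal R) {α : MulAut T} (hα : α ∈ F.autGroup T) : E.IsNormal (img α R) := by
  have hRT : R ≤ T := hR.1
  refine ⟨img_le α R, fun P ϕ hϕ => ?_⟩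
  have hPT : P ≤ T := le_of_hom hϕ
  have hαi : α⁻¹ ∈ F.autGroup T := Subgroup.inv_mem _ hα
  obtain ⟨χ, hχ, hχx⟩ := inv_flex hinv hPT hϕ hαi
  obtain ⟨ψ', hψ', h1, h2⟩ := hR.2 _ χ hχ
  have hP'T : img α⁻¹ P ≤ T := img_le _ _
  have hsupT : img α⁻¹ P ⊔ R ≤ T := sup_le hP'T hRT
  obtain ⟨χ', hχ', hχ'x⟩ := inv_flex hinv hsupT hψ' hα
  have hEq : img α (img α⁻¹ P ⊔ R) = P ⊔ img α R := by
    rw [img_sup α hP'T hRT, img_inv_img α hPT]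
  refine ⟨χ'.comp (Subgroup.inclusion hEq.ge), restrict_mem hχ' hEq.ge, fun x => ?_, ?_⟩
  · -- agreement with `ϕ`
    have hxT : (x : Ω) ∈ T := hPT x.2
    have hy : ((α⁻¹ ⟨x, hxT⟩ : T) : Ω) ∈ img α⁻¹ P := mem_img.2 ⟨⟨x, hxT⟩, x.2, rfl⟩
    have hval : ψ' ⟨_, (le_sup_left : img α⁻¹ P ≤ _) hy⟩ = χ ⟨_, hy⟩ := h1 ⟨_, hy⟩
    have hχv : χ ⟨_, hy⟩ = ((α⁻¹ ⟨ϕ x, val_mem hϕ x⟩ : T) : Ω) := hχx x _ hy ⟨ϕ x, val_mem hϕ x⟩ rfl rfl
    have hxim : (x : Ω) ∈ img α (img α⁻¹ P ⊔ R) := hEq.ge (Subgroup.mem_sup_left x.2)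
    have h3 := hχ'x ⟨_, (le_sup_left : img α⁻¹ P ≤ _) hy⟩ (x : Ω) hxim (α⁻¹ ⟨ϕ x, val_mem hϕ x⟩)
      (by
        have : α ⟨((α⁻¹ ⟨x, hxT⟩ : T) : Ω), hsupT ((le_sup_left : img α⁻¹ P ≤ _) hy)⟩ = ⟨x, hxT⟩ := by
          have h4 : (⟨((α⁻¹ ⟨x, hxT⟩ : T) : Ω), hsupT ((le_sup_left : img α⁻¹ P ≤ _) hy)⟩ : T) = α⁻¹ ⟨x, hxT⟩ := rfl
          rw [h4]
          simp
        rw [this])
      (by rw [hval, hχv])
    have h5 : ((α (α⁻¹ ⟨ϕ x, val_mem hϕ x⟩) : T) : Ω) = ϕ x := by simp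
    rw [h5] at h3
    exact h3
  · apply le_antisymm
    · rintro _ ⟨w, hw, rfl⟩
      obtain ⟨r, hr, hrw⟩ := mem_img.1 hw
      have hx' : (r : Ω) ∈ img α⁻¹ P ⊔ R := Subgroup.mem_sup_right hr
      have hv : ψ' ⟨r, hx'⟩ ∈ R := by
        have : ψ' ⟨r, hx'⟩ ∈ (R.subgroupOf (img α⁻¹ P ⊔ R)).map ψ' := ⟨⟨r, hx'⟩, hr, rfl⟩
        rwa [h2] at this
      have h3 := hχ'x ⟨r, hx'⟩ (w : Ω) (hEq.ge w.2) ⟨_, hRT hv⟩ hrw.symm rfl
      have h4 : (χ'.comp (Subgroup.inclusion hEq.ge)) w = χ' ⟨w, hEq.ge w.2⟩ := rfl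
      rw [h4, h3]
      exact mem_img.2 ⟨_, hv, rfl⟩
    · intro t ht
      obtain ⟨r, hr, hrt⟩ := mem_img.1 ht
      have hr2 : (r : Ω) ∈ (R.subgroupOf (img α⁻¹ P ⊔ R)).map ψ' := by rwa [h2]
      obtain ⟨r', hr', hr'r⟩ := hr2
      have hy : ((α ⟨r', hsupT r'.2⟩ : T) : Ω) ∈ img α R := mem_img.2 ⟨⟨r', hsupT r'.2⟩, hr', rfl⟩
      have hy2 : ((α ⟨r', hsupT r'.2⟩ : T) : Ω) ∈ P ⊔ img α R := Subgroup.mem_sup_right hy
      refine ⟨⟨_, hy2⟩, hy, ?_⟩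
      have h3 := hχ'x r' _ (hEq.ge hy2) r rfl hr'r.symm
      rw [← hrt, ← h3]
      rfl

/-- Let F be a saturated fusion system over a finite p-group S and E a weakly normal subsystem of F over a subgroup T. Suppose a subgroup R of T is normal in E (E = N_E(R)), and let R* be the subgroup of T generated by the images of R under all maps of F with source R. Then R* is normal in F (F = N_F(R*)). -/
theorem result {Ω : Type*} [Group Ω] {S : Subgroup Ω} [Finite S] (p : ℕ) [Fact p.Prime] (hS : IsPGroup p S)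
    (F : Cfsg.FusionSystem S) (hF : F.IsSaturated p)
    {T : Subgroup Ω} (E : Cfsg.FusionSystem T) (hE : E.IsWeaklyNormalIn F p)
    (R : Subgroup Ω) (hR : E.IsNormal R) :
    F.IsNormal (Subgroup.closure {x : Ω | ∃ φ ∈ F.Hom R, ∃ r : R, x = φ r}) := by
  obtain ⟨-, -, hsub, hTsc, hinv, hfrat⟩ := hE
  have hTS : T ≤ S := hTsc.1
  have hRT : R ≤ T := hR.1
  have hfT : Finite T := finite_of_le hTS
  set Q := Subgroup.closure {x : Ω | ∃ φ ∈ F.Hom R, ∃ r : R, x = φ r} with hQdef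
  have hQT : Q ≤ T := by
    refine (Subgroup.closure_le _).2 ?_
    rintro _ ⟨φ, hφ, r, rfl⟩
    exact hTsc.2 R hRT φ hφ r
  have hQS : Q ≤ S := hQT.trans hTS
  have hfQ : Finite Q := finite_of_le hQS
  -- images of `R` lie in `Q`
  have himgQ : ∀ α ∈ F.autGroup T, img α R ≤ Q := by
    rintro α hα _ ⟨r, hr, rfl⟩
    have hm := (mem_autGroup_iff hTS).1 hα
    refine Subgroup.subset_closure ⟨_, restrict_mem hm hRT, ⟨r, hr⟩, rfl⟩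
  -- `Q` is stable under `Aut_F(T)`
  have hQinv : ∀ α ∈ F.autGroup T, ∀ x : T, (x : Ω) ∈ Q → ((α x : T) : Ω) ∈ Q := by
    intro α hα x hx
    have hm := (mem_autGroup_iff hTS).1 hα
    have key : ∀ y ∈ Q, ∃ h : y ∈ T, ((α ⟨y, h⟩ : T) : Ω) ∈ Q := by
      intro y hy
      induction hy using Subgroup.closure_induction with
      | mem y hy =>
        obtain ⟨φ, hφ, r, rfl⟩ := hy
        have hv : ∀ z : R, φ z ∈ T := hTsc.2 R hRT φ hφ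
        refine ⟨hv r, Subgroup.subset_closure ⟨_, F.comp_mem hφ hm hv, r, rfl⟩⟩
      | one =>
        refine ⟨T.one_mem, ?_⟩
        have : (⟨1, T.one_mem⟩ : T) = 1 := rfl
        rw [this, map_one]
        exact Q.one_mem
      | mul a b _ _ ha hb =>
        obtain ⟨ha1, ha2⟩ := ha
        obtain ⟨hb1, hb2⟩ := hb
        refine ⟨T.mul_mem ha1 hb1, ?_⟩
        have : (⟨a * b, T.mul_mem ha1 hb1⟩ : T) = ⟨a, ha1⟩ * ⟨b, hb1⟩ := rfl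
        rw [this, map_mul]
        exact Q.mul_mem ha2 hb2
      | inv a _ ha =>
        obtain ⟨ha1, ha2⟩ := ha
        refine ⟨T.inv_mem ha1, ?_⟩
        have : (⟨a⁻¹, T.inv_mem ha1⟩ : T) = (⟨a, ha1⟩ : T)⁻¹ := rfl
        rw [this, map_inv]
        exact Q.inv_mem ha2
    exact (key x hx).2
  -- `Q` is normal in `E`
  have hQE : E.IsNormal Q := by
    have hM := sSup_mem_of_closed (S := T) {H : Subgroup Ω | E.IsNormal H ∧ H ≤ Q} (fun H hH => hH.1.1)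
      ⟨isNormal_bot, bot_le⟩ (fun A hA B hB => ⟨isNormal_sup hA.1 hB.1, sup_le hA.2 hB.2⟩)
    have hle : Q ≤ sSup {H : Subgroup Ω | E.IsNormal H ∧ H ≤ Q} := by
      refine (Subgroup.closure_le _).2 ?_
      rintro _ ⟨φ, hφ, r, rfl⟩
      obtain ⟨α, hα, φ₀, hφ₀, hx⟩ := hfrat R hRT φ hφ
      have hφ₀r : φ₀ r ∈ R := (Cfsg.Agent.Lib.Fusion.stronglyClosed_of_isNormal hR).2 R le_rfl φ₀ hφ₀ r
      have h1 : φ r ∈ img α R := by
        rw [hx r (hRT hφ₀r)]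
        exact mem_img.2 ⟨_, hφ₀r, rfl⟩
      have hmem : img α R ∈ {H : Subgroup Ω | E.IsNormal H ∧ H ≤ Q} := ⟨isNormal_img hinv hR hα, himgQ α hα⟩
      exact (le_sSup hmem) h1
    have heq : sSup {H : Subgroup Ω | E.IsNormal H ∧ H ≤ Q} = Q := le_antisymm hM.2 hle
    rw [heq] at hM
    exact hM.1
  -- the Frattini property
  have hfr : ∀ (P : Subgroup Ω) (hP : P ≤ Q) (φ : P →* Ω), φ ∈ F.Hom P → ∃ γ ∈ F.autGroup Q, ∀ x : P,
      φ x = ((γ ⟨x, hP x.2⟩ : Q) : Ω) := by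
    intro P hP φ hφ
    obtain ⟨α, hα, φ₀, hφ₀, hx⟩ := hfrat P (hP.trans hQT) φ hφ
    obtain ⟨ψ, -, h1, γ₀, hγ₀, hγ₀x⟩ := isNormal_exists_aut hQE hφ₀
    have hm := (mem_autGroup_iff hTS).1 hα
    have hres := restrict_mem hm hQT
    have hr : ((T.subtype.comp α.toMonoidHom).comp (Subgroup.inclusion hQT)).range = Q := by
      apply le_antisymm
      · rintro _ ⟨x, rfl⟩
        exact hQinv α hα _ x.2
      · intro y hy
        have h2 := hQinv α⁻¹ (Subgroup.inv_mem _ hα) ⟨y, hQT hy⟩ hy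
        refine ⟨⟨_, h2⟩, ?_⟩
        show ((α (α⁻¹ ⟨y, hQT hy⟩) : T) : Ω) = y
        simp
    obtain ⟨αQ, hαQ, hαQx⟩ := exists_aut_of_hom hres hr
    have hγ₀F : γ₀ ∈ F.autGroup Q := (mem_autGroup_iff hQS).2 (hsub _ ((mem_autGroup_iff hQT).1 hγ₀))
    refine ⟨αQ * γ₀, Subgroup.mul_mem _ hαQ hγ₀F, fun x => ?_⟩
    have h2 : φ₀ x = ((γ₀ ⟨x, hP x.2⟩ : Q) : Ω) := by
      rw [hγ₀x, ← h1 x]
      rfl
    have h3 : φ₀ x ∈ T := by
      rw [h2]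
      exact hQT (γ₀ _).2
    rw [hx x h3]
    show _ = ((αQ (γ₀ ⟨x, hP x.2⟩) : Q) : Ω)
    rw [hαQx]
    show _ = ((α ⟨((γ₀ ⟨x, hP x.2⟩ : Q) : Ω), _⟩ : T) : Ω)
    congr 2
    exact Subtype.ext h2
  have hsc : F.StronglyClosed Q := by
    refine ⟨hQS, fun R' hR' φ hφ x => ?_⟩
    obtain ⟨γ, -, hγ⟩ := hfr R' hR' φ hφ
    rw [hγ x]
    exact (γ _).2
  exact isNormal_of_frattini hS hF hsc hfr

end Cfsg.Agent.S5291
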