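import Cfsg.Statements.S5294
import Cfsg.Agent.Lib.Fusion2.NormalAPI
import Cfsg.Agent.Lib.Fusion2.RelTrace

set_option autoImplicit false
open Cfsg

universe u

namespace Cfsg.Agent.S5294

open Cfsg.FusionSystem Cfsg.Agent.Lib.Fusion Cfsg.Agent.Lib.Fusion2

/-- The action of automorphisms on the centre. -/
def centerAct (X : Type*) [Group X] : MulAut X →* MulAut (Subgroup.center X) where
  toFun α :=
    { toFun := fun x => ⟨α x, by
        rw [Subgroup.mem_center_iff]
        intro g
        obtain ⟨h, rfl⟩ := α.surjective g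
        rw [← map_mul, ← map_mul, (Subgroup.mem_center_iff.1 x.2 h)]⟩
      invFun := fun x => ⟨α.symm x, by
        rw [Subgroup.mem_center_iff]
        intro g
        obtain ⟨h, rfl⟩ := α.symm.surjective g
        rw [← map_mul, ← map_mul, (Subgroup.mem_center_iff.1 x.2 h)]⟩
      left_inv := fun x => by
        apply Subtype.ext
        simp
      right_inv := fun x => by
        apply Subtype.ext
        simp
      map_mul' := fun x y => by
        apply Subtype.ext
        simp }
  map_one' := by
    ext x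
    rfl
  map_mul' := fun a b => by
    ext x
    rfl

@[simp] theorem centerAct_coe (X : Type*) [Group X] (α : MulAut X) (x : Subgroup.center X) :
    ((centerAct X α x : Subgroup.center X) : X) = α x := rfl

/-- Let F be a saturated fusion system over a finite p-group S whose centre Z(S) lies in the largest subgroup O_p(F) normal in F. Then the centre Z(F) of F is a direct factor of Z(S): there is a subgroup K of Z(S) with Z(F) ∩ K = 1 and Z(F)K = Z(S). -/
theorem result {Ω : Type u} [Group Ω] {S : Subgroup Ω} [Finite S] (p : ℕ) [Fact p.Prime] (hS : IsPGroup p S)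
    (F : Cfsg.FusionSystem S) (hF : F.IsSaturated p) (hZ : (S ⊓ Subgroup.centralizer (S : Set Ω)) ≤ F.core) :
    ∃ K : Subgroup Ω, K ≤ (S ⊓ Subgroup.centralizer (S : Set Ω)) ∧ F.center ⊓ K = ⊥ ∧ F.center ⊔ K = (S ⊓ Subgroup.centralizer (S : Set Ω)) := by
  have hQn : F.IsNormal F.core := core_isNormal F
  set Q := F.core with hQdef
  have hQS : Q ≤ S := hQn.1
  have hfQ : Finite Q := finite_of_le hQS
  have hfA : Finite (MulAut Q) := inferInstance
  have hcomm : ∀ a b : Subgroup.center Q, a * b = b * a := fun a b => Subtype.ext (Subgroup.mem_center_iff.1 b.2 a)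
  let f : Subgroup.center Q →* Ω := Q.subtype.comp (Subgroup.center Q).subtype
  have hfinj : Function.Injective f :=
    Q.subtype_injective.comp (Subgroup.center Q).subtype_injective
  have hfmem : ∀ x, f x ∈ Q := fun x => (x : Q).2
  let ρ : F.autGroup Q →* MulAut (Subgroup.center Q) := (centerAct Q).comp (F.autGroup Q).subtype
  let T : Subgroup (F.autGroup Q) := (autInducedBy S Q).subgroupOf (F.autGroup Q)
  have hfn := fullyNormalized_of_isNormal hQn
  obtain ⟨-, R, hR⟩ := (fullyNormalized_spec hS hF hfn).2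
  have hTind : ¬ p ∣ T.index := by
    have := R.not_dvd_index
    rwa [hR] at this
  have hcop : Nat.Coprime (Nat.card (Subgroup.center Q)) T.index := by
    have hVp : IsPGroup p (Subgroup.center Q) := (hS.to_le hQS).to_subgroup _
    obtain ⟨n, hn⟩ := IsPGroup.iff_card.1 hVp
    rw [hn]
    exact ((Fact.out : p.Prime).coprime_iff_not_dvd.2 hTind).pow_left n
  obtain ⟨K, hK1, hK2, hK3⟩ := exists_complement_fixed hcomm ρ T hcop
  -- identification of `Z(S)`
  have hWmap : (fixedSub (T.map ρ)).map f = S ⊓ Subgroup.centralizer (S : Set Ω) := by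
    apply le_antisymm
    · rintro _ ⟨x, hx, rfl⟩
      refine ⟨hQS (hfmem x), Subgroup.mem_centralizer_iff.2 fun g hg => ?_⟩
      have hgn : g ∈ Subgroup.normalizer (Q : Set Ω) := by
        have := normalizerIn_eq_of_isNormal hQn
        rw [← this] at hg
        exact hg.2
      have hm : autOfNormalizer hgn ∈ F.autGroup Q := (mem_autGroup_iff hQS).2 (autOfNormalizer_isIso hQS hgn
        (by have := normalizerIn_eq_of_isNormal hQn; rw [← this] at hg; exact hg.1))
      have hT : (⟨autOfNormalizer hgn, hm⟩ : F.autGroup Q) ∈ T := by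
        show autOfNormalizer hgn ∈ autInducedBy S Q
        exact autOfNormalizer_mem_autInducedBy hgn (by have := normalizerIn_eq_of_isNormal hQn; rw [← this] at hg; exact hg.1)
      have h1 := hx (ρ ⟨autOfNormalizer hgn, hm⟩) ⟨_, hT, rfl⟩
      have h2 : g * f x * g⁻¹ = f x := by
        have := congrArg (fun y => f y) h1
        exact this
      calc g * f x = g * f x * g⁻¹ * g := by group
        _ = f x * g := by rw [h2]
    · rintro z ⟨hzS, hzc⟩
      have hzQ : z ∈ Q := hZ ⟨hzS, hzc⟩
      have hzc' : ∀ g ∈ S, g * z = z * g := fun g hg => Subgroup.mem_centralizer_iff.1 hzc g hg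
      have hzz : (⟨z, hzQ⟩ : Q) ∈ Subgroup.center Q := by
        rw [Subgroup.mem_center_iff]
        intro g
        exact Subtype.ext (hzc' g (hQS g.2))
      refine ⟨⟨⟨z, hzQ⟩, hzz⟩, ?_, rfl⟩
      rintro _ ⟨⟨α, hα⟩, hαT, rfl⟩
      obtain ⟨g, hg, hgx⟩ := mem_autInducedBy_iff.1 (show α ∈ autInducedBy S Q from hαT)
      apply Subtype.ext
      apply Subtype.ext
      show ((α ⟨z, hzQ⟩ : Q) : Ω) = z
      rw [hgx, hzc' g hg, mul_inv_cancel_right]
  -- identification of `Z(F)`
  have hZmap : (fixedSub ρ.range).map f = F.center := by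
    apply le_antisymm
    · apply le_sSup
      refine isCentral_of_fixed (Z := (fixedSub ρ.range).map f) hQn ?_ ?_
      · rintro _ ⟨x, -, rfl⟩
        exact hfmem x
      · rintro α hα _ ⟨x, hx, rfl⟩
        have h1 := hx (ρ ⟨α, hα⟩) ⟨_, rfl⟩
        exact congrArg (fun y => f y) h1
    · intro z hz
      have hzc := center_isCentral F
      have hzS := isCentral_le hzc hz
      have hzQ : z ∈ Q := hZ hzS
      have hzc' : ∀ g ∈ S, g * z = z * g := fun g hg => Subgroup.mem_centralizer_iff.1 hzS.2 g hg
      have hzz : (⟨z, hzQ⟩ : Q) ∈ Subgroup.center Q := by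
        rw [Subgroup.mem_center_iff]
        intro g
        exact Subtype.ext (hzc' g (hQS g.2))
      refine ⟨⟨⟨z, hzQ⟩, hzz⟩, ?_, rfl⟩
      rintro _ ⟨⟨α, hα⟩, rfl⟩
      apply Subtype.ext
      apply Subtype.ext
      have hαm := (mem_autGroup_iff hQS).1 hα
      exact isCentral_fixed hzc hαm ⟨z, hzQ⟩ hz
  refine ⟨K.map f, ?_, ?_, ?_⟩
  · rw [← hWmap]
    exact Subgroup.map_mono hK1
  · rw [← hZmap, ← Subgroup.map_inf _ _ _ hfinj, hK2, Subgroup.map_bot]
  · rw [← hZmap, ← Subgroup.map_sup, hK3, hWmap]

end Cfsg.Agent.S5294
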