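import Cfsg.Statements.S5297
import Cfsg.Agent.Lib.Fusion2.ItoFusion

set_option autoImplicit false
universe u
open Cfsg

namespace Cfsg.Agent.S5297

open Cfsg.FusionSystem Cfsg.Agent.Lib.Fusion Cfsg.Agent.Lib.Fusion2

/-- Let F be a saturated fusion system over a finite p-group S. If every map of F between cyclic subgroups of the hyperfocal subgroup of F of order p or 4 is a map of the normalizer system of S (it extends to a map of F defined on all of S), then S is normal in F. -/
theorem result {Ω : Type u} [Group Ω] {S : Subgroup Ω} [Finite S] (p : ℕ) [Fact p.Prime] (hS : IsPGroup p S)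
    (F : Cfsg.FusionSystem S) (hF : F.IsSaturated p)
    (h : ∀ A B : Subgroup Ω, A ≤ (F.hyperfocalSubgroup p) → B ≤ (F.hyperfocalSubgroup p) → IsCyclic ↥A → (Nat.card ↥A = p ∨ Nat.card ↥A = 4) → IsCyclic ↥B → (Nat.card ↥B = p ∨ Nat.card ↥B = 4) →
      F.homSet A B ⊆ F.normalizerHom S A) :
    F.IsNormal S := by
  refine isNormal_of_essential_le hS hF stronglyClosed_self (fun U hU => ?_)
  have hUS : U ≤ S := hU.1.1
  have hfU : Finite U := finite_of_le hUS
  have hUp : IsPGroup p U := hS.to_le hUS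
  have hUc : centralizerIn S U ≤ U := hU.1.2 U (isConj_refl hUS)
  have hr := isRadical_of_essential hS hU
  have hTs := (fullyNormalized_spec hS hF hU.2.1).2.2
  refine le_of_pprime_trivial hS hUS hUc hr (fun δ hδ => ?_)
  have hKA := pEltsOf_le (p := p) (F.autGroup U)
  have hG1 : ∀ δ ∈ pprimeOf p (pEltsOf p (F.autGroup U)), ∀ y : U, δ y = y := by
    intro δ hδ y
    refine ito_fix hUp (F.autGroup U : Set (MulAut U)) (pprimeOf p (pEltsOf p (F.autGroup U))) (fun δ hδ => hδ.2)
      (fun δ hδ α hα => ⟨pEltsOf_conj hα hδ.1, ?_⟩)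
      (fun δ hδ => hKA hδ.1) ⊤ ?_ ⊤ le_rfl (fun _ _ _ _ => trivial) δ hδ y trivial
    · rw [orderOf_conj_eq]
      exact hδ.2
    · intro Y _ hYinv hgen hexp hind
      have hhyp : ∀ y ∈ Y, (y : Ω) ∈ F.hyperfocalSubgroup p := fun y hy =>
        mem_hyperfocal_of_closure hUS (G := pprimeOf p (pEltsOf p (F.autGroup U)))
          (fun δ hδ => ⟨hKA hδ.1, hδ.2⟩) hgen hy
      have hext : ∀ α ∈ F.autGroup U, ∀ y ∈ Y, ∃ ψ ∈ F.Hom S, ψ ⟨y, hUS y.2⟩ = ((α y : U) : Ω) := by
        intro α hα y hy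
        by_cases hy1 : y = 1
        · refine ⟨S.subtype, subtype_mem F le_rfl, ?_⟩
          rw [hy1]
          simp
        have hne : (y : Ω) ≠ 1 := fun h' => hy1 (Subtype.ext h')
        have hαy := hYinv α hα y hy
        have hne' : ((α y : U) : Ω) ≠ 1 := fun h' => hy1 (by
          have : α y = 1 := Subtype.ext h'
          simpa using this)
        obtain ⟨φ, hφ, hφy⟩ := exists_homSet_zpowers hUS hα y
        have hm : φ ∈ F.normalizerHom S (Subgroup.zpowers (y : Ω)) := by
          refine h _ _ ?_ ?_ inferInstance ?_ inferInstance ?_ hφ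
          · exact Subgroup.zpowers_le.2 (hhyp y hy)
          · exact Subgroup.zpowers_le.2 (hhyp _ hαy)
          · exact card_zpowers_of_pow_itoExp hne (by exact_mod_cast congrArg Subtype.val (hexp y hy))
          · exact card_zpowers_of_pow_itoExp hne' (by exact_mod_cast congrArg Subtype.val (hexp _ hαy))
        obtain ⟨-, -, -, ψ, hψ, h1, -⟩ := hm
        refine ⟨ψ.comp (Subgroup.inclusion le_sup_right), restrict_mem hψ le_sup_right, ?_⟩
        rw [← hφy (Subgroup.mem_zpowers _), ← h1]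
        rfl
      have hLv : ∀ α ∈ (F.autGroup U : Set (MulAut U)), ∀ i, ∀ y ∈ Y, (y : Ω) ∈ ucs S i → ((α y : U) : Ω) ∈ ucs S i := by
        intro α hα i y hy hyi
        obtain ⟨ψ, hψ, hψy⟩ := hext α hα y hy
        rw [← hψy]
        exact map_mem_ucs hψ hyi
      refine level_fix hS hUS (F.autGroup U : Set (MulAut U)) _ (fun δ hδ => hKA hδ.1) (fun δ hδ => hδ.2) Y hYinv hind
        hLv ?_
      intro j hj δ hδ y hy
      -- the stabilizer of `Y / Y_j` contains `Aut_S(U)`
      have hinvj : ∀ α ∈ F.autGroup U, ∀ y ∈ Y ⊓ (ucs S j).subgroupOf U, α y ∈ Y ⊓ (ucs S j).subgroupOf U :=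
        fun α hα y hy => ⟨hYinv α hα y hy.1, hLv α hα j y hy.1 hy.2⟩
      have hle : pEltsOf p (F.autGroup U) ≤ stabSub (F.autGroup U) Y (Y ⊓ (ucs S j).subgroupOf U) hYinv := by
        refine pEltsOf_le_of_sylow hTs ?_ (fun α hα β hβ => stabSub_conj hYinv hinvj hα hβ)
        intro β hβ
        obtain ⟨g, hg, hgx⟩ := mem_autInducedBy_iff.1 hβ
        have hβA : β ∈ F.autGroup U := autInducedBy_le_autGroup hUS hβ
        refine ⟨hβA, fun y hy => ⟨Y.mul_mem (Y.inv_mem hy) (hYinv β hβA y hy), ?_⟩⟩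
        have h1 := ucs_commutator (hj y hy) hg
        have h2 : ((y⁻¹ * β y : U) : Ω) = (y : Ω)⁻¹ * (g * y * g⁻¹) := by
          rw [← hgx]
          rfl
        show ((y⁻¹ * β y : U) : Ω) ∈ ucs S j
        rw [h2]
        exact h1
      exact ((hle hδ.1).2 y hy).2
  ext y
  rw [hG1 δ hδ y]
  rfl

end Cfsg.Agent.S5297
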