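import Cfsg.Statements.S5298
import Cfsg.Agent.S5083
import Cfsg.Agent.Lib.Fusion2.ItoFusion

set_option autoImplicit false
universe u
open Cfsg

namespace Cfsg.Agent.S5298

open Cfsg.FusionSystem Cfsg.Agent.Lib.Fusion Cfsg.Agent.Lib.Fusion2

/-- Let F be a saturated fusion system over a finite p-group S. If every map of F between cyclic subgroups of the hyperfocal subgroup of F of order p or 4 is conjugation by an element of S, then F is the inner fusion system of S. -/
theorem result {Ω : Type u} [Group Ω] {S : Subgroup Ω} [Finite S] (p : ℕ) [Fact p.Prime] (hS : IsPGroup p S)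
    (F : Cfsg.FusionSystem S) (hF : F.IsSaturated p)
    (h : ∀ A B : Subgroup Ω, A ≤ (F.hyperfocalSubgroup p) → B ≤ (F.hyperfocalSubgroup p) → IsCyclic ↥A → (Nat.card ↥A = p ∨ Nat.card ↥A = 4) → IsCyclic ↥B → (Nat.card ↥B = p ∨ Nat.card ↥B = 4) →
      F.homSet A B ⊆ (Cfsg.innerFusionSystem S).Hom A) :
    ∀ P : Subgroup Ω, F.Hom P = (Cfsg.innerFusionSystem S).Hom P := by
  have hinner : F = Cfsg.innerFusionSystem S := by
    apply Cfsg.Agent.S5083.result p hS F hF
    intro U hUS
    have hfU : Finite U := finite_of_le hUS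
    have hUp : IsPGroup p U := hS.to_le hUS
    have hG1 : ∀ δ ∈ pprimeOf p (F.autGroup U), ∀ y : U, δ y = y := by
      intro δ hδ y
      refine ito_fix hUp (F.autGroup U : Set (MulAut U)) (pprimeOf p (F.autGroup U)) (fun δ hδ => hδ.2)
        (fun δ hδ α hα => ⟨(F.autGroup U).mul_mem ((F.autGroup U).mul_mem hα hδ.1) ((F.autGroup U).inv_mem hα), ?_⟩)
        (fun δ hδ => hδ.1) ⊤ ?_ ⊤ le_rfl (fun _ _ _ _ => trivial) δ hδ y trivial
      · rw [orderOf_conj_eq]
        exact hδ.2
      · intro Y _ hYinv hgen hexp hind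
        have hhyp : ∀ y ∈ Y, (y : Ω) ∈ F.hyperfocalSubgroup p := fun y hy =>
          mem_hyperfocal_of_closure hUS (G := pprimeOf p (F.autGroup U)) (fun δ hδ => hδ) hgen hy
        have hconj : ∀ α ∈ F.autGroup U, ∀ y ∈ Y, ∃ s ∈ S, ((α y : U) : Ω) = s * y * s⁻¹ := by
          intro α hα y hy
          by_cases hy1 : y = 1
          · refine ⟨1, S.one_mem, ?_⟩
            rw [hy1]
            simp
          have hne : (y : Ω) ≠ 1 := fun h' => hy1 (Subtype.ext h')
          have hαy := hYinv α hα y hy
          have hne' : ((α y : U) : Ω) ≠ 1 := fun h' => hy1 (by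
            have : α y = 1 := Subtype.ext h'
            simpa using this)
          obtain ⟨φ, hφ, hφy⟩ := exists_homSet_zpowers hUS hα y
          have hm : φ ∈ (innerFusionSystem S).Hom (Subgroup.zpowers (y : Ω)) := by
            refine h _ _ ?_ ?_ inferInstance ?_ inferInstance ?_ hφ
            · exact Subgroup.zpowers_le.2 (hhyp y hy)
            · exact Subgroup.zpowers_le.2 (hhyp _ hαy)
            · exact card_zpowers_of_pow_itoExp hne (by exact_mod_cast congrArg Subtype.val (hexp y hy))
            · exact card_zpowers_of_pow_itoExp hne' (by exact_mod_cast congrArg Subtype.val (hexp _ hαy))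
          obtain ⟨-, s, hs, hsx⟩ := hm
          refine ⟨s, hs, ?_⟩
          rw [← hφy (Subgroup.mem_zpowers _)]
          exact hsx _
        refine level_fix hS hUS (F.autGroup U : Set (MulAut U)) _ (fun δ hδ => hδ.1) (fun δ hδ => hδ.2) Y hYinv hind
          ?_ ?_
        · intro α hα i y hy hyi
          obtain ⟨s, hs, hsx⟩ := hconj α hα y hy
          rw [hsx]
          exact conj_mem_ucs hs hyi
        · intro j hj δ hδ y hy
          obtain ⟨s, hs, hsx⟩ := hconj δ hδ.1 y hy
          have h1 := ucs_commutator (hj y hy) hs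
          have h2 : ((y⁻¹ * δ y : U) : Ω) = (y : Ω)⁻¹ * (s * y * s⁻¹) := by
            rw [← hsx]
            rfl
          rw [h2]
          exact h1
    refine isPGroup_of_pprime_trivial _ (fun δ hδ hc => ?_)
    ext y
    rw [hG1 δ ⟨hδ, hc⟩ y]
    rfl
  intro P
  rw [← hinner]

end Cfsg.Agent.S5298
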