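import Cfsg.Statements.S5300
import Cfsg.Agent.Lib.Fusion2.ItoFusion

set_option autoImplicit false
universe u
open Cfsg

namespace Cfsg.Agent.S5300

open Cfsg.FusionSystem Cfsg.Agent.Lib.Fusion Cfsg.Agent.Lib.Fusion2

section elementary

variable {Ω : Type*} [Group Ω]

/-- A `p`-element normalizing a subgroup of prime order centralizes it. -/
theorem conj_eq_of_pow_eq_one {p : ℕ} [Fact p.Prime] {g y : Ω} {a : ℕ} (hg : g ^ p ^ a = 1) (hy : y ^ p = 1)
    (h : g * y * g⁻¹ ∈ Subgroup.zpowers y) : g * y * g⁻¹ = y := by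
  have hfin : IsOfFinOrder y := isOfFinOrder_iff_pow_eq_one.2 ⟨p, (Fact.out : p.Prime).pos, hy⟩
  have h' : g * y * g⁻¹ ∈ Submonoid.powers y := hfin.mem_powers_iff_mem_zpowers.2 h
  obtain ⟨k, hk⟩ := h'
  have hk' : g * y * g⁻¹ = y ^ k := hk.symm
  have hconj : ∀ n : ℕ, g ^ n * y * (g ^ n)⁻¹ = y ^ (k ^ n) := by
    intro n
    induction n with
    | zero => simp
    | succ n ih =>
      have h1 : g ^ (n + 1) * y * (g ^ (n + 1))⁻¹ = g * (g ^ n * y * (g ^ n)⁻¹) * g⁻¹ := by
        rw [pow_succ']
        group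
      rw [h1, ih, ← conj_pow, hk', ← pow_mul, pow_succ']
  have h2 := hconj (p ^ a)
  rw [hg] at h2
  have h3 : y = y ^ (k ^ p ^ a) := by simpa using h2
  -- exponents modulo `p`
  have h4 : y ^ (k ^ p ^ a) = y ^ k := by
    have hmod : (k ^ p ^ a) ≡ k [MOD p] := by
      have := ZMod.pow_card_pow (p := p) (n := a) (k : ZMod p)
      rw [← ZMod.natCast_eq_natCast_iff]
      push_cast
      exact this
    have hord : orderOf y ∣ p := orderOf_dvd_of_pow_eq_one hy
    exact pow_eq_pow_iff_modEq.2 (hmod.of_dvd hord)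
  rw [hk', ← h4, ← h3]

/-- Conjugation on a cyclic group of order dividing `4`. -/
theorem conj_eq_or_inv {g y : Ω} (hy : y ^ 4 = 1) (h : g * y * g⁻¹ ∈ Subgroup.zpowers y) :
    g * y * g⁻¹ = y ∨ g * y * g⁻¹ = y⁻¹ := by
  have hfin : IsOfFinOrder y := isOfFinOrder_iff_pow_eq_one.2 ⟨4, by norm_num, hy⟩
  have h' : g * y * g⁻¹ ∈ Submonoid.powers y := hfin.mem_powers_iff_mem_zpowers.2 h
  obtain ⟨k, hk⟩ := h'
  have hk' : g * y * g⁻¹ = y ^ k := hk.symm
  have hmod : y ^ k = y ^ (k % 4) := by
    conv_lhs => rw [← Nat.div_add_mod k 4, pow_add, pow_mul, hy, one_pow, one_mul]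
  have hinv : y ^ 3 = y⁻¹ := by
    have : y ^ 3 * y = 1 := by rw [← pow_succ]; exact hy
    exact eq_inv_of_mul_eq_one_left this
  have hcases : k % 4 = 0 ∨ k % 4 = 1 ∨ k % 4 = 2 ∨ k % 4 = 3 := by omega
  have hone : ∀ z : Ω, g * z * g⁻¹ = 1 → z = 1 := by
    intro z h5
    have h6 : g * z = g := by
      calc g * z = g * z * g⁻¹ * g := by group
        _ = g := by rw [h5, one_mul]
    simpa using h6
  rcases hcases with h4 | h4 | h4 | h4
  · left
    rw [hk', hmod, h4, pow_zero]
    have h5 : g * y * g⁻¹ = 1 := by rw [hk', hmod, h4, pow_zero]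
    exact (hone y h5).symm
  · left
    rw [hk', hmod, h4, pow_one]
  · left
    have h5 : g * y * g⁻¹ = y ^ 2 := by rw [hk', hmod, h4]
    have h6 : (g * y * g⁻¹) ^ 2 = 1 := by
      rw [h5, ← pow_mul]
      exact hy
    have h7 : y ^ 2 = 1 := by
      rw [conj_pow] at h6
      exact hone _ h6
    rw [h7] at h5
    rw [h5]
    exact (hone y h5).symm
  · right
    rw [hk', hmod, h4, hinv]

/-- An automorphism of odd order with `δ y = y` or `δ y = y⁻¹` fixes `y`. -/
theorem fix_of_odd_order {U : Type*} [Group U] {δ : MulAut U} {y : U} (hodd : Odd (orderOf δ))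
    (h : δ y = y ∨ δ y = y⁻¹) : δ y = y := by
  have h2 : (δ ^ 2) y = y := by
    rw [pow_two, MulAut.mul_apply]
    rcases h with h | h
    · rw [h, h]
    · rw [h, map_inv, h, inv_inv]
  obtain ⟨j, hj⟩ := hodd
  have h3 : δ = (δ ^ 2) ^ (j + 1) := by
    rw [← pow_mul]
    have : 2 * (j + 1) = orderOf δ + 1 := by omega
    rw [this, pow_succ, pow_orderOf_eq_one, one_mul]
  have h4 : ∀ n : ℕ, ((δ ^ 2) ^ n) y = y := by
    intro n
    induction n with
    | zero => simp
    | succ n ih => rw [pow_succ, MulAut.mul_apply, h2, ih]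
  conv_lhs => rw [h3]
  exact h4 _

/-- The elements of `A` sending each element of `Y` to itself or its inverse. -/
def invSub {U : Type*} [Group U] (A : Subgroup (MulAut U)) (Y : Subgroup U) (hY : ∀ α ∈ A, ∀ y ∈ Y, α y ∈ Y) :
    Subgroup (MulAut U) where
  carrier := {β | β ∈ A ∧ ∀ y ∈ Y, β y = y ∨ β y = y⁻¹}
  one_mem' := ⟨A.one_mem, fun y _ => Or.inl rfl⟩
  mul_mem' := by
    rintro a b ⟨ha, ha'⟩ ⟨hb, hb'⟩
    refine ⟨A.mul_mem ha hb, fun y hy => ?_⟩
    rw [MulAut.mul_apply]
    rcases hb' y hy with h | h <;> rw [h]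
    · exact ha' y hy
    · rw [map_inv]
      rcases ha' y hy with h' | h' <;> rw [h']
      · exact Or.inr rfl
      · exact Or.inl (inv_inv y)
  inv_mem' := by
    rintro a ⟨ha, ha'⟩
    refine ⟨A.inv_mem ha, fun y hy => ?_⟩
    rcases ha' y hy with h | h
    · left
      conv_lhs => rw [← h]
      simp
    · right
      have h1 : a⁻¹ y⁻¹ = y := by
        rw [← h]
        simp
      have h2 : a⁻¹ y = (a⁻¹ y⁻¹)⁻¹ := by
        rw [map_inv, inv_inv]
      rw [h2, h1]

end elementary

/-- Let F be a saturated fusion system over a finite p-group S. If every cyclic subgroup of the focal subgroup of F of order p (of order 2 or 4 when p = 2) is normal in S, then S is normal in F. -/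
theorem result {Ω : Type u} [Group Ω] {S : Subgroup Ω} [Finite S] (p : ℕ) [Fact p.Prime] (hS : IsPGroup p S)
    (F : Cfsg.FusionSystem S) (hF : F.IsSaturated p)
    (hnorm : ∀ x ∈ F.focalSubgroup, (x ^ p = 1 ∨ (p = 2 ∧ x ^ 4 = 1)) → ∀ s ∈ S, s * x * s⁻¹ ∈ Subgroup.zpowers x) :
    F.IsNormal S := by
  refine isNormal_of_essential_le hS hF stronglyClosed_self (fun U hU => ?_)
  have hUS : U ≤ S := hU.1.1
  have hfU : Finite U := finite_of_le hUS
  have hUp : IsPGroup p U := hS.to_le hUS
  have hUc : centralizerIn S U ≤ U := hU.1.2 U (isConj_refl hUS)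
  have hr := isRadical_of_essential hS hU
  have hTs := (fullyNormalized_spec hS hF hU.2.1).2.2
  refine le_of_pprime_trivial hS hUS hUc hr (fun δ hδ => ?_)
  have hKA := pEltsOf_le (p := p) (F.autGroup U)
  have hG1 : ∀ δ ∈ pprimeOf p (pEltsOf p (F.autGroup U)), ∀ y : U, δ y = y := by
    intro δ hδ y
    refine ito_fix hUp (F.autGroup U : Set (MulAut U)) (pprimeOf p (pEltsOf p (F.autGroup U))) (fun δ hδ => hδ.2)
      (fun δ hδ α hα => ⟨pEltsOf_conj hα hδ.1, ?_⟩)
      (fun δ hδ => hKA hδ.1) ⊤ ?_ ⊤ le_rfl (fun _ _ _ _ => trivial) δ hδ y trivial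
    · rw [orderOf_conj_eq]
      exact hδ.2
    · intro Y _ hYinv hgen hexp _ δ hδ y hy
      have hfoc : ∀ y ∈ Y, (y : Ω) ∈ F.focalSubgroup := fun y hy =>
        mem_focal_of_closure hUS (G := pprimeOf p (pEltsOf p (F.autGroup U))) (fun δ hδ => hKA hδ.1) hgen hy
      by_cases hp2 : p = 2
      · -- `p = 2`
        subst hp2
        have hy4 : ∀ y ∈ Y, (y : Ω) ^ 4 = 1 := fun y hy => by
          have := hexp y hy
          rw [itoExp_two] at this
          exact_mod_cast congrArg Subtype.val this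
        have hle : pEltsOf 2 (F.autGroup U) ≤ invSub (F.autGroup U) Y hYinv := by
          refine pEltsOf_le_of_sylow hTs ?_ ?_
          · intro β hβ
            obtain ⟨g, hg, hgx⟩ := mem_autInducedBy_iff.1 hβ
            refine ⟨autInducedBy_le_autGroup hUS hβ, fun y hy => ?_⟩
            have h1 := hnorm _ (hfoc y hy) (Or.inr ⟨rfl, hy4 y hy⟩) g hg
            rcases conj_eq_or_inv (hy4 y hy) h1 with h | h
            · left
              apply Subtype.ext
              rw [hgx, h]
            · right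
              apply Subtype.ext
              rw [hgx, h]
              rfl
          · rintro α hα β ⟨hβA, hβ⟩
            refine ⟨(F.autGroup U).mul_mem ((F.autGroup U).mul_mem hα hβA) ((F.autGroup U).inv_mem hα), fun y hy => ?_⟩
            have hz := hYinv α⁻¹ ((F.autGroup U).inv_mem hα) y hy
            rcases hβ _ hz with h | h
            · left
              rw [MulAut.mul_apply, MulAut.mul_apply, h]
              simp
            · right
              rw [MulAut.mul_apply, MulAut.mul_apply, h]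
              simp
        have hodd : Odd (orderOf δ) := by
          have hc := hδ.2
          exact Nat.coprime_two_right.1 hc
        exact fix_of_odd_order hodd ((hle hδ.1).2 y hy)
      · -- `p` odd
        have hyp : ∀ y ∈ Y, (y : Ω) ^ p = 1 := fun y hy => by
          have := hexp y hy
          rw [itoExp_of_ne hp2] at this
          exact_mod_cast congrArg Subtype.val this
        have hle : pEltsOf p (F.autGroup U) ≤ stabSub (F.autGroup U) Y ⊥ hYinv := by
          refine pEltsOf_le_of_sylow hTs ?_ (fun α hα β hβ => stabSub_conj hYinv (fun α _ y hy => ?_) hα hβ)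
          · intro β hβ
            obtain ⟨g, hg, hgx⟩ := mem_autInducedBy_iff.1 hβ
            refine ⟨autInducedBy_le_autGroup hUS hβ, fun y hy => ?_⟩
            obtain ⟨a, ha⟩ := hS ⟨g, hg⟩
            have ha' : g ^ p ^ a = 1 := congrArg Subtype.val ha
            have h1 := hnorm _ (hfoc y hy) (Or.inl (hyp y hy)) g hg
            have h2 := conj_eq_of_pow_eq_one ha' (hyp y hy) h1
            have h3 : β y = y := by
              apply Subtype.ext
              rw [hgx, h2]
            rw [h3]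
            simp
          · rw [Subgroup.mem_bot] at hy
            rw [hy, map_one]
            exact Subgroup.one_mem _
        have h3 := (hle hδ.1).2 y hy
        rw [Subgroup.mem_bot] at h3
        exact (inv_mul_eq_one.1 h3).symm
  ext y
  rw [hG1 δ hδ y]
  rfl

end Cfsg.Agent.S5300
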