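import Cfsg.Statements.S5301
import Cfsg.Agent.Lib.Fusion2.ItoFusion

set_option autoImplicit false
universe u
open Cfsg

namespace Cfsg.Agent.S5301

open Cfsg.FusionSystem Cfsg.Agent.Lib.Fusion Cfsg.Agent.Lib.Fusion2

/-- Let F be a saturated fusion system over a finite p-group S. If for every subgroup P of S that is fully normalized, centric and radical in F the automorphism group that F induces on P has a normal Sylow p-subgroup, then S is normal in F. -/
theorem result {Ω : Type u} [Group Ω] {S : Subgroup Ω} [Finite S] (p : ℕ) [Fact p.Prime] (hS : IsPGroup p S)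
    (F : Cfsg.FusionSystem S) (hF : F.IsSaturated p)
    (hcl : ∀ P : Subgroup Ω, F.IsFullyNormalized P → F.IsCentric P → F.IsRadical p P →
      ∃ R : Sylow p ↥(F.autGroup P), (R : Subgroup ↥(F.autGroup P)).Normal) :
    F.IsNormal S := by
  refine isNormal_of_essential_le hS hF stronglyClosed_self (fun U hU => ?_)
  have hUS : U ≤ S := hU.1.1
  have hfU : Finite U := finite_of_le hUS
  have hUc : centralizerIn S U ≤ U := hU.1.2 U (isConj_refl hUS)
  have hr := isRadical_of_essential hS hU
  obtain ⟨R, hRn⟩ := hcl U hU.2.1 hU.1 hr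
  obtain ⟨T, hT⟩ := (fullyNormalized_spec hS hF hU.2.1).2.2
  have hTR : T = R := by
    obtain ⟨g, hg⟩ := MulAction.exists_smul_eq (F.autGroup U) R T
    rw [← hg]
    haveI := hRn
    exact Sylow.smul_eq_of_normal
  have hle : (T : Subgroup (F.autGroup U)) ≤ pCore p (F.autGroup U) := by
    rw [hTR]
    exact Cfsg.Agent.Lib.Basic.le_pCore hRn R.isPGroup'
  refine le_of_inn hS hUS hUc le_rfl Subgroup.le_normalizer (fun g hg hgn => ?_)
  have hcA : autOfNormalizer hgn ∈ F.autGroup U := autOfNormalizer_mem_autGroup hUS ⟨hg, hgn⟩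
  have hcT : autOfNormalizer hgn ∈ autInducedBy S U := autOfNormalizer_mem_autInducedBy hgn hg
  have h1 : (⟨_, hcA⟩ : F.autGroup U) ∈ (T : Subgroup (F.autGroup U)) := by
    rw [hT]
    exact hcT
  rw [← hr.2]
  exact ⟨⟨_, hcA⟩, hle h1, rfl⟩

end Cfsg.Agent.S5301
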