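import Cfsg.Statements.S5315
import Cfsg.Agent.Lib.Fusion.Generation
import Cfsg.Agent.Lib.Fusion.Rigid
import Cfsg.Agent.Lib.Fusion2.NormalAPI

set_option autoImplicit false
open Cfsg

namespace Cfsg.Agent.S5315

open Cfsg.FusionSystem Cfsg.Agent.Lib.Fusion Cfsg.Agent.Lib.Fusion2

variable {Ω : Type*} [Group Ω] {S : Subgroup Ω} [Finite S] {p : ℕ} [Fact p.Prime] {F : FusionSystem S}

/-- Lifting an extension from the factor system. -/
theorem lift_step {Ω' : Type*} [Group Ω'] {S' : Subgroup Ω'} {θ : S →* Ω'} {E : FusionSystem S'}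
    (hE : F.IsFactorSystem F.center θ E) {Q' : Subgroup Ω'} (hQ' : E.IsCentral Q') {z : S} (hz : θ z ∈ Q')
    {P : Subgroup Ω} {φ : P →* Ω} (hφ : φ ∈ F.Hom P) :
    ∃ (R : Subgroup Ω) (hPR : P ≤ R) (hzR : (z : Ω) ∈ R) (ψ : R →* Ω), ψ ∈ F.Hom R ∧
      (∀ x : P, (ψ (Subgroup.inclusion hPR x))⁻¹ * φ x ∈ F.center) ∧ (ψ ⟨z, hzR⟩)⁻¹ * z ∈ F.center := by
  obtain ⟨hZS, hker, hrange, hHom⟩ := hE
  have hZ := center_isCentral F
  obtain ⟨φ₁, hφ₁, h1, h2⟩ := hZ.2 P φ hφ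
  have hP₁S := le_of_hom hφ₁
  have hPS := le_of_hom hφ
  let θ₁ : ↥(P ⊔ F.center) →* Ω' := θ.comp (Subgroup.inclusion hP₁S)
  let P' : Subgroup Ω' := θ₁.range
  let g : ↥(P ⊔ F.center) →* Ω' := θ.comp (φ₁.codRestrict S (val_mem hφ₁))
  have hsurj : Function.Surjective θ₁.rangeRestrict := MonoidHom.rangeRestrict_surjective θ₁
  have hkerle : θ₁.rangeRestrict.ker ≤ g.ker := by
    intro x hx
    have hx1 : θ₁ x = 1 := by
      have := congrArg Subtype.val (MonoidHom.mem_ker.1 hx)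
      exact this
    have hxZ : (x : Ω) ∈ F.center := (hker _).1 hx1
    have hfix : φ₁ x = x := isCentral_fixed hZ hφ₁ x hxZ
    rw [MonoidHom.mem_ker]
    show θ ⟨φ₁ x, _⟩ = 1
    have : (⟨φ₁ x, val_mem hφ₁ x⟩ : S) = Subgroup.inclusion hP₁S x := Subtype.ext hfix
    rw [this]
    exact hx1
  let φ' : P' →* Ω' := (MonoidHom.liftOfSurjective θ₁.rangeRestrict hsurj) ⟨g, hkerle⟩
  have hφ'v : ∀ x : ↥(P ⊔ F.center), φ' (θ₁.rangeRestrict x) = g x := fun x =>
    MonoidHom.liftOfRightInverse_comp_apply _ _ _ _ x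
  -- the preimage of `P'` is `P ⊔ Z`
  have hpre : preimageAlong θ P' ≤ P ⊔ F.center := by
    rintro _ ⟨x, hx, rfl⟩
    obtain ⟨y, hy⟩ := hx
    have h3 : (x⁻¹ * Subgroup.inclusion hP₁S y : S) = 1 ∨ True := Or.inr trivial
    have h4 : θ (x⁻¹ * Subgroup.inclusion hP₁S y) = 1 := by
      rw [map_mul, map_inv]
      have : θ (Subgroup.inclusion hP₁S y) = θ x := hy
      rw [this, inv_mul_cancel]
    have h5 := (hker _).1 h4
    have h6 : ((x : S) : Ω)⁻¹ * y ∈ P ⊔ F.center := le_sup_right (a := P) h5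
    have h7 := (P ⊔ F.center).mul_mem y.2 ((P ⊔ F.center).inv_mem h6)
    simpa using h7
  have hφ₂ : φ₁.comp (Subgroup.inclusion hpre) ∈ F.Hom (preimageAlong θ P') := restrict_mem hφ₁ hpre
  have hP'S : P' ≤ S' := by
    rintro _ ⟨x, rfl⟩
    rw [← hrange]
    exact ⟨_, rfl⟩
  have hφ'E : φ' ∈ E.Hom P' := by
    refine (hHom P' φ').2 ⟨hP'S, _, hφ₂, hpre.trans hP₁S, fun x => val_mem hφ₂ x, ?_, ?_⟩
    · intro x
      exact ⟨Subgroup.inclusion hpre x, rfl⟩
    · intro x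
      exact hφ'v (Subgroup.inclusion hpre x)
  obtain ⟨ψ', hψ', h3, h4⟩ := hQ'.2 P' φ' hφ'E
  obtain ⟨-, ψ₀, hψ₀, hRS, hψ₀v, hRP', hind⟩ := (hHom _ ψ').1 hψ'
  have hPP₁ : P ≤ P ⊔ F.center := le_sup_left
  have hPmem : ∀ x : P, θ₁ (Subgroup.inclusion hPP₁ x) ∈ P' := fun x => ⟨_, rfl⟩
  have hPR : P ≤ preimageAlong θ (P' ⊔ Q') := by
    intro x hx
    refine ⟨⟨x, hPS hx⟩, ?_, rfl⟩
    exact Subgroup.mem_sup_left (hPmem ⟨x, hx⟩)
  have hzR : (z : Ω) ∈ preimageAlong θ (P' ⊔ Q') := ⟨z, Subgroup.mem_sup_right hz, rfl⟩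
  refine ⟨_, hPR, hzR, ψ₀, hψ₀, fun x => ?_, ?_⟩
  · have h5 := hind (Subgroup.inclusion hPR x)
    have h6 : ψ' ⟨θ ⟨(x : Ω), hRS (hPR x.2)⟩, hRP' (Subgroup.inclusion hPR x)⟩ =
        φ' ⟨θ₁ (Subgroup.inclusion hPP₁ x), hPmem x⟩ := h3 ⟨θ₁ (Subgroup.inclusion hPP₁ x), hPmem x⟩
    have h7 : φ' ⟨θ₁ (Subgroup.inclusion hPP₁ x), hPmem x⟩ = g (Subgroup.inclusion hPP₁ x) :=
      hφ'v (Subgroup.inclusion hPP₁ x)
    have h8 : g (Subgroup.inclusion hPP₁ x) = θ ⟨φ x, val_mem hφ x⟩ := by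
      show θ ⟨φ₁ _, _⟩ = _
      congr 2
      exact h1 x
    have h9 : θ ⟨ψ₀ (Subgroup.inclusion hPR x), hψ₀v _⟩ = θ ⟨φ x, val_mem hφ x⟩ := by
      rw [← h5, ← h8, ← h7, ← h6]
      rfl
    have h10 : θ ((⟨ψ₀ (Subgroup.inclusion hPR x), hψ₀v _⟩ : S)⁻¹ * ⟨φ x, val_mem hφ x⟩) = 1 := by
      rw [map_mul, map_inv, h9, inv_mul_cancel]
    exact (hker _).1 h10
  · have h5 := hind ⟨z, hzR⟩
    have h6 : ψ' ⟨θ ⟨(z : Ω), hRS hzR⟩, hRP' ⟨z, hzR⟩⟩ = θ z := h4 ⟨θ z, hz⟩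
    have h9 : θ ⟨ψ₀ ⟨z, hzR⟩, hψ₀v _⟩ = θ z := h5.symm.trans h6
    have h10 : θ ((⟨ψ₀ ⟨z, hzR⟩, hψ₀v _⟩ : S)⁻¹ * z) = 1 := by
      rw [map_mul, map_inv, h9, inv_mul_cancel]
    exact (hker _).1 h10

/-- An analogue of Grün's lemma for fusion systems. Let F be a saturated fusion system over a finite p-group S that is perfect in the sense that its hyperfocal subgroup is all of S (F coincides with its p-residual subsystem). Then the second centre of F equals its centre: every fusion system over S/(Z(F) ∩ S) that is the factor system of F modulo its centre Z(F), read through the quotient map, has trivial centre. -/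
theorem result {Ω : Type*} [Group Ω] {S : Subgroup Ω} [Finite S] (p : ℕ) [Fact p.Prime] (hS : IsPGroup p S) (F : Cfsg.FusionSystem S) (hF : F.IsSaturated p)
    (hperf : F.hyperfocalSubgroup p = S)
    (E : Cfsg.FusionSystem (⊤ : Subgroup (↥S ⧸ (F.center).subgroupOf S)))
    (hE : F.IsFactorSystem F.center (QuotientGroup.mk' ((F.center).subgroupOf S)) E) : E.center = ⊥ := by
  rw [eq_bot_iff]
  refine sSup_le fun Q' hQ' => ?_
  have hQ'c : E.IsCentral Q' := hQ'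
  intro zb hzb
  obtain ⟨z, rfl⟩ := QuotientGroup.mk'_surjective _ zb
  rw [Subgroup.mem_bot]
  set θ := QuotientGroup.mk' ((F.center).subgroupOf S) with hθ
  set Z := F.center with hZdef
  have hZ : F.IsCentral Z := center_isCentral F
  have hZS : Z ≤ S := hZ.1
  have hZc : ∀ a ∈ Z, ∀ y ∈ S, a * y = y * a := by
    intro a ha y hy
    exact (Subgroup.mem_centralizer_iff.1 (isCentral_le hZ ha).2 y hy).symm
  have hzS : (z : Ω) ∈ S := z.2
  -- commutators with `z` lie in the centre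
  have hcomm : ∀ x : S, (x : Ω) * z * (x : Ω)⁻¹ * (z : Ω)⁻¹ ∈ Z := by
    intro x
    have h1 : θ x * θ z = θ z * θ x := by
      have h2 := (isCentral_le hQ'c hzb).2
      exact Subgroup.mem_centralizer_iff.1 h2 (θ x) trivial
    have h3 : θ (x * z * x⁻¹ * z⁻¹) = 1 := by
      simp only [map_mul, map_inv, h1]
      group
    exact (hE.2.1 _).1 h3
  -- the key computation
  have hkey : ∀ {P : Subgroup Ω} {φ : P →* Ω}, φ ∈ F.Hom P → ∀ x : P,
      φ x * z * (φ x)⁻¹ = (x : Ω) * z * (x : Ω)⁻¹ := by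
    intro P φ hφ x
    obtain ⟨R, hPR, hzR, ψ, hψ, hψ1, hψ2⟩ := lift_step hE hQ'c (z := z) hzb hφ
    have hPS := le_of_hom hφ
    have hRS := le_of_hom hψ
    set xR : R := Subgroup.inclusion hPR x with hxR
    set zR : R := ⟨z, hzR⟩ with hzRdef
    set u := ψ xR with hu
    set v := ψ zR with hv
    set a := u⁻¹ * φ x with ha
    set b := v⁻¹ * z with hb
    have haZ : a ∈ Z := hψ1 x
    have hbZ : b ∈ Z := hψ2
    have huS : u ∈ S := val_mem hψ _
    have hvS : v ∈ S := val_mem hψ _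
    have hc : (x : Ω) * z * (x : Ω)⁻¹ * (z : Ω)⁻¹ ∈ Z := hcomm ⟨x, hPS x.2⟩
    have hcfix : ψ (xR * zR * xR⁻¹ * zR⁻¹) = (x : Ω) * z * (x : Ω)⁻¹ * (z : Ω)⁻¹ :=
      isCentral_fixed hZ hψ (xR * zR * xR⁻¹ * zR⁻¹) hc
    rw [map_mul, map_mul, map_mul, map_inv, map_inv] at hcfix
    have hφx : φ x = u * a := by rw [ha]; group
    have hzv : (z : Ω) = v * b := by rw [hb]; group
    rw [hφx]
    have h1 : a * (z : Ω) * a⁻¹ = z := by rw [hZc a haZ z hzS]; group
    have h2 : b * u⁻¹ = u⁻¹ * b := hZc b hbZ _ (S.inv_mem huS)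
    calc u * a * (z : Ω) * (u * a)⁻¹ = u * (a * (z : Ω) * a⁻¹) * u⁻¹ := by group
      _ = u * (z : Ω) * u⁻¹ := by rw [h1]
      _ = u * (v * b) * u⁻¹ := by rw [← hzv]
      _ = u * v * (b * u⁻¹) := by group
      _ = u * v * (u⁻¹ * b) := by rw [h2]
      _ = (u * v * u⁻¹ * v⁻¹) * (v * b) := by group
      _ = ((x : Ω) * z * (x : Ω)⁻¹ * (z : Ω)⁻¹) * z := by rw [hcfix, ← hzv]
      _ = (x : Ω) * z * (x : Ω)⁻¹ := by group
  -- `z` is central in `S`
  have hzcen : ∀ y ∈ S, y * z = z * y := by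
    have hle : F.hyperfocalSubgroup p ≤ Subgroup.centralizer ({(z : Ω)} : Set Ω) := by
      refine (Subgroup.closure_le _).2 ?_
      rintro _ ⟨P, α, x, hP, -, rfl⟩
      have h1 := hkey (φ := P.subtype.comp (α : MulAut P).toMonoidHom) ((mem_autGroup_iff hP).1 α.2) x
      simp only [MonoidHom.comp_apply, Subgroup.subtype_apply] at h1
      show _ ∈ Subgroup.centralizer _
      rw [Subgroup.mem_centralizer_singleton_iff]
      set u : Ω := (((α : MulAut P) x : P) : Ω) with hu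
      have h1' : u * z * u⁻¹ = (x : Ω) * z * (x : Ω)⁻¹ := h1
      have h2 : u * z = (x : Ω) * z * (x : Ω)⁻¹ * u := by rw [← h1']; group
      calc (x : Ω)⁻¹ * u * z = (x : Ω)⁻¹ * (u * z) := by group
        _ = (x : Ω)⁻¹ * ((x : Ω) * z * (x : Ω)⁻¹ * u) := by rw [h2]
        _ = z * ((x : Ω)⁻¹ * u) := by group
    intro y hy
    rw [← hperf] at hy
    have := Subgroup.mem_centralizer_singleton_iff.1 (hle hy)
    exact this
  -- each element of `Aut_F(P)` fixes `z`, for `P = S` or `P` essential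
  have hfixz : ∀ P : Subgroup Ω, (P = S ∨ F.IsEssential p P) → ∀ (hzP : (z : Ω) ∈ P) (hZP : Z ≤ P),
      ∀ α ∈ F.autGroup P, α ⟨z, hzP⟩ = ⟨z, hzP⟩ := by
    intro P hP hzP hZP
    have hPS : P ≤ S := by
      rcases hP with rfl | hP
      · exact le_rfl
      · exact hP.1.1
    have hfin := finite_of_le hPS
    -- first `α z = z c` with `c ∈ Z`
    have hc : ∀ α ∈ F.autGroup P, (z : Ω)⁻¹ * ((α ⟨z, hzP⟩ : P) : Ω) ∈ Z := by
      intro α hα
      have hφ : P.subtype.comp α.toMonoidHom ∈ F.Hom P := (mem_autGroup_iff hPS).1 hα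
      obtain ⟨R, hPR, hzR, ψ, hψ, hψ1, hψ2⟩ := lift_step hE hQ'c (z := z) hzb hφ
      have h1 := hψ1 ⟨z, hzP⟩
      have h2 : Subgroup.inclusion hPR ⟨(z : Ω), hzP⟩ = ⟨(z : Ω), hzR⟩ := rfl
      rw [h2] at h1
      have h3 := Z.mul_mem (Z.inv_mem hψ2) h1
      have h4 : ((ψ ⟨z, hzR⟩)⁻¹ * (z : Ω))⁻¹ * ((ψ ⟨z, hzR⟩)⁻¹ * ((P.subtype.comp α.toMonoidHom) ⟨z, hzP⟩)) =
          (z : Ω)⁻¹ * ((α ⟨z, hzP⟩ : P) : Ω) := by
        have hαv : (P.subtype.comp α.toMonoidHom) ⟨z, hzP⟩ = ((α ⟨z, hzP⟩ : P) : Ω) := rfl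
        rw [hαv]
        group
      rw [h4] at h3
      exact h3
    -- elements of order prime to `p`
    have hcop : ∀ α ∈ F.autGroup P, Nat.Coprime (orderOf α) p → α ⟨z, hzP⟩ = ⟨z, hzP⟩ := by
      intro α hα hm
      set c := (z : Ω)⁻¹ * ((α ⟨z, hzP⟩ : P) : Ω) with hcdef
      have hcZ : c ∈ Z := hc α hα
      have hαz : α ⟨z, hzP⟩ = ⟨z, hzP⟩ * ⟨c, hZP hcZ⟩ := by
        apply Subtype.ext
        simp only [Subgroup.coe_mul]
        rw [hcdef]
        group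
      have hφ : P.subtype.comp α.toMonoidHom ∈ F.Hom P := (mem_autGroup_iff hPS).1 hα
      have hαfix : ∀ w : P, (w : Ω) ∈ Z → α w = w := by
        intro w hw
        apply Subtype.ext
        exact isCentral_fixed hZ hφ w hw
      have hpow : ∀ k : ℕ, (α ^ k) ⟨z, hzP⟩ = ⟨z, hzP⟩ * ⟨c, hZP hcZ⟩ ^ k := by
        intro k
        induction k with
        | zero => simp
        | succ k ih =>
          rw [pow_succ', MulAut.mul_apply, ih, map_mul, map_pow, hαz, hαfix ⟨c, hZP hcZ⟩ hcZ, pow_succ',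
            mul_assoc]
      have h1 := hpow (orderOf α)
      rw [pow_orderOf_eq_one, MulAut.one_apply] at h1
      have h2 : (⟨c, hZP hcZ⟩ : P) ^ orderOf α = 1 := by
        exact mul_eq_left.1 h1.symm
      have hpP : IsPGroup p P := hS.to_le hPS
      obtain ⟨k, hk⟩ := hpP ⟨c, hZP hcZ⟩
      have h3 : orderOf (⟨c, hZP hcZ⟩ : P) ∣ Nat.gcd (orderOf α) (p ^ k) :=
        Nat.dvd_gcd (orderOf_dvd_of_pow_eq_one h2) (orderOf_dvd_of_pow_eq_one hk)
      have h4 : Nat.gcd (orderOf α) (p ^ k) = 1 := Nat.Coprime.pow_right k hm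
      rw [h4, Nat.dvd_one, orderOf_eq_one_iff] at h3
      rw [hαz, h3, mul_one]
    have hPa : F.IsFullyAutomized p P :=
      (fullyNormalized_spec hS hF (fullyNormalized_of_mem P hP)).2
    intro α hα
    obtain ⟨u, v, huv, hu, hv⟩ := exists_autS_mul_pResidual hPa ⟨α, hα⟩
    have hα' : α = (u : MulAut P) * (v : MulAut P) := congrArg Subtype.val huv
    -- the residual fixes `z`
    have hvz : (v : MulAut P) ⟨z, hzP⟩ = ⟨z, hzP⟩ := by
      have hcl : ∀ w ∈ pResidual p (F.autGroup P), (w : MulAut P) ⟨z, hzP⟩ = ⟨z, hzP⟩ := by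
        intro w hw
        induction hw using Subgroup.closure_induction with
        | mem g hg =>
          refine hcop g g.2 ?_
          have h1 : Nat.Coprime (orderOf g) p := hg
          rwa [← Subgroup.orderOf_coe] at h1
        | one => rfl
        | mul a b _ _ ha hb =>
          show (a : MulAut P) ((b : MulAut P) ⟨z, hzP⟩) = _
          rw [hb, ha]
        | inv a _ ha =>
          show ((a : MulAut P))⁻¹ ⟨z, hzP⟩ = _
          conv_lhs => rw [← ha]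
          simp
      exact hcl v hv
    obtain ⟨g, hg, hgx⟩ := mem_autInducedBy_iff.1 hu
    rw [hα', MulAut.mul_apply, hvz]
    apply Subtype.ext
    rw [hgx]
    simp only
    rw [hzcen g hg]
    group
  set T := Subgroup.zpowers (z : Ω) with hT
  have hTS : T ≤ S := Subgroup.zpowers_le.2 hzS
  have hTcen : ∀ t ∈ T, ∀ y ∈ S, y * t = t * y := by
    intro t ht y hy
    obtain ⟨k, rfl⟩ := Subgroup.mem_zpowers_iff.1 ht
    exact (Commute.zpow_right (hzcen y hy) k)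
  have hTfix : ∀ P : Subgroup Ω, (P = S ∨ F.IsEssential p P) → ∀ α ∈ F.autGroup P, ∀ x : P, (x : Ω) ∈ T → ((α x : P) : Ω) = x := by
    intro P hP α hα x hx
    have hPS : P ≤ S := by
      rcases hP with rfl | hP
      · exact le_rfl
      · exact hP.1.1
    have hcenP : centralizerIn S P ≤ P := by
      rcases hP with rfl | hP
      · exact inf_le_left
      · exact hP.1.2 P (isConj_refl hPS)
    have hzP : (z : Ω) ∈ P := hcenP ⟨hzS, Subgroup.mem_centralizer_iff.2 (fun y hy => hzcen y (hPS hy))⟩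
    have hZP : Z ≤ P := fun a ha => hcenP ⟨hZS ha, Subgroup.mem_centralizer_iff.2 (fun y hy => (hZc a ha y (hPS hy)).symm)⟩
    have h1 := hfixz P hP hzP hZP α hα
    obtain ⟨k, hk⟩ := Subgroup.mem_zpowers_iff.1 hx
    have h2 : x = (⟨z, hzP⟩ : P) ^ k := Subtype.ext (by simpa using hk.symm)
    rw [h2, map_zpow, h1]
  -- the alperin induction
  have hall : ∀ {P : Subgroup Ω} {φ : P →* Ω}, φ ∈ F.Hom P →
      (∀ x : P, (x : Ω) ∈ T → φ x = x) ∧ (∀ x : P, φ x ∈ T → φ x = x) := by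
    intro P φ hφ
    refine alperin_induction hS hF (fun P φ => (∀ x : P, (x : Ω) ∈ T → φ x = x) ∧ (∀ x : P, φ x ∈ T → φ x = x))
      ?_ ?_ ?_ ?_ hφ
    · intro P g hP hg
      refine ⟨fun x hx => ?_, fun x hx => ?_⟩
      · show g * (x : Ω) * g⁻¹ = x
        rw [hTcen x hx g hg]
        group
      · have hx' : g * (x : Ω) * g⁻¹ ∈ T := hx
        have h1 := hTcen _ hx' g⁻¹ (S.inv_mem hg)
        show g * (x : Ω) * g⁻¹ = x
        calc g * (x : Ω) * g⁻¹ = (g * (x : Ω) * g⁻¹) * g⁻¹ * g := by group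
          _ = (g⁻¹ * (g * (x : Ω) * g⁻¹)) * g := by rw [h1]
          _ = x := by group
    · intro P Q φ ψ hφ hψ hΦ hΨ h
      refine ⟨fun x hx => ?_, fun x hx => ?_⟩
      · have h1 := hΦ.1 x hx
        show ψ ⟨φ x, h x⟩ = x
        have h2 : (⟨φ x, h x⟩ : Q) = ⟨(x : Ω), h1 ▸ h x⟩ := Subtype.ext h1
        rw [h2]
        exact hΨ.1 _ hx
      · have hx' : ψ ⟨φ x, h x⟩ ∈ T := hx
        have h1 := hΨ.2 ⟨φ x, h x⟩ hx'
        have h2 : φ x ∈ T := by
          have : (⟨φ x, h x⟩ : Q).1 = φ x := rfl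
          rw [← this, ← h1]
          exact hx'
        have h3 := hΦ.2 x h2
        show ψ ⟨φ x, h x⟩ = x
        rw [h1]
        exact h3
    · intro P φ ψ hφ hψ hψx hΦ
      refine ⟨?_, ?_⟩
      · rintro ⟨_, x, rfl⟩ hx
        have hx' : φ x ∈ T := hx
        have h1 := hΦ.2 x hx'
        rw [hψx]
        exact h1.symm
      · rintro ⟨_, x, rfl⟩ hx
        rw [hψx] at hx ⊢
        have h1 := hΦ.1 x hx
        exact h1.symm
    · intro P hP α hα
      refine ⟨fun x hx => hTfix P hP α hα x hx, fun x hx => ?_⟩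
      have hx' : ((α x : P) : Ω) ∈ T := hx
      have h1 := hTfix P hP α⁻¹ ((F.autGroup P).inv_mem hα) (α x) hx'
      have h2 : (α⁻¹ (α x) : P) = x := MulAut.inv_apply_self _ _ _
      rw [h2] at h1
      exact h1.symm
  have hTcentral : F.IsCentral T := by
    refine isCentral_of_singleton hS hF hTS ?_
    rintro x hx y ⟨φ, hφ, rfl⟩
    exact (hall hφ).1 ⟨x, Subgroup.mem_zpowers x⟩ hx
  have hzZ : (z : Ω) ∈ Z := by
    have : T ≤ Z := le_sSup hTcentral
    exact this (Subgroup.mem_zpowers _)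
  exact (hE.2.1 _).2 hzZ

end Cfsg.Agent.S5315
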