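import Cfsg.Statements.S5330
import Cfsg.Agent.Lib.Fusion2.Abelian

set_option autoImplicit false
open Cfsg

namespace Cfsg.Agent.S5330

open Cfsg.FusionSystem Cfsg.Agent.Lib.Fusion Cfsg.Agent.Lib.Fusion2

/-- Let F be a saturated fusion system over a finite abelian p-group S. Then S is the internal direct product of the centre of the system and the focal subgroup: Z(F) ∩ foc(F) = 1 and Z(F)·foc(F) = S. -/
theorem result {Ω : Type*} [Group Ω] {S : Subgroup Ω} [Finite S] (p : ℕ) [Fact p.Prime] (hS : IsPGroup p S) (F : Cfsg.FusionSystem S) (hF : F.IsSaturated p) (hab : ∀ x ∈ S, ∀ y ∈ S, x * y = y * x) : F.center ⊓ F.focalSubgroup = ⊥ ∧ F.center ⊔ F.focalSubgroup = S := by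
  have hcomm : ∀ a b : S, a * b = b * a := fun a b => Subtype.ext (hab a a.2 b b.2)
  have hcop := coprime_card_S_autGroup_of_comm (F := F) hS hF hab
  rw [center_eq_of_comm hS hF hab, focal_eq_of_comm hS hF hab]
  constructor
  · rw [← Subgroup.map_inf _ _ _ S.subtype_injective, fixedSub_inf_commSub hcomm _ hcop, Subgroup.map_bot]
  · rw [← Subgroup.map_sup, fixedSub_sup_commSub hcomm _ hcop, ← MonoidHom.range_eq_map, Subgroup.range_subtype]

end Cfsg.Agent.S5330
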