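import Cfsg.Statements.S5331
import Cfsg.Agent.Lib.Fusion2.Abelian
import Cfsg.Agent.Lib.Fusion.Alperin

set_option autoImplicit false
open Cfsg

namespace Cfsg.Agent.S5331

open Cfsg.FusionSystem Cfsg.Agent.Lib.Fusion Cfsg.Agent.Lib.Fusion2

theorem zmod_two_torsion {a : ℕ} (ha : 1 ≤ a) {z : ZMod (2 ^ a)} (hz : z + z = 0) :
    z = 0 ∨ z = ((2 ^ (a - 1) : ℕ) : ZMod (2 ^ a)) := by
  obtain ⟨b, rfl⟩ : ∃ b, a = b + 1 := ⟨a - 1, by omega⟩
  haveI : NeZero (2 ^ (b + 1)) := ⟨by positivity⟩
  have hv : ((z.val : ℕ) : ZMod (2 ^ (b + 1))) = z := ZMod.natCast_zmod_val z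
  have hlt : z.val < 2 ^ (b + 1) := ZMod.val_lt z
  have h2 : ((z.val + z.val : ℕ) : ZMod (2 ^ (b + 1))) = 0 := by
    push_cast
    rw [hv]
    exact hz
  rw [ZMod.natCast_eq_zero_iff] at h2
  obtain ⟨t, ht⟩ := h2
  have hlt2 : z.val < 2 ^ b * 2 := by rw [← pow_succ]; exact hlt
  have ht2 : z.val + z.val = 2 ^ b * 2 * t := by rw [← pow_succ]; exact ht
  have ht' : z.val = 2 ^ b * t := by nlinarith
  have hpos : 0 < 2 ^ b := by positivity
  have ht3 : t < 2 := by
    by_contra hcon
    have : 2 ≤ t := not_lt.1 hcon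
    have : 2 ^ b * 2 ≤ 2 ^ b * t := Nat.mul_le_mul_left _ this
    omega
  interval_cases t
  · left
    rw [← hv, ht']
    simp
  · right
    rw [← hv, ht']
    simp

theorem zmod_exists_div {a b : ℕ} (hb : b < a) {z : ZMod (2 ^ a)} (hz : z + z = 0) :
    ∃ w : ZMod (2 ^ a), z = ((2 ^ b : ℕ) : ZMod (2 ^ a)) * w := by
  rcases zmod_two_torsion (by omega) hz with rfl | h
  · exact ⟨0, by simp⟩
  · refine ⟨((2 ^ (a - 1 - b) : ℕ) : ZMod (2 ^ a)), ?_⟩
    rw [h, ← Nat.cast_mul, ← pow_add]
    congr 2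
    omega

theorem zmod_kill {a b : ℕ} (h : a ≤ b) (z : ZMod (2 ^ a)) : ((2 ^ b : ℕ) : ZMod (2 ^ a)) * z = 0 := by
  have : ((2 ^ b : ℕ) : ZMod (2 ^ a)) = 0 := by
    rw [ZMod.natCast_eq_zero_iff]
    exact pow_dvd_pow 2 h
  rw [this, zero_mul]

section

variable {n : ℕ} {a : Fin n → ℕ}

/-- The iteration argument. -/
theorem kill_d {B : Type*} [AddCommGroup B] (f : B →+ B) {m : ℕ} (hodd : Odd m) (hf : ∀ x, f^[m] x = x) {x d : B}
    (h1 : f x = x + d) (h2 : f d = d) (h3 : d + d = 0) : d = 0 := by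
  have hit : ∀ k : ℕ, f^[k] x = x + k • d := by
    intro k
    induction k with
    | zero => simp
    | succ k ih =>
      rw [Function.iterate_succ_apply', ih, map_add, h1, map_nsmul, h2, succ_nsmul]
      abel
  obtain ⟨t, rfl⟩ := hodd
  have h4 := hit (2 * t + 1)
  rw [hf] at h4
  have h5 : (2 * t + 1) • d = d := by
    rw [succ_nsmul, mul_nsmul, two_nsmul, h3, nsmul_zero, zero_add]
  rw [h5] at h4
  exact (add_eq_left.1 h4.symm)

/-- The subgroups `D j` of `Ω₁` -/
def D (j : ℕ) (x : (i : Fin n) → ZMod (2 ^ a i)) : Prop := x + x = 0 ∧ ∀ i : Fin n, i.val < j → x i = 0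

theorem D_inv (ha : StrictMono a) (f : ((i : Fin n) → ZMod (2 ^ a i)) →+ ((i : Fin n) → ZMod (2 ^ a i)))
    {j : ℕ} (hj : j ≤ n) {x : (i : Fin n) → ZMod (2 ^ a i)} (hx : D j x) : D j (f x) := by
  refine ⟨by rw [← map_add, hx.1, map_zero], fun i hi => ?_⟩
  obtain ⟨j', rfl⟩ : ∃ j', j = j' + 1 := ⟨j - 1, by omega⟩
  let i₀ : Fin n := ⟨j', by omega⟩
  have hw : ∀ i : Fin n, ∃ w : ZMod (2 ^ a i), x i = ((2 ^ a i₀ : ℕ) : ZMod (2 ^ a i)) * w := by
    intro i
    by_cases hij : i.val < j' + 1
    · exact ⟨0, by rw [hx.2 i hij, mul_zero]⟩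
    · have hlt : i₀ < i := by
        show i₀.val < i.val
        simp only [i₀]
        omega
      refine zmod_exists_div (ha hlt) ?_
      have := congrFun hx.1 i
      simpa using this
  choose y hy using hw
  have hxy : x = (2 ^ a i₀) • y := by
    funext i
    rw [hy i]
    simp only [Pi.smul_apply, nsmul_eq_mul]
  rw [hxy, map_nsmul]
  simp only [Pi.smul_apply, nsmul_eq_mul]
  have hle : a i ≤ a i₀ := ha.monotone (by
    show i.val ≤ j'
    omega)
  exact zmod_kill hle (f y i)

theorem fix_D (ha : StrictMono a) (ha1 : ∀ i, 1 ≤ a i)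
    (f : ((i : Fin n) → ZMod (2 ^ a i)) →+ ((i : Fin n) → ZMod (2 ^ a i))) {m : ℕ} (hodd : Odd m)
    (hf : ∀ x, f^[m] x = x) : ∀ k j : ℕ, j + k = n → ∀ x : (i : Fin n) → ZMod (2 ^ a i), D j x → f x = x := by
  have hinj : Function.Injective f := by
    intro x y hxy
    obtain ⟨t, rfl⟩ := hodd
    have h1 : f^[2 * t] (f x) = x := hf x
    have h2 : f^[2 * t] (f y) = y := hf y
    rw [hxy, h2] at h1
    exact h1.symm
  intro k
  induction k with
  | zero =>
    intro j hj x hx
    have hx0 : x = 0 := by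
      funext i
      exact hx.2 i (by omega)
    rw [hx0, map_zero]
  | succ k ih =>
    intro j hj x hx
    have hjn : j < n := by omega
    let i₀ : Fin n := ⟨j, hjn⟩
    have hnext : ∀ y : (i : Fin n) → ZMod (2 ^ a i), D j y → y i₀ = 0 → D (j + 1) y := by
      intro y hy hy0
      refine ⟨hy.1, fun i hi => ?_⟩
      by_cases hij : i.val < j
      · exact hy.2 i hij
      · have : i = i₀ := Fin.ext (by simp only [i₀]; omega)
        rw [this, hy0]
    have ih' := ih (j + 1) (by omega)
    by_cases hx0 : x i₀ = 0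
    · exact ih' x (hnext x hx hx0)
    have hfx : D j (f x) := D_inv ha f (by omega) hx
    by_cases hfx0 : (f x) i₀ = 0
    · have h1 := ih' (f x) (hnext _ hfx hfx0)
      exact hinj h1
    -- both nonzero
    have hx1 : x i₀ = ((2 ^ (a i₀ - 1) : ℕ) : ZMod (2 ^ a i₀)) := by
      have := congrFun hx.1 i₀
      exact (zmod_two_torsion (ha1 i₀) (by simpa using this)).resolve_left hx0
    have hfx1 : (f x) i₀ = ((2 ^ (a i₀ - 1) : ℕ) : ZMod (2 ^ a i₀)) := by
      have := congrFun hfx.1 i₀
      exact (zmod_two_torsion (ha1 i₀) (by simpa using this)).resolve_left hfx0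
    set d := f x - x with hd
    have hDd : D j d := by
      refine ⟨?_, fun i hi => ?_⟩
      · have h1 := hx.1
        have h2 := hfx.1
        rw [hd]
        calc f x - x + (f x - x) = (f x + f x) - (x + x) := by abel
          _ = 0 := by rw [h1, h2, sub_zero]
      · rw [hd, Pi.sub_apply, hx.2 i hi, hfx.2 i hi, sub_zero]
    have hd0 : d i₀ = 0 := by
      rw [hd, Pi.sub_apply, hx1, hfx1, sub_self]
    have hfd := ih' d (hnext d hDd hd0)
    have := kill_d f hodd hf (x := x) (d := d) (by rw [hd]; abel) hfd hDd.1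
    rw [hd, sub_eq_zero] at this
    exact this

theorem fix_all (ha : StrictMono a) (ha1 : ∀ i, 1 ≤ a i)
    (f : ((i : Fin n) → ZMod (2 ^ a i)) →+ ((i : Fin n) → ZMod (2 ^ a i))) {m : ℕ} (hodd : Odd m)
    (hf : ∀ x, f^[m] x = x) (x : (i : Fin n) → ZMod (2 ^ a i)) : f x = x := by
  have hD0 : ∀ y : (i : Fin n) → ZMod (2 ^ a i), y + y = 0 → f y = y := fun y hy =>
    fix_D ha ha1 f hodd hf n 0 (by omega) y ⟨hy, fun i hi => absurd hi (by omega)⟩
  have hall : ∀ (k : ℕ) (y : (i : Fin n) → ZMod (2 ^ a i)), (2 ^ k) • y = 0 → f y = y := by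
    intro k
    induction k with
    | zero =>
      intro y hy
      simp only [pow_zero, one_smul] at hy
      rw [hy, map_zero]
    | succ k ih =>
      intro y hy
      have h1 : f (y + y) = y + y := ih (y + y) (by
        rw [pow_succ, mul_nsmul, two_nsmul] at hy
        rw [← hy]
        funext i
        simp only [Pi.smul_apply, Pi.add_apply, smul_add])
      set d := f y - y with hd
      have hdd : d + d = 0 := by
        rw [map_add] at h1
        rw [hd]
        calc f y - y + (f y - y) = (f y + f y) - (y + y) := by abel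
          _ = 0 := by rw [h1, sub_self]
      have := kill_d f hodd hf (x := y) (d := d) (by rw [hd]; abel) (hD0 d hdd) hdd
      rw [hd, sub_eq_zero] at this
      exact this
  refine hall (∑ i, a i) x ?_
  funext i
  simp only [Pi.smul_apply, nsmul_eq_mul, Pi.zero_apply]
  have h2 : a i ≤ ∑ i, a i := Finset.single_le_sum (f := a) (fun _ _ => Nat.zero_le _) (Finset.mem_univ i)
  exact zmod_kill h2 (x i)

end

/-- Let S be a finite abelian 2-group that is a direct product of cyclic groups of pairwise distinct orders 2^{a_1} < 2^{a_2} < ⋯ < 2^{a_n} (all a_i ≥ 1). Then every saturated fusion system over S is the inner one: its maps are exactly the conjugations by elements of S. -/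
theorem result {Ω : Type*} [Group Ω] {S : Subgroup Ω} [Finite S] (n : ℕ) (a : Fin n → ℕ) (ha : StrictMono a) (ha1 : ∀ i, 1 ≤ a i) (e : ↥S ≃* Multiplicative ((i : Fin n) → ZMod (2 ^ a i))) (F : Cfsg.FusionSystem S) (hF : F.IsSaturated 2) (P : Subgroup Ω) : F.Hom P = (Cfsg.innerFusionSystem S).Hom P := by
  haveI : Fact (Nat.Prime 2) := ⟨Nat.prime_two⟩
  have hab : ∀ x ∈ S, ∀ y ∈ S, x * y = y * x := by
    intro x hx y hy
    have h1 : e ⟨x, hx⟩ * e ⟨y, hy⟩ = e ⟨y, hy⟩ * e ⟨x, hx⟩ := mul_comm _ _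
    rw [← map_mul, ← map_mul] at h1
    exact congrArg Subtype.val (e.injective h1)
  have hS : IsPGroup 2 S := by
    intro x
    refine ⟨∑ i, a i, e.injective ?_⟩
    rw [map_pow, map_one]
    show Multiplicative.ofAdd ((2 ^ (∑ i, a i)) • Multiplicative.toAdd (e x)) = 1
    have : (2 ^ (∑ i, a i)) • Multiplicative.toAdd (e x) = 0 := by
      funext i
      simp only [Pi.smul_apply, nsmul_eq_mul, Pi.zero_apply]
      have h2 : a i ≤ ∑ i, a i := Finset.single_le_sum (f := a) (fun _ _ => Nat.zero_le _) (Finset.mem_univ i)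
      exact zmod_kill h2 (Multiplicative.toAdd (e x) i)
    rw [this]
    rfl
  have hfix : ∀ α ∈ F.autGroup S, α = 1 := by
    intro α hα
    have hcop := coprime_card_autGroup_of_comm (F := F) hS hF hab
    have hdvd : orderOf (⟨α, hα⟩ : F.autGroup S) ∣ Nat.card (F.autGroup S) := orderOf_dvd_natCard _
    have hodd : Odd (orderOf (⟨α, hα⟩ : F.autGroup S)) :=
      Nat.coprime_two_right.1 (Nat.Coprime.coprime_dvd_left hdvd hcop)
    rw [Subgroup.orderOf_mk] at hodd
    let f : ((i : Fin n) → ZMod (2 ^ a i)) →+ ((i : Fin n) → ZMod (2 ^ a i)) :=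
      { toFun := fun x => Multiplicative.toAdd (e (α (e.symm (Multiplicative.ofAdd x))))
        map_zero' := by
          show Multiplicative.toAdd (e (α (e.symm 1))) = 0
          simp
        map_add' := by
          intro x y
          show Multiplicative.toAdd (e (α (e.symm (Multiplicative.ofAdd x * Multiplicative.ofAdd y)))) = _
          simp only [map_mul]
          rfl }
    have hit : ∀ (k : ℕ) (x : (i : Fin n) → ZMod (2 ^ a i)),
        f^[k] x = Multiplicative.toAdd (e ((α ^ k) (e.symm (Multiplicative.ofAdd x)))) := by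
      intro k x
      induction k with
      | zero => simp
      | succ k ih =>
        rw [Function.iterate_succ_apply', ih, pow_succ']
        show Multiplicative.toAdd (e (α (e.symm (Multiplicative.ofAdd (Multiplicative.toAdd (e ((α ^ k) _))))))) = _
        simp
    have hf : ∀ x, f^[orderOf α] x = x := by
      intro x
      rw [hit, pow_orderOf_eq_one]
      simp
    have hall := fix_all ha ha1 f hodd hf
    ext y
    have h1 := hall (Multiplicative.toAdd (e y))
    have h2 : e (α y) = e y := by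
      have h3 : Multiplicative.toAdd (e (α (e.symm (Multiplicative.ofAdd (Multiplicative.toAdd (e y)))))) =
          Multiplicative.toAdd (e y) := h1
      simpa using h3
    have h4 := e.injective h2
    rw [h4]
    rfl
  refine Set.Subset.antisymm (fun φ hφ => ?_) (inner_le F P)
  obtain ⟨α, hα, hαx⟩ := exists_aut_ext_of_comm hS hF hab hφ
  rw [hfix α hα] at hαx
  refine ⟨le_of_hom hφ, 1, S.one_mem, fun x => ?_⟩
  rw [← hαx]
  simp

end Cfsg.Agent.S5331
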