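import Cfsg.Statements.S5521
import Cfsg.Agent.Lib.M24X.SixSets

set_option autoImplicit false
open Cfsg

namespace Cfsg.Agent.S5521

/-- The Mathieu group M₂₄ in its natural action on the 24 coordinate positions of the binary Golay code has minimal base size exactly 7: every set of at most 6 positions is fixed pointwise by some non-identity element of M₂₄, while some set of 7 positions is fixed pointwise only by the identity. -/
theorem result :
    (∀ B : Finset Cfsg.GolayPt, B.card ≤ 6 → ∃ g ∈ Cfsg.M24, g ≠ 1 ∧ ∀ b ∈ B, g b = b) ∧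
    (∃ B : Finset Cfsg.GolayPt, B.card = 7 ∧ ∀ g ∈ Cfsg.M24, (∀ b ∈ B, g b = b) → g = 1) := by
  open Cfsg.Agent.Lib.M24X Cfsg.Agent.Lib.Golay in
  classical
  constructor
  · intro B hB
    obtain ⟨E, hBE, hE⟩ := Finset.exists_superset_card_eq (s := B) (n := 6) hB
      (by simp [Finset.card_univ, Fintype.card_option, ZMod.card])
    have h := six_card E hE
    have hc : 1 < Nat.card {g : Equiv.Perm Cfsg.GolayPt // g ∈ Cfsg.M24 ∧ ∀ p ∈ E, g p = p} := by
      by_cases ho : ∃ o ∈ Cfsg.octads, E ⊆ o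
      · rw [h.1 ho]; norm_num
      · rw [h.2 ho]; norm_num
    have : Nontrivial {g : Equiv.Perm Cfsg.GolayPt // g ∈ Cfsg.M24 ∧ ∀ p ∈ E, g p = p} :=
      Finite.one_lt_card_iff_nontrivial.mp hc
    obtain ⟨a, b, hab⟩ := this
    have hne : a.1 * b.1⁻¹ ≠ 1 := fun h => hab (Subtype.ext (mul_inv_eq_one.mp h))
    refine ⟨a.1 * b.1⁻¹, Cfsg.M24.mul_mem a.2.1 (Cfsg.M24.inv_mem b.2.1), hne, ?_⟩
    intro p hp
    have hpE := hBE hp
    rw [Equiv.Perm.mul_apply]
    have : b.1⁻¹ p = p := by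
      rw [Equiv.Perm.inv_eq_iff_eq]
      exact (b.2.2 p hpE).symm
    rw [this, a.2.2 p hpE]
  · refine ⟨{pt 23, pt 0, pt 1, pt 2, pt 3, pt 4, pt 5}, by decide, ?_⟩
    intro g hg hf
    have hs : g ∈ stabL Cfsg.M24 [23, 0, 1, 2, 3, 4, 5] := by
      rw [mem_stabL]
      refine ⟨hg, ?_⟩
      intro b hb
      apply hf
      simp only [List.mem_cons, List.not_mem_nil, or_false] at hb
      rcases hb with rfl | rfl | rfl | rfl | rfl | rfl | rfl <;> simp
    rw [stab_base_trivial, Subgroup.mem_bot] at hs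
    exact hs

end Cfsg.Agent.S5521
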