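import Cfsg.Statements.S5562

set_option autoImplicit false
open Cfsg

namespace Cfsg.Agent.S5562

lemma sqrt_eq_pow {G : Type*} [Group G] {y : G} (hy : Odd (orderOf y)) :
    y = (y * y) ^ ((orderOf y + 1) / 2) := by
  obtain ⟨l, hl⟩ := hy
  have h2 : (orderOf y + 1) / 2 = l + 1 := by omega
  rw [h2, ← pow_two, ← pow_mul]
  have : 2 * (l + 1) = orderOf y + 1 := by omega
  rw [this, pow_succ, pow_orderOf_eq_one, one_mul]

lemma orderOf_sq_of_odd {G : Type*} [Group G] {y : G} (hy : Odd (orderOf y)) :
    orderOf (y * y) = orderOf y := by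
  rw [← pow_two, orderOf_pow' y (two_ne_zero)]
  have : (orderOf y).gcd 2 = 1 := by
    exact Nat.Coprime.symm ((Nat.coprime_two_left).mpr hy)
  simp [this]

lemma sqrt_unique {G : Type*} [Group G] {y y' : G} (hy : Odd (orderOf y)) (hy' : Odd (orderOf y'))
    (h : y * y = y' * y') : y = y' := by
  have h1 := sqrt_eq_pow hy
  have h2 := sqrt_eq_pow hy'
  have h3 : orderOf y = orderOf y' := by
    rw [← orderOf_sq_of_odd hy, ← orderOf_sq_of_odd hy', h]
  rw [h1, h2, h, h3]

/-- Let G be a finite group, d an involution of G whose conjugates pairwise have products of odd order, and x any involution of G. Then the conjugacy class of d is the disjoint union, over the conjugates a of d commuting with x, of the sets of conjugates of d commuting with ax: every conjugate of d commutes with ax for exactly one conjugate a of d that commutes with x. -/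
theorem result {G : Type*} [Group G] [Finite G] (d : G) (hd : orderOf d = 2)
    (hodd : ∀ a ∈ conjugatesOf d, ∀ b ∈ conjugatesOf d, Odd (orderOf (a * b)))
    (x : G) (hx : orderOf x = 2) :
    ∀ e ∈ conjugatesOf d,
      ∃! a : G, a ∈ conjugatesOf d ∧ Commute a x ∧ Commute e (a * x) := by
  classical
  intro e he
  have hconj : ∀ g : G, ∀ y ∈ conjugatesOf d, g * y * g⁻¹ ∈ conjugatesOf d := by
    intro g y hy
    have hy' : IsConj d y := hy
    exact hy'.trans (isConj_iff.mpr ⟨g, rfl⟩)
  have hinvD : ∀ y ∈ conjugatesOf d, y * y = 1 := by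
    intro y hy
    have hy' : IsConj d y := hy
    have h1 : orderOf y = 2 := by
      obtain ⟨c, hc⟩ := hy'
      rw [← SemiconjBy.orderOf_eq _ hc, hd]
    have := pow_orderOf_eq_one y
    rw [h1, pow_two] at this
    exact this
  have hx2 : x * x = 1 := by
    have := pow_orderOf_eq_one x
    rw [hx, pow_two] at this
    exact this
  have he2 := hinvD e he
  have hxi : x⁻¹ = x := inv_eq_of_mul_eq_one_left hx2
  have hei : e⁻¹ = e := inv_eq_of_mul_eq_one_left he2
  set w := e * x with hw
  have hww : w * w = e * (x * e * x⁻¹) := by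
    rw [hw, hxi]; simp only [mul_assoc]
  -- every solution a satisfies (e a)^2 = w^2
  have hsol : ∀ a ∈ conjugatesOf d, Commute e (a * x) → (e * a) * (e * a) = w * w := by
    intro a ha heax
    have ha2 := hinvD a ha
    have hai : a⁻¹ = a := inv_eq_of_mul_eq_one_left ha2
    have h := heax.eq
    have key : x * e * x⁻¹ = a * e * a⁻¹ := by
      calc x * e * x⁻¹ = (a * a) * x * e * x := by rw [ha2, one_mul, hxi]
        _ = a * (a * x * e) * x := by simp only [mul_assoc]
        _ = a * (e * (a * x)) * x := by rw [h]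
        _ = a * e * a * (x * x) := by simp only [mul_assoc]
        _ = a * e * a⁻¹ := by rw [hx2, mul_one, hai]
    rw [hww, key, hai]; simp only [mul_assoc]
  have hodd_r : Odd (orderOf (w * w)) := by
    rw [hww]
    exact hodd e he _ (hconj x e he)
  set m := orderOf (w * w) with hm
  obtain ⟨l, hl⟩ := hodd_r
  -- e and x invert w
  have hew : e * w * e⁻¹ = w⁻¹ := by
    rw [hw, hei, mul_inv_rev, hxi, hei, ← mul_assoc, he2, one_mul]
  have hxw : x * w * x⁻¹ = w⁻¹ := by
    rw [hw, hxi, mul_inv_rev, hxi, hei]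
    simp only [mul_assoc, hx2, mul_one]
  set z := w ^ m with hz
  have hz2 : z * z = 1 := by
    rw [hz, ← pow_add, ← two_mul, pow_mul, pow_two]
    rw [hm]
    exact pow_orderOf_eq_one (w * w)
  have hzi : z⁻¹ = z := inv_eq_of_mul_eq_one_left hz2
  have hez : e * z * e⁻¹ = z := by
    rw [hz, ← conj_pow, hew, inv_pow, ← hz, hzi]
  have hxz : x * z * x⁻¹ = z := by
    rw [hz, ← conj_pow, hxw, inv_pow, ← hz, hzi]
  have hcez : Commute e z := by
    show e * z = z * e
    rw [mul_inv_eq_iff_eq_mul] at hez
    exact hez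
  have hcxz : Commute x z := by
    show x * z = z * x
    rw [mul_inv_eq_iff_eq_mul] at hxz
    exact hxz
  -- the element a = z * x is a conjugate of e
  have haD : z * x ∈ conjugatesOf d := by
    have h0 : x * w ^ l * x⁻¹ = (w ^ l)⁻¹ := by
      rw [← conj_pow, hxw, inv_pow]
    have h1 : z * x = w ^ l * e * (w ^ l)⁻¹ := by
      calc z * x = w ^ l * w * w ^ l * x := by
            rw [hz, hl, ← pow_succ, ← pow_add]
            congr 2
            omega
        _ = w ^ l * e * (x * w ^ l * x⁻¹) := by
            rw [hxi, hw]; simp only [mul_assoc]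
        _ = w ^ l * e * (w ^ l)⁻¹ := by rw [h0]
    rw [h1]
    exact hconj _ e he
  have hzxx : z * x * x = z := by rw [mul_assoc, hx2, mul_one]
  refine ⟨z * x, ⟨haD, ?_, ?_⟩, ?_⟩
  · show z * x * x = x * (z * x)
    rw [hzxx, ← mul_assoc, hcxz.eq, hzxx]
  · rw [hzxx]
    exact hcez
  · rintro a ⟨ha, _, heax⟩
    have h1 := hsol a ha heax
    have h2 := hsol (z * x) haD (by rw [hzxx]; exact hcez)
    have : e * a = e * (z * x) := sqrt_unique (hodd e he a ha) (hodd e he _ haD) (h1.trans h2.symm)
    exact mul_left_cancel this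

end Cfsg.Agent.S5562
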