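import Cfsg.Statements.S5713
import Cfsg.Agent.Lib.ClassMax.MinDeg

set_option autoImplicit false
open Cfsg

namespace Cfsg.Agent.S5713

open Cfsg.Agent.Lib.ClassMax.MinDeg MulAction


/-- A classification-free minimal-degree bound. Let G be a finite group acting faithfully and primitively on a finite set Ω with n elements, and suppose that the image of G in the symmetric group on Ω does not contain the alternating group on Ω. Then every non-identity element of G moves at least (√n − 1)/2 points of Ω, that is, it fixes at most n − (√n − 1)/2 points. -/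
theorem result {G Ω : Type*} [Group G] [Finite G] [MulAction G Ω] [FaithfulSMul G Ω] [Fintype Ω] [DecidableEq Ω]
    (hprim : MulAction.IsPreprimitive G Ω)
    (hA : ¬ alternatingGroup Ω ≤ (MulAction.toPermHom G Ω).range)
    (g : G) (hg : g ≠ 1) :
    (Real.sqrt (Fintype.card Ω) - 1) / 2 ≤ (Fintype.card Ω : ℝ) - Nat.card (MulAction.fixedBy Ω g) := by
    classical
  have h1 := main_bound (G := G) (Ω := Ω) hprim hA g hg
  have hcard : (Finset.univ.filter fun z : Ω => g • z ≠ z).card + Nat.card (fixedBy Ω g) = Fintype.card Ω := by
    have h2 : Nat.card (fixedBy Ω g) = (Finset.univ.filter fun z : Ω => g • z = z).card := by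
      rw [Nat.card_eq_fintype_card, ← Fintype.card_coe]
      apply Fintype.card_congr
      exact Equiv.subtypeEquivRight (fun z => by simp [mem_fixedBy])
    rw [h2]
    have h3 := Finset.card_filter_add_card_filter_not (s := (Finset.univ : Finset Ω)) (fun z : Ω => g • z = z)
    rw [Finset.card_univ] at h3
    simp only [ne_eq]
    omega
  set S : Finset Ω := Finset.univ.filter fun z : Ω => g • z ≠ z with hS
  have h4 : (Fintype.card Ω : ℝ) - Nat.card (fixedBy Ω g) = S.card := by
    rw [← hcard]
    push_cast
    ring
  rw [h4]
  have h5 : Real.sqrt (Fintype.card Ω) ≤ 2 * (S.card : ℝ) + 1 := by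
    rw [Real.sqrt_le_left (by positivity)]
    exact_mod_cast h1
  linarith

end Cfsg.Agent.S5713
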