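import Mathlib
import Cfsg.Statements.S5729

set_option autoImplicit false
open Cfsg

namespace Cfsg.Agent.S5729

/-- Let a finite group G act faithfully and transitively on a set with n ≥ 3 points. Then either G is a Frobenius permutation group (Frobenius as a permutation group: transitive, some non-identity element fixes a point, and no non-identity element fixes two points) of order n(n − 1) and exactly |G|/n of its elements are derangements (fix no point), or the number of derangements is greater than |G|/n. -/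
theorem result {G Ω : Type*} [Group G] [Finite G] [MulAction G Ω] [FaithfulSMul G Ω] [Fintype Ω] (htr : MulAction.IsPretransitive G Ω) (hn : 3 ≤ Fintype.card Ω) :
    ((MulAction.IsPretransitive G Ω ∧ (∃ g : G, g ≠ 1 ∧ ∃ ω : Ω, g • ω = ω) ∧ ∀ g : G, g ≠ 1 → Nat.card (MulAction.fixedBy Ω g) ≤ 1) ∧ Nat.card G = Fintype.card Ω * (Fintype.card Ω - 1) ∧ Fintype.card Ω * Nat.card {g : G // ∀ ω : Ω, g • ω ≠ ω} = Nat.card G) ∨
    Nat.card G < Fintype.card Ω * Nat.card {g : G // ∀ ω : Ω, g • ω ≠ ω} := by
  classical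
  haveI : Fintype G := Fintype.ofFinite G
  set n := Fintype.card Ω with hn_def
  let fix : G → ℕ := fun g => Fintype.card (MulAction.fixedBy Ω g)
  haveI : Fintype (MulAction.orbitRel.Quotient G Ω) := Fintype.ofFinite _
  haveI : Fintype (MulAction.orbitRel.Quotient G (Ω × Ω)) := Fintype.ofFinite _
  set k := Fintype.card (MulAction.orbitRel.Quotient G (Ω × Ω)) with hk_def
  have hB1 : ∑ g : G, fix g = Fintype.card G := by
    have h := MulAction.sum_card_fixedBy_eq_card_orbits_mul_card_group G Ω
    haveI : Subsingleton (MulAction.orbitRel.Quotient G Ω) :=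
      (MulAction.pretransitive_iff_subsingleton_quotient G Ω).mp htr
    obtain ⟨ω⟩ : Nonempty Ω := by
      rw [← Fintype.card_pos_iff]; omega
    haveI : Nonempty (MulAction.orbitRel.Quotient G Ω) := ⟨Quotient.mk'' ω⟩
    have h1 : Fintype.card (MulAction.orbitRel.Quotient G Ω) = 1 := by
      rw [Fintype.card_eq_one_iff]
      exact ⟨Quotient.mk'' ω, fun y => Subsingleton.elim _ _⟩
    rw [h1, one_mul] at h
    exact h
  have hfix2 : ∀ g : G, Fintype.card (MulAction.fixedBy (Ω × Ω) g) = fix g ^ 2 := by
    intro g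
    have e : MulAction.fixedBy (Ω × Ω) g ≃ MulAction.fixedBy Ω g × MulAction.fixedBy Ω g :=
      { toFun := fun p => (⟨p.1.1, by
            have := p.2
            rw [MulAction.mem_fixedBy, Prod.ext_iff] at this
            exact this.1⟩, ⟨p.1.2, by
            have := p.2
            rw [MulAction.mem_fixedBy, Prod.ext_iff] at this
            exact this.2⟩)
        invFun := fun q => ⟨(q.1.1, q.2.1), by
            rw [MulAction.mem_fixedBy, Prod.ext_iff]
            exact ⟨q.1.2, q.2.2⟩⟩
        left_inv := fun p => rfl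
        right_inv := fun q => rfl }
    rw [Fintype.card_congr e, Fintype.card_prod, sq]
  have hB2 : ∑ g : G, fix g ^ 2 = k * Fintype.card G := by
    have h := MulAction.sum_card_fixedBy_eq_card_orbits_mul_card_group G (Ω × Ω)
    rw [← h]
    exact Finset.sum_congr rfl (fun g _ => (hfix2 g).symm)
  -- invariant: being on the diagonal
  let φ : MulAction.orbitRel.Quotient G (Ω × Ω) → Bool :=
    Quotient.lift (fun p : Ω × Ω => decide (p.1 = p.2)) (by
      rintro p q ⟨g, rfl⟩
      simp [Prod.smul_def])
  have hne : ∃ a b : Ω, a ≠ b := by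
    haveI : Nontrivial Ω := by
      rw [← Fintype.one_lt_card_iff_nontrivial]; omega
    exact exists_pair_ne Ω
  obtain ⟨a₀, b₀, hab₀⟩ := hne
  have hφsurj : Function.Surjective φ := by
    intro b
    cases b
    · exact ⟨Quotient.mk'' (a₀, b₀), by simp [φ, Quotient.mk'', hab₀]⟩
    · exact ⟨Quotient.mk'' (a₀, a₀), by simp [φ, Quotient.mk'']⟩
  have hk2 : 2 ≤ k := by
    have := Fintype.card_le_of_surjective φ hφsurj
    simpa using this
  have hG0 : 0 < Fintype.card G := Fintype.card_pos
  have hsumZ : ∑ g : G, ((fix g : ℤ) - 1) * ((fix g : ℤ) - n) = ((k : ℤ) - 1) * Fintype.card G := by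
    have h : ∀ g : G, ((fix g : ℤ) - 1) * ((fix g : ℤ) - n) = (fix g : ℤ) ^ 2 - (n + 1) * fix g + n := by
      intro g; ring
    simp_rw [h]
    rw [Finset.sum_add_distrib, Finset.sum_sub_distrib, ← Finset.mul_sum]
    have h1 : ∑ g : G, (fix g : ℤ) ^ 2 = k * Fintype.card G := by exact_mod_cast hB2
    have h2 : ∑ g : G, (fix g : ℤ) = Fintype.card G := by exact_mod_cast hB1
    rw [h1, h2]
    simp only [Finset.sum_const, Finset.card_univ, nsmul_eq_mul]
    ring
  have hfixle : ∀ g : G, fix g ≤ n := by
    intro g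
    exact Fintype.card_subtype_le _
  set D : Finset G := Finset.univ.filter (fun g => fix g = 0) with hD
  have hDcard : Nat.card {g : G // ∀ ω : Ω, g • ω ≠ ω} = D.card := by
    rw [Nat.card_eq_fintype_card, Fintype.card_subtype]
    congr 1
    ext g
    simp only [Finset.mem_filter, Finset.mem_univ, true_and, hD, fix]
    rw [Fintype.card_eq_zero_iff, isEmpty_subtype]
    simp [MulAction.mem_fixedBy]
  have hsplit : ∑ g : G, ((fix g : ℤ) - 1) * ((fix g : ℤ) - n)
      = (n : ℤ) * D.card + ∑ g ∈ Finset.univ.filter (fun g => ¬ fix g = 0), ((fix g : ℤ) - 1) * ((fix g : ℤ) - n) := by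
    rw [← Finset.sum_filter_add_sum_filter_not Finset.univ (fun g => fix g = 0)]
    congr 1
    rw [Finset.sum_congr rfl (g := fun _ => (n : ℤ))]
    · simp [hD, mul_comm]
    · intro g hg
      have : fix g = 0 := (Finset.mem_filter.mp hg).2
      rw [this]; simp
  have hnonpos : ∀ g ∈ Finset.univ.filter (fun g => ¬ fix g = 0), ((fix g : ℤ) - 1) * ((fix g : ℤ) - n) ≤ 0 := by
    intro g hg
    have h0 : fix g ≠ 0 := (Finset.mem_filter.mp hg).2
    have h1 : (1 : ℤ) ≤ fix g := by exact_mod_cast Nat.one_le_iff_ne_zero.mpr h0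
    have h2 : (fix g : ℤ) ≤ n := by exact_mod_cast hfixle g
    exact mul_nonpos_of_nonneg_of_nonpos (by omega) (by omega)
  have hrest := Finset.sum_nonpos hnonpos
  rw [Nat.card_eq_fintype_card (α := G), hDcard]
  by_cases hlt : Fintype.card G < n * D.card
  · exact Or.inr hlt
  left
  push Not at hlt
  have hlt' : ((n : ℤ) * D.card) ≤ Fintype.card G := by exact_mod_cast hlt
  have hk2' : (2 : ℤ) ≤ k := by exact_mod_cast hk2
  have hG0' : (0 : ℤ) < Fintype.card G := by exact_mod_cast hG0
  have hkeq0 : ((k : ℤ) - 1) * Fintype.card G ≥ Fintype.card G := by nlinarith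
  have hk : k = 2 := by
    by_contra hk
    have : (3 : ℤ) ≤ k := by
      have : 3 ≤ k := by omega
      exact_mod_cast this
    nlinarith
  have hnD : n * D.card = Fintype.card G := by
    have : (n : ℤ) * D.card = Fintype.card G := by
      rw [hsumZ] at hsplit
      rw [hk] at hsplit
      push_cast at hsplit
      linarith
    exact_mod_cast this
  have hrest0 : ∑ g ∈ Finset.univ.filter (fun g => ¬ fix g = 0), ((fix g : ℤ) - 1) * ((fix g : ℤ) - n) = 0 := by
    rw [hsumZ, hk] at hsplit
    push_cast at hsplit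
    have : (n : ℤ) * D.card = Fintype.card G := by exact_mod_cast hnD
    linarith
  have hterm := (Finset.sum_eq_zero_iff_of_nonpos hnonpos).mp hrest0
  have hfixle1 : ∀ g : G, g ≠ 1 → fix g ≤ 1 := by
    intro g hg
    by_cases h0 : fix g = 0
    · omega
    have ht := hterm g (Finset.mem_filter.mpr ⟨Finset.mem_univ _, h0⟩)
    rcases mul_eq_zero.mp ht with h | h
    · have : (fix g : ℤ) = 1 := by linarith
      have : fix g = 1 := by exact_mod_cast this
      omega
    · exfalso
      have : (fix g : ℤ) = n := by linarith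
      have h2 : fix g = n := by exact_mod_cast this
      apply hg
      apply FaithfulSMul.eq_of_smul_eq_smul (α := Ω)
      intro ω
      rw [one_smul]
      have h3 : Fintype.card (MulAction.fixedBy Ω g) = Fintype.card Ω := h2
      have h4 : (Finset.univ.filter (fun x => x ∈ MulAction.fixedBy Ω g)).card = Fintype.card Ω := by
        rw [← Fintype.card_subtype]; exact h3
      have h5 := Finset.eq_univ_of_card _ h4
      have h6 : ω ∈ Finset.univ.filter (fun x => x ∈ MulAction.fixedBy Ω g) := by
        rw [h5]; exact Finset.mem_univ _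
      exact (Finset.mem_filter.mp h6).2
  -- two points fixed implies trivial
  have htwo : ∀ g : G, ∀ a b : Ω, a ≠ b → g • a = a → g • b = b → g = 1 := by
    intro g a b hab ha hb
    by_contra hg
    have h1 := hfixle1 g hg
    have h2 : Fintype.card (MulAction.fixedBy Ω g) ≤ 1 := h1
    rw [Fintype.card_le_one_iff] at h2
    have := h2 ⟨a, ha⟩ ⟨b, hb⟩
    exact hab (congrArg Subtype.val this)
  -- `φ` is injective since `k = 2`
  have hφinj : Function.Injective φ := by
    have hbij : Function.Bijective φ := by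
      rw [Fintype.bijective_iff_surjective_and_card]
      exact ⟨hφsurj, by simp [← hk_def, hk]⟩
    exact hbij.1
  have h2tr : ∀ a b c d : Ω, a ≠ b → c ≠ d → ∃ g : G, g • a = c ∧ g • b = d := by
    intro a b c d hab hcd
    have h1 : φ (Quotient.mk'' (a, b)) = φ (Quotient.mk'' (c, d)) := by
      simp [φ, Quotient.mk'', hab, hcd]
    have h2 := hφinj h1
    have h3 := Quotient.exact' h2
    obtain ⟨g, hg⟩ := h3
    refine ⟨g⁻¹, ?_⟩
    have h4 : g • (c, d) = (a, b) := hg
    rw [Prod.smul_def, Prod.mk.injEq] at h4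
    constructor
    · rw [← h4.1, inv_smul_smul]
    · rw [← h4.2, inv_smul_smul]
  refine ⟨⟨htr, ?_, ?_⟩, ?_, ?_⟩
  · obtain ⟨c, hc⟩ : ∃ c : Ω, c ≠ a₀ ∧ c ≠ b₀ := by
      have : ((Finset.univ : Finset Ω) \ {a₀, b₀}).Nonempty := by
        rw [← Finset.card_pos]
        have h1 : ({a₀, b₀} : Finset Ω).card ≤ 2 := Finset.card_le_two
        have h2 := Finset.le_card_sdiff ({a₀, b₀} : Finset Ω) (Finset.univ : Finset Ω)
        rw [Finset.card_univ] at h2
        omega
      obtain ⟨c, hc⟩ := this
      simp only [Finset.mem_sdiff, Finset.mem_univ, true_and, Finset.mem_insert, Finset.mem_singleton, not_or] at hc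
      exact ⟨c, hc⟩
    obtain ⟨g, hg1, hg2⟩ := h2tr a₀ b₀ a₀ c hab₀ hc.1.symm
    refine ⟨g, ?_, a₀, hg1⟩
    rintro rfl
    rw [one_smul] at hg2
    exact hc.2 hg2.symm
  · intro g hg
    rw [Nat.card_eq_fintype_card]
    exact hfixle1 g hg
  · -- the map `g ↦ (g a₀, g b₀)` is a bijection onto the off-diagonal
    let ψ : G → {p : Ω × Ω // p.1 ≠ p.2} := fun g => ⟨(g • a₀, g • b₀), by
      intro h
      exact hab₀ (smul_left_cancel g h)⟩
    have hψ : Function.Bijective ψ := by
      constructor
      · intro g h hgh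
        have h1 : g • a₀ = h • a₀ := congrArg (fun p => p.1.1) hgh
        have h2 : g • b₀ = h • b₀ := congrArg (fun p => p.1.2) hgh
        have h3 : h⁻¹ * g = 1 := by
          apply htwo _ a₀ b₀ hab₀
          · rw [mul_smul, h1, inv_smul_smul]
          · rw [mul_smul, h2, inv_smul_smul]
        exact (inv_mul_eq_one.mp h3).symm
      · rintro ⟨⟨c, d⟩, hcd⟩
        obtain ⟨g, hg1, hg2⟩ := h2tr a₀ b₀ c d hab₀ hcd
        refine ⟨g, ?_⟩
        apply Subtype.ext
        exact Prod.ext hg1 hg2
    rw [Fintype.card_of_bijective hψ, Fintype.card_subtype]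
    have h1 : (Finset.univ.filter (fun p : Ω × Ω => p.1 ≠ p.2)) = (Finset.univ : Finset Ω).offDiag := by
      ext p; simp [Finset.mem_offDiag]
    rw [h1, Finset.offDiag_card, Finset.card_univ, ← hn_def, Nat.mul_sub, mul_one]
  · exact hnD

end Cfsg.Agent.S5729
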