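import Mathlib
import Cfsg.Statements.S5739
import Cfsg.Agent.Lib.ClassMax.Singer

set_option autoImplicit false
open Cfsg

namespace Cfsg.Agent.S5739

open Cfsg.Agent.Lib.ClassMax

/-- Let F ⊆ K be finite fields with |F| = q and [K : F] = n ≥ 2, and let M ≤ GL_F(K) be the Singer group of multiplications by non-zero elements of K. If g ∈ GL_F(K) does not normalise M, then the order of M ∩ gMg⁻¹ divides q^r − 1 for some proper divisor r of n. In particular, when n is prime, that order divides q − 1. -/
theorem result {F K : Type*} [Field F] [Fintype F] [Field K] [Fintype K] [Algebra F K] (n : ℕ) (hn : 2 ≤ n) (hdim : Module.finrank F K = n)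
    (g : (Module.End F K)ˣ) (hg : ((Units.map ((Algebra.lmul F K : K →ₐ[F] Module.End F K) : K →* Module.End F K)).range).map (MulAut.conj g).toMonoidHom ≠ (Units.map ((Algebra.lmul F K : K →ₐ[F] Module.End F K) : K →* Module.End F K)).range) :
    ∃ r : ℕ, 1 ≤ r ∧ r ∣ n ∧ r < n ∧ Nat.card ↥(((Units.map ((Algebra.lmul F K : K →ₐ[F] Module.End F K) : K →* Module.End F K)).range).map (MulAut.conj g).toMonoidHom ⊓ (Units.map ((Algebra.lmul F K : K →ₐ[F] Module.End F K) : K →* Module.End F K)).range) ∣ Fintype.card F ^ r - 1 := by
  classical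
  haveI : Finite (Module.End F K) := DFunLike.finite (Module.End F K)
  change ((singerHom F (K := K)).range).map (MulAut.conj g).toMonoidHom ≠ (singerHom F (K := K)).range at hg
  change ∃ r : ℕ, 1 ≤ r ∧ r ∣ n ∧ r < n ∧ Nat.card ↥(((singerHom F (K := K)).range).map (MulAut.conj g).toMonoidHom ⊓ (singerHom F (K := K)).range) ∣ Fintype.card F ^ r - 1
  set T := conjSubalgebra (F := F) (K := K) g with hT
  -- `T` is a proper subfield.
  let T' : IntermediateField F K := Algebra.IsAlgebraic.toIntermediateField T
  have hT'mem : ∀ x : K, x ∈ T' ↔ x ∈ T := fun x => Iff.rfl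
  have hT'top : T ≠ ⊤ := by
    intro htop
    apply hg
    -- the Singer group lies in its conjugate
    have hle : (singerHom F (K := K)).range ≤ ((singerHom F (K := K)).range).map (MulAut.conj g).toMonoidHom := by
      rintro _ ⟨c, rfl⟩
      have hc : (c : K) ∈ T := by rw [htop]; trivial
      obtain ⟨y, hy⟩ := mem_conjSubalgebra.mp hc
      have hy0 : y ≠ 0 := by
        rintro rfl
        have h1 := hy 1
        rw [zero_mul, map_zero] at h1
        rcases mul_eq_zero.mp h1 with h2 | h2
        · exact c.ne_zero h2
        · exact (unitOne g).ne_zero h2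
      refine ⟨singerHom F (Units.mk0 y hy0), ⟨_, rfl⟩, ?_⟩
      show g * singerHom F (Units.mk0 y hy0) * g⁻¹ = singerHom F c
      rw [mul_inv_eq_iff_eq_mul]
      refine units_end_ext fun z => ?_
      exact (hy z).symm
    symm
    refine Subgroup.eq_of_le_of_card_ge hle ?_
    rw [Subgroup.card_map_of_injective (MulAut.conj g).injective]
  refine ⟨Module.finrank F T', Module.finrank_pos, ?_, ?_, ?_⟩
  · rw [← hdim]
    exact Dvd.intro _ (Module.finrank_mul_finrank F T' K)
  · rw [← hdim]
    refine lt_of_le_of_ne (Submodule.finrank_le (Subalgebra.toSubmodule T)) ?_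
    intro heq
    apply hT'top
    have h1 : Subalgebra.toSubmodule T = ⊤ := Submodule.eq_top_of_finrank_eq heq
    exact Algebra.toSubmodule_eq_top.mp h1
  · -- the map `T'ˣ → End`
    let φ : T'ˣ →* (Module.End F K)ˣ := (singerHom F (K := K)).comp (Units.map (T'.val : T' →* K))
    have hφinj : Function.Injective φ := by
      intro a b hab
      have h1 := congrArg (fun w : (Module.End F K)ˣ => (w : Module.End F K) 1) hab
      simp only [φ, MonoidHom.comp_apply, singerHom_apply, mul_one] at h1
      exact Units.ext (Subtype.ext h1)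
    have hle : ((singerHom F (K := K)).range).map (MulAut.conj g).toMonoidHom ⊓ (singerHom F (K := K)).range ≤ φ.range := by
      rintro h ⟨⟨_, ⟨d, rfl⟩, hd⟩, ⟨c, rfl⟩⟩
      have hd' : g * singerHom F d * g⁻¹ = singerHom F c := hd
      have hcT : (c : K) ∈ T := by
        refine ⟨d, fun z => ?_⟩
        have h1 : singerHom F c * g = g * singerHom F d := by
          rw [← hd']; group
        have := congrArg (fun w : (Module.End F K)ˣ => (w : Module.End F K) z) h1
        exact this
      have hcinv : ((c : K))⁻¹ ∈ T' := T'.inv_mem hcT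
      let c' : T'ˣ := Units.mk0 ⟨(c : K), hcT⟩ (by
        intro h0
        exact c.ne_zero (congrArg Subtype.val h0))
      refine ⟨c', ?_⟩
      have h5 : Units.map (T'.val : T' →* K) c' = c := Units.ext rfl
      show singerHom F (Units.map (T'.val : T' →* K) c') = singerHom F c
      rw [h5]
    have hdvd := Subgroup.card_dvd_of_le hle
    have hcard : Nat.card φ.range = Fintype.card F ^ Module.finrank F T' - 1 := by
      rw [Nat.card_congr (MonoidHom.ofInjective hφinj).symm.toEquiv]
      haveI : Fintype T' := Fintype.ofFinite _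
      rw [Nat.card_eq_fintype_card, Fintype.card_units, Module.card_eq_pow_finrank (K := F) (V := T')]
    rwa [hcard] at hdvd

end Cfsg.Agent.S5739
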