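import Mathlib
import Cfsg.Statements.S5747

set_option autoImplicit false
open Cfsg

namespace Cfsg.Agent.S5747

variable {G Ω : Type*} [Group G] [MulAction G Ω]

/-- Irredundancy of a sequence. -/
def Irr {t : ℕ} (G : Type*) [Group G] [MulAction G Ω] (f : Fin t → Ω) : Prop :=
  ∀ i : Fin t, ∃ g : G, (∀ j : Fin t, j < i → g • f j = f j) ∧ g • f i ≠ f i

/-- Base property of a sequence. -/
def Bs {t : ℕ} (G : Type*) [Group G] [MulAction G Ω] (f : Fin t → Ω) : Prop :=
  ∀ g : G, (∀ i : Fin t, g • f i = f i) → g = 1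

/-- The independence of a set of points. -/
def Ind (G : Type*) [Group G] [MulAction G Ω] (S : Finset Ω) : Prop :=
  ∀ x ∈ S, ∃ g : G, (∀ y ∈ S, y ≠ x → g • y = y) ∧ g • x ≠ x

lemma Irr.injective {t : ℕ} {f : Fin t → Ω} (h : Irr G f) : Function.Injective f := by
  intro i j hij
  by_contra hne
  rcases lt_or_gt_of_ne hne with hlt | hlt
  · obtain ⟨g, hg1, hg2⟩ := h j
    exact hg2 (by rw [← hij]; exact hg1 i hlt)
  · obtain ⟨g, hg1, hg2⟩ := h i
    exact hg2 (by rw [hij]; exact hg1 j hlt)

lemma irr_snoc {t : ℕ} {f : Fin t → Ω} (h : Irr G f) (c : Ω)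
    (hc : ∃ g : G, (∀ i, g • f i = f i) ∧ g • c ≠ c) :
    Irr G (Fin.snoc f c : Fin (t + 1) → Ω) := by
  intro i
  induction i using Fin.lastCases with
  | last =>
    obtain ⟨g, hg1, hg2⟩ := hc
    refine ⟨g, fun j hj => ?_, ?_⟩
    · obtain ⟨j', rfl⟩ : ∃ j' : Fin t, j = j'.castSucc :=
        ⟨⟨j.val, hj⟩, rfl⟩
      simp only [Fin.snoc_castSucc]
      exact hg1 j'
    · simpa using hg2
  | cast i =>
    obtain ⟨g, hg1, hg2⟩ := h i
    refine ⟨g, fun j hj => ?_, ?_⟩
    · obtain ⟨j', rfl⟩ : ∃ j' : Fin t, j = j'.castSucc := by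
        have : j.val < t := by
          have h1 : j.val < i.val := hj
          have := i.2
          omega
        exact ⟨⟨j.val, this⟩, rfl⟩
      simp only [Fin.snoc_castSucc]
      exact hg1 j' (by simpa using hj)
    · simpa using hg2

/-- Extension of an irredundant sequence to an irredundant base. -/
lemma exists_extend [Finite G] (B₀ : Set Ω) (hB₀ : ∀ g : G, (∀ x ∈ B₀, g • x = x) → g = 1) :
    ∀ (n t : ℕ) (f : Fin t → Ω), Irr G f →
      Nat.card {g : G // ∀ i, g • f i = f i} = n →
      ∃ (t' : ℕ) (f' : Fin t' → Ω), Irr G f' ∧ Bs G f' ∧ ∀ i, ∃ i', f' i' = f i := by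
  classical
  intro n
  induction n using Nat.strong_induction_on with
  | _ n ih =>
    intro t f hf hn
    by_cases hbase : Bs G f
    · exact ⟨t, f, hf, hbase, fun i => ⟨i, rfl⟩⟩
    · unfold Bs at hbase
      push Not at hbase
      obtain ⟨g, hg1, hg2⟩ := hbase
      obtain ⟨c, hc, hgc⟩ : ∃ c ∈ B₀, g • c ≠ c := by
        by_contra hcon
        push Not at hcon
        exact hg2 (hB₀ g hcon)
      have hirr := irr_snoc hf c ⟨g, hg1, hgc⟩
      -- the stabiliser strictly decreases
      have hlt : Nat.card {g : G // ∀ i, g • (Fin.snoc f c : Fin (t + 1) → Ω) i = (Fin.snoc f c : Fin (t + 1) → Ω) i} < n := by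
        rw [← hn]
        let e : {g : G // ∀ i, g • (Fin.snoc f c : Fin (t + 1) → Ω) i = (Fin.snoc f c : Fin (t + 1) → Ω) i} →
            {g : G // ∀ i, g • f i = f i} := fun x => ⟨x.1, fun i => by
              have := x.2 i.castSucc
              simpa using this⟩
        have he : Function.Injective e := fun x y h => Subtype.ext (congrArg (fun z => z.1) h)
        have hne : ¬ Function.Surjective e := by
          intro hs
          obtain ⟨x, hx⟩ := hs ⟨g, hg1⟩
          have h1 := x.2 (Fin.last t)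
          simp only [Fin.snoc_last] at h1
          have h2 : x.1 = g := congrArg (fun z => z.1) hx
          rw [h2] at h1
          exact hgc h1
        haveI : Fintype {g : G // ∀ i, g • f i = f i} := Fintype.ofFinite _
        haveI : Fintype {g : G // ∀ i, g • (Fin.snoc f c : Fin (t + 1) → Ω) i = (Fin.snoc f c : Fin (t + 1) → Ω) i} := Fintype.ofFinite _
        rw [Nat.card_eq_fintype_card, Nat.card_eq_fintype_card]
        exact Fintype.card_lt_of_injective_not_surjective e he hne
      obtain ⟨t', f', h1, h2, h3⟩ := ih _ hlt (t + 1) _ hirr rfl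
      refine ⟨t', f', h1, h2, fun i => ?_⟩
      obtain ⟨i', hi'⟩ := h3 i.castSucc
      exact ⟨i', by simpa using hi'⟩

/-- From an independent set to a sequence. -/
lemma exists_seq_of_ind (S : Finset Ω) (hS : Ind G S) :
    ∃ f : Fin S.card → Ω, Irr G f ∧ Set.range f = (S : Set Ω) := by
  classical
  let e := S.equivFin
  refine ⟨fun i => (e.symm i : Ω), fun i => ?_, ?_⟩
  · obtain ⟨g, hg1, hg2⟩ := hS _ (e.symm i).2
    refine ⟨g, fun j hj => hg1 _ (e.symm j).2 ?_, hg2⟩
    intro h
    have : e.symm j = e.symm i := Subtype.ext h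
    exact hj.ne (e.symm.injective this)
  · ext x
    constructor
    · rintro ⟨i, rfl⟩
      exact (e.symm i).2
    · intro hx
      exact ⟨e ⟨x, hx⟩, by simp⟩

/-- The hypothesis `(★)`. -/
def Star (G : Type*) [Group G] [MulAction G Ω] : Prop :=
  ∀ (t : ℕ) (f : Fin t → Ω), Bs G f → Irr G f →
    ∀ i, ∃ g : G, (∀ k, k ≠ i → g • f k = f k) ∧ g • f i ≠ f i

/-- The exchange lemma. -/
lemma exchange [Finite G] (hstar : Star (Ω := Ω) G) (B₀ : Set Ω) (hB₀ : ∀ g : G, (∀ x ∈ B₀, g • x = x) → g = 1)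
    (S : Finset Ω) (hS : Ind G S) (y b : Ω) (hy : ∃ g : G, (∀ x ∈ S, g • x = x) ∧ g • y ≠ y)
    (hb : ∃ g : G, (∀ x ∈ S, g • x = x) ∧ g • y = y ∧ g • b ≠ b) :
    ∃ g : G, (∀ x ∈ S, g • x = x) ∧ g • b = b ∧ g • y ≠ y := by
  classical
  obtain ⟨f₀, hf₀, hr⟩ := exists_seq_of_ind S hS
  have hmem : ∀ i, f₀ i ∈ S := fun i => by
    have : f₀ i ∈ Set.range f₀ := ⟨i, rfl⟩
    rw [hr] at this
    exact this
  have hmem' : ∀ x ∈ S, ∃ i, f₀ i = x := fun x hx => by
    have : x ∈ Set.range f₀ := by rw [hr]; exact hx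
    exact this
  have h₁ := irr_snoc hf₀ y (by
    obtain ⟨g, hg1, hg2⟩ := hy
    exact ⟨g, fun i => hg1 _ (hmem i), hg2⟩)
  have h₂ := irr_snoc h₁ b (by
    obtain ⟨g, hg1, hg2, hg3⟩ := hb
    refine ⟨g, fun i => ?_, hg3⟩
    induction i using Fin.lastCases with
    | last => simpa using hg2
    | cast i => simpa using hg1 _ (hmem i))
  obtain ⟨t', f', h₃, h₄, h₅⟩ := exists_extend (G := G) B₀ hB₀ _ _ _ h₂ rfl
  -- position of `y`
  obtain ⟨iy, hiy⟩ := h₅ (Fin.last _).castSucc
  simp only [Fin.snoc_castSucc, Fin.snoc_last] at hiy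
  obtain ⟨g, hg1, hg2⟩ := hstar t' f' h₄ h₃ iy
  have hne : ∀ x, x ≠ y → (∃ i, f' i = x) → g • x = x := by
    rintro x hx ⟨i, rfl⟩
    refine hg1 i ?_
    rintro rfl
    exact hx hiy
  refine ⟨g, fun x hx => ?_, ?_, ?_⟩
  · obtain ⟨i, rfl⟩ := hmem' x hx
    refine hne _ ?_ ?_
    · intro h
      obtain ⟨g', hg1', hg2'⟩ := hy
      apply hg2'
      rw [← h]
      exact hg1' _ (hmem i)
    · obtain ⟨i', hi'⟩ := h₅ (i.castSucc).castSucc
      exact ⟨i', by simpa using hi'⟩
  · refine hne _ ?_ ?_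
    · rintro rfl
      obtain ⟨g', _, h3, h4⟩ := hb
      exact h4 h3
    · obtain ⟨i', hi'⟩ := h₅ (Fin.last _)
      exact ⟨i', by simpa using hi'⟩
  · rw [← hiy]
    exact hg2

/-- Steinitz exchange. -/
lemma card_le_of_ind [Finite G] [DecidableEq Ω] (hstar : Star (Ω := Ω) G) (B : Finset Ω)
    (hB : ∀ g : G, (∀ x ∈ B, g • x = x) → g = 1) :
    ∀ (k : ℕ) (C : Finset Ω), (C \ B).card = k → Ind G C → C.card ≤ B.card := by
  classical
  intro k
  induction k using Nat.strong_induction_on with
  | _ k ih =>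
    intro C hk hC
    by_cases hCB : C ⊆ B
    · exact Finset.card_le_card hCB
    obtain ⟨x, hxC, hxB⟩ := Finset.not_subset.mp hCB
    obtain ⟨g, hg1, hg2⟩ := hC x hxC
    have hg1' : ∀ y ∈ C.erase x, g • y = y := fun y hy =>
      hg1 y (Finset.mem_of_mem_erase hy) (Finset.ne_of_mem_erase hy)
    have hgne : g ≠ 1 := by
      rintro rfl
      exact hg2 (one_smul _ _)
    obtain ⟨b, hbB, hgb⟩ : ∃ b ∈ B, g • b ≠ b := by
      by_contra hcon
      push Not at hcon
      exact hgne (hB g hcon)
    have hbC : b ∉ C.erase x := fun h => hgb (hg1' b h)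
    set C' := C.erase x with hC'
    have hsub : ∀ {S T : Finset Ω}, S ⊆ T → Ind G T → Ind G S := by
      intro S T hST hT y hy
      obtain ⟨h, h1, h2⟩ := hT y (hST hy)
      exact ⟨h, fun z hz hzy => h1 z (hST hz) hzy, h2⟩
    have hC'ind : Ind G C' := hsub (Finset.erase_subset _ _) hC
    -- the new independent set
    have hnew : Ind G (insert b C') := by
      intro y hy
      rcases Finset.mem_insert.mp hy with rfl | hyC'
      · exact ⟨g, fun z hz hzy => hg1' z ((Finset.mem_insert.mp hz).resolve_left hzy), hgb⟩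
      · -- exchange with `S = C'.erase y`
        have hyb : y ≠ b := fun h => hbC (h ▸ hyC')
        have hS : Ind G (C'.erase y) := hsub (Finset.erase_subset _ _) hC'ind
        obtain ⟨h, h1, h2⟩ := hC'ind y hyC'
        obtain ⟨g', hg'1, hg'2, hg'3⟩ := exchange hstar (B : Set Ω) (by
            intro g'' hg''
            exact hB g'' hg'') (C'.erase y) hS y b
          ⟨h, fun z hz => h1 z (Finset.mem_of_mem_erase hz) (Finset.ne_of_mem_erase hz), h2⟩
          ⟨g, fun z hz => hg1' z (Finset.mem_of_mem_erase hz), hg1' y hyC', hgb⟩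
        refine ⟨g', fun z hz hzy => ?_, hg'3⟩
        rcases Finset.mem_insert.mp hz with rfl | hzC'
        · exact hg'2
        · exact hg'1 z (Finset.mem_erase.mpr ⟨hzy, hzC'⟩)
    have hcard : (insert b C').card = C.card := by
      rw [Finset.card_insert_of_notMem hbC, hC', Finset.card_erase_add_one hxC]
    have hlt : (insert b C' \ B).card < k := by
      rw [← hk]
      apply Finset.card_lt_card
      refine ⟨?_, fun h => ?_⟩
      · intro z hz
        obtain ⟨hz1, hz2⟩ := Finset.mem_sdiff.mp hz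
        rcases Finset.mem_insert.mp hz1 with rfl | hz3
        · exact absurd hbB hz2
        · exact Finset.mem_sdiff.mpr ⟨Finset.mem_of_mem_erase hz3, hz2⟩
      · have hx' : x ∈ insert b C' \ B := h (Finset.mem_sdiff.mpr ⟨hxC, hxB⟩)
        obtain ⟨hz1, _⟩ := Finset.mem_sdiff.mp hx'
        rcases Finset.mem_insert.mp hz1 with rfl | hz3
        · exact hxB hbB
        · exact (Finset.ne_of_mem_erase hz3) rfl
    rw [← hcard]
    exact ih _ hlt _ rfl hnew

/-- Let a finite group G act on a finite set Ω. An irredundant base is a sequence of points ω₁, …, ω_t whose pointwise stabiliser is trivial and in which each ω_i is moved by some element fixing ω₁, …, ω_{i−1}. Then all irredundant bases have the same length if and only if every reordering of an irredundant base is again an irredundant base. -/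
theorem result {G Ω : Type*} [Group G] [Finite G] [MulAction G Ω] [Fintype Ω] :
    (∀ (t t' : ℕ) (f : Fin t → Ω) (f' : Fin t' → Ω), ((∀ g : G, (∀ i : Fin t, g • f i = f i) → g = 1) ∧ ∀ i : Fin t, ∃ g : G, (∀ j : Fin t, j < i → g • f j = f j) ∧ g • f i ≠ f i) → ((∀ g : G, (∀ i : Fin t', g • f' i = f' i) → g = 1) ∧ ∀ i : Fin t', ∃ g : G, (∀ j : Fin t', j < i → g • f' j = f' j) ∧ g • f' i ≠ f' i) → t = t') ↔
    (∀ (t : ℕ) (f : Fin t → Ω) (σ : Equiv.Perm (Fin t)), ((∀ g : G, (∀ i : Fin t, g • f i = f i) → g = 1) ∧ ∀ i : Fin t, ∃ g : G, (∀ j : Fin t, j < i → g • f j = f j) ∧ g • f i ≠ f i) → ((∀ g : G, (∀ i : Fin t, g • (f ∘ σ) i = (f ∘ σ) i) → g = 1) ∧ ∀ i : Fin t, ∃ g : G, (∀ j : Fin t, j < i → g • (f ∘ σ) j = (f ∘ σ) j) ∧ g • (f ∘ σ) i ≠ (f ∘ σ) i)) := by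
  classical
  constructor
  · -- same length implies reordering
    intro hlen t f σ ⟨hb, hi⟩
    have hbσ : ∀ g : G, (∀ i : Fin t, g • (f ∘ σ) i = (f ∘ σ) i) → g = 1 := by
      intro g hg
      apply hb
      intro i
      have := hg (σ.symm i)
      simpa using this
    refine ⟨hbσ, ?_⟩
    set h := f ∘ σ with hh
    let S : Finset (Fin t) := Finset.univ.filter fun i => ∃ g : G, (∀ j : Fin t, j < i → g • h j = h j) ∧ g • h i ≠ h i
    let e := S.orderEmbOfFin rfl
    have he : ∀ x, x ∈ S ↔ ∃ i, e i = x := by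
      intro x
      have h1 : x ∈ (S : Set (Fin t)) ↔ x ∈ Set.range e := by
        rw [Finset.range_orderEmbOfFin]
      exact h1
    have h1 : ∀ g : G, (∀ i : Fin S.card, g • (h ∘ e) i = (h ∘ e) i) → g = 1 := by
      intro g hg
      apply hbσ
      have key : ∀ n (hn : n < t), g • h ⟨n, hn⟩ = h ⟨n, hn⟩ := by
        intro n
        induction n using Nat.strong_induction_on with
        | _ n ih =>
          intro hn
          by_cases hmem : (⟨n, hn⟩ : Fin t) ∈ S
          · obtain ⟨i, hi⟩ := (he _).mp hmem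
            have := hg i
            simp only [Function.comp_apply, hi] at this
            exact this
          · by_contra hne
            exact hmem (Finset.mem_filter.mpr ⟨Finset.mem_univ _, g, fun j hj => ih j.val hj j.2, hne⟩)
      exact fun i => key i.val i.2
    have h2 : ∀ i : Fin S.card, ∃ g : G, (∀ j : Fin S.card, j < i → g • (h ∘ e) j = (h ∘ e) j) ∧ g • (h ∘ e) i ≠ (h ∘ e) i := by
      intro i
      have hmem : e i ∈ S := (he _).mpr ⟨i, rfl⟩
      obtain ⟨g, hg1, hg2⟩ := (Finset.mem_filter.mp hmem).2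
      exact ⟨g, fun j hj => hg1 _ (e.strictMono hj), hg2⟩
    have h3 : t = S.card := hlen t S.card f (h ∘ e) ⟨hb, hi⟩ ⟨h1, h2⟩
    have h4 : S = Finset.univ := by
      rw [← Finset.card_eq_iff_eq_univ, Fintype.card_fin]
      exact h3.symm
    intro i
    have : i ∈ S := by rw [h4]; exact Finset.mem_univ _
    exact (Finset.mem_filter.mp this).2
  · -- reordering implies same length
    intro hre t t' f f' hf hf'
    have hstar : Star (Ω := Ω) G := by
      intro t f hb hi i
      let L : Fin t := ⟨t - 1, by have := i.2; omega⟩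
      let σ : Equiv.Perm (Fin t) := Equiv.swap i L
      obtain ⟨_, h2⟩ := hre t f σ ⟨hb, hi⟩
      obtain ⟨g, hg1, hg2⟩ := h2 L
      refine ⟨g, fun k hk => ?_, ?_⟩
      · have h3 : σ k < L := by
          have h4 : σ k ≠ L := by
            intro h5
            apply hk
            have h6 : σ k = σ i := by
              rw [h5]; simp [σ]
            exact σ.injective h6
          refine lt_of_le_of_ne ?_ h4
          show (σ k).val ≤ t - 1
          have := (σ k).2
          omega
        have h5 := hg1 _ h3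
        have h6 : σ (σ k) = k := by simp [σ]
        simpa only [Function.comp_apply, h6] using h5
      · have h6 : σ L = i := by simp [σ]
        simpa only [Function.comp_apply, h6] using hg2
    have hind : ∀ {t : ℕ} (f : Fin t → Ω), ((∀ g : G, (∀ i : Fin t, g • f i = f i) → g = 1) ∧ ∀ i : Fin t, ∃ g : G, (∀ j : Fin t, j < i → g • f j = f j) ∧ g • f i ≠ f i) →
        Ind G (Finset.univ.image f) ∧ (Finset.univ.image f).card = t ∧ (∀ g : G, (∀ x ∈ Finset.univ.image f, g • x = x) → g = 1) := by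
      intro t f hf
      refine ⟨?_, ?_, ?_⟩
      · intro x hx
        obtain ⟨i, _, rfl⟩ := Finset.mem_image.mp hx
        obtain ⟨g, hg1, hg2⟩ := hstar t f hf.1 hf.2 i
        refine ⟨g, fun y hy hyx => ?_, hg2⟩
        obtain ⟨k, _, rfl⟩ := Finset.mem_image.mp hy
        exact hg1 k (fun h => hyx (by rw [h]))
      · rw [Finset.card_image_of_injective _ (Irr.injective (G := G) hf.2)]
        simp
      · intro g hg
        exact hf.1 g fun i => hg _ (Finset.mem_image_of_mem _ (Finset.mem_univ _))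
    obtain ⟨h1, h2, h3⟩ := hind f hf
    obtain ⟨h1', h2', h3'⟩ := hind f' hf'
    have h4 := card_le_of_ind hstar _ h3' _ _ rfl h1
    have h5 := card_le_of_ind hstar _ h3 _ _ rfl h1'
    omega

end Cfsg.Agent.S5747
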