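import Mathlib
import Cfsg.Statements.S5754

set_option autoImplicit false
open Cfsg

namespace Cfsg.Agent.S5754

open QuadraticMap

variable {F V : Type*} [Field F] [AddCommGroup V] [Module F V]

lemma map_sub' (Q : QuadraticForm F V) (x y : V) : Q (x - y) = Q x + Q y - polar Q x y := by
  rw [sub_eq_add_neg, QuadraticMap.map_add Q, QuadraticMap.map_neg, QuadraticMap.polar_neg_right]
  ring

/-- The linear map `x ↦ x - (B(x, w) / Q(w)) w`. -/
noncomputable def reflLin (Q : QuadraticForm F V) (w : V) : V →ₗ[F] V where
  toFun x := x - (polar Q x w / Q w) • w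
  map_add' x y := by
    rw [QuadraticMap.polar_add_left, add_div, add_smul]
    abel
  map_smul' c x := by
    simp only [RingHom.id_apply, QuadraticMap.polar_smul_left, smul_sub, smul_smul, smul_eq_mul, mul_div_assoc]

lemma reflLin_apply (Q : QuadraticForm F V) (w x : V) :
    reflLin Q w x = x - (polar Q x w / Q w) • w := rfl

lemma polar_self' (Q : QuadraticForm F V) (w : V) : polar Q w w = 2 * Q w := by
  rw [QuadraticMap.polar_self]
  simp [two_mul]

lemma reflLin_reflLin (Q : QuadraticForm F V) (w : V) (hw : Q w ≠ 0) (x : V) :
    reflLin Q w (reflLin Q w x) = x := by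
  rw [reflLin_apply, reflLin_apply]
  have h1 : polar Q (x - (polar Q x w / Q w) • w) w = polar Q x w - (polar Q x w / Q w) * (2 * Q w) := by
    rw [sub_eq_add_neg, QuadraticMap.polar_add_left, ← neg_smul, QuadraticMap.polar_smul_left, polar_self']
    simp only [smul_eq_mul]
    ring
  rw [h1]
  have h2 : (polar Q x w - polar Q x w / Q w * (2 * Q w)) / Q w = - (polar Q x w / Q w) := by
    field_simp
    ring
  rw [h2, neg_smul]
  abel

lemma reflLin_map (Q : QuadraticForm F V) (w : V) (hw : Q w ≠ 0) (x : V) :
    Q (reflLin Q w x) = Q x := by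
  rw [reflLin_apply, map_sub', QuadraticMap.map_smul, QuadraticMap.polar_smul_right]
  simp only [smul_eq_mul]
  field_simp
  ring

/-- The reflection in `w`, as an isometry. -/
noncomputable def refl (Q : QuadraticForm F V) (w : V) (hw : Q w ≠ 0) : Q.IsometryEquiv Q :=
  { LinearEquiv.ofInvolutive (reflLin Q w) (reflLin_reflLin Q w hw) with
    map_app' := reflLin_map Q w hw }

lemma refl_apply (Q : QuadraticForm F V) (w : V) (hw : Q w ≠ 0) (x : V) :
    refl Q w hw x = x - (polar Q x w / Q w) • w := rfl

/-- Let V be a finite-dimensional vector space over a finite field F carrying an anisotropic quadratic form Q (Q(v) = 0 only for v = 0). Then the group of all maps v ↦ φ(v) + c, with φ an isometry of Q and c ∈ V, acts on V as a binary permutation group: given n ≥ 2 and two n-tuples u, u' of vectors such that every pair of corresponding entries of u is carried to that of u' by such a map, one such map carries u to u'. -/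
theorem result {F V : Type*} [Field F] [Finite F] [AddCommGroup V] [Module F V] [Module.Finite F V]
    (Q : QuadraticForm F V) (hQ : Q.Anisotropic) (n : ℕ) (hn : 2 ≤ n) (u u' : Fin n → V)
    (h2 : ∀ i j : Fin n, i ≠ j → ∃ (φ : Q.IsometryEquiv Q) (c : V), φ (u i) + c = u' i ∧ φ (u j) + c = u' j) :
    ∃ (φ : Q.IsometryEquiv Q) (c : V), ∀ i, φ (u i) + c = u' i := by
  classical
  have hdist : ∀ i j, Q (u i - u j) = Q (u' i - u' j) := by
    intro i j
    by_cases hij : i = j
    · rw [hij, sub_self, sub_self]
    obtain ⟨φ, c, h1, h3⟩ := h2 i j hij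
    rw [← h1, ← h3, add_sub_add_right_eq_sub, ← map_sub, φ.map_app]
  let i₀ : Fin n := ⟨0, by omega⟩
  let a : Fin n → V := fun i => u i - u i₀
  let a' : Fin n → V := fun i => u' i - u' i₀
  have ha : ∀ i, Q (a i) = Q (a' i) := fun i => hdist i i₀
  have had : ∀ i j, Q (a i - a j) = Q (a' i - a' j) := by
    intro i j
    have h1 : a i - a j = u i - u j := by simp [a]
    have h3 : a' i - a' j = u' i - u' j := by simp [a']
    rw [h1, h3, hdist]
  have key : ∀ k : ℕ, ∃ φ : Q.IsometryEquiv Q, ∀ i : Fin n, i.val < k → φ (a i) = a' i := by
    intro k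
    induction k with
    | zero => exact ⟨QuadraticMap.IsometryEquiv.refl Q, fun i hi => absurd hi (Nat.not_lt_zero _)⟩
    | succ k ih =>
      obtain ⟨φ, hφ⟩ := ih
      by_cases hk : k < n
      · let ik : Fin n := ⟨k, hk⟩
        set b := φ (a ik) with hb
        set w := b - a' ik with hw
        by_cases hw0 : w = 0
        · refine ⟨φ, fun i hi => ?_⟩
          rcases Nat.lt_succ_iff_lt_or_eq.mp hi with h | h
          · exact hφ i h
          · have : i = ik := Fin.ext h
            rw [this]
            exact sub_eq_zero.mp hw0
        · have hQw : Q w ≠ 0 := fun h => hw0 (hQ w h)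
          have hQb : Q b = Q (a' ik) := by
            rw [hb, φ.map_app, ha]
          -- the reflection fixes the earlier points
          have hfix : ∀ i : Fin n, i.val < k → polar Q (a' i) w = 0 := by
            intro i hi
            have h3 : Q (a' i - b) = Q (a' i - a' ik) := by
              rw [← hφ i hi, hb, ← map_sub, φ.map_app, had]
              rw [hφ i hi] 
            have h4 := map_sub' Q (a' i) b
            have h5 := map_sub' Q (a' i) (a' ik)
            rw [hw, sub_eq_add_neg, QuadraticMap.polar_add_right, QuadraticMap.polar_neg_right]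
            rw [h3, hQb] at h4
            rw [h5] at h4
            linear_combination h4
          have hmove : polar Q b w = Q w := by
            have h3 := map_sub' Q b (a' ik)
            rw [hw, h3, hQb, sub_eq_add_neg b, QuadraticMap.polar_add_right, polar_self',
              QuadraticMap.polar_neg_right, hQb]
            ring
          refine ⟨φ.trans (refl Q w hQw), fun i hi => ?_⟩
          show refl Q w hQw (φ (a i)) = a' i
          rcases Nat.lt_succ_iff_lt_or_eq.mp hi with h | h
          · rw [hφ i h, refl_apply, hfix i h]
            simp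
          · have : i = ik := Fin.ext h
            rw [this, refl_apply, ← hb, hmove, div_self hQw, one_smul, hw]
            abel
      · exact ⟨φ, fun i hi => hφ i (by have := i.2; omega)⟩
  obtain ⟨φ, hφ⟩ := key n
  refine ⟨φ, u' i₀ - φ (u i₀), fun i => ?_⟩
  have h1 := hφ i i.2
  simp only [a, a', map_sub] at h1
  have := sub_eq_iff_eq_add.mp h1
  rw [this]
  abel

end Cfsg.Agent.S5754
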