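import Cfsg.Statements.S5763

set_option autoImplicit false
open Cfsg

namespace Cfsg.Agent.S5763

/-- The pairing of the standard tree. -/
def i0 : Fin 8 → Fin 8 := ![1, 0, 3, 2, 5, 4, 7, 6]

/-- The pairs of the standard tree. -/
def pr : Fin 8 → Fin 4 := ![0, 0, 1, 1, 2, 2, 3, 3]

/-- The two blocks of size four of the standard tree. -/
def tp : Fin 8 → Fin 2 := ![0, 0, 0, 0, 1, 1, 1, 1]

/-- Automorphisms of the standard tree. -/
def IsE (g : Fin 8 → Fin 8) : Prop :=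
  (∀ a b, pr a = pr b ↔ pr (g a) = pr (g b)) ∧ (∀ a b, tp a = tp b ↔ tp (g a) = tp (g b))

instance (g : Fin 8 → Fin 8) : Decidable (IsE g) := by unfold IsE; infer_instance

/-- The subgroup of automorphisms of the standard tree. -/
def EE : Subgroup (Equiv.Perm (Fin 8)) where
  carrier := {g | IsE g}
  one_mem' := ⟨fun _ _ => Iff.rfl, fun _ _ => Iff.rfl⟩
  mul_mem' := by
    rintro a b ⟨ha, ha'⟩ ⟨hb, hb'⟩
    exact ⟨fun x y => (hb x y).trans (ha _ _), fun x y => (hb' x y).trans (ha' _ _)⟩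
  inv_mem' := by
    rintro a ⟨ha, ha'⟩
    have h' : ∀ u, a (a⁻¹ u) = u := fun u => by simp
    refine ⟨fun x y => ?_, fun x y => ?_⟩
    · have := ha (a⁻¹ x) (a⁻¹ y)
      simp only [h'] at this
      exact this.symm
    · have := ha' (a⁻¹ x) (a⁻¹ y)
      simp only [h'] at this
      exact this.symm

lemma pr_eq_ne : ∀ a b : Fin 8, pr a = pr b → a ≠ b → a = i0 b := by decide

/-- Admissible images of the points `0, 2, 4, 6`. -/
def Valid (t : Fin 8 × Fin 8 × Fin 8 × Fin 8) : Prop :=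
  tp t.1 = tp t.2.1 ∧ pr t.1 ≠ pr t.2.1 ∧ tp t.1 ≠ tp t.2.2.1 ∧ tp t.2.2.1 = tp t.2.2.2 ∧
    pr t.2.2.1 ≠ pr t.2.2.2

instance : DecidablePred Valid := fun t => by unfold Valid; infer_instance

lemma card_valid : (Finset.univ.filter Valid).card = 128 := by
  decide +kernel

/-- The function with given values at the even points. -/
def ofT (a b c d : Fin 8) : Fin 8 → Fin 8 := ![a, i0 a, b, i0 b, c, i0 c, d, i0 d]

lemma ofT_good : ∀ a b c d : Fin 8, Valid (a, b, c, d) →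
    Function.Injective (ofT a b c d) ∧ IsE (ofT a b c d) := by
  unfold Function.Injective
  decide +kernel

lemma hX : ∀ a b c d : Fin 8, (∀ x, ofT a b c d (ofT a b c d x) = x) → (∀ x, ofT a b c d x ≠ x) →
    (∀ x, ofT a b c d x ≠ i0 x) → IsE (ofT a b c d) := by
  decide +kernel

/-- The central involution of the dihedral group generated by two pairings. -/
def beta (f : Fin 8 → Fin 8) : Fin 8 → Fin 8 :=
  if ∀ x, i0 (f (i0 (f x))) = x then fun x => i0 (f x) else fun x => i0 (f (i0 (f x)))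

/-- The properties of `beta`. -/
def Concl (f : Fin 8 → Fin 8) : Prop :=
  (∀ x, beta f (beta f x) = x) ∧ (∀ x, beta f (i0 x) = i0 (beta f x)) ∧
    (∀ x, beta f (f x) = f (beta f x)) ∧ (∀ x, beta f x ≠ x) ∧ (∀ x, beta f x ≠ i0 x) ∧
    (∀ x, beta f x ≠ f x)

instance (f : Fin 8 → Fin 8) : Decidable (Concl f) := by
  unfold Concl; infer_instance

set_option synthInstance.maxHeartbeats 0 in
set_option synthInstance.maxSize 5000 in
set_option maxRecDepth 100000 in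
lemma hY : ∀ a0 : Fin 8, (a0 ≠ 0 ∧ a0 ≠ 1) →
    ∀ a1 : Fin 8, (a1 ≠ 1 ∧ a1 ≠ 0 ∧ (a1 = 0 ↔ a0 = 1)) →
    ∀ a2 : Fin 8, (a2 ≠ 2 ∧ a2 ≠ 3 ∧ (a2 = 0 ↔ a0 = 2) ∧ (a2 = 1 ↔ a1 = 2)) →
    ∀ a3 : Fin 8, (a3 ≠ 3 ∧ a3 ≠ 2 ∧ (a3 = 0 ↔ a0 = 3) ∧ (a3 = 1 ↔ a1 = 3) ∧ (a3 = 2 ↔ a2 = 3)) →
    ∀ a4 : Fin 8, (a4 ≠ 4 ∧ a4 ≠ 5 ∧ (a4 = 0 ↔ a0 = 4) ∧ (a4 = 1 ↔ a1 = 4) ∧ (a4 = 2 ↔ a2 = 4) ∧ (a4 = 3 ↔ a3 = 4)) →
    ∀ a5 : Fin 8, (a5 ≠ 5 ∧ a5 ≠ 4 ∧ (a5 = 0 ↔ a0 = 5) ∧ (a5 = 1 ↔ a1 = 5) ∧ (a5 = 2 ↔ a2 = 5) ∧ (a5 = 3 ↔ a3 = 5) ∧ (a5 = 4 ↔ a4 = 5)) →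
    ∀ a6 : Fin 8, (a6 ≠ 6 ∧ a6 ≠ 7 ∧ (a6 = 0 ↔ a0 = 6) ∧ (a6 = 1 ↔ a1 = 6) ∧ (a6 = 2 ↔ a2 = 6) ∧ (a6 = 3 ↔ a3 = 6) ∧ (a6 = 4 ↔ a4 = 6) ∧ (a6 = 5 ↔ a5 = 6)) →
    ∀ a7 : Fin 8, (a7 ≠ 7 ∧ a7 ≠ 6 ∧ (a7 = 0 ↔ a0 = 7) ∧ (a7 = 1 ↔ a1 = 7) ∧ (a7 = 2 ↔ a2 = 7) ∧ (a7 = 3 ↔ a3 = 7) ∧ (a7 = 4 ↔ a4 = 7) ∧ (a7 = 5 ↔ a5 = 7) ∧ (a7 = 6 ↔ a6 = 7)) →
    Concl ![a0, a1, a2, a3, a4, a5, a6, a7] := by
  decide +kernel

lemma concl_of (f : Fin 8 → Fin 8) (hinv : ∀ x, f (f x) = x) (hfix : ∀ x, f x ≠ x)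
    (hi : ∀ x, f x ≠ i0 x) : Concl f := by
  have hv : f = ![f 0, f 1, f 2, f 3, f 4, f 5, f 6, f 7] := by
    funext x
    fin_cases x <;> rfl
  rw [hv]
  have key : ∀ j k : Fin 8, (f k = j ↔ f j = k) := by
    intro j k
    constructor
    · intro h; rw [← h, hinv]
    · intro h; rw [← h, hinv]
  exact hY (f 0) ⟨hfix 0, hi 0⟩ (f 1) ⟨hfix 1, hi 1, key _ _⟩ (f 2) ⟨hfix 2, hi 2, key _ _, key _ _⟩
    (f 3) ⟨hfix 3, hi 3, key _ _, key _ _, key _ _⟩
    (f 4) ⟨hfix 4, hi 4, key _ _, key _ _, key _ _, key _ _⟩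
    (f 5) ⟨hfix 5, hi 5, key _ _, key _ _, key _ _, key _ _, key _ _⟩
    (f 6) ⟨hfix 6, hi 6, key _ _, key _ _, key _ _, key _ _, key _ _, key _ _⟩
    (f 7) ⟨hfix 7, hi 7, key _ _, key _ _, key _ _, key _ _, key _ _, key _ _, key _ _⟩

/-- The conjugates and the subgroup have a common non-trivial element. -/
lemma key_common (y : Equiv.Perm (Fin 8)) :
    ∃ u : Equiv.Perm (Fin 8), u ≠ 1 ∧ u ∈ EE ∧ y⁻¹ * u * y ∈ EE := by
  classical
  -- the second pairing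
  let f : Fin 8 → Fin 8 := fun x => y (i0 (y⁻¹ x))
  have hi0 : ∀ x, i0 (i0 x) = x := by decide
  have hi0fix : ∀ x, i0 x ≠ x := by decide
  have hf : ∀ x, f (f x) = x := by
    intro x
    simp [f, hi0]
  have hfix : ∀ x, f x ≠ x := by
    intro x h
    apply hi0fix (y⁻¹ x)
    have : y (i0 (y⁻¹ x)) = y (y⁻¹ x) := by
      have h2 : y (y⁻¹ x) = x := by simp
      rw [h2]; exact h
    exact y.injective this
  by_cases hcommon : ∃ a, f a = i0 a
  · obtain ⟨a, ha⟩ := hcommon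
    have hsw : ∀ a : Fin 8, Equiv.swap a (i0 a) ∈ EE := by
      have : ∀ a : Fin 8, IsE (Equiv.swap a (i0 a)) := by decide +kernel
      exact this
    refine ⟨Equiv.swap a (i0 a), ?_, hsw a, ?_⟩
    · intro h
      have := congrArg (fun g : Equiv.Perm (Fin 8) => g a) h
      simp only [Equiv.swap_apply_left, Equiv.Perm.coe_one, id_eq] at this
      exact hi0fix a this
    · have h1 : y⁻¹ * Equiv.swap a (i0 a) * y = Equiv.swap (y⁻¹ a) (i0 (y⁻¹ a)) := by
        have h2 : i0 (y⁻¹ a) = y⁻¹ (i0 a) := by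
          rw [← ha]
          simp [f]
        rw [h2]
        have := Equiv.swap_apply_apply y⁻¹ a (i0 a)
        rw [this, inv_inv]
      rw [h1]
      exact hsw _
  · push Not at hcommon
    obtain ⟨hb2, hbi, hbf, hbfix, hbi', hbf'⟩ := concl_of f hf hfix hcommon
    -- a general recognition principle
    have hrec : ∀ g : Equiv.Perm (Fin 8), (∀ x, g (g x) = x) → (∀ x, g (i0 x) = i0 (g x)) →
        (∀ x, g x ≠ x) → (∀ x, g x ≠ i0 x) → g ∈ EE := by
      intro g h1 h2 h3 h4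
      have hg : (g : Fin 8 → Fin 8) = ofT (g 0) (g 2) (g 4) (g 6) := by
        funext x
        fin_cases x
        · rfl
        · exact h2 0
        · rfl
        · exact h2 2
        · rfl
        · exact h2 4
        · rfl
        · exact h2 6
      have : IsE (ofT (g 0) (g 2) (g 4) (g 6)) := by
        apply hX
        · rw [← hg]; exact h1
        · rw [← hg]; exact h3
        · rw [← hg]; exact h4
      change IsE g
      rw [hg]
      exact this
    let u : Equiv.Perm (Fin 8) := Function.Involutive.toPerm (beta f) hb2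
    have hu : ∀ x, u x = beta f x := fun _ => rfl
    refine ⟨u, ?_, ?_, ?_⟩
    · intro h
      apply hbfix 0
      rw [← hu, h]
      rfl
    · apply hrec
      · exact hb2
      · exact hbi
      · exact hbfix
      · exact hbi'
    · apply hrec
      · intro x
        have h : ∀ v, y (y⁻¹ v) = v := fun v => by simp
        change y⁻¹ (u (y (y⁻¹ (u (y x))))) = x
        rw [h, hu, hu, hb2]
        simp
      · intro x
        simp only [Equiv.Perm.coe_mul, Function.comp_apply, hu]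
        have h1 : y (i0 x) = f (y x) := by simp [f]
        rw [h1, hbf]
        simp [f]
      · intro x h
        simp only [Equiv.Perm.coe_mul, Function.comp_apply, hu] at h
        apply hbfix (y x)
        have := congrArg y h
        simpa using this
      · intro x h
        simp only [Equiv.Perm.coe_mul, Function.comp_apply, hu] at h
        apply hbf' (y x)
        have := congrArg y h
        simpa [f] using this

lemma card_EE : Nat.card EE = 128 := by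
  classical
  let Φ : EE → {t : Fin 8 × Fin 8 × Fin 8 × Fin 8 // Valid t} := fun g =>
    ⟨((g.1 : Equiv.Perm (Fin 8)) 0, (g.1 : Equiv.Perm (Fin 8)) 2, (g.1 : Equiv.Perm (Fin 8)) 4, (g.1 : Equiv.Perm (Fin 8)) 6), by
      obtain ⟨h1, h2⟩ := g.2
      refine ⟨(h2 0 2).mp (by decide), fun h => ?_, fun h => ?_, (h2 4 6).mp (by decide), fun h => ?_⟩
      · exact absurd ((h1 0 2).mpr h) (by decide)
      · exact absurd ((h2 0 4).mpr h) (by decide)
      · exact absurd ((h1 4 6).mpr h) (by decide)⟩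
  have hΦ : Function.Bijective Φ := by
    constructor
    · intro g g' h
      have h0 : (g.1 : Equiv.Perm (Fin 8)) 0 = (g'.1 : Equiv.Perm (Fin 8)) 0 := congrArg (fun z => z.1.1) h
      have h2 : (g.1 : Equiv.Perm (Fin 8)) 2 = (g'.1 : Equiv.Perm (Fin 8)) 2 := congrArg (fun z => z.1.2.1) h
      have h4 : (g.1 : Equiv.Perm (Fin 8)) 4 = (g'.1 : Equiv.Perm (Fin 8)) 4 := congrArg (fun z => z.1.2.2.1) h
      have h6 : (g.1 : Equiv.Perm (Fin 8)) 6 = (g'.1 : Equiv.Perm (Fin 8)) 6 := congrArg (fun z => z.1.2.2.2) h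
      have hodd : ∀ (k : EE) (x : Fin 8), (k.1 : Equiv.Perm (Fin 8)) (i0 x) = i0 ((k.1 : Equiv.Perm (Fin 8)) x) := by
        intro k x
        apply pr_eq_ne
        · have hp : ∀ x : Fin 8, pr (i0 x) = pr x := by decide
          exact (k.2.1 _ _).mp (hp x)
        · intro e
          have := (k.1 : Equiv.Perm (Fin 8)).injective e
          exact (by decide : ∀ x : Fin 8, i0 x ≠ x) x this
      apply Subtype.ext
      ext x
      fin_cases x
      · exact congrArg Fin.val h0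
      · have e : (1 : Fin 8) = i0 0 := rfl
        change ((g.1 : Equiv.Perm (Fin 8)) 1 : ℕ) = (g'.1 : Equiv.Perm (Fin 8)) 1
        rw [e, hodd, hodd, h0]
      · exact congrArg Fin.val h2
      · have e : (3 : Fin 8) = i0 2 := rfl
        change ((g.1 : Equiv.Perm (Fin 8)) 3 : ℕ) = (g'.1 : Equiv.Perm (Fin 8)) 3
        rw [e, hodd, hodd, h2]
      · exact congrArg Fin.val h4
      · have e : (5 : Fin 8) = i0 4 := rfl
        change ((g.1 : Equiv.Perm (Fin 8)) 5 : ℕ) = (g'.1 : Equiv.Perm (Fin 8)) 5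
        rw [e, hodd, hodd, h4]
      · exact congrArg Fin.val h6
      · have e : (7 : Fin 8) = i0 6 := rfl
        change ((g.1 : Equiv.Perm (Fin 8)) 7 : ℕ) = (g'.1 : Equiv.Perm (Fin 8)) 7
        rw [e, hodd, hodd, h6]
    · rintro ⟨⟨a, b, c, d⟩, hv⟩
      obtain ⟨hinj, hE⟩ := ofT_good a b c d hv
      let g : Equiv.Perm (Fin 8) := Equiv.ofBijective _ (Finite.injective_iff_bijective.mp hinj)
      refine ⟨⟨g, hE⟩, ?_⟩
      apply Subtype.ext
      rfl
  rw [Nat.card_congr (Equiv.ofBijective Φ hΦ), Nat.card_eq_fintype_card, Fintype.card_subtype, card_valid]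


/-- In the symmetric group on 8 letters any two Sylow 2-subgroups have non-trivial intersection: for a Sylow 2-subgroup H and every element x, H ∩ xHx⁻¹ ≠ 1. -/
theorem result (H : Sylow 2 (Equiv.Perm (Fin 8))) (x : Equiv.Perm (Fin 8)) :
    (H : Subgroup (Equiv.Perm (Fin 8))) ⊓ (H : Subgroup (Equiv.Perm (Fin 8))).map (MulAut.conj x).toMonoidHom ≠ ⊥ := by
  classical
  haveI : Fact (Nat.Prime 2) := ⟨Nat.prime_two⟩
  have hcardG : (Nat.card (Equiv.Perm (Fin 8))).factorization 2 = 7 := by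
    rw [Nat.card_eq_fintype_card, Fintype.card_perm, Fintype.card_fin]
    have : Nat.factorial 8 = 2 ^ 7 * 315 := by decide
    rw [this, Nat.factorization_mul (by norm_num) (by norm_num), Nat.factorization_pow]
    have h1 : (315 : ℕ).factorization 2 = 0 := Nat.factorization_eq_zero_of_not_dvd (by norm_num)
    simp [h1, Nat.Prime.factorization_self Nat.prime_two]
  let P : Sylow 2 (Equiv.Perm (Fin 8)) := Sylow.ofCard EE (by rw [card_EE, hcardG]; norm_num)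
  obtain ⟨g, hg⟩ := MulAction.exists_smul_eq (Equiv.Perm (Fin 8)) P H
  have hH : (H : Subgroup (Equiv.Perm (Fin 8))) = EE.map (MulAut.conj g).toMonoidHom := by
    rw [← hg]
    rfl
  obtain ⟨u, hu1, huE, huE'⟩ := key_common (g⁻¹ * x * g)
  intro hbot
  have hmem : g * u * g⁻¹ ∈ (H : Subgroup (Equiv.Perm (Fin 8))) ⊓
      (H : Subgroup (Equiv.Perm (Fin 8))).map (MulAut.conj x).toMonoidHom := by
    constructor
    · rw [hH]
      exact ⟨u, huE, rfl⟩
    · rw [hH]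
      refine ⟨g * ((g⁻¹ * x * g)⁻¹ * u * (g⁻¹ * x * g)) * g⁻¹, ⟨_, huE', rfl⟩, ?_⟩
      change x * (g * ((g⁻¹ * x * g)⁻¹ * u * (g⁻¹ * x * g)) * g⁻¹) * x⁻¹ = _
      group
  rw [hbot, Subgroup.mem_bot] at hmem
  apply hu1
  have : u = g⁻¹ * (g * u * g⁻¹) * g := by group
  rw [this, hmem]
  group

end Cfsg.Agent.S5763
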