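import Mathlib
import Cfsg.Statements.S5885

set_option autoImplicit false
open Cfsg

namespace Cfsg.Agent.S5885

/-- Even permutations of `G ⧸ M` are induced by `G`. -/
lemma exists_lift {G : Type*} [Group G] [Finite G] (n : ℕ)
    (hA : ∀ P : Subgroup (Equiv.Perm (Fin n)), MulAction.IsPreprimitive P (Fin n) → alternatingGroup (Fin n) ≤ P)
    (M : Subgroup G) (hM : IsCoatom M) (hn : M.index = n)
    [DecidableEq (G ⧸ M)] [Fintype (G ⧸ M)]
    (c : Equiv.Perm (G ⧸ M)) (hc : Equiv.Perm.sign c = 1) :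
    ∃ g : G, ∀ x : G ⧸ M, g • x = c x := by
  classical
  have hcard : Nat.card (G ⧸ M) = n := hn
  let e : (G ⧸ M) ≃ Fin n := Finite.equivFinOfCardEq hcard
  let φ : G →* Equiv.Perm (Fin n) :=
    (Equiv.permCongrHom e).toMonoidHom.comp (MulAction.toPermHom G (G ⧸ M))
  have hφ : ∀ g x, φ g (e x) = e (g • x) := by
    intro g x
    simp [φ, Equiv.permCongrHom, Equiv.permCongr]
  haveI : Nontrivial (G ⧸ M) := by
    apply QuotientGroup.nontrivial_iff.mpr
    exact hM.1
  have hprim : MulAction.IsPreprimitive G (G ⧸ M) := by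
    rw [← MulAction.isCoatom_stabilizer_iff_preprimitive G (((1 : G) : G ⧸ M)),
      MulAction.stabilizer_quotient]
    exact hM
  let ψ : G → φ.range := φ.rangeRestrict
  let f : (G ⧸ M) →ₑ[ψ] Fin n := ⟨e, fun g x => by
    show e (g • x) = φ g (e x)
    rw [hφ]⟩
  have hP : MulAction.IsPreprimitive φ.range (Fin n) :=
    MulAction.IsPreprimitive.of_surjective (f := f) e.surjective
  have halt := hA φ.range hP
  have hmem : (Equiv.permCongrHom e) c ∈ alternatingGroup (Fin n) := by
    rw [Equiv.Perm.mem_alternatingGroup]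
    show Equiv.Perm.sign (e.permCongr c) = 1
    rw [Equiv.Perm.sign_permCongr, hc]
  obtain ⟨g, hg⟩ := halt hmem
  refine ⟨g, fun x => ?_⟩
  apply e.injective
  rw [← hφ, hg]
  simp [Equiv.permCongrHom, Equiv.permCongr]

/-- The core argument: no subgroup lies strictly between `H = K ⊓ M` and `K`. -/
lemma core {G : Type*} [Group G] [Finite G] (n : ℕ) (hodd : Odd n)
    (hA : ∀ P : Subgroup (Equiv.Perm (Fin n)), MulAction.IsPreprimitive P (Fin n) → alternatingGroup (Fin n) ≤ P)
    (M : Subgroup G) (hM : IsCoatom M) (hn : M.index = n) (H : Subgroup G) (hHM : H ≤ M)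
    (hmaxM : ∀ X : Subgroup G, H ≤ X → X ≤ M → X = H ∨ X = M)
    (K : Subgroup G) (hKM : K ⊓ M = H)
    (L : Subgroup G) (hHL : H ≤ L) (hLK : L ≤ K) (hLH : L ≠ H) (hLK' : L ≠ K) : False := by
  classical
  haveI : Fintype (G ⧸ M) := Fintype.ofFinite _
  let a : G ⧸ M := ((1 : G) : G ⧸ M)
  have ha : ∀ g : G, g • a = a ↔ g ∈ M := by
    intro g
    have : g ∈ MulAction.stabilizer G a ↔ g ∈ M := by
      simp only [a, MulAction.stabilizer_quotient]
    exact this
  -- stabiliser in `K`
  have hKa : ∀ g ∈ K, g • a = a → g ∈ H := by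
    intro g hg hga
    rw [← hKM]
    exact ⟨hg, (ha g).mp hga⟩
  let B : Set (G ⧸ M) := {x | ∃ l ∈ L, l • a = x}
  have haB : a ∈ B := ⟨1, L.one_mem, one_smul _ _⟩
  -- the key block property
  have key : ∀ u ∈ K, ∀ v ∈ K, ∀ p ∈ B, ∀ q ∈ B, u • p = v • q → v⁻¹ * u ∈ L := by
    rintro u hu v hv p ⟨l, hl, rfl⟩ q ⟨l', hl', rfl⟩ h
    have h1 : (v * l')⁻¹ * (u * l) ∈ K :=
      K.mul_mem (K.inv_mem (K.mul_mem hv (hLK hl'))) (K.mul_mem hu (hLK hl))
    have h2 : ((v * l')⁻¹ * (u * l)) • a = a := by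
      rw [mul_smul, mul_smul u l, h, ← mul_smul v l', inv_smul_smul]
    have h3 : (v * l')⁻¹ * (u * l) ∈ L := hHL (hKa _ h1 h2)
    have h4 : v⁻¹ * u = l' * ((v * l')⁻¹ * (u * l)) * l⁻¹ := by group
    rw [h4]
    exact L.mul_mem (L.mul_mem hl' h3) (L.inv_mem hl)
  -- a point of `B` other than `a`
  obtain ⟨l₀, hl₀, hl₀H⟩ : ∃ l ∈ L, l ∉ H := by
    by_contra hcon
    push Not at hcon
    exact hLH (le_antisymm hcon hHL)
  set b₀ : G ⧸ M := l₀ • a with hb₀
  have hb₀B : b₀ ∈ B := ⟨l₀, hl₀, rfl⟩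
  have hb₀a : b₀ ≠ a := fun h => hl₀H (hKa _ (hLK hl₀) h)
  -- an element `g` moving `B` off itself
  obtain ⟨g, hgK, hgL⟩ : ∃ g ∈ K, g ∉ L := by
    by_contra hcon
    push Not at hcon
    exact hLK' (le_antisymm hLK hcon)
  have hdisj : ∀ p ∈ B, g • p ∉ B := by
    intro p hp hgp
    apply hgL
    have := key g hgK 1 K.one_mem p hp (g • p) hgp (by rw [one_smul])
    simpa using this
  set b₁ : G ⧸ M := g • a with hb₁
  set b₂ : G ⧸ M := g • b₀ with hb₂
  have hb₁B : b₁ ∉ B := hdisj a haB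
  have hb₂B : b₂ ∉ B := hdisj b₀ hb₀B
  have hb₁₂ : b₁ ≠ b₂ := fun h => hb₀a (smul_left_cancel g h).symm
  -- a point outside `B ∪ gB`
  let gB : Set (G ⧸ M) := (fun x => g • x) '' B
  obtain ⟨y, hyB, hygB⟩ : ∃ y : G ⧸ M, y ∉ B ∧ y ∉ gB := by
    by_contra hcon
    push Not at hcon
    have h1 : B ∪ gB = Set.univ := by
      ext x
      simp only [Set.mem_union, Set.mem_univ, iff_true]
      by_cases hx : x ∈ B
      · exact Or.inl hx
      · exact Or.inr (hcon x hx)
    have h2 : Disjoint B gB := by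
      rw [Set.disjoint_left]
      rintro x hx ⟨p, hp, rfl⟩
      exact hdisj p hp hx
    have h3 : Set.ncard gB = Set.ncard B :=
      Set.ncard_image_of_injective _ (MulAction.injective g)
    have h4 : Set.ncard (B ∪ gB) = Set.ncard B + Set.ncard gB :=
      Set.ncard_union_eq h2 (Set.toFinite _) (Set.toFinite _)
    rw [h1, Set.ncard_univ, h3] at h4
    have h5 : Nat.card (G ⧸ M) = n := hn
    rw [h5] at h4
    rcases hodd with ⟨k, hk⟩
    omega
  -- the set stabiliser of `B`
  let T : Subgroup G :=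
    { carrier := {t | ∀ x, x ∈ B ↔ t • x ∈ B}
      one_mem' := fun x => by simp
      mul_mem' := by
        intro s t hs ht x
        rw [mul_smul]
        exact (ht x).trans (hs _)
      inv_mem' := by
        intro t ht x
        have := ht (t⁻¹ • x)
        rw [smul_inv_smul] at this
        exact this.symm }
  have hLT : L ≤ T := by
    intro l hl x
    constructor
    · rintro ⟨l', hl', rfl⟩
      exact ⟨l * l', L.mul_mem hl hl', mul_smul _ _ _⟩
    · rintro ⟨l', hl', h⟩
      refine ⟨l⁻¹ * l', L.mul_mem (L.inv_mem hl) hl', ?_⟩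
      rw [mul_smul, h, inv_smul_smul]
  have hTM : M ⊓ T = H := by
    rcases hmaxM (M ⊓ T) (le_inf hHM (hHL.trans hLT)) inf_le_left with h | h
    · exact h
    · exfalso
      -- the 3-cycle `(b₀ b₁ b₂)` is not in `T`.
      have hb01 : b₀ ≠ b₁ := fun h => hb₁B (h ▸ hb₀B)
      have hb02 : b₀ ≠ b₂ := fun h => hb₂B (h ▸ hb₀B)
      obtain ⟨t, ht⟩ := exists_lift n hA M hM hn (Equiv.swap b₀ b₁ * Equiv.swap b₁ b₂) (by
        rw [map_mul, Equiv.Perm.sign_swap hb01, Equiv.Perm.sign_swap hb₁₂]; rfl)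
      have ht1 : t • a = a := by
        rw [ht, Equiv.Perm.mul_apply,
          Equiv.swap_apply_of_ne_of_ne (ne_of_mem_of_not_mem haB hb₁B) (ne_of_mem_of_not_mem haB hb₂B),
          Equiv.swap_apply_of_ne_of_ne (Ne.symm hb₀a) (ne_of_mem_of_not_mem haB hb₁B)]
      have htM : t ∈ M := (ha t).mp ht1
      have htT : t ∈ T := by
        have h5 : t ∈ M ⊓ T := by rw [h]; exact htM
        exact h5.2
      have ht2 : t • b₀ = b₁ := by
        rw [ht, Equiv.Perm.mul_apply, Equiv.swap_apply_of_ne_of_ne hb01 hb02, Equiv.swap_apply_left]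
      have := (htT b₀).mp hb₀B
      rw [ht2] at this
      exact hb₁B this
  -- the 3-cycle `(b₁ b₂ y)` lifts into `H`.
  have hb₂y : b₂ ≠ y := by
    intro h
    exact hygB (h ▸ ⟨b₀, hb₀B, rfl⟩)
  have hb₁y : b₁ ≠ y := by
    intro h
    exact hygB (h ▸ ⟨a, haB, rfl⟩)
  let c : Equiv.Perm (G ⧸ M) := Equiv.swap b₁ b₂ * Equiv.swap b₂ y
  obtain ⟨t, ht⟩ := exists_lift n hA M hM hn c (by
    simp only [c]
    rw [map_mul, Equiv.Perm.sign_swap hb₁₂, Equiv.Perm.sign_swap hb₂y]; rfl)
  have hcB : ∀ x ∈ B, c x = x := by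
    intro x hx
    simp only [c, Equiv.Perm.mul_apply]
    rw [Equiv.swap_apply_of_ne_of_ne (ne_of_mem_of_not_mem hx hb₂B) (ne_of_mem_of_not_mem hx hyB),
      Equiv.swap_apply_of_ne_of_ne (ne_of_mem_of_not_mem hx hb₁B) (ne_of_mem_of_not_mem hx hb₂B)]
  have htH : t ∈ H := by
    rw [← hTM]
    refine ⟨?_, ?_⟩
    · exact (ha t).mp (by rw [ht]; exact hcB a haB)
    · intro x
      rw [ht]
      constructor
      · intro hx
        rw [hcB x hx]
        exact hx
      · intro hx
        have h1 : c (c x) = c x := hcB _ hx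
        have h2 : c x = x := c.injective h1
        rw [h2] at hx
        exact hx
  have hc1 : c b₁ = b₂ := by
    simp only [c, Equiv.Perm.mul_apply]
    rw [Equiv.swap_apply_of_ne_of_ne hb₁₂ hb₁y, Equiv.swap_apply_left]
  have hc2 : c b₂ = y := by
    simp only [c, Equiv.Perm.mul_apply]
    rw [Equiv.swap_apply_left, Equiv.swap_apply_of_ne_of_ne hb₁y.symm hb₂y.symm]
  have htK : t ∈ K := by
    rw [← hKM] at htH
    exact htH.1
  have hkey := key (t * g) (K.mul_mem htK hgK) g hgK a haB b₀ hb₀B (by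
    rw [mul_smul, ← hb₁, ht, hc1])
  -- the contradiction
  apply hygB
  refine ⟨(g⁻¹ * (t * g)) • b₀, ?_, ?_⟩
  · exact (hLT hkey b₀).mp hb₀B
  · show g • (g⁻¹ * (t * g)) • b₀ = y
    rw [← mul_smul, mul_inv_cancel_left, mul_smul, ← hb₂, ht, hc2]

/-- Let n be an odd positive integer such that every primitive permutation group of degree n contains the alternating group (so the symmetric and alternating groups are the only primitive groups of degree n). Let G be a finite group, M a maximal subgroup of G of index n, and H a maximal subgroup of M. Then H is a second maximal subgroup of G: H is maximal in every maximal subgroup K of G containing H. -/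
theorem result {G : Type*} [Group G]
    [Finite G] (n : ℕ) (hodd : Odd n)
    (hA : ∀ P : Subgroup (Equiv.Perm (Fin n)), MulAction.IsPreprimitive P (Fin n) → alternatingGroup (Fin n) ≤ P)
    (M : Subgroup G) (hM : IsCoatom M) (hn : M.index = n) (H : Subgroup G) (hHM : H ≤ M)
    (hmax : IsCoatom (H.subgroupOf M)) (K : Subgroup G) (hK : IsCoatom K) (hHK : H ≤ K) :
    IsCoatom (H.subgroupOf K) := by
  classical
  by_cases hKM' : K = M
  · subst hKM'; exact hmax
  -- translate `hmax`
  have hmaxM : ∀ X : Subgroup G, H ≤ X → X ≤ M → X = H ∨ X = M := by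
    intro X hHX hXM
    by_cases hXH : X = H
    · exact Or.inl hXH
    right
    have hlt : H.subgroupOf M < X.subgroupOf M := by
      refine lt_of_le_of_ne (fun x hx => hHX hx) ?_
      intro h
      apply hXH
      apply le_antisymm _ hHX
      intro x hx
      have : (⟨x, hXM hx⟩ : M) ∈ X.subgroupOf M := hx
      rw [← h] at this
      exact this
    have htop := hmax.2 _ hlt
    apply le_antisymm hXM
    intro x hx
    have : (⟨x, hx⟩ : M) ∈ X.subgroupOf M := by rw [htop]; trivial
    exact this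
  have hKMH : K ⊓ M = H := by
    rcases hmaxM (K ⊓ M) (le_inf hHK hHM) inf_le_right with h | h
    · exact h
    · exfalso
      have hMK : M ≤ K := by
        rw [← h]; exact inf_le_left
      rcases hMK.lt_or_eq with hlt | heq
      · exact hK.1 (hM.2 _ hlt ▸ rfl) |>.elim
      · exact hKM' heq.symm
  constructor
  · intro h
    -- `K ≤ H ≤ M`, contradiction
    have hKH : K ≤ H := by
      intro x hx
      have : (⟨x, hx⟩ : K) ∈ H.subgroupOf K := by rw [h]; trivial
      exact this
    have hKM : K ≤ M := hKH.trans hHM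
    rcases hKM.lt_or_eq with hlt | heq
    · exact hM.1 (hK.2 _ hlt)
    · exact hKM' heq
  · intro b hb
    -- `b` corresponds to a subgroup `L` between `H` and `K`.
    let L : Subgroup G := b.map K.subtype
    have hLK : L ≤ K := Subgroup.map_subtype_le b
    have hHL : H ≤ L := by
      intro x hx
      exact ⟨⟨x, hHK hx⟩, hb.le hx, rfl⟩
    have hLH : L ≠ H := by
      intro h
      apply hb.not_ge
      intro x hx
      have : (x : G) ∈ L := ⟨x, hx, rfl⟩
      rw [h] at this
      exact this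
    by_contra hbtop
    refine core n hodd hA M hM hn H hHM hmaxM K hKMH L hHL hLK hLH ?_
    intro h
    apply hbtop
    rw [eq_top_iff]
    intro x _
    have : (x : G) ∈ L := by rw [h]; exact x.2
    obtain ⟨y, hy, hyx⟩ := this
    have : y = x := Subtype.ext hyx
    exact this ▸ hy

end Cfsg.Agent.S5885
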