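import Cfsg.Statements.S5887

set_option autoImplicit false
open Cfsg

namespace Cfsg.Agent.S5887

open Matrix

section abstractField

/-- A finite field with `q ^ r` elements contains an element of the subfield with `q ^ p`
elements which is not in the subfield with `q` elements. -/
lemma exists_elt {L : Type*} [Field L] [Finite L] {q r p : ℕ} (hq : 2 ≤ q) (hL : Nat.card L = q ^ r)
    (hp : p ∣ r) (hp1 : 1 < p) (hr : 0 < r) :
    ∃ y : L, y ^ (q ^ p) = y ∧ y ^ q ≠ y := by
  classical
  obtain ⟨ζ, hζ⟩ := IsCyclic.exists_generator (α := Lˣ)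
  have hcardU : Nat.card Lˣ = q ^ r - 1 := by
    have := Nat.card_units L
    rw [hL] at this
    exact this
  have hord : orderOf ζ = q ^ r - 1 := by
    rw [← hcardU]
    exact orderOf_eq_card_of_forall_mem_zpowers hζ
  obtain ⟨c, rfl⟩ := hp
  have hqp : 2 ≤ q ^ p := le_trans hq (Nat.le_self_pow (by omega) q)
  have hdvd : q ^ p - 1 ∣ q ^ (p * c) - 1 := by
    rw [pow_mul]
    have := Nat.sub_dvd_pow_sub_pow (q ^ p) 1 c
    simpa using this
  obtain ⟨m, hm⟩ := hdvd
  have hy1 : ((ζ : L) ^ m) ^ (q ^ p - 1) = 1 := by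
    rw [← pow_mul, mul_comm, ← hm, ← Units.val_pow_eq_pow_val, ← hord, pow_orderOf_eq_one]
    rfl
  refine ⟨(ζ : L) ^ m, ?_, ?_⟩
  · have : q ^ p = (q ^ p - 1) + 1 := by omega
    conv_lhs => rw [this]
    rw [pow_succ, hy1, one_mul]
  · intro h
    have hne : (ζ : L) ^ m ≠ 0 := pow_ne_zero _ ζ.ne_zero
    have h1 : ((ζ : L) ^ m) ^ (q - 1) = 1 := by
      have h2 : ((ζ : L) ^ m) ^ (q - 1) * (ζ : L) ^ m = (ζ : L) ^ m := by
        rw [← pow_succ, Nat.sub_add_cancel (by omega)]; exact h
      exact mul_right_cancel₀ hne (h2.trans (one_mul _).symm)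
    have h3 : ζ ^ (m * (q - 1)) = 1 := by
      apply Units.ext
      rw [Units.val_pow_eq_pow_val, pow_mul, h1]
      rfl
    have h4 := orderOf_dvd_of_pow_eq_one h3
    rw [hord, hm] at h4
    have hpos : 0 < q ^ p - 1 := by omega
    have hm0 : 0 < m := by
      rcases Nat.eq_zero_or_pos m with h0 | h0
      · subst h0
        rw [mul_zero] at hm
        have : 2 ≤ q ^ (p * c) := by
          refine le_trans hq (Nat.le_self_pow ?_ q)
          exact hr.ne'
        omega
      · exact h0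
    have h5 : q ^ p - 1 ∣ q - 1 := by
      have : (q ^ p - 1) * m ∣ (q - 1) * m := by rwa [mul_comm (q - 1)]
      exact Nat.dvd_of_mul_dvd_mul_right hm0 this
    have h6 := Nat.le_of_dvd (by omega) h5
    have h7 : q * q ≤ q ^ p := by
      calc q * q = q ^ 2 := by ring
        _ ≤ q ^ p := Nat.pow_le_pow_right (by omega) hp1
    have h8 : 2 * q ≤ q * q := by nlinarith
    omega

/-- The roots of `X ^ m - X`. -/
lemma card_roots_le {L : Type*} [Field L] {m : ℕ} (hm : 2 ≤ m) (s : Finset L)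
    (h : ∀ x ∈ s, x ^ m = x) : s.card ≤ m := by
  classical
  have hdeg : (Polynomial.X ^ m - Polynomial.X : Polynomial L).natDegree = m := by
    rw [Polynomial.natDegree_sub_eq_left_of_natDegree_lt]
    · simp
    · simp; omega
  have hne : (Polynomial.X ^ m - Polynomial.X : Polynomial L) ≠ 0 := by
    intro h0
    rw [h0] at hdeg
    simp at hdeg
    omega
  have hsub : s ⊆ (Polynomial.X ^ m - Polynomial.X : Polynomial L).roots.toFinset := by
    intro x hx
    rw [Multiset.mem_toFinset, Polynomial.mem_roots hne]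
    simp [Polynomial.IsRoot, h x hx]
  calc s.card ≤ (Polynomial.X ^ m - Polynomial.X : Polynomial L).roots.toFinset.card :=
        Finset.card_le_card hsub
    _ ≤ Multiset.card (Polynomial.X ^ m - Polynomial.X : Polynomial L).roots :=
        Multiset.toFinset_card_le _
    _ ≤ _ := Polynomial.card_roots' _
    _ = m := hdeg

/-- A transvection for an abstract field acting on a space. -/
lemma exists_nil {A F V : Type*} [Field A] [Field F] [AddCommGroup V] [Module F V]
    (ρ : A →+* Module.End F V) (ι : F → A) (hι : ∀ c (v : V), ρ (ι c) v = c • v) (w a : V)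
    (ha : ∀ c : A, a ≠ ρ c w) :
    ∃ N : V →ₗ[F] V, (∀ v, N (N v) = 0) ∧ N a = w ∧ (∀ c v, N (ρ c v) = ρ c (N v)) ∧
      ∀ v, ∃ c, N v = ρ c w := by
  letI : Module A V := Module.compHom V ρ
  have hsmul : ∀ (c : A) (v : V), c • v = ρ c v := fun _ _ => rfl
  have hnot : a ∉ (A ∙ w) := by
    intro h
    obtain ⟨c, hc⟩ := Submodule.mem_span_singleton.mp h
    exact ha c (by rw [← hc]; rfl)
  obtain ⟨φ, hφ, hker⟩ := Submodule.exists_le_ker_of_notMem hnot
  have hφw : φ w = 0 := hker (Submodule.mem_span_singleton_self w)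
  have hρ : ∀ (x y : A) (v : V), ρ x (ρ y v) = ρ (x * y) v := by
    intro x y v
    rw [map_mul]; rfl
  refine ⟨{ toFun := fun v => ρ (φ a)⁻¹ (ρ (φ v) w)
            map_add' := ?_
            map_smul' := ?_ }, ?_, ?_, ?_, ?_⟩
  · intro x y
    simp only [map_add, LinearMap.add_apply]
  · intro c v
    have h1 : φ (c • v) = ι c * φ v := by
      have : c • v = ι c • v := (hι c v).symm
      rw [this, map_smul, smul_eq_mul]
    change ρ (φ a)⁻¹ (ρ (φ (c • v)) w) = c • ρ (φ a)⁻¹ (ρ (φ v) w)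
    rw [h1, ← hι c (ρ _ _), hρ, hρ, hρ]
    congr 2
    ring
  · intro v
    change ρ (φ a)⁻¹ (ρ (φ (ρ (φ a)⁻¹ (ρ (φ v) w))) w) = 0
    have h1 : φ (ρ (φ a)⁻¹ (ρ (φ v) w)) = (φ a)⁻¹ * (φ v * φ w) := by
      rw [← hsmul, ← hsmul, map_smul, map_smul, smul_eq_mul, smul_eq_mul]
    rw [h1, hφw]
    simp
  · change ρ (φ a)⁻¹ (ρ (φ a) w) = w
    rw [hρ, inv_mul_cancel₀ hφ]
    simp
  · intro c v
    change ρ (φ a)⁻¹ (ρ (φ (ρ c v)) w) = ρ c (ρ (φ a)⁻¹ (ρ (φ v) w))
    have h1 : φ (ρ c v) = c * φ v := by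
      rw [← hsmul, map_smul, smul_eq_mul]
    rw [h1, hρ, hρ, hρ]
    congr 2
    ring
  · intro v
    refine ⟨(φ a)⁻¹ * φ v, ?_⟩
    change ρ (φ a)⁻¹ (ρ (φ v) w) = _
    rw [hρ]

end abstractField

section main

variable {F : Type*} [Field F] [Fintype F] {n r : ℕ}

local notation "MM" => Matrix (Fin n) (Fin n) F
local notation "VV" => (Fin n → F)

/-- Evaluation at a vector. -/
def evalAt (w : Fin n → F) : Matrix (Fin n) (Fin n) F →ₗ[F] (Fin n → F) where
  toFun k := k *ᵥ w
  map_add' := fun a b => Matrix.add_mulVec a b w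
  map_smul' := fun c a => Matrix.smul_mulVec c a w

lemma mat_ext {A B : Matrix (Fin n) (Fin n) F} (h : ∀ v, A *ᵥ v = B *ᵥ v) : A = B :=
  Matrix.mulVec_injective (funext h)

/-- A low rank square zero matrix normalizing a field commutes with it. -/
lemma low_rank_comm {K : Subalgebra F (Matrix (Fin n) (Fin n) F)} (hK : Cfsg.Geo.IsFieldSubalgebra r K)
    {E x : Matrix (Fin n) (Fin n) F} (W : Submodule F (Fin n → F)) (hE2 : E * E = 0)
    (hW : ∀ v, E *ᵥ v ∈ W) (hn : 2 * Module.finrank F W < n) (hx : x ∈ K)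
    (hy : (1 + E) * x * (1 - E) ∈ K) : E * x = x * E := by
  have hy0 : (1 + E) * x * (1 - E) - x = 0 := by
    by_contra hne
    have hmem : (1 + E) * x * (1 - E) - x ∈ K := K.sub_mem hy hx
    obtain ⟨y', -, hy'⟩ := hK.inv _ hmem hne
    have hdecomp : (1 + E) * x * (1 - E) - x = E * (x - x * E) - x * E := by noncomm_ring
    have htop : (⊤ : Submodule F (Fin n → F)) ≤ W ⊔ W.map (Matrix.mulVecLin x) := by
      intro v _
      have hv : v = ((1 + E) * x * (1 - E) - x) *ᵥ (y' *ᵥ v) := by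
        rw [Matrix.mulVec_mulVec, hy', Matrix.one_mulVec]
      rw [hv, hdecomp, Matrix.sub_mulVec, ← Matrix.mulVec_mulVec, sub_eq_add_neg]
      refine Submodule.add_mem_sup (hW _) (Submodule.neg_mem _ ?_)
      rw [← Matrix.mulVec_mulVec]
      exact ⟨_, hW _, rfl⟩
    have h1 := Submodule.finrank_mono htop
    rw [finrank_top, Module.finrank_fintype_fun_eq_card, Fintype.card_fin] at h1
    have h2 := Submodule.finrank_add_le_finrank_add_finrank W (W.map (Matrix.mulVecLin x))
    have h3 := Submodule.finrank_map_le (Matrix.mulVecLin x) W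
    omega
  have h1 : E * x - x * E - E * x * E = 0 := by
    rw [← hy0]; noncomm_ring
  have h2 : E * x * E = 0 := by
    have := congrArg (· * E) h1
    simp only [zero_mul] at this
    have h3 : (E * x - x * E - E * x * E) * E = E * x * E - x * (E * E) - E * x * (E * E) := by
      noncomm_ring
    rw [h3, hE2] at this
    simpa using this
  rw [h2, sub_zero] at h1
  exact sub_eq_zero.mp h1

end main

section main2

variable {F : Type*} [Field F] [Fintype F] {n r : ℕ}

open Cfsg.Geo

/-- The invertible matrix attached to a square zero matrix. -/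
def glOf (E : Matrix (Fin n) (Fin n) F) (hE : E * E = 0) : GL (Fin n) F where
  val := 1 + E
  inv := 1 - E
  val_inv := by
    have : (1 + E) * (1 - E) = 1 - E * E := by noncomm_ring
    rw [this, hE, sub_zero]
  inv_val := by
    have : (1 - E) * (1 + E) = 1 - E * E := by noncomm_ring
    rw [this, hE, sub_zero]

lemma glOf_val (E : Matrix (Fin n) (Fin n) F) (hE : E * E = 0) :
    ((glOf E hE : GL (Fin n) F) : Matrix (Fin n) (Fin n) F) = 1 + E := rfl

lemma glOf_inv (E : Matrix (Fin n) (Fin n) F) (hE : E * E = 0) :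
    (((glOf E hE)⁻¹ : GL (Fin n) F) : Matrix (Fin n) (Fin n) F) = 1 - E := rfl

lemma glOf_mem (E : Matrix (Fin n) (Fin n) F) (hE : E * E = 0) (hn : 0 < n) :
    glOf E hE ∈ specialLinear (Fin n) F := by
  obtain ⟨ℓ, hℓ⟩ := CharP.exists F
  haveI : Fact ℓ.Prime := ⟨CharP.char_is_prime F ℓ⟩
  haveI : Nonempty (Fin n) := ⟨⟨0, hn⟩⟩
  have h2 : 2 ≤ ℓ := (Fact.out : ℓ.Prime).two_le
  have hc : Commute (1 : Matrix (Fin n) (Fin n) F) E := Commute.one_left _
  have h1 : ((1 : Matrix (Fin n) (Fin n) F) + E) ^ ℓ ^ 1 = 1 ^ ℓ ^ 1 + E ^ ℓ ^ 1 :=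
    add_pow_char_pow_of_commute ℓ 1 hc
  have hE' : E ^ ℓ = 0 := by
    obtain ⟨s, rfl⟩ : ∃ s, ℓ = s + 2 := ⟨ℓ - 2, by omega⟩
    rw [pow_add, pow_two, hE, mul_zero]
  simp only [pow_one, one_pow, hE', add_zero] at h1
  have hd : Matrix.det (1 + E) ^ ℓ = 1 := by
    rw [← Matrix.det_pow, h1, Matrix.det_one]
  have hd1 : Matrix.det (1 + E) = 1 := by
    apply frobenius_inj F ℓ
    rw [frobenius_def, hd, frobenius_def, one_pow]
  change Matrix.GeneralLinearGroup.det (glOf E hE) = 1
  apply Units.ext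
  exact hd1

lemma mem_norm_of_comm (g : GL (Fin n) F) (L : Subalgebra F (Matrix (Fin n) (Fin n) F))
    (h : ∀ k ∈ L, (g : Matrix (Fin n) (Fin n) F) * k = k * g) : g ∈ subalgebraNormalizer L := by
  have hgg : (g : Matrix (Fin n) (Fin n) F) * ((g⁻¹ : GL (Fin n) F) : Matrix (Fin n) (Fin n) F) = 1 := by
    rw [← Units.val_mul, mul_inv_cancel, Units.val_one]
  have hgg' : ((g⁻¹ : GL (Fin n) F) : Matrix (Fin n) (Fin n) F) * (g : Matrix (Fin n) (Fin n) F) = 1 := by
    rw [← Units.val_mul, inv_mul_cancel, Units.val_one]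
  intro k
  constructor
  · intro hk
    rw [h k hk, mul_assoc, hgg, mul_one]
    exact hk
  · intro hk
    have h1 := h _ hk
    have h2 : k = ((g⁻¹ : GL (Fin n) F) : Matrix (Fin n) (Fin n) F) *
        ((g : Matrix (Fin n) (Fin n) F) * k * ((g⁻¹ : GL (Fin n) F) : Matrix (Fin n) (Fin n) F)) *
          (g : Matrix (Fin n) (Fin n) F) := by
      simp only [mul_assoc, hgg', mul_one]
      rw [← mul_assoc, hgg', one_mul]
    rw [h2, mul_assoc, ← h1, ← mul_assoc, hgg', one_mul]
    exact hk

/-- The element of the centralizer of the subfield not normalizing the field. -/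
lemma step_t {K K₀ : Subalgebra F (Matrix (Fin n) (Fin n) F)} {p : ℕ}
    (hK : IsFieldSubalgebra r K) (hsub : K₀ ≤ K)
    (hinv : ∀ x ∈ K₀, x ≠ 0 → ∃ y ∈ K₀, x * y = 1)
    (hfin : Module.finrank F K₀ ≤ p) (hpr : p < r) (hn : 2 * r ≤ n) :
    ∃ t : GL (Fin n) F, t ∈ specialLinear (Fin n) F ∧ t ∈ subalgebraNormalizer K₀ ∧
      t ∉ subalgebraNormalizer K := by
  classical
  have hnpos : 0 < n := by omega
  have hnt : Nontrivial (Matrix (Fin n) (Fin n) F) := by
    haveI : Nonempty (Fin n) := ⟨⟨0, hnpos⟩⟩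
    infer_instance
  -- the field structure on the subfield
  letI fK₀ : Field K₀ := IsField.toField
    { exists_pair_ne := ⟨0, 1, fun h => zero_ne_one (congrArg Subtype.val h)⟩
      mul_comm := fun a b => Subtype.ext (hK.comm _ (hsub a.2) _ (hsub b.2))
      mul_inv_cancel := by
        intro a ha
        obtain ⟨y, hy, hay⟩ := hinv a.1 a.2 (fun h => ha (Subtype.ext h))
        exact ⟨⟨y, hy⟩, Subtype.ext hay⟩ }
  let ρ : K₀ →+* Module.End F (Fin n → F) :=
    { toFun := fun k => Matrix.mulVecLin k.1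
      map_one' := Matrix.mulVecLin_one
      map_mul' := fun a b => Matrix.mulVecLin_mul _ _
      map_zero' := by
        ext v : 1
        simp
      map_add' := fun a b => Matrix.mulVecLin_add _ _ }
  let ι : F → K₀ := fun c => ⟨algebraMap F _ c, K₀.algebraMap_mem c⟩
  have hι : ∀ (c : F) (v : Fin n → F), ρ (ι c) v = c • v := by
    intro c v
    change (algebraMap F (Matrix (Fin n) (Fin n) F) c) *ᵥ v = c • v
    rw [Algebra.algebraMap_eq_smul_one, Matrix.smul_mulVec, Matrix.one_mulVec]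
  let i₀ : Fin n := ⟨0, hnpos⟩
  let w : Fin n → F := Pi.single i₀ 1
  have hw : w ≠ 0 := by
    intro h
    have := congrFun h i₀
    simp [w] at this
  let W₀ : Submodule F (Fin n → F) := (Subalgebra.toSubmodule K₀).map (evalAt w)
  have hW₀ : Module.finrank F W₀ ≤ p :=
    (Submodule.finrank_map_le _ _).trans hfin
  obtain ⟨a, ha⟩ : ∃ a, a ∉ W₀ := by
    by_contra hall
    push Not at hall
    have htop : W₀ = ⊤ := Submodule.eq_top_iff'.mpr hall
    rw [htop, finrank_top, Module.finrank_fintype_fun_eq_card, Fintype.card_fin] at hW₀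
    omega
  have ha' : ∀ c : K₀, a ≠ ρ c w := by
    intro c hc
    apply ha
    rw [hc]
    exact ⟨c.1, c.2, rfl⟩
  obtain ⟨N, hN2, hNa, hNc, hNr⟩ := exists_nil ρ ι hι w a ha'
  let E : Matrix (Fin n) (Fin n) F := LinearMap.toMatrix' N
  have hEv : ∀ v, E *ᵥ v = N v := fun v => LinearMap.toMatrix'_mulVec N v
  have hE2 : E * E = 0 := by
    apply mat_ext
    intro v
    rw [← Matrix.mulVec_mulVec, hEv, hEv, hN2, Matrix.zero_mulVec]
  have hEcomm : ∀ k ∈ K₀, E * k = k * E := by
    intro k hk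
    apply mat_ext
    intro v
    rw [← Matrix.mulVec_mulVec, ← Matrix.mulVec_mulVec, hEv, hEv]
    exact hNc ⟨k, hk⟩ v
  have hErange : ∀ v, E *ᵥ v ∈ W₀ := by
    intro v
    rw [hEv]
    obtain ⟨c, hc⟩ := hNr v
    rw [hc]
    exact ⟨c.1, c.2, rfl⟩
  have hEa : E *ᵥ a = w := by rw [hEv, hNa]
  refine ⟨glOf E hE2, glOf_mem E hE2 hnpos, ?_, ?_⟩
  · apply mem_norm_of_comm
    intro k hk
    rw [glOf_val, add_mul, mul_add, one_mul, mul_one, hEcomm k hk]
  · intro ht
    have hcomm : ∀ x ∈ K, E * x = x * E := by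
      intro x hx
      have h1 := (ht x).mp hx
      rw [glOf_val, glOf_inv] at h1
      exact low_rank_comm hK W₀ hE2 hErange (by omega) hx h1
    -- the image of the big field lies in the small space
    let f : K →ₗ[F] (Fin n → F) := (evalAt w).domRestrict (Subalgebra.toSubmodule K)
    have hf : Function.Injective f := by
      rw [← LinearMap.ker_eq_bot, LinearMap.ker_eq_bot']
      intro x hx
      by_contra hx0
      have hx0' : (x : Matrix (Fin n) (Fin n) F) ≠ 0 := fun h => hx0 (Subtype.ext h)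
      obtain ⟨y, hy, hxy⟩ := hK.inv _ x.2 hx0'
      have h1 : y * (x : Matrix (Fin n) (Fin n) F) = 1 := by
        rw [hK.comm _ hy _ x.2]; exact hxy
      have h2 : (x : Matrix (Fin n) (Fin n) F) *ᵥ w = 0 := hx
      apply hw
      calc w = (y * (x : Matrix (Fin n) (Fin n) F)) *ᵥ w := by rw [h1, Matrix.one_mulVec]
        _ = y *ᵥ ((x : Matrix (Fin n) (Fin n) F) *ᵥ w) := by rw [Matrix.mulVec_mulVec]
        _ = 0 := by rw [h2, Matrix.mulVec_zero]
    have hrange : LinearMap.range f ≤ W₀ := by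
      rintro _ ⟨x, rfl⟩
      change (x : Matrix (Fin n) (Fin n) F) *ᵥ w ∈ W₀
      rw [← hEa, Matrix.mulVec_mulVec, ← hcomm x x.2, ← Matrix.mulVec_mulVec]
      exact hErange _
    have h1 := LinearMap.finrank_range_of_inj hf
    have h2 := Submodule.finrank_mono hrange
    rw [h1, hK.finrank_eq] at h2
    omega

/-- A transvection moving a subfield with a non-scalar element. -/
lemma step_g {K K₀ : Subalgebra F (Matrix (Fin n) (Fin n) F)}
    (hK : IsFieldSubalgebra r K) (hsub : K₀ ≤ K) {y : Matrix (Fin n) (Fin n) F} (hy : y ∈ K₀)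
    (hyns : ∀ c : F, y ≠ Matrix.scalar (Fin n) c) (hn : 3 ≤ n) :
    ∃ g : GL (Fin n) F, g ∈ specialLinear (Fin n) F ∧ g ∉ subalgebraNormalizer K₀ := by
  classical
  by_contra hall
  push Not at hall
  have hcomm : Pairwise fun i j : Fin n => Commute (Matrix.single i j (1 : F)) y := by
    intro i j hij
    have hE2 : Matrix.single i j (1 : F) * Matrix.single i j 1 = 0 := by
      rw [Matrix.single_mul_single_of_ne _ _ _ _ (Ne.symm hij)]
    have hg := hall (glOf _ hE2) (glOf_mem _ hE2 (by omega))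
    have h1 := (hg y).mp hy
    rw [glOf_val, glOf_inv] at h1
    have hW : ∀ v, Matrix.single i j (1 : F) *ᵥ v ∈ (F ∙ (Pi.single i 1 : Fin n → F)) := by
      intro v
      rw [Submodule.mem_span_singleton]
      refine ⟨v j, ?_⟩
      ext a
      by_cases ha : a = i
      · subst ha
        simp [Matrix.mulVec, dotProduct, Matrix.single_apply]
      · simp [Matrix.mulVec, dotProduct, Matrix.single_apply, ha, Pi.single_eq_of_ne ha, Ne.symm ha]
    have hr : Module.finrank F (F ∙ (Pi.single i 1 : Fin n → F)) = 1 := by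
      apply finrank_span_singleton
      intro h
      have := congrFun h i
      simp at this
    exact low_rank_comm hK _ hE2 hW (by omega) (hsub hy) (hsub h1)
  obtain ⟨c, hc⟩ := Matrix.mem_range_scalar_of_commute_single hcomm
  exact hyns c hc.symm

end main2

/-- Let F be a finite field, n a positive integer and r a composite number (r > 1, not prime) that divides n with r < n. Let K be a subalgebra of the algebra of n × n matrices over F which is a field of degree r over F (commutative, every non-zero element invertible, of dimension r over F). Then the normaliser N of K in GL_n(F) (a group of type ΓL_{n/r}(F_{q^r})) is not a maximal subgroup of GL_n(F), and N ∩ SL_n(F) is not a maximal subgroup of SL_n(F): both lie properly inside the normaliser of an intermediate subfield of prime degree over F. -/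
theorem result {F : Type*} [Field F]
    [Fintype F] (n r : ℕ) (hr1 : 1 < r) (hrp : ¬ r.Prime) (hrn : r ∣ n) (hlt : r < n)
    (K : Subalgebra F (Matrix (Fin n) (Fin n) F)) (hK : Cfsg.Geo.IsFieldSubalgebra r K) :
    ¬ IsCoatom (Cfsg.Geo.subalgebraNormalizer K) ∧
      ¬ Cfsg.Geo.IsMaximalIn (Cfsg.Geo.specialLinear (Fin n) F)
        (Cfsg.Geo.subalgebraNormalizer K ⊓ Cfsg.Geo.specialLinear (Fin n) F) := by
  classical
  open Cfsg.Geo in
  -- numerics
  obtain ⟨c₀, hc₀⟩ := hrn
  have hc2 : 2 ≤ c₀ := by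
    by_contra hc
    have : c₀ = 0 ∨ c₀ = 1 := by omega
    rcases this with rfl | rfl
    · rw [mul_zero] at hc₀; omega
    · rw [mul_one] at hc₀; omega
  have hn : 2 * r ≤ n := by
    rw [hc₀, mul_comm]
    exact Nat.mul_le_mul_left r hc2
  have hnpos : 0 < n := by omega
  haveI : Nonempty (Fin n) := ⟨⟨0, hnpos⟩⟩
  -- the prime divisor
  obtain ⟨p, hpp, hpr⟩ := Nat.exists_prime_and_dvd (n := r) (by omega)
  have hplt : p < r := by
    refine lt_of_le_of_ne (Nat.le_of_dvd (by omega) hpr) ?_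
    rintro rfl
    exact hrp hpp
  have hr4 : 4 ≤ r := by
    have h2 := hpp.two_le
    obtain ⟨s, hs⟩ := hpr
    have hs2 : 2 ≤ s := by
      by_contra hc
      have : s = 0 ∨ s = 1 := by omega
      rcases this with rfl | rfl
      · rw [mul_zero] at hs; omega
      · rw [mul_one] at hs; omega
    rw [hs]
    nlinarith
  let q := Fintype.card F
  have hq : 2 ≤ q := Fintype.one_lt_card
  let m := q ^ p
  have hm2 : 2 ≤ m := le_trans hq (Nat.le_self_pow hpp.ne_zero q)
  -- Frobenius
  obtain ⟨ℓ, hℓ⟩ := CharP.exists F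
  haveI hℓp : Fact ℓ.Prime := ⟨CharP.char_is_prime F ℓ⟩
  obtain ⟨e, -, hqe⟩ := FiniteField.card F ℓ
  have hm : m = ℓ ^ ((e : ℕ) * p) := by
    change q ^ p = _
    rw [pow_mul]
    congr 1
  have hadd : ∀ x ∈ K, ∀ y ∈ K, (x + y) ^ m = x ^ m + y ^ m := by
    intro x hx y hy
    rw [hm]
    exact add_pow_char_pow_of_commute ℓ _ (hK.comm x hx y hy)
  -- the subfield
  let K₀ : Subalgebra F (Matrix (Fin n) (Fin n) F) :=
    { carrier := {x | x ∈ K ∧ x ^ m = x}
      mul_mem' := by
        rintro a b ⟨ha, ha'⟩ ⟨hb, hb'⟩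
        refine ⟨K.mul_mem ha hb, ?_⟩
        have hcomm : Commute a b := hK.comm a ha b hb
        rw [hcomm.mul_pow, ha', hb']
      add_mem' := by
        rintro a b ⟨ha, ha'⟩ ⟨hb, hb'⟩
        refine ⟨K.add_mem ha hb, ?_⟩
        rw [hadd a ha b hb, ha', hb']
      algebraMap_mem' := by
        intro c
        refine ⟨K.algebraMap_mem c, ?_⟩
        rw [← map_pow]
        congr 1
        exact FiniteField.pow_card_pow p c }
  have hsub : K₀ ≤ K := fun x hx => hx.1
  have hmem : ∀ x, x ∈ K₀ ↔ x ∈ K ∧ x ^ m = x := fun x => Iff.rfl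
  -- inverses in the subfield
  have hinv₀ : ∀ x ∈ K₀, x ≠ 0 → ∃ y ∈ K₀, x * y = 1 := by
    rintro x ⟨hx, hxm⟩ hx0
    obtain ⟨y, hy, hxy⟩ := hK.inv x hx hx0
    refine ⟨y, ⟨hy, ?_⟩, hxy⟩
    have hcomm : Commute x y := hK.comm x hx y hy
    have h1 : x * y ^ m = 1 := by
      have h2 := hcomm.mul_pow m
      rw [hxy, one_pow, hxm] at h2
      exact h2.symm
    have hyx : y * x = 1 := by rw [← hcomm.eq]; exact hxy
    calc y ^ m = (y * x) * y ^ m := by rw [hyx, one_mul]
      _ = y * (x * y ^ m) := by rw [mul_assoc]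
      _ = y := by rw [h1, mul_one]
  have hcardK : Nat.card K = q ^ r := by
    have := Module.natCard_eq_pow_finrank (K := F) (V := K)
    rw [hK.finrank_eq, Nat.card_eq_fintype_card (α := F)] at this
    exact this
  have hcardK₀ : Nat.card K₀ = q ^ Module.finrank F K₀ := by
    have := Module.natCard_eq_pow_finrank (K := F) (V := K₀)
    rw [Nat.card_eq_fintype_card (α := F)] at this
    exact this
  -- the field structure on the big field
  letI fK : Field K := IsField.toField
    { exists_pair_ne := ⟨0, 1, fun h => zero_ne_one (congrArg Subtype.val h)⟩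
      mul_comm := fun a b => Subtype.ext (hK.comm _ a.2 _ b.2)
      mul_inv_cancel := by
        intro a ha
        obtain ⟨y, hy, hay⟩ := hK.inv a.1 a.2 (fun h => ha (Subtype.ext h))
        exact ⟨⟨y, hy⟩, Subtype.ext hay⟩ }
  -- the dimension of the subfield
  have hfin : Module.finrank F K₀ ≤ p := by
    let s : Finset K := Finset.univ.image (fun x : K₀ => (⟨x.1, x.2.1⟩ : K))
    have hs : s.card = Nat.card K₀ := by
      rw [Finset.card_image_of_injective, Finset.card_univ, Nat.card_eq_fintype_card]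
      intro a b hab
      exact Subtype.ext (congrArg (fun z : K => (z : Matrix (Fin n) (Fin n) F)) hab)
    have hle := card_roots_le hm2 s (by
      intro x hx
      obtain ⟨z, -, rfl⟩ := Finset.mem_image.mp hx
      apply Subtype.ext
      exact z.2.2)
    rw [hs, hcardK₀] at hle
    exact (Nat.pow_le_pow_iff_right hq).mp hle
  -- the non-scalar element
  obtain ⟨y, hym, hyq⟩ := exists_elt (L := K) hq hcardK hpr hpp.one_lt (by omega)
  have hy₀ : (y : Matrix (Fin n) (Fin n) F) ∈ K₀ :=
    ⟨y.2, congrArg (fun z : K => (z : Matrix (Fin n) (Fin n) F)) hym⟩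
  have hyns : ∀ c : F, (y : Matrix (Fin n) (Fin n) F) ≠ Matrix.scalar (Fin n) c := by
    intro c hc
    apply hyq
    apply Subtype.ext
    change (y : Matrix (Fin n) (Fin n) F) ^ q = y
    rw [hc, ← map_pow]
    congr 1
    exact FiniteField.pow_card c
  obtain ⟨t, htS, htK₀, htK⟩ := step_t hK hsub hinv₀ hfin hplt hn
  obtain ⟨g, hgS, hgK₀⟩ := step_g hK hsub hy₀ hyns (by omega)
  -- the normaliser of the field normalises the subfield
  have hle : Cfsg.Geo.subalgebraNormalizer K ≤ Cfsg.Geo.subalgebraNormalizer K₀ := by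
    intro h hh k
    have hcancel : ∀ a b : Matrix (Fin n) (Fin n) F,
        (h : Matrix (Fin n) (Fin n) F) * a * ((h⁻¹ : GL (Fin n) F) : Matrix (Fin n) (Fin n) F) =
          (h : Matrix (Fin n) (Fin n) F) * b * ((h⁻¹ : GL (Fin n) F) : Matrix (Fin n) (Fin n) F) → a = b := by
      intro a b hab
      have h1 : ((h⁻¹ : GL (Fin n) F) : Matrix (Fin n) (Fin n) F) * (h : Matrix (Fin n) (Fin n) F) = 1 := by
        rw [← Units.val_mul, inv_mul_cancel, Units.val_one]
      have h2 : (h : Matrix (Fin n) (Fin n) F) * ((h⁻¹ : GL (Fin n) F) : Matrix (Fin n) (Fin n) F) = 1 := by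
        rw [← Units.val_mul, mul_inv_cancel, Units.val_one]
      have := congrArg (fun z => ((h⁻¹ : GL (Fin n) F) : Matrix (Fin n) (Fin n) F) * z * (h : Matrix (Fin n) (Fin n) F)) hab
      simpa only [mul_assoc, h1, h2, mul_one, ← mul_assoc (((h⁻¹ : GL (Fin n) F) : Matrix (Fin n) (Fin n) F)), one_mul] using this
    rw [hmem, hmem, ← hh k, Units.conj_pow]
    constructor
    · rintro ⟨h1, h2⟩
      exact ⟨h1, by rw [h2]⟩
    · rintro ⟨h1, h2⟩
      exact ⟨h1, hcancel _ _ h2⟩
  constructor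
  · intro hco
    have hlt : Cfsg.Geo.subalgebraNormalizer K < Cfsg.Geo.subalgebraNormalizer K₀ :=
      lt_of_le_of_ne hle (fun h => htK (h ▸ htK₀))
    have htop := hco.2 _ hlt
    exact hgK₀ (htop ▸ Subgroup.mem_top g)
  · rintro ⟨-, hmax⟩
    rcases hmax (Cfsg.Geo.subalgebraNormalizer K₀ ⊓ Cfsg.Geo.specialLinear (Fin n) F)
      (inf_le_inf_right _ hle) inf_le_right with h | h
    · have : t ∈ Cfsg.Geo.subalgebraNormalizer K ⊓ Cfsg.Geo.specialLinear (Fin n) F := by
        rw [← h]; exact ⟨htK₀, htS⟩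
      exact htK this.1
    · have : g ∈ Cfsg.Geo.subalgebraNormalizer K₀ ⊓ Cfsg.Geo.specialLinear (Fin n) F := by
        rw [h]; exact hgS
      exact hgK₀ this.1

end Cfsg.Agent.S5887
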