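import Mathlib
import Cfsg.Statements.S5894
import Cfsg.Agent.Lib.ClassMax.Wreath

set_option autoImplicit false
open Cfsg

namespace Cfsg.Agent.S5894

open Cfsg.Agent.Lib.ClassMax MulAction
open scoped Pointwise

/-- Point stabiliser maximal in a general type. -/
lemma isCoatom_pointStab {α : Type*} [Fintype α] [DecidableEq α] (x : α) (h3 : 3 ≤ Fintype.card α) :
    IsCoatom (stabilizer (Equiv.Perm α) x) := by
  have h1 := Equiv.Perm.isCoatom_stabilizer (α := α) (s := ({x} : Set α)) (Set.singleton_nonempty x) (by
    have : Nontrivial α := by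
      rw [← Fintype.one_lt_card_iff_nontrivial]; omega
    obtain ⟨y, hy⟩ := exists_ne x
    exact ⟨y, by simpa using hy⟩) (by
    rw [Set.ncard_singleton, Nat.card_eq_fintype_card]; omega)
  rwa [stabilizer_singleton] at h1

theorem index_pointStab {α : Type*} [Fintype α] [DecidableEq α] (x : α) :
    (stabilizer (Equiv.Perm α) x).index = Fintype.card α := by
  rw [index_stabilizer, orbit_eq_univ, Set.ncard_univ, Nat.card_eq_fintype_card]

/-- For every m ≥ 2 the symmetric group on 2m letters has a maximal subgroup M of index 2m together with a maximal subgroup H of M that is not second maximal: some maximal subgroup K of the symmetric group contains H without H being maximal in K. (One may take M the stabiliser of a letter, H ≅ S_m × S_{m−1} inside it, and K ≅ S_m ≀ S₂ the stabiliser of a partition into two m-sets, with H < S_m × S_m < K.) So the prime-index hypothesis in the second-maximality criterion cannot be relaxed to any even index ≥ 4. -/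
theorem result (m : ℕ) (hm : 2 ≤ m) :
    ∃ M H K : Subgroup (Equiv.Perm (Fin (2 * m))), IsCoatom M ∧ M.index = 2 * m ∧ H ≤ M ∧ IsCoatom (H.subgroupOf M) ∧
      IsCoatom K ∧ H ≤ K ∧ ¬ IsCoatom (H.subgroupOf K) := by
  classical
  let Ω := Fin (2 * m)
  let x₀ : Ω := ⟨0, by omega⟩
  let x₁ : Ω := ⟨1, by omega⟩
  let xₘ : Ω := ⟨m, by omega⟩
  let xₘ₁ : Ω := ⟨m + 1, by omega⟩
  let f : Ω → Fin 2 := fun x => if x.val < m then 0 else 1
  have hf0 : ∀ x : Ω, f x = 0 ↔ x.val < m := by
    intro x
    simp only [f]
    split_ifs with h <;> simp [h]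
  have hfcard : ∀ i : Fin 2, Nat.card {x : Ω // f x = i} = m := by
    intro i
    have h0 : Nat.card {x : Ω // x.val < m} = m := by
      refine (Nat.card_congr ⟨fun x => ⟨x.1.1, x.2⟩, fun y => ⟨⟨y.1, by have := y.2; omega⟩, y.2⟩, ?_, ?_⟩).trans (Nat.card_fin m)
      · intro x; rfl
      · intro y; rfl
    have h1 : Nat.card {x : Ω // ¬ x.val < m} = m := by
      refine (Nat.card_congr ⟨fun x => ⟨x.1.1 - m, by have := x.1.2; have := x.2; omega⟩,
        fun y => ⟨⟨y.1 + m, by have := y.2; omega⟩, by simp⟩, ?_, ?_⟩).trans (Nat.card_fin m)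
      · rintro ⟨x, hx⟩
        apply Subtype.ext
        apply Fin.ext
        simp only at hx ⊢
        omega
      · intro y
        apply Fin.ext
        simp
    fin_cases i
    · rw [← h0]
      refine Nat.card_congr (Equiv.subtypeEquivRight fun x => hf0 x)
    · rw [← h1]
      refine Nat.card_congr (Equiv.subtypeEquivRight fun x => ?_)
      show f x = 1 ↔ _
      simp only [f]
      split_ifs with h <;> simp [h]
  let A : Set Ω := {x | f x = 0}
  have hA : ∀ x, x ∈ A ↔ x.val < m := hf0
  have hstabK : stabilizer (Equiv.Perm Ω) A ≤ partStab f := by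
    intro h hh
    apply mem_partStab_of_comp (Equiv.refl _)
    intro x
    have h1 := (mem_stabilizer_set.mp hh) x
    have h2 : f (h x) = 0 ↔ f x = 0 := h1
    simp only [Equiv.refl_apply]
    generalize f (h x) = u at h2 ⊢
    generalize f x = v at h2 ⊢
    revert u v
    decide
  refine ⟨stabilizer (Equiv.Perm Ω) x₀, stabilizer (Equiv.Perm Ω) x₀ ⊓ stabilizer (Equiv.Perm Ω) A, partStab f,
    isCoatom_pointStab x₀ (by simp only [Ω, Fintype.card_fin]; omega), ?_, inf_le_left, ?_, ?_, ?_, ?_⟩
  · rw [index_pointStab]; simp [Ω]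
  · -- the subgroup `H` is maximal in `M`
    rw [isCoatom_subgroupOf_iff inf_le_left]
    have hx₁A : x₁ ∈ A := (hA x₁).mpr (by show 1 < m; omega)
    have hx₀A : x₀ ∈ A := (hA x₀).mpr (by show 0 < m; omega)
    have hxₘA : xₘ ∉ A := fun h => by
      have := (hA xₘ).mp h
      exact absurd this (by show ¬ m < m; omega)
    have hx₀₁ : x₀ ≠ x₁ := by
      intro h
      have := congrArg Fin.val h
      simp [x₀, x₁] at this
    have hx₀ₘ : x₀ ≠ xₘ := by
      intro h
      have := congrArg Fin.val h
      simp only [x₀, xₘ] at this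
      omega
    constructor
    · intro heq
      have h1 : Equiv.swap x₁ xₘ ∈ stabilizer (Equiv.Perm Ω) x₀ := by
        show Equiv.swap x₁ xₘ x₀ = x₀
        exact Equiv.swap_apply_of_ne_of_ne hx₀₁ hx₀ₘ
      rw [← heq] at h1
      have h2 := (mem_stabilizer_set.mp h1.2) x₁
      have h3 : (Equiv.swap x₁ xₘ) • x₁ = xₘ := Equiv.swap_apply_left _ _
      rw [h3] at h2
      exact hxₘA (h2.mpr hx₁A)
    · intro X hHX hXM
      let Ω' := {y : Ω // y ≠ x₀}
      let φ : Equiv.Perm Ω' →* Equiv.Perm Ω := Equiv.Perm.ofSubtype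
      let A' : Set Ω' := {y | y.1 ∈ A}
      have hcard : Nat.card Ω' = 2 * m - 1 := by
        rw [Nat.card_eq_fintype_card, Fintype.card_subtype_compl, Fintype.card_subtype_eq]
        simp [Ω]
      have hcoat : IsCoatom (stabilizer (Equiv.Perm Ω') A') :=
        Equiv.Perm.isCoatom_stabilizer ⟨⟨x₁, hx₀₁.symm⟩, hx₁A⟩ ⟨⟨xₘ, hx₀ₘ.symm⟩, hxₘA⟩ (by
          rw [hcard]; omega)
      have hφH : ∀ s ∈ stabilizer (Equiv.Perm Ω') A', φ s ∈ stabilizer (Equiv.Perm Ω) x₀ ⊓ stabilizer (Equiv.Perm Ω) A := by
        intro s hs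
        constructor
        · show φ s x₀ = x₀
          exact Equiv.Perm.ofSubtype_apply_of_not_mem s (by simp)
        · refine mem_stabilizer_set.mpr ?_
          intro z
          by_cases hz : z = x₀
          · subst hz
            have : φ s x₀ = x₀ := Equiv.Perm.ofSubtype_apply_of_not_mem s (by simp)
            show φ s x₀ ∈ A ↔ _
            rw [this]
          · have h1 := (mem_stabilizer_set.mp hs) ⟨z, hz⟩
            have h2 : φ s z = ((s ⟨z, hz⟩ : Ω') : Ω) := Equiv.Perm.ofSubtype_apply_of_mem s hz
            show φ s z ∈ A ↔ _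
            rw [h2]
            exact h1
      have hrange : ∀ g ∈ stabilizer (Equiv.Perm Ω) x₀, ∃ g', φ g' = g := by
        intro g hg
        have hg' : g x₀ = x₀ := hg
        refine ⟨g.subtypePerm (fun y => ?_), ?_⟩
        · constructor
          · intro hy h
            apply hy
            rw [h]; exact hg'
          · intro hy h
            apply hy
            exact g.injective (h.trans hg'.symm)
        · apply Equiv.Perm.ofSubtype_subtypePerm
          intro y hy h
          apply hy
          rw [h]; exact hg'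
      have hle : stabilizer (Equiv.Perm Ω') A' ≤ X.comap φ := fun s hs => hHX (hφH s hs)
      rcases hcoat.le_iff.mp hle with h1 | h1
      · right
        apply le_antisymm hXM
        intro g hg
        obtain ⟨g', rfl⟩ := hrange g hg
        have : g' ∈ X.comap φ := by rw [h1]; trivial
        exact this
      · left
        apply le_antisymm _ hHX
        intro g hg
        obtain ⟨g', rfl⟩ := hrange g (hXM hg)
        have : g' ∈ X.comap φ := hg
        rw [h1] at this
        exact hφH g' this
  · exact partStab_isCoatom m 2 hm le_rfl f hfcard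
  · exact inf_le_right.trans hstabK
  · intro hcoat
    rw [isCoatom_subgroupOf_iff (inf_le_right.trans hstabK)] at hcoat
    have hx₁A : x₁ ∈ A := (hA x₁).mpr (by show 1 < m; omega)
    have hx₀A : x₀ ∈ A := (hA x₀).mpr (by show 0 < m; omega)
    have hx₀₁ : x₀ ≠ x₁ := by
      intro h
      have := congrArg Fin.val h
      simp [x₀, x₁] at this
    rcases hcoat.2 (stabilizer (Equiv.Perm Ω) A) inf_le_right hstabK with h1 | h1
    · have h2 : Equiv.swap x₀ x₁ ∈ stabilizer (Equiv.Perm Ω) A := by
        rw [mem_stabilizer_set]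
        intro z
        have hf' : f x₀ = f x₁ := by
          have h3 : f x₀ = 0 := hx₀A
          have h4 : f x₁ = 0 := hx₁A
          rw [h3, h4]
        have : f ((Equiv.swap x₀ x₁) z) = f z := by
          by_cases hx : z = x₀
          · rw [hx, Equiv.swap_apply_left, hf']
          by_cases hy : z = x₁
          · rw [hy, Equiv.swap_apply_right, hf']
          rw [Equiv.swap_apply_of_ne_of_ne hx hy]
        show f ((Equiv.swap x₀ x₁) z) = 0 ↔ f z = 0
        rw [this]
      rw [h1] at h2
      have h3 : Equiv.swap x₀ x₁ x₀ = x₀ := h2.1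
      rw [Equiv.swap_apply_left] at h3
      exact hx₀₁ h3.symm
    · obtain ⟨h, hh1, _⟩ := exists_lift_perm f hfcard (Equiv.swap 0 1)
      have hhK : h ∈ partStab f := mem_partStab_of_comp _ hh1
      rw [← h1] at hhK
      have h2 := (mem_stabilizer_set.mp hhK) x₀
      have h3 : f (h x₀) = 1 := by
        rw [hh1]
        have h4 : f x₀ = 0 := hx₀A
        rw [h4, Equiv.swap_apply_left]
      have h5 : h • x₀ ∈ A := h2.mpr hx₀A
      have h6 : f (h x₀) = 0 := h5
      rw [h3] at h6
      exact one_ne_zero h6

end Cfsg.Agent.S5894
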