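import Cfsg.Statements.S5895

set_option autoImplicit false
open Cfsg

namespace Cfsg.Agent.S5895

open scoped BigOperators

variable {F : Type} [Field F] {d : ℕ}

/-- Affine transformations of the coordinate space. -/
abbrev Aff (F : Type) [Field F] (d : ℕ) := (Fin d → F) ≃ᵃ[F] (Fin d → F)

lemma aff_apply (g : Aff F d) (x : Fin d → F) : g x = g.linear x + g 0 := by
  have := g.map_vadd 0 x
  simpa using this

/-- Translations. -/
def tr (v : Fin d → F) : Aff F d := AffineEquiv.constVAdd F _ v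

lemma tr_apply (v x : Fin d → F) : tr v x = v + x := rfl

/-- Linear transformations. -/
def li (A : (Fin d → F) ≃ₗ[F] (Fin d → F)) : Aff F d := A.toAffineEquiv

lemma li_apply (A : (Fin d → F) ≃ₗ[F] (Fin d → F)) (x : Fin d → F) : li A x = A x := rfl

lemma mul_app (g h : Aff F d) (x : Fin d → F) : (g * h) x = g (h x) := rfl

lemma inv_app (g : Aff F d) (x : Fin d → F) : g⁻¹ (g x) = x := by
  have : (g⁻¹ * g) x = x := by rw [inv_mul_cancel]; rfl
  exact this

lemma app_inv (g : Aff F d) (x : Fin d → F) : g (g⁻¹ x) = x := by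
  have : (g * g⁻¹) x = x := by rw [mul_inv_cancel]; rfl
  exact this

lemma aff_ext {g h : Aff F d} (H : ∀ x, g x = h x) : g = h := DFunLike.ext _ _ H

lemma exists_equiv_pair {w u w' u' : Fin d → F} (h : LinearIndependent F ![w, u])
    (h' : LinearIndependent F ![w', u']) :
    ∃ B : (Fin d → F) ≃ₗ[F] (Fin d → F), B w = w' ∧ B u = u' := by
  classical
  have hne : w ≠ u := by
    intro e
    have := h.injective (a₁ := 0) (a₂ := 1) (by simpa using e)
    exact absurd this (by decide)
  have hne' : w' ≠ u' := by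
    intro e
    have := h'.injective (a₁ := 0) (a₂ := 1) (by simpa using e)
    exact absurd this (by decide)
  have hs : LinearIndepOn F id ({w, u} : Set (Fin d → F)) := by
    rw [LinearIndepOn.pair_iff _ hne]
    exact fun s t hst => by
      have := LinearIndependent.pair_iff.mp h s t hst
      exact this
  have hs' : LinearIndepOn F id ({w', u'} : Set (Fin d → F)) := by
    rw [LinearIndepOn.pair_iff _ hne']
    exact fun s t hst => by
      have := LinearIndependent.pair_iff.mp h' s t hst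
      exact this
  let b₁ := Module.Basis.extend hs
  let b₂ := Module.Basis.extend hs'
  let i₁ : (hs.extend (Set.subset_univ _) : Set (Fin d → F)) := ⟨w, hs.subset_extend _ (by simp)⟩
  let j₁ : (hs.extend (Set.subset_univ _) : Set (Fin d → F)) := ⟨u, hs.subset_extend _ (by simp)⟩
  let i₂ : (hs'.extend (Set.subset_univ _) : Set (Fin d → F)) := ⟨w', hs'.subset_extend _ (by simp)⟩
  let j₂ : (hs'.extend (Set.subset_univ _) : Set (Fin d → F)) := ⟨u', hs'.subset_extend _ (by simp)⟩
  have hij₁ : i₁ ≠ j₁ := fun e => hne (congrArg Subtype.val e)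
  have hij₂ : i₂ ≠ j₂ := fun e => hne' (congrArg Subtype.val e)
  let e₀ := b₁.indexEquiv b₂
  let e₁ := e₀.trans (Equiv.swap (e₀ i₁) i₂)
  have he₁ : e₁ i₁ = i₂ := by simp [e₁]
  have he₁' : e₁ j₁ ≠ i₂ := fun e => hij₁ (e₁.injective (e.trans he₁.symm)).symm
  let e := e₁.trans (Equiv.swap (e₁ j₁) j₂)
  have h1 : b₁ i₁ = w := Module.Basis.extend_apply_self _ _
  have h2 : b₂ i₂ = w' := Module.Basis.extend_apply_self _ _
  have h3 : b₁ j₁ = u := Module.Basis.extend_apply_self _ _
  have h4 : b₂ j₂ = u' := Module.Basis.extend_apply_self _ _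
  refine ⟨b₁.equiv b₂ e, ?_, ?_⟩
  · calc (b₁.equiv b₂ e) w = (b₁.equiv b₂ e) (b₁ i₁) := by rw [h1]
      _ = b₂ (e i₁) := Module.Basis.equiv_apply _ _ _ _
      _ = w' := by
        have : e i₁ = i₂ := by
          change Equiv.swap (e₁ j₁) j₂ (e₁ i₁) = i₂
          rw [he₁]
          exact Equiv.swap_apply_of_ne_of_ne he₁'.symm hij₂
        rw [this, h2]
  · calc (b₁.equiv b₂ e) u = (b₁.equiv b₂ e) (b₁ j₁) := by rw [h3]
      _ = b₂ (e j₁) := Module.Basis.equiv_apply _ _ _ _
      _ = u' := by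
        have : e j₁ = j₂ := by
          change Equiv.swap (e₁ j₁) j₂ (e₁ j₁) = j₂
          exact Equiv.swap_apply_left _ _
        rw [this, h4]

lemma exists_equiv_one {v u : Fin d → F} (hv : v ≠ 0) (hu : u ≠ 0) :
    ∃ B : (Fin d → F) ≃ₗ[F] (Fin d → F), B v = u := by
  classical
  have hsv : LinearIndepOn F id ({v} : Set (Fin d → F)) := LinearIndepOn.singleton (v := id) hv
  have hsw : LinearIndepOn F id ({u} : Set (Fin d → F)) := LinearIndepOn.singleton (v := id) hu
  let b₁ := Module.Basis.extend hsv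
  let b₂ := Module.Basis.extend hsw
  let i₁ : (hsv.extend (Set.subset_univ _) : Set (Fin d → F)) := ⟨v, hsv.subset_extend _ rfl⟩
  let i₂ : (hsw.extend (Set.subset_univ _) : Set (Fin d → F)) := ⟨u, hsw.subset_extend _ rfl⟩
  let e₀ := b₁.indexEquiv b₂
  let e := e₀.trans (Equiv.swap (e₀ i₁) i₂)
  refine ⟨b₁.equiv b₂ e, ?_⟩
  have h1 : b₁ i₁ = v := Module.Basis.extend_apply_self _ _
  have h2 : b₂ i₂ = u := Module.Basis.extend_apply_self _ _
  calc (b₁.equiv b₂ e) v = (b₁.equiv b₂ e) (b₁ i₁) := by rw [h1]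
    _ = b₂ (e i₁) := Module.Basis.equiv_apply _ _ _ _
    _ = u := by simp [e, h2]

section main

variable (w₀ : Fin d → F)

/-- Membership in the line. -/
def inL (x : Fin d → F) : Prop := ∃ c : F, x = c • w₀

variable {w₀}

lemma inL_sub {x y : Fin d → F} (hx : inL w₀ x) (hy : inL w₀ y) : inL w₀ (x - y) := by
  obtain ⟨a, rfl⟩ := hx
  obtain ⟨b, rfl⟩ := hy
  exact ⟨a - b, by rw [sub_smul]⟩

lemma inL_add {x y : Fin d → F} (hx : inL w₀ x) (hy : inL w₀ y) : inL w₀ (x + y) := by
  obtain ⟨a, rfl⟩ := hx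
  obtain ⟨b, rfl⟩ := hy
  exact ⟨a + b, by rw [add_smul]⟩

lemma inL_neg {x : Fin d → F} (hx : inL w₀ x) : inL w₀ (-x) := by
  obtain ⟨a, rfl⟩ := hx
  exact ⟨-a, by rw [neg_smul]⟩

lemma inL_zero : inL w₀ 0 := ⟨0, by simp⟩

lemma inL_self : inL w₀ w₀ := ⟨1, by simp⟩

variable (w₀)

/-- The stabilizer of the origin. -/
def MM (_ : Fin d → F) : Subgroup (Aff F d) where
  carrier := {g | g 0 = 0}
  one_mem' := rfl
  mul_mem' := by
    intro a b ha hb
    change a (b 0) = 0
    rw [hb]; exact ha
  inv_mem' := by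
    intro a ha
    change a⁻¹ 0 = 0
    have := inv_app a 0
    rwa [ha] at this

/-- The stabilizer of the parallel class of the line. -/
def KK : Subgroup (Aff F d) where
  carrier := {g | ∀ x y, inL w₀ (x - y) ↔ inL w₀ (g x - g y)}
  one_mem' := fun x y => Iff.rfl
  mul_mem' := by
    intro a b ha hb x y
    exact (hb x y).trans (ha _ _)
  inv_mem' := by
    intro a ha x y
    have := ha (a⁻¹ x) (a⁻¹ y)
    rw [app_inv, app_inv] at this
    exact this.symm

/-- The line-translations together with the stabilizer. -/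
def TT : Subgroup (Aff F d) where
  carrier := {g | g ∈ KK w₀ ∧ inL w₀ (g 0)}
  one_mem' := ⟨(KK w₀).one_mem, inL_zero⟩
  mul_mem' := by
    rintro a b ⟨ha, ha'⟩ ⟨hb, hb'⟩
    refine ⟨(KK w₀).mul_mem ha hb, ?_⟩
    have h1 := (ha (b 0) 0).mp (by simpa using hb')
    have h2 := inL_add h1 ha'
    simpa using h2
  inv_mem' := by
    rintro a ⟨ha, ha'⟩
    refine ⟨(KK w₀).inv_mem ha, ?_⟩
    have h1 := (ha (a⁻¹ 0) 0).mpr (by
      rw [app_inv]
      have := inL_neg ha'
      simpa using this)
    simpa using h1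

variable {w₀}

lemma tr_mem_KK (v : Fin d → F) : tr v ∈ KK w₀ := by
  intro x y
  simp [tr_apply]

lemma li_mem_MM (A : (Fin d → F) ≃ₗ[F] (Fin d → F)) : li A ∈ MM w₀ := by
  change A 0 = 0
  simp

lemma decomp (g : Aff F d) : g = tr (g 0) * li g.linear := by
  apply aff_ext
  intro x
  rw [mul_app, tr_apply, li_apply, aff_apply g x, add_comm]

lemma li_mem_KK_of_fix (hw : w₀ ≠ 0) {A : (Fin d → F) ≃ₗ[F] (Fin d → F)} {c : F} (hc : c ≠ 0)
    (hA : A w₀ = c • w₀) : li A ∈ KK w₀ := by
  intro x y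
  rw [li_apply, li_apply, ← map_sub]
  constructor
  · rintro ⟨e, he⟩
    refine ⟨e * c, ?_⟩
    rw [he, map_smul, hA, smul_smul]
  · rintro ⟨e, he⟩
    refine ⟨e * c⁻¹, ?_⟩
    apply A.injective
    rw [he, map_smul, hA, smul_smul, mul_assoc, inv_mul_cancel₀ hc, mul_one]

/-- The stabilizer of the line is maximal in the general linear group, in the form needed. -/
lemma MM_le (hw : w₀ ≠ 0) (L : Subgroup (Aff F d)) (hH : MM w₀ ⊓ KK w₀ ≤ L) {g : Aff F d}
    (hgL : g ∈ L) (hgM : g ∈ MM w₀) (hgK : g ∉ KK w₀) : MM w₀ ≤ L := by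
  have hg0 : g 0 = 0 := hgM
  have hgl : ∀ x, g x = g.linear x := fun x => by rw [aff_apply, hg0, add_zero]
  -- the image of `w₀` is off the line
  have hA : ¬ inL w₀ (g.linear w₀) := by
    rintro ⟨c, hc⟩
    apply hgK
    have hc0 : c ≠ 0 := by
      rintro rfl
      rw [zero_smul] at hc
      exact hw (g.linear.injective (hc.trans (map_zero _).symm))
    have h1 := li_mem_KK_of_fix hw hc0 hc
    have h2 : li g.linear = g := by
      apply aff_ext
      intro x
      rw [li_apply, hgl]
    rwa [h2] at h1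
  have hind : ∀ u : Fin d → F, ¬ inL w₀ u → LinearIndependent F ![w₀, u] := by
    intro u hu
    rw [LinearIndependent.pair_iff]
    intro s t hst
    have ht : t = 0 := by
      by_contra ht
      apply hu
      refine ⟨-(t⁻¹ * s), ?_⟩
      have h1 : t • u = -(s • w₀) := eq_neg_of_add_eq_zero_right hst
      calc u = t⁻¹ • (t • u) := by rw [smul_smul, inv_mul_cancel₀ ht, one_smul]
        _ = _ := by rw [h1, smul_neg, smul_smul, neg_smul]
    subst ht
    rw [zero_smul, add_zero] at hst
    exact ⟨(smul_eq_zero.mp hst).resolve_right hw, rfl⟩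
  intro x hx
  have hx0 : x 0 = 0 := hx
  have hxl : ∀ y, x y = x.linear y := fun y => by rw [aff_apply, hx0, add_zero]
  by_cases hu : inL w₀ (x.linear w₀)
  · -- `x` stabilizes the line
    obtain ⟨c, hc⟩ := hu
    have hc0 : c ≠ 0 := by
      rintro rfl
      rw [zero_smul] at hc
      exact hw (x.linear.injective (hc.trans (map_zero _).symm))
    have h1 := li_mem_KK_of_fix hw hc0 hc
    have h2 : li x.linear = x := by
      apply aff_ext
      intro y
      rw [li_apply, hxl]
    rw [h2] at h1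
    exact hH ⟨hx, h1⟩
  · obtain ⟨B, hB1, hB2⟩ := exists_equiv_pair (hind _ hA) (hind _ hu)
    have hBH : li B ∈ MM w₀ ⊓ KK w₀ :=
      ⟨li_mem_MM B, li_mem_KK_of_fix hw one_ne_zero (by rw [hB1, one_smul])⟩
    let l := li B * g
    have hlL : l ∈ L := L.mul_mem (hH hBH) hgL
    have hlw : l w₀ = x.linear w₀ := by
      change B (g w₀) = _
      rw [hgl, hB2]
    have hl0 : l 0 = 0 := by
      change B (g 0) = 0
      rw [hg0, map_zero]
    -- the quotient fixes `w₀` and the origin
    let y := l⁻¹ * x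
    have hy0 : y 0 = 0 := by
      change l⁻¹ (x 0) = 0
      rw [hx0]
      have := inv_app l 0
      rwa [hl0] at this
    have hyl : ∀ z, y z = y.linear z := fun z => by rw [aff_apply, hy0, add_zero]
    have hyw : y.linear w₀ = w₀ := by
      rw [← hyl]
      change l⁻¹ (x w₀) = w₀
      rw [hxl, ← hlw, inv_app]
    have hyK : y ∈ KK w₀ := by
      have h1 := li_mem_KK_of_fix hw one_ne_zero (A := y.linear) (by rw [hyw, one_smul])
      have h2 : li y.linear = y := by
        apply aff_ext
        intro z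
        rw [li_apply, hyl]
      rwa [h2] at h1
    have hyL : y ∈ L := hH ⟨hy0, hyK⟩
    have hxy : x = l * y := by
      change x = l * (l⁻¹ * x)
      group
    rw [hxy]
    exact L.mul_mem hlL hyL

end main


/-- For every prime p and every d ≥ 2 there is a finite group G with a maximal subgroup M of index p^d and a maximal subgroup H of M that is not second maximal in G: some maximal subgroup K of G contains H without H being maximal in K. (One may take G the affine group V ⋊ GL(V) of V = 𝔽_p^d, M = GL(V), H the stabiliser in M of a line W of V, and K = V ⋊ H, with H < W ⋊ H < K.) So the prime-index hypothesis in the second-maximality criterion cannot be relaxed to prime-power index. -/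
theorem result (p d : ℕ) (hp : p.Prime)
    (hd : 2 ≤ d) :
    ∃ (G : Type) (_ : Group G) (_ : Finite G) (M H K : Subgroup G), IsCoatom M ∧ M.index = p ^ d ∧ H ≤ M ∧
      IsCoatom (H.subgroupOf M) ∧ IsCoatom K ∧ H ≤ K ∧ ¬ IsCoatom (H.subgroupOf K) := by
  classical
  haveI : Fact p.Prime := ⟨hp⟩
  let i₀ : Fin d := ⟨0, by omega⟩
  let i₁ : Fin d := ⟨1, by omega⟩
  have hi : i₁ ≠ i₀ := by
    intro h
    have := congrArg Fin.val h
    simp [i₀, i₁] at this
  let w₀ : Fin d → ZMod p := Pi.single i₀ 1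
  let u₀ : Fin d → ZMod p := Pi.single i₁ 1
  have hw : w₀ ≠ 0 := by
    intro h
    have := congrFun h i₀
    simp [w₀] at this
  have hu₀ : u₀ ≠ 0 := by
    intro h
    have := congrFun h i₁
    simp [u₀] at this
  have hu : ¬ inL w₀ u₀ := by
    rintro ⟨c, hc⟩
    have := congrFun hc i₁
    simp [u₀, w₀, Pi.single_eq_of_ne hi] at this
  haveI : Finite (Aff (ZMod p) d) :=
    Finite.of_injective (fun g : Aff (ZMod p) d => (g : (Fin d → ZMod p) → (Fin d → ZMod p)))
      DFunLike.coe_injective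
  obtain ⟨B₀, hB₀⟩ := exists_equiv_one hw hu₀
  have hB₀K : li B₀ ∉ KK w₀ := by
    intro h
    have h1 := (h w₀ 0).mp (by simpa using inL_self)
    rw [li_apply, li_apply, hB₀, map_zero, sub_zero] at h1
    exact hu h1
  have hall : ∀ L : Subgroup (Aff (ZMod p) d), MM w₀ ≤ L → (∀ v, tr v ∈ L) → L = ⊤ := by
    intro L hM htr
    rw [eq_top_iff]
    intro h _
    rw [decomp h]
    exact L.mul_mem (htr _) (hM (li_mem_MM _))
  -- `M` is a coatom
  have hMco : IsCoatom (MM w₀) := by
    constructor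
    · intro h
      have : tr w₀ ∈ MM w₀ := by rw [h]; trivial
      have h2 : tr w₀ 0 = 0 := this
      rw [tr_apply, add_zero] at h2
      exact hw h2
    · intro L hL
      obtain ⟨g, hgL, hgM⟩ := SetLike.exists_of_lt hL
      have hv : g 0 ≠ 0 := hgM
      have htrv : tr (g 0) ∈ L := by
        have h1 : tr (g 0) = g * (li g.linear)⁻¹ := eq_mul_inv_of_mul_eq (decomp g).symm
        rw [h1]
        exact L.mul_mem hgL (L.inv_mem (hL.le (li_mem_MM _)))
      apply hall L hL.le
      intro u
      by_cases hu0 : u = 0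
      · have : tr u = 1 := by
          apply aff_ext
          intro x
          rw [tr_apply, hu0, zero_add]
          rfl
        rw [this]; exact L.one_mem
      · obtain ⟨B, hB⟩ := exists_equiv_one hv hu0
        have h1 : tr u = li B * tr (g 0) * (li B)⁻¹ := by
          apply aff_ext
          intro x
          obtain ⟨y, rfl⟩ : ∃ y, x = li B y := ⟨(li B)⁻¹ x, (app_inv _ _).symm⟩
          rw [mul_app, mul_app, inv_app, tr_apply, tr_apply, li_apply, li_apply, map_add, hB]
        rw [h1]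
        exact L.mul_mem (L.mul_mem (hL.le (li_mem_MM _)) htrv) (L.inv_mem (hL.le (li_mem_MM _)))
  -- the index
  have hMindex : (MM w₀).index = p ^ d := by
    letI act : MulAction (Aff (ZMod p) d) (Fin d → ZMod p) :=
      { smul := fun g x => g x
        one_smul := fun _ => rfl
        mul_smul := fun _ _ _ => rfl }
    have h1 : MM w₀ = MulAction.stabilizer (Aff (ZMod p) d) (0 : Fin d → ZMod p) := by
      ext g
      exact Iff.rfl
    have h2 : MulAction.orbit (Aff (ZMod p) d) (0 : Fin d → ZMod p) = Set.univ := by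
      ext x
      simp only [Set.mem_univ, iff_true]
      refine ⟨tr x, ?_⟩
      change tr x 0 = x
      rw [tr_apply, add_zero]
    rw [h1, MulAction.index_stabilizer, h2, Set.ncard_univ]
    simp
  -- `H` is maximal in `M`
  have hHco : IsCoatom ((MM w₀ ⊓ KK w₀).subgroupOf (MM w₀)) := by
    constructor
    · intro h
      have : (⟨li B₀, li_mem_MM B₀⟩ : MM w₀) ∈ (MM w₀ ⊓ KK w₀).subgroupOf (MM w₀) := by
        rw [h]; trivial
      exact hB₀K (Subgroup.mem_subgroupOf.mp this).2
    · intro L₀ hL₀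
      obtain ⟨g, hgL, hgH⟩ := SetLike.exists_of_lt hL₀
      rw [eq_top_iff]
      have hle : MM w₀ ≤ L₀.map (MM w₀).subtype := by
        refine MM_le hw (L₀.map (MM w₀).subtype) ?_ (g := (g : Aff (ZMod p) d)) ⟨g, hgL, rfl⟩ g.2 ?_
        · intro x hx
          exact ⟨⟨x, hx.1⟩, hL₀.le (Subgroup.mem_subgroupOf.mpr hx), rfl⟩
        · intro hK
          exact hgH (Subgroup.mem_subgroupOf.mpr ⟨g.2, hK⟩)
      intro y _
      obtain ⟨z, hz, hzy⟩ := hle y.2
      have : z = y := Subtype.ext hzy
      exact this ▸ hz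
  -- `K` is a coatom
  have hKco : IsCoatom (KK w₀) := by
    constructor
    · intro h
      apply hB₀K
      rw [h]; trivial
    · intro L hL
      obtain ⟨g, hgL, hgK⟩ := SetLike.exists_of_lt hL
      have htr : ∀ v, tr v ∈ L := fun v => hL.le (tr_mem_KK v)
      have hl : li g.linear ∈ L := by
        have h1 : li g.linear = (tr (g 0))⁻¹ * g := eq_inv_mul_of_mul_eq (decomp g).symm
        rw [h1]
        exact L.mul_mem (L.inv_mem (htr _)) hgL
      have hlK : li g.linear ∉ KK w₀ := by
        intro hK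
        apply hgK
        rw [decomp g]
        exact (KK w₀).mul_mem (tr_mem_KK _) hK
      apply hall L ?_ htr
      exact MM_le hw L (inf_le_right.trans hL.le) hl (li_mem_MM _) hlK
  refine ⟨Aff (ZMod p) d, inferInstance, inferInstance, MM w₀, MM w₀ ⊓ KK w₀, KK w₀, hMco, hMindex,
    inf_le_left, hHco, hKco, inf_le_right, ?_⟩
  intro hco
  have hle : (MM w₀ ⊓ KK w₀).subgroupOf (KK w₀) ≤ (TT w₀).subgroupOf (KK w₀) := by
    intro x hx
    have hx' := Subgroup.mem_subgroupOf.mp hx
    refine Subgroup.mem_subgroupOf.mpr ⟨x.2, ?_⟩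
    have : (x : Aff (ZMod p) d) 0 = 0 := hx'.1
    rw [this]
    exact inL_zero
  have hlt : (MM w₀ ⊓ KK w₀).subgroupOf (KK w₀) < (TT w₀).subgroupOf (KK w₀) := by
    refine lt_of_le_of_ne hle ?_
    intro heq
    have h1 : (⟨tr w₀, tr_mem_KK w₀⟩ : KK w₀) ∈ (TT w₀).subgroupOf (KK w₀) := by
      refine Subgroup.mem_subgroupOf.mpr ⟨tr_mem_KK w₀, ?_⟩
      change inL w₀ (tr w₀ 0)
      rw [tr_apply, add_zero]
      exact inL_self
    rw [← heq] at h1
    have h2 := (Subgroup.mem_subgroupOf.mp h1).1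
    have h3 : tr w₀ 0 = 0 := h2
    rw [tr_apply, add_zero] at h3
    exact hw h3
  have htop := hco.2 _ hlt
  have h1 : (⟨tr u₀, tr_mem_KK u₀⟩ : KK w₀) ∈ (TT w₀).subgroupOf (KK w₀) := by
    rw [htop]; trivial
  have h2 := (Subgroup.mem_subgroupOf.mp h1).2
  have h3 : inL w₀ (tr u₀ 0) := h2
  rw [tr_apply, add_zero] at h3
  exact hu h3

end Cfsg.Agent.S5895
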