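import Cfsg.Statements.S5896

set_option autoImplicit false
open Cfsg

namespace Cfsg.Agent.S5896

open scoped commutatorElement

/-! ### Unitriangular matrices over the field with two elements -/

section UT

variable {n : ℕ}

abbrev MatN (n : ℕ) := Matrix (Fin n) (Fin n) (ZMod 2)

/-- Upper unitriangular. -/
def IsUT (A : MatN n) : Prop := ∀ i j, j ≤ i → A i j = (1 : MatN n) i j

lemma isUT_one : IsUT (1 : MatN n) := fun _ _ _ => rfl

lemma IsUT.mul {A B : MatN n} (hA : IsUT A) (hB : IsUT B) : IsUT (A * B) := by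
  intro i j hji
  rw [Matrix.mul_apply, Finset.sum_eq_single i]
  · rw [hA i i le_rfl, Matrix.one_apply_eq, one_mul, hB i j hji]
  · intro l _ hl
    rcases lt_or_gt_of_ne hl with h | h
    · rw [hA i l h.le, Matrix.one_apply_ne (Ne.symm hl), zero_mul]
    · have hlj : j ≤ l := hji.trans h.le
      rw [hB l j hlj, Matrix.one_apply_ne (ne_of_gt (lt_of_le_of_lt hji h)), mul_zero]
  · simp

lemma pow_zero_of {N : MatN n} (hN : ∀ i j, j ≤ i → N i j = 0) (k : ℕ) :
    ∀ i j : Fin n, (j : ℕ) < i + k → (N ^ k) i j = 0 := by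
  induction k with
  | zero =>
    intro i j h
    rw [pow_zero, Matrix.one_apply_ne]
    intro e
    rw [e] at h
    simp at h
  | succ k ih =>
    intro i j h
    rw [pow_succ', Matrix.mul_apply]
    apply Finset.sum_eq_zero
    intro l _
    by_cases hl : l ≤ i
    · rw [hN i l hl, zero_mul]
    · have h1 : (i : ℕ) < l := by
        rw [not_le] at hl; exact hl
      rw [ih l j (by omega), mul_zero]

lemma IsUT.pow_eq_one [NeZero n] {A : MatN n} (hA : IsUT A) : A ^ (2 ^ n) = 1 := by
  haveI : Fact (Nat.Prime 2) := ⟨Nat.prime_two⟩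
  haveI : Nonempty (Fin n) := ⟨⟨0, Nat.pos_of_ne_zero (NeZero.ne n)⟩⟩
  have hN : ∀ i j, j ≤ i → (A - 1) i j = 0 := by
    intro i j h
    rw [Matrix.sub_apply, hA i j h, sub_self]
  have hz : (A - 1) ^ (2 ^ n) = 0 := by
    ext i j
    rw [pow_zero_of hN (2 ^ n) i j]
    · rfl
    · have h1 : n < 2 ^ n := Nat.lt_two_pow_self
      have := j.2
      omega
  have hcomm : Commute (1 : MatN n) (A - 1) := Commute.one_left _
  have h : ((1 : MatN n) + (A - 1)) ^ 2 ^ n = 1 ^ 2 ^ n + (A - 1) ^ 2 ^ n :=
    add_pow_char_pow_of_commute 2 n hcomm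
  rw [one_pow, hz, add_zero, add_sub_cancel] at h
  exact h

/-- The unitriangular group. -/
def UM (n : ℕ) [NeZero n] : Subgroup (GL (Fin n) (ZMod 2)) where
  carrier := {g | IsUT (g : MatN n)}
  one_mem' := isUT_one
  mul_mem' := fun {a b} ha hb => by
    change IsUT ((a : MatN n) * (b : MatN n))
    exact ha.mul hb
  inv_mem' := fun {a} ha => by
    have hpow : ∀ k : ℕ, IsUT (((a ^ k : GL (Fin n) (ZMod 2))) : MatN n) := by
      intro k
      induction k with
      | zero => exact isUT_one
      | succ k ih =>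
        rw [pow_succ]
        change IsUT (((a ^ k : GL (Fin n) (ZMod 2)) : MatN n) * (a : MatN n))
        exact ih.mul ha
    have h : a⁻¹ = a ^ (orderOf a - 1) := by
      apply inv_eq_of_mul_eq_one_left
      rw [← pow_succ, Nat.sub_add_cancel (orderOf_pos a), pow_orderOf_eq_one]
    rw [Set.mem_setOf_eq, h]
    exact hpow _

lemma UM_exp [NeZero n] (g : UM n) : g ^ (2 ^ n) = 1 := by
  apply Subtype.ext
  apply Units.ext
  exact IsUT.pow_eq_one g.2

/-- Elementary matrices. -/
def EE (i j : Fin n) : MatN n := Matrix.single i j 1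

lemma EE_add_self (i j : Fin n) : EE i j + EE i j = 0 := by
  ext a b
  exact CharTwo.add_self_eq_zero _

lemma EE_mul_same (i j k : Fin n) : EE i j * EE j k = EE i k := by
  simp [EE, Matrix.single_mul_single_same]

lemma EE_mul_ne (i j k l : Fin n) (h : j ≠ k) : EE i j * EE k l = 0 := by
  simp [EE, Matrix.single_mul_single_of_ne, h]

/-- Elementary elements of the general linear group. -/
def ee (i j : Fin n) (h : i ≠ j) : GL (Fin n) (ZMod 2) where
  val := 1 + EE i j
  inv := 1 + EE i j
  val_inv := by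
    have e : (1 + EE i j) * (1 + EE i j) = 1 + (EE i j + EE i j) + EE i j * EE i j := by noncomm_ring
    rw [e, EE_add_self, EE_mul_ne _ _ _ _ h.symm]; simp
  inv_val := by
    have e : (1 + EE i j) * (1 + EE i j) = 1 + (EE i j + EE i j) + EE i j * EE i j := by noncomm_ring
    rw [e, EE_add_self, EE_mul_ne _ _ _ _ h.symm]; simp

lemma ee_mem [NeZero n] (i j : Fin n) (h : i < j) : ee i j h.ne ∈ UM n := by
  intro a b hab
  change (1 + EE i j) a b = _
  rw [Matrix.add_apply]
  have : EE i j a b = 0 := by
    rw [EE, Matrix.single_apply_of_ne]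
    rintro ⟨rfl, rfl⟩
    exact absurd hab (not_le.mpr h)
  rw [this, add_zero]

lemma ee_comm (i j k : Fin n) (hij : i ≠ j) (hjk : j ≠ k) (hik : i ≠ k) :
    ⁅ee i j hij, ee j k hjk⁆ = ee i k hik := by
  apply Units.ext
  change (1 + EE i j) * (1 + EE j k) * (1 + EE i j) * (1 + EE j k) = 1 + EE i k
  have e1 : (1 + EE i j) * (1 + EE j k) = 1 + EE i j + EE j k + EE i k := by
    rw [← EE_mul_same i j k]; noncomm_ring
  have e2 : (1 + EE i j + EE j k + EE i k) * (1 + EE i j) = 1 + EE j k + EE i k := by
    have e : (1 + EE i j + EE j k + EE i k) * (1 + EE i j) = 1 + (EE i j + EE i j) + EE j k + EE i k +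
        EE i j * EE i j + EE j k * EE i j + EE i k * EE i j := by noncomm_ring
    rw [e, EE_add_self, EE_mul_ne i j i j hij.symm, EE_mul_ne j k i j hik.symm,
      EE_mul_ne i k i j hik.symm]
    simp
  have e3 : (1 + EE j k + EE i k) * (1 + EE j k) = 1 + EE i k := by
    have e : (1 + EE j k + EE i k) * (1 + EE j k) = 1 + (EE j k + EE j k) + EE i k +
        EE j k * EE j k + EE i k * EE j k := by noncomm_ring
    rw [e, EE_add_self, EE_mul_ne j k j k hjk.symm, EE_mul_ne i k j k hjk.symm]
    simp
  rw [e1, e2, e3]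

lemma ee_derived [NeZero n] (m : ℕ) : ∀ (i j : Fin n) (h : i < j), (i : ℕ) + 2 ^ m ≤ j →
    (⟨ee i j h.ne, ee_mem i j h⟩ : UM n) ∈ derivedSeries (UM n) m := by
  induction m with
  | zero => intro i j h _; trivial
  | succ m ih =>
    intro i j h hij
    have hp : 0 < 2 ^ m := by positivity
    have hp2 : 2 ^ (m + 1) = 2 ^ m + 2 ^ m := by ring
    let l : Fin n := ⟨(i : ℕ) + 2 ^ m, by have := j.2; omega⟩
    have hil : i < l := by
      rw [Fin.lt_def]; simp only [l]; omega
    have hlj : l < j := by
      rw [Fin.lt_def]; simp only [l]; omega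
    have h1 := ih i l hil (by simp only [l]; exact le_rfl)
    have h2 := ih l j hlj (by simp only [l]; omega)
    rw [derivedSeries_succ]
    have h3 := Subgroup.commutator_mem_commutator h1 h2
    have h4 : ⁅(⟨ee i l hil.ne, ee_mem i l hil⟩ : UM n), (⟨ee l j hlj.ne, ee_mem l j hlj⟩ : UM n)⁆ =
        (⟨ee i j h.ne, ee_mem i j h⟩ : UM n) := by
      apply Subtype.ext
      exact ee_comm i l j hil.ne hlj.ne h.ne
    rwa [h4] at h3

theorem UM_series (d : ℕ) : ∃ (n : ℕ) (_ : NeZero n), derivedSeries (UM n) d ≠ ⊥ := by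
  refine ⟨2 ^ d + 1, ⟨Nat.succ_ne_zero _⟩, ?_⟩
  intro hbot
  have hp : 0 < 2 ^ d := by positivity
  let j : Fin (2 ^ d + 1) := ⟨2 ^ d, by omega⟩
  have h0j : (0 : Fin (2 ^ d + 1)) < j := by
    rw [Fin.lt_def]; simpa [j] using hp
  have h := ee_derived d (0 : Fin (2 ^ d + 1)) j h0j (by simp [j])
  rw [hbot, Subgroup.mem_bot] at h
  have h1 : ee (0 : Fin (2 ^ d + 1)) j h0j.ne = 1 := congrArg Subtype.val h
  have h2 := congrArg (fun g : GL (Fin (2 ^ d + 1)) (ZMod 2) => (g : MatN (2 ^ d + 1)) 0 j) h1
  change (1 + EE (0 : Fin (2 ^ d + 1)) j) 0 j = (1 : MatN (2 ^ d + 1)) 0 j at h2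
  rw [Matrix.add_apply, Matrix.one_apply_ne h0j.ne, zero_add, EE, Matrix.single_apply_same] at h2
  exact one_ne_zero h2

end UT

/-! ### The wreath product with `A₅` -/

section wreath

abbrev Q5 := alternatingGroup (Fin 5)

variable {S : Type} [Group S]

/-- Permuting coordinates. -/
def act : Q5 →* MulAut (Fin 5 → S) where
  toFun σ := MulEquiv.arrowCongr (σ : Equiv.Perm (Fin 5)) (MulEquiv.refl S)
  map_one' := by ext; rfl
  map_mul' := by intros; ext; rfl

abbrev WW (S : Type) [Group S] := (Fin 5 → S) ⋊[act (S := S)] Q5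

open SemidirectProduct

lemma act_apply (σ : Q5) (b : Fin 5 → S) (i : Fin 5) :
    act σ b i = b ((σ : Equiv.Perm (Fin 5))⁻¹ i) := rfl

lemma act_single (σ : Q5) (i : Fin 5) (s : S) :
    act σ (Pi.mulSingle i s) = Pi.mulSingle ((σ : Equiv.Perm (Fin 5)) i) s := by
  ext j
  rw [act_apply]
  by_cases h : j = (σ : Equiv.Perm (Fin 5)) i
  · subst h; simp
  · rw [Pi.mulSingle_eq_of_ne h, Pi.mulSingle_eq_of_ne]
    intro e
    apply h
    rw [← e]; simp

lemma inr_mem (k : ℕ) : ∀ q : Q5, (inr q : WW S) ∈ derivedSeries (WW S) k := by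
  induction k with
  | zero => intro q; trivial
  | succ k ih =>
    intro q
    have hq : q ∈ commutator Q5 := by
      rw [commutator_alternatingGroup_eq_top (by simp)]; trivial
    have hle : (⊤ : Subgroup Q5).map (inr : Q5 →* WW S) ≤ derivedSeries (WW S) k := by
      rintro _ ⟨x, -, rfl⟩
      exact ih x
    rw [derivedSeries_succ]
    have h1 : (commutator Q5).map (inr : Q5 →* WW S) ≤
        ⁅derivedSeries (WW S) k, derivedSeries (WW S) k⁆ := by
      rw [commutator, Subgroup.map_commutator]
      exact Subgroup.commutator_mono hle hle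
    exact h1 ⟨q, hq, rfl⟩

/-- Root elements of the base group. -/
def rt (a b : Fin 5) (s : S) : WW S := inl (Pi.mulSingle a s * Pi.mulSingle b s⁻¹)

lemma exists_three : ∀ a b : Fin 5, ∃ c : Fin 5, c ≠ a ∧ c ≠ b := by decide

lemma exists_four : ∀ a b c : Fin 5, ∃ d : Fin 5, d ≠ a ∧ d ≠ b ∧ d ≠ c := by decide

lemma rt_mem (k : ℕ) : ∀ (a b : Fin 5), a ≠ b → ∀ s : S, rt a b s ∈ derivedSeries (WW S) k := by
  induction k with
  | zero => intro a b _ s; trivial
  | succ k ih =>
    intro a b hab s
    obtain ⟨c, hca, hcb⟩ := exists_three a b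
    obtain ⟨d, hda, hdb, hdc⟩ := exists_four a b c
    let g₀ : Equiv.Perm (Fin 5) := Equiv.swap a d * Equiv.swap a b
    have hg₀ : g₀ ∈ alternatingGroup (Fin 5) := by
      rw [Equiv.Perm.mem_alternatingGroup, map_mul, Equiv.Perm.sign_swap hda.symm,
        Equiv.Perm.sign_swap hab]
      rfl
    let g : Q5 := ⟨g₀, hg₀⟩
    have hga : (g : Equiv.Perm (Fin 5)) a = b := by
      change Equiv.swap a d (Equiv.swap a b a) = b
      rw [Equiv.swap_apply_left, Equiv.swap_apply_of_ne_of_ne hab.symm hdb.symm]
    have hgc : (g : Equiv.Perm (Fin 5)) c = c := by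
      change Equiv.swap a d (Equiv.swap a b c) = c
      rw [Equiv.swap_apply_of_ne_of_ne hca hcb, Equiv.swap_apply_of_ne_of_ne hca hdc.symm]
    have hx := ih c a hca s
    have hinr := inr_mem (S := S) k g
    rw [derivedSeries_succ]
    have h1 := Subgroup.commutator_mem_commutator (Subgroup.inv_mem _ hx) hinr
    have h2 : ⁅(rt c a s)⁻¹, (inr g : WW S)⁆ = rt a b s := by
      have h3 : (inr g : WW S) * rt c a s * (inr g)⁻¹ = inl (act g (Pi.mulSingle c s * Pi.mulSingle a s⁻¹)) := by
        rw [rt, ← map_inv, inl_aut]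
      have h5 : ⁅(rt c a s)⁻¹, (inr g : WW S)⁆ = (rt c a s)⁻¹ * ((inr g : WW S) * rt c a s * (inr g)⁻¹) := by
        rw [commutatorElement_def]; group
      rw [h5, h3]
      unfold rt
      rw [← map_inv, ← map_mul]
      congr 1
      rw [map_mul, act_single, act_single, hga, hgc]
      funext i
      simp only [Pi.mul_apply, Pi.inv_apply, Pi.mulSingle_apply]
      have hab' := hab
      by_cases h1 : i = c <;> by_cases h2 : i = a <;> by_cases h3 : i = b <;> simp_all
    rwa [h2] at h1

lemma single_comm_mem (k : ℕ) (s t : S) :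
    (inl (Pi.mulSingle 0 ⁅s, t⁆) : WW S) ∈ derivedSeries (WW S) k := by
  cases k with
  | zero => trivial
  | succ k =>
    have h1 := rt_mem (S := S) k 0 1 (by decide) s
    have h2 := rt_mem (S := S) k 0 2 (by decide) t
    have h3 := Subgroup.commutator_mem_commutator h1 h2
    rw [derivedSeries_succ]
    have h4 : ⁅rt (0 : Fin 5) 1 s, rt (0 : Fin 5) 2 t⁆ = (inl (Pi.mulSingle 0 ⁅s, t⁆) : WW S) := by
      rw [rt, rt, ← map_commutatorElement]
      congr 1
      funext i
      simp only [commutatorElement_def, Pi.mul_apply, Pi.inv_apply, Pi.mulSingle_apply]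
      have e01 : ¬ (1 : Fin 5) = 2 := by decide
      by_cases h0 : i = 0
      · subst h0; simp
      · by_cases h1 : i = 1
        · subst h1; simp
        · by_cases h2 : i = 2
          · subst h2; simp
          · simp [h0, h1, h2]
    rwa [h4] at h3

lemma single_mem (k : ℕ) {x : S} (hx : x ∈ commutator S) :
    (inl (Pi.mulSingle 0 x) : WW S) ∈ derivedSeries (WW S) k := by
  let f : S →* WW S := (inl : (Fin 5 → S) →* WW S).comp (MonoidHom.mulSingle (fun _ => S) 0)
  have hle : commutator S ≤ (derivedSeries (WW S) k).comap f := by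
    rw [commutator_eq_closure, Subgroup.closure_le]
    rintro _ ⟨a, b, rfl⟩
    exact single_comm_mem k a b
  exact hle hx

lemma map_derived_commutator (S : Type) [Group S] (d : ℕ) :
    (derivedSeries (commutator S) d).map (commutator S).subtype = derivedSeries S (d + 1) := by
  induction d with
  | zero =>
    rw [derivedSeries_zero, ← MonoidHom.range_eq_map, Subgroup.range_subtype]
    rfl
  | succ d ih =>
    rw [derivedSeries_succ, Subgroup.map_commutator, ih, derivedSeries_succ S (d + 1)]

/-- A surjection pulls coatoms back to coatoms. -/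
lemma coatom_comap {A B : Type*} [Group A] [Group B] (f : A →* B) (hf : Function.Surjective f)
    {K : Subgroup B} (hK : IsCoatom K) : IsCoatom (K.comap f) := by
  constructor
  · intro h
    apply hK.1
    rw [eq_top_iff]
    intro x _
    obtain ⟨y, rfl⟩ := hf x
    have : y ∈ K.comap f := by rw [h]; trivial
    exact this
  · intro L hL
    have hlt : K < L.map f := by
      refine lt_of_le_of_ne ?_ ?_
      · intro x hx
        obtain ⟨y, rfl⟩ := hf x
        exact ⟨y, hL.le hx, rfl⟩
      · intro heq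
        obtain ⟨y, hy, hyK⟩ := SetLike.exists_of_lt hL
        apply hyK
        have : f y ∈ L.map f := ⟨y, hy, rfl⟩
        rw [← heq] at this
        exact this
    have htop := hK.2 _ hlt
    rw [eq_top_iff]
    intro y _
    have : f y ∈ L.map f := by rw [htop]; trivial
    obtain ⟨l, hl, hly⟩ := this
    have h1 : y * l⁻¹ ∈ K.comap f := by
      change f (y * l⁻¹) ∈ K
      rw [map_mul, map_inv, hly, mul_inv_cancel]
      exact K.one_mem
    have h2 := L.mul_mem (hL.le h1) hl
    simpa using h2

set_option synthInstance.maxHeartbeats 400000 in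
set_option synthInstance.maxSize 2000 in
lemma perm_four_aux1 : ∀ x y : Equiv.Perm (Fin 4), Equiv.Perm.sign (x * y * x⁻¹ * y⁻¹) = 1 := by
  decide +kernel

set_option synthInstance.maxHeartbeats 400000 in
set_option synthInstance.maxSize 2000 in
lemma perm_four_aux2 : ∀ x y : Equiv.Perm (Fin 4), Equiv.Perm.sign x = 1 → Equiv.Perm.sign y = 1 →
    (Equiv.Perm.sign (x * y * x⁻¹ * y⁻¹) = 1 ∧ (x * y * x⁻¹ * y⁻¹) * (x * y * x⁻¹ * y⁻¹) = 1) := by
  decide +kernel

set_option synthInstance.maxHeartbeats 400000 in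
set_option synthInstance.maxSize 2000 in
lemma perm_four_aux3 : ∀ x y : Equiv.Perm (Fin 4), Equiv.Perm.sign x = 1 → x * x = 1 →
    Equiv.Perm.sign y = 1 → y * y = 1 → (x * y) * (x * y) = 1 := by
  decide +kernel

set_option synthInstance.maxHeartbeats 400000 in
set_option synthInstance.maxSize 2000 in
lemma perm_four_aux4 : ∀ x y : Equiv.Perm (Fin 4), Equiv.Perm.sign x = 1 → x * x = 1 →
    Equiv.Perm.sign y = 1 → y * y = 1 → x * y * x⁻¹ * y⁻¹ = 1 := by
  decide +kernel

lemma isSolvable_perm_four : Group.IsSolvable (Equiv.Perm (Fin 4)) := by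
  let V : Subgroup (Equiv.Perm (Fin 4)) :=
    { carrier := {x | Equiv.Perm.sign x = 1 ∧ x * x = 1}
      one_mem' := ⟨map_one _, one_mul 1⟩
      mul_mem' := by
        rintro a b ⟨ha, ha'⟩ ⟨hb, hb'⟩
        exact ⟨by rw [map_mul, ha, hb, one_mul], perm_four_aux3 a b ha ha' hb hb'⟩
      inv_mem' := by
        rintro a ⟨ha, ha'⟩
        have h1 : a⁻¹ = a := inv_eq_of_mul_eq_one_left ha'
        rw [Set.mem_setOf_eq, h1]
        exact ⟨ha, ha'⟩ }
  have h1 : derivedSeries (Equiv.Perm (Fin 4)) 1 ≤ alternatingGroup (Fin 4) := by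
    change ⁅derivedSeries (Equiv.Perm (Fin 4)) 0, derivedSeries (Equiv.Perm (Fin 4)) 0⁆ ≤ _
    rw [Subgroup.commutator_le]
    intro x _ y _
    rw [Equiv.Perm.mem_alternatingGroup, commutatorElement_def]
    exact perm_four_aux1 x y
  have h2 : derivedSeries (Equiv.Perm (Fin 4)) 2 ≤ V := by
    change ⁅derivedSeries (Equiv.Perm (Fin 4)) 1, derivedSeries (Equiv.Perm (Fin 4)) 1⁆ ≤ V
    rw [Subgroup.commutator_le]
    intro x hx y hy
    have hx' := Equiv.Perm.mem_alternatingGroup.mp (h1 hx)
    have hy' := Equiv.Perm.mem_alternatingGroup.mp (h1 hy)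
    rw [commutatorElement_def]
    exact perm_four_aux2 x y hx' hy'
  have h3 : derivedSeries (Equiv.Perm (Fin 4)) 3 ≤ ⊥ := by
    change ⁅derivedSeries (Equiv.Perm (Fin 4)) 2, derivedSeries (Equiv.Perm (Fin 4)) 2⁆ ≤ ⊥
    rw [Subgroup.commutator_le]
    intro x hx y hy
    obtain ⟨hx1, hx2⟩ := h2 hx
    obtain ⟨hy1, hy2⟩ := h2 hy
    rw [Subgroup.mem_bot, commutatorElement_def]
    exact perm_four_aux4 x y hx1 hx2 hy1 hy2
  exact ⟨⟨3, le_bot_iff.mp h3⟩⟩

/-- The point stabilizer of `A₅`. -/
def T0 : Subgroup Q5 := MulAction.stabilizer Q5 (0 : Fin 5)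

lemma T0_coatom : IsCoatom T0 := by
  have := alternatingGroup.isCoatom_stabilizer_singleton (α := Fin 5) (by simp) (s := {0})
    (Set.singleton_nonempty _) Set.subsingleton_singleton
  rwa [MulAction.stabilizer_singleton] at this

lemma T0_solvable : Group.IsSolvable T0 := by
  -- the restriction to the complement of the point
  have hfix : ∀ g : T0, (g.1 : Equiv.Perm (Fin 5)) 0 = 0 := fun g => g.2
  let ρ : T0 →* Equiv.Perm {x : Fin 5 // x ≠ 0} :=
    MonoidHom.mk' (fun g => (g.1 : Equiv.Perm (Fin 5)).subtypePerm (fun x => by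
      constructor
      · intro hx h0
        apply hx
        rw [h0, hfix]
      · intro hx h0
        apply hx
        apply (g.1 : Equiv.Perm (Fin 5)).injective
        rw [h0, hfix])) (by
      intro a b
      ext x
      rfl)
  have hρ : Function.Injective ρ := by
    rw [injective_iff_map_eq_one]
    intro g hg
    apply Subtype.ext
    apply Subtype.ext
    ext x
    by_cases hx : x = 0
    · subst hx
      rw [hfix]; rfl
    · have := congrArg (fun σ : Equiv.Perm {x : Fin 5 // x ≠ 0} => (σ ⟨x, hx⟩ : Fin 5)) hg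
      simpa [ρ] using congrArg Fin.val this
  have hcard : Nonempty ({x : Fin 5 // x ≠ 0} ≃ Fin 4) := by
    apply Fintype.card_eq.mp
    simp [Fintype.card_subtype_compl]
  obtain ⟨e⟩ := hcard
  have h4 : Group.IsSolvable (Equiv.Perm (Fin 4)) := isSolvable_perm_four
  exact Group.isSolvable_of_isSolvable_injective
    (f := (e.permCongrHom.toMonoidHom).comp ρ) ((e.permCongrHom.injective).comp hρ)

theorem wreath_main (S : Type) [Group S] [Finite S] [Group.IsSolvable (Fin 5 → S)] (d : ℕ)
    (hS : derivedSeries S (d + 1) ≠ ⊥) :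
    ∃ (G : Type) (_ : Group G) (_ : Finite G) (H : Subgroup G), commutator G = ⊤ ∧ IsCoatom H ∧
      Group.IsSolvable H ∧ derivedSeries H d ≠ ⊥ := by
  classical
  haveI : Finite (WW S) := Finite.of_equiv _ SemidirectProduct.equivProd.symm
  -- the derived series stabilizes
  obtain ⟨k, hk⟩ : ∃ k, derivedSeries (WW S) (k + 1) = derivedSeries (WW S) k := by
    by_contra hc
    push Not at hc
    have hanti : StrictAnti (derivedSeries (WW S)) := by
      apply strictAnti_nat_of_succ_lt
      intro n
      exact lt_of_le_of_ne (derivedSeries_antitone (WW S) (Nat.le_succ n)) (hc n)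
    exact not_injective_infinite_finite _ hanti.injective
  let P : Subgroup (WW S) := derivedSeries (WW S) k
  have hperf : commutator P = ⊤ := by
    apply Subgroup.map_injective P.subtype_injective
    rw [Subgroup.map_subtype_commutator, ← MonoidHom.range_eq_map, Subgroup.range_subtype]
    exact hk
  let f : P →* Q5 := (rightHom : WW S →* Q5).comp P.subtype
  have hf : Function.Surjective f := by
    intro q
    exact ⟨⟨inr q, inr_mem k q⟩, by simp [f]⟩
  let H : Subgroup P := T0.comap f
  have hco : IsCoatom H := coatom_comap f hf T0_coatom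
  -- solvability
  let HW : Subgroup (WW S) := T0.comap (rightHom : WW S →* Q5)
  have hHW : Group.IsSolvable HW := by
    haveI := T0_solvable
    let a : (Fin 5 → S) →* HW :=
      MonoidHom.codRestrict (inl : (Fin 5 → S) →* WW S) HW (fun b => by
        change rightHom (inl b) ∈ T0
        rw [rightHom_inl]
        exact T0.one_mem)
    let c : HW →* T0 := MonoidHom.codRestrict ((rightHom : WW S →* Q5).comp HW.subtype) T0
      (fun x => x.2)
    refine Group.isSolvable_of_ker_le_range a c ?_
    intro x hx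
    have h1 : (x.1).right = 1 := congrArg Subtype.val hx
    refine ⟨x.1.left, ?_⟩
    apply Subtype.ext
    change inl x.1.left = x.1
    apply SemidirectProduct.ext
    · simp
    · simp [h1]
  have hHs : Group.IsSolvable H := by
    let i : H →* HW := MonoidHom.codRestrict (P.subtype.comp H.subtype) HW (fun x => x.2)
    refine Group.isSolvable_of_isSolvable_injective (f := i) ?_
    intro a b hab
    apply Subtype.ext
    apply Subtype.ext
    exact congrArg (fun z : HW => (z : WW S)) hab
  -- the derived length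
  have hι : ∀ x : commutator S, (inl (Pi.mulSingle 0 (x : S)) : WW S) ∈ P := fun x =>
    single_mem k x.2
  have hιH : ∀ x : commutator S, (⟨inl (Pi.mulSingle 0 (x : S)), hι x⟩ : P) ∈ H := by
    intro x
    change rightHom (inl (Pi.mulSingle 0 (x : S)) : WW S) ∈ T0
    rw [rightHom_inl]
    exact T0.one_mem
  let ι : commutator S →* H :=
    { toFun := fun x => ⟨⟨inl (Pi.mulSingle 0 (x : S)), hι x⟩, hιH x⟩
      map_one' := by
        apply Subtype.ext
        apply Subtype.ext
        simp
      map_mul' := by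
        intro a b
        apply Subtype.ext
        apply Subtype.ext
        simp [Pi.mulSingle_mul] }
  have hιinj : Function.Injective ι := by
    intro a b hab
    have h1 : (inl (Pi.mulSingle 0 (a : S)) : WW S) = inl (Pi.mulSingle 0 (b : S)) :=
      congrArg (fun z : H => (z.1 : WW S)) hab
    have h2 := inl_injective h1
    have h3 := congrFun h2 0
    simp only [Pi.mulSingle_eq_same] at h3
    exact Subtype.ext h3
  refine ⟨P, inferInstance, inferInstance, H, hperf, hco, hHs, ?_⟩
  intro hbot
  have hle := map_derivedSeries_le_derivedSeries ι d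
  rw [hbot, le_bot_iff, Subgroup.map_eq_bot_iff_of_injective _ hιinj] at hle
  apply hS
  rw [← map_derived_commutator, hle, Subgroup.map_bot]

end wreath


/-- Finite perfect groups have solvable maximal subgroups of unbounded derived length: for every d there is a finite perfect group G (equal to its commutator subgroup) with a solvable maximal subgroup H whose derived length exceeds d, i.e. the d-th term of the derived series of H is non-trivial. (Take the derived subgroup of a wreath product S ≀ A₅ with S solvable of large derived length, and H the preimage of a maximal subgroup of A₅.) -/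
theorem result (d : ℕ) :
    ∃ (G : Type) (_ : Group G) (_ : Finite G) (H : Subgroup G), commutator G = ⊤ ∧ IsCoatom H ∧ Group.IsSolvable H ∧
      derivedSeries H d ≠ ⊥ := by
  obtain ⟨n, hn, hd⟩ := UM_series (d + 1)
  haveI : Fact (Nat.Prime 2) := ⟨Nat.prime_two⟩
  have hp : IsPGroup 2 (Fin 5 → UM n) := by
    intro b
    refine ⟨n, ?_⟩
    funext i
    exact UM_exp (b i)
  haveI : Group.IsNilpotent (Fin 5 → UM n) := hp.isNilpotent
  exact wreath_main (UM n) d hd

end Cfsg.Agent.S5896
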