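import Mathlib
import Cfsg.Statements.S5902

set_option autoImplicit false
open Cfsg

namespace Cfsg.Agent.S5902

/-- Complements inside `X`, seen in `G`. -/
lemma exists_compl_of_le {G : Type*} [Group G] (X : Subgroup G)
    (hK : ComplementedLattice (Subgroup X)) (Y : Subgroup G) (hY : Y ≤ X) :
    ∃ C : Subgroup G, C ≤ X ∧ Y ⊔ C = X ∧ Y ⊓ C = ⊥ := by
  obtain ⟨C0, hC0⟩ := hK.exists_isCompl (Y.subgroupOf X)
  refine ⟨C0.map X.subtype, Subgroup.map_subtype_le _, ?_, ?_⟩
  · have h := congrArg (Subgroup.map X.subtype) hC0.sup_eq_top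
    rw [Subgroup.map_sup, Subgroup.map_subgroupOf_eq_of_le hY, ← MonoidHom.range_eq_map,
      Subgroup.range_subtype] at h
    exact h
  · rw [eq_bot_iff]
    rintro z ⟨hzY, hzC⟩
    obtain ⟨c, hc, rfl⟩ := hzC
    have : c ∈ Y.subgroupOf X ⊓ C0 := ⟨hzY, hc⟩
    rw [hC0.inf_eq_bot] at this
    simpa using this

lemma exists_compl_of_not_le {G : Type*} [Group G] [Finite G] (X M : Subgroup G)
    (hK : ComplementedLattice (Subgroup X))
    (huniq : ∀ M' : Subgroup G, IsCoatom M' → X ≤ M' → M' = M)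
    (H : Subgroup G) (hH : ¬ H ≤ M) :
    ∃ C : Subgroup G, H ⊔ C = ⊤ ∧ H ⊓ C = ⊥ := by
  obtain ⟨C, hCX, hsup, hinf⟩ := exists_compl_of_le X hK (H ⊓ X) inf_le_right
  refine ⟨C, ?_, ?_⟩
  · by_contra hne
    obtain ⟨M', hM', hle⟩ := (eq_top_or_exists_le_coatom (H ⊔ C)).resolve_left hne
    have hXle : X ≤ H ⊔ C := by
      rw [← hsup]
      exact sup_le (inf_le_left.trans le_sup_left) le_sup_right
    have := huniq M' hM' (hXle.trans hle)
    subst this
    exact hH (le_sup_left.trans hle)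
  · rw [eq_bot_iff]
    rintro z ⟨hzH, hzC⟩
    have : z ∈ (H ⊓ X) ⊓ C := ⟨⟨hzH, hCX hzC⟩, hzC⟩
    rwa [hinf] at this

/-- Let G be a finite group, X a subgroup whose own subgroup lattice is complemented, and suppose X lies in exactly one maximal subgroup M of G. Then every subgroup H of G not contained in the normal core of M has a complement in the subgroup lattice of G (some C with H ⊔ C = G and H ⊓ C = 1); in particular the subgroup lattice of G modulo the normal core of M is complemented. -/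
theorem result {G : Type*} [Group G] [Finite G] (X M : Subgroup G)
    (hK : ComplementedLattice (Subgroup X))
    (hM : IsCoatom M) (hXM : X ≤ M) (huniq : ∀ M' : Subgroup G, IsCoatom M' → X ≤ M' → M' = M) :
    (∀ H : Subgroup G, ¬ H ≤ M.normalCore → ∃ C : Subgroup G, H ⊔ C = ⊤ ∧ H ⊓ C = ⊥) ∧
    ComplementedLattice (Subgroup (G ⧸ M.normalCore)) := by
  have h1 : ∀ H : Subgroup G, ¬ H ≤ M.normalCore → ∃ C : Subgroup G, H ⊔ C = ⊤ ∧ H ⊓ C = ⊥ := by
    intro H hH
    rw [SetLike.not_le_iff_exists] at hH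
    obtain ⟨h, hhH, hh⟩ := hH
    -- some conjugate of `h` is not in `M`
    have : ∃ g : G, g * h * g⁻¹ ∉ M := by
      by_contra hcon
      push Not at hcon
      exact hh (fun g => hcon g)
    obtain ⟨g, hg⟩ := this
    set φ : G ≃* G := MulAut.conj g with hφ
    have hH' : ¬ H.map φ.toMonoidHom ≤ M := by
      intro hle
      exact hg (hle ⟨h, hhH, rfl⟩)
    obtain ⟨C, hC1, hC2⟩ := exists_compl_of_not_le X M hK huniq _ hH'
    refine ⟨C.map φ.symm.toMonoidHom, ?_, ?_⟩
    · have := congrArg (Subgroup.map φ.symm.toMonoidHom) hC1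
      rw [Subgroup.map_sup, Subgroup.map_map] at this
      have e : (φ.symm.toMonoidHom.comp φ.toMonoidHom) = MonoidHom.id G := by
        ext x; simp
      rw [e, Subgroup.map_id] at this
      rw [this]
      ext x
      simp only [Subgroup.mem_map, Subgroup.mem_top, iff_true]
      exact ⟨φ x, trivial, by simp⟩
    · rw [eq_bot_iff]
      rintro z ⟨hzH, c, hc, rfl⟩
      have : c ∈ H.map φ.toMonoidHom ⊓ C := by
        refine ⟨⟨φ.symm.toMonoidHom c, hzH, by simp⟩, hc⟩
      rw [hC2] at this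
      have hc1 : c = 1 := by simpa using this
      simp [hc1]
  refine ⟨h1, ⟨fun Q => ?_⟩⟩
  set N := M.normalCore with hN
  set H := Q.comap (QuotientGroup.mk' N) with hHdef
  have hmap : H.map (QuotientGroup.mk' N) = Q :=
    Subgroup.map_comap_eq_self_of_surjective (QuotientGroup.mk'_surjective N) Q
  by_cases hH : H ≤ N
  · refine ⟨⊤, ?_⟩
    have hQ : Q = ⊥ := by
      rw [← hmap, eq_bot_iff]
      rintro z ⟨h, hh, rfl⟩
      have : (h : G ⧸ N) = 1 := (QuotientGroup.eq_one_iff h).mpr (hH hh)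
      simpa using this
    rw [hQ]
    exact isCompl_bot_top
  · obtain ⟨C, hC1, hC2⟩ := h1 H hH
    refine ⟨C.map (QuotientGroup.mk' N), ?_⟩
    rw [isCompl_iff]
    constructor
    · rw [disjoint_iff, eq_bot_iff]
      rintro z ⟨hzQ, c, hc, rfl⟩
      have : c ∈ H ⊓ C := ⟨hzQ, hc⟩
      rw [hC2] at this
      have hc1 : c = 1 := by simpa using this
      simp [hc1]
    · rw [codisjoint_iff]
      have := congrArg (Subgroup.map (QuotientGroup.mk' N)) hC1
      rw [Subgroup.map_sup, hmap] at this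
      rw [this]
      exact Subgroup.map_top_of_surjective _ (QuotientGroup.mk'_surjective N)

end Cfsg.Agent.S5902
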