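import Mathlib
import Cfsg.Statements.S5903
import Cfsg.Agent.S5901

set_option autoImplicit false
open Cfsg

namespace Cfsg.Agent.S5903

lemma interval_compl {G : Type*} [Group G] (X N : Subgroup G) [hn : (N.subgroupOf X).Normal]
    (hNX : N ≤ X) (hK : ComplementedLattice (Subgroup (X ⧸ N.subgroupOf X)))
    (Y : Subgroup G) (hNY : N ≤ Y) (hYX : Y ≤ X) :
    ∃ C : Subgroup G, N ≤ C ∧ C ≤ X ∧ Y ⊔ C = X ∧ Y ⊓ C = N := by
  set N' := N.subgroupOf X with hN'
  set π := QuotientGroup.mk' N' with hπ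
  obtain ⟨C0, hC0⟩ := hK.exists_isCompl ((Y.subgroupOf X).map π)
  have hkerle : N' ≤ C0.comap π := by
    intro x hx
    have : π x = 1 := (QuotientGroup.eq_one_iff x).mpr hx
    simp [this, Subgroup.mem_comap]
  refine ⟨(C0.comap π).map X.subtype, ?_, Subgroup.map_subtype_le _, ?_, ?_⟩
  · intro z hz
    exact ⟨⟨z, hNX hz⟩, hkerle hz, rfl⟩
  · apply le_antisymm (sup_le hYX (Subgroup.map_subtype_le _))
    intro x hx
    set Z := (Y ⊔ (C0.comap π).map X.subtype).subgroupOf X with hZ
    have hmaple : (Y.subgroupOf X).map π ⊔ C0 ≤ Z.map π := by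
      refine sup_le ?_ ?_
      · refine Subgroup.map_mono ?_
        intro y hy
        exact Subgroup.mem_subgroupOf.mpr (Subgroup.mem_sup_left hy)
      · intro c hc
        obtain ⟨y, rfl⟩ := QuotientGroup.mk'_surjective N' c
        refine ⟨y, ?_, rfl⟩
        refine Subgroup.mem_subgroupOf.mpr (Subgroup.mem_sup_right ?_)
        exact ⟨y, hc, rfl⟩
    rw [hC0.sup_eq_top, top_le_iff] at hmaple
    have hxm : π ⟨x, hx⟩ ∈ Z.map π := by rw [hmaple]; trivial
    obtain ⟨z, hz, hzx⟩ := hxm
    have hdiv : z⁻¹ * ⟨x, hx⟩ ∈ N' := by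
      have := (QuotientGroup.eq (s := N')).mp hzx
      exact this
    have hNZ : N' ≤ Z := by
      intro y hy
      exact Subgroup.mem_subgroupOf.mpr (Subgroup.mem_sup_left (hNY hy))
    have : (⟨x, hx⟩ : X) ∈ Z := by
      have := Z.mul_mem hz (hNZ hdiv)
      simpa using this
    exact this
  · apply le_antisymm
    · rintro z ⟨hzY, x, hx, rfl⟩
      have h1 : π x ∈ (Y.subgroupOf X).map π ⊓ C0 :=
        ⟨⟨x, Subgroup.mem_subgroupOf.mpr hzY, rfl⟩, hx⟩
      rw [hC0.inf_eq_bot] at h1
      have : x ∈ N' := (QuotientGroup.eq_one_iff x).mp h1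
      exact this
    · exact le_inf hNY (fun z hz => ⟨⟨z, hNX hz⟩, hkerle hz, rfl⟩)

lemma compl_of_map_compl {G : Type*} [Group G] (H : Subgroup G) (φ : G ≃* G)
    (h : ∃ C : Subgroup G, H.map φ.toMonoidHom ⊔ C = ⊤ ∧ H.map φ.toMonoidHom ⊓ C = ⊥) :
    ∃ C : Subgroup G, H ⊔ C = ⊤ ∧ H ⊓ C = ⊥ := by
  obtain ⟨C, hC1, hC2⟩ := h
  refine ⟨C.map φ.symm.toMonoidHom, ?_, ?_⟩
  · have := congrArg (Subgroup.map φ.symm.toMonoidHom) hC1
    rw [Subgroup.map_sup, Subgroup.map_map] at this
    have e : (φ.symm.toMonoidHom.comp φ.toMonoidHom) = MonoidHom.id G := by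
      ext x; simp
    rw [e, Subgroup.map_id] at this
    rw [this]
    ext x
    simp only [Subgroup.mem_map, Subgroup.mem_top, iff_true]
    exact ⟨φ x, trivial, by simp⟩
  · rw [eq_bot_iff]
    rintro z ⟨hzH, c, hc, rfl⟩
    have : c ∈ H.map φ.toMonoidHom ⊓ C := by
      refine ⟨⟨φ.symm.toMonoidHom c, hzH, by simp⟩, hc⟩
    rw [hC2] at this
    have hc1 : c = 1 := by simpa using this
    simp [hc1]

/-- Let G be a finite simple group, X a subgroup lying in exactly one maximal subgroup M of G, and N a subgroup of prime order with N ≤ X that is central in M. If the subgroup lattice of X/N is complemented, then the subgroup lattice of G is complemented. -/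
theorem result {G : Type*} [Group G] [Finite G] [IsSimpleGroup G] (X M N : Subgroup G)
    (hM : IsCoatom M) (hXM : X ≤ M) (huniq : ∀ M' : Subgroup G, IsCoatom M' → X ≤ M' → M' = M)
    (hNX : N ≤ X) (hN : (Nat.card N).Prime) (hcen : ∀ n ∈ N, ∀ m ∈ M, m * n = n * m)
    [(N.subgroupOf X).Normal] (hK : ComplementedLattice (Subgroup (X ⧸ N.subgroupOf X))) :
    ComplementedLattice (Subgroup G) := by
  have hX : X ≠ ⊤ := by
    intro h
    apply hM.1
    exact top_le_iff.mp (h ▸ hXM)
  haveI : Fact (Nat.card N).Prime := ⟨hN⟩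
  obtain ⟨n0, hn0⟩ : ∃ n0 : N, n0 ≠ 1 := by
    haveI : Nontrivial N := Finite.one_lt_card_iff_nontrivial.mp hN.one_lt
    exact exists_ne 1
  set n : G := (n0 : G) with hn
  have hn1 : n ≠ 1 := by
    intro h; exact hn0 (Subtype.ext h)
  have hnN : n ∈ N := n0.2
  set A : Set G := Group.conjugatesOfSet {n} with hA
  have hAgen : Subgroup.closure A = ⊤ := by
    have hnc : Subgroup.normalClosure ({n} : Set G) = Subgroup.closure A := rfl
    rw [← hnc]
    rcases IsSimpleGroup.eq_bot_or_eq_top_of_normal (Subgroup.normalClosure ({n} : Set G))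
      Subgroup.normalClosure_normal with h | h
    · exfalso
      have : n ∈ Subgroup.normalClosure ({n} : Set G) := Subgroup.subset_normalClosure rfl
      rw [h] at this
      exact hn1 (by simpa using this)
    · exact h
  have hAconj : ∀ (g a : G), a ∈ A → g * a * g⁻¹ ∈ A :=
    fun g a ha => Group.conj_mem_conjugatesOfSet ha
  have hnA : n ∈ A := Group.subset_conjugatesOfSet rfl
  have hAchar : ∀ a ∈ A, ∃ g : G, a = g * n * g⁻¹ := by
    intro a ha
    obtain ⟨b, hb, hba⟩ := Group.mem_conjugatesOfSet_iff.mp ha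
    obtain rfl : b = n := hb
    obtain ⟨c, hc⟩ := isConj_iff.mp hba
    exact ⟨c, hc.symm⟩
  refine ⟨fun H => ?_⟩
  suffices hmain : ∃ C : Subgroup G, H ⊔ C = ⊤ ∧ H ⊓ C = ⊥ by
    obtain ⟨C, h1, h2⟩ := hmain
    exact ⟨C, disjoint_iff.mpr h2, codisjoint_iff.mpr h1⟩
  by_cases hH0 : H = ⊥
  · exact ⟨⊤, by simp, by simp [hH0]⟩
  by_cases hH1 : H = ⊤
  · exact ⟨⊥, by simp [hH1], by simp⟩
  -- find a conjugate of `n` outside `H` not centralising `H`
  have hkey : ∃ a ∈ A, a ∉ H ∧ ∃ h ∈ H, a * h ≠ h * a := by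
    by_contra hcon
    push Not at hcon
    have hstable : ∀ g : G, (∀ b ∈ A, b ∈ H → g * b * g⁻¹ ∈ H) ∧ (∀ b ∈ A, b ∈ H → g⁻¹ * b * g ∈ H) := by
      intro g
      have hg : g ∈ Subgroup.closure A := by rw [hAgen]; trivial
      induction hg using Subgroup.closure_induction with
      | mem a ha =>
        constructor
        · intro b _ hbH
          by_cases haH : a ∈ H
          · exact H.mul_mem (H.mul_mem haH hbH) (H.inv_mem haH)
          · have := hcon a ha haH b hbH
            rw [this, mul_inv_cancel_right]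
            exact hbH
        · intro b _ hbH
          by_cases haH : a ∈ H
          · exact H.mul_mem (H.mul_mem (H.inv_mem haH) hbH) haH
          · have := hcon a ha haH b hbH
            rw [mul_assoc, ← this, inv_mul_cancel_left]
            exact hbH
      | one => simp
      | mul x y _ _ hx hy =>
        constructor
        · intro b hb hbH
          have := hx.1 (y * b * y⁻¹) (hAconj y b hb) (hy.1 b hb hbH)
          simpa [mul_assoc] using this
        · intro b hb hbH
          have hAinv : x⁻¹ * b * x⁻¹⁻¹ ∈ A := hAconj x⁻¹ b hb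
          have := hy.2 (x⁻¹ * b * x) (by simpa using hAinv) (hx.2 b hb hbH)
          simpa [mul_assoc] using this
      | inv x _ hx =>
        constructor
        · intro b hb hbH
          simpa using hx.2 b hb hbH
        · intro b hb hbH
          simpa using hx.1 b hb hbH
    by_cases hex : ∃ b ∈ A, b ∈ H
    · obtain ⟨b, hbA, hbH⟩ := hex
      apply hH1
      rw [eq_top_iff, ← hAgen, Subgroup.closure_le]
      intro a ha
      obtain ⟨c, rfl⟩ := hAchar b hbA
      obtain ⟨d, rfl⟩ := hAchar a ha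
      have := (hstable (d * c⁻¹)).1 _ hbA hbH
      have e : d * c⁻¹ * (c * n * c⁻¹) * (d * c⁻¹)⁻¹ = d * n * d⁻¹ := by group
      rw [e] at this
      exact this
    · push Not at hex
      -- `H` is central
      have hcent : (⊤ : Subgroup G) ≤ Subgroup.centralizer (H : Set G) := by
        rw [← hAgen, Subgroup.closure_le]
        intro a ha h hh
        exact (hcon a ha (hex a ha) h hh).symm
      have hnormal : H.Normal := by
        refine ⟨fun h hh g => ?_⟩
        have := hcent (Subgroup.mem_top g)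
        have h2 : h * g = g * h := this h hh
        rw [← h2]
        simpa using hh
      rcases IsSimpleGroup.eq_bot_or_eq_top_of_normal H hnormal with h | h
      · exact hH0 h
      · exact hH1 h
  obtain ⟨a, haA, haH, h, hh, hne⟩ := hkey
  obtain ⟨g, rfl⟩ := hAchar a haA
  set φ : G ≃* G := MulAut.conj g⁻¹ with hφ
  have hφapply : ∀ x, φ x = g⁻¹ * x * g := by
    intro x; simp [hφ, MulAut.conj_apply]
  apply compl_of_map_compl H φ
  have hnH' : n ∉ H.map φ.toMonoidHom := by
    rintro ⟨y, hy, hyn⟩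
    apply haH
    have hyn' : g⁻¹ * y * g = n := by
      rw [← hφapply]; exact hyn
    have : y = g * n * g⁻¹ := by rw [← hyn']; group
    rwa [← this]
  have hnot : ¬ H.map φ.toMonoidHom ≤ M := by
    intro hle
    have h1 : φ h ∈ M := hle ⟨h, hh, rfl⟩
    have h2 := hcen n hnN (φ h) h1
    apply hne
    rw [hφapply] at h2
    have : g * (g⁻¹ * h * g * n) * g⁻¹ = g * (n * (g⁻¹ * h * g)) * g⁻¹ := by rw [h2]
    calc g * n * g⁻¹ * h = g * (n * (g⁻¹ * h * g)) * g⁻¹ := by group
      _ = g * (g⁻¹ * h * g * n) * g⁻¹ := this.symm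
      _ = h * (g * n * g⁻¹) := by group
  have hcap : H.map φ.toMonoidHom ⊓ N = ⊥ := by
    rcases Subgroup.eq_bot_or_eq_top_of_prime_card ((H.map φ.toMonoidHom).subgroupOf N) with h0 | h0
    · rw [eq_bot_iff]
      rintro z ⟨hz1, hz2⟩
      have : (⟨z, hz2⟩ : N) ∈ (H.map φ.toMonoidHom).subgroupOf N :=
        Subgroup.mem_subgroupOf.mpr hz1
      rw [h0] at this
      have h3 : (⟨z, hz2⟩ : N) = 1 := by simpa using this
      have h4 : z = 1 := congrArg Subtype.val h3
      simp [h4]
    · exfalso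
      apply hnH'
      have : n0 ∈ (H.map φ.toMonoidHom).subgroupOf N := by rw [h0]; trivial
      exact Subgroup.mem_subgroupOf.mp this
  exact Cfsg.Agent.S5901.result N X M hNX hX
    (fun Y hNY hYX => interval_compl X N hNX hK Y hNY hYX) hM hXM huniq _ hnot hcap

end Cfsg.Agent.S5903
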