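import Mathlib
import Cfsg.Statements.S5904

set_option autoImplicit false
open Cfsg

namespace Cfsg.Agent.S5904

open Pointwise

variable {Ω : Type*}

/-- The stabilizer of the partition `{O, Oᶜ}`. -/
def partStab (O : Set Ω) : Subgroup (Equiv.Perm Ω) where
  carrier := {g | g • O = O ∨ g • O = Oᶜ}
  one_mem' := Or.inl (one_smul _ _)
  mul_mem' := by
    intro a b ha hb
    simp only [Set.mem_setOf_eq] at ha hb ⊢
    rw [mul_smul]
    rcases hb with hb | hb <;> rcases ha with ha | ha
    · left; rw [hb, ha]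
    · right; rw [hb, ha]
    · right; rw [hb, Set.smul_set_compl, ha]
    · left; rw [hb, Set.smul_set_compl, ha, compl_compl]
  inv_mem' := by
    intro a ha
    simp only [Set.mem_setOf_eq] at ha ⊢
    rcases ha with ha | ha
    · left; rw [inv_smul_eq_iff, ha]
    · right; rw [inv_smul_eq_iff, Set.smul_set_compl, ha, compl_compl]

/-- Let Ω be a finite set with more than two elements and O ⊆ Ω a subset with exactly as many elements as its complement. Then the setwise stabilizer of O in the symmetric group on Ω is not a maximal subgroup (it is properly contained in the stabilizer of the partition {O, Ω ∖ O}, which is proper). -/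
theorem result {Ω : Type*} [Fintype Ω] [DecidableEq Ω] (hΩ : 2 < Fintype.card Ω)
    (O : Set Ω) (hO : Nat.card O = Nat.card ↥Oᶜ) :
    ¬ IsCoatom (MulAction.stabilizer (Equiv.Perm Ω) O) := by
  classical
  intro hco
  have hsum : Nat.card O + Nat.card ↥Oᶜ = Fintype.card Ω := by
    rw [← Nat.card_sum, ← Nat.card_eq_fintype_card]
    exact Nat.card_congr (Equiv.Set.sumCompl O)
  have hO2 : 2 ≤ Nat.card O := by omega
  have hOc2 : 1 ≤ Nat.card ↥Oᶜ := by omega
  -- the element swapping `O` and its complement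
  have e : O ≃ ↥Oᶜ := Fintype.equivOfCardEq (by simpa [Nat.card_eq_fintype_card] using hO)
  let τ : Equiv.Perm Ω :=
    ((Equiv.Set.sumCompl O).symm.trans ((Equiv.sumCongr e e.symm).trans (Equiv.sumComm _ _))).trans
      (Equiv.Set.sumCompl O)
  have hτ1 : ∀ x : O, τ x = (e x : Ω) := by
    intro x
    simp [τ, Equiv.Set.sumCompl_symm_apply_of_mem]
  have hτ2 : ∀ x : ↥Oᶜ, τ x = (e.symm x : Ω) := by
    intro x
    have hx : (x : Ω) ∉ O := x.2
    simp [τ, Equiv.Set.sumCompl_symm_apply_of_notMem, hx]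
  have hτO : τ • O = Oᶜ := by
    ext y
    rw [Set.mem_smul_set]
    constructor
    · rintro ⟨x, hx, rfl⟩
      have := hτ1 ⟨x, hx⟩
      show τ x ∈ Oᶜ
      simp only at this
      rw [this]
      exact (e ⟨x, hx⟩).2
    · intro hy
      refine ⟨e.symm ⟨y, hy⟩, (e.symm ⟨y, hy⟩).2, ?_⟩
      have := hτ1 (e.symm ⟨y, hy⟩)
      show τ _ = y
      rw [this]
      simp
  obtain ⟨a⟩ : Nonempty O := (Nat.card_pos_iff.mp (by omega)).1
  obtain ⟨b⟩ : Nonempty ↥Oᶜ := (Nat.card_pos_iff.mp (by omega)).1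
  obtain ⟨a', ha'⟩ : ∃ a' : O, a' ≠ a := by
    haveI : Nontrivial O := Finite.one_lt_card_iff_nontrivial.mp (by omega)
    exact exists_ne a
  have hτs : τ ∉ MulAction.stabilizer (Equiv.Perm Ω) O := by
    intro h
    have h' : τ • O = O := h
    rw [hτO] at h'
    exact (Set.ext_iff.mp h' a).mpr a.2 a.2
  have hlt : MulAction.stabilizer (Equiv.Perm Ω) O < partStab O := by
    rw [SetLike.lt_iff_le_and_exists]
    exact ⟨fun g hg => Or.inl hg, τ, Or.inr hτO, hτs⟩
  have htop := hco.2 _ hlt
  have hsw : Equiv.swap (a : Ω) (b : Ω) ∈ partStab O := by rw [htop]; trivial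
  have hbO : (b : Ω) ∉ O := b.2
  have hab : (a : Ω) ≠ b := fun h => hbO (h ▸ a.2)
  rcases hsw with h | h
  · have : (b : Ω) ∈ Equiv.swap (a : Ω) (b : Ω) • O := by
      rw [Set.mem_smul_set]
      exact ⟨a, a.2, by simp⟩
    rw [h] at this
    exact hbO this
  · have hne1 : (a' : Ω) ≠ a := fun h' => ha' (Subtype.ext h')
    have hne2 : (a' : Ω) ≠ b := fun h' => hbO (h' ▸ a'.2)
    have : (a' : Ω) ∈ Equiv.swap (a : Ω) (b : Ω) • O := by
      rw [Set.mem_smul_set]
      exact ⟨a', a'.2, Equiv.swap_apply_of_ne_of_ne hne1 hne2⟩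
    rw [h] at this
    exact this a'.2

end Cfsg.Agent.S5904
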