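import Cfsg.Statements.S5908

set_option autoImplicit false
open Cfsg

namespace Cfsg.Agent.S5908

open Matrix

section

variable {F : Type*} [Field F] [Fintype F]

lemma charTwo_of (hF : Fintype.card F = 4) : CharP F 2 := by
  have h : ringChar F = 2 := FiniteField.even_card_iff_char_two.mpr (by rw [hF])
  exact ringChar.of_eq h

lemma cube_of_ne (hF : Fintype.card F = 4) {x : F} (hx : x ≠ 0) : x ^ 3 = 1 := by
  have := FiniteField.pow_card_sub_one_eq_one x hx
  rwa [hF] at this

lemma exists_omega (hF : Fintype.card F = 4) : ∃ ω : F, ω ^ 2 + ω + 1 = 0 := by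
  classical
  have h : ((Finset.univ : Finset F) \ {0, 1}).Nonempty := by
    rw [← Finset.card_pos]
    have := Finset.card_le_card_sdiff_add_card (s := (Finset.univ : Finset F)) (t := ({0, 1} : Finset F))
    have h2 : ({0, 1} : Finset F).card ≤ 2 := Finset.card_insert_le _ _ |>.trans (by simp)
    rw [Finset.card_univ, hF] at this
    omega
  obtain ⟨ω, hω⟩ := h
  simp only [Finset.mem_sdiff, Finset.mem_univ, true_and, Finset.mem_insert, Finset.mem_singleton, not_or] at hω
  refine ⟨ω, ?_⟩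
  have h3 := cube_of_ne hF hω.1
  have h4 : (ω - 1) * (ω ^ 2 + ω + 1) = 0 := by
    have : (ω - 1) * (ω ^ 2 + ω + 1) = ω ^ 3 - 1 := by ring
    rw [this, h3, sub_self]
  rcases mul_eq_zero.mp h4 with h5 | h5
  · exact absurd (sub_eq_zero.mp h5) hω.2
  · exact h5

/-- Orthonormal columns give an isometry. -/
lemma pres_of_cols (hF : Fintype.card F = 4) (A : Matrix (Fin 3) (Fin 3) F)
    (hA : ∀ a b, ∑ k, A k a * (A k b) ^ 2 = if a = b then 1 else 0) (u v : Fin 3 → F) :
    Cfsg.hermForm 3 F 2 (A *ᵥ u) (A *ᵥ v) = Cfsg.hermForm 3 F 2 u v := by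
  haveI := charTwo_of hF
  have hsq : ∀ k, (∑ j, A k j * v j) ^ 2 = ∑ j, (A k j) ^ 2 * (v j) ^ 2 := by
    intro k
    rw [sum_pow_char 2]
    exact Finset.sum_congr rfl (fun j _ => mul_pow _ _ _)
  unfold Cfsg.hermForm
  calc ∑ k, (A *ᵥ u) k * ((A *ᵥ v) k) ^ 2
      = ∑ k, (∑ i, A k i * u i) * (∑ j, (A k j) ^ 2 * (v j) ^ 2) := by
        apply Finset.sum_congr rfl
        intro k _
        have h1 : (A *ᵥ u) k = ∑ i, A k i * u i := rfl
        have h2 : (A *ᵥ v) k = ∑ j, A k j * v j := rfl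
        rw [h1, h2, hsq]
    _ = ∑ i, ∑ j, u i * (v j) ^ 2 * (∑ k, A k i * (A k j) ^ 2) := by
        simp only [Fin.sum_univ_three]
        ring
    _ = ∑ i, u i * (v i) ^ 2 := by
        apply Finset.sum_congr rfl
        intro i _
        rw [Finset.sum_eq_single i]
        · rw [hA, if_pos rfl, mul_one]
        · intro j _ hj
          rw [hA, if_neg (Ne.symm hj), mul_zero]
        · simp

/-- The columns of an involutive isometry have exactly one non-zero entry. -/
lemma invol_column (hF : Fintype.card F = 4) (T : Matrix (Fin 3) (Fin 3) F) (hT2 : T * T = 1)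
    (hu : ∀ u v, Cfsg.hermForm 3 F 2 (T *ᵥ u) (T *ᵥ v) = Cfsg.hermForm 3 F 2 u v) (i : Fin 3) :
    ∃ j, T j i ≠ 0 ∧ ∀ k, k ≠ j → T k i = 0 := by
  classical
  haveI := charTwo_of hF
  have hform : ∀ (a : Fin 3) (w : Fin 3 → F), Cfsg.hermForm 3 F 2 w (Pi.single a 1) = w a := by
    intro a w
    unfold Cfsg.hermForm
    rw [Finset.sum_eq_single a]
    · simp
    · intro b _ hb
      simp [Pi.single_eq_of_ne hb]
    · simp
  have hform' : ∀ (a : Fin 3) (w : Fin 3 → F), Cfsg.hermForm 3 F 2 (Pi.single a 1) w = (w a) ^ 2 := by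
    intro a w
    unfold Cfsg.hermForm
    rw [Finset.sum_eq_single a]
    · simp
    · intro b _ hb
      simp [Pi.single_eq_of_ne hb]
    · simp
  have hcol : ∀ a : Fin 3, T *ᵥ Pi.single a 1 = fun k => T k a := by
    intro a
    ext k
    simp
  -- Hermitian
  have hherm : ∀ a b, T a b = (T b a) ^ 2 := by
    intro a b
    have h1 := hu (Pi.single b 1) (T *ᵥ Pi.single a 1)
    rw [Matrix.mulVec_mulVec, hT2, Matrix.one_mulVec, hform, hcol a, hcol b, hform'] at h1
    exact h1
  -- the norm of a column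
  have hnorm : ∀ a, ∑ k, (T k a) ^ 3 = 1 := by
    intro a
    have h1 := hu (Pi.single a 1) (Pi.single a 1)
    rw [hform, hcol a] at h1
    simp only [Pi.single_eq_same] at h1
    unfold Cfsg.hermForm at h1
    rw [← h1]
    apply Finset.sum_congr rfl
    intro k _
    ring
  have hdiag : ∀ a, T a a = 0 ∨ T a a = 1 := by
    intro a
    have h1 := hherm a a
    have h2 : T a a * (T a a - 1) = 0 := by
      have : T a a * (T a a - 1) = (T a a) ^ 2 - T a a := by ring
      rw [this, ← h1, sub_self]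
    rcases mul_eq_zero.mp h2 with h3 | h3
    · exact Or.inl h3
    · exact Or.inr (sub_eq_zero.mp h3)
  have hcube : ∀ x : F, x ^ 3 = 0 ∧ x = 0 ∨ x ^ 3 = 1 ∧ x ≠ 0 := by
    intro x
    by_cases hx : x = 0
    · left; simp [hx]
    · right; exact ⟨cube_of_ne hF hx, hx⟩
  obtain ⟨j, k, hij, hik, hjk, hsum, hcover⟩ : ∃ j k : Fin 3, i ≠ j ∧ i ≠ k ∧ j ≠ k ∧
      (∀ f : Fin 3 → F, ∑ l, f l = f i + f j + f k) ∧ ∀ l : Fin 3, l = i ∨ l = j ∨ l = k := by
    fin_cases i
    · refine ⟨1, 2, by decide, by decide, by decide, fun f => by simp [Fin.sum_univ_three], by decide⟩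
    · refine ⟨0, 2, by decide, by decide, by decide, fun f => ?_, by decide⟩
      simp only [Fin.sum_univ_three]
      simp
      ring
    · refine ⟨0, 1, by decide, by decide, by decide, fun f => ?_, by decide⟩
      simp only [Fin.sum_univ_three]
      simp
      ring
  have h20 : (2 : F) = 0 := CharTwo.two_eq_zero
  have hn := hnorm i
  rw [hsum] at hn
  have hone : ∀ l : Fin 3, (∀ m, m ≠ l → T m i = 0) → T l i ≠ 0 → ∃ j, T j i ≠ 0 ∧ ∀ k, k ≠ j → T k i = 0 :=
    fun l h1 h2 => ⟨l, h2, h1⟩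
  have hne : ∀ (l m n' : Fin 3), l ≠ m → l ≠ n' → (∀ x, x = l ∨ x = m ∨ x = n') → T m i = 0 → T n' i = 0 →
      ∀ x, x ≠ l → T x i = 0 := by
    intro l m n' _ _ hc h1 h2 x hx
    rcases hc x with rfl | rfl | rfl
    · exact absurd rfl hx
    · exact h1
    · exact h2
  rcases hcube (T j i) with ⟨hy3, hy⟩ | ⟨hy3, hy⟩ <;> rcases hcube (T k i) with ⟨hz3, hz⟩ | ⟨hz3, hz⟩
  · -- both zero: the diagonal entry is non-zero
    rcases hdiag i with hx | hx
    · rw [hx, hy3, hz3] at hn
      simp at hn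
    · exact hone i (hne i j k hij hik hcover hy hz) (by rw [hx]; exact one_ne_zero)
  · -- only `k`
    rcases hdiag i with hx | hx
    · exact hone k (hne k i j hik.symm hjk.symm (fun x => by
        rcases hcover x with h | h | h <;> simp [h]) hx hy) hz
    · exfalso
      rw [hx, hy3, hz3] at hn
      have : (1 : F) ^ 3 + 0 + 1 = 0 := by
        have := CharTwo.add_self_eq_zero (1 : F)
        simpa using this
      rw [this] at hn
      exact zero_ne_one hn
  · -- only `j`
    rcases hdiag i with hx | hx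
    · exact hone j (hne j i k hij.symm hjk (fun x => by
        rcases hcover x with h | h | h <;> simp [h]) hx hz) hy
    · exfalso
      rw [hx, hy3, hz3] at hn
      have : (1 : F) ^ 3 + 1 + 0 = 0 := by
        have := CharTwo.add_self_eq_zero (1 : F)
        simpa using this
      rw [this] at hn
      exact zero_ne_one hn
  · -- both non-zero
    exfalso
    rcases hdiag i with hx | hx
    · rw [hx, hy3, hz3] at hn
      have : (0 : F) ^ 3 + 1 + 1 = 0 := by
        have := CharTwo.add_self_eq_zero (1 : F)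
        simpa using this
      rw [this] at hn
      exact zero_ne_one hn
    · -- the main case
      have hn2 := hnorm j
      rw [hsum, hherm i j, hherm k j] at hn2
      have hs1 : ((T j i) ^ 2) ^ 3 = 1 := by
        calc ((T j i) ^ 2) ^ 3 = ((T j i) ^ 3) ^ 2 := by ring
          _ = 1 := by rw [hy3, one_pow]
      rw [hs1] at hn2
      have ht2 : (T * T) j i = 0 := by
        rw [hT2, Matrix.one_apply_ne (Ne.symm hij)]
      rw [Matrix.mul_apply, hsum, hx, mul_one] at ht2
      rcases hdiag j with ha | ha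
      · -- `a = 0`
        rw [ha] at hn2 ht2
        have h5 : ((T j k) ^ 2) ^ 3 = 0 := by
          have h6 : (1 : F) + 0 ^ 3 + ((T j k) ^ 2) ^ 3 = 1 + 0 := by rw [hn2, add_zero]
          have h7 : (1 : F) + ((T j k) ^ 2) ^ 3 = 1 + 0 := by simpa using h6
          exact add_left_cancel h7
        have hb : T j k = 0 := by
          have : (T j k) ^ 6 = 0 := by
            rw [← h5]; ring
          exact pow_eq_zero_iff (by norm_num) |>.mp this
        rw [hb] at ht2
        apply hy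
        simpa using ht2
      · rw [ha] at hn2 ht2
        have h5 : T j k * T k i = 0 := by
          have h6 : T j i + 1 * T j i + T j k * T k i = T j k * T k i := by
            have h7 : T j i + 1 * T j i = 0 := by
              rw [one_mul]; exact CharTwo.add_self_eq_zero _
            rw [h7, zero_add]
          rw [← h6]; exact ht2
        have hb : T j k = 0 := (mul_eq_zero.mp h5).resolve_right hz
        rw [hb] at hn2
        have h8 : (1 : F) + 1 ^ 3 + (0 ^ 2) ^ 3 = 0 := by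
          have := CharTwo.add_self_eq_zero (1 : F)
          simpa using this
        rw [h8] at hn2
        exact zero_ne_one hn2

/-- The matrix of an element of `SU`. -/
abbrev mat (g : Cfsg.SU 3 F 2) : Matrix (Fin 3) (Fin 3) F :=
  ((g : Matrix.SpecialLinearGroup (Fin 3) F) : Matrix (Fin 3) (Fin 3) F)

lemma mat_mul (a b : Cfsg.SU 3 F 2) : mat (a * b) = mat a * mat b := rfl
lemma mat_one : mat (1 : Cfsg.SU 3 F 2) = 1 := rfl

lemma mat_inv_mul (g : Cfsg.SU 3 F 2) : mat g⁻¹ * mat g = 1 := by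
  rw [← mat_mul, inv_mul_cancel, mat_one]
lemma mat_mul_inv (g : Cfsg.SU 3 F 2) : mat g * mat g⁻¹ = 1 := by
  rw [← mat_mul, mul_inv_cancel, mat_one]

/-- The set of non-zero multiples of the standard basis vectors. -/
def B (F : Type*) [Field F] : Set (Fin 3 → F) := {v | ∃ i c, c ≠ 0 ∧ v = Pi.single i c}

/-- Monomial columns. -/
def Mono (A : Matrix (Fin 3) (Fin 3) F) : Prop := ∀ i, ∃ j, A j i ≠ 0 ∧ ∀ k, k ≠ j → A k i = 0

lemma mono_image {A : Matrix (Fin 3) (Fin 3) F} (hA : Mono A) {v : Fin 3 → F} (hv : v ∈ B F) :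
    A *ᵥ v ∈ B F := by
  classical
  obtain ⟨i, c, hc, rfl⟩ := hv
  obtain ⟨j, hj, hk⟩ := hA i
  refine ⟨j, A j i * c, mul_ne_zero hj hc, ?_⟩
  ext k
  have h1 : (A *ᵥ Pi.single i c) k = A k i * c := by
    simp [Matrix.mulVec_single]
  rw [h1]
  by_cases h : k = j
  · subst h; simp
  · rw [hk k h, Pi.single_eq_of_ne h, zero_mul]

/-- The monomial subgroup of `SU`. -/
def M0 (F : Type*) [Field F] [Fintype F] : Subgroup (Cfsg.SU 3 F 2) where
  carrier := {g | ∀ v, v ∈ B F ↔ mat g *ᵥ v ∈ B F}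
  mul_mem' := by
    intro a b ha hb v
    rw [mat_mul, ← Matrix.mulVec_mulVec, hb v, ha]
  one_mem' := by
    intro v
    rw [mat_one, Matrix.one_mulVec]
  inv_mem' := by
    intro g hg v
    have := hg (mat g⁻¹ *ᵥ v)
    rw [Matrix.mulVec_mulVec, mat_mul_inv, Matrix.one_mulVec] at this
    exact this.symm

lemma mem_M0_of_mono {g : Cfsg.SU 3 F 2} (h1 : Mono (mat g)) (h2 : Mono (mat g⁻¹)) : g ∈ M0 F := by
  intro v
  refine ⟨mono_image h1, fun h => ?_⟩
  have := mono_image h2 h
  rwa [Matrix.mulVec_mulVec, mat_inv_mul, Matrix.one_mulVec] at this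

/-- The diagonal matrix used to control the centre. -/
lemma exists_diag (hF : Fintype.card F = 4) (ω : F) (hω : ω ^ 2 + ω + 1 = 0) :
    ∃ D : Cfsg.SU 3 F 2, mat D = Matrix.diagonal ![ω, ω ^ 2, 1] := by
  haveI := charTwo_of hF
  have h2 : (2 : F) = 0 := CharTwo.two_eq_zero
  have h3 : ω ^ 3 = 1 := by grind
  have hdet : (Matrix.diagonal ![ω, ω ^ 2, 1]).det = 1 := by
    rw [Matrix.det_diagonal, Fin.prod_univ_three]
    simp
    grind
  have hcols : ∀ a b, ∑ k, (Matrix.diagonal ![ω, ω ^ 2, 1] : Matrix (Fin 3) (Fin 3) F) k a *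
      ((Matrix.diagonal ![ω, ω ^ 2, 1] : Matrix (Fin 3) (Fin 3) F) k b) ^ 2 = if a = b then 1 else 0 := by
    intro a b
    fin_cases a <;> fin_cases b <;> simp [Fin.sum_univ_three, Matrix.diagonal_apply] <;> grind
  exact ⟨⟨⟨_, hdet⟩, fun u v => pres_of_cols hF _ hcols u v⟩, rfl⟩

lemma central_diag (hF : Fintype.card F = 4) {z : Cfsg.SU 3 F 2} (hz : z ∈ Subgroup.center (Cfsg.SU 3 F 2)) :
    ∃ d : Fin 3 → F, (∀ i, d i ≠ 0) ∧ mat z = Matrix.diagonal d := by
  classical
  haveI := charTwo_of hF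
  have h2 : (2 : F) = 0 := CharTwo.two_eq_zero
  obtain ⟨ω, hω⟩ := exists_omega hF
  obtain ⟨D, hD⟩ := exists_diag hF ω hω
  have hcomm : mat z * mat D = mat D * mat z := by
    rw [← mat_mul, ← mat_mul, (Subgroup.mem_center_iff.mp hz D).symm]
  rw [hD] at hcomm
  have hinj : ∀ i j : Fin 3, i ≠ j → (![ω, ω ^ 2, 1] : Fin 3 → F) i ≠ ![ω, ω ^ 2, 1] j := by
    have h01 : ω ≠ ω ^ 2 := by
      intro h
      apply one_ne_zero (α := F)
      grind
    have h02 : ω ≠ 1 := by
      intro h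
      apply one_ne_zero (α := F)
      grind
    have h12 : ω ^ 2 ≠ 1 := by
      intro h
      have h3 : ω = 0 := by grind
      apply one_ne_zero (α := F)
      grind
    intro i j hij
    fin_cases i <;> fin_cases j <;> simp_all [eq_comm]
  have hoff : ∀ k i, k ≠ i → mat z k i = 0 := by
    intro k i hki
    have h1 := congrFun (congrFun hcomm k) i
    rw [Matrix.mul_diagonal, Matrix.diagonal_mul] at h1
    have h3 : mat z k i * ((![ω, ω ^ 2, 1] : Fin 3 → F) i - ![ω, ω ^ 2, 1] k) = 0 := by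
      rw [mul_sub, h1]; ring
    rcases mul_eq_zero.mp h3 with h4 | h4
    · exact h4
    · exact absurd (sub_eq_zero.mp h4).symm (hinj k i hki)
  have heq : mat z = Matrix.diagonal (fun i => mat z i i) := by
    ext k i
    by_cases h : k = i
    · subst h; simp
    · rw [hoff k i h, Matrix.diagonal_apply_ne _ h]
  refine ⟨_, fun i hi => ?_, heq⟩
  have hdet := (z : Matrix.SpecialLinearGroup (Fin 3) F).2
  have hdet' : (mat z).det = 1 := hdet
  rw [heq, Matrix.det_diagonal] at hdet'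
  have h0 : ∏ i, mat z i i = 0 := Finset.prod_eq_zero (Finset.mem_univ i) hi
  rw [h0] at hdet'
  exact zero_ne_one hdet'

lemma mono_diag {d : Fin 3 → F} (hd : ∀ i, d i ≠ 0) : Mono (Matrix.diagonal d) := by
  classical
  intro i
  refine ⟨i, by simpa using hd i, fun k hk => Matrix.diagonal_apply_ne _ hk⟩

lemma central_mem (hF : Fintype.card F = 4) {z : Cfsg.SU 3 F 2} (hz : z ∈ Subgroup.center (Cfsg.SU 3 F 2)) :
    z ∈ M0 F := by
  obtain ⟨d, hd, h1⟩ := central_diag hF hz
  obtain ⟨d', hd', h2⟩ := central_diag hF (Subgroup.inv_mem _ hz)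
  apply mem_M0_of_mono
  · rw [h1]; exact mono_diag hd
  · rw [h2]; exact mono_diag hd'

lemma central_cube (hF : Fintype.card F = 4) {z : Cfsg.SU 3 F 2} (hz : z ∈ Subgroup.center (Cfsg.SU 3 F 2)) :
    z ^ 3 = 1 := by
  classical
  obtain ⟨d, hd, h1⟩ := central_diag hF hz
  apply Subtype.ext
  apply Subtype.ext
  show mat (z ^ 3) = mat 1
  rw [pow_succ, pow_succ, pow_one, mat_mul, mat_mul, h1, Matrix.diagonal_mul_diagonal,
    Matrix.diagonal_mul_diagonal, mat_one, ← Matrix.diagonal_one]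
  congr 1
  ext i
  have := cube_of_ne hF (hd i)
  rw [← this]; ring

lemma invol_mem (hF : Fintype.card F = 4) {s : Cfsg.SU 3 F 2} (hs : s ^ 2 = 1) : s ∈ M0 F := by
  have h1 : s⁻¹ = s := by
    rw [inv_eq_iff_mul_eq_one, ← sq, hs]
  have h2 : mat s * mat s = 1 := by
    rw [← mat_mul, ← sq, hs, mat_one]
  have h3 : Mono (mat s) := fun i => invol_column hF (mat s) h2 (fun u v => s.2 u v) i
  apply mem_M0_of_mono h3
  rwa [h1]

/-- The Fourier matrix. -/
lemma exists_fourier (hF : Fintype.card F = 4) :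
    ∃ R : Cfsg.SU 3 F 2, R ^ 4 = 1 ∧ R ∉ M0 F := by
  classical
  haveI := charTwo_of hF
  have h2 : (2 : F) = 0 := CharTwo.two_eq_zero
  obtain ⟨ω, hω⟩ := exists_omega hF
  have h3 : ω ^ 3 = 1 := by grind
  set A : Matrix (Fin 3) (Fin 3) F := !![1, 1, 1; 1, ω, ω ^ 2; 1, ω ^ 2, ω] with hA
  have hdet : A.det = 1 := by
    rw [hA, Matrix.det_fin_three]
    simp
    grind
  have hcols : ∀ a b, ∑ k, A k a * (A k b) ^ 2 = if a = b then 1 else 0 := by
    intro a b
    fin_cases a <;> fin_cases b <;> simp [hA, Fin.sum_univ_three] <;> grind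
  let R : Cfsg.SU 3 F 2 := ⟨⟨A, hdet⟩, fun u v => pres_of_cols hF _ hcols u v⟩
  have hR : mat R = A := rfl
  have hA2 : A * A = !![1, 0, 0; 0, 0, 1; 0, 1, 0] := by
    ext i j
    fin_cases i <;> fin_cases j <;> simp [hA, Matrix.mul_apply, Fin.sum_univ_three] <;> grind
  have hA4 : A * A * (A * A) = 1 := by
    rw [hA2]
    ext i j
    fin_cases i <;> fin_cases j <;> simp [Matrix.mul_apply, Fin.sum_univ_three]
  refine ⟨R, ?_, ?_⟩
  · apply Subtype.ext
    apply Subtype.ext
    show mat (R ^ 4) = mat 1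
    have : R ^ 4 = R * R * (R * R) := by simp only [pow_succ, pow_zero, one_mul, mul_assoc]
    rw [this, mat_mul, mat_mul, hR, hA4, mat_one]
  · intro hmem
    have h1 : (Pi.single 0 1 : Fin 3 → F) ∈ B F := ⟨0, 1, one_ne_zero, rfl⟩
    have h4 := (hmem _).mp h1
    obtain ⟨i, c, hc, h5⟩ := h4
    rw [hR] at h5
    have h6 : A *ᵥ (Pi.single 0 1 : Fin 3 → F) = fun k => A k 0 := by
      ext k; simp
    rw [h6] at h5
    have h7 : ∀ k, A k 0 = 1 := by
      intro k
      fin_cases k <;> simp [hA]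
    have h8 := congrFun h5
    simp only [h7] at h8
    obtain ⟨k, hk⟩ : ∃ k : Fin 3, k ≠ i := by
      fin_cases i
      · exact ⟨1, by decide⟩
      · exact ⟨0, by decide⟩
      · exact ⟨0, by decide⟩
    have := h8 k
    rw [Pi.single_eq_of_ne hk] at this
    exact one_ne_zero this

end


/-- The subgroup lattice of PSU₃(2) (the solvable group of order 72, realised over the field with 4 elements) is not complemented: some subgroup H has no subgroup X with H ⊔ X = ⊤ and H ⊓ X = ⊥. -/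
theorem result {F : Type*} [Field F] [Fintype F] (hF : Fintype.card F = 4) :
    ¬ ComplementedLattice (Subgroup (Cfsg.PSU 3 F 2)) := by
  intro hc
  classical
  set Z := Subgroup.center (Cfsg.SU 3 F 2) with hZ
  let mk : Cfsg.SU 3 F 2 →* Cfsg.PSU 3 F 2 := QuotientGroup.mk' Z
  let Hb : Subgroup (Cfsg.PSU 3 F 2) := Subgroup.normalClosure {x | x ^ 2 = 1}
  have hHbn : Hb.Normal := Subgroup.normalClosure_normal
  let Mb : Subgroup (Cfsg.PSU 3 F 2) := (M0 F).map mk
  have hker : ∀ s, mk s = 1 ↔ s ∈ Z := fun s => QuotientGroup.eq_one_iff s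
  have hinvol : ∀ x : Cfsg.PSU 3 F 2, x ^ 2 = 1 → x ∈ Mb := by
    intro x hx
    obtain ⟨s, rfl⟩ := QuotientGroup.mk'_surjective Z x
    have h1 : s ^ 2 ∈ Z := by
      rw [← hker, map_pow]
      exact hx
    have h2 : (s ^ 3) ^ 2 = 1 := by
      have := central_cube hF h1
      rw [← pow_mul] at this ⊢
      exact this
    refine ⟨s ^ 3, invol_mem hF h2, ?_⟩
    have h3 : mk s ^ 2 = 1 := hx
    show mk (s ^ 3) = mk s
    rw [map_pow, pow_succ, h3, one_mul]
  have hle : Hb ≤ Mb := by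
    show Subgroup.normalClosure _ ≤ _
    unfold Subgroup.normalClosure
    rw [Subgroup.closure_le]
    intro y hy
    obtain ⟨a, ha, hy⟩ := Group.mem_conjugatesOfSet_iff.mp hy
    apply hinvol
    obtain ⟨c, hc⟩ := isConj_iff.mp hy
    rw [← hc, conj_pow]
    have ha' : a ^ 2 = 1 := ha
    rw [ha', mul_one, mul_inv_cancel]
  obtain ⟨R, hR4, hR⟩ := exists_fourier hF
  have hRb : mk R ∉ Mb := by
    rintro ⟨m, hm, hmR⟩
    apply hR
    have h1 : m⁻¹ * R ∈ Z := by
      rw [← hker, map_mul, map_inv, ← hmR, inv_mul_cancel]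
    have h2 := (M0 F).mul_mem hm (central_mem hF h1)
    rwa [mul_inv_cancel_left] at h2
  have hsq : ∀ x : Cfsg.PSU 3 F 2, x ^ 2 = 1 → x ∈ Hb := fun x hx =>
    Subgroup.subset_normalClosure hx
  have hR2 : (mk R) ^ 2 ∈ Hb := by
    apply hsq
    rw [← pow_mul, ← map_pow]
    show mk (R ^ 4) = 1
    rw [hR4, map_one]
  obtain ⟨X, hX⟩ := hc.exists_isCompl Hb
  have htop : mk R ∈ Hb ⊔ X := by
    rw [hX.sup_eq_top]; trivial
  rw [← SetLike.mem_coe, Subgroup.normal_mul] at htop
  obtain ⟨h, hh, x0, hx0, hhx⟩ := htop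
  have hhx' : h * x0 = mk R := hhx
  have hx2H : x0 ^ 2 ∈ Hb := by
    have h1 : (mk R) ^ 2 = h * (x0 * h * x0⁻¹) * x0 ^ 2 := by
      rw [← hhx']; simp only [sq, mul_assoc, inv_mul_cancel_left]
    have h2 : x0 * h * x0⁻¹ ∈ Hb := hHbn.conj_mem _ hh _
    have h3 : x0 ^ 2 = (h * (x0 * h * x0⁻¹))⁻¹ * (mk R) ^ 2 := by
      rw [h1]; group
    rw [h3]
    exact Hb.mul_mem (Hb.inv_mem (Hb.mul_mem hh h2)) hR2
  have hx21 : x0 ^ 2 = 1 := by
    have h1 : x0 ^ 2 ∈ Hb ⊓ X := ⟨hx2H, X.pow_mem hx0 2⟩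
    rw [hX.inf_eq_bot] at h1
    exact h1
  apply hRb
  apply hle
  rw [← hhx']
  exact Hb.mul_mem hh (hsq _ hx21)

end Cfsg.Agent.S5908
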