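import Mathlib
import Cfsg.Statements.S5909
import Cfsg.Agent.Lib.ClassMax.Wreath

set_option autoImplicit false
open Cfsg

namespace Cfsg.Agent.S5909

open Cfsg.Agent.Lib.ClassMax MulAction Equiv Equiv.Perm
open scoped Pointwise

variable {Ω : Type*} [Fintype Ω] [DecidableEq Ω]

omit [Fintype Ω] in
lemma swap_comm4 {a b c d : Ω} (h1 : a ≠ c) (h2 : a ≠ d) (h3 : b ≠ c) (h4 : b ≠ d) :
    swap a b * swap c d = swap c d * swap a b := by
  have := Equiv.swap_apply_apply (swap c d) a b
  rw [swap_apply_of_ne_of_ne h1 h2, swap_apply_of_ne_of_ne h3 h4] at this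
  calc swap a b * swap c d = (swap c d * swap a b * (swap c d)⁻¹) * swap c d := by rw [← this]
    _ = swap c d * swap a b := by group

lemma dbl_mem_alt {p q r s : Ω} (hpq : p ≠ q) (hrs : r ≠ s) : swap p q * swap r s ∈ alternatingGroup Ω := by
  rw [Equiv.Perm.mem_alternatingGroup, map_mul, Equiv.Perm.sign_swap hpq, Equiv.Perm.sign_swap hrs]
  rfl

variable {b : ℕ} {f : Ω → Fin b}

lemma dbl_mem {p q r s : Ω} (hpq : p ≠ q) (hrs : r ≠ s) (h1 : f p = f q) (h2 : f r = f s) :
    swap p q * swap r s ∈ partStab f ⊓ alternatingGroup Ω :=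
  ⟨(partStab f).mul_mem (swap_mem_partStab h1) (swap_mem_partStab h2), dbl_mem_alt hpq hrs⟩

/-- Parity correction inside the partition stabiliser. -/
lemma exists_even (hc : ∃ c c' : Ω, c ≠ c' ∧ f c = f c') {h : Equiv.Perm Ω} (hh : h ∈ partStab f) :
    ∃ k ∈ partStab f ⊓ alternatingGroup Ω, ∀ x, f (k x) = f (h x) := by
  by_cases hs : Equiv.Perm.sign h = 1
  · exact ⟨h, ⟨hh, hs⟩, fun _ => rfl⟩
  · obtain ⟨c, c', hcc, hf⟩ := hc
    refine ⟨h * swap c c', ⟨(partStab f).mul_mem hh (swap_mem_partStab hf), ?_⟩, fun x => ?_⟩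
    · show Equiv.Perm.sign (h * swap c c') = 1
      rw [map_mul, Equiv.Perm.sign_swap hcc]
      rcases Int.units_eq_one_or (Equiv.Perm.sign h) with h1 | h1
      · exact absurd h1 hs
      · rw [h1]; rfl
    · rw [Equiv.Perm.mul_apply]
      apply (hh _ _).mp
      by_cases hx : x = c
      · rw [hx, swap_apply_left, hf]
      by_cases hy : x = c'
      · rw [hy, swap_apply_right, hf]
      rw [swap_apply_of_ne_of_ne hx hy]

/-- Two points in each fibre. -/
lemma hfib {a : ℕ} (ha : 2 ≤ a) (hf : ∀ i : Fin b, Nat.card {x : Ω // f x = i} = a) (i : Fin b) :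
    ∃ x y : Ω, x ≠ y ∧ f x = i ∧ f y = i := by
  have h1 : 1 < Nat.card {x : Ω // f x = i} := by rw [hf]; omega
  have := Finite.one_lt_card_iff_nontrivial.mp h1
  obtain ⟨p, q, hpq⟩ := exists_pair_ne {x : Ω // f x = i}
  exact ⟨p, q, fun h => hpq (Subtype.ext h), p.2, q.2⟩

/-- Another point in a fibre. -/
lemma hfib' {a : ℕ} (ha : 2 ≤ a) (hf : ∀ i : Fin b, Nat.card {x : Ω // f x = i} = a) (x : Ω) :
    ∃ y : Ω, y ≠ x ∧ f y = f x := by
  obtain ⟨p, q, hpq, h1, h2⟩ := hfib ha hf (f x)
  by_cases h : p = x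
  · exact ⟨q, fun h' => hpq (h.trans h'.symm), h2⟩
  · exact ⟨p, h, h1⟩

/-- Block moves by even elements. -/
lemma exists_move {a : ℕ} (ha : 2 ≤ a) (hf : ∀ i : Fin b, Nat.card {x : Ω // f x = i} = a) (i j : Fin b) :
    ∃ k ∈ partStab f ⊓ alternatingGroup Ω, ∀ x, f (k x) = swap i j (f x) := by
  obtain ⟨h, hh1, _⟩ := exists_lift_perm f hf (swap i j)
  obtain ⟨c, c', hcc, h1, h2⟩ := hfib ha hf i
  obtain ⟨k, hk, hk'⟩ := exists_even (f := f) ⟨c, c', hcc, h1.trans h2.symm⟩ (mem_partStab_of_comp _ hh1)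
  exact ⟨k, hk, fun x => (hk' x).trans (hh1 x)⟩

/-- The action on a block move inverse. -/
lemma inv_move {k : Equiv.Perm Ω} {i j : Fin b} (hk : ∀ x, f (k x) = swap i j (f x)) (x : Ω) :
    f (k⁻¹ x) = swap i j (f x) := by
  have h1 := hk (k⁻¹ x)
  have h2 : k (k⁻¹ x) = x := by simp
  rw [h2] at h1
  rw [h1, swap_apply_self]

/-- `K₁` is transitive. -/
lemma trans_K₁ {a : ℕ} (ha : 2 ≤ a) (hb : 2 ≤ b) (hf : ∀ i : Fin b, Nat.card {x : Ω // f x = i} = a)
    (x y : Ω) : ∃ k ∈ partStab f ⊓ alternatingGroup Ω, k x = y := by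
  obtain ⟨k₀, hk₀, hk₀'⟩ := exists_move ha hf (f x) (f y)
  set z := k₀ x with hz
  have hfz : f z = f y := by rw [hz, hk₀', swap_apply_left]
  by_cases hzy : z = y
  · exact ⟨k₀, hk₀, hzy⟩
  -- a block other than that of `y`
  obtain ⟨i, hi⟩ : ∃ i : Fin b, i ≠ f y := by
    haveI : Nontrivial (Fin b) := Fin.nontrivial_iff_two_le.mpr hb
    exact exists_ne (f y)
  obtain ⟨q, q', hqq, h1, h2⟩ := hfib ha hf i
  refine ⟨swap z y * swap q q' * k₀, (partStab f ⊓ alternatingGroup Ω).mul_mem
    (dbl_mem hzy hqq hfz (h1.trans h2.symm)) hk₀, ?_⟩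
  rw [Equiv.Perm.mul_apply, ← hz, Equiv.Perm.mul_apply]
  have hqz : z ≠ q := fun h => hi (by rw [← h1, ← h, hfz])
  have hqz' : z ≠ q' := fun h => hi (by rw [← h2, ← h, hfz])
  rw [swap_apply_of_ne_of_ne hqz hqz', swap_apply_left]

/-- Block property, elementwise. -/
lemma hblock {L : Subgroup (Equiv.Perm Ω)} {B : Set Ω} (hB : IsBlock L B) {l : Equiv.Perm Ω} (hl : l ∈ L)
    {p : Ω} (hp : p ∈ B) (hlp : l p ∈ B) {q : Ω} (hq : q ∈ B) : l q ∈ B := by
  rcases (isBlock_iff_smul_eq_or_disjoint.mp hB) ⟨l, hl⟩ with h | h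
  · rw [← h]
    exact ⟨q, hq, rfl⟩
  · exfalso
    exact Set.disjoint_left.mp h ⟨p, hp, rfl⟩ hlp

/-- If the fibres of `f` are blocks under `L`, then `L` preserves the partition. -/
lemma mem_partStab_of_block {a : ℕ} (ha : 2 ≤ a) (hf : ∀ i : Fin b, Nat.card {x : Ω // f x = i} = a)
    {L : Subgroup (Equiv.Perm Ω)} (hL : partStab f ⊓ alternatingGroup Ω ≤ L) (x₀ : Ω)
    (hB : IsBlock L {z | f z = f x₀}) {g : Equiv.Perm Ω} (hg : g ∈ L) : g ∈ partStab f := by
  have key : ∀ l ∈ L, ∀ u v, f u = f v → f (l u) = f (l v) := by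
    intro l hl u v huv
    obtain ⟨k₁, hk₁, hk₁'⟩ := exists_move ha hf (f x₀) (f u)
    obtain ⟨k₂, hk₂, hk₂'⟩ := exists_move ha hf (f x₀) (f (l u))
    have hm : k₂⁻¹ * l * k₁ ∈ L := L.mul_mem (L.mul_mem (L.inv_mem (hL hk₂)) hl) (hL hk₁)
    have hp : k₁⁻¹ u ∈ {z | f z = f x₀} := by
      show f (k₁⁻¹ u) = f x₀
      rw [inv_move hk₁', swap_apply_right]
    have hq : k₁⁻¹ v ∈ {z | f z = f x₀} := by
      show f (k₁⁻¹ v) = f x₀
      rw [inv_move hk₁', ← huv, swap_apply_right]
    have h1 : ∀ w, (k₂⁻¹ * l * k₁) (k₁⁻¹ w) = k₂⁻¹ (l w) := by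
      intro w
      simp [Equiv.Perm.mul_apply]
    have hmp : (k₂⁻¹ * l * k₁) (k₁⁻¹ u) ∈ {z | f z = f x₀} := by
      rw [h1]
      show f (k₂⁻¹ (l u)) = f x₀
      rw [inv_move hk₂', swap_apply_right]
    have hmq := hblock hB hm hp hmp hq
    rw [h1] at hmq
    have h2 : f (k₂⁻¹ (l v)) = f x₀ := hmq
    rw [inv_move hk₂'] at h2
    have h3 : swap (f x₀) (f (l u)) (swap (f x₀) (f (l u)) (f (l v))) = swap (f x₀) (f (l u)) (f x₀) := by rw [h2]
    rw [swap_apply_self, swap_apply_left] at h3
    exact h3.symm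
  intro u v
  refine ⟨key g hg u v, fun h => ?_⟩
  have := key g⁻¹ (L.inv_mem hg) _ _ h
  simpa using this

/-- Primitivity. -/
lemma isPreprimitive_of {a : ℕ} (ha : 2 ≤ a) (hb : 2 ≤ b) (hab : 3 ≤ a ∨ 3 ≤ b)
    (hf : ∀ i : Fin b, Nat.card {x : Ω // f x = i} = a)
    {L : Subgroup (Equiv.Perm Ω)} (hL : partStab f ⊓ alternatingGroup Ω ≤ L)
    {g : Equiv.Perm Ω} (hg : g ∈ L) (hgK : g ∉ partStab f) : IsPreprimitive L Ω := by
  classical
  haveI : IsPretransitive L Ω := by
    constructor
    intro x y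
    obtain ⟨k, hk, hk'⟩ := trans_K₁ ha hb hf x y
    exact ⟨⟨k, hL hk⟩, hk'⟩
  obtain ⟨x₀⟩ : Nonempty Ω := by
    obtain ⟨p, _⟩ := hfib ha hf ⟨0, by omega⟩
    exact ⟨p⟩
  apply IsPreprimitive.of_isTrivialBlock_base x₀
  intro B hx₀ hB
  by_cases hsub : B.Subsingleton
  · exact Or.inl hsub
  right
  -- helper: a double transposition fixing `x`
  have S1 : ∀ x ∈ B, ∀ y ∈ B, y ≠ x → f y = f x → ∀ z, f z = f x → z ∈ B := by
    intro x hx y hy hyx hfy z hz
    by_cases hzx : z = x
    · rwa [hzx]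
    by_cases hzy : z = y
    · rwa [hzy]
    obtain ⟨i, hi⟩ : ∃ i : Fin b, i ≠ f x := by
      haveI : Nontrivial (Fin b) := Fin.nontrivial_iff_two_le.mpr hb
      exact exists_ne (f x)
    obtain ⟨q, q', hqq, h1, h2⟩ := hfib ha hf i
    have hk : swap y z * swap q q' ∈ L := hL (dbl_mem (Ne.symm hzy) hqq (hfy.trans hz.symm) (h1.trans h2.symm))
    have hxq : x ≠ q := fun h => hi (by rw [← h1, ← h])
    have hxq' : x ≠ q' := fun h => hi (by rw [← h2, ← h])
    have hyq : y ≠ q := fun h => hi (by rw [← h1, ← h, hfy])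
    have hyq' : y ≠ q' := fun h => hi (by rw [← h2, ← h, hfy])
    have hkx : (swap y z * swap q q') x = x := by
      rw [Equiv.Perm.mul_apply, swap_apply_of_ne_of_ne hxq hxq',
        swap_apply_of_ne_of_ne (Ne.symm hyx) (Ne.symm hzx)]
    have hky : (swap y z * swap q q') y = z := by
      rw [Equiv.Perm.mul_apply, swap_apply_of_ne_of_ne hyq hyq', swap_apply_left]
    have := hblock hB hk hx (by rw [hkx]; exact hx) hy
    rwa [hky] at this
  -- helper: a compensating transposition
  have hQ : ∀ x y : Ω, f x ≠ f y → ∃ q q' : Ω, q ≠ q' ∧ f q = f q' ∧ q ≠ x ∧ q' ≠ x ∧ f q ≠ f y := by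
    intro x y hxy
    by_cases h3 : 3 ≤ b
    · -- a third block
      obtain ⟨i, hi1, hi2⟩ : ∃ i : Fin b, i ≠ f x ∧ i ≠ f y := by
        by_contra hcon
        push Not at hcon
        have h4 : (Finset.univ : Finset (Fin b)) ⊆ {f x, f y} := by
          intro i _
          by_cases h5 : i = f x
          · simp [h5]
          · simp [hcon i h5]
        have h5 := Finset.card_le_card h4
        have h6 : ({f x, f y} : Finset (Fin b)).card ≤ 2 := Finset.card_le_two
        rw [Finset.card_univ, Fintype.card_fin] at h5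
        omega
      obtain ⟨q, q', hqq, h1, h2⟩ := hfib ha hf i
      exact ⟨q, q', hqq, h1.trans h2.symm, fun h => hi1 (by rw [← h1, h]),
        fun h => hi1 (by rw [← h2, h]), fun h => hi2 (by rw [← h1, h])⟩
    · have ha3 : 3 ≤ a := by
        rcases hab with h | h
        · exact h
        · exact absurd h h3
      -- two points of the block of `x` other than `x`
      have h4 : 2 < Nat.card {z : Ω // f z = f x} := by rw [hf]; omega
      haveI : Fintype {z : Ω // f z = f x} := Fintype.ofFinite _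
      rw [Nat.card_eq_fintype_card] at h4
      obtain ⟨p₁, p₂, p₃, h12, h13, h23⟩ := Fintype.two_lt_card_iff.mp h4
      have hne : ∀ {p : {z : Ω // f z = f x}}, (p : Ω) ≠ x → f (p : Ω) ≠ f y := fun {p} _ h => hxy (by rw [← p.2, h])
      by_cases hp₁ : (p₁ : Ω) = x
      · have hp₂ : (p₂ : Ω) ≠ x := fun h => h12 (Subtype.ext (hp₁.trans h.symm))
        have hp₃ : (p₃ : Ω) ≠ x := fun h => h13 (Subtype.ext (hp₁.trans h.symm))
        exact ⟨p₂, p₃, fun h => h23 (Subtype.ext h), p₂.2.trans p₃.2.symm, hp₂, hp₃, hne hp₂⟩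
      · by_cases hp₂ : (p₂ : Ω) = x
        · have hp₃ : (p₃ : Ω) ≠ x := fun h => h23 (Subtype.ext (hp₂.trans h.symm))
          exact ⟨p₁, p₃, fun h => h13 (Subtype.ext h), p₁.2.trans p₃.2.symm, hp₁, hp₃, hne hp₁⟩
        · exact ⟨p₁, p₂, fun h => h12 (Subtype.ext h), p₁.2.trans p₂.2.symm, hp₁, hp₂, hne hp₁⟩
  have S2a : ∀ x ∈ B, ∀ y ∈ B, f y ≠ f x → ∀ y', f y' = f y → y' ∈ B := by
    intro x hx y hy hxy y' hy'
    by_cases hyy : y' = y
    · rwa [hyy]
    obtain ⟨q, q', hqq, h1, h2, h3, h4⟩ := hQ x y (Ne.symm hxy)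
    have hk : swap y y' * swap q q' ∈ L := hL (dbl_mem (Ne.symm hyy) hqq hy'.symm h1)
    have hxy1 : x ≠ y := fun h => hxy (by rw [h])
    have hxy2 : x ≠ y' := fun h => hxy (by rw [h, hy'])
    have hyq : y ≠ q := fun h => h4 (by rw [h])
    have hyq' : y ≠ q' := fun h => h4 (by rw [h1, h])
    have hkx : (swap y y' * swap q q') x = x := by
      rw [Equiv.Perm.mul_apply, swap_apply_of_ne_of_ne (Ne.symm h2) (Ne.symm h3),
        swap_apply_of_ne_of_ne hxy1 hxy2]
    have hky : (swap y y' * swap q q') y = y' := by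
      rw [Equiv.Perm.mul_apply, swap_apply_of_ne_of_ne hyq hyq', swap_apply_left]
    have := hblock hB hk hx (by rw [hkx]; exact hx) hy
    rwa [hky] at this
  -- Case analysis.
  by_cases hcross : ∃ y ∈ B, f y ≠ f x₀
  · obtain ⟨y, hy, hy₀⟩ := hcross
    have hC : ∀ z, f z = f x₀ → z ∈ B := S2a y hy x₀ hx₀ (Ne.symm hy₀)
    rw [Set.eq_univ_iff_forall]
    intro z
    by_cases hz : f z = f x₀
    · exact hC z hz
    by_cases hz' : f z = f y
    · exact S2a x₀ hx₀ y hy hy₀ z hz'
    obtain ⟨k, hk, hk'⟩ := exists_move ha hf (f y) (f z)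
    have h1 : f (k x₀) = f x₀ := by
      rw [hk', swap_apply_of_ne_of_ne (Ne.symm hy₀) (Ne.symm hz)]
    have h2 : k y ∈ B := hblock hB (hL hk) hx₀ (hC _ h1) hy
    have h3 : f (k y) = f z := by rw [hk', swap_apply_left]
    refine S2a x₀ hx₀ (k y) h2 ?_ z h3.symm
    rw [h3]
    exact hz
  · exfalso
    push Not at hcross
    obtain ⟨y, hy, hyx⟩ : ∃ y ∈ B, y ≠ x₀ := by
      by_contra hcon
      push Not at hcon
      apply hsub
      intro u hu v hv
      rw [hcon u hu, hcon v hv]
    have hBC : B = {z | f z = f x₀} := by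
      ext z
      exact ⟨fun hz => hcross z hz, fun hz => S1 x₀ hx₀ y hy hyx (hcross y hy) z hz⟩
    rw [hBC] at hB
    exact hgK (mem_partStab_of_block ha hf hL x₀ hB hg)

omit [Fintype Ω] in
/-- Product of four swaps, a pattern used below. -/
lemma swap_pattern {a b c d e h : Ω} (h1 : c ≠ e) (h2 : c ≠ h) (h3 : d ≠ e) (h4 : d ≠ h) :
    (swap a b * swap c d) * (swap e h * swap c d) = swap a b * swap e h := by
  have h5 : swap c d * swap e h = swap e h * swap c d := swap_comm4 h1 h2 h3 h4
  calc (swap a b * swap c d) * (swap e h * swap c d)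
      = swap a b * (swap c d * swap e h) * swap c d := by group
    _ = swap a b * (swap e h * swap c d) * swap c d := by rw [h5]
    _ = swap a b * swap e h * (swap c d * swap c d) := by group
    _ = swap a b * swap e h := by rw [swap_mul_self, mul_one]

/-- Existence of a three-cycle when the blocks have size two. -/
lemma exists_threeCycle_two (hb3 : 3 ≤ b) (hb4 : b ≠ 4) (hf : ∀ i : Fin b, Nat.card {x : Ω // f x = i} = 2)
    {L : Subgroup (Equiv.Perm Ω)} (hL : partStab f ⊓ alternatingGroup Ω ≤ L)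
    {g₀ : Equiv.Perm Ω} (hg₀ : g₀ ∈ L) (hgK : g₀ ∉ partStab f) : ∃ c : Equiv.Perm Ω, c.IsThreeCycle ∧ c ∈ L := by
  classical
  -- partners
  have hp : ∀ x, ∃ y, y ≠ x ∧ f y = f x ∧ ∀ z, f z = f x → z = x ∨ z = y := by
    intro x
    obtain ⟨y, hy, hfy⟩ := hfib' le_rfl hf x
    refine ⟨y, hy, hfy, fun z hz => ?_⟩
    by_contra hcon
    push Not at hcon
    have h3 : 2 < Nat.card {z : Ω // f z = f x} := by
      haveI : Fintype {z : Ω // f z = f x} := Fintype.ofFinite _
      rw [Nat.card_eq_fintype_card]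
      refine Fintype.two_lt_card_iff.mpr ⟨⟨x, rfl⟩, ⟨y, hfy⟩, ⟨z, hz⟩, ?_, ?_, ?_⟩
      · exact fun h => hy (congrArg Subtype.val h).symm
      · exact fun h => hcon.1 (congrArg Subtype.val h).symm
      · exact fun h => hcon.2 (congrArg Subtype.val h).symm
    rw [hf] at h3
    omega
  choose p hp1 hp2 hp3 using hp
  -- reduction to a pair of points of a block separated by `g`
  obtain ⟨g, hg, x, x', hxx, hfg⟩ : ∃ g ∈ L, ∃ x x', f x = f x' ∧ f (g x) ≠ f (g x') := by
    obtain ⟨a, b', hab⟩ : ∃ a b', ¬ (f a = f b' ↔ f (g₀ a) = f (g₀ b')) := by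
      by_contra hcon
      push Not at hcon
      exact hgK hcon
    by_cases h1 : f a = f b'
    · refine ⟨g₀, hg₀, a, b', h1, fun h2 => hab ⟨fun _ => h2, fun _ => h1⟩⟩
    · by_cases h2 : f (g₀ a) = f (g₀ b')
      · refine ⟨g₀⁻¹, L.inv_mem hg₀, g₀ a, g₀ b', h2, ?_⟩
        simpa using h1
      · exact absurd ⟨fun h => absurd h h1, fun h => absurd h h2⟩ hab
  have hxx' : x ≠ x' := fun h => hfg (by rw [h])
  have hx'p : x' = p x := (hp3 x x' hxx.symm).resolve_left (Ne.symm hxx')
  set u := g x with hu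
  set v := g x' with hv
  have huv : u ≠ v := fun h => hfg (by rw [h])
  -- images of double transpositions
  have hs : ∀ y, f y ≠ f x → swap u v * swap (g y) (g (p y)) ∈ L := by
    intro y hy
    have ht : swap x x' * swap y (p y) ∈ L :=
      hL (dbl_mem hxx' (hp1 y).symm hxx (hp2 y).symm)
    have h1 : g * (swap x x' * swap y (p y)) * g⁻¹ ∈ L := L.mul_mem (L.mul_mem hg ht) (L.inv_mem hg)
    have h2 : g * (swap x x' * swap y (p y)) * g⁻¹ = swap u v * swap (g y) (g (p y)) := by
      rw [hu, hv, Equiv.swap_apply_apply, Equiv.swap_apply_apply]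
      group
    rwa [h2] at h1
  have hfuv : f u ≠ f v := hfg
  set u' := p u with hu'
  set v' := p v with hv'
  have huu' : u ≠ u' := (hp1 u).symm
  have hvv' : v ≠ v' := (hp1 v).symm
  have hfu' : f u' = f u := hp2 u
  have hfv' : f v' = f v := hp2 v
  have hvu' : v ≠ u' := fun h => hfuv (by rw [h, hfu'])
  have huv' : u ≠ v' := fun h => hfuv (by rw [h, hfv'])
  have hu'v' : u' ≠ v' := fun h => hfuv (by rw [← hfu', ← hfv', h])
  -- the point `y₁`
  set y₁ := g⁻¹ u' with hy₁
  have hgy₁ : g y₁ = u' := by simp [hy₁]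
  have hfy₁ : f y₁ ≠ f x := by
    intro h
    rcases hp3 x y₁ h with h1 | h1
    · apply huu'
      rw [hu, ← h1, hgy₁]
    · apply hvu'
      rw [hv, hx'p, ← h1, hgy₁]
  set ζ := g (p y₁) with hζ
  have hs₁ := hs y₁ hfy₁
  rw [hgy₁, ← hζ] at hs₁
  have hζu : ζ ≠ u := fun h => by
    have : p y₁ = x := g.injective h
    exact hfy₁ (by rw [← hp2 y₁, this])
  have hζv : ζ ≠ v := fun h => by
    have : p y₁ = x' := g.injective h
    exact hfy₁ (by rw [← hp2 y₁, this, hxx])
  have hζu' : ζ ≠ u' := fun h => by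
    have : p y₁ = y₁ := g.injective (h.trans hgy₁.symm)
    exact hp1 y₁ this
  by_cases hζv' : ζ = v'
  · -- the pairs `{u, v}` and `{u', v'}` both occur
    obtain ⟨i, hi1, hi2⟩ : ∃ i : Fin b, i ≠ f x ∧ i ≠ f y₁ := by
      by_contra hcon
      push Not at hcon
      have h4 : (Finset.univ : Finset (Fin b)) ⊆ {f x, f y₁} := by
        intro i _
        by_cases h5 : i = f x
        · simp [h5]
        · simp [hcon i h5]
      have h5 := Finset.card_le_card h4
      have h6 : ({f x, f y₁} : Finset (Fin b)).card ≤ 2 := Finset.card_le_two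
      rw [Finset.card_univ, Fintype.card_fin] at h5
      omega
    obtain ⟨y₂, _, _, hy₂, _⟩ := hfib (a := 2) le_rfl hf i
    have hfy₂ : f y₂ ≠ f x := by rw [hy₂]; exact hi1
    have hfy₂' : f y₂ ≠ f y₁ := by rw [hy₂]; exact hi2
    have hfpy₂ : f (p y₂) = f y₂ := hp2 y₂
    have hs₂ := hs y₂ hfy₂
    set w := g y₂ with hw
    set z := g (p y₂) with hz
    -- avoidance
    have hav : ∀ t, f t = f y₂ → g t ≠ u ∧ g t ≠ v ∧ g t ≠ u' ∧ g t ≠ v' := by
      intro t ht
      refine ⟨fun h => ?_, fun h => ?_, fun h => ?_, fun h => ?_⟩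
      · have : t = x := g.injective h
        exact hfy₂ (by rw [← ht, this])
      · have : t = x' := g.injective h
        exact hfy₂ (by rw [← ht, this, hxx])
      · have : t = y₁ := g.injective (h.trans hgy₁.symm)
        exact hfy₂' (by rw [← ht, this])
      · rw [← hζv', hζ] at h
        have : t = p y₁ := g.injective h
        exact hfy₂' (by rw [← ht, this, hp2])
    obtain ⟨hwu, hwv, hwu', hwv'⟩ := hav y₂ rfl
    obtain ⟨hzu, hzv, hzu', hzv'⟩ := hav (p y₂) hfpy₂
    have hwz : w ≠ z := fun h => hp1 y₂ (g.injective h).symm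
    have hfwu : f w ≠ f u := fun h => by
      rcases hp3 u w h with h1 | h1
      · exact hwu h1
      · exact hwu' h1
    have hfwv : f w ≠ f v := fun h => by
      rcases hp3 v w h with h1 | h1
      · exact hwv h1
      · exact hwv' h1
    have hfzu : f z ≠ f u := fun h => by
      rcases hp3 u z h with h1 | h1
      · exact hzu h1
      · exact hzu' h1
    have hfzv : f z ≠ f v := fun h => by
      rcases hp3 v z h with h1 | h1
      · exact hzv h1
      · exact hzv' h1
    by_cases hfwz : f w = f z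
    · -- `{w, z}` is a block
      have ht : swap u u' * swap w z ∈ L := hL (dbl_mem huu' hwz hfu'.symm hfwz)
      refine ⟨swap u v * swap u u', isThreeCycle_swap_mul_swap_same huv huu' hvu', ?_⟩
      have := L.mul_mem hs₂ ht
      rwa [swap_pattern hwu hwu' hzu hzu'] at this
    · -- a further block exists
      have hcard : ({f u, f v, f w, f z} : Finset (Fin b)).card = 4 := by
        rw [Finset.card_insert_of_notMem, Finset.card_insert_of_notMem, Finset.card_insert_of_notMem,
          Finset.card_singleton]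
        · simpa using hfwz
        · simp only [Finset.mem_insert, Finset.mem_singleton, not_or]
          exact ⟨Ne.symm hfwv, Ne.symm hfzv⟩
        · simp only [Finset.mem_insert, Finset.mem_singleton, not_or]
          exact ⟨hfuv, Ne.symm hfwu, Ne.symm hfzu⟩
      have hb5 : 4 < b := by
        have h5 := Finset.card_le_univ ({f u, f v, f w, f z} : Finset (Fin b))
        rw [hcard, Fintype.card_fin] at h5
        omega
      obtain ⟨j, hj⟩ : ∃ j : Fin b, j ∉ ({f u, f v, f w, f z} : Finset (Fin b)) := by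
        by_contra hcon
        push Not at hcon
        have h5 : (Finset.univ : Finset (Fin b)) ⊆ {f u, f v, f w, f z} := fun i _ => hcon i
        have h6 := Finset.card_le_card h5
        rw [Finset.card_univ, Fintype.card_fin, hcard] at h6
        omega
      simp only [Finset.mem_insert, Finset.mem_singleton, not_or] at hj
      obtain ⟨hj1, hj2, hj3, hj4⟩ := hj
      obtain ⟨q, _, _, hq, _⟩ := hfib (a := 2) le_rfl hf j
      set q' := p q with hq'
      have hfq' : f q' = j := (hp2 q).trans hq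
      have hqq' : q ≠ q' := (hp1 q).symm
      have ht : swap u u' * swap q q' ∈ L := hL (dbl_mem huu' hqq' hfu'.symm (hq.trans hfq'.symm))
      -- disjointness of all the relevant points
      have ne_of : ∀ {s t : Ω}, f s ≠ f t → s ≠ t := fun h h' => h (by rw [h'])
      have huq : u ≠ q := ne_of (by rw [hq]; exact Ne.symm hj1)
      have huq' : u ≠ q' := ne_of (by rw [hfq']; exact Ne.symm hj1)
      have hvq : v ≠ q := ne_of (by rw [hq]; exact Ne.symm hj2)
      have hvq' : v ≠ q' := ne_of (by rw [hfq']; exact Ne.symm hj2)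
      have hu'q : u' ≠ q := ne_of (by rw [hq, hfu']; exact Ne.symm hj1)
      have hu'q' : u' ≠ q' := ne_of (by rw [hfq', hfu']; exact Ne.symm hj1)
      have hwq : w ≠ q := ne_of (by rw [hq]; exact Ne.symm hj3)
      have hwq' : w ≠ q' := ne_of (by rw [hfq']; exact Ne.symm hj3)
      have hzq : z ≠ q := ne_of (by rw [hq]; exact Ne.symm hj4)
      have hzq' : z ≠ q' := ne_of (by rw [hfq']; exact Ne.symm hj4)
      set c := swap u v * swap u u' with hc
      set d := swap w z * swap q q' with hd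
      have hA1 : Commute (swap u v) (swap w z) := swap_comm4 hwu.symm hzu.symm hwv.symm hzv.symm
      have hA2 : Commute (swap u v) (swap q q') := swap_comm4 huq huq' hvq hvq'
      have hC1 : Commute (swap u u') (swap w z) := swap_comm4 hwu.symm hzu.symm hwu'.symm hzu'.symm
      have hC2 : Commute (swap u u') (swap q q') := swap_comm4 huq huq' hu'q hu'q'
      have hB1 : Commute (swap w z) (swap q q') := swap_comm4 hwq hwq' hzq hzq'
      have hcd : Commute c d := by
        apply Commute.mul_left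
        · exact hA1.mul_right hA2
        · exact hC1.mul_right hC2
      have hst : (swap u v * swap w z) * (swap u u' * swap q q') = c * d := by
        rw [hc, hd]
        calc (swap u v * swap w z) * (swap u u' * swap q q')
            = swap u v * (swap w z * swap u u') * swap q q' := by group
          _ = swap u v * (swap u u' * swap w z) * swap q q' := by rw [hC1.eq]
          _ = _ := by group
      have hdd : d * d = 1 := by
        rw [hd, hB1.symm.mul_mul_mul_comm, swap_mul_self, swap_mul_self, one_mul]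
      have hmem := L.mul_mem hs₂ ht
      rw [hst] at hmem
      have hsq := L.mul_mem hmem hmem
      rw [hcd.symm.mul_mul_mul_comm, hdd, mul_one] at hsq
      exact ⟨c * c, (isThreeCycle_swap_mul_swap_same huv huu' hvu').isThreeCycle_sq, hsq⟩
  · -- the element `ζ` lies in a new block
    have hfζu : f ζ ≠ f u := fun h => by
      rcases hp3 u ζ h with h1 | h1
      · exact hζu h1
      · exact hζu' h1
    have hfζv : f ζ ≠ f v := fun h => by
      rcases hp3 v ζ h with h1 | h1
      · exact hζv h1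
      · exact hζv' h1
    set r := p ζ with hr
    have hfr : f r = f ζ := hp2 ζ
    have hζr : ζ ≠ r := (hp1 ζ).symm
    have ne_of : ∀ {s t : Ω}, f s ≠ f t → s ≠ t := fun h h' => h (by rw [h'])
    have hur : u ≠ r := ne_of (by rw [hfr]; exact Ne.symm hfζu)
    have hu'r : u' ≠ r := ne_of (by rw [hfr, hfu']; exact Ne.symm hfζu)
    have hvr : v ≠ r := ne_of (by rw [hfr]; exact Ne.symm hfζv)
    have hkK : swap u r * swap u' ζ ∈ partStab f := by
      apply mem_partStab_of_comp (swap (f u) (f ζ))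
      intro t
      rw [Equiv.Perm.mul_apply]
      by_cases ht1 : t = u
      · rw [ht1, swap_apply_of_ne_of_ne huu' hζu.symm, swap_apply_left, swap_apply_left, hfr]
      by_cases ht2 : t = u'
      · rw [ht2, swap_apply_left, swap_apply_of_ne_of_ne hζu hζr, hfu', swap_apply_left]
      by_cases ht3 : t = ζ
      · rw [ht3, swap_apply_right, swap_apply_of_ne_of_ne (Ne.symm huu') hu'r, hfu', swap_apply_right]
      by_cases ht4 : t = r
      · rw [ht4, swap_apply_of_ne_of_ne (Ne.symm hu'r) (Ne.symm hζr), swap_apply_right, hfr, swap_apply_right]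
      rw [swap_apply_of_ne_of_ne ht2 ht3, swap_apply_of_ne_of_ne ht1 ht4]
      have h1 : f t ≠ f u := fun h => by
        rcases hp3 u t h with h2 | h2
        · exact ht1 h2
        · exact ht2 h2
      have h2 : f t ≠ f ζ := fun h => by
        rcases hp3 ζ t h with h3 | h3
        · exact ht3 h3
        · exact ht4 h3
      rw [swap_apply_of_ne_of_ne h1 h2]
    have ht : swap u r * swap u' ζ ∈ L := hL ⟨hkK, dbl_mem_alt hur hζu'.symm⟩
    refine ⟨swap u v * swap u r, isThreeCycle_swap_mul_swap_same huv hur hvr, ?_⟩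
    have := L.mul_mem hs₁ ht
    rwa [swap_pattern huu'.symm hu'r hζu hζr] at this

/-- Let Ω be a finite set whose size is not 8, and f : Ω → Fin b a labelling with b ≥ 2 whose fibres all have the same size a ≥ 2 (a partition into b blocks of size a). Then the even permutations preserving the partition — the intersection of the imprimitive wreath product S_a ≀ S_b with the alternating group — form a maximal subgroup of the alternating group on Ω. -/
theorem result {Ω : Type*} [Fintype Ω] [DecidableEq Ω] (h8 : Fintype.card Ω ≠ 8) (a b : ℕ) (ha : 2 ≤ a) (hb : 2 ≤ b)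
    (f : Ω → Fin b) (hf : ∀ i : Fin b, Nat.card {x : Ω // f x = i} = a) :
    IsCoatom ((Subgroup.closure {g : Equiv.Perm Ω | ∀ x y : Ω, f x = f y ↔ f (g x) = f (g y)} ⊓ alternatingGroup Ω).subgroupOf (alternatingGroup Ω)) := by
  classical
  rw [closure_eq_partStab, isCoatom_subgroupOf_iff inf_le_right]
  have hcard : Fintype.card Ω = b * a := by
    obtain ⟨ε, _⟩ := exists_equiv_prod f hf
    rw [Fintype.card_congr ε]
    simp
  constructor
  · intro heq
    obtain ⟨x, x', hxx, h1, h2⟩ := hfib ha hf ⟨0, by omega⟩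
    obtain ⟨y, _, _, h3, _⟩ := hfib ha hf ⟨1, by omega⟩
    have hfxy : f x ≠ f y := by
      rw [h1, h3]
      intro h
      simpa using congrArg Fin.val h
    have hfxx' : f x = f x' := h1.trans h2.symm
    have hxy : x ≠ y := fun h => hfxy (by rw [h])
    have hx'y : x' ≠ y := fun h => hfxy (by rw [hfxx', h])
    have hc := isThreeCycle_swap_mul_swap_same hxy hxx hx'y.symm
    have hmem : swap x y * swap x x' ∈ partStab f ⊓ alternatingGroup Ω := by
      rw [heq]; exact hc.mem_alternatingGroup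
    have h4 := (hmem.1 x x').mp hfxx'
    rw [Equiv.Perm.mul_apply, Equiv.Perm.mul_apply, swap_apply_left, swap_apply_right, swap_apply_left,
      swap_apply_of_ne_of_ne (Ne.symm hxx) hx'y] at h4
    exact hfxy (by rw [hfxx', h4])
  · intro X hK hXA
    by_cases hXK : X = partStab f ⊓ alternatingGroup Ω
    · exact Or.inl hXK
    right
    obtain ⟨g, hgX, hgK⟩ : ∃ g ∈ X, g ∉ partStab f ⊓ alternatingGroup Ω := by
      by_contra hcon
      push Not at hcon
      exact hXK (le_antisymm hcon hK)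
    have hgK' : g ∉ partStab f := fun h => hgK ⟨h, hXA hgX⟩
    by_cases h22 : a = 2 ∧ b = 2
    · obtain ⟨rfl, rfl⟩ := h22
      -- a cardinality argument in `A₄`
      apply Subgroup.eq_of_le_of_card_ge hXA
      have hc4 : Nat.card Ω = 4 := by rw [Nat.card_eq_fintype_card, hcard]
      haveI : Nontrivial Ω := by
        rw [← Finite.one_lt_card_iff_nontrivial, hc4]; omega
      have hA : Nat.card (alternatingGroup Ω) = 12 := by
        have h1 := two_mul_nat_card_alternatingGroup (α := Ω)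
        rw [Nat.card_perm, hc4] at h1
        have h2 : Nat.factorial 4 = 24 := rfl
        omega
      obtain ⟨x₀⟩ : Nonempty Ω := inferInstance
      haveI : IsPretransitive X Ω := by
        constructor
        intro x y
        obtain ⟨k, hk, hk'⟩ := trans_K₁ le_rfl le_rfl hf x y
        exact ⟨⟨k, hK hk⟩, hk'⟩
      have hidx : (stabilizer X x₀).index = 4 := by
        rw [index_stabilizer, orbit_eq_univ, Set.ncard_univ, hc4]
      have hcm := Subgroup.card_mul_index (stabilizer X x₀)
      rw [hidx] at hcm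
      -- the stabiliser is nontrivial
      obtain ⟨k, hk, hk'⟩ := trans_K₁ le_rfl le_rfl hf (g x₀) x₀
      have hne : k * g ≠ 1 := by
        intro h
        apply hgK'
        have h1 : g = k⁻¹ := (eq_inv_of_mul_eq_one_right h)
        rw [h1]
        exact (partStab f).inv_mem hk.1
      have hstab : (⟨k * g, X.mul_mem (hK hk) hgX⟩ : X) ∈ stabilizer X x₀ := by
        show (k * g) x₀ = x₀
        rw [Equiv.Perm.mul_apply, hk']
      have hnt : Nontrivial (stabilizer X x₀) := by
        refine ⟨⟨⟨_, hstab⟩, 1, fun h => hne ?_⟩⟩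
        have := congrArg (fun z : stabilizer X x₀ => ((z : X) : Equiv.Perm Ω)) h
        exact this
      have h2 : 2 ≤ Nat.card (stabilizer X x₀) := Finite.one_lt_card_iff_nontrivial.mpr hnt
      have hdvd := Subgroup.card_dvd_of_le hXA
      rw [hA] at hdvd ⊢
      have h3 : Nat.card X ≤ 12 := Nat.le_of_dvd (by norm_num) hdvd
      rw [← hcm] at hdvd h3 ⊢
      generalize Nat.card (stabilizer X x₀) = s at *
      have h4 : s ≤ 3 := by omega
      interval_cases s <;> omega
    · have hab : 3 ≤ a ∨ 3 ≤ b := by omega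
      have hprim := isPreprimitive_of ha hb hab hf hK hgX hgK'
      obtain ⟨c, hc3, hcX⟩ : ∃ c : Equiv.Perm Ω, c.IsThreeCycle ∧ c ∈ X := by
        by_cases ha3 : 3 ≤ a
        · -- a three-cycle inside a block
          have h4 : 2 < Nat.card {z : Ω // f z = (⟨0, by omega⟩ : Fin b)} := by rw [hf]; omega
          haveI : Fintype {z : Ω // f z = (⟨0, by omega⟩ : Fin b)} := Fintype.ofFinite _
          rw [Nat.card_eq_fintype_card] at h4
          obtain ⟨p₁, p₂, p₃, h12, h13, h23⟩ := Fintype.two_lt_card_iff.mp h4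
          have h12' : (p₁ : Ω) ≠ p₂ := fun h => h12 (Subtype.ext h)
          have h13' : (p₁ : Ω) ≠ p₃ := fun h => h13 (Subtype.ext h)
          have h23' : (p₂ : Ω) ≠ p₃ := fun h => h23 (Subtype.ext h)
          have hc := isThreeCycle_swap_mul_swap_same h12' h13' h23'
          refine ⟨_, hc, hK ⟨(partStab f).mul_mem (swap_mem_partStab (p₁.2.trans p₂.2.symm))
            (swap_mem_partStab (p₁.2.trans p₃.2.symm)), hc.mem_alternatingGroup⟩⟩
        · have ha2 : a = 2 := by omega
          subst ha2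
          have hb3 : 3 ≤ b := by omega
          have hb4 : b ≠ 4 := by
            rintro rfl
            exact h8 hcard
          exact exists_threeCycle_two hb3 hb4 hf hK hgX hgK'
      exact le_antisymm hXA (alternatingGroup_le_of_isPreprimitive_of_isThreeCycle_mem hprim hc3 hcX)

end Cfsg.Agent.S5909
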