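import Cfsg.Statements.S5910

set_option autoImplicit false
open Cfsg

namespace Cfsg.Agent.S5910

/-- Sum zero in the plane over the field with two elements, written without coordinates. -/
def Q (a b c d : Fin 4) : Prop :=
  (a = b ∧ c = d) ∨ (a = c ∧ b = d) ∨ (a = d ∧ b = c) ∨
    (a ≠ b ∧ a ≠ c ∧ a ≠ d ∧ b ≠ c ∧ b ≠ d ∧ c ≠ d)

instance (a b c d : Fin 4) : Decidable (Q a b c d) := by unfold Q; infer_instance

/-- Coplanar quadruples of the affine three-space. -/
def R (x y z w : Fin 4 × Bool) : Prop :=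
  Q x.1 y.1 z.1 w.1 ∧ xor (xor x.2 y.2) (xor z.2 w.2) = false

instance (x y z w : Fin 4 × Bool) : Decidable (R x y z w) := by unfold R; infer_instance

lemma Q_xor : ∀ (a b c d : Fin 4) (b₀ b₁ b₂ b₃ : Bool), Q a b c d →
    xor (xor b₀ b₁) (xor b₂ b₃) = false →
    xor (xor (![b₀, b₁, b₂, b₃] a) (![b₀, b₁, b₂, b₃] b))
      (xor (![b₀, b₁, b₂, b₃] c) (![b₀, b₁, b₂, b₃] d)) = false := by
  decide +kernel

lemma parity_of : ∀ b₀ b₁ b₂ b₃ : Bool,
    ((if b₀ then (-1 : ℤˣ) else 1) * (if b₁ then (-1 : ℤˣ) else 1) *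
      (if b₂ then (-1 : ℤˣ) else 1) * (if b₃ then (-1 : ℤˣ) else 1) = 1) →
    xor (xor b₀ b₁) (xor b₂ b₃) = false := by
  decide

lemma model (g : Equiv.Perm (Fin 4 × Bool)) (hW : ∀ x y, x.1 = y.1 ↔ (g x).1 = (g y).1)
    (hs : Equiv.Perm.sign g = 1) (x y z w : Fin 4 × Bool) :
    R x y z w ↔ R (g x) (g y) (g z) (g w) := by
  let π : Fin 4 → Fin 4 := fun i => (g (i, false)).1
  let c : Fin 4 → Bool := fun i => (g (i, false)).2
  have hform : ∀ i a, g (i, a) = (π i, xor a (c i)) := by
    intro i a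
    cases a with
    | false => exact Prod.ext rfl (by simp [c])
    | true =>
      have h1 : (g (i, true)).1 = π i := (hW (i, true) (i, false)).mp rfl
      have h2 : (g (i, true)).2 ≠ c i := by
        intro h
        have : g (i, true) = g (i, false) := Prod.ext h1 h
        have := g.injective this
        simp at this
      refine Prod.ext h1 ?_
      simp only [Bool.true_xor]
      revert h2
      cases (g (i, true)).2 <;> cases c i <;> simp
  have hπ : Function.Injective π := by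
    intro i j hij
    have := (hW (i, false) (j, false)).mpr hij
    exact this
  let π' : Equiv.Perm (Fin 4) := Equiv.ofBijective π (Finite.injective_iff_bijective.mp hπ)
  let σ : Fin 4 → Equiv.Perm Bool := fun i => if c i then Equiv.swap false true else 1
  have hσ : ∀ i a, σ i a = xor a (c i) := by
    intro i a
    simp only [σ]
    cases h : c i <;> cases a <;> simp
  have hg : g = (Equiv.prodCongrLeft (fun _ : Bool => π')) * (Equiv.prodCongrRight σ) := by
    ext1 ⟨i, a⟩
    rw [hform]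
    simp [π', hσ]
  have hsign : xor (xor (c 0) (c 1)) (xor (c 2) (c 3)) = false := by
    apply parity_of
    rw [hg, map_mul, Equiv.Perm.sign_prodCongrLeft, Equiv.Perm.sign_prodCongrRight] at hs
    rw [Fintype.prod_bool, Fin.prod_univ_four] at hs
    have h1 : Equiv.Perm.sign π' * Equiv.Perm.sign π' = 1 := Int.units_mul_self _
    rw [h1, one_mul] at hs
    have h2 : ∀ i, Equiv.Perm.sign (σ i) = if c i then (-1 : ℤˣ) else 1 := by
      intro i
      simp only [σ]
      cases c i
      · simp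
      · simp [Equiv.Perm.sign_swap]
    simpa only [h2] using hs
  have hcv : ∀ i, c i = ![c 0, c 1, c 2, c 3] i := by
    intro i
    fin_cases i <;> rfl
  have hQ : ∀ a b e d : Fin 4, Q (π a) (π b) (π e) (π d) ↔ Q a b e d := by
    intro a b e d
    unfold Q
    simp only [hπ.eq_iff, ne_eq]
  have hxor : ∀ a b e d : Fin 4, Q a b e d →
      xor (xor (c a) (c b)) (xor (c e) (c d)) = false := by
    intro a b e d h
    have := Q_xor a b e d (c 0) (c 1) (c 2) (c 3) h hsign
    rw [← hcv, ← hcv, ← hcv, ← hcv] at this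
    exact this
  obtain ⟨v₁, a₁⟩ := x
  obtain ⟨v₂, a₂⟩ := y
  obtain ⟨v₃, a₃⟩ := z
  obtain ⟨v₄, a₄⟩ := w
  rw [hform, hform, hform, hform]
  unfold R
  simp only [hQ]
  constructor
  · rintro ⟨h1, h2⟩
    refine ⟨h1, ?_⟩
    have h3 := hxor _ _ _ _ h1
    revert h2 h3
    cases a₁ <;> cases a₂ <;> cases a₃ <;> cases a₄ <;> cases c v₁ <;> cases c v₂ <;>
      cases c v₃ <;> cases c v₄ <;> simp
  · rintro ⟨h1, h2⟩
    refine ⟨h1, ?_⟩
    have h3 := hxor _ _ _ _ h1
    revert h2 h3
    cases a₁ <;> cases a₂ <;> cases a₃ <;> cases a₄ <;> cases c v₁ <;> cases c v₂ <;>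
      cases c v₃ <;> cases c v₄ <;> simp

/-- An even affine map not preserving the pairs. -/
def ρ₀ : Equiv.Perm (Fin 4 × Bool) :=
  Equiv.swap (0, true) (1, false) * Equiv.swap (2, true) (3, false)

/-- A three-cycle. -/
def κ₀ : Equiv.Perm (Fin 4 × Bool) :=
  Equiv.swap (0, false) (0, true) * Equiv.swap (0, true) (2, false)

lemma ρ₀_aff : ∀ x y z w, R x y z w ↔ R (ρ₀ x) (ρ₀ y) (ρ₀ z) (ρ₀ w) := by
  decide +kernel

lemma ρ₀_sign : Equiv.Perm.sign ρ₀ = 1 := by
  rw [ρ₀, map_mul, Equiv.Perm.sign_swap (by decide), Equiv.Perm.sign_swap (by decide)]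
  rfl

lemma κ₀_sign : Equiv.Perm.sign κ₀ = 1 := by
  rw [κ₀, map_mul, Equiv.Perm.sign_swap (by decide), Equiv.Perm.sign_swap (by decide)]
  rfl

lemma κ₀_not : ¬ (R (0, false) (0, true) (1, false) (1, true) ↔
    R (κ₀ (0, false)) (κ₀ (0, true)) (κ₀ (1, false)) (κ₀ (1, true))) := by
  decide +kernel

lemma ρ₀_not : (ρ₀ (0, false)).1 ≠ (ρ₀ (0, true)).1 := by decide +kernel


/-- Let Ω be a set with 8 elements and f : Ω → Fin 4 a labelling whose four fibres all have size 2 (a partition of the 8 points into 4 pairs). Then the group of even permutations preserving this partition, (S₂ ≀ S₄) ∩ A₈, is not a maximal subgroup of the alternating group A₈ (it lies in a subgroup isomorphic to the affine group AGL₃(2)). -/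
theorem result {Ω : Type*} [Fintype Ω] [DecidableEq Ω] (h8 : Fintype.card Ω = 8)
    (f : Ω → Fin 4) (hf : ∀ i : Fin 4, Nat.card {x : Ω // f x = i} = 2) :
    ¬ IsCoatom ((Subgroup.closure {g : Equiv.Perm Ω | ∀ x y : Ω, f x = f y ↔ f (g x) = f (g y)} ⊓ alternatingGroup Ω).subgroupOf (alternatingGroup Ω)) := by
  classical
  -- coordinates
  have he : ∀ i : Fin 4, Nonempty ({x : Ω // f x = i} ≃ Bool) := fun i =>
    ⟨(Finite.equivFinOfCardEq (hf i)).trans finTwoEquiv⟩
  let e := fun i => (he i).some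
  let t : Ω ≃ Fin 4 × Bool := (Equiv.sigmaFiberEquiv f).symm.trans
    ((Equiv.sigmaCongrRight e).trans (Equiv.sigmaEquivProd _ _))
  have ht : ∀ x, (t x).1 = f x := fun x => rfl
  -- the affine group
  let M₀ : Subgroup (Equiv.Perm Ω) :=
    { carrier := {g | ∀ x y z w, R (t x) (t y) (t z) (t w) ↔ R (t (g x)) (t (g y)) (t (g z)) (t (g w))}
      one_mem' := fun x y z w => Iff.rfl
      mul_mem' := by
        intro a b ha hb x y z w
        exact (hb x y z w).trans (ha _ _ _ _)
      inv_mem' := by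
        intro a ha x y z w
        have := ha (a⁻¹ x) (a⁻¹ y) (a⁻¹ z) (a⁻¹ w)
        have h' : ∀ u, a (a⁻¹ u) = u := fun u => by simp
        simp only [h'] at this
        exact this.symm }
  -- the wreath product
  let W : Subgroup (Equiv.Perm Ω) :=
    { carrier := {g | ∀ x y : Ω, f x = f y ↔ f (g x) = f (g y)}
      one_mem' := fun x y => Iff.rfl
      mul_mem' := by
        intro a b ha hb x y
        exact (hb x y).trans (ha _ _)
      inv_mem' := by
        intro a ha x y
        have := ha (a⁻¹ x) (a⁻¹ y)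
        have h' : ∀ u, a (a⁻¹ u) = u := fun u => by simp
        simp only [h'] at this
        exact this.symm }
  have hcl : Subgroup.closure {g : Equiv.Perm Ω | ∀ x y : Ω, f x = f y ↔ f (g x) = f (g y)} ≤ W :=
    Subgroup.closure_le _ |>.mpr fun g hg => hg
  -- the conjugate in coordinates
  have hsub : ∀ g ∈ W ⊓ alternatingGroup Ω, g ∈ M₀ := by
    rintro g ⟨hgW, hgA⟩ x y z w
    let ĝ : Equiv.Perm (Fin 4 × Bool) := (t.symm.trans g).trans t
    have hĝ : ∀ x, ĝ (t x) = t (g x) := fun x => by simp [ĝ]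
    have hW : ∀ u v, u.1 = v.1 ↔ (ĝ u).1 = (ĝ v).1 := by
      intro u v
      obtain ⟨u', rfl⟩ := t.surjective u
      obtain ⟨v', rfl⟩ := t.surjective v
      rw [hĝ, hĝ, ht, ht, ht, ht]
      exact hgW u' v'
    have hs : Equiv.Perm.sign ĝ = 1 := by
      rw [Equiv.Perm.sign_symm_trans_trans]
      exact hgA
    have := model ĝ hW hs (t x) (t y) (t z) (t w)
    simpa only [hĝ] using this
  let A := alternatingGroup Ω
  let H := (Subgroup.closure {g : Equiv.Perm Ω | ∀ x y : Ω, f x = f y ↔ f (g x) = f (g y)} ⊓ A).subgroupOf A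
  let M := M₀.subgroupOf A
  have hHM : H ≤ M := by
    intro g hg
    have hg' := Subgroup.mem_subgroupOf.mp hg
    exact Subgroup.mem_subgroupOf.mpr (hsub _ ⟨hcl hg'.1, hg'.2⟩)
  intro hco
  -- the witnesses
  let ρ : Equiv.Perm Ω := (t.trans ρ₀).trans t.symm
  let κ : Equiv.Perm Ω := (t.trans κ₀).trans t.symm
  have hρA : ρ ∈ A := by
    change Equiv.Perm.sign ρ = 1
    have := Equiv.Perm.sign_symm_trans_trans ρ₀ t.symm
    simpa [ρ, ρ₀_sign] using this
  have hκA : κ ∈ A := by
    change Equiv.Perm.sign κ = 1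
    have := Equiv.Perm.sign_symm_trans_trans κ₀ t.symm
    simpa [κ, κ₀_sign] using this
  have hρ : ∀ x, t (ρ x) = ρ₀ (t x) := fun x => by simp [ρ]
  have hκ : ∀ x, t (κ x) = κ₀ (t x) := fun x => by simp [κ]
  have hρM : (⟨ρ, hρA⟩ : A) ∈ M := by
    apply Subgroup.mem_subgroupOf.mpr
    intro x y z w
    simp only [hρ]
    exact ρ₀_aff _ _ _ _
  have hρH : (⟨ρ, hρA⟩ : A) ∉ H := by
    intro h
    have h1 := (Subgroup.mem_subgroupOf.mp h).1
    have h2 := hcl h1 (t.symm (0, false)) (t.symm (0, true))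
    have h3 : f (t.symm (0, false)) = f (t.symm (0, true)) := by
      rw [← ht, ← ht]; simp
    have h4 := h2.mp h3
    rw [← ht, ← ht, hρ, hρ] at h4
    simp only [Equiv.apply_symm_apply] at h4
    exact ρ₀_not h4
  have hκM : (⟨κ, hκA⟩ : A) ∉ M := by
    intro h
    have h1 := Subgroup.mem_subgroupOf.mp h
    have h2 := h1 (t.symm (0, false)) (t.symm (0, true)) (t.symm (1, false)) (t.symm (1, true))
    simp only [hκ, Equiv.apply_symm_apply] at h2
    exact κ₀_not h2
  have hlt : H < M := lt_of_le_of_ne hHM (fun h => hρH (h ▸ hρM))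
  have htop := hco.2 M hlt
  exact hκM (htop ▸ Subgroup.mem_top _)

end Cfsg.Agent.S5910
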