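import Cfsg.Statements.S5911
import Cfsg.Agent.Lib.ClassMax.SymAut

set_option autoImplicit false
open Cfsg

namespace Cfsg.Agent.S5911


/-- Let Ω be a finite set whose size n is not 6. Then every subgroup of the symmetric group on Ω of index n is the stabilizer of a point. -/
theorem result {Ω : Type*} [Fintype Ω] [DecidableEq Ω] (h6 : Fintype.card Ω ≠ 6)
    (H : Subgroup (Equiv.Perm Ω)) (hH : H.index = Fintype.card Ω) :
    ∃ x : Ω, H = MulAction.stabilizer (Equiv.Perm Ω) x := by
  classical
  open Cfsg.Agent.Lib.ClassMax.SymAut in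
  by_cases h5 : 5 ≤ Fintype.card Ω
  · haveI : Fintype (Equiv.Perm Ω ⧸ H) := Fintype.ofFinite _
    obtain ⟨θ, hθ⟩ := exists_coset_iso H hH h5
    have hi : Fintype.card Ω = Fintype.card (Equiv.Perm Ω ⧸ H) := by
      rw [← hH, Subgroup.index, Nat.card_eq_fintype_card]
    rcases swap_dichotomy θ hi h5 with hs | ⟨h6', _⟩
    · exact eq_stabilizer_of_swaps H hH (by omega) θ hθ hs
    · exact absurd h6' h6
  · have hpos : Fintype.card Ω ≠ 0 := by
      rw [← hH]; exact Subgroup.index_ne_zero_of_finite
    by_cases h1 : Fintype.card Ω = 1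
    · have hs : Subsingleton Ω := Fintype.card_le_one_iff_subsingleton.mp h1.le
      have hne : Nonempty Ω := by rw [← Fintype.card_pos_iff]; omega
      obtain ⟨x⟩ := hne
      refine ⟨x, ?_⟩
      apply eq_stabilizer_of_le hH
      intro g _
      exact Subsingleton.elim _ _
    · obtain ⟨y, hy⟩ := exists_fixed_small H hH (by omega) (by omega)
      exact ⟨y, eq_stabilizer_of_le hH hy⟩

end Cfsg.Agent.S5911
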