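import Cfsg.Statements.S5912
import Cfsg.Agent.Lib.ClassMax.SymSix

set_option autoImplicit false
open Cfsg

namespace Cfsg.Agent.S5912


/-- The symmetric group on a 6-element set Ω has exactly two conjugacy classes of subgroups of index 6: there are two non-conjugate subgroups of index 6 (a point stabilizer and a transitive subgroup isomorphic to S₅), and every subgroup of index 6 is conjugate to one of them. -/
theorem result {Ω : Type*} [Fintype Ω] [DecidableEq Ω] (h6 : Fintype.card Ω = 6) :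
    ∃ H₁ H₂ : Subgroup (Equiv.Perm Ω), H₁.index = 6 ∧ H₂.index = 6 ∧
      (¬ ∃ g : Equiv.Perm Ω, Subgroup.map (MulAut.conj g).toMonoidHom H₁ = H₂) ∧
      ∀ H : Subgroup (Equiv.Perm Ω), H.index = 6 →
        ∃ g : Equiv.Perm Ω, Subgroup.map (MulAut.conj g).toMonoidHom H₁ = H ∨ Subgroup.map (MulAut.conj g).toMonoidHom H₂ = H := by
  classical
  open Cfsg.Agent.Lib.ClassMax.SymAut Cfsg.Agent.Lib.ClassMax.SymSix in
  let e : Ω ≃ Fin 6 := Fintype.equivFinOfCardEq h6
  let ψ : Equiv.Perm (Fin 6) ≃* Equiv.Perm Ω := e.symm.permCongrHom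
  let K : Subgroup (Equiv.Perm Ω) := K0.map ψ.toMonoidHom
  have hK : K.index = 6 := by
    exact (Subgroup.index_map_equiv K0 ψ).trans index_K0
  have hKfix : ∀ x : Ω, K ≠ MulAction.stabilizer (Equiv.Perm Ω) x := by
    intro x hx
    have h1 : ψ h0 ∈ K := ⟨h0, h0_mem, rfl⟩
    rw [hx, MulAction.mem_stabilizer_iff] at h1
    have h2 : e.symm (h0 (e x)) = x := h1
    apply h0_ne (e x)
    rw [← e.apply_symm_apply (h0 (e x)), h2]
  have hne : Nonempty Ω := by rw [← Fintype.card_pos_iff]; omega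
  obtain ⟨x₀⟩ := hne
  have hS : (MulAction.stabilizer (Equiv.Perm Ω) x₀).index = 6 := by
    rw [index_stabilizer_perm, h6]
  refine ⟨MulAction.stabilizer (Equiv.Perm Ω) x₀, K, hS, hK, ?_, ?_⟩
  · rintro ⟨g, hg⟩
    apply hKfix (g x₀)
    rw [← hg]
    have := MulAction.stabilizer_smul_eq_stabilizer_map_conj g x₀
    exact this.symm
  · intro H hH
    rcases dichotomy h6 K hK hKfix H hH with ⟨x, rfl⟩ | ⟨g, rfl⟩
    · refine ⟨Equiv.swap x₀ x, Or.inl ?_⟩
      have := MulAction.stabilizer_smul_eq_stabilizer_map_conj (Equiv.swap x₀ x) x₀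
      rw [← this]
      congr 1
      exact Equiv.swap_apply_left _ _
    · exact ⟨g, Or.inr rfl⟩

end Cfsg.Agent.S5912
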