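import Mathlib
import Cfsg.Statements.S5913

set_option autoImplicit false
open Cfsg

namespace Cfsg.Agent.S5913

/-- Let S be a non-abelian simple group and n a natural number. Every normal subgroup N of the direct power S^n (functions Fin n → S) is a subproduct: there is a set T of coordinates such that N consists exactly of the elements whose coordinates outside T are trivial. In particular the minimal normal subgroups of S^n are its n factors. -/
theorem result {S : Type*} [Group S] [IsSimpleGroup S] (hS : ¬ IsMulCommutative S) (n : ℕ)
    (N : Subgroup (Fin n → S)) [N.Normal] :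
    ∃ T : Finset (Fin n), ∀ x : Fin n → S, x ∈ N ↔ ∀ i, i ∉ T → x i = 1 := by
  classical
  have hcenter : Subgroup.center S = ⊥ := by
    rcases IsSimpleGroup.eq_bot_or_eq_top_of_normal (Subgroup.center S) inferInstance with h | h
    · exact h
    · exfalso
      apply hS
      refine ⟨⟨fun a b => ?_⟩⟩
      have : a ∈ Subgroup.center S := by rw [h]; trivial
      exact (Subgroup.mem_center_iff.mp this b).symm
  refine ⟨Finset.univ.filter (fun i => ∃ y ∈ N, y i ≠ 1), fun x => ?_⟩
  have hsingle : ∀ i, (∃ y ∈ N, y i ≠ 1) → ∀ s : S, Pi.mulSingle i s ∈ N := by
    rintro i ⟨y, hy, hyi⟩ s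
    set A : Subgroup S := N.comap (MonoidHom.mulSingle (fun _ : Fin n => S) i) with hA
    have hAnormal : A.Normal := by
      refine ⟨fun a ha g => ?_⟩
      have h1 : Pi.mulSingle i a ∈ N := ha
      have h2 := (inferInstance : N.Normal).conj_mem _ h1 (Pi.mulSingle i g)
      show Pi.mulSingle i (g * a * g⁻¹) ∈ N
      rwa [Pi.mulSingle_mul, Pi.mulSingle_mul, Pi.mulSingle_inv]
    rcases IsSimpleGroup.eq_bot_or_eq_top_of_normal A hAnormal with h | h
    · exfalso
      apply hyi
      have : y i ∈ Subgroup.center S := by
        rw [Subgroup.mem_center_iff]
        intro s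
        -- the commutator
        have h3 : Pi.mulSingle i s * y * (Pi.mulSingle i s)⁻¹ ∈ N :=
          (inferInstance : N.Normal).conj_mem _ hy _
        have h4 := N.mul_mem h3 (N.inv_mem hy)
        have h5 : Pi.mulSingle i s * y * (Pi.mulSingle i s)⁻¹ * y⁻¹
            = Pi.mulSingle i (s * y i * s⁻¹ * (y i)⁻¹) := by
          ext j
          by_cases hj : j = i
          · subst hj; simp
          · simp [hj]
        rw [h5] at h4
        have h6 : s * y i * s⁻¹ * (y i)⁻¹ ∈ A := h4
        rw [h, Subgroup.mem_bot] at h6
        have h7 : s * y i * s⁻¹ = y i := by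
          rwa [mul_inv_eq_one] at h6
        rw [mul_inv_eq_iff_eq_mul] at h7
        exact h7
      rw [hcenter, Subgroup.mem_bot] at this
      exact this
    · have : s ∈ A := by rw [h]; trivial
      exact this
  constructor
  · intro hx i hi
    by_contra hne
    apply hi
    exact Finset.mem_filter.mpr ⟨Finset.mem_univ _, x, hx, hne⟩
  · intro hx
    have key : ∀ U : Finset (Fin n), (fun i => if i ∈ U then x i else 1) ∈ N := by
      intro U
      induction U using Finset.induction_on with
      | empty =>
        have h0 : (fun i => if i ∈ (∅ : Finset (Fin n)) then x i else 1) = (1 : Fin n → S) := by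
          ext j; simp
        rw [h0]
        exact N.one_mem
      | insert a U ha ih =>
        by_cases haT : ∃ y ∈ N, y a ≠ 1
        · have h1 := hsingle a haT (x a)
          have h2 := N.mul_mem ih h1
          convert h2 using 1
          ext j
          by_cases hj : j = a
          · subst hj; simp [ha]
          · simp [hj]
        · have hxa : x a = 1 := hx a (by simpa using haT)
          convert ih using 1
          ext j
          by_cases hj : j = a
          · subst hj; simp [ha, hxa]
          · simp [hj]
    have := key Finset.univ
    simpa using this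

end Cfsg.Agent.S5913
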