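import Cfsg.Statements.S5914

set_option autoImplicit false
open Cfsg

namespace Cfsg.Agent.S5914

section forward

variable {G : Type*} [Group G]

/-- Minimal normal subgroups. -/
def IsMinNormal (S : Subgroup G) : Prop :=
  S.Normal ∧ S ≠ ⊥ ∧ ∀ N : Subgroup G, N.Normal → N ≤ S → N = ⊥ ∨ N = S

lemma min_map {S : Subgroup G} (hS : IsMinNormal S) (φ : G ≃* G) :
    IsMinNormal (S.map φ.toMonoidHom) := by
  obtain ⟨h1, h2, h3⟩ := hS
  refine ⟨h1.map _ φ.surjective, ?_, ?_⟩
  · intro h
    rw [Subgroup.map_eq_bot_iff_of_injective _ φ.injective] at h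
    exact h2 h
  · intro N hN hle
    have hle' : N.comap φ.toMonoidHom ≤ S := fun x hx => by
      obtain ⟨y, hy, hyx⟩ := hle hx
      have : y = x := φ.injective hyx
      exact this ▸ hy
    have hmap : (N.comap φ.toMonoidHom).map φ.toMonoidHom = N :=
      Subgroup.map_comap_eq_self_of_surjective φ.surjective N
    rcases h3 _ (hN.comap _) hle' with h | h
    · left
      rw [← hmap, h, Subgroup.map_bot]
    · right
      rw [← hmap, h]

lemma min_comm {S T : Subgroup G} (hS : IsMinNormal S) (hT : IsMinNormal T) (hne : S ≠ T) :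
    ∀ x ∈ S, ∀ y ∈ T, x * y = y * x := by
  have hd : Disjoint S T := by
    rw [disjoint_iff]
    have hn : (S ⊓ T).Normal := by
      haveI := hS.1
      haveI := hT.1
      infer_instance
    rcases hS.2.2 _ hn inf_le_left with h | h
    · exact h
    · exfalso
      have hST : S ≤ T := inf_eq_left.mp h
      rcases hT.2.2 S hS.1 hST with h' | h'
      · exact hS.2.1 h'
      · exact hne h'
  intro x hx y hy
  exact Subgroup.commute_of_normal_of_disjoint S T hS.1 hT.1 hd x y hx hy

/-- Adding one more factor. -/
lemma extend {S D T : Subgroup G} {k : ℕ} (ψ : (Fin k → S) →* G) (hψ : Function.Injective ψ)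
    (hD : ψ.range = D) (hDn : D.Normal) (φ : G ≃* G) (hT : S.map φ.toMonoidHom = T)
    (hTn : T.Normal) (hdis : T ⊓ D = ⊥) :
    ∃ ψ' : (Fin (k + 1) → S) →* G, Function.Injective ψ' ∧ ψ'.range.Normal := by
  have hd : Disjoint T D := disjoint_iff.mpr hdis
  have hc := Subgroup.commute_of_normal_of_disjoint T D hTn hDn hd
  have hφT : ∀ s : S, φ s ∈ T := fun s => by
    rw [← hT]; exact ⟨s, s.2, rfl⟩
  have hψD : ∀ u, ψ u ∈ D := fun u => by
    rw [← hD]; exact ⟨u, rfl⟩
  let ψ' : (Fin (k + 1) → S) →* G := MonoidHom.mk' (fun y => φ (y 0 : G) * ψ (fun i => y i.succ)) (by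
    intro a b
    have h1 : (fun i : Fin k => (a * b) i.succ) = (fun i => a i.succ) * (fun i => b i.succ) := rfl
    have h2 : ((a * b) 0 : S) = a 0 * b 0 := rfl
    rw [h1, h2, map_mul, Subgroup.coe_mul, map_mul]
    have h3 := hc (φ (b 0 : G)) (ψ fun i => a i.succ) (hφT _) (hψD _)
    calc φ (a 0 : G) * φ (b 0 : G) * (ψ (fun i => a i.succ) * ψ (fun i => b i.succ))
        = φ (a 0 : G) * (φ (b 0 : G) * ψ (fun i => a i.succ)) * ψ (fun i => b i.succ) := by
          simp only [mul_assoc]
      _ = φ (a 0 : G) * (ψ (fun i => a i.succ) * φ (b 0 : G)) * ψ (fun i => b i.succ) := by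
          rw [h3.eq]
      _ = _ := by simp only [mul_assoc])
  refine ⟨ψ', ?_, ?_⟩
  · rw [injective_iff_map_eq_one]
    intro y hy
    have hy' : φ (y 0 : G) * ψ (fun i => y i.succ) = 1 := hy
    have h1 : φ (y 0 : G) = (ψ (fun i => y i.succ))⁻¹ := eq_inv_of_mul_eq_one_left hy'
    have h2 : φ (y 0 : G) ∈ T ⊓ D := ⟨hφT _, h1 ▸ D.inv_mem (hψD _)⟩
    rw [hdis, Subgroup.mem_bot] at h2
    have h3 : ψ (fun i => y i.succ) = 1 := by
      rw [h2, one_mul] at hy'; exact hy'
    have h4 : (y 0 : G) = 1 := by
      have := φ.injective (h2.trans (map_one φ).symm)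
      exact this
    have h5 : (fun i : Fin k => y i.succ) = 1 := hψ (h3.trans (map_one ψ).symm)
    ext i
    refine Fin.cases ?_ (fun j => ?_) i
    · simpa using h4
    · have := congrFun h5 j
      simpa using congrArg Subtype.val this
  · constructor
    rintro _ ⟨y, rfl⟩ g
    have hy : ψ' y = φ (y 0 : G) * ψ (fun i => y i.succ) := rfl
    have h1 : g * φ (y 0 : G) * g⁻¹ ∈ T := hTn.conj_mem _ (hφT _) g
    have h2 : g * ψ (fun i => y i.succ) * g⁻¹ ∈ D := hDn.conj_mem _ (hψD _) g
    rw [← hT] at h1
    rw [← hD] at h2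
    obtain ⟨s, hs, hs'⟩ := h1
    obtain ⟨u, hu⟩ := h2
    refine ⟨Fin.cons ⟨s, hs⟩ u, ?_⟩
    change φ _ * ψ _ = _
    simp only [Fin.cons_zero, Fin.cons_succ]
    have hs'' : φ s = g * φ (y 0 : G) * g⁻¹ := hs'
    have hu' : (fun i : Fin k => (Fin.cons (α := fun _ => S) ⟨s, hs⟩ u : Fin (k + 1) → S) i.succ) = u := by
      ext i; simp
    change φ s * ψ u = _
    rw [hs'', hu, hy]
    group

theorem forward [Finite G] [Nontrivial G]
    (hG : ∀ H : Subgroup G, H.Characteristic → H = ⊥ ∨ H = ⊤) :
    ∃ (S : Type) (_ : Group S) (_ : IsSimpleGroup S) (n : ℕ), 1 ≤ n ∧ Nonempty (G ≃* (Fin n → S)) := by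
  classical
  -- a minimal normal subgroup
  obtain ⟨S, -, hS⟩ := exists_minimal_le_of_wellFoundedLT
    (fun N : Subgroup G => N.Normal ∧ N ≠ ⊥) ⊤ ⟨inferInstance, top_ne_bot⟩
  have hmin : IsMinNormal S := by
    refine ⟨hS.prop.1, hS.prop.2, fun N hN hle => ?_⟩
    by_cases hb : N = ⊥
    · exact Or.inl hb
    · exact Or.inr (le_antisymm hle (hS.le_of_le ⟨hN, hb⟩ hle))
  -- the join of the automorphic images is everything
  let C : Subgroup G := ⨆ φ : G ≃* G, S.map φ.toMonoidHom
  have hCchar : C.Characteristic := by
    rw [Subgroup.characteristic_iff_map_le]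
    intro φ
    rw [Subgroup.map_iSup]
    refine iSup_le fun ρ => ?_
    have : (S.map ρ.toMonoidHom).map φ.toMonoidHom = S.map (ρ.trans φ).toMonoidHom := by
      rw [Subgroup.map_map]; rfl
    rw [this]
    exact le_iSup (fun φ : G ≃* G => S.map φ.toMonoidHom) (ρ.trans φ)
  have hSC : S ≤ C := by
    have : S.map (MulEquiv.refl G).toMonoidHom ≤ C :=
      le_iSup (fun φ : G ≃* G => S.map φ.toMonoidHom) (MulEquiv.refl G)
    intro x hx
    exact this ⟨x, hx, rfl⟩
  have hCtop : C = ⊤ := by
    rcases hG C hCchar with h | h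
    · exfalso
      rw [h, le_bot_iff] at hSC
      exact hmin.2.1 hSC
    · exact h
  -- simplicity of `S`
  have hsimple : IsSimpleGroup S := by
    have hnt : Nontrivial S := by
      rw [Subgroup.nontrivial_iff_ne_bot]; exact hmin.2.1
    refine ⟨fun N hN => ?_⟩
    let N' : Subgroup G := N.map S.subtype
    have hle : N' ≤ S := by
      rintro _ ⟨x, _, rfl⟩; exact x.2
    have hnorm : (Subgroup.normalizer (N' : Set G)) = ⊤ := by
      rw [eq_top_iff, ← hCtop]
      refine iSup_le fun φ => ?_
      by_cases heq : S.map φ.toMonoidHom = S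
      · rw [heq]
        intro x hx
        rw [Subgroup.mem_normalizer_iff]
        intro y
        constructor
        · rintro ⟨z, hz, rfl⟩
          exact ⟨⟨x, hx⟩ * z * ⟨x, hx⟩⁻¹, hN.conj_mem z hz _, rfl⟩
        · rintro ⟨z, hz, hz'⟩
          refine ⟨⟨x, hx⟩⁻¹ * z * ⟨x, hx⟩, ?_, ?_⟩
          · have := hN.conj_mem z hz (⟨x, hx⟩⁻¹)
            simpa using this
          · have h1 : y = x⁻¹ * (z : G) * x := by
              have hz2 : (z : G) = x * y * x⁻¹ := hz'
              rw [hz2]; group
            simp [h1]
      · intro x hx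
        have hc := min_comm (min_map hmin φ) hmin heq
        rw [Subgroup.mem_normalizer_iff]
        intro y
        constructor
        · intro hy
          have hyS := hle hy
          rw [hc x hx y hyS, mul_inv_cancel_right]
          exact hy
        · intro hy
          have hmem : x * y * x⁻¹ ∈ S := hle hy
          have hyS : y ∈ S := by
            have := hmin.1.conj_mem _ hmem x⁻¹
            simpa [mul_assoc] using this
          rw [hc x hx y hyS, mul_inv_cancel_right] at hy
          exact hy
    have hNn : N'.Normal := Subgroup.normalizer_eq_top_iff.mp hnorm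
    rcases hmin.2.2 N' hNn hle with h | h
    · left
      exact (Subgroup.map_eq_bot_iff_of_injective _ S.subtype_injective).mp h
    · right
      rw [eq_top_iff]
      intro x _
      have : (x : G) ∈ N' := by rw [h]; exact x.2
      obtain ⟨y, hy, hyx⟩ := this
      have : y = x := Subtype.ext hyx
      exact this ▸ hy
  -- the maximal product
  let P : ℕ → Prop := fun k => ∃ ψ : (Fin k → S) →* G, Function.Injective ψ ∧ ψ.range.Normal
  have hP0 : P 0 := by
    refine ⟨1, ?_, ?_⟩
    · intro a b _; exact Subsingleton.elim _ _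
    · rw [MonoidHom.range_one]; infer_instance
  have hbound : ∀ k, P k → k ≤ Nat.card G := by
    rintro k ⟨ψ, hψ, -⟩
    have h1 := Nat.card_le_card_of_injective ψ hψ
    rw [Nat.card_fun, Nat.card_fin] at h1
    have h2 : 2 ≤ Nat.card S := by
      have hnt : Nontrivial S := hsimple.toNontrivial
      exact Finite.one_lt_card
    calc k ≤ 2 ^ k := Nat.lt_two_pow_self.le
      _ ≤ Nat.card S ^ k := Nat.pow_le_pow_left h2 k
      _ ≤ _ := h1
  classical
  let k := Nat.findGreatest P (Nat.card G)
  have hPk : P k := Nat.findGreatest_spec (m := 0) (Nat.zero_le _) hP0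
  have hmax : ¬ P (k + 1) := by
    intro h
    have h1 := Nat.le_findGreatest (hbound _ h) h
    omega
  obtain ⟨ψ, hψ, hDn⟩ := hPk
  have hle : ∀ φ : G ≃* G, S.map φ.toMonoidHom ≤ ψ.range := by
    intro φ
    have hmT := min_map hmin φ
    have hinf : (S.map φ.toMonoidHom ⊓ ψ.range).Normal := by
      haveI := hmT.1
      haveI := hDn
      infer_instance
    rcases hmT.2.2 _ hinf inf_le_left with h | h
    · exact absurd (extend ψ hψ rfl hDn φ rfl hmT.1 h) hmax
    · exact inf_eq_left.mp h
  have hrange : ψ.range = ⊤ := by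
    rw [eq_top_iff, ← hCtop]
    exact iSup_le hle
  have hsurj : Function.Surjective ψ := MonoidHom.range_eq_top.mp hrange
  have hk : 1 ≤ k := by
    by_contra hk
    have hk0 : k = 0 := by omega
    have : Subsingleton G := by
      constructor
      intro a b
      obtain ⟨x, rfl⟩ := hsurj a
      obtain ⟨y, rfl⟩ := hsurj b
      have : x = y := by
        funext i
        have : Fin k → False := fun i => by
          have := i.2; omega
        exact (this i).elim
      rw [this]
    exact not_subsingleton G this
  -- transport the simple group to `Type`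
  haveI : Finite S := inferInstance
  let e' : Shrink.{0} S ≃* S := Shrink.mulEquiv
  refine ⟨Shrink.{0} S, inferInstance, e'.isSimpleGroup, k, hk, ⟨?_⟩⟩
  exact (MulEquiv.ofBijective ψ ⟨hψ, hsurj⟩).symm.trans (MulEquiv.arrowCongr (Equiv.refl _) e'.symm)

end forward

section backward

variable {S : Type*} [Group S] [IsSimpleGroup S] {n : ℕ}

lemma all_single (H : Subgroup (Fin n → S)) (hall : ∀ j t, Pi.mulSingle j t ∈ H) : H = ⊤ := by
  classical
  rw [eq_top_iff]
  intro y _
  have key : ∀ s : Finset (Fin n), (fun i => if i ∈ s then y i else 1) ∈ H := by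
    intro s
    induction s using Finset.induction_on with
    | empty =>
      have : (fun i : Fin n => if i ∈ (∅ : Finset (Fin n)) then y i else (1 : S)) = 1 := by
        ext i; simp
      rw [this]; exact H.one_mem
    | insert a s ha ih =>
      have : (fun i => if i ∈ insert a s then y i else (1 : S)) =
          (fun i => if i ∈ s then y i else 1) * Pi.mulSingle a (y a) := by
        ext i
        by_cases hia : i = a
        · subst hia; simp [ha]
        · simp [hia, Pi.mulSingle_eq_of_ne hia]
      rw [this]
      exact H.mul_mem ih (hall _ _)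
  have := key Finset.univ
  simpa using this

theorem backward (H : Subgroup (Fin n → S)) (hH : H.Characteristic) : H = ⊥ ∨ H = ⊤ := by
  classical
  by_cases hb : H = ⊥
  · exact Or.inl hb
  right
  have hn : H.Normal := inferInstance
  -- comap under a single factor is all or nothing
  have hB : ∀ i s, s ≠ 1 → Pi.mulSingle i s ∈ H → ∀ t, Pi.mulSingle i t ∈ H := by
    intro i s hs hsH t
    let ι : S →* (Fin n → S) := MonoidHom.mulSingle (fun _ => S) i
    have hnorm : (H.comap ι).Normal := by
      constructor
      intro a ha g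
      have h1 : ι (g * a * g⁻¹) = ι g * ι a * (ι g)⁻¹ := by simp
      rw [Subgroup.mem_comap, h1]
      exact hn.conj_mem _ ha _
    rcases hnorm.eq_bot_or_eq_top with h | h
    · exfalso
      have : s ∈ H.comap ι := hsH
      rw [h, Subgroup.mem_bot] at this
      exact hs this
    · have : t ∈ H.comap ι := by rw [h]; trivial
      exact this
  -- moving between factors
  have hC : ∀ i j s, Pi.mulSingle i s ∈ H → Pi.mulSingle j s ∈ H := by
    intro i j s hs
    let α : (Fin n → S) ≃* (Fin n → S) := MulEquiv.arrowCongr (Equiv.swap i j) (MulEquiv.refl S)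
    have hmap := (Subgroup.characteristic_iff_map_eq.mp hH) α
    rw [← hmap]
    refine ⟨_, hs, ?_⟩
    ext k
    change (Pi.mulSingle i s : Fin n → S) (Equiv.swap i j k) = _
    by_cases hkj : k = j
    · subst hkj; simp
    · by_cases hki : k = i
      · subst hki
        simp [Pi.mulSingle_eq_of_ne hkj]
        rw [Pi.mulSingle_eq_of_ne (Ne.symm hkj)]
      · rw [Equiv.swap_apply_of_ne_of_ne hki hkj, Pi.mulSingle_eq_of_ne hki, Pi.mulSingle_eq_of_ne hkj]
  -- a single element
  have hA : ∃ i s, s ≠ 1 ∧ Pi.mulSingle i s ∈ H := by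
    obtain ⟨x, hx, hx1⟩ := (Subgroup.bot_or_exists_ne_one H).resolve_left hb
    obtain ⟨i, hi⟩ : ∃ i, x i ≠ 1 := by
      by_contra hc
      push Not at hc
      exact hx1 (funext hc)
    by_cases hcen : ∃ y : S, x i * y * (x i)⁻¹ * y⁻¹ ≠ 1
    · obtain ⟨y, hy⟩ := hcen
      refine ⟨i, _, hy, ?_⟩
      have h1 : x * Pi.mulSingle i y * x⁻¹ * (Pi.mulSingle i y)⁻¹ = Pi.mulSingle i (x i * y * (x i)⁻¹ * y⁻¹) := by
        ext k
        by_cases hk : k = i
        · subst hk; simp
        · simp [Pi.mulSingle_eq_of_ne hk]
      rw [← h1]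
      have h2 : Pi.mulSingle i y * x⁻¹ * (Pi.mulSingle i y)⁻¹ ∈ H :=
        hn.conj_mem _ (H.inv_mem hx) _
      have : x * Pi.mulSingle i y * x⁻¹ * (Pi.mulSingle i y)⁻¹ =
          x * (Pi.mulSingle i y * x⁻¹ * (Pi.mulSingle i y)⁻¹) := by group
      rw [this]
      exact H.mul_mem hx h2
    · push Not at hcen
      -- `x i` is central; the centre is everything, so `S` is commutative
      have hcentral : x i ∈ Subgroup.center S := by
        rw [Subgroup.mem_center_iff]
        intro y
        have := hcen y
        have h2 : x i * y * (x i)⁻¹ = y := by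
          rw [mul_inv_eq_one] at this; exact this
        rw [mul_inv_eq_iff_eq_mul] at h2
        exact h2.symm
      have htop : Subgroup.center S = ⊤ := by
        have hcn : (Subgroup.center S).Normal := inferInstance
        rcases hcn.eq_bot_or_eq_top with h | h
        · rw [h, Subgroup.mem_bot] at hcentral
          exact absurd hcentral hi
        · exact h
      have hcomm : ∀ a b : S, a * b = b * a := by
        intro a b
        have : a ∈ Subgroup.center S := by rw [htop]; trivial
        exact ((Subgroup.mem_center_iff.mp this) b).symm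
      by_cases hex : ∃ j, j ≠ i
      · obtain ⟨j, hj⟩ := hex
        -- the transvection
        let τf : (Fin n → S) → (Fin n → S) := fun y => y * Pi.mulSingle j (y i)
        let τg : (Fin n → S) → (Fin n → S) := fun y => y * Pi.mulSingle j (y i)⁻¹
        have hτ1 : ∀ y, τg (τf y) = y := by
          intro y
          ext k
          by_cases hk : k = j
          · subst hk
            simp [τf, τg, Pi.mulSingle_eq_of_ne (Ne.symm hj), Pi.mulSingle_eq_of_ne hj]
          · simp [τf, τg, Pi.mulSingle_eq_of_ne hk]
        have hτ2 : ∀ y, τf (τg y) = y := by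
          intro y
          ext k
          by_cases hk : k = j
          · subst hk
            simp [τf, τg, Pi.mulSingle_eq_of_ne (Ne.symm hj), Pi.mulSingle_eq_of_ne hj]
          · simp [τf, τg, Pi.mulSingle_eq_of_ne hk]
        let τ : (Fin n → S) ≃* (Fin n → S) :=
          { toFun := τf, invFun := τg, left_inv := hτ1, right_inv := hτ2,
            map_mul' := by
              intro a b
              ext k
              by_cases hk : k = j
              · subst hk
                simp only [τf, Pi.mul_apply, Pi.mulSingle_eq_same]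
                calc a k * b k * (a i * b i) = a k * (b k * a i) * b i := by
                      simp only [mul_assoc]
                  _ = a k * (a i * b k) * b i := by rw [hcomm (b k)]
                  _ = _ := by simp only [mul_assoc]
              · simp [τf, Pi.mulSingle_eq_of_ne hk] }
        have hmap := (Subgroup.characteristic_iff_map_eq.mp hH) τ
        have h1 : τ x ∈ H := by
          rw [← hmap]; exact ⟨x, hx, rfl⟩
        refine ⟨j, x i, hi, ?_⟩
        have h2 : x⁻¹ * τ x = Pi.mulSingle j (x i) := by
          change x⁻¹ * (x * Pi.mulSingle j (x i)) = _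
          group
        rw [← h2]
        exact H.mul_mem (H.inv_mem hx) h1
      · push Not at hex
        refine ⟨i, x i, hi, ?_⟩
        have : x = Pi.mulSingle i (x i) := by
          ext k
          rw [hex k]; simp
        rw [← this]; exact hx
  obtain ⟨i, s, hs, hsH⟩ := hA
  apply all_single
  intro j t
  exact hC i j t (hB i s hs hsH t)

end backward


/-- A non-trivial finite group G is characteristically simple (its only characteristic subgroups are 1 and G) if and only if G is isomorphic to a direct power S^n (n ≥ 1) of some simple group S (possibly cyclic of prime order). -/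
theorem result {G : Type*} [Group G] [Finite G] [Nontrivial G] :
    (∀ H : Subgroup G, H.Characteristic → H = ⊥ ∨ H = ⊤) ↔
    ∃ (S : Type) (_ : Group S) (_ : IsSimpleGroup S) (n : ℕ), 1 ≤ n ∧ Nonempty (G ≃* (Fin n → S)) := by
  constructor
  · exact forward
  · rintro ⟨S, _, _, n, -, ⟨e⟩⟩ H hH
    have hchar : (H.map e.toMonoidHom).Characteristic := by
      rw [Subgroup.characteristic_iff_map_le]
      intro φ
      have hc := (Subgroup.characteristic_iff_map_eq.mp hH) (e.trans (φ.trans e.symm))
      rintro _ ⟨_, ⟨x, hx, rfl⟩, rfl⟩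
      refine ⟨(e.trans (φ.trans e.symm)) x, ?_, ?_⟩
      · have : (e.trans (φ.trans e.symm)) x ∈ H.map (e.trans (φ.trans e.symm)).toMonoidHom :=
          ⟨x, hx, rfl⟩
        rw [hc] at this
        exact this
      · simp
    rcases backward _ hchar with h | h
    · left
      exact (Subgroup.map_eq_bot_iff_of_injective _ e.injective).mp h
    · right
      rw [eq_top_iff]
      intro x _
      have : e x ∈ H.map e.toMonoidHom := by rw [h]; trivial
      obtain ⟨y, hy, hyx⟩ := this
      have : y = x := e.injective hyx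
      exact this ▸ hy

end Cfsg.Agent.S5914
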