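import Mathlib
import Cfsg.Statements.S5947
import Cfsg.Agent.Lib.ClassMax.Singer

set_option autoImplicit false
open Cfsg

namespace Cfsg.Agent.S5947

open Cfsg.Agent.Lib.ClassMax

/-- Uniqueness of finite fields over `F`, for a ring `A` which happens to be a field. -/
lemma exists_algHom_bijective {F K A : Type*} [Field F] [Field K] [Fintype K] [Algebra F K]
    [Ring A] [instA : Algebra F A] [Fintype A] (h : IsField A) (hcard : Fintype.card A = Fintype.card K) :
    ∃ ψ : K →ₐ[F] A, Function.Bijective ψ := by
  classical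
  letI fA : Field A := h.toField
  letI algA : Algebra F A := instA
  haveI h1 : Polynomial.IsSplittingField F A (Polynomial.X ^ Fintype.card K - Polynomial.X) := by
    rw [← hcard]; exact FiniteField.isSplittingField_sub A F
  let ψ' : K ≃ₐ[F] A := (Polynomial.IsSplittingField.algEquiv K
    (Polynomial.X ^ Fintype.card K - Polynomial.X : Polynomial F)).trans
    (Polynomial.IsSplittingField.algEquiv A (Polynomial.X ^ Fintype.card K - Polynomial.X : Polynomial F)).symm
  exact ⟨{ toFun := ψ'
           map_one' := map_one ψ'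
           map_mul' := map_mul ψ'
           map_zero' := map_zero ψ'
           map_add' := map_add ψ'
           commutes' := ψ'.commutes }, ψ'.bijective⟩

/-- Let F ⊆ K be finite fields with |F| = q and [K : F] = n ≥ 2, regard K as an n-dimensional F-vector space, and let M ≤ GL_F(K) be the Singer group of multiplications by non-zero elements of K (cyclic of order q^n − 1). Assume (n, q) ≠ (6, 2), and that it is not the case that n = 2 with q a prime such that q + 1 is a power of 2. Then every abelian subgroup of GL_F(K) of order q^n − 1 is conjugate to M. -/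
theorem result {F K : Type*} [Field F] [Fintype F] [Field K] [Fintype K] [Algebra F K] (n : ℕ) (hn : 2 ≤ n) (hdim : Module.finrank F K = n)
    (hex1 : ¬ (n = 6 ∧ Fintype.card F = 2))
    (hex2 : ¬ (n = 2 ∧ (Fintype.card F).Prime ∧ ∃ a : ℕ, Fintype.card F + 1 = 2 ^ a))
    (U : Subgroup (Module.End F K)ˣ) (hU : IsMulCommutative U) (hcard : Nat.card U = Fintype.card K - 1) :
    ∃ g : (Module.End F K)ˣ, U.map (MulAut.conj g).toMonoidHom = (Units.map ((Algebra.lmul F K : K →ₐ[F] Module.End F K) : K →* Module.End F K)).range := by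
  classical
  change ∃ g : (Module.End F K)ˣ, U.map (MulAut.conj g).toMonoidHom = (singerHom F (K := K)).range
  haveI : Finite (Module.End F K) := DFunLike.finite (Module.End F K)
  haveI : Fintype (Module.End F K) := Fintype.ofFinite _
  -- arithmetic of the exponents
  obtain ⟨p, hpc⟩ := CharP.exists F
  obtain ⟨e, hp, hqe⟩ := FiniteField.card F p
  haveI : Fact p.Prime := ⟨hp⟩
  set q := Fintype.card F with hq
  have hq2 : 2 ≤ q := Fintype.one_lt_card
  have hK : Fintype.card K = q ^ n := by rw [Module.card_eq_pow_finrank (K := F) (V := K), hdim]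
  set N := Fintype.card K - 1 with hN
  have hK2 : 2 ≤ Fintype.card K := Fintype.one_lt_card
  have hN0 : N ≠ 0 := by omega
  have hcop : q.Coprime N := by
    have h1 : Nat.gcd q N ∣ q ^ n := (Nat.gcd_dvd_left _ _).trans (dvd_pow_self q (by omega))
    have h2 : Nat.gcd q N ∣ N := Nat.gcd_dvd_right _ _
    have h3 : Nat.gcd q N ∣ q ^ n - N := Nat.dvd_sub h1 h2
    have h4 : q ^ n - N = 1 := by omega
    rw [h4] at h3
    exact Nat.dvd_one.mp h3
  set t := N.totient with ht
  have htpos : 0 < t := Nat.totient_pos.mpr (by omega)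
  set Q := q ^ t with hQ
  have hQ1 : Q ≡ 1 [MOD N] := Nat.ModEq.pow_totient hcop
  have hQ2 : 2 ≤ Q := by
    calc 2 ≤ q := hq2
      _ = q ^ 1 := (pow_one q).symm
      _ ≤ q ^ t := Nat.pow_le_pow_right (by omega) htpos
  have hNdvd : N ∣ Q - 1 := (Nat.modEq_iff_dvd' (by omega)).mp hQ1.symm
  have hQp : Q = p ^ ((e : ℕ) * t) := by rw [hQ, hqe, pow_mul]
  -- the algebra
  let S : Set (Module.End F K) := (fun u : (Module.End F K)ˣ => (u : Module.End F K)) '' (U : Set (Module.End F K)ˣ)
  have hScomm : ∀ a ∈ S, ∀ b ∈ S, a * b = b * a := by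
    rintro _ ⟨a, ha, rfl⟩ _ ⟨b, hb, rfl⟩
    have h1 := hU.is_comm.comm ⟨a, ha⟩ ⟨b, hb⟩
    have h2 : a * b = b * a := congrArg Subtype.val h1
    rw [← Units.val_mul, h2, Units.val_mul]
  let A : Subalgebra F (Module.End F K) := Algebra.adjoin F S
  have hAcomm : ∀ a ∈ A, ∀ b ∈ A, a * b = b * a := by
    intro a ha b hb
    have h1 := (Algebra.isMulCommutative_adjoin F hScomm).is_comm.comm ⟨a, ha⟩ ⟨b, hb⟩
    exact congrArg Subtype.val h1
  haveI hcharE : CharP (Module.End F K) p :=
    charP_of_injective_algebraMap (algebraMap F (Module.End F K)).injective p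
  have hUpow : ∀ u ∈ U, (u : Module.End F K) ^ Q = u := by
    intro u hu
    obtain ⟨c, hc⟩ := hNdvd
    have h1 : u ^ N = 1 := by
      have h2 := pow_card_eq_one' (x := (⟨u, hu⟩ : U))
      rw [hcard] at h2
      exact congrArg Subtype.val h2
    have hQeq : Q = N * c + 1 := by omega
    rw [← Units.val_pow_eq_pow_val, hQeq, pow_succ, pow_mul, h1, one_pow, one_mul]
  have hApow : ∀ a ∈ A, a ^ Q = a := by
    intro a ha
    refine Algebra.adjoin_induction (p := fun x _ => x ^ Q = x) ?_ ?_ ?_ ?_ ha
    · rintro _ ⟨u, hu, rfl⟩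
      exact hUpow u hu
    · intro r
      rw [← map_pow, hQ, hq, FiniteField.pow_card_pow]
    · intro x y hx hy h1 h2
      rw [hQp] at h1 h2 ⊢
      rw [add_pow_expChar_pow_of_commute p _ (hAcomm x hx y hy : Commute x y), h1, h2]
    · intro x y hx hy h1 h2
      rw [Commute.mul_pow (hAcomm x hx y hy : Commute x y), h1, h2]
  -- existence of a cyclic vector
  have hcyc : ∃ v : K, ∀ a ∈ A, a v = 0 → a = 0 := by
    obtain ⟨v, hv⟩ := Finite.exists_min (fun v : K => Set.ncard {a : Module.End F K | a ∈ A ∧ a v = 0})
    refine ⟨v, fun a ha hav => ?_⟩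
    by_contra ha0
    obtain ⟨w, hw⟩ : ∃ w, a w ≠ 0 := by
      by_contra hcon
      push Not at hcon
      exact ha0 (LinearMap.ext hcon)
    set f : Module.End F K := a ^ (Q - 1) with hf
    have hfA : f ∈ A := A.pow_mem ha _
    have hQsub : Q - 1 + 1 = Q := by omega
    have hQsub2 : Q - 2 + 1 = Q - 1 := by omega
    have haf : a * f = a := by
      rw [hf, ← pow_succ', hQsub, hApow a ha]
    have hfv : f v = 0 := by
      rw [hf, ← hQsub2, pow_succ, Module.End.mul_apply, hav, map_zero]
    have hff : f * f = f := by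
      have h1 : f * f = a ^ (Q - 2) * (a * f) * 1 := by
        rw [mul_one, ← mul_assoc, ← pow_succ, hQsub2]
      rw [h1, haf, mul_one, ← pow_succ, hQsub2]
    have hsub : {b : Module.End F K | b ∈ A ∧ b (v + f w) = 0} ⊂ {b : Module.End F K | b ∈ A ∧ b v = 0} := by
      constructor
      · rintro b ⟨hb, hb0⟩
        refine ⟨hb, ?_⟩
        have h1 : f (b (v + f w)) = 0 := by rw [hb0, map_zero]
        have h2 : f (b v) = b (f v) := by
          have := hAcomm f hfA b hb
          exact congrArg (fun T : Module.End F K => T v) this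
        have h3 : f (b (f w)) = b (f (f w)) := by
          have := hAcomm f hfA b hb
          exact congrArg (fun T : Module.End F K => T (f w)) this
        have h4 : f (f w) = f w := by
          have := congrArg (fun T : Module.End F K => T w) hff
          exact this
        rw [map_add, map_add, h2, h3, h4, hfv, map_zero, zero_add] at h1
        rw [map_add, h1, add_zero] at hb0
        exact hb0
      · intro hsup
        have h1 := hsup ⟨ha, hav⟩
        apply hw
        have h2 : a (v + f w) = 0 := h1.2
        rw [map_add, hav, zero_add] at h2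
        have h3 : a (f w) = a w := congrArg (fun T : Module.End F K => T w) haf
        rw [← h3, h2]
    have := Set.ncard_lt_ncard hsub (Set.toFinite _)
    have h2 := hv (v + f w)
    omega
  obtain ⟨v, hv⟩ := hcyc
  -- counting
  haveI : Fintype A := Fintype.ofFinite _
  haveI : Fintype U := Fintype.ofFinite _
  have hθinj : Function.Injective (fun a : A => (a : Module.End F K) v) := by
    intro a b hab
    apply Subtype.ext
    have h1 : ((a : Module.End F K) - b) v = 0 := by
      rw [LinearMap.sub_apply]
      exact sub_eq_zero.mpr hab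
    exact sub_eq_zero.mp (hv _ (A.sub_mem a.2 b.2) h1)
  have hAle : Fintype.card A ≤ Fintype.card K := Fintype.card_le_of_injective _ hθinj
  let j : U → A := fun u => ⟨((u : (Module.End F K)ˣ) : Module.End F K), Algebra.subset_adjoin ⟨u, u.2, rfl⟩⟩
  have hjinj : Function.Injective j := by
    intro a b hab
    exact Subtype.ext (Units.ext (congrArg Subtype.val hab))
  have hj0 : ∀ u, j u ≠ 0 := by
    intro u h
    have h1 : ((u : (Module.End F K)ˣ) : Module.End F K) = 0 := congrArg Subtype.val h
    exact (Units.ne_zero _) h1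
  have hUcard : Fintype.card U = Fintype.card K - 1 := by
    rw [← Nat.card_eq_fintype_card, hcard]
  have hfill : ∀ a : A, a ≠ 0 → ∃ u, j u = a := by
    have h1 : Finset.univ.image j ⊆ Finset.univ.erase (0 : A) := by
      intro x hx
      obtain ⟨u, _, rfl⟩ := Finset.mem_image.mp hx
      exact Finset.mem_erase.mpr ⟨hj0 u, Finset.mem_univ _⟩
    have h2 : (Finset.univ.image j).card = Fintype.card K - 1 := by
      rw [Finset.card_image_of_injective _ hjinj, Finset.card_univ, hUcard]
    have h3 : (Finset.univ.erase (0 : A)).card = Fintype.card A - 1 := by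
      rw [Finset.card_erase_of_mem (Finset.mem_univ _), Finset.card_univ]
    have h4 : Finset.univ.image j = Finset.univ.erase (0 : A) :=
      Finset.eq_of_subset_of_card_le h1 (by omega)
    intro a ha
    have h5 : a ∈ Finset.univ.image j := by
      rw [h4]; exact Finset.mem_erase.mpr ⟨ha, Finset.mem_univ _⟩
    obtain ⟨u, _, hu⟩ := Finset.mem_image.mp h5
    exact ⟨u, hu⟩
  have hAcard : Fintype.card A = Fintype.card K := by
    apply le_antisymm hAle
    have h1 : Fintype.card U + 1 ≤ Fintype.card A := by
      have h2 : (Finset.univ.image j).card < Fintype.card A := by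
        rw [← Finset.card_univ (α := A)]
        apply Finset.card_lt_card
        refine ⟨Finset.subset_univ _, fun h => ?_⟩
        obtain ⟨u, _, hu⟩ := Finset.mem_image.mp (h (Finset.mem_univ (0 : A)))
        exact hj0 u hu
      rw [Finset.card_image_of_injective _ hjinj, Finset.card_univ] at h2
      omega
    omega
  have hAfield : IsField A := by
    refine ⟨⟨0, 1, ?_⟩, ?_, ?_⟩
    · intro h
      have h1 : (0 : Module.End F K) = 1 := congrArg Subtype.val h
      exact zero_ne_one h1
    · intro a b
      exact Subtype.ext (hAcomm a a.2 b b.2)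
    · intro a ha
      obtain ⟨u, rfl⟩ := hfill a ha
      refine ⟨j u⁻¹, Subtype.ext ?_⟩
      show ((u : (Module.End F K)ˣ) : Module.End F K) * (((u⁻¹ : U) : (Module.End F K)ˣ) : Module.End F K) = 1
      rw [← Units.val_mul]
      simp
  obtain ⟨ψ, hψ⟩ := exists_algHom_bijective (F := F) (K := K) (A := A) hAfield hAcard
  -- the conjugating element
  let G₀ : K →ₗ[F] K :=
    { toFun := fun x => ((ψ x : A) : Module.End F K) v
      map_add' := fun x y => by
        rw [map_add]; rfl
      map_smul' := fun r x => by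
        rw [map_smul]; rfl }
  have hG₀ : ∀ x, G₀ x = ((ψ x : A) : Module.End F K) v := fun x => rfl
  have hG₀inj : Function.Injective G₀ := fun x y h => hψ.1 (hθinj h)
  have hG₀bij : Function.Bijective G₀ := ⟨hG₀inj, Finite.injective_iff_surjective.mp hG₀inj⟩
  let g : (Module.End F K)ˣ := LinearMap.GeneralLinearGroup.ofLinearEquiv (LinearEquiv.ofBijective G₀ hG₀bij)
  have hg : ∀ x, (g : Module.End F K) x = ((ψ x : A) : Module.End F K) v := fun x => rfl
  -- intertwining
  have hint : ∀ c y : K, ((ψ c : A) : Module.End F K) ((g : Module.End F K) y) = (g : Module.End F K) (c * y) := by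
    intro c y
    rw [hg, hg, map_mul]
    rfl
  refine ⟨g⁻¹, le_antisymm ?_ ?_⟩
  · rintro _ ⟨u, hu, rfl⟩
    have hu0 : j ⟨u, hu⟩ ≠ 0 := hj0 _
    obtain ⟨c, hc⟩ := hψ.2 (j ⟨u, hu⟩)
    have hc0 : c ≠ 0 := by
      rintro rfl
      rw [map_zero] at hc
      exact hu0 hc.symm
    refine ⟨Units.mk0 c hc0, ?_⟩
    show singerHom F (Units.mk0 c hc0) = g⁻¹ * u * g⁻¹⁻¹
    rw [inv_inv, mul_assoc, eq_inv_mul_iff_mul_eq]
    refine units_end_ext fun y => ?_
    rw [mul_apply_units, mul_apply_units, singerHom_apply, Units.val_mk0, ← hint, hc]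
  · rintro _ ⟨c, rfl⟩
    have hc0 : ψ (c : K) ≠ 0 := by
      intro h
      have := hψ.1 (h.trans (map_zero ψ).symm)
      exact c.ne_zero this
    obtain ⟨u, hu⟩ := hfill _ hc0
    refine ⟨u, u.2, ?_⟩
    show g⁻¹ * (u : (Module.End F K)ˣ) * g⁻¹⁻¹ = singerHom F c
    rw [inv_inv, mul_assoc, inv_mul_eq_iff_eq_mul]
    refine units_end_ext fun y => ?_
    rw [mul_apply_units, mul_apply_units, singerHom_apply, ← hint, ← hu]

end Cfsg.Agent.S5947
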